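-- Statement S1451 (helper1).
import Mathlib
import Cfsg.Statements.S1451
import Cfsg.Agent.Lib.Helper1.FittingPrimary
import Cfsg.Agent.Lib.Helper1.QuatSylow
import Cfsg.Agent.Lib.Helper1.Hall
import Cfsg.Agent.Lib.Helper1.HallConj
import Cfsg.Agent.Lib.Helper1.HallLe
import Cfsg.Agent.S0044
import Cfsg.Agent.S3745

set_option autoImplicit false
open Cfsg

namespace Cfsg.Agent.S1451

open Cfsg.Agent.Lib.Helper1
open scoped commutatorElement Pointwise

theorem rank_pCore {G : Type*} [Group G] [Finite G]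
    (hr : Cfsg.RankLE 2 G ∨ Cfsg.RankLE 2 (Cfsg.fittingSubgroup G)) (q : ℕ) [Fact q.Prime] :
    Cfsg.PRankLE q 2 ↥(Cfsg.pCore q G) := by
  have hqq : q.Prime := Fact.out
  rw [Cfsg.Agent.Lib.Helper24.pRankLE_subgroup_iff]
  intro A hA hc he
  rcases hr with h | h
  · exact h q hqq A ⟨⟨fun a b => Subtype.ext (hc a a.2 b b.2)⟩⟩ he
  · have h1 := (Cfsg.Agent.Lib.Helper24.pRankLE_subgroup_iff q 2 (Cfsg.fittingSubgroup G)).1
      (h q hqq)
    apply h1 A _ hc he
    refine hA.trans ?_
    exact Cfsg.Agent.Lib.Helper71.le_fittingSubgroup _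
      (Cfsg.Agent.Lib.Helper55.pCore_isPGroup q G).isNilpotent

theorem commute_derived {G : Type*} [Group G] [Finite G] [Group.IsSolvable G]
    (hA : ∀ q : ℕ, q.Prime → ∀ x ∈ commutator G, (orderOf x).Coprime q →
      x ∈ Subgroup.centralizer (Cfsg.pCore q G : Set G))
    (r s : ℕ) (hr : r.Prime) (hs : s.Prime) (hrs : r ≠ s) (x y : G) (hx : x ∈ commutator G)
    (hy : y ∈ commutator G) (a b : ℕ) (hxa : x ^ r ^ a = 1) (hyb : y ^ s ^ b = 1) :
    x * y = y * x := by
  have : Fact r.Prime := ⟨hr⟩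
  have : Fact s.Prime := ⟨hs⟩
  have hxc : ∀ q : ℕ, q.Prime → q ≠ r → x ∈ Subgroup.centralizer (Cfsg.pCore q G : Set G) := by
    intro q hq hqr
    apply hA q hq x hx
    exact Nat.Coprime.coprime_dvd_left (orderOf_dvd_of_pow_eq_one hxa)
      (Nat.Coprime.pow_left a ((Nat.coprime_primes hr hq).2 (Ne.symm hqr)))
  have hyc : ∀ q : ℕ, q.Prime → q ≠ s → y ∈ Subgroup.centralizer (Cfsg.pCore q G : Set G) := by
    intro q hq hqs
    apply hA q hq y hy
    exact Nat.Coprime.coprime_dvd_left (orderOf_dvd_of_pow_eq_one hyb)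
      (Nat.Coprime.pow_left b ((Nat.coprime_primes hs hq).2 (Ne.symm hqs)))
  have hcc : ∀ q : ℕ, q.Prime → ⁅x, y⁆ ∈ Subgroup.centralizer (Cfsg.pCore q G : Set G) := by
    intro q hq
    have hn : (Subgroup.centralizer (Cfsg.pCore q G : Set G)).Normal := inferInstance
    by_cases hqs : q = s
    · have hqr : q ≠ r := fun h => hrs (h.symm.trans hqs)
      have h1 := hxc q hq hqr
      have h2 : ⁅x, y⁆ = x * (y * x⁻¹ * y⁻¹) := by rw [commutatorElement_def]; group
      rw [h2]
      exact Subgroup.mul_mem _ h1 (hn.conj_mem _ (Subgroup.inv_mem _ h1) y)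
    · have h1 := hyc q hq hqs
      have h2 : ⁅x, y⁆ = (x * y * x⁻¹) * y⁻¹ := by rw [commutatorElement_def]
      rw [h2]
      exact Subgroup.mul_mem _ (hn.conj_mem _ h1 x) (Subgroup.inv_mem _ h1)
  have hcF : ⁅x, y⁆ ∈ Cfsg.fittingSubgroup G := by
    apply Cfsg.Agent.S0044.result
    rw [Subgroup.mem_centralizer_iff]
    intro f hf
    have h1 : Cfsg.fittingSubgroup G ≤ Subgroup.centralizer {⁅x, y⁆} := by
      apply fitting_le_of_pCore_le
      intro q hq z hz
      rw [Subgroup.mem_centralizer_iff]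
      intro w hw
      rw [Set.mem_singleton_iff] at hw
      rw [hw]
      have h3 := hcc q hq
      rw [Subgroup.mem_centralizer_iff] at h3
      exact (h3 z hz).symm
    have h4 := h1 hf
    rw [Subgroup.mem_centralizer_iff] at h4
    exact (h4 _ (Set.mem_singleton _)).symm
  have h1 : ⁅x, y⁆ ∈ Cfsg.pCore s G := commutator_mem_pCore_of_fitting x y b hyb hyc hcF
  have h2 : ⁅y, x⁆ ∈ Cfsg.pCore r G := by
    apply commutator_mem_pCore_of_fitting y x a hxa hxc
    rw [← commutatorElement_inv]; exact Subgroup.inv_mem _ hcF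
  have h3 : ⁅x, y⁆ ∈ Cfsg.pCore r G := by
    rw [← commutatorElement_inv]; exact Subgroup.inv_mem _ h2
  obtain ⟨i, hi⟩ := (Cfsg.Agent.Lib.Helper55.pCore_isPGroup s G) ⟨_, h1⟩
  obtain ⟨j, hj⟩ := (Cfsg.Agent.Lib.Helper55.pCore_isPGroup r G) ⟨_, h3⟩
  have hi' := congrArg Subtype.val hi
  have hj' := congrArg Subtype.val hj
  rw [Subgroup.coe_pow, Subgroup.coe_one] at hi' hj'
  have h4 : orderOf ⁅x, y⁆ = 1 := by
    have hd1 := orderOf_dvd_of_pow_eq_one hi'
    have hd2 := orderOf_dvd_of_pow_eq_one hj'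
    have hcop : (s ^ i).Coprime (r ^ j) :=
      Nat.Coprime.pow _ _ ((Nat.coprime_primes hs hr).2 (Ne.symm hrs))
    exact Nat.eq_one_of_dvd_coprimes hcop hd1 hd2
  have h5 : ⁅x, y⁆ = 1 := orderOf_eq_one_iff.1 h4
  exact commutatorElement_eq_one_iff_mul_comm.1 h5

theorem part_b {G : Type*} [Group G] [Finite G]
    (hcomm : ∀ r s : ℕ, r.Prime → s.Prime → r ≠ s → ∀ x y : G, x ∈ commutator G →
      y ∈ commutator G → ∀ a b : ℕ, x ^ r ^ a = 1 → y ^ s ^ b = 1 → x * y = y * x)
    (hNF : commutator G ≤ Cfsg.fittingSubgroup G)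
    (q : ℕ) [Fact q.Prime] (S : Sylow q G) (T : Subgroup ↥(S : Subgroup G))
    (hT : T.Characteristic)
    (hle : T.map (S : Subgroup G).subtype ≤ ⁅(S : Subgroup G), (S : Subgroup G)⁆) :
    (T.map (S : Subgroup G).subtype).Normal := by
  have hqq : q.Prime := Fact.out
  rw [← Subgroup.normalizer_eq_top_iff]
  have hTN : T.map (S : Subgroup G).subtype ≤ commutator G :=
    hle.trans (Subgroup.commutator_mono le_top le_top)
  have hTS : T.map (S : Subgroup G).subtype ≤ S := by
    rintro _ ⟨t, -, rfl⟩; exact t.2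
  have h1 : Subgroup.normalizer ((S : Subgroup G) : Set G) ≤
      Subgroup.normalizer ((T.map (S : Subgroup G).subtype : Subgroup G) : Set G) := by
    intro g hg
    apply mem_normalizer_of_conj_mem
    rintro _ ⟨t, ht, rfl⟩
    let ϕ : ↥(S : Subgroup G) ≃* ↥(S : Subgroup G) :=
      { toFun := fun u => ⟨g * u * g⁻¹, (Subgroup.mem_normalizer_iff.1 hg u).1 u.2⟩
        invFun := fun u => ⟨g⁻¹ * u * g, (Subgroup.mem_normalizer_iff.1 hg (g⁻¹ * u * g)).2 (by
          have : g * (g⁻¹ * (u : G) * g) * g⁻¹ = u := by group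
          rw [this]; exact u.2)⟩
        left_inv := fun u => Subtype.ext (by simp [mul_assoc])
        right_inv := fun u => Subtype.ext (by simp [mul_assoc])
        map_mul' := fun u v => Subtype.ext (by simp [mul_assoc]) }
    have h2 : T.comap ϕ.toMonoidHom = T := hT.fixed ϕ
    have h3 : ϕ t ∈ T := by
      have : t ∈ T.comap ϕ.toMonoidHom := by rw [h2]; exact ht
      exact this
    exact ⟨ϕ t, h3, rfl⟩
  have h2 : (S : Subgroup G) ≤
      Subgroup.normalizer ((T.map (S : Subgroup G).subtype : Subgroup G) : Set G) :=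
    Subgroup.le_normalizer.trans h1
  have h3 : commutator G ≤
      Subgroup.normalizer ((T.map (S : Subgroup G).subtype : Subgroup G) : Set G) := by
    intro x hx
    apply mem_of_primePow_pow_mem _ x
    intro k hk
    obtain ⟨r, j, hr, hj, hrj⟩ := hk
    have hr' : r.Prime := Nat.prime_iff.2 hr
    have hz : (x ^ k) ^ r ^ j = 1 := by rw [hrj]; exact pow_orderOf_eq_one _
    have hzN : x ^ k ∈ commutator G := Subgroup.pow_mem _ hx k
    by_cases hrq : r = q
    · apply h2
      apply Cfsg.Agent.Lib.Helper55.pCore_le_sylow S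
      rw [hrq] at hz
      exact mem_pCore_of_mem_fitting _ (hNF hzN) j hz
    · apply Subgroup.centralizer_le_normalizer
      rw [Subgroup.mem_centralizer_iff]
      intro y hy
      obtain ⟨b, hb⟩ := S.2 ⟨y, hTS hy⟩
      have hb' := congrArg Subtype.val hb
      rw [Subgroup.coe_pow, Subgroup.coe_one] at hb'
      exact (hcomm r q hr' hqq hrq (x ^ k) y hzN (hTN hy) j b hz hb').symm
  have hM : ((S : Subgroup G) ⊔ commutator G : Subgroup G).Normal :=
    normal_of_commutator_le _ le_sup_right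
  have hfr := Sylow.normalizer_sup_eq_top' S
    (le_sup_left : (S : Subgroup G) ≤ (S : Subgroup G) ⊔ commutator G)
  rw [eq_top_iff, ← hfr]
  exact sup_le h1 (sup_le h2 h3)

theorem part_c {G : Type*} [Group G] [Finite G] [Group.IsSolvable G]
    (hB : ∀ q : ℕ, q.Prime → ∀ x : G, (∀ r : ℕ, r.Prime → r ∣ orderOf x → q < r) →
      x ∈ Subgroup.centralizer (Cfsg.pCore q G : Set G))
    (hNF : commutator G ≤ Cfsg.fittingSubgroup G) (p : ℕ) :
    ∃ N : Subgroup G, N.Characteristic ∧ Cfsg.IsPiHall {q | q.Prime ∧ p < q} N := by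
  obtain ⟨m, n, hmn, hm, hn⟩ := Cfsg.Agent.S3745.exists_pi_split {q | q.Prime ∧ p < q}
    (Nat.card G) Nat.card_pos.ne'
  have hcop : m.Coprime n := Cfsg.Agent.S3745.pi_coprime hm hn
  obtain ⟨H, hH⟩ := hall_exists m n hmn hcop
  have hm0 : m ≠ 0 := by
    rintro rfl
    rw [zero_mul] at hmn
    exact Nat.card_pos.ne' hmn
  have hidx : H.index = n := by
    have h1 := Subgroup.card_mul_index H
    rw [hH, hmn] at h1
    exact Nat.eq_of_mul_eq_mul_left (Nat.pos_of_ne_zero hm0) h1
  have hordm : ∀ y ∈ H, orderOf y ∣ m := by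
    intro y hy
    rw [← hH, ← Subgroup.orderOf_mk y hy]
    exact orderOf_dvd_natCard _
  have hi : ∀ q : ℕ, q.Prime → q ≤ p → ∀ y ∈ H,
      y ∈ Subgroup.centralizer (Cfsg.pCore q G : Set G) := by
    intro q hq hqp y hy
    apply hB q hq
    intro r hr hrd
    have h2 := hm r hr (hrd.trans (hordm y hy))
    exact lt_of_le_of_lt hqp h2.2
  have hii : ∀ q : ℕ, q.Prime → p < q → Cfsg.pCore q G ≤ H := by
    intro q hq hpq
    have : Fact q.Prime := ⟨hq⟩
    have hKc : (Nat.card (Cfsg.pCore q G)).Coprime n := by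
      obtain ⟨j, hj⟩ := (Cfsg.Agent.Lib.Helper55.pCore_isPGroup q G).exists_card_eq
      rw [hj]
      apply Nat.Coprime.pow_left
      rw [Nat.Prime.coprime_iff_not_dvd hq]
      exact hn q hq ⟨hq, hpq⟩
    obtain ⟨H', hH', hKH'⟩ := hall_le m n hmn hcop (Cfsg.pCore q G) hKc
    obtain ⟨g, hg⟩ := hall_conj m n hmn hcop H' H hH' hH
    intro z hz
    rw [← hg]
    have h1 : g⁻¹ * z * g ∈ H' := hKH' (by
      have := (inferInstance : (Cfsg.pCore q G).Normal).conj_mem z hz g⁻¹
      rwa [inv_inv] at this)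
    have h2 : z = MulAut.conj g • (g⁻¹ * z * g) := by
      rw [MulAut.smul_def, MulAut.conj_apply]; group
    rw [h2]
    exact Subgroup.smul_mem_pointwise_smul _ _ _ h1
  have hiii : Cfsg.fittingSubgroup G ≤ Subgroup.normalizer (H : Set G) := by
    apply fitting_le_of_pCore_le
    intro q hq
    by_cases hqp : q ≤ p
    · intro z hz
      apply Subgroup.centralizer_le_normalizer
      rw [Subgroup.mem_centralizer_iff]
      intro y hy
      have h1 := hi q hq hqp y hy
      rw [Subgroup.mem_centralizer_iff] at h1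
      exact (h1 z hz).symm
    · exact (hii q hq (not_le.1 hqp)).trans Subgroup.le_normalizer
  have hM : (H ⊔ Cfsg.fittingSubgroup G).Normal :=
    normal_of_commutator_le _ (hNF.trans le_sup_right)
  have hMn : H ⊔ Cfsg.fittingSubgroup G ≤ Subgroup.normalizer (H : Set G) :=
    sup_le Subgroup.le_normalizer hiii
  have hHn' : (H.subgroupOf (H ⊔ Cfsg.fittingSubgroup G)).Normal :=
    (Subgroup.normal_subgroupOf_iff_le_normalizer le_sup_left).2 hMn
  have hrel : (H.subgroupOf (H ⊔ Cfsg.fittingSubgroup G)).index ∣ n := by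
    rw [← hidx]
    exact Dvd.intro _ (Subgroup.relIndex_mul_index
      (le_sup_left : H ≤ H ⊔ Cfsg.fittingSubgroup G))
  have hord : ∀ y ∈ H, (orderOf y).Coprime n := by
    intro y hy
    exact Nat.Coprime.coprime_dvd_left (hordm y hy) hcop
  have hHnormal : H.Normal := by
    refine ⟨fun y hy g => ?_⟩
    have hmem : g * y * g⁻¹ ∈ H ⊔ Cfsg.fittingSubgroup G := hM.conj_mem y ((le_sup_left : H ≤ H ⊔ Cfsg.fittingSubgroup G) hy) g
    have h1 : (⟨g * y * g⁻¹, hmem⟩ : ↥(H ⊔ Cfsg.fittingSubgroup G)) ∈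
        H.subgroupOf (H ⊔ Cfsg.fittingSubgroup G) := by
      apply mem_of_coprime_index
      apply Nat.Coprime.coprime_dvd_right hrel
      rw [Subgroup.orderOf_mk]
      have h2 : orderOf (g * y * g⁻¹) = orderOf y := by
        have := MulEquiv.orderOf_eq (MulAut.conj g) y
        rwa [MulAut.conj_apply] at this
      rw [h2]
      exact hord y hy
    exact h1
  refine ⟨H, ?_, ?_, ?_⟩
  · rw [Subgroup.characteristic_iff_map_le]
    intro ϕ
    rintro _ ⟨y, hy, rfl⟩
    apply mem_of_coprime_index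
    rw [hidx]
    have h2 : orderOf (ϕ.toMonoidHom y) = orderOf y := MulEquiv.orderOf_eq ϕ y
    rw [h2]
    exact hord y hy
  · intro r hr hrd
    rw [hH] at hrd
    exact hm r hr hrd
  · intro r hr hrπ
    rw [hidx]
    exact hn r hr hrπ

/-- Let G be a solvable group of odd order such that G, or its Fitting subgroup, has no elementary abelian subgroup of order q ^ 3 for any prime q. Then G' is nilpotent; for every Sylow subgroup S of G, every characteristic subgroup T of S with T ≤ [S, S] is normal in G; and for every prime p, G has a characteristic subgroup that is a Hall subgroup for the set of primes greater than p. -/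
theorem result {G : Type*} [Group G] [Finite G] [Group.IsSolvable G] (hodd : Odd (Nat.card G)) (hr : Cfsg.RankLE 2 G ∨ Cfsg.RankLE 2 (Cfsg.fittingSubgroup G)) :
    Group.IsNilpotent ↥(commutator G) ∧
      (∀ (q : ℕ) [Fact q.Prime] (S : Sylow q G) (T : Subgroup ↥(S : Subgroup G)), T.Characteristic → T.map (S : Subgroup G).subtype ≤ ⁅(S : Subgroup G), (S : Subgroup G)⁆ →
        (T.map (S : Subgroup G).subtype).Normal) ∧
      ∀ p : ℕ, ∃ N : Subgroup G, N.Characteristic ∧ Cfsg.IsPiHall {q | q.Prime ∧ p < q} N := by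
  have hfacts : ∀ q : ℕ, q.Prime →
      (∀ x ∈ commutator G, (orderOf x).Coprime q →
        x ∈ Subgroup.centralizer (Cfsg.pCore q G : Set G)) ∧
      (∀ x : G, (∀ r : ℕ, r.Prime → r ∣ orderOf x → q < r) →
        x ∈ Subgroup.centralizer (Cfsg.pCore q G : Set G)) := by
    intro q hq
    have : Fact q.Prime := ⟨hq⟩
    exact act_pCore_rank_two hodd q (rank_pCore hr q)
  have hcomm := commute_derived (fun q hq => (hfacts q hq).1)
  have hnil : Group.IsNilpotent ↥(commutator G) := by
    apply isNilpotent_of_commute_coprime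
    intro r s hr hs hrs x y a b hxa hyb
    apply Subtype.ext
    rw [Subgroup.coe_mul, Subgroup.coe_mul]
    have hxa' := congrArg Subtype.val hxa
    have hyb' := congrArg Subtype.val hyb
    rw [Subgroup.coe_pow, Subgroup.coe_one] at hxa' hyb'
    exact hcomm r s hr hs hrs x y x.2 y.2 a b hxa' hyb'
  have hNF : commutator G ≤ Cfsg.fittingSubgroup G :=
    Cfsg.Agent.Lib.Helper71.le_fittingSubgroup (commutator G) hnil
  refine ⟨hnil, ?_, ?_⟩
  · intro q _ S T hT hle
    exact part_b hcomm hNF q S T hT hle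
  · intro p
    exact part_c (fun q hq => (hfacts q hq).2) hNF p

end Cfsg.Agent.S1451
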