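-- Statement S1456 (helper54): G' ≤ F(G) when F(G) ∩ C_G(E) has rank at most two.
import Mathlib
import Cfsg.Statements.S1456
import Cfsg.Agent.S1451
import Cfsg.Agent.Lib.Helper54.NarrowMax
import Cfsg.Agent.Lib.Helper1.FittingPrimary
import Cfsg.Agent.Lib.Helper1.RankTwoSolv
import Cfsg.Agent.Lib.Helper24.PRank
import Cfsg.Agent.Lib.Helper55.Cores
import Cfsg.Agent.Lib.Helper71.Fitting

set_option autoImplicit false
open Cfsg

namespace Cfsg.Agent.S1456

open Cfsg.Agent.Lib.Helper54 Cfsg.Agent.Lib.Helper1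
open scoped commutatorElement

universe u

/-- The `q'`-elements of `G'` centralize `O_q(G)`. -/
theorem act_pCore {G : Type u} [Group G] [Finite G] [Group.IsSolvable G]
    (hodd : Odd (Nat.card G)) (p : ℕ) [Fact p.Prime] (E : Subgroup G)
    (hE : E ≤ Cfsg.fittingSubgroup G) (hEe : Cfsg.IsElementaryAbelian p E)
    (hr : Cfsg.RankLE 2 ↥(Cfsg.fittingSubgroup G ⊓ Subgroup.centralizer (E : Set G)))
    (q : ℕ) (hq : q.Prime) :
    ∀ x ∈ commutator G, (orderOf x).Coprime q →
      x ∈ Subgroup.centralizer (Cfsg.pCore q G : Set G) := by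
  have hpp : p.Prime := Fact.out
  have : Fact q.Prime := ⟨hq⟩
  obtain ⟨hEc, hEp⟩ := hEe
  have hcE : ∀ x ∈ E, ∀ y ∈ E, x * y = y * x := fun x hx y hy =>
    congrArg Subtype.val (hEc.is_comm.comm ⟨x, hx⟩ ⟨y, hy⟩)
  have hEP : E ≤ Cfsg.pCore p G := by
    intro x hx
    exact mem_pCore_of_mem_fitting x (hE hx) 1 (by rw [pow_one]; exact hEp x hx)
  have hPF : ∀ s : ℕ, [Fact s.Prime] → Cfsg.pCore s G ≤ Cfsg.fittingSubgroup G := by
    intro s _
    exact Cfsg.Agent.Lib.Helper71.le_fittingSubgroup _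
      (Cfsg.Agent.Lib.Helper55.pCore_isPGroup s G).isNilpotent
  by_cases hrank : Cfsg.PRankLE q 2 ↥(Cfsg.pCore q G)
  · exact (act_pCore_rank_two hodd q hrank).1
  -- then `q = p`
  have hqp : q = p := by
    by_contra hne
    apply hrank
    rw [Cfsg.Agent.Lib.Helper24.pRankLE_subgroup_iff]
    intro A hA hc he
    have h1 := (Cfsg.Agent.Lib.Helper24.pRankLE_subgroup_iff q 2
      (Cfsg.fittingSubgroup G ⊓ Subgroup.centralizer (E : Set G))).1 (hr q hq)
    apply h1 A _ hc he
    refine hA.trans (le_inf (hPF q) ?_)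
    intro y hy
    rw [Subgroup.mem_centralizer_iff]
    intro e he'
    have hdis := IsPGroup.disjoint_of_ne p q (Ne.symm hne) (Cfsg.pCore p G) (Cfsg.pCore q G)
      (Cfsg.Agent.Lib.Helper55.pCore_isPGroup p G) (Cfsg.Agent.Lib.Helper55.pCore_isPGroup q G)
    exact (Subgroup.commute_of_normal_of_disjoint _ _ inferInstance inferInstance hdis e y
      (hEP he') hy).eq
  subst hqp
  -- `q` is odd
  have hq2 : q ≠ 2 := by
    intro h2
    apply hrank
    rw [Cfsg.Agent.Lib.Helper24.pRankLE_subgroup_iff]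
    intro A _ _ he
    have hA1 : ∀ a ∈ A, a = 1 := by
      intro a ha
      have h1 : orderOf a ∣ 2 := by
        apply orderOf_dvd_of_pow_eq_one
        rw [← h2]
        exact he a ha
      have h3 : Odd (orderOf a) := Odd.of_dvd_nat hodd (orderOf_dvd_natCard a)
      rcases (Nat.dvd_prime Nat.prime_two).mp h1 with h | h
      · exact orderOf_eq_one_iff.mp h
      · rw [h] at h3
        exact absurd h3 (by decide)
    have hAbot : A = ⊥ := by
      rw [eq_bot_iff]
      intro a ha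
      rw [Subgroup.mem_bot]
      exact hA1 a ha
    rw [hAbot, Subgroup.card_bot]
    exact Nat.one_le_pow _ _ hq.pos
  -- the action theorem
  have hE₀ : Cfsg.IsElementaryAbelian q (E.subgroupOf (Cfsg.pCore q G)) := by
    refine ⟨⟨⟨fun a b => ?_⟩⟩, ?_⟩
    · apply Subtype.ext
      apply Subtype.ext
      exact hcE _ (Subgroup.mem_subgroupOf.mp a.2) _ (Subgroup.mem_subgroupOf.mp b.2)
    · intro a ha
      apply Subtype.ext
      rw [Subgroup.coe_pow]
      exact hEp _ (Subgroup.mem_subgroupOf.mp ha)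
  have hb : ∀ B : Subgroup ↥(Cfsg.pCore q G), Cfsg.IsElementaryAbelian q B →
      E.subgroupOf (Cfsg.pCore q G) ≤ B → Nat.card B ≤ q ^ 2 := by
    intro B hB hEB
    obtain ⟨hBc, hBe⟩ := hB
    have hcB : ∀ x ∈ B, ∀ y ∈ B, x * y = y * x := fun x hx y hy =>
      congrArg Subtype.val (hBc.is_comm.comm ⟨x, hx⟩ ⟨y, hy⟩)
    have h1 := (Cfsg.Agent.Lib.Helper24.pRankLE_subgroup_iff q 2
      (Cfsg.fittingSubgroup G ⊓ Subgroup.centralizer (E : Set G))).1 (hr q hq)
    have h2 := h1 (B.map (Cfsg.pCore q G).subtype) ?_ ?_ ?_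
    · rwa [Subgroup.card_map_of_injective (Subgroup.subtype_injective _)] at h2
    · rintro _ ⟨b, hb, rfl⟩
      refine Subgroup.mem_inf.mpr ⟨hPF q b.2, ?_⟩
      rw [Subgroup.mem_centralizer_iff]
      intro e he'
      have he'' : (⟨e, hEP he'⟩ : ↥(Cfsg.pCore q G)) ∈ B := hEB (Subgroup.mem_subgroupOf.mpr he')
      exact congrArg Subtype.val (hcB _ he'' b hb)
    · rintro _ ⟨b, hb, rfl⟩ _ ⟨c, hc, rfl⟩
      exact congrArg Subtype.val (hcB b hb c hc)
    · rintro _ ⟨b, hb, rfl⟩
      have := congrArg Subtype.val (hBe b hb)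
      simpa using this
  obtain ⟨N, hNn, hNc, -, hNfix⟩ := narrow_action_of_bound q hq2
    (Cfsg.Agent.Lib.Helper55.pCore_isPGroup q G) hrank _ hE₀ hb
    (MulAut.conjNormal : G →* MulAut ↥(Cfsg.pCore q G))
  intro x hx hcop
  have hxN : x ∈ N := by
    have hle : commutator G ≤ N := by
      rw [commutator_def, Subgroup.commutator_le]
      intro a _ b _
      exact hNc a b
    exact hle hx
  obtain ⟨k, hk⟩ := hNfix x hxN
  have h1 : x ^ q ^ k ∈ Subgroup.centralizer (Cfsg.pCore q G : Set G) := by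
    rw [Subgroup.mem_centralizer_iff]
    intro r hr'
    have h2 : ((MulAut.conjNormal (x ^ q ^ k) (⟨r, hr'⟩ : ↥(Cfsg.pCore q G)) :
        ↥(Cfsg.pCore q G)) : G) = x ^ q ^ k * r * (x ^ q ^ k)⁻¹ := MulAut.conjNormal_apply _ _
    rw [hk] at h2
    have h3 : r = x ^ q ^ k * r * (x ^ q ^ k)⁻¹ := h2
    calc r * x ^ q ^ k = x ^ q ^ k * r * (x ^ q ^ k)⁻¹ * x ^ q ^ k := by rw [← h3]
      _ = x ^ q ^ k * r := by group
  have h2 := mem_zpowers_pow_of_coprime x (q ^ k) (Nat.Coprime.pow_right k hcop)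
  exact (Subgroup.zpowers_le.2 h1) h2

/-- Let G be a solvable group of odd order, p a prime, and E an elementary abelian p-subgroup of the Fitting subgroup F(G) such that F(G) ∩ C_G(E) has no elementary abelian subgroup of order q ^ 3 for any prime q. Then the derived subgroup of G is contained in F(G). -/
theorem result {G : Type*} [Group G] [Finite G] [Group.IsSolvable G] (hodd : Odd (Nat.card G)) (p : ℕ) [Fact p.Prime] (E : Subgroup G) (hE : E ≤ Cfsg.fittingSubgroup G) (hEe : Cfsg.IsElementaryAbelian p E)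
    (hr : Cfsg.RankLE 2 ↥(Cfsg.fittingSubgroup G ⊓ Subgroup.centralizer (E : Set G))) :
    commutator G ≤ Cfsg.fittingSubgroup G := by
  have hcomm := Cfsg.Agent.S1451.commute_derived (act_pCore hodd p E hE hEe hr)
  have hnil : Group.IsNilpotent ↥(commutator G) := by
    apply isNilpotent_of_commute_coprime
    intro r s hr' hs hrs x y a b hxa hyb
    apply Subtype.ext
    rw [Subgroup.coe_mul, Subgroup.coe_mul]
    have hxa' := congrArg Subtype.val hxa
    have hyb' := congrArg Subtype.val hyb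
    rw [Subgroup.coe_pow, Subgroup.coe_one] at hxa' hyb'
    exact hcomm r s hr' hs hrs x y x.2 y.2 a b hxa' hyb'
  exact Cfsg.Agent.Lib.Helper71.le_fittingSubgroup (commutator G) hnil

end Cfsg.Agent.S1456
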