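import Cfsg.Statements.S2594
import Cfsg.Agent.Lib.Helper40.SympOrder

set_option autoImplicit false
open Cfsg

namespace Cfsg.Agent.S2594

open Matrix Cfsg.Agent.Lib.Helper13 Cfsg.Agent.Lib.Helper40

/-- The stabiliser of a non-zero vector in the symplectic group. -/
theorem card_stab {F : Type*} [Field F] [Fintype F] (m : ℕ) (u : Fin m ⊕ Fin m → F) (hu : u ≠ 0) :
    Nat.card (Matrix.symplecticGroup (Fin m) F) =
      (Fintype.card F ^ (m + m) - 1) *
        Nat.card {g : Matrix.symplecticGroup (Fin m) F //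
          (g : Matrix (Fin m ⊕ Fin m) (Fin m ⊕ Fin m) F) *ᵥ u = u} := by
  classical
  have hσ : ∀ w : {w : Fin m ⊕ Fin m → F // w ≠ 0}, ∃ A : Matrix.symplecticGroup (Fin m) F,
      (A : Matrix (Fin m ⊕ Fin m) (Fin m ⊕ Fin m) F) *ᵥ u = w.1 :=
    fun w => exists_symplectic_vec m u w.1 hu w.2
  choose σ hσ1 using hσ
  have hne : ∀ g : Matrix.symplecticGroup (Fin m) F,
      (g : Matrix (Fin m ⊕ Fin m) (Fin m ⊕ Fin m) F) *ᵥ u ≠ 0 := by
    intro g h0
    have h1 := symp_inv_mulVec g u 0 h0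
    rw [Matrix.mulVec_zero] at h1
    exact hu h1.symm
  let P : Matrix.symplecticGroup (Fin m) F → {w : Fin m ⊕ Fin m → F // w ≠ 0} := fun g =>
    ⟨(g : Matrix (Fin m ⊕ Fin m) (Fin m ⊕ Fin m) F) *ᵥ u, hne g⟩
  have e : Matrix.symplecticGroup (Fin m) F ≃
      {w : Fin m ⊕ Fin m → F // w ≠ 0} ×
      {g : Matrix.symplecticGroup (Fin m) F //
        (g : Matrix (Fin m ⊕ Fin m) (Fin m ⊕ Fin m) F) *ᵥ u = u} :=
    { toFun := fun g => (P g, ⟨(σ (P g))⁻¹ * g, by
        rw [Submonoid.coe_mul, ← Matrix.mulVec_mulVec]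
        exact symp_inv_mulVec _ _ _ (hσ1 (P g))⟩)
      invFun := fun x => σ x.1 * x.2.1
      left_inv := fun g => by
        simp
      right_inv := fun x => by
        have hP : P (σ x.1 * x.2.1) = x.1 := by
          apply Subtype.ext
          simp only [P]
          rw [Submonoid.coe_mul, ← Matrix.mulVec_mulVec, x.2.2, hσ1]
        apply Prod.ext
        · exact hP
        · apply Subtype.ext
          simp only
          rw [hP, inv_mul_cancel_left] }
  rw [Nat.card_congr e, Nat.card_prod]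
  congr 1
  rw [Nat.card_eq_fintype_card, Fintype.card_subtype_compl, Fintype.card_subtype_eq,
    Fintype.card_fun, Fintype.card_sum, Fintype.card_fin]

/-- Over a finite field with q elements, q even, an element t of Sp_2m(F) with rank(t − 1) = 1 (a symplectic transvection) has centraliser in Sp_2m(F) of order q^(2m−1) · |Sp_(2m−2)(q)| = q^(2m−1) · q^((m−1)²) · Π_(i=1)^(m−1) (q^(2i) − 1). -/
theorem result {F : Type*} [Field F] [Fintype F] [CharP F 2] {q : ℕ} (hF : Fintype.card F = q) {m : ℕ} (hm : 1 ≤ m) (t : Matrix.symplecticGroup (Fin m) F) (ht : ((t : Matrix (Fin m ⊕ Fin m) (Fin m ⊕ Fin m) F) - 1).rank = 1) : Nat.card ↥(Subgroup.centralizer ({t} : Set ↥(Matrix.symplecticGroup (Fin m) F))) = q ^ (2 * m - 1) * (q ^ ((m - 1) ^ 2) * ∏ i : Fin (m - 1), (q ^ (2 * ((i : ℕ) + 1)) - 1)) := by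
  classical
  subst hF
  -- shape of t
  have hfr : Module.finrank F (LinearMap.range
      ((t : Matrix (Fin m ⊕ Fin m) (Fin m ⊕ Fin m) F) - 1).mulVecLin) = 1 := ht
  obtain ⟨⟨u, hur⟩, hu0, hspan⟩ := finrank_eq_one_iff'.mp hfr
  have hu : u ≠ 0 := fun h => hu0 (Subtype.ext h)
  obtain ⟨y₀, hy₀⟩ := hur
  have hφ : ∀ x : Fin m ⊕ Fin m → F, ∃ c : F,
      ((t : Matrix (Fin m ⊕ Fin m) (Fin m ⊕ Fin m) F) - 1) *ᵥ x = c • u := by
    intro x
    obtain ⟨c, hc⟩ := hspan ⟨_, ⟨x, rfl⟩⟩
    refine ⟨c, ?_⟩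
    have := congrArg Subtype.val hc
    exact this.symm
  choose φ hφ using hφ
  have htx : ∀ x : Fin m ⊕ Fin m → F,
      (t : Matrix (Fin m ⊕ Fin m) (Fin m ⊕ Fin m) F) *ᵥ x = x + φ x • u := by
    intro x
    have h := hφ x
    rw [Matrix.sub_mulVec, Matrix.one_mulVec] at h
    rw [← h]
    abel
  have hφy₀ : φ y₀ = 1 := by
    have h1 : ((t : Matrix (Fin m ⊕ Fin m) (Fin m ⊕ Fin m) F) - 1) *ᵥ y₀ = u := hy₀
    have h2 := hφ y₀
    rw [h1] at h2
    have h3 : (1 - φ y₀) • u = 0 := by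
      rw [sub_smul, one_smul, ← h2, sub_self]
    rcases smul_eq_zero.mp h3 with h4 | h4
    · exact (sub_eq_zero.mp h4).symm
    · exact absurd h4 hu
  have hB : ∀ x y : Fin m ⊕ Fin m → F,
      φ y * sympForm m F x u = φ x * sympForm m F y u := by
    intro x y
    have h := sympForm_mulVec_of_mem m t.2 x y
    rw [htx x, htx y] at h
    simp only [sympForm_add_left, sympForm_add_right, sympForm_smul_left, sympForm_smul_right,
      sympForm_self] at h
    have h2 := sympForm_swap m u y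
    rw [h2] at h
    linear_combination h
  obtain ⟨c, hc⟩ : ∃ c, c = sympForm m F y₀ u := ⟨_, rfl⟩
  have hBc : ∀ x : Fin m ⊕ Fin m → F, sympForm m F x u = φ x * c := by
    intro x
    have h := hB x y₀
    rw [hφy₀, one_mul] at h
    rw [h, hc]
  have hc0 : c ≠ 0 := by
    intro h0
    obtain ⟨v', hv'⟩ := exists_sympForm_eq_one m u hu
    have h1 := hBc v'
    rw [h0, mul_zero] at h1
    have h2 := sympForm_swap m u v'
    rw [hv', h1] at h2
    simp at h2
  -- the centraliser is the stabiliser of u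
  have hcent : ∀ g : Matrix.symplecticGroup (Fin m) F,
      g ∈ Subgroup.centralizer ({t} : Set ↥(Matrix.symplecticGroup (Fin m) F)) ↔
        (g : Matrix (Fin m ⊕ Fin m) (Fin m ⊕ Fin m) F) *ᵥ u = u := by
    intro g
    rw [Subgroup.mem_centralizer_iff]
    constructor
    · intro h
      have h1 : t * g = g * t := h t rfl
      have h2 : ∀ x : Fin m ⊕ Fin m → F,
          φ ((g : Matrix (Fin m ⊕ Fin m) (Fin m ⊕ Fin m) F) *ᵥ x) • u =
            φ x • ((g : Matrix (Fin m ⊕ Fin m) (Fin m ⊕ Fin m) F) *ᵥ u) := by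
        intro x
        have h3 := congrArg (fun A : Matrix.symplecticGroup (Fin m) F =>
          (A : Matrix (Fin m ⊕ Fin m) (Fin m ⊕ Fin m) F) *ᵥ x) h1
        simp only [Submonoid.coe_mul] at h3
        rw [← Matrix.mulVec_mulVec, ← Matrix.mulVec_mulVec, htx, htx, Matrix.mulVec_add,
          Matrix.mulVec_smul] at h3
        exact add_left_cancel h3
      obtain ⟨l, hl⟩ : ∃ l, l = φ ((g : Matrix (Fin m ⊕ Fin m) (Fin m ⊕ Fin m) F) *ᵥ y₀) :=
        ⟨_, rfl⟩
      have hgu : (g : Matrix (Fin m ⊕ Fin m) (Fin m ⊕ Fin m) F) *ᵥ u = l • u := by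
        have h3 := h2 y₀
        rw [hφy₀, one_smul] at h3
        rw [hl, h3]
      -- φ (g y₀) * c = B(g y₀, u), and B(g y₀, g u) = B(y₀, u) = c
      have h4 : sympForm m F ((g : Matrix (Fin m ⊕ Fin m) (Fin m ⊕ Fin m) F) *ᵥ y₀)
          ((g : Matrix (Fin m ⊕ Fin m) (Fin m ⊕ Fin m) F) *ᵥ u) = c := by
        rw [sympForm_mulVec_of_mem m g.2, hc]
      rw [hgu, sympForm_smul_right, hBc, ← hl] at h4
      have h5 : l * l = 1 := by
        have : (l * l - 1) * c = 0 := by linear_combination h4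
        rcases mul_eq_zero.mp this with h6 | h6
        · exact sub_eq_zero.mp h6
        · exact absurd h6 hc0
      have h6 : l = 1 := by
        have h7 : (l - 1) * (l - 1) = 0 := by
          have h8 : (2 : F) = 0 := CharTwo.two_eq_zero
          linear_combination h5 + (1 - l) * h8
        have h9 := mul_self_eq_zero.mp h7
        exact sub_eq_zero.mp h9
      rw [hgu, h6, one_smul]
    · intro hgu h hh
      rw [Set.mem_singleton_iff] at hh
      subst hh
      apply Subtype.ext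
      simp only [Submonoid.coe_mul]
      apply Matrix.mulVec_injective.eq_iff.mp
      funext x
      rw [← Matrix.mulVec_mulVec, ← Matrix.mulVec_mulVec, htx, htx, Matrix.mulVec_add,
        Matrix.mulVec_smul, hgu]
      congr 2
      have h1 : sympForm m F ((g : Matrix (Fin m ⊕ Fin m) (Fin m ⊕ Fin m) F) *ᵥ x) u =
          sympForm m F x u := by
        conv_lhs => rw [← hgu]
        exact sympForm_mulVec_of_mem m g.2 x u
      rw [hBc, hBc] at h1
      exact mul_right_cancel₀ hc0 h1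
  have hcard : Nat.card ↥(Subgroup.centralizer ({t} : Set ↥(Matrix.symplecticGroup (Fin m) F))) =
      Nat.card {g : Matrix.symplecticGroup (Fin m) F //
          (g : Matrix (Fin m ⊕ Fin m) (Fin m ⊕ Fin m) F) *ᵥ u = u} :=
    Nat.card_congr (Equiv.subtypeEquivRight hcent)
  rw [hcard]
  have h1 := card_stab m u hu
  have h2 := card_symplecticGroup (F := F) m
  rw [h2] at h1
  obtain ⟨k, rfl⟩ : ∃ k, m = k + 1 := ⟨m - 1, by omega⟩
  rw [Finset.prod_range_succ] at h1
  have hq : 2 ≤ Fintype.card F := Fintype.one_lt_card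
  have hpos : 0 < Fintype.card F ^ (k + 1 + (k + 1)) - 1 := by
    have : 2 ^ 1 ≤ Fintype.card F ^ (k + 1 + (k + 1)) :=
      le_trans (Nat.pow_le_pow_left hq 1) (Nat.pow_le_pow_right (by omega) (by omega))
    omega
  have h3 : 2 * (k + 1) = k + 1 + (k + 1) := by ring
  rw [h3] at h1
  have h4 : Fintype.card F ^ ((k + 1) ^ 2) * ∏ x ∈ Finset.range k, (Fintype.card F ^ (2 * (x + 1)) - 1)
      = Nat.card {g : Matrix.symplecticGroup (Fin (k + 1)) F //
          (g : Matrix (Fin (k + 1) ⊕ Fin (k + 1)) (Fin (k + 1) ⊕ Fin (k + 1)) F) *ᵥ u = u} := by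
    apply Nat.eq_of_mul_eq_mul_left hpos
    rw [← h1]
    ring
  rw [← h4, Fin.prod_univ_eq_prod_range (fun i => Fintype.card F ^ (2 * (i + 1)) - 1)]
  have h5 : (k + 1) ^ 2 = (2 * (k + 1) - 1) + (k + 1 - 1) ^ 2 := by
    have : 2 * (k + 1) - 1 = 2 * k + 1 := by omega
    rw [this, Nat.add_sub_cancel]
    ring
  rw [h5, pow_add]
  simp only [Nat.add_sub_cancel]
  ring

end Cfsg.Agent.S2594
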