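import Cfsg.Statements.S2623
import Cfsg.Agent.Lib.Helper99.Quad2

set_option autoImplicit false
open Cfsg

namespace Cfsg.Agent.S2623

open Module QuadraticMap Cfsg.Agent.Lib.Helper99

/-- Over a finite field of odd order, two quadratic forms on F^n with non-degenerate polar forms are isometric (related by an invertible linear change of variables) if and only if their discriminants (determinants of the Gram matrices of their polar forms) lie in the same square class. -/
theorem result {F : Type*} [Field F] [Fintype F] (h2 : (2 : F) ≠ 0) {n : ℕ} (Q₁ Q₂ : QuadraticForm F (Fin n → F)) (h₁ : (QuadraticMap.polarBilin Q₁).Nondegenerate) (h₂ : (QuadraticMap.polarBilin Q₂).Nondegenerate) : (∃ g : (Fin n → F) ≃ₗ[F] (Fin n → F), ∀ v, Q₂ (g v) = Q₁ v) ↔ IsSquare ((Matrix.of (fun i j : Fin n => QuadraticMap.polar ⇑Q₁ (Pi.single i 1) (Pi.single j 1))).det * (Matrix.of (fun i j : Fin n => QuadraticMap.polar ⇑Q₂ (Pi.single i 1) (Pi.single j 1))).det) := by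
  classical
  rcases Nat.eq_zero_or_pos n with rfl | hn
  · constructor
    · intro _
      simp
    · intro _
      refine ⟨LinearEquiv.refl _ _, fun v => ?_⟩
      have hv : v = 0 := Subsingleton.elim _ _
      rw [hv, map_zero, QuadraticMap.map_zero, QuadraticMap.map_zero]
  have hfin : finrank F (Fin n → F) = n := by simp
  constructor
  · rintro ⟨g, hg⟩
    have hpol : ∀ u v, polar Q₂ (g u) (g v) = polar Q₁ u v := by
      intro u v
      simp only [polar, ← map_add, hg]
    obtain ⟨p, hp⟩ := gram_det_change Q₂.polarBilin ((Pi.basisFun F (Fin n)).map g)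
    simp only [Basis.map_apply, Pi.basisFun_apply, polarBilin_apply_apply, hpol] at hp
    rw [hp]
    exact ⟨p * (Matrix.of fun i j : Fin n => polar Q₂ (Pi.single i 1) (Pi.single j 1)).det,
      by ring⟩
  · rintro ⟨s, hs⟩
    obtain ⟨k₁, b₁, hd₁, hu₁, ho₁⟩ := ortho_basis h2 Q₁ h₁ (by rw [hfin]; exact hn)
    obtain ⟨k₂, b₂, hd₂, hu₂, ho₂⟩ := ortho_basis h2 Q₂ h₂ (by rw [hfin]; exact hn)
    have hk₁ : n = k₁ + 1 := by
      have h := Module.finrank_eq_card_basis b₁
      rw [hfin, Fintype.card_fin] at h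
      exact h
    have hk₂ : n = k₂ + 1 := by
      have h := Module.finrank_eq_card_basis b₂
      rw [hfin, Fintype.card_fin] at h
      exact h
    subst hk₁
    obtain rfl : k₁ = k₂ := by omega
    have hgram : ∀ (Q : QuadraticForm F (Fin (k₁ + 1) → F))
        (b : Basis (Fin (k₁ + 1)) F (Fin (k₁ + 1) → F)),
        (∀ i : Fin k₁, Q (b i.succ) = 1) → (∀ i j, i ≠ j → polar Q (b i) (b j) = 0) →
        (Matrix.of fun i j => Q.polarBilin (b i) (b j)).det = 2 ^ (k₁ + 1) * Q (b 0) := by
      intro Q b hu ho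
      have h3 : (Matrix.of fun i j => Q.polarBilin (b i) (b j))
          = Matrix.diagonal (fun i => 2 * Q (b i)) := by
        ext i j
        by_cases hij : i = j
        · subst hij
          simp [polar_self]
        · simp [hij, ho i j hij]
      rw [h3, Matrix.det_diagonal, Fin.prod_univ_succ]
      simp only [hu, mul_one, Finset.prod_const, Finset.card_univ, Fintype.card_fin]
      ring
    obtain ⟨p₁, hp₁⟩ := gram_det_change Q₁.polarBilin b₁
    obtain ⟨p₂, hp₂⟩ := gram_det_change Q₂.polarBilin b₂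
    rw [hgram Q₁ b₁ hu₁ ho₁] at hp₁
    rw [hgram Q₂ b₂ hu₂ ho₂] at hp₂
    simp only [polarBilin_apply_apply] at hp₁ hp₂
    set D₁ := (Matrix.of fun i j : Fin (k₁ + 1) => polar Q₁ (Pi.single i 1) (Pi.single j 1)).det
      with hD₁
    set D₂ := (Matrix.of fun i j : Fin (k₁ + 1) => polar Q₂ (Pi.single i 1) (Pi.single j 1)).det
      with hD₂
    set d₁ := Q₁ (b₁ 0) with hd₁def
    set d₂ := Q₂ (b₂ 0) with hd₂def
    have hE : (2 : F) ^ (k₁ + 1) ≠ 0 := pow_ne_zero _ h2
    obtain ⟨r, hrr⟩ : ∃ r : F, r * r = d₁ * d₂ := by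
      refine ⟨p₁ * p₂ * s / 2 ^ (k₁ + 1), ?_⟩
      field_simp
      linear_combination (-(p₁ * p₁ * p₂ * p₂)) * hs - (2 ^ (k₁ + 1) * d₂) * hp₁
        - (p₁ * p₁ * D₁) * hp₂
    have hr0 : r ≠ 0 := by
      intro h0
      rw [h0, mul_zero] at hrr
      exact mul_ne_zero hd₁ hd₂ hrr.symm
    let w : Fin (k₁ + 1) → (Fin (k₁ + 1) → F) :=
      Fin.cons ((d₁ / r) • b₂ 0) (fun i => b₂ i.succ)
    let g0 : (Fin (k₁ + 1) → F) →ₗ[F] (Fin (k₁ + 1) → F) := b₁.constr F w
    have hg0 : ∀ i, g0 (b₁ i) = w i := fun i => Basis.constr_basis b₁ F w i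
    have hcomp : Q₂.comp g0 = Q₁ := by
      apply quad_ext_basis b₁
      · intro i
        rw [QuadraticMap.comp_apply, hg0]
        rcases Fin.eq_zero_or_eq_succ i with rfl | ⟨i, rfl⟩
        · simp only [w, Fin.cons_zero]
          rw [QuadraticMap.map_smul, smul_eq_mul, ← hd₂def, ← hd₁def, div_mul_div_comm, hrr]
          field_simp
        · simp only [w, Fin.cons_succ]
          rw [hu₂, hu₁]
      · intro i j hij
        have h3 : polar (Q₂.comp g0) (b₁ i) (b₁ j) = polar Q₂ (g0 (b₁ i)) (g0 (b₁ j)) := by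
          simp only [polar, QuadraticMap.comp_apply, map_add]
        rw [h3, hg0, hg0, ho₁ i j hij]
        rcases Fin.eq_zero_or_eq_succ i with rfl | ⟨i, rfl⟩ <;>
          rcases Fin.eq_zero_or_eq_succ j with rfl | ⟨j, rfl⟩
        · exact absurd rfl hij
        · simp only [w, Fin.cons_zero, Fin.cons_succ]
          rw [polar_smul_left, ho₂ 0 j.succ (Fin.succ_ne_zero j).symm, smul_zero]
        · simp only [w, Fin.cons_zero, Fin.cons_succ]
          rw [polar_smul_right, ho₂ i.succ 0 (Fin.succ_ne_zero i), smul_zero]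
        · simp only [w, Fin.cons_succ]
          exact ho₂ _ _ hij
    obtain ⟨g, hg⟩ := equiv_of_similar Q₁ Q₂ h₁ 1 one_ne_zero g0 (fun v => by
      rw [one_mul, ← hcomp, QuadraticMap.comp_apply])
    exact ⟨g, fun v => by rw [hg, one_mul]⟩

end Cfsg.Agent.S2623
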