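import Mathlib
import Cfsg.Statements.S2505

set_option autoImplicit false

namespace Cfsg.Agent.S2505

open Equiv

/-- The largest product of the parts of a partition of `n`. -/
def gmax : ℕ → ℕ
  | 0 => 1
  | 1 => 1
  | 2 => 2
  | 3 => 3
  | 4 => 4
  | (n + 5) => 3 * gmax (n + 2)

theorem gmax_add5 (n : ℕ) : gmax (n + 5) = 3 * gmax (n + 2) := by
  rw [gmax]

theorem gmax_pos (n : ℕ) : 1 ≤ gmax n := by
  induction n using Nat.strong_induction_on with
  | _ n ih =>
    match n with
    | 0 | 1 | 2 | 3 | 4 => simp [gmax]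
    | (n + 5) =>
      rw [gmax_add5]
      have := ih (n + 2) (by omega)
      omega

theorem gmax_one (n : ℕ) : gmax n ≤ gmax (n + 1) := by
  induction n using Nat.strong_induction_on with
  | _ n ih =>
    match n with
    | 0 | 1 | 2 | 3 | 4 => simp [gmax]
    | (n + 5) =>
      have := ih (n + 2) (by omega)
      rw [show n + 5 + 1 = (n + 1) + 5 from rfl, gmax_add5, gmax_add5]
      have h2 : n + 1 + 2 = n + 2 + 1 := rfl
      rw [h2]
      omega

theorem gmax_two (n : ℕ) : 2 * gmax n ≤ gmax (n + 2) := by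
  induction n using Nat.strong_induction_on with
  | _ n ih =>
    match n with
    | 0 | 1 | 2 | 3 | 4 => simp [gmax]
    | (n + 5) =>
      have := ih (n + 2) (by omega)
      rw [show n + 5 + 2 = (n + 2) + 5 from rfl, gmax_add5, gmax_add5]
      omega

theorem gmax_three (n : ℕ) : 3 * gmax n ≤ gmax (n + 3) := by
  match n with
  | 0 | 1 => simp [gmax]
  | (n + 2) =>
    rw [show n + 2 + 3 = n + 5 from rfl, gmax_add5]

theorem gmax_four (n : ℕ) : 4 * gmax n ≤ gmax (n + 4) := by
  induction n using Nat.strong_induction_on with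
  | _ n ih =>
    match n with
    | 0 | 1 | 2 | 3 | 4 => simp [gmax]
    | (n + 5) =>
      have := ih (n + 2) (by omega)
      rw [show n + 5 + 4 = (n + 4) + 5 from rfl, gmax_add5, gmax_add5]
      have h2 : n + 4 + 2 = n + 2 + 4 := rfl
      rw [h2]
      omega

theorem gmax_mul (m : ℕ) : ∀ n : ℕ, 1 ≤ m → m * gmax n ≤ gmax (n + m) := by
  induction m using Nat.strong_induction_on with
  | _ m ih =>
    intro n hm
    match m, hm with
    | 1, _ => simpa using gmax_one n
    | 2, _ => exact gmax_two n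
    | 3, _ => exact gmax_three n
    | 4, _ => exact gmax_four n
    | (m + 5), _ =>
      have h1 := ih (m + 2) (by omega) n (by omega)
      have h2 := gmax_three (n + (m + 2))
      have h3 : n + (m + 2) + 3 = n + (m + 5) := rfl
      rw [h3] at h2
      have hp := gmax_pos n
      calc (m + 5) * gmax n ≤ 3 * ((m + 2) * gmax n) := by nlinarith
        _ ≤ 3 * gmax (n + (m + 2)) := by omega
        _ ≤ gmax (n + (m + 5)) := h2

theorem gmax_3k (k : ℕ) : gmax (3 * k) = 3 ^ k ∧ gmax (3 * k + 2) = 2 * 3 ^ k ∧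
    gmax (3 * (k + 1) + 1) = 4 * 3 ^ k := by
  induction k with
  | zero => simp [gmax]
  | succ k ih =>
    obtain ⟨h1, h2, h3⟩ := ih
    refine ⟨?_, ?_, ?_⟩
    · match k with
      | 0 => simp [gmax]
      | (k + 1) =>
        rw [show 3 * (k + 1 + 1) = 3 * k + 1 + 5 by ring, gmax_add5,
          show 3 * k + 1 + 2 = 3 * (k + 1) by ring, h1]
        ring
    · rw [show 3 * (k + 1) + 2 = 3 * k + 5 by ring, gmax_add5, h2]
      ring
    · rw [show 3 * (k + 1 + 1) + 1 = 3 * k + 2 + 5 by ring, gmax_add5,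
        show 3 * k + 2 + 2 = 3 * (k + 1) + 1 by ring, h3]
      ring

/-- An abelian group of permutations of `n` points has order at most `gmax n`. -/
theorem abelian_bound : ∀ (n : ℕ) (α : Type) [Fintype α] [DecidableEq α], Fintype.card α = n →
    ∀ (A : Subgroup (Perm α)), IsMulCommutative A → Nat.card A ≤ gmax n := by
  intro n
  induction n using Nat.strong_induction_on with
  | _ n ih =>
  intro α _ _ hcard A hA
  classical
  rcases isEmpty_or_nonempty α with hα | ⟨⟨a⟩⟩
  · have h1 : Nat.card A = 1 := by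
      rw [Nat.card_eq_one_iff_unique]
      exact ⟨inferInstance, ⟨1⟩⟩
    rw [h1]; exact gmax_pos n
  · -- the orbit of `a`
    let O : Set α := {b | ∃ τ : A, (τ : Perm α) a = b}
    have hO : ∀ (σ : A) (b : α), (σ : Perm α) b ∈ O ↔ b ∈ O := by
      intro σ b
      constructor
      · rintro ⟨τ, hτ⟩
        refine ⟨σ⁻¹ * τ, ?_⟩
        simp [hτ]
      · rintro ⟨τ, rfl⟩
        exact ⟨σ * τ, by simp⟩
    have haO : a ∈ O := ⟨1, by simp⟩
    -- restriction to the complement
    let ρ : A →* Perm {b : α // b ∉ O} :=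
      { toFun := fun σ => (σ : Perm α).subtypePerm (fun b => (hO σ b).not)
        map_one' := by ext b; rfl
        map_mul' := by intro σ τ; ext b; rfl }
    have hcomm : IsMulCommutative ρ.range := by
      refine isMulCommutative_iff.mpr ?_
      rintro ⟨x, u, rfl⟩ ⟨y, v, rfl⟩
      apply Subtype.ext
      show ρ u * ρ v = ρ v * ρ u
      rw [← map_mul, ← map_mul, mul_comm' u v]
    have hm1 : 1 ≤ Fintype.card {b : α // b ∈ O} := Fintype.card_pos_iff.mpr ⟨⟨a, haO⟩⟩
    have hmn : Fintype.card {b : α // b ∈ O} ≤ n := by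
      rw [← hcard]; exact Fintype.card_subtype_le _
    have hβ : Fintype.card {b : α // b ∉ O} = n - Fintype.card {b : α // b ∈ O} := by
      rw [Fintype.card_subtype_compl, hcard]
    have hrange := ih (n - Fintype.card {b : α // b ∈ O}) (by omega) {b : α // b ∉ O} hβ ρ.range hcomm
    -- the kernel embeds in the orbit
    have hker : Nat.card ρ.ker ≤ Fintype.card {b : α // b ∈ O} := by
      rw [← Nat.card_eq_fintype_card]
      let φ : ρ.ker → {b : α // b ∈ O} := fun k => ⟨((k : A) : Perm α) a, ⟨(k : A), rfl⟩⟩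
      apply Nat.card_le_card_of_injective φ
      intro k1 k2 h12
      have h12' : ((k1 : A) : Perm α) a = ((k2 : A) : Perm α) a := congrArg Subtype.val h12
      have hfix : ∀ k : ρ.ker, ∀ b : α, b ∉ O → ((k : A) : Perm α) b = b := by
        intro k b hb
        have h1 : ρ (k : A) = 1 := k.2
        have h2 : ρ (k : A) ⟨b, hb⟩ = ⟨b, hb⟩ := by rw [h1]; rfl
        exact congrArg Subtype.val h2
      apply Subtype.ext
      apply Subtype.ext
      ext b
      by_cases hb : b ∈ O
      · obtain ⟨τ, rfl⟩ := hb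
        have c1 : ((k1 : A) : Perm α) * (τ : Perm α) = (τ : Perm α) * ((k1 : A) : Perm α) := by
          rw [← Subgroup.coe_mul, ← Subgroup.coe_mul, mul_comm' (k1 : A) τ]
        have c2 : ((k2 : A) : Perm α) * (τ : Perm α) = (τ : Perm α) * ((k2 : A) : Perm α) := by
          rw [← Subgroup.coe_mul, ← Subgroup.coe_mul, mul_comm' (k2 : A) τ]
        have e1 := congrArg (fun p : Perm α => p a) c1
        have e2 := congrArg (fun p : Perm α => p a) c2
        simp only [Perm.mul_apply] at e1 e2
        rw [e1, e2, h12']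
      · rw [hfix k1 b hb, hfix k2 b hb]
    have hAcard : Nat.card A = Nat.card ρ.ker * Nat.card ρ.range := by
      rw [← Subgroup.index_ker, Subgroup.card_mul_index]
    have hfin := gmax_mul (Fintype.card {b : α // b ∈ O}) (n - Fintype.card {b : α // b ∈ O}) hm1
    rw [Nat.sub_add_cancel hmn] at hfin
    calc Nat.card A = Nat.card ρ.ker * Nat.card ρ.range := hAcard
      _ ≤ Fintype.card {b : α // b ∈ O} * gmax (n - Fintype.card {b : α // b ∈ O}) :=
        Nat.mul_le_mul hker hrange
      _ ≤ gmax n := hfin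

/-- There is an abelian subgroup of `S_n` of order `c`. -/
def HasAb (n c : ℕ) : Prop :=
  ∃ A : Subgroup (Perm (Fin n)), IsMulCommutative A ∧ Nat.card A = c

theorem hasAb_of_hom {C : Type} [Group C] (hC : ∀ x y : C, x * y = y * x) {α : Type} [Fintype α]
    [DecidableEq α]
    (f : C →* Perm α) (hf : Function.Injective f) (n : ℕ) (hn : Fintype.card α = n) :
    HasAb n (Nat.card C) := by
  classical
  let e : α ≃ Fin n := Fintype.equivFinOfCardEq hn
  let F : C →* Perm (Fin n) := (e.permCongrHom : Perm α →* Perm (Fin n)).comp f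
  have hF : Function.Injective F := e.permCongrHom.injective.comp hf
  refine ⟨F.range, ?_, ?_⟩
  · refine isMulCommutative_iff.mpr ?_
    rintro ⟨x, u, rfl⟩ ⟨y, v, rfl⟩
    apply Subtype.ext
    show F u * F v = F v * F u
    rw [← map_mul, ← map_mul, hC]
  · exact Nat.card_congr (MonoidHom.ofInjective hF).toEquiv.symm

theorem hasAb_zero : HasAb 0 1 := by
  refine ⟨⊥, ?_, ?_⟩
  · refine isMulCommutative_iff.mpr ?_
    intro x y
    exact Subsingleton.elim _ _
  · simp

theorem hasAb_add (n c m : ℕ) (hm : 1 ≤ m) (h : HasAb n c) : HasAb (n + m) (c * m) := by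
  classical
  obtain ⟨A, hA, rfl⟩ := h
  haveI : NeZero m := ⟨by omega⟩
  let M := Multiplicative (ZMod m)
  let f : A × M →* Perm (Fin n ⊕ M) :=
    (Perm.sumCongrHom (Fin n) M).comp (A.subtype.prodMap (MulAction.toPermHom M M))
  have hf : Function.Injective f := by
    refine Perm.sumCongrHom_injective.comp ?_
    rw [MonoidHom.coe_prodMap]
    exact Function.Injective.prodMap A.subtype_injective MulAction.toPerm_injective
  have hcomm : ∀ x y : A × M, x * y = y * x := by
    rintro ⟨x1, x2⟩ ⟨y1, y2⟩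
    ext1
    · exact mul_comm' x1 y1
    · exact mul_comm x2 y2
  have hcard : Fintype.card (Fin n ⊕ M) = n + m := by
    rw [Fintype.card_sum, Fintype.card_fin]
    congr 1
    exact (Fintype.card_congr Multiplicative.toAdd).trans (ZMod.card m)
  have := hasAb_of_hom hcomm f hf (n + m) hcard
  rw [Nat.card_prod] at this
  have hM : Nat.card M = m := by
    rw [Nat.card_eq_fintype_card]
    exact (Fintype.card_congr Multiplicative.toAdd).trans (ZMod.card m)
  rwa [hM] at this

theorem hasAb_gmax : ∀ n : ℕ, HasAb n (gmax n)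
  | 0 => hasAb_zero
  | 1 => by simpa [gmax] using hasAb_add 0 1 1 le_rfl hasAb_zero
  | 2 => by simpa [gmax] using hasAb_add 0 1 2 (by norm_num) hasAb_zero
  | 3 => by simpa [gmax] using hasAb_add 0 1 3 (by norm_num) hasAb_zero
  | 4 => by simpa [gmax] using hasAb_add 0 1 4 (by norm_num) hasAb_zero
  | (n + 5) => by
    have := hasAb_add (n + 2) (gmax (n + 2)) 3 (by norm_num) (hasAb_gmax (n + 2))
    rw [gmax_add5, mul_comm]
    exact this

/-- The largest order of an abelian subgroup of the symmetric group of degree n is 3^k when n = 3k, 4·3^(k−1) when n = 3k + 1, and 2·3^k when n = 3k + 2, for every k ≥ 1. -/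
theorem result (k : ℕ) (hk : 1 ≤ k) :
    IsGreatest {c : ℕ | ∃ A : Subgroup (Equiv.Perm (Fin (3 * k))), IsMulCommutative A ∧ Nat.card A = c} (3 ^ k) ∧
    IsGreatest {c : ℕ | ∃ A : Subgroup (Equiv.Perm (Fin (3 * k + 1))), IsMulCommutative A ∧ Nat.card A = c}
      (4 * 3 ^ (k - 1)) ∧
    IsGreatest {c : ℕ | ∃ A : Subgroup (Equiv.Perm (Fin (3 * k + 2))), IsMulCommutative A ∧ Nat.card A = c}
      (2 * 3 ^ k) := by
  have key : ∀ n : ℕ, IsGreatest
      {c : ℕ | ∃ A : Subgroup (Equiv.Perm (Fin n)), IsMulCommutative A ∧ Nat.card A = c}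
      (gmax n) := by
    intro n
    refine ⟨hasAb_gmax n, ?_⟩
    rintro c ⟨A, hA, rfl⟩
    exact abelian_bound n (Fin n) (Fintype.card_fin n) A hA
  obtain ⟨k, rfl⟩ := Nat.exists_eq_succ_of_ne_zero (by omega : k ≠ 0)
  have h1 := (gmax_3k (k + 1)).1
  have h2 := (gmax_3k (k + 1)).2.1
  have h3 := (gmax_3k k).2.2
  refine ⟨?_, ?_, ?_⟩
  · rw [← h1]; exact key _
  · rw [show k.succ - 1 = k from rfl, ← h3]; exact key _
  · rw [← h2]; exact key _

end Cfsg.Agent.S2505
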