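import Mathlib
import Cfsg.Statements.S2504
import Cfsg.Agent.S2505

set_option autoImplicit false

namespace Cfsg.Agent.S2504

open Equiv
open Cfsg.Agent.S2505 (gmax gmax_pos gmax_mul gmax_3k abelian_bound)

section Orbit

variable {α : Type} [Fintype α] [DecidableEq α]

/-- Removing the orbit of `a` from an abelian permutation group `A`: the kernel `K` of the
restriction to the complement acts semiregularly on the orbit. -/
theorem orbit_step (A : Subgroup (Perm α)) (hA : IsMulCommutative A) (a : α) :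
    ∃ K : Subgroup A, (∀ k ∈ K, ∀ b : α, b ∉ MulAction.orbit A a → ((k : A) : Perm α) b = b) ∧
      (∀ k ∈ K, ((k : A) : Perm α) a = a → k = 1) ∧
      Nat.card A ≤ Nat.card K * gmax (Fintype.card α - Nat.card (MulAction.orbit A a)) := by
  classical
  let O : Set α := MulAction.orbit A a
  have hOmem : ∀ b : α, b ∈ O ↔ ∃ τ : A, (τ : Perm α) a = b := fun b => MulAction.mem_orbit_iff
  have hO : ∀ (σ : A) (b : α), (σ : Perm α) b ∈ O ↔ b ∈ O := by
    intro σ b
    rw [hOmem, hOmem]
    constructor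
    · rintro ⟨τ, hτ⟩
      refine ⟨σ⁻¹ * τ, ?_⟩
      simp [hτ]
    · rintro ⟨τ, rfl⟩
      exact ⟨σ * τ, by simp⟩
  have haO : a ∈ O := (hOmem a).mpr ⟨1, by simp⟩
  let ρ : A →* Perm {b : α // b ∉ O} :=
    { toFun := fun σ => (σ : Perm α).subtypePerm (fun b => (hO σ b).not)
      map_one' := by ext b; rfl
      map_mul' := by intro σ τ; ext b; rfl }
  have hcomm : IsMulCommutative ρ.range := by
    refine isMulCommutative_iff.mpr ?_
    rintro ⟨x, u, rfl⟩ ⟨y, v, rfl⟩
    apply Subtype.ext
    show ρ u * ρ v = ρ v * ρ u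
    rw [← map_mul, ← map_mul, mul_comm' u v]
  have hOcard : Nat.card (MulAction.orbit A a) = Fintype.card {b : α // b ∈ O} :=
    Nat.card_eq_fintype_card
  have hmn : Fintype.card {b : α // b ∈ O} ≤ Fintype.card α := Fintype.card_subtype_le _
  have hβ : Fintype.card {b : α // b ∉ O} = Fintype.card α - Fintype.card {b : α // b ∈ O} := by
    rw [Fintype.card_subtype_compl]
  have hrange := abelian_bound _ {b : α // b ∉ O} hβ ρ.range hcomm
  have hfix : ∀ k ∈ ρ.ker, ∀ b : α, b ∉ O → ((k : A) : Perm α) b = b := by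
    intro k hk b hb
    have h1 : ρ k = 1 := hk
    have h2 : ρ k ⟨b, hb⟩ = ⟨b, hb⟩ := by rw [h1]; rfl
    exact congrArg Subtype.val h2
  refine ⟨ρ.ker, hfix, ?_, ?_⟩
  · intro k hk hka
    apply Subtype.ext
    ext b
    by_cases hb : b ∈ O
    · obtain ⟨τ, rfl⟩ := (hOmem b).mp hb
      have c1 : ((k : A) : Perm α) * (τ : Perm α) = (τ : Perm α) * ((k : A) : Perm α) := by
        rw [← Subgroup.coe_mul, ← Subgroup.coe_mul, mul_comm' (k : A) τ]
      have e1 := congrArg (fun p : Perm α => p a) c1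
      simp only [Perm.mul_apply] at e1
      rw [e1, hka]
      rfl
    · rw [hfix k hk b hb]; rfl
  · rw [hOcard]
    have hAcard : Nat.card A = Nat.card ρ.ker * Nat.card ρ.range := by
      rw [← Subgroup.index_ker, Subgroup.card_mul_index]
    rw [hAcard]
    exact Nat.mul_le_mul le_rfl hrange

/-- The order of an abelian permutation group is at most `m * gmax (n - m)` for any orbit size
`m`. -/
theorem orbit_bound (A : Subgroup (Perm α)) (hA : IsMulCommutative A) (a : α) :
    Nat.card A ≤ Nat.card (MulAction.orbit A a) *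
      gmax (Fintype.card α - Nat.card (MulAction.orbit A a)) := by
  classical
  obtain ⟨K, -, hK, hcard⟩ := orbit_step A hA a
  refine hcard.trans (Nat.mul_le_mul ?_ le_rfl)
  let φ : K → MulAction.orbit A a := fun k => ⟨((k : A) : Perm α) a, MulAction.mem_orbit_iff.mpr ⟨(k : A), rfl⟩⟩
  apply Nat.card_le_card_of_injective φ
  intro k1 k2 h12
  have h12' : ((k1 : A) : Perm α) a = ((k2 : A) : Perm α) a := congrArg Subtype.val h12
  have h3 : (k1⁻¹ * k2 : K) = 1 := by
    apply Subtype.ext
    apply hK _ (k1⁻¹ * k2 : K).2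
    show (((k1⁻¹ * k2 : K) : A) : Perm α) a = a
    simp only [Subgroup.coe_mul, Subgroup.coe_inv, Perm.mul_apply]
    rw [← h12']
    simp
  exact (inv_mul_eq_one.mp h3)

/-- An abelian group of even permutations with an orbit of size 2. -/
theorem orbit_two_bound (A : Subgroup (Perm α)) (hA : IsMulCommutative A)
    (heven : ∀ σ ∈ A, Perm.sign σ = 1) (a : α) (ha : Nat.card (MulAction.orbit A a) = 2) :
    Nat.card A ≤ gmax (Fintype.card α - 2) := by
  classical
  obtain ⟨K, hKfix, hK, hcard⟩ := orbit_step A hA a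
  rw [ha] at hcard
  have hK1 : Nat.card K = 1 := by
    rw [Nat.card_eq_one_iff_unique]
    refine ⟨⟨fun k1 k2 => ?_⟩, ⟨1⟩⟩
    suffices h : ∀ k : K, k = 1 by rw [h k1, h k2]
    intro k
    apply Subtype.ext
    apply hK _ k.2
    by_contra hne
    -- then `k` is the transposition of `a` and `k a`
    set a' : α := (((k : A)) : Perm α) a with ha'
    have ha'O : a' ∈ MulAction.orbit A a := MulAction.mem_orbit_iff.mpr ⟨(k : A), rfl⟩
    have haO : a ∈ MulAction.orbit A a := MulAction.mem_orbit_self a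
    have hO2 : ∀ b ∈ MulAction.orbit A a, b = a ∨ b = a' := by
      intro b hb
      by_contra hb'
      push Not at hb'
      have : 2 < Nat.card (MulAction.orbit A a) := by
        rw [Nat.card_eq_fintype_card, Fintype.two_lt_card_iff]
        refine ⟨⟨a, haO⟩, ⟨a', ha'O⟩, ⟨b, hb⟩, ?_, ?_, ?_⟩
        · intro h; exact hne (congrArg Subtype.val h).symm
        · intro h; exact hb'.1 (congrArg Subtype.val h).symm
        · intro h; exact hb'.2 (congrArg Subtype.val h).symm
      omega
    have hka' : (((k : A)) : Perm α) a' = a := by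
      have hmem : (((k : A)) : Perm α) a' ∈ MulAction.orbit A a :=
        MulAction.mem_orbit_iff.mpr ⟨(k : A) * (k : A), rfl⟩
      rcases hO2 _ hmem with h | h
      · exact h
      · exfalso
        have : a' = a := (((k : A)) : Perm α).injective h
        exact hne this
    have hswap : (((k : A)) : Perm α) = Equiv.swap a a' := by
      ext b
      by_cases hb : b ∈ MulAction.orbit A a
      · rcases hO2 b hb with rfl | rfl
        · rw [Equiv.swap_apply_left]
        · rw [Equiv.swap_apply_right, hka']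
      · rw [hKfix k k.2 b hb, Equiv.swap_apply_of_ne_of_ne]
        · rintro rfl; exact hb haO
        · rintro rfl; exact hb ha'O
    have hsign := heven _ (k : A).2
    rw [hswap, Perm.sign_swap (Ne.symm hne)] at hsign
    revert hsign; decide
  rw [hK1, one_mul] at hcard
  exact hcard

omit [DecidableEq α] in
/-- If all orbits have three elements, the number of points is divisible by 3. -/
theorem three_dvd_of_orbits {G : Type} [Group G] [MulAction G α]
    (h : ∀ a : α, Nat.card (MulAction.orbit G a) = 3) : 3 ∣ Fintype.card α := by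
  classical
  have e := MulAction.selfEquivSigmaOrbits G α
  rw [← Nat.card_eq_fintype_card, Nat.card_congr e, Nat.card_sigma]
  apply Finset.dvd_sum
  intro ω _
  rw [h]

end Orbit

/-- Orbit sizes other than 2 and 3 force a small order. -/
theorem numeric (j m : ℕ) (hm1 : 1 ≤ m) (hmn : m ≤ 3 * j + 8) (hm2 : m ≠ 2) (hm3 : m ≠ 3) :
    m * gmax (3 * j + 8 - m) ≤ 16 * 3 ^ j := by
  have hm : m = 1 ∨ m = 4 ∨ 5 ≤ m := by omega
  rcases hm with rfl | rfl | hm
  · have h := (gmax_3k (j + 1)).2.2
    rw [show 3 * j + 8 - 1 = 3 * (j + 1 + 1) + 1 by omega, h]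
    rw [pow_succ]; omega
  · have h := (gmax_3k j).2.2
    rw [show 3 * j + 8 - 4 = 3 * (j + 1) + 1 by omega, h]
    omega
  · have h1 := gmax_mul (m - 3) (3 * j + 8 - m) (by omega)
    rw [show 3 * j + 8 - m + (m - 3) = 3 * (j + 1) + 2 by omega, (gmax_3k (j + 1)).2.1] at h1
    have hp := gmax_pos (3 * j + 8 - m)
    have h2 : 3 * (m * gmax (3 * j + 8 - m)) ≤ 8 * ((m - 3) * gmax (3 * j + 8 - m)) := by
      have : 3 * m ≤ 8 * (m - 3) := by omega
      calc 3 * (m * gmax (3 * j + 8 - m)) = (3 * m) * gmax (3 * j + 8 - m) := by ring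
        _ ≤ (8 * (m - 3)) * gmax (3 * j + 8 - m) := Nat.mul_le_mul this le_rfl
        _ = 8 * ((m - 3) * gmax (3 * j + 8 - m)) := by ring
    rw [pow_succ] at h1
    omega

/-- An abelian group of even permutations of `3j + 8` points has order at most `16 * 3 ^ j`. -/
theorem even_bound (j : ℕ) (A : Subgroup (Perm (Fin (3 * j + 8)))) (hA : IsMulCommutative A)
    (heven : ∀ σ ∈ A, Perm.sign σ = 1) : Nat.card A ≤ 16 * 3 ^ j := by
  classical
  by_contra hlt
  push Not at hlt
  have hle : ∀ a : Fin (3 * j + 8), Nat.card (MulAction.orbit A a) ≤ 3 * j + 8 := by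
    intro a
    rw [Nat.card_eq_fintype_card]
    have := Fintype.card_subtype_le (fun b => b ∈ MulAction.orbit A a)
    simpa using this
  have hpos : ∀ a : Fin (3 * j + 8), 1 ≤ Nat.card (MulAction.orbit A a) := by
    intro a
    rw [Nat.card_eq_fintype_card]
    exact Fintype.card_pos_iff.mpr ⟨⟨a, MulAction.mem_orbit_self a⟩⟩
  have h23 : ∀ a : Fin (3 * j + 8), Nat.card (MulAction.orbit A a) = 2 ∨
      Nat.card (MulAction.orbit A a) = 3 := by
    intro a
    by_contra hne
    push Not at hne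
    have h1 := orbit_bound A hA a
    rw [Fintype.card_fin] at h1
    have h2 := numeric j _ (hpos a) (hle a) hne.1 hne.2
    omega
  obtain ⟨a, ha⟩ : ∃ a : Fin (3 * j + 8), Nat.card (MulAction.orbit A a) = 2 := by
    by_contra hno
    push Not at hno
    have h3 : 3 ∣ Fintype.card (Fin (3 * j + 8)) :=
      three_dvd_of_orbits (G := A) (fun a => (h23 a).resolve_left (hno a))
    rw [Fintype.card_fin] at h3
    omega
  have h := orbit_two_bound A hA heven a ha
  rw [Fintype.card_fin, show 3 * j + 8 - 2 = 3 * (j + 2) by omega, (gmax_3k (j + 2)).1] at h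
  have : 3 ^ (j + 2) = 9 * 3 ^ j := by ring
  omega

/-- There is an abelian subgroup of `A_n` of order `c`. -/
def HasAbE (n c : ℕ) : Prop :=
  ∃ A : Subgroup (Perm (Fin n)), IsMulCommutative A ∧ Nat.card A = c ∧ ∀ σ ∈ A, Perm.sign σ = 1

theorem hasAbE_of_hom {C : Type} [Group C] (hC : ∀ x y : C, x * y = y * x) {α : Type} [Fintype α]
    [DecidableEq α]
    (f : C →* Perm α) (hf : Function.Injective f) (hs : ∀ x, Perm.sign (f x) = 1)
    (n : ℕ) (hn : Fintype.card α = n) :
    HasAbE n (Nat.card C) := by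
  classical
  let e : α ≃ Fin n := Fintype.equivFinOfCardEq hn
  let F : C →* Perm (Fin n) := (e.permCongrHom : Perm α →* Perm (Fin n)).comp f
  have hF : Function.Injective F := e.permCongrHom.injective.comp hf
  refine ⟨F.range, ?_, ?_, ?_⟩
  · refine isMulCommutative_iff.mpr ?_
    rintro ⟨x, u, rfl⟩ ⟨y, v, rfl⟩
    apply Subtype.ext
    show F u * F v = F v * F u
    rw [← map_mul, ← map_mul, hC]
  · exact Nat.card_congr (MonoidHom.ofInjective hF).toEquiv.symm
  · rintro σ ⟨u, rfl⟩
    show Perm.sign (e.permCongr (f u)) = 1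
    rw [Perm.sign_permCongr, hs]

theorem hasAbE_zero : HasAbE 0 1 := by
  refine ⟨⊥, ?_, ?_, ?_⟩
  · refine isMulCommutative_iff.mpr ?_
    intro x y
    exact Subsingleton.elim _ _
  · simp
  · intro σ hσ
    rw [Subgroup.mem_bot] at hσ
    rw [hσ]; simp

theorem hasAbE_add (n c : ℕ) (M : Type) [CommGroup M] [Fintype M] [DecidableEq M]
    (hM : ∀ x : M, Perm.sign (MulAction.toPermHom M M x) = 1) (h : HasAbE n c) :
    HasAbE (n + Fintype.card M) (c * Fintype.card M) := by
  classical
  obtain ⟨A, hA, rfl, heven⟩ := h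
  let f : A × M →* Perm (Fin n ⊕ M) :=
    (Perm.sumCongrHom (Fin n) M).comp (A.subtype.prodMap (MulAction.toPermHom M M))
  have hf : Function.Injective f := by
    refine Perm.sumCongrHom_injective.comp ?_
    rw [MonoidHom.coe_prodMap]
    exact Function.Injective.prodMap A.subtype_injective MulAction.toPerm_injective
  have hcomm : ∀ x y : A × M, x * y = y * x := by
    rintro ⟨x1, x2⟩ ⟨y1, y2⟩
    ext1
    · exact mul_comm' x1 y1
    · exact mul_comm x2 y2
  have hcard : Fintype.card (Fin n ⊕ M) = n + Fintype.card M := by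
    rw [Fintype.card_sum, Fintype.card_fin]
  have hs : ∀ x, Perm.sign (f x) = 1 := by
    rintro ⟨x1, x2⟩
    show Perm.sign (Equiv.sumCongr (x1 : Perm (Fin n)) (MulAction.toPermHom M M x2)) = 1
    rw [Perm.sign_sumCongr, heven _ x1.2, hM, one_mul]
  have := hasAbE_of_hom hcomm f hf hs (n + Fintype.card M) hcard
  rw [Nat.card_prod] at this
  rwa [Nat.card_eq_fintype_card (α := M)] at this

theorem hasAbE_three (n c : ℕ) (h : HasAbE n c) : HasAbE (n + 3) (c * 3) := by
  have := hasAbE_add n c (Multiplicative (ZMod 3)) (by decide) h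
  have h3 : Fintype.card (Multiplicative (ZMod 3)) = 3 := by decide
  rwa [h3] at this

theorem hasAbE_four (n c : ℕ) (h : HasAbE n c) : HasAbE (n + 4) (c * 4) := by
  have := hasAbE_add n c (Multiplicative (ZMod 2) × Multiplicative (ZMod 2)) (by decide) h
  have h3 : Fintype.card (Multiplicative (ZMod 2) × Multiplicative (ZMod 2)) = 4 := by decide
  rwa [h3] at this

theorem hasAbE_three_pow (n c : ℕ) (h : HasAbE n c) (j : ℕ) : HasAbE (n + 3 * j) (c * 3 ^ j) := by
  induction j with
  | zero => simpa using h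
  | succ j ih =>
    have := hasAbE_three _ _ ih
    rw [show n + 3 * (j + 1) = n + 3 * j + 3 by ring, show c * 3 ^ (j + 1) = c * 3 ^ j * 3 by ring]
    exact this

/-- From subgroups of `S_n` consisting of even permutations to subgroups of `A_n`. -/
theorem hasAbE_alt (n c : ℕ) (h : HasAbE n c) :
    ∃ A : Subgroup (alternatingGroup (Fin n)), IsMulCommutative A ∧ Nat.card A = c := by
  obtain ⟨A, hA, rfl, heven⟩ := h
  have hle : A ≤ alternatingGroup (Fin n) := fun σ hσ => Perm.mem_alternatingGroup.mpr (heven σ hσ)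
  refine ⟨A.subgroupOf (alternatingGroup (Fin n)), ?_, ?_⟩
  · refine isMulCommutative_iff.mpr ?_
    rintro ⟨x, hx⟩ ⟨y, hy⟩
    apply Subtype.ext
    apply Subtype.ext
    have := mul_comm' (⟨(x : Perm (Fin n)), hx⟩ : A) ⟨(y : Perm (Fin n)), hy⟩
    show (x : Perm (Fin n)) * (y : Perm (Fin n)) = (y : Perm (Fin n)) * (x : Perm (Fin n))
    exact congrArg Subtype.val this
  · exact Nat.card_congr (Subgroup.subgroupOfEquivOfLe hle).toEquiv

/-- From abelian subgroups of `A_n` to abelian subgroups of `S_n`. -/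
theorem alt_to_perm (n : ℕ) (A : Subgroup (alternatingGroup (Fin n))) (hA : IsMulCommutative A) :
    ∃ B : Subgroup (Perm (Fin n)), IsMulCommutative B ∧ Nat.card B = Nat.card A ∧
      ∀ σ ∈ B, Perm.sign σ = 1 := by
  refine ⟨A.map (alternatingGroup (Fin n)).subtype, ?_, ?_, ?_⟩
  · refine isMulCommutative_iff.mpr ?_
    rintro ⟨x, u, hu, rfl⟩ ⟨y, v, hv, rfl⟩
    apply Subtype.ext
    show (u : Perm (Fin n)) * (v : Perm (Fin n)) = (v : Perm (Fin n)) * (u : Perm (Fin n))
    have := mul_comm' (⟨u, hu⟩ : A) ⟨v, hv⟩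
    have h2 : u * v = v * u := congrArg Subtype.val this
    rw [← Subgroup.coe_mul, ← Subgroup.coe_mul, h2]
  · exact Subgroup.card_map_of_injective (Subgroup.subtype_injective _)
  · rintro σ ⟨u, hu, rfl⟩
    exact Perm.mem_alternatingGroup.mp u.2

/-- The largest order of an abelian subgroup of the alternating group of degree n is 3^k when n = 3k, 4·3^(k−1) when n = 3k + 1, and 16·3^(k−2) when n = 3k + 2, for every k ≥ 2 (so for all degrees n ≥ 6). -/
theorem result (k : ℕ) (hk : 2 ≤ k) :
    IsGreatest {c : ℕ | ∃ A : Subgroup (alternatingGroup (Fin (3 * k))), IsMulCommutative A ∧ Nat.card A = c} (3 ^ k) ∧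
    IsGreatest {c : ℕ | ∃ A : Subgroup (alternatingGroup (Fin (3 * k + 1))), IsMulCommutative A ∧ Nat.card A = c}
      (4 * 3 ^ (k - 1)) ∧
    IsGreatest {c : ℕ | ∃ A : Subgroup (alternatingGroup (Fin (3 * k + 2))), IsMulCommutative A ∧ Nat.card A = c}
      (16 * 3 ^ (k - 2)) := by
  obtain ⟨j, rfl⟩ : ∃ j, k = j + 2 := ⟨k - 2, by omega⟩
  refine ⟨⟨?_, ?_⟩, ⟨?_, ?_⟩, ⟨?_, ?_⟩⟩
  · have := hasAbE_three_pow 0 1 hasAbE_zero (j + 2)
    rw [zero_add, one_mul] at this
    exact hasAbE_alt _ _ this
  · rintro c ⟨A, hA, rfl⟩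
    obtain ⟨B, hB, hcard, -⟩ := alt_to_perm _ A hA
    rw [← hcard, ← (gmax_3k (j + 2)).1]
    exact abelian_bound _ (Fin (3 * (j + 2))) (Fintype.card_fin _) B hB
  · have := hasAbE_three_pow 4 4 (by simpa using hasAbE_four 0 1 hasAbE_zero) (j + 1)
    rw [show 4 + 3 * (j + 1) = 3 * (j + 2) + 1 by ring] at this
    exact hasAbE_alt _ _ this
  · rintro c ⟨A, hA, rfl⟩
    obtain ⟨B, hB, hcard, -⟩ := alt_to_perm _ A hA
    rw [← hcard, show j + 2 - 1 = j + 1 from rfl, ← (gmax_3k (j + 1)).2.2]
    exact abelian_bound _ (Fin (3 * (j + 2) + 1)) (Fintype.card_fin _) B hB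
  · have h8 : HasAbE 8 16 := by
      have := hasAbE_four 4 4 (by simpa using hasAbE_four 0 1 hasAbE_zero)
      simpa using this
    have := hasAbE_three_pow 8 16 h8 j
    rw [show 8 + 3 * j = 3 * (j + 2) + 2 by ring] at this
    exact hasAbE_alt _ _ this
  · rintro c ⟨A, hA, rfl⟩
    obtain ⟨B, hB, hcard, heven⟩ := alt_to_perm _ A hA
    rw [← hcard, show j + 2 - 2 = j from rfl]
    have h := even_bound j
    rw [show 3 * j + 8 = 3 * (j + 2) + 2 by ring] at h
    exact h B hB heven

end Cfsg.Agent.S2504
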