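import Mathlib
import Cfsg.Agent.Lib.Helper5.Pres120
import Cfsg.Agent.Lib.Helper17.Simple
import Cfsg.Agent.S0144
import Cfsg.Agent.S0494
import Cfsg.Agent.S3377
import Cfsg.Statements.S3378

set_option autoImplicit false
open Cfsg

namespace Cfsg.Agent.S3378

open Cfsg.Agent.Lib.Helper5

section aux

/-- Two non-identity elements of a subgroup of order 2 are equal. -/
theorem eq_of_card_two {H : Type*} [Group H] {P : Subgroup H} (h : Nat.card P = 2) {a b : H}
    (ha : a ∈ P) (hb : b ∈ P) (ha1 : a ≠ 1) (hb1 : b ≠ 1) : a = b := by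
  obtain ⟨y, -, hy⟩ := (Nat.card_eq_two_iff' (1 : P)).1 h
  have h1 := hy ⟨a, ha⟩ (fun h => ha1 (congrArg Subtype.val h))
  have h2 := hy ⟨b, hb⟩ (fun h => hb1 (congrArg Subtype.val h))
  exact congrArg Subtype.val (h1.trans h2.symm)

/-- Groups of order 30 are solvable. -/
theorem solvable_of_card_eq_30 {H : Type*} [Group H] [Finite H] (h : Nat.card H = 30) :
    Group.IsSolvable H := by
  have : Fact (Nat.Prime 2) := ⟨Nat.prime_two⟩
  obtain ⟨P⟩ : Nonempty (Sylow 2 H) := inferInstance
  have hP : Nat.card (P : Subgroup H) = 2 := by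
    have := Lib.Helper17.card_sylow_eq_of_card_eq 2 1 15 (by rw [h]; norm_num) (by decide) P
    simpa using this
  have hNC : Subgroup.normalizer ((P : Subgroup H) : Set H)
      ≤ Subgroup.centralizer ((P : Subgroup H) : Set H) := by
    intro g hg
    rw [Subgroup.mem_centralizer_iff]
    intro x hx
    by_cases hx1 : x = 1
    · subst hx1; simp
    · have h1 : g * x * g⁻¹ ∈ (P : Subgroup H) := (Subgroup.mem_normalizer_iff.1 hg x).1 hx
      have h2 : g * x * g⁻¹ ≠ 1 := by
        intro h3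
        apply hx1
        have h4 : x = g⁻¹ * (g * x * g⁻¹) * g := by group
        rw [h4, h3]
        group
      have h4 : g * x * g⁻¹ = x := eq_of_card_two hP h1 hx h2 hx1
      calc x * g = g * x * g⁻¹ * g := by rw [h4]
        _ = g * x := by group
  have hc := MonoidHom.ker_transferSylow_isComplement' P hNC
  have hcard := hc.card_mul_card
  have hK : Nat.card (MonoidHom.transferSylow P hNC).ker = 15 := by
    rw [hP, h] at hcard
    omega
  have s1 : Group.IsSolvable (MonoidHom.transferSylow P hNC).ker :=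
    Cfsg.Agent.S0144.result 3 5 1 1 Nat.prime_three (by norm_num) (by rw [hK]; norm_num)
  have s2 : Group.IsSolvable (P : Subgroup H) :=
    Cfsg.Agent.S0144.result 2 3 1 0 Nat.prime_two Nat.prime_three (by rw [hP]; norm_num)
  exact Group.isSolvable_of_ker_le_range (MonoidHom.transferSylow P hNC).ker.subtype
    (MonoidHom.transferSylow P hNC) (by simp)

/-- Groups of order properly dividing 60 are solvable. -/
theorem solvable_of_card_dvd_60 {H : Type*} [Group H] [Finite H] (h : Nat.card H ∣ 60)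
    (hlt : Nat.card H < 60) : Group.IsSolvable H := by
  obtain ⟨n, hn⟩ : ∃ n, Nat.card H = n := ⟨_, rfl⟩
  rw [hn] at h hlt
  have hpos : 0 < n := hn ▸ Nat.card_pos
  have key : ∀ (p q a b : ℕ), p.Prime → q.Prime → n = p ^ a * q ^ b → Group.IsSolvable H :=
    fun p q a b hp hq e => Cfsg.Agent.S0144.result p q a b hp hq (hn.trans e)
  have h5 : Nat.Prime 5 := by norm_num
  interval_cases n <;> first
    | exact absurd h (by decide)
    | exact solvable_of_card_eq_30 hn
    | exact key 2 3 0 0 Nat.prime_two Nat.prime_three rfl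
    | exact key 2 3 1 0 Nat.prime_two Nat.prime_three rfl
    | exact key 2 3 0 1 Nat.prime_two Nat.prime_three rfl
    | exact key 2 3 2 0 Nat.prime_two Nat.prime_three rfl
    | exact key 2 5 0 1 Nat.prime_two h5 rfl
    | exact key 2 3 1 1 Nat.prime_two Nat.prime_three rfl
    | exact key 2 5 1 1 Nat.prime_two h5 rfl
    | exact key 2 3 2 1 Nat.prime_two Nat.prime_three rfl
    | exact key 3 5 1 1 Nat.prime_three h5 rfl
    | exact key 2 5 2 1 Nat.prime_two h5 rfl

/-- A non-solvable group of order 60 is simple. -/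
theorem simple_of_card_60 {H : Type*} [Group H] [Finite H] (h : Nat.card H = 60)
    (hns : ¬ Group.IsSolvable H) : IsSimpleGroup H := by
  have hnt : Nontrivial H := by
    rw [← Finite.one_lt_card_iff_nontrivial, h]
    norm_num
  refine ⟨fun M hM => ?_⟩
  by_contra hcon
  push Not at hcon
  obtain ⟨hb, ht⟩ := hcon
  apply hns
  have hdvd : Nat.card M ∣ 60 := h ▸ Subgroup.card_subgroup_dvd_card M
  have hle : Nat.card M ≤ 60 := Nat.le_of_dvd (by norm_num) hdvd
  have hlt : Nat.card M < 60 := by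
    rcases Nat.lt_or_ge (Nat.card M) 60 with h1 | h1
    · exact h1
    · exact absurd (Subgroup.eq_top_of_card_eq M (by rw [h]; omega)) ht
  have hq := Subgroup.card_eq_card_quotient_mul_card_subgroup M
  rw [h] at hq
  have hM1 : 1 < Nat.card M := (Subgroup.one_lt_card_iff_ne_bot M).2 hb
  have s1 : Group.IsSolvable M := solvable_of_card_dvd_60 hdvd hlt
  have s2 : Group.IsSolvable (H ⧸ M) :=
    solvable_of_card_dvd_60 ⟨Nat.card M, hq⟩ (by nlinarith)
  exact (Group.isSolvable_iff_subgroup_quotient M).2 ⟨s1, s2⟩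

theorem q8_a2_ne : (QuaternionGroup.a 2 : QuaternionGroup 2) ≠ 1 := by decide

theorem q8_a2_sq : (QuaternionGroup.a 2 : QuaternionGroup 2) * QuaternionGroup.a 2 = 1 := by
  decide

theorem q8_key : ∀ g : QuaternionGroup 2, g ≠ 1 →
    g = QuaternionGroup.a 2 ∨ g ^ 2 = QuaternionGroup.a 2 := by decide

theorem q8_inv : ∀ g : QuaternionGroup 2, g ^ 2 = 1 → g = 1 ∨ g = QuaternionGroup.a 2 := by
  decide

/-- In a faithful-or-not action of the quaternion group on fewer than 8 points the central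
involution acts trivially. -/
theorem quaternion_fix {S X : Type*} [Group S] [MulAction S X] [Finite X]
    (e : S ≃* QuaternionGroup 2) (hX : Nat.card X < 8) (x : X) :
    e.symm (QuaternionGroup.a 2) • x = x := by
  by_contra hne
  have hstab : MulAction.stabilizer S x = ⊥ := by
    rw [eq_bot_iff]
    intro g hg
    rw [Subgroup.mem_bot]
    by_contra hg1
    have h1 : e g ≠ 1 := fun h => hg1 ((MulEquiv.map_eq_one_iff e).1 h)
    rcases q8_key (e g) h1 with h2 | h2
    · apply hne
      rw [← h2, MulEquiv.symm_apply_apply]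
      exact hg
    · apply hne
      rw [← h2, ← map_pow, MulEquiv.symm_apply_apply]
      exact (MulAction.stabilizer S x).pow_mem hg 2
  have h8 : Nat.card S = 8 := by
    rw [Nat.card_congr e.toEquiv, Nat.card_eq_fintype_card, QuaternionGroup.card]
  have horb : (MulAction.orbit S x).ncard = 8 := by
    rw [← MulAction.index_stabilizer, hstab, Subgroup.index_bot, h8]
  have hle : (MulAction.orbit S x).ncard ≤ Nat.card X := Set.ncard_le_card _
  omega

theorem mem_ker_iff {G : Type*} [Group G] (g : G) :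
    g ∈ (MulAction.toPermHom G (Sylow 5 G)).ker ↔ ∀ P : Sylow 5 G, g • P = P := by
  rw [MonoidHom.mem_ker, Equiv.Perm.ext_iff]
  rfl

theorem στ_ne : Cfsg.Agent.S3377.σ * Cfsg.Agent.S3377.τ ≠ 1 := by decide

theorem closure_στ : Subgroup.closure
    ({Cfsg.Agent.S3377.σ, Cfsg.Agent.S3377.τ} : Set (alternatingGroup (Fin 5))) = ⊤ := by
  rw [eq_top_iff, ← MonoidHom.range_eq_top.2 Cfsg.Agent.S3377.φ_surjective,
    MonoidHom.range_eq_map, ← PresentedGroup.closure_range_of, MonoidHom.map_closure,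
    Subgroup.closure_le]
  rintro _ ⟨_, ⟨i, rfl⟩, rfl⟩
  fin_cases i
  · exact Subgroup.subset_closure (Or.inl Cfsg.Agent.S3377.φ_of0)
  · exact Subgroup.subset_closure (Or.inr Cfsg.Agent.S3377.φ_of1)

end aux

/-- The first part: a non-solvable group of order 120 with quaternion Sylow 2-subgroups is
`SL₂(5)`. -/
theorem part1 (G : Type*) [Group G] [Finite G] (hG : Nat.card G = 120)
    (hns : ¬ Group.IsSolvable G)
    (hQ : ∀ P : Sylow 2 G, Nonempty ((P : Subgroup G) ≃* QuaternionGroup 2)) :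
    Nonempty (G ≃* Matrix.SpecialLinearGroup (Fin 2) (ZMod 5)) := by
  classical
  have : Fact (Nat.Prime 2) := ⟨Nat.prime_two⟩
  have : Fact (Nat.Prime 5) := ⟨by norm_num⟩
  have hP5 : ∀ P : Sylow 5 G, Nat.card (P : Subgroup G) = 5 := by
    intro P
    have := Lib.Helper17.card_sylow_eq_of_card_eq 5 1 24 (by rw [hG]; norm_num) (by decide) P
    simpa using this
  -- six Sylow 5-subgroups
  have h5 : Nat.card (Sylow 5 G) = 6 := by
    have hmem := Lib.Helper17.card_sylow_mem_cands (G := G) 5 1 24 (by rw [hG]; norm_num) (by norm_num)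
    have hc : Lib.Helper17.sylowCands 5 24 = [1, 6] := by decide
    rw [hc] at hmem
    simp only [List.mem_cons, List.not_mem_nil, or_false] at hmem
    rcases hmem with h1 | h6
    · exfalso
      have hsub : Subsingleton (Sylow 5 G) := (Nat.card_eq_one_iff_unique.1 h1).1
      obtain ⟨P⟩ : Nonempty (Sylow 5 G) := inferInstance
      have hn : (P : Subgroup G).Normal := Sylow.normal_of_subsingleton P
      have s1 : Group.IsSolvable (P : Subgroup G) :=
        Cfsg.Agent.S0144.result 5 2 1 0 (by norm_num) Nat.prime_two (by rw [hP5 P]; norm_num)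
      have hq : Nat.card (G ⧸ (P : Subgroup G)) = 24 := by
        have := Subgroup.card_eq_card_quotient_mul_card_subgroup (P : Subgroup G)
        rw [hG, hP5 P] at this
        omega
      have s2 : Group.IsSolvable (G ⧸ (P : Subgroup G)) :=
        Cfsg.Agent.S0144.result 2 3 3 1 Nat.prime_two Nat.prime_three (by rw [hq]; norm_num)
      exact hns ((Group.isSolvable_iff_subgroup_quotient (P : Subgroup G)).2 ⟨s1, s2⟩)
    · exact h6
  have hfin5 : Finite (Sylow 5 G) := Nat.finite_of_card_ne_zero (by rw [h5]; norm_num)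
  -- the kernel of the action on the Sylow 5-subgroups
  set K : Subgroup G := (MulAction.toPermHom G (Sylow 5 G)).ker with hKdef
  have hKn : K.Normal := MonoidHom.normal_ker _
  have hKmem : ∀ g : G, g ∈ K ↔ ∀ P : Sylow 5 G, g • P = P := fun g => mem_ker_iff g
  -- a Sylow 2-subgroup and its involution
  obtain ⟨S⟩ : Nonempty (Sylow 2 G) := inferInstance
  obtain ⟨e⟩ := hQ S
  set z : G := ((e.symm (QuaternionGroup.a 2) : (S : Subgroup G)) : G) with hz
  have hzS : z ∈ (S : Subgroup G) := (e.symm (QuaternionGroup.a 2)).2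
  have hzK : z ∈ K := by
    rw [hKmem]
    intro P
    exact quaternion_fix e (X := Sylow 5 G) (by rw [h5]; norm_num) P
  have hz1 : z ≠ 1 := by
    intro h
    have h2 : e.symm (QuaternionGroup.a 2) = 1 := Subtype.ext h
    rw [MulEquiv.map_eq_one_iff] at h2
    exact q8_a2_ne h2
  have hzz : z * z = 1 := by
    have h2 : e.symm (QuaternionGroup.a 2) * e.symm (QuaternionGroup.a 2) = 1 := by
      rw [← map_mul, q8_a2_sq, map_one]
    exact congrArg Subtype.val h2
  -- the order of `K`
  have hK5 : ¬ 5 ∣ Nat.card K := by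
    intro hdvd
    obtain ⟨k, hk⟩ := exists_prime_orderOf_dvd_card' (G := K) 5 hdvd
    have hk5 : orderOf (k : G) = 5 := by rw [Subgroup.orderOf_coe, hk]
    have hpg : IsPGroup 5 (Subgroup.zpowers (k : G)) :=
      IsPGroup.of_card (n := 1) (by rw [Nat.card_zpowers, hk5, pow_one])
    have hall : ∀ P : Sylow 5 G, (P : Subgroup G) = Subgroup.zpowers (k : G) := by
      intro P
      have hfix : P ∈ MulAction.fixedPoints (Subgroup.zpowers (k : G)) (Sylow 5 G) := by
        rintro ⟨g, hg⟩
        have hgK : g ∈ K := (Subgroup.zpowers_le.2 k.2) hg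
        exact (hKmem g).1 hgK P
      have hle := hpg.sylow_mem_fixedPoints_iff.1 hfix
      exact (Subgroup.eq_of_le_of_card_ge hle (by rw [Nat.card_zpowers, hk5, hP5 P])).symm
    have hsub : Subsingleton (Sylow 5 G) :=
      ⟨fun P Q => Sylow.ext ((hall P).trans (hall Q).symm)⟩
    have h1 : Nat.card (Sylow 5 G) ≤ 1 := Finite.card_le_one_iff_subsingleton.2 hsub
    omega
  have hK20 : Nat.card K ∣ 20 := by
    obtain ⟨P⟩ : Nonempty (Sylow 5 G) := inferInstance
    have hle : K ≤ Subgroup.normalizer ((P : Subgroup G) : Set G) :=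
      fun g hg => Sylow.smul_eq_iff_mem_normalizer.1 ((hKmem g).1 hg P)
    have hN : Nat.card (Subgroup.normalizer ((P : Subgroup G) : Set G)) = 20 := by
      have := Lib.Helper17.card_sylow_mul_card_normalizer 5 P
      rw [h5, hG] at this
      omega
    rw [← hN]
    exact Subgroup.card_dvd_of_le hle
  have hK2 : 2 ∣ Nat.card K := by
    have ho : orderOf z = 2 := orderOf_eq_prime (by rw [pow_two]; exact hzz) hz1
    have := Subgroup.orderOf_dvd_natCard K hzK
    rwa [ho] at this
  have hKcard : Nat.card K = 2 := by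
    obtain ⟨n, hn⟩ : ∃ n, Nat.card K = n := ⟨_, rfl⟩
    rw [hn] at hK5 hK20 hK2 ⊢
    have hn20 : n ≤ 20 := Nat.le_of_dvd (by norm_num) hK20
    have h24 : n = 2 ∨ n = 4 := by
      interval_cases n <;> omega
    rcases h24 with h | h
    · exact h
    · exfalso
      have s1 : Group.IsSolvable K :=
        Cfsg.Agent.S0144.result 2 3 2 0 Nat.prime_two Nat.prime_three (by rw [hn, h]; norm_num)
      have hq : Nat.card (G ⧸ K) = 30 := by
        have := Subgroup.card_eq_card_quotient_mul_card_subgroup K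
        rw [hG, hn, h] at this
        omega
      have s2 : Group.IsSolvable (G ⧸ K) := solvable_of_card_eq_30 hq
      exact hns ((Group.isSolvable_iff_subgroup_quotient K).2 ⟨s1, s2⟩)
  have hKelt : ∀ k ∈ K, k = 1 ∨ k = z := by
    intro k hk
    by_cases h1 : k = 1
    · exact Or.inl h1
    · exact Or.inr (eq_of_card_two hKcard hk hzK h1 hz1)
  have hKsq : ∀ k ∈ K, k * k = 1 := by
    intro k hk
    rcases hKelt k hk with rfl | rfl
    · simp
    · exact hzz
  -- `z` is central
  have hzc : ∀ g : G, g * z = z * g := by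
    intro g
    have h1 : g * z * g⁻¹ ∈ K := hKn.conj_mem z hzK g
    rcases hKelt _ h1 with h | h
    · exfalso
      apply hz1
      have h2 : z = g⁻¹ * (g * z * g⁻¹) * g := by group
      rw [h2, h]
      group
    · calc g * z = g * z * g⁻¹ * g := by group
        _ = z * g := by rw [h]
  -- the quotient is `A₅`
  have hq60 : Nat.card (G ⧸ K) = 60 := by
    have := Subgroup.card_eq_card_quotient_mul_card_subgroup K
    rw [hG, hKcard] at this
    omega
  have hqns : ¬ Group.IsSolvable (G ⧸ K) := by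
    intro s2
    have s1 : Group.IsSolvable K :=
      Cfsg.Agent.S0144.result 2 3 1 0 Nat.prime_two Nat.prime_three (by rw [hKcard]; norm_num)
    exact hns ((Group.isSolvable_iff_subgroup_quotient K).2 ⟨s1, s2⟩)
  have hsimple : IsSimpleGroup (G ⧸ K) := simple_of_card_60 hq60 hqns
  obtain ⟨e₀⟩ := Cfsg.Agent.S0494.result (G := G ⧸ K) hq60
  -- generators
  set xb : G ⧸ K := e₀.symm Cfsg.Agent.S3377.σ with hxb
  set yb : G ⧸ K := e₀.symm Cfsg.Agent.S3377.τ with hyb
  have hxb3 : xb ^ 3 = 1 := by rw [hxb, ← map_pow, Cfsg.Agent.S3377.σ_pow, map_one]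
  have hyb5 : yb ^ 5 = 1 := by rw [hyb, ← map_pow, Cfsg.Agent.S3377.τ_pow, map_one]
  have hxyb : (xb * yb) ^ 2 = 1 := by
    rw [hxb, hyb, ← map_mul, ← map_pow, Cfsg.Agent.S3377.στ_pow, map_one]
  have hxyb1 : xb * yb ≠ 1 := by
    rw [hxb, hyb, ← map_mul]
    intro h
    rw [MulEquiv.map_eq_one_iff] at h
    exact στ_ne h
  obtain ⟨x', hx'⟩ := QuotientGroup.mk_surjective xb
  obtain ⟨y', hy'⟩ := QuotientGroup.mk_surjective yb
  set x : G := x' ^ 4 with hx
  set y : G := y' ^ 6 with hy
  have hmkx : (QuotientGroup.mk x : G ⧸ K) = xb := by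
    rw [hx, QuotientGroup.mk_pow, hx']
    calc xb ^ 4 = xb ^ 3 * xb := pow_succ xb 3
      _ = xb := by rw [hxb3, one_mul]
  have hmky : (QuotientGroup.mk y : G ⧸ K) = yb := by
    rw [hy, QuotientGroup.mk_pow, hy']
    calc yb ^ 6 = yb ^ 5 * yb := pow_succ yb 5
      _ = yb := by rw [hyb5, one_mul]
  have hx3 : x ^ 3 = 1 := by
    have h1 : x' ^ 3 ∈ K := by
      rw [← QuotientGroup.eq_one_iff, QuotientGroup.mk_pow, hx', hxb3]
    have h2 := hKsq _ h1
    calc x ^ 3 = (x' ^ 3 * x' ^ 3) ^ 2 := by rw [hx]; group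
      _ = 1 := by rw [h2, one_pow]
  have hy5 : y ^ 5 = 1 := by
    have h1 : y' ^ 5 ∈ K := by
      rw [← QuotientGroup.eq_one_iff, QuotientGroup.mk_pow, hy', hyb5]
    have h2 := hKsq _ h1
    calc y ^ 5 = (y' ^ 5 * y' ^ 5) ^ 3 := by rw [hy]; group
      _ = 1 := by rw [h2, one_pow]
  have hw : (x * y) ^ 2 ∈ K := by
    rw [← QuotientGroup.eq_one_iff, QuotientGroup.mk_pow, QuotientGroup.mk_mul, hmkx, hmky, hxyb]
  have hxyz : (x * y) ^ 2 = z := by
    rcases hKelt _ hw with h | h
    · exfalso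
      have hu1 : x * y ≠ 1 := by
        intro h1
        apply hxyb1
        rw [← hmkx, ← hmky, ← QuotientGroup.mk_mul, h1]
        rfl
      have huK : x * y ∉ K := by
        intro hk
        apply hxyb1
        rw [← hmkx, ← hmky, ← QuotientGroup.mk_mul]
        exact (QuotientGroup.eq_one_iff _).2 hk
      apply huK
      have huo : orderOf (x * y) = 2 := orderOf_eq_prime h hu1
      have hpg : IsPGroup 2 (Subgroup.zpowers (x * y)) :=
        IsPGroup.of_card (n := 1) (by rw [Nat.card_zpowers, huo, pow_one])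
      obtain ⟨S', hS'⟩ := hpg.exists_le_sylow
      have huS : x * y ∈ (S' : Subgroup G) := hS' (Subgroup.mem_zpowers (x * y))
      obtain ⟨g, hg⟩ := MulAction.exists_smul_eq G S S'
      have hzS' : z ∈ (S' : Subgroup G) := by
        rw [← hg]
        have h3 : g * z * g⁻¹ ∈ ((g • S : Sylow 2 G) : Subgroup G) := by
          rw [Sylow.coe_subgroup_smul]
          exact Subgroup.smul_mem_pointwise_smul z (MulAut.conj g) (S : Subgroup G) hzS
        have h4 : g * z * g⁻¹ = z := by rw [hzc g]; group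
        rwa [h4] at h3
      obtain ⟨e'⟩ := hQ S'
      have key : ∀ a : (S' : Subgroup G), a * a = 1 → a = 1 ∨ e' a = QuaternionGroup.a 2 := by
        intro a ha
        have h5 : (e' a) ^ 2 = 1 := by rw [pow_two, ← map_mul, ha, map_one]
        rcases q8_inv (e' a) h5 with h6 | h6
        · left
          exact (MulEquiv.map_eq_one_iff e').1 h6
        · right
          exact h6
      have hu' := key ⟨x * y, huS⟩ (Subtype.ext (by rw [← pow_two]; exact h))
      have hz' := key ⟨z, hzS'⟩ (Subtype.ext hzz)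
      have hu'' : e' ⟨x * y, huS⟩ = QuaternionGroup.a 2 :=
        hu'.resolve_left (fun h7 => hu1 (congrArg Subtype.val h7))
      have hz'' : e' ⟨z, hzS'⟩ = QuaternionGroup.a 2 :=
        hz'.resolve_left (fun h7 => hz1 (congrArg Subtype.val h7))
      have h8 : (⟨x * y, huS⟩ : (S' : Subgroup G)) = ⟨z, hzS'⟩ :=
        e'.injective (hu''.trans hz''.symm)
      have huz : x * y = z := congrArg Subtype.val h8
      rw [huz]
      exact hzK
    · exact h
  -- the homomorphism from the presented group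
  have hzinv : z⁻¹ = z := inv_eq_of_mul_eq_one_left hzz
  have hc4 : z⁻¹ * x * z * x⁻¹ = 1 := by
    calc z⁻¹ * x * z * x⁻¹ = z⁻¹ * (x * z) * x⁻¹ := by group
      _ = z⁻¹ * (z * x) * x⁻¹ := by rw [hzc x]
      _ = 1 := by group
  have hc5 : z⁻¹ * y * z * y⁻¹ = 1 := by
    calc z⁻¹ * y * z * y⁻¹ = z⁻¹ * (y * z) * y⁻¹ := by group
      _ = z⁻¹ * (z * y) * y⁻¹ := by rw [hzc y]
      _ = 1 := by group
  have hc3 : z ^ 2 = 1 := by rw [pow_two]; exact hzz
  have hc6 : (x * y) ^ 2 * z⁻¹ = 1 := by rw [hxyz, mul_inv_cancel]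
  let f := Pres120.lift x y z hx3 hy5 hc3 hc4 hc5 hc6
  have fx : f (PresentedGroup.of 0) = x := Pres120.lift_x x y z hx3 hy5 hc3 hc4 hc5 hc6
  have fy : f (PresentedGroup.of 1) = y := Pres120.lift_y x y z hx3 hy5 hc3 hc4 hc5 hc6
  have fz : f (PresentedGroup.of 2) = z := Pres120.lift_z x y z hx3 hy5 hc3 hc4 hc5 hc6
  have hsurj : Function.Surjective f := by
    rw [← MonoidHom.range_eq_top, eq_top_iff]
    have hxR : x ∈ f.range := ⟨_, fx⟩
    have hyR : y ∈ f.range := ⟨_, fy⟩
    have hzR : z ∈ f.range := ⟨_, fz⟩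
    have htop : ((f.range.map (QuotientGroup.mk' K)).comap e₀.symm.toMonoidHom) = ⊤ := by
      rw [eq_top_iff, ← closure_στ, Subgroup.closure_le]
      rintro a (rfl | rfl)
      · exact ⟨x, hxR, hmkx⟩
      · exact ⟨y, hyR, hmky⟩
    intro g _
    have h1 : e₀ (QuotientGroup.mk g)
        ∈ ((f.range.map (QuotientGroup.mk' K)).comap e₀.symm.toMonoidHom) := by
      rw [htop]
      trivial
    rw [Subgroup.mem_comap] at h1
    have h2 : (QuotientGroup.mk g : G ⧸ K) ∈ f.range.map (QuotientGroup.mk' K) := by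
      simpa using h1
    obtain ⟨r, hr, hrg⟩ := h2
    have h3 : r⁻¹ * g ∈ K := QuotientGroup.eq.1 hrg
    have h4 : r⁻¹ * g ∈ f.range := by
      rcases hKelt _ h3 with h | h
      · rw [h]
        exact one_mem _
      · rw [h]
        exact hzR
    have h5 : g = r * (r⁻¹ * g) := by group
    rw [h5]
    exact mul_mem hr h4
  obtain ⟨hfin, hle⟩ := Pres120.finite_and_card_le
  have hbij : Function.Bijective f := hsurj.bijective_of_nat_card_le (by rw [hG]; exact hle)
  exact ⟨(MulEquiv.ofBijective f hbij).symm.trans Pres120.equivSL⟩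

/-- Every non-solvable group of order 120 whose Sylow 2-subgroups are quaternion of order 8 is isomorphic to SL(2,5), and SL(2,5) has the presentation ⟨x, y, z | x³ = y⁵ = z² = 1, z⁻¹xz = x, z⁻¹yz = y, (xy)² = z⟩. -/
theorem result :
    (∀ (G : Type*) [Group G] [Finite G], Nat.card G = 120 → ¬ Group.IsSolvable G →
      (∀ P : Sylow 2 G, Nonempty ((P : Subgroup G) ≃* QuaternionGroup 2)) →
      Nonempty (G ≃* Matrix.SpecialLinearGroup (Fin 2) (ZMod 5))) ∧
    Nonempty (PresentedGroup ({FreeGroup.of (0 : Fin 3) ^ 3, FreeGroup.of (1 : Fin 3) ^ 5, FreeGroup.of (2 : Fin 3) ^ 2,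
        (FreeGroup.of (2 : Fin 3))⁻¹ * FreeGroup.of 0 * FreeGroup.of 2 * (FreeGroup.of (0 : Fin 3))⁻¹,
        (FreeGroup.of (2 : Fin 3))⁻¹ * FreeGroup.of 1 * FreeGroup.of 2 * (FreeGroup.of (1 : Fin 3))⁻¹,
        (FreeGroup.of (0 : Fin 3) * FreeGroup.of 1) ^ 2 * (FreeGroup.of (2 : Fin 3))⁻¹} : Set (FreeGroup (Fin 3)))
      ≃* Matrix.SpecialLinearGroup (Fin 2) (ZMod 5)) := by
  exact ⟨fun G _ _ hG hns hQ => part1 G hG hns hQ, ⟨Pres120.equivSL⟩⟩

end Cfsg.Agent.S3378
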