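import Mathlib
import Cfsg.Statements.S0959
import Cfsg.Agent.Lib.Helper77.MinMax

set_option autoImplicit false
open Cfsg

namespace Cfsg.Agent.S0959

open Cfsg.Agent.Lib.Helper77 Cfsg.Agent.Lib.Helper16

/-- Let B be a block of the finite group G with defect group D (relative to a maximal ideal M of the algebraic integers containing the prime p), and let P be a p-subgroup. Then there is an element g whose idempotent coefficient for B is a local integer outside the local ideal at M and which has a conjugate centralizing P, if and only if some conjugate of P is contained in D. -/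
theorem result {G : Type*} [Group G] [Finite G] (p : ℕ) [Fact p.Prime] (M : Ideal Cfsg.AlgInt) (hM : Cfsg.IsPModular p M) (B : Set (Cfsg.IrrCharacter G)) (hB : Cfsg.IsPBlock M B) (D : Subgroup G) (hD : Cfsg.IsDefectGroup p M B D) (P : Subgroup G) (hP : IsPGroup p P) : (∃ g : G, Cfsg.MemLocalRing M (Cfsg.blockCoeff B g) ∧ ¬ Cfsg.MemLocalIdeal M (Cfsg.blockCoeff B g) ∧ ∃ c : G, IsConj g c ∧ c ∈ Subgroup.centralizer (P : Set G)) ↔ ∃ x : G, P.map (MulAut.conj x).toMonoidHom ≤ D := by
  classical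
  have := Fintype.ofFinite G
  obtain ⟨g₀, hg₀, P₀, rfl⟩ := hD
  constructor
  · rintro ⟨g, _, hgI, c, hgc, hcP⟩
    obtain ⟨y, hy⟩ := isConj_iff.mp hgc
    have hcI : ¬ Cfsg.MemLocalIdeal M (Cfsg.blockCoeff B c) := by
      rw [← hy, blockCoeff_conj]
      exact hgI
    obtain ⟨x, Q, hxQ⟩ := minmax_a hM B hB g₀ hg₀ P₀ c hcI
    have hPc : ∀ r ∈ P, r * c = c * r := fun r hr => Subgroup.mem_centralizer_iff.mp hcP r hr
    obtain ⟨Q', hQ'⟩ := exists_sylow_centralizer_ge p P hP c hPc
    obtain ⟨c', _, hc'⟩ := sylow_centralizer_conj p c Q Q'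
    have h1 : P ≤ ((P₀ : Subgroup (Subgroup.centralizer ({g₀} : Set G))).map
        (Subgroup.centralizer ({g₀} : Set G)).subtype).map (MulAut.conj (c' * x)).toMonoidHom := by
      rw [← map_conj_map_conj]
      refine hQ'.trans ?_
      rw [hc']
      exact Subgroup.map_mono hxQ
    refine ⟨(c' * x)⁻¹, ?_⟩
    have h2 := Subgroup.map_mono (f := (MulAut.conj (c' * x)⁻¹).toMonoidHom) h1
    rw [map_conj_map_conj, inv_mul_cancel] at h2
    have e1 : (MulAut.conj (1 : G)).toMonoidHom = MonoidHom.id G := by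
      ext z
      simp
    rwa [e1, Subgroup.map_id] at h2
  · rintro ⟨x, hx⟩
    refine ⟨g₀, hg₀.1, hg₀.2.1, x⁻¹ * g₀ * x, isConj_iff.mpr ⟨x⁻¹, by simp⟩, ?_⟩
    rw [Subgroup.mem_centralizer_iff]
    intro u hu
    have h1 : x * u * x⁻¹ ∈ P.map (MulAut.conj x).toMonoidHom := ⟨u, hu, by simp⟩
    obtain ⟨z, _, hz⟩ := hx h1
    have h2 := (Subgroup.mem_centralizer_iff.mp z.2) g₀ rfl
    simp only [Subgroup.coe_subtype] at hz
    rw [hz] at h2
    calc u * (x⁻¹ * g₀ * x) = x⁻¹ * (x * u * x⁻¹ * g₀) * x := by group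
      _ = x⁻¹ * (g₀ * (x * u * x⁻¹)) * x := by rw [h2]
      _ = x⁻¹ * g₀ * x * u := by group

end Cfsg.Agent.S0959
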