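import Cfsg.Statements.S4659
import Cfsg.Agent.Lib.Helper77.MaxPair
import Cfsg.Agent.S0959

set_option autoImplicit false
open Cfsg

namespace Cfsg.Agent.S4659

open Cfsg.Agent.Lib.Helper77 Cfsg.Agent.Lib.Helper16 in
/-- Fix a prime p and a maximal ideal M of the algebraic integers containing p. If (P, e) is a maximal Brauer pair of the p-block B of the finite group G, then P is a defect group of B. -/
theorem result {G : Type*} [Group G] [Fintype G] (p : ℕ) [Fact p.Prime] (M : Ideal Cfsg.AlgInt) (hM : Cfsg.IsPModular p M) (B : Set (Cfsg.IrrCharacter G)) (P : Subgroup G) (e : Set (Cfsg.IrrCharacter (Subgroup.centralizer (P : Set G)))) (hmax : Cfsg.IsMaximalBrauerPair p M B P e) : Cfsg.IsDefectGroup p M B P := by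
  have hMp := isPrime_of_isPModular hM
  obtain ⟨⟨hP, he⟩, hB, hω⟩ := hmax.1
  obtain ⟨D, hD⟩ := exists_isDefectGroup p hMp B hB
  have hcard := card_le_of_isMaximalBrauerPair hM hmax hD
  obtain ⟨g, hgC, hg⟩ := exists_not_memLocalIdeal_blockCoeff_of_isBrauerPairOf hMp hmax.1
  obtain ⟨t, ht⟩ := (Cfsg.Agent.S0959.result p M hM B hB D hD P hP).mp
    ⟨g, memLocalRing_blockCoeff hMp B hB g, hg, g, IsConj.refl g, hgC⟩
  have heq : P.map (MulAut.conj t).toMonoidHom = D :=
    Subgroup.eq_of_le_of_card_ge ht (by rw [card_map_conj]; exact hcard)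
  have hPD : P = D.map (MulAut.conj t⁻¹).toMonoidHom := by
    rw [← heq, map_conj_map_conj]
    ext y
    constructor
    · intro hy
      exact ⟨y, hy, by simp⟩
    · rintro ⟨z, hz, rfl⟩
      simpa using hz
  rw [hPD]
  exact isDefectGroup_map_conj hD t⁻¹

end Cfsg.Agent.S4659
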