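import Cfsg.Statements.S0986
import Mathlib

set_option autoImplicit false
open Cfsg

namespace Cfsg.Agent.S0986

/-- Normalizers grow in Sylow subgroups. -/
theorem exists_mem_normalizer_not_mem {G : Type*} [Group G] [Finite G] {p : ℕ} [Fact p.Prime]
    (R : Sylow p G) (D : Subgroup G) (hD : D ≤ (R : Subgroup G)) (hne : D ≠ (R : Subgroup G)) :
    ∃ x ∈ (R : Subgroup G), x ∈ Subgroup.normalizer (D : Set G) ∧ x ∉ D := by
  have hnil : Group.IsNilpotent ↥(R : Subgroup G) := R.2.isNilpotent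
  have hnc := Group.normalizerCondition_of_isNilpotent (G := ↥(R : Subgroup G))
  have hlt : D.subgroupOf (R : Subgroup G) < ⊤ := by
    rw [lt_top_iff_ne_top, Ne, Subgroup.subgroupOf_eq_top]
    intro h; exact hne (le_antisymm hD h)
  have h2 := hnc _ hlt
  obtain ⟨x, hx1, hx2⟩ := SetLike.exists_of_lt h2
  rw [← Subgroup.subgroupOf_normalizer_eq hD] at hx1
  exact ⟨x.1, x.2, Subgroup.mem_subgroupOf.mp hx1, fun h => hx2 (Subgroup.mem_subgroupOf.mpr h)⟩

theorem card_lt_card_of_le_of_not_mem {G : Type*} [Group G] [Finite G] (D K : Subgroup G) (h : D ≤ K)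
    (x : G) (hxK : x ∈ K) (hxD : x ∉ D) : Nat.card D < Nat.card K := by
  have hle := Subgroup.card_le_of_le h
  rcases hle.lt_or_eq with h1 | h1
  · exact h1
  · exfalso
    have := Subgroup.eq_of_le_of_card_ge h h1.ge
    exact hxD (this ▸ hxK)

/-- Let P and Q be distinct Sylow p-subgroups of a finite group G chosen so that the order of P ∩ Q is as large as possible among intersections of two distinct Sylow p-subgroups, and let N be the normalizer of P ∩ Q. Then N has more than one Sylow p-subgroup, any two distinct Sylow p-subgroups of N intersect exactly in P ∩ Q, and each Sylow p-subgroup of N lies in exactly one Sylow p-subgroup of G. -/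
theorem result {G : Type*} [Group G] [Finite G] (p : ℕ) [Fact p.Prime] (P Q : Sylow p G) (hPQ : P ≠ Q) (hmax : ∀ P' Q' : Sylow p G, P' ≠ Q' → Nat.card ↥((P' : Subgroup G) ⊓ (Q' : Subgroup G)) ≤ Nat.card ↥((P : Subgroup G) ⊓ (Q : Subgroup G))) : 1 < Nat.card (Sylow p ↥(Subgroup.normalizer (((P : Subgroup G) ⊓ (Q : Subgroup G) : Subgroup G) : Set G))) ∧ (∀ S T : Sylow p ↥(Subgroup.normalizer (((P : Subgroup G) ⊓ (Q : Subgroup G) : Subgroup G) : Set G)), S ≠ T → (S : Subgroup _) ⊓ (T : Subgroup _) = ((P : Subgroup G) ⊓ (Q : Subgroup G)).subgroupOf (Subgroup.normalizer (((P : Subgroup G) ⊓ (Q : Subgroup G) : Subgroup G) : Set G))) ∧ ∀ S : Sylow p ↥(Subgroup.normalizer (((P : Subgroup G) ⊓ (Q : Subgroup G) : Subgroup G) : Set G)), ∃! T : Sylow p G, (S : Subgroup _).map (Subgroup.normalizer (((P : Subgroup G) ⊓ (Q : Subgroup G) : Subgroup G) : Set G)).subtype ≤ (T : Subgroup G) := by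
  set D : Subgroup G := (P : Subgroup G) ⊓ (Q : Subgroup G) with hD
  set N : Subgroup G := Subgroup.normalizer (D : Set G) with hN
  have hDN : D ≤ N := Subgroup.le_normalizer
  have hDP : D ≠ (P : Subgroup G) := by
    intro h
    have hle : (P : Subgroup G) ≤ (Q : Subgroup G) := by rw [← h]; exact inf_le_right
    exact hPQ (Sylow.ext (P.3 Q.2 hle).symm)
  have hDQ : D ≠ (Q : Subgroup G) := by
    intro h
    have hle : (Q : Subgroup G) ≤ (P : Subgroup G) := by rw [← h]; exact inf_le_left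
    exact hPQ (Sylow.ext (Q.3 P.2 hle))
  -- F3: two Sylow subgroups sharing a subgroup larger than D coincide
  have F3 : ∀ (T T' : Sylow p G) (K : Subgroup G), K ≤ (T : Subgroup G) → K ≤ (T' : Subgroup G) →
      Nat.card D < Nat.card K → T = T' := by
    intro T T' K h1 h2 h3
    by_contra hne
    have := hmax T T' hne
    have h4 := Subgroup.card_le_of_le (le_inf h1 h2)
    omega
  -- F4: Sylow subgroups of N are larger than D
  obtain ⟨x, hxP, hxN, hxD⟩ := exists_mem_normalizer_not_mem P D inf_le_left hDP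
  obtain ⟨y, hyQ, hyN, hyD⟩ := exists_mem_normalizer_not_mem Q D inf_le_right hDQ
  have hcardPN : Nat.card D < Nat.card ((P : Subgroup G) ⊓ N : Subgroup G) :=
    card_lt_card_of_le_of_not_mem D _ (le_inf inf_le_left hDN) x ⟨hxP, hxN⟩ hxD
  have hcardQN : Nat.card D < Nat.card ((Q : Subgroup G) ⊓ N : Subgroup G) :=
    card_lt_card_of_le_of_not_mem D _ (le_inf inf_le_right hDN) y ⟨hyQ, hyN⟩ hyD
  have hcardmap : ∀ K : Subgroup N, Nat.card (K.map N.subtype) = Nat.card K := fun K =>
    Subgroup.card_map_of_injective (Subgroup.subtype_injective N)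
  have hcardsub : ∀ K : Subgroup G, K ≤ N → Nat.card (K.subgroupOf N) = Nat.card K := fun K hK =>
    Nat.card_congr (Subgroup.subgroupOfEquivOfLe hK).toEquiv
  have F4 : ∀ S : Sylow p N, Nat.card D < Nat.card ((S : Subgroup N).map N.subtype) := by
    intro S
    have hpg : IsPGroup p (((P : Subgroup G) ⊓ N).subgroupOf N) := (P.2.to_le inf_le_left).comap_subtype
    obtain ⟨S₀, hS₀⟩ := hpg.exists_le_sylow
    have h1 := Subgroup.card_le_of_le hS₀
    rw [hcardsub _ inf_le_right] at h1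
    have h2 : Nat.card (S₀ : Subgroup N) = Nat.card (S : Subgroup N) := by
      rw [Sylow.card_eq_multiplicity, Sylow.card_eq_multiplicity]
    rw [hcardmap]
    omega
  have F5 : ∀ S : Sylow p N, D ≤ (S : Subgroup N).map N.subtype := by
    intro S d hd
    have hpg : IsPGroup p (D.subgroupOf N) := ((P.2.to_le inf_le_left).comap_subtype)
    have hle := hpg.le_sylow_of_normal S
    exact ⟨⟨d, hDN hd⟩, hle (Subgroup.mem_subgroupOf.mpr hd), rfl⟩
  have hex : ∀ S : Sylow p N, ∃ T : Sylow p G, (S : Subgroup N).map N.subtype ≤ (T : Subgroup G) :=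
    fun S => (S.2.map N.subtype).exists_le_sylow
  refine ⟨?_, ?_, ?_⟩
  · -- more than one Sylow subgroup in N
    have hpgP : IsPGroup p (((P : Subgroup G) ⊓ N).subgroupOf N) := (P.2.to_le inf_le_left).comap_subtype
    have hpgQ : IsPGroup p (((Q : Subgroup G) ⊓ N).subgroupOf N) := (Q.2.to_le inf_le_left).comap_subtype
    obtain ⟨S₁, hS₁⟩ := hpgP.exists_le_sylow
    obtain ⟨S₂, hS₂⟩ := hpgQ.exists_le_sylow
    have hne : S₁ ≠ S₂ := by
      intro heq
      obtain ⟨T, hT⟩ := hex S₁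
      have h1 : (P : Subgroup G) ⊓ N ≤ (T : Subgroup G) := by
        intro z hz
        exact hT ⟨⟨z, hz.2⟩, hS₁ (Subgroup.mem_subgroupOf.mpr hz), rfl⟩
      have h2 : (Q : Subgroup G) ⊓ N ≤ (T : Subgroup G) := by
        intro z hz
        exact hT ⟨⟨z, hz.2⟩, heq ▸ hS₂ (Subgroup.mem_subgroupOf.mpr hz), rfl⟩
      have e1 := F3 T P _ h1 inf_le_left hcardPN
      have e2 := F3 T Q _ h2 inf_le_left hcardQN
      exact hPQ (e1.symm.trans e2)
    have : Nontrivial (Sylow p N) := ⟨⟨S₁, S₂, hne⟩⟩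
    exact Finite.one_lt_card
  · intro S T hST
    obtain ⟨S', hS'⟩ := hex S
    obtain ⟨T', hT'⟩ := hex T
    have hne : S' ≠ T' := by
      intro heq
      apply hST
      have hpg : IsPGroup p (((S' : Subgroup G) ⊓ N).subgroupOf N) := (S'.2.to_le inf_le_left).comap_subtype
      have h1 : (S : Subgroup N) ≤ ((S' : Subgroup G) ⊓ N).subgroupOf N := by
        intro z hz
        exact Subgroup.mem_subgroupOf.mpr ⟨hS' ⟨z, hz, rfl⟩, z.2⟩
      have h2 : (T : Subgroup N) ≤ ((S' : Subgroup G) ⊓ N).subgroupOf N := by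
        intro z hz
        exact Subgroup.mem_subgroupOf.mpr ⟨heq ▸ hT' ⟨z, hz, rfl⟩, z.2⟩
      have e1 := S.3 hpg h1
      have e2 := T.3 hpg h2
      exact Sylow.ext (e1.symm.trans e2)
    have hcard := hmax S' T' hne
    have hDle : D ≤ (S' : Subgroup G) ⊓ (T' : Subgroup G) :=
      le_inf ((F5 S).trans hS') ((F5 T).trans hT')
    have hDeq : D = (S' : Subgroup G) ⊓ (T' : Subgroup G) := Subgroup.eq_of_le_of_card_ge hDle hcard
    apply le_antisymm
    · intro z hz
      rw [Subgroup.mem_subgroupOf, hDeq]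
      exact ⟨hS' ⟨z, hz.1, rfl⟩, hT' ⟨z, hz.2, rfl⟩⟩
    · have hpg : IsPGroup p (D.subgroupOf N) := ((P.2.to_le inf_le_left).comap_subtype)
      exact le_inf (hpg.le_sylow_of_normal S) (hpg.le_sylow_of_normal T)
  · intro S
    obtain ⟨T, hT⟩ := hex S
    refine ⟨T, hT, ?_⟩
    intro T' hT'
    exact F3 T' T _ hT' hT (F4 S)

end Cfsg.Agent.S0986
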