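import Mathlib
import Cfsg.Statements.S0711

set_option autoImplicit false
open Cfsg

namespace Cfsg.Agent.S0711

open Equiv MulAction

variable {α : Type*} [Fintype α] [DecidableEq α]

/-- subsets of the support with at most one exit -/
theorem exists_segment (s : Perm α) : ∀ j : ℕ, j ≤ s.support.card →
    ∃ B : Finset α, B ⊆ s.support ∧ B.card = j ∧ (B.filter (fun y => s y ∉ B)).card ≤ 1 := by
  intro j
  induction j with
  | zero => intro _; exact ⟨∅, Finset.empty_subset _, rfl, by simp⟩
  | succ j ih =>
    intro hj
    obtain ⟨B, hBS, hBc, hBe⟩ := ih (by omega)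
    by_cases hex : ∃ b ∈ B, s b ∉ B
    · obtain ⟨b, hb, hsb⟩ := hex
      refine ⟨insert (s b) B, ?_, ?_, ?_⟩
      · intro x hx
        rw [Finset.mem_insert] at hx
        rcases hx with rfl | hx
        · exact Perm.apply_mem_support.mpr (hBS hb)
        · exact hBS hx
      · rw [Finset.card_insert_of_notMem hsb, hBc]
      · apply le_trans (Finset.card_le_card (t := {s b}) ?_) (by simp)
        intro y hy
        rw [Finset.mem_filter, Finset.mem_insert] at hy
        obtain ⟨hy1, hy2⟩ := hy
        rw [Finset.mem_insert, not_or] at hy2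
        rcases hy1 with rfl | hy1
        · exact Finset.mem_singleton_self _
        · exfalso
          have hyE : y ∈ B.filter (fun y => s y ∉ B) := Finset.mem_filter.mpr ⟨hy1, hy2.2⟩
          have hbE : b ∈ B.filter (fun y => s y ∉ B) := Finset.mem_filter.mpr ⟨hb, hsb⟩
          have : y = b := Finset.card_le_one.mp hBe y hyE b hbE
          exact hy2.1 (by rw [this])
    · push Not at hex
      have : ∃ x ∈ s.support, x ∉ B := by
        by_contra hc
        push Not at hc
        have h1 : s.support ⊆ B := hc
        have := Finset.card_le_card h1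
        omega
      obtain ⟨x, hxS, hxB⟩ := this
      refine ⟨insert x B, ?_, ?_, ?_⟩
      · intro y hy
        rw [Finset.mem_insert] at hy
        rcases hy with rfl | hy
        exacts [hxS, hBS hy]
      · rw [Finset.card_insert_of_notMem hxB, hBc]
      · apply le_trans (Finset.card_le_card (t := {x}) ?_) (by simp)
        intro y hy
        rw [Finset.mem_filter, Finset.mem_insert] at hy
        obtain ⟨hy1, hy2⟩ := hy
        rcases hy1 with rfl | hy1
        · exact Finset.mem_singleton_self _
        · exfalso; exact hy2 (Finset.mem_insert_of_mem (hex y hy1))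

theorem exists_fixing (G : Subgroup (Perm α)) {k : ℕ} (hkn : k ≤ Fintype.card α)
    (hG : IsMultiplyPretransitive G α k) (B : Finset α) (hB : B.card + 1 ≤ k) (x y : α)
    (hx : x ∉ B) (hy : y ∉ B) :
    ∃ t ∈ G, (∀ b ∈ B, t b = b) ∧ t x = y := by
  have h1 : IsMultiplyPretransitive (fixingSubgroup G (B : Set α))
      (SubMulAction.ofFixingSubgroup G (B : Set α)) 1 :=
    SubMulAction.ofFixingSubgroup.isMultiplyPretransitive' (n := k) (B : Set α)
      (by rw [Set.ncard_coe_finset]; exact hB)
      (by rw [ENat.card_eq_coe_fintype_card]; exact_mod_cast hkn)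
  rw [is_one_pretransitive_iff] at h1
  obtain ⟨t, ht⟩ := h1.exists_smul_eq
    ⟨x, by rw [SubMulAction.mem_ofFixingSubgroup_iff]; simpa using hx⟩
    ⟨y, by rw [SubMulAction.mem_ofFixingSubgroup_iff]; simpa using hy⟩
  refine ⟨((t : G) : Perm α), (t : G).2, ?_, ?_⟩
  · intro b hb
    have := (mem_fixingSubgroup_iff G).mp t.2 b (by simpa using hb)
    exact this
  · exact congrArg Subtype.val ht

theorem support_comm_subset (s t : Perm α) (B : Finset α) (hBS : B ⊆ s.support)
    (ht : ∀ b ∈ B, t b = b) :
    (s⁻¹ * (t * s * t⁻¹)).support ⊆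
      (s.support \ (B.filter (fun y => s y ∈ B))) ∪ (((s.support \ B).image t) \ s.support) := by
  intro y hy
  rw [Perm.mem_support] at hy
  by_contra hc
  rw [Finset.mem_union, not_or, Finset.mem_sdiff, Finset.mem_sdiff] at hc
  obtain ⟨h1, h2⟩ := hc
  apply hy
  have hinv : ∀ b ∈ B, t⁻¹ b = b := fun b hb => by
    rw [Perm.inv_eq_iff_eq]; exact (ht b hb).symm
  by_cases hyS : y ∈ s.support
  · have hyA : y ∈ B.filter (fun y => s y ∈ B) := by
      by_contra h; exact h1 ⟨hyS, h⟩
    rw [Finset.mem_filter] at hyA
    simp only [Perm.mul_apply]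
    rw [hinv y hyA.1, ht _ hyA.2]; simp
  · have hsy : s y = y := Perm.notMem_support.mp hyS
    have h3 : t⁻¹ y ∉ s.support := by
      intro h
      by_cases hB : t⁻¹ y ∈ B
      · have h4 := ht _ hB
        have h5 : y = t⁻¹ y := by simpa using h4
        rw [← h5] at hB
        exact hyS (hBS hB)
      · exact h2 ⟨Finset.mem_image.mpr ⟨t⁻¹ y, Finset.mem_sdiff.mpr ⟨h, hB⟩, by simp⟩, hyS⟩
    simp only [Perm.mul_apply]
    rw [Perm.notMem_support.mp h3]
    have h6 : t (t⁻¹ y) = y := by simp
    rw [h6, Perm.inv_eq_iff_eq, hsy]

theorem card_filter_ge (s : Perm α) (B : Finset α)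
    (hBe : (B.filter (fun y => s y ∉ B)).card ≤ 1) :
    B.card ≤ (B.filter (fun y => s y ∈ B)).card + 1 := by
  have := Finset.card_filter_add_card_filter_not (s := B) (fun y => s y ∈ B)
  omega

theorem step (G : Subgroup (Perm α)) {k : ℕ} (hkn : k ≤ Fintype.card α)
    (hG : IsMultiplyPretransitive G α k) (s : Perm α) (hs : s ∈ G)
    (hm4 : 4 ≤ s.support.card) (hmk : s.support.card + 3 ≤ 2 * k) :
    ∃ c ∈ G, c ≠ 1 ∧ c.support.card < s.support.card := by
  have hk4 : 4 ≤ k := by omega
  by_cases hS : s.support = Finset.univ
  · obtain ⟨a, b, c, hab, hac, hbc⟩ :=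
      Fintype.two_lt_card_iff.mp (by omega : 2 < Fintype.card α)
    obtain ⟨t, htG, htB, htx⟩ := exists_fixing G hkn hG {a} (by simp; omega) b c
      (by simpa using hab.symm) (by simpa using hac.symm)
    refine ⟨t, htG, ?_, ?_⟩
    · rintro rfl; exact hbc (by simpa using htx)
    · rw [hS, Finset.card_univ]
      have h1 : t.support ⊆ Finset.univ.erase a := by
        intro x hx
        rw [Finset.mem_erase]
        refine ⟨?_, Finset.mem_univ _⟩
        rintro rfl
        exact (Perm.mem_support.mp hx) (htB x (Finset.mem_singleton_self x))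
      calc t.support.card ≤ (Finset.univ.erase a).card := Finset.card_le_card h1
        _ < Fintype.card α := by
          rw [Finset.card_erase_of_mem (Finset.mem_univ a), Finset.card_univ]; omega
  · obtain ⟨v, hv⟩ : ∃ v, v ∉ s.support := by
      by_contra h; push Not at h; exact hS (Finset.eq_univ_iff_forall.mpr h)
    have hcG : ∀ t ∈ G, s⁻¹ * (t * s * t⁻¹) ∈ G := fun t ht =>
      G.mul_mem (G.inv_mem hs) (G.mul_mem (G.mul_mem ht hs) (G.inv_mem ht))
    by_cases hmk' : s.support.card ≤ k
    · obtain ⟨B, hBS, hBc, hBe⟩ := exists_segment s (s.support.card - 1) (by omega)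
      obtain ⟨x1, hx1S, hx1B⟩ : ∃ x ∈ s.support, x ∉ B := by
        by_contra hc
        push Not at hc
        have h1 : s.support ⊆ B := hc
        have := Finset.card_le_card h1
        omega
      obtain ⟨t, htG, htB, htx⟩ := exists_fixing G hkn hG B (by omega) x1 v hx1B
        (fun h => hv (hBS h))
      refine ⟨s⁻¹ * (t * s * t⁻¹), hcG t htG, ?_, ?_⟩
      · intro h1
        have h2 := congrArg (fun f => f v) h1
        have h3 : t⁻¹ v = x1 := by rw [Perm.inv_eq_iff_eq]; exact htx.symm
        simp only [Perm.mul_apply, Perm.one_apply, h3] at h2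
        rw [Perm.inv_eq_iff_eq, Perm.notMem_support.mp hv, ← htx] at h2
        exact (Perm.mem_support.mp hx1S) (t.injective h2)
      · have hsub := support_comm_subset s t B hBS htB
        have h1 := Finset.card_le_card hsub
        have h2 := Finset.card_union_le (s.support \ (B.filter (fun y => s y ∈ B)))
          (((s.support \ B).image t) \ s.support)
        have h3 : (((s.support \ B).image t) \ s.support).card ≤ (s.support \ B).card :=
          (Finset.card_le_card Finset.sdiff_subset).trans Finset.card_image_le
        have h4 := Finset.card_sdiff_add_card_eq_card hBS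
        have h5 := Finset.card_sdiff_add_card_eq_card
          ((Finset.filter_subset (fun y => s y ∈ B) B).trans hBS)
        have h6 := card_filter_ge s B hBe
        omega
    · obtain ⟨B, hBS, hBc, hBe⟩ := exists_segment s (k - 1) (by omega)
      have h4 := Finset.card_sdiff_add_card_eq_card hBS
      have h5 := Finset.card_sdiff_add_card_eq_card
        ((Finset.filter_subset (fun y => s y ∈ B) B).trans hBS)
      by_cases hex : ∃ b ∈ B, s b ∉ B
      · obtain ⟨b, hb, hsb⟩ := hex
        have hx1S : s b ∈ s.support := Perm.apply_mem_support.mpr (hBS hb)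
        obtain ⟨x2, hx2S, hx2B, hx21⟩ : ∃ x ∈ s.support, x ∉ B ∧ x ≠ s b := by
          by_contra hc
          push Not at hc
          have h1 : s.support ⊆ insert (s b) B := fun x hx => by
            by_contra h
            rw [Finset.mem_insert, not_or] at h
            exact h.1 (hc x hx h.2)
          have := Finset.card_le_card h1
          rw [Finset.card_insert_of_notMem hsb] at this
          omega
        obtain ⟨t, htG, htB, htx⟩ := exists_fixing G hkn hG B (by omega) (s b) x2 hsb hx2B
        refine ⟨s⁻¹ * (t * s * t⁻¹), hcG t htG, ?_, ?_⟩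
        · intro h1
          have h2 := congrArg (fun f => f b) h1
          have h3 : t⁻¹ b = b := by rw [Perm.inv_eq_iff_eq]; exact (htB b hb).symm
          simp only [Perm.mul_apply, Perm.one_apply, h3] at h2
          rw [Perm.inv_eq_iff_eq, htx] at h2
          exact hx21 h2
        · have hsub := support_comm_subset s t B hBS htB
          have h1 := Finset.card_le_card hsub
          have h2 := Finset.card_union_le (s.support \ (B.filter (fun y => s y ∈ B)))
            (((s.support \ B).image t) \ s.support)
          have h3 : (((s.support \ B).image t) \ s.support).card + 1 ≤ (s.support \ B).card := by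
            have h7 : ((s.support \ B).image t) \ s.support ⊆
                ((s.support \ B).erase (s b)).image t := by
              intro z hz
              rw [Finset.mem_sdiff, Finset.mem_image] at hz
              obtain ⟨⟨x, hx, rfl⟩, hz2⟩ := hz
              refine Finset.mem_image.mpr ⟨x, Finset.mem_erase.mpr ⟨?_, hx⟩, rfl⟩
              rintro rfl
              rw [htx] at hz2
              exact hz2 hx2S
            have h8 := (Finset.card_le_card h7).trans Finset.card_image_le
            have h9 : ((s.support \ B).erase (s b)).card + 1 = (s.support \ B).card :=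
              Finset.card_erase_add_one (Finset.mem_sdiff.mpr ⟨hx1S, hsb⟩)
            omega
          have h6 := card_filter_ge s B hBe
          omega
      · push Not at hex
        obtain ⟨x1, hx1S, hx1B⟩ : ∃ x ∈ s.support, x ∉ B := by
          by_contra hc
          push Not at hc
          have h1 : s.support ⊆ B := hc
          have := Finset.card_le_card h1
          omega
        obtain ⟨t, htG, htB, htx⟩ := exists_fixing G hkn hG B (by omega) x1 v hx1B
          (fun h => hv (hBS h))
        refine ⟨s⁻¹ * (t * s * t⁻¹), hcG t htG, ?_, ?_⟩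
        · intro h1
          have h2 := congrArg (fun f => f v) h1
          have h3 : t⁻¹ v = x1 := by rw [Perm.inv_eq_iff_eq]; exact htx.symm
          simp only [Perm.mul_apply, Perm.one_apply, h3] at h2
          rw [Perm.inv_eq_iff_eq, Perm.notMem_support.mp hv, ← htx] at h2
          exact (Perm.mem_support.mp hx1S) (t.injective h2)
        · have hsub := support_comm_subset s t B hBS htB
          have h1 := Finset.card_le_card hsub
          have h2 := Finset.card_union_le (s.support \ (B.filter (fun y => s y ∈ B)))
            (((s.support \ B).image t) \ s.support)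
          have h3 : (((s.support \ B).image t) \ s.support).card ≤ (s.support \ B).card :=
            (Finset.card_le_card Finset.sdiff_subset).trans Finset.card_image_le
          have h6 : B.filter (fun y => s y ∈ B) = B := Finset.filter_true_of_mem hex
          rw [h6] at h1 h2 h5
          omega

theorem exists_small (G : Subgroup (Perm α)) {k : ℕ} (hkn : k ≤ Fintype.card α)
    (hG : IsMultiplyPretransitive G α k) :
    ∀ (m : ℕ) (g : Perm α), g ∈ G → g ≠ 1 → g.support.card = m → m + 3 ≤ 2 * k →
      ∃ h ∈ G, h ≠ 1 ∧ h.support.card ≤ 3 := by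
  intro m
  induction m using Nat.strong_induction_on with
  | _ m ih =>
    intro g hg hg1 hgm hmk
    by_cases h3 : m ≤ 3
    · exact ⟨g, hg, hg1, by omega⟩
    · obtain ⟨c, hc, hc1, hcm⟩ := step G hkn hG g hg (by omega) (by omega)
      exact ih c.support.card (by omega) c hc hc1 rfl (by omega)

/-- A `k`-transitive permutation group (`k ≥ 3`) with a non-identity element of support smaller than `2k - 2` contains a non-identity element of support at most 3, and therefore contains the alternating group. -/
theorem result {α : Type*} [Fintype α] [DecidableEq α] (G : Subgroup (Equiv.Perm α)) {k : ℕ} (hk : 3 ≤ k) (hkn : k ≤ Fintype.card α) (hG : MulAction.IsMultiplyPretransitive G α k) (g : Equiv.Perm α) (hg : g ∈ G) (hg1 : g ≠ 1) (hsupp : g.support.card < 2 * k - 2) : (∃ h : Equiv.Perm α, h ∈ G ∧ h ≠ 1 ∧ h.support.card ≤ 3) ∧ alternatingGroup α ≤ G := by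
  obtain ⟨h, hhG, hh1, hh3⟩ := exists_small G hkn hG g.support.card g hg hg1 rfl (by omega)
  refine ⟨⟨h, hhG, hh1, hh3⟩, ?_⟩
  have h2t : IsMultiplyPretransitive G α 2 :=
    isMultiplyPretransitive_of_le (n := k) (by omega) (by rw [Nat.card_eq_fintype_card]; exact hkn)
  have hprim : IsPreprimitive G α := isPreprimitive_of_is_two_pretransitive h2t
  have hc0 : h.support.card ≠ 0 := by
    rw [Ne, Finset.card_eq_zero, Perm.support_eq_empty_iff]; exact hh1
  have hc1 : h.support.card ≠ 1 := Perm.card_support_ne_one h
  have : h.support.card = 2 ∨ h.support.card = 3 := by omega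
  rcases this with h2 | h3
  · have := Perm.subgroup_eq_top_of_isPreprimitive_of_isSwap_mem hprim h
      (Perm.card_support_eq_two.mp h2) hhG
    rw [this]; exact le_top
  · exact Perm.alternatingGroup_le_of_isPreprimitive_of_isThreeCycle_mem hprim
      (card_support_eq_three_iff.mp h3) hhG

end Cfsg.Agent.S0711
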