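import Mathlib
import Cfsg.Statements.S4219

set_option autoImplicit false
open Cfsg

namespace Cfsg.Agent.S4219

open scoped Pointwise in
theorem sylow_smul_mem {G : Type*} [Group G] {p : ℕ} (S₁ S₂ : Sylow p G) (k : G) (h : k • S₂ = S₁)
    (y : G) : y ∈ (S₁ : Subgroup G) ↔ k⁻¹ * y * k ∈ (S₂ : Subgroup G) := by
  rw [← h, Sylow.coe_subgroup_smul, Subgroup.mem_pointwise_smul_iff_inv_smul_mem]
  simp [MulAut.smul_def]

/-- Let a finite group `G` act `t`-fold transitively on a finite set, let `H` be the stabilizer of `t` distinct points and `P` a Sylow `p`-subgroup of `H`. Then the normalizer of `P` in `G` is `t`-fold transitive on the fixed points of `P`: any `t` distinct fixed points of `P` can be carried to any other `t` distinct fixed points of `P` by an element normalizing `P`. -/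
theorem result {G : Type*} [Group G] [Finite G] {α : Type*} [Fintype α] [MulAction G α] {t : ℕ} (hG : MulAction.IsMultiplyPretransitive G α t) (x : Fin t ↪ α) {p : ℕ} [Fact p.Prime] (P : Sylow p (MulAction.stabilizer G x)) (a b : Fin t ↪ α) (ha : ∀ i, a i ∈ MulAction.fixedPoints ((P : Subgroup (MulAction.stabilizer G x)).map (MulAction.stabilizer G x).subtype) α) (hb : ∀ i, b i ∈ MulAction.fixedPoints ((P : Subgroup (MulAction.stabilizer G x)).map (MulAction.stabilizer G x).subtype) α) : ∃ g ∈ Subgroup.normalizer ((((P : Subgroup (MulAction.stabilizer G x)).map (MulAction.stabilizer G x).subtype) : Subgroup G) : Set G), g • a = b := by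
  classical
  set P' : Subgroup G := (P : Subgroup (MulAction.stabilizer G x)).map (MulAction.stabilizer G x).subtype with hP'
  have hcardP' : Nat.card P' = p ^ (Nat.card (MulAction.stabilizer G x)).factorization p := by
    rw [← P.card_eq_multiplicity]
    exact (Nat.card_congr (Subgroup.equivMapOfInjective _ _ (Subgroup.subtype_injective _)).toEquiv).symm
  have hstab : ∀ y : Fin t ↪ α, Nat.card (MulAction.stabilizer G y) = Nat.card (MulAction.stabilizer G x) := by
    intro y
    obtain ⟨g, rfl⟩ := MulAction.exists_smul_eq G x y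
    rw [MulAction.stabilizer_smul_eq_stabilizer_map_conj]
    exact (Nat.card_congr (Subgroup.equivMapOfInjective _ _ (MulAut.conj g).injective).toEquiv).symm
  have hPa : ∀ (c : Fin t ↪ α), (∀ i, c i ∈ MulAction.fixedPoints P' α) → P' ≤ MulAction.stabilizer G c := by
    intro c hc g hg
    rw [MulAction.mem_stabilizer_iff]
    ext i
    rw [Function.Embedding.smul_apply]
    exact hc i ⟨g, hg⟩
  obtain ⟨h, hh⟩ := MulAction.exists_smul_eq G a b
  have hPb := hPa b hb
  have hPa' := hPa a ha
  set P'' : Subgroup G := P'.map (MulAut.conj h).toMonoidHom with hP''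
  have hP''b : P'' ≤ MulAction.stabilizer G b := by
    rw [← hh, MulAction.stabilizer_smul_eq_stabilizer_map_conj]
    exact Subgroup.map_mono hPa'
  have hcardP'' : Nat.card P'' = Nat.card P' :=
    (Nat.card_congr (Subgroup.equivMapOfInjective _ _ (MulAut.conj h).injective).toEquiv).symm
  set Sb := MulAction.stabilizer G b with hSb
  have hc1 : Nat.card (P'.subgroupOf Sb) = p ^ (Nat.card Sb).factorization p := by
    rw [Nat.card_congr (Subgroup.subgroupOfEquivOfLe hPb).toEquiv, hcardP', hstab b]
  have hc2 : Nat.card (P''.subgroupOf Sb) = p ^ (Nat.card Sb).factorization p := by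
    rw [Nat.card_congr (Subgroup.subgroupOfEquivOfLe hP''b).toEquiv, hcardP'', hcardP', hstab b]
  obtain ⟨k, hk⟩ := MulAction.exists_smul_eq Sb (Sylow.ofCard _ hc2) (Sylow.ofCard _ hc1)
  have hk' : ∀ y : Sb, y ∈ P'.subgroupOf Sb ↔ k⁻¹ * y * k ∈ P''.subgroupOf Sb :=
    fun y => sylow_smul_mem _ _ k hk y
  have key : ∀ y : G, y ∈ Sb → (y ∈ P' ↔ ((k : G) * h)⁻¹ * y * ((k : G) * h) ∈ P') := by
    intro y hy
    have h1 : (⟨y, hy⟩ : Sb) ∈ P'.subgroupOf Sb ↔ y ∈ P' := Subgroup.mem_subgroupOf
    rw [← h1, hk', Subgroup.mem_subgroupOf, hP'', Subgroup.mem_map_equiv]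
    simp [mul_assoc]
  refine ⟨(k : G) * h, ?_, ?_⟩
  · rw [Subgroup.mem_normalizer_iff]
    intro n
    have hconj : ∀ n, ((k : G) * h)⁻¹ * (((k : G) * h) * n * ((k : G) * h)⁻¹) * ((k : G) * h) = n := by
      intro n; group
    constructor
    · intro hn
      have hy : ((k : G) * h) * n * ((k : G) * h)⁻¹ ∈ Sb := by
        have h1 : h * n * h⁻¹ ∈ P'' := ⟨n, hn, by simp [MulAut.conj_apply]⟩
        have h2 := hP''b h1
        have h3 := Sb.mul_mem (Sb.mul_mem k.2 h2) (Sb.inv_mem k.2)
        convert h3 using 1; group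
      rw [key _ hy, hconj]; exact hn
    · intro hn
      have hy := hPb hn
      rw [key _ hy, hconj] at hn; exact hn
  · rw [mul_smul, hh]; exact k.2

end Cfsg.Agent.S4219
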