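import Cfsg.Statements.S4134
import Cfsg.Agent.Lib.Helper69.TwoClassSizes

set_option autoImplicit false
open Cfsg

namespace Cfsg.Agent.S4134

open Cfsg.Agent.Lib.Helper69

/-- Let G be a finite group whose conjugacy classes have exactly two sizes, 1 and n > 1. Then n is a power of a prime p and G is the direct product of a p-group and an abelian group of order prime to p: its Sylow p-subgroup P is normal with an abelian normal complement centralizing it; moreover P has an abelian normal subgroup A with P/A of exponent dividing p. -/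
theorem result {G : Type*} [Group G] [Finite G] (n : ℕ) (hn : 1 < n)
    (h : ∀ x : G, (Subgroup.centralizer ({x} : Set G)).index = 1 ∨ (Subgroup.centralizer ({x} : Set G)).index = n) (hex : ∃ x : G, (Subgroup.centralizer ({x} : Set G)).index = n) :
    ∃ (p : ℕ) (_ : Fact p.Prime) (a : ℕ), n = p ^ a ∧ ∀ P : Sylow p G, (P : Subgroup G).Normal ∧
      (∃ N : Subgroup G, N.Normal ∧ N.IsComplement' (P : Subgroup G) ∧ IsMulCommutative N ∧
        ∀ x ∈ N, ∀ y ∈ (P : Subgroup G), x * y = y * x) ∧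
      ∃ A : Subgroup (P : Subgroup G), A.Normal ∧ IsMulCommutative A ∧ ∀ y : (P : Subgroup G), y ^ p ∈ A := by
  classical
  have hT : TwoCl G n := ⟨hn, h⟩
  obtain ⟨x₀, hx₀⟩ := hex
  have hx₀Z : x₀ ∉ Subgroup.center G := by
    intro hc
    have h1 : Subgroup.centralizer ({x₀} : Set G) = ⊤ := by
      rw [Subgroup.centralizer_eq_top_iff_subset]
      simpa using hc
    rw [h1, Subgroup.index_top] at hx₀
    omega
  obtain ⟨p, hp, huniq⟩ := hT.unique_prime ⟨x₀, hx₀Z⟩
  have : Fact p.Prime := ⟨hp⟩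
  -- every `p'`-element is central
  have hC1 : ∀ g : G, (orderOf g).Coprime p → g ∈ Subgroup.center G := by
    intro g hg
    by_contra hgZ
    obtain ⟨t, ht, j, k, hk, hkj⟩ := exists_primePow_pow_not_mem (Subgroup.center G) (orderOf g)
      (orderOf_pos g) g (pow_orderOf_eq_one g) hgZ
    have htp := huniq t ht (g ^ k) hk j hkj
    rw [htp] at hkj
    apply hk
    have h1 : orderOf (g ^ k) ∣ p ^ j := orderOf_dvd_of_pow_eq_one hkj
    have h2 : orderOf (g ^ k) ∣ orderOf g := orderOf_pow_dvd k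
    have h3 : orderOf (g ^ k) = 1 :=
      Nat.Coprime.eq_one_of_dvd ((Nat.Coprime.coprime_dvd_left h2 hg).pow_right j) h1
    rw [orderOf_eq_one_iff] at h3
    rw [h3]
    exact one_mem _
  -- the index of the centre is a power of `p`
  have hZidx : ∃ k, (Subgroup.center G).index = p ^ k := by
    refine ⟨_, Nat.eq_prime_pow_of_unique_prime_dvd Subgroup.index_ne_zero_of_finite ?_⟩
    intro t ht htd
    by_contra hne
    have : Fact t.Prime := ⟨ht⟩
    obtain ⟨T⟩ : Nonempty (Sylow t G) := inferInstance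
    have hTZ : (T : Subgroup G) ≤ Subgroup.center G := by
      intro v hv
      by_contra hvZ
      obtain ⟨j, hj⟩ := T.isPGroup' ⟨v, hv⟩
      have hj' : v ^ (t ^ j) = 1 := by simpa using congrArg Subtype.val hj
      exact hne (huniq t ht v hvZ j hj')
    exact T.not_dvd_index (dvd_trans htd (Subgroup.index_dvd_of_le hTZ))
  obtain ⟨kZ, hkZ⟩ := hZidx
  have hnZ : n ∣ p ^ kZ := by
    rw [← hkZ, ← hx₀]
    exact Subgroup.index_dvd_of_le (Subgroup.center_le_centralizer _)
  obtain ⟨a, -, hna⟩ := (Nat.dvd_prime_pow hp).mp hnZ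
  refine ⟨p, ⟨hp⟩, a, hna, ?_⟩
  intro P
  have hPn : (P : Subgroup G).Normal := by
    rw [← Subgroup.normalizer_eq_top_iff, ← Subgroup.index_eq_one]
    have h1 : (Subgroup.normalizer ((P : Subgroup G) : Set G)).index ∣ (P : Subgroup G).index :=
      Subgroup.index_dvd_of_le Subgroup.le_normalizer
    have h2 : (Subgroup.normalizer ((P : Subgroup G) : Set G)).index ∣ p ^ kZ := by
      rw [← hkZ]
      exact Subgroup.index_dvd_of_le (Subgroup.center_le_normalizer _)
    obtain ⟨i, -, hi⟩ := (Nat.dvd_prime_pow hp).mp h2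
    rcases Nat.eq_zero_or_pos i with rfl | hipos
    · simpa using hi
    · exfalso
      apply P.not_dvd_index
      rw [hi] at h1
      exact dvd_trans (dvd_pow_self p hipos.ne') h1
  have := hPn
  obtain ⟨H, hH⟩ := Subgroup.exists_left_complement'_of_coprime P.card_coprime_index
  have hHZ : H ≤ Subgroup.center G := by
    intro x hx
    apply hC1
    have h1 : orderOf x ∣ Nat.card H := Subgroup.orderOf_dvd_natCard H hx
    have h2 : (P : Subgroup G).index = Nat.card H := hH.index_eq_card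
    rw [← h2] at h1
    have h3 : Nat.Coprime ((P : Subgroup G).index) p :=
      ((Nat.Prime.coprime_iff_not_dvd hp).mpr P.not_dvd_index).symm
    exact Nat.Coprime.coprime_dvd_left h1 h3
  refine ⟨hPn, ⟨H, ?_, hH, ?_, ?_⟩, ?_⟩
  · refine ⟨fun x hx g => ?_⟩
    have h1 := Subgroup.mem_center_iff.mp (hHZ hx) g
    rw [h1, mul_inv_cancel_right]
    exact hx
  · exact ⟨⟨fun u v => Subtype.ext (Subgroup.mem_center_iff.mp (hHZ v.2) u)⟩⟩
  · intro x hx y _
    exact (Subgroup.mem_center_iff.mp (hHZ hx) y).symm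
  · -- Isaacs' part
    have hpn : p ∣ n := by
      rcases Nat.eq_zero_or_pos a with rfl | hapos
      · rw [hna] at hn
        simp at hn
      · rw [hna]
        exact dvd_pow_self p hapos.ne'
    obtain ⟨a₁, ha₁P, ha₁Z, ha₁c⟩ := hT.exists_sylow_second_center ⟨x₀, hx₀Z⟩ p hpn P
    -- replace `a₁` by a power of order `p` modulo the centre
    obtain ⟨j, hj⟩ := P.isPGroup' ⟨a₁, ha₁P⟩
    have hj' : a₁ ^ (p ^ j) = 1 := by simpa using congrArg Subtype.val hj
    have ho : orderOf (QuotientGroup.mk a₁ : G ⧸ Subgroup.center G) ∣ p ^ j := by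
      apply orderOf_dvd_of_pow_eq_one
      rw [← QuotientGroup.mk_pow, hj']
      rfl
    obtain ⟨i, -, hi⟩ := (Nat.dvd_prime_pow hp).mp ho
    have hi0 : i ≠ 0 := by
      rintro rfl
      rw [pow_zero, orderOf_eq_one_iff, QuotientGroup.eq_one_iff] at hi
      exact ha₁Z hi
    have hx₁Z : a₁ ^ (p ^ (i - 1)) ∉ Subgroup.center G := by
      intro hc
      have h1 : (QuotientGroup.mk a₁ : G ⧸ Subgroup.center G) ^ (p ^ (i - 1)) = 1 := by
        rw [← QuotientGroup.mk_pow]
        exact (QuotientGroup.eq_one_iff _).mpr hc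
      have h2 := orderOf_dvd_of_pow_eq_one h1
      rw [hi] at h2
      have h3 := (Nat.pow_dvd_pow_iff_le_right hp.one_lt).mp h2
      omega
    have hx₁p : (a₁ ^ (p ^ (i - 1))) ^ p ∈ Subgroup.center G := by
      rw [← pow_mul, ← pow_succ, Nat.sub_add_cancel (Nat.one_le_iff_ne_zero.mpr hi0),
        ← QuotientGroup.eq_one_iff, QuotientGroup.mk_pow, ← hi]
      exact pow_orderOf_eq_one _
    have hx₁c : ∀ b ∈ P, (a₁ ^ (p ^ (i - 1)))⁻¹ * (b⁻¹ * a₁ ^ (p ^ (i - 1)) * b)
        ∈ Subgroup.center G := by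
      intro b hb
      rw [comm_mod_center_iff, QuotientGroup.mk_pow]
      exact (comm_mod_center_iff.mp (ha₁c b hb)).pow_left _
    generalize a₁ ^ (p ^ (i - 1)) = x₁ at hx₁Z hx₁p hx₁c
    refine ⟨(Tz x₁).subgroupOf (P : Subgroup G), ?_, ?_, ?_⟩
    · refine ⟨fun u hu b => ?_⟩
      rw [Subgroup.mem_subgroupOf] at hu ⊢
      have h1 : x₁⁻¹ * ((b : G) * x₁ * (b : G)⁻¹) ∈ Subgroup.center G := by
        have h2 := hx₁c (b : G)⁻¹ ((P : Subgroup G).inv_mem b.2)
        rwa [inv_inv] at h2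
      exact Tz_conj_mem h1 hu
    · refine ⟨⟨fun u v => Subtype.ext (Subtype.ext ?_)⟩⟩
      have hu : ((u : (P : Subgroup G)) : G) ∈ Tz x₁ := Subgroup.mem_subgroupOf.mp u.2
      have hv : ((v : (P : Subgroup G)) : G) ∈ Tz x₁ := Subgroup.mem_subgroupOf.mp v.2
      exact (mem_Tz.mp hv _ (mem_Cz.mp (Tz_le_Cz x₁ hu)))
    · intro y
      rw [Subgroup.mem_subgroupOf]
      exact hT.pow_mem_Tz hx₁Z hx₁p (hx₁c (y : G) y.2)

end Cfsg.Agent.S4134
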