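import Cfsg.Statements.S1445
import Cfsg.Agent.S0022
import Cfsg.Agent.Lib.Helper29.Fstar
import Cfsg.Agent.Lib.Helper97.HHFit

set_option autoImplicit false
open Cfsg
open scoped commutatorElement

namespace Cfsg.Agent.S1445

/-- Let G be a solvable group of odd order, K a normal subgroup and R a subgroup with G = KR and the orders of K and R coprime. Suppose K ∩ C_G(x) = K ∩ C_G(R) for every non-identity x ∈ R, and F(K) ∩ C_G(R) = 1. Then [K, R] is contained in the Fitting subgroup of K. -/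
theorem result {G : Type*} [Group G] [Finite G] [Group.IsSolvable G] (hodd : Odd (Nat.card G)) (K R : Subgroup G) [K.Normal] (hKR : K ⊔ R = ⊤) (hcop : (Nat.card K).Coprime (Nat.card R))
    (hprime : ∀ x ∈ R, x ≠ 1 → K ⊓ Subgroup.centralizer ({x} : Set G) = (K ⊓ Subgroup.centralizer (R : Set G)))
    (hF : Cfsg.fittingOf K ⊓ Subgroup.centralizer (R : Set G) = ⊥) :
    ⁅K, R⁆ ≤ Cfsg.fittingOf K := by
  classical
  haveI hFn : (Cfsg.fittingOf K).Normal := by
    unfold Cfsg.fittingOf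
    exact ConjAct.normal_of_characteristic_of_normal
  have hFK : Cfsg.fittingOf K ≤ K := by
    unfold Cfsg.fittingOf
    exact Subgroup.map_subtype_le _
  by_cases hR : R = ⊥
  · rw [hR, Subgroup.commutator_bot_right]
    exact bot_le
  -- an element of prime order in `R`
  have hRcard : Nat.card R ≠ 1 := by
    intro h
    exact hR (Subgroup.card_eq_one.mp h)
  obtain ⟨r, hr, hrdvd⟩ := Nat.exists_prime_and_dvd hRcard
  have hfr : Fact r.Prime := ⟨hr⟩
  obtain ⟨x', hx'⟩ := exists_prime_orderOf_dvd_card' r hrdvd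
  have hxo : orderOf (x' : G) = r := by rw [Subgroup.orderOf_coe, hx']
  obtain ⟨x, hxdef⟩ : ∃ x : G, x = (x' : G) := ⟨_, rfl⟩
  rw [← hxdef] at hxo
  have hxR : x ∈ R := by rw [hxdef]; exact x'.2
  have hx1 : x ≠ 1 := by
    intro h
    rw [h, orderOf_one] at hxo
    exact hr.one_lt.ne hxo
  have hxr : x ^ r = 1 := by rw [← hxo]; exact pow_orderOf_eq_one x
  have hrK : ¬ r ∣ Nat.card K := by
    intro h
    have := Nat.eq_one_of_dvd_coprimes hcop h hrdvd
    exact hr.one_lt.ne' this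
  have hrKcop : Nat.Coprime r (Nat.card K) := (Nat.Prime.coprime_iff_not_dvd hr).mpr hrK
  -- fixed points of `x` on `F(K)`
  have hfixF : ∀ f ∈ Cfsg.fittingOf K, x * f = f * x → f = 1 := by
    intro f hf hxf
    have h1 : f ∈ K ⊓ Subgroup.centralizer ({x} : Set G) := by
      refine Subgroup.mem_inf.mpr ⟨hFK hf, ?_⟩
      rw [Subgroup.mem_centralizer_iff]
      intro h hh
      rw [Set.mem_singleton_iff.mp hh]
      exact hxf
    rw [hprime x hxR hx1] at h1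
    have h2 : f ∈ Cfsg.fittingOf K ⊓ Subgroup.centralizer (R : Set G) :=
      Subgroup.mem_inf.mpr ⟨hf, (Subgroup.mem_inf.mp h1).2⟩
    rw [hF] at h2
    exact Subgroup.mem_bot.mp h2
  -- the subgroup `K⟨x⟩`
  obtain ⟨G₀, hG₀⟩ : ∃ G₀ : Subgroup G, G₀ = K ⊔ Subgroup.zpowers x := ⟨_, rfl⟩
  have hKG₀ : K ≤ G₀ := by rw [hG₀]; exact le_sup_left
  have hxG₀ : x ∈ G₀ := by rw [hG₀]; exact Subgroup.mem_sup_right (Subgroup.mem_zpowers x)
  have hodd₀ : Odd (Nat.card G₀) := Odd.of_dvd_nat hodd (Subgroup.card_subgroup_dvd_card G₀)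
  let x₀ : ↥G₀ := ⟨x, hxG₀⟩
  have hxr₀ : x₀ ^ r = 1 := Subtype.ext (by rw [Subgroup.coe_pow]; exact hxr)
  have hrK₀ : ¬ r ∣ Nat.card (K.subgroupOf G₀) := by
    rw [Nat.card_congr (Subgroup.subgroupOfEquivOfLe hKG₀).toEquiv]
    exact hrK
  have hKx₀ : K.subgroupOf G₀ ⊔ Subgroup.zpowers x₀ = ⊤ := by
    rw [eq_top_iff]
    intro g _
    have h1 : (g : G) ∈ K ⊔ Subgroup.zpowers x := by rw [← hG₀]; exact g.2
    rw [← SetLike.mem_coe, Subgroup.normal_mul] at h1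
    obtain ⟨k, hk, z, hz, hkz⟩ := Set.mem_mul.mp h1
    obtain ⟨n, hn⟩ := mem_powers_iff_mem_zpowers.mpr hz
    have h2 : g = (⟨k, hKG₀ hk⟩ : ↥G₀) * x₀ ^ n := Subtype.ext (by
      rw [Subgroup.coe_mul, Subgroup.coe_pow]
      change (g : G) = k * x ^ n
      rw [← hkz]
      congr 1
      exact hn.symm)
    rw [h2]
    exact Subgroup.mul_mem_sup (Subgroup.mem_subgroupOf.mpr hk)
      (Subgroup.pow_mem _ (Subgroup.mem_zpowers x₀) n)
  have hmap : ∀ f : ↥G₀, f ∈ Cfsg.fittingOf (K.subgroupOf G₀) → (f : G) ∈ Cfsg.fittingOf K := by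
    rintro _ ⟨f₁, hf₁, rfl⟩
    have h1 := Cfsg.Agent.Lib.Helper29.fittingSubgroup_map_le
      (Subgroup.subgroupOfEquivOfLe hKG₀) ⟨f₁, hf₁, rfl⟩
    exact ⟨_, h1, rfl⟩
  have hstar₀ := Cfsg.Agent.Lib.Helper97.HH.fitting_prime_order (G := ↥G₀) hodd₀
    (K.subgroupOf G₀) x₀ hr hxr₀ hrK₀ hKx₀
    (by
      intro f hf hxf
      have h1 : x * (f : G) = (f : G) * x := congrArg Subtype.val hxf
      exact Subtype.ext (hfixF _ (hmap f hf) h1))
  have hstar : ∀ k ∈ K, x * k * x⁻¹ * k⁻¹ ∈ Cfsg.fittingOf K := by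
    intro k hk
    exact hmap _ (hstar₀ ⟨k, hKG₀ hk⟩ (Subgroup.mem_subgroupOf.mpr hk))
  have hpow : ∀ n : ℕ, ∀ k ∈ K, x ^ n * k * (x ^ n)⁻¹ * k⁻¹ ∈ Cfsg.fittingOf K := by
    intro n
    induction n with
    | zero =>
      intro k _
      simp
    | succ n ih =>
      intro k hk
      have h1 : x ^ (n + 1) * k * (x ^ (n + 1))⁻¹ * k⁻¹ =
          (x ^ n * (x * k * x⁻¹ * k⁻¹) * (x ^ n)⁻¹) * (x ^ n * k * (x ^ n)⁻¹ * k⁻¹) := by
        rw [pow_succ]
        group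
      rw [h1]
      exact Subgroup.mul_mem _ (hFn.conj_mem _ (hstar k hk) _) (ih k hk)
  have hnormK : ∀ A : Subgroup G, A ≤ Subgroup.normalizer (K : Set G) := by
    intro A
    rw [Subgroup.normalizer_eq_top_iff.mpr inferInstance]
    exact le_top
  have hnormF : ∀ A : Subgroup G, A ≤ Subgroup.normalizer ((Cfsg.fittingOf K : Subgroup G) : Set G) := by
    intro A
    rw [Subgroup.normalizer_eq_top_iff.mpr hFn]
    exact le_top
  have hcopZ : (Nat.card (Subgroup.zpowers x)).Coprime (Nat.card K) := by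
    rw [Nat.card_zpowers, hxo]
    exact hrKcop
  rw [Subgroup.commutator_le]
  intro k hk y hy
  obtain ⟨c, hc, hkc⟩ := Cfsg.Agent.S0022.result (Subgroup.zpowers x) K (hnormK _) hcopZ
    (Or.inr inferInstance) (Cfsg.fittingOf K) hFK (hnormF _) (hnormF _) k hk
    (by
      intro a ha
      obtain ⟨n, hn⟩ := mem_powers_iff_mem_zpowers.mpr ha
      have hn' : x ^ n = a := hn
      rw [← hn']
      exact hpow n k hk)
  have hcx : c ∈ K ⊓ Subgroup.centralizer ({x} : Set G) := by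
    refine Subgroup.mem_inf.mpr ⟨(Subgroup.mem_inf.mp hc).1, ?_⟩
    rw [Subgroup.mem_centralizer_iff]
    intro h hh
    rw [Set.mem_singleton_iff.mp hh]
    exact Subgroup.mem_centralizer_iff.mp (Subgroup.mem_inf.mp hc).2 x (Subgroup.mem_zpowers x)
  rw [hprime x hxR hx1] at hcx
  have hcy : y * c = c * y := Subgroup.mem_centralizer_iff.mp (Subgroup.mem_inf.mp hcx).2 y hy
  have hcy' : c * y⁻¹ * c⁻¹ = y⁻¹ := by
    have h1 : Commute c y := hcy.symm
    rw [h1.inv_right.eq, mul_inv_cancel_right]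
  have h2 : ⁅k, y⁆ = c * ((k⁻¹ * c)⁻¹ * (y * (k⁻¹ * c) * y⁻¹)) * c⁻¹ := by
    rw [commutatorElement_def]
    calc k * y * k⁻¹ * y⁻¹ = k * y * k⁻¹ * (c * y⁻¹ * c⁻¹) := by rw [hcy']
      _ = c * ((k⁻¹ * c)⁻¹ * (y * (k⁻¹ * c) * y⁻¹)) * c⁻¹ := by group
  rw [h2]
  exact hFn.conj_mem _ (Subgroup.mul_mem _ (Subgroup.inv_mem _ hkc) (hFn.conj_mem _ hkc y)) c

end Cfsg.Agent.S1445
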