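import Mathlib
import Cfsg.Statements.S0629
import Cfsg.Agent.Lib.Helper63.HallHigman2

set_option autoImplicit false
open Cfsg

namespace Cfsg.Agent.S0629

open Cfsg.Agent.Lib.Helper63
open scoped Pointwise

theorem aux {G : Type*} [Group G] [Finite G] {p : ℕ} [Fact p.Prime]
    (N₀ : Subgroup G) [N₀.Normal] (R : Subgroup (G ⧸ N₀)) (hR : R = pCore p (G ⧸ N₀))
    (h0 : pPrimeCore p (G ⧸ N₀) = ⊥)
    (L : Subgroup G) (hLdef : L = R.comap (QuotientGroup.mk' N₀)) (P : Sylow p ↥L)
    (hl : ∃ k, PLengthLE p k ↥(Subgroup.centralizer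
      (((P : Subgroup ↥L).map L.subtype : Subgroup G) : Set G))) :
    Subgroup.centralizer (((P : Subgroup ↥L).map L.subtype : Subgroup G) : Set G) ≤ L := by
  subst hLdef
  have hRn : R.Normal := by rw [hR]; infer_instance
  have hRp : IsPGroup p R := by rw [hR]; exact pCore_isPGroup' p _
  have step1 : ∀ r ∈ R, ∃ x ∈ (P : Subgroup ↥(R.comap (QuotientGroup.mk' N₀))).map
      (R.comap (QuotientGroup.mk' N₀)).subtype, QuotientGroup.mk' N₀ x = r := by
    intro r hr
    have hf : Function.Surjective ((QuotientGroup.mk' N₀).subgroupComap R) :=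
      MonoidHom.subgroupComap_surjective_of_surjective _ _ (QuotientGroup.mk'_surjective N₀)
    have hQtop : ((P.mapSurjective hf : Sylow p ↥R) : Subgroup R) = ⊤ :=
      ((P.mapSurjective hf).is_maximal' (hRp.to_subgroup ⊤) le_top).symm
    have hmem : (⟨r, hr⟩ : R) ∈ ((P.mapSurjective hf : Sylow p ↥R) : Subgroup R) :=
      hQtop ▸ Subgroup.mem_top _
    obtain ⟨x, hx, hfx⟩ := hmem
    exact ⟨x.1, ⟨x, hx, rfl⟩, congrArg Subtype.val hfx⟩
  have hLn : (R.comap (QuotientGroup.mk' N₀)).Normal := Subgroup.Normal.comap hRn _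
  have hfrat := Sylow.normalizer_sup_eq_top P
  have step2 : ∀ g : G, ∃ n ∈ Subgroup.normalizer
      (((P : Subgroup ↥(R.comap (QuotientGroup.mk' N₀))).map
        (R.comap (QuotientGroup.mk' N₀)).subtype : Subgroup G) : Set G),
      QuotientGroup.mk' N₀ n = QuotientGroup.mk' N₀ g := by
    intro g
    have hg := hfrat ▸ Subgroup.mem_top g
    obtain ⟨n, hn, l, hl, rfl⟩ := Subgroup.mem_sup_of_normal_right.1 hg
    obtain ⟨y, hy, hyl⟩ := step1 (QuotientGroup.mk' N₀ l) hl
    exact ⟨n * y, Subgroup.mul_mem _ hn (Subgroup.le_normalizer hy),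
      by rw [map_mul, map_mul, hyl]⟩
  have hCn : ((Subgroup.centralizer
      (((P : Subgroup ↥(R.comap (QuotientGroup.mk' N₀))).map
        (R.comap (QuotientGroup.mk' N₀)).subtype : Subgroup G) : Set G)).map
          (QuotientGroup.mk' N₀)).Normal := by
    constructor
    rintro _ ⟨c, hc, rfl⟩ gbar
    obtain ⟨g, rfl⟩ := QuotientGroup.mk'_surjective N₀ gbar
    obtain ⟨n, hn, hng⟩ := step2 g
    rw [← hng]
    refine ⟨n * c * n⁻¹, ?_, by simp⟩
    show n * c * n⁻¹ ∈ Subgroup.centralizer _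
    rw [Subgroup.mem_centralizer_iff]
    intro x hx
    have hx' : n⁻¹ * x * n ∈ ((P : Subgroup ↥(R.comap (QuotientGroup.mk' N₀))).map
        (R.comap (QuotientGroup.mk' N₀)).subtype : Subgroup G) := by
      have hn' := Subgroup.inv_mem _ hn
      rw [Subgroup.mem_normalizer_iff] at hn'
      have := (hn' x).1 hx
      simpa using this
    have hcomm := (Subgroup.mem_centralizer_iff.1 hc) _ hx'
    calc x * (n * c * n⁻¹) = n * ((n⁻¹ * x * n) * c) * n⁻¹ := by group
      _ = n * (c * (n⁻¹ * x * n)) * n⁻¹ := by rw [hcomm]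
      _ = n * c * n⁻¹ * x := by group
  have hCcent : (Subgroup.centralizer
      (((P : Subgroup ↥(R.comap (QuotientGroup.mk' N₀))).map
        (R.comap (QuotientGroup.mk' N₀)).subtype : Subgroup G) : Set G)).map
          (QuotientGroup.mk' N₀) ≤ Subgroup.centralizer (pCore p (G ⧸ N₀) : Set (G ⧸ N₀)) := by
    rintro _ ⟨c, hc, rfl⟩
    rw [Subgroup.mem_centralizer_iff]
    intro r hr
    rw [← hR] at hr
    obtain ⟨x, hx, rfl⟩ := step1 r hr
    rw [← map_mul, ← map_mul, (Subgroup.mem_centralizer_iff.1 hc) x hx]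
  have hlen : ∃ k, PLengthLE p k ↥((Subgroup.centralizer
      (((P : Subgroup ↥(R.comap (QuotientGroup.mk' N₀))).map
        (R.comap (QuotientGroup.mk' N₀)).subtype : Subgroup G) : Set G)).map
          (QuotientGroup.mk' N₀)) := by
    obtain ⟨k, hk⟩ := hl
    exact ⟨k, plengthLE_of_surjective ((QuotientGroup.mk' N₀).subgroupMap _)
      (MonoidHom.subgroupMap_surjective _ _) hk⟩
  have hfin := normal_le_pCore_of_centralizes h0 _ hCcent hlen
  intro c hc
  show QuotientGroup.mk' N₀ c ∈ R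
  rw [hR]
  exact hfin ⟨c, hc, rfl⟩

/-- A group in which the centralizer of a Sylow p-subgroup of O_{p',p}(G) is p-solvable is p-constrained. -/
theorem result {G : Type*} [Group G] [Finite G] {p : ℕ} [Fact p.Prime] (P : Sylow p ↥(Cfsg.pPrimePCore p G)) (hsol : Cfsg.IsPSolvable p ↥(Subgroup.centralizer (((P : Subgroup ↥(Cfsg.pPrimePCore p G)).map (Cfsg.pPrimePCore p G).subtype : Subgroup G) : Set G))) : Cfsg.IsPConstrained p G := by
  intro P'
  obtain ⟨l, rfl⟩ := MulAction.exists_smul_eq ↥(pPrimePCore p G) P P'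
  have hmain := aux (pPrimeCore p G) (pCore p (G ⧸ pPrimeCore p G)) rfl
    (pPrimeCore_quotient_eq_bot p G) (pPrimePCore p G) rfl P
    (exists_plengthLE_of_isPSolvable hsol)
  intro c hc
  have h1 : (l : G)⁻¹ * c * l ∈ Subgroup.centralizer
      ((((P : Subgroup _).map (pPrimePCore p G).subtype : Subgroup G)) : Set G) := by
    rw [Subgroup.mem_centralizer_iff]
    rintro _ ⟨x, hx, rfl⟩
    have hx' : ((l * x * l⁻¹ : ↥(pPrimePCore p G)) : G) ∈
        ((↑(l • P) : Subgroup _).map (pPrimePCore p G).subtype : Subgroup G) := by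
      refine ⟨l * x * l⁻¹, ?_, rfl⟩
      rw [Sylow.coe_subgroup_smul]
      exact Subgroup.smul_mem_pointwise_smul x (MulAut.conj l) _ hx
    have hcomm := (Subgroup.mem_centralizer_iff.1 hc) _ hx'
    simp only [Subgroup.coe_mul, Subgroup.coe_inv, Subgroup.coe_subtype] at hcomm ⊢
    calc (x : G) * ((l : G)⁻¹ * c * l) = (l : G)⁻¹ * ((l : G) * x * (l : G)⁻¹ * c) * l := by group
      _ = (l : G)⁻¹ * (c * ((l : G) * x * (l : G)⁻¹)) * l := by rw [hcomm]
      _ = (l : G)⁻¹ * c * l * x := by group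
  have h2 := hmain h1
  have e : c = (l : G) * ((l : G)⁻¹ * c * l) * (l : G)⁻¹ := by group
  rw [e]
  exact Subgroup.mul_mem _ (Subgroup.mul_mem _ l.2 h2) (Subgroup.inv_mem _ l.2)

end Cfsg.Agent.S0629
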