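import Cfsg.Statements.S1019
import Mathlib

set_option autoImplicit false
open Cfsg

namespace Cfsg.Agent.S1019

/-- Let H be a subgroup of a finite group G and x an element of H. In the action of G on the left cosets of H, the number of cosets fixed by x, multiplied by the size of the conjugacy class of x, equals the index of H multiplied by the number of conjugates of x that lie in H. -/
theorem result {G : Type*} [Group G] [Finite G] (H : Subgroup G) (x : G) (hx : x ∈ H) : Nat.card (MulAction.fixedBy (G ⧸ H) x) * Nat.card {g : G // IsConj x g} = H.index * Nat.card {g : G // IsConj x g ∧ g ∈ H} := by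
  classical
  have : Fintype {g : G // IsConj x g} := Fintype.ofFinite _
  have : Fintype (G ⧸ H) := Fintype.ofFinite _
  have e1 : (Σ y : {g : G // IsConj x g}, MulAction.fixedBy (G ⧸ H) (y : G)) ≃
      (Σ c : G ⧸ H, {g : G // IsConj x g ∧ g • c = c}) :=
    { toFun := fun yc => ⟨yc.2.1, ⟨yc.1.1, yc.1.2, yc.2.2⟩⟩
      invFun := fun cg => ⟨⟨cg.2.1, cg.2.2.1⟩, ⟨cg.1, cg.2.2.2⟩⟩
      left_inv := fun _ => rfl
      right_inv := fun _ => rfl }
  have h1 : Nat.card (Σ y : {g : G // IsConj x g}, MulAction.fixedBy (G ⧸ H) (y : G)) =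
      Nat.card {g : G // IsConj x g} * Nat.card (MulAction.fixedBy (G ⧸ H) x) := by
    rw [Nat.card_sigma]
    have : ∀ y : {g : G // IsConj x g}, Nat.card (MulAction.fixedBy (G ⧸ H) (y : G)) =
        Nat.card (MulAction.fixedBy (G ⧸ H) x) := by
      rintro ⟨y, hy⟩
      obtain ⟨k, hk⟩ := isConj_iff.mp hy
      apply Nat.card_congr
      refine
        { toFun := fun c => ⟨k⁻¹ • c.1, ?_⟩
          invFun := fun c => ⟨k • c.1, ?_⟩
          left_inv := fun c => by simp
          right_inv := fun c => by simp }
      · have hc : y • c.1 = c.1 := c.2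
        rw [MulAction.mem_fixedBy, ← mul_smul]
        have : x * k⁻¹ = k⁻¹ * y := by rw [← hk]; group
        rw [this, mul_smul, hc]
      · have hc : x • c.1 = c.1 := c.2
        show y • k • c.1 = k • c.1
        rw [← mul_smul]
        have : y * k = k * x := by rw [← hk]; group
        rw [this, mul_smul, hc]
    simp only [this, Finset.sum_const, Finset.card_univ, smul_eq_mul, Nat.card_eq_fintype_card]
  have h2 : Nat.card (Σ c : G ⧸ H, {g : G // IsConj x g ∧ g • c = c}) =
      H.index * Nat.card {g : G // IsConj x g ∧ g ∈ H} := by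
    rw [Nat.card_sigma]
    have : ∀ c : G ⧸ H, Nat.card {g : G // IsConj x g ∧ g • c = c} =
        Nat.card {g : G // IsConj x g ∧ g ∈ H} := by
      intro c
      obtain ⟨g, rfl⟩ := QuotientGroup.mk_surjective c
      apply Nat.card_congr
      refine
        { toFun := fun y => ⟨g⁻¹ * y.1 * g, ?_, ?_⟩
          invFun := fun y => ⟨g * y.1 * g⁻¹, ?_, ?_⟩
          left_inv := fun y => by ext; simp [mul_assoc]
          right_inv := fun y => by ext; simp [mul_assoc] }
      · refine y.2.1.trans ?_
        exact isConj_iff.mpr ⟨g⁻¹, by simp [mul_assoc]⟩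
      · have hy : y.1 • (g : G ⧸ H) = (g : G ⧸ H) := y.2.2
        have hy' : ((y.1 * g : G) : G ⧸ H) = (g : G ⧸ H) := hy
        rw [QuotientGroup.eq] at hy'
        have := H.inv_mem hy'
        simpa [mul_assoc] using this
      · refine y.2.1.trans ?_
        exact isConj_iff.mpr ⟨g, rfl⟩
      · show ((g * y.1 * g⁻¹ * g : G) : G ⧸ H) = (g : G ⧸ H)
        rw [QuotientGroup.eq]
        have := H.inv_mem y.2.2
        simpa [mul_assoc] using this
    simp only [this, Finset.sum_const, Finset.card_univ, smul_eq_mul]
    rw [Subgroup.index, Nat.card_eq_fintype_card (α := G ⧸ H)]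
  rw [mul_comm, ← h1, ← h2]
  exact Nat.card_congr e1

end Cfsg.Agent.S1019
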