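import Mathlib
import Cfsg.Statements.S0499
import Cfsg.Agent.Lib.Helper24.AutPrime
import Cfsg.Agent.Lib.Helper54.Frobenius

set_option autoImplicit false
open Cfsg

namespace Cfsg.Agent.S0499

/-- A non-abelian finite simple group of even order has order divisible by 12, 16 or 56. -/
theorem result {G : Type*} [Group G] [Finite G] [IsSimpleGroup G]
    (hG : ¬ IsMulCommutative G) (h2 : Even (Nat.card G)) :
    12 ∣ Nat.card G ∨ 16 ∣ Nat.card G ∨ 56 ∣ Nat.card G := by
  classical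
  have h2p : Fact (Nat.Prime 2) := ⟨Nat.prime_two⟩
  by_contra hcon
  push Not at hcon
  obtain ⟨h12, h16, h56⟩ := hcon
  have h2dvd : 2 ∣ Nat.card G := even_iff_two_dvd.mp h2
  have hno : ¬ Cfsg.HasNormalPComplement 2 G := by
    rintro ⟨P, N, hN, hNP⟩
    rcases hN.eq_bot_or_eq_top with h | h
    · rw [h, Subgroup.isComplement'_bot_left] at hNP
      have hPG : IsPGroup 2 G := by
        have h1 : IsPGroup 2 (⊤ : Subgroup G) := by rw [← hNP]; exact P.isPGroup'
        exact h1.of_equiv Subgroup.topEquiv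
      have hnil : Group.IsNilpotent G := hPG.isNilpotent
      have hsol : Group.IsSolvable G := inferInstance
      apply hG
      exact ⟨⟨IsSimpleGroup.comm_iff_isSolvable.mpr hsol⟩⟩
    · rw [h, Subgroup.isComplement'_top_left] at hNP
      exact P.ne_bot_of_dvd_card h2dvd hNP
  rw [Cfsg.Agent.Lib.Helper54.hasNormalPComplement_iff_frobeniusCondition] at hno
  unfold Cfsg.Agent.Lib.Helper54.FrobeniusCondition at hno
  push Not at hno
  obtain ⟨Q, hQ, g, hg, hgp, hgc⟩ := hno
  obtain ⟨r, hr, hrg, k, i, hk, hi1, hik, hri⟩ :=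
    Cfsg.Agent.Lib.Helper24.exists_prime_dvd_pow_sub_one Q hQ g hg hgc hgp
  have hQdvd : 2 ^ k ∣ Nat.card G := by
    rw [← hk]; exact Subgroup.card_subgroup_dvd_card Q
  have hrG : r ∣ Nat.card G := hrg.trans (orderOf_dvd_natCard g)
  have hk3 : k ≤ 3 := by
    by_contra hk4
    push Not at hk4
    exact h16 ((pow_dvd_pow 2 hk4).trans hQdvd)
  have hi3 : i ≤ 3 := hik.trans hk3
  interval_cases i
  · -- r ∣ 1
    have : r = 1 := Nat.dvd_one.mp hri
    exact hr.one_lt.ne' this
  · -- r ∣ 3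
    have hr3 : r = 3 := (Nat.prime_dvd_prime_iff_eq hr Nat.prime_three).mp hri
    have h4 : 4 ∣ Nat.card G := (pow_dvd_pow 2 hik).trans hQdvd
    rw [hr3] at hrG
    exact h12 (Nat.Coprime.mul_dvd_of_dvd_of_dvd (by norm_num) hrG h4)
  · -- r ∣ 7
    have hr7 : r = 7 := (Nat.prime_dvd_prime_iff_eq hr (by norm_num)).mp hri
    have h8 : 8 ∣ Nat.card G := (pow_dvd_pow 2 hik).trans hQdvd
    rw [hr7] at hrG
    exact h56 (Nat.Coprime.mul_dvd_of_dvd_of_dvd (by norm_num) hrG h8)

end Cfsg.Agent.S0499
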