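import Mathlib
import Cfsg.Statements.S0736

set_option autoImplicit false
open Cfsg

namespace Cfsg.Agent.S0736

open Finset
open scoped Pointwise

/-- Lucas: `p ∤ C(k + p^a - 1, p^a - 1)` when `p^a ∣ k` -/
theorem lucas_aux (p : ℕ) [hp : Fact p.Prime] : ∀ (a k : ℕ), p ^ a ∣ k →
    ¬ p ∣ Nat.choose (k + p ^ a - 1) (p ^ a - 1) := by
  intro a
  induction a with
  | zero =>
    intro k _
    simp only [pow_zero, Nat.add_sub_cancel, Nat.sub_self, Nat.choose_zero_right,
      Nat.dvd_one]
    exact hp.out.one_lt.ne'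
  | succ a ih =>
    intro k hk
    obtain ⟨k', rfl⟩ : p ∣ k := dvd_trans (dvd_pow_self p (Nat.succ_ne_zero a)) hk
    have hk' : p ^ a ∣ k' := by
      rw [pow_succ, mul_comm] at hk
      exact Nat.dvd_of_mul_dvd_mul_left hp.out.pos hk
    have hpos : 0 < p ^ a := pow_pos hp.out.pos a
    have hp1 : 0 < p := hp.out.pos
    have key : ∀ x : ℕ, 0 < x → p * x - 1 = (p - 1) + p * (x - 1) := by
      intro x hx
      obtain ⟨y, rfl⟩ : ∃ y, x = y + 1 := ⟨x - 1, by omega⟩
      rw [Nat.add_sub_cancel, mul_add, mul_one]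
      omega
    have e1 : p * k' + p ^ (a + 1) - 1 = (p - 1) + p * (k' + p ^ a - 1) := by
      rw [pow_succ, mul_comm (p ^ a) p, ← mul_add]
      exact key _ (by omega)
    have e2 : p ^ (a + 1) - 1 = (p - 1) + p * (p ^ a - 1) := by
      rw [pow_succ, mul_comm (p ^ a) p]
      exact key _ hpos
    have h := Choose.choose_modEq_choose_mod_mul_choose_div_nat
      (n := p * k' + p ^ (a + 1) - 1) (k := p ^ (a + 1) - 1) (p := p)
    have hlt : p - 1 < p := by omega
    rw [e1, e2, Nat.add_mul_mod_self_left, Nat.add_mul_mod_self_left,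
      Nat.add_mul_div_left _ _ hp1, Nat.add_mul_div_left _ _ hp1, Nat.mod_eq_of_lt hlt,
      Nat.div_eq_of_lt hlt, Nat.choose_self, one_mul, zero_add, zero_add] at h
    rw [e1, e2]
    intro hdvd
    exact ih k' hk' ((Nat.ModEq.dvd_iff h (dvd_refl p)).mp hdvd)

/-- the `k`-sets between a `(k-1)`-set `S` and `Y` -/
theorem card_supersets {α : Type*} [DecidableEq α] (S Y : Finset α) (k : ℕ)
    (hS : S.card + 1 = k) (hSY : S ⊆ Y) :
    ((Y.powersetCard k).filter (fun T => S ⊆ T)).card = (Y \ S).card := by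
  symm
  refine Finset.card_bij (fun y _ => insert y S) ?_ ?_ ?_
  · intro y hy
    rw [Finset.mem_sdiff] at hy
    rw [Finset.mem_filter, Finset.mem_powersetCard]
    refine ⟨⟨Finset.insert_subset hy.1 hSY, ?_⟩, Finset.subset_insert y S⟩
    rw [Finset.card_insert_of_notMem hy.2, hS]
  · intro y hy y' hy' h
    rw [Finset.mem_sdiff] at hy hy'
    have : y ∈ insert y' S := h ▸ Finset.mem_insert_self y S
    rcases Finset.mem_insert.mp this with h1 | h1
    · exact h1
    · exact absurd h1 hy.2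
  · intro T hT
    rw [Finset.mem_filter, Finset.mem_powersetCard] at hT
    obtain ⟨⟨hTY, hTc⟩, hST⟩ := hT
    have h1 : (T \ S).card = 1 := by
      rw [Finset.card_sdiff_of_subset hST, hTc]
      omega
    obtain ⟨y, hy⟩ := Finset.card_eq_one.mp h1
    have hyT : y ∈ T \ S := by
      rw [hy]
      exact Finset.mem_singleton_self y
    rw [Finset.mem_sdiff] at hyT
    refine ⟨y, Finset.mem_sdiff.mpr ⟨hTY hyT.1, hyT.2⟩, ?_⟩
    rw [Finset.insert_eq, ← hy, Finset.sdiff_union_of_subset hST]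

/-- divisibility conditions for a family of `(k-1)`-sets meeting every `k`-set in the same
number `m` of members -/
theorem design_dvd {α : Type*} [DecidableEq α] (O : Finset (Finset α)) (k m : ℕ) (hk : 1 ≤ k)
    (hO : ∀ S ∈ O, S.card = k - 1)
    (hm : ∀ T : Finset α, T.card = k → (O.filter (· ⊆ T)).card = m)
    (Y : Finset α) (j : ℕ) (hY : Y.card = k - 1 + j) :
    j ∣ m * Nat.choose (k - 1 + j) k := by
  have h := Finset.sum_card_bipartiteAbove_eq_sum_card_bipartiteBelow
    (s := O.filter (· ⊆ Y)) (t := Y.powersetCard k) (r := fun S T => S ⊆ T)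
  have hL : ∀ S ∈ O.filter (· ⊆ Y),
      ((Y.powersetCard k).bipartiteAbove (fun S T => S ⊆ T) S).card = j := by
    intro S hS
    rw [Finset.mem_filter] at hS
    unfold Finset.bipartiteAbove
    rw [card_supersets S Y k (by rw [hO S hS.1]; omega) hS.2,
      Finset.card_sdiff_of_subset hS.2, hY, hO S hS.1]
    omega
  have hR : ∀ T ∈ Y.powersetCard k,
      ((O.filter (· ⊆ Y)).bipartiteBelow (fun S T => S ⊆ T) T).card = m := by
    intro T hT
    rw [Finset.mem_powersetCard] at hT
    unfold Finset.bipartiteBelow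
    rw [← hm T hT.2]
    congr 1
    ext S
    simp only [Finset.mem_filter]
    constructor
    · rintro ⟨⟨h1, _⟩, h3⟩
      exact ⟨h1, h3⟩
    · rintro ⟨h1, h3⟩
      exact ⟨⟨h1, h3.trans hT.1⟩, h3⟩
  rw [Finset.sum_congr rfl hL, Finset.sum_congr rfl hR, Finset.sum_const, Finset.sum_const,
    Finset.card_powersetCard, hY, smul_eq_mul, smul_eq_mul] at h
  exact ⟨_, by rw [mul_comm m, ← h, mul_comm]⟩

/-- A `k`-homogeneous permutation group of degree `n`, `k ≥ 2`, with `k + q - 1 ≤ n` for every prime power `q` dividing `k`, is `(k-1)`-homogeneous. -/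
theorem result {α : Type*} [Fintype α] [DecidableEq α] (G : Subgroup (Equiv.Perm α)) {k : ℕ} (hk : 2 ≤ k) (hG : MulAction.IsPretransitive G (Set.powersetCard α k)) (hq : ∀ q : ℕ, IsPrimePow q → q ∣ k → k + q - 1 ≤ Fintype.card α) : MulAction.IsPretransitive G (Set.powersetCard α (k - 1)) := by
  classical
  obtain ⟨p, hp, hpk⟩ := Nat.exists_prime_and_dvd (show k ≠ 1 by omega)
  have hn : k + 1 ≤ Fintype.card α := by
    have h1 := hq p hp.isPrimePow hpk
    have h2 := hp.two_le
    omega
  have hchoose : Nat.choose k (k - 1) = k := by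
    have h1 := Nat.choose_symm (show k - 1 ≤ k by omega)
    rw [← h1]
    have h2 : k - (k - 1) = 1 := by omega
    rw [h2, Nat.choose_one_right]
  have hex : ∀ S : Set.powersetCard α (k - 1), ∃ a, a ∉ (S : Finset α) := by
    intro S
    by_contra hcon
    push Not at hcon
    have h1 : (S : Finset α) = Finset.univ := Finset.eq_univ_iff_forall.mpr hcon
    have h2 : (S : Finset α).card = k - 1 := S.2
    rw [h1, Finset.card_univ] at h2
    omega
  refine ⟨fun S₁ S₂ => ?_⟩
  let O : Finset (Finset α) := Finset.univ.filter (fun S => ∃ g : G, g • (S₁ : Finset α) = S)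
  have hOc : ∀ S ∈ O, S.card = k - 1 := by
    intro S hS
    obtain ⟨g, rfl⟩ := (Finset.mem_filter.mp hS).2
    rw [Finset.card_smul_finset]
    exact S₁.2
  have hOinv : ∀ (g : G) (S : Finset α), S ∈ O → g • S ∈ O := by
    intro g S hS
    obtain ⟨g', rfl⟩ := (Finset.mem_filter.mp hS).2
    exact Finset.mem_filter.mpr ⟨Finset.mem_univ _, g * g', mul_smul g g' _⟩
  have hminv : ∀ (g : G) (T : Finset α),
      (O.filter (· ⊆ g • T)).card = (O.filter (· ⊆ T)).card := by
    intro g T
    symm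
    refine Finset.card_bij (fun S _ => g • S) ?_ ?_ ?_
    · intro S hS
      rw [Finset.mem_filter] at hS ⊢
      exact ⟨hOinv g S hS.1, Finset.smul_finset_subset_smul_finset hS.2⟩
    · intro S _ S' _ h
      exact smul_left_cancel g h
    · intro S' hS'
      rw [Finset.mem_filter] at hS'
      refine ⟨g⁻¹ • S', ?_, smul_inv_smul g S'⟩
      rw [Finset.mem_filter]
      refine ⟨hOinv g⁻¹ S' hS'.1, ?_⟩
      have h1 := Finset.smul_finset_subset_smul_finset (a := g⁻¹) hS'.2
      rwa [inv_smul_smul] at h1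
  obtain ⟨a, ha⟩ := hex S₁
  have hS₁c : (S₁ : Finset α).card = k - 1 := S₁.2
  have hT₀ : (insert a (S₁ : Finset α)).card = k := by
    rw [Finset.card_insert_of_notMem ha, hS₁c]
    omega
  obtain ⟨m, hmdef⟩ : ∃ m, m = (O.filter (· ⊆ insert a (S₁ : Finset α))).card := ⟨_, rfl⟩
  have hm : ∀ T : Finset α, T.card = k → (O.filter (· ⊆ T)).card = m := by
    intro T hT
    obtain ⟨g, hg⟩ := hG.exists_smul_eq
      (⟨insert a (S₁ : Finset α), hT₀⟩ : Set.powersetCard α k) ⟨T, hT⟩
    have hg' : g • (insert a (S₁ : Finset α)) = T := by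
      have h1 := congrArg (fun x : Set.powersetCard α k => (x : Finset α)) hg
      exact h1
    rw [← hg', hminv, hmdef]
  have hsub : ∀ T : Finset α, O.filter (· ⊆ T) ⊆ T.powersetCard (k - 1) := by
    intro T S hS
    rw [Finset.mem_filter] at hS
    exact Finset.mem_powersetCard.mpr ⟨hS.2, hOc S hS.1⟩
  have hm1 : 1 ≤ m := by
    rw [hmdef]
    apply Finset.card_pos.mpr
    exact ⟨S₁, Finset.mem_filter.mpr ⟨Finset.mem_filter.mpr ⟨Finset.mem_univ _, 1, one_smul _ _⟩,
      Finset.subset_insert _ _⟩⟩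
  have hmk : m ≤ k := by
    have h2 := Finset.card_le_card (hsub (insert a (S₁ : Finset α)))
    rw [Finset.card_powersetCard, hT₀, hchoose, ← hmdef] at h2
    exact h2
  have hkm : k ∣ m := by
    rw [Nat.dvd_iff_prime_pow_dvd_dvd]
    intro p e hp hpe
    rcases Nat.eq_zero_or_pos e with rfl | he
    · simp
    have hpp : IsPrimePow (p ^ e) := hp.isPrimePow.pow he.ne'
    have hle := hq (p ^ e) hpp hpe
    have hpos : 0 < p ^ e := pow_pos hp.pos e
    obtain ⟨Y, -, hY⟩ := Finset.exists_subset_card_eq (s := (Finset.univ : Finset α))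
      (n := k - 1 + p ^ e) (by rw [Finset.card_univ]; omega)
    have hd := design_dvd O k m (by omega) hOc hm Y (p ^ e) hY
    have : Fact p.Prime := ⟨hp⟩
    have hl := lucas_aux p e k hpe
    have hsymm : Nat.choose (k - 1 + p ^ e) k = Nat.choose (k + p ^ e - 1) (p ^ e - 1) := by
      have h1 : k - 1 + p ^ e = k + p ^ e - 1 := by omega
      rw [h1, ← Nat.choose_symm (show p ^ e - 1 ≤ k + p ^ e - 1 by omega)]
      congr 1
      omega
    rw [hsymm] at hd
    have hcop : Nat.Coprime (p ^ e) (Nat.choose (k + p ^ e - 1) (p ^ e - 1)) :=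
      Nat.Coprime.pow_left e ((Nat.Prime.coprime_iff_not_dvd hp).mpr hl)
    exact hcop.dvd_of_dvd_mul_right hd
  have hmeq : m = k := Nat.le_antisymm hmk (Nat.le_of_dvd (by omega) hkm)
  have hall : ∀ T : Finset α, T.card = k → ∀ S : Finset α, S ⊆ T → S.card = k - 1 → S ∈ O := by
    intro T hT S hST hS
    have heq : O.filter (· ⊆ T) = T.powersetCard (k - 1) :=
      Finset.eq_of_subset_of_card_le (hsub T)
        (by rw [Finset.card_powersetCard, hT, hchoose, hm T hT, hmeq])
    have h1 : S ∈ T.powersetCard (k - 1) := Finset.mem_powersetCard.mpr ⟨hST, hS⟩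
    rw [← heq] at h1
    exact (Finset.mem_filter.mp h1).1
  obtain ⟨b, hb⟩ := hex S₂
  have hS₂c : (S₂ : Finset α).card = k - 1 := S₂.2
  have h1 := hall (insert b (S₂ : Finset α))
    (by rw [Finset.card_insert_of_notMem hb, hS₂c]; omega) S₂ (Finset.subset_insert _ _) hS₂c
  obtain ⟨g, hg⟩ := (Finset.mem_filter.mp h1).2
  exact ⟨g, Subtype.ext hg⟩

end Cfsg.Agent.S0736
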