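-- Statement S0744: proof by helper13.
import Mathlib
import Cfsg.Statements.S0744
import Cfsg.Agent.Lib.Helper13.ConstStab

set_option autoImplicit false
open Cfsg

namespace Cfsg.Agent.S0744

/-- If for some `k > 1` the pointwise stabilisers of all `(k-1)`-subsets have the same order `> 1` and those of all `k`-subsets have the same order, then the group is `(k-1)`-transitive. -/
theorem result {α : Type*} [Fintype α] [DecidableEq α] (G : Subgroup (Equiv.Perm α)) {k : ℕ} (hk : 1 < k) (hkn : k ≤ Fintype.card α) (l m : ℕ) (hl : 1 < l) (hkm1 : ∀ s : Finset α, s.card = k - 1 → Nat.card (fixingSubgroup G (s : Set α)) = l) (hkm : ∀ s : Finset α, s.card = k → Nat.card (fixingSubgroup G (s : Set α)) = m) : MulAction.IsMultiplyPretransitive G α (k - 1) := by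
  have conv : ∀ s : Set α, ((Set.toFinite s).toFinset : Set α) = s := fun s =>
    Set.Finite.coe_toFinset _
  apply Cfsg.Agent.Lib.Helper13.constStab_aux l m hl (k - 1) (↥G) α (by omega)
    (by rw [Nat.card_eq_fintype_card]; omega)
  · intro s hs
    have := hkm1 (Set.toFinite s).toFinset (by rw [← Set.ncard_eq_toFinset_card]; exact hs)
    rwa [conv] at this
  · intro s hs
    have := hkm (Set.toFinite s).toFinset (by rw [← Set.ncard_eq_toFinset_card, hs]; omega)
    rwa [conv] at this

end Cfsg.Agent.S0744
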