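import Mathlib
import Cfsg.Statements.S0708

set_option autoImplicit false
set_option linter.unusedSectionVars false
open Cfsg

namespace Cfsg.Agent.S0708

open MulAction

section

variable {G : Type*} [Group G] {Ω : Type*} [MulAction G Ω]

/-- four pairwise distinct points -/
def Dist4 (a b c d : Ω) : Prop := a ≠ b ∧ a ≠ c ∧ a ≠ d ∧ b ≠ c ∧ b ≠ d ∧ c ≠ d

/-- the embedding of four distinct points -/
def emb4 (a b c d : Ω) (h : Dist4 a b c d) : Fin 4 ↪ Ω :=
  ⟨![a, b, c, d], by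
    obtain ⟨h1, h2, h3, h4, h5, h6⟩ := h
    intro i j hij
    fin_cases i <;> fin_cases j <;> first | rfl | (exfalso; simp at hij; first | exact h1 hij | exact h2 hij | exact h3 hij | exact h4 hij | exact h5 hij | exact h6 hij | exact h1 hij.symm | exact h2 hij.symm | exact h3 hij.symm | exact h4 hij.symm | exact h5 hij.symm | exact h6 hij.symm)⟩

theorem eq_one_of_fix (hsharp : ∀ x : Fin 4 ↪ Ω, MulAction.stabilizer G x = ⊥) (g : G)
    (a b c d : Ω) (h : Dist4 a b c d) (ha : g • a = a) (hb : g • b = b) (hc : g • c = c)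
    (hd : g • d = d) : g = 1 := by
  have h1 : g ∈ MulAction.stabilizer G (emb4 a b c d h) := by
    rw [mem_stabilizer_iff]
    ext i
    rw [Function.Embedding.smul_apply]
    fin_cases i
    · exact ha
    · exact hb
    · exact hc
    · exact hd
  rw [hsharp] at h1
  exact Subgroup.mem_bot.mp h1

theorem eq_of_agree (hsharp : ∀ x : Fin 4 ↪ Ω, MulAction.stabilizer G x = ⊥) (g g' : G)
    (a b c d : Ω) (h : Dist4 a b c d) (ha : g • a = g' • a) (hb : g • b = g' • b)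
    (hc : g • c = g' • c) (hd : g • d = g' • d) : g = g' := by
  have h1 : g'⁻¹ * g = 1 := by
    apply eq_one_of_fix hsharp _ a b c d h
    · rw [mul_smul, ha, inv_smul_smul]
    · rw [mul_smul, hb, inv_smul_smul]
    · rw [mul_smul, hc, inv_smul_smul]
    · rw [mul_smul, hd, inv_smul_smul]
  have h2 : g = g' * (g'⁻¹ * g) := by group
  rw [h2, h1, mul_one]

theorem exists_map (h4 : MulAction.IsMultiplyPretransitive G Ω 4) (a b c d a' b' c' d' : Ω)
    (h : Dist4 a b c d) (h' : Dist4 a' b' c' d') :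
    ∃ g : G, g • a = a' ∧ g • b = b' ∧ g • c = c' ∧ g • d = d' := by
  obtain ⟨g, hg⟩ := h4.exists_smul_eq (emb4 a b c d h) (emb4 a' b' c' d' h')
  refine ⟨g, ?_, ?_, ?_, ?_⟩
  · have := congrArg (fun f : Fin 4 ↪ Ω => f 0) hg
    exact this
  · have := congrArg (fun f : Fin 4 ↪ Ω => f 1) hg
    exact this
  · have := congrArg (fun f : Fin 4 ↪ Ω => f 2) hg
    exact this
  · have := congrArg (fun f : Fin 4 ↪ Ω => f 3) hg
    exact this

end

/-- Tits' argument: a sharply 4-transitive group (no finiteness assumed) has finite degree at most 11, and at most 6 when the degree is even. -/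
theorem result {G : Type*} [Group G] {Ω : Type*} [MulAction G Ω] (h4 : MulAction.IsMultiplyPretransitive G Ω 4) (hsharp : ∀ x : Fin 4 ↪ Ω, MulAction.stabilizer G x = ⊥) (hne : Nonempty (Fin 4 ↪ Ω)) : Finite Ω ∧ Nat.card Ω ≤ 11 ∧ (Even (Nat.card Ω) → Nat.card Ω ≤ 6) := by
  classical
  obtain ⟨x₀⟩ := hne
  obtain ⟨p1, hp1⟩ : ∃ p1, p1 = x₀ 0 := ⟨_, rfl⟩
  obtain ⟨p2, hp2⟩ : ∃ p2, p2 = x₀ 1 := ⟨_, rfl⟩
  obtain ⟨p3, hp3⟩ : ∃ p3, p3 = x₀ 2 := ⟨_, rfl⟩
  obtain ⟨p4, hp4⟩ : ∃ p4, p4 = x₀ 3 := ⟨_, rfl⟩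
  have hd : Dist4 p1 p2 p3 p4 := by
    rw [hp1, hp2, hp3, hp4]
    refine ⟨?_, ?_, ?_, ?_, ?_, ?_⟩ <;>
    · intro h
      have := x₀.injective h
      revert this
      decide
  obtain ⟨h12, h13, h14, h23, h24, h34⟩ := hd
  have hd : Dist4 p1 p2 p3 p4 := ⟨h12, h13, h14, h23, h24, h34⟩
  have hd' : Dist4 p2 p1 p3 p4 := ⟨h12.symm, h23, h24, h13, h14, h34⟩
  -- the involution `x = (p1 p2)` fixing `p3, p4`
  obtain ⟨x, hx1, hx2, hx3, hx4⟩ := exists_map h4 p1 p2 p3 p4 p2 p1 p3 p4 hd hd'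
  have hxx : x * x = 1 := by
    apply eq_one_of_fix hsharp _ p1 p2 p3 p4 hd
    · rw [mul_smul, hx1, hx2]
    · rw [mul_smul, hx2, hx1]
    · rw [mul_smul, hx3, hx3]
    · rw [mul_smul, hx4, hx4]
  have hxinv : ∀ ω : Ω, x • x • ω = ω := by
    intro ω
    rw [← mul_smul, hxx, one_smul]
  have hx1' : x ≠ 1 := by
    intro h
    rw [h, one_smul] at hx1
    exact h12 hx1
  -- the fixed points of `x`
  have hF4 : ∀ a b c d : Ω, Dist4 a b c d → x • a = a → x • b = b → x • c = c → x • d = d →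
      False := by
    intro a b c d h ha hb hc hd
    exact hx1' (eq_one_of_fix hsharp x a b c d h ha hb hc hd)
  have hFfin : {ω : Ω | x • ω = ω}.Finite := by
    by_contra hinf
    obtain ⟨t, ht, htc⟩ := Set.Infinite.exists_subset_card_eq hinf 4
    obtain ⟨d, hd⟩ : t.Nonempty := by
      rw [← Finset.card_pos, htc]
      norm_num
    have h3 : (t.erase d).card = 3 := by rw [Finset.card_erase_of_mem hd, htc]
    obtain ⟨a, b, c, hab, hac, hbc, habc⟩ := Finset.card_eq_three.mp h3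
    have ha : a ∈ t.erase d := by rw [habc]; simp
    have hb : b ∈ t.erase d := by rw [habc]; simp
    have hc : c ∈ t.erase d := by rw [habc]; simp
    rw [Finset.mem_erase] at ha hb hc
    exact hF4 a b c d ⟨hab, hac, ha.1, hbc, hb.1, hc.1⟩ (ht ha.2) (ht hb.2) (ht hc.2) (ht hd)
  obtain ⟨Fs, hFs⟩ : ∃ Fs : Finset Ω, ∀ ω, ω ∈ Fs ↔ x • ω = ω :=
    ⟨hFfin.toFinset, fun ω => by rw [Set.Finite.mem_toFinset]; rfl⟩
  have hFle : Fs.card ≤ 3 := by
    by_contra hcon
    obtain ⟨t, ht, htc⟩ := Finset.exists_subset_card_eq (s := Fs) (n := 4) (by omega)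
    obtain ⟨d, hd⟩ : t.Nonempty := by
      rw [← Finset.card_pos, htc]
      norm_num
    have h3 : (t.erase d).card = 3 := by rw [Finset.card_erase_of_mem hd, htc]
    obtain ⟨a, b, c, hab, hac, hbc, habc⟩ := Finset.card_eq_three.mp h3
    have ha : a ∈ t.erase d := by rw [habc]; simp
    have hb : b ∈ t.erase d := by rw [habc]; simp
    have hc : c ∈ t.erase d := by rw [habc]; simp
    rw [Finset.mem_erase] at ha hb hc
    exact hF4 a b c d ⟨hab, hac, ha.1, hbc, hb.1, hc.1⟩ ((hFs _).mp (ht ha.2))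
      ((hFs _).mp (ht hb.2)) ((hFs _).mp (ht hc.2)) ((hFs _).mp (ht hd))
  have hp3F : p3 ∈ Fs := (hFs _).mpr hx3
  have hp4F : p4 ∈ Fs := (hFs _).mpr hx4
  have hp1F : p1 ∉ Fs := by
    rw [hFs, hx1]
    exact h12.symm
  have hp2F : p2 ∉ Fs := by
    rw [hFs, hx2]
    exact h12
  have hFge : 2 ≤ Fs.card := by
    have : ({p3, p4} : Finset Ω) ⊆ Fs := by
      intro ω hω
      rw [Finset.mem_insert, Finset.mem_singleton] at hω
      rcases hω with rfl | rfl
      · exact hp3F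
      · exact hp4F
    have h2 := Finset.card_le_card this
    rw [Finset.card_pair h34] at h2
    exact h2
  -- the elements of the centraliser of `x` fixing `p1`
  have key : ∀ b₀ : Ω, b₀ ∉ Fs → b₀ ≠ p1 → b₀ ≠ p2 → ∀ b : Ω, b ∉ Fs ∧ b ≠ p1 ∧ b ≠ p2 →
      ∃ g : G, g • p1 = p1 ∧ g • p2 = p2 ∧ g • b₀ = b ∧ g * x = x * g := by
    intro b₀ hb₀F hb₀1 hb₀2 b hb
    obtain ⟨hbF, hb1, hb2⟩ := hb
    have hdist : ∀ c : Ω, c ∉ Fs → c ≠ p1 → c ≠ p2 → Dist4 p1 p2 c (x • c) := by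
      intro c hcF hc1 hc2
      refine ⟨h12, Ne.symm hc1, ?_, Ne.symm hc2, ?_, ?_⟩
      · intro h
        apply hc2
        rw [← hx1, h, hxinv]
      · intro h
        apply hc1
        rw [← hx2, h, hxinv]
      · intro h
        exact hcF ((hFs c).mpr h.symm)
    obtain ⟨g, hg1, hg2, hg3, hg4⟩ := exists_map h4 p1 p2 b₀ (x • b₀) p1 p2 b (x • b)
      (hdist b₀ hb₀F hb₀1 hb₀2) (hdist b hbF hb1 hb2)
    refine ⟨g, hg1, hg2, hg3, ?_⟩
    apply eq_of_agree hsharp _ _ p1 p2 b₀ (x • b₀) (hdist b₀ hb₀F hb₀1 hb₀2)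
    · rw [mul_smul, mul_smul, hx1, hg1, hg2, hx1]
    · rw [mul_smul, mul_smul, hx2, hg1, hg2, hx2]
    · rw [mul_smul, mul_smul, hg3, hg4]
    · rw [mul_smul, mul_smul, hxinv, hg3, hg4, hxinv]
  obtain ⟨φ, hφ1, hφ2⟩ : ∃ φ : Ω → Ω × Ω,
      (∀ b : Ω, b ∉ Fs ∧ b ≠ p1 ∧ b ≠ p2 → φ b ∈ Fs.offDiag) ∧
      (∀ b b' : Ω, b ∉ Fs ∧ b ≠ p1 ∧ b ≠ p2 → b' ∉ Fs ∧ b' ≠ p1 ∧ b' ≠ p2 → φ b = φ b' →
        b = b') := by
    by_cases hB : ∃ b₀ : Ω, b₀ ∉ Fs ∧ b₀ ≠ p1 ∧ b₀ ≠ p2
    · obtain ⟨b₀, hb₀F, hb₀1, hb₀2⟩ := hB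
      choose! g hg using key b₀ hb₀F hb₀1 hb₀2
      refine ⟨fun b => (g b • p3, g b • p4), ?_, ?_⟩
      · intro b hb
        obtain ⟨-, -, -, hcomm⟩ := hg b hb
        rw [Finset.mem_offDiag]
        refine ⟨?_, ?_, ?_⟩
        · show g b • p3 ∈ Fs
          rw [hFs, ← mul_smul, ← hcomm, mul_smul, hx3]
        · show g b • p4 ∈ Fs
          rw [hFs, ← mul_smul, ← hcomm, mul_smul, hx4]
        · show g b • p3 ≠ g b • p4
          exact fun h => h34 (smul_left_cancel _ h)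
      · intro b b' hb hb' h
        obtain ⟨k1, k2, k3, -⟩ := hg b hb
        obtain ⟨k1', k2', k3', -⟩ := hg b' hb'
        have h3 : g b • p3 = g b' • p3 := congrArg Prod.fst h
        have h4' : g b • p4 = g b' • p4 := congrArg Prod.snd h
        have := eq_of_agree hsharp (g b) (g b') p1 p2 p3 p4 hd (by rw [k1, k1'])
          (by rw [k2, k2']) h3 h4'
        rw [← k3, ← k3', this]
    · refine ⟨fun _ => (p1, p1), ?_, ?_⟩
      · intro b hb
        exact absurd ⟨b, hb⟩ hB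
      · intro b b' hb
        exact absurd ⟨b, hb⟩ hB
  -- an injection of `Ω` into a finite set
  obtain ⟨T, hT⟩ : ∃ T : Finset (Ω ⊕ Ω × Ω),
      T = (Fs ∪ {p1, p2}).map Function.Embedding.inl ∪ Fs.offDiag.map Function.Embedding.inr :=
    ⟨_, rfl⟩
  have hTcard : T.card ≤ Fs.card + 2 + (Fs.card * Fs.card - Fs.card) := by
    rw [hT]
    refine (Finset.card_union_le _ _).trans ?_
    rw [Finset.card_map, Finset.card_map, Finset.offDiag_card]
    have h1 : (Fs ∪ {p1, p2}).card ≤ Fs.card + 2 := by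
      refine (Finset.card_union_le _ _).trans ?_
      rw [Finset.card_pair h12]
    omega
  obtain ⟨ι, hι⟩ : ∃ ι : Ω → Ω ⊕ Ω × Ω,
      ι = fun ω => if ω ∈ Fs ∨ ω = p1 ∨ ω = p2 then Sum.inl ω else Sum.inr (φ ω) := ⟨_, rfl⟩
  have hout : ∀ ω : Ω, ¬ (ω ∈ Fs ∨ ω = p1 ∨ ω = p2) → ω ∉ Fs ∧ ω ≠ p1 ∧ ω ≠ p2 := by
    intro ω h
    push Not at h
    exact h
  have hιT : ∀ ω, ι ω ∈ T := by
    intro ω
    rw [hι, hT, Finset.mem_union]
    by_cases h : ω ∈ Fs ∨ ω = p1 ∨ ω = p2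
    · left
      simp only [if_pos h]
      rw [Finset.mem_map]
      refine ⟨ω, ?_, rfl⟩
      rw [Finset.mem_union, Finset.mem_insert, Finset.mem_singleton]
      exact h
    · right
      simp only [if_neg h]
      rw [Finset.mem_map]
      exact ⟨φ ω, hφ1 ω (hout ω h), rfl⟩
  have hιinj : Function.Injective (fun ω => (⟨ι ω, hιT ω⟩ : T)) := by
    intro ω ω' h
    have h1 : ι ω = ι ω' := congrArg Subtype.val h
    rw [hι] at h1
    by_cases hω : ω ∈ Fs ∨ ω = p1 ∨ ω = p2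
    · by_cases hω' : ω' ∈ Fs ∨ ω' = p1 ∨ ω' = p2
      · simp only [if_pos hω, if_pos hω'] at h1
        exact Sum.inl_injective h1
      · simp only [if_pos hω, if_neg hω'] at h1
        exact absurd h1 (by simp)
    · by_cases hω' : ω' ∈ Fs ∨ ω' = p1 ∨ ω' = p2
      · simp only [if_neg hω, if_pos hω'] at h1
        exact absurd h1 (by simp)
      · simp only [if_neg hω, if_neg hω'] at h1
        exact hφ2 ω ω' (hout ω hω) (hout ω' hω') (Sum.inr_injective h1)
  have hfin : Finite Ω := Finite.of_injective _ hιinj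
  have hcard : Nat.card Ω ≤ Fs.card + 2 + (Fs.card * Fs.card - Fs.card) := by
    have h1 := Nat.card_le_card_of_injective _ hιinj
    rw [Nat.card_eq_fintype_card (α := T), Fintype.card_coe] at h1
    exact h1.trans hTcard
  have hcases : Fs.card = 2 ∨ Fs.card = 3 := by omega
  refine ⟨hfin, ?_, ?_⟩
  · rcases hcases with h | h
    · rw [h] at hcard
      omega
    · rw [h] at hcard
      omega
  · intro heven
    have : Fintype Ω := Fintype.ofFinite Ω
    have hπ : (MulAction.toPerm x : Equiv.Perm Ω) ^ 2 ^ 1 = 1 := by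
      rw [pow_one, pow_two]
      ext ω
      show x • x • ω = ω
      exact hxinv ω
    have : Fact (Nat.Prime 2) := ⟨Nat.prime_two⟩
    have hmod := Equiv.Perm.card_compl_support_modEq hπ
    have hsupp : (MulAction.toPerm x : Equiv.Perm Ω).supportᶜ = Fs := by
      ext ω
      rw [Finset.mem_compl, Equiv.Perm.mem_support, not_not, hFs]
      rfl
    rw [hsupp, ← Nat.card_eq_fintype_card] at hmod
    have h2 : Fs.card % 2 = 0 := by
      rw [hmod]
      exact Nat.even_iff.mp heven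
    have h3 : Fs.card = 2 := by omega
    rw [h3] at hcard
    omega

end Cfsg.Agent.S0708
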