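import Mathlib
import Cfsg.Statements.S2910
import Cfsg.Agent.Lib.Helper54.OmegaComplement

set_option autoImplicit false
open Cfsg

namespace Cfsg.Agent.S2910

open Cfsg.Agent.Lib.Helper54

theorem main {G : Type*} [Group G] [Finite G] {p : ℕ} [Fact p.Prime] (hp : p ≠ 2)
    (hdiv : p ∣ Nat.card G) (P : Sylow p G)
    (hZ : Cfsg.omegaOne p (P : Subgroup G) ≤ Subgroup.center G) :
    Cfsg.HasNormalPComplement p G ∧ ¬ Cfsg.IsQuasisimple G := by
  have hpp : p.Prime := Fact.out
  have hF : FrobeniusCondition p G := by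
    apply frobeniusCondition_of_fix_omega 1 le_rfl (omega_exponent_odd Fact.out hp)
    intro Q hQ g hg hgp x hx hxp
    rw [pow_one] at hxp
    -- `x` is central
    obtain ⟨P', hQP'⟩ := hQ.exists_le_sylow
    obtain ⟨u, hu⟩ := MulAction.exists_smul_eq G P P'
    have hxP : u⁻¹ * x * u ∈ (P : Subgroup G) := by
      rw [← mem_sylow_smul_iff, hu]; exact hQP' hx
    have hxp' : (u⁻¹ * x * u) ^ p = 1 := by
      have := conj_pow (a := u⁻¹) (b := x) (i := p)
      rw [inv_inv] at this
      rw [this, hxp]; group
    have hc : u⁻¹ * x * u ∈ Subgroup.center G :=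
      hZ (Subgroup.subset_closure ⟨hxP, hxp'⟩)
    have hxc : x ∈ Subgroup.center G := by
      have h1 := Subgroup.mem_center_iff.mp hc u
      have h2 : x = u⁻¹ * x * u := by
        have h3 : x * u = u⁻¹ * x * u * u := by
          rw [← h1]; group
        exact mul_right_cancel h3
      rw [h2]; exact hc
    have := Subgroup.mem_center_iff.mp hxc g
    rw [this]; group
  have hN := hasNormalPComplement_iff_frobeniusCondition.mpr hF
  refine ⟨hN, ?_⟩
  rintro ⟨hperf, -⟩
  obtain ⟨N, hNn, hcop, k, hk⟩ := hasNormalPComplement_iff.mp hN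
  have hquot : IsPGroup p (G ⧸ N) := by
    apply IsPGroup.of_card (n := k)
    rw [← Subgroup.index_eq_card, hk]
  have hnil : Group.IsNilpotent (G ⧸ N) := hquot.isNilpotent
  have hnt : Nontrivial (G ⧸ N) := by
    rw [← Finite.one_lt_card_iff_nontrivial, ← Subgroup.index_eq_card]
    by_contra hle
    have h1 : N.index = 1 := by
      have : N.index ≠ 0 := Subgroup.index_ne_zero_of_finite
      omega
    have h2 := N.card_mul_index
    rw [h1, mul_one] at h2
    rw [h2] at hcop
    have h3 : p ∣ Nat.gcd (Nat.card G) p := Nat.dvd_gcd hdiv dvd_rfl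
    rw [hcop] at h3
    exact hpp.one_lt.ne' (Nat.dvd_one.mp h3)
  exact Group.IsPerfect.not_isNilpotent (G ⧸ N) hnil

/-- Let p be an odd prime dividing the order of the finite group G and P a Sylow p-subgroup of G. If Ω₁(P) (generated by the elements of order dividing p) is contained in the centre of G, then G has a normal p-complement. In particular, if G is quasisimple then Ω₁(P) is not central in G. -/
theorem result {G : Type*} [Group G] [Finite G] {p : ℕ} [Fact p.Prime] (hp : p ≠ 2) (hdiv : p ∣ Nat.card G) (P : Sylow p G) (hZ : Cfsg.omegaOne p (P : Subgroup G) ≤ Subgroup.center G) : Cfsg.HasNormalPComplement p G ∧ ¬ Cfsg.IsQuasisimple G :=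
  main hp hdiv P hZ

end Cfsg.Agent.S2910
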