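import Mathlib
import Cfsg.Statements.S0684

set_option autoImplicit false
open Cfsg

namespace Cfsg.Agent.S0684

open scoped IsMulCommutative

variable {p : ℕ} [Fact p.Prime] {V : Type*} [AddCommGroup V] [Module (ZMod p) V] [Finite V]

theorem semireg (H : Subgroup (V ≃ₗ[ZMod p] V))
    (hreg : ∀ v w : V, v ≠ 0 → w ≠ 0 → ∃! h : H, (h : V ≃ₗ[ZMod p] V) v = w)
    (h : H) (v : V) (hv : v ≠ 0) (hfix : (h : V ≃ₗ[ZMod p] V) v = v) : h = 1 := by
  obtain ⟨h₀, _, huniq⟩ := hreg v v hv hv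
  rw [huniq h hfix, huniq 1 (by simp)]

theorem finite_linEquiv : Finite (V ≃ₗ[ZMod p] V) :=
  Finite.of_injective (fun f => (f : V → V)) DFunLike.coe_injective

theorem finite_end : Finite (Module.End (ZMod p) V) :=
  Finite.of_injective (fun f => (f : V → V)) DFunLike.coe_injective

theorem cyclic_of_semireg [Nontrivial V] (H : Subgroup (V ≃ₗ[ZMod p] V)) (A : Subgroup H)
    (hAc : IsMulCommutative A)
    (hsemi : ∀ a : A, ∀ v : V, v ≠ 0 → ((a : H) : V ≃ₗ[ZMod p] V) v = v → a = 1) :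
    IsCyclic A := by
  classical
  have := finite_linEquiv (p := p) (V := V)
  have hfinE := finite_end (p := p) (V := V)
  let φ : A →* Module.End (ZMod p) V :=
    { toFun := fun a => (((a : H) : V ≃ₗ[ZMod p] V) : V →ₗ[ZMod p] V)
      map_one' := rfl
      map_mul' := fun a b => rfl }
  have hcomm : ∀ x ∈ Set.range φ, ∀ y ∈ Set.range φ, x * y = y * x := by
    rintro _ ⟨a, rfl⟩ _ ⟨b, rfl⟩
    rw [← map_mul, ← map_mul, hAc.is_comm.comm a b]
  let S : Subalgebra (ZMod p) (Module.End (ZMod p) V) := Algebra.adjoin (ZMod p) (Set.range φ)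
  have hSc : IsMulCommutative S := Algebra.isMulCommutative_adjoin _ hcomm
  obtain ⟨𝔪, h𝔪⟩ := Ideal.exists_maximal S
  let _ := Ideal.Quotient.field 𝔪
  let ψ : A →* S :=
    { toFun := fun a => ⟨φ a, Algebra.subset_adjoin ⟨a, rfl⟩⟩
      map_one' := Subtype.ext (map_one φ)
      map_mul' := fun a b => Subtype.ext (map_mul φ a b) }
  let f : A →* (S ⧸ 𝔪) := (Ideal.Quotient.mk 𝔪 : S →+* S ⧸ 𝔪).toMonoidHom.comp ψ
  apply isCyclic_of_injective_ringHom f
  rw [injective_iff_map_eq_one]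
  intro a ha
  by_contra hne
  have h1 : ψ a - 1 ∈ 𝔪 := by
    rw [← Ideal.Quotient.eq_zero_iff_mem, map_sub, map_one, sub_eq_zero]
    exact ha
  -- the endomorphism `φ a - 1` is injective
  have hinj : Function.Injective (φ a - 1 : Module.End (ZMod p) V) := by
    rw [← LinearMap.ker_eq_bot, LinearMap.ker_eq_bot']
    intro v hv
    by_contra hv0
    apply hne
    apply hsemi a v hv0
    have : φ a v - v = 0 := hv
    exact sub_eq_zero.mp this
  have hbij : Function.Bijective (φ a - 1 : Module.End (ZMod p) V) :=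
    ⟨hinj, Finite.surjective_of_injective hinj⟩
  have hunit : IsUnit (φ a - 1 : Module.End (ZMod p) V) :=
    (Module.End.isUnit_iff _).mpr hbij
  obtain ⟨u, hu⟩ := hunit
  have hfinU : Finite (Module.End (ZMod p) V)ˣ := inferInstance
  have hpow : u ^ Nat.card (Module.End (ZMod p) V)ˣ = 1 := pow_card_eq_one'
  have hpow' : (φ a - 1 : Module.End (ZMod p) V) ^ Nat.card (Module.End (ZMod p) V)ˣ = 1 := by
    rw [← hu, ← Units.val_pow_eq_pow_val, hpow, Units.val_one]
  have hpowS : (ψ a - 1) ^ Nat.card (Module.End (ZMod p) V)ˣ = 1 := by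
    apply Subtype.ext
    exact hpow'
  have hunitS : IsUnit (ψ a - 1) :=
    IsUnit.of_pow_eq_one hpowS Nat.card_pos.ne'
  exact h𝔪.ne_top (Ideal.eq_top_of_isUnit_mem 𝔪 h1 hunitS)


theorem exists_minimal (H : Subgroup (V ≃ₗ[ZMod p] V)) (A : Subgroup H)
    (W₀ : Submodule (ZMod p) V) (hW₀ : W₀ ≠ ⊥)
    (hinv : ∀ a ∈ A, ∀ v ∈ W₀, ((a : H) : V ≃ₗ[ZMod p] V) v ∈ W₀) :
    ∃ W : Submodule (ZMod p) V, W ≤ W₀ ∧ W ≠ ⊥ ∧
      (∀ a ∈ A, ∀ v ∈ W, ((a : H) : V ≃ₗ[ZMod p] V) v ∈ W) ∧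
      (∀ W' : Submodule (ZMod p) V, W' ≤ W →
        (∀ a ∈ A, ∀ v ∈ W', ((a : H) : V ≃ₗ[ZMod p] V) v ∈ W') → W' = ⊥ ∨ W' = W) := by
  classical
  let T : Set (Submodule (ZMod p) V) := {W | W ≤ W₀ ∧ W ≠ ⊥ ∧
      (∀ a ∈ A, ∀ v ∈ W, ((a : H) : V ≃ₗ[ZMod p] V) v ∈ W)}
  have hT : T.Nonempty := ⟨W₀, le_refl _, hW₀, hinv⟩
  let W := Function.argminOn (fun W : Submodule (ZMod p) V => Module.finrank (ZMod p) W) T hT
  have hWT : W ∈ T := Function.argminOn_mem _ T hT
  refine ⟨W, hWT.1, hWT.2.1, hWT.2.2, ?_⟩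
  intro W' hle hinv'
  by_cases hbot : W' = ⊥
  · left; exact hbot
  · right
    have hW'T : W' ∈ T := ⟨hle.trans hWT.1, hbot, hinv'⟩
    have := Function.argminOn_le (fun W : Submodule (ZMod p) V => Module.finrank (ZMod p) W) T hW'T
    exact Submodule.eq_of_le_of_finrank_le hle this

/-- Point stabiliser of a sharply doubly transitive group not of semilinear type: a maximal normal abelian subgroup `A` of a linear group `H` that is regular on non-zero vectors and has no irreducible cyclic normal subgroup is cyclic and reducible, and the order of `A` divides `p ^ k - 1` for `k` the dimension of a minimal `A`-invariant subspace. -/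
theorem result {p : ℕ} [Fact p.Prime] {V : Type*} [AddCommGroup V] [Module (ZMod p) V] [Finite V] (H : Subgroup (V ≃ₗ[ZMod p] V)) (hreg : ∀ v w : V, v ≠ 0 → w ≠ 0 → ∃! h : H, (h : V ≃ₗ[ZMod p] V) v = w) (hI : ∀ A : Subgroup H, A.Normal → IsCyclic A → ∃ W : Submodule (ZMod p) V, W ≠ ⊥ ∧ W ≠ ⊤ ∧ ∀ a ∈ A, ∀ v ∈ W, ((a : H) : V ≃ₗ[ZMod p] V) v ∈ W) (A : Subgroup H) (hAn : A.Normal) (hAc : IsMulCommutative A) (hAmax : ∀ B : Subgroup H, B.Normal → IsMulCommutative B → A ≤ B → B = A) : IsCyclic A ∧ ∃ W : Submodule (ZMod p) V, W ≠ ⊥ ∧ W ≠ ⊤ ∧ (∀ a ∈ A, ∀ v ∈ W, ((a : H) : V ≃ₗ[ZMod p] V) v ∈ W) ∧ (∀ W' : Submodule (ZMod p) V, W' ≤ W → (∀ a ∈ A, ∀ v ∈ W', ((a : H) : V ≃ₗ[ZMod p] V) v ∈ W') → W' = ⊥ ∨ W' = W) ∧ Nat.card A ∣ p ^ Module.finrank (ZMod p) W - 1 := by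
  classical
  have hfinL := finite_linEquiv (p := p) (V := V)
  -- V is nontrivial
  have hnt : Nontrivial V := by
    obtain ⟨W, hW, -, -⟩ := hI ⊥ inferInstance inferInstance
    obtain ⟨v, -, hv⟩ := (Submodule.ne_bot_iff _).mp hW
    exact ⟨⟨v, 0, hv⟩⟩
  have hsemi : ∀ a : A, ∀ v : V, v ≠ 0 → ((a : H) : V ≃ₗ[ZMod p] V) v = v → a = 1 := by
    intro a v hv hfix
    exact Subtype.ext (semireg H hreg a v hv hfix)
  have hcyc : IsCyclic A := cyclic_of_semireg H A hAc hsemi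
  refine ⟨hcyc, ?_⟩
  obtain ⟨W₀, hW₀bot, hW₀top, hW₀inv⟩ := hI A hAn hcyc
  obtain ⟨W, hWle, hWbot, hWinv, hWmin⟩ := exists_minimal H A W₀ hW₀bot hW₀inv
  refine ⟨W, hWbot, ?_, hWinv, hWmin, ?_⟩
  · intro h
    apply hW₀top
    rw [eq_top_iff, ← h]
    exact hWle
  · -- counting
    let X := {w : W // w ≠ 0}
    let _ : MulAction A X :=
      { smul := fun a x => ⟨⟨((a : H) : V ≃ₗ[ZMod p] V) x.1.1, hWinv a a.2 x.1.1 x.1.2⟩, by
          intro h
          apply x.2
          have h' : ((a : H) : V ≃ₗ[ZMod p] V) x.1.1 = 0 := congrArg Subtype.val h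
          have h'' : (x.1 : V) = 0 := by
            simpa using h'
          exact Subtype.ext h''⟩
        one_smul := fun x => rfl
        mul_smul := fun a b x => rfl }
    have hfree : ∀ x : X, MulAction.stabilizer A x = ⊥ := by
      intro x
      rw [eq_bot_iff]
      intro a ha
      rw [MulAction.mem_stabilizer_iff] at ha
      rw [Subgroup.mem_bot]
      apply hsemi a x.1.1
      · intro h
        exact x.2 (Subtype.ext h)
      · exact congrArg (fun y : X => (y.1 : V)) ha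
    have e := MulAction.selfEquivOrbitsQuotientProd hfree
    have hcard : Nat.card X = Nat.card (Quotient (MulAction.orbitRel A X)) * Nat.card A := by
      rw [Nat.card_congr e, Nat.card_prod]
    have hX : Nat.card X = p ^ Module.finrank (ZMod p) W - 1 := by
      have hfW : Fintype W := Fintype.ofFinite W
      have h1 : Fintype.card {w : W // ¬ (w = 0)} = Fintype.card W - Fintype.card {w : W // w = 0} :=
        Fintype.card_subtype_compl _
      have h2 : Fintype.card W = p ^ Module.finrank (ZMod p) W := by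
        rw [Module.card_eq_pow_finrank (K := ZMod p) (V := W), ZMod.card]
      rw [Nat.card_eq_fintype_card]
      rw [← h2]
      convert h1 using 2
      simp
    rw [← hX, hcard]
    exact dvd_mul_left _ _

end Cfsg.Agent.S0684
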