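import Mathlib
import Cfsg.Statements.S1894
import Cfsg.Agent.Lib.Helper48.SPE
-- import your own Cfsg.Agent.* helpers here

set_option autoImplicit false
open Cfsg

namespace Cfsg.Agent.S1894

/-- Let P be a finite p-group, A a normal subgroup of P and B an abelian subgroup of A that is normal in P. Then some subgroup C of A containing B is normal in P and is self-centralizing and normal in A (C ∈ SCN(A)). -/
theorem result {P : Type*} [Group P] [Finite P] {p : ℕ} [Fact p.Prime] (hP : IsPGroup p P)
    (A : Subgroup P) [A.Normal] (B : Subgroup P) [B.Normal] (hBA : B ≤ A) (hB : IsMulCommutative B) :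
    ∃ C : Subgroup P, C.Normal ∧ B ≤ C ∧ Cfsg.IsSCN A C := by
  classical
  obtain ⟨C, hBC, hmax⟩ := Finite.exists_le_maximal
    (p := fun C : Subgroup P => C.Normal ∧ C ≤ A ∧ ∀ x ∈ C, ∀ y ∈ C, x * y = y * x) (a := B)
    ⟨inferInstance, hBA, fun x hx y hy => congrArg Subtype.val (hB.is_comm.comm ⟨x, hx⟩ ⟨y, hy⟩)⟩
  obtain ⟨⟨hCn, hCA, hCab⟩, hCmax⟩ := hmax
  refine ⟨C, hCn, hBC, hCA, ?_, ?_⟩
  · rw [Subgroup.normalizer_eq_top]; exact le_top
  · apply le_antisymm
    swap
    · intro x hx
      rw [Subgroup.mem_inf]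
      exact ⟨hCA hx, Subgroup.mem_centralizer_iff.mpr (fun y hy => hCab y hy x hx)⟩
    · by_contra hnot
      rw [SetLike.not_le_iff_exists] at hnot
      obtain ⟨d, hd, hdC⟩ := hnot
      have hDn : (A ⊓ Subgroup.centralizer (C : Set P)).Normal := inferInstance
      have hD'n : ((A ⊓ Subgroup.centralizer (C : Set P)).map (QuotientGroup.mk' C)).Normal :=
        Subgroup.Normal.map hDn _ (QuotientGroup.mk'_surjective C)
      have hD'ne : (A ⊓ Subgroup.centralizer (C : Set P)).map (QuotientGroup.mk' C) ≠ ⊥ := by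
        intro h
        have h1 : QuotientGroup.mk' C d ∈ (A ⊓ Subgroup.centralizer (C : Set P)).map (QuotientGroup.mk' C) :=
          Subgroup.mem_map_of_mem _ hd
        rw [h, Subgroup.mem_bot] at h1
        exact hdC ((QuotientGroup.eq_one_iff d).mp h1)
      have hPC : IsPGroup p (P ⧸ C) := hP.to_quotient C
      obtain ⟨zbar, hzD, hz1, hzc⟩ := Cfsg.Agent.Lib.Helper48.exists_mem_center_of_normal hPC _ hD'ne
      obtain ⟨z, hzD', rfl⟩ := Subgroup.mem_map.mp hzD
      have hzC : z ∉ C := fun h => hz1 ((QuotientGroup.eq_one_iff z).mpr h)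
      rw [Subgroup.mem_inf] at hzD'
      have hC'n : ((Subgroup.zpowers (QuotientGroup.mk' C z)).comap (QuotientGroup.mk' C)).Normal := by
        have h1 : (Subgroup.zpowers (QuotientGroup.mk' C z)).Normal := by
          refine ⟨fun n hn g => ?_⟩
          have hnc : n ∈ Subgroup.center (P ⧸ C) := (Subgroup.zpowers_le.mpr hzc) hn
          have h2 : g * n * g⁻¹ = n := by
            rw [Subgroup.mem_center_iff.mp hnc g]; simp
          rw [h2]; exact hn
        exact Subgroup.Normal.comap h1 _
      have hCC' : C ≤ (Subgroup.zpowers (QuotientGroup.mk' C z)).comap (QuotientGroup.mk' C) := by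
        intro x hx
        rw [Subgroup.mem_comap]
        have h1 : QuotientGroup.mk' C x = 1 := (QuotientGroup.eq_one_iff x).mpr hx
        rw [h1]
        exact one_mem _
      have hrep : ∀ x ∈ (Subgroup.zpowers (QuotientGroup.mk' C z)).comap (QuotientGroup.mk' C),
          ∃ k : ℤ, ∃ c ∈ C, x = z ^ k * c := by
        intro x hx
        rw [Subgroup.mem_comap, Subgroup.mem_zpowers_iff] at hx
        obtain ⟨k, hk⟩ := hx
        refine ⟨k, (z ^ k)⁻¹ * x, ?_, by simp⟩
        rw [← QuotientGroup.eq_one_iff]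
        have h1 : ((((z ^ k)⁻¹ * x : P)) : P ⧸ C) = ((QuotientGroup.mk' C z) ^ k)⁻¹ * QuotientGroup.mk' C x := by
          simp
        rw [h1, hk]; simp
      have hzcent : ∀ c ∈ C, Commute z c := fun c hc =>
        ((Subgroup.mem_centralizer_iff.mp hzD'.2) c hc).symm
      have hC'A : (Subgroup.zpowers (QuotientGroup.mk' C z)).comap (QuotientGroup.mk' C) ≤ A := by
        intro x hx
        obtain ⟨k, c, hc, rfl⟩ := hrep x hx
        exact A.mul_mem (A.zpow_mem hzD'.1 k) (hCA hc)
      have hC'ab : ∀ x ∈ (Subgroup.zpowers (QuotientGroup.mk' C z)).comap (QuotientGroup.mk' C),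
          ∀ y ∈ (Subgroup.zpowers (QuotientGroup.mk' C z)).comap (QuotientGroup.mk' C), x * y = y * x := by
        intro x hx y hy
        obtain ⟨k, c, hc, rfl⟩ := hrep x hx
        obtain ⟨l, c', hc', rfl⟩ := hrep y hy
        have h1 : Commute (z ^ k) (z ^ l) := Commute.zpow_zpow_self z k l
        have h2 : Commute (z ^ k) c' := (hzcent c' hc').zpow_left k
        have h3 : Commute c (z ^ l) := ((hzcent c hc).symm).zpow_right l
        have h4 : Commute c c' := hCab c hc c' hc'
        exact ((h1.mul_right h2).mul_left (h3.mul_right h4)).eq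
      have hle := hCmax ⟨hC'n, hC'A, hC'ab⟩ hCC'
      apply hzC
      apply hle
      rw [Subgroup.mem_comap]
      exact Subgroup.mem_zpowers _

end Cfsg.Agent.S1894
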