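import Cfsg.Statements.S3209
import Cfsg.Agent.Lib.Helper41.SL2Quart
import Cfsg.Agent.Lib.Helper5.PSL2

set_option autoImplicit false
open Cfsg

namespace Cfsg.Agent.S3209

open Cfsg.Agent.Lib.Helper41

/-- the involution structure of `SL₂(q)`, `q` odd, transported to an isomorphic subgroup -/
theorem sub_props {G : Type*} [Group G] {F : Type*} [Field F] [Fintype F]
    (hF : Odd (Fintype.card F)) (L : Subgroup G)
    (e : ↥L ≃* Matrix.SpecialLinearGroup (Fin 2) F) :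
    ∃ z ∈ L, z ≠ 1 ∧ z * z = 1 ∧ (∀ t ∈ L, t * t = 1 → t = 1 ∨ t = z) ∧
      (∃ a ∈ L, a * a = z) ∧
      (∀ a ∈ L, ∀ b ∈ L, a * a = z → b * b = z → ∃ g ∈ L, g * a * g⁻¹ = b) := by
  have h2 : (2 : F) ≠ 0 := Cfsg.Agent.Lib.Helper5.two_ne_zero_of_odd_card hF
  obtain ⟨z, hz1, hzz, ht, ⟨a, ha⟩, hconj⟩ := sl2_involution_props h2
  refine ⟨(e.symm z : G), (e.symm z).2, ?_, ?_, ?_, ?_, ?_⟩
  · intro h
    apply hz1
    have : e.symm z = 1 := Subtype.ext h
    have h' := congrArg e this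
    simpa using h'
  · have : e.symm z * e.symm z = 1 := by
      rw [← map_mul, hzz, map_one]
    exact congrArg Subtype.val this
  · intro t htL htt
    have h1 : e ⟨t, htL⟩ * e ⟨t, htL⟩ = 1 := by
      rw [← map_mul]
      have : (⟨t, htL⟩ : L) * ⟨t, htL⟩ = 1 := Subtype.ext htt
      rw [this, map_one]
    rcases ht _ h1 with h | h
    · left
      have : (⟨t, htL⟩ : L) = 1 := by
        apply e.injective
        rw [h, map_one]
      exact congrArg Subtype.val this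
    · right
      have : (⟨t, htL⟩ : L) = e.symm z := by
        apply e.injective
        rw [h, MulEquiv.apply_symm_apply]
      exact congrArg Subtype.val this
  · refine ⟨(e.symm a : G), (e.symm a).2, ?_⟩
    have : e.symm a * e.symm a = e.symm z := by
      rw [← map_mul, ha]
    exact congrArg Subtype.val this
  · intro a haL b hbL haz hbz
    have h1 : e ⟨a, haL⟩ * e ⟨a, haL⟩ = z := by
      rw [← map_mul]
      have : (⟨a, haL⟩ : L) * ⟨a, haL⟩ = e.symm z := Subtype.ext haz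
      rw [this, MulEquiv.apply_symm_apply]
    have h2' : e ⟨b, hbL⟩ * e ⟨b, hbL⟩ = z := by
      rw [← map_mul]
      have : (⟨b, hbL⟩ : L) * ⟨b, hbL⟩ = e.symm z := Subtype.ext hbz
      rw [this, MulEquiv.apply_symm_apply]
    obtain ⟨g, hg⟩ := hconj _ _ h1 h2'
    refine ⟨(e.symm g : G), (e.symm g).2, ?_⟩
    have : e.symm g * ⟨a, haL⟩ * (e.symm g)⁻¹ = ⟨b, hbL⟩ := by
      apply e.injective
      rw [map_mul, map_mul, map_inv, MulEquiv.apply_symm_apply, hg]
    exact congrArg Subtype.val this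

/-- Let L₁ ≅ SL₂(q₁) and L₂ ≅ SL₂(q₂), q₁ and q₂ odd, be elementwise-commuting subgroups of a finite group meeting in ⟨j⟩ for an involution j. Then L₁L₂ has exactly two conjugacy classes of involutions: the central involution j, and one further class (there is an involution x ≠ j in L₁L₂, and every involution of L₁L₂ other than j is conjugate to x by an element of L₁L₂). -/
theorem result {G : Type*} [Group G] [Finite G]
    {F₁ : Type*} [Field F₁] [Fintype F₁] {F₂ : Type*} [Field F₂] [Fintype F₂]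
    (hF₁ : Odd (Fintype.card F₁)) (hF₂ : Odd (Fintype.card F₂)) (L₁ L₂ : Subgroup G)
    (e₁ : ↥L₁ ≃* Matrix.SpecialLinearGroup (Fin 2) F₁) (e₂ : ↥L₂ ≃* Matrix.SpecialLinearGroup (Fin 2) F₂)
    (hc : ∀ x ∈ L₁, ∀ y ∈ L₂, x * y = y * x) (j : G) (hj : orderOf j = 2) (hm : L₁ ⊓ L₂ = Subgroup.zpowers j) :
    ∃ x ∈ L₁ ⊔ L₂, orderOf x = 2 ∧ x ≠ j ∧
      ∀ y ∈ L₁ ⊔ L₂, orderOf y = 2 → y = j ∨ ∃ g ∈ L₁ ⊔ L₂, g * x * g⁻¹ = y := by
  have hj2 : j * j = 1 := by
    have := pow_orderOf_eq_one j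
    rw [hj, pow_two] at this
    exact this
  have hj1 : j ≠ 1 := by
    intro h
    rw [h, orderOf_one] at hj
    omega
  have hjm : j ∈ L₁ ⊓ L₂ := by
    rw [hm]
    exact Subgroup.mem_zpowers j
  have hz : ∀ t ∈ L₁ ⊓ L₂, t = 1 ∨ t = j := by
    intro t ht
    rw [hm] at ht
    obtain ⟨k, rfl⟩ := Subgroup.mem_zpowers_iff.mp ht
    rcases Int.emod_two_eq_zero_or_one k with h | h
    · left
      have : k = 2 * (k / 2) := by omega
      rw [this, zpow_mul, zpow_ofNat, pow_two, hj2, one_zpow]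
    · right
      have : k = 2 * (k / 2) + 1 := by omega
      rw [this, zpow_add, zpow_mul, zpow_ofNat, pow_two, hj2, one_zpow, one_mul, zpow_one]
  obtain ⟨z₁, hz₁L, hz₁1, hz₁2, ht₁, ⟨a₀, ha₀L, ha₀⟩, hc₁⟩ := sub_props hF₁ L₁ e₁
  obtain ⟨z₂, hz₂L, hz₂1, hz₂2, ht₂, ⟨b₀, hb₀L, hb₀⟩, hc₂⟩ := sub_props hF₂ L₂ e₂
  have e1 : z₁ = j := by
    rcases ht₁ j hjm.1 hj2 with h | h
    · exact absurd h hj1
    · exact h.symm
  have e2 : z₂ = j := by
    rcases ht₂ j hjm.2 hj2 with h | h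
    · exact absurd h hj1
    · exact h.symm
  rw [e1] at ha₀ hc₁ ht₁
  rw [e2] at hb₀ hc₂ ht₂
  have ha₀n : a₀ ∉ L₂ := by
    intro h
    rcases hz a₀ ⟨ha₀L, h⟩ with h' | h'
    · rw [h', one_mul] at ha₀
      exact hj1 ha₀.symm
    · rw [h', hj2] at ha₀
      exact hj1 ha₀.symm
  refine ⟨a₀ * b₀, ?_, ?_, ?_, ?_⟩
  · exact Subgroup.mul_mem _ (Subgroup.mem_sup_left ha₀L) (Subgroup.mem_sup_right hb₀L)
  · have hsq : (a₀ * b₀) * (a₀ * b₀) = 1 := by
      have hcomm := hc a₀ ha₀L b₀ hb₀L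
      calc a₀ * b₀ * (a₀ * b₀) = a₀ * (b₀ * a₀) * b₀ := by group
        _ = a₀ * (a₀ * b₀) * b₀ := by rw [hcomm]
        _ = (a₀ * a₀) * (b₀ * b₀) := by group
        _ = 1 := by rw [ha₀, hb₀, hj2]
    have hne : a₀ * b₀ ≠ 1 := by
      intro h
      apply ha₀n
      have : a₀ = b₀⁻¹ := eq_inv_of_mul_eq_one_left h
      rw [this]
      exact L₂.inv_mem hb₀L
    have : Fact (Nat.Prime 2) := ⟨Nat.prime_two⟩
    exact orderOf_eq_prime (by rw [pow_two]; exact hsq) hne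
  · intro h
    apply ha₀n
    have : a₀ = j * b₀⁻¹ := by
      rw [← h]
      group
    rw [this]
    exact L₂.mul_mem hjm.2 (L₂.inv_mem hb₀L)
  · intro y hy hyo
    have hcm : ∀ (m : L₁) (n : L₂), Commute (L₁.subtype m) (L₂.subtype n) :=
      fun m n => hc m.1 m.2 n.1 n.2
    have hrange : L₁ ⊔ L₂ = (MonoidHom.noncommCoprod L₁.subtype L₂.subtype hcm).range := by
      have h := MonoidHom.noncommCoprod_range L₁.subtype L₂.subtype hcm
      rw [Subgroup.range_subtype, Subgroup.range_subtype] at h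
      exact h.symm
    rw [hrange] at hy
    obtain ⟨⟨⟨a, ha⟩, ⟨b, hb⟩⟩, rfl⟩ := hy
    rw [MonoidHom.noncommCoprod_apply] at hyo ⊢
    simp only [Subgroup.coe_subtype] at hyo ⊢
    have hy1 : a * b ≠ 1 := by
      intro h
      rw [h, orderOf_one] at hyo
      omega
    have hyy : (a * b) * (a * b) = 1 := by
      have := pow_orderOf_eq_one (a * b)
      rw [hyo, pow_two] at this
      exact this
    have hab : (a * a) * (b * b) = 1 := by
      have hcomm := hc a ha b hb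
      calc a * a * (b * b) = a * (a * b) * b := by group
        _ = a * (b * a) * b := by rw [hcomm]
        _ = (a * b) * (a * b) := by group
        _ = 1 := hyy
    have ha2 : a * a ∈ L₁ ⊓ L₂ := by
      refine ⟨L₁.mul_mem ha ha, ?_⟩
      have : a * a = (b * b)⁻¹ := eq_inv_of_mul_eq_one_left hab
      rw [this]
      exact L₂.inv_mem (L₂.mul_mem hb hb)
    rcases hz (a * a) ha2 with h | h
    · left
      have hb2 : b * b = 1 := by
        rw [h, one_mul] at hab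
        exact hab
      rcases ht₁ a ha h with h1 | h1 <;> rcases ht₂ b hb hb2 with h3 | h3
      · exfalso
        apply hy1
        rw [h1, h3, one_mul]
      · rw [h1, h3, one_mul]
      · rw [h1, h3, mul_one]
      · exfalso
        apply hy1
        rw [h1, h3, hj2]
    · right
      have hb2 : b * b = j := by
        rw [h] at hab
        calc b * b = j * (j * (b * b)) := by rw [← mul_assoc, hj2, one_mul]
          _ = j := by rw [hab, mul_one]
      obtain ⟨g₁, hg₁, hg₁c⟩ := hc₁ a₀ ha₀L a ha ha₀ h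
      obtain ⟨g₂, hg₂, hg₂c⟩ := hc₂ b₀ hb₀L b hb hb₀ hb2
      refine ⟨g₁ * g₂, Subgroup.mul_mem _ (Subgroup.mem_sup_left hg₁)
        (Subgroup.mem_sup_right hg₂), ?_⟩
      have c1 : a₀ * g₂ = g₂ * a₀ := hc a₀ ha₀L g₂ hg₂
      have c2 : g₁⁻¹ * b = b * g₁⁻¹ := hc g₁⁻¹ (L₁.inv_mem hg₁) b hb
      calc g₁ * g₂ * (a₀ * b₀) * (g₁ * g₂)⁻¹ = g₁ * (g₂ * a₀) * b₀ * g₂⁻¹ * g₁⁻¹ := by group
        _ = g₁ * (a₀ * g₂) * b₀ * g₂⁻¹ * g₁⁻¹ := by rw [c1]
        _ = g₁ * a₀ * (g₂ * b₀ * g₂⁻¹) * g₁⁻¹ := by group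
        _ = g₁ * a₀ * (b * g₁⁻¹) := by rw [hg₂c]; group
        _ = g₁ * a₀ * (g₁⁻¹ * b) := by rw [c2]
        _ = (g₁ * a₀ * g₁⁻¹) * b := by group
        _ = a * b := by rw [hg₁c]

end Cfsg.Agent.S3209
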