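import Cfsg.Statements.S5128
import Cfsg.Agent.Lib.Helper87.FusionStrongly
-- import your own Cfsg.Agent.* helpers here

set_option autoImplicit false
open Cfsg

namespace Cfsg.Agent.S5128

/-- In a saturated fusion system over a finite p-group S, the product of two strongly closed subgroups is strongly closed. -/
theorem result {Ω : Type*} [Group Ω] {S : Subgroup Ω} [Finite S] (p : ℕ) [Fact p.Prime] (hS : IsPGroup p S) (F : Cfsg.FusionSystem S) (hF : F.IsSaturated p) (T₁ T₂ : Subgroup Ω) (h₁ : F.StronglyClosed T₁) (h₂ : F.StronglyClosed T₂) : F.StronglyClosed (T₁ ⊔ T₂) := by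
  have hKS : T₁ ⊔ T₂ ≤ S := sup_le h₁.1 h₂.1
  have hKconj : ∀ g ∈ S, ∀ x ∈ T₁ ⊔ T₂, g * x * g⁻¹ ∈ T₁ ⊔ T₂ := by
    intro g hg x hx
    have h1 : (T₁ ⊔ T₂).map (MulAut.conj g).toMonoidHom ≤ T₁ ⊔ T₂ := by
      rw [Subgroup.map_sup]
      apply sup_le
      · rintro _ ⟨t, ht, rfl⟩
        exact Subgroup.mem_sup_left (Lib.Helper87.stronglyClosed_conj_mem F h₁ hg ht)
      · rintro _ ⟨t, ht, rfl⟩
        exact Subgroup.mem_sup_right (Lib.Helper87.stronglyClosed_conj_mem F h₂ hg ht)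
    exact h1 ⟨x, hx, rfl⟩
  have hK : ∀ g ∈ S, ∀ x : Ω, x ∈ T₁ ⊔ T₂ ↔ g * x * g⁻¹ ∈ T₁ ⊔ T₂ := by
    intro g hg x
    constructor
    · exact hKconj g hg x
    · intro h
      have h2 := hKconj g⁻¹ (S.inv_mem hg) _ h
      have h3 : g⁻¹ * (g * x * g⁻¹) * g⁻¹⁻¹ = x := by group
      rwa [h3] at h2
  have hsub := Lib.Helper87.alperin hS F hF (Lib.Helper87.stabSystem F (T₁ ⊔ T₂) hK) ?_
  · refine ⟨hKS, ?_⟩
    intro R hRK φ hφ x
    exact ((hsub R hφ).2 x).1 (hRK x.2)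
  · intro R hfa hrec _ _ hbig α hα
    have hR := hrec.1
    have mod : ∀ (T : Subgroup Ω), F.StronglyClosed T → T ≤ T₁ ⊔ T₂ → ¬ T ≤ R →
        ∀ β ∈ F.autGroup R, ∀ x : R, (x : Ω) ∈ T₁ ⊔ T₂ → ((β x : R) : Ω) ∈ T₁ ⊔ T₂ := by
      intro T hT hTle hTR β hβ x hx
      obtain ⟨δ, hδA, hδT, N, hRN, hlt, χ, hχ, hχeq⟩ :=
        Lib.Helper87.exists_extension_mod hS F hT hfa hrec hTR hβ
      have hχE := hbig N hlt hχ
      have h1 := (hχE.2 (Subgroup.inclusion hRN x)).1 hx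
      rw [hχeq] at h1
      have h2 := hδT (β x)
      have h3 : ((β x : R) : Ω) = ((δ (β x) : R) : Ω) *
          (((β x : R) : Ω)⁻¹ * ((δ (β x) : R) : Ω))⁻¹ := by group
      rw [h3]
      exact Subgroup.mul_mem _ h1 (Subgroup.inv_mem _ (hTle h2))
    have one : ∀ β ∈ F.autGroup R, ∀ x : R, (x : Ω) ∈ T₁ ⊔ T₂ → ((β x : R) : Ω) ∈ T₁ ⊔ T₂ := by
      intro β hβ x hx
      by_cases hT1R : T₁ ≤ R
      · by_cases hT2R : T₂ ≤ R
        · have hcoe := Subgroup.coe_mul_of_right_le_normalizer_left T₁ T₂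
            (h₂.1.trans (Lib.Helper87.stronglyClosed_le_normalizer F h₁))
          have hx' : (x : Ω) ∈ ((T₁ ⊔ T₂ : Subgroup Ω) : Set Ω) := hx
          rw [hcoe] at hx'
          obtain ⟨t, ht, c, hc, htc⟩ := hx'
          have htR : t ∈ R := hT1R ht
          have hcR : c ∈ R := hT2R hc
          have hxe : x = ⟨t, htR⟩ * ⟨c, hcR⟩ := Subtype.ext htc.symm
          rw [hxe, map_mul]
          apply Subgroup.mul_mem_sup
          · exact Lib.Helper87.stronglyClosed_aut_mem F h₁ hR hβ ⟨t, htR⟩ ht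
          · exact Lib.Helper87.stronglyClosed_aut_mem F h₂ hR hβ ⟨c, hcR⟩ hc
        · exact mod T₂ h₂ le_sup_right hT2R β hβ x hx
      · exact mod T₁ h₁ le_sup_left hT1R β hβ x hx
    refine ⟨(Lib.Helper87.mem_autGroup_iff F hR α).1 hα, fun x => ⟨one α hα x, fun h => ?_⟩⟩
    have h6 := one α⁻¹ ((F.autGroup R).inv_mem hα) (α x) h
    simpa using h6

end Cfsg.Agent.S5128
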