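import Mathlib
import Cfsg.Statements.S4464
import Cfsg.Agent.S0187
import Cfsg.Agent.Lib.Helper75.CharInd
import Cfsg.Agent.Lib.Helper15.PermChar
import Cfsg.Agent.Lib.Helper79.ClassMult
import Cfsg.Agent.Lib.Helper74.CharSums

set_option autoImplicit false
open Cfsg

namespace Cfsg.Agent.S4464

open scoped ComplexConjugate

universe u

/-- Averages of a character over two nested subgroups are natural numbers (dimensions of the
fixed spaces), and the larger subgroup has the smaller fixed space. -/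
theorem avg_fixed {G : Type u} [Group G] [Finite G] {χ : G → ℂ} (hχ : Cfsg.IsCharacter G χ)
    (P N : Subgroup G) (hPN : P ≤ N) [Fintype P] [Fintype N] :
    ∃ a c : ℕ, a ≤ c ∧ (Nat.card N : ℂ)⁻¹ * ∑ h : N, χ h = a ∧
      (Nat.card P : ℂ)⁻¹ * ∑ h : P, χ h = c := by
  obtain ⟨n, ρ, rfl⟩ := hχ
  have hN0 : (Nat.card N : ℂ) ≠ 0 := by exact_mod_cast Nat.card_pos.ne'
  have hP0 : (Nat.card P : ℂ) ≠ 0 := by exact_mod_cast Nat.card_pos.ne'
  have iN : Invertible (Nat.card N : ℂ) := invertibleOfNonzero hN0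
  have iP : Invertible (Nat.card P : ℂ) := invertibleOfNonzero hP0
  have eN := Representation.card_inv_mul_sum_char_eq_finrank (ρ.comp N.subtype)
  have eP := Representation.card_inv_mul_sum_char_eq_finrank (ρ.comp P.subtype)
  refine ⟨_, _, ?_, eN, eP⟩
  apply Submodule.finrank_mono
  intro v hv
  rw [Representation.mem_invariants] at hv ⊢
  intro x
  exact hv ⟨x.1, hPN x.2⟩

/-- Irreducible character degrees of a subgroup are bounded by those of the group. -/
theorem exists_irr_degree_ge {G : Type u} [Group G] [Finite G] (H : Subgroup G)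
    (ψ : Cfsg.IrrCharacter H) :
    ∃ χ : Cfsg.IrrCharacter G,
      Cfsg.charDegree (ψ : H → ℂ) ≤ Cfsg.charDegree (χ : G → ℂ) := by
  classical
  have := Fintype.ofFinite G
  have := Fintype.ofFinite H
  have := Fintype.ofFinite (Cfsg.IrrCharacter G)
  have := Fintype.ofFinite (Cfsg.IrrCharacter H)
  have hθ : Cfsg.IsCharacter G (Cfsg.indFun H (ψ : H → ℂ)) :=
    Cfsg.Agent.Lib.Helper75.isCharacter_indFun H (Cfsg.Agent.Lib.Helper3.isCharacter_of_irr ψ.2)
  obtain ⟨m, hm, hsum⟩ := Cfsg.Agent.Lib.Helper75.char_eq_sum_irr hθ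
  obtain ⟨hψ1, hψpos, -⟩ := Cfsg.Agent.Lib.Helper79.irr_charDegree ψ.2
  have hθ1 : Cfsg.indFun H (ψ : H → ℂ) 1 ≠ 0 := by
    rw [Cfsg.Agent.Lib.Helper75.indFun_one, hψ1]
    have h1 : H.index ≠ 0 := Subgroup.index_ne_zero_of_finite
    have h2 : Cfsg.charDegree (ψ : H → ℂ) ≠ 0 := hψpos.ne'
    exact_mod_cast Nat.mul_ne_zero h1 h2
  have hex : ∃ χ : Cfsg.IrrCharacter G, m χ ≠ 0 := by
    by_contra hcon
    push Not at hcon
    apply hθ1
    rw [hsum]
    simp [hcon]
  obtain ⟨χ, hχ⟩ := hex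
  refine ⟨χ, ?_⟩
  have hχc : Cfsg.IsCharacter G (χ : G → ℂ) := Cfsg.Agent.Lib.Helper3.isCharacter_of_irr χ.2
  have hfr := Cfsg.Agent.Lib.Helper75.frobenius_reciprocity H (ψ : H → ℂ)
    (Cfsg.Agent.Lib.Helper3.isClassFunction_of_isCharacter hχc)
  rw [hm χ] at hfr
  have hres : Cfsg.IsCharacter H (fun h : H => (χ : G → ℂ) h) :=
    Cfsg.Agent.Lib.Helper75.isCharacter_res H hχc
  obtain ⟨k, hk, hksum⟩ := Cfsg.Agent.Lib.Helper75.char_eq_sum_irr hres
  have hkψ : k ψ = m χ := by
    have h1 := hk ψ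
    rw [Cfsg.Agent.Lib.Helper75.classInner_conj_symm, ← hfr] at h1
    simp only [Complex.conj_natCast] at h1
    exact_mod_cast h1.symm
  obtain ⟨hχ1, -, -⟩ := Cfsg.Agent.Lib.Helper79.irr_charDegree χ.2
  have hdeg : Cfsg.charDegree (χ : G → ℂ) =
      ∑ φ : Cfsg.IrrCharacter H, k φ * Cfsg.charDegree (φ : H → ℂ) := by
    have h1 : (χ : G → ℂ) 1 = ∑ φ : Cfsg.IrrCharacter H, (k φ : ℂ) * (φ : H → ℂ) 1 := by
      have h2 := congrFun hksum 1
      simp only [Finset.sum_apply, Pi.smul_apply, smul_eq_mul] at h2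
      exact h2
    rw [hχ1] at h1
    have h3 : ∀ φ : Cfsg.IrrCharacter H, (φ : H → ℂ) 1 = (Cfsg.charDegree (φ : H → ℂ) : ℂ) :=
      fun φ => (Cfsg.Agent.Lib.Helper79.irr_charDegree φ.2).1
    simp only [h3] at h1
    exact_mod_cast h1
  rw [hdeg]
  calc Cfsg.charDegree (ψ : H → ℂ) ≤ k ψ * Cfsg.charDegree (ψ : H → ℂ) := by
        rw [hkψ]
        exact Nat.le_mul_of_pos_left _ (Nat.pos_of_ne_zero hχ)
    _ ≤ ∑ φ : Cfsg.IrrCharacter H, k φ * Cfsg.charDegree (φ : H → ℂ) :=
        Finset.single_le_sum (f := fun φ : Cfsg.IrrCharacter H =>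
          k φ * Cfsg.charDegree (φ : H → ℂ)) (fun _ _ => Nat.zero_le _) (Finset.mem_univ ψ)

/-- A `p`-group all of whose irreducible character degrees are below `p` is abelian. -/
theorem comm_of_pgroup {G : Type u} [Group G] [Finite G] (p : ℕ) (hp : p.Prime) (k : ℕ)
    (hG : Nat.card G = p ^ k)
    (hb : ∀ χ : Cfsg.IrrCharacter G, Cfsg.charDegree (χ : G → ℂ) < p) :
    ∀ a b : G, a * b = b * a := by
  rw [Cfsg.Agent.S0187.result]
  intro χ
  obtain ⟨h1, hpos, hdvd⟩ := Cfsg.Agent.Lib.Helper79.irr_charDegree χ.2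
  rw [hG] at hdvd
  obtain ⟨j, -, hj⟩ := (Nat.dvd_prime_pow hp).mp hdvd
  have hlt := hb χ
  rw [hj] at hlt
  have hj0 : j = 0 := by
    by_contra hne
    have : p ^ 1 ≤ p ^ j := Nat.pow_le_pow_right hp.pos (Nat.pos_of_ne_zero hne)
    rw [pow_one] at this
    omega
  rw [h1, hj, hj0]
  simp


/-- The counting argument with the permutation character on the cosets of `N`. -/
theorem key_count {G : Type u} [Group G] [Finite G] (p : ℕ) (P N : Subgroup G)
    (hPN : P ≤ N)
    (hfix : ∀ x ∈ P, x ∉ Subgroup.center G → ∀ y : G, y⁻¹ * x * y ∈ N → y ∈ N)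
    (hcard : p * Nat.card ((Subgroup.center G).subgroupOf P) ≤ Nat.card P)
    (hb : ∀ χ : Cfsg.IrrCharacter G, Cfsg.charDegree (χ : G → ℂ) < p) : N.index = 1 := by
  classical
  have := Fintype.ofFinite G
  have := Fintype.ofFinite (Cfsg.IrrCharacter G)
  have hN0 : (Nat.card N : ℂ) ≠ 0 := by exact_mod_cast Nat.card_pos.ne'
  have hP0 : (Nat.card P : ℂ) ≠ 0 := by exact_mod_cast Nat.card_pos.ne'
  have hdata : ∀ χ : Cfsg.IrrCharacter G, ∃ a c : ℕ, a ≤ c ∧
      (Nat.card N : ℂ)⁻¹ * ∑ h : N, (χ : G → ℂ) h = a ∧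
      (Nat.card P : ℂ)⁻¹ * ∑ h : P, (χ : G → ℂ) h = c :=
    fun χ => avg_fixed (Cfsg.Agent.Lib.Helper3.isCharacter_of_irr χ.2) P N hPN
  choose a c hac ha hc using hdata
  -- expansion of the permutation character
  have hexp : ∀ g : G, Cfsg.indFun N (fun _ => (1 : ℂ)) g =
      ∑ χ : Cfsg.IrrCharacter G, (a χ : ℂ) * (χ : G → ℂ) g := by
    intro g
    have h1 := congrFun (Cfsg.Agent.Lib.Helper3.classFunction_expansion'
      (Cfsg.Agent.Lib.Helper75.indFun_isClassFunction N (fun _ => (1 : ℂ)))) g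
    rw [h1]
    simp only [Finset.sum_apply, Pi.smul_apply, smul_eq_mul]
    refine Finset.sum_congr rfl (fun χ _ => ?_)
    congr 1
    rw [Cfsg.Agent.Lib.Helper75.frobenius_reciprocity N _
      (Cfsg.Agent.Lib.Helper3.isClassFunction_of_isCharacter
        (Cfsg.Agent.Lib.Helper3.isCharacter_of_irr χ.2))]
    unfold Cfsg.classInner
    have h2 : ∑ h : N, (1 : ℂ) * conj ((χ : G → ℂ) h) = conj (∑ h : N, (χ : G → ℂ) h) := by
      rw [map_sum]
      simp
    rw [h2]
    have h3 := congrArg conj (ha χ)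
    rw [map_mul, map_inv₀, Complex.conj_natCast, Complex.conj_natCast] at h3
    exact h3
  have hdegc : ∀ χ : Cfsg.IrrCharacter G,
      (χ : G → ℂ) 1 = (Cfsg.charDegree (χ : G → ℂ) : ℂ) :=
    fun χ => (Cfsg.Agent.Lib.Helper79.irr_charDegree χ.2).1
  -- value at 1
  have E1 : N.index = ∑ χ : Cfsg.IrrCharacter G, a χ * Cfsg.charDegree (χ : G → ℂ) := by
    have h := hexp 1
    rw [Cfsg.Agent.Lib.Helper75.indFun_one, mul_one] at h
    simp only [hdegc] at h
    exact_mod_cast h
  -- values on P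
  have hπP : ∀ x : P, Cfsg.indFun N (fun _ => (1 : ℂ)) (x : G) =
      if (x : G) ∈ Subgroup.center G then (N.index : ℂ) else 1 := by
    intro x
    rw [Cfsg.Agent.Lib.Helper15.indFun_one_apply]
    split_ifs with hx
    · have e : (Finset.univ.filter (fun y : G => y⁻¹ * (x : G) * y ∈ N)) = Finset.univ := by
        ext y
        simp only [Finset.mem_filter, Finset.mem_univ, true_and, iff_true]
        have e2 : y⁻¹ * (x : G) * y = x := by
          rw [Subgroup.mem_center_iff] at hx
          rw [mul_assoc, ← hx y, inv_mul_cancel_left]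
        rw [e2]
        exact hPN x.2
      rw [e, Finset.card_univ, ← Nat.card_eq_fintype_card, ← N.card_mul_index]
      push_cast
      field_simp
    · have e : (Finset.univ.filter (fun y : G => y⁻¹ * (x : G) * y ∈ N)) =
          Finset.univ.filter (fun y : G => y ∈ N) := by
        ext y
        simp only [Finset.mem_filter, Finset.mem_univ, true_and]
        constructor
        · exact hfix x x.2 hx y
        · intro hy
          exact N.mul_mem (N.mul_mem (N.inv_mem hy) (hPN x.2)) hy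
      have e3 : (Finset.univ.filter (fun y : G => y ∈ N)).card = Nat.card N := by
        rw [Nat.card_eq_fintype_card, Fintype.card_subtype]
      rw [e, e3]
      field_simp
  -- sum over P
  have hdle : Nat.card ((Subgroup.center G).subgroupOf P) ≤ Nat.card P :=
    Subgroup.card_le_card_group _
  have hdpos : 0 < Nat.card ((Subgroup.center G).subgroupOf P) := Nat.card_pos
  generalize hd : Nat.card ((Subgroup.center G).subgroupOf P) = d at hcard hdle hdpos
  have hsumP : ∑ x : P, Cfsg.indFun N (fun _ => (1 : ℂ)) (x : G) =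
      (d : ℂ) * N.index + ((Nat.card P : ℂ) - d) := by
    simp only [hπP]
    rw [Finset.sum_ite]
    simp only [Finset.sum_const, nsmul_eq_mul, mul_one]
    have h1 : (Finset.univ.filter (fun x : P => (x : G) ∈ Subgroup.center G)).card = d := by
      rw [← hd, Nat.card_eq_fintype_card, Fintype.card_subtype]
      apply congrArg Finset.card
      ext x
      simp [Subgroup.mem_subgroupOf]
    have h2 : (Finset.univ.filter (fun x : P => ¬ (x : G) ∈ Subgroup.center G)).card =
        Nat.card P - d := by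
      rw [Finset.filter_not, Finset.card_sdiff_of_subset (Finset.filter_subset _ _), h1,
        Finset.card_univ, Nat.card_eq_fintype_card]
    rw [h1, h2]
    push_cast [Nat.cast_sub hdle]
    ring
  have hsumP' : ∑ x : P, Cfsg.indFun N (fun _ => (1 : ℂ)) (x : G) =
      ∑ χ : Cfsg.IrrCharacter G, (a χ : ℂ) * ((Nat.card P : ℂ) * c χ) := by
    simp only [hexp]
    rw [Finset.sum_comm]
    refine Finset.sum_congr rfl (fun χ _ => ?_)
    rw [← Finset.mul_sum]
    congr 1
    rw [← hc χ]
    field_simp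
  have E2 : ∑ χ : Cfsg.IrrCharacter G, a χ * (Nat.card P * c χ) =
      d * N.index + (Nat.card P - d) := by
    have h := hsumP'.symm.trans hsumP
    have h' : ((∑ χ : Cfsg.IrrCharacter G, a χ * (Nat.card P * c χ) : ℕ) : ℂ) =
        ((d * N.index + (Nat.card P - d) : ℕ) : ℂ) := by
      push_cast [Nat.cast_sub hdle]
      exact h
    exact_mod_cast h'
  -- the trivial character
  have ha0 : a (Cfsg.Agent.Lib.Helper74.irrOne G) = 1 := by
    have h := ha (Cfsg.Agent.Lib.Helper74.irrOne G)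
    have h2 : ∑ h : N, (Cfsg.Agent.Lib.Helper74.irrOne G : G → ℂ) h = (Nat.card N : ℂ) := by
      simp [Cfsg.Agent.Lib.Helper74.irrOne_apply, Nat.card_eq_fintype_card]
    rw [h2, inv_mul_cancel₀ hN0] at h
    exact_mod_cast h.symm
  have hc0 : c (Cfsg.Agent.Lib.Helper74.irrOne G) = 1 := by
    have h := hc (Cfsg.Agent.Lib.Helper74.irrOne G)
    have h2 : ∑ h : P, (Cfsg.Agent.Lib.Helper74.irrOne G : G → ℂ) h = (Nat.card P : ℂ) := by
      simp [Cfsg.Agent.Lib.Helper74.irrOne_apply, Nat.card_eq_fintype_card]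
    rw [h2, inv_mul_cancel₀ hP0] at h
    exact_mod_cast h.symm
  have hd0 : Cfsg.charDegree (Cfsg.Agent.Lib.Helper74.irrOne G : G → ℂ) = 1 := by
    have h := hdegc (Cfsg.Agent.Lib.Helper74.irrOne G)
    rw [Cfsg.Agent.Lib.Helper74.irrOne_apply] at h
    exact_mod_cast h.symm
  -- arithmetic
  have hmem : Cfsg.Agent.Lib.Helper74.irrOne G ∈ (Finset.univ : Finset (Cfsg.IrrCharacter G)) :=
    Finset.mem_univ _
  have E1' : N.index = 1 + ∑ χ ∈ Finset.univ.erase (Cfsg.Agent.Lib.Helper74.irrOne G),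
      a χ * Cfsg.charDegree (χ : G → ℂ) := by
    rw [E1, ← Finset.add_sum_erase _ _ hmem, ha0, hd0]
  have E2' : Nat.card P + Nat.card P * ∑ χ ∈ Finset.univ.erase (Cfsg.Agent.Lib.Helper74.irrOne G),
      a χ * c χ = d * N.index + (Nat.card P - d) := by
    rw [← E2, ← Finset.add_sum_erase _ _ hmem, ha0, hc0, Finset.mul_sum]
    congr 1
    · ring
    · refine Finset.sum_congr rfl (fun χ _ => ?_)
      ring
  have hTU : ∑ χ ∈ Finset.univ.erase (Cfsg.Agent.Lib.Helper74.irrOne G),
      a χ * Cfsg.charDegree (χ : G → ℂ) ≤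
      (p - 1) * ∑ χ ∈ Finset.univ.erase (Cfsg.Agent.Lib.Helper74.irrOne G), a χ * c χ := by
    rw [Finset.mul_sum]
    apply Finset.sum_le_sum
    intro χ _
    have h1 : Cfsg.charDegree (χ : G → ℂ) ≤ p - 1 := Nat.le_sub_one_of_lt (hb χ)
    have h2 : a χ ≤ a χ * c χ := by
      rcases Nat.eq_zero_or_pos (a χ) with h | h
      · simp [h]
      · exact Nat.le_mul_of_pos_right _ (lt_of_lt_of_le h (hac χ))
    calc a χ * Cfsg.charDegree (χ : G → ℂ) ≤ a χ * (p - 1) := Nat.mul_le_mul_left _ h1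
      _ = (p - 1) * a χ := mul_comm _ _
      _ ≤ (p - 1) * (a χ * c χ) := Nat.mul_le_mul_left _ h2
  generalize (∑ χ ∈ Finset.univ.erase (Cfsg.Agent.Lib.Helper74.irrOne G),
      a χ * Cfsg.charDegree (χ : G → ℂ)) = T at E1' hTU
  generalize (∑ χ ∈ Finset.univ.erase (Cfsg.Agent.Lib.Helper74.irrOne G), a χ * c χ) = U
    at E2' hTU
  rw [E1'] at E2' ⊢
  have h3 : Nat.card P * U = d * T := by
    have e1 : d * (1 + T) = d + d * T := by ring
    rw [e1] at E2'
    omega
  have hp1 : 1 ≤ p := by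
    rcases Nat.eq_zero_or_pos p with h | h
    · have := hb (Cfsg.Agent.Lib.Helper74.irrOne G)
      omega
    · exact h
  have h4 : p * (d * T) ≤ (p - 1) * (d * T) := by
    calc p * (d * T) = (p * d) * T := by ring
      _ ≤ Nat.card P * T := Nat.mul_le_mul_right _ hcard
      _ ≤ Nat.card P * ((p - 1) * U) := Nat.mul_le_mul_left _ hTU
      _ = (p - 1) * (Nat.card P * U) := by ring
      _ = (p - 1) * (d * T) := by rw [h3]
  have h5 : d * T = 0 := by
    by_contra hne
    have hpos : 0 < d * T := Nat.pos_of_ne_zero hne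
    have : (p - 1) * (d * T) < p * (d * T) :=
      Nat.mul_lt_mul_of_pos_right (by omega) hpos
    omega
  rcases Nat.mul_eq_zero.mp h5 with h | h
  · omega
  · rw [h]

/-- A normal `p`-subgroup of index prime to `p` contains every `p`-subgroup. -/
theorem normal_sylow_unique {H : Type u} [Group H] (p : ℕ) [Fact p.Prime] (S : Subgroup H)
    [S.Normal] (hS : IsPGroup p S) (hidx : ¬ p ∣ S.index) (R : Subgroup H) (hR : IsPGroup p R) :
    R ≤ S := by
  have hsup : IsPGroup p (R ⊔ S : Subgroup H) := IsPGroup.to_sup_of_normal_right hR hS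
  have h : R ⊔ S = S := (hS.toSylow hidx).is_maximal' hsup le_sup_right
  rw [← h]
  exact le_sup_left

/-- A `p`-element normalizing a Sylow `p`-subgroup lies in it. -/
theorem mem_sylow_of_mem_normalizer {G : Type u} [Group G] (p : ℕ) [Fact p.Prime]
    (P Q : Sylow p G) (z : G) (hzQ : z ∈ (Q : Subgroup G))
    (hzN : z ∈ Subgroup.normalizer ((P : Subgroup G) : Set G)) : z ∈ (P : Subgroup G) := by
  have hR : IsPGroup p ((Q : Subgroup G) ⊓ Subgroup.normalizer ((P : Subgroup G) : Set G) :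
      Subgroup G) := IsPGroup.to_le Q.isPGroup' inf_le_left
  have hsup := IsPGroup.to_sup_of_normal_right' hR P.isPGroup' inf_le_right
  have h := P.is_maximal' hsup le_sup_right
  have hz : z ∈ ((Q : Subgroup G) ⊓ Subgroup.normalizer ((P : Subgroup G) : Set G)) ⊔
      (P : Subgroup G) := Subgroup.mem_sup_left ⟨hzQ, hzN⟩
  rw [h] at hz
  exact hz


theorem main (p : ℕ) (hp : p.Prime) : ∀ (n : ℕ) (G : Type u) [Group G] [Finite G],
    Nat.card G = n → (∀ χ : Cfsg.IrrCharacter G, Cfsg.charDegree (χ : G → ℂ) < p) →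
    ∃ P : Subgroup G, P.Normal ∧ (∀ x ∈ P, ∀ y ∈ P, x * y = y * x) ∧ IsPGroup p P ∧
      ¬ p ∣ P.index := by
  intro n
  induction n using Nat.strong_induction_on with
  | _ n ih =>
  intro G _ _ hn hb
  have : Fact p.Prime := ⟨hp⟩
  -- subgroups inherit the hypothesis
  have hbH : ∀ H : Subgroup G, ∀ ψ : Cfsg.IrrCharacter H,
      Cfsg.charDegree (ψ : H → ℂ) < p := by
    intro H ψ
    obtain ⟨χ, hχ⟩ := exists_irr_degree_ge H ψ
    exact lt_of_le_of_lt hχ (hb χ)
  -- all Sylow subgroups are abelian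
  have hab : ∀ S : Sylow p G, ∀ x ∈ (S : Subgroup G), ∀ y ∈ (S : Subgroup G),
      x * y = y * x := by
    intro S x hx y hy
    obtain ⟨k, hk⟩ := IsPGroup.iff_card.mp S.isPGroup'
    have h := comm_of_pgroup p hp k hk (hbH S) ⟨x, hx⟩ ⟨y, hy⟩
    exact congrArg Subtype.val h
  obtain ⟨P⟩ : Nonempty (Sylow p G) := inferInstance
  by_cases hnorm : (P : Subgroup G).Normal
  · exact ⟨P, hnorm, hab P, P.isPGroup', P.not_dvd_index⟩
  exfalso
  -- two distinct Sylow subgroups generate G
  have hgen : ∀ Q : Sylow p G, Q ≠ P → (P : Subgroup G) ⊔ (Q : Subgroup G) = ⊤ := by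
    intro Q hQ
    by_contra hne
    have hlt : Nat.card ((P : Subgroup G) ⊔ (Q : Subgroup G) : Subgroup G) < n := by
      rw [← hn]
      exact lt_of_le_of_ne (Subgroup.card_le_card_group _)
        (fun h => hne ((Subgroup.card_eq_iff_eq_top _).mp h))
    obtain ⟨S, hSn, -, hSp, hSi⟩ := ih _ hlt
      ((P : Subgroup G) ⊔ (Q : Subgroup G) : Subgroup G) rfl (hbH _)
    have key : ∀ R : Sylow p G, (R : Subgroup G) ≤ (P : Subgroup G) ⊔ (Q : Subgroup G) →
        (R : Subgroup G) = S.map ((P : Subgroup G) ⊔ (Q : Subgroup G)).subtype := by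
      intro R hR
      have h1 : (R : Subgroup G).subgroupOf ((P : Subgroup G) ⊔ (Q : Subgroup G)) ≤ S :=
        normal_sylow_unique p S hSp hSi _ (R.isPGroup'.comap_subtype)
      have h2 : (R : Subgroup G) ≤ S.map ((P : Subgroup G) ⊔ (Q : Subgroup G)).subtype := by
        intro x hx
        exact ⟨⟨x, hR hx⟩, h1 (Subgroup.mem_subgroupOf.mpr hx), rfl⟩
      exact (R.is_maximal' (hSp.map _) h2).symm
    have e1 := key P le_sup_left
    have e2 := key Q le_sup_right
    exact hQ (Sylow.ext (e2.trans e1.symm))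
  -- intersections of distinct Sylow subgroups are central
  have hcent : ∀ Q : Sylow p G, Q ≠ P → ∀ x, x ∈ (P : Subgroup G) → x ∈ (Q : Subgroup G) →
      x ∈ Subgroup.center G := by
    intro Q hQ x hxP hxQ
    have h1 : (P : Subgroup G) ⊔ (Q : Subgroup G) ≤ Subgroup.centralizer {x} := by
      apply sup_le
      · intro y hy
        rw [Subgroup.mem_centralizer_iff]
        intro z hz
        rw [Set.mem_singleton_iff] at hz
        subst hz
        exact hab P z hxP y hy
      · intro y hy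
        rw [Subgroup.mem_centralizer_iff]
        intro z hz
        rw [Set.mem_singleton_iff] at hz
        subst hz
        exact hab Q z hxQ y hy
    rw [hgen Q hQ] at h1
    rw [Subgroup.mem_center_iff]
    intro g
    have h2 := h1 (Subgroup.mem_top g)
    rw [Subgroup.mem_centralizer_iff] at h2
    exact (h2 x rfl).symm
  -- P is not central
  have hnc : ∃ x, x ∈ (P : Subgroup G) ∧ x ∉ Subgroup.center G := by
    by_contra hcon
    push Not at hcon
    apply hnorm
    refine ⟨fun x hx g => ?_⟩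
    have h := hcon x hx
    rw [Subgroup.mem_center_iff] at h
    rw [h g, mul_inv_cancel_right]
    exact hx
  have hidx : (Subgroup.normalizer ((P : Subgroup G) : Set G)).index = 1 := by
    apply key_count p (P : Subgroup G) (Subgroup.normalizer ((P : Subgroup G) : Set G))
      Subgroup.le_normalizer _ _ hb
    · -- fixed points
      intro x hxP hxc y hy
      by_contra hyN
      have hzQ : y⁻¹ * x * y ∈ ((y⁻¹ • P : Sylow p G) : Subgroup G) := by
        rw [Sylow.coe_subgroup_smul, Subgroup.mem_pointwise_smul_iff_inv_smul_mem]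
        simp only [MulAut.smul_def, ← map_inv, inv_inv, MulAut.conj_apply]
        have e : y * (y⁻¹ * x * y) * y⁻¹ = x := by group
        rw [e]
        exact hxP
      have hzP : y⁻¹ * x * y ∈ (P : Subgroup G) :=
        mem_sylow_of_mem_normalizer p P (y⁻¹ • P) _ hzQ hy
      have hQP : (y⁻¹ • P : Sylow p G) ≠ P := by
        intro h
        rw [Sylow.smul_eq_iff_mem_normalizer] at h
        apply hyN
        have h' := (Subgroup.normalizer ((P : Subgroup G) : Set G)).inv_mem h
        rwa [inv_inv] at h'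
      have hzc := hcent _ hQP _ hzP hzQ
      apply hxc
      have e : x = y⁻¹ * x * y := by
        rw [Subgroup.mem_center_iff] at hzc
        have h := hzc y
        have e2 : y * (y⁻¹ * x * y) = x * y := by group
        rw [e2] at h
        exact mul_right_cancel h
      rw [e]
      exact hzc
    · -- index of the central part
      obtain ⟨x, hxP, hxc⟩ := hnc
      obtain ⟨k, hk⟩ := IsPGroup.iff_card.mp P.isPGroup'
      have hdvd : Nat.card ((Subgroup.center G).subgroupOf (P : Subgroup G)) ∣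
          Nat.card (P : Subgroup G) := Subgroup.card_subgroup_dvd_card _
      rw [hk] at hdvd ⊢
      obtain ⟨j, hjk, hj⟩ := (Nat.dvd_prime_pow hp).mp hdvd
      rw [hj]
      have hjne : j ≠ k := by
        intro hjk'
        rw [hjk', ← hk] at hj
        have htop := (Subgroup.card_eq_iff_eq_top _).mp hj
        have hmem : (⟨x, hxP⟩ : (P : Subgroup G)) ∈
            (Subgroup.center G).subgroupOf (P : Subgroup G) := by
          rw [htop]
          exact Subgroup.mem_top _
        exact hxc (Subgroup.mem_subgroupOf.mp hmem)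
      have hlt : j + 1 ≤ k := by omega
      calc p * p ^ j = p ^ (j + 1) := by ring
        _ ≤ p ^ k := Nat.pow_le_pow_right hp.pos hlt
  apply hnorm
  exact Subgroup.normalizer_eq_top_iff.mp (Subgroup.index_eq_one.mp hidx)

/-- Let p be a prime and G a finite group all of whose irreducible character degrees are less than p. Then G has a normal abelian Sylow p-subgroup. -/
theorem result {G : Type*} [Group G] [Finite G] (p : ℕ) (hp : p.Prime) (hb : ∀ χ : Cfsg.IrrCharacter G, Cfsg.charDegree (χ : G → ℂ) < p) : ∃ P : Subgroup G, P.Normal ∧ (∀ x ∈ P, ∀ y ∈ P, x * y = y * x) ∧ IsPGroup p P ∧ ¬ p ∣ P.index := by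
  exact main p hp (Nat.card G) G rfl hb

end Cfsg.Agent.S4464
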