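import Cfsg.Statements.S2678
import Cfsg.Agent.Lib.Helper45.FieldEmb
import Cfsg.Agent.Lib.Helper45.SpRestrict

set_option autoImplicit false
open Cfsg

namespace Cfsg.Agent.S2678

open Matrix Cfsg.Agent.Lib.Helper45

/-- Multiplication matrices are self-adjoint for the trace form. -/
theorem leftMul_transpose_trace {F K : Type*} [Field F] [Field K] [Algebra F K]
    {ι : Type*} [Fintype ι] [DecidableEq ι] (b : Module.Basis ι F K) (x : K) :
    (Algebra.leftMulMatrix b x)ᵀ * Algebra.traceMatrix F b =
      Algebra.traceMatrix F b * Algebra.leftMulMatrix b x := by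
  have h1 : ∀ (y z : K), ∑ k, b.repr y k * Algebra.trace F K (b k * z) =
      Algebra.trace F K (y * z) := by
    intro y z
    conv_rhs => rw [← b.sum_repr y]
    rw [Finset.sum_mul, map_sum]
    apply Finset.sum_congr rfl
    intro k _
    rw [smul_mul_assoc, map_smul, smul_eq_mul]
  ext i j
  simp only [Matrix.mul_apply, Matrix.transpose_apply, Algebra.traceMatrix_apply,
    Algebra.traceForm_apply, Algebra.leftMulMatrix_eq_repr_mul]
  rw [h1]
  have h2 : ∑ k, Algebra.trace F K (b i * b k) * b.repr (x * b j) k =
      ∑ k, b.repr (x * b j) k * Algebra.trace F K (b k * b i) := by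
    apply Finset.sum_congr rfl
    intro k _
    rw [mul_comm, mul_comm (b i)]
  rw [h2, h1]
  congr 1
  ring

/-- Field-extension embedding of symplectic groups: for a field K with q² elements and a field F with q elements there is an injective homomorphism Sp_2a(K) → Sp_4a(F). -/
theorem result {K F : Type*} [Field K] [Fintype K] [Field F] [Fintype F] {q : ℕ} (hK : Fintype.card K = q ^ 2) (hF : Fintype.card F = q) (a : ℕ) : ∃ φ : ↥(Matrix.symplecticGroup (Fin a) K) →* ↥(Matrix.symplecticGroup (Fin (2 * a)) F), Function.Injective φ := by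
  classical
  obtain ⟨f⟩ := exists_ringHom_of_card_sq hF hK
  letI : Algebra F K := f.toAlgebra
  have hfr : Module.finrank F K = 2 := finrank_eq_two_of_card_sq hF hK
  let b : Module.Basis (Fin 2) F K := Module.finBasisOfFinrankEq F K hfr
  set T : Matrix (Fin 2) (Fin 2) F := Algebra.traceMatrix F b with hT
  have hdet : T.det ≠ 0 := by
    rw [hT, Algebra.traceMatrix_of_basis]
    exact det_traceForm_ne_zero b
  have hunit : IsUnit T.det := isUnit_iff_ne_zero.mpr hdet
  have hTT' : T * T⁻¹ = 1 := Matrix.mul_nonsing_inv T hunit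
  have hT'T : T⁻¹ * T = 1 := Matrix.nonsing_inv_mul T hunit
  have hTt : Tᵀ = T := by
    ext i j
    simp only [hT, Matrix.transpose_apply, Algebra.traceMatrix_apply, Algebra.traceForm_apply]
    rw [mul_comm]
  let L : K →+* Matrix (Fin 2) (Fin 2) F := (Algebra.leftMulMatrix b).toRingHom
  have hL : Function.Injective L := Algebra.leftMulMatrix_injective b
  have hLT : ∀ x, (L x)ᵀ * T = T * L x := fun x => leftMul_transpose_trace b x
  let e : Fin (2 * a) ≃ Fin a × Fin 2 :=
    ((finProdFinEquiv (m := a) (n := 2)).trans (finCongr (mul_comm a 2))).symm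
  refine ⟨(reindexSp (R := F) e).comp (restrictHom (α := Fin a) L T T⁻¹ hTT' hT'T hTt hLT), ?_⟩
  exact (reindexSp_injective (R := F) e).comp (restrictHom_injective L hL T T⁻¹ hTT' hT'T hTt hLT)

end Cfsg.Agent.S2678
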