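import Cfsg.Statements.S5283
-- import your own Cfsg.Agent.* helpers here
import Cfsg.Agent.Lib.Helper85.AutSys
import Cfsg.Agent.Lib.Helper85.CycChain
import Cfsg.Agent.Lib.Helper85.CycAut
import Cfsg.Agent.Lib.Helper85.FusionBasic
import Cfsg.Agent.Lib.Helper84.FusionSat
import Cfsg.Agent.Lib.Helper86.Saturated
import Cfsg.Agent.Lib.Helper87.FusionNormal
import Cfsg.Agent.Lib.Helper87.FusionMore
import Cfsg.Agent.Lib.Helper87.FusionStrongly
import Cfsg.Agent.Lib.Helper88.FusPAut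

set_option autoImplicit false
open Cfsg

namespace Cfsg.Agent.S5283

open Cfsg.FusionSystem Cfsg.Agent.Lib.Helper85

section
variable {Ω : Type*} [Group Ω] {S : Subgroup Ω}

/-- when `S` is normal in `F`, every map of `F` is the restriction of an `F`-automorphism of
`S` -/
theorem exists_aut_of_isNormal_top [Finite S] (F : FusionSystem S) (hn : F.IsNormal S)
    {P : Subgroup Ω} {φ : P →* Ω} (hφ : φ ∈ F.Hom P) :
    ∃ α ∈ F.autGroup S, ∀ (x : P) (hx : (x : Ω) ∈ S), φ x = ((α ⟨x, hx⟩ : S) : Ω) := by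
  obtain ⟨ψ, hψ, hext, -⟩ := hn.2 P φ hφ
  have hψ' := restrict_mem F (le_sup_right : S ≤ P ⊔ S) hψ
  have hinj := F.injective_of_mem hψ'
  have hS' := (F.le_of_mem hψ').2
  let f : S →* S := (ψ.comp (Subgroup.inclusion (le_sup_right : S ≤ P ⊔ S))).codRestrict S hS'
  have hfinj : Function.Injective f := fun a b hab => hinj (congrArg Subtype.val hab)
  have hfbij : Function.Bijective f := Finite.injective_iff_bijective.1 hfinj
  let α : MulAut S := MulEquiv.ofBijective f hfbij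
  refine ⟨α, (mem_autGroup_iff F le_rfl α).2 ?_, fun x hx => ?_⟩
  · have e : S.subtype.comp α.toMonoidHom
        = ψ.comp (Subgroup.inclusion (le_sup_right : S ≤ P ⊔ S)) := by
      ext y; rfl
    rw [e]; exact hψ'
  · rw [← hext x]; rfl

theorem chain_of_cycCh (F : FusionSystem S) {Inv : Subgroup S → Prop}
    (hInv : ∀ R : Subgroup S, Inv R → F.StronglyClosed (R.map S.subtype)) {R : Subgroup S}
    (h : CycCh Inv R) :
    ∃ (m : ℕ) (c : Fin (m + 1) → Subgroup Ω), c 0 = R.map S.subtype ∧ c (Fin.last m) = S ∧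
      (∀ i, F.StronglyClosed (c i)) ∧
      ∀ i : Fin m, c i.castSucc ≤ c i.succ ∧
        ∃ x ∈ S, c i.succ = c i.castSucc ⊔ Subgroup.zpowers x := by
  induction h with
  | top =>
    have e : (⊤ : Subgroup S).map S.subtype = S := by
      ext w; constructor
      · rintro ⟨z, -, rfl⟩; exact z.2
      · intro hw; exact ⟨⟨w, hw⟩, Subgroup.mem_top _, rfl⟩
    exact ⟨0, fun _ => S, e.symm, rfl,
      fun _ => ⟨le_rfl, fun R hR φ hφ x => (F.le_of_mem hφ).2 x⟩, fun i => i.elim0⟩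
  | step R R₁ hR hle hx _ ih =>
    obtain ⟨x, hx⟩ := hx
    obtain ⟨m, c, hc0, hcl, hsc, hstep⟩ := ih
    refine ⟨m + 1, Fin.cons (R.map S.subtype) c, rfl, ?_, ?_, ?_⟩
    · rw [← Fin.succ_last, Fin.cons_succ]; exact hcl
    · intro i
      refine Fin.cases ?_ (fun j => ?_) i
      · rw [Fin.cons_zero]; exact hInv R hR
      · rw [Fin.cons_succ]; exact hsc j
    · intro i
      refine Fin.cases ?_ (fun j => ?_) i
      · rw [Fin.cons_succ, Fin.castSucc_zero, Fin.cons_zero, hc0]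
        refine ⟨Subgroup.map_mono hle, (x : Ω), x.2, ?_⟩
        rw [hx, Subgroup.map_sup, MonoidHom.map_zpowers]; rfl
      · rw [Fin.cons_succ, ← Fin.succ_castSucc, Fin.cons_succ]; exact hstep j

/-- resistant + condition on `p'`-automorphism groups ⇒ supersoluble chain -/
theorem supersoluble_of_resistant [Finite S] (p : ℕ) [Fact p.Prime] (hS : IsPGroup p S)
    (F : FusionSystem S) (hF : F.IsSaturated p) (hn : F.IsNormal S)
    (hH : ∀ H : Subgroup (MulAut S), (Nat.card H).Coprime p →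
      IsMulCommutative H ∧ ∀ h ∈ H, h ^ (p - 1) = 1) :
    ∃ (m : ℕ) (c : Fin (m + 1) → Subgroup Ω), c 0 = ⊥ ∧ c (Fin.last m) = S ∧
      (∀ i, F.StronglyClosed (c i)) ∧
      ∀ i : Fin m, c i.castSucc ≤ c i.succ ∧
        ∃ x ∈ S, c i.succ = c i.castSucc ⊔ Subgroup.zpowers x := by
  classical
  have hp : p.Prime := Fact.out
  haveI hfinA : Finite (F.autGroup S) := Cfsg.Agent.Lib.Helper84.finite_autGroup F le_rfl
  obtain ⟨-, R, hR⟩ := (Cfsg.Agent.Lib.Helper86.fullyNormalized_imp hS F hF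
    (Cfsg.Agent.Lib.Helper88.top_fullyNormalized F)).1
  have hRn : (R : Subgroup (F.autGroup S)).Normal := by
    rw [hR]
    constructor
    intro n hn g
    rw [Subgroup.mem_subgroupOf] at hn ⊢
    rw [mem_autInducedBy_iff] at hn ⊢
    obtain ⟨t, ht, h⟩ := hn
    refine ⟨((g : MulAut S) ⟨t, ht⟩ : S), ((g : MulAut S) ⟨t, ht⟩).2, fun x => ?_⟩
    have h1 : ((n : MulAut S) ((g : MulAut S)⁻¹ x))
        = ⟨t, ht⟩ * ((g : MulAut S)⁻¹ x) * (⟨t, ht⟩ : S)⁻¹ := Subtype.ext (h _)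
    show (((g : MulAut S) ((n : MulAut S) ((g : MulAut S)⁻¹ x)) : S) : Ω) = _
    rw [h1, map_mul, map_mul, map_inv]
    simp
  have hcop : Nat.Coprime (Nat.card (R : Subgroup (F.autGroup S)))
      (R : Subgroup (F.autGroup S)).index := by
    obtain ⟨k, hk⟩ := IsPGroup.iff_card.1 R.isPGroup'
    rw [hk]
    exact Nat.Coprime.pow_left k ((Nat.Prime.coprime_iff_not_dvd hp).2 R.not_dvd_index)
  haveI := hRn
  obtain ⟨H₀, hH₀⟩ := Subgroup.exists_right_complement'_of_coprime hcop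
  let H : Subgroup (MulAut S) := H₀.map (F.autGroup S).subtype
  have hcardH : Nat.card H = Nat.card H₀ :=
    Subgroup.card_map_of_injective (Subgroup.subtype_injective _)
  have hHcop : (Nat.card H).Coprime p := by
    rw [hcardH, ← hH₀.symm.index_eq_card]
    exact ((Nat.Prime.coprime_iff_not_dvd hp).2 R.not_dvd_index).symm
  obtain ⟨hHc, hHe⟩ := hH H hHcop
  have hform : ∀ {P : Subgroup Ω} {φ : P →* Ω}, φ ∈ F.Hom P → ∃ hP : P ≤ S, ∃ t : S,
      ∃ γ ∈ H, ∀ x : P, φ x = (t : Ω) * ((γ ⟨x, hP x.2⟩ : S) : Ω) * (t : Ω)⁻¹ := by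
    intro P φ hφ
    have hP : P ≤ S := (F.le_of_mem hφ).1
    obtain ⟨α, hα, hαx⟩ := exists_aut_of_isNormal_top F hn hφ
    obtain ⟨⟨⟨r, hr⟩, ⟨h, hh⟩⟩, hrh⟩ := hH₀.2 ⟨α, hα⟩
    have hr' : (r : MulAut S) ∈ autInducedBy S S := by
      have h1 : r ∈ (R : Subgroup (F.autGroup S)) := hr
      rw [hR, Subgroup.mem_subgroupOf] at h1
      exact h1
    obtain ⟨t, ht, htx⟩ := (mem_autInducedBy_iff S S _).1 hr'
    refine ⟨hP, ⟨t, ht⟩, (h : MulAut S), ⟨h, hh, rfl⟩, fun x => ?_⟩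
    rw [hαx x (hP x.2)]
    have e : α = (r : MulAut S) * (h : MulAut S) := (congrArg Subtype.val hrh).symm
    rw [e, MulAut.mul_apply, htx]
  haveI := hHc
  have hc : ∀ a b : H, a * b = b * a := fun a b => mul_comm' a b
  have hexp : ∀ h : H, h ^ (p - 1) = 1 := fun h => Subtype.ext (hHe h h.2)
  have hch := cyc_chain hc hexp (Nat.card S) S hS le_rfl H.subtype
  have hconv := chain_of_cycCh F
    (Inv := fun R : Subgroup S => R.Normal ∧ ∀ (h : H) (x : S), x ∈ R → (H.subtype h) x ∈ R)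
    (by
      rintro R ⟨hRn, hRinv⟩
      refine ⟨?_, fun R' hR' φ hφ x => ?_⟩
      · rintro _ ⟨z, -, rfl⟩; exact z.2
      · obtain ⟨hP, t, γ, hγ, hx⟩ := hform hφ
        rw [hx x]
        obtain ⟨z, hz, hzx⟩ := hR' x.2
        have h1 : (⟨x, hP x.2⟩ : S) = z := Subtype.ext hzx.symm
        rw [h1]
        have h2 : γ z ∈ R := hRinv ⟨γ, hγ⟩ z hz
        have h3 : t * γ z * t⁻¹ ∈ R := hRn.conj_mem _ h2 t
        exact ⟨t * γ z * t⁻¹, h3, rfl⟩) hch
  obtain ⟨m, c, hc0, hcl, hsc, hstep⟩ := hconv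
  exact ⟨m, c, by rw [hc0, Subgroup.map_bot], hcl, hsc, hstep⟩

theorem zpowers_subgroupOf {x : Ω} (hx : x ∈ S) :
    (Subgroup.zpowers x).subgroupOf S = Subgroup.zpowers (⟨x, hx⟩ : S) := by
  ext y
  rw [Subgroup.mem_subgroupOf, Subgroup.mem_zpowers_iff, Subgroup.mem_zpowers_iff]
  constructor
  · rintro ⟨k, hk⟩
    exact ⟨k, Subtype.ext (by rw [Subgroup.coe_zpow]; exact hk)⟩
  · rintro ⟨k, rfl⟩
    exact ⟨k, by rw [Subgroup.coe_zpow]⟩

theorem normal_subgroupOf_of_sc (F : FusionSystem S) {T : Subgroup Ω}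
    (hT : F.StronglyClosed T) : (T.subgroupOf S).Normal := by
  constructor
  intro n hn g
  rw [Subgroup.mem_subgroupOf] at hn ⊢
  exact Cfsg.Agent.Lib.Helper87.stronglyClosed_conj_mem F hT g.2 hn

/-- supersoluble for `S ⋊ H` ⇒ `H` abelian of exponent dividing `p - 1` -/
theorem pprime_abelian [Finite S] (p : ℕ) [Fact p.Prime] (hS : IsPGroup p S)
    (hsup : ∀ F : FusionSystem S, F.IsSaturated p → ∃ (m : ℕ) (c : Fin (m + 1) → Subgroup Ω),
      c 0 = ⊥ ∧ c (Fin.last m) = S ∧ (∀ i, F.StronglyClosed (c i)) ∧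
      ∀ i : Fin m, c i.castSucc ≤ c i.succ ∧
        ∃ x ∈ S, c i.succ = c i.castSucc ⊔ Subgroup.zpowers x)
    (H : Subgroup (MulAut S)) (hH : (Nat.card H).Coprime p) :
    IsMulCommutative H ∧ ∀ h ∈ H, h ^ (p - 1) = 1 := by
  obtain ⟨m, c, hc0, hcl, hsc, hstep⟩ := hsup (autSys S H) (autSys_saturated p hS H hH)
  have hmem : ∀ γ ∈ H, S.subtype.comp γ.toMonoidHom ∈ (autSys S H).Hom S :=
    fun γ hγ => ⟨le_rfl, 1, γ, hγ, fun x => by simp⟩
  obtain ⟨hcomm, hexp⟩ := coprime_aut_comm hS H hH (fun i => (c i).subgroupOf S)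
    (by simp [hc0]) (by simp [hcl]) (fun i => normal_subgroupOf_of_sc _ (hsc i))
    (fun i γ hγ y hy => by
      rw [Subgroup.mem_subgroupOf] at hy ⊢
      exact Cfsg.Agent.Lib.Helper87.stronglyClosed_hom_mem _ (hsc i) (hmem γ hγ) y hy)
    (fun i => by
      obtain ⟨-, x, hx, hxe⟩ := hstep i
      refine ⟨⟨x, hx⟩, ?_⟩
      show (c i.succ).subgroupOf S = (c i.castSucc).subgroupOf S ⊔ _
      rw [hxe, Subgroup.subgroupOf_sup (hsc i.castSucc).1 ((Subgroup.zpowers_le).2 hx),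
        zpowers_subgroupOf hx])
  exact ⟨⟨⟨fun a b => Subtype.ext (hcomm a a.2 b b.2)⟩⟩, hexp⟩

/-- chains from `R` up to `S` of strongly closed subgroups with central steps -/
inductive NCh (F : FusionSystem S) : Subgroup Ω → Prop
  | top : NCh F S
  | step (R R₁ : Subgroup Ω) : F.StronglyClosed R → ⁅R₁, S⁆ ≤ R → NCh F R₁ → NCh F R

/-- prepend a term to a sequence -/
def shiftSeq {α : Type*} (a : α) (D : ℕ → α) : ℕ → α
  | 0 => a
  | j + 1 => D j

theorem nch_chain (F : FusionSystem S) {R : Subgroup Ω} (h : NCh F R) :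
    ∃ (D : ℕ → Subgroup Ω) (n : ℕ), D 0 = R ∧ (∀ j, n ≤ j → D j = S) ∧ (∀ j, D j ≤ S) ∧
      (∀ j < n, ⁅D (j + 1), S⁆ ≤ D j) ∧ ∀ j < n, F.StronglyClosed (D j) := by
  induction h with
  | top =>
    exact ⟨fun _ => S, 0, rfl, fun _ _ => rfl, fun _ => le_rfl,
      fun j hj => absurd hj (Nat.not_lt_zero j), fun j hj => absurd hj (Nat.not_lt_zero j)⟩
  | step R R₁ hR hcomm _ ih =>
    obtain ⟨D, n, hD0, hDn, hDS, hDc, hDsc⟩ := ih
    refine ⟨shiftSeq R D, n + 1, rfl, ?_, ?_, ?_, ?_⟩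
    · intro j hj
      cases j with
      | zero => omega
      | succ j => exact hDn j (by omega)
    · intro j
      cases j with
      | zero => exact hR.1
      | succ j => exact hDS j
    · intro j hj
      cases j with
      | zero =>
        show ⁅D 0, S⁆ ≤ R
        rw [hD0]; exact hcomm
      | succ j => exact hDc j (by omega)
    · intro j hj
      cases j with
      | zero => exact hR
      | succ j => exact hDsc j (by omega)

theorem nch_step [Finite S] (p : ℕ) [Fact p.Prime] (hS : IsPGroup p S) (F : FusionSystem S)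
    {N' : Subgroup Ω} (hN' : F.StronglyClosed N') {x : Ω} (hx : x ∈ S)
    (hM' : F.StronglyClosed (N' ⊔ Subgroup.zpowers x))
    (h : NCh F (N' ⊔ Subgroup.zpowers x)) : NCh F N' := by
  classical
  obtain ⟨K, hK⟩ := IsPGroup.iff_card.1 hS
  haveI hNn : (N'.subgroupOf S).Normal := normal_subgroupOf_of_sc F hN'
  have hsup : N'.subgroupOf S ⊔ Subgroup.zpowers (⟨x, hx⟩ : S)
      = (N' ⊔ Subgroup.zpowers x).subgroupOf S := by
    rw [Subgroup.subgroupOf_sup hN'.1 ((Subgroup.zpowers_le).2 hx), zpowers_subgroupOf hx]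
  let T : ℕ → Subgroup Ω := fun k => (cycLayer (N'.subgroupOf S) ⟨x, hx⟩ p k).map S.subtype
  have hTmem : ∀ k (w : Ω), w ∈ T k ↔ w ∈ N' ⊔ Subgroup.zpowers x ∧ w ^ (p ^ k) ∈ N' := by
    intro k w
    constructor
    · rintro ⟨z, hz, rfl⟩
      obtain ⟨hz1, hz2⟩ := (mem_cycLayer (N'.subgroupOf S) ⟨x, hx⟩ p k z).1 hz
      rw [hsup, Subgroup.mem_subgroupOf] at hz1
      rw [Subgroup.mem_subgroupOf, Subgroup.coe_pow] at hz2
      exact ⟨hz1, hz2⟩
    · rintro ⟨hw, hwp⟩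
      have hwS : w ∈ S := hM'.1 hw
      refine ⟨⟨w, hwS⟩, (mem_cycLayer (N'.subgroupOf S) ⟨x, hx⟩ p k _).2 ⟨?_, ?_⟩, rfl⟩
      · rw [hsup, Subgroup.mem_subgroupOf]; exact hw
      · rw [Subgroup.mem_subgroupOf, Subgroup.coe_pow]; exact hwp
  have hT0 : T 0 = N' := by
    ext w; rw [hTmem, pow_zero, pow_one]
    exact ⟨fun h => h.2, fun h => ⟨Subgroup.mem_sup_left h, h⟩⟩
  have hTK : T K = N' ⊔ Subgroup.zpowers x := by
    ext w; rw [hTmem]
    refine ⟨fun h => h.1, fun h => ⟨h, ?_⟩⟩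
    have hwS : w ∈ S := hM'.1 h
    have h1 : (⟨w, hwS⟩ : S) ^ (p ^ K) = 1 := by rw [← hK]; exact pow_card_eq_one'
    have h2 : w ^ (p ^ K) = 1 := by
      have h3 := congrArg Subtype.val h1
      rw [Subgroup.coe_pow] at h3
      exact h3
    rw [h2]; exact N'.one_mem
  have hTle : ∀ k, T k ≤ N' ⊔ Subgroup.zpowers x := fun k w hw => ((hTmem k w).1 hw).1
  have hTsc : ∀ k, F.StronglyClosed (T k) := by
    intro k
    refine ⟨(hTle k).trans hM'.1, fun R hR φ hφ y => ?_⟩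
    rw [hTmem]
    refine ⟨hM'.2 R (hR.trans (hTle k)) φ hφ y, ?_⟩
    have h1 : ((y ^ (p ^ k) : R) : Ω) ∈ N' := by
      rw [Subgroup.coe_pow]; exact ((hTmem k _).1 (hR y.2)).2
    have h2 := Cfsg.Agent.Lib.Helper87.stronglyClosed_hom_mem F hN' hφ (y ^ (p ^ k)) h1
    rwa [map_pow] at h2
  have hTcomm : ∀ k, ⁅T (k + 1), S⁆ ≤ T k := by
    intro k
    rw [Subgroup.commutator_le]
    rintro w ⟨z, hz, rfl⟩ s hs
    have hMn : ∀ y ∈ N'.subgroupOf S ⊔ Subgroup.zpowers (⟨x, hx⟩ : S), ∀ t : S,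
        t * y * t⁻¹ ∈ N'.subgroupOf S ⊔ Subgroup.zpowers (⟨x, hx⟩ : S) := by
      intro y hy t
      rw [hsup, Subgroup.mem_subgroupOf] at hy ⊢
      exact Cfsg.Agent.Lib.Helper87.stronglyClosed_conj_mem F hM' t.2 hy
    have h1 := cycLayer_comm hS (N'.subgroupOf S) ⟨x, hx⟩ hMn k z hz ⟨s, hs⟩
    have h2 := Subgroup.inv_mem _ h1
    refine ⟨(⟨s, hs⟩ * z * (⟨s, hs⟩ : S)⁻¹ * z⁻¹)⁻¹, h2, ?_⟩
    simp [commutatorElement_def, mul_assoc]
  have hdown : ∀ j, NCh F (T j) → NCh F (T 0) := by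
    intro j
    induction j with
    | zero => exact id
    | succ j ih => exact fun h => ih (NCh.step _ _ (hTsc j) (hTcomm j) h)
  rw [← hT0]
  exact hdown K (by rw [hTK]; exact h)

/-- a chain of strongly closed subgroups with cyclic steps forces `S` to be normal -/
theorem resistant_of_chain [Finite S] (p : ℕ) [Fact p.Prime] (hS : IsPGroup p S)
    (F : FusionSystem S) (hF : F.IsSaturated p) {m : ℕ} (c : Fin (m + 1) → Subgroup Ω)
    (hc0 : c 0 = ⊥) (hcl : c (Fin.last m) = S) (hsc : ∀ i, F.StronglyClosed (c i))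
    (hstep : ∀ i : Fin m, c i.castSucc ≤ c i.succ ∧
      ∃ x ∈ S, c i.succ = c i.castSucc ⊔ Subgroup.zpowers x) : F.IsNormal S := by
  have hall : ∀ i, NCh F (c i) := by
    intro i
    refine Fin.reverseInduction ?_ ?_ i
    · rw [hcl]; exact NCh.top
    · intro j ih
      obtain ⟨-, x, hx, hxe⟩ := hstep j
      exact nch_step p hS F (hsc j.castSucc) hx (hxe ▸ hsc j.succ) (hxe ▸ ih)
  obtain ⟨D, n, hD0, hDn, hDS, hDc, hDsc⟩ := nch_chain F (hall 0)
  exact Cfsg.Agent.Lib.Helper87.isNormal_of_chain hS F hF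
    ⟨le_rfl, fun R hR φ hφ x => (F.le_of_mem hφ).2 x⟩ D n (by rw [hD0, hc0]) hDn hDS hDc
    (fun j hj => Cfsg.Agent.Lib.Helper87.stronglyClosed_weaklyClosed F (hDsc j hj))

end

/-- Call a saturated fusion system F over a finite p-group S supersoluble when S has a chain of subgroups 1 = S_0 ≤ S_1 ≤ … ≤ S_m = S, each strongly closed in F, with each S_{i+1} generated by S_i together with one further element (cyclic steps). Then every saturated fusion system over S is supersoluble if and only if S is normal in every saturated fusion system over S (S is resistant) and every subgroup of Aut(S) of order prime to p is abelian of exponent dividing p − 1. -/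
theorem result {Ω : Type*} [Group Ω] {S : Subgroup Ω} [Finite S] (p : ℕ) [Fact p.Prime] (hS : IsPGroup p ↥S) : (∀ F : Cfsg.FusionSystem S, F.IsSaturated p → (∃ (m : ℕ) (c : Fin (m + 1) → Subgroup Ω), c 0 = ⊥ ∧ c (Fin.last m) = S ∧ (∀ i : Fin (m + 1), F.StronglyClosed (c i)) ∧ ∀ i : Fin m, c i.castSucc ≤ c i.succ ∧ ∃ x ∈ S, c i.succ = c i.castSucc ⊔ Subgroup.zpowers x)) ↔ (∀ F : Cfsg.FusionSystem S, F.IsSaturated p → F.IsNormal S) ∧ ∀ H : Subgroup (MulAut ↥S), (Nat.card ↥H).Coprime p → IsMulCommutative ↥H ∧ ∀ h ∈ H, h ^ (p - 1) = 1 := by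
  constructor
  · intro hsup
    refine ⟨fun F hF => ?_, fun H hH => pprime_abelian p hS hsup H hH⟩
    obtain ⟨m, c, hc0, hcl, hsc, hstep⟩ := hsup F hF
    exact resistant_of_chain p hS F hF c hc0 hcl hsc hstep
  · rintro ⟨hres, hH⟩ F hF
    exact supersoluble_of_resistant p hS F hF (hres F hF) hH

end Cfsg.Agent.S5283
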