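import Mathlib
import Cfsg.Statements.S0269
import Cfsg.Agent.Lib.Helper8.SpGen

set_option autoImplicit false
set_option linter.unusedSimpArgs false
open Cfsg

namespace Cfsg.Agent.S0269

open Matrix
open Cfsg.Agent.Lib.Helper13 Cfsg.Agent.Lib.Helper8
open scoped commutatorElement

variable {F : Type*} [Field F] {m : ℕ}

theorem sympForm_neg_left (u v : Fin m ⊕ Fin m → F) :
    Cfsg.sympForm m F (-u) v = - Cfsg.sympForm m F u v := by
  have h := sympForm_smul_left m (-1 : F) u v
  simpa using h

theorem sympForm_neg_right (u v : Fin m ⊕ Fin m → F) :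
    Cfsg.sympForm m F u (-v) = - Cfsg.sympForm m F u v := by
  have h := sympForm_smul_right m (-1 : F) u v
  simpa using h

/-- the Siegel-type element `x ↦ x + f(x,u) v + f(x,v) u` (for `u ⊥ v`) as a product of
transvections -/
def spPhi (v u : Fin m ⊕ Fin m → F) : Matrix.symplecticGroup (Fin m) F :=
  spT (v + u) 1 * spT u (-1) * spT v (-1)

theorem spAct_spPhi {v u : Fin m ⊕ Fin m → F} (h : Cfsg.sympForm m F u v = 0)
    (x : Fin m ⊕ Fin m → F) :
    spAct (spPhi v u) x = x + Cfsg.sympForm m F x u • v + Cfsg.sympForm m F x v • u := by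
  have h' : Cfsg.sympForm m F v u = 0 := by rw [sympForm_swap, h, neg_zero]
  unfold spPhi
  rw [spAct_mul, spAct_mul, spAct_spT, spAct_spT, spAct_spT]
  simp only [sympForm_add_left, sympForm_add_right, sympForm_smul_left, sympForm_self, h, h',
    mul_zero, add_zero, zero_add, one_mul]
  module

theorem spPhi_mul {v u w : Fin m ⊕ Fin m → F} (hu : Cfsg.sympForm m F u v = 0)
    (hw : Cfsg.sympForm m F w v = 0) :
    spPhi v u * spPhi v w = spPhi v (u + w) * spT v (Cfsg.sympForm m F w u) := by
  have huw : Cfsg.sympForm m F (u + w) v = 0 := by rw [sympForm_add_left, hu, hw, add_zero]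
  have hu' : Cfsg.sympForm m F v u = 0 := by rw [sympForm_swap, hu, neg_zero]
  have hw' : Cfsg.sympForm m F v w = 0 := by rw [sympForm_swap, hw, neg_zero]
  apply sp_ext
  intro x
  rw [spAct_mul, spAct_mul, spAct_spPhi hu, spAct_spPhi hw, spAct_spPhi huw, spAct_spT]
  simp only [sympForm_add_left, sympForm_add_right, sympForm_smul_left, sympForm_self, hu, hw,
    hu', hw', mul_zero, add_zero, zero_add]
  module

theorem spPhi_zero (v : Fin m ⊕ Fin m → F) : spPhi v (0 : Fin m ⊕ Fin m → F) = 1 := by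
  unfold spPhi
  rw [add_zero, spT_zero_left, mul_one, spT_mul, add_neg_cancel, spT_zero_right]

theorem spPhi_inv {v u : Fin m ⊕ Fin m → F} (hu : Cfsg.sympForm m F u v = 0) :
    (spPhi v u)⁻¹ = spPhi v (-u) := by
  apply inv_eq_of_mul_eq_one_right
  rw [spPhi_mul hu (by rw [sympForm_neg_left, hu, neg_zero]), add_neg_cancel, spPhi_zero, one_mul,
    sympForm_neg_left, sympForm_self, neg_zero, spT_zero_right]

theorem conj_spPhi (g : Matrix.symplecticGroup (Fin m) F) (v u : Fin m ⊕ Fin m → F) :
    g * spPhi v u * g⁻¹ = spPhi (spAct g v) (spAct g u) := by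
  unfold spPhi
  have h : g * (spT (v + u) 1 * spT u (-1) * spT v (-1)) * g⁻¹
      = (g * spT (v + u) 1 * g⁻¹) * (g * spT u (-1) * g⁻¹) * (g * spT v (-1) * g⁻¹) := by group
  rw [h, conj_spT, conj_spT, conj_spT, spAct_add]

/-- odd characteristic type relation: the commutator of two Siegel elements is a transvection -/
theorem spPhi_comm {v u w : Fin m ⊕ Fin m → F} (hu : Cfsg.sympForm m F u v = 0)
    (hw : Cfsg.sympForm m F w v = 0) :
    spT v (2 * Cfsg.sympForm m F w u) = ⁅spPhi v u, spPhi v w⁆ := by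
  have hu' : Cfsg.sympForm m F v u = 0 := by rw [sympForm_swap, hu, neg_zero]
  have hw' : Cfsg.sympForm m F v w = 0 := by rw [sympForm_swap, hw, neg_zero]
  have key : spPhi v u * spPhi v w = spT v (2 * Cfsg.sympForm m F w u) * (spPhi v w * spPhi v u) := by
    apply sp_ext
    intro x
    rw [spAct_mul, spAct_mul, spAct_mul, spAct_spPhi hu, spAct_spPhi hw, spAct_spT,
      spAct_spPhi hw, spAct_spPhi hu]
    simp only [sympForm_add_left, sympForm_add_right, sympForm_smul_left, sympForm_self, hu, hw,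
      hu', hw', mul_zero, add_zero, zero_add, sympForm_swap m u w]
    module
  rw [commutatorElement_def, key]
  group

/-- with a scalar `a`, `a ≠ 0`, the transvection `T_v((a² - 1) c)` is a commutator -/
theorem spT_comm_of_scalar {v : Fin m ⊕ Fin m → F} (hv : v ≠ 0) {a : F} (ha : a ≠ 0) (c : F) :
    ∃ h : Matrix.symplecticGroup (Fin m) F, spT v (a * a * c - c) = ⁅h, spT v c⁆ := by
  obtain ⟨h, -, hh⟩ := exists_spAct_eq hv (smul_ne_zero ha hv)
  refine ⟨h, ?_⟩
  rw [commutatorElement_def, conj_spT, hh, spT_smul, spT_inv, spT_mul, sub_eq_add_neg]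

/-- the element `φ_{v,a} T_v(-1)` is a commutator when `a ⊥ v` has a partner `u ⊥ v` -/
theorem spPsi_comm {v a u : Fin m ⊕ Fin m → F} (ha : Cfsg.sympForm m F a v = 0)
    (hu : Cfsg.sympForm m F u v = 0) (hua : Cfsg.sympForm m F u a = 1) :
    spPhi v a * spT v (-1) = ⁅spT a 1, spPhi v u⁆ := by
  have ha' : Cfsg.sympForm m F v a = 0 := by rw [sympForm_swap, ha, neg_zero]
  have h1 : spAct (spT a (1 : F)) v = v := spAct_spT_of_orth _ ha'
  have h2 : spAct (spT a (1 : F)) u = u + a := by
    rw [spAct_spT, hua, mul_one, one_smul]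
  have h3 : Cfsg.sympForm m F (u + a) v = 0 := by rw [sympForm_add_left, hu, ha, add_zero]
  have h4 : Cfsg.sympForm m F (-u) v = 0 := by rw [sympForm_neg_left, hu, neg_zero]
  rw [commutatorElement_def, conj_spPhi, h1, h2, spPhi_inv hu, spPhi_mul h3 h4]
  have h5 : u + a + -u = a := by abel
  rw [h5, sympForm_neg_left, sympForm_add_right, sympForm_self, hua, zero_add]

/-- for a totally isotropic triple `v, a, b` the transvection `T_v(-1)` is a product of the
elements `φ T_v(-1)` -/
theorem spT_neg_one_eq {v a b : Fin m ⊕ Fin m → F} (ha : Cfsg.sympForm m F a v = 0)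
    (hb : Cfsg.sympForm m F b v = 0) (hba : Cfsg.sympForm m F b a = 0) :
    spT v (-1) = (spPhi v (a + b) * spT v (-1))⁻¹ *
      ((spPhi v a * spT v (-1)) * (spPhi v b * spT v (-1))) := by
  have ha' : Cfsg.sympForm m F v a = 0 := by rw [sympForm_swap, ha, neg_zero]
  have hb' : Cfsg.sympForm m F v b = 0 := by rw [sympForm_swap, hb, neg_zero]
  have hab : Cfsg.sympForm m F (a + b) v = 0 := by rw [sympForm_add_left, ha, hb, add_zero]
  have key : (spPhi v a * spT v (-1)) * (spPhi v b * spT v (-1))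
      = (spPhi v (a + b) * spT v (-1)) * spT v (-1) := by
    apply sp_ext
    intro x
    simp only [spAct_mul, spAct_spPhi ha, spAct_spPhi hb, spAct_spPhi hab, spAct_spT]
    simp only [sympForm_add_left, sympForm_add_right, sympForm_smul_left, sympForm_self, ha, hb,
      ha', hb', hba, mul_zero, add_zero, zero_add]
    module
  rw [key]
  group

theorem sympForm_single (i j : Fin m ⊕ Fin m) :
    Cfsg.sympForm m F (Pi.single i 1) (Pi.single j 1) = Matrix.J (Fin m) F i j := by
  unfold Cfsg.sympForm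
  rw [single_dotProduct, one_mul, mulVec_single_one]
  rfl

theorem spT_mem_of_std {v0 : Fin m ⊕ Fin m → F} (hv0 : v0 ≠ 0)
    (h : ∀ c : F, spT v0 c ∈ commutator (Matrix.symplecticGroup (Fin m) F))
    (v : Fin m ⊕ Fin m → F) (c : F) :
    spT v c ∈ commutator (Matrix.symplecticGroup (Fin m) F) := by
  by_cases hv : v = 0
  · rw [hv, spT_zero_left]; exact one_mem _
  · obtain ⟨g, -, hg⟩ := exists_spAct_eq hv0 hv
    rw [← hg, ← conj_spT]
    exact Subgroup.Normal.conj_mem inferInstance _ (h c) g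

theorem comm_mem (a b : Matrix.symplecticGroup (Fin m) F) :
    ⁅a, b⁆ ∈ commutator (Matrix.symplecticGroup (Fin m) F) := by
  rw [commutator_def]
  exact Subgroup.commutator_mem_commutator (Subgroup.mem_top _) (Subgroup.mem_top _)

theorem case_big [Fintype F] (hq : 4 ≤ Fintype.card F) (v : Fin m ⊕ Fin m → F) (c : F) :
    spT v c ∈ commutator (Matrix.symplecticGroup (Fin m) F) := by
  by_cases hv : v = 0
  · rw [hv, spT_zero_left]; exact one_mem _
  · obtain ⟨a, ha0, ha1⟩ : ∃ a : F, a ≠ 0 ∧ a * a - 1 ≠ 0 := by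
      classical
      by_contra hcon
      push Not at hcon
      have hsub : (Finset.univ : Finset F) ⊆ {0, 1, -1} := by
        intro a _
        by_cases ha : a = 0
        · simp [ha]
        · have h1 := hcon a ha
          have h2 : (a - 1) * (a + 1) = 0 := by linear_combination h1
          rcases mul_eq_zero.1 h2 with h3 | h3
          · have h4 : a = 1 := sub_eq_zero.1 h3
            simp [h4]
          · have h4 : a = -1 := eq_neg_of_add_eq_zero_left h3
            simp [h4]
      have h3 := Finset.card_le_card hsub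
      have h4 : ({0, 1, -1} : Finset F).card ≤ 3 := Finset.card_le_three
      rw [Finset.card_univ] at h3
      omega
    obtain ⟨h, hh⟩ := spT_comm_of_scalar hv ha0 (c / (a * a - 1))
    have h5 : a * a * (c / (a * a - 1)) - c / (a * a - 1) = c := by
      have h6 : a * a * (c / (a * a - 1)) - c / (a * a - 1) = (a * a - 1) * (c / (a * a - 1)) := by
        ring
      rw [h6, mul_div_cancel₀ _ ha1]
    rw [h5] at hh
    rw [hh]
    exact comm_mem _ _

theorem case_odd (h2 : (2 : F) ≠ 0) (hm : 2 ≤ m) (v : Fin m ⊕ Fin m → F) (c : F) :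
    spT v c ∈ commutator (Matrix.symplecticGroup (Fin m) F) := by
  have h0 : (0 : ℕ) < m := by omega
  have h1 : 1 < m := by omega
  apply spT_mem_of_std (v0 := Pi.single (Sum.inl ⟨0, h0⟩) 1)
  · intro h
    have h3 := congrFun h (Sum.inl ⟨0, h0⟩)
    simp at h3
  · intro c
    have hu : Cfsg.sympForm m F (Pi.single (Sum.inl ⟨1, h1⟩) 1)
        (Pi.single (Sum.inl ⟨0, h0⟩) 1) = 0 := by
      rw [sympForm_single]; simp [Matrix.J]
    have hw : Cfsg.sympForm m F ((c / 2) • Pi.single (Sum.inr ⟨1, h1⟩) 1)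
        (Pi.single (Sum.inl ⟨0, h0⟩) 1) = 0 := by
      rw [sympForm_smul_left, sympForm_single]; simp [Matrix.J, Matrix.one_apply]
    have hwu : Cfsg.sympForm m F ((c / 2) • Pi.single (Sum.inr ⟨1, h1⟩) 1)
        (Pi.single (Sum.inl ⟨1, h1⟩) 1) = c / 2 := by
      rw [sympForm_smul_left, sympForm_single]; simp [Matrix.J]
    have h3 := spPhi_comm hu hw
    rw [hwu, mul_div_cancel₀ _ h2] at h3
    rw [h3]
    exact comm_mem _ _

theorem case_two [Fintype F] (hq : Fintype.card F = 2) (hm : 3 ≤ m) (v : Fin m ⊕ Fin m → F)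
    (c : F) : spT v c ∈ commutator (Matrix.symplecticGroup (Fin m) F) := by
  have h0 : (0 : ℕ) < m := by omega
  have h1 : 1 < m := by omega
  have h2 : 2 < m := by omega
  have hF : ∀ c : F, c = 0 ∨ c = 1 := by
    classical
    intro c
    by_contra hc
    push Not at hc
    have h3 : ({0, 1, c} : Finset F).card = 3 := by
      rw [Finset.card_insert_of_notMem, Finset.card_insert_of_notMem, Finset.card_singleton]
      · simp only [Finset.mem_singleton]
        exact fun h => hc.2 h.symm
      · simp only [Finset.mem_insert, Finset.mem_singleton, not_or]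
        exact ⟨zero_ne_one, fun h => hc.1 h.symm⟩
    have h4 := Finset.card_le_univ ({0, 1, c} : Finset F)
    omega
  have hneg : (-1 : F) = 1 := by
    rcases hF (-1) with h | h
    · exact absurd h (neg_ne_zero.2 one_ne_zero)
    · exact h
  apply spT_mem_of_std (v0 := Pi.single (Sum.inl ⟨0, h0⟩) 1)
  · intro h
    have h3 := congrFun h (Sum.inl ⟨0, h0⟩)
    simp at h3
  · intro c
    rcases hF c with rfl | rfl
    · rw [spT_zero_right]; exact one_mem _
    · have ha : Cfsg.sympForm m F (Pi.single (Sum.inl ⟨1, h1⟩) 1)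
          (Pi.single (Sum.inl ⟨0, h0⟩) 1) = 0 := by
        rw [sympForm_single]; simp [Matrix.J]
      have hb : Cfsg.sympForm m F (Pi.single (Sum.inl ⟨2, h2⟩) 1)
          (Pi.single (Sum.inl ⟨0, h0⟩) 1) = 0 := by
        rw [sympForm_single]; simp [Matrix.J]
      have hba : Cfsg.sympForm m F (Pi.single (Sum.inl ⟨2, h2⟩) 1)
          (Pi.single (Sum.inl ⟨1, h1⟩) 1) = 0 := by
        rw [sympForm_single]; simp [Matrix.J]
      have hua : Cfsg.sympForm m F (Pi.single (Sum.inr ⟨1, h1⟩) 1)
          (Pi.single (Sum.inl ⟨0, h0⟩) 1) = 0 := by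
        rw [sympForm_single]; simp [Matrix.J, Matrix.one_apply]
      have hub : Cfsg.sympForm m F (Pi.single (Sum.inr ⟨2, h2⟩) 1)
          (Pi.single (Sum.inl ⟨0, h0⟩) 1) = 0 := by
        rw [sympForm_single]; simp [Matrix.J, Matrix.one_apply]
      have huaa : Cfsg.sympForm m F (Pi.single (Sum.inr ⟨1, h1⟩) 1)
          (Pi.single (Sum.inl ⟨1, h1⟩) 1) = 1 := by
        rw [sympForm_single]; simp [Matrix.J]
      have hubb : Cfsg.sympForm m F (Pi.single (Sum.inr ⟨2, h2⟩) 1)
          (Pi.single (Sum.inl ⟨2, h2⟩) 1) = 1 := by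
        rw [sympForm_single]; simp [Matrix.J]
      have huab : Cfsg.sympForm m F (Pi.single (Sum.inr ⟨1, h1⟩) 1)
          (Pi.single (Sum.inl ⟨1, h1⟩) 1 + Pi.single (Sum.inl ⟨2, h2⟩) 1) = 1 := by
        rw [sympForm_add_right, sympForm_single, sympForm_single]
        simp [Matrix.J, Matrix.one_apply]
      have hab : Cfsg.sympForm m F
          (Pi.single (Sum.inl ⟨1, h1⟩) 1 + Pi.single (Sum.inl ⟨2, h2⟩) 1)
          (Pi.single (Sum.inl ⟨0, h0⟩) 1) = 0 := by
        rw [sympForm_add_left, ha, hb, add_zero]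
      have key : spT (Pi.single (Sum.inl ⟨0, h0⟩) 1) (-1 : F)
          ∈ commutator (Matrix.symplecticGroup (Fin m) F) := by
        rw [spT_neg_one_eq ha hb hba]
        have p1 : spPhi (Pi.single (Sum.inl ⟨0, h0⟩) 1) (Pi.single (Sum.inl ⟨1, h1⟩) 1)
            * spT (Pi.single (Sum.inl ⟨0, h0⟩) 1) (-1 : F)
            ∈ commutator (Matrix.symplecticGroup (Fin m) F) := by
          rw [spPsi_comm ha hua huaa]; exact comm_mem _ _
        have p2 : spPhi (Pi.single (Sum.inl ⟨0, h0⟩) 1) (Pi.single (Sum.inl ⟨2, h2⟩) 1)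
            * spT (Pi.single (Sum.inl ⟨0, h0⟩) 1) (-1 : F)
            ∈ commutator (Matrix.symplecticGroup (Fin m) F) := by
          rw [spPsi_comm hb hub hubb]; exact comm_mem _ _
        have p3 : spPhi (Pi.single (Sum.inl ⟨0, h0⟩) 1)
            (Pi.single (Sum.inl ⟨1, h1⟩) 1 + Pi.single (Sum.inl ⟨2, h2⟩) 1)
            * spT (Pi.single (Sum.inl ⟨0, h0⟩) 1) (-1 : F)
            ∈ commutator (Matrix.symplecticGroup (Fin m) F) := by
          rw [spPsi_comm hab hua huab]; exact comm_mem _ _
        exact mul_mem (inv_mem p3) (mul_mem p1 p2)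
      rw [hneg] at key
      exact key

theorem two_ne_zero_of_card_three [Fintype F] (hq : Fintype.card F = 3) : (2 : F) ≠ 0 := by
  intro h
  have h1 : addOrderOf (1 : F) ∣ 2 := addOrderOf_dvd_of_nsmul_eq_zero (by simpa using h)
  have h2 : addOrderOf (1 : F) ∣ Fintype.card F := addOrderOf_dvd_card
  rw [hq] at h2
  have h3 : addOrderOf (1 : F) ∣ Nat.gcd 2 3 := Nat.dvd_gcd h1 h2
  have h4 : addOrderOf (1 : F) = 1 := Nat.dvd_one.1 h3
  rw [AddMonoid.addOrderOf_eq_one_iff] at h4
  exact one_ne_zero h4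


/-- Sp_{2m}(q) is perfect except for Sp_2(2), Sp_2(3) and Sp_4(2): stated as m at least 3, or m = 2 and q at least 3, or q at least 4. -/
theorem result {F : Type*} [Field F] [Fintype F] (m : ℕ) (h : 3 ≤ m ∨ (m = 2 ∧ 3 ≤ Fintype.card F) ∨ 4 ≤ Fintype.card F) : commutator (Matrix.symplecticGroup (Fin m) F) = ⊤ := by
  have key : ∀ (v : Fin m ⊕ Fin m → F) (c : F),
      spT v c ∈ commutator (Matrix.symplecticGroup (Fin m) F) := by
    intro v c
    by_cases h4 : 4 ≤ Fintype.card F
    · exact case_big h4 v c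
    · have h2 : 1 < Fintype.card F := Fintype.one_lt_card
      have hcases : Fintype.card F = 2 ∨ Fintype.card F = 3 := by omega
      rcases hcases with h5 | h5
      · exact case_two h5 (by omega) v c
      · exact case_odd (two_ne_zero_of_card_three h5) (by omega) v c
  rw [eq_top_iff, ← closure_spTSet, Subgroup.closure_le]
  rintro A ⟨w, c, hA⟩
  have hA' : A = spT w c := Subtype.ext hA
  rw [hA']
  exact key w c

end Cfsg.Agent.S0269
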