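import Mathlib
import Cfsg.Agent.Lib.Helper13.SpPrim
import Cfsg.Agent.Lib.Helper8.SpGen
import Cfsg.Agent.S0269
import Cfsg.Statements.S0270

set_option autoImplicit false
open Cfsg

namespace Cfsg.Agent.S0270

open Matrix MulAction Cfsg.Agent.Lib.Helper13 Cfsg.Agent.Lib.Helper8
open scoped LinearAlgebra.Projectivization Pointwise

variable {F : Type*} [Field F] {m : ℕ}

/-- The symplectic group as a subgroup of `GL`. -/
def toSpGL : Matrix.symplecticGroup (Fin m) F →* ↥(Cfsg.spGL m F) where
  toFun := spToSpGL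
  map_one' := Subtype.ext (Units.ext rfl)
  map_mul' _ _ := Subtype.ext (Units.ext rfl)

theorem toSpGL_surjective : Function.Surjective (toSpGL (F := F) (m := m)) := by
  intro g
  refine ⟨⟨((g.1 : Matrix.GeneralLinearGroup (Fin m ⊕ Fin m) F) :
    Matrix (Fin m ⊕ Fin m) (Fin m ⊕ Fin m) F), mem_symplecticGroup_of_sympForm m g.2⟩, ?_⟩
  exact Subtype.ext (Units.ext rfl)

/-- The action of the symplectic group on the projective space. -/
@[instance_reducible]
def spMulAction : MulAction (Matrix.symplecticGroup (Fin m) F) (ℙ F (Fin m ⊕ Fin m → F)) :=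
  MulAction.compHom _ toSpGL

attribute [local instance] spMulAction

theorem mulVec_ne_zero (g : Matrix.symplecticGroup (Fin m) F) {v : Fin m ⊕ Fin m → F}
    (hv : v ≠ 0) : g.1 *ᵥ v ≠ 0 := by
  intro h
  apply hv
  have h1 := congrArg (spAct g⁻¹) (show spAct g v = 0 from h)
  rwa [spAct_inv_act, spAct_zero] at h1

theorem smul_mk (g : Matrix.symplecticGroup (Fin m) F) (v : Fin m ⊕ Fin m → F) (hv : v ≠ 0) :
    g • (Projectivization.mk F v hv) = Projectivization.mk F (g.1 *ᵥ v) (mulVec_ne_zero g hv) :=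
  rfl

theorem isPreprimitive :
    IsPreprimitive (Matrix.symplecticGroup (Fin m) F) (ℙ F (Fin m ⊕ Fin m → F)) := by
  have h := spGL_preprimitive (F := F) (m := m)
  let f : (ℙ F (Fin m ⊕ Fin m → F)) →ₑ[toSpGL (F := F) (m := m)] (ℙ F (Fin m ⊕ Fin m → F)) :=
    { toFun := id, map_smul' := fun g p => rfl }
  exact (isPreprimitive_congr toSpGL_surjective (f := f) Function.bijective_id).2 h

/-- The group of transvections with a given centre. -/
def transvSubgroup (v : Fin m ⊕ Fin m → F) : Subgroup (Matrix.symplecticGroup (Fin m) F) where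
  carrier := {g | ∃ c, g = spT v c}
  one_mem' := ⟨0, (spT_zero_right v).symm⟩
  mul_mem' := by
    rintro _ _ ⟨c, rfl⟩ ⟨d, rfl⟩
    exact ⟨c + d, spT_mul v c d⟩
  inv_mem' := by
    rintro _ ⟨c, rfl⟩
    exact ⟨-c, spT_inv v c⟩

theorem mem_transvSubgroup (v : Fin m ⊕ Fin m → F) (g : Matrix.symplecticGroup (Fin m) F) :
    g ∈ transvSubgroup v ↔ ∃ c, g = spT v c := Iff.rfl

theorem transvSubgroup_smul (a : F) (ha : a ≠ 0) (v : Fin m ⊕ Fin m → F) :
    transvSubgroup (a • v) = transvSubgroup v := by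
  ext g
  rw [mem_transvSubgroup, mem_transvSubgroup]
  constructor
  · rintro ⟨c, rfl⟩
    exact ⟨a * a * c, spT_smul a v c⟩
  · rintro ⟨c, rfl⟩
    refine ⟨a⁻¹ * a⁻¹ * c, ?_⟩
    rw [spT_smul]
    congr 1
    field_simp

/-- The Iwasawa subgroups. -/
noncomputable def T (p : ℙ F (Fin m ⊕ Fin m → F)) : Subgroup (Matrix.symplecticGroup (Fin m) F) :=
  transvSubgroup p.rep

theorem T_mk (v : Fin m ⊕ Fin m → F) (hv : v ≠ 0) :
    T (Projectivization.mk F v hv) = transvSubgroup v := by
  obtain ⟨a, ha⟩ := Projectivization.exists_smul_eq_mk_rep F v hv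
  unfold T
  rw [← ha]
  exact transvSubgroup_smul (a : F) a.ne_zero v

/-- The Iwasawa structure. -/
noncomputable def iwasawa :
    IwasawaStructure (Matrix.symplecticGroup (Fin m) F) (ℙ F (Fin m ⊕ Fin m → F)) where
  T := T
  is_comm p := ⟨⟨by
    rintro ⟨_, c, rfl⟩ ⟨_, d, rfl⟩
    apply Subtype.ext
    change spT p.rep c * spT p.rep d = spT p.rep d * spT p.rep c
    rw [spT_mul, spT_mul, add_comm]⟩⟩
  is_conj g p := by
    induction p using Projectivization.ind with
    | _ v hv =>
      rw [smul_mk g v hv, T_mk, T_mk]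
      ext h
      rw [Subgroup.mem_pointwise_smul_iff_inv_smul_mem, mem_transvSubgroup, mem_transvSubgroup]
      constructor
      · rintro ⟨c, rfl⟩
        refine ⟨c, ?_⟩
        rw [MulAut.smul_def, MulAut.conj_inv_apply]
        have h1 := conj_spT g⁻¹ (g.1 *ᵥ v) c
        rw [inv_inv] at h1
        rw [h1]
        congr 1
        exact spAct_inv_act g v
      · rintro ⟨c, hc⟩
        refine ⟨c, ?_⟩
        have h1 : h = g * spT v c * g⁻¹ := by
          rw [← hc, MulAut.smul_def, MulAut.conj_inv_apply]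
          group
        rw [h1, conj_spT]
        rfl
  is_generator := by
    rw [eq_top_iff, ← closure_spTSet, Subgroup.closure_le]
    rintro A ⟨w, c, hA⟩
    have hA' : A = spT w c := Subtype.ext hA
    by_cases hw : w = 0
    · subst hw
      rw [hA', spT_zero_left]
      exact one_mem _
    · have h1 : A ∈ T (Projectivization.mk F w hw) := by
        rw [T_mk]
        exact ⟨c, hA'⟩
      exact Subgroup.mem_iSup_of_mem _ h1

/-- An element fixing all projective points is central. -/
theorem mem_center_of_fixes (g : Matrix.symplecticGroup (Fin m) F)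
    (hg : ∀ p : ℙ F (Fin m ⊕ Fin m → F), g • p = p) :
    g ∈ Subgroup.center (Matrix.symplecticGroup (Fin m) F) := by
  set f : (Fin m ⊕ Fin m → F) →ₗ[F] (Fin m ⊕ Fin m → F) := Matrix.mulVecLin g.1 with hf
  obtain ⟨a, ha⟩ := f.exists_eq_smul_id_of_forall_notLinearIndependent (fun v => by
    by_cases hv : v = 0
    · subst hv
      intro hli
      exact hli.ne_zero 0 rfl
    · have h1 := hg (Projectivization.mk F v hv)
      rw [smul_mk, Projectivization.mk_eq_mk_iff'] at h1
      obtain ⟨b, hb⟩ := h1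
      intro hli
      rw [LinearIndependent.pair_iff' hv] at hli
      exact hli b hb)
  have hact : ∀ x, spAct g x = a • x := fun x => by
    have h2 := congrArg (fun L : (Fin m ⊕ Fin m → F) →ₗ[F] (Fin m ⊕ Fin m → F) => L x) ha
    simpa [hf, spAct] using h2
  rw [Subgroup.mem_center_iff]
  intro h
  apply sp_ext
  intro x
  rw [spAct_mul, spAct_mul, hact, hact, spAct_smul]

theorem normal_le_center_or_eq_top
    (hperf : commutator (Matrix.symplecticGroup (Fin m) F) = ⊤)
    (N : Subgroup (Matrix.symplecticGroup (Fin m) F)) [N.Normal] :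
    N ≤ Subgroup.center (Matrix.symplecticGroup (Fin m) F) ∨ N = ⊤ := by
  haveI := isPreprimitive (F := F) (m := m)
  by_cases hfix : fixedPoints N (ℙ F (Fin m ⊕ Fin m → F)) = Set.univ
  · left
    intro g hg
    apply mem_center_of_fixes
    intro p
    have hp : p ∈ fixedPoints N (ℙ F (Fin m ⊕ Fin m → F)) := hfix ▸ Set.mem_univ p
    exact hp ⟨g, hg⟩
  · right
    have h1 := iwasawa.commutator_le N hfix
    rw [hperf] at h1
    exact top_le_iff.1 h1

theorem exists_ne_one (hm : 1 ≤ m) : ∃ g : Matrix.symplecticGroup (Fin m) F, g ≠ 1 := by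
  let v : Fin m ⊕ Fin m → F := Pi.single (Sum.inl ⟨0, hm⟩) 1
  have hv : v ≠ 0 := by
    intro h
    have h1 := congrFun h (Sum.inl ⟨0, hm⟩)
    simp [v] at h1
  obtain ⟨z, hz⟩ := exists_sympForm_ne_zero hv
  refine ⟨spT v 1, fun h => ?_⟩
  have h1 := spAct_spT v 1 z
  rw [h, spAct_one] at h1
  have h2 : (1 * Cfsg.sympForm m F z v) • v = 0 := by simpa using h1
  rcases smul_eq_zero.1 h2 with h3 | h3
  · rw [one_mul, sympForm_swap] at h3
    exact hz (neg_eq_zero.1 h3)
  · exact hv h3

/-- PSp_{2m}(q) is simple for m at least 2 and (m, q) other than (2, 2). -/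
theorem result {F : Type*} [Field F] [Fintype F] (m : ℕ) (hm : 2 ≤ m) (h : m = 2 → 3 ≤ Fintype.card F) : IsSimpleGroup (Cfsg.PSp m F) := by
  have hperf : commutator (Matrix.symplecticGroup (Fin m) F) = ⊤ := by
    apply Cfsg.Agent.S0269.result
    rcases Nat.lt_or_ge 2 m with h3 | h3
    · exact Or.inl h3
    · exact Or.inr (Or.inl ⟨le_antisymm h3 hm, h (le_antisymm h3 hm)⟩)
  have hcne : Subgroup.center (Matrix.symplecticGroup (Fin m) F) ≠ ⊤ := by
    intro hc
    obtain ⟨g, hg⟩ := exists_ne_one (F := F) (m := m) (by omega)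
    have h1 : commutator (Matrix.symplecticGroup (Fin m) F) = ⊥ :=
      (commutator_eq_bot_iff_center_eq_top _).2 hc
    rw [hperf] at h1
    have h2 : g ∈ (⊤ : Subgroup (Matrix.symplecticGroup (Fin m) F)) := Subgroup.mem_top g
    rw [h1, Subgroup.mem_bot] at h2
    exact hg h2
  have hnt : Nontrivial (Cfsg.PSp m F) := QuotientGroup.nontrivial_iff.2 hcne
  refine { toNontrivial := hnt, eq_bot_or_eq_top_of_normal := fun H hH => ?_ }
  have hN : (H.comap (QuotientGroup.mk' (Subgroup.center (Matrix.symplecticGroup (Fin m) F)))).Normal :=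
    hH.comap _
  rcases normal_le_center_or_eq_top hperf
    (H.comap (QuotientGroup.mk' (Subgroup.center (Matrix.symplecticGroup (Fin m) F)))) with h1 | h1
  · left
    rw [eq_bot_iff]
    intro x hx
    obtain ⟨g, rfl⟩ := QuotientGroup.mk_surjective x
    have hg : g ∈ Subgroup.center (Matrix.symplecticGroup (Fin m) F) := h1 hx
    rw [Subgroup.mem_bot]
    exact (QuotientGroup.eq_one_iff g).2 hg
  · right
    rw [eq_top_iff]
    intro x _
    obtain ⟨g, rfl⟩ := QuotientGroup.mk_surjective x
    have hg : g ∈ H.comap (QuotientGroup.mk' (Subgroup.center (Matrix.symplecticGroup (Fin m) F))) := by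
      rw [h1]
      exact Subgroup.mem_top g
    exact hg

end Cfsg.Agent.S0270
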