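import Cfsg.Statements.S0304
import Cfsg.Agent.Lib.Helper13.Symp
import Cfsg.Agent.Lib.Helper99.Symp

set_option autoImplicit false
open Cfsg

namespace Cfsg.Agent.S0304

open Matrix Cfsg.Agent.Lib.Helper13

section aux
variable {F : Type*} [Field F] [CharP F 2] (m : ℕ)

theorem sq_inj {a b : F} (h : a ^ 2 = b ^ 2) : a = b := by
  have h1 : (a - b) ^ 2 = 0 := by
    rw [CharTwo.sub_eq_add, CharTwo.add_sq, h, CharTwo.add_self_eq_zero]
  exact sub_eq_zero.mp ((pow_eq_zero_iff two_ne_zero).mp h1)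

/-- Zero extension of a vector. -/
def ext0 (w : Fin m ⊕ Fin m → F) : Unit ⊕ (Fin m ⊕ Fin m) → F := Sum.elim (fun _ => 0) w

theorem ext0_inr (w : Fin m ⊕ Fin m → F) : (ext0 m w) ∘ Sum.inr = w := rfl

theorem ext0_inl (w : Fin m ⊕ Fin m → F) : (ext0 m w) (Sum.inl ()) = 0 := rfl

theorem Q_eq (v : Unit ⊕ (Fin m ⊕ Fin m) → F) :
    Cfsg.quadFormOdd m F v = v (Sum.inl ()) ^ 2 + Cfsg.quadFormPlus m F (v ∘ Sum.inr) := rfl

theorem q_add (w w' : Fin m ⊕ Fin m → F) :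
    Cfsg.quadFormPlus m F (w + w') = Cfsg.quadFormPlus m F w + Cfsg.quadFormPlus m F w'
      + Cfsg.sympForm m F w w' := by
  rw [sympForm_eq]
  unfold Cfsg.quadFormPlus
  rw [← Finset.sum_add_distrib, ← Finset.sum_add_distrib]
  apply Finset.sum_congr rfl
  intro i _
  simp only [Pi.add_apply, CharTwo.sub_eq_add]
  ring

theorem q_smul (c : F) (w : Fin m ⊕ Fin m → F) :
    Cfsg.quadFormPlus m F (c • w) = c ^ 2 * Cfsg.quadFormPlus m F w := by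
  unfold Cfsg.quadFormPlus
  rw [Finset.mul_sum]
  apply Finset.sum_congr rfl
  intro i _
  simp only [Pi.smul_apply, smul_eq_mul]
  ring

theorem q_single (j : Fin m ⊕ Fin m) :
    Cfsg.quadFormPlus m F (Pi.single j (1 : F)) = 0 := by
  classical
  unfold Cfsg.quadFormPlus
  apply Finset.sum_eq_zero
  intro i _
  rcases j with j | j
  · simp [Pi.single_apply]
  · simp [Pi.single_apply]

theorem Q_add (u v : Unit ⊕ (Fin m ⊕ Fin m) → F) :
    Cfsg.quadFormOdd m F (u + v) = Cfsg.quadFormOdd m F u + Cfsg.quadFormOdd m F v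
      + Cfsg.sympForm m F (u ∘ Sum.inr) (v ∘ Sum.inr) := by
  rw [Q_eq, Q_eq, Q_eq]
  have h : (u + v) ∘ Sum.inr = u ∘ Sum.inr + v ∘ Sum.inr := rfl
  rw [h, q_add, Pi.add_apply, CharTwo.add_sq]
  ring

theorem pol (g : Matrix (Unit ⊕ (Fin m ⊕ Fin m)) (Unit ⊕ (Fin m ⊕ Fin m)) F)
    (hg : ∀ u, Cfsg.quadFormOdd m F (g *ᵥ u) = Cfsg.quadFormOdd m F u)
    (u v : Unit ⊕ (Fin m ⊕ Fin m) → F) :
    Cfsg.sympForm m F ((g *ᵥ u) ∘ Sum.inr) ((g *ᵥ v) ∘ Sum.inr)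
      = Cfsg.sympForm m F (u ∘ Sum.inr) (v ∘ Sum.inr) := by
  have h1 := Q_add m (g *ᵥ u) (g *ᵥ v)
  rw [← Matrix.mulVec_add, hg, hg, hg, Q_add] at h1
  exact (add_left_cancel h1).symm

theorem iso_e0 (g g' : Matrix (Unit ⊕ (Fin m ⊕ Fin m)) (Unit ⊕ (Fin m ⊕ Fin m)) F)
    (hgg' : g * g' = 1)
    (hg : ∀ u, Cfsg.quadFormOdd m F (g *ᵥ u) = Cfsg.quadFormOdd m F u) :
    g *ᵥ (Pi.single (Sum.inl ()) 1) = Pi.single (Sum.inl ()) 1 := by
  classical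
  set x := g *ᵥ (Pi.single (Sum.inl ()) (1 : F)) with hx
  have h2 : (Pi.single (Sum.inl ()) 1 : Unit ⊕ (Fin m ⊕ Fin m) → F) ∘ Sum.inr = 0 := by
    funext j
    simp
  have hxw : ∀ w, Cfsg.sympForm m F (x ∘ Sum.inr) w = 0 := by
    intro w
    have h1 := pol m g hg (Pi.single (Sum.inl ()) 1) (g' *ᵥ ext0 m w)
    rw [Matrix.mulVec_mulVec, hgg', Matrix.one_mulVec, h2, sympForm_zero_left, ext0_inr] at h1
    exact h1
  have hx0 : x ∘ Sum.inr = 0 :=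
    Cfsg.Agent.Lib.Helper99.sympB_nondeg m _ (fun w => by
      rw [Cfsg.Agent.Lib.Helper99.sympB_apply]; exact hxw w)
  have hQ := hg (Pi.single (Sum.inl ()) 1)
  rw [← hx, Q_eq, Q_eq, hx0, h2] at hQ
  have hq0 : Cfsg.quadFormPlus m F (0 : Fin m ⊕ Fin m → F) = 0 := by
    unfold Cfsg.quadFormPlus
    simp
  rw [hq0, add_zero, add_zero, Pi.single_eq_same] at hQ
  have hx1 : x (Sum.inl ()) = 1 := sq_inj hQ
  funext a
  rcases a with ⟨⟩ | j
  · rw [hx1]; simp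
  · have := congrFun hx0 j
    simpa using this

theorem col0 (g : Matrix (Unit ⊕ (Fin m ⊕ Fin m)) (Unit ⊕ (Fin m ⊕ Fin m)) F)
    (h : g *ᵥ (Pi.single (Sum.inl ()) 1) = Pi.single (Sum.inl ()) 1)
    (a : Unit ⊕ (Fin m ⊕ Fin m)) :
    g a (Sum.inl ()) = (Pi.single (Sum.inl ()) 1 : Unit ⊕ (Fin m ⊕ Fin m) → F) a := by
  classical
  have h1 := congrFun h a
  rw [Matrix.mulVec_single_one] at h1
  exact h1

theorem inr_part (g : Matrix (Unit ⊕ (Fin m ⊕ Fin m)) (Unit ⊕ (Fin m ⊕ Fin m)) F)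
    (h : g *ᵥ (Pi.single (Sum.inl ()) 1) = Pi.single (Sum.inl ()) 1)
    (v : Unit ⊕ (Fin m ⊕ Fin m) → F) :
    (g *ᵥ v) ∘ Sum.inr = g.toBlocks₂₂ *ᵥ (v ∘ Sum.inr) := by
  classical
  funext j
  have h0 : g (Sum.inr j) (Sum.inl ()) = 0 := by
    rw [col0 m g h]; simp
  simp [Matrix.mulVec, dotProduct, Fintype.sum_sum_type, h0, Matrix.toBlocks₂₂]

theorem block_sp (g : Matrix (Unit ⊕ (Fin m ⊕ Fin m)) (Unit ⊕ (Fin m ⊕ Fin m)) F)
    (h : g *ᵥ (Pi.single (Sum.inl ()) 1) = Pi.single (Sum.inl ()) 1)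
    (hg : ∀ u, Cfsg.quadFormOdd m F (g *ᵥ u) = Cfsg.quadFormOdd m F u) :
    g.toBlocks₂₂ ∈ Matrix.symplecticGroup (Fin m) F := by
  apply mem_symplecticGroup_of_sympForm
  intro w w'
  have h1 := pol m g hg (ext0 m w) (ext0 m w')
  rw [inr_part m g h, inr_part m g h, ext0_inr, ext0_inr] at h1
  exact h1

theorem block_mul (g g' : Matrix (Unit ⊕ (Fin m ⊕ Fin m)) (Unit ⊕ (Fin m ⊕ Fin m)) F)
    (h : g *ᵥ (Pi.single (Sum.inl ()) 1) = Pi.single (Sum.inl ()) 1) :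
    (g * g').toBlocks₂₂ = g.toBlocks₂₂ * g'.toBlocks₂₂ := by
  classical
  ext i j
  have h0 : g (Sum.inr i) (Sum.inl ()) = 0 := by
    rw [col0 m g h]; simp
  simp [Matrix.toBlocks₂₂, Matrix.mul_apply, Fintype.sum_sum_type, h0]

theorem block_inj (g g' : Matrix (Unit ⊕ (Fin m ⊕ Fin m)) (Unit ⊕ (Fin m ⊕ Fin m)) F)
    (h : g *ᵥ (Pi.single (Sum.inl ()) 1) = Pi.single (Sum.inl ()) 1)
    (h' : g' *ᵥ (Pi.single (Sum.inl ()) 1) = Pi.single (Sum.inl ()) 1)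
    (hg : ∀ u, Cfsg.quadFormOdd m F (g *ᵥ u) = Cfsg.quadFormOdd m F u)
    (hg' : ∀ u, Cfsg.quadFormOdd m F (g' *ᵥ u) = Cfsg.quadFormOdd m F u)
    (hD : g.toBlocks₂₂ = g'.toBlocks₂₂) : g = g' := by
  classical
  ext a b
  rcases b with ⟨⟩ | j
  · rw [col0 m g h, col0 m g' h']
  · rcases a with ⟨⟩ | i
    · have h1 := hg (Pi.single (Sum.inr j) 1)
      have h2 := hg' (Pi.single (Sum.inr j) 1)
      rw [Q_eq, inr_part m g h] at h1
      rw [Q_eq, inr_part m g' h', ← hD] at h2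
      have h3 : (g *ᵥ Pi.single (Sum.inr j) 1) (Sum.inl ()) ^ 2
          = (g' *ᵥ Pi.single (Sum.inr j) 1) (Sum.inl ()) ^ 2 := by
        have h4 := h1.trans h2.symm
        exact add_right_cancel h4
      have h5 := sq_inj h3
      rw [Matrix.mulVec_single_one, Matrix.mulVec_single_one] at h5
      exact h5
    · have h1 := congrFun (congrFun hD i) j
      simpa [Matrix.toBlocks₂₂] using h1

theorem key_id (h : Matrix (Fin m ⊕ Fin m) (Fin m ⊕ Fin m) F)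
    (hh : h ∈ Matrix.symplecticGroup (Fin m) F) (w : Fin m ⊕ Fin m → F) :
    Cfsg.quadFormPlus m F (h *ᵥ w) + Cfsg.quadFormPlus m F w
      = ∑ j, w j ^ 2 * Cfsg.quadFormPlus m F (h *ᵥ Pi.single j 1) := by
  classical
  let D : (Fin m ⊕ Fin m → F) →+ F := AddMonoidHom.mk'
    (fun w => Cfsg.quadFormPlus m F (h *ᵥ w) + Cfsg.quadFormPlus m F w) (by
      intro a b
      show Cfsg.quadFormPlus m F (h *ᵥ (a + b)) + Cfsg.quadFormPlus m F (a + b) = _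
      rw [Matrix.mulVec_add, q_add, q_add, sympForm_mulVec_of_mem m hh]
      have h2 := CharTwo.add_self_eq_zero (Cfsg.sympForm m F a b)
      linear_combination h2)
  have hD : ∀ w, D w = Cfsg.quadFormPlus m F (h *ᵥ w) + Cfsg.quadFormPlus m F w := fun _ => rfl
  have hw : w = ∑ j, w j • (Pi.single j (1 : F) : Fin m ⊕ Fin m → F) := by
    funext k
    simp [Finset.sum_apply, Pi.single_apply]
  rw [← hD]
  conv_lhs => rw [hw]
  rw [map_sum]
  apply Finset.sum_congr rfl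
  intro j _
  rw [hD, Matrix.mulVec_smul, q_smul, q_smul, q_single, mul_zero, add_zero]

end aux

/-- In characteristic 2, O_{2m+1}(q) is isomorphic to Sp_{2m}(q). -/
theorem result {F : Type*} [Field F] [Fintype F] [CharP F 2] (m : ℕ) : Nonempty (Cfsg.isometryGroup F (Cfsg.quadFormOdd m F) ≃* Matrix.symplecticGroup (Fin m) F) := by
  classical
  have hmem : ∀ g : Cfsg.isometryGroup F (Cfsg.quadFormOdd m F), ∀ u,
      Cfsg.quadFormOdd m F (((g : Matrix.GeneralLinearGroup (Unit ⊕ (Fin m ⊕ Fin m)) F) :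
        Matrix (Unit ⊕ (Fin m ⊕ Fin m)) (Unit ⊕ (Fin m ⊕ Fin m)) F) *ᵥ u)
        = Cfsg.quadFormOdd m F u := fun g u => g.2 u u
  have he0 : ∀ g : Cfsg.isometryGroup F (Cfsg.quadFormOdd m F),
      ((g : Matrix.GeneralLinearGroup (Unit ⊕ (Fin m ⊕ Fin m)) F) :
        Matrix (Unit ⊕ (Fin m ⊕ Fin m)) (Unit ⊕ (Fin m ⊕ Fin m)) F) *ᵥ (Pi.single (Sum.inl ()) 1)
        = Pi.single (Sum.inl ()) 1 := fun g =>
    iso_e0 m _ (((g : Matrix.GeneralLinearGroup (Unit ⊕ (Fin m ⊕ Fin m)) F)⁻¹ :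
      Matrix.GeneralLinearGroup (Unit ⊕ (Fin m ⊕ Fin m)) F) :
        Matrix (Unit ⊕ (Fin m ⊕ Fin m)) (Unit ⊕ (Fin m ⊕ Fin m)) F)
      (by rw [← Units.val_mul, mul_inv_cancel, Units.val_one]) (hmem g)
  let Φ : Cfsg.isometryGroup F (Cfsg.quadFormOdd m F) →* Matrix.symplecticGroup (Fin m) F :=
    MonoidHom.mk' (fun g => ⟨((g : Matrix.GeneralLinearGroup (Unit ⊕ (Fin m ⊕ Fin m)) F) :
        Matrix (Unit ⊕ (Fin m ⊕ Fin m)) (Unit ⊕ (Fin m ⊕ Fin m)) F).toBlocks₂₂,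
      block_sp m _ (he0 g) (hmem g)⟩) (by
        intro g g'
        apply Subtype.ext
        exact block_mul m _ _ (he0 g))
  have hinj : Function.Injective Φ := by
    intro g g' hgg'
    have h1 : ((g : Matrix.GeneralLinearGroup (Unit ⊕ (Fin m ⊕ Fin m)) F) :
        Matrix (Unit ⊕ (Fin m ⊕ Fin m)) (Unit ⊕ (Fin m ⊕ Fin m)) F).toBlocks₂₂
        = ((g' : Matrix.GeneralLinearGroup (Unit ⊕ (Fin m ⊕ Fin m)) F) :
        Matrix (Unit ⊕ (Fin m ⊕ Fin m)) (Unit ⊕ (Fin m ⊕ Fin m)) F).toBlocks₂₂ :=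
      congrArg Subtype.val hgg'
    apply Subtype.ext
    apply Units.ext
    exact block_inj m _ _ (he0 g) (he0 g') (hmem g) (hmem g') h1
  have hsurj : Function.Surjective Φ := by
    intro h
    have hsq : Function.Surjective (fun y : F => y ^ 2) :=
      Finite.injective_iff_surjective.mp (fun a b hab => sq_inj hab)
    choose s hs using hsq
    let c : Fin m ⊕ Fin m → F := fun j =>
      s (Cfsg.quadFormPlus m F ((h : Matrix (Fin m ⊕ Fin m) (Fin m ⊕ Fin m) F) *ᵥ Pi.single j 1))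
    let M : Matrix (Unit ⊕ (Fin m ⊕ Fin m)) (Unit ⊕ (Fin m ⊕ Fin m)) F :=
      Matrix.fromBlocks (1 : Matrix Unit Unit F) (Matrix.of fun _ j => c j)
        (0 : Matrix (Fin m ⊕ Fin m) Unit F) (h : Matrix (Fin m ⊕ Fin m) (Fin m ⊕ Fin m) F)
    have hdet : M.det ≠ 0 := by
      rw [Matrix.det_fromBlocks_zero₂₁, Matrix.det_one, one_mul]
      exact (SymplecticGroup.symplectic_det h.2).ne_zero
    have hM : ∀ u, Cfsg.quadFormOdd m F (M *ᵥ u) = Cfsg.quadFormOdd m F u := by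
      intro u
      have h1 : (M *ᵥ u) ∘ Sum.inr
          = (h : Matrix (Fin m ⊕ Fin m) (Fin m ⊕ Fin m) F) *ᵥ (u ∘ Sum.inr) := by
        funext j
        simp [M, Matrix.fromBlocks_mulVec]
      have h2 : (M *ᵥ u) (Sum.inl ()) = u (Sum.inl ()) + ∑ j, c j * u (Sum.inr j) := by
        simp [M, Matrix.fromBlocks_mulVec, Matrix.mulVec, dotProduct]
      rw [Q_eq, Q_eq, h1, h2, CharTwo.add_sq, CharTwo.sum_sq]
      have h3 := key_id m (h : Matrix (Fin m ⊕ Fin m) (Fin m ⊕ Fin m) F) h.2 (u ∘ Sum.inr)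
      have h4 : ∑ j, (c j * u (Sum.inr j)) ^ 2
          = ∑ j, (u ∘ Sum.inr) j ^ 2 * Cfsg.quadFormPlus m F
            ((h : Matrix (Fin m ⊕ Fin m) (Fin m ⊕ Fin m) F) *ᵥ Pi.single j 1) := by
        apply Finset.sum_congr rfl
        intro j _
        have hs' : ∀ b, s b ^ 2 = b := hs
        show (s _ * u (Sum.inr j)) ^ 2 = u (Sum.inr j) ^ 2 * _
        rw [mul_pow, hs', mul_comm]
      rw [h4, ← h3]
      have h5 := CharTwo.add_self_eq_zero (Cfsg.quadFormPlus m F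
        ((h : Matrix (Fin m ⊕ Fin m) (Fin m ⊕ Fin m) F) *ᵥ (u ∘ Sum.inr)))
      linear_combination h5
    refine ⟨⟨Matrix.GeneralLinearGroup.mkOfDetNeZero M hdet, fun u _ => hM u⟩, ?_⟩
    apply Subtype.ext
    show M.toBlocks₂₂ = _
    simp [M, Matrix.toBlocks_fromBlocks₂₂]
  exact ⟨MulEquiv.ofBijective Φ ⟨hinj, hsurj⟩⟩

end Cfsg.Agent.S0304
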