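import Cfsg.Statements.S4400
import Cfsg.Agent.Lib.Helper73.PGroupBasic

set_option autoImplicit false
open Cfsg

namespace Cfsg.Agent.S4400

open Cfsg.Agent.Lib.Helper73

variable {S : Type*} [Group S]

/-- The subgroup generated by the squares of the elements of `P`. -/
def sq (P : Subgroup S) : Subgroup S := Subgroup.closure ((fun g => g ^ 2) '' (P : Set S))

theorem sq_le (P : Subgroup S) : sq P ≤ P := by
  rw [sq, Subgroup.closure_le]
  rintro _ ⟨g, hg, rfl⟩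
  exact pow_mem hg 2

theorem sq_mem {P : Subgroup S} {g : S} (hg : g ∈ P) : g ^ 2 ∈ sq P :=
  Subgroup.subset_closure ⟨g, hg, rfl⟩

theorem sq_normal (P : Subgroup S) [hP : P.Normal] : (sq P).Normal := by
  constructor
  intro n hn g
  unfold sq at hn ⊢
  induction hn using Subgroup.closure_induction with
  | mem x hx =>
    obtain ⟨y, hy, rfl⟩ := hx
    apply Subgroup.subset_closure
    refine ⟨g * y * g⁻¹, hP.conj_mem y hy g, ?_⟩
    simp only [pow_two]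
    group
  | one => simp
  | mul x y _ _ hx hy =>
    have : g * (x * y) * g⁻¹ = (g * x * g⁻¹) * (g * y * g⁻¹) := by group
    rw [this]
    exact mul_mem hx hy
  | inv x _ hx =>
    have : g * x⁻¹ * g⁻¹ = (g * x * g⁻¹)⁻¹ := by group
    rw [this]
    exact inv_mem hx

theorem central_mem_sq [Finite S] (h2 : IsPGroup 2 S) (P : Subgroup S) [P.Normal]
    (hP : ¬ IsMulCommutative ↥P) (hZP : Nat.card ↥(Subgroup.center ↥P) = 2)
    (z : S) (hz : z ∈ P) (hzc : ∀ p ∈ P, p * z = z * p) : z ∈ sq P := by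
  have : Fact (Nat.Prime 2) := ⟨Nat.prime_two⟩
  have : (sq P).Normal := sq_normal P
  have hD : (sq P).subgroupOf P ≠ ⊥ := by
    intro hbot
    apply hP
    rw [isMulCommutative_iff]
    apply comm_of_sq_eq_one
    intro g
    have : g ^ 2 ∈ (sq P).subgroupOf P := by
      rw [Subgroup.mem_subgroupOf]
      exact sq_mem g.2
    rw [hbot, Subgroup.mem_bot] at this
    exact this
  obtain ⟨w, hwD, hw1, hwc⟩ :=
    exists_central_mem_of_normal (h2.to_subgroup P) ((sq P).subgroupOf P) hD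
  have hwZ : w ∈ Subgroup.center ↥P := Subgroup.mem_center_iff.mpr hwc
  have hle : Subgroup.zpowers w ≤ Subgroup.center ↥P := (Subgroup.zpowers_le).mpr hwZ
  have hcard : Nat.card (Subgroup.center ↥P) ≤ Nat.card (Subgroup.zpowers w) := by
    rw [hZP, Nat.card_zpowers]
    have h0 : orderOf w ≠ 0 := (orderOf_pos w).ne'
    have h1 : orderOf w ≠ 1 := fun h => hw1 (orderOf_eq_one_iff.mp h)
    omega
  have heq := Subgroup.eq_of_le_of_card_ge hle hcard
  have hzZ : (⟨z, hz⟩ : ↥P) ∈ Subgroup.center ↥P := by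
    rw [Subgroup.mem_center_iff]
    intro g
    exact Subtype.ext (hzc g g.2)
  rw [← heq] at hzZ
  have : (⟨z, hz⟩ : ↥P) ∈ (sq P).subgroupOf P := (Subgroup.zpowers_le.mpr hwD) hzZ
  exact Subgroup.mem_subgroupOf.mp this

theorem exists_mid [Finite S] (h2 : IsPGroup 2 S) (P : Subgroup S) (hP : ¬ IsMulCommutative ↥P) :
    ∃ M : Subgroup S, sq P ≤ M ∧ M ≤ P ∧ (∃ g ∈ M, g ∉ sq P) ∧ (∃ g ∈ P, g ∉ M) := by
  have : Fact (Nat.Prime 2) := ⟨Nat.prime_two⟩
  have hnc : ¬ IsCyclic ↥P := fun h => hP inferInstance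
  obtain ⟨M₁, M₂, h1, h2', g, hg1, hg2⟩ := exists_two_index_p (h2.to_subgroup P) hnc
  have hsq : ∀ M : Subgroup ↥P, M.index = 2 → sq P ≤ M.map P.subtype := by
    intro M hM
    rw [sq, Subgroup.closure_le]
    rintro _ ⟨y, hy, rfl⟩
    exact ⟨⟨y, hy⟩ ^ 2, Subgroup.sq_mem_of_index_two hM _, rfl⟩
  refine ⟨M₁.map P.subtype, hsq M₁ h1, ?_, ⟨g, ⟨g, hg1, rfl⟩, ?_⟩, ?_⟩
  · rintro _ ⟨y, -, rfl⟩
    exact y.2
  · intro hgs
    obtain ⟨y, hy, hyg⟩ := hsq M₂ h2' hgs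
    have : y = g := Subtype.ext hyg
    exact hg2 (this ▸ hy)
  · have hne : M₁ ≠ ⊤ := by
      intro h
      rw [h, Subgroup.index_top] at h1
      omega
    obtain ⟨y, hy⟩ : ∃ y, y ∉ M₁ := by
      by_contra hcon
      push Not at hcon
      exact hne (eq_top_iff.mpr fun x _ => hcon x)
    refine ⟨y, y.2, ?_⟩
    rintro ⟨y', hy', hyy⟩
    have : y' = y := Subtype.ext hyy
    exact hy (this ▸ hy')

/-- A Dedekind-type fact: if `P ⊓ Q = ⊥`, `K ≤ P`, and `g ∈ P` lies in `K ⊔ Q`, then `g ∈ K`. -/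
theorem mem_of_mem_sup (P Q : Subgroup S) [Q.Normal] (hinf : P ⊓ Q = ⊥) (K : Subgroup S)
    (hK : K ≤ P) (g : S) (hg : g ∈ P) (hgs : g ∈ K ⊔ Q) : g ∈ K := by
  obtain ⟨a, ha, b, hb, rfl⟩ := Subgroup.mem_sup_of_normal_right.mp hgs
  have hbP : b ∈ P := by
    have : b = a⁻¹ * (a * b) := by group
    rw [this]
    exact mul_mem (inv_mem (hK ha)) hg
  have : b ∈ P ⊓ Q := ⟨hbP, hb⟩
  rw [hinf, Subgroup.mem_bot] at this
  rw [this, mul_one]
  exact ha

theorem key [Finite S] (h2 : IsPGroup 2 S) (P Q : Subgroup S) [P.Normal] [Q.Normal]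
    (hP : ¬ IsMulCommutative ↥P) (hQ : ¬ IsMulCommutative ↥Q)
    (hZP : Nat.card ↥(Subgroup.center ↥P) = 2) (hZQ : Nat.card ↥(Subgroup.center ↥Q) = 2)
    (hinf : P ⊓ Q = ⊥) (hcomm : ∀ p ∈ P, ∀ q ∈ Q, p * q = q * p)
    (x : S) (hxR : x ∉ P ⊔ Q) (hx2 : x ^ 2 ∈ P ⊔ Q) (hxC : ∀ r ∈ P ⊔ Q, Commute r x) :
    ¬ Cfsg.SectionalPRankLE 2 4 S := by
  intro hr
  have nP : (sq P).Normal := sq_normal P
  have nQ : (sq Q).Normal := sq_normal Q
  have hinf' : Q ⊓ P = ⊥ := by rw [inf_comm]; exact hinf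
  -- the square of x lies in sq P ⊔ sq Q
  have hx2N : x ^ 2 ∈ sq P ⊔ sq Q := by
    obtain ⟨p₀, hp₀, q₀, hq₀, hpq⟩ := Subgroup.mem_sup_of_normal_right.mp hx2
    have hx2c : ∀ r ∈ P ⊔ Q, r * (p₀ * q₀) = (p₀ * q₀) * r := by
      intro r hr
      rw [hpq]
      exact ((hxC r hr).pow_right 2).eq
    have hp₀c : ∀ p ∈ P, p * p₀ = p₀ * p := by
      intro p hp
      have h := hx2c p (Subgroup.mem_sup_left hp)
      have h' : q₀ * p = p * q₀ := (hcomm p hp q₀ hq₀).symm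
      have : p * p₀ * q₀ = p₀ * p * q₀ := by
        calc p * p₀ * q₀ = p * (p₀ * q₀) := by group
          _ = p₀ * q₀ * p := h
          _ = p₀ * (q₀ * p) := by group
          _ = p₀ * (p * q₀) := by rw [h']
          _ = p₀ * p * q₀ := by group
      exact mul_right_cancel this
    have hq₀c : ∀ q ∈ Q, q * q₀ = q₀ * q := by
      intro q hq
      have h := hx2c q (Subgroup.mem_sup_right hq)
      have h' : q * p₀ = p₀ * q := (hcomm p₀ hp₀ q hq).symm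
      have : p₀ * (q * q₀) = p₀ * (q₀ * q) := by
        calc p₀ * (q * q₀) = (p₀ * q) * q₀ := by group
          _ = (q * p₀) * q₀ := by rw [h']
          _ = q * (p₀ * q₀) := by group
          _ = p₀ * q₀ * q := h
          _ = p₀ * (q₀ * q) := by group
      exact mul_left_cancel this
    rw [← hpq]
    exact Subgroup.mul_mem_sup (central_mem_sq h2 P hP hZP p₀ hp₀ hp₀c)
      (central_mem_sq h2 Q hQ hZQ q₀ hq₀ hq₀c)
  -- squares of the big group
  have hsqH : ∀ h ∈ P ⊔ Q ⊔ Subgroup.zpowers x, h ^ 2 ∈ sq P ⊔ sq Q := by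
    intro h hh
    obtain ⟨r, hr', y, hy, rfl⟩ := Subgroup.mem_sup_of_normal_left.mp hh
    obtain ⟨p, hp, q, hq, rfl⟩ := Subgroup.mem_sup_of_normal_right.mp hr'
    obtain ⟨k, rfl⟩ := Subgroup.mem_zpowers_iff.mp hy
    have c1 : Commute (p * q) (x ^ k) := (hxC _ hr').zpow_right k
    have c2 : Commute p q := hcomm p hp q hq
    rw [c1.mul_pow, c2.mul_pow]
    have hy2 : (x ^ k) ^ 2 = (x ^ 2) ^ k := by
      rw [← zpow_natCast, ← zpow_mul, mul_comm, zpow_mul, zpow_natCast]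
    rw [hy2]
    exact mul_mem (Subgroup.mul_mem_sup (sq_mem hp) (sq_mem hq)) (zpow_mem hx2N k)
  have hexp : ∀ e : ↥(P ⊔ Q ⊔ Subgroup.zpowers x) ⧸
      (sq P ⊔ sq Q).subgroupOf (P ⊔ Q ⊔ Subgroup.zpowers x), e ^ 2 = 1 := by
    intro e
    induction e using QuotientGroup.induction_on with
    | H h =>
      rw [← QuotientGroup.mk_pow, QuotientGroup.eq_one_iff, Subgroup.mem_subgroupOf]
      exact hsqH h h.2
  have hcard : Nat.card (⊤ : Subgroup (↥(P ⊔ Q ⊔ Subgroup.zpowers x) ⧸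
      (sq P ⊔ sq Q).subgroupOf (P ⊔ Q ⊔ Subgroup.zpowers x))) ≤ 2 ^ 4 := by
    apply hr (P ⊔ Q ⊔ Subgroup.zpowers x) ((sq P ⊔ sq Q).subgroupOf (P ⊔ Q ⊔ Subgroup.zpowers x)) ⊤
    · rw [isMulCommutative_iff]
      intro a b
      exact Subtype.ext (comm_of_sq_eq_one hexp a b)
    · intro a _
      exact hexp a
  rw [Subgroup.card_top, ← Subgroup.index_eq_card] at hcard
  -- the chain
  obtain ⟨M₁, hM₁a, hM₁b, ⟨g₁, hg₁M, hg₁n⟩, ⟨g₂, hg₂P, hg₂n⟩⟩ := exists_mid h2 P hP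
  obtain ⟨M₃, hM₃a, hM₃b, ⟨g₃, hg₃M, hg₃n⟩, ⟨g₄, hg₄Q, hg₄n⟩⟩ := exists_mid h2 Q hQ
  have h01 : sq P ⊔ sq Q < M₁ ⊔ sq Q := by
    refine SetLike.lt_iff_le_and_exists.mpr ⟨sup_le_sup_right hM₁a _, g₁,
      Subgroup.mem_sup_left hg₁M, fun hg => hg₁n ?_⟩
    exact mem_of_mem_sup P Q hinf (sq P) (sq_le P) g₁ (hM₁b hg₁M)
      (sup_le_sup_left (sq_le Q) _ hg)
  have h12 : M₁ ⊔ sq Q < P ⊔ sq Q := by
    refine SetLike.lt_iff_le_and_exists.mpr ⟨sup_le_sup_right hM₁b _, g₂,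
      Subgroup.mem_sup_left hg₂P, fun hg => hg₂n ?_⟩
    exact mem_of_mem_sup P Q hinf M₁ hM₁b g₂ hg₂P (sup_le_sup_left (sq_le Q) _ hg)
  have h23 : P ⊔ sq Q < P ⊔ M₃ := by
    refine SetLike.lt_iff_le_and_exists.mpr ⟨sup_le_sup_left hM₃a _, g₃,
      Subgroup.mem_sup_right hg₃M, fun hg => hg₃n ?_⟩
    rw [sup_comm] at hg
    exact mem_of_mem_sup Q P hinf' (sq Q) (sq_le Q) g₃ (hM₃b hg₃M) hg
  have h34 : P ⊔ M₃ < P ⊔ Q := by
    refine SetLike.lt_iff_le_and_exists.mpr ⟨sup_le_sup_left hM₃b _, g₄,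
      Subgroup.mem_sup_right hg₄Q, fun hg => hg₄n ?_⟩
    rw [sup_comm] at hg
    exact mem_of_mem_sup Q P hinf' M₃ hM₃b g₄ hg₄Q hg
  have h45 : P ⊔ Q < P ⊔ Q ⊔ Subgroup.zpowers x :=
    SetLike.lt_iff_le_and_exists.mpr ⟨le_sup_left, x,
      Subgroup.mem_sup_right (Subgroup.mem_zpowers x), hxR⟩
  have h32 := relIndex_ge_32_of_chain h01 h12 h23 h34 h45
  have : (sq P ⊔ sq Q).relIndex (P ⊔ Q ⊔ Subgroup.zpowers x) ≤ 2 ^ 4 := hcard
  omega

/-- Let S be a finite 2-group of sectional 2-rank at most 4, and let P and Q be normal non-abelian subgroups of S whose centres have order 2 and are different. Then P and Q commute elementwise and intersect trivially, and PQ contains its own centralizer in S. -/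
theorem result {S : Type*} [Group S] [Finite S] (h2 : IsPGroup 2 S) (hr : Cfsg.SectionalPRankLE 2 4 S)
    (P Q : Subgroup S) [P.Normal] [Q.Normal] (hP : ¬ IsMulCommutative ↥P) (hQ : ¬ IsMulCommutative ↥Q)
    (hZP : Nat.card ↥(Subgroup.center ↥P) = 2) (hZQ : Nat.card ↥(Subgroup.center ↥Q) = 2)
    (hne : (Subgroup.center ↥P).map P.subtype ≠ (Subgroup.center ↥Q).map Q.subtype) :
    ⁅P, Q⁆ = ⊥ ∧ P ⊓ Q = ⊥ ∧ Subgroup.centralizer ((P ⊔ Q : Subgroup S) : Set S) ≤ P ⊔ Q := by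
  have : Fact (Nat.Prime 2) := ⟨Nat.prime_two⟩
  have hinf : P ⊓ Q = ⊥ := by
    by_contra hne'
    obtain ⟨w, hwN, hw1, hwc⟩ := exists_central_mem_of_normal h2 (P ⊓ Q) hne'
    have key' : ∀ (R : Subgroup S), w ∈ R → Nat.card ↥(Subgroup.center ↥R) = 2 →
        (Subgroup.center ↥R).map R.subtype = Subgroup.zpowers w := by
      intro R hwR hcard
      symm
      apply Subgroup.eq_of_le_of_card_ge
      · rw [Subgroup.zpowers_le]
        refine ⟨⟨w, hwR⟩, ?_, rfl⟩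
        rw [SetLike.mem_coe, Subgroup.mem_center_iff]
        intro g
        exact Subtype.ext (hwc g)
      · rw [Subgroup.card_map_of_injective R.subtype_injective, hcard, Nat.card_zpowers]
        have h0 : orderOf w ≠ 0 := (orderOf_pos w).ne'
        have h1 : orderOf w ≠ 1 := fun h => hw1 (orderOf_eq_one_iff.mp h)
        omega
    exact hne ((key' P hwN.1 hZP).trans (key' Q hwN.2 hZQ).symm)
  have hcomm0 : ⁅P, Q⁆ = ⊥ := by
    have := Subgroup.commutator_le_inf P Q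
    rw [hinf] at this
    exact le_bot_iff.mp this
  refine ⟨hcomm0, hinf, ?_⟩
  by_contra hC
  obtain ⟨y, hyC, hyR⟩ := SetLike.not_le_iff_exists.mp hC
  have hex : ∃ j : ℕ, y ^ (2 ^ j) ∈ P ⊔ Q := by
    obtain ⟨k, hk⟩ := h2 y
    exact ⟨k, by rw [hk]; exact one_mem _⟩
  classical
  have hj0 : Nat.find hex ≠ 0 := by
    intro h0
    have := Nat.find_spec hex
    rw [h0] at this
    simp only [pow_zero, pow_one] at this
    exact hyR this
  obtain ⟨j, hj⟩ := Nat.exists_eq_succ_of_ne_zero hj0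
  have hxR : y ^ (2 ^ j) ∉ P ⊔ Q := Nat.find_min hex (by omega)
  have hx2 : (y ^ (2 ^ j)) ^ 2 ∈ P ⊔ Q := by
    have := Nat.find_spec hex
    rw [hj, pow_succ, pow_mul] at this
    exact this
  have hcommPQ : ∀ p ∈ P, ∀ q ∈ Q, p * q = q * p := by
    have := Subgroup.commutator_eq_bot_iff_le_centralizer.mp hcomm0
    intro p hp q hq
    exact (Subgroup.mem_centralizer_iff.mp (this hp) q hq).symm
  have hxC : ∀ r ∈ P ⊔ Q, Commute r (y ^ (2 ^ j)) := by
    intro r hr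
    exact Subgroup.mem_centralizer_iff.mp (pow_mem hyC _) r hr
  exact key h2 P Q hP hQ hZP hZQ hinf hcommPQ _ hxR hx2 hxC hr

end Cfsg.Agent.S4400
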