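import Cfsg.Statements.S3909

set_option autoImplicit false
open Cfsg

namespace Cfsg.Agent.S3909

/-- Let G be a finite group in which any two abelian subgroups of the same order are conjugate. Let M be a normal subgroup of G. If M contains an element of the same order as a ∈ G, then a ∈ M; and if M is elementary abelian of order p^t with p prime and t ≥ 2, then M is the unique Sylow p-subgroup of G. -/
theorem result {G : Type*} [Group G] [Finite G] (hB : ∀ A B : Subgroup G, IsMulCommutative ↥A → IsMulCommutative ↥B → Nat.card ↥A = Nat.card ↥B → ∃ g : G, B = A.map (MulAut.conj g).toMonoidHom) (M : Subgroup G) [M.Normal] :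
    (∀ a : G, (∃ m ∈ M, orderOf m = orderOf a) → a ∈ M) ∧
    ∀ (p t : ℕ) [Fact p.Prime], 2 ≤ t → Nat.card ↥M = p ^ t → Cfsg.IsElementaryAbelian p M → ∀ P : Sylow p G, (P : Subgroup G) = M := by
  have part1 : ∀ a : G, (∃ m ∈ M, orderOf m = orderOf a) → a ∈ M := by
    rintro a ⟨m, hm, hord⟩
    obtain ⟨g, hg⟩ := hB (Subgroup.zpowers m) (Subgroup.zpowers a) inferInstance inferInstance
      (by rw [Nat.card_zpowers, Nat.card_zpowers, hord])
    have ha : a ∈ Subgroup.zpowers a := Subgroup.mem_zpowers a
    rw [hg, Subgroup.mem_map] at ha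
    obtain ⟨x, hx, rfl⟩ := ha
    have hxM : x ∈ M := by
      have : Subgroup.zpowers m ≤ M := (Subgroup.zpowers_le).mpr hm
      exact this hx
    simp only [MulEquiv.toMonoidHom_eq_coe, MonoidHom.coe_coe, MulAut.conj_apply]
    exact ‹M.Normal›.conj_mem x hxM g
  refine ⟨part1, ?_⟩
  intro p t hp ht hcard hel P
  obtain ⟨hcomm, hexp⟩ := hel
  have hMp : IsPGroup p M := IsPGroup.of_card hcard
  apply le_antisymm
  · -- P ≤ M
    intro x hxP
    -- first: x ^ p = 1
    have hxp : x ^ p = 1 := by
      by_contra hne
      -- order of x is p ^ k with k ≥ 2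
      obtain ⟨k, hk⟩ : ∃ k : ℕ, orderOf x = p ^ k := by
        obtain ⟨k, hk⟩ := P.isPGroup' ⟨x, hxP⟩
        have : x ^ p ^ k = 1 := by
          have := congrArg Subtype.val hk
          simpa using this
        obtain ⟨j, -, hj⟩ := (Nat.dvd_prime_pow hp.out).mp (orderOf_dvd_of_pow_eq_one this)
        exact ⟨j, hj⟩
      have hk2 : 2 ≤ k := by
        by_contra hlt
        have hk1 : k ≤ 1 := by omega
        apply hne
        have : orderOf x ∣ p := by
          rw [hk]
          calc p ^ k ∣ p ^ 1 := pow_dvd_pow p hk1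
            _ = p := pow_one p
        exact orderOf_dvd_iff_pow_eq_one.mp this
      set y := x ^ p ^ (k - 2) with hy
      have hyord : orderOf y = p ^ 2 := by
        rw [hy, orderOf_pow' x (pow_ne_zero _ hp.out.ne_zero), hk]
        rw [Nat.gcd_eq_right (pow_dvd_pow p (by omega))]
        rw [Nat.pow_div (by omega) hp.out.pos]
        congr 1
        omega
      -- subgroup of M of order p^2
      have hdvd : p ^ 2 ∣ Nat.card M := by
        rw [hcard]; exact pow_dvd_pow p ht
      obtain ⟨K, hK⟩ := Sylow.exists_subgroup_card_pow_prime p hdvd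
      have hKcard : Nat.card (K.map M.subtype) = p ^ 2 := by
        rw [Subgroup.card_map_of_injective M.subtype_injective]
        exact hK
      have hKle : K.map M.subtype ≤ M := by
        rintro _ ⟨z, -, rfl⟩
        exact z.2
      have hKcomm : IsMulCommutative (K.map M.subtype) := inferInstance
      obtain ⟨g, hg⟩ := hB (K.map M.subtype) (Subgroup.zpowers y) hKcomm inferInstance
        (by rw [hKcard, Nat.card_zpowers, hyord])
      have hymem : y ∈ Subgroup.zpowers y := Subgroup.mem_zpowers y
      rw [hg, Subgroup.mem_map] at hymem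
      obtain ⟨e, he, hey⟩ := hymem
      have hep : e ^ p = 1 := hexp e (hKle he)
      have hyp : y ^ p = 1 := by
        rw [← hey]
        simp only [MulEquiv.toMonoidHom_eq_coe, MonoidHom.coe_coe]
        rw [← map_pow, hep, map_one]
      have : p ^ 2 ∣ p := by
        rw [← hyord]
        exact orderOf_dvd_of_pow_eq_one hyp
      have h2 : p ^ 2 ≤ p := Nat.le_of_dvd hp.out.pos this
      have h3 : 2 ≤ p := hp.out.two_le
      nlinarith
    by_cases hx1 : x = 1
    · rw [hx1]; exact M.one_mem
    · have hxord : orderOf x = p := by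
        have := orderOf_dvd_of_pow_eq_one hxp
        rcases (Nat.dvd_prime hp.out).mp this with h | h
        · exact absurd (orderOf_eq_one_iff.mp h) hx1
        · exact h
      -- an element of order p in M
      have hpdvd : p ∣ Nat.card M := by
        rw [hcard]; exact dvd_pow_self p (by omega)
      obtain ⟨m, hm⟩ := exists_prime_orderOf_dvd_card' p hpdvd
      apply part1
      refine ⟨(m : G), m.2, ?_⟩
      rw [Subgroup.orderOf_coe, hm, hxord]
  · -- M ≤ P
    obtain ⟨Q, hQ⟩ := hMp.exists_le_sylow
    obtain ⟨g, hg⟩ := MulAction.exists_smul_eq G Q P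
    intro m hm
    have hPQ : (P : Subgroup G) = ((g • Q : Sylow p G) : Subgroup G) := by rw [hg]
    rw [hPQ, Sylow.coe_subgroup_smul]
    rw [Subgroup.mem_pointwise_smul_iff_inv_smul_mem]
    apply hQ
    simp only [MulAut.smul_def, MulAut.conj_inv_apply]
    have := ‹M.Normal›.conj_mem m hm g⁻¹
    simpa using this

end Cfsg.Agent.S3909
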