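import Cfsg.Statements.S0493
import Cfsg.Agent.Lib.Helper9.SmallOrders
import Cfsg.Agent.Lib.Helper17.Simple
import Cfsg.Agent.S0144

set_option autoImplicit false
open Cfsg

namespace Cfsg.Agent.S0493

/-- A finite simple group of order at most 100 that is not cyclic has order 60. -/
theorem result {G : Type*} [Group G] [Finite G] [IsSimpleGroup G]
    (hG : ¬ IsCyclic G) (h : Nat.card G ≤ 100) : Nat.card G = 60 := by
  have hnp : ¬ (Nat.card G).Prime := by
    intro hp
    have : Fact (Nat.card G).Prime := ⟨hp⟩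
    exact hG (isCyclic_of_prime_card rfl)
  have h1 : 1 < Nat.card G := Finite.one_lt_card
  rcases Cfsg.Agent.Lib.Helper9.small_cases _ h1 h with h60 | h84 | h2 | ⟨p, q, hp, hq, hd⟩
  · exact h60
  · exfalso
    have : Fact (Nat.Prime 7) := ⟨by norm_num⟩
    have hc := Cfsg.Agent.Lib.Helper17.card_sylow_mem_cands (G := G) 7 1 12 (by rw [h84]; norm_num) (by norm_num)
    have h1' : Nat.card (Sylow 7 G) = 1 := by
      have h3 : Cfsg.Agent.Lib.Helper17.sylowCands 7 12 = [1] := by decide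
      rw [h3] at hc
      simpa using hc
    exact Cfsg.Agent.Lib.Helper17.card_sylow_ne_one 7 (by rw [h84]; norm_num) 2 Nat.prime_two
      (by norm_num) (by rw [h84]; norm_num) h1'
  · exfalso
    have : Fact (Nat.Prime 2) := ⟨Nat.prime_two⟩
    obtain ⟨P⟩ : Nonempty (Sylow 2 G) := inferInstance
    have hP : Nat.card (P : Subgroup G) = 2 := by
      have := Cfsg.Agent.Lib.Helper17.card_sylow_eq_of_card_eq 2 1 (Nat.card G / 2) (by omega)
        (by omega) P
      simpa using this
    obtain ⟨d, hd1, hd2, -⟩ := Cfsg.Agent.Lib.Helper17.exists_dvd_of_sylow_prime hnp 2 P hP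
    exact hd1 (Nat.dvd_one.mp hd2)
  · exfalso
    rw [mul_pow] at hd
    obtain ⟨y, z, hy, hz, hyz⟩ := Nat.dvd_mul.mp hd
    obtain ⟨a, -, rfl⟩ := (Nat.dvd_prime_pow hp).mp hy
    obtain ⟨b, -, rfl⟩ := (Nat.dvd_prime_pow hq).mp hz
    have hs : Group.IsSolvable G := Cfsg.Agent.S0144.result p q a b hp hq hyz.symm
    have hc : IsMulCommutative G := ⟨⟨IsSimpleGroup.comm_iff_isSolvable.mpr hs⟩⟩
    exact Cfsg.Agent.Lib.Helper17.not_comm_of_not_prime hnp hc

end Cfsg.Agent.S0493
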