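import Mathlib
import Cfsg.Statements.S0700
import Cfsg.Agent.S0035

set_option autoImplicit false
open Cfsg

namespace Cfsg.Agent.S0700

open MulAction

variable {G : Type*} [Group G] {X : Type*} [MulAction G X]

theorem exists_ne_one_of_ne_bot (M : Subgroup G) (hM : M ≠ ⊥) : ∃ u ∈ M, u ≠ 1 := by
  by_contra hc
  push Not at hc
  exact hM (eq_bot_iff.mpr (fun z hz => Subgroup.mem_bot.mpr (hc z hz)))

/-- transitivity of a normal subgroup acting nontrivially in a primitive action, pointwise -/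
theorem trans_of_prim [FaithfulSMul G X] (hprim : IsPreprimitive G X) (M : Subgroup G)
    [M.Normal] (hM : M ≠ ⊥) : ∀ x y : X, ∃ m ∈ M, m • x = y := by
  obtain ⟨u, huM, hu1⟩ := exists_ne_one_of_ne_bot M hM
  have hMt : IsPretransitive M X := by
    apply IsQuasiPreprimitive.isPretransitive_of_normal (G := G)
    intro hfix
    apply hu1
    apply FaithfulSMul.eq_of_smul_eq_smul (α := X)
    intro y
    have hy : y ∈ fixedPoints M X := by rw [hfix]; trivial
    rw [one_smul]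
    exact hy ⟨u, huM⟩
  intro x y
  obtain ⟨m, hm⟩ := hMt.exists_smul_eq x y
  exact ⟨m, m.2, hm⟩

/-- the regular case -/
theorem regular_case [Finite G] [FaithfulSMul G X]
    (h2 : ∀ a b c d : X, a ≠ b → c ≠ d → ∃ g : G, g • a = c ∧ g • b = d)
    (N : Subgroup G) [hNn : N.Normal] (hN : N ≠ ⊥)
    (hreg : ∀ x : X, ∀ h ∈ N, h • x = x → h = 1) :
    (∀ a b : G, a ∈ N → b ∈ N → a * b = b * a) ∧ ∃ p : ℕ, p.Prime ∧ ∀ n ∈ N, n ^ p = 1 := by
  obtain ⟨u0, hu0N, hu01⟩ := exists_ne_one_of_ne_bot N hN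
  obtain ⟨x0, -⟩ : ∃ x : X, u0 • x ≠ x := by
    by_contra hc
    push Not at hc
    apply hu01
    apply FaithfulSMul.eq_of_smul_eq_smul (α := X)
    intro y
    rw [one_smul]; exact hc y
  have hconj : ∀ u v : G, u ∈ N → v ∈ N → u ≠ 1 → v ≠ 1 → ∃ g : G, g * u * g⁻¹ = v := by
    intro u v hu hv hu1 hv1
    have hux : x0 ≠ u • x0 := fun h => hu1 (hreg x0 u hu h.symm)
    have hvx : x0 ≠ v • x0 := fun h => hv1 (hreg x0 v hv h.symm)
    obtain ⟨g, hg0, hg1⟩ := h2 x0 (u • x0) x0 (v • x0) hux hvx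
    refine ⟨g, ?_⟩
    have hgi : g⁻¹ • x0 = x0 := by rw [inv_smul_eq_iff, hg0]
    have h1 : (v⁻¹ * (g * u * g⁻¹)) • x0 = x0 := by
      rw [mul_smul, mul_smul, mul_smul, hgi, hg1, inv_smul_smul]
    have h2' := hreg x0 _ (N.mul_mem (N.inv_mem hv) (hNn.conj_mem u hu g)) h1
    exact (inv_mul_eq_one.mp h2').symm
  have hNnt : Nontrivial N := by
    refine ⟨⟨⟨u0, hu0N⟩, 1, fun h => hu01 (congrArg Subtype.val h)⟩⟩
  obtain ⟨p, hp, hpd⟩ := Nat.exists_prime_and_dvd (n := Nat.card N)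
    (by have := Finite.one_lt_card (α := N); omega)
  have := Fact.mk hp
  obtain ⟨w, hw⟩ := exists_prime_orderOf_dvd_card' p hpd
  have hw1 : (w : G) ≠ 1 := by
    intro h
    have : w = 1 := Subtype.ext h
    rw [this, orderOf_one] at hw
    exact hp.one_lt.ne hw
  have hwp : (w : G) ^ p = 1 := by
    have h1 : w ^ p = 1 := by rw [← hw]; exact pow_orderOf_eq_one w
    exact congrArg Subtype.val h1
  have hexp : ∀ n ∈ N, n ^ p = 1 := by
    intro n hn
    by_cases hn1 : n = 1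
    · rw [hn1, one_pow]
    · obtain ⟨g, hg⟩ := hconj w n w.2 hn hw1 hn1
      rw [← hg, conj_pow, hwp]; simp
  refine ⟨?_, p, hp, hexp⟩
  have hpg : IsPGroup p N := fun g => ⟨1, by
    rw [pow_one]; exact Subtype.ext (hexp g g.2)⟩
  have hcn : Nontrivial (Subgroup.center N) := hpg.center_nontrivial
  obtain ⟨⟨z, hz⟩, hz1⟩ := exists_ne (1 : Subgroup.center N)
  rw [Subgroup.mem_center_iff] at hz
  have hz1' : (z : G) ≠ 1 := fun h => hz1 (Subtype.ext (Subtype.ext h))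
  intro a b ha hb
  by_cases ha1 : a = 1
  · rw [ha1, one_mul, mul_one]
  · obtain ⟨g, hg⟩ := hconj z a z.2 ha hz1' ha1
    have hb' : g⁻¹ * b * g ∈ N := by
      have := hNn.conj_mem b hb g⁻¹
      simpa using this
    have h1 := hz ⟨g⁻¹ * b * g, hb'⟩
    have h2' : g⁻¹ * b * g * (z : G) = (z : G) * (g⁻¹ * b * g) := congrArg Subtype.val h1
    rw [← hg]
    calc g * z * g⁻¹ * b = g * ((z : G) * (g⁻¹ * b * g)) * g⁻¹ := by group
      _ = g * (g⁻¹ * b * g * (z : G)) * g⁻¹ := by rw [h2']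
      _ = b * (g * z * g⁻¹) := by group

open scoped Pointwise

theorem isBlock_smul_of_normal (N : Subgroup G) [hNn : N.Normal] {B : Set X}
    (hB : IsBlock N B) (g : G) : IsBlock N (g • B) := by
  rw [isBlock_iff_smul_eq_or_disjoint] at hB ⊢
  intro h
  have hh' : g⁻¹ * (h : G) * g ∈ N := by
    have := hNn.conj_mem h h.2 g⁻¹
    simpa using this
  have key : (h : N) • (g • B) = g • ((⟨g⁻¹ * (h : G) * g, hh'⟩ : N) • B) := by
    change (h : G) • (g • B) = g • ((g⁻¹ * (h : G) * g) • B)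
    rw [smul_smul, smul_smul]
    congr 1
    group
  rcases hB ⟨g⁻¹ * (h : G) * g, hh'⟩ with h1 | h1
  · left; rw [key, h1]
  · right; rw [key]; exact Set.disjoint_smul_set.mpr h1

theorem two_point_trivial [Finite X]
    (h2 : ∀ a b c d : X, a ≠ b → c ≠ d → ∃ g : G, g • a = c ∧ g • b = d)
    (N : Subgroup G) [hNn : N.Normal] (B : Set X) (hB : IsBlock N B) (hBns : ¬ B.Subsingleton)
    (hBu : B ≠ Set.univ)
    (hmin : ∀ B' : Set X, IsBlock N B' → ¬ B'.Subsingleton → B' ≠ Set.univ →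
      B.ncard ≤ B'.ncard)
    (h : G) (hhN : h ∈ N) (a b : X) (hab : a ≠ b) (ha : h • a = a) (hb : h • b = b) :
    ∀ x : X, h • x = x := by
  have hline : ∀ g : G, IsBlock N (g • B) := fun g => isBlock_smul_of_normal N hB g
  have hcard : ∀ g : G, (g • B).ncard = B.ncard := fun g => Set.ncard_smul_set g B
  have hne_univ : ∀ g : G, g • B ≠ Set.univ := by
    intro g hg
    apply hBu
    have := congrArg (fun s : Set X => g⁻¹ • s) hg
    simpa using this
  have hD2 : ∀ g1 g2 : G, ∀ y y' : X, y ≠ y' → y ∈ g1 • B → y' ∈ g1 • B → y ∈ g2 • B →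
      y' ∈ g2 • B → g1 • B = g2 • B := by
    intro g1 g2 y y' hyy h1 h1' h2' h2''
    have hint : IsBlock N (g1 • B ∩ g2 • B) := (hline g1).inter (hline g2)
    have hns : ¬ (g1 • B ∩ g2 • B).Subsingleton := fun hs => hyy (hs ⟨h1, h2'⟩ ⟨h1', h2''⟩)
    have hnu : g1 • B ∩ g2 • B ≠ Set.univ := fun hu =>
      hne_univ g1 (Set.eq_univ_of_univ_subset (hu ▸ Set.inter_subset_left))
    have hle := hmin _ hint hns hnu
    have e1 : g1 • B ∩ g2 • B = g1 • B :=
      Set.eq_of_subset_of_ncard_le Set.inter_subset_left (by rw [hcard]; exact hle)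
        (Set.toFinite _)
    have e2 : g1 • B ∩ g2 • B = g2 • B :=
      Set.eq_of_subset_of_ncard_le Set.inter_subset_right (by rw [hcard]; exact hle)
        (Set.toFinite _)
    exact e1.symm.trans e2
  obtain ⟨b1, hb1, b2, hb2, hb12⟩ := Set.not_subsingleton_iff.mp hBns
  have hD3 : ∀ y y' : X, y ≠ y' → ∃ g : G, y ∈ g • B ∧ y' ∈ g • B := by
    intro y y' hyy
    obtain ⟨g, hg1, hg2⟩ := h2 b1 b2 y y' hb12 hyy
    exact ⟨g, ⟨b1, hb1, hg1⟩, ⟨b2, hb2, hg2⟩⟩
  have hD1 : ∀ (k : G), k ∈ N → ∀ g : G, ∀ y, y ∈ g • B → k • y = y →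
      k • (g • B) = g • B := by
    intro k hk g y hy hky
    rcases (isBlock_iff_smul_eq_or_disjoint.mp (hline g)) ⟨k, hk⟩ with h1 | h1
    · exact h1
    · exfalso
      rw [Set.disjoint_left] at h1
      exact h1 (⟨y, hy, hky⟩ : y ∈ (⟨k, hk⟩ : N) • (g • B)) hy
  have hdil : ∀ (k : G), k ∈ N → ∀ a b : X, a ≠ b → k • a = a → k • b = b → ∀ g0 : G,
      a ∈ g0 • B → b ∈ g0 • B → ∀ x, x ∉ g0 • B → k • x = x := by
    intro k hk a b hab ha hb g0 ha0 hb0 x hx
    have hxa : x ≠ a := fun h => hx (h ▸ ha0)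
    have hxb : x ≠ b := fun h => hx (h ▸ hb0)
    obtain ⟨ga, hga1, hga2⟩ := hD3 a x (Ne.symm hxa)
    obtain ⟨gb, hgb1, hgb2⟩ := hD3 b x (Ne.symm hxb)
    have e1 := hD1 k hk ga a hga1 ha
    have e2 := hD1 k hk gb b hgb1 hb
    have hkx1 : k • x ∈ ga • B := by rw [← e1]; exact Set.smul_mem_smul_set hga2
    have hkx2 : k • x ∈ gb • B := by rw [← e2]; exact Set.smul_mem_smul_set hgb2
    by_contra hne
    have e3 := hD2 ga gb x (k • x) (Ne.symm hne) hga2 hkx1 hgb2 hkx2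
    have e4 := hD2 ga g0 a b hab hga1 (e3 ▸ hgb1) ha0 hb0
    exact hx (e4 ▸ hga2)
  intro x
  obtain ⟨g0, ha0, hb0⟩ := hD3 a b hab
  by_cases hx : x ∈ g0 • B
  · obtain ⟨c, hc⟩ : ∃ c, c ∉ g0 • B := by
      by_contra hcon
      push Not at hcon
      exact hne_univ g0 (Set.eq_univ_of_forall hcon)
    have hkc := hdil h hhN a b hab ha hb g0 ha0 hb0 c hc
    by_cases hxa : x = a
    · rw [hxa]; exact ha
    · have hca : c ≠ a := fun e => hc (e ▸ ha0)
      obtain ⟨g1, h1a, h1c⟩ := hD3 a c (Ne.symm hca)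
      apply hdil h hhN a c (Ne.symm hca) ha hkc g1 h1a h1c x
      intro hx1
      have e := hD2 g1 g0 a x (Ne.symm hxa) h1a hx1 ha0 hx
      exact hc (e ▸ h1c)
  · exact hdil h hhN a b hab ha hb g0 ha0 hb0 x hx

theorem primitive_of_nonregular [Finite G] [Finite X] [FaithfulSMul G X]
    (h2 : ∀ a b c d : X, a ≠ b → c ≠ d → ∃ g : G, g • a = c ∧ g • b = d)
    (N : Subgroup G) [hNn : N.Normal]
    (hmin : ∀ M : Subgroup G, M.Normal → M ≤ N → M = ⊥ ∨ M = N)
    (hNt : ∀ x y : X, ∃ m ∈ N, m • x = y)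
    (x0 : X) (h0 : G) (hh0 : h0 ∈ N) (hh01 : h0 ≠ 1) (hh0x : h0 • x0 = x0) :
    IsPreprimitive N X := by
  have hNpt : IsPretransitive N X := ⟨fun x y => by
    obtain ⟨m, hm, hmx⟩ := hNt x y
    exact ⟨⟨m, hm⟩, hmx⟩⟩
  refine { toIsPretransitive := hNpt, isTrivialBlock_of_isBlock := ?_ }
  intro B0 hB0
  by_contra hnt
  rw [IsTrivialBlock, not_or] at hnt
  classical
  have hex : ∃ k, ∃ B' : Set X, IsBlock N B' ∧ ¬ B'.Subsingleton ∧ B' ≠ Set.univ ∧
      B'.ncard = k := ⟨_, B0, hB0, hnt.1, hnt.2, rfl⟩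
  obtain ⟨B, hB, hBns, hBu, hBk⟩ := Nat.find_spec hex
  have hBmin : ∀ B' : Set X, IsBlock N B' → ¬ B'.Subsingleton → B' ≠ Set.univ →
      B.ncard ≤ B'.ncard := by
    intro B' h1 h2' h3
    rw [hBk]
    exact Nat.find_min' hex ⟨B', h1, h2', h3, rfl⟩
  have htwo := two_point_trivial h2 N B hB hBns hBu hBmin
  have htwo' : ∀ h ∈ N, ∀ a b : X, a ≠ b → h • a = a → h • b = b → h = 1 := by
    intro h hh a b hab ha hb
    apply FaithfulSMul.eq_of_smul_eq_smul (α := X)
    intro x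
    rw [one_smul]
    exact htwo h hh a b hab ha hb x
  let H : Subgroup N := stabilizer N x0
  have hHbot : H ≠ ⊥ := by
    intro hb
    have : (⟨h0, hh0⟩ : N) ∈ H := hh0x
    rw [hb, Subgroup.mem_bot] at this
    exact hh01 (congrArg Subtype.val this)
  obtain ⟨x1, hx1⟩ : ∃ x1 : X, x1 ≠ x0 := by
    obtain ⟨b1, -, b2, -, hb12⟩ := Set.not_subsingleton_iff.mp hBns
    by_cases h : b1 = x0
    · exact ⟨b2, fun h' => hb12 (h.trans h'.symm)⟩
    · exact ⟨b1, h⟩
  have hHtop : H ≠ ⊤ := by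
    intro ht
    obtain ⟨m, hm, hmx⟩ := hNt x0 x1
    have : (⟨m, hm⟩ : N) ∈ H := by rw [ht]; trivial
    exact hx1 (hmx.symm.trans this)
  have hFrob : Cfsg.IsFrobeniusComplement H := by
    refine ⟨hHbot, hHtop, fun g hg => ?_⟩
    rw [eq_bot_iff]
    rintro h ⟨hh1, hh2⟩
    rw [Subgroup.mem_bot]
    have hh1' : (h : G) • x0 = x0 := hh1
    have hh2' : h ∈ MulAut.conj g • H := hh2
    rw [Subgroup.mem_smul_pointwise_iff_exists] at hh2'
    obtain ⟨k, hk, hkh⟩ := hh2'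
    have hk' : (k : G) • x0 = x0 := hk
    have hgx : (g : G) • x0 ≠ x0 := fun e => hg e
    have hh3 : (h : G) • ((g : G) • x0) = (g : G) • x0 := by
      rw [← hkh]
      change ((g * k * g⁻¹ : N) : G) • ((g : G) • x0) = (g : G) • x0
      rw [Subgroup.coe_mul, Subgroup.coe_mul, Subgroup.coe_inv, mul_smul, mul_smul,
        inv_smul_smul, hk']
    exact Subtype.ext (htwo' h h.2 x0 ((g : G) • x0) (Ne.symm hgx) hh1' hh3)
  obtain ⟨K, hKset, hKn, hKc⟩ := Cfsg.Agent.S0035.result H hFrob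
  have hKmem : ∀ k : N, k ∈ K ↔ k = 1 ∨ ∀ x : X, (k : G) • x ≠ x := by
    intro k
    rw [← SetLike.mem_coe, hKset]
    change (k = 1 ∨ ∀ g : N, k ∉ MulAut.conj g • H) ↔ _
    apply or_congr Iff.rfl
    constructor
    · intro hk x hx
      obtain ⟨m, hm, hmx⟩ := hNt x0 x
      apply hk ⟨m, hm⟩
      rw [Subgroup.mem_smul_pointwise_iff_exists]
      refine ⟨⟨m, hm⟩⁻¹ * k * ⟨m, hm⟩, ?_, ?_⟩
      · change (m⁻¹ * (k : G) * m) • x0 = x0
        rw [mul_smul, mul_smul, hmx, hx, inv_smul_eq_iff, hmx]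
      · change ⟨m, hm⟩ * (⟨m, hm⟩⁻¹ * k * ⟨m, hm⟩) * ⟨m, hm⟩⁻¹ = k
        group
    · intro hk g hg
      rw [Subgroup.mem_smul_pointwise_iff_exists] at hg
      obtain ⟨k0, hk0, rfl⟩ := hg
      apply hk ((g : G) • x0)
      change ((g * k0 * g⁻¹ : N) : G) • ((g : G) • x0) = (g : G) • x0
      rw [Subgroup.coe_mul, Subgroup.coe_mul, Subgroup.coe_inv, mul_smul, mul_smul,
        inv_smul_smul]
      congr 1
  have hMn : (K.map N.subtype).Normal := by
    refine ⟨fun m hm g => ?_⟩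
    obtain ⟨k, hk, rfl⟩ := hm
    have hc : g * (k : G) * g⁻¹ ∈ N := hNn.conj_mem k k.2 g
    refine ⟨⟨g * (k : G) * g⁻¹, hc⟩, ?_, rfl⟩
    rw [SetLike.mem_coe, hKmem] at hk ⊢
    rcases hk with rfl | hk
    · left; apply Subtype.ext; simp
    · right
      intro x hx
      apply hk (g⁻¹ • x)
      change (g * (k : G) * g⁻¹) • x = x at hx
      rw [mul_smul, mul_smul] at hx
      rw [eq_inv_smul_iff]
      exact hx
  rcases hmin _ hMn (Subgroup.map_subtype_le K) with hM | hM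
  · have hK : K = ⊥ := (Subgroup.map_eq_bot_iff_of_injective K N.subtype_injective).mp hM
    rw [hK] at hKc
    exact hHtop (Subgroup.isComplement'_bot_left.mp hKc)
  · have hK : K = ⊤ := by
      rw [eq_top_iff]
      intro k _
      have hk : (k : G) ∈ K.map N.subtype := by rw [hM]; exact k.2
      obtain ⟨k', hk', hkk⟩ := hk
      have : k' = k := Subtype.ext hkk
      rwa [← this]
    rw [hK] at hKc
    exact hHbot (Subgroup.isComplement'_top_left.mp hKc)

/-- subgroups of `N` that are nontrivial and normalized by `N` -/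
def NNormal (N M : Subgroup G) : Prop :=
  M ≤ N ∧ M ≠ ⊥ ∧ ∀ n ∈ N, ∀ m ∈ M, n * m * n⁻¹ ∈ M

theorem nnormal_conj (N : Subgroup G) [hNn : N.Normal] {M : Subgroup G} (hM : NNormal N M)
    (g : G) : NNormal N (M.map (MulAut.conj g).toMonoidHom) := by
  refine ⟨?_, ?_, ?_⟩
  · rintro _ ⟨m, hm, rfl⟩
    exact hNn.conj_mem m (hM.1 hm) g
  · intro h
    apply hM.2.1
    exact (Subgroup.map_eq_bot_iff_of_injective M (MulAut.conj g).injective).mp h
  · rintro n hn _ ⟨m, hm, rfl⟩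
    refine ⟨(g⁻¹ * n * g) * m * (g⁻¹ * n * g)⁻¹, hM.2.2 _ (by
      have := hNn.conj_mem n hn g⁻¹
      simpa using this) m hm, ?_⟩
    simp only [MulEquiv.coe_toMonoidHom, MulAut.conj_apply]
    group

theorem nnormal_trans [FaithfulSMul G X] (N : Subgroup G) (hprim : IsPreprimitive N X)
    {M : Subgroup G} (hM : NNormal N M) : ∀ x y : X, ∃ m ∈ M, m • x = y := by
  have hn : (M.subgroupOf N).Normal := by
    refine ⟨fun m hm n => ?_⟩
    rw [Subgroup.mem_subgroupOf] at hm ⊢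
    exact hM.2.2 n n.2 m hm
  have hfaith : FaithfulSMul N X :=
    ⟨fun {a b} h => Subtype.ext (FaithfulSMul.eq_of_smul_eq_smul (α := X) h)⟩
  have hne : M.subgroupOf N ≠ ⊥ := by
    intro h
    obtain ⟨u, hu, hu1⟩ := exists_ne_one_of_ne_bot M hM.2.1
    have : (⟨u, hM.1 hu⟩ : N) ∈ M.subgroupOf N := Subgroup.mem_subgroupOf.mpr hu
    rw [h, Subgroup.mem_bot] at this
    exact hu1 (congrArg Subtype.val this)
  intro x y
  obtain ⟨m, hm, hmx⟩ := trans_of_prim (G := N) hprim (M.subgroupOf N) hne x y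
  exact ⟨(m : G), Subgroup.mem_subgroupOf.mp hm, hmx⟩

theorem simple_of_primitive [Finite G] [Finite X] [FaithfulSMul G X]
    (h2 : ∀ a b c d : X, a ≠ b → c ≠ d → ∃ g : G, g • a = c ∧ g • b = d)
    (N : Subgroup G) [hNn : N.Normal]
    (hmin : ∀ M : Subgroup G, M.Normal → M ≤ N → M = ⊥ ∨ M = N)
    (hprim : IsPreprimitive N X)
    (x0 : X) (h0 : G) (hh0 : h0 ∈ N) (hh01 : h0 ≠ 1) (hh0x : h0 • x0 = x0) :
    IsSimpleGroup N := by
  have hnt : Nontrivial N := ⟨⟨⟨h0, hh0⟩, 1, fun h => hh01 (congrArg Subtype.val h)⟩⟩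
  refine { exists_pair_ne := hnt.exists_pair_ne, eq_bot_or_eq_top_of_normal := ?_ }
  intro M' hM'n
  by_contra hcon
  rw [not_or] at hcon
  obtain ⟨hM'bot, hM'top⟩ := hcon
  classical
  have hM0 : NNormal N (M'.map N.subtype) := by
    refine ⟨Subgroup.map_subtype_le M', ?_, ?_⟩
    · intro h
      exact hM'bot ((Subgroup.map_eq_bot_iff_of_injective M' N.subtype_injective).mp h)
    · rintro n hn _ ⟨m, hm, rfl⟩
      exact ⟨⟨n, hn⟩ * m * ⟨n, hn⟩⁻¹, hM'n.conj_mem m hm ⟨n, hn⟩, rfl⟩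
  have hM0lt : Nat.card (M'.map N.subtype) < Nat.card N := by
    rw [Subgroup.card_map_of_injective N.subtype_injective]
    by_contra hc
    push Not at hc
    exact hM'top (Subgroup.eq_top_of_le_card M' hc)
  have hex : ∃ k, ∃ M : Subgroup G, NNormal N M ∧ Nat.card M = k := ⟨_, _, hM0, rfl⟩
  obtain ⟨M1, hM1, hM1k⟩ := Nat.find_spec hex
  have hM1min : ∀ M : Subgroup G, NNormal N M → Nat.card M1 ≤ Nat.card M := by
    intro M hM
    rw [hM1k]
    exact Nat.find_min' hex ⟨M, hM, rfl⟩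
  have hM1N : M1 ≠ N := by
    intro h
    have := hM1min _ hM0
    rw [h] at this
    omega
  have hnotn : ¬ M1.Normal := by
    intro hn
    rcases hmin M1 hn hM1.1 with h | h
    · exact hM1.2.1 h
    · exact hM1N h
  obtain ⟨g0, m0, hm0, hm0'⟩ : ∃ g0 : G, ∃ m0 ∈ M1, g0 * m0 * g0⁻¹ ∉ M1 := by
    by_contra hc
    push Not at hc
    exact hnotn ⟨fun m hm g => hc g m hm⟩
  have hconj : ∀ g : G, M1.map (MulAut.conj g).toMonoidHom ≠ M1 →
      (∀ x ∈ M1, ∀ y ∈ M1.map (MulAut.conj g).toMonoidHom, x * y = y * x) := by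
    intro g hne x hx y hy
    have hM3 : NNormal N (M1.map (MulAut.conj g).toMonoidHom) := nnormal_conj N hM1 g
    have hcard3 : Nat.card (M1.map (MulAut.conj g).toMonoidHom) = Nat.card M1 :=
      Subgroup.card_map_of_injective (MulAut.conj g).injective
    have hinf : M1 ⊓ M1.map (MulAut.conj g).toMonoidHom = ⊥ := by
      by_contra hb
      have hI : NNormal N (M1 ⊓ M1.map (MulAut.conj g).toMonoidHom) :=
        ⟨inf_le_left.trans hM1.1, hb, fun n hn m hm =>
          ⟨hM1.2.2 n hn m hm.1, hM3.2.2 n hn m hm.2⟩⟩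
      have h1 := hM1min _ hI
      have e1 : M1 ⊓ M1.map (MulAut.conj g).toMonoidHom = M1 :=
        Subgroup.eq_of_le_of_card_ge inf_le_left h1
      have e2 : M1 ⊓ M1.map (MulAut.conj g).toMonoidHom = M1.map (MulAut.conj g).toMonoidHom :=
        Subgroup.eq_of_le_of_card_ge inf_le_right (by rw [hcard3]; exact h1)
      exact hne (e2.symm.trans e1)
    have hcomm : x * y * x⁻¹ * y⁻¹ ∈ M1 ⊓ M1.map (MulAut.conj g).toMonoidHom := by
      constructor
      · have h1 := hM1.2.2 y (hM3.1 hy) x⁻¹ (M1.inv_mem hx)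
        have h2' := M1.mul_mem hx h1
        have e : x * y * x⁻¹ * y⁻¹ = x * (y * x⁻¹ * y⁻¹) := by group
        rw [e]; exact h2'
      · have h1 := hM3.2.2 x (hM1.1 hx) y hy
        exact Subgroup.mul_mem _ h1 (Subgroup.inv_mem _ hy)
    rw [hinf, Subgroup.mem_bot] at hcomm
    calc x * y = (x * y * x⁻¹ * y⁻¹) * (y * x) := by group
      _ = y * x := by rw [hcomm, one_mul]
  have hM2 : NNormal N (M1.map (MulAut.conj g0).toMonoidHom) := nnormal_conj N hM1 g0
  have hM21 : M1.map (MulAut.conj g0).toMonoidHom ≠ M1 := by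
    intro h
    apply hm0'
    rw [← h]
    exact ⟨m0, hm0, rfl⟩
  have hc12 := hconj g0 hM21
  have ht1 := nnormal_trans N hprim hM1
  have ht2 := nnormal_trans N hprim hM2
  have hM2def : ∀ b ∈ M1.map (MulAut.conj g0).toMonoidHom, ∃ a' ∈ M1, b = g0 * a' * g0⁻¹ := by
    rintro _ ⟨a', ha', rfl⟩
    exact ⟨a', ha', by simp⟩
  generalize M1.map (MulAut.conj g0).toMonoidHom = M2 at hM2 hM21 hc12 ht2 hM2def
  have hsemi : ∀ (A B : Subgroup G), (∀ x ∈ A, ∀ y ∈ B, x * y = y * x) →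
      (∀ x y : X, ∃ m ∈ B, m • x = y) → ∀ a ∈ A, ∀ x : X, a • x = x → a = 1 := by
    intro A B hAB hBt a ha x hax
    apply FaithfulSMul.eq_of_smul_eq_smul (α := X)
    intro y
    obtain ⟨m, hm, hmx⟩ := hBt x y
    rw [one_smul, ← hmx, smul_smul, hAB a ha m hm, mul_smul, hax]
  have hreg1 := hsemi M1 M2 hc12 ht2
  have hconj2 : ∀ g : G, M1.map (MulAut.conj g).toMonoidHom = M1 ∨
      M1.map (MulAut.conj g).toMonoidHom = M2 := by
    intro g
    by_cases hne : M1.map (MulAut.conj g).toMonoidHom = M1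
    · left; exact hne
    · right
      have hc13 := hconj g hne
      have hM3 := nnormal_conj N hM1 g
      have ht3 := nnormal_trans N hprim hM3
      have key : ∀ (A B : Subgroup G), (∀ x ∈ M1, ∀ y ∈ A, x * y = y * x) →
          (∀ x ∈ M1, ∀ y ∈ B, x * y = y * x) → (∀ x y : X, ∃ m ∈ B, m • x = y) → A ≤ B := by
        intro A B hA hB hBt a ha
        obtain ⟨b, hb, hbx⟩ := hBt x0 (a • x0)
        have hfix : (b⁻¹ * a) • x0 = x0 := by rw [mul_smul, ← hbx, inv_smul_smul]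
        have h1 : b⁻¹ * a = 1 := by
          apply FaithfulSMul.eq_of_smul_eq_smul (α := X)
          intro y
          obtain ⟨m, hm, hmx⟩ := ht1 x0 y
          have hcm : (b⁻¹ * a) * m = m * (b⁻¹ * a) := by
            have e1 := hA m hm a ha
            have e2 := hB m hm b hb
            calc b⁻¹ * a * m = b⁻¹ * (m * a) := by rw [e1]; group
              _ = b⁻¹ * (m * b) * b⁻¹ * a := by group
              _ = b⁻¹ * (b * m) * b⁻¹ * a := by rw [e2]
              _ = m * (b⁻¹ * a) := by group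
          rw [one_smul, ← hmx, smul_smul, hcm, mul_smul, hfix]
        rw [inv_mul_eq_one.mp h1] at hb
        exact hb
      exact le_antisymm (key _ M2 hc13 hc12 ht2) (key M2 _ hc12 hc13 ht3)
  let P : Subgroup G :=
    { carrier := {z | ∃ a ∈ M1, ∃ b ∈ M2, z = a * b}
      one_mem' := ⟨1, M1.one_mem, 1, M2.one_mem, by simp⟩
      mul_mem' := by
        rintro _ _ ⟨a, ha, b, hb, rfl⟩ ⟨a', ha', b', hb', rfl⟩
        refine ⟨a * a', M1.mul_mem ha ha', b * b', M2.mul_mem hb hb', ?_⟩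
        have := hc12 a' ha' b hb
        calc a * b * (a' * b') = a * (b * a') * b' := by group
          _ = a * (a' * b) * b' := by rw [this]
          _ = a * a' * (b * b') := by group
      inv_mem' := by
        rintro _ ⟨a, ha, b, hb, rfl⟩
        refine ⟨a⁻¹, M1.inv_mem ha, b⁻¹, M2.inv_mem hb, ?_⟩
        have := hc12 a⁻¹ (M1.inv_mem ha) b⁻¹ (M2.inv_mem hb)
        rw [mul_inv_rev, this] }
  have hM1P : M1 ≤ P := fun a ha => ⟨a, ha, 1, M2.one_mem, by simp⟩
  have hM2P : M2 ≤ P := fun b hb => ⟨1, M1.one_mem, b, hb, by simp⟩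
  have hcm : ∀ g : G, ∀ a ∈ M1, g * a * g⁻¹ ∈ P := by
    intro g a ha
    have hmem : g * a * g⁻¹ ∈ M1.map (MulAut.conj g).toMonoidHom := ⟨a, ha, by simp⟩
    rcases hconj2 g with h | h
    · rw [h] at hmem; exact hM1P hmem
    · rw [h] at hmem; exact hM2P hmem
  have hPn : P.Normal := by
    refine ⟨fun z hz g => ?_⟩
    obtain ⟨a, ha, b, hb, rfl⟩ := hz
    obtain ⟨a', ha', rfl⟩ := hM2def b hb
    have e : g * (a * (g0 * a' * g0⁻¹)) * g⁻¹ =
        (g * a * g⁻¹) * ((g * g0) * a' * (g * g0)⁻¹) := by group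
    rw [e]
    exact P.mul_mem (hcm g a ha) (hcm (g * g0) a' ha')
  have hPleN : P ≤ N := by
    rintro _ ⟨a, ha, b, hb, rfl⟩
    exact N.mul_mem (hM1.1 ha) (hM2.1 hb)
  have hPN : P = N := by
    rcases hmin P hPn hPleN with h | h
    · exfalso
      apply hM1.2.1
      rw [eq_bot_iff, ← h]
      exact hM1P
    · exact h
  have hE : ∀ u ∈ M1, ∀ v ∈ M1, u ≠ 1 → v ≠ 1 → ∀ k : ℕ, u ^ k = 1 → v ^ k = 1 := by
    intro u hu v hv hu1 hv1 k huk
    have hux : x0 ≠ u • x0 := fun h => hu1 (hreg1 u hu x0 h.symm)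
    have hvx : x0 ≠ v • x0 := fun h => hv1 (hreg1 v hv x0 h.symm)
    obtain ⟨g, hg0, hg1⟩ := h2 x0 (u • x0) x0 (v • x0) hux hvx
    have hgi : g⁻¹ • x0 = x0 := by rw [inv_smul_eq_iff, hg0]
    have hw : (g * u * g⁻¹) • x0 = v • x0 := by
      rw [mul_smul, mul_smul, hgi, hg1]
    have hwk : (g * u * g⁻¹) ^ k = 1 := by rw [conj_pow, huk]; simp
    have hmem : g * u * g⁻¹ ∈ M1.map (MulAut.conj g).toMonoidHom := ⟨u, hu, by simp⟩
    rcases hconj2 g with h | h
    · rw [h] at hmem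
      have h1 : (v⁻¹ * (g * u * g⁻¹)) • x0 = x0 := by
        rw [mul_smul, hw, inv_smul_smul]
      have h3 := hreg1 _ (M1.mul_mem (M1.inv_mem hv) hmem) x0 h1
      rw [inv_mul_eq_one.mp h3]
      exact hwk
    · rw [h] at hmem
      have hind : ∀ j : ℕ, (v ^ j) • x0 = ((g * u * g⁻¹) ^ j) • x0 := by
        intro j
        induction j with
        | zero => simp
        | succ j ih =>
          calc (v ^ (j + 1)) • x0 = (v ^ j) • (v • x0) := by rw [pow_succ, mul_smul]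
            _ = (v ^ j) • ((g * u * g⁻¹) • x0) := by rw [hw]
            _ = (v ^ j * (g * u * g⁻¹)) • x0 := (mul_smul _ _ _).symm
            _ = ((g * u * g⁻¹) * v ^ j) • x0 := by
                rw [hc12 (v ^ j) (M1.pow_mem hv j) _ hmem]
            _ = (g * u * g⁻¹) • (v ^ j • x0) := mul_smul _ _ _
            _ = (g * u * g⁻¹) • ((g * u * g⁻¹) ^ j • x0) := by rw [ih]
            _ = ((g * u * g⁻¹) * (g * u * g⁻¹) ^ j) • x0 := (mul_smul _ _ _).symm
            _ = ((g * u * g⁻¹) ^ (j + 1)) • x0 := by rw [pow_succ']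
      have h1 : (v ^ k) • x0 = x0 := by rw [hind k, hwk, one_smul]
      exact hreg1 _ (M1.pow_mem hv k) x0 h1
  have hM1nt : Nontrivial M1 := by
    obtain ⟨u, hu, hu1⟩ := exists_ne_one_of_ne_bot M1 hM1.2.1
    exact ⟨⟨⟨u, hu⟩, 1, fun h => hu1 (congrArg Subtype.val h)⟩⟩
  obtain ⟨p, hp, hpd⟩ := Nat.exists_prime_and_dvd (n := Nat.card M1)
    (by have := Finite.one_lt_card (α := M1); omega)
  have := Fact.mk hp
  obtain ⟨w, hw⟩ := exists_prime_orderOf_dvd_card' p hpd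
  have hw1 : (w : G) ≠ 1 := by
    intro h
    have : w = 1 := Subtype.ext h
    rw [this, orderOf_one] at hw
    exact hp.one_lt.ne hw
  have hwp : (w : G) ^ p = 1 := by
    have h1 : w ^ p = 1 := by rw [← hw]; exact pow_orderOf_eq_one w
    exact congrArg Subtype.val h1
  have hexp : ∀ n ∈ M1, n ^ p = 1 := by
    intro n hn
    by_cases hn1 : n = 1
    · rw [hn1, one_pow]
    · exact hE w w.2 n hn hw1 hn1 p hwp
  have hpg : IsPGroup p M1 := fun g => ⟨1, by
    rw [pow_one]; exact Subtype.ext (hexp g g.2)⟩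
  have hcn : Nontrivial (Subgroup.center M1) := hpg.center_nontrivial
  obtain ⟨⟨z, hz⟩, hz1⟩ := exists_ne (1 : Subgroup.center M1)
  rw [Subgroup.mem_center_iff] at hz
  have hz1' : (z : G) ≠ 1 := fun h => hz1 (Subtype.ext (Subtype.ext h))
  have hzN : ∀ n ∈ N, n * (z : G) = (z : G) * n := by
    intro n hn
    rw [← hPN] at hn
    obtain ⟨a, ha, b, hb, rfl⟩ := hn
    have e1 : a * (z : G) = (z : G) * a := congrArg Subtype.val (hz ⟨a, ha⟩)
    have e2 := hc12 z z.2 b hb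
    calc a * b * (z : G) = a * (b * (z : G)) := by group
      _ = a * ((z : G) * b) := by rw [e2]
      _ = (a * (z : G)) * b := by group
      _ = ((z : G) * a) * b := by rw [e1]
      _ = (z : G) * (a * b) := by group
  let Z : Subgroup G :=
    { carrier := {c | c ∈ N ∧ ∀ n ∈ N, n * c = c * n}
      one_mem' := ⟨N.one_mem, fun n _ => by simp⟩
      mul_mem' := by
        rintro c d ⟨hc, hc'⟩ ⟨hd, hd'⟩
        refine ⟨N.mul_mem hc hd, fun n hn => ?_⟩
        calc n * (c * d) = (n * c) * d := by group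
          _ = (c * n) * d := by rw [hc' n hn]
          _ = c * (n * d) := by group
          _ = c * (d * n) := by rw [hd' n hn]
          _ = c * d * n := by group
      inv_mem' := by
        rintro c ⟨hc, hc'⟩
        refine ⟨N.inv_mem hc, fun n hn => ?_⟩
        have := hc' n hn
        calc n * c⁻¹ = c⁻¹ * (c * n) * c⁻¹ := by group
          _ = c⁻¹ * (n * c) * c⁻¹ := by rw [this]
          _ = c⁻¹ * n := by group }
  have hZn : Z.Normal := by
    refine ⟨fun c hc g => ?_⟩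
    obtain ⟨hc, hc'⟩ := hc
    refine ⟨hNn.conj_mem c hc g, fun n hn => ?_⟩
    have hn' : g⁻¹ * n * g ∈ N := by simpa using hNn.conj_mem n hn g⁻¹
    have := hc' _ hn'
    calc n * (g * c * g⁻¹) = g * ((g⁻¹ * n * g) * c) * g⁻¹ := by group
      _ = g * (c * (g⁻¹ * n * g)) * g⁻¹ := by rw [this]
      _ = g * c * g⁻¹ * n := by group
  have hZN : Z = N := by
    rcases hmin Z hZn (fun c hc => hc.1) with h | h
    · exfalso
      have : (z : G) ∈ Z := ⟨hM1.1 z.2, hzN⟩
      rw [h, Subgroup.mem_bot] at this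
      exact hz1' this
    · exact h
  apply hh01
  apply FaithfulSMul.eq_of_smul_eq_smul (α := X)
  intro y
  obtain ⟨m, hm, hmx⟩ := ht1 x0 y
  have hh0Z : h0 ∈ Z := by rw [hZN]; exact hh0
  have hmh := hh0Z.2 m (hM1.1 hm)
  rw [one_smul, ← hmx, smul_smul, ← hmh, mul_smul, hh0x]

/-- Burnside's Theorem on doubly transitive groups: a minimal normal subgroup of a finite doubly transitive permutation group is elementary abelian and regular, or simple and primitive. -/
theorem result {α : Type*} [Fintype α] [DecidableEq α] (G : Subgroup (Equiv.Perm α)) (hG : MulAction.IsMultiplyPretransitive G α 2) (N : Subgroup G) [N.Normal] (hN : N ≠ ⊥) (hmin : ∀ M : Subgroup G, M.Normal → M ≤ N → M = ⊥ ∨ M = N) : (IsMulCommutative N ∧ (∃ p : ℕ, p.Prime ∧ ∀ n ∈ N, n ^ p = 1) ∧ ∀ a : α, MulAction.stabilizer N a = ⊥) ∨ (IsSimpleGroup N ∧ MulAction.IsPreprimitive N α) := by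
  have hfaith : FaithfulSMul G α := by
    refine ⟨fun {g1 g2} h => ?_⟩
    apply Subtype.ext
    ext a
    exact h a
  have hprim : IsPreprimitive G α := isPreprimitive_of_is_two_pretransitive hG
  have h2 : ∀ a b c d : α, a ≠ b → c ≠ d → ∃ g : G, g • a = c ∧ g • b = d := by
    have hG' := hG
    rw [is_two_pretransitive_iff] at hG'
    intro a b c d hab hcd
    exact hG' hab hcd
  have hNt := trans_of_prim hprim N hN
  by_cases hreg : ∃ x0 : α, ∃ h0 ∈ N, h0 ≠ 1 ∧ h0 • x0 = x0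
  · right
    obtain ⟨x0, h0, hh0, hh01, hh0x⟩ := hreg
    have hp := primitive_of_nonregular h2 N hmin hNt x0 h0 hh0 hh01 hh0x
    exact ⟨simple_of_primitive h2 N hmin hp x0 h0 hh0 hh01 hh0x, hp⟩
  · left
    have hreg' : ∀ x : α, ∀ h ∈ N, h • x = x → h = 1 := fun x h hh hx => by
      by_contra h1
      exact hreg ⟨x, h, hh, h1, hx⟩
    obtain ⟨hcomm, p, hp, hexp⟩ := regular_case h2 N hN hreg'
    refine ⟨⟨⟨fun a b => Subtype.ext (hcomm a b a.2 b.2)⟩⟩, ⟨p, hp, hexp⟩, fun a => ?_⟩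
    rw [eq_bot_iff]
    intro n hn
    rw [Subgroup.mem_bot]
    exact Subtype.ext (hreg' a n n.2 hn)

end Cfsg.Agent.S0700
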