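import Mathlib
import Cfsg.Statements.S1453
import Cfsg.Agent.S0130
import Cfsg.Agent.Lib.Helper38.PChain
import Cfsg.Agent.Lib.Helper24.ElemAb

set_option autoImplicit false
open Cfsg

namespace Cfsg.Agent.S1453

open Cfsg.Agent.Lib.Helper24
open scoped commutatorElement

/-- Let p be an odd prime and R a finite p-group with an elementary abelian subgroup of order p ^ 3 and an elementary abelian subgroup E of order p ^ 2 contained in no larger elementary abelian subgroup. Let Z₂ be the second centre of R, W the subgroup generated by the elements of Z₂ of order dividing p, and T = C_R(W). Then E is not contained in T; the elements of order dividing p of the centre of R generate a group of order p; W is elementary abelian of order p ^ 2; and T is characteristic in R of index p. -/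
theorem result {R : Type*} [Group R] [Finite R] (p : ℕ) [Fact p.Prime] (hp : p ≠ 2) (hR : IsPGroup p R) (hr : ¬ Cfsg.PRankLE p 2 R)
    (E : Subgroup R) (hE : Cfsg.IsElementaryAbelian p E) (hE2 : Nat.card E = p ^ 2)
    (hEmax : ∀ B : Subgroup R, Cfsg.IsElementaryAbelian p B → E ≤ B → B = E) :
    ¬ E ≤ Subgroup.centralizer ((Subgroup.closure {x : R | x ∈ Subgroup.upperCentralSeries R 2 ∧ x ^ p = 1} : Subgroup R) : Set R) ∧
      Nat.card ↥(Subgroup.closure {x : R | x ∈ Subgroup.center R ∧ x ^ p = 1}) = p ∧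
      (Cfsg.IsElementaryAbelian p (Subgroup.closure {x : R | x ∈ Subgroup.upperCentralSeries R 2 ∧ x ^ p = 1}) ∧
        Nat.card ↥(Subgroup.closure {x : R | x ∈ Subgroup.upperCentralSeries R 2 ∧ x ^ p = 1}) = p ^ 2) ∧
      (Subgroup.centralizer ((Subgroup.closure {x : R | x ∈ Subgroup.upperCentralSeries R 2 ∧ x ^ p = 1} : Subgroup R) : Set R)).Characteristic ∧
      (Subgroup.centralizer ((Subgroup.closure {x : R | x ∈ Subgroup.upperCentralSeries R 2 ∧ x ^ p = 1} : Subgroup R) : Set R)).index = p := by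
  classical
  have hp' : p.Prime := Fact.out
  have hnil : Group.IsNilpotent R := hR.isNilpotent
  obtain ⟨hEc, hEe⟩ := hE
  have hcE : ∀ x ∈ E, ∀ y ∈ E, x * y = y * x := fun x hx y hy =>
    congrArg Subtype.val (hEc.is_comm.comm ⟨x, hx⟩ ⟨y, hy⟩)
  unfold Cfsg.PRankLE at hr
  push Not at hr
  obtain ⟨A', hA'c, hA'e, hA'card⟩ := hr
  have hcA' : ∀ x ∈ A', ∀ y ∈ A', x * y = y * x := fun x hx y hy =>
    congrArg Subtype.val (hA'c.is_comm.comm ⟨x, hx⟩ ⟨y, hy⟩)
  -- elements of order p centralizing E lie in E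
  have hext : ∀ a : R, a ^ p = 1 → (∀ e ∈ E, a * e = e * a) → a ∈ E := by
    intro a hap hae
    have hB : Cfsg.IsElementaryAbelian p (E ⊔ Subgroup.zpowers a) :=
      ⟨⟨⟨fun u v => Subtype.ext (sup_zpowers_comm E a hcE hae u u.2 v v.2)⟩⟩,
        sup_zpowers_pow E a p hcE hEe hae hap⟩
    have h1 := hEmax _ hB le_sup_left
    rw [← h1]
    exact le_sup_right (a := E) (Subgroup.mem_zpowers a)
  -- E is not normal
  have hnN : ¬ E.Normal := by
    intro hn
    obtain ⟨a, haA, haE, haC⟩ := exists_centralizing hR E hE2 A' hcA' hA'card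
    exact haE (hext a (hA'e a haA)
      (fun e he => ((Subgroup.mem_centralizer_iff.mp haC) e he).symm))
  -- subgroups of E
  have hsubE : ∀ H : Subgroup R, H ≤ E → H ≠ E → Nat.card H ≤ p := by
    intro H hHE hne
    have hdvd : Nat.card H ∣ p ^ 2 := by
      rw [← hE2]
      exact Subgroup.card_dvd_of_le hHE
    obtain ⟨i, hi, hci⟩ := (Nat.dvd_prime_pow hp').mp hdvd
    have hi1 : i ≤ 1 := by
      by_contra hcon
      have hi2 : i = 2 := by omega
      exact hne (Subgroup.eq_of_le_of_card_ge hHE (by rw [hci, hi2, hE2]))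
    rw [hci]
    calc p ^ i ≤ p ^ 1 := Nat.pow_le_pow_right hp'.pos hi1
      _ = p := pow_one p
  -- Z
  set Z : Subgroup R := Subgroup.closure {x : R | x ∈ Subgroup.center R ∧ x ^ p = 1} with hZdef
  have hZmem : ∀ x ∈ Z, x ∈ Subgroup.center R ∧ x ^ p = 1 := by
    intro x hx
    induction hx using Subgroup.closure_induction with
    | mem x hx => exact hx
    | one => exact ⟨one_mem _, one_pow p⟩
    | mul x y _ _ hx hy =>
      exact ⟨mul_mem hx.1 hy.1, by
        rw [(show Commute x y from Subgroup.mem_center_iff.mp hy.1 x).mul_pow, hx.2, hy.2,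
          one_mul]⟩
    | inv x _ hx => exact ⟨inv_mem hx.1, by rw [inv_pow, hx.2, inv_one]⟩
  have hZsub : ∀ x, x ∈ Subgroup.center R → x ^ p = 1 → x ∈ Z :=
    fun x h1 h2 => Subgroup.subset_closure ⟨h1, h2⟩
  have hZn : Z.Normal := by
    refine ⟨fun x hx g => ?_⟩
    have h1 := Subgroup.mem_center_iff.mp (hZmem x hx).1 g
    rw [h1, mul_inv_cancel_right]
    exact hx
  have hZc : ∀ x ∈ Z, ∀ y ∈ Z, x * y = y * x := fun x hx y hy =>
    Subgroup.mem_center_iff.mp (hZmem y hy).1 x
  have hZE : Z ≤ E := fun z hz =>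
    hext z (hZmem z hz).2 (fun e he => (Subgroup.mem_center_iff.mp (hZmem z hz).1 e).symm)
  have hZE' : Z ≠ E := by
    intro h
    rw [h] at hZn
    exact hnN hZn
  have hRnt : Nontrivial R := by
    by_contra hcon
    rw [not_nontrivial_iff_subsingleton] at hcon
    have h1 : Nat.card E = 1 := Nat.card_unique
    rw [hE2] at h1
    have := hp'.one_lt
    have h2 : 1 < p ^ 2 := Nat.one_lt_pow (by norm_num) this
    omega
  have hZbot : Z ≠ ⊥ := by
    have hcn : Nontrivial (Subgroup.center R) := hR.center_nontrivial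
    have hpc : IsPGroup p (Subgroup.center R) := hR.to_subgroup _
    have hdvd : p ∣ Nat.card (Subgroup.center R) := by
      rcases hpc.card_eq_or_dvd with h | h
      · have := Finite.one_lt_card (α := Subgroup.center R)
        omega
      · exact h
    obtain ⟨x, hx⟩ := exists_prime_orderOf_dvd_card' p hdvd
    have hx1 : x ^ p = 1 := by rw [← hx]; exact pow_orderOf_eq_one x
    have hxne : x ≠ 1 := by
      intro h
      rw [h, orderOf_one] at hx
      exact hp'.one_lt.ne hx
    intro hbot
    have hxZ : (x : R) ∈ Z := hZsub x x.2 (by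
      have := congrArg Subtype.val hx1
      simpa using this)
    rw [hbot, Subgroup.mem_bot] at hxZ
    exact hxne (Subtype.ext hxZ)
  have hZcard : Nat.card Z = p := by
    have h1 := hsubE Z hZE hZE'
    have hpz : IsPGroup p Z := hR.to_subgroup _
    rcases hpz.card_eq_or_dvd with h | h
    · exact absurd (Subgroup.card_eq_one.mp h) hZbot
    · exact le_antisymm h1 (Nat.le_of_dvd Nat.card_pos h)
  -- W
  set W : Subgroup R :=
    Subgroup.closure {x : R | x ∈ Subgroup.upperCentralSeries R 2 ∧ x ^ p = 1} with hWdef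
  have hZ2 : ∀ x : R, x ∈ Subgroup.upperCentralSeries R 2 ↔
      ∀ y : R, x * y * x⁻¹ * y⁻¹ ∈ Subgroup.center R := by
    intro x
    have h1 := Subgroup.mem_upperCentralSeries_succ_iff (G := R) (n := 1) (x := x)
    rw [Subgroup.upperCentralSeries_one] at h1
    exact h1
  have hWmem : ∀ x ∈ W, x ∈ Subgroup.upperCentralSeries R 2 ∧ x ^ p = 1 := by
    intro x hx
    induction hx using Subgroup.closure_induction with
    | mem x hx => exact hx
    | one => exact ⟨one_mem _, one_pow p⟩
    | mul x y _ _ hx hy =>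
      refine ⟨mul_mem hx.1 hy.1, mul_pow_prime_eq_one_of_central hp' hp x y ?_ hx.2 hy.2⟩
      have h1 := (hZ2 y⁻¹).mp (inv_mem hy.1) x⁻¹
      rw [commutatorElement_def]
      exact h1
    | inv x _ hx => exact ⟨inv_mem hx.1, by rw [inv_pow, hx.2, inv_one]⟩
  have hWsub : ∀ x, x ∈ Subgroup.upperCentralSeries R 2 → x ^ p = 1 → x ∈ W :=
    fun x h1 h2 => Subgroup.subset_closure ⟨h1, h2⟩
  have hWn : W.Normal := by
    refine ⟨fun x hx g => ?_⟩
    apply hWsub
    · exact (inferInstance : (Subgroup.upperCentralSeries R 2).Normal).conj_mem x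
        (hWmem x hx).1 g
    · rw [conj_pow, (hWmem x hx).2, mul_one, mul_inv_cancel]
  have hWchar : W.Characteristic := by
    rw [Subgroup.characteristic_iff_le_comap]
    intro φ
    rw [hWdef, Subgroup.closure_le]
    intro x hx
    rw [SetLike.mem_coe, Subgroup.mem_comap]
    apply Subgroup.subset_closure
    refine ⟨?_, ?_⟩
    · have h1 : (Subgroup.upperCentralSeries R 2).comap φ.toMonoidHom
          = Subgroup.upperCentralSeries R 2 := (inferInstance : (Subgroup.upperCentralSeries R 2).Characteristic).fixed φ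
      have h2 : x ∈ (Subgroup.upperCentralSeries R 2).comap φ.toMonoidHom := by
        rw [h1]; exact hx.1
      exact Subgroup.mem_comap.mp h2
    · have h1 : φ.toMonoidHom x ^ p = φ.toMonoidHom (x ^ p) := (map_pow _ _ _).symm
      rw [h1, hx.2, map_one]
  have hZW : Z ≤ W := by
    intro z hz
    apply hWsub z _ (hZmem z hz).2
    have h1 : Subgroup.upperCentralSeries R 1 ≤ Subgroup.upperCentralSeries R 2 :=
      Subgroup.upperCentralSeries_mono R (by norm_num)
    apply h1
    rw [Subgroup.upperCentralSeries_one]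
    exact (hZmem z hz).1
  have hWZ : ∀ w ∈ W, ∀ g : R, g * w * g⁻¹ * w⁻¹ ∈ Z := by
    intro w hw g
    have h1 := (hZ2 w).mp (hWmem w hw).1 g
    have h2 : g * w * g⁻¹ * w⁻¹ = (w * g * w⁻¹ * g⁻¹)⁻¹ := by group
    have h3 : g * w * g⁻¹ * w⁻¹ ∈ Subgroup.center R := by
      rw [h2]; exact inv_mem h1
    apply hZsub _ h3
    have h4 : g * w * g⁻¹ = (g * w * g⁻¹ * w⁻¹) * w := by group
    have h5 : (g * w * g⁻¹) ^ p = 1 := by
      rw [conj_pow, (hWmem w hw).2, mul_one, mul_inv_cancel]
    rw [h4, (show Commute (g * w * g⁻¹ * w⁻¹) w from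
      (Subgroup.mem_center_iff.mp h3 w).symm).mul_pow, (hWmem w hw).2, mul_one] at h5
    exact h5
  -- Z < W
  have hZltW : ∃ x₀ ∈ W, x₀ ∉ Z := by
    by_contra hcon
    push Not at hcon
    have hmaxZ : ∀ B : Subgroup R, B.Normal → IsMulCommutative B → (∀ b ∈ B, b ^ p ^ 1 = 1) →
        Z ≤ B → B = Z := by
      intro B hBn hBc hBe hZB
      by_contra hne
      obtain ⟨x, hxB, hxZ, hx⟩ := Cfsg.Agent.Lib.Helper38.exists_central_mod Z
        (Nat.card B) B hBn hZB (fun h => hne h.symm) le_rfl
      apply hxZ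
      apply hcon
      apply hWsub
      · rw [hZ2]
        intro y
        have h1 := hx y
        have h2 : x * y * x⁻¹ * y⁻¹ = (y * x * y⁻¹ * x⁻¹)⁻¹ := by group
        rw [h2]
        exact inv_mem (hZmem _ h1).1
      · have := hBe x hxB
        simpa using this
    have hEZ : E ≤ Z := by
      intro e he
      refine Cfsg.Agent.S0130.result hR 1 ?_ Z ⟨⟨fun u v => Subtype.ext (hZc u u.2 v v.2)⟩⟩
        (fun b hb => by rw [pow_one]; exact (hZmem b hb).2) hmaxZ e ?_
        (by rw [pow_one]; exact hEe e he)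
      · rw [pow_one]; exact hp
      · rw [Subgroup.mem_centralizer_iff]
        intro z hz
        exact (Subgroup.mem_center_iff.mp (hZmem z hz).1 e).symm
    exact hZE' (le_antisymm hZE hEZ)
  obtain ⟨x₀, hx₀W, hx₀Z⟩ := hZltW
  have hZltW' : Z < W := lt_of_le_of_ne hZW (fun h => hx₀Z (by rw [h]; exact hx₀W))
  have hWgt : p < Nat.card W := by
    rw [← hZcard]
    exact Cfsg.Agent.Lib.Helper1.card_lt_card_of_lt hZltW'
  have hEW : ¬ E ≤ W := by
    intro h
    apply hnN
    refine ⟨fun e he g => ?_⟩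
    have h1 := hWZ e (h he) g
    have h2 : g * e * g⁻¹ = (g * e * g⁻¹ * e⁻¹) * e := by group
    rw [h2]
    exact mul_mem (hZE h1) he
  have hWT : ¬ E ≤ Subgroup.centralizer (W : Set R) := by
    intro h
    have hWE : W ≤ E := by
      intro w hw
      apply hext w (hWmem w hw).2
      intro e he
      exact (Subgroup.mem_centralizer_iff.mp (h he) w hw)
    have hWneE : W ≠ E := by
      intro h2
      rw [h2] at hWn
      exact hnN hWn
    have := hsubE W hWE hWneE
    omega
  -- card W = p ^ 2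
  obtain ⟨e₀, he₀E, he₀Z⟩ : ∃ e₀ ∈ E, e₀ ∉ Z := by
    by_contra hcon
    push Not at hcon
    exact hZE' (le_antisymm hZE hcon)
  have hEeq : Z ⊔ Subgroup.zpowers e₀ = E := by
    have hle : Z ⊔ Subgroup.zpowers e₀ ≤ E := sup_le hZE (by rw [Subgroup.zpowers_le]; exact he₀E)
    by_contra hne
    have h1 := hsubE _ hle hne
    have h2 : Z < Z ⊔ Subgroup.zpowers e₀ := by
      refine lt_of_le_of_ne le_sup_left ?_
      intro h
      apply he₀Z
      rw [h]
      exact le_sup_right (a := Z) (Subgroup.mem_zpowers e₀)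
    have h3 := Cfsg.Agent.Lib.Helper1.card_lt_card_of_lt h2
    omega
  have hWcard : Nat.card W = p ^ 2 := by
    have h1 : Nat.card W ≤ Nat.card Z * Nat.card (W ⊓ Subgroup.centralizer {e₀} : Subgroup R) := by
      apply card_le_card_mul_card_centralizer_of_mem
      intro w hw
      have hc := hWZ w⁻¹ (inv_mem hw) e₀
      have e : w * e₀ * w⁻¹ * e₀⁻¹ = w * (e₀ * w⁻¹ * e₀⁻¹ * w⁻¹⁻¹) * w⁻¹ := by group
      rw [e]
      exact hZn.conj_mem _ hc w
    have h2 : W ⊓ Subgroup.centralizer {e₀} ≤ W ⊓ E := by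
      intro x hx
      refine ⟨hx.1, ?_⟩
      apply hext x (hWmem x hx.1).2
      have h3 : E ≤ Subgroup.centralizer {x} := by
        rw [← hEeq]
        apply sup_le
        · intro z hz
          rw [Subgroup.mem_centralizer_singleton_iff]
          exact (Subgroup.mem_center_iff.mp (hZmem z hz).1 x).symm
        · rw [Subgroup.zpowers_le, Subgroup.mem_centralizer_singleton_iff]
          exact (Subgroup.mem_centralizer_singleton_iff.mp hx.2).symm
      intro e he
      exact (Subgroup.mem_centralizer_singleton_iff.mp (h3 he)).symm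
    have h4 : Nat.card (W ⊓ E : Subgroup R) ≤ p :=
      hsubE _ inf_le_right (fun h => hEW (by rw [← h]; exact inf_le_left))
    have h5 : Nat.card (W ⊓ Subgroup.centralizer {e₀} : Subgroup R) ≤ p :=
      (Subgroup.card_le_of_le h2).trans h4
    have h6 : Nat.card W ≤ p * p := by
      calc Nat.card W ≤ Nat.card Z * Nat.card (W ⊓ Subgroup.centralizer {e₀} : Subgroup R) := h1
        _ ≤ p * p := by rw [hZcard]; exact Nat.mul_le_mul_left _ h5
    obtain ⟨k, hk⟩ := (hR.to_subgroup W).exists_card_eq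
    have hk2 : 2 ≤ k := by
      by_contra hcon
      have hk1 : k ≤ 1 := by omega
      have : p ^ k ≤ p ^ 1 := Nat.pow_le_pow_right hp'.pos hk1
      rw [pow_one] at this
      omega
    have h7 : p ^ 2 ≤ Nat.card W := by
      rw [hk]
      exact Nat.pow_le_pow_right hp'.pos hk2
    rw [pow_two] at h7 ⊢
    omega
  have hT1 : (Subgroup.centralizer (W : Set R)).index ≤ p := by
    have := Cfsg.Agent.Lib.Helper38.index_centralizer_le hR W 2 hWcard
    simpa using this
  refine ⟨hWT, hZcard, ⟨⟨IsPGroup.isMulCommutative_of_card_eq_prime_sq hWcard,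
    fun a ha => (hWmem a ha).2⟩, hWcard⟩, inferInstance, ?_⟩
  have hne1 : (Subgroup.centralizer (W : Set R)).index ≠ 1 := by
    intro h
    rw [Subgroup.index_eq_one] at h
    apply hWT
    rw [h]
    exact le_top
  obtain ⟨n, hn⟩ := hR.exists_card_eq
  have hdvd : (Subgroup.centralizer (W : Set R)).index ∣ p ^ n := by
    rw [← hn]
    exact Subgroup.index_dvd_card _
  obtain ⟨j, hj, hcj⟩ := (Nat.dvd_prime_pow hp').mp hdvd
  have hj1 : j = 1 := by
    have hj0 : j ≠ 0 := by
      intro h
      rw [h, pow_zero] at hcj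
      exact hne1 hcj
    have hjle : j ≤ 1 := by
      rw [hcj] at hT1
      by_contra hcon
      have h2 : 2 ≤ j := by omega
      have h3 : p ^ 2 ≤ p ^ j := Nat.pow_le_pow_right hp'.pos h2
      have := hp'.one_lt
      nlinarith
    omega
  rw [hcj, hj1, pow_one]

end Cfsg.Agent.S1453
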