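import Mathlib
import Cfsg.Statements.S4089

set_option autoImplicit false
open Cfsg

namespace Cfsg.Agent.S4089

open scoped Pointwise

section general

variable {X : Type*} [Group X]

theorem pCore_isPGroup' (p : ℕ) : IsPGroup p (pCore p X) :=
  Sylow.sSup_of_normal _ (fun _ hH => hH.2) (fun _ hH => hH.1)

theorem pCore_normal' (p : ℕ) : (pCore p X).Normal :=
  Subgroup.sSup_normal _ (fun _ hH => hH.1)

theorem le_pCore' {p : ℕ} {N : Subgroup X} (hN : N.Normal) (hp : IsPGroup p N) :
    N ≤ pCore p X :=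
  le_sSup ⟨hN, hp⟩

/-- In a finite group, a subgroup `H` has a largest `p`-subgroup normalized by `H`. -/
theorem exists_max_normal_pgroup [Finite X] (p : ℕ) (H : Subgroup X) :
    ∃ B : Subgroup X, B ≤ H ∧ H ≤ Subgroup.normalizer (B : Set X) ∧ IsPGroup p B ∧
      ∀ N : Subgroup X, N ≤ H → H ≤ Subgroup.normalizer (N : Set X) → IsPGroup p N → N ≤ B := by
  obtain ⟨B, -, hB⟩ := Finite.exists_le_maximal
    (p := fun B : Subgroup X => B ≤ H ∧ H ≤ Subgroup.normalizer (B : Set X) ∧ IsPGroup p B)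
    (a := ⊥) ⟨bot_le, by
      rw [Subgroup.le_normalizer_iff]
      intro h _ k hk
      rw [Subgroup.mem_bot] at hk ⊢
      rw [hk]
      group, IsPGroup.of_bot⟩
  refine ⟨B, hB.1.1, hB.1.2.1, hB.1.2.2, ?_⟩
  intro N hNH hHN hN
  have h1 : B ⊔ N ≤ H := sup_le hB.1.1 hNH
  have h2 : H ≤ Subgroup.normalizer ((B ⊔ N : Subgroup X) : Set X) := by
    rw [Subgroup.le_normalizer_iff]
    intro h hh k hk
    have hBn := hB.1.2.1 hh
    have hNn := hHN hh
    have hmap : (B ⊔ N).map (MulAut.conj h).toMonoidHom ≤ B ⊔ N := by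
      rw [Subgroup.map_sup]
      apply sup_le_sup
      · rintro _ ⟨b, hb, rfl⟩
        exact (Subgroup.mem_normalizer_iff.1 hBn b).1 hb
      · rintro _ ⟨n, hn, rfl⟩
        exact (Subgroup.mem_normalizer_iff.1 hNn n).1 hn
    exact hmap ⟨k, hk, rfl⟩
  have h3 : IsPGroup p (B ⊔ N : Subgroup X) :=
    IsPGroup.to_sup_of_normal_left' hB.1.2.2 hN (hNH.trans hB.1.2.1)
  have h4 := hB.2 (y := B ⊔ N) ⟨h1, h2, h3⟩ le_sup_left
  exact le_sup_right.trans h4

/-- A subnormal `p`-subgroup of a finite group lies in `O_p`. -/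
theorem le_pCore_of_subnormal [Finite X] {p : ℕ} {Y : Subgroup X} (hY : Y.IsSubnormal) :
    ∀ A : Subgroup X, A ≤ Y → Y ≤ Subgroup.normalizer (A : Set X) → IsPGroup p A →
      A ≤ pCore p X := by
  induction hY with
  | top =>
    intro A _ hn hA
    have : A.Normal := Subgroup.normalizer_eq_top_iff.1 (top_le_iff.1 hn)
    exact le_pCore' this hA
  | step H K h_le hSubn hN ih =>
    intro A hAH hn hA
    obtain ⟨B, hBH, hHB, hBp, hBmax⟩ := exists_max_normal_pgroup p H
    have hKH : K ≤ Subgroup.normalizer (H : Set X) :=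
      (Subgroup.normal_subgroupOf_iff_le_normalizer h_le).1 hN
    have hKB : K ≤ Subgroup.normalizer (B : Set X) := by
      rw [Subgroup.le_normalizer_iff]
      intro k hk b hb
      have hkH := hKH hk
      have hmem : k * b * k⁻¹ ∈ B.map (MulAut.conj k).toMonoidHom := ⟨b, hb, rfl⟩
      refine hBmax (B.map (MulAut.conj k).toMonoidHom) ?_ ?_ (hBp.map _) hmem
      · rintro _ ⟨b', hb', rfl⟩
        exact (Subgroup.mem_normalizer_iff.1 hkH b').1 (hBH hb')
      · rw [Subgroup.le_normalizer_iff]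
        rintro h hh _ ⟨b', hb', rfl⟩
        have h1 : k⁻¹ * h * k ∈ H := by
          have := (Subgroup.mem_normalizer_iff.1 hkH (k⁻¹ * h * k)).2
          apply this
          have : k * (k⁻¹ * h * k) * k⁻¹ = h := by group
          rw [this]
          exact hh
        have h2 := (Subgroup.mem_normalizer_iff.1 (hHB h1) b').1 hb'
        refine ⟨(k⁻¹ * h * k) * b' * (k⁻¹ * h * k)⁻¹, h2, ?_⟩
        simp only [MulEquiv.coe_toMonoidHom, MulAut.conj_apply]
        group
    exact (hBmax A hAH hn hA).trans (ih B (hBH.trans h_le) hKB hBp)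

/-- In a finite group with the normalizer condition every subgroup is subnormal. -/
theorem isSubnormal_of_nc [Finite X] (hnc : NormalizerCondition X) (H : Subgroup X) :
    H.IsSubnormal := by
  induction H using WellFoundedGT.induction with
  | ind H ih =>
    by_cases hH : H = ⊤
    · rw [hH]
      exact Subgroup.IsSubnormal.top
    · have h1 := hnc H (lt_top_iff_ne_top.2 hH)
      exact Subgroup.IsSubnormal.step H _ h1.le (ih _ h1) Subgroup.normal_in_normalizer

/-- A subgroup of `O_p` is subnormal. -/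
theorem isSubnormal_of_le_pCore [Finite X] {p : ℕ} [Fact p.Prime] {A : Subgroup X}
    (hA : A ≤ pCore p X) : A.IsSubnormal := by
  have hnil : Group.IsNilpotent (pCore p X) := (pCore_isPGroup' p).isNilpotent
  have hnc : NormalizerCondition (pCore p X) := Group.normalizerCondition_of_isNilpotent
  exact Subgroup.IsSubnormal.trans hA (isSubnormal_of_nc hnc _) (pCore_normal' p).isSubnormal

end general

section main

variable {G : Type*} [Group G] [Finite G]

/-- Normalizer condition inside a `p`-subgroup. -/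
theorem exists_normalizing {p : ℕ} [Fact p.Prime]
    (Q : Subgroup G) (hQ : IsPGroup p Q) (D : Subgroup G) (hDQ : D ≤ Q) (hne : D ≠ Q) :
    ∃ s ∈ Q, s ∉ D ∧ s ∈ Subgroup.normalizer (D : Set G) := by
  have hnil : Group.IsNilpotent Q := hQ.isNilpotent
  have hnc : NormalizerCondition Q := Group.normalizerCondition_of_isNilpotent
  have h1 : D.subgroupOf Q < ⊤ := by
    rw [lt_top_iff_ne_top, Ne, Subgroup.subgroupOf_eq_top]
    intro h
    exact hne (le_antisymm hDQ h)
  have h2 := hnc _ h1
  rw [← Subgroup.subgroupOf_normalizer_eq hDQ] at h2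
  obtain ⟨s, hs1, hs2⟩ := SetLike.exists_of_lt h2
  exact ⟨s, s.2, fun h => hs2 (Subgroup.mem_subgroupOf.2 h), Subgroup.mem_subgroupOf.1 hs1⟩

/-- A `p`-subgroup `H ≤ K` is subnormal in `K` iff it lies in a `p`-subgroup of `K` normalized
by `K`. -/
theorem subnormal_iff {p : ℕ} [Fact p.Prime] {H K : Subgroup G} (hH : IsPGroup p H)
    (hHK : H ≤ K) :
    (H.subgroupOf K).IsSubnormal ↔ ∃ R : Subgroup G, IsPGroup p R ∧ H ≤ R ∧ R ≤ K ∧
      K ≤ Subgroup.normalizer (R : Set G) := by
  constructor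
  · intro hsub
    have h1 : H.subgroupOf K ≤ pCore p K :=
      le_pCore_of_subnormal hsub _ le_rfl Subgroup.le_normalizer (hH.comap_subtype)
    refine ⟨(pCore p K).map K.subtype, (pCore_isPGroup' p).map _, ?_,
      Subgroup.map_subtype_le _, ?_⟩
    · intro h hh
      exact ⟨⟨h, hHK hh⟩, h1 (Subgroup.mem_subgroupOf.2 hh), rfl⟩
    · rw [Subgroup.le_normalizer_iff]
      rintro k hk _ ⟨r, hr, rfl⟩
      exact ⟨⟨k, hk⟩ * r * ⟨k, hk⟩⁻¹, (pCore_normal' p).conj_mem r hr ⟨k, hk⟩, rfl⟩
  · rintro ⟨R, hRp, hHR, hRK, hKR⟩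
    apply isSubnormal_of_le_pCore (p := p)
    have hn : (R.subgroupOf K).Normal :=
      (Subgroup.normal_subgroupOf_iff_le_normalizer hRK).2 hKR
    have h1 : R.subgroupOf K ≤ pCore p K := le_pCore' hn hRp.comap_subtype
    exact le_trans (Subgroup.comap_mono hHR) h1

/-- `g` subnormalizes the `p`-subgroup `H` iff `g` normalizes a `p`-subgroup containing `H`. -/
theorem mem_subnormalizer_iff {p : ℕ} [Fact p.Prime] {H : Subgroup G} (hH : IsPGroup p H)
    (g : G) :
    (H.subgroupOf (H ⊔ Subgroup.zpowers g)).IsSubnormal ↔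
      ∃ R : Subgroup G, IsPGroup p R ∧ H ≤ R ∧ g ∈ Subgroup.normalizer (R : Set G) := by
  rw [subnormal_iff hH le_sup_left]
  constructor
  · rintro ⟨R, hRp, hHR, _, hKR⟩
    exact ⟨R, hRp, hHR, hKR ((le_sup_right : Subgroup.zpowers g ≤ H ⊔ Subgroup.zpowers g)
      (Subgroup.mem_zpowers g))⟩
  · rintro ⟨R, hRp, hHR, hg⟩
    set K := H ⊔ Subgroup.zpowers g with hK
    have hKN : K ≤ Subgroup.normalizer (R : Set G) :=
      sup_le (hHR.trans Subgroup.le_normalizer) ((Subgroup.zpowers_le).2 hg)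
    refine ⟨R ⊓ K, hRp.to_le inf_le_left, le_inf hHR le_sup_left, inf_le_right, ?_⟩
    rw [Subgroup.le_normalizer_iff]
    intro k hk r hr
    exact ⟨(Subgroup.mem_normalizer_iff.1 (hKN hk) r).1 hr.1,
      K.mul_mem (K.mul_mem hk hr.2) (K.inv_mem hk)⟩

end main

/-- Let G be a finite group, p a prime and H a p-subgroup of G. Then the set of elements g of G such that H is subnormal in the subgroup generated by H and g is the union of the normalizers N_G(R) over the subgroups R of G containing H with R = O_p(N_G(R)); and this set does not change when H is replaced by the intersection of all Sylow p-subgroups of G containing H. -/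
theorem result {G : Type*} [Group G] [Finite G] (p : ℕ) [Fact p.Prime]
    (H : Subgroup G) (hH : IsPGroup p H) :
    {g : G | ((H).subgroupOf (H ⊔ Subgroup.zpowers g)).IsSubnormal} =
      {g : G | ∃ R : Subgroup G, H ≤ R ∧ (Cfsg.pCore p (Subgroup.normalizer (R : Set G))).map (Subgroup.normalizer (R : Set G)).subtype = R ∧ g ∈ Subgroup.normalizer (R : Set G)} ∧
    ∀ g : G, (((H).subgroupOf (H ⊔ Subgroup.zpowers g)).IsSubnormal ↔
      (((sInf {K : Subgroup G | ∃ Q : Sylow p G, H ≤ (Q : Subgroup G) ∧ K = (Q : Subgroup G)})).subgroupOf ((sInf {K : Subgroup G | ∃ Q : Sylow p G, H ≤ (Q : Subgroup G) ∧ K = (Q : Subgroup G)}) ⊔ Subgroup.zpowers g)).IsSubnormal) := by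
  have hOp : ∀ R : Subgroup G, IsPGroup p R →
      R ≤ (Cfsg.pCore p (Subgroup.normalizer (R : Set G))).map
        (Subgroup.normalizer (R : Set G)).subtype := by
    intro R hRp r hr
    have hn : (R.subgroupOf (Subgroup.normalizer (R : Set G))).Normal :=
      Subgroup.normal_in_normalizer
    have h1 := le_pCore' hn hRp.comap_subtype
    exact ⟨⟨r, Subgroup.le_normalizer hr⟩, h1 (Subgroup.mem_subgroupOf.2 hr), rfl⟩
  have hOpN : ∀ R : Subgroup G, Subgroup.normalizer (R : Set G) ≤
      Subgroup.normalizer (((Cfsg.pCore p (Subgroup.normalizer (R : Set G))).map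
        (Subgroup.normalizer (R : Set G)).subtype : Subgroup G) : Set G) := by
    intro R
    rw [Subgroup.le_normalizer_iff]
    rintro k hk _ ⟨r, hr, rfl⟩
    exact ⟨⟨k, hk⟩ * r * ⟨k, hk⟩⁻¹, (pCore_normal' p).conj_mem r hr ⟨k, hk⟩, rfl⟩
  have part1 : ∀ g : G, (H.subgroupOf (H ⊔ Subgroup.zpowers g)).IsSubnormal ↔
      ∃ R : Subgroup G, H ≤ R ∧ (Cfsg.pCore p (Subgroup.normalizer (R : Set G))).map
        (Subgroup.normalizer (R : Set G)).subtype = R ∧
          g ∈ Subgroup.normalizer (R : Set G) := by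
    intro g
    rw [mem_subnormalizer_iff hH]
    constructor
    · rintro ⟨R₀, hR₀p, hHR₀, hgR₀⟩
      obtain ⟨R, hR₀R, hRmax⟩ := Finite.exists_le_maximal
        (p := fun R : Subgroup G => IsPGroup p R ∧ H ≤ R ∧
          g ∈ Subgroup.normalizer (R : Set G))
        (a := R₀) ⟨hR₀p, hHR₀, hgR₀⟩
      obtain ⟨⟨hRp, hHR, hgR⟩, hmax⟩ := hRmax
      refine ⟨R, hHR, ?_, hgR⟩
      apply le_antisymm _ (hOp R hRp)
      exact hmax (y := _) ⟨(pCore_isPGroup' p).map _, hHR.trans (hOp R hRp), hOpN R hgR⟩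
        (hOp R hRp)
    · rintro ⟨R, hHR, hR, hgR⟩
      refine ⟨R, ?_, hHR, hgR⟩
      rw [← hR]
      exact (pCore_isPGroup' p).map _
  refine ⟨?_, ?_⟩
  · ext g
    exact part1 g
  · intro g
    set Hs := sInf {K : Subgroup G | ∃ Q : Sylow p G, H ≤ (Q : Subgroup G) ∧
      K = (Q : Subgroup G)} with hHs
    have hHHs : H ≤ Hs := le_sInf (by rintro K ⟨Q, hQ, rfl⟩; exact hQ)
    have hHsp : IsPGroup p Hs := by
      obtain ⟨Q, hQ⟩ := hH.exists_le_sylow
      exact Q.isPGroup'.to_le (sInf_le ⟨Q, hQ, rfl⟩)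
    constructor
    · intro hsub
      obtain ⟨R, hHR, hR, hgR⟩ := (part1 g).1 hsub
      have hRp : IsPGroup p R := by
        rw [← hR]
        exact (pCore_isPGroup' p).map _
      rw [mem_subnormalizer_iff hHsp]
      refine ⟨R, hRp, ?_, hgR⟩
      set Rs := sInf {K : Subgroup G | ∃ Q : Sylow p G, R ≤ (Q : Subgroup G) ∧
        K = (Q : Subgroup G)} with hRs
      have h1 : Hs ≤ Rs :=
        sInf_le_sInf (by rintro K ⟨Q, hQ, rfl⟩; exact ⟨Q, hHR.trans hQ, rfl⟩)
      have hRRs : R ≤ Rs := le_sInf (by rintro K ⟨Q, hQ, rfl⟩; exact hQ)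
      have hRsp : IsPGroup p Rs := by
        obtain ⟨Q, hQ⟩ := hRp.exists_le_sylow
        exact Q.isPGroup'.to_le (sInf_le ⟨Q, hQ, rfl⟩)
      have hRsR : R = Rs := by
        by_contra hne
        obtain ⟨s, hsRs, hsR, hsN⟩ := exists_normalizing Rs hRsp R hRRs hne
        apply hsR
        rw [← hR]
        let I : Subgroup (Subgroup.normalizer (R : Set G)) :=
          ⨅ T : Sylow p (Subgroup.normalizer (R : Set G)),
            (T : Subgroup (Subgroup.normalizer (R : Set G)))
        have hIn : I.Normal := by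
          refine ⟨fun x hx n => ?_⟩
          rw [Subgroup.mem_iInf] at hx ⊢
          intro T
          have h2 := hx (n⁻¹ • T)
          rw [Sylow.coe_subgroup_smul, Subgroup.mem_smul_pointwise_iff_exists] at h2
          obtain ⟨t, ht, htx⟩ := h2
          rw [MulAut.smul_def, MulAut.conj_apply] at htx
          have : n * x * n⁻¹ = t := by rw [← htx]; group
          rw [this]
          exact ht
        have hIp : IsPGroup p I := by
          obtain ⟨T⟩ : Nonempty (Sylow p (Subgroup.normalizer (R : Set G))) := inferInstance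
          exact T.isPGroup'.to_le (iInf_le _ T)
        have hI := le_pCore' hIn hIp
        refine ⟨⟨s, hsN⟩, hI ?_, rfl⟩
        rw [Subgroup.mem_iInf]
        intro T
        obtain ⟨Q, hQ⟩ := T.exists_comap_subtype_eq
        have hRQ : R ≤ Q := by
          intro r hr
          have hn : (R.subgroupOf (Subgroup.normalizer (R : Set G))).Normal :=
            Subgroup.normal_in_normalizer
          have h2 : R.subgroupOf (Subgroup.normalizer (R : Set G)) ≤ T :=
            IsPGroup.le_sylow_of_normal (N := R.subgroupOf (Subgroup.normalizer (R : Set G)))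
              (hRp.comap_subtype) T
          have h3 : (⟨r, Subgroup.le_normalizer hr⟩ : Subgroup.normalizer (R : Set G)) ∈
              (T : Subgroup (Subgroup.normalizer (R : Set G))) :=
            h2 (Subgroup.mem_subgroupOf.2 hr)
          rw [← hQ] at h3
          exact h3
        have hsQ : s ∈ (Q : Subgroup G) := (sInf_le ⟨Q, hRQ, rfl⟩ : Rs ≤ Q) hsRs
        rw [← hQ]
        exact hsQ
      rw [hRsR]
      exact h1
    · intro hsub
      rw [mem_subnormalizer_iff hHsp] at hsub
      obtain ⟨R, hRp, hHsR, hgR⟩ := hsub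
      rw [mem_subnormalizer_iff hH]
      exact ⟨R, hRp, hHHs.trans hHsR, hgR⟩

end Cfsg.Agent.S4089
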