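import Cfsg.Statements.S4088
import Cfsg.Agent.S4089

set_option autoImplicit false
set_option linter.unusedSectionVars false
set_option linter.style.haveILetI false
set_option linter.unusedVariables false
open Cfsg

namespace Cfsg.Agent.S4088

section mob

variable {α : Type*} [PartialOrder α] [WellFoundedGT α]

open Classical in
/-- The "Möbius weight towards an added top" of `x` in the finite set `S`. -/
noncomputable def mob (S : Finset α) : α → ℤ :=
  (wellFounded_gt : WellFounded (fun a b : α => a > b)).fix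
    (fun x ih => 1 - ∑ y ∈ S, if h : x < y then ih y h else 0)

open Classical in
theorem mob_eq (S : Finset α) (x : α) :
    mob S x = 1 - ∑ y ∈ S, if x < y then mob S y else 0 := by
  unfold mob
  rw [WellFounded.fix_eq]
  congr 1

open Classical in
theorem mob_sum (S : Finset α) {x : α} (hx : x ∈ S) :
    ∑ y ∈ S, (if x ≤ y then mob S y else 0) = 1 := by
  have h1 : ∀ y ∈ S, (if x ≤ y then mob S y else 0) =
      (if x = y then mob S y else 0) + (if x < y then mob S y else 0) := by
    intro y _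
    by_cases hxy : x = y
    · subst hxy; simp
    · by_cases hlt : x < y
      · simp [hxy, hlt, hlt.le]
      · have : ¬ x ≤ y := fun h => hlt (lt_of_le_of_ne h hxy)
        simp [hxy, hlt, this]
  rw [Finset.sum_congr rfl h1, Finset.sum_add_distrib, Finset.sum_ite_eq, if_pos hx, mob_eq S x]
  ring

open Classical in
theorem mob_unique (S : Finset α) (f : α → ℤ)
    (hf : ∀ x ∈ S, ∑ y ∈ S, (if x ≤ y then f y else 0) = 1) :
    ∀ x ∈ S, f x = mob S x := by
  intro x
  induction x using (wellFounded_gt : WellFounded (fun a b : α => a > b)).induction with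
  | _ x ih =>
    intro hx
    have h1 : ∀ y ∈ S, (if x ≤ y then f y else 0) =
        (if x = y then f y else 0) + (if x < y then f y else 0) := by
      intro y _
      by_cases hxy : x = y
      · subst hxy; simp
      · by_cases hlt : x < y
        · simp [hxy, hlt, hlt.le]
        · have : ¬ x ≤ y := fun h => hlt (lt_of_le_of_ne h hxy)
          simp [hxy, hlt, this]
    have h2 := hf x hx
    rw [Finset.sum_congr rfl h1, Finset.sum_add_distrib, Finset.sum_ite_eq, if_pos hx] at h2
    have h3 : ∑ y ∈ S, (if x < y then f y else 0) = ∑ y ∈ S, (if x < y then mob S y else 0) := by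
      apply Finset.sum_congr rfl
      intro y hy
      by_cases hlt : x < y
      · simp only [hlt, if_true]; exact ih y hlt hy
      · simp [hlt]
    rw [mob_eq S x, ← h3]
    linarith

open Classical in
/-- Closure lemma: a monotone deflationary retraction `c` of the part of `S` above `x` onto `S'`
with `c y = x → y = x` does not change the weight of `x`. -/
theorem mob_closure (S S' : Finset α) (x : α) (c : α → α) (hx : x ∈ S')
    (hS' : ∀ z ∈ S', z ∈ S ∧ x ≤ z ∧ c z = z)
    (hc1 : ∀ y ∈ S, x ≤ y → c y ∈ S' ∧ c y ≤ y)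
    (hc2 : ∀ y ∈ S, ∀ y' ∈ S, x ≤ y → y ≤ y' → c y ≤ c y')
    (hc3 : ∀ y ∈ S, x ≤ y → c y = x → y = x) :
    mob S x = mob S' x := by
  set f : α → ℤ := fun z => ∑ y ∈ S, if x ≤ y ∧ c y = z then mob S y else 0 with hf
  have key : ∀ z ∈ S', ∑ z' ∈ S', (if z ≤ z' then f z' else 0) = 1 := by
    intro z hz
    obtain ⟨hzS, hxz, hcz⟩ := hS' z hz
    have e1 : ∑ z' ∈ S', (if z ≤ z' then f z' else 0) =
        ∑ z' ∈ S', ∑ y ∈ S, (if c y = z' then (if x ≤ y ∧ z ≤ c y then mob S y else 0) else 0) := by
      apply Finset.sum_congr rfl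
      intro z' _
      by_cases hzz : z ≤ z'
      · rw [if_pos hzz, hf]
        apply Finset.sum_congr rfl
        intro y _
        by_cases h1 : c y = z'
        · subst h1; simp [hzz]
        · simp [h1]
      · rw [if_neg hzz]
        symm
        apply Finset.sum_eq_zero
        intro y _
        by_cases h1 : c y = z'
        · subst h1; simp [hzz]
        · simp [h1]
    rw [e1, Finset.sum_comm]
    have e2 : ∀ y ∈ S, ∑ z' ∈ S', (if c y = z' then (if x ≤ y ∧ z ≤ c y then mob S y else 0) else 0)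
        = if z ≤ y then mob S y else 0 := by
      intro y hy
      rw [Finset.sum_ite_eq]
      by_cases hzy : z ≤ y
      · have hxy : x ≤ y := hxz.trans hzy
        have h1 := hc1 y hy hxy
        have h2 : z ≤ c y := by
          have := hc2 z hzS y hy hxz hzy
          rwa [hcz] at this
        simp [h1.1, hxy, h2, hzy]
      · by_cases hxy : x ≤ y
        · have h1 := hc1 y hy hxy
          have h2 : ¬ z ≤ c y := fun h => hzy (h.trans h1.2)
          simp [h2, hzy]
        · simp [hxy, hzy]
    rw [Finset.sum_congr rfl e2]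
    exact mob_sum S hzS
  have h1 := mob_unique S' f key x hx
  rw [← h1, hf]
  obtain ⟨hxS, _, hcx⟩ := hS' x hx
  have e3 : ∀ y ∈ S, (if x ≤ y ∧ c y = x then mob S y else 0) = if x = y then mob S y else 0 := by
    intro y hy
    by_cases hxy : x = y
    · subst hxy; simp [hcx]
    · have : ¬ (x ≤ y ∧ c y = x) := fun h => hxy (hc3 y hy h.1 h.2).symm
      simp [this, hxy]
  simp only
  rw [Finset.sum_congr rfl e3, Finset.sum_ite_eq, if_pos hxS]

end mob


section grp

variable {G : Type*} [Group G] [Fintype G] (p : ℕ) [Fact p.Prime]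

/-- The `p`-subgroups between `R` and `N`. -/
noncomputable def psub (N R : Subgroup G) : Finset (Subgroup G) :=
  (Set.toFinite {K : Subgroup G | R ≤ K ∧ K ≤ N ∧ IsPGroup p K}).toFinset

theorem mem_psub {N R K : Subgroup G} : K ∈ psub p N R ↔ R ≤ K ∧ K ≤ N ∧ IsPGroup p K := by
  simp [psub]

open Classical in
/-- The `p`-subgroups between `R` and `N` normalized by `g`. -/
noncomputable def pset (N R : Subgroup G) (g : G) : Finset (Subgroup G) :=
  (psub p N R).filter (fun K => g ∈ Subgroup.normalizer (K : Set G))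

theorem mem_pset {N R K : Subgroup G} {g : G} :
    K ∈ pset p N R g ↔ (R ≤ K ∧ K ≤ N ∧ IsPGroup p K) ∧ g ∈ Subgroup.normalizer (K : Set G) := by
  simp [pset, mem_psub]

open Classical in
/-- The Möbius inverse of the subnormalizer counting function. -/
noncomputable def W (N R K : Subgroup G) : ℤ :=
  ∑ g : G, if g ∈ N ∧ g ∈ Subgroup.normalizer (K : Set G) then mob (pset p N R g) K else 0

/-- `K` is a maximal `p`-subgroup of `N`. -/
def IsMaxP (N K : Subgroup G) : Prop :=
  ∀ K' : Subgroup G, IsPGroup p K' → K' ≤ N → K ≤ K' → K' = K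

theorem sum_mob_pset {N R : Subgroup G} (hRN : R ≤ N)
    (hNR : N ≤ Subgroup.normalizer (R : Set G)) (hR : IsPGroup p R) {g : G} (hg : g ∈ N) :
    ∑ K ∈ pset p N R g, mob (pset p N R g) K = 1 := by
  classical
  have hR' : R ∈ pset p N R g := (mem_pset p).2 ⟨⟨le_rfl, hRN, hR⟩, hNR hg⟩
  have := mob_sum (pset p N R g) hR'
  rw [← this]
  apply Finset.sum_congr rfl
  intro K hK
  rw [if_pos ((mem_pset p).1 hK).1.1]

theorem sum_boole_mem (N : Subgroup G) [DecidablePred (fun g => g ∈ N)] :
    ∑ g : G, (if g ∈ N then (1 : ℤ) else 0) = (Nat.card N : ℤ) := by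
  rw [Finset.sum_boole]
  congr 1
  exact (Nat.subtype_card _ (by simp)).symm

theorem sum_W {N R : Subgroup G} (hRN : R ≤ N)
    (hNR : N ≤ Subgroup.normalizer (R : Set G)) (hR : IsPGroup p R) :
    ∑ K ∈ psub p N R, W p N R K = (Nat.card N : ℤ) := by
  classical
  unfold W
  rw [Finset.sum_comm]
  have key : ∀ g : G, ∑ K ∈ psub p N R,
      (if g ∈ N ∧ g ∈ Subgroup.normalizer (K : Set G) then mob (pset p N R g) K else 0)
        = if g ∈ N then 1 else 0 := by
    intro g
    by_cases hg : g ∈ N
    · simp only [hg, true_and, if_true]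
      rw [← sum_mob_pset p hRN hNR hR hg, pset, Finset.sum_filter]
    · simp [hg]
  rw [Finset.sum_congr rfl (fun g _ => key g)]
  exact sum_boole_mem N

theorem W_of_max {N R K : Subgroup G} (hmax : IsMaxP p N K) :
    W p N R K = (Nat.card (N ⊓ Subgroup.normalizer (K : Set G) : Subgroup G) : ℤ) := by
  classical
  unfold W
  have key : ∀ g : G,
      (if g ∈ N ∧ g ∈ Subgroup.normalizer (K : Set G) then mob (pset p N R g) K else 0)
        = if g ∈ N ⊓ Subgroup.normalizer (K : Set G) then (1 : ℤ) else 0 := by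
    intro g
    by_cases hg : g ∈ N ∧ g ∈ Subgroup.normalizer (K : Set G)
    · rw [if_pos hg, if_pos (Subgroup.mem_inf.2 hg), mob_eq]
      have h0 : ∑ y ∈ pset p N R g, (if K < y then mob (pset p N R g) y else 0) = 0 := by
        apply Finset.sum_eq_zero
        intro y hy
        have hy' := (mem_pset p).1 hy
        rw [if_neg]
        intro hlt
        exact hlt.ne' (hmax y hy'.1.2.2 hy'.1.2.1 hlt.le)
      rw [h0]; simp
    · rw [if_neg hg, if_neg (fun h => hg (Subgroup.mem_inf.1 h))]
  rw [Finset.sum_congr rfl (fun g _ => key g)]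
  exact sum_boole_mem _

theorem normalizer_inf_normalizer {K Y : Subgroup G} {g : G}
    (hgY : g ∈ Subgroup.normalizer (Y : Set G)) (hgK : g ∈ Subgroup.normalizer (K : Set G)) :
    g ∈ Subgroup.normalizer ((Y ⊓ Subgroup.normalizer (K : Set G) : Subgroup G) : Set G) := by
  rw [Subgroup.mem_normalizer_iff]
  intro h
  rw [Subgroup.mem_inf, Subgroup.mem_inf, ← (Subgroup.mem_normalizer_iff.1 hgY) h]
  constructor
  · rintro ⟨h1, h2⟩
    exact ⟨h1, mul_mem (mul_mem hgK h2) (inv_mem hgK)⟩
  · rintro ⟨h1, h2⟩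
    refine ⟨h1, ?_⟩
    have := mul_mem (mul_mem (inv_mem hgK) h2) hgK
    simpa [mul_assoc] using this

theorem normalizer_inf {A B : Subgroup G} {g : G}
    (hgA : g ∈ Subgroup.normalizer (A : Set G)) (hgB : g ∈ Subgroup.normalizer (B : Set G)) :
    g ∈ Subgroup.normalizer ((A ⊓ B : Subgroup G) : Set G) := by
  rw [Subgroup.mem_normalizer_iff]
  intro h
  rw [Subgroup.mem_inf, Subgroup.mem_inf, ← (Subgroup.mem_normalizer_iff.1 hgA) h,
    ← (Subgroup.mem_normalizer_iff.1 hgB) h]

theorem mob_base_change {N R K : Subgroup G} (hK : K ∈ psub p N R) {g : G}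
    (hgK : g ∈ Subgroup.normalizer (K : Set G)) :
    mob (pset p N R g) K = mob (pset p (N ⊓ Subgroup.normalizer (K : Set G)) K g) K := by
  obtain ⟨hRK, hKN, hKp⟩ := (mem_psub p).1 hK
  apply mob_closure (pset p N R g) (pset p (N ⊓ Subgroup.normalizer (K : Set G)) K g) K
    (fun Y => Y ⊓ Subgroup.normalizer (K : Set G))
  · exact (mem_pset p).2 ⟨⟨le_rfl, le_inf hKN Subgroup.le_normalizer, hKp⟩, hgK⟩
  · intro z hz
    obtain ⟨⟨h1, h2, h3⟩, h4⟩ := (mem_pset p).1 hz
    exact ⟨(mem_pset p).2 ⟨⟨hRK.trans h1, h2.trans inf_le_left, h3⟩, h4⟩, h1,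
      inf_eq_left.2 (h2.trans inf_le_right)⟩
  · intro y hy hKy
    obtain ⟨⟨h1, h2, h3⟩, h4⟩ := (mem_pset p).1 hy
    exact ⟨(mem_pset p).2 ⟨⟨le_inf hKy Subgroup.le_normalizer, inf_le_inf_right _ h2,
      h3.to_le inf_le_left⟩, normalizer_inf_normalizer h4 hgK⟩, inf_le_left⟩
  · intro y _ y' _ _ hyy'
    exact inf_le_inf_right _ hyy'
  · intro y hy hKy hc
    obtain ⟨⟨h1, h2, h3⟩, h4⟩ := (mem_pset p).1 hy
    by_contra hne
    obtain ⟨s, hs1, hs2, hs3⟩ :=
      Cfsg.Agent.S4089.exists_normalizing y h3 K hKy (fun h => hne h.symm)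
    have hs : s ∈ y ⊓ Subgroup.normalizer (K : Set G) := ⟨hs1, hs3⟩
    rw [hc] at hs
    exact hs2 hs

theorem W_base_change {N R K : Subgroup G} (hK : K ∈ psub p N R) :
    W p N R K = W p (N ⊓ Subgroup.normalizer (K : Set G)) K K := by
  classical
  unfold W
  apply Finset.sum_congr rfl
  intro g _
  by_cases hg : g ∈ N ∧ g ∈ Subgroup.normalizer (K : Set G)
  · rw [if_pos hg, if_pos ⟨Subgroup.mem_inf.2 hg, hg.2⟩, mob_base_change p hK hg.2]
  · rw [if_neg hg, if_neg (fun h => hg ⟨(Subgroup.mem_inf.1 h.1).1, h.2⟩)]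


theorem card_inf_normalizer_map {N : Subgroup G} (Q : Subgroup N) :
    Nat.card (N ⊓ Subgroup.normalizer ((Q.map N.subtype : Subgroup G) : Set G) : Subgroup G) =
      Nat.card (Subgroup.normalizer (Q : Set N)) := by
  have h1 : (Subgroup.normalizer ((Q.map N.subtype : Subgroup G) : Set G)).subgroupOf N =
      Subgroup.normalizer (Q : Set N) := by
    rw [Subgroup.subgroupOf_normalizer_eq (Subgroup.map_subtype_le Q)]
    have h2 : (Q.map N.subtype).subgroupOf N = Q :=
      Subgroup.comap_map_eq_self_of_injective N.subtype_injective Q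
    rw [h2]
  rw [← h1, ← Subgroup.inf_subgroupOf_left (Subgroup.normalizer ((Q.map N.subtype : Subgroup G) : Set G)) N]
  exact Nat.card_congr (Subgroup.subgroupOfEquivOfLe inf_le_left).symm.toEquiv

theorem card_normalizer_mul_card_sylow (X : Type*) [Group X] [Finite X] (Q : Sylow p X) :
    Nat.card (Subgroup.normalizer ((Q : Subgroup X) : Set X)) * Nat.card (Sylow p X) =
      Nat.card X := by
  rw [Sylow.card_eq_index_normalizer Q]
  exact Subgroup.card_mul_index _

theorem sum_card_normalizer_sylow (X : Type*) [Group X] [Finite X] [Fintype (Sylow p X)] :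
    ∑ Q : Sylow p X, (Nat.card (Subgroup.normalizer ((Q : Subgroup X) : Set X)) : ℤ) =
      Nat.card X := by
  have hs : Nat.card (Sylow p X) = Fintype.card (Sylow p X) := Nat.card_eq_fintype_card
  have hpos : 0 < Nat.card (Sylow p X) := Nat.card_pos
  have h' : ∀ Q : Sylow p X, Nat.card (Subgroup.normalizer ((Q : Subgroup X) : Set X)) =
      Nat.card X / Nat.card (Sylow p X) := fun Q =>
    (Nat.div_eq_of_eq_mul_left hpos (card_normalizer_mul_card_sylow p X Q).symm).symm
  rw [← Nat.cast_sum, Finset.sum_congr rfl (fun Q _ => h' Q), Finset.sum_const, Finset.card_univ,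
    smul_eq_mul, ← hs]
  congr 1
  apply Nat.mul_div_cancel'
  obtain ⟨Q⟩ : Nonempty (Sylow p X) := inferInstance
  exact Dvd.intro_left _ (card_normalizer_mul_card_sylow p X Q)

open Classical in
theorem sum_max {N R : Subgroup G} (hRN : R ≤ N)
    (hNR : N ≤ Subgroup.normalizer (R : Set G)) (hR : IsPGroup p R) :
    ∑ K ∈ psub p N R, (if IsMaxP p N K then
      (Nat.card (N ⊓ Subgroup.normalizer (K : Set G) : Subgroup G) : ℤ) else 0) = Nat.card N := by
  letI : Fintype (Sylow p N) := Fintype.ofFinite _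
  haveI hnorm : (Subgroup.comap N.subtype R).Normal :=
    (Subgroup.normal_subgroupOf_iff_le_normalizer hRN).2 hNR
  have hφ : ∀ Q : Sylow p N, ((Q : Subgroup N).map N.subtype) ∈ psub p N R ∧
      IsMaxP p N ((Q : Subgroup N).map N.subtype) := by
    intro Q
    refine ⟨(mem_psub p).2 ⟨?_, Subgroup.map_subtype_le _, Q.isPGroup'.map _⟩, ?_⟩
    · intro r hr
      have : (⟨r, hRN hr⟩ : N) ∈ (Q : Subgroup N) :=
        (IsPGroup.le_sylow_of_normal (hR.comap_subtype) Q) (Subgroup.mem_subgroupOf.2 hr)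
      exact ⟨⟨r, hRN hr⟩, this, rfl⟩
    · intro K' hK' hK'N hle
      have h1 : (Q : Subgroup N) ≤ K'.subgroupOf N := by
        intro q hq
        exact Subgroup.mem_subgroupOf.2 (hle ⟨q, hq, rfl⟩)
      have h2 := Q.is_maximal' (hK'.comap_subtype) h1
      rw [← h2]
      exact (Subgroup.map_subgroupOf_eq_of_le hK'N).symm
  have himg : (psub p N R).filter (IsMaxP p N) =
      Finset.univ.image (fun Q : Sylow p N => (Q : Subgroup N).map N.subtype) := by
    ext K
    simp only [Finset.mem_filter, Finset.mem_image, Finset.mem_univ, true_and]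
    constructor
    · rintro ⟨hK, hmax⟩
      obtain ⟨_, hKN, hKp⟩ := (mem_psub p).1 hK
      obtain ⟨Q, hQ⟩ := (hKp.comap_subtype (K := N)).exists_le_sylow
      refine ⟨Q, ?_⟩
      exact hmax _ (Q.isPGroup'.map _) (Subgroup.map_subtype_le _)
        (fun k hk => ⟨⟨k, hKN hk⟩, hQ (Subgroup.mem_subgroupOf.2 hk), rfl⟩)
    · rintro ⟨Q, rfl⟩
      exact hφ Q
  rw [← Finset.sum_filter, himg, Finset.sum_image]
  · rw [Finset.sum_congr rfl (fun Q _ => by rw [card_inf_normalizer_map])]
    exact sum_card_normalizer_sylow p N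
  · intro Q1 _ Q2 _ h
    exact Sylow.ext (Subgroup.map_injective N.subtype_injective h)

theorem W_eq_zero : ∀ R : Subgroup G, ∀ N : Subgroup G, R ≤ N →
    N ≤ Subgroup.normalizer (R : Set G) → IsPGroup p R →
    ∀ K ∈ psub p N R, ¬ IsMaxP p N K → W p N R K = 0 := by
  intro R
  induction R using (wellFounded_gt : WellFounded (fun a b : Subgroup G => a > b)).induction with
  | _ R ih =>
    intro N hRN hNR hR
    have hne : ∀ K ∈ psub p N R, K ≠ R → ¬ IsMaxP p N K → W p N R K = 0 := by
      intro K hK hKR hmax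
      obtain ⟨hRK, hKN, hKp⟩ := (mem_psub p).1 hK
      rw [W_base_change p hK]
      apply ih K (lt_of_le_of_ne hRK (Ne.symm hKR)) (N ⊓ Subgroup.normalizer (K : Set G))
        (le_inf hKN Subgroup.le_normalizer) inf_le_right hKp K
      · exact (mem_psub p).2 ⟨le_rfl, le_inf hKN Subgroup.le_normalizer, hKp⟩
      · intro hmax'
        apply hmax
        intro K' hK' hK'N hle
        by_contra hne
        obtain ⟨s, hs1, hs2, hs3⟩ :=
          Cfsg.Agent.S4089.exists_normalizing K' hK' K hle (fun h => hne h.symm)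
        have h1 := hmax' (K' ⊓ Subgroup.normalizer (K : Set G)) (hK'.to_le inf_le_left)
          (inf_le_inf_right _ hK'N) (le_inf hle Subgroup.le_normalizer)
        have hs : s ∈ K' ⊓ Subgroup.normalizer (K : Set G) := ⟨hs1, hs3⟩
        rw [h1] at hs
        exact hs2 hs
    intro K hK hmax
    by_cases hKR : K = R
    · classical
      subst hKR
      have h1 := sum_W p hRN hNR hR
      have h2 := sum_max p hRN hNR hR
      have h3 : ∀ K' ∈ psub p N K, W p N K K' = (if K' = K then W p N K K else 0) +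
          (if IsMaxP p N K' then
            (Nat.card (N ⊓ Subgroup.normalizer (K' : Set G) : Subgroup G) : ℤ) else 0) := by
        intro K' hK'
        by_cases e : K' = K
        · subst e; simp [hmax]
        · by_cases hm : IsMaxP p N K'
          · simp [e, hm, W_of_max p hm]
          · simp [e, hm, hne K' hK' e hm]
      rw [Finset.sum_congr rfl h3, Finset.sum_add_distrib, h2, Finset.sum_ite_eq', if_pos hK] at h1
      linarith
    · exact hne K hK hKR hmax

theorem W_eq {N R K : Subgroup G} (hRN : R ≤ N)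
    (hNR : N ≤ Subgroup.normalizer (R : Set G)) (hR : IsPGroup p R) (hK : K ∈ psub p N R)
    [Decidable (IsMaxP p N K)] :
    W p N R K = if IsMaxP p N K then
      (Nat.card (N ⊓ Subgroup.normalizer (K : Set G) : Subgroup G) : ℤ) else 0 := by
  by_cases hm : IsMaxP p N K
  · rw [if_pos hm, W_of_max p hm]
  · rw [if_neg hm, W_eq_zero p R N hRN hNR hR K hK hm]

open Classical in
theorem sum_mob_ge (N R : Subgroup G) (g : G) (H : Subgroup G) :
    ∑ K ∈ pset p N R g, (if H ≤ K then mob (pset p N R g) K else 0) =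
      if ∃ K ∈ pset p N R g, H ≤ K then 1 else 0 := by
  by_cases hex : ∃ K ∈ pset p N R g, H ≤ K
  · rw [if_pos hex]
    obtain ⟨K0, ⟨hK0, hHK0⟩, hmin⟩ :=
      exists_minimal_of_wellFoundedLT (fun K => K ∈ pset p N R g ∧ H ≤ K) hex
    have hle : ∀ K ∈ pset p N R g, H ≤ K → K0 ≤ K := by
      intro K hK hHK
      have hK0' := (mem_pset p).1 hK0
      have hK' := (mem_pset p).1 hK
      have hmem : K0 ⊓ K ∈ pset p N R g :=
        (mem_pset p).2 ⟨⟨le_inf hK0'.1.1 hK'.1.1, inf_le_left.trans hK0'.1.2.1,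
          hK0'.1.2.2.to_le inf_le_left⟩, normalizer_inf hK0'.2 hK'.2⟩
      have := hmin ⟨hmem, le_inf hHK0 hHK⟩ inf_le_left
      exact this.trans inf_le_right
    rw [← mob_sum (pset p N R g) hK0]
    apply Finset.sum_congr rfl
    intro K hK
    by_cases h : H ≤ K
    · rw [if_pos h, if_pos (hle K hK h)]
    · rw [if_neg h, if_neg (fun h' => h (hHK0.trans h'))]
  · rw [if_neg hex]
    apply Finset.sum_eq_zero
    intro K hK
    rw [if_neg (fun h => hex ⟨K, hK, h⟩)]

open Classical in
theorem card_subnormalizer_eq_sum (H : Subgroup G) (hH : IsPGroup p H) :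
    (Nat.card {g : G // (H.subgroupOf (H ⊔ Subgroup.zpowers g)).IsSubnormal} : ℤ) =
      ∑ K ∈ psub p ⊤ ⊥, (if H ≤ K then W p ⊤ ⊥ K else 0) := by
  unfold W
  have e1 : ∀ K ∈ psub p (⊤ : Subgroup G) ⊥, (if H ≤ K then ∑ g : G,
      (if g ∈ (⊤ : Subgroup G) ∧ g ∈ Subgroup.normalizer (K : Set G) then
        mob (pset p ⊤ ⊥ g) K else 0) else 0) =
      ∑ g : G, (if g ∈ Subgroup.normalizer (K : Set G) then
        (if H ≤ K then mob (pset p ⊤ ⊥ g) K else 0) else 0) := by
    intro K _
    by_cases h : H ≤ K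
    · simp [h]
    · simp [h]
  rw [Finset.sum_congr rfl e1, Finset.sum_comm]
  have e2 : ∀ g : G, ∑ K ∈ psub p (⊤ : Subgroup G) ⊥,
      (if g ∈ Subgroup.normalizer (K : Set G) then
        (if H ≤ K then mob (pset p ⊤ ⊥ g) K else 0) else 0) =
      if (H.subgroupOf (H ⊔ Subgroup.zpowers g)).IsSubnormal then 1 else 0 := by
    intro g
    rw [← Finset.sum_filter]
    have h1 := sum_mob_ge p ⊤ ⊥ g H
    change ∑ K ∈ pset p ⊤ ⊥ g, _ = _
    rw [h1]
    apply if_congr _ rfl rfl
    rw [Cfsg.Agent.S4089.mem_subnormalizer_iff hH g]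
    constructor
    · rintro ⟨K, hK, hHK⟩
      have hK' := (mem_pset p).1 hK
      exact ⟨K, hK'.1.2.2, hHK, hK'.2⟩
    · rintro ⟨K, hKp, hHK, hg⟩
      exact ⟨K, (mem_pset p).2 ⟨⟨bot_le, le_top, hKp⟩, hg⟩, hHK⟩
  rw [Finset.sum_congr rfl (fun g _ => e2 g), Finset.sum_boole]
  congr 1
  exact Nat.subtype_card _ (by simp)


theorem card_normalizer_sylow_eq (P Q : Sylow p G) :
    Nat.card (Subgroup.normalizer ((Q : Subgroup G) : Set G)) =
      Nat.card (Subgroup.normalizer ((P : Subgroup G) : Set G)) := by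
  have h1 := card_normalizer_mul_card_sylow p G Q
  have h2 := card_normalizer_mul_card_sylow p G P
  have hpos : 0 < Nat.card (Sylow p G) := Nat.card_pos
  exact Nat.eq_of_mul_eq_mul_right hpos (h1.trans h2.symm)

open Classical in
/-- Casolo's formula: first equality. -/
theorem card_subnormalizer (H : Subgroup G) (hH : IsPGroup p H) (P : Sylow p G) :
    Nat.card {g : G // (H.subgroupOf (H ⊔ Subgroup.zpowers g)).IsSubnormal} =
      Nat.card {Q : Sylow p G // H ≤ (Q : Subgroup G)} *
        Nat.card (Subgroup.normalizer ((P : Subgroup G) : Set G)) := by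
  letI : Fintype (Sylow p G) := Fintype.ofFinite _
  have h0 := card_subnormalizer_eq_sum p H hH
  have hbot : (⊤ : Subgroup G) ≤ Subgroup.normalizer ((⊥ : Subgroup G) : Set G) := by
    intro g _
    rw [Subgroup.mem_normalizer_iff]
    intro h
    simp [Subgroup.mem_bot]
  have e1 : ∀ K ∈ psub p (⊤ : Subgroup G) ⊥, (if H ≤ K then W p ⊤ ⊥ K else 0) =
      if IsMaxP p ⊤ K then
        (if H ≤ K then (Nat.card (Subgroup.normalizer (K : Set G)) : ℤ) else 0) else 0 := by
    intro K hK
    rw [W_eq p bot_le hbot IsPGroup.of_bot hK, top_inf_eq]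
    by_cases h : H ≤ K <;> by_cases hm : IsMaxP p ⊤ K <;> simp [h, hm]
  rw [Finset.sum_congr rfl e1, ← Finset.sum_filter] at h0
  have himg : (psub p (⊤ : Subgroup G) ⊥).filter (IsMaxP p ⊤) =
      Finset.univ.image (fun Q : Sylow p G => (Q : Subgroup G)) := by
    ext K
    simp only [Finset.mem_filter, Finset.mem_image, Finset.mem_univ, true_and]
    constructor
    · rintro ⟨hK, hmax⟩
      obtain ⟨_, _, hKp⟩ := (mem_psub p).1 hK
      obtain ⟨Q, hQ⟩ := hKp.exists_le_sylow
      exact ⟨Q, hmax _ Q.isPGroup' le_top hQ⟩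
    · rintro ⟨Q, rfl⟩
      exact ⟨(mem_psub p).2 ⟨bot_le, le_top, Q.isPGroup'⟩,
        fun K' hK' _ hle => Q.is_maximal' hK' hle⟩
  rw [himg, Finset.sum_image (fun Q1 _ Q2 _ h => Sylow.ext h)] at h0
  have e2 : ∀ Q ∈ (Finset.univ : Finset (Sylow p G)),
      (if H ≤ (Q : Subgroup G) then
        (Nat.card (Subgroup.normalizer ((Q : Subgroup G) : Set G)) : ℤ) else 0) =
      (if H ≤ (Q : Subgroup G) then 1 else 0) *
        (Nat.card (Subgroup.normalizer ((P : Subgroup G) : Set G)) : ℤ) := by
    intro Q _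
    by_cases h : H ≤ (Q : Subgroup G)
    · rw [if_pos h, if_pos h, one_mul, card_normalizer_sylow_eq p P Q]
    · simp [h]
  rw [Finset.sum_congr rfl e2, ← Finset.sum_mul, Finset.sum_boole] at h0
  have e3 : (Finset.univ.filter (fun Q : Sylow p G => H ≤ (Q : Subgroup G))).card =
      Nat.card {Q : Sylow p G // H ≤ (Q : Subgroup G)} := (Nat.subtype_card _ (by simp)).symm
  rw [e3] at h0
  exact_mod_cast h0

theorem mem_sylow_smul {g x : G} {P : Sylow p G} :
    x ∈ ((g • P : Sylow p G) : Subgroup G) ↔ g⁻¹ * x * g ∈ (P : Subgroup G) := by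
  rw [Sylow.coe_subgroup_smul, Subgroup.mem_pointwise_smul_iff_inv_smul_mem]
  simp [MulAut.smul_def]

theorem mem_map_conj {g x : G} {H : Subgroup G} :
    x ∈ H.map (MulAut.conj g).toMonoidHom ↔ g⁻¹ * x * g ∈ H := by
  rw [Subgroup.mem_map_equiv, MulAut.conj_symm_apply]

theorem card_conj_fiber (H : Subgroup G) (g₀ : G) :
    Nat.card {g : G // H.map (MulAut.conj g).toMonoidHom = H.map (MulAut.conj g₀).toMonoidHom} =
      Nat.card (Subgroup.normalizer (H : Set G)) := by
  apply Nat.card_congr
  refine (Equiv.mulLeft g₀⁻¹).subtypeEquiv ?_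
  intro g
  simp only [Equiv.coe_mulLeft]
  rw [Subgroup.mem_normalizer_iff'']
  constructor
  · intro heq h
    have h1 : g₀ * h * g₀⁻¹ ∈ H.map (MulAut.conj g₀).toMonoidHom ↔ h ∈ H := by
      rw [mem_map_conj]; simp [mul_assoc]
    have h2 : g₀ * h * g₀⁻¹ ∈ H.map (MulAut.conj g).toMonoidHom ↔
        (g₀⁻¹ * g)⁻¹ * h * (g₀⁻¹ * g) ∈ H := by
      rw [mem_map_conj]; simp [mul_assoc]
    rw [← h1, ← heq, h2]
  · intro hn
    ext x
    rw [mem_map_conj, mem_map_conj, hn (g₀⁻¹ * x * g₀)]
    simp [mul_assoc]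

theorem card_sylow_fiber (P Q : Sylow p G) :
    Nat.card {g : G // g⁻¹ • P = Q} =
      Nat.card (Subgroup.normalizer ((P : Subgroup G) : Set G)) := by
  obtain ⟨g₀, rfl⟩ := MulAction.exists_smul_eq G P Q
  apply Nat.card_congr
  refine (Equiv.mulRight g₀).subtypeEquiv ?_
  intro g
  simp only [Equiv.coe_mulRight]
  have h1 : g * g₀ ∈ Subgroup.normalizer ((P : Subgroup G) : Set G) ↔ (g * g₀) • P = P :=
    Sylow.smul_eq_iff_mem_normalizer.symm
  rw [h1, mul_smul, smul_eq_iff_eq_inv_smul, inv_inv]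
  exact eq_comm

open Classical in
/-- The double count behind the second equality. -/
theorem card_sylow_ge_mul (H : Subgroup G) (P : Sylow p G) :
    Nat.card {Q : Sylow p G // H ≤ (Q : Subgroup G)} *
        Nat.card (Subgroup.normalizer ((P : Subgroup G) : Set G)) =
      Nat.card {K : Subgroup G // K ≤ (P : Subgroup G) ∧
          ∃ g : G, K = H.map (MulAut.conj g).toMonoidHom} *
        Nat.card (Subgroup.normalizer (H : Set G)) := by
  letI : Fintype (Sylow p G) := Fintype.ofFinite _
  have hcond : ∀ g : G, H ≤ ((g⁻¹ • P : Sylow p G) : Subgroup G) ↔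
      H.map (MulAut.conj g).toMonoidHom ≤ (P : Subgroup G) := by
    intro g
    constructor
    · intro h x hx
      rw [mem_map_conj] at hx
      have := h hx
      rw [mem_sylow_smul] at this
      simpa [mul_assoc] using this
    · intro h x hx
      rw [mem_sylow_smul]
      have : g * x * g⁻¹ ∈ H.map (MulAut.conj g).toMonoidHom := by
        rw [mem_map_conj]; simpa [mul_assoc] using hx
      simpa using h this
  -- count T in two ways
  have hA : ∑ g : G, (if H ≤ ((g⁻¹ • P : Sylow p G) : Subgroup G) then 1 else 0) =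
      Nat.card {Q : Sylow p G // H ≤ (Q : Subgroup G)} *
        Nat.card (Subgroup.normalizer ((P : Subgroup G) : Set G)) := by
    have e1 : ∀ g : G, (if H ≤ ((g⁻¹ • P : Sylow p G) : Subgroup G) then 1 else 0) =
        ∑ Q : Sylow p G, (if g⁻¹ • P = Q then (if H ≤ (Q : Subgroup G) then 1 else 0) else 0) := by
      intro g
      rw [Finset.sum_ite_eq, if_pos (Finset.mem_univ _)]
    rw [Finset.sum_congr rfl (fun g _ => e1 g), Finset.sum_comm]
    have e2 : ∀ Q : Sylow p G, ∑ g : G,
        (if g⁻¹ • P = Q then (if H ≤ (Q : Subgroup G) then 1 else 0) else 0) =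
        (if H ≤ (Q : Subgroup G) then 1 else 0) *
          Nat.card (Subgroup.normalizer ((P : Subgroup G) : Set G)) := by
      intro Q
      by_cases h : H ≤ (Q : Subgroup G)
      · simp only [h, if_true, one_mul]
        rw [Finset.sum_boole, ← card_sylow_fiber p P Q]
        exact_mod_cast (Nat.subtype_card _ (by simp)).symm
      · simp [h]
    rw [Finset.sum_congr rfl (fun Q _ => e2 Q), ← Finset.sum_mul, Finset.sum_boole]
    congr 1
    exact_mod_cast (Nat.subtype_card _ (by simp)).symm
  set 𝒜 : Finset (Subgroup G) := (Set.toFinite {K : Subgroup G | K ≤ (P : Subgroup G) ∧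
      ∃ g : G, K = H.map (MulAut.conj g).toMonoidHom}).toFinset with h𝒜
  have hB : ∑ g : G, (if H ≤ ((g⁻¹ • P : Sylow p G) : Subgroup G) then 1 else 0) =
      Nat.card {K : Subgroup G // K ≤ (P : Subgroup G) ∧
          ∃ g : G, K = H.map (MulAut.conj g).toMonoidHom} *
        Nat.card (Subgroup.normalizer (H : Set G)) := by
    have e1 : ∀ g : G, (if H ≤ ((g⁻¹ • P : Sylow p G) : Subgroup G) then 1 else 0) =
        ∑ K ∈ 𝒜, (if H.map (MulAut.conj g).toMonoidHom = K then 1 else 0) := by
      intro g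
      rw [Finset.sum_ite_eq]
      apply if_congr _ rfl rfl
      rw [hcond g, h𝒜, Set.Finite.mem_toFinset]
      exact ⟨fun h => ⟨h, g, rfl⟩, fun h => h.1⟩
    rw [Finset.sum_congr rfl (fun g _ => e1 g), Finset.sum_comm]
    have e2 : ∀ K ∈ 𝒜, ∑ g : G, (if H.map (MulAut.conj g).toMonoidHom = K then 1 else 0) =
        Nat.card (Subgroup.normalizer (H : Set G)) := by
      intro K hK
      rw [h𝒜, Set.Finite.mem_toFinset] at hK
      obtain ⟨_, g₀, rfl⟩ := hK
      rw [Finset.sum_boole, ← card_conj_fiber H g₀]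
      simp only [Nat.cast_id]
      exact (Nat.subtype_card (Finset.univ.filter (fun g : G =>
        H.map (MulAut.conj g).toMonoidHom = H.map (MulAut.conj g₀).toMonoidHom))
        (fun x => by rw [Finset.mem_filter]; simp)).symm
    rw [Finset.sum_congr rfl e2, Finset.sum_const, smul_eq_mul]
    congr 1
    exact (Nat.subtype_card _ (by simp [h𝒜])).symm
  exact hA.symm.trans hB

end grp


/-- Let G be a finite group, p a prime dividing the order of G, H a p-subgroup of G and P a Sylow p-subgroup of G. Call the subnormalizer of H the set of elements g of G such that H is subnormal in the subgroup generated by H and g. Then the number of elements of the subnormalizer of H equals the number of Sylow p-subgroups of G containing H times the order of N_G(P), and also equals the number of conjugates of H contained in P times the order of N_G(H). -/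
theorem result {G : Type*} [Group G] [Finite G] (p : ℕ) [Fact p.Prime]
    (hp : p ∣ Nat.card G) (H : Subgroup G) (hH : IsPGroup p H) (P : Sylow p G) :
    Nat.card {g : G // ((H).subgroupOf (H ⊔ Subgroup.zpowers g)).IsSubnormal} =
        Nat.card {Q : Sylow p G // H ≤ (Q : Subgroup G)} * Nat.card (Subgroup.normalizer ((P : Subgroup G) : Set G)) ∧
    Nat.card {g : G // ((H).subgroupOf (H ⊔ Subgroup.zpowers g)).IsSubnormal} =
        Nat.card {K : Subgroup G // K ≤ (P : Subgroup G) ∧ ∃ g : G, K = H.map (MulAut.conj g).toMonoidHom} *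
          Nat.card (Subgroup.normalizer (H : Set G)) := by
  letI : Fintype G := Fintype.ofFinite G
  have h1 := card_subnormalizer p H hH P
  exact ⟨h1, h1.trans (card_sylow_ge_mul p H P)⟩

end Cfsg.Agent.S4088
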