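import Cfsg.Statements.S4090
import Cfsg.Agent.S4088

set_option autoImplicit false
set_option linter.unusedSectionVars false
set_option linter.style.haveILetI false
set_option linter.unusedVariables false
open scoped BigOperators
open Cfsg

namespace Cfsg.Agent.S4090

universe u

section generic

theorem card_eq_mul_of_fiber {A B : Type*} [Finite A] [Finite B] (f : A → B) (c : ℕ)
    (h : ∀ b, Nat.card {a // f a = b} = c) : Nat.card A = Nat.card B * c := by
  classical
  haveI := Fintype.ofFinite B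
  rw [Nat.card_congr (Equiv.sigmaFiberEquiv f).symm, Nat.card_sigma]
  simp [h, Nat.card_eq_fintype_card]

theorem card_subtype_eq_mul {A B : Type*} [Finite A] [Finite B] {pA : A → Prop} {pB : B → Prop}
    (φ : A → B) (hφ : ∀ a, pA a → pB (φ a)) (c : ℕ)
    (hc : ∀ b, pB b → Nat.card {a : A // φ a = b ∧ pA a} = c) :
    Nat.card {a // pA a} = Nat.card {b // pB b} * c := by
  apply card_eq_mul_of_fiber (fun a : {a // pA a} => (⟨φ a.1, hφ a.1 a.2⟩ : {b // pB b})) c
  intro b
  rw [← hc b.1 b.2]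
  apply Nat.card_congr
  exact
    { toFun := fun a => ⟨a.1.1, congrArg Subtype.val a.2, a.1.2⟩
      invFun := fun x => ⟨⟨x.1, x.2.2⟩, Subtype.ext x.2.1⟩
      left_inv := fun a => rfl
      right_inv := fun x => rfl }

end generic

section grp

variable {G : Type u} [Group G] [Finite G] (p : ℕ) [Fact p.Prime]

theorem mem_sylow_smul {g x : G} {P : Sylow p G} :
    x ∈ ((g • P : Sylow p G) : Subgroup G) ↔ g⁻¹ * x * g ∈ (P : Subgroup G) := by
  rw [Sylow.coe_subgroup_smul, Subgroup.mem_pointwise_smul_iff_inv_smul_mem]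
  simp [MulAut.smul_def]

theorem le_sylow_smul_iff {g : G} {H : Subgroup G} {P : Sylow p G} :
    H ≤ ((g • P : Sylow p G) : Subgroup G) ↔ ∀ h ∈ H, g⁻¹ * h * g ∈ (P : Subgroup G) := by
  constructor
  · intro hle h hh
    exact (mem_sylow_smul p).1 (hle hh)
  · intro hle h hh
    exact (mem_sylow_smul p).2 (hle h hh)

theorem card_sylow_fiber (P Q : Sylow p G) :
    Nat.card {g : G // g • P = Q} =
      Nat.card (Subgroup.normalizer ((P : Subgroup G) : Set G)) := by
  obtain ⟨g₀, rfl⟩ := MulAction.exists_smul_eq G P Q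
  apply Nat.card_congr
  refine (Equiv.mulLeft g₀⁻¹).subtypeEquiv ?_
  intro g
  simp only [Equiv.coe_mulLeft]
  have h1 : g₀⁻¹ * g ∈ Subgroup.normalizer ((P : Subgroup G) : Set G) ↔ (g₀⁻¹ * g) • P = P :=
    Sylow.smul_eq_iff_mem_normalizer.symm
  rw [h1, mul_smul, inv_smul_eq_iff]

/-- Casolo's formula in the form `|S_G(H)| = #{g : H ≤ g P g⁻¹}`. -/
theorem card_subnormalizer_eq (H : Subgroup G) (hH : IsPGroup p H) (P : Sylow p G) :
    Nat.card {g : G // (H.subgroupOf (H ⊔ Subgroup.zpowers g)).IsSubnormal} =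
      Nat.card {g : G // H ≤ ((g • P : Sylow p G) : Subgroup G)} := by
  letI : Fintype G := Fintype.ofFinite G
  rw [Cfsg.Agent.S4088.card_subnormalizer p H hH P]
  symm
  apply card_subtype_eq_mul (pA := fun g : G => H ≤ ((g • P : Sylow p G) : Subgroup G))
    (pB := fun Q : Sylow p G => H ≤ (Q : Subgroup G)) (fun g : G => g • P) (fun g hg => hg)
  intro Q hQ
  rw [← card_sylow_fiber p P Q]
  apply Nat.card_congr
  exact Equiv.subtypeEquivRight (fun g => ⟨fun h => h.1, fun h => ⟨h, h ▸ hQ⟩⟩)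

variable (N : Subgroup G) [N.Normal]

theorem card_fiber_mk (b : G ⧸ N) :
    Nat.card {x : G // (QuotientGroup.mk' N) x = b} = Nat.card N := by
  obtain ⟨g, rfl⟩ := QuotientGroup.mk'_surjective N b
  apply Nat.card_congr
  refine (Equiv.mulLeft g⁻¹).subtypeEquiv ?_
  intro x
  simp only [Equiv.coe_mulLeft, QuotientGroup.mk'_apply]
  rw [eq_comm, QuotientGroup.eq]

theorem card_preimage_mk (S : Set (G ⧸ N)) :
    Nat.card {g : G // (QuotientGroup.mk' N) g ∈ S} = Nat.card {b : G ⧸ N // b ∈ S} * Nat.card N := by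
  apply card_subtype_eq_mul (pA := fun g : G => (QuotientGroup.mk' N) g ∈ S)
    (pB := fun b : G ⧸ N => b ∈ S) (QuotientGroup.mk' N) (fun g hg => hg)
  intro b hb
  rw [← card_fiber_mk N b]
  apply Nat.card_congr
  exact Equiv.subtypeEquivRight (fun g => ⟨fun h => h.1, fun h => ⟨h, h ▸ hb⟩⟩)

/-- transfer of the condition `H ≤ g • P` to the quotient. -/
theorem map_le_smul_iff (H : Subgroup G) (P : Sylow p G) (g : G) :
    H.map (QuotientGroup.mk' N) ≤
      (((QuotientGroup.mk' N g) • P.mapSurjective (QuotientGroup.mk'_surjective N) :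
        Sylow p (G ⧸ N)) : Subgroup (G ⧸ N)) ↔
      ∀ h ∈ H, g⁻¹ * h * g ∈ (P : Subgroup G) ⊔ N := by
  rw [le_sylow_smul_iff]
  have key : ∀ y : G, (QuotientGroup.mk' N) y ∈
      ((P.mapSurjective (QuotientGroup.mk'_surjective N) : Sylow p (G ⧸ N)) : Subgroup (G ⧸ N)) ↔
      y ∈ (P : Subgroup G) ⊔ N := by
    intro y
    rw [Sylow.coe_mapSurjective, ← Subgroup.mem_comap, Subgroup.comap_map_eq, QuotientGroup.ker_mk']
  constructor
  · intro h1 h hh
    have := h1 _ (Subgroup.mem_map_of_mem _ hh)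
    rw [← map_inv, ← map_mul, ← map_mul, key] at this
    exact this
  · rintro h1 _ ⟨h, hh, rfl⟩
    rw [← map_inv, ← map_mul, ← map_mul, key]
    exact h1 h hh


/-- A `p`-subgroup of `PN` is conjugate into `P` by an element of `N`. -/
theorem exists_conj_le (P : Sylow p G) (H₁ : Subgroup G) (hH₁ : IsPGroup p H₁)
    (hle : H₁ ≤ (P : Subgroup G) ⊔ N) : ∃ n ∈ N, ∀ h ∈ H₁, n⁻¹ * h * n ∈ (P : Subgroup G) := by
  set Y : Subgroup G := (P : Subgroup G) ⊔ N with hY
  have hPY : (P : Subgroup G) ≤ Y := le_sup_left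
  obtain ⟨Q, hQ⟩ := (hH₁.comap_subtype (K := Y)).exists_le_sylow
  obtain ⟨y, hy⟩ := MulAction.exists_smul_eq Y (P.subtype hPY) Q
  have hyG : (y : G) ∈ ((N ⊔ (P : Subgroup G) : Subgroup G) : Set G) := by
    rw [sup_comm]; exact y.2
  rw [Subgroup.normal_mul, Set.mem_mul] at hyG
  obtain ⟨n, hn, q, hq, hnq⟩ := hyG
  refine ⟨n, hn, fun h hh => ?_⟩
  have h1 : (⟨h, hle hh⟩ : Y) ∈ (Q : Subgroup Y) := hQ (Subgroup.mem_subgroupOf.2 hh)
  rw [← hy, mem_sylow_smul, Sylow.coe_subtype, Subgroup.mem_subgroupOf] at h1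
  have h2 : (y : G)⁻¹ * h * (y : G) ∈ (P : Subgroup G) := by simpa using h1
  rw [← hnq] at h2
  have h3 : n⁻¹ * h * n = q * ((n * q)⁻¹ * h * (n * q)) * q⁻¹ := by group
  rw [h3]
  exact mul_mem (mul_mem hq h2) (inv_mem hq)

theorem tcard_pstep (H : Subgroup G) (P : Sylow p G) (hN : IsPGroup p N) :
    Nat.card {g : G // H ≤ ((g • P : Sylow p G) : Subgroup G)} =
      Nat.card {b : G ⧸ N // H.map (QuotientGroup.mk' N) ≤
        ((b • P.mapSurjective (QuotientGroup.mk'_surjective N) : Sylow p (G ⧸ N)) :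
          Subgroup (G ⧸ N))} * Nat.card N := by
  have hNP : N ≤ (P : Subgroup G) := hN.le_sylow_of_normal P
  have hsup : (P : Subgroup G) ⊔ N = P := sup_eq_left.2 hNP
  apply card_subtype_eq_mul (pA := fun g : G => H ≤ ((g • P : Sylow p G) : Subgroup G))
    (pB := fun b : G ⧸ N => H.map (QuotientGroup.mk' N) ≤
        ((b • P.mapSurjective (QuotientGroup.mk'_surjective N) : Sylow p (G ⧸ N)) :
          Subgroup (G ⧸ N))) (QuotientGroup.mk' N)
  · intro g hg
    rw [map_le_smul_iff]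
    intro h hh
    exact Subgroup.mem_sup_left ((le_sylow_smul_iff p).1 hg h hh)
  · intro b hb
    rw [← card_fiber_mk N b]
    apply Nat.card_congr
    refine Equiv.subtypeEquivRight (fun g => ⟨fun h => h.1, fun h => ⟨h, ?_⟩⟩)
    subst h
    rw [map_le_smul_iff, hsup] at hb
    exact (le_sylow_smul_iff p).2 hb

theorem tcard_pprime_step (H : Subgroup G) (hH : IsPGroup p H) (P : Sylow p G)
    (hN : (Nat.card N).Coprime p) :
    Nat.card {g : G // H ≤ ((g • P : Sylow p G) : Subgroup G)} =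
      Nat.card {b : G ⧸ N // H.map (QuotientGroup.mk' N) ≤
        ((b • P.mapSurjective (QuotientGroup.mk'_surjective N) : Sylow p (G ⧸ N)) :
          Subgroup (G ⧸ N))} *
        Nat.card {u : G // u ∈ N ∧ ∀ h ∈ H, h * u * h⁻¹ * u⁻¹ ∈ (⊥ : Subgroup G)} := by
  have hPN : (P : Subgroup G) ⊓ N = ⊥ := by
    apply disjoint_iff.1
    apply Subgroup.disjoint_of_coprime_natCard
    obtain ⟨k, hk⟩ := (IsPGroup.iff_card.1 P.isPGroup')
    rw [hk]
    exact Nat.Coprime.pow_left k hN.symm
  apply card_subtype_eq_mul (pA := fun g : G => H ≤ ((g • P : Sylow p G) : Subgroup G))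
    (pB := fun b : G ⧸ N => H.map (QuotientGroup.mk' N) ≤
        ((b • P.mapSurjective (QuotientGroup.mk'_surjective N) : Sylow p (G ⧸ N)) :
          Subgroup (G ⧸ N))) (QuotientGroup.mk' N)
  · intro g hg
    rw [map_le_smul_iff]
    intro h hh
    exact Subgroup.mem_sup_left ((le_sylow_smul_iff p).1 hg h hh)
  · intro b hb
    obtain ⟨g, rfl⟩ := QuotientGroup.mk'_surjective N b
    rw [map_le_smul_iff] at hb
    obtain ⟨n, hn, hnP⟩ := exists_conj_le p N P (H.map (MulAut.conj g⁻¹).toMonoidHom)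
      (hH.map _) (by
        rintro _ ⟨h, hh, rfl⟩
        simpa using hb h hh)
    have hx₀ : ∀ h ∈ H, (g * n)⁻¹ * h * (g * n) ∈ (P : Subgroup G) := by
      intro h hh
      have := hnP (g⁻¹ * h * g) ⟨h, hh, by simp⟩
      simpa [mul_assoc] using this
    have hn1 : ((n : G) : G ⧸ N) = 1 := (QuotientGroup.eq_one_iff n).2 hn
    apply Nat.card_congr
    refine (Equiv.mulRight (g * n)⁻¹).subtypeEquiv ?_
    intro x
    simp only [Equiv.coe_mulRight]
    have hmem : (QuotientGroup.mk' N) x = (QuotientGroup.mk' N) g ↔ x * (g * n)⁻¹ ∈ N := by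
      rw [← QuotientGroup.eq_one_iff]
      simp only [QuotientGroup.mk'_apply, QuotientGroup.mk_mul, QuotientGroup.mk_inv, hn1, mul_one]
      rw [mul_inv_eq_one]
    rw [hmem, le_sylow_smul_iff]
    constructor
    · rintro ⟨hc, hx⟩
      refine ⟨hc, fun h hh => ?_⟩
      rw [Subgroup.mem_bot]
      set x₀ := g * n with hx₀def
      set c := x * x₀⁻¹ with hcdef
      have hxc : x = c * x₀ := by rw [hcdef]; group
      have hk1 : x₀⁻¹ * (h⁻¹ * c⁻¹ * h * c) * x₀ ∈ (P : Subgroup G) := by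
        have e : x₀⁻¹ * (h⁻¹ * c⁻¹ * h * c) * x₀ = (x₀⁻¹ * h * x₀)⁻¹ * (x⁻¹ * h * x) := by
          rw [hxc]; group
        rw [e]
        exact mul_mem (inv_mem (hx₀ h hh)) (hx h hh)
      have hk2 : x₀⁻¹ * (h⁻¹ * c⁻¹ * h * c) * x₀ ∈ N := by
        have h0 : h⁻¹ * c⁻¹ * h * c ∈ N := by
          have h1 : h⁻¹ * c⁻¹ * h ∈ N := by
            have := ‹N.Normal›.conj_mem c⁻¹ (inv_mem hc) h⁻¹
            simpa using this
          exact mul_mem h1 hc
        have := ‹N.Normal›.conj_mem _ h0 x₀⁻¹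
        simpa using this
      have hk3 : x₀⁻¹ * (h⁻¹ * c⁻¹ * h * c) * x₀ = 1 := by
        have : x₀⁻¹ * (h⁻¹ * c⁻¹ * h * c) * x₀ ∈ (P : Subgroup G) ⊓ N := ⟨hk1, hk2⟩
        rwa [hPN, Subgroup.mem_bot] at this
      have hk4 : h⁻¹ * c⁻¹ * h * c = 1 := by
        have : h⁻¹ * c⁻¹ * h * c = x₀ * (x₀⁻¹ * (h⁻¹ * c⁻¹ * h * c) * x₀) * x₀⁻¹ := by group
        rw [this, hk3]; group
      have : h * c * h⁻¹ * c⁻¹ = h * c * (h⁻¹ * c⁻¹ * h * c) * (h * c)⁻¹ := by group
      rw [this, hk4]; group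
    · rintro ⟨hc, hcent⟩
      refine ⟨hc, fun h hh => ?_⟩
      have h1 := hcent h hh
      rw [Subgroup.mem_bot, mul_inv_eq_one, mul_inv_eq_iff_eq_mul] at h1
      have h2 : x⁻¹ * h * x =
          (g * n)⁻¹ * ((x * (g * n)⁻¹)⁻¹ * (h * (x * (g * n)⁻¹))) * (g * n) := by group
      rw [h2, h1]
      have h3 : (x * (g * n)⁻¹)⁻¹ * (x * (g * n)⁻¹ * h) = h := by group
      rw [h3]
      exact hx₀ h hh


theorem mem_map_mk_iff (X : Subgroup G) (hX : N ≤ X) (y : G) :
    (QuotientGroup.mk' N) y ∈ X.map (QuotientGroup.mk' N) ↔ y ∈ X := by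
  rw [← Subgroup.mem_comap, Subgroup.comap_map_eq, QuotientGroup.ker_mk', sup_eq_left.2 hX]

theorem card_map_mk_mul (A : Subgroup G) (hNA : N ≤ A) :
    Nat.card A = Nat.card (A.map (QuotientGroup.mk' N)) * Nat.card N := by
  refine Eq.trans ?_ (card_preimage_mk N
    ((A.map (QuotientGroup.mk' N) : Subgroup (G ⧸ N)) : Set (G ⧸ N)))
  apply Nat.card_congr
  refine Equiv.subtypeEquivRight (fun g => ?_)
  rw [SetLike.mem_coe, mem_map_mk_iff N A hNA]

theorem card_cent_mk_mul (H A B : Subgroup G) (hNA : N ≤ A) (hNB : N ≤ B) :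
    Nat.card {u : G // u ∈ B ∧ ∀ h ∈ H, h * u * h⁻¹ * u⁻¹ ∈ A} =
      Nat.card {v : G ⧸ N // v ∈ B.map (QuotientGroup.mk' N) ∧
        ∀ k ∈ H.map (QuotientGroup.mk' N), k * v * k⁻¹ * v⁻¹ ∈ A.map (QuotientGroup.mk' N)} *
        Nat.card N := by
  refine Eq.trans ?_ (card_preimage_mk N {v : G ⧸ N | v ∈ B.map (QuotientGroup.mk' N) ∧
        ∀ k ∈ H.map (QuotientGroup.mk' N), k * v * k⁻¹ * v⁻¹ ∈ A.map (QuotientGroup.mk' N)})
  apply Nat.card_congr
  refine Equiv.subtypeEquivRight (fun u => ?_)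
  rw [Set.mem_ofPred_eq, mem_map_mk_iff N B hNB]
  constructor
  · rintro ⟨hu, hc⟩
    refine ⟨hu, ?_⟩
    rintro _ ⟨h, hh, rfl⟩
    rw [← map_inv, ← map_inv, ← map_mul, ← map_mul, ← map_mul, mem_map_mk_iff N A hNA]
    exact hc h hh
  · rintro ⟨hu, hc⟩
    refine ⟨hu, fun h hh => ?_⟩
    have := hc _ (Subgroup.mem_map_of_mem _ hh)
    rw [← map_inv, ← map_inv, ← map_mul, ← map_mul, ← map_mul, mem_map_mk_iff N A hNA] at this
    exact this

end grp

theorem main (p : ℕ) [Fact p.Prime] (n : ℕ) : ∀ (G : Type u) [Group G] [Finite G] (H : Subgroup G)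
    (hH : IsPGroup p H) (P : Sylow p G)
    (M : Fin (n + 1) → Subgroup G) (h0 : M 0 = ⊥) (hn : M (Fin.last n) = ⊤) (hmono : Monotone M)
    (hnormal : ∀ i, (M i).Normal)
    (hfac : ∀ i : Fin n, (∃ m : ℕ, (M i.castSucc).relIndex (M i.succ) = p ^ m) ∨
      ((M i.castSucc).relIndex (M i.succ)).Coprime p),
    Nat.card {g : G // H ≤ ((g • P : Sylow p G) : Subgroup G)} =
      p ^ (Nat.card G).factorization p *
        ∏ i : Fin n, (if ((M i.castSucc).relIndex (M i.succ)).Coprime p then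
          Nat.card {u : G // u ∈ M i.succ ∧ ∀ h ∈ H, h * u * h⁻¹ * u⁻¹ ∈ M i.castSucc} /
            Nat.card (M i.castSucc)
          else 1) := by
  induction n with
  | zero =>
    intro G _ _ H hH P M h0 hn hmono hnormal hfac
    have hbt : (⊥ : Subgroup G) = ⊤ := by rw [← h0, ← hn]; rfl
    haveI : Subsingleton (Subgroup G) := subsingleton_of_bot_eq_top hbt
    haveI : Subsingleton G := Subgroup.subsingleton_iff.1 inferInstance
    rw [Nat.card_of_subsingleton (⟨1, le_of_eq (Subsingleton.elim _ _)⟩ :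
      {g : G // H ≤ ((g • P : Sylow p G) : Subgroup G)}), Nat.card_of_subsingleton (1 : G)]
    simp
  | succ n ih =>
    intro G _ _ H hH P M h0 hn hmono hnormal hfac
    set N : Subgroup G := M (0 : Fin (n + 1)).succ with hNdef
    haveI hNn : N.Normal := hnormal _
    have hM0 : M (0 : Fin (n + 1)).castSucc = ⊥ := by rw [Fin.castSucc_zero]; exact h0
    set M' : Fin (n + 1) → Subgroup (G ⧸ N) := fun j => (M j.succ).map (QuotientGroup.mk' N)
      with hM'
    have hN_le : ∀ j : Fin (n + 1), N ≤ M j.succ := fun j =>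
      hmono (Fin.succ_le_succ_iff.2 (Fin.zero_le j))
    have h0' : M' 0 = ⊥ := by
      show (M (0 : Fin (n + 1)).succ).map (QuotientGroup.mk' N) = ⊥
      exact QuotientGroup.map_mk'_self N
    have hn' : M' (Fin.last n) = ⊤ := by
      show (M (Fin.last n).succ).map (QuotientGroup.mk' N) = ⊤
      rw [Fin.succ_last, hn]
      exact Subgroup.map_top_of_surjective _ (QuotientGroup.mk'_surjective N)
    have hmono' : Monotone M' := fun a b hab =>
      Subgroup.map_mono (hmono (Fin.succ_le_succ_iff.2 hab))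
    have hnormal' : ∀ j, (M' j).Normal := fun j =>
      (hnormal _).map _ (QuotientGroup.mk'_surjective N)
    have hrel : ∀ j : Fin n, (M' j.castSucc).relIndex (M' j.succ) =
        (M j.succ.castSucc).relIndex (M j.succ.succ) := by
      intro j
      show ((M j.castSucc.succ).map (QuotientGroup.mk' N)).relIndex
        ((M j.succ.succ).map (QuotientGroup.mk' N)) = _
      rw [Subgroup.relIndex_map_map, QuotientGroup.ker_mk', sup_eq_left.2 (hN_le _),
        sup_eq_left.2 (hN_le _), Fin.succ_castSucc]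
    have hfac' : ∀ j : Fin n, (∃ m, (M' j.castSucc).relIndex (M' j.succ) = p ^ m) ∨
        ((M' j.castSucc).relIndex (M' j.succ)).Coprime p := by
      intro j; rw [hrel j]; exact hfac j.succ
    have IH := ih (G ⧸ N) (H.map (QuotientGroup.mk' N)) (hH.map _)
      (P.mapSurjective (QuotientGroup.mk'_surjective N)) M' h0' hn' hmono' hnormal' hfac'
    have hF : ∀ j : Fin n, (if ((M' j.castSucc).relIndex (M' j.succ)).Coprime p then
          Nat.card {u : G ⧸ N // u ∈ M' j.succ ∧ ∀ h ∈ H.map (QuotientGroup.mk' N),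
            h * u * h⁻¹ * u⁻¹ ∈ M' j.castSucc} / Nat.card (M' j.castSucc) else 1) =
        (if ((M j.succ.castSucc).relIndex (M j.succ.succ)).Coprime p then
          Nat.card {u : G // u ∈ M j.succ.succ ∧ ∀ h ∈ H, h * u * h⁻¹ * u⁻¹ ∈ M j.succ.castSucc} /
            Nat.card (M j.succ.castSucc) else 1) := by
      intro j
      rw [hrel j]
      split_ifs with hc
      · have hNA : N ≤ M j.succ.castSucc := by rw [← Fin.succ_castSucc]; exact hN_le _
        have e1 := card_cent_mk_mul N H (M j.succ.castSucc) (M j.succ.succ) hNA (hN_le _)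
        have e2 := card_map_mk_mul N (M j.succ.castSucc) hNA
        rw [e1, e2, Nat.mul_div_mul_right _ _ Nat.card_pos]
        simp only [hM', Fin.succ_castSucc]
      · rfl
    have hcardG : Nat.card G = Nat.card (G ⧸ N) * Nat.card N :=
      Subgroup.card_eq_card_quotient_mul_card_subgroup N
    have hrel0 : (M (0 : Fin (n + 1)).castSucc).relIndex (M (0 : Fin (n + 1)).succ) =
        Nat.card N := by
      rw [hM0, Subgroup.relIndex_bot_left]
    have hpp : p.Prime := Fact.out
    rw [Fin.prod_univ_succ, Finset.prod_congr rfl (fun j _ => (hF j).symm), ← hNdef]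
    by_cases hc : ((M (0 : Fin (n + 1)).castSucc).relIndex (M (0 : Fin (n + 1)).succ)).Coprime p
    · rw [if_pos hc]
      rw [hrel0] at hc
      have hv : (Nat.card G).factorization p = (Nat.card (G ⧸ N)).factorization p := by
        rw [hcardG, Nat.factorization_mul Nat.card_pos.ne' Nat.card_pos.ne', Finsupp.add_apply,
          Nat.factorization_eq_zero_of_not_dvd ((Nat.Prime.coprime_iff_not_dvd hpp).1 hc.symm),
          add_zero]
      rw [tcard_pprime_step p N H hH P hc, IH, hv, hM0, Subgroup.card_bot, Nat.div_one]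
      ring
    · rw [if_neg hc]
      rcases hfac 0 with ⟨m, hm⟩ | hcop
      · rw [hrel0] at hm
        have hNp : IsPGroup p N := IsPGroup.of_card hm
        have hv : (Nat.card G).factorization p = (Nat.card (G ⧸ N)).factorization p + m := by
          rw [hcardG, Nat.factorization_mul Nat.card_pos.ne' Nat.card_pos.ne', Finsupp.add_apply,
            hm, Nat.Prime.factorization_pow hpp, Finsupp.single_eq_same]
        rw [tcard_pstep p N H P hNp, IH, hv, pow_add, hm]
        ring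
      · exact absurd hcop hc


/-- Let G be a finite p-solvable group, H a p-subgroup of G and P a Sylow p-subgroup, and fix a chain of normal subgroups 1 = M₀ ≤ M₁ ≤ ⋯ ≤ Mₙ = G of G each of whose factors is a p-group or a p'-group. Then the number of elements g of G such that H is subnormal in the subgroup generated by H and g equals the order of P times the product, over the factors Mᵢ₊₁/Mᵢ of order prime to p, of the order of the centralizer of H in Mᵢ₊₁/Mᵢ (counted as the number of u ∈ Mᵢ₊₁ with [h, u] ∈ Mᵢ for all h ∈ H, divided by the order of Mᵢ). -/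
theorem result {G : Type*} [Group G] [Finite G] (p : ℕ) [Fact p.Prime]
    (hG : Cfsg.IsPSolvable p G) (H : Subgroup G) (hH : IsPGroup p H) (P : Sylow p G)
    (n : ℕ) (M : Fin (n + 1) → Subgroup G) (h0 : M 0 = ⊥) (hn : M (Fin.last n) = ⊤) (hmono : Monotone M)
    (hnormal : ∀ i, (M i).Normal)
    (hfac : ∀ i : Fin n, (∃ m : ℕ, (M i.castSucc).relIndex (M i.succ) = p ^ m) ∨ ((M i.castSucc).relIndex (M i.succ)).Coprime p) :
    Nat.card {g : G // ((H).subgroupOf (H ⊔ Subgroup.zpowers g)).IsSubnormal} =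
      Nat.card (P : Subgroup G) *
        ∏ i : Fin n, (if ((M i.castSucc).relIndex (M i.succ)).Coprime p then
          Nat.card {u : G // u ∈ M i.succ ∧ ∀ h ∈ H, h * u * h⁻¹ * u⁻¹ ∈ M i.castSucc} / Nat.card (M i.castSucc)
          else 1) := by
  rw [card_subnormalizer_eq p H hH P, main p n G H hH P M h0 hn hmono hnormal hfac,
    Sylow.card_eq_multiplicity]

end Cfsg.Agent.S4090
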