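import Mathlib
import Cfsg.Statements.S0580

set_option autoImplicit false
open Cfsg

namespace Cfsg.Agent.S0580

/-- if the normalizer of a Sylow `p`-subgroup lies in `M`, the index of `M` is `1` mod `p` -/
theorem index_modEq_one {G : Type*} [Group G] [Finite G] (p : ℕ) [Fact p.Prime] (P : Sylow p G)
    (M : Subgroup G) (hM : Subgroup.normalizer (P : Set G) ≤ M) : M.index ≡ 1 [MOD p] := by
  have hPM : (P : Subgroup G) ≤ M := Subgroup.le_normalizer.trans hM
  have h1 : Nat.card (Sylow p G) = (Subgroup.normalizer (P : Set G)).index :=
    P.card_eq_index_normalizer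
  have h2 : Nat.card (Sylow p M) = (Subgroup.normalizer ((P.subtype hPM : Sylow p M) : Set M)).index :=
    (P.subtype hPM).card_eq_index_normalizer
  have h3 : Subgroup.normalizer ((P.subtype hPM : Sylow p M) : Set M)
      = (Subgroup.normalizer (P : Set G)).subgroupOf M := by
    exact (Subgroup.subgroupOf_normalizer_eq hPM).symm
  have h4 : (Subgroup.normalizer (P : Set G)).relIndex M * M.index
      = (Subgroup.normalizer (P : Set G)).index := Subgroup.relIndex_mul_index hM
  have h5 : Nat.card (Sylow p M) * M.index = Nat.card (Sylow p G) := by
    rw [h1, h2, h3, ← h4]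
    rfl
  have m1 : Nat.card (Sylow p G) ≡ 1 [MOD p] := card_sylow_modEq_one p G
  have m2 : Nat.card (Sylow p M) ≡ 1 [MOD p] := card_sylow_modEq_one p M
  have m3 : Nat.card (Sylow p M) * M.index ≡ 1 * M.index [MOD p] := Nat.ModEq.mul_right _ m2
  rw [h5, one_mul] at m3
  exact m3.symm.trans m1

/-- the induction -/
theorem aux (n : ℕ) : ∀ (G : Type*) [Group G] [Finite G], Nat.card G = n →
    (∀ M : Subgroup G, IsCoatom M → M.index.Prime) → Group.IsSolvable G := by
  induction n using Nat.strong_induction_on with
  | _ n ih =>
    intro G _ _ hn h
    by_cases htriv : Nat.card G = 1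
    · have : Subsingleton G := (Nat.card_eq_one_iff_unique.mp htriv).1
      infer_instance
    have hpos : 0 < Nat.card G := Nat.card_pos
    have hne : (Nat.card G).primeFactors.Nonempty := by
      rw [Nat.nonempty_primeFactors]
      omega
    set p := (Nat.card G).primeFactors.max' hne with hp
    have hpmem : p ∈ (Nat.card G).primeFactors := Finset.max'_mem _ hne
    have hpp : p.Prime := Nat.prime_of_mem_primeFactors hpmem
    have hpdvd : p ∣ Nat.card G := Nat.dvd_of_mem_primeFactors hpmem
    have : Fact p.Prime := ⟨hpp⟩
    obtain ⟨P⟩ : Nonempty (Sylow p G) := Sylow.nonempty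
    have hPbot : (P : Subgroup G) ≠ ⊥ := P.ne_bot_of_dvd_card hpdvd
    -- P is normal
    have hPnormal : (P : Subgroup G).Normal := by
      rw [← Subgroup.normalizer_eq_top_iff]
      by_contra hN
      obtain ⟨M, hMco, hNM⟩ := (eq_top_or_exists_le_coatom (Subgroup.normalizer (P : Set G))).resolve_left hN
      have hr := h M hMco
      have hmod := index_modEq_one p P M hNM
      have hrdvd : M.index ∣ Nat.card G := M.index_dvd_card
      have hrle : M.index ≤ p := Finset.le_max' _ _ (Nat.mem_primeFactors.mpr ⟨hr, hrdvd, hpos.ne'⟩)
      have h1 : M.index % p = 1 % p := hmod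
      rw [Nat.mod_eq_of_lt (hpp.one_lt)] at h1
      rcases lt_or_eq_of_le hrle with hlt | heq
      · rw [Nat.mod_eq_of_lt hlt] at h1
        exact hr.ne_one h1
      · rw [heq, Nat.mod_self] at h1
        exact absurd h1 (by norm_num)
    -- the quotient
    have hcard : Nat.card (G ⧸ (P : Subgroup G)) < n := by
      rw [← hn, ← Subgroup.index_eq_card]
      have h1 := (P : Subgroup G).card_mul_index
      have h2 : 1 < Nat.card (P : Subgroup G) := by
        rw [Subgroup.one_lt_card_iff_ne_bot]
        exact hPbot
      have h3 : 0 < (P : Subgroup G).index := Nat.pos_of_ne_zero Subgroup.index_ne_zero_of_finite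
      nlinarith
    have hquot : ∀ M : Subgroup (G ⧸ (P : Subgroup G)), IsCoatom M → M.index.Prime := by
      intro M hM
      have hsurj : Function.Surjective (QuotientGroup.mk' (P : Subgroup G)) :=
        QuotientGroup.mk'_surjective _
      have hco : IsCoatom (M.comap (QuotientGroup.mk' (P : Subgroup G))) := by
        constructor
        · intro htop
          apply hM.1
          rw [← Subgroup.map_comap_eq_self_of_surjective hsurj M, htop,
            Subgroup.map_top_of_surjective _ hsurj]
        · intro K hK
          have hker : (QuotientGroup.mk' (P : Subgroup G)).ker ≤ K :=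
            le_trans (Subgroup.ker_le_comap _ _) hK.le
          have hlt : M < K.map (QuotientGroup.mk' (P : Subgroup G)) := by
            refine lt_of_le_of_ne ?_ ?_
            · rw [← Subgroup.map_comap_eq_self_of_surjective hsurj M]
              exact Subgroup.map_mono hK.le
            · intro heq
              apply hK.ne
              rw [heq, Subgroup.comap_map_eq_self hker]
          have htop := hM.2 _ hlt
          rw [← Subgroup.comap_map_eq_self hker, htop, Subgroup.comap_top]
      have := h _ hco
      rwa [Subgroup.index_comap_of_surjective _ hsurj] at this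
    have hsolQ : Group.IsSolvable (G ⧸ (P : Subgroup G)) := ih _ hcard _ rfl hquot
    have hnil : Group.IsNilpotent (P : Subgroup G) := P.isPGroup'.isNilpotent
    have hsolP : Group.IsSolvable (P : Subgroup G) := inferInstance
    exact Group.isSolvable_of_ker_le_range (P : Subgroup G).subtype
      (QuotientGroup.mk' (P : Subgroup G)) (by simp)

/-- If every maximal subgroup of a finite group has prime index, then the group is solvable. -/
theorem result {G : Type*} [Group G] [Finite G] (h : ∀ M : Subgroup G, IsCoatom M → M.index.Prime) : Group.IsSolvable G := by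
  exact aux (Nat.card G) G rfl h

end Cfsg.Agent.S0580
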