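import Cfsg.Statements.S2352

set_option autoImplicit false
open Cfsg

namespace Cfsg.Agent.S2352

open Equiv

/-- Residual finiteness of the free group, in the form needed: a non-trivial word acts
non-trivially on a finite set. -/
theorem exists_perm_rep (w : FreeGroup ℕ) (hw : w ≠ 1) :
    ∃ (S : Finset (FreeGroup ℕ)) (σ : ℕ → Perm S), FreeGroup.lift σ w ≠ 1 := by
  classical
  set L := w.toWord with hL
  set S : Finset (FreeGroup ℕ) :=
    Finset.image (fun k => FreeGroup.mk (L.drop k)) (Finset.range (L.length + 1)) with hS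
  have hmem : ∀ k, FreeGroup.mk (L.drop k) ∈ S := by
    intro k
    rw [hS, Finset.mem_image]
    by_cases hk : k ≤ L.length
    · exact ⟨k, Finset.mem_range.mpr (by omega), rfl⟩
    · refine ⟨L.length, Finset.mem_range.mpr (by omega), ?_⟩
      rw [List.drop_length, List.drop_eq_nil_of_le (by omega)]
  have h1 : (1 : FreeGroup ℕ) ∈ S := by
    have := hmem L.length
    rwa [List.drop_length, ← FreeGroup.one_eq_mk] at this
  -- the permutations
  have hex : ∀ i : ℕ, ∃ g : S ≃ S, ∀ s : S, FreeGroup.of i * (s : FreeGroup ℕ) ∈ S →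
      ((g s : S) : FreeGroup ℕ) = FreeGroup.of i * (s : FreeGroup ℕ) := by
    intro i
    have hcard : Fintype.card S = S.card := Fintype.card_coe S
    have hmaps : Set.MapsTo (fun s : S => FreeGroup.of i * (s : FreeGroup ℕ))
        {s : S | FreeGroup.of i * (s : FreeGroup ℕ) ∈ S} (S : Set (FreeGroup ℕ)) := by
      intro s hs
      exact hs
    have hinj : Set.InjOn (fun s : S => FreeGroup.of i * (s : FreeGroup ℕ))
        {s : S | FreeGroup.of i * (s : FreeGroup ℕ) ∈ S} := by
      intro s _ s' _ h
      exact Subtype.ext (mul_left_cancel h)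
    obtain ⟨g, hg⟩ := Set.MapsTo.exists_equiv_extend_of_card_eq hcard hmaps hinj
    exact ⟨g, fun s hs => hg s hs⟩
  choose σ hσ using hex
  refine ⟨S, σ, ?_⟩
  have key : ∀ L' : List (ℕ × Bool), (∀ k, FreeGroup.mk (L'.drop k) ∈ S) →
      (((FreeGroup.lift σ (FreeGroup.mk L')) ⟨1, h1⟩ : S) : FreeGroup ℕ) = FreeGroup.mk L' := by
    intro L'
    induction L' with
    | nil =>
      intro _
      rw [← FreeGroup.one_eq_mk, map_one]
      rfl
    | cons a L'' ih =>
      intro hk
      have hk'' : ∀ k, FreeGroup.mk (L''.drop k) ∈ S := fun k => by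
        have := hk (k + 1)
        simpa using this
      have ih' := ih hk''
      have hsplit : (FreeGroup.mk (a :: L'') : FreeGroup ℕ) = FreeGroup.mk [a] * FreeGroup.mk L'' := by
        rw [FreeGroup.mul_mk]; rfl
      have h0 : (FreeGroup.mk (a :: L'') : FreeGroup ℕ) ∈ S := by simpa using hk 0
      have h0' : (FreeGroup.mk L'' : FreeGroup ℕ) ∈ S := by simpa using hk'' 0
      have hs'' : (FreeGroup.lift σ (FreeGroup.mk L'')) ⟨1, h1⟩ = ⟨FreeGroup.mk L'', h0'⟩ :=
        Subtype.ext ih'
      rw [hsplit, map_mul, Perm.mul_apply, hs'']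
      obtain ⟨i, b⟩ := a
      cases b
      · -- inverse letter
        have hm : (FreeGroup.mk [(i, false)] : FreeGroup ℕ) = (FreeGroup.of i)⁻¹ := by
          rw [FreeGroup.of, FreeGroup.inv_mk]; rfl
        rw [hm, map_inv, FreeGroup.lift_apply_of]
        have hr : (FreeGroup.of i)⁻¹ * FreeGroup.mk L'' ∈ S := by
          rw [← hm, FreeGroup.mul_mk]; exact h0
        have h2 : σ i ⟨(FreeGroup.of i)⁻¹ * FreeGroup.mk L'', hr⟩ = ⟨FreeGroup.mk L'', h0'⟩ := by
          apply Subtype.ext
          rw [hσ i ⟨_, hr⟩ (by simpa using h0')]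
          simp
        rw [← h2]; simp
      · have hm : (FreeGroup.mk [(i, true)] : FreeGroup ℕ) = FreeGroup.of i := rfl
        rw [hm, FreeGroup.lift_apply_of]
        have hr : FreeGroup.of i * FreeGroup.mk L'' ∈ S := by
          rw [← hm, FreeGroup.mul_mk]; exact h0
        rw [hσ i ⟨_, h0'⟩ hr]
  have hfin := key L hmem
  rw [hL, FreeGroup.mk_toWord] at hfin
  intro h
  rw [h] at hfin
  exact hw hfin.symm

/-- an injective homomorphism from the permutations of a finite type into a large alternating group. -/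
theorem exists_inj_hom (α : Type) [Fintype α] [DecidableEq α] (n : ℕ) (hn : 2 * Fintype.card α ≤ n) :
    ∃ ψ : Perm α →* alternatingGroup (Fin n), Function.Injective ψ := by
  classical
  have hcard : Fintype.card (α ⊕ α) ≤ Fintype.card (Fin n) := by
    rw [Fintype.card_sum, Fintype.card_fin]; omega
  obtain ⟨ι⟩ := Function.Embedding.nonempty_of_card_le hcard
  let ψ₀ : Perm α →* Perm (Fin n) :=
    (Perm.viaEmbeddingHom ι).comp ((Perm.sumCongrHom α α).comp
      ((MonoidHom.id (Perm α)).prod (MonoidHom.id (Perm α))))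
  have hsign : ∀ σ : Perm α, ψ₀ σ ∈ alternatingGroup (Fin n) := by
    intro σ
    rw [Perm.mem_alternatingGroup]
    change Perm.sign (Perm.viaEmbedding (Perm.sumCongr σ σ) ι) = 1
    rw [Perm.viaEmbedding, Perm.sign_extendDomain, Perm.sign_sumCongr, Int.units_mul_self]
  have hinj₀ : Function.Injective ψ₀ := by
    intro σ τ h
    have h1 := Perm.viaEmbeddingHom_injective ι h
    have h2 := Perm.sumCongrHom_injective h1
    exact (Prod.ext_iff.mp h2).1
  refine ⟨ψ₀.codRestrict _ hsign, ?_⟩
  intro σ τ h
  apply hinj₀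
  exact congrArg Subtype.val h

/-- A non-trivial law holds in only finitely many alternating groups: for every non-trivial element w of the free group on countably many generators there is N such that for all n ≥ N some substitution of elements of the alternating group of degree n into w is not the identity. -/
theorem result (w : FreeGroup ℕ) (hw : w ≠ 1) :
    ∃ N : ℕ, ∀ n : ℕ, N ≤ n → ∃ f : ℕ → alternatingGroup (Fin n), FreeGroup.lift f w ≠ 1 := by
  classical
  obtain ⟨S, σ, hσ⟩ := exists_perm_rep w hw
  refine ⟨2 * Fintype.card S, fun n hn => ?_⟩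
  obtain ⟨ψ, hψ⟩ := exists_inj_hom S n hn
  refine ⟨fun i => ψ (σ i), ?_⟩
  have hcomp : FreeGroup.lift (fun i => ψ (σ i)) w = ψ (FreeGroup.lift σ w) := by
    have : FreeGroup.lift (fun i => ψ (σ i)) = ψ.comp (FreeGroup.lift σ) := by
      ext i
      simp
    rw [this]
    rfl
  rw [hcomp]
  intro h
  apply hσ
  apply hψ
  rw [h, map_one]

end Cfsg.Agent.S2352
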