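import Cfsg.Statements.S4295
import Cfsg.Agent.Lib.Helper71.Frob2

set_option autoImplicit false
open Cfsg

namespace Cfsg.Agent.S4295

open Cfsg.Agent.Lib.Helper71

/-- the map out of the quaternion group determined by `A`, `X` -/
def qlift {M : Type*} [Monoid M] (A X : M) : QuaternionGroup 2 → M
  | QuaternionGroup.a i => A ^ i.val
  | QuaternionGroup.xa i => X * A ^ i.val

theorem val_add4 : ∀ i j : ZMod (2 * 2), (i + j).val = (i.val + j.val) % 4 := by decide
theorem val_sub4 : ∀ i j : ZMod (2 * 2), (j - i).val = (3 * i.val + j.val) % 4 := by decide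
theorem val_two4 : ∀ i j : ZMod (2 * 2),
    (((2 : ℕ) : ZMod (2 * 2)) + j - i).val = (2 + (3 * i.val + j.val)) % 4 := by decide

theorem qlift_mul {M : Type*} [Monoid M] (A X : M) (hA : A ^ 4 = 1) (hX : X * X = A ^ 2)
    (hAX : A * X = X * A ^ 3) (x y : QuaternionGroup 2) :
    qlift A X (x * y) = qlift A X x * qlift A X y := by
  have hpow : ∀ k : ℕ, A ^ k * X = X * A ^ (3 * k) := by
    intro k
    induction k with
    | zero => simp
    | succ k ih =>
      rw [pow_succ, mul_assoc, hAX, ← mul_assoc, ih, mul_assoc, ← pow_add]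
      congr 2
  have hmod : ∀ k : ℕ, A ^ (k % 4) = A ^ k := fun k => (pow_eq_pow_mod k hA).symm
  rcases x with i | i <;> rcases y with j | j
  · rw [QuaternionGroup.a_mul_a]
    simp only [qlift]
    rw [val_add4, hmod, pow_add]
  · rw [QuaternionGroup.a_mul_xa]
    simp only [qlift]
    rw [val_sub4, hmod, ← mul_assoc, hpow, mul_assoc, ← pow_add]
  · rw [QuaternionGroup.xa_mul_a]
    simp only [qlift]
    rw [val_add4, hmod, pow_add, mul_assoc]
  · rw [QuaternionGroup.xa_mul_xa]
    simp only [qlift]
    rw [val_two4, hmod, mul_assoc, ← mul_assoc (A ^ i.val), hpow, mul_assoc, ← pow_add,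
      ← mul_assoc, hX, ← pow_add]

/-- the monoid hom out of the quaternion group of order 8 determined by `A`, `X` -/
def qliftHom {M : Type*} [Monoid M] (A X : M) (hA : A ^ 4 = 1) (hX : X * X = A ^ 2)
    (hAX : A * X = X * A ^ 3) : QuaternionGroup 2 →* M where
  toFun := qlift A X
  map_one' := by
    rw [QuaternionGroup.one_def]
    simp [qlift]
  map_mul' := qlift_mul A X hA hX hAX

/-- fixed-point-free quaternion actions on finite abelian groups with `n` elements -/
def QAct (n : ℕ) : Prop :=
  ∃ (N : Type) (_ : AddCommGroup N) (_ : Finite N) (φ : QuaternionGroup 2 →* AddMonoid.End N),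
    Nat.card N = n ∧ ∀ v : N, φ (QuaternionGroup.a 2) v = -v

theorem qact_prime (p : ℕ) [hp : Fact p.Prime] : QAct (p * p) := by
  obtain ⟨a, b, hab⟩ := ZMod.sq_add_sq p (-1)
  let A : AddMonoid.End (ZMod p × ZMod p) :=
    AddMonoidHom.mk' (fun v => (a * v.1 + b * v.2, b * v.1 - a * v.2))
      (by intro v w; ext <;> simp <;> ring)
  let X : AddMonoid.End (ZMod p × ZMod p) :=
    AddMonoidHom.mk' (fun v => (-v.2, v.1))
      (by intro v w; ext <;> simp <;> ring)
  have hAv : ∀ v, A v = (a * v.1 + b * v.2, b * v.1 - a * v.2) := fun v => rfl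
  have hXv : ∀ v, X v = (-v.2, v.1) := fun v => rfl
  have hA2 : ∀ v, (A ^ 2) v = -v := by
    intro v
    rw [pow_two, AddMonoid.End.coe_mul, Function.comp_apply, hAv, hAv]
    ext
    · simp only [Prod.fst_neg]; linear_combination v.1 * hab
    · simp only [Prod.snd_neg]; linear_combination v.2 * hab
  have hA4 : A ^ 4 = 1 := by
    ext v
    · rw [show (4 : ℕ) = 2 + 2 from rfl, pow_add, AddMonoid.End.coe_mul, Function.comp_apply, hA2, hA2]
      simp
    · rw [show (4 : ℕ) = 2 + 2 from rfl, pow_add, AddMonoid.End.coe_mul, Function.comp_apply, hA2, hA2]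
      simp
  have hX2 : X * X = A ^ 2 := by
    refine DFunLike.ext _ _ (fun v => ?_)
    rw [hA2, AddMonoid.End.coe_mul, Function.comp_apply, hXv, hXv]
    rfl
  have hAX : A * X = X * A ^ 3 := by
    refine DFunLike.ext _ _ (fun v => ?_)
    rw [show (3 : ℕ) = 2 + 1 from rfl, pow_add, pow_one, AddMonoid.End.coe_mul,
      AddMonoid.End.coe_mul, AddMonoid.End.coe_mul, Function.comp_apply, Function.comp_apply,
      Function.comp_apply, hA2, hXv, hAv, hAv, hXv]
    ext
    · simp only [Prod.fst_neg, Prod.snd_neg]; ring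
    · simp only [Prod.fst_neg, Prod.snd_neg]; ring
  refine ⟨ZMod p × ZMod p, inferInstance, inferInstance, qliftHom A X hA4 hX2 hAX, ?_, ?_⟩
  · rw [Nat.card_prod, Nat.card_zmod]
  · intro v
    show (A ^ (2 : ZMod (2 * 2)).val) v = -v
    exact hA2 v

theorem qact_mul {m n : ℕ} (hm : QAct m) (hn : QAct n) : QAct (m * n) := by
  obtain ⟨N₁, i1, i2, φ₁, h1, h1'⟩ := hm
  obtain ⟨N₂, j1, j2, φ₂, h2, h2'⟩ := hn
  refine ⟨N₁ × N₂, inferInstance, inferInstance,
    { toFun := fun h => AddMonoidHom.prodMap (φ₁ h) (φ₂ h)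
      map_one' := by
        refine DFunLike.ext _ _ (fun v => ?_)
        rw [map_one, map_one]
        rfl
      map_mul' := by
        intro x y
        refine DFunLike.ext _ _ (fun v => ?_)
        rw [map_mul, map_mul]
        rfl }, ?_, ?_⟩
  · rw [Nat.card_prod, h1, h2]
  · intro v
    show ((φ₁ (QuaternionGroup.a 2)) v.1, (φ₂ (QuaternionGroup.a 2)) v.2) = -v
    rw [h1', h2']
    rfl

theorem qact_sq : ∀ k : ℕ, Odd k → 1 < k → QAct (k * k) := by
  intro k
  induction k using Nat.strong_induction_on with
  | _ k ih =>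
    intro hodd hk
    have hp := Nat.minFac_prime (by omega : k ≠ 1)
    have : Fact (Nat.minFac k).Prime := ⟨hp⟩
    obtain ⟨c, hc⟩ := Nat.minFac_dvd k
    by_cases hc1 : c = 1
    · rw [hc1, mul_one] at hc
      rw [hc]
      exact qact_prime _
    · have hcpos : 0 < c := by
        rcases Nat.eq_zero_or_pos c with h | h
        · rw [h, mul_zero] at hc; omega
        · exact h
      have hclt : c < k := by
        have h2 := hp.two_le
        nlinarith
      have hcodd : Odd c := Odd.of_dvd_nat hodd (Dvd.intro_left _ hc.symm)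
      have := qact_mul (qact_prime (Nat.minFac k)) (ih c hclt hcodd (by omega))
      have e : k * k = Nat.minFac k * Nat.minFac k * (c * c) := by
        nth_rewrite 1 2 [hc]; ring
      rw [e]
      exact this

theorem quat_cases : ∀ h : QuaternionGroup 2, h ≠ 1 →
    h = QuaternionGroup.a 2 ∨ h * h = QuaternionGroup.a 2 := by decide

theorem quat_rel1 : ((QuaternionGroup.a 1 : QuaternionGroup 2) * QuaternionGroup.a 1) *
    (QuaternionGroup.a 1 * QuaternionGroup.a 1) = 1 := by decide

theorem quat_rel2 : (QuaternionGroup.xa 0 : QuaternionGroup 2) * QuaternionGroup.xa 0 =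
    QuaternionGroup.a 1 * QuaternionGroup.a 1 := by decide

theorem quat_rel3 : (QuaternionGroup.xa 0 : QuaternionGroup 2) * QuaternionGroup.a 1 *
    (QuaternionGroup.xa 0)⁻¹ = (QuaternionGroup.a 1)⁻¹ := by decide

theorem quat_rel4 : (QuaternionGroup.a 1 : QuaternionGroup 2) * QuaternionGroup.a 1 ≠ 1 := by
  decide

/-- For a natural number m the following are equivalent: (a) some finite group has a Frobenius complement isomorphic to the quaternion group of order 8 whose Frobenius kernel (the identity together with the elements lying in no conjugate of the complement) has exactly m elements; (b) m is an odd perfect square greater than 1. -/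
theorem result (m : ℕ) :
    (∃ (L : Type) (_ : Group L) (_ : Finite L) (H : Subgroup L), Cfsg.IsFrobeniusComplement H ∧
        Nonempty (H ≃* QuaternionGroup 2) ∧ Nat.card (Cfsg.frobeniusKernel H) = m) ↔
    (Odd m ∧ IsSquare m ∧ 1 < m) := by
  constructor
  · rintro ⟨L, _, _, H, hF, ⟨e⟩, hm⟩
    obtain ⟨N, hN, hNn, hcompl⟩ := Cfsg.Agent.Lib.Lead.frobenius_kernel_subgroup H hF
    have hcardN : Nat.card N = m := by rw [← hm, ← hN]; rfl
    have hcop := coprime_card_complement_kernel hF hN.symm
    have hH8 : Nat.card H = 8 := by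
      rw [Nat.card_congr e.toEquiv, Nat.card_eq_fintype_card, QuaternionGroup.card]
    have hodd : Odd (Nat.card N) := by
      rw [hH8] at hcop
      exact (Nat.Coprime.coprime_dvd_left (by norm_num : 2 ∣ 8) hcop).odd_of_left
    have hgt : 1 < Nat.card N := by
      rw [card_kernel_eq_index hN.symm]
      have h1 : H.index ≠ 1 := by
        rw [Ne, Subgroup.index_eq_one]
        exact ((isFrobeniusComplement_iff H).mp hF).2.1
      have h0 : H.index ≠ 0 := Subgroup.index_ne_zero_of_finite
      omega
    refine ⟨hcardN ▸ hodd, ?_, hcardN ▸ hgt⟩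
    rw [← hcardN]
    set i : L := ((e.symm (QuaternionGroup.a 1) : H) : L) with hi
    set j : L := ((e.symm (QuaternionGroup.xa 0) : H) : L) with hj
    have tr : ∀ x y : QuaternionGroup 2, ((e.symm (x * y) : H) : L) =
        ((e.symm x : H) : L) * ((e.symm y : H) : L) := by
      intro x y; rw [map_mul]; rfl
    have tr1 : ((e.symm 1 : H) : L) = 1 := by rw [map_one]; rfl
    have trinv : ∀ x : QuaternionGroup 2, ((e.symm x⁻¹ : H) : L) = ((e.symm x : H) : L)⁻¹ := by
      intro x; rw [map_inv]; rfl
    have hz : (i * i) * (i * i) = 1 := by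
      have := congrArg (fun q => ((e.symm q : H) : L)) quat_rel1
      simpa only [tr, tr1] using this
    have hjj : j * j = i * i := by
      have := congrArg (fun q => ((e.symm q : H) : L)) quat_rel2
      simpa only [tr] using this
    have hij : j * i * j⁻¹ = i⁻¹ := by
      have := congrArg (fun q => ((e.symm q : H) : L)) quat_rel3
      simpa only [tr, trinv] using this
    have hzH : i * i ∈ H := H.mul_mem (e.symm _).2 (e.symm _).2
    have hz1 : i * i ≠ 1 := by
      intro h
      apply quat_rel4
      apply e.symm.injective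
      apply Subtype.ext
      rw [tr, tr1]
      exact h
    apply isSquare_card_of_quat_conj N i j hodd hz hjj hij
    intro n hn hfix
    have hc : n * (i * i) = (i * i) * n := by
      nth_rewrite 1 [← hfix]; group
    have hnH : n ∈ H := mem_of_commute_of_isFrobeniusComplement hF hzH hz1 hc
    exact eq_one_of_mem_kernel_of_conj_mem hN.symm (g := 1) hn (by simpa using hnH)
  · rintro ⟨hodd, ⟨k, rfl⟩, hgt⟩
    have hkodd : Odd k := by
      rcases Nat.even_or_odd k with h | h
      · exact absurd (h.mul_right k) (Nat.not_even_iff_odd.mpr hodd)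
      · exact h
    have hk1 : 1 < k := by
      by_contra h
      push Not at h
      have : k * k ≤ 1 * 1 := Nat.mul_le_mul h h
      omega
    obtain ⟨N, i1, i2, φ, hcard, hφ⟩ := qact_sq k hkodd hk1
    have hNnt : Nontrivial N := by
      rw [← Finite.one_lt_card_iff_nontrivial, hcard]; exact hgt
    have htors : ∀ v : N, -v = v → v = 0 := by
      intro v hv
      have h2 : 2 • v = 0 := by
        rw [two_nsmul]; nth_rewrite 1 [← hv]; exact neg_add_cancel v
      have h3 : addOrderOf v ∣ 2 := addOrderOf_dvd_of_nsmul_eq_zero h2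
      have h4 : addOrderOf v ∣ Nat.card N := addOrderOf_dvd_natCard v
      have h5 : addOrderOf v = 1 := by
        rw [hcard] at h4
        have h6 : (addOrderOf v).Coprime 2 :=
          Nat.Coprime.coprime_dvd_left h4 hodd.coprime_two_right
        exact Nat.Coprime.eq_one_of_dvd h6 h3
      exact AddMonoid.addOrderOf_eq_one_iff.mp h5
    have hfpf : ∀ h : QuaternionGroup 2, h ≠ 1 → ∀ v : N,
        ((φ.toHomUnits h : (AddMonoid.End N)ˣ) : AddMonoid.End N) • v = v → v = 0 := by
      intro h hh v hv
      have hv' : φ h v = v := hv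
      apply htors
      rcases quat_cases h hh with rfl | h2
      · rw [← hφ, hv']
      · rw [← hφ, ← h2, map_mul, AddMonoid.End.coe_mul, Function.comp_apply, hv', hv']
    obtain ⟨L, i1, i2, C, hC, ⟨e⟩, hker⟩ :=
      exists_frobeniusComplement_of_fpf_module_card (N := N) φ.toHomUnits hfpf
    exact ⟨L, i1, i2, C, hC, ⟨e.symm⟩, hker.trans hcard⟩

end Cfsg.Agent.S4295
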