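import Mathlib
import Cfsg.Statements.S4586

set_option autoImplicit false
open Cfsg
open scoped commutatorElement

namespace Cfsg.Agent.S4586

/-- If `G` is generated by `N` and `x`, and the images under `f` of these generators commute
pairwise, then the image of `f` is commutative. -/
lemma comm_of_gen {G H : Type*} [Group G] [Group H] (f : G →* H) (N : Subgroup G) (x : G)
    (htop : N ⊔ Subgroup.zpowers x = ⊤)
    (h1 : ∀ a ∈ N, ∀ b ∈ N, f a * f b = f b * f a) (h2 : ∀ a ∈ N, f x * f a = f a * f x) :
    ∀ y z : G, f y * f z = f z * f y := by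
  have key : ∀ w : H, (∀ a ∈ N, f a * w = w * f a) → f x * w = w * f x →
      ∀ y, f y * w = w * f y := by
    intro w hw1 hw2 y
    have hle : N ⊔ Subgroup.zpowers x ≤ (Subgroup.centralizer {w}).comap f := by
      refine sup_le (fun a ha => ?_) ?_
      · rw [Subgroup.mem_comap, Subgroup.mem_centralizer_iff]
        intro h hh
        rw [Set.mem_singleton_iff] at hh
        subst hh
        exact (hw1 a ha).symm
      · rw [Subgroup.zpowers_le, Subgroup.mem_comap, Subgroup.mem_centralizer_iff]
        intro h hh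
        rw [Set.mem_singleton_iff] at hh
        subst hh
        exact hw2.symm
    have hy : y ∈ (Subgroup.centralizer {w}).comap f := hle (htop ▸ Subgroup.mem_top y)
    rw [Subgroup.mem_comap, Subgroup.mem_centralizer_iff] at hy
    exact (hy w rfl).symm
  intro y z
  exact key (f z) (fun a ha => (key (f a) (fun b hb => h1 b hb a ha) (h2 a ha) z).symm)
    ((key (f x) (fun a ha => (h2 a ha).symm) rfl z).symm) y

/-- A subgroup of prime index together with an element outside of it generates the group. -/
lemma sup_zpowers_eq_top {P : Type*} [Group P] (p : ℕ) [hp : Fact p.Prime] (N : Subgroup P)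
    (hN : N.index = p) (x : P) (hx : x ∉ N) : N ⊔ Subgroup.zpowers x = ⊤ := by
  have hle : N ≤ N ⊔ Subgroup.zpowers x := le_sup_left
  have h1 := Subgroup.relIndex_mul_index hle
  rw [hN] at h1
  have hdvd : (N ⊔ Subgroup.zpowers x).index ∣ p := Dvd.intro_left _ h1
  rcases (Nat.dvd_prime hp.out).1 hdvd with h | h
  · exact Subgroup.index_eq_one.1 h
  · exfalso
    rw [h] at h1
    have h2 : N.relIndex (N ⊔ Subgroup.zpowers x) = 1 := by
      have hp0 : 0 < p := hp.out.pos
      exact Nat.eq_of_mul_eq_mul_right hp0 (by rw [h1, one_mul])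
    have h3 : N ⊔ Subgroup.zpowers x ≤ N := Subgroup.relIndex_eq_one.1 h2
    exact hx (h3 (Subgroup.mem_sup_right (Subgroup.mem_zpowers x)))

/-- The key counting identity. -/
theorem key {P : Type*} [Group P] [Finite P] (p : ℕ) [Fact p.Prime] (N : Subgroup P) [N.Normal]
    (hN : N.index = p) (x : P) (hx : x ∉ N) :
    (commutator P).index * Nat.card (commutator N) =
      p * Nat.card {n : N // x * n * x⁻¹ * (n : P)⁻¹ ∈ (commutator N).map N.subtype} := by
  classical
  have htop := sup_zpowers_eq_top p N hN x hx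
  set D : Subgroup P := (commutator N).map N.subtype with hD
  have hDeq : D = ⁅N, N⁆ := Subgroup.map_subtype_commutator N
  have hDn : D.Normal := by rw [hDeq]; infer_instance
  have hDcomm : D ≤ commutator P := by
    rw [hDeq, commutator_def]; exact Subgroup.commutator_mono le_top le_top
  let π : P →* P ⧸ D := QuotientGroup.mk' D
  have hπsurj : Function.Surjective π := QuotientGroup.mk'_surjective D
  -- the image of `N` is abelian
  have hab : ∀ a b : P, a ∈ N → b ∈ N → π a * π b = π b * π a := by
    intro a b ha hb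
    rw [← map_mul, ← map_mul]
    apply (QuotientGroup.eq).2
    rw [hDeq]
    have : (a * b)⁻¹ * (b * a) = ⁅b⁻¹, a⁻¹⁆ := by simp [commutatorElement_def, mul_assoc]
    rw [this]
    exact Subgroup.commutator_mem_commutator (N.inv_mem hb) (N.inv_mem ha)
  have hconj : ∀ n : P, n ∈ N → x * n * x⁻¹ ∈ N := fun n hn =>
    (inferInstance : N.Normal).conj_mem n hn x
  let κ : N →* P ⧸ D :=
    { toFun := fun n => π (x * n * x⁻¹ * (n : P)⁻¹)
      map_one' := by simp
      map_mul' := by
        intro n m
        have h1 : x * ((n * m : N) : P) * x⁻¹ * ((n * m : N) : P)⁻¹ =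
            (x * n * x⁻¹) * ((x * m * x⁻¹ * (m : P)⁻¹) * (n : P)⁻¹) := by
          simp [mul_assoc]
        have e1 : π (x * n * x⁻¹ * (n : P)⁻¹) = π (x * n * x⁻¹) * π ((n : P)⁻¹) :=
          map_mul _ _ _
        show π (x * ((n * m : N) : P) * x⁻¹ * ((n * m : N) : P)⁻¹) =
          π (x * n * x⁻¹ * (n : P)⁻¹) * π (x * m * x⁻¹ * (m : P)⁻¹)
        rw [h1, map_mul π (x * n * x⁻¹) _, map_mul π (x * m * x⁻¹ * (m : P)⁻¹) (n : P)⁻¹,
          hab _ _ (N.mul_mem (hconj m m.2) (N.inv_mem m.2)) (N.inv_mem n.2), e1]
        exact (mul_assoc _ _ _).symm }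
  have hκ : ∀ n : N, κ n = π (x * n * x⁻¹ * (n : P)⁻¹) := fun n => rfl
  -- the kernel
  have hker : Nat.card κ.ker =
      Nat.card {n : N // x * n * x⁻¹ * (n : P)⁻¹ ∈ (commutator N).map N.subtype} := by
    apply Nat.card_congr
    apply Equiv.subtypeEquivRight
    intro n
    rw [MonoidHom.mem_ker, hκ]
    exact QuotientGroup.eq_one_iff _
  -- the range
  have hrange_le : κ.range ≤ commutator (P ⧸ D) := by
    rintro _ ⟨n, rfl⟩
    rw [hκ, commutator_def]
    have : π (x * n * x⁻¹ * (n : P)⁻¹) = ⁅π x, π n⁆ := by simp [commutatorElement_def]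
    rw [this]
    exact Subgroup.commutator_mem_commutator (Subgroup.mem_top _) (Subgroup.mem_top _)
  have hrange_mem : ∀ n : P, n ∈ N → π (x * n * x⁻¹ * n⁻¹) ∈ κ.range := fun n hn =>
    ⟨⟨n, hn⟩, rfl⟩
  -- the range is normal
  have hnormal : κ.range.Normal := by
    rw [← Subgroup.normalizer_eq_top_iff, eq_top_iff]
    have hle : N ⊔ Subgroup.zpowers x ≤ (Subgroup.normalizer (κ.range : Set (P ⧸ D))).comap π := by
      refine sup_le (fun a ha => ?_) ?_
      · rw [Subgroup.mem_comap]
        apply Subgroup.mem_normalizer_fintype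
        rintro _ ⟨n, rfl⟩
        rw [hκ]
        have hn' : x * n * x⁻¹ * (n : P)⁻¹ ∈ N := N.mul_mem (hconj n n.2) (N.inv_mem n.2)
        rw [hab a _ ha hn', mul_inv_cancel_right]
        exact ⟨n, rfl⟩
      · rw [Subgroup.zpowers_le, Subgroup.mem_comap]
        apply Subgroup.mem_normalizer_fintype
        rintro _ ⟨n, rfl⟩
        rw [hκ]
        have : π x * π (x * n * x⁻¹ * (n : P)⁻¹) * (π x)⁻¹ =
            π (x * (x * n * x⁻¹) * x⁻¹ * (x * n * x⁻¹)⁻¹) := by
          simp [mul_assoc]
        rw [this]
        exact hrange_mem _ (hconj n n.2)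
    intro q _
    obtain ⟨y, rfl⟩ := hπsurj q
    have := hle (htop ▸ Subgroup.mem_top y)
    exact this
  have hrange : κ.range = commutator (P ⧸ D) := by
    refine le_antisymm hrange_le ?_
    let f : P →* (P ⧸ D) ⧸ κ.range := (QuotientGroup.mk' κ.range).comp π
    have hf : ∀ y, f y = QuotientGroup.mk' κ.range (π y) := fun y => rfl
    have hcomm := comm_of_gen f N x htop
      (fun a ha b hb => by
        rw [hf, hf, ← map_mul (QuotientGroup.mk' κ.range), ← map_mul (QuotientGroup.mk' κ.range),
          hab a b ha hb])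
      (fun a ha => by
        rw [hf, hf, ← map_mul (QuotientGroup.mk' κ.range), ← map_mul (QuotientGroup.mk' κ.range)]
        apply (QuotientGroup.eq).2
        have : (π x * π a)⁻¹ * (π a * π x) =
            (π x)⁻¹ * π (x * a⁻¹ * x⁻¹ * a⁻¹⁻¹) * (π x)⁻¹⁻¹ := by
          simp [mul_assoc]
        rw [this]
        exact hnormal.conj_mem _ (hrange_mem _ (N.inv_mem ha)) _)
    rw [commutator_def, Subgroup.commutator_le]
    intro g₁ _ g₂ _
    obtain ⟨y₁, rfl⟩ := hπsurj g₁
    obtain ⟨y₂, rfl⟩ := hπsurj g₂
    rw [← QuotientGroup.eq_one_iff, commutatorElement_def]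
    have h := hcomm y₁ y₂
    rw [hf, hf] at h
    have h' : (QuotientGroup.mk' κ.range) (π y₁ * π y₂ * (π y₁)⁻¹ * (π y₂)⁻¹) = 1 := by
      rw [map_mul, map_mul, map_mul, map_inv, map_inv, h]
      simp
    exact h'
  -- counting
  have c1 : Nat.card κ.ker * Nat.card κ.range = Nat.card N := by
    rw [← Subgroup.index_ker κ]; exact Subgroup.card_mul_index κ.ker
  have c2 : Nat.card (commutator (P ⧸ D)) * (commutator (P ⧸ D)).index = Nat.card (P ⧸ D) :=
    Subgroup.card_mul_index _
  have c3 : (commutator (P ⧸ D)).index = (commutator P).index := by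
    have : commutator (P ⧸ D) = (commutator P).map π := by
      rw [commutator_def, commutator_def, Subgroup.map_commutator,
        Subgroup.map_top_of_surjective π hπsurj]
    rw [this]
    apply Subgroup.index_map_eq _ hπsurj
    rw [QuotientGroup.ker_mk']
    exact hDcomm
  have c4 : Nat.card D * Nat.card (P ⧸ D) = Nat.card P := Subgroup.card_mul_index D
  have c5 : Nat.card D = Nat.card (commutator N) := Subgroup.card_subtype N (commutator N)
  have c6 : Nat.card N * p = Nat.card P := by rw [← hN]; exact Subgroup.card_mul_index N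
  rw [← hker]
  rw [hrange] at c1
  rw [c3] at c2
  rw [c5] at c4
  have hr : 0 < Nat.card (commutator (P ⧸ D)) := Nat.card_pos
  have : Nat.card (commutator (P ⧸ D)) * ((commutator P).index * Nat.card (commutator N)) =
      Nat.card (commutator (P ⧸ D)) * (p * Nat.card κ.ker) := by
    calc Nat.card (commutator (P ⧸ D)) * ((commutator P).index * Nat.card (commutator N))
        = Nat.card (commutator N) * (Nat.card (commutator (P ⧸ D)) * (commutator P).index) := by
          ring
      _ = Nat.card P := by rw [c2, c4]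
      _ = Nat.card N * p := c6.symm
      _ = Nat.card (commutator (P ⧸ D)) * (p * Nat.card κ.ker) := by rw [← c1]; ring
  exact Nat.eq_of_mul_eq_mul_left hr this

/-- Let p be a prime, P a finite p-group and N a normal subgroup of P of index p. For x ∈ P write c(x) for the number of elements n of N whose commutator x n x⁻¹ n⁻¹ lies in the derived subgroup N' (so c(x)/#N' is the order of the centralizer of x acting on N/N'). Then [P : P'] = p² if and only if c(x) = p·#N' for every x ∈ P outside N, and also if and only if c(x) = p·#N' for some x ∈ P outside N. -/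
theorem result {P : Type*} [Group P] [Finite P] (p : ℕ) [Fact p.Prime] (hP : IsPGroup p P) (N : Subgroup P) [N.Normal] (hN : N.index = p) :
    ((commutator P).index = p ^ 2 ↔ ∀ x : P, x ∉ N →
        Nat.card {n : N // x * n * x⁻¹ * (n : P)⁻¹ ∈ (commutator N).map N.subtype} = p * Nat.card (commutator N)) ∧
    ((commutator P).index = p ^ 2 ↔ ∃ x : P, x ∉ N ∧
        Nat.card {n : N // x * n * x⁻¹ * (n : P)⁻¹ ∈ (commutator N).map N.subtype} = p * Nat.card (commutator N)) := by
  have hp : p.Prime := Fact.out
  have hp0 : 0 < p := hp.pos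
  have hd : 0 < Nat.card (commutator N) := Nat.card_pos
  have hex : ∃ x : P, x ∉ N := by
    by_contra hcon
    have hall : ∀ x : P, x ∈ N := by
      intro x
      by_contra hx
      exact hcon ⟨x, hx⟩
    have : N = ⊤ := (Subgroup.eq_top_iff' N).2 hall
    rw [← Subgroup.index_eq_one, hN] at this
    exact hp.one_lt.ne' this
  have fwd : (commutator P).index = p ^ 2 → ∀ x : P, x ∉ N →
      Nat.card {n : N // x * n * x⁻¹ * (n : P)⁻¹ ∈ (commutator N).map N.subtype} =
        p * Nat.card (commutator N) := by
    intro h x hx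
    have hk := key p N hN x hx
    rw [h] at hk
    have : p * (p * Nat.card (commutator N)) = p * Nat.card {n : N // x * n * x⁻¹ * (n : P)⁻¹ ∈ (commutator N).map N.subtype} := by
      rw [← hk]; ring
    exact (Nat.eq_of_mul_eq_mul_left hp0 this).symm
  have bwd : (∃ x : P, x ∉ N ∧
      Nat.card {n : N // x * n * x⁻¹ * (n : P)⁻¹ ∈ (commutator N).map N.subtype} =
        p * Nat.card (commutator N)) → (commutator P).index = p ^ 2 := by
    rintro ⟨x, hx, h⟩
    have hk := key p N hN x hx
    rw [h] at hk
    have : (commutator P).index * Nat.card (commutator N) = p ^ 2 * Nat.card (commutator N) := by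
      rw [hk]; ring
    exact Nat.eq_of_mul_eq_mul_right hd this
  refine ⟨⟨fwd, fun h => ?_⟩, ⟨fun h => ?_, bwd⟩⟩
  · obtain ⟨x, hx⟩ := hex
    exact bwd ⟨x, hx, h x hx⟩
  · obtain ⟨x, hx⟩ := hex
    exact ⟨x, hx, fwd h x hx⟩

end Cfsg.Agent.S4586
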