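import Cfsg.Statements.S0154
import Cfsg.Agent.Lib.Helper79.Linear
import Cfsg.Agent.Lib.Helper74.CharSums

set_option autoImplicit false
open Cfsg

namespace Cfsg.Agent.S0154

open Cfsg.Agent.Lib.Helper3 Cfsg.Agent.Lib.Helper74 Cfsg.Agent.Lib.Helper79 Cfsg.Agent.Lib.Helper15

/-- A homomorphism into `ℂˣ` is an irreducible character. -/
theorem isIrrCharacter_of_hom {G : Type*} [Group G] (f : G →* ℂˣ) :
    Cfsg.IsIrrCharacter G (fun g => ((f g : ℂˣ) : ℂ)) := by
  have hfr : Module.finrank ℂ (Fin 1 → ℂ) = 1 := by simp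
  exact ⟨1, homRep f, isIrreducible_of_finrank_eq_one _ hfr, funext (homRep_character f)⟩

/-- The number of linear characters equals the index of the commutator subgroup. -/
theorem result {G : Type*} [Group G] [Finite G] : Nat.card {χ : Cfsg.IrrCharacter G // (χ : G → ℂ) 1 = 1} = (commutator G).index := by
  apply le_antisymm card_linear_irr_le
  rw [← card_monoidHom_units]
  apply Nat.card_le_card_of_injective
    (fun f : G →* ℂˣ => (⟨⟨fun g => ((f g : ℂˣ) : ℂ), isIrrCharacter_of_hom f⟩, by simp⟩ :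
      {χ : Cfsg.IrrCharacter G // (χ : G → ℂ) 1 = 1}))
  intro f₁ f₂ h
  ext g
  have h1 := congrArg (fun χ : {χ : Cfsg.IrrCharacter G // (χ : G → ℂ) 1 = 1} =>
    ((χ : Cfsg.IrrCharacter G) : G → ℂ) g) h
  exact h1

end Cfsg.Agent.S0154
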