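import Mathlib
import Cfsg.Statements.S0713

set_option autoImplicit false
open Cfsg

namespace Cfsg.Agent.S0713

open Equiv MulAction

/-- Sylow conjugacy for elements of prime order when `p^2` does not divide the order. -/
theorem conj_of_order_prime {H : Type*} [Group H] [Finite H] {p : ℕ} (hp : p.Prime)
    (hH : ¬ p ^ 2 ∣ Nat.card H) (x y : H) (hx : orderOf x = p) (hy : orderOf y = p) :
    ∃ h : H, ∃ j : ℤ, h * y * h⁻¹ = x ^ j := by
  have := Fact.mk hp
  have key : ∀ z : H, orderOf z = p →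
      ∃ Q : Sylow p H, (Q : Subgroup H) = Subgroup.zpowers z := by
    intro z hz
    have hcard : Nat.card (Subgroup.zpowers z) = p := by rw [Nat.card_zpowers, hz]
    have hpg : IsPGroup p (Subgroup.zpowers z) :=
      IsPGroup.of_card (n := 1) (by rw [hcard, pow_one])
    obtain ⟨Q, hQ⟩ := hpg.exists_le_sylow
    refine ⟨Q, ?_⟩
    symm
    apply Subgroup.eq_of_le_of_card_ge hQ
    rw [hcard, Sylow.card_eq_multiplicity]
    have h1 : (Nat.card H).factorization p ≤ 1 := by
      by_contra hc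
      push Not at hc
      apply hH
      exact (pow_dvd_pow p hc).trans (Nat.ordProj_dvd _ _)
    calc p ^ (Nat.card H).factorization p ≤ p ^ 1 := Nat.pow_le_pow_right hp.pos h1
      _ = p := pow_one p
  obtain ⟨Q0, hQ0⟩ := key x hx
  obtain ⟨Q1, hQ1⟩ := key y hy
  obtain ⟨h, hh⟩ := MulAction.exists_smul_eq H Q1 Q0
  refine ⟨h, ?_⟩
  have hy1 : y ∈ (Q1 : Subgroup H) := by rw [hQ1]; exact Subgroup.mem_zpowers y
  have h2 : h * y * h⁻¹ ∈ (Q0 : Subgroup H) := by
    rw [← hh, Sylow.coe_subgroup_smul]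
    exact Subgroup.smul_mem_pointwise_smul y (MulAut.conj h) _ hy1
  rw [hQ0, Subgroup.mem_zpowers_iff] at h2
  obtain ⟨j, hj⟩ := h2
  exact ⟨j, hj.symm⟩

variable {α : Type*} [Fintype α] [DecidableEq α]

/-- elements of `G` fixing the fixed points of `g` -/
def fixH (G : Subgroup (Perm α)) (g : Perm α) : Subgroup (Perm α) where
  carrier := {σ | σ ∈ G ∧ ∀ a, a ∉ g.support → σ a = a}
  one_mem' := ⟨G.one_mem, fun _ _ => rfl⟩
  mul_mem' := by
    rintro a b ⟨ha, ha'⟩ ⟨hb, hb'⟩
    exact ⟨G.mul_mem ha hb, fun x hx => by rw [Perm.mul_apply, hb' x hx, ha' x hx]⟩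
  inv_mem' := by
    rintro a ⟨ha, ha'⟩
    exact ⟨G.inv_mem ha, fun x hx => by rw [Perm.inv_eq_iff_eq]; exact (ha' x hx).symm⟩

theorem card_fixH_dvd (G : Subgroup (Perm α)) (g : Perm α) :
    Nat.card (fixH G g) ∣ (g.support.card).factorial := by
  have hle : fixH G g ≤ (Perm.ofSubtype : Perm {x // x ∈ g.support} →* Perm α).range := by
    rintro σ ⟨-, hσ⟩
    have h2 : ∀ x, σ x ≠ x → x ∈ g.support := fun x hx => by
      by_contra h; exact hx (hσ x h)
    have h1 : ∀ x, σ x ∈ g.support ↔ x ∈ g.support := by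
      intro x
      constructor
      · intro h
        by_contra hx
        rw [hσ x hx] at h
        exact hx h
      · intro h
        by_contra hx
        have h3 := hσ (σ x) hx
        have h4 : σ x = x := σ.injective h3
        rw [h4] at hx; exact hx h
    exact ⟨Perm.subtypePerm σ h1, Perm.ofSubtype_subtypePerm h1 h2⟩
  have h1 := Subgroup.card_dvd_of_le hle
  have h2 : Nat.card (Perm.ofSubtype : Perm {x // x ∈ g.support} →* Perm α).range
      = (g.support.card).factorial := by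
    rw [Nat.card_congr (MonoidHom.ofInjective Perm.ofSubtype_injective).toEquiv.symm,
      Nat.card_perm, Nat.card_eq_fintype_card, Fintype.card_coe]
  rwa [h2] at h1

theorem not_sq_dvd_factorial {p : ℕ} (hp : p.Prime) : ¬ p ^ 2 ∣ p.factorial := by
  intro h
  obtain ⟨k, hk⟩ : ∃ k, p = k + 1 := ⟨p - 1, by have := hp.pos; omega⟩
  have h1 : p.factorial = p * k.factorial := by rw [hk, Nat.factorial_succ]
  rw [h1, pow_two] at h
  have h2 : p ∣ k.factorial := Nat.dvd_of_mul_dvd_mul_left hp.pos h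
  rw [hp.dvd_factorial] at h2
  omega

/-- Jordan's Theorem: a primitive permutation group of degree `n ≥ 5` containing a `p`-cycle for a prime `p ≤ n - 3` contains the alternating group. -/
theorem result {α : Type*} [Fintype α] [DecidableEq α] (G : Subgroup (Equiv.Perm α)) (hG : MulAction.IsPreprimitive G α) {p : ℕ} (hp : p.Prime) (hn : 5 ≤ Fintype.card α) (hpn : p + 3 ≤ Fintype.card α) {g : Equiv.Perm α} (hgc : g.IsCycle) (hgp : g.support.card = p) (hg : g ∈ G) : alternatingGroup α ≤ G := by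
  classical
  obtain ⟨m, hm⟩ : ∃ m, Fintype.card α = p + (m + 1) := ⟨Fintype.card α - p - 1, by omega⟩
  have hm2 : 2 ≤ m := by omega
  have hp2 := hp.two_le
  have hmp : IsMultiplyPreprimitive G α (m + 2) := by
    apply hG.isMultiplyPreprimitive (s := ((g.support : Set α)ᶜ))
    · have h1 : (g.support : Set α).ncard = p := by rw [Set.ncard_coe_finset, hgp]
      have h2 := Set.ncard_add_ncard_compl (g.support : Set α)
      rw [h1, Nat.card_eq_fintype_card, hm] at h2
      omega
    · rw [Nat.card_eq_fintype_card, hm]; omega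
    have := Equiv.Perm.isPretransitive_of_isCycle_mem hgc hg
    apply IsPreprimitive.of_prime_card
    convert hp
    rw [Nat.card_eq_fintype_card, Fintype.card_subtype, ← hgp]
    apply congr_arg
    ext x
    simp [SubMulAction.mem_ofFixingSubgroup_iff]
  have hmt : IsMultiplyPretransitive G α (m + 1) := by
    have := hmp.isMultiplyPretransitive
    exact isMultiplyPretransitive_of_le (n := m + 2) (by omega)
      (by rw [Nat.card_eq_fintype_card]; omega)
  have hΔcard : (g.supportᶜ).card = m + 1 := by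
    rw [Finset.card_compl, hgp, hm]; omega
  have step2 : ∀ σ : Perm α, (∀ x, x ∉ g.support → σ x ∉ g.support) →
      ∃ y ∈ G, ∀ x, x ∉ g.support → y x = σ x := by
    intro σ hσ
    let e0 : (g.supportᶜ : Finset α) ≃ Fin (m + 1) :=
      Fintype.equivFinOfCardEq (by rw [Fintype.card_coe, hΔcard])
    let e : Fin (m + 1) ↪ α := e0.symm.toEmbedding.trans (Function.Embedding.subtype _)
    obtain ⟨y, hy⟩ := MulAction.exists_smul_eq G e (e.trans σ.toEmbedding)
    refine ⟨y, y.2, fun x hx => ?_⟩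
    have hx' : x ∈ g.supportᶜ := Finset.mem_compl.mpr hx
    have h1 : e (e0 ⟨x, hx'⟩) = x := by simp [e]
    have := congrArg (fun f => f (e0 ⟨x, hx'⟩)) hy
    simp only [Function.Embedding.smul_apply, Function.Embedding.trans_apply, h1] at this
    exact this
  have hΔ3 : 2 < (g.supportᶜ).card := by omega
  obtain ⟨a, b, c, ha, hb, hc, hab, hac, hbc⟩ := Finset.two_lt_card_iff.mp hΔ3
  rw [Finset.mem_compl] at ha hb hc
  have hgH : g ∈ fixH G g := ⟨hg, fun x hx => Perm.notMem_support.mp hx⟩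
  have hHcard : ¬ p ^ 2 ∣ Nat.card (fixH G g) := by
    intro h
    have h1 := h.trans (card_fixH_dvd G g)
    rw [hgp] at h1
    exact not_sq_dvd_factorial hp h1
  have hog : orderOf g = p := by rw [hgc.orderOf, hgp]
  have step3 : ∀ σ : Perm α, (∀ x, x ∉ g.support → σ x ∉ g.support) →
      (∀ x, x ∉ g.support → σ⁻¹ x ∉ g.support) →
      ∃ z ∈ G, (∀ x, x ∉ g.support → z x = σ x) ∧ ∃ j : ℤ, z * g * z⁻¹ = g ^ j := by
    intro σ hσ hσ'
    obtain ⟨y, hyG, hy⟩ := step2 σ hσ
    have hyinv : ∀ x, x ∉ g.support → y⁻¹ x = σ⁻¹ x := by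
      intro x hx
      rw [Perm.inv_eq_iff_eq, hy _ (hσ' x hx)]
      simp
    have hyH : y * g * y⁻¹ ∈ fixH G g :=
      ⟨G.mul_mem (G.mul_mem hyG hg) (G.inv_mem hyG), fun x hx => by
        rw [Perm.mul_apply, Perm.mul_apply, hyinv x hx, Perm.notMem_support.mp (hσ' x hx),
          ← hyinv x hx]
        simp⟩
    obtain ⟨h, j, hj⟩ := conj_of_order_prime hp hHcard (⟨g, hgH⟩ : fixH G g)
      ⟨y * g * y⁻¹, hyH⟩ (by rw [Subgroup.orderOf_mk, hog])
      (by
        rw [Subgroup.orderOf_mk]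
        have := orderOf_injective (MulAut.conj y).toMonoidHom (MulAut.conj y).injective g
        rw [← hog, ← this]; rfl)
    refine ⟨h * y, G.mul_mem h.2.1 hyG, fun x hx => ?_, j, ?_⟩
    · rw [Perm.mul_apply, hy x hx]; exact h.2.2 _ (hσ x hx)
    · have h1 := congrArg Subtype.val hj
      simp only [Subgroup.coe_mul, Subgroup.coe_inv, Subgroup.coe_zpow] at h1
      rw [← h1]; group
  have hswap : ∀ u v : α, u ∉ g.support → v ∉ g.support →
      ∀ x, x ∉ g.support → swap u v x ∉ g.support := by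
    intro u v hu hv x hx
    rw [swap_apply_def]
    split_ifs <;> assumption
  obtain ⟨z1, hz1G, hz1, j1, hj1⟩ := step3 (swap a b) (hswap a b ha hb)
    (by rw [swap_inv]; exact hswap a b ha hb)
  obtain ⟨z2, hz2G, hz2, j2, hj2⟩ := step3 (swap b c) (hswap b c hb hc)
    (by rw [swap_inv]; exact hswap b c hb hc)
  have hz1' : ∀ x, x ∉ g.support → z1⁻¹ x = swap a b x := by
    intro x hx
    rw [Perm.inv_eq_iff_eq, hz1 _ (hswap a b ha hb x hx), swap_apply_self]
  have hz2' : ∀ x, x ∉ g.support → z2⁻¹ x = swap b c x := by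
    intro x hx
    rw [Perm.inv_eq_iff_eq, hz2 _ (hswap b c hb hc x hx), swap_apply_self]
  set cc := z1⁻¹ * z2⁻¹ * z1 * z2 with hcc
  have hccG : cc ∈ G :=
    G.mul_mem (G.mul_mem (G.mul_mem (G.inv_mem hz1G) (G.inv_mem hz2G)) hz1G) hz2G
  have hcomm : cc * g = g * cc := by
    have e1 : z1 * z2 * g * (z1 * z2)⁻¹ = g ^ (j1 * j2) := by
      have : z1 * z2 * g * (z1 * z2)⁻¹ = z1 * (z2 * g * z2⁻¹) * z1⁻¹ := by group
      rw [this, hj2, ← conj_zpow, hj1, zpow_mul]
    have e2 : z2 * z1 * g * (z2 * z1)⁻¹ = g ^ (j2 * j1) := by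
      have : z2 * z1 * g * (z2 * z1)⁻¹ = z2 * (z1 * g * z1⁻¹) * z2⁻¹ := by group
      rw [this, hj1, ← conj_zpow, hj2, zpow_mul]
    have e3 : z1 * z2 * g * (z1 * z2)⁻¹ = z2 * z1 * g * (z2 * z1)⁻¹ := by
      rw [e1, e2, mul_comm]
    calc cc * g = (z2 * z1)⁻¹ * (z1 * z2 * g * (z1 * z2)⁻¹) * (z1 * z2) := by
          simp only [hcc]; group
      _ = (z2 * z1)⁻¹ * (z2 * z1 * g * (z2 * z1)⁻¹) * (z1 * z2) := by rw [e3]
      _ = g * cc := by simp only [hcc]; group
  set τ : Perm α := swap a b * swap b c * swap a b * swap b c with hτdef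
  have hτ : ∀ x, x ∉ g.support → cc x = τ x := by
    intro x hx
    simp only [hcc, hτdef, Perm.mul_apply]
    rw [hz2 x hx, hz1 _ (hswap b c hb hc x hx),
      hz2' _ (hswap a b ha hb _ (hswap b c hb hc x hx)),
      hz1' _ (hswap b c hb hc _ (hswap a b ha hb _ (hswap b c hb hc x hx)))]
  have hτ3 : τ.IsThreeCycle := by
    have h1 : (swap a b * swap b c).IsThreeCycle := by
      rw [swap_comm a b]; exact Perm.isThreeCycle_swap_mul_swap_same hab.symm hbc hac
    have h2 := Perm.IsThreeCycle.isThreeCycle_sq h1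
    have h3 : τ = swap a b * swap b c * (swap a b * swap b c) := by
      simp only [hτdef, mul_assoc]
    rw [h3]; exact h2
  have hτfix : ∀ x, x ∈ g.support → τ x = x := by
    intro x hx
    have hxa : x ≠ a := fun h => ha (h ▸ hx)
    have hxb : x ≠ b := fun h => hb (h ▸ hx)
    have hxc : x ≠ c := fun h => hc (h ▸ hx)
    simp only [hτdef, Perm.mul_apply, swap_apply_of_ne_of_ne hxb hxc,
      swap_apply_of_ne_of_ne hxa hxb]
  have hcpow : ∀ k : ℕ, cc * g ^ k = g ^ k * cc := fun k =>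
    (show Commute cc g from hcomm).pow_right k
  obtain ⟨x0, hx0⟩ : ∃ x0, x0 ∈ g.support := Finset.card_pos.mp (by omega)
  have hx0' : g x0 ≠ x0 := Perm.mem_support.mp hx0
  have hcx0 : g (cc x0) ≠ cc x0 := by
    intro h
    have h1 : cc (g x0) = cc x0 := by
      have h2 := congrArg (fun f => f x0) hcomm
      simp only [Perm.mul_apply] at h2
      rw [h2, h]
    exact hx0' (cc.injective h1)
  obtain ⟨i, hi⟩ := hgc.exists_pow_eq hx0' hcx0
  have hcg : ∀ x, x ∈ g.support → cc x = (g ^ i) x := by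
    intro x hx
    obtain ⟨k, hk⟩ := hgc.exists_pow_eq hx0' (Perm.mem_support.mp hx)
    rw [← hk]
    have h1 := congrArg (fun f => f x0) (hcpow k)
    simp only [Perm.mul_apply] at h1
    rw [h1, ← hi, ← Perm.mul_apply, ← Perm.mul_apply, ← pow_add, ← pow_add, add_comm]
  have hτeq : τ = cc * (g ^ i)⁻¹ := by
    ext x
    change τ x = cc ((g ^ i)⁻¹ x)
    by_cases hx : x ∈ g.support
    · rw [hτfix x hx]
      have hx2 : (g ^ i)⁻¹ x ∈ g.support := by
        by_contra hy
        have h0 : (g ^ i) ((g ^ i)⁻¹ x) = (g ^ i)⁻¹ x :=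
          Perm.pow_apply_eq_self_of_apply_eq_self (Perm.notMem_support.mp hy) i
        have h1 : x = (g ^ i)⁻¹ x := by simpa using h0
        rw [← h1] at hy
        exact hy hx
      rw [hcg _ hx2, Perm.inv_def, Equiv.apply_symm_apply]
    · have h1 : (g ^ i)⁻¹ x = x := by
        rw [Perm.inv_eq_iff_eq]
        exact (Perm.pow_apply_eq_self_of_apply_eq_self (Perm.notMem_support.mp hx) i).symm
      rw [h1, hτ x hx]
  have hτG : τ ∈ G := by rw [hτeq]; exact G.mul_mem hccG (G.inv_mem (G.pow_mem hg i))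
  exact Perm.alternatingGroup_le_of_isPreprimitive_of_isThreeCycle_mem hG hτ3 hτG

end Cfsg.Agent.S0713
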