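import Mathlib
import Cfsg.Statements.S0675
import Cfsg.Agent.Lib.Helper12.Orbital
import Cfsg.Agent.Lib.Helper12.PrimeDeg

set_option autoImplicit false
open Cfsg

namespace Cfsg.Agent.S0675

open Module MulAction Cfsg.Agent.Lib.Helper12.Orbital Cfsg.Agent.Lib.Helper12.PrimeDeg
open scoped Matrix

/-- a transitive group of prime degree in which a point stabiliser is not transitive on the
remaining points is solvable -/
theorem solvable_of_not_two {α : Type*} [Fintype α] [DecidableEq α] {p : ℕ} [Fact p.Prime]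
    (hcard : Fintype.card α = p) (G : Subgroup (Equiv.Perm α)) [MulAction.IsPretransitive G α]
    (a b b' : α) (hab : a ≠ b) (hab' : a ≠ b') (hno : ¬ ∃ g : G, g • a = a ∧ g • b = b') :
    Group.IsSolvable G := by
  classical
  have hp : p.Prime := Fact.out
  have hp2 := hp.two_le
  obtain ⟨R, hRdef⟩ : ∃ R : α → α → Prop, R = fun x y => ∃ g : G, g • a = x ∧ g • b = y := ⟨_, rfl⟩
  have hRinv : ∀ (g : G) (x y : α), R (g • x) (g • y) ↔ R x y := by
    intro g x y
    rw [hRdef]
    constructor
    · rintro ⟨g', h1, h2⟩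
      refine ⟨g⁻¹ * g', ?_, ?_⟩
      · rw [mul_smul, h1, inv_smul_smul]
      · rw [mul_smul, h2, inv_smul_smul]
    · rintro ⟨g', h1, h2⟩
      exact ⟨g * g', by rw [mul_smul, h1], by rw [mul_smul, h2]⟩
  have hRab : R a b := by
    rw [hRdef]
    exact ⟨1, one_smul _ _, one_smul _ _⟩
  have hRab' : ¬ R a b' := by
    rw [hRdef]
    exact hno
  have hRne : ∀ x y, R x y → x ≠ y := by
    intro x y hxy
    rw [hRdef] at hxy
    obtain ⟨g, rfl, rfl⟩ := hxy
    intro h
    exact hab (smul_left_cancel g h)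
  obtain ⟨A, hAdef⟩ : ∃ A : Matrix α α (ZMod p), A = Matrix.of (fun x y => if R x y then 1 else 0) :=
    ⟨_, rfl⟩
  have hA : MInv G A := by
    intro g x y
    rw [hAdef, Matrix.of_apply, Matrix.of_apply]
    exact if_congr (hRinv g x y) rfl rfl
  obtain ⟨k, hkdef⟩ : ∃ k : ℕ, k = (Finset.univ.filter (fun x => R x b)).card := ⟨_, rfl⟩
  have hk : ∀ y, (Finset.univ.filter (fun x => R x y)).card = k := by
    intro y
    obtain ⟨g, rfl⟩ := exists_smul_eq G b y
    rw [hkdef]
    symm
    refine Finset.card_bij (fun x _ => g • x) ?_ ?_ ?_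
    · intro x hx
      rw [Finset.mem_filter] at hx ⊢
      exact ⟨Finset.mem_univ _, (hRinv g x b).mpr hx.2⟩
    · intro x _ x' _ h
      exact smul_left_cancel g h
    · intro x hx
      rw [Finset.mem_filter] at hx
      refine ⟨g⁻¹ • x, ?_, smul_inv_smul g x⟩
      rw [Finset.mem_filter]
      refine ⟨Finset.mem_univ _, ?_⟩
      have h1 := hRinv g (g⁻¹ • x) b
      rw [smul_inv_smul] at h1
      exact h1.mp hx.2
  have hk1 : 1 ≤ k := by
    rw [hkdef]
    exact Finset.card_pos.mpr ⟨a, Finset.mem_filter.mpr ⟨Finset.mem_univ _, hRab⟩⟩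
  have hk2 : k ≤ p - 1 := by
    rw [hkdef]
    have h1 : Finset.univ.filter (fun x => R x b) ⊆ Finset.univ.erase b := by
      intro x hx
      rw [Finset.mem_filter] at hx
      exact Finset.mem_erase.mpr ⟨hRne x b hx.2, Finset.mem_univ _⟩
    have h2 := Finset.card_le_card h1
    rw [Finset.card_erase_of_mem (Finset.mem_univ _), Finset.card_univ, hcard] at h2
    exact h2
  have hkne : (k : ZMod p) ≠ 0 := by
    intro h
    rw [ZMod.natCast_eq_zero_iff] at h
    have := Nat.le_of_dvd (by omega) h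
    omega
  obtain ⟨B, hBdef⟩ : ∃ B : Matrix α α (ZMod p), B = A - (k : ZMod p) • (1 : Matrix α α (ZMod p)) :=
    ⟨_, rfl⟩
  have hB : MInv G B := by
    rw [hBdef]
    exact hA.sub (MInv.smul_one _)
  have hBapp : ∀ x y, B x y = (if R x y then 1 else 0) - (k : ZMod p) * (if x = y then 1 else 0) := by
    intro x y
    rw [hBdef, hAdef, Matrix.sub_apply, Matrix.smul_apply, Matrix.one_apply, smul_eq_mul,
      Matrix.of_apply]
  have hcol : ∀ y, ∑ x, B x y = 0 := by
    intro y
    simp_rw [hBapp]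
    rw [Finset.sum_sub_distrib, Finset.sum_boole, hk y, ← Finset.mul_sum, Finset.sum_ite_eq']
    simp
  have hsum : ∀ f : α → ZMod p, ∑ x, (B *ᵥ f) x = 0 := by
    intro f
    simp only [Matrix.mulVec, dotProduct]
    rw [Finset.sum_comm]
    simp_rw [← Finset.sum_mul, hcol, zero_mul]
    simp
  have hsingle : ∀ (y x : α), (B *ᵥ (Pi.single y 1)) x = B x y := by
    intro y x
    simp [Matrix.mulVec, dotProduct, Pi.single_apply]
  have hBab' : B a b' = 0 := by
    rw [hBapp, if_neg hRab', if_neg hab']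
    simp
  have hBb'b' : B b' b' ≠ 0 := by
    rw [hBapp, if_neg (fun h => hRne b' b' h rfl), if_pos rfl]
    simpa using hkne
  obtain ⟨P⟩ : Nonempty (Sylow p G) := inferInstance
  have hPt := sylow_transitive (f := 1) (by rw [pow_one]; exact hcard) P
  have hPp : IsPGroup p (P : Subgroup G) := P.isPGroup'
  let I : Subrepresentation (Cfsg.permRep (ZMod p) G α) := mapSub B hB ⊤
  let Z : Subrepresentation (Cfsg.permRep (ZMod p) G α) := comapSub B hB ⊥
  have hImem : ∀ f : α → ZMod p, B *ᵥ f ∈ I.toSubmodule := fun f => ⟨f, trivial, rfl⟩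
  have hZmem : ∀ f : α → ZMod p, f ∈ Z.toSubmodule ↔ B *ᵥ f = 0 := fun f => Iff.rfl
  have hIne : I.toSubmodule ≠ ⊥ := by
    intro h
    have h1 := hImem (Pi.single b' 1)
    rw [h] at h1
    have h2 := congrFun ((Submodule.mem_bot _).mp h1) b'
    rw [hsingle] at h2
    exact hBb'b' h2
  have h1I : (fun _ => (1 : ZMod p)) ∈ I.toSubmodule :=
    one_mem_of_pgroup (P : Subgroup G) hPp hPt I.toSubmodule
      (fun g _ u hu => I.apply_mem_toSubmodule g hu) hIne
  have hI2 : 2 ≤ finrank (ZMod p) I.toSubmodule := by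
    by_contra hcon
    have h1 : finrank (ZMod p) I.toSubmodule ≤ 1 := by omega
    obtain ⟨v, hv⟩ := finrank_le_one_iff.mp h1
    obtain ⟨c₁, hc₁⟩ := hv ⟨_, h1I⟩
    obtain ⟨c₂, hc₂⟩ := hv ⟨_, hImem (Pi.single b' 1)⟩
    have hc₁' : ∀ x, c₁ * (v : α → ZMod p) x = 1 := fun x => congrFun (congrArg Subtype.val hc₁) x
    have hc₂' : ∀ x, c₂ * (v : α → ZMod p) x = B x b' := by
      intro x
      have := congrFun (congrArg Subtype.val hc₂) x
      rw [← hsingle]
      exact this
    have hc₁0 : c₁ ≠ 0 := by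
      intro h0
      have := hc₁' a
      rw [h0, zero_mul] at this
      exact zero_ne_one this
    have hv' : (v : α → ZMod p) a = (v : α → ZMod p) b' :=
      mul_left_cancel₀ hc₁0 ((hc₁' a).trans (hc₁' b').symm)
    have h2 : B a b' = B b' b' := by rw [← hc₂', ← hc₂', hv']
    rw [hBab'] at h2
    exact hBb'b' h2.symm
  have hIp : finrank (ZMod p) I.toSubmodule ≤ p - 1 := by
    have h1 : I.toSubmodule ≠ ⊤ := by
      intro h
      have h2 : (Pi.single a (1 : ZMod p) : α → ZMod p) ∈ I.toSubmodule := by rw [h]; trivial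
      obtain ⟨f, -, hf⟩ := h2
      have h3 := hsum f
      have hf' : B *ᵥ f = Pi.single a 1 := hf
      rw [hf', Finset.sum_pi_single'] at h3
      simp at h3
    have h4 := Submodule.finrank_lt h1
    rw [Module.finrank_fintype_fun_eq_card, hcard] at h4
    omega
  have hrn : finrank (ZMod p) I.toSubmodule + finrank (ZMod p) Z.toSubmodule = p := by
    have h1 := LinearMap.finrank_range_add_finrank_ker B.mulVecLin
    rw [Module.finrank_fintype_fun_eq_card, hcard] at h1
    have h2 : I.toSubmodule = LinearMap.range B.mulVecLin := Submodule.map_top _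
    have h3 : Z.toSubmodule = LinearMap.ker B.mulVecLin := Submodule.comap_bot _
    rw [h2, h3]
    exact h1
  by_cases hz : 2 ≤ finrank (ZMod p) Z.toSubmodule
  · exact solvable_of_subrep hcard G Z hz (Or.inl (by omega))
  · have hz1 : finrank (ZMod p) Z.toSubmodule = 1 := by omega
    let Z₂ : Subrepresentation (Cfsg.permRep (ZMod p) G α) :=
      comapSub B hB (Cfsg.permConstants (ZMod p) G α)
    have hZ₂mem : ∀ f : α → ZMod p, f ∈ Z₂.toSubmodule ↔
        B *ᵥ f ∈ Submodule.span (ZMod p) {fun _ : α => (1 : ZMod p)} := fun f => Iff.rfl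
    obtain ⟨f₀, -, hf₀⟩ := h1I
    have hf₀' : B *ᵥ f₀ = fun _ => (1 : ZMod p) := hf₀
    have hZZ₂ : Z.toSubmodule < Z₂.toSubmodule := by
      refine lt_of_le_of_ne ?_ ?_
      · intro f hf
        rw [hZ₂mem, (hZmem f).mp hf]
        exact Submodule.zero_mem _
      · intro heq
        have h1 : f₀ ∈ Z₂.toSubmodule := by
          rw [hZ₂mem, hf₀']
          exact Submodule.subset_span rfl
        rw [← heq, hZmem, hf₀'] at h1
        exact one_ne_zero (congrFun h1 a)
    have h2 : 2 ≤ finrank (ZMod p) Z₂.toSubmodule := by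
      have := Submodule.finrank_lt_finrank_of_lt hZZ₂
      omega
    obtain ⟨z₀, hz₀⟩ := finrank_le_one_iff.mp (le_of_eq hz1)
    have h3 : Z₂.toSubmodule ≤ Submodule.span (ZMod p)
        ((({f₀, (z₀ : α → ZMod p)} : Finset (α → ZMod p)) : Set (α → ZMod p))) := by
      intro f hf
      rw [hZ₂mem] at hf
      obtain ⟨c, hc⟩ := Submodule.mem_span_singleton.mp hf
      have h4 : f - c • f₀ ∈ Z.toSubmodule := by
        rw [hZmem, Matrix.mulVec_sub, Matrix.mulVec_smul, hf₀', ← hc, sub_self]
      obtain ⟨c', hc'⟩ := hz₀ ⟨_, h4⟩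
      have h5 : c' • (z₀ : α → ZMod p) = f - c • f₀ := congrArg Subtype.val hc'
      have h6 : f = c • f₀ + c' • (z₀ : α → ZMod p) := by
        rw [h5]
        abel
      rw [h6]
      exact Submodule.add_mem _
        (Submodule.smul_mem _ _ (Submodule.subset_span (by simp)))
        (Submodule.smul_mem _ _ (Submodule.subset_span (by simp)))
    have h6 : finrank (ZMod p) Z₂.toSubmodule ≤ 2 :=
      (Submodule.finrank_mono h3).trans ((finrank_span_finset_le_card _).trans Finset.card_le_two)
    exact solvable_of_subrep hcard G Z₂ h2 (Or.inr (by omega))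

/-- Burnside's Theorem on permutation groups of prime degree: a transitive permutation group of prime degree that is not solvable is doubly transitive. -/
theorem result {α : Type*} [Fintype α] [DecidableEq α] (hα : (Fintype.card α).Prime) (G : Subgroup (Equiv.Perm α)) [MulAction.IsPretransitive G α] : Group.IsSolvable G ∨ MulAction.IsMultiplyPretransitive G α 2 := by
  classical
  have : Fact (Fintype.card α).Prime := ⟨hα⟩
  by_contra hcon
  push Not at hcon
  obtain ⟨hns, hn2⟩ := hcon
  apply hn2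
  rw [MulAction.is_two_pretransitive_iff]
  intro a b c d hab hcd
  suffices key : ∀ a b b' : α, a ≠ b → a ≠ b' → ∃ g : G, g • a = a ∧ g • b = b' by
    obtain ⟨g₁, hg₁⟩ := exists_smul_eq G a c
    have hne : a ≠ g₁⁻¹ • d := by
      intro h
      apply hcd
      rw [← hg₁, h, smul_inv_smul]
    obtain ⟨g₂, hg₂a, hg₂b⟩ := key a b (g₁⁻¹ • d) hab hne
    exact ⟨g₁ * g₂, by rw [mul_smul, hg₂a, hg₁], by rw [mul_smul, hg₂b, smul_inv_smul]⟩
  intro a b b' hab hab'
  by_contra hno
  exact hns (solvable_of_not_two rfl G a b b' hab hab' hno)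

end Cfsg.Agent.S0675
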