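import Mathlib
import Cfsg.Statements.S0672

set_option autoImplicit false
set_option linter.unusedSectionVars false
open Cfsg

namespace Cfsg.Agent.S0672

open MulAction
open scoped Pointwise

section

variable {G : Type*} [Group G] {Ω : Type*} [Fintype Ω] [DecidableEq Ω] [MulAction G Ω]

/-- the unordered pair of two distinct points -/
def pairOf (u v : Ω) (h : u ≠ v) : Set.powersetCard Ω 2 := ⟨{u, v}, Finset.card_pair h⟩

theorem coe_pairOf (u v : Ω) (h : u ≠ v) : ((pairOf u v h : Set.powersetCard Ω 2) : Finset Ω) = {u, v} :=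
  rfl

theorem smul_pairOf (g : G) (u v : Ω) (h : u ≠ v) :
    ((g • pairOf u v h : Set.powersetCard Ω 2) : Finset Ω) = {g • u, g • v} := by
  rw [Set.powersetCard.coe_smul, coe_pairOf]
  ext z
  simp only [Finset.mem_smul_finset, Finset.mem_insert, Finset.mem_singleton]
  constructor
  · rintro ⟨w, hw | hw, rfl⟩
    · left; rw [hw]
    · right; rw [hw]
  · rintro (hz | hz)
    · exact ⟨u, Or.inl rfl, hz.symm⟩
    · exact ⟨v, Or.inr rfl, hz.symm⟩

/-- transitivity on (point, disjoint pair) together with even point stabilisers gives triple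
transitivity -/
theorem three_of_transX [Finite G] [FaithfulSMul G Ω]
    (heven : ∀ a : Ω, Even (Nat.card (MulAction.stabilizer G a)))
    (hX : ∀ (a a' : Ω) (P P' : Set.powersetCard Ω 2), a ∉ (P : Finset Ω) → a' ∉ (P' : Finset Ω) →
      ∃ g : G, g • a = a' ∧ g • P = P') :
    MulAction.IsMultiplyPretransitive G Ω 3 := by
  refine ⟨fun x y => ?_⟩
  have hx01 : x 0 ≠ x 1 := fun h => by simpa using x.injective h
  have hx02 : x 0 ≠ x 2 := fun h => by simpa using x.injective h
  have hx12 : x 1 ≠ x 2 := fun h => by simpa using x.injective h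
  have hy01 : y 0 ≠ y 1 := fun h => by simpa using y.injective h
  have hy02 : y 0 ≠ y 2 := fun h => by simpa using y.injective h
  have hy12 : y 1 ≠ y 2 := fun h => by simpa using y.injective h
  obtain ⟨g, hg0, hgP⟩ := hX (x 0) (y 0) (pairOf (x 1) (x 2) hx12) (pairOf (y 1) (y 2) hy12)
    (by rw [coe_pairOf]; simp [hx01, hx02]) (by rw [coe_pairOf]; simp [hy01, hy02])
  have hgP' : ({g • x 1, g • x 2} : Finset Ω) = {y 1, y 2} := by
    rw [← smul_pairOf g (x 1) (x 2) hx12, hgP, coe_pairOf]
  have hgne : g • x 1 ≠ g • x 2 := fun h => hx12 (smul_left_cancel g h)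
  have h1 : g • x 1 = y 1 ∨ g • x 1 = y 2 := by
    have : g • x 1 ∈ ({y 1, y 2} : Finset Ω) := by rw [← hgP']; simp
    simpa using this
  have h2 : g • x 2 = y 1 ∨ g • x 2 = y 2 := by
    have : g • x 2 ∈ ({y 1, y 2} : Finset Ω) := by rw [← hgP']; simp
    simpa using this
  have hfin : ∀ g' : G, g' • x 0 = y 0 → g' • x 1 = y 1 → g' • x 2 = y 2 → g' • x = y := by
    intro g' h0 h1 h2
    apply DFunLike.ext
    intro i
    fin_cases i
    · exact h0
    · exact h1
    · exact h2
  rcases h1 with h1 | h1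
  · have h2' : g • x 2 = y 2 := by
      rcases h2 with h2 | h2
      · exact absurd (h1.trans h2.symm) hgne
      · exact h2
    exact ⟨g, hfin g hg0 h1 h2'⟩
  · have h2' : g • x 2 = y 1 := by
      rcases h2 with h2 | h2
      · exact h2
      · exact absurd (h1.trans h2.symm) hgne
    -- an involution in the stabiliser of `y 0`
    have h2dvd : 2 ∣ Nat.card (stabilizer G (y 0)) := (heven (y 0)).two_dvd
    have : Fact (Nat.Prime 2) := ⟨Nat.prime_two⟩
    obtain ⟨s, hs⟩ := exists_prime_orderOf_dvd_card' 2 h2dvd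
    have hs1 : (s : G) ≠ 1 := by
      intro h
      have : s = 1 := Subtype.ext h
      rw [this, orderOf_one] at hs
      omega
    have hss : (s : G) * (s : G) = 1 := by
      have h := pow_orderOf_eq_one s
      rw [hs, pow_two] at h
      exact congrArg Subtype.val h
    have hsy : (s : G) • y 0 = y 0 := s.2
    obtain ⟨c, hc⟩ : ∃ c : Ω, (s : G) • c ≠ c := by
      by_contra hcon
      push Not at hcon
      apply hs1
      apply FaithfulSMul.eq_of_smul_eq_smul (α := Ω)
      intro c
      rw [hcon c, one_smul]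
    have hssc : (s : G) • (s : G) • c = c := by rw [← mul_smul, hss, one_smul]
    have hcy : y 0 ≠ c := by
      intro h
      rw [← h] at hc
      exact hc hsy
    have hscy : y 0 ≠ (s : G) • c := by
      intro h
      apply hcy
      rw [← hssc, ← h, hsy]
    obtain ⟨h, hh0, hhQ⟩ := hX (y 0) (y 0) (pairOf c ((s : G) • c) (Ne.symm hc))
      (pairOf (y 1) (y 2) hy12) (by rw [coe_pairOf]; simp [hcy, hscy])
      (by rw [coe_pairOf]; simp [hy01, hy02])
    have hhQ' : ({h • c, h • (s : G) • c} : Finset Ω) = {y 1, y 2} := by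
      rw [← smul_pairOf h c ((s : G) • c) (Ne.symm hc), hhQ, coe_pairOf]
    have hhne : h • c ≠ h • (s : G) • c := fun hh => hc (smul_left_cancel h hh).symm
    have k1 : h • c = y 1 ∨ h • c = y 2 := by
      have : h • c ∈ ({y 1, y 2} : Finset Ω) := by rw [← hhQ']; simp
      simpa using this
    have k2 : h • (s : G) • c = y 1 ∨ h • (s : G) • c = y 2 := by
      have : h • (s : G) • c ∈ ({y 1, y 2} : Finset Ω) := by rw [← hhQ']; simp
      simpa using this
    have hinv0 : h⁻¹ • y 0 = y 0 := by rw [inv_smul_eq_iff, hh0]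
    have hu0 : (h * (s : G) * h⁻¹) • y 0 = y 0 := by
      rw [mul_smul, mul_smul, hinv0, hsy, hh0]
    have hu : (h * (s : G) * h⁻¹) • y 1 = y 2 ∧ (h * (s : G) * h⁻¹) • y 2 = y 1 := by
      rcases k1 with k1 | k1
      · have k2' : h • (s : G) • c = y 2 := by
          rcases k2 with k2 | k2
          · exact absurd (k1.trans k2.symm) hhne
          · exact k2
        constructor
        · rw [← k1, mul_smul, mul_smul, inv_smul_smul, k2']
        · rw [← k2', mul_smul, mul_smul, inv_smul_smul, hssc]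
          exact k1
      · have k2' : h • (s : G) • c = y 1 := by
          rcases k2 with k2 | k2
          · exact k2
          · exact absurd (k1.trans k2.symm) hhne
        constructor
        · rw [← k2', mul_smul, mul_smul, inv_smul_smul, hssc, k1]
        · rw [← k1, mul_smul, mul_smul, inv_smul_smul, k2']
    refine ⟨(h * (s : G) * h⁻¹) * g, hfin _ ?_ ?_ ?_⟩
    · rw [mul_smul, hg0, hu0]
    · rw [mul_smul, h1, hu.2]
    · rw [mul_smul, h2', hu.1]

end

/-- Let a finite group act faithfully and doubly transitively with point stabilisers of even order, and let `K` have characteristic `p` dividing the degree. If the heart of the permutation module admits no non-zero equivariant map to the permutation module on unordered pairs (phrased: every intertwining map from the sum-zero functions vanishing on the constants is zero), the action is triply transitive. -/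
theorem result {G : Type*} [Group G] [Finite G] {K : Type*} [Field K] {p : ℕ} [Fact p.Prime] [CharP K p] {Ω : Type*} [Fintype Ω] [DecidableEq Ω] [MulAction G Ω] [FaithfulSMul G Ω] (h2 : MulAction.IsMultiplyPretransitive G Ω 2) (hp : p ∣ Fintype.card Ω) (heven : ∀ a : Ω, Even (Nat.card (MulAction.stabilizer G a))) (h : ∀ f : Representation.IntertwiningMap (Cfsg.permSumZero K G Ω).toRepresentation (Cfsg.permRep K G (Set.powersetCard Ω 2)), (∀ v : (Cfsg.permSumZero K G Ω).toSubmodule, (v : Ω → K) ∈ (Cfsg.permConstants K G Ω).toSubmodule → f v = 0) → f = 0) : MulAction.IsMultiplyPretransitive G Ω 3 := by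
  classical
  apply three_of_transX heven
  by_contra hcon
  push Not at hcon
  obtain ⟨a₀, a₁, P₀, P₁, ha₀, ha₁, hno⟩ := hcon
  have htrP : IsPretransitive G (Set.powersetCard Ω 2) :=
    Set.powersetCard.isPretransitive_of_isMultiplyPretransitive G h2
  obtain ⟨R, hRdef⟩ : ∃ R : Ω → Set.powersetCard Ω 2 → Prop,
      R = fun a P => ∃ g : G, g • a₀ = a ∧ g • P₀ = P := ⟨_, rfl⟩
  have hRinv : ∀ (g : G) (a : Ω) (P : Set.powersetCard Ω 2), R (g • a) (g • P) ↔ R a P := by
    intro g a P
    rw [hRdef]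
    constructor
    · rintro ⟨g', h1, h2⟩
      refine ⟨g⁻¹ * g', ?_, ?_⟩
      · rw [mul_smul, h1, inv_smul_smul]
      · rw [mul_smul, h2, inv_smul_smul]
    · rintro ⟨g', h1, h2⟩
      exact ⟨g * g', by rw [mul_smul, h1], by rw [mul_smul, h2]⟩
  have hR0 : R a₀ P₀ := by
    rw [hRdef]
    exact ⟨1, one_smul _ _, one_smul _ _⟩
  have hR1 : ¬ R a₁ P₁ := by
    rw [hRdef]
    rintro ⟨g, h1, h2⟩
    exact hno g h1 h2
  obtain ⟨c, hcdef⟩ : ∃ c : ℕ, c = (Finset.univ.filter (fun a => R a P₀)).card := ⟨_, rfl⟩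
  have hc : ∀ P : Set.powersetCard Ω 2, (Finset.univ.filter (fun a => R a P)).card = c := by
    intro P
    obtain ⟨g, rfl⟩ := exists_smul_eq G P₀ P
    rw [hcdef]
    symm
    refine Finset.card_bij (fun x _ => g • x) ?_ ?_ ?_
    · intro x hx
      rw [Finset.mem_filter] at hx ⊢
      exact ⟨Finset.mem_univ _, (hRinv g x P₀).mpr hx.2⟩
    · intro x _ x' _ hxx
      exact smul_left_cancel g hxx
    · intro x hx
      rw [Finset.mem_filter] at hx
      refine ⟨g⁻¹ • x, ?_, smul_inv_smul g x⟩
      rw [Finset.mem_filter]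
      refine ⟨Finset.mem_univ _, ?_⟩
      have h1 := hRinv g (g⁻¹ • x) P₀
      rw [smul_inv_smul] at h1
      exact h1.mp hx.2
  -- the coefficients and a test vector
  obtain ⟨x₀, x₁, hx, α, β, hw⟩ : ∃ x₀ x₁ : K, x₀ * 2 + x₁ * (c : K) = 0 ∧ ∃ α β : Ω,
      x₀ * ((if α ∈ (P₀ : Finset Ω) then 1 else 0) - (if β ∈ (P₀ : Finset Ω) then 1 else 0)) +
      x₁ * ((if R α P₀ then 1 else 0) - (if R β P₀ then 1 else 0)) ≠ 0 := by
    by_cases h2K : (2 : K) = 0
    · obtain ⟨u, hu⟩ : ∃ u, u ∈ (P₀ : Finset Ω) := by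
        apply Finset.card_pos.mp
        rw [P₀.2]
        norm_num
      refine ⟨1, 0, by rw [one_mul, zero_mul, add_zero, h2K], u, a₀, ?_⟩
      rw [if_pos hu, if_neg ha₀]
      simp
    · obtain ⟨g, hg⟩ := exists_smul_eq G P₁ P₀
      have hβ1 : g • a₁ ∉ (P₀ : Finset Ω) := by
        rw [← hg, Set.powersetCard.coe_smul, Finset.smul_mem_smul_finset_iff]
        exact ha₁
      have hβ2 : ¬ R (g • a₁) P₀ := by
        rw [← hg, hRinv]
        exact hR1
      refine ⟨(c : K), -2, by ring, a₀, g • a₁, ?_⟩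
      rw [if_neg ha₀, if_neg hβ1, if_pos hR0, if_neg hβ2]
      simpa using h2K
  let Φ : (Ω → K) →ₗ[K] (Set.powersetCard Ω 2 → K) :=
    { toFun := fun f P => x₀ * ∑ a ∈ (P : Finset Ω), f a +
        x₁ * ∑ a ∈ Finset.univ.filter (fun a => R a P), f a
      map_add' := by
        intro f₁ f₂
        funext P
        simp only [Pi.add_apply, Finset.sum_add_distrib]
        ring
      map_smul' := by
        intro r f
        funext P
        simp only [Pi.smul_apply, smul_eq_mul, RingHom.id_apply, ← Finset.mul_sum]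
        ring }
  have hΦapp : ∀ (f : Ω → K) (P : Set.powersetCard Ω 2), Φ f P =
      x₀ * ∑ a ∈ (P : Finset Ω), f a + x₁ * ∑ a ∈ Finset.univ.filter (fun a => R a P), f a :=
    fun f P => rfl
  have hΦeq : ∀ (g : G) (f : Ω → K),
      Φ (Cfsg.permRep K G Ω g f) = Cfsg.permRep K G (Set.powersetCard Ω 2) g (Φ f) := by
    intro g f
    funext P
    show Φ (Cfsg.permRep K G Ω g f) P = Φ f (g⁻¹ • P)
    rw [hΦapp, hΦapp]
    congr 2
    · refine Finset.sum_equiv (MulAction.toPerm g⁻¹) (fun a => ?_) (fun a _ => rfl)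
      rw [Set.powersetCard.coe_smul]
      exact (Finset.smul_mem_smul_finset_iff g⁻¹).symm
    · refine Finset.sum_equiv (MulAction.toPerm g⁻¹) (fun a => ?_) (fun a _ => rfl)
      simp only [Finset.mem_filter, Finset.mem_univ, true_and]
      exact (hRinv g⁻¹ a P).symm
  have hΦone : Φ (fun _ => (1 : K)) = 0 := by
    funext P
    rw [hΦapp, Finset.sum_const, Finset.sum_const, hc P, P.2]
    simp only [nsmul_eq_mul, mul_one, Pi.zero_apply]
    rw [← hx]
    norm_num
  let f : Representation.IntertwiningMap (Cfsg.permSumZero K G Ω).toRepresentation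
      (Cfsg.permRep K G (Set.powersetCard Ω 2)) :=
    ⟨Φ ∘ₗ (Cfsg.permSumZero K G Ω).toSubmodule.subtype, fun g =>
      LinearMap.ext (fun v => hΦeq g v.1)⟩
  have hfapp : ∀ v : (Cfsg.permSumZero K G Ω).toSubmodule, f v = Φ (v : Ω → K) := fun v => rfl
  have hvan : ∀ v : (Cfsg.permSumZero K G Ω).toSubmodule,
      (v : Ω → K) ∈ (Cfsg.permConstants K G Ω).toSubmodule → f v = 0 := by
    intro v hv
    obtain ⟨r, hr⟩ := Submodule.mem_span_singleton.mp hv
    rw [hfapp, ← hr, map_smul, hΦone, smul_zero]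
  have hf0 := h f hvan
  have hmem : (Pi.single α (1 : K) - Pi.single β (1 : K) : Ω → K) ∈
      (Cfsg.permSumZero K G Ω).toSubmodule := by
    show ∑ x, (Pi.single α (1 : K) - Pi.single β (1 : K) : Ω → K) x = 0
    simp only [Pi.sub_apply]
    rw [Finset.sum_sub_distrib]
    simp
  have h3 : Φ (Pi.single α (1 : K) - Pi.single β (1 : K)) P₀ = 0 := by
    have h4 : f ⟨_, hmem⟩ = 0 := by rw [hf0]; rfl
    rw [hfapp] at h4
    exact congrFun h4 P₀
  have h5 : Φ (Pi.single α (1 : K) - Pi.single β (1 : K)) P₀ =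
      x₀ * ((if α ∈ (P₀ : Finset Ω) then 1 else 0) - (if β ∈ (P₀ : Finset Ω) then 1 else 0)) +
      x₁ * ((if R α P₀ then 1 else 0) - (if R β P₀ then 1 else 0)) := by
    rw [hΦapp]
    simp only [Pi.sub_apply, Finset.sum_sub_distrib, Finset.sum_pi_single', Finset.mem_filter,
      Finset.mem_univ, true_and]
  rw [h5] at h3
  exact hw h3

end Cfsg.Agent.S0672
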