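import Mathlib
import Cfsg.Statements.S0674
import Cfsg.Agent.Lib.Helper12.PrimeDeg

set_option autoImplicit false
open Cfsg

namespace Cfsg.Agent.S0674

open Module Cfsg.Agent.Lib.Helper12.PrimeDeg

/-- Let `G` be a non-solvable transitive permutation group of prime degree `p` and `K` a field of characteristic `p`. Then the heart of the permutation module is irreducible: an invariant subspace containing the constants and contained in the sum-zero functions is one or the other. -/
theorem result {α : Type*} [Fintype α] [DecidableEq α] {p : ℕ} [Fact p.Prime] (hα : Fintype.card α = p) (G : Subgroup (Equiv.Perm α)) [MulAction.IsPretransitive G α] (hG : ¬ Group.IsSolvable G) {K : Type*} [Field K] [CharP K p] (W : Subrepresentation (Cfsg.permRep K G α)) (h₁ : (Cfsg.permConstants K G α).toSubmodule ≤ W.toSubmodule) (h₂ : W.toSubmodule ≤ (Cfsg.permSumZero K G α).toSubmodule) : W = Cfsg.permConstants K G α ∨ W = Cfsg.permSumZero K G α := by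
  classical
  have hp : p.Prime := Fact.out
  have hp2 := hp.two_le
  have hne : Nonempty α := by
    rw [← Fintype.card_pos_iff, hα]
    exact hp.pos
  obtain ⟨a₀⟩ := hne
  have hC : finrank K (Cfsg.permConstants K G α).toSubmodule = 1 := by
    show finrank K (Submodule.span K {fun _ : α => (1 : K)}) = 1
    apply finrank_span_singleton
    intro h
    exact one_ne_zero (congrFun h a₀)
  have hM : finrank K (Cfsg.permSumZero K G α).toSubmodule ≤ p - 1 := by
    have h1 : (Cfsg.permSumZero K G α).toSubmodule ≠ ⊤ := by
      intro h
      have h2 : (Pi.single a₀ (1 : K) : α → K) ∈ (Cfsg.permSumZero K G α).toSubmodule := by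
        rw [h]; trivial
      have h3 : ∑ x, (Pi.single a₀ (1 : K) : α → K) x = 0 := h2
      rw [Finset.sum_pi_single'] at h3
      simp at h3
    have h4 := Submodule.finrank_lt h1
    rw [Module.finrank_fintype_fun_eq_card, hα] at h4
    omega
  have hs1 : 1 ≤ finrank K W.toSubmodule := by
    have := Submodule.finrank_mono h₁
    omega
  have hs2 : finrank K W.toSubmodule ≤ p - 1 := (Submodule.finrank_mono h₂).trans hM
  by_cases hs : finrank K W.toSubmodule ≤ 1
  · left
    apply Subrepresentation.toSubmodule_injective
    exact (Submodule.eq_of_le_of_finrank_eq h₁ (by omega)).symm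
  · right
    have h3 : ¬ (finrank K W.toSubmodule ≤ p - 2 ∨ 2 * finrank K W.toSubmodule ≤ p + 1) := by
      intro h3
      exact hG (solvable_of_subrep hα G W (by omega) h3)
    push Not at h3
    apply Subrepresentation.toSubmodule_injective
    exact Submodule.eq_of_le_of_finrank_le h₂ (by omega)

end Cfsg.Agent.S0674
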