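import Mathlib
import Cfsg.Statements.S0676
import Cfsg.Agent.S0672
import Cfsg.Agent.S0674
import Cfsg.Agent.S0675
import Cfsg.Agent.Lib.Helper12.PrimeDeg2

set_option autoImplicit false
open Cfsg

namespace Cfsg.Agent.S0676

open MulAction Cfsg.Agent.Lib.Helper12.PrimeDeg2
open scoped Pointwise

/-- A non-solvable transitive permutation group of prime degree `p` whose Sylow `p`-normaliser has even order is triply transitive. -/
theorem result {α : Type*} [Fintype α] [DecidableEq α] {p : ℕ} [Fact p.Prime] (hα : Fintype.card α = p) (G : Subgroup (Equiv.Perm α)) [MulAction.IsPretransitive G α] (hG : ¬ Group.IsSolvable G) (P : Sylow p G) (heven : Even (Nat.card (Subgroup.normalizer ((P : Subgroup G) : Set G)))) : MulAction.IsMultiplyPretransitive G α 3 := by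
  classical
  have hp : p.Prime := Fact.out
  have hα' : (Fintype.card α).Prime := by rw [hα]; exact hp
  have h2t : MulAction.IsMultiplyPretransitive G α 2 :=
    (Cfsg.Agent.S0675.result hα' G).resolve_left hG
  have hp2 : p ≠ 2 := by
    intro hp2
    apply hG
    have h3 : Nat.card G ∣ 2 := by
      have h5 := Subgroup.card_subgroup_dvd_card G
      rw [Nat.card_perm, Nat.card_eq_fintype_card (α := α), hα, hp2] at h5
      exact h5
    have : Fact (Nat.Prime 2) := ⟨Nat.prime_two⟩
    have hpg : IsPGroup 2 G := by
      rcases (Nat.dvd_prime Nat.prime_two).mp h3 with h | h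
      · exact IsPGroup.of_card (n := 0) (by rw [h, pow_zero])
      · exact IsPGroup.of_card (n := 1) (by rw [h, pow_one])
    have := hpg.isNilpotent
    exact IsNilpotent.to_isSolvable
  have h2K := two_ne_zero_of_ne hp2
  obtain ⟨e, t, s, het, hes, hs1, hss, -, -⟩ := exists_setup hα hp2 G P heven
  have hfaith : FaithfulSMul G α := ⟨fun {g h} hh => Subtype.ext (Equiv.ext hh)⟩
  have hsinv : s⁻¹ = s := inv_eq_of_mul_eq_one_left hss
  apply Cfsg.Agent.S0672.result (K := ZMod p) h2t (by rw [hα])
  · -- even stabilisers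
    intro a
    have hfix : s • (e.symm 0) = e.symm 0 := by
      apply e.injective
      show e ((s : Equiv.Perm α) (e.symm 0)) = e (e.symm 0)
      rw [hes, Equiv.apply_symm_apply, neg_zero]
    obtain ⟨g, hg⟩ := exists_smul_eq G (e.symm 0) a
    have hx : g * s * g⁻¹ ∈ stabilizer G a := by
      rw [mem_stabilizer_iff, mul_smul, mul_smul, ← hg, inv_smul_smul, hfix]
    have hx1 : g * s * g⁻¹ ≠ 1 := by
      intro h
      apply hs1
      have : s = g⁻¹ * (g * s * g⁻¹) * g := by group
      rw [this, h]
      group
    have hxx : (g * s * g⁻¹) ^ 2 = 1 := by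
      rw [pow_two]
      have : g * s * g⁻¹ * (g * s * g⁻¹) = g * (s * s) * g⁻¹ := by group
      rw [this, hss]
      group
    have : Fact (Nat.Prime 2) := ⟨Nat.prime_two⟩
    have hord : orderOf (g * s * g⁻¹) = 2 := orderOf_eq_prime hxx hx1
    rw [even_iff_two_dvd, ← hord, ← Subgroup.orderOf_mk _ hx]
    exact orderOf_dvd_natCard _
  · intro f hf
    have hone_mem : (fun _ => (1 : ZMod p)) ∈ (permSumZero (ZMod p) G α).toSubmodule := by
      show ∑ _x : α, (1 : ZMod p) = 0
      rw [Finset.sum_const, Finset.card_univ, hα]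
      simp
    have hℓ_mem : (fun a => e a) ∈ (permSumZero (ZMod p) G α).toSubmodule := by
      show ∑ x : α, e x = 0
      have h1 : ∑ x : α, e x = ∑ y : ZMod p, y := Equiv.sum_comp e (fun y => y)
      have h2 : ∑ y : ZMod p, y = - ∑ y : ZMod p, y := by
        rw [← Finset.sum_neg_distrib]
        exact (Equiv.sum_comp (Equiv.neg (ZMod p)) (fun y => y)).symm
      have h3 : (2 : ZMod p) * ∑ y : ZMod p, y = 0 := by linear_combination h2
      rw [h1]
      rcases mul_eq_zero.mp h3 with h | h
      · exact absurd h h2K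
      · exact h
    obtain ⟨one', hone'⟩ : ∃ v : (permSumZero (ZMod p) G α).toSubmodule,
        (v : α → ZMod p) = fun _ => 1 := ⟨⟨_, hone_mem⟩, rfl⟩
    obtain ⟨ℓ', hℓ'⟩ : ∃ v : (permSumZero (ZMod p) G α).toSubmodule,
        (v : α → ZMod p) = fun a => e a := ⟨⟨_, hℓ_mem⟩, rfl⟩
    have hf1 : f one' = 0 := by
      apply hf
      rw [hone']
      exact Submodule.mem_span_singleton_self _
    have hcoe : ∀ (g : G) (v : (permSumZero (ZMod p) G α).toSubmodule) (a : α),
        (((permSumZero (ZMod p) G α).toRepresentation g v :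
          (permSumZero (ZMod p) G α).toSubmodule) : α → ZMod p) a = (v : α → ZMod p) (g⁻¹ • a) :=
      fun g v a => rfl
    -- the image of `ℓ` is invariant under `t`
    have ht_ℓ : (permSumZero (ZMod p) G α).toRepresentation t ℓ' = ℓ' - one' := by
      apply Subtype.ext
      funext a
      rw [hcoe, Submodule.coe_sub, Pi.sub_apply, hℓ', hone']
      show e (t⁻¹ • a) = e a - 1
      have h1 : e ((t : Equiv.Perm α) (t⁻¹ • a)) = e (t⁻¹ • a) + 1 := het _
      have h2 : (t : Equiv.Perm α) (t⁻¹ • a) = a := smul_inv_smul t a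
      rw [h2] at h1
      rw [h1]
      ring
    have hs_ℓ : (permSumZero (ZMod p) G α).toRepresentation s ℓ' = - ℓ' := by
      apply Subtype.ext
      funext a
      rw [hcoe, Submodule.coe_neg, Pi.neg_apply, hℓ', hsinv]
      exact hes a
    obtain ⟨F, hF⟩ : ∃ F, F = f ℓ' := ⟨_, rfl⟩
    have hFt : ∀ Q : Set.powersetCard α 2, F (t⁻¹ • Q) = F Q := by
      intro Q
      have h1 := Representation.IntertwiningMap.isIntertwining _ _ f t ℓ'
      rw [ht_ℓ, map_sub, hf1, sub_zero] at h1
      rw [hF]
      exact (congrFun h1 Q).symm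
    have hFs : ∀ Q : Set.powersetCard α 2, F (s • Q) = - F Q := by
      intro Q
      have h1 := Representation.IntertwiningMap.isIntertwining _ _ f s ℓ'
      rw [hs_ℓ, map_neg] at h1
      have h2 : (- f ℓ') Q = f ℓ' (s⁻¹ • Q) := congrFun h1 Q
      rw [hsinv] at h2
      rw [hF, ← h2]
      rfl
    have hFtn : ∀ (n : ℕ) (Q : Set.powersetCard α 2), F (t ^ n • Q) = F Q := by
      intro n
      induction n with
      | zero => intro Q; rw [pow_zero, one_smul]
      | succ n ih =>
        intro Q
        rw [← hFt (t ^ (n + 1) • Q), ← mul_smul, pow_succ', inv_mul_cancel_left, ih]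
    have hF0 : ∀ Q : Set.powersetCard α 2, F Q = 0 := by
      intro Q
      obtain ⟨u, v, huv, hQ⟩ := Finset.card_eq_two.mp Q.2
      have hQ' : Q = Cfsg.Agent.S0672.pairOf u v huv := Subtype.ext hQ
      obtain ⟨n, hn⟩ : ∃ n : ℕ, (n : ZMod p) = - e u - e v :=
        ⟨(- e u - e v).val, ZMod.natCast_zmod_val _⟩
      have h1 : t ^ n • u = s • v := by
        apply e.injective
        show e ((((t ^ n : G) : Equiv.Perm α)) u) = e ((s : Equiv.Perm α) v)
        rw [Subgroup.coe_pow, coord_pow e _ het, hes, hn]
        ring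
      have h2 : t ^ n • v = s • u := by
        apply e.injective
        show e ((((t ^ n : G) : Equiv.Perm α)) v) = e ((s : Equiv.Perm α) u)
        rw [Subgroup.coe_pow, coord_pow e _ het, hes, hn]
        ring
      have h3 : t ^ n • Q = s • Q := by
        have k1 := Cfsg.Agent.S0672.smul_pairOf (t ^ n) u v huv
        have k2 := Cfsg.Agent.S0672.smul_pairOf s u v huv
        rw [h1, h2] at k1
        rw [hQ']
        apply Subtype.ext
        exact k1.trans ((Finset.pair_comm _ _).trans k2.symm)
      have h4 : F Q = - F Q := by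
        rw [← hFs Q, ← h3, hFtn]
      have h5 : (2 : ZMod p) * F Q = 0 := by linear_combination h4
      rcases mul_eq_zero.mp h5 with h | h
      · exact absurd h h2K
      · exact h
    have hfℓ : f ℓ' = 0 := by
      rw [← hF]
      funext Q
      exact hF0 Q
    -- the kernel of `f`, as a subrepresentation of the permutation module
    let W : Subrepresentation (permRep (ZMod p) G α) :=
      { toSubmodule := Submodule.map (permSumZero (ZMod p) G α).toSubmodule.subtype
          (LinearMap.ker f.toLinearMap)
        apply_mem_toSubmodule := by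
          intro g v hv
          obtain ⟨u, hu, rfl⟩ := hv
          refine ⟨(permSumZero (ZMod p) G α).toRepresentation g u, ?_, rfl⟩
          have h1 := Representation.IntertwiningMap.isIntertwining _ _ f g u
          have h2 : f u = 0 := hu
          rw [h2, map_zero] at h1
          exact h1 }
    have hWmem : ∀ v : α → ZMod p, v ∈ W.toSubmodule ↔
        ∃ u : (permSumZero (ZMod p) G α).toSubmodule, f u = 0 ∧ (u : α → ZMod p) = v := by
      intro v
      constructor
      · rintro ⟨u, hu, rfl⟩
        exact ⟨u, hu, rfl⟩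
      · rintro ⟨u, hu, rfl⟩
        exact ⟨u, hu, rfl⟩
    have hW1 : (permConstants (ZMod p) G α).toSubmodule ≤ W.toSubmodule := by
      intro v hv
      obtain ⟨r, rfl⟩ := Submodule.mem_span_singleton.mp hv
      rw [hWmem]
      refine ⟨r • one', ?_, ?_⟩
      · rw [map_smul, hf1, smul_zero]
      · rw [Submodule.coe_smul, hone']
    have hW2 : W.toSubmodule ≤ (permSumZero (ZMod p) G α).toSubmodule := by
      intro v hv
      obtain ⟨u, -, rfl⟩ := (hWmem v).mp hv
      exact u.2
    have hℓW : (fun a => e a) ∈ W.toSubmodule := by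
      rw [hWmem]
      exact ⟨ℓ', hfℓ, hℓ'⟩
    have hℓC : (fun a => e a) ∉ (permConstants (ZMod p) G α).toSubmodule := by
      intro h
      obtain ⟨r, hr⟩ := Submodule.mem_span_singleton.mp h
      have h0 := congrFun hr (e.symm 0)
      have h1 := congrFun hr (e.symm 1)
      simp only [Pi.smul_apply, smul_eq_mul, mul_one, Equiv.apply_symm_apply] at h0 h1
      have : (0 : ZMod p) = 1 := by rw [← h0, ← h1]
      exact zero_ne_one this
    rcases Cfsg.Agent.S0674.result hα G hG W hW1 hW2 with hW | hW
    · rw [hW] at hℓW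
      exact absurd hℓW hℓC
    · apply Representation.IntertwiningMap.ext
      apply LinearMap.ext
      intro v
      have h1 : (v : α → ZMod p) ∈ W.toSubmodule := by
        rw [hW]
        exact v.2
      obtain ⟨u, hu, huv⟩ := (hWmem _).mp h1
      have : u = v := Subtype.ext huv
      rw [← this]
      exact hu

end Cfsg.Agent.S0676
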