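import Mathlib
import Cfsg.Statements.S0678
import Cfsg.Agent.S0675
import Cfsg.Agent.S0676
import Cfsg.Agent.S0144
import Cfsg.Agent.Lib.Helper12.PrimeDeg3

set_option autoImplicit false
set_option linter.unusedSectionVars false
open Cfsg

namespace Cfsg.Agent.S0678

open MulAction Cfsg.Agent.Lib.Helper12.PrimeDeg2 Cfsg.Agent.Lib.Helper12.PrimeDeg3

/-- the embedding of three distinct points -/
def emb3 {Ω : Type*} (a b c : Ω) (h1 : a ≠ b) (h2 : a ≠ c) (h3 : b ≠ c) : Fin 3 ↪ Ω :=
  ⟨![a, b, c], by
    intro i j hij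
    fin_cases i <;> fin_cases j <;> first | rfl | (exfalso; simp at hij; first | exact h1 hij | exact h2 hij | exact h3 hij | exact h1 hij.symm | exact h2 hij.symm | exact h3 hij.symm)⟩

theorem exists_map3 {G : Type*} [Group G] {Ω : Type*} [MulAction G Ω]
    (h3t : MulAction.IsMultiplyPretransitive G Ω 3) (a b c a' b' c' : Ω)
    (h1 : a ≠ b) (h2 : a ≠ c) (h3 : b ≠ c) (h1' : a' ≠ b') (h2' : a' ≠ c') (h3' : b' ≠ c') :
    ∃ g : G, g • a = a' ∧ g • b = b' ∧ g • c = c' := by
  obtain ⟨g, hg⟩ := h3t.exists_smul_eq (emb3 a b c h1 h2 h3) (emb3 a' b' c' h1' h2' h3')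
  refine ⟨g, ?_, ?_, ?_⟩
  · exact congrArg (fun f : Fin 3 ↪ Ω => f 0) hg
  · exact congrArg (fun f : Fin 3 ↪ Ω => f 1) hg
  · exact congrArg (fun f : Fin 3 ↪ Ω => f 2) hg

section

variable {α : Type*} [Fintype α] [DecidableEq α]

/-- orbit-stabiliser relative to a subgroup `H` of `G` -/
theorem card_inf_stab (G : Subgroup (Equiv.Perm α)) (H : Subgroup G) (x : α) :
    Nat.card H = Nat.card ↥(H ⊓ stabilizer G x) * (orbit H x).ncard := by
  rw [card_eq_stab_mul_orbit (K := H) x]
  congr 1
  apply Nat.card_congr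
  exact
    { toFun := fun g => ⟨g.1.1, g.1.2, g.2⟩
      invFun := fun g => ⟨⟨g.1, g.2.1⟩, g.2.2⟩
      left_inv := fun g => rfl
      right_inv := fun g => rfl }

theorem orbit_subset (G : Subgroup (Equiv.Perm α)) (H : Subgroup G) (F : Finset α)
    (hF : ∀ h ∈ H, ∀ y ∈ F, (h : Equiv.Perm α) y = y) (x : α) (hx : x ∉ F) :
    orbit H x ⊆ ((Fᶜ : Finset α) : Set α) := by
  rintro y ⟨h, rfl⟩
  rw [Finset.mem_coe, Finset.mem_compl]
  intro hy
  apply hx
  have h2 := hF h.1 h.2 _ hy
  have h3 : ((h.1 : G) : Equiv.Perm α) x = x := ((h.1 : G) : Equiv.Perm α).injective h2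
  rw [← h3]
  exact hy

theorem orbit_ncard_le (G : Subgroup (Equiv.Perm α)) (H : Subgroup G) (F : Finset α)
    (hF : ∀ h ∈ H, ∀ y ∈ F, (h : Equiv.Perm α) y = y) (x : α) (hx : x ∉ F) :
    (orbit H x).ncard + F.card ≤ Fintype.card α := by
  have h2 := Set.ncard_le_ncard (orbit_subset G H F hF x hx) (Finset.finite_toSet _)
  rw [Set.ncard_coe_finset, Finset.card_compl] at h2
  have := Finset.card_le_univ F
  omega

theorem orbit_ncard_eq (G : Subgroup (Equiv.Perm α)) (H : Subgroup G) (F : Finset α)
    (hF : ∀ h ∈ H, ∀ y ∈ F, (h : Equiv.Perm α) y = y) (x : α) (hx : x ∉ F)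
    (htr : ∀ y, y ∉ F → ∃ h ∈ H, (h : Equiv.Perm α) x = y) :
    (orbit H x).ncard + F.card = Fintype.card α := by
  have h1 : orbit H x = ((Fᶜ : Finset α) : Set α) := by
    apply Set.Subset.antisymm (orbit_subset G H F hF x hx)
    intro y hy
    rw [Finset.mem_coe, Finset.mem_compl] at hy
    obtain ⟨h, hh, hxy⟩ := htr y hy
    exact ⟨⟨h, hh⟩, hxy⟩
  rw [h1, Set.ncard_coe_finset, Finset.card_compl]
  have := Finset.card_le_univ F
  omega

theorem orbit_ncard_pos (G : Subgroup (Equiv.Perm α)) (H : Subgroup G) (x : α) :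
    1 ≤ (orbit H x).ncard :=
  (Set.ncard_pos (Set.toFinite _)).mpr (nonempty_orbit x)

/-- a transitive group of degree 7 does not have order 210 -/
theorem card_ne_210 (hα : Fintype.card α = 7)
    (G : Subgroup (Equiv.Perm α)) [MulAction.IsPretransitive G α] : Nat.card G ≠ 210 := by
  intro h210
  have : Fact (Nat.Prime 7) := ⟨by norm_num⟩
  have : Fact (Nat.Prime 2) := ⟨by norm_num⟩
  obtain ⟨Q⟩ := (inferInstance : Nonempty (Sylow 2 G))
  have hQ2 : Nat.card (Q : Subgroup G) = 2 := by
    have h1 : 2 ∣ Nat.card (Q : Subgroup G) := Q.dvd_card_of_dvd_card (by rw [h210]; norm_num)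
    obtain ⟨k, hk⟩ := Q.2.exists_card_eq
    have h2 : Nat.card (Q : Subgroup G) ∣ 210 := by
      rw [← h210]
      exact Subgroup.card_subgroup_dvd_card _
    rw [hk] at h1 h2 ⊢
    have hk1 : k ≤ 1 := by
      by_contra hcon
      push Not at hcon
      have : 2 ^ 2 ∣ 210 := (pow_dvd_pow 2 hcon).trans h2
      norm_num at this
    interval_cases k
    · norm_num at h1
    · norm_num
  have hcyc : IsCyclic (Q : Subgroup G) := isCyclic_of_prime_card hQ2
  have hmin : (Nat.card G).minFac = 2 := by rw [h210]; norm_num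
  have hcomp := IsCyclic.isComplement' hmin hcyc
  have hmul := hcomp.card_mul_card
  obtain ⟨K, hK⟩ : ∃ K, K = (MonoidHom.transferSylow Q (hcyc.normalizer_le_centralizer hmin)).ker :=
    ⟨_, rfl⟩
  rw [← hK] at hmul
  have hK105 : Nat.card K = 105 := by
    rw [h210] at hmul
    have : Nat.card (Q : Subgroup G) = 2 := hQ2
    have h3 : Nat.card K * Nat.card (Q : Subgroup G) = 210 := hmul
    rw [this] at h3
    omega
  have hKne : K ≠ ⊥ := by
    intro h
    rw [h, Subgroup.card_bot] at hK105
    omega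
  have : K.Normal := by rw [hK]; exact MonoidHom.normal_ker _
  have := isPretransitive_map_of_normal hα G K hKne
  have hK' : Nat.card (K.map G.subtype) = 105 := by
    rw [Subgroup.card_map_of_injective (Subgroup.subtype_injective G)]
    exact hK105
  obtain ⟨P'⟩ := (inferInstance : Nonempty (Sylow 7 (K.map G.subtype)))
  obtain ⟨d', hd', hN'⟩ := card_normalizer hα (K.map G.subtype) P'
  have hn' := card_sylow_modEq_one 7 (K.map G.subtype)
  rw [Sylow.card_eq_index_normalizer P'] at hn'
  have hmul' := Subgroup.card_mul_index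
    (Subgroup.normalizer ((P' : Subgroup (K.map G.subtype)) : Set (K.map G.subtype)))
  rw [hN', hK'] at hmul'
  have hd1 : d' = 1 := by
    have hle : d' ≤ 6 := Nat.le_of_dvd (by norm_num) hd'
    unfold Nat.ModEq at hn'
    have hn'' : (Subgroup.normalizer
      ((P' : Subgroup (K.map G.subtype)) : Set (K.map G.subtype))).index % 7 = 1 := hn'
    generalize (Subgroup.normalizer
      ((P' : Subgroup (K.map G.subtype)) : Set (K.map G.subtype))).index = idx at hmul' hn''
    interval_cases d' <;> omega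
  have := card_eq_of_normalizer hα (K.map G.subtype) P' (by rw [hN', hd1])
  omega

/-- the order is 168 -/
theorem card_eq (hα : Fintype.card α = 7)
    (G : Subgroup (Equiv.Perm α)) [MulAction.IsPretransitive G α] (hG : ¬ Group.IsSolvable G)
    (hA : ¬ alternatingGroup α ≤ G) : Nat.card G = 168 := by
  classical
  have : Fact (Nat.Prime 7) := ⟨by norm_num⟩
  have hα' : (Fintype.card α).Prime := by rw [hα]; norm_num
  have h2t : IsMultiplyPretransitive G α 2 := (Cfsg.Agent.S0675.result hα' G).resolve_left hG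
  have hprim : IsPreprimitive G α := isPreprimitive_of_is_two_pretransitive h2t
  have hJ : ∀ π : Equiv.Perm α, π ∈ G → 4 ≤ (π.support)ᶜ.card → π = 1 := by
    intro π hπ h4
    by_contra hne
    have h1 := Equiv.Perm.two_le_card_support_of_ne_one hne
    have h2 : π.support.card + π.supportᶜ.card = 7 := by rw [Finset.card_add_card_compl, hα]
    have h3 : π.support.card = 2 ∨ π.support.card = 3 := by omega
    rcases h3 with h3 | h3
    · rw [Equiv.Perm.card_support_eq_two] at h3
      have h5 := Equiv.Perm.subgroup_eq_top_of_isPreprimitive_of_isSwap_mem hprim π h3 hπ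
      apply hA
      rw [h5]
      exact le_top
    · rw [card_support_eq_three_iff] at h3
      exact hA (Equiv.Perm.alternatingGroup_le_of_isPreprimitive_of_isThreeCycle_mem hprim h3 hπ)
  -- four points
  obtain ⟨e, -⟩ : ∃ e : α ≃ Fin 7, e = Fintype.equivFinOfCardEq hα := ⟨_, rfl⟩
  obtain ⟨a, ha⟩ : ∃ a, a = e.symm 0 := ⟨_, rfl⟩
  obtain ⟨b, hb⟩ : ∃ b, b = e.symm 1 := ⟨_, rfl⟩
  obtain ⟨c, hc⟩ : ∃ c, c = e.symm 2 := ⟨_, rfl⟩
  obtain ⟨d, hd⟩ : ∃ d, d = e.symm 3 := ⟨_, rfl⟩
  have hab : a ≠ b := by rw [ha, hb]; exact e.symm.injective.ne (by decide)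
  have hac : a ≠ c := by rw [ha, hc]; exact e.symm.injective.ne (by decide)
  have had : a ≠ d := by rw [ha, hd]; exact e.symm.injective.ne (by decide)
  have hbc : b ≠ c := by rw [hb, hc]; exact e.symm.injective.ne (by decide)
  have hbd : b ≠ d := by rw [hb, hd]; exact e.symm.injective.ne (by decide)
  have hcd : c ≠ d := by rw [hc, hd]; exact e.symm.injective.ne (by decide)
  clear ha hb hc hd
  -- the chain of stabilisers
  obtain ⟨S1, hS1⟩ : ∃ S1 : Subgroup G, S1 = stabilizer G a := ⟨_, rfl⟩
  obtain ⟨H2, hH2⟩ : ∃ H2 : Subgroup G, H2 = S1 ⊓ stabilizer G b := ⟨_, rfl⟩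
  obtain ⟨H3, hH3⟩ : ∃ H3 : Subgroup G, H3 = H2 ⊓ stabilizer G c := ⟨_, rfl⟩
  have hS1m : ∀ h ∈ S1, (h : Equiv.Perm α) a = a := by
    intro h hh
    rw [hS1, mem_stabilizer_iff] at hh
    exact hh
  have hH2m : ∀ h ∈ H2, (h : Equiv.Perm α) a = a ∧ (h : Equiv.Perm α) b = b := by
    intro h hh
    rw [hH2, Subgroup.mem_inf, mem_stabilizer_iff] at hh
    exact ⟨hS1m h hh.1, hh.2⟩
  have hH3m : ∀ h ∈ H3, (h : Equiv.Perm α) a = a ∧ (h : Equiv.Perm α) b = b ∧
      (h : Equiv.Perm α) c = c := by
    intro h hh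
    rw [hH3, Subgroup.mem_inf, mem_stabilizer_iff] at hh
    exact ⟨(hH2m h hh.1).1, (hH2m h hh.1).2, hh.2⟩
  -- orders
  have hc1 : Nat.card G = Nat.card S1 * 7 := by
    rw [card_eq_stab_mul_orbit (K := G) a, orbit_eq_univ, Set.ncard_univ,
      Nat.card_eq_fintype_card (α := α), hα, hS1]
  have hc2 : Nat.card S1 = Nat.card H2 * 6 := by
    rw [card_inf_stab G S1 b, ← hH2]
    congr 1
    have h1 := orbit_ncard_eq G S1 {a} (by
      intro h hh y hy
      rw [Finset.mem_singleton] at hy
      rw [hy]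
      exact hS1m h hh) b (by
      rw [Finset.mem_singleton]
      exact hab.symm) (by
      intro y hy
      rw [Finset.mem_singleton] at hy
      obtain ⟨g, hg1, hg2⟩ := is_two_pretransitive_iff.mp h2t hab (Ne.symm hy)
      refine ⟨g, ?_, hg2⟩
      rw [hS1, mem_stabilizer_iff]
      exact hg1)
    rw [Finset.card_singleton, hα] at h1
    omega
  obtain ⟨o, ho⟩ : ∃ o, o = (orbit H2 c).ncard := ⟨_, rfl⟩
  have hc3 : Nat.card H2 = Nat.card H3 * o := by
    rw [card_inf_stab G H2 c, ← hH3, ho]
  have hF2 : ∀ h ∈ H2, ∀ y ∈ ({a, b} : Finset α), (h : Equiv.Perm α) y = y := by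
    intro h hh y hy
    rw [Finset.mem_insert, Finset.mem_singleton] at hy
    rcases hy with rfl | rfl
    · exact (hH2m h hh).1
    · exact (hH2m h hh).2
  have hcF2 : c ∉ ({a, b} : Finset α) := by
    rw [Finset.mem_insert, Finset.mem_singleton]
    rintro (h | h)
    · exact hac h.symm
    · exact hbc h.symm
  have ho1 : 1 ≤ o := by rw [ho]; exact orbit_ncard_pos G H2 c
  have ho5 : o ≤ 5 := by
    have h1 := orbit_ncard_le G H2 {a, b} hF2 c hcF2
    rw [Finset.card_pair hab, hα] at h1
    omega
  obtain ⟨m, hm⟩ : ∃ m, m = (orbit H3 d).ncard := ⟨_, rfl⟩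
  have hc4 : Nat.card H3 = m := by
    rw [card_inf_stab G H3 d, ← hm]
    have h1 : H3 ⊓ stabilizer G d = ⊥ := by
      rw [Subgroup.eq_bot_iff_forall]
      intro h hh
      rw [Subgroup.mem_inf, mem_stabilizer_iff] at hh
      obtain ⟨h1, h2, h3⟩ := hH3m h hh.1
      have h4 : (h : Equiv.Perm α) d = d := hh.2
      apply Subtype.ext
      apply hJ _ h.2
      have h5 : ({a, b, c, d} : Finset α) ⊆ ((h : Equiv.Perm α).support)ᶜ := by
        intro y hy
        rw [Finset.mem_compl, Equiv.Perm.mem_support, not_not]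
        simp only [Finset.mem_insert, Finset.mem_singleton] at hy
        rcases hy with rfl | rfl | rfl | rfl
        · exact h1
        · exact h2
        · exact h3
        · exact h4
      have h6 := Finset.card_le_card h5
      have h7 : ({a, b, c, d} : Finset α).card = 4 := by
        rw [Finset.card_insert_of_notMem, Finset.card_insert_of_notMem, Finset.card_pair hcd]
        · simp only [Finset.mem_insert, Finset.mem_singleton]
          rintro (h | h)
          · exact hbc h
          · exact hbd h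
        · simp only [Finset.mem_insert, Finset.mem_singleton]
          rintro (h | h | h)
          · exact hab h
          · exact hac h
          · exact had h
      omega
    rw [h1, Subgroup.card_bot, one_mul]
  have hF3 : ∀ h ∈ H3, ∀ y ∈ ({a, b, c} : Finset α), (h : Equiv.Perm α) y = y := by
    intro h hh y hy
    simp only [Finset.mem_insert, Finset.mem_singleton] at hy
    rcases hy with rfl | rfl | rfl
    · exact (hH3m h hh).1
    · exact (hH3m h hh).2.1
    · exact (hH3m h hh).2.2
  have hdF3 : d ∉ ({a, b, c} : Finset α) := by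
    simp only [Finset.mem_insert, Finset.mem_singleton]
    rintro (h | h | h)
    · exact had h.symm
    · exact hbd h.symm
    · exact hcd h.symm
  have hcard3 : ({a, b, c} : Finset α).card = 3 := by
    rw [Finset.card_insert_of_notMem, Finset.card_pair hbc]
    simp only [Finset.mem_insert, Finset.mem_singleton]
    rintro (h | h)
    · exact hab h
    · exact hac h
  have hm1 : 1 ≤ m := by rw [hm]; exact orbit_ncard_pos G H3 d
  have hm4 : m ≤ 4 := by
    have h1 := orbit_ncard_le G H3 {a, b, c} hF3 d hdF3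
    rw [hcard3, hα] at h1
    omega
  have hm3 : ¬ 3 ∣ m := by
    intro h3
    rw [← hc4] at h3
    have : Fact (Nat.Prime 3) := ⟨by norm_num⟩
    obtain ⟨g, hg⟩ := exists_prime_orderOf_dvd_card' 3 h3
    have hg3 : ((g : G) : Equiv.Perm α) ^ 3 ^ 1 = 1 := by
      rw [pow_one, ← Subgroup.coe_pow, ← Subgroup.coe_pow, ← hg, pow_orderOf_eq_one]
      rfl
    have h1 := Equiv.Perm.card_compl_support_modEq (p := 3) (n := 1) hg3
    rw [hα] at h1
    unfold Nat.ModEq at h1
    obtain ⟨h2, h3, h4⟩ := hH3m g.1 g.2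
    have h5 : ({a, b, c} : Finset α) ⊆ (((g : G) : Equiv.Perm α).support)ᶜ := by
      intro y hy
      rw [Finset.mem_compl, Equiv.Perm.mem_support, not_not]
      simp only [Finset.mem_insert, Finset.mem_singleton] at hy
      rcases hy with rfl | rfl | rfl
      · exact h2
      · exact h3
      · exact h4
    have h6 := Finset.card_le_card h5
    rw [hcard3] at h6
    have h7 : ((g : G) : Equiv.Perm α) = 1 := hJ _ (g : G).2 (by omega)
    have h8 : g = 1 := by
      apply Subtype.ext
      apply Subtype.ext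
      exact h7
    rw [h8, orderOf_one] at hg
    omega
  -- Sylow 7-subgroups
  obtain ⟨P⟩ := (inferInstance : Nonempty (Sylow 7 G))
  obtain ⟨dd, hdd, hN⟩ := card_normalizer hα G P
  have hn := card_sylow_modEq_one 7 G
  rw [Sylow.card_eq_index_normalizer P] at hn
  have hmul := Subgroup.card_mul_index (Subgroup.normalizer ((P : Subgroup G) : Set G))
  rw [hN] at hmul
  unfold Nat.ModEq at hn
  have hn' : (Subgroup.normalizer ((P : Subgroup G) : Set G)).index % 7 = 1 := hn
  -- 3-transitivity when the normaliser has even order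
  have h3o : Even dd → o = 5 := by
    intro hev
    have heven : Even (Nat.card (Subgroup.normalizer ((P : Subgroup G) : Set G))) := by
      rw [hN]
      exact hev.mul_left 7
    have h3t := Cfsg.Agent.S0676.result hα G hG P heven
    have h1 := orbit_ncard_eq G H2 {a, b} hF2 c hcF2 (by
      intro y hy
      rw [Finset.mem_insert, Finset.mem_singleton] at hy
      push Not at hy
      obtain ⟨g, hg1, hg2, hg3⟩ := exists_map3 h3t a b c a b y hab hac hbc hab
        (Ne.symm hy.1) (Ne.symm hy.2)
      refine ⟨g, ?_, hg3⟩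
      rw [hH2, Subgroup.mem_inf, hS1, mem_stabilizer_iff, mem_stabilizer_iff]
      exact ⟨hg1, hg2⟩)
    rw [Finset.card_pair hab, hα, ← ho] at h1
    omega
  have hdd6 : dd ≤ 6 := Nat.le_of_dvd (by norm_num) hdd
  generalize (Subgroup.normalizer ((P : Subgroup G) : Set G)).index = n at hmul hn'
  have hdd' : dd = 1 ∨ dd = 2 ∨ dd = 3 ∨ dd = 6 := by
    interval_cases dd <;> omega
  rcases hdd' with rfl | rfl | rfl | rfl
  · have h7 := card_eq_of_normalizer hα G P (by rw [hN])
    exfalso
    interval_cases o <;> interval_cases m <;> omega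
  · have ho5' := h3o (by decide)
    subst ho5'
    have h210 : Nat.card G = 210 := by
      interval_cases m <;> omega
    exact absurd h210 (card_ne_210 hα G)
  · interval_cases o <;> interval_cases m <;> omega
  · have ho5' := h3o (by decide)
    subst ho5'
    exfalso
    interval_cases m <;> omega

end

/-- A non-solvable transitive permutation group on 7 points that does not contain the alternating group is a simple group of order 168. -/
theorem result {α : Type*} [Fintype α] [DecidableEq α] (hα : Fintype.card α = 7) (G : Subgroup (Equiv.Perm α)) [MulAction.IsPretransitive G α] (hG : ¬ Group.IsSolvable G) (hA : ¬ alternatingGroup α ≤ G) : Nat.card G = 168 ∧ IsSimpleGroup G := by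
  classical
  have : Fact (Nat.Prime 7) := ⟨by norm_num⟩
  have hcard := card_eq hα G hG hA
  refine ⟨hcard, ?_⟩
  have hnt : Nontrivial G := by
    have : 1 < Nat.card G := by rw [hcard]; norm_num
    exact Finite.one_lt_card_iff_nontrivial.mp this
  refine IsSimpleGroup.mk ?_
  intro K hKn
  by_contra hcon
  push Not at hcon
  obtain ⟨hKbot, hKtop⟩ := hcon
  have htr := isPretransitive_map_of_normal hα G K hKbot
  have hK'le : K.map G.subtype ≤ G := by
    rintro x ⟨k, -, rfl⟩
    exact k.2
  have hA' : ¬ alternatingGroup α ≤ K.map G.subtype := fun h => hA (h.trans hK'le)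
  have hcardK' : Nat.card (K.map G.subtype) = Nat.card K :=
    Subgroup.card_map_of_injective (Subgroup.subtype_injective G)
  by_cases hsol : Group.IsSolvable (K.map G.subtype)
  · have hKsol : Group.IsSolvable K :=
      Group.isSolvable_of_isSolvable_injective
        (f := (K.equivMapOfInjective G.subtype (Subgroup.subtype_injective G)).toMonoidHom)
        (MulEquiv.injective _)
    have h7 : 7 ∣ Nat.card K := dvd_card_of_normal hα G K hKbot
    have hidx : Nat.card K * K.index = 168 := by rw [Subgroup.card_mul_index, hcard]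
    have hQ : Group.IsSolvable (G ⧸ K) := by
      have hQcard : Nat.card (G ⧸ K) = K.index := rfl
      obtain ⟨x, y, hxy⟩ : ∃ x y, K.index = 2 ^ x * 3 ^ y := by
        obtain ⟨t, ht⟩ := h7
        rw [ht] at hidx
        have h24 : t * K.index = 24 := by nlinarith
        have hdvd : K.index ∣ 24 := Dvd.intro_left _ h24
        have hle : K.index ≤ 24 := Nat.le_of_dvd (by norm_num) hdvd
        generalize K.index = n at hdvd hle
        interval_cases n <;> first | exact ⟨0, 0, rfl⟩ | exact ⟨1, 0, rfl⟩ | exact ⟨0, 1, rfl⟩ | exact ⟨2, 0, rfl⟩ | exact ⟨1, 1, rfl⟩ | exact ⟨3, 0, rfl⟩ | exact ⟨2, 1, rfl⟩ | exact ⟨3, 1, rfl⟩ | (exfalso; revert hdvd; decide)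
      exact Cfsg.Agent.S0144.result 2 3 x y (by norm_num) (by norm_num) (hQcard.trans hxy)
    exact hG ((Group.isSolvable_iff_subgroup_quotient K).mpr ⟨hKsol, hQ⟩)
  · have h168 := card_eq hα (K.map G.subtype) hsol hA'
    apply hKtop
    apply Subgroup.eq_top_of_card_eq
    rw [← hcardK', h168, hcard]

end Cfsg.Agent.S0678
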