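import Mathlib
import Cfsg.Statements.S4116

set_option autoImplicit false
open Cfsg

namespace Cfsg.Agent.S4116

open MulAction in
/-- A finite group acting on a finite nonempty set such that every non-identity element has exactly
one fixed point has a global fixed point. -/
theorem exists_global_fixed {K Ω : Type*} [Group K] [Finite K] [MulAction K Ω] [Finite Ω] [Nonempty Ω]
    (h : ∀ k : K, k ≠ 1 → ∃! ω : Ω, k • ω = ω) : ∃ ω : Ω, ∀ k : K, k • ω = ω := by
  classical
  have := Fintype.ofFinite K
  have := Fintype.ofFinite Ω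
  by_contra hno
  push Not at hno
  set n := Fintype.card K with hn
  have hn2 : 2 ≤ n := by
    obtain ⟨ω⟩ := ‹Nonempty Ω›
    obtain ⟨k, hk⟩ := hno ω
    have hk1 : k ≠ 1 := by
      rintro rfl
      exact hk (one_smul _ _)
    have : 1 < Fintype.card K := Fintype.one_lt_card_iff_nontrivial.mpr ⟨⟨k, 1, hk1⟩⟩
    exact this
  -- Burnside
  have hB := MulAction.sum_card_fixedBy_eq_card_orbits_mul_card_group K Ω
  -- class formula
  have hC := MulAction.card_eq_sum_card_group_div_card_stabilizer K Ω
  have hfix1 : ∀ k : K, k ≠ 1 → Fintype.card (fixedBy Ω k) = 1 := by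
    intro k hk
    obtain ⟨ω, hω, huniq⟩ := h k hk
    rw [Fintype.card_eq_one_iff]
    exact ⟨⟨ω, hω⟩, fun y => Subtype.ext (huniq y.1 y.2)⟩
  have hfix0 : Fintype.card (fixedBy Ω (1 : K)) = Fintype.card Ω := by
    apply Fintype.card_of_bijective (f := fun x : fixedBy Ω (1 : K) => (x : Ω))
    constructor
    · exact Subtype.val_injective
    · intro ω
      exact ⟨⟨ω, by simp⟩, rfl⟩
  have hsum : (∑ k : K, Fintype.card (fixedBy Ω k)) = Fintype.card Ω + (n - 1) := by
    rw [← Finset.add_sum_erase Finset.univ _ (Finset.mem_univ (1 : K)), hfix0]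
    congr 1
    rw [Finset.sum_congr rfl (fun k hk => hfix1 k (Finset.ne_of_mem_erase hk))]
    simp [hn]
  rw [hsum] at hB
  rw [← hn] at hB
  let s : Quotient (orbitRel K Ω) → ℕ := fun q => Fintype.card (stabilizer K q.out)
  let d : Quotient (orbitRel K Ω) → ℕ := fun q => n / s q
  have hsdvd : ∀ q, s q ∣ n := by
    intro q
    have := Subgroup.card_subgroup_dvd_card (stabilizer K q.out)
    simpa [s, hn, Nat.card_eq_fintype_card] using this
  have hspos : ∀ q, 0 < s q := fun q => Fintype.card_pos
  have hsne : ∀ q, s q ≠ n := by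
    intro q hsq
    have htop : stabilizer K q.out = ⊤ := by
      apply Subgroup.eq_top_of_card_eq
      simpa [s, hn, Nat.card_eq_fintype_card] using hsq
    obtain ⟨k, hk⟩ := hno q.out
    apply hk
    have : k ∈ stabilizer K q.out := by rw [htop]; exact Subgroup.mem_top k
    exact this
  have hd2 : ∀ q, 2 ≤ d q := by
    intro q
    obtain ⟨c, hc⟩ := hsdvd q
    have hsq := hspos q
    have : d q = c := by
      simp only [d]; rw [hc]; exact Nat.mul_div_cancel_left c hsq
    rw [this]
    by_contra hlt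
    push Not at hlt
    interval_cases c
    · omega
    · exact hsne q (by omega)
  have hdle : ∀ q, d q ≤ n := fun q => Nat.div_le_self _ _
  have hdn : ∀ q, d q ≠ n → 2 * d q ≤ n := by
    intro q hq
    obtain ⟨c, hc⟩ := hsdvd q
    have hsq := hspos q
    have hdc : d q = c := by
      simp only [d]; rw [hc]; exact Nat.mul_div_cancel_left c hsq
    rw [hdc] at hq ⊢
    have hs2 : 2 ≤ s q := by
      by_contra hlt
      have : s q = 1 := by omega
      rw [this] at hc
      omega
    calc 2 * c ≤ s q * c := Nat.mul_le_mul_right c hs2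
      _ = n := hc.symm
  -- g q = n - d q
  let g : Quotient (orbitRel K Ω) → ℕ := fun q => n - d q
  have hg : ∀ q, g q = 0 ∨ n ≤ 2 * g q := by
    intro q
    by_cases hq : d q = n
    · left; simp [g, hq]
    · right
      have := hdn q hq
      simp only [g]; omega
  have hgd : ∀ q, g q + d q = n := fun q => by simp only [g]; have := hdle q; omega
  have hsumg : (∑ q : Quotient (orbitRel K Ω), g q) + Fintype.card Ω = Fintype.card (Quotient (orbitRel K Ω)) * n := by
    rw [hC, ← Finset.sum_add_distrib]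
    have : ∀ q : Quotient (orbitRel K Ω), g q + Fintype.card K / Fintype.card (stabilizer K q.out) = n := fun q => hgd q
    rw [Finset.sum_congr rfl (fun q _ => this q)]
    simp [Finset.sum_const, Finset.card_univ]
  have hsumg' : (∑ q : Quotient (orbitRel K Ω), g q) + 1 = n := by
    simp only [Fintype.card_eq_nat_card] at hB hsumg
    omega
  have hne : (∑ q : Quotient (orbitRel K Ω), g q) ≠ 0 := by omega
  obtain ⟨q₀, -, hq₀⟩ := Finset.exists_ne_zero_of_sum_ne_zero hne
  have h0 : n ≤ 2 * g q₀ := (hg q₀).resolve_left hq₀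
  have hg0le : g q₀ + 2 ≤ n := by
    have := hd2 q₀
    have := hgd q₀
    omega
  rw [← Finset.add_sum_erase Finset.univ _ (Finset.mem_univ q₀)] at hsumg'
  have hne' : (∑ q ∈ Finset.univ.erase q₀, g q) ≠ 0 := by omega
  obtain ⟨q₁, hq₁mem, hq₁⟩ := Finset.exists_ne_zero_of_sum_ne_zero hne'
  have h1 : n ≤ 2 * g q₁ := (hg q₁).resolve_left hq₁
  have h1le : g q₁ ≤ ∑ q ∈ Finset.univ.erase q₀, g q :=
    Finset.single_le_sum (f := g) (fun _ _ => Nat.zero_le _) hq₁mem
  omega


/-- Let G be a finite group with a subgroup H whose order is coprime to its index (a Hall subgroup) and which meets each of its conjugates by elements outside N_G(H) trivially. Then every subgroup of G whose order is divisible only by primes dividing the order of H lies in a conjugate of H. -/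
theorem result {G : Type*} [Group G] [Finite G] (H : Subgroup G)
    (hHall : (Nat.card H).Coprime H.index) (hTI : Cfsg.IsTISubset (H : Set G))
    (K : Subgroup G) (hK : ∀ q : ℕ, q.Prime → q ∣ Nat.card K → q ∣ Nat.card H) :
    ∃ g : G, K ≤ H.map (MulAut.conj g).toMonoidHom := by
  classical
  set N := Subgroup.normalizer (H : Set G) with hN
  -- the order of K is coprime to the index of H
  have hcop : (Nat.card K).Coprime H.index := by
    by_contra hc
    obtain ⟨q, hq, hqK, hqi⟩ := Nat.Prime.not_coprime_iff_dvd.mp hc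
    have hqH := hK q hq hqK
    have h1 := Nat.dvd_gcd hqH hqi
    rw [hHall.gcd_eq_one] at h1
    exact hq.one_lt.ne' (Nat.dvd_one.mp h1)
  -- elements of N of order coprime to the index of H lie in H
  have key2 : ∀ y : G, y ∈ N → (orderOf y).Coprime H.index → y ∈ H := by
    intro y hy hco
    have h1 : (⟨y, hy⟩ : N) ^ (H.subgroupOf N).index ∈ H.subgroupOf N :=
      Subgroup.pow_index_mem _ _
    have h2 : y ^ (H.relIndex N) ∈ H := by
      simpa [Subgroup.mem_subgroupOf, Subgroup.relIndex] using h1
    have h3 : (H.relIndex N).Coprime (orderOf y) :=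
      (hco.coprime_dvd_right (Subgroup.relIndex_dvd_index_of_le Subgroup.le_normalizer)).symm
    obtain ⟨m, hm⟩ := exists_pow_eq_self_of_coprime h3
    rw [← hm]
    exact H.pow_mem h2 m
  have hordK : ∀ k : K, ∀ g : G, (orderOf (g⁻¹ * (k : G) * g)).Coprime H.index := by
    intro k g
    have h1 : orderOf (g⁻¹ * (k : G) * g) = orderOf (k : G) := by
      have := MulEquiv.orderOf_eq (MulAut.conj g⁻¹) (k : G)
      simpa [MulAut.conj_apply] using this
    rw [h1]
    have h2 : orderOf (k : G) ∣ Nat.card K := by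
      rw [Subgroup.orderOf_coe]
      exact orderOf_dvd_natCard k
    exact hcop.coprime_dvd_left h2
  -- fixed point condition
  have hfixiff : ∀ (k : K) (g : G), k • (g : G ⧸ N) = (g : G ⧸ N) ↔ g⁻¹ * (k : G) * g ∈ N := by
    intro k g
    have : k • (g : G ⧸ N) = (((k : G) * g : G) : G ⧸ N) := rfl
    rw [this, QuotientGroup.eq]
    constructor
    · intro h
      have := N.inv_mem h
      simpa [mul_assoc] using this
    · intro h
      have := N.inv_mem h
      simpa [mul_assoc] using this
  have hfp : ∀ k : K, k ≠ 1 → ∃! ω : G ⧸ N, k • ω = ω := by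
    intro k hk
    have hy1 : (k : G) ≠ 1 := fun h => hk (Subtype.ext h)
    -- existence
    have hex : ∃ g : G, g⁻¹ * (k : G) * g ∈ N := by
      have hord1 : orderOf (k : G) ≠ 1 := fun h => hy1 (orderOf_eq_one_iff.mp h)
      have hord0 : orderOf (k : G) ≠ 0 := (orderOf_pos (k : G)).ne'
      set p := (orderOf (k : G)).minFac with hp
      have hpp : p.Prime := Nat.minFac_prime hord1
      have : Fact p.Prime := ⟨hpp⟩
      have hpd : p ∣ orderOf (k : G) := Nat.minFac_dvd _
      set z := (k : G) ^ (orderOf (k : G) / p) with hz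
      have hzord : orderOf z = p := orderOf_pow_orderOf_div hord0 hpd
      have hpK : p ∣ Nat.card K := by
        refine hpd.trans ?_
        rw [Subgroup.orderOf_coe]
        exact orderOf_dvd_natCard k
      have hpidx : ¬ p ∣ H.index := by
        intro hpi
        have h1 := Nat.dvd_gcd hpK hpi
        rw [hcop.gcd_eq_one] at h1
        exact hpp.one_lt.ne' (Nat.dvd_one.mp h1)
      have hpg : IsPGroup p (Subgroup.zpowers z) := by
        apply IsPGroup.of_card (n := 1)
        rw [Nat.card_zpowers, hzord, pow_one]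
      obtain ⟨ω, hω⟩ := hpg.nonempty_fixed_point_of_prime_not_dvd_card (G ⧸ H) hpidx
      obtain ⟨g, rfl⟩ := QuotientGroup.mk_surjective ω
      have hzg : g⁻¹ * z * g ∈ H := by
        have h1 := hω ⟨z, Subgroup.mem_zpowers z⟩
        have h2 : (⟨z, Subgroup.mem_zpowers z⟩ : Subgroup.zpowers z) • (g : G ⧸ H)
            = ((z * g : G) : G ⧸ H) := rfl
        rw [h2, QuotientGroup.eq] at h1
        have := H.inv_mem h1
        simpa [mul_assoc] using this
      refine ⟨g, ?_⟩
      by_contra hnot
      have hz1 : g⁻¹ * z * g = 1 := by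
        apply hTI _ hnot _ hzg
        have hcomm : (k : G) * z = z * (k : G) := by
          rw [hz, ← pow_succ', ← pow_succ]
        have : g⁻¹ * (k : G) * g * (g⁻¹ * z * g) * (g⁻¹ * (k : G) * g)⁻¹ = g⁻¹ * z * g := by
          have : g⁻¹ * (k : G) * g * (g⁻¹ * z * g) * (g⁻¹ * (k : G) * g)⁻¹
              = g⁻¹ * ((k : G) * z) * (k : G)⁻¹ * g := by group
          rw [this, hcomm]; group
        rw [this]
        exact hzg
      have hz1' : z = 1 := by
        have : z = g * (g⁻¹ * z * g) * g⁻¹ := by group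
        rw [this, hz1]; group
      rw [hz1', orderOf_one] at hzord
      exact hpp.one_lt.ne' hzord.symm
    obtain ⟨g, hg⟩ := hex
    refine ⟨(g : G ⧸ N), (hfixiff k g).mpr hg, ?_⟩
    intro ω hω
    obtain ⟨g₂, rfl⟩ := QuotientGroup.mk_surjective ω
    have hg₂ := (hfixiff k g₂).mp hω
    have hk₁ : g⁻¹ * (k : G) * g ∈ H := key2 _ hg (hordK k g)
    have hk₂ : g₂⁻¹ * (k : G) * g₂ ∈ H := key2 _ hg₂ (hordK k g₂)
    -- t = g₂⁻¹ * g conjugates k₁ to k₂
    have ht : g₂⁻¹ * g ∈ N := by
      by_contra hnot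
      have h1 : g⁻¹ * (k : G) * g = 1 := by
        apply hTI _ hnot _ hk₁
        have : g₂⁻¹ * g * (g⁻¹ * (k : G) * g) * (g₂⁻¹ * g)⁻¹ = g₂⁻¹ * (k : G) * g₂ := by group
        rw [this]
        exact hk₂
      apply hy1
      have : (k : G) = g * (g⁻¹ * (k : G) * g) * g⁻¹ := by group
      rw [this, h1]; group
    exact (QuotientGroup.eq.mpr ht)
  obtain ⟨ω, hω⟩ := exists_global_fixed hfp
  obtain ⟨g, rfl⟩ := QuotientGroup.mk_surjective ω
  refine ⟨g, ?_⟩
  intro y hy
  have h1 : g⁻¹ * y * g ∈ N := (hfixiff ⟨y, hy⟩ g).mp (hω ⟨y, hy⟩)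
  have h2 : g⁻¹ * y * g ∈ H := key2 _ h1 (hordK ⟨y, hy⟩ g)
  refine ⟨g⁻¹ * y * g, h2, ?_⟩
  simp only [MulEquiv.coe_toMonoidHom, MulAut.conj_apply]
  group

end Cfsg.Agent.S4116
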