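import Cfsg.Statements.S3056
import Cfsg.Agent.Lib.Helper51.SylowGraph

set_option autoImplicit false
open Cfsg

namespace Cfsg.Agent.S3056

/-- Let G be a finite group and p a prime. Join two Sylow p-subgroups when they are distinct and meet nontrivially. This graph on the Sylow p-subgroups is disconnected (the Sylow p-subgroups are not chain-connected through nontrivial intersections) if and only if G has a strongly p-embedded subgroup in the classical sense: a proper subgroup H of order divisible by p such that H ∩ gHg⁻¹ has order prime to p for every g outside H. -/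
theorem result {G : Type*} [Group G] [Finite G]
    (p : ℕ) [Fact p.Prime] :
    ¬ Cfsg.IsSylowChainConnected p G ↔
      ∃ H : Subgroup G, H ≠ ⊤ ∧ p ∣ Nat.card H ∧
        ∀ g : G, g ∉ H → ¬ p ∣ Nat.card ↥(H ⊓ H.map (MulAut.conj g).toMonoidHom) := by
  rw [Cfsg.Agent.Lib.Helper51.isSylowChainConnected_iff]
  constructor
  · intro h
    have h' : ∃ S T : Sylow p G, ¬ Relation.ReflTransGen (Cfsg.Agent.Lib.Helper51.sylAdj p) S T := by
      by_contra hcon
      apply h
      intro S T
      by_contra hST
      exact hcon ⟨S, T, hST⟩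
    obtain ⟨S, T, hST⟩ := h'
    obtain ⟨H, _, h1, h2, h3⟩ := Cfsg.Agent.Lib.Helper51.exists_spe_of_not_conn hST
    exact ⟨H, h1, h2, h3⟩
  · rintro ⟨H, h1, h2, h3⟩
    exact Cfsg.Agent.Lib.Helper51.not_conn_of_spe h1 h2 h3

end Cfsg.Agent.S3056
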