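import Cfsg.Statements.S4667
import Cfsg.Agent.S0952
import Cfsg.Agent.Lib.Helper3.CharCore
import Cfsg.Agent.Lib.Helper77.CharBasic
import Cfsg.Agent.Lib.Helper16.BlockBasic
import Cfsg.Agent.Lib.Helper81.CharCore

set_option autoImplicit false
open Cfsg

namespace Cfsg.Agent.S4667

/-- Fix a prime p and a maximal ideal M of the algebraic integers containing p, and a p-block B of the finite group G. The p-regular rank of B (the number of irreducible Brauer characters in B) times the order of G equals the sum over the p-regular elements x of G of Σ_{χ ∈ B} χ(x) χ(x⁻¹) (written with the restriction of χ to p-regular elements, which vanishes at p-singular x). -/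
theorem result {G : Type*} [Group G] [Fintype G] (p : ℕ) [Fact p.Prime] (M : Ideal Cfsg.AlgInt) (hM : Cfsg.IsPModular p M) (B : Set (Cfsg.IrrCharacter G)) (hB : Cfsg.IsPBlock M B) : (Nat.card G : ℂ) * (Cfsg.blockRank p B : ℂ) = ∑ x : G, ∑ᶠ χ ∈ B, Cfsg.pRegularPart p (χ : G → ℂ) x * (χ : G → ℂ) x⁻¹ := by
  classical
  have hfin := Cfsg.Agent.Lib.Helper81.irr_finite (G := G)
  let _ := Fintype.ofFinite (Cfsg.IrrCharacter G)
  have hPr := Cfsg.Agent.Lib.Helper16.isPrime_of_isPModular hM
  have hG : (Nat.card G : ℂ) ≠ 0 := by exact_mod_cast Nat.card_pos.ne'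
  -- the linear map `pRegularPart`
  let R : (G → ℂ) →ₗ[ℂ] (G → ℂ) :=
    { toFun := fun f => Cfsg.pRegularPart p f
      map_add' := by
        intro f g
        funext x
        by_cases hx : Cfsg.IsPRegular p x <;> simp [Cfsg.pRegularPart, hx]
      map_smul' := by
        intro c f
        funext x
        by_cases hx : Cfsg.IsPRegular p x <;> simp [Cfsg.pRegularPart, hx] }
  have hRapp : ∀ f : G → ℂ, R f = Cfsg.pRegularPart p f := fun f => rfl
  have hRR : ∀ f : G → ℂ, R (R f) = R f := by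
    intro f
    funext x
    by_cases hx : Cfsg.IsPRegular p x <;> simp [hRapp, Cfsg.pRegularPart, hx]
  let χf : B → (G → ℂ) := fun j => ((j : Cfsg.IrrCharacter G) : G → ℂ)
  let A : Matrix B B ℂ := fun j i =>
    Cfsg.Agent.Lib.Helper3.pair (Cfsg.pRegularPart p (χf i)) (χf j)
  let Φ : (B → ℂ) →ₗ[ℂ] (G → ℂ) := Fintype.linearCombination ℂ χf
  have hΦapp : ∀ v : B → ℂ, Φ v = ∑ j : B, v j • χf j := fun v =>
    Fintype.linearCombination_apply ℂ χf v
  -- injectivity of Φ
  have hli : LinearIndependent ℂ χf :=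
    (Cfsg.Agent.Lib.Helper77.irr_linearIndependent G).comp (fun j : B => (j : Cfsg.IrrCharacter G))
      Subtype.val_injective
  have hΦinj : Function.Injective Φ := by
    rw [injective_iff_map_eq_zero]
    intro v hv
    rw [hΦapp] at hv
    funext i
    exact Fintype.linearIndependent_iff.1 hli v hv i
  -- pRegularPart of a class function is a class function
  have hcls : ∀ i : B, Cfsg.IsClassFunction G (Cfsg.pRegularPart p (χf i)) := by
    intro i g x
    have h1 : orderOf (x * g * x⁻¹) = orderOf g := by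
      have := orderOf_injective (MulAut.conj x).toMonoidHom (MulAut.conj x).injective g
      simpa using this
    have h2 : χf i (x * g * x⁻¹) = χf i g :=
      Cfsg.Agent.Lib.Helper81.irr_conj_class (i : Cfsg.IrrCharacter G) g x
    show Cfsg.pRegularPart p (χf i) (x * g * x⁻¹) = Cfsg.pRegularPart p (χf i) g
    unfold Cfsg.pRegularPart Cfsg.IsPRegular
    rw [h1, h2]
  -- vanishing of the pairing outside the block
  have hzero : ∀ (i : B) (ψ : Cfsg.IrrCharacter G), ψ ∉ B →
      Cfsg.Agent.Lib.Helper3.pair (Cfsg.pRegularPart p (χf i)) (ψ : G → ℂ) = 0 := by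
    intro i ψ hψ
    obtain ⟨χ0, hχ0⟩ := hB
    have hi : Cfsg.SameBlock M (χ0 : G → ℂ) (χf i) := by
      have h' : (i : Cfsg.IrrCharacter G) ∈ Cfsg.blockOf M (χ0 : G → ℂ) := by
        rw [← hχ0]
        exact i.2
      exact h'
    have hns : ¬ Cfsg.SameBlock M (χf i) (ψ : G → ℂ) := by
      intro hs
      apply hψ
      rw [hχ0]
      exact Cfsg.Agent.Lib.Helper16.sameBlock_trans hPr hi hs
    have h := Cfsg.Agent.S0952.result p M hM (i : Cfsg.IrrCharacter G) ψ hns
    rw [Cfsg.Agent.Lib.Helper16.finsum_mem_eq_sum_ite] at h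
    unfold Cfsg.Agent.Lib.Helper3.pair
    have e : ∑ g : G, Cfsg.pRegularPart p (χf i) g * (ψ : G → ℂ) g⁻¹ = 0 := by
      rw [← h]
      refine Finset.sum_congr rfl fun g _ => ?_
      rw [Cfsg.Agent.Lib.Helper81.irr_inv]
      by_cases hg : p ∣ orderOf g
      · simp [Cfsg.pRegularPart, Cfsg.IsPRegular, hg]
      · simp [Cfsg.pRegularPart, Cfsg.IsPRegular, hg, χf]
    rw [e, mul_zero]
  -- expansion of the regular parts
  have hexp : ∀ i : B, Cfsg.pRegularPart p (χf i) = ∑ j : B, A j i • χf j := by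
    intro i
    have h := Cfsg.Agent.Lib.Helper3.classFunction_expansion (hcls i)
    have h2 : ∑ χ : Cfsg.IrrCharacter G,
        Cfsg.Agent.Lib.Helper3.pair (Cfsg.pRegularPart p (χf i)) (χ : G → ℂ) • (χ : G → ℂ)
        = ∑ j : B, A j i • χf j := by
      rw [← Finset.sum_subtype (Finset.univ.filter (fun χ : Cfsg.IrrCharacter G => χ ∈ B))
        (p := fun χ => χ ∈ B) (by intro x; simp)
        (fun χ : Cfsg.IrrCharacter G =>
          Cfsg.Agent.Lib.Helper3.pair (Cfsg.pRegularPart p (χf i)) (χ : G → ℂ) • (χ : G → ℂ))]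
      rw [Finset.sum_filter]
      refine Finset.sum_congr rfl fun χ _ => ?_
      by_cases hχ : χ ∈ B
      · rw [if_pos hχ]
      · rw [if_neg hχ, hzero i χ hχ, zero_smul]
    rw [← h2]
    exact h
  -- intertwining
  let L : (B → ℂ) →ₗ[ℂ] (B → ℂ) := Matrix.toLin' A
  have hinter : ∀ v : B → ℂ, Φ (L v) = R (Φ v) := by
    intro v
    rw [hΦapp, hΦapp, map_sum]
    have e1 : ∀ i : B, R (v i • χf i) = ∑ j : B, (v i * A j i) • χf j := by
      intro i
      rw [map_smul, hRapp, hexp i, Finset.smul_sum]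
      refine Finset.sum_congr rfl fun j _ => ?_
      rw [smul_smul]
    rw [Finset.sum_congr rfl (fun i _ => e1 i), Finset.sum_comm]
    refine Finset.sum_congr rfl fun j _ => ?_
    rw [← Finset.sum_smul]
    congr 1
    simp only [L, Matrix.toLin'_apply, Matrix.mulVec, dotProduct]
    refine Finset.sum_congr rfl fun i _ => ?_
    ring
  -- idempotent
  have hidem : IsIdempotentElem L := by
    apply LinearMap.ext
    intro v
    apply hΦinj
    rw [Module.End.mul_apply, hinter, hinter, hRR]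
  have htrace : LinearMap.trace ℂ (B → ℂ) L = (Module.finrank ℂ (LinearMap.range L) : ℂ) :=
    (LinearMap.IsIdempotentElem.isProj_range L hidem).trace
  have htrace2 : LinearMap.trace ℂ (B → ℂ) L = A.trace := Matrix.trace_toLin'_eq A
  -- rank
  have hrank : Module.finrank ℂ (LinearMap.range L) = Cfsg.blockRank p B := by
    unfold Cfsg.blockRank
    have e1 : Submodule.map Φ (LinearMap.range L) =
        Submodule.span ℂ ((fun χ : Cfsg.IrrCharacter G => Cfsg.pRegularPart p (χ : G → ℂ)) '' B) := by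
      rw [← LinearMap.range_comp]
      have e2 : Φ ∘ₗ L = R ∘ₗ Φ := LinearMap.ext hinter
      rw [e2, LinearMap.range_comp, Fintype.range_linearCombination, Submodule.map_span]
      congr 1
      ext f
      constructor
      · rintro ⟨_, ⟨j, rfl⟩, rfl⟩
        exact ⟨(j : Cfsg.IrrCharacter G), j.2, rfl⟩
      · rintro ⟨χ, hχ, rfl⟩
        exact ⟨χf ⟨χ, hχ⟩, ⟨⟨χ, hχ⟩, rfl⟩, rfl⟩
    rw [← e1]
    exact (Submodule.equivMapOfInjective Φ hΦinj (LinearMap.range L)).finrank_eq
  -- the right-hand side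
  have hrhs : ∑ x : G, ∑ᶠ χ ∈ B, Cfsg.pRegularPart p (χ : G → ℂ) x * (χ : G → ℂ) x⁻¹
      = (Nat.card G : ℂ) * A.trace := by
    have e1 : ∀ x : G, ∑ᶠ χ ∈ B, Cfsg.pRegularPart p (χ : G → ℂ) x * (χ : G → ℂ) x⁻¹
        = ∑ i : B, Cfsg.pRegularPart p (χf i) x * χf i x⁻¹ := by
      intro x
      rw [← finsum_set_coe_eq_finsum_mem, finsum_eq_sum_of_fintype]
    rw [Finset.sum_congr rfl (fun x _ => e1 x), Finset.sum_comm, Matrix.trace, Finset.mul_sum]
    refine Finset.sum_congr rfl fun i _ => ?_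
    simp only [Matrix.diag, A, Cfsg.Agent.Lib.Helper3.pair]
    rw [← mul_assoc, mul_inv_cancel₀ hG, one_mul]
  rw [hrhs, ← htrace2, htrace, hrank]

end Cfsg.Agent.S4667
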