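import Mathlib
import Cfsg.Statements.S0915
import Cfsg.Agent.Lib.Helper16.PRegular
import Cfsg.Agent.Lib.Helper63.HallHigman
import Cfsg.Agent.Lib.Helper77.NormalP
import Cfsg.Agent.Lib.Helper84.PCoreBasic

set_option autoImplicit false
open Cfsg

namespace Cfsg.Agent.S0915

open Cfsg.Agent.Lib.Helper16

/-- Let G be a finite p-solvable group with trivial largest normal subgroup of order prime to p. Then any two irreducible characters of G lie in the same block relative to every maximal ideal M of the algebraic integers containing p: G has a single p-block. -/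
theorem result {G : Type*} [Group G] [Finite G] (p : ℕ) [Fact p.Prime] (M : Ideal Cfsg.AlgInt) (hM : Cfsg.IsPModular p M) (hsolv : Cfsg.IsPSolvable p G) (hcore : Cfsg.pPrimeCore p G = ⊥) (χ ψ : Cfsg.IrrCharacter G) : Cfsg.SameBlock M (χ : G → ℂ) (ψ : G → ℂ) := by
  classical
  have : Fintype G := Fintype.ofFinite G
  have hMp := isPrime_of_isPModular hM
  have hcent := Cfsg.Agent.Lib.Helper63.centralizer_pCore_le hcore
    (Cfsg.Agent.Lib.Helper63.exists_plengthLE_of_isPSolvable hsolv)
  have hN : (Cfsg.pCore p G).Normal := Subgroup.sSup_normal _ (fun _ hK => hK.1)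
  have hPG : IsPGroup p (Cfsg.pCore p G) := Cfsg.Agent.Lib.Helper84.pCore_isPGroup p G
  apply sameBlock_of_pRegular hM
  intro g hg
  by_cases hg1 : g = 1
  · subst hg1
    have e : ∀ φ : Cfsg.IrrCharacter G, Cfsg.centralChar (φ : G → ℂ) 1 = 1 := by
      intro φ
      unfold Cfsg.centralChar
      have h1 : (Subgroup.centralizer ({1} : Set G)).index = 1 := by
        rw [Subgroup.index_eq_one]
        ext x
        simp [Subgroup.mem_centralizer_iff]
      rw [h1]
      have := irr_one_ne_zero φ
      field_simp
      simp
    rw [e χ, e ψ, sub_self]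
    exact memLocalIdeal_zero hMp
  · have hgc : g ∉ Subgroup.centralizer ((Cfsg.pCore p G : Subgroup G) : Set G) := by
      intro hc
      have hgP : g ∈ Cfsg.pCore p G := hcent hc
      have h2 : p ∣ orderOf (⟨g, hgP⟩ : Cfsg.pCore p G) :=
        IsPGroup.dvd_orderOf hPG (by
          intro h
          apply hg1
          exact congrArg Subtype.val h)
      rw [Subgroup.orderOf_mk] at h2
      exact hg h2
    exact memLocalIdeal_sub hMp
      (Cfsg.Agent.Lib.Helper77.memLocalIdeal_centralChar_of_not_mem_centralizer hM
        (Cfsg.pCore p G) hPG g hgc χ)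
      (Cfsg.Agent.Lib.Helper77.memLocalIdeal_centralChar_of_not_mem_centralizer hM
        (Cfsg.pCore p G) hPG g hgc ψ)

end Cfsg.Agent.S0915
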