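import Cfsg.Statements.S5096
-- import your own Cfsg.Agent.* helpers here
import Cfsg.Agent.Lib.Helper85.FusionBasic

set_option autoImplicit false
open Cfsg

namespace Cfsg.Agent.S5096

open Cfsg.FusionSystem Cfsg.Agent.Lib.Helper85

/-- For any fusion system over a subgroup S and any Q ≤ S, the maps of the normalizer system N_F(Q) — those maps between subgroups of N_S(Q) that extend to the subgroup generated with Q carrying Q onto Q — form a fusion system over N_S(Q). -/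
theorem result {Ω : Type*} [Group Ω] {S : Subgroup Ω} (F : Cfsg.FusionSystem S) (Q : Subgroup Ω) (hQ : Q ≤ S) : ∃ E : Cfsg.FusionSystem (Cfsg.FusionSystem.normalizerIn S Q), F.IsNormalizerSystem Q E := by
  refine ⟨{ Hom := fun P => F.normalizerHom Q P
            le_of_mem := fun h => ⟨h.2.1, h.2.2.1⟩
            injective_of_mem := fun h => F.injective_of_mem h.1
            conj_mem := ?_
            comp_mem := ?_
            inv_mem := ?_ }, fun P => rfl⟩
  · intro P g hP hg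
    have hgS : g ∈ S := hg.1
    have hgN : g ∈ Subgroup.normalizer (Q : Set Ω) := hg.2
    have hPS : P ≤ S := hP.trans inf_le_left
    refine ⟨F.conj_mem hPS hgS, hP, fun x => ?_, conjHom (P ⊔ Q) g,
      F.conj_mem (sup_le hPS hQ) hgS, fun x => rfl, ?_⟩
    · show g * (x : Ω) * g⁻¹ ∈ normalizerIn S Q
      exact Subgroup.mul_mem _ (Subgroup.mul_mem _ hg (hP x.2)) (Subgroup.inv_mem _ hg)
    · ext y
      constructor
      · rintro ⟨x, hx, rfl⟩
        exact (Subgroup.mem_normalizer_iff.mp hgN _).mp (Subgroup.mem_subgroupOf.mp hx)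
      · intro hy
        have hy' : g⁻¹ * y * g ∈ Q := (Subgroup.mem_normalizer_iff''.mp hgN y).mp hy
        refine ⟨⟨g⁻¹ * y * g, Subgroup.mem_sup_right hy'⟩, Subgroup.mem_subgroupOf.mpr hy', ?_⟩
        show g * (g⁻¹ * y * g) * g⁻¹ = y
        group
  · intro P R φ ψ hφ hψ h
    obtain ⟨hφF, hPN, hφN, φ', hφ', hφ'ext, hφ'Q⟩ := hφ
    obtain ⟨hψF, hRN, hψN, ψ', hψ', hψ'ext, hψ'Q⟩ := hψ
    have hQQ : ∀ x : ↥(P ⊔ Q), (x : Ω) ∈ Q → φ' x ∈ Q := by
      intro x hx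
      have : φ' x ∈ (Q.subgroupOf (P ⊔ Q)).map φ' :=
        Subgroup.mem_map_of_mem _ (Subgroup.mem_subgroupOf.mpr hx)
      rwa [hφ'Q] at this
    have hmap : ∀ x : ↥(P ⊔ Q), φ' x ∈ R ⊔ Q := by
      refine map_sup_mem (fun x hx => ?_) hQQ
      have : x = Subgroup.inclusion le_sup_left (⟨(x : Ω), hx⟩ : P) := rfl
      rw [this, hφ'ext]
      exact h _
    refine ⟨F.comp_mem hφF hψF h, hPN, fun x => hψN _, ψ'.comp (φ'.codRestrict (R ⊔ Q) hmap),
      F.comp_mem hφ' hψ' hmap, ?_, ?_⟩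
    · intro x
      have e : (⟨φ' (Subgroup.inclusion le_sup_left x), hmap _⟩ : ↥(R ⊔ Q)) =
          Subgroup.inclusion le_sup_left ⟨φ x, h x⟩ := Subtype.ext (hφ'ext x)
      show ψ' ⟨φ' (Subgroup.inclusion le_sup_left x), hmap _⟩ = _
      rw [e, hψ'ext]
      rfl
    · rw [← Subgroup.map_map]
      have : (Q.subgroupOf (P ⊔ Q)).map (φ'.codRestrict (R ⊔ Q) hmap) = Q.subgroupOf (R ⊔ Q) := by
        ext y
        constructor
        · rintro ⟨x, hx, rfl⟩
          rw [Subgroup.mem_subgroupOf]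
          exact hQQ x (Subgroup.mem_subgroupOf.mp hx)
        · intro hy
          rw [Subgroup.mem_subgroupOf] at hy
          have hy' : (y : Ω) ∈ (Q.subgroupOf (P ⊔ Q)).map φ' := by rw [hφ'Q]; exact hy
          obtain ⟨x, hx, hxy⟩ := hy'
          exact ⟨x, hx, Subtype.ext hxy⟩
      rw [this, hψ'Q]
  · intro P φ hφ
    obtain ⟨hφF, hPN, hφN, φ', hφ', hφ'ext, hφ'Q⟩ := hφ
    obtain ⟨ψ, hψ, hψinv⟩ := F.inv_mem hφF
    have hQQ : ∀ x : ↥(P ⊔ Q), (x : Ω) ∈ Q → φ' x ∈ Q := by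
      intro x hx
      have : φ' x ∈ (Q.subgroupOf (P ⊔ Q)).map φ' :=
        Subgroup.mem_map_of_mem _ (Subgroup.mem_subgroupOf.mpr hx)
      rwa [hφ'Q] at this
    have hmap : ∀ x : ↥(P ⊔ Q), φ' x ∈ φ.range ⊔ Q := by
      refine map_sup_mem (fun x hx => ?_) hQQ
      have : x = Subgroup.inclusion le_sup_left (⟨(x : Ω), hx⟩ : P) := rfl
      rw [this, hφ'ext]
      exact ⟨_, rfl⟩
    have hrange : φ.range ⊔ Q = φ'.range := by
      apply le_antisymm
      · refine sup_le ?_ ?_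
        · rintro _ ⟨x, rfl⟩
          exact ⟨Subgroup.inclusion le_sup_left x, hφ'ext x⟩
        · intro y hy
          have : y ∈ (Q.subgroupOf (P ⊔ Q)).map φ' := by rw [hφ'Q]; exact hy
          obtain ⟨x, -, rfl⟩ := this
          exact ⟨x, rfl⟩
      · rintro _ ⟨x, rfl⟩
        exact hmap x
    obtain ⟨ψ', hψ', hψ'inv⟩ := inv_mem' F hφ' hrange
    refine ⟨ψ, ⟨hψ, ?_, ?_, ψ', hψ', ?_, ?_⟩, hψinv⟩
    · rintro _ ⟨x, rfl⟩
      exact hφN x
    · rintro ⟨_, x, rfl⟩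
      rw [hψinv x]
      exact hPN x.2
    · rintro ⟨_, x, rfl⟩
      rw [hψinv x]
      have h1 := hψ'inv (Subgroup.inclusion le_sup_left x) (hmap _)
      have e : (⟨φ' (Subgroup.inclusion le_sup_left x), hmap _⟩ : ↥(φ.range ⊔ Q)) =
          Subgroup.inclusion le_sup_left (⟨φ x, ⟨x, rfl⟩⟩ : φ.range) := Subtype.ext (hφ'ext x)
      rw [e] at h1
      exact h1
    · ext y
      constructor
      · rintro ⟨z, hz, rfl⟩
        have hzQ : (z : Ω) ∈ (Q.subgroupOf (P ⊔ Q)).map φ' := by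
          rw [hφ'Q]; exact Subgroup.mem_subgroupOf.mp hz
        obtain ⟨q, hq, hqz⟩ := hzQ
        have e : z = ⟨φ' q, hmap q⟩ := Subtype.ext hqz.symm
        rw [e, hψ'inv q]
        exact Subgroup.mem_subgroupOf.mp hq
      · intro hy
        have hyPQ : y ∈ P ⊔ Q := Subgroup.mem_sup_right hy
        have h1 : φ' ⟨y, hyPQ⟩ ∈ Q := hQQ ⟨y, hyPQ⟩ hy
        exact ⟨⟨φ' ⟨y, hyPQ⟩, Subgroup.mem_sup_right h1⟩, Subgroup.mem_subgroupOf.mpr h1,
          hψ'inv ⟨y, hyPQ⟩ _⟩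

end Cfsg.Agent.S5096
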