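import Mathlib
import Cfsg.Statements.S0695

set_option autoImplicit false
open Cfsg

namespace Cfsg.Agent.S0695

theorem reg_uniq {G : Type*} [Group G] {X : Type*} [MulAction G X] (N : Subgroup G)
    (hreg : ∀ x : X, MulAction.stabilizer N x = ⊥) (a : X) :
    ∀ m₁ ∈ N, ∀ m₂ ∈ N, m₁ • a = m₂ • a → m₁ = m₂ := by
  intro m₁ h₁ m₂ h₂ h
  have : (⟨m₂⁻¹ * m₁, N.mul_mem (N.inv_mem h₂) h₁⟩ : N) ∈ MulAction.stabilizer N a := by
    rw [MulAction.mem_stabilizer_iff]
    change (m₂⁻¹ * m₁) • a = a
    rw [mul_smul, h, inv_smul_smul]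
  rw [hreg a, Subgroup.mem_bot] at this
  have h' : m₂⁻¹ * m₁ = 1 := congrArg Subtype.val this
  exact (inv_mul_eq_one.mp h').symm

theorem stab_conj {G : Type*} [Group G] {X : Type*} [MulAction G X] (a : X)
    (g : MulAction.stabilizer G a) (m : G) :
    (g : G) • m • a = ((g : G) * m * (g : G)⁻¹) • a := by
  have hg : (g : G) • a = a := g.2
  rw [mul_smul, mul_smul]
  congr 2
  rw [eq_inv_smul_iff, hg]

theorem dichotomy {G : Type*} [Group G] {X : Type*} [Finite X] [MulAction G X]
    (a : X)
    (hprim : MulAction.IsPreprimitive (MulAction.stabilizer G a) (SubMulAction.ofStabilizer G a))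
    [Nontrivial (SubMulAction.ofStabilizer G a)]
    (N : Subgroup G) [hN : N.Normal] (hreg : ∀ x : X, MulAction.stabilizer N x = ⊥)
    (n : G) (hn : n ∈ N) (hn1 : n ≠ 1) :
    n ^ 2 = 1 ∨ Nat.card (SubMulAction.ofStabilizer G a) ≤ 2 := by
  have huniq := reg_uniq N hreg a
  have hna : n • a ≠ a := fun h => hn1 (huniq n hn 1 N.one_mem (by rw [h, one_smul]))
  have hn'a : n⁻¹ • a ≠ a := fun h =>
    hn1 (inv_eq_one.mp (huniq n⁻¹ (N.inv_mem hn) 1 N.one_mem (by rw [h, one_smul])))
  let y : SubMulAction.ofStabilizer G a := ⟨n • a, hna⟩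
  let y' : SubMulAction.ofStabilizer G a := ⟨n⁻¹ • a, hn'a⟩
  have hconj := stab_conj (G := G) a
  let H : Subgroup (MulAction.stabilizer G a) :=
    { carrier := {g | (g : G) * n * (g : G)⁻¹ = n ∨ (g : G) * n * (g : G)⁻¹ = n⁻¹}
      one_mem' := Or.inl (by simp)
      mul_mem' := by
        rintro g h hg hh
        simp only [Set.mem_ofPred_eq, Subgroup.coe_mul, mul_inv_rev] at *
        have e : (g : G) * (h : G) * n * ((h : G)⁻¹ * (g : G)⁻¹)
            = (g : G) * ((h : G) * n * (h : G)⁻¹) * (g : G)⁻¹ := by group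
        have e' : (g : G) * n⁻¹ * (g : G)⁻¹ = ((g : G) * n * (g : G)⁻¹)⁻¹ := by group
        rw [e]
        rcases hh with hh | hh <;> rcases hg with hg | hg
        · left; rw [hh, hg]
        · right; rw [hh, hg]
        · right; rw [hh, e', hg]
        · left; rw [hh, e', hg, inv_inv]
      inv_mem' := by
        rintro g hg
        simp only [Set.mem_ofPred_eq, Subgroup.coe_inv, inv_inv] at *
        rcases hg with hg | hg
        · left
          calc (g : G)⁻¹ * n * g = (g : G)⁻¹ * ((g : G) * n * (g : G)⁻¹) * g := by rw [hg]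
            _ = n := by group
        · right
          calc (g : G)⁻¹ * n * g = ((g : G)⁻¹ * n⁻¹ * g)⁻¹ := by group
            _ = ((g : G)⁻¹ * ((g : G) * n * (g : G)⁻¹) * g)⁻¹ := by rw [hg]
            _ = n⁻¹ := by group }
  have hT : MulAction.stabilizer (MulAction.stabilizer G a) y ≤ H := by
    intro g hg
    rw [MulAction.mem_stabilizer_iff] at hg
    have h1 : (g : G) • n • a = n • a := congrArg Subtype.val hg
    rw [hconj] at h1
    left
    exact huniq _ (hN.conj_mem n hn g) _ hn h1
  have hco := MulAction.IsPreprimitive.isCoatom_stabilizer_of_isPreprimitive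
    (G := MulAction.stabilizer G a) y
  have htr := hprim.toIsPretransitive
  rcases eq_or_lt_of_le hT with heq | hlt
  · left
    obtain ⟨g, hg⟩ := htr.exists_smul_eq y y'
    have h1 : (g : G) • n • a = n⁻¹ • a := congrArg Subtype.val hg
    rw [hconj] at h1
    have h2 : (g : G) * n * (g : G)⁻¹ = n⁻¹ :=
      huniq _ (hN.conj_mem n hn g) _ (N.inv_mem hn) h1
    have hgH : g ∈ H := Or.inr h2
    rw [← heq, MulAction.mem_stabilizer_iff] at hgH
    rw [hgH] at hg
    have h3 : n • a = n⁻¹ • a := congrArg Subtype.val hg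
    have h4 : n = n⁻¹ := huniq n hn n⁻¹ (N.inv_mem hn) h3
    rw [pow_two]
    nth_rewrite 2 [h4]
    exact mul_inv_cancel n
  · right
    have htop : H = ⊤ := hco.2 _ hlt
    have hall : ∀ z : SubMulAction.ofStabilizer G a, z = y ∨ z = y' := by
      intro z
      obtain ⟨g, hg⟩ := htr.exists_smul_eq y z
      have hgH : g ∈ H := by rw [htop]; trivial
      have h1 : ((g • y : SubMulAction.ofStabilizer G a) : X)
          = ((g : G) * n * (g : G)⁻¹) • a := hconj g n
      rcases hgH with h | h
      · left; rw [← hg]; apply Subtype.ext; rw [h1, h]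
      · right; rw [← hg]; apply Subtype.ext; rw [h1, h]
    have hsub : (Set.univ : Set (SubMulAction.ofStabilizer G a)) ⊆ {y, y'} := fun z _ => by
      simpa using hall z
    calc Nat.card (SubMulAction.ofStabilizer G a)
        = (Set.univ : Set (SubMulAction.ofStabilizer G a)).ncard := (Set.ncard_univ _).symm
      _ ≤ ({y, y'} : Set (SubMulAction.ofStabilizer G a)).ncard :=
          Set.ncard_le_ncard hsub (Set.toFinite _)
      _ ≤ 2 := (Set.ncard_insert_le y {y'}).trans (by rw [Set.ncard_singleton])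

theorem comm_of_sq {G : Type*} [Group G] (N : Subgroup G) (h : ∀ n ∈ N, n ^ 2 = 1) :
    IsMulCommutative N := by
  refine ⟨⟨fun x y => ?_⟩⟩
  apply Subtype.ext
  have hx := h x x.2
  have hy := h y y.2
  have hxy := h (x * y) (N.mul_mem x.2 y.2)
  change (x : G) * y = y * x
  have e1 : (x : G)⁻¹ = x := by
    rw [inv_eq_iff_mul_eq_one, ← pow_two]; exact hx
  have e2 : (y : G)⁻¹ = y := by
    rw [inv_eq_iff_mul_eq_one, ← pow_two]; exact hy
  have e3 : ((x : G) * y)⁻¹ = x * y := by
    rw [inv_eq_iff_mul_eq_one, ← pow_two]; exact hxy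
  rw [← e3, mul_inv_rev, e1, e2]

/-- A regular normal subgroup of a doubly primitive group is an elementary abelian 2-group, so the degree is a power of 2, unless the degree is 3. -/
theorem result {G : Type*} [Group G] {X : Type*} [Fintype X] [MulAction G X] (hX : 2 ≤ Fintype.card X) (h2 : MulAction.IsMultiplyPreprimitive G X 2) (N : Subgroup G) [N.Normal] (htrans : MulAction.IsPretransitive N X) (hreg : ∀ x : X, MulAction.stabilizer N x = ⊥) : Fintype.card X = 3 ∨ (IsMulCommutative N ∧ (∀ n ∈ N, n ^ 2 = 1) ∧ ∃ m : ℕ, Fintype.card X = 2 ^ m) := by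
  by_cases h3 : Fintype.card X = 3
  · left; exact h3
  right
  have hne : Nonempty X := by
    rw [← Fintype.card_pos_iff]; omega
  obtain ⟨a⟩ := hne
  have hcardN : Nat.card N = Fintype.card X := by
    rw [← Nat.card_eq_fintype_card, ← MulAction.index_stabilizer_of_transitive N a, hreg a,
      Subgroup.index_bot]
  have hfinN : Finite N := Nat.finite_of_card_ne_zero (by rw [hcardN]; omega)
  have hsq : ∀ n ∈ N, n ^ 2 = 1 := by
    intro n hn
    by_cases hn1 : n = 1
    · rw [hn1, one_pow]
    by_cases hc2 : Fintype.card X = 2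
    · have := pow_card_eq_one' (G := N) (x := ⟨n, hn⟩)
      rw [hcardN, hc2] at this
      exact congrArg Subtype.val this
    · have htrG : MulAction.IsPretransitive G X := MulAction.isPretransitive_of_is_two_pretransitive
      have hprim : MulAction.IsPreprimitive (MulAction.stabilizer G a)
          (SubMulAction.ofStabilizer G a) := by
        rw [← MulAction.is_one_preprimitive_iff]
        exact MulAction.isMultiplyPreprimitive_ofStabilizer G X
      have hcY := SubMulAction.nat_card_ofStabilizer_add_one_eq G a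
      rw [Nat.card_eq_fintype_card (α := X)] at hcY
      have hnt : Nontrivial (SubMulAction.ofStabilizer G a) := by
        rw [← Finite.one_lt_card_iff_nontrivial]; omega
      rcases dichotomy a hprim N hreg n hn hn1 with h | h
      · exact h
      · omega
  refine ⟨comm_of_sq N hsq, hsq, ?_⟩
  have hp : Fact (Nat.Prime 2) := ⟨Nat.prime_two⟩
  have hpg : IsPGroup 2 N := by
    intro g
    refine ⟨1, ?_⟩
    rw [pow_one]
    exact Subtype.ext (hsq g g.2)
  obtain ⟨m, hm⟩ := (IsPGroup.iff_card).mp hpg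
  exact ⟨m, by rw [← hcardN, hm]⟩

end Cfsg.Agent.S0695
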