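import Mathlib
import Cfsg.Statements.S0697
import Cfsg.Agent.S0695

set_option autoImplicit false
open Cfsg

namespace Cfsg.Agent.S0697

open MulAction SubMulAction

universe u v

theorem faithful_ofStabilizer {G : Type u} [Group G] {X : Type v} [MulAction G X]
    [FaithfulSMul G X] (x : X) : FaithfulSMul (stabilizer G x) (ofStabilizer G x) := by
  refine ⟨fun {g1 g2} h => ?_⟩
  apply Subtype.ext
  apply FaithfulSMul.eq_of_smul_eq_smul (α := X)
  intro y
  by_cases hy : y = x
  · subst hy
    have h1 : (g1 : G) • y = y := g1.2
    have h2 : (g2 : G) • y = y := g2.2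
    rw [h1, h2]
  · have := h ⟨y, (mem_ofStabilizer_iff G x).mpr hy⟩
    exact congrArg Subtype.val this

theorem exists_three {G : Type*} [Group G] {X : Type*} [MulAction G X]
    (h3 : IsMultiplyPretransitive G X 3) (a b c a' b' c' : X) (hab : a ≠ b) (hac : a ≠ c)
    (hbc : b ≠ c) (hab' : a' ≠ b') (hac' : a' ≠ c') (hbc' : b' ≠ c') :
    ∃ g : G, g • a = a' ∧ g • b = b' ∧ g • c = c' := by
  let e1 : Fin 3 ↪ X := ⟨![a, b, c], by
    intro i j h
    fin_cases i <;> fin_cases j <;> simp_all⟩
  let e2 : Fin 3 ↪ X := ⟨![a', b', c'], by
    intro i j h
    fin_cases i <;> fin_cases j <;> simp_all⟩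
  obtain ⟨g, hg⟩ := h3.exists_smul_eq e1 e2
  refine ⟨g, ?_, ?_, ?_⟩
  · exact congrArg (fun f => f 0) hg
  · exact congrArg (fun f => f 1) hg
  · exact congrArg (fun f => f 2) hg

theorem gen : ∀ (k : ℕ) {G : Type u} [Group G] {X : Type v} [MulAction G X] [Finite X]
    [FaithfulSMul G X], IsMultiplyPreprimitive G X k → k ≤ Nat.card X →
    ¬ IsMultiplyPretransitive G X (Nat.card X - 1) → ∀ (H : Subgroup G) [H.Normal],
    (∃ x : X, ∃ h ∈ H, h ≠ 1 ∧ h • x = x) → IsMultiplyPretransitive H X k := by
  intro k
  induction k with
  | zero => intros; exact is_zero_pretransitive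
  | succ k ih =>
    intro G _ X _ _ _ hprim hk hnot H hHn hnr
    obtain ⟨x, h0, hh0, hh01, hh0x⟩ := hnr
    have hcardE : ((k + 1 : ℕ) : ENat) ≤ ENat.card X := by
      rw [ENat.card_eq_coe_natCard]; exact_mod_cast hk
    have hG1 : IsPreprimitive G X := by
      rw [← is_one_preprimitive_iff]
      exact isMultiplyPreprimitive_of_le G X hprim (by omega) hcardE
    have hGt : IsPretransitive G X := hG1.toIsPretransitive
    have hHt : IsPretransitive H X := by
      apply IsQuasiPreprimitive.isPretransitive_of_normal (G := G)
      intro hfix
      apply hh01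
      apply FaithfulSMul.eq_of_smul_eq_smul (α := X)
      intro y
      have hy : y ∈ fixedPoints H X := by rw [hfix]; trivial
      rw [one_smul]
      exact hy ⟨h0, hh0⟩
    rcases Nat.eq_zero_or_pos k with rfl | hk1
    · exact is_one_pretransitive_iff.mpr hHt
    have hprim' : IsMultiplyPreprimitive (stabilizer G x) (ofStabilizer G x) k :=
      isMultiplyPreprimitive_ofStabilizer G X
    have hcard' : Nat.card (ofStabilizer G x) + 1 = Nat.card X :=
      nat_card_ofStabilizer_add_one_eq G x
    have hfaith' := faithful_ofStabilizer (G := G) x
    have hnot' : ¬ IsMultiplyPretransitive (stabilizer G x) (ofStabilizer G x)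
        (Nat.card (ofStabilizer G x) - 1) := by
      intro h
      apply hnot
      have e : Nat.card X - 1 = (Nat.card (ofStabilizer G x) - 1).succ := by omega
      rw [e, ofStabilizer.isMultiplyPretransitive (a := x)]
      exact h
    have hcardE' : ((k : ℕ) : ENat) ≤ ENat.card (ofStabilizer G x) := by
      rw [ENat.card_eq_coe_natCard]
      have : k ≤ Nat.card (ofStabilizer G x) := by omega
      exact_mod_cast this
    have key : IsMultiplyPretransitive (H.subgroupOf (stabilizer G x)) (ofStabilizer G x) k := by
      by_cases hreg : ∃ y : ofStabilizer G x, ∃ h ∈ H.subgroupOf (stabilizer G x),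
          h ≠ 1 ∧ h • y = y
      · exact ih hprim' (by omega) hnot' (H.subgroupOf (stabilizer G x)) hreg
      · push Not at hreg
        have hG1' : IsPreprimitive (stabilizer G x) (ofStabilizer G x) := by
          rw [← is_one_preprimitive_iff]
          exact isMultiplyPreprimitive_of_le _ _ hprim' hk1 hcardE'
        let h0' : stabilizer G x := ⟨h0, hh0x⟩
        have hh0' : h0' ∈ H.subgroupOf (stabilizer G x) := Subgroup.mem_subgroupOf.mpr hh0
        have hh01' : h0' ≠ 1 := fun h => hh01 (congrArg Subtype.val h)
        have hne : Nonempty (ofStabilizer G x) := by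
          rw [← Finite.card_pos_iff]; omega
        have hHxt : IsPretransitive (H.subgroupOf (stabilizer G x)) (ofStabilizer G x) := by
          apply IsQuasiPreprimitive.isPretransitive_of_normal (G := stabilizer G x)
          intro hfix
          obtain ⟨y⟩ := hne
          apply hreg y h0' hh0' hh01'
          have hy : y ∈ fixedPoints (H.subgroupOf (stabilizer G x)) (ofStabilizer G x) := by
            rw [hfix]; trivial
          exact hy ⟨h0', hh0'⟩
        rcases Nat.lt_or_ge k 2 with hk2 | hk2
        · have : k = 1 := by omega
          subst this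
          exact is_one_pretransitive_iff.mpr hHxt
        · exfalso
          have hFin : Fintype (ofStabilizer G x) := Fintype.ofFinite _
          have h2 : IsMultiplyPreprimitive (stabilizer G x) (ofStabilizer G x) 2 :=
            isMultiplyPreprimitive_of_le _ _ hprim' hk2 hcardE'
          have hregS : ∀ y : ofStabilizer G x,
              stabilizer (H.subgroupOf (stabilizer G x)) y = ⊥ := by
            intro y
            rw [eq_bot_iff]
            intro h hh
            rw [Subgroup.mem_bot]
            by_contra h1
            exact hreg y (h : stabilizer G x) h.2 (fun e => h1 (Subtype.ext e)) hh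
          have hres := Cfsg.Agent.S0695.result (G := stabilizer G x) (X := ofStabilizer G x)
            (by rw [← Nat.card_eq_fintype_card]; omega) h2 (H.subgroupOf (stabilizer G x))
            hHxt hregS
          have h3t : IsMultiplyPretransitive G X 3 :=
            isMultiplyPretransitive_of_le (n := k + 1) (by omega) hk
          rcases hres with h3 | ⟨-, hsq, -⟩
          · apply hnot
            have : Nat.card X - 1 = 3 := by rw [← Nat.card_eq_fintype_card] at h3; omega
            rw [this]; exact h3t
          · have hsq0 : h0 ^ 2 = 1 := congrArg Subtype.val (hsq h0' hh0')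
            have hmove : ∀ y : X, y ≠ x → h0 • y ≠ y := by
              intro y hy hfix
              exact hreg ⟨y, (mem_ofStabilizer_iff G x).mpr hy⟩ h0' hh0' hh01' (Subtype.ext hfix)
            by_cases hc3 : Nat.card X = 3
            · apply hnot
              rw [hc3]
              exact isMultiplyPretransitive_of_le (n := 3) (by norm_num) (by omega)
            · have hc4 : 4 ≤ Nat.card X := by omega
              obtain ⟨⟨b, hb⟩⟩ := hne
              rw [mem_ofStabilizer_iff] at hb
              have hcb : h0 • b ≠ b := hmove b hb
              have hcx : h0 • b ≠ x := by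
                intro h
                apply hb
                have h1 : h0 • b = h0 • x := by rw [h, hh0x]
                exact MulAction.injective h0 h1
              have h0c : h0 • h0 • b = b := by
                rw [smul_smul, ← pow_two, hsq0, one_smul]
              obtain ⟨d, hdx, hdb, hdc⟩ : ∃ d : X, d ≠ x ∧ d ≠ b ∧ d ≠ h0 • b := by
                by_contra hcon
                push Not at hcon
                have : Nat.card X ≤ 3 := by
                  classical
                  have hF : Fintype X := Fintype.ofFinite X
                  rw [Nat.card_eq_fintype_card]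
                  calc Fintype.card X = (Finset.univ : Finset X).card := rfl
                    _ ≤ ({x, b, h0 • b} : Finset X).card := Finset.card_le_card (fun y _ => by
                        by_cases h1 : y = x
                        · simp [h1]
                        by_cases h2 : y = b
                        · simp [h2]
                        simp [hcon y h1 h2])
                    _ ≤ 3 := Finset.card_le_three
                omega
              obtain ⟨g, hgb, hgc, hgx⟩ := exists_three h3t b (h0 • b) x b (h0 • b) d
                (Ne.symm hcb) hb hcx (Ne.symm hcb) (Ne.symm hdb) (Ne.symm hdc)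
              have ht'H : g * h0 * g⁻¹ ∈ H := hHn.conj_mem h0 hh0 g
              have hgib : g⁻¹ • b = b := by rw [inv_smul_eq_iff, hgb]
              have hgic : g⁻¹ • h0 • b = h0 • b := by rw [inv_smul_eq_iff, hgc]
              have ht'b : (g * h0 * g⁻¹) • b = h0 • b := by
                rw [mul_smul, mul_smul, hgib, hgc]
              have ht'c : (g * h0 * g⁻¹) • h0 • b = b := by
                rw [mul_smul, mul_smul, hgic, h0c, hgb]
              have huH : h0⁻¹ * (g * h0 * g⁻¹) ∈ H := H.mul_mem (H.inv_mem hh0) ht'H
              have hub : (h0⁻¹ * (g * h0 * g⁻¹)) • b = b := by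
                rw [mul_smul, ht'b, inv_smul_eq_iff]
              have huc : (h0⁻¹ * (g * h0 * g⁻¹)) • h0 • b = h0 • b := by
                rw [mul_smul, ht'c, inv_smul_eq_iff, h0c]
              have hu1 : h0⁻¹ * (g * h0 * g⁻¹) = 1 := by
                obtain ⟨w, hw⟩ := hHt.exists_smul_eq x b
                have hwx : (w : G) • x = b := hw
                generalize h0⁻¹ * (g * h0 * g⁻¹) = u at huH hub huc ⊢
                have hu'H : (w : G)⁻¹ * u * w ∈ H :=
                  H.mul_mem (H.mul_mem (H.inv_mem w.2) huH) w.2
                have hu'x : ((w : G)⁻¹ * u * w) • x = x := by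
                  rw [mul_smul, mul_smul, hwx, hub, inv_smul_eq_iff, hwx]
                have hy : (w : G)⁻¹ • h0 • b ≠ x := by
                  intro h; rw [inv_smul_eq_iff, hwx] at h; exact hcb h
                have hu'y : ((w : G)⁻¹ * u * w) • ((w : G)⁻¹ • h0 • b) = (w : G)⁻¹ • h0 • b := by
                  rw [mul_smul, mul_smul, smul_inv_smul, huc]
                by_contra hne1
                have hu'1 : (w : G)⁻¹ * u * w ≠ 1 := by
                  intro h; apply hne1
                  have e : u = w * ((w : G)⁻¹ * u * w) * (w : G)⁻¹ := by group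
                  rw [e, h]; group
                exact hreg ⟨(w : G)⁻¹ • h0 • b, (mem_ofStabilizer_iff G x).mpr hy⟩
                  ⟨(w : G)⁻¹ * u * w, hu'x⟩ (Subgroup.mem_subgroupOf.mpr hu'H)
                  (fun e => hu'1 (congrArg Subtype.val e)) (Subtype.ext hu'y)
              have hconj : g * h0 * g⁻¹ = h0 := by
                have e := congrArg (fun z => h0 * z) hu1
                simpa [mul_assoc] using e
              have hcomm : g * h0 = h0 * g := mul_inv_eq_iff_eq_mul.mp hconj
              have hfixd : h0 • d = d := by
                rw [← hgx, smul_smul, ← hcomm, mul_smul, hh0x]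
              exact hmove d hdx hfixd
    rw [ofStabilizer.isMultiplyPretransitive (a := x)]
    let φ : H.subgroupOf (stabilizer G x) → stabilizer H x := fun h =>
      ⟨⟨((h : stabilizer G x) : G), Subgroup.mem_subgroupOf.mp h.2⟩, (h : stabilizer G x).2⟩
    let f : ofStabilizer G x →ₑ[φ] ofStabilizer H x :=
      { toFun := fun y => ⟨y.1, (mem_ofStabilizer_iff H x).mpr ((mem_ofStabilizer_iff G x).mp y.2)⟩
        map_smul' := fun m y => Subtype.ext rfl }
    have hf : Function.Surjective f := by
      rintro ⟨z, hz⟩
      exact ⟨⟨z, (mem_ofStabilizer_iff G x).mpr ((mem_ofStabilizer_iff H x).mp hz)⟩, rfl⟩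
    exact IsPretransitive.of_embedding (f := f) hf

/-- In a `k`-primitive permutation group which is not the whole symmetric group, a non-trivial non-regular normal subgroup is `k`-transitive. -/
theorem result {α : Type*} [Fintype α] [DecidableEq α] (G : Subgroup (Equiv.Perm α)) {k : ℕ} (hk : 1 ≤ k) (hkn : k ≤ Fintype.card α) (hG : MulAction.IsMultiplyPreprimitive G α k) (htop : G ≠ ⊤) (H : Subgroup G) [H.Normal] (hH : H ≠ ⊥) (hnr : ∃ a : α, MulAction.stabilizer H a ≠ ⊥) : MulAction.IsMultiplyPretransitive H α k := by
  have hfaith : FaithfulSMul G α := by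
    refine ⟨fun {g1 g2} h => ?_⟩
    apply Subtype.ext
    ext a
    exact h a
  apply gen k hG (by rw [Nat.card_eq_fintype_card]; exact hkn) ?_ H ?_
  · intro h; exact htop (Equiv.Perm.eq_top_of_isMultiplyPretransitive h)
  · obtain ⟨a, ha⟩ := hnr
    rw [Ne, eq_bot_iff] at ha
    obtain ⟨h, hh, hh1⟩ := SetLike.not_le_iff_exists.mp ha
    exact ⟨a, (h : G), h.2, fun e => hh1 (by rw [Subgroup.mem_bot]; exact Subtype.ext e), hh⟩

end Cfsg.Agent.S0697
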