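import Mathlib
import Cfsg.Statements.S0698
import Cfsg.Agent.S0697

set_option autoImplicit false
open Cfsg

namespace Cfsg.Agent.S0698

open MulAction SubMulAction

universe u v

theorem exists_fixing' {G : Type*} [Group G] {X : Type*} [MulAction G X] [Finite X] {k : ℕ}
    (hG : IsMultiplyPretransitive G X k) (hk : k ≤ Nat.card X) (B : Set X)
    (hB : B.ncard + 1 ≤ k) (x y : X) (hx : x ∉ B) (hy : y ∉ B) :
    ∃ g : G, (∀ b ∈ B, g • b = b) ∧ g • x = y := by
  have h1 : IsMultiplyPretransitive (fixingSubgroup G B) (SubMulAction.ofFixingSubgroup G B) 1 :=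
    SubMulAction.ofFixingSubgroup.isMultiplyPretransitive' (n := k) B hB
      (by rw [ENat.card_eq_coe_natCard]; exact_mod_cast hk)
  rw [is_one_pretransitive_iff] at h1
  obtain ⟨t, ht⟩ := h1.exists_smul_eq
    ⟨x, by rw [SubMulAction.mem_ofFixingSubgroup_iff]; exact hx⟩
    ⟨y, by rw [SubMulAction.mem_ofFixingSubgroup_iff]; exact hy⟩
  refine ⟨(t : G), ?_, ?_⟩
  · intro b hb
    exact (mem_fixingSubgroup_iff G).mp t.2 b hb
  · exact congrArg Subtype.val ht

/-- A normal subgroup of a 3-transitive group of degree at least 4 which is transitive with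
semiregular point stabilizers has no involution fixing a point. -/
theorem no_invol {G : Type*} [Group G] {X : Type*} [MulAction G X] [Finite X]
    (h3t : IsMultiplyPretransitive G X 3) (hc4 : 4 ≤ Nat.card X) (H : Subgroup G)
    [hHn : H.Normal] (hHt : IsPretransitive H X) (x : X)
    (hsemi : ∀ y : X, y ≠ x → ∀ h ∈ H, h • x = x → h • y = y → h = 1)
    (h0 : G) (hh0 : h0 ∈ H) (hh01 : h0 ≠ 1) (hsq0 : h0 ^ 2 = 1) (hh0x : h0 • x = x) : False := by
  have hmove : ∀ y : X, y ≠ x → h0 • y ≠ y := fun y hy hfix =>
    hh01 (hsemi y hy h0 hh0 hh0x hfix)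
  obtain ⟨b, hb⟩ : ∃ b : X, b ≠ x := by
    have : Nontrivial X := by rw [← Finite.one_lt_card_iff_nontrivial]; omega
    exact exists_ne x
  have hcb : h0 • b ≠ b := hmove b hb
  have hcx : h0 • b ≠ x := by
    intro h
    apply hb
    have h1 : h0 • b = h0 • x := by rw [h, hh0x]
    exact MulAction.injective h0 h1
  have h0c : h0 • h0 • b = b := by
    rw [smul_smul, ← pow_two, hsq0, one_smul]
  obtain ⟨d, hdx, hdb, hdc⟩ : ∃ d : X, d ≠ x ∧ d ≠ b ∧ d ≠ h0 • b := by
    by_contra hcon
    push Not at hcon
    have : Nat.card X ≤ 3 := by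
      classical
      have hF : Fintype X := Fintype.ofFinite X
      rw [Nat.card_eq_fintype_card]
      calc Fintype.card X = (Finset.univ : Finset X).card := rfl
        _ ≤ ({x, b, h0 • b} : Finset X).card := Finset.card_le_card (fun y _ => by
            by_cases h1 : y = x
            · simp [h1]
            by_cases h2 : y = b
            · simp [h2]
            simp [hcon y h1 h2])
        _ ≤ 3 := Finset.card_le_three
    omega
  obtain ⟨g, hgb, hgc, hgx⟩ := Cfsg.Agent.S0697.exists_three h3t b (h0 • b) x b (h0 • b) d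
    (Ne.symm hcb) hb hcx (Ne.symm hcb) (Ne.symm hdb) (Ne.symm hdc)
  have ht'H : g * h0 * g⁻¹ ∈ H := hHn.conj_mem h0 hh0 g
  have hgib : g⁻¹ • b = b := by rw [inv_smul_eq_iff, hgb]
  have hgic : g⁻¹ • h0 • b = h0 • b := by rw [inv_smul_eq_iff, hgc]
  have ht'b : (g * h0 * g⁻¹) • b = h0 • b := by
    rw [mul_smul, mul_smul, hgib, hgc]
  have ht'c : (g * h0 * g⁻¹) • h0 • b = b := by
    rw [mul_smul, mul_smul, hgic, h0c, hgb]
  have huH : h0⁻¹ * (g * h0 * g⁻¹) ∈ H := H.mul_mem (H.inv_mem hh0) ht'H
  have hub : (h0⁻¹ * (g * h0 * g⁻¹)) • b = b := by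
    rw [mul_smul, ht'b, inv_smul_eq_iff]
  have huc : (h0⁻¹ * (g * h0 * g⁻¹)) • h0 • b = h0 • b := by
    rw [mul_smul, ht'c, inv_smul_eq_iff, h0c]
  have hu1 : h0⁻¹ * (g * h0 * g⁻¹) = 1 := by
    obtain ⟨w, hw⟩ := hHt.exists_smul_eq x b
    have hwx : (w : G) • x = b := hw
    generalize h0⁻¹ * (g * h0 * g⁻¹) = u at huH hub huc ⊢
    have hu'H : (w : G)⁻¹ * u * w ∈ H :=
      H.mul_mem (H.mul_mem (H.inv_mem w.2) huH) w.2
    have hu'x : ((w : G)⁻¹ * u * w) • x = x := by
      rw [mul_smul, mul_smul, hwx, hub, inv_smul_eq_iff, hwx]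
    have hy : (w : G)⁻¹ • h0 • b ≠ x := by
      intro h; rw [inv_smul_eq_iff, hwx] at h; exact hcb h
    have hu'y : ((w : G)⁻¹ * u * w) • ((w : G)⁻¹ • h0 • b) = (w : G)⁻¹ • h0 • b := by
      rw [mul_smul, mul_smul, smul_inv_smul, huc]
    have h1 := hsemi _ hy _ hu'H hu'x hu'y
    have e : u = w * ((w : G)⁻¹ * u * w) * (w : G)⁻¹ := by group
    rw [e, h1]; group
  have hconj : g * h0 * g⁻¹ = h0 := by
    have e := congrArg (fun z => h0 * z) hu1
    simpa [mul_assoc] using e
  have hcomm : g * h0 = h0 * g := mul_inv_eq_iff_eq_mul.mp hconj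
  have hfixd : h0 • d = d := by
    rw [← hgx, smul_smul, ← hcomm, mul_smul, hh0x]
  exact hmove d hdx hfixd

theorem transfer {G : Type u} [Group G] {X : Type v} [MulAction G X] (N : Subgroup G) (x : X)
    (j : ℕ)
    (h : IsMultiplyPretransitive (N.subgroupOf (stabilizer G x)) (ofStabilizer G x) j) :
    IsMultiplyPretransitive (stabilizer N x) (ofStabilizer N x) j := by
  let φ : N.subgroupOf (stabilizer G x) → stabilizer N x := fun h =>
    ⟨⟨((h : stabilizer G x) : G), Subgroup.mem_subgroupOf.mp h.2⟩, (h : stabilizer G x).2⟩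
  let f : ofStabilizer G x →ₑ[φ] ofStabilizer N x :=
    { toFun := fun y => ⟨y.1, (mem_ofStabilizer_iff N x).mpr ((mem_ofStabilizer_iff G x).mp y.2)⟩
      map_smul' := fun m y => Subtype.ext rfl }
  have hf : Function.Surjective f := by
    rintro ⟨z, hz⟩
    exact ⟨⟨z, (mem_ofStabilizer_iff G x).mpr ((mem_ofStabilizer_iff N x).mp hz)⟩, rfl⟩
  exact IsPretransitive.of_embedding (f := f) hf

theorem exists_notMem {X : Type*} [Finite X] (S : Set X) (h : S.ncard < Nat.card X) :
    ∃ d, d ∉ S := by
  by_contra hc
  push Not at hc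
  have : S = Set.univ := Set.eq_univ_of_forall hc
  rw [this, Set.ncard_univ] at h
  omega

theorem ncard_two {X : Type*} (a b : X) : ({a, b} : Set X).ncard ≤ 2 :=
  (Set.ncard_insert_le _ _).trans (by rw [Set.ncard_singleton])

theorem ncard_three {X : Type*} (a b c : X) : ({a, b, c} : Set X).ncard ≤ 3 :=
  (Set.ncard_insert_le _ _).trans (Nat.succ_le_succ (ncard_two b c))

theorem ncard_four {X : Type*} (a b c d : X) : ({a, b, c, d} : Set X).ncard ≤ 4 :=
  (Set.ncard_insert_le _ _).trans (Nat.succ_le_succ (ncard_three b c d))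

theorem gen : ∀ (k : ℕ) {G : Type u} [Group G] {X : Type v} [MulAction G X] [Finite X]
    [FaithfulSMul G X], 2 ≤ k → IsMultiplyPretransitive G X k → k < Nat.card X →
    ∀ (N : Subgroup G) [N.Normal], N ≠ ⊥ →
    IsMultiplyPretransitive N X (k - 1) ∨
      (k = 3 ∧ (∀ x : X, ∀ h ∈ N, h • x = x → h = 1) ∧ ∀ h ∈ N, h ^ 2 = 1) := by
  intro k
  induction k with
  | zero => intro G _ X _ _ _ h2; omega
  | succ k ih =>
    intro G _ X _ _ _ hk2 hG hkn N hNn hN
    have h2t : IsMultiplyPretransitive G X 2 :=
      isMultiplyPretransitive_of_le (n := k + 1) hk2 hkn.le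
    have hG1 : IsPreprimitive G X := isPreprimitive_of_is_two_pretransitive h2t
    have hGt : IsPretransitive G X := hG1.toIsPretransitive
    obtain ⟨u, huN, hu1⟩ : ∃ u ∈ N, u ≠ 1 := by
      by_contra hc
      push Not at hc
      exact hN (eq_bot_iff.mpr (fun z hz => Subgroup.mem_bot.mpr (hc z hz)))
    have hNt : IsPretransitive N X := by
      apply IsQuasiPreprimitive.isPretransitive_of_normal (G := G)
      intro hfix
      apply hu1
      apply FaithfulSMul.eq_of_smul_eq_smul (α := X)
      intro y
      have hy : y ∈ fixedPoints N X := by rw [hfix]; trivial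
      rw [one_smul]
      exact hy ⟨u, huN⟩
    rcases Nat.lt_or_ge k 2 with hk' | hk'
    · have : k = 1 := by omega
      subst this
      left
      exact is_one_pretransitive_iff.mpr hNt
    have hne : Nonempty X := by rw [← Finite.card_pos_iff]; omega
    obtain ⟨x⟩ := hne
    have hGx : IsMultiplyPretransitive (stabilizer G x) (ofStabilizer G x) k :=
      ofStabilizer.isMultiplyPretransitive.mp hG
    have hcard' : Nat.card (ofStabilizer G x) + 1 = Nat.card X :=
      nat_card_ofStabilizer_add_one_eq G x
    have hfaith' := Cfsg.Agent.S0697.faithful_ofStabilizer (G := G) x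
    by_cases hA : ∃ h ∈ N, h ≠ 1 ∧ h • x = x
    · obtain ⟨h0, hh0, hh01, hh0x⟩ := hA
      let h0' : stabilizer G x := ⟨h0, hh0x⟩
      have hNx : N.subgroupOf (stabilizer G x) ≠ ⊥ := by
        intro hbot
        have : h0' ∈ N.subgroupOf (stabilizer G x) := Subgroup.mem_subgroupOf.mpr hh0
        rw [hbot, Subgroup.mem_bot] at this
        exact hh01 (congrArg Subtype.val this)
      rcases ih hk' hGx (by omega) (N.subgroupOf (stabilizer G x)) hNx with
        hl | ⟨hk3, hsemi, hsq⟩
      · left
        have e : k + 1 - 1 = (k - 1).succ := by omega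
        rw [e, ofStabilizer.isMultiplyPretransitive (a := x)]
        exact transfer N x (k - 1) hl
      · exfalso
        subst hk3
        have h3t : IsMultiplyPretransitive G X 3 :=
          isMultiplyPretransitive_of_le (n := 3 + 1) (by norm_num) hkn.le
        apply no_invol h3t (by omega) N hNt x ?_ h0 hh0 hh01 ?_ hh0x
        · intro y hy h hh hhx hhy
          have := hsemi ⟨y, (mem_ofStabilizer_iff G x).mpr hy⟩ ⟨h, hhx⟩
            (Subgroup.mem_subgroupOf.mpr hh) (Subtype.ext hhy)
          exact congrArg Subtype.val this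
        · exact congrArg Subtype.val (hsq h0' (Subgroup.mem_subgroupOf.mpr hh0))
    · push Not at hA
      have hsemi : ∀ y : X, ∀ h ∈ N, h • y = y → h = 1 := by
        intro y h hh hy
        obtain ⟨w, hw⟩ := hNt.exists_smul_eq x y
        have hwx : (w : G) • x = y := hw
        by_contra h1
        apply hA ((w : G)⁻¹ * h * w) (N.mul_mem (N.mul_mem (N.inv_mem w.2) hh) w.2)
        · intro e
          apply h1
          have e' : h = w * ((w : G)⁻¹ * h * w) * (w : G)⁻¹ := by group
          rw [e', e]; group
        · rw [mul_smul, mul_smul, hwx, hy, inv_smul_eq_iff, hwx]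
      have hreg : ∀ y : X, stabilizer N y = ⊥ := by
        intro y
        rw [eq_bot_iff]
        intro h hh
        rw [Subgroup.mem_bot]
        exact Subtype.ext (hsemi y h h.2 hh)
      have h2t' : IsMultiplyPretransitive (stabilizer G x) (ofStabilizer G x) 2 :=
        isMultiplyPretransitive_of_le (n := k) hk' (by omega)
      have hprimx : IsPreprimitive (stabilizer G x) (ofStabilizer G x) :=
        isPreprimitive_of_is_two_pretransitive h2t'
      have hnt : Nontrivial (ofStabilizer G x) := by
        rw [← Finite.one_lt_card_iff_nontrivial]; omega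
      have hsq : ∀ h ∈ N, h ^ 2 = 1 := by
        intro h hh
        by_cases h1 : h = 1
        · rw [h1, one_pow]
        · rcases Cfsg.Agent.S0695.dichotomy x hprimx N hreg h hh h1 with h' | h'
          · exact h'
          · omega
      rcases Nat.lt_or_ge k 3 with hk3 | hk3
      · right
        exact ⟨by omega, hsemi, hsq⟩
      · exfalso
        have hinv : ∀ a ∈ N, a⁻¹ = a := fun a ha =>
          inv_eq_of_mul_eq_one_left (by rw [← pow_two]; exact hsq a ha)
        have hcomm : ∀ a b : G, a ∈ N → b ∈ N → a * b = b * a := by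
          intro a b ha hb
          have h3 := hinv (a * b) (N.mul_mem ha hb)
          rw [mul_inv_rev, hinv a ha, hinv b hb] at h3
          exact h3.symm
        have hux : u • x ≠ x := fun h => hu1 (hsemi x u huN h)
        obtain ⟨p, hp⟩ := exists_notMem ({x, u • x} : Set X)
          (lt_of_le_of_lt (ncard_two _ _) (by omega))
        have hpx : p ≠ x := fun h => hp (by simp [h])
        have hpu : p ≠ u • x := fun h => hp (by simp [h])
        obtain ⟨v, hv⟩ := hNt.exists_smul_eq x p
        have hvx : (v : G) • x = p := hv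
        have hvN : (v : G) ∈ N := v.2
        have h1 : (u * (v : G)) • x ≠ x := by
          intro h
          have e := hsemi x _ (N.mul_mem huN hvN) h
          have e2 : (v : G) = u := by
            rw [← hinv u huN]; exact eq_inv_of_mul_eq_one_right e
          apply hpu; rw [← hvx, e2]
        have h2 : (u * (v : G)) • x ≠ u • x := by
          intro h
          rw [mul_smul] at h
          have := MulAction.injective u h
          rw [hvx] at this; exact hpx this
        have h3 : (u * (v : G)) • x ≠ p := by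
          intro h
          rw [hcomm u v huN hvN, mul_smul, ← hvx] at h
          exact hux (MulAction.injective (v : G) h)
        obtain ⟨d, hd⟩ := exists_notMem ({x, u • x, p, (u * (v : G)) • x} : Set X)
          (lt_of_le_of_lt (ncard_four _ _ _ _) (by omega))
        have hG4 : IsMultiplyPretransitive G X 4 :=
          isMultiplyPretransitive_of_le (n := k + 1) (by omega) hkn.le
        obtain ⟨g, hgB, hgd⟩ := exists_fixing' hG4 (by omega) ({x, u • x, p} : Set X)
          (Nat.succ_le_succ (ncard_three _ _ _)) ((u * (v : G)) • x) d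
          (by
            simp only [Set.mem_insert_iff, Set.mem_singleton_iff, not_or]
            exact ⟨h1, h2, h3⟩)
          (fun h => hd (by
            simp only [Set.mem_insert_iff, Set.mem_singleton_iff] at h ⊢
            tauto))
        have hgx : g • x = x := hgB x (by simp)
        have hgu : g • u • x = u • x := hgB _ (by simp)
        have hgp : g • p = p := hgB _ (by simp)
        have hgix : g⁻¹ • x = x := by rw [inv_smul_eq_iff, hgx]
        have e1 : g * u * g⁻¹ = u := by
          have hm : u⁻¹ * (g * u * g⁻¹) ∈ N :=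
            N.mul_mem (N.inv_mem huN) (hNn.conj_mem u huN g)
          have := hsemi x _ hm (by rw [mul_smul, mul_smul, mul_smul, hgix, hgu, inv_smul_smul])
          exact (inv_mul_eq_one.mp this).symm
        have e2 : g * (v : G) * g⁻¹ = v := by
          have hm : (v : G)⁻¹ * (g * v * g⁻¹) ∈ N :=
            N.mul_mem (N.inv_mem hvN) (hNn.conj_mem v hvN g)
          have := hsemi x _ hm (by
            rw [mul_smul, mul_smul, mul_smul, hgix, hvx, hgp, ← hvx, inv_smul_smul])
          exact (inv_mul_eq_one.mp this).symm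
        have c1 : g * u = u * g := mul_inv_eq_iff_eq_mul.mp e1
        have c2 : g * (v : G) = v * g := mul_inv_eq_iff_eq_mul.mp e2
        have e3 : g • (u * (v : G)) • x = (u * (v : G)) • x := by
          have e4 : g * (u * (v : G)) = (u * v) * g := by
            rw [← mul_assoc, c1, mul_assoc, c2, ← mul_assoc]
          rw [smul_smul, e4, mul_smul, hgx]
        apply hd
        rw [← hgd, e3]
        simp

/-- Jordan's Theorem on normal subgroups of multiply transitive groups: if `G` is `k`-transitive (`k > 1`) of degree greater than `k`, a non-trivial normal subgroup is `(k-1)`-transitive, except possibly for `k = 3` when it may be an elementary abelian 2-group. -/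
theorem result {α : Type*} [Fintype α] [DecidableEq α] (G : Subgroup (Equiv.Perm α)) {k : ℕ} (hk : 1 < k) (hdeg : k < Fintype.card α) (hG : MulAction.IsMultiplyPretransitive G α k) (N : Subgroup G) [N.Normal] (hN : N ≠ ⊥) : MulAction.IsMultiplyPretransitive N α (k - 1) ∨ (k = 3 ∧ IsMulCommutative N ∧ ∀ n ∈ N, n ^ 2 = 1) := by
  have hfaith : FaithfulSMul G α := by
    refine ⟨fun {g1 g2} h => ?_⟩
    apply Subtype.ext
    ext a
    exact h a
  rcases gen k hk hG (by rw [Nat.card_eq_fintype_card]; exact hdeg) N hN with h | ⟨h3, -, hsq⟩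
  · left; exact h
  · right
    exact ⟨h3, Cfsg.Agent.S0695.comm_of_sq N hsq, hsq⟩

end Cfsg.Agent.S0698
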