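import Mathlib
import Cfsg.Statements.S0699
import Cfsg.Agent.S0698

set_option autoImplicit false
open Cfsg

namespace Cfsg.Agent.S0699

open MulAction SubMulAction

/-- the stabilizer of the pair `{a, b}` in `N` -/
def pairStab {G X : Type*} [Group G] [MulAction G X] (N : Subgroup G) (a b : X) : Subgroup G where
  carrier := {h | h ∈ N ∧ ((h • a = a ∧ h • b = b) ∨ (h • a = b ∧ h • b = a))}
  one_mem' := ⟨N.one_mem, Or.inl ⟨one_smul _ _, one_smul _ _⟩⟩
  mul_mem' := by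
    rintro x y ⟨hx, hx'⟩ ⟨hy, hy'⟩
    refine ⟨N.mul_mem hx hy, ?_⟩
    rcases hx' with ⟨h1, h2⟩ | ⟨h1, h2⟩ <;> rcases hy' with ⟨h3, h4⟩ | ⟨h3, h4⟩
    · left; rw [mul_smul, mul_smul, h3, h4]; exact ⟨h1, h2⟩
    · right; rw [mul_smul, mul_smul, h3, h4]; exact ⟨h2, h1⟩
    · right; rw [mul_smul, mul_smul, h3, h4]; exact ⟨h1, h2⟩
    · left; rw [mul_smul, mul_smul, h3, h4]; exact ⟨h2, h1⟩
  inv_mem' := by
    rintro x ⟨hx, hx'⟩
    refine ⟨N.inv_mem hx, ?_⟩
    rcases hx' with ⟨h1, h2⟩ | ⟨h1, h2⟩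
    · left; rw [inv_smul_eq_iff, inv_smul_eq_iff]; exact ⟨h1.symm, h2.symm⟩
    · right; rw [inv_smul_eq_iff, inv_smul_eq_iff]; exact ⟨h2.symm, h1.symm⟩

theorem conj_sylow {G : Type*} [Group G] [Finite G] {p : ℕ} [Fact p.Prime] (P : Subgroup G)
    (S : Sylow p P) (w : G) (hw : ∀ s : P, s ∈ S → w * s * w⁻¹ ∈ P) :
    ∃ S' : Sylow p P, ∀ x : P, x ∈ S' ↔ ∃ s : P, s ∈ S ∧ (x : G) = w * s * w⁻¹ := by
  let K : Subgroup G := ((S : Subgroup P).map P.subtype).map (MulAut.conj w).toMonoidHom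
  have hKmem : ∀ x : G, x ∈ K ↔ ∃ s : P, s ∈ S ∧ x = w * s * w⁻¹ := by
    intro x
    simp only [K, Subgroup.mem_map]
    constructor
    · rintro ⟨y, ⟨s, hs, rfl⟩, rfl⟩
      exact ⟨s, hs, rfl⟩
    · rintro ⟨s, hs, rfl⟩
      exact ⟨s, ⟨s, hs, rfl⟩, rfl⟩
  have hKP : K ≤ P := by
    intro x hx
    obtain ⟨s, hs, rfl⟩ := (hKmem x).mp hx
    exact hw s hs
  have hcard : Nat.card K = Nat.card S := by
    rw [Subgroup.card_map_of_injective (MulAut.conj w).injective,
      Subgroup.card_map_of_injective P.subtype_injective]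
  have hcard' : Nat.card (K.subgroupOf P) = p ^ (Nat.card P).factorization p := by
    rw [Nat.card_congr (Subgroup.subgroupOfEquivOfLe hKP).toEquiv, hcard]
    exact Sylow.card_eq_multiplicity S
  refine ⟨Sylow.ofCard (K.subgroupOf P) hcard', fun x => ?_⟩
  change x ∈ K.subgroupOf P ↔ _
  rw [Subgroup.mem_subgroupOf, hKmem]

theorem sylow_swaps {G X : Type*} [Group G] [MulAction G X] [Finite G] (N : Subgroup G)
    {a b : X} (hab : a ≠ b) (hswap : ∃ s ∈ N, s • a = b ∧ s • b = a)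
    (S : Sylow 2 (pairStab N a b)) : ∃ t : pairStab N a b, t ∈ S ∧ (t : G) • a = b := by
  by_contra hcon
  push Not at hcon
  obtain ⟨s, hsN, hsa, hsb⟩ := hswap
  let s0 : pairStab N a b := ⟨s, hsN, Or.inr ⟨hsa, hsb⟩⟩
  have hidx : (stabilizer (pairStab N a b) a).index = 2 := by
    rw [Subgroup.index_eq_two_iff]
    refine ⟨s0, fun h => ?_⟩
    rcases h.2.2 with ⟨h1, h2⟩ | ⟨h1, h2⟩
    · refine Or.inr ⟨h1, ?_⟩
      intro h3
      have h4 : (h : G) • s • a = a := by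
        have h5 : ((h * s0 : pairStab N a b) : G) • a = a := h3
        rwa [Subgroup.coe_mul, mul_smul] at h5
      rw [hsa, h2] at h4
      exact hab h4.symm
    · refine Or.inl ⟨?_, ?_⟩
      · change ((h * s0 : pairStab N a b) : G) • a = a
        rw [Subgroup.coe_mul, mul_smul]
        change (h : G) • s • a = a
        rw [hsa, h2]
      · intro h3
        have h4 : (h : G) • a = a := h3
        exact hab (h4.symm.trans h1)
  have hSle : (S : Subgroup (pairStab N a b)) ≤ stabilizer (pairStab N a b) a := by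
    intro t ht
    rcases t.2.2 with ⟨h1, -⟩ | ⟨h1, -⟩
    · exact h1
    · exact absurd h1 (hcon t ht)
  have h1 := Subgroup.card_dvd_of_le hSle
  have h2 := Subgroup.card_mul_index (stabilizer (pairStab N a b) a)
  rw [hidx] at h2
  have h3 := Sylow.card_eq_multiplicity S
  have hpos : Nat.card (stabilizer (pairStab N a b) a) ≠ 0 := Nat.card_pos.ne'
  rw [← h2, Nat.factorization_mul hpos (by norm_num), Finsupp.add_apply,
    Nat.Prime.factorization_self Nat.prime_two] at h3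
  rw [h3] at h1
  exact Nat.pow_succ_factorization_not_dvd hpos Nat.prime_two h1

theorem core {G X : Type*} [Group G] [MulAction G X] [Finite G] [Finite X]
    (hodd : Odd (Nat.card X)) (h3 : IsMultiplyPretransitive G X 3) (N : Subgroup G)
    [hNn : N.Normal]
    (hN2 : ∀ a b c d : X, a ≠ b → c ≠ d → ∃ h ∈ N, h • a = c ∧ h • b = d) (a b : X)
    (hab : a ≠ b) (z z' : X) (hz : z ≠ a ∧ z ≠ b) (hz' : z' ≠ a ∧ z' ≠ b) :
    ∃ h ∈ N, h • a = a ∧ h • b = b ∧ h • z = z' := by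
  have h2p : Fact (Nat.Prime 2) := ⟨Nat.prime_two⟩
  have hswap : ∃ s ∈ N, s • a = b ∧ s • b = a := hN2 a b b a hab hab.symm
  obtain ⟨S⟩ : Nonempty (Sylow 2 (pairStab N a b)) := inferInstance
  obtain ⟨t0, ht0S, ht0a⟩ := sylow_swaps N hab hswap S
  have ht0b : (t0 : G) • b = a := by
    rcases t0.2.2 with ⟨h1, h2⟩ | ⟨h1, h2⟩
    · exact absurd (h1.symm.trans ht0a) hab
    · exact h2
  -- a fixed point of S
  obtain ⟨c, hc⟩ := S.isPGroup'.nonempty_fixed_point_of_prime_not_dvd_card X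
    (by rw [← Nat.not_even_iff_odd, even_iff_two_dvd] at hodd; exact hodd)
  have hcfix : ∀ t : pairStab N a b, t ∈ S → (t : G) • c = c := fun t ht => hc ⟨t, ht⟩
  have hca : c ≠ a := by
    rintro rfl
    exact hab ((hcfix t0 ht0S).symm.trans ht0a)
  have hcb : c ≠ b := by
    rintro rfl
    exact hab ((hcfix t0 ht0S).symm.trans ht0b).symm
  -- uniqueness of the fixed point
  have huniq : ∀ u u' : X, (∀ t : pairStab N a b, t ∈ S → (t : G) • u = u) →
      (∀ t : pairStab N a b, t ∈ S → (t : G) • u' = u') → u = u' := by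
    intro u u' hu hu'
    by_contra hne
    obtain ⟨w, hwN, hwu, hwu'⟩ := hN2 u u' a b hne hab
    have hwiu : w⁻¹ • a = u := by rw [inv_smul_eq_iff, hwu]
    have hwiu' : w⁻¹ • b = u' := by rw [inv_smul_eq_iff, hwu']
    have hfa : ∀ s : pairStab N a b, s ∈ S → (w * s * w⁻¹) • a = a := by
      intro s hs
      rw [mul_smul, mul_smul, hwiu, hu s hs, hwu]
    have hfb : ∀ s : pairStab N a b, s ∈ S → (w * s * w⁻¹) • b = b := by
      intro s hs
      rw [mul_smul, mul_smul, hwiu', hu' s hs, hwu']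
    obtain ⟨S', hS'⟩ := conj_sylow (pairStab N a b) S w (fun s hs =>
      ⟨hNn.conj_mem s s.2.1 w, Or.inl ⟨hfa s hs, hfb s hs⟩⟩)
    obtain ⟨t, htS', hta⟩ := sylow_swaps N hab hswap S'
    obtain ⟨s, hs, hts⟩ := (hS' t).mp htS'
    rw [hts, hfa s hs] at hta
    exact hab hta
  -- every point outside is moved to the fixed point by an element of the pair stabilizer
  have hmove : ∀ y : X, y ≠ a → y ≠ b → ∃ k : pairStab N a b,
      ∀ t : pairStab N a b, t ∈ S → (t : G) • ((k : G) • y) = (k : G) • y := by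
    intro y hya hyb
    obtain ⟨g, hga, hgb, hgc⟩ := Cfsg.Agent.S0697.exists_three h3 a b c a b y hab
      (Ne.symm hca) (Ne.symm hcb) hab (Ne.symm hya) (Ne.symm hyb)
    have hgia : g⁻¹ • a = a := by rw [inv_smul_eq_iff, hga]
    have hgib : g⁻¹ • b = b := by rw [inv_smul_eq_iff, hgb]
    have hgiy : g⁻¹ • y = c := by rw [inv_smul_eq_iff, hgc]
    obtain ⟨S', hS'⟩ := conj_sylow (pairStab N a b) S g (fun s hs => by
      refine ⟨hNn.conj_mem s s.2.1 g, ?_⟩
      rcases s.2.2 with ⟨h1, h2⟩ | ⟨h1, h2⟩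
      · left
        rw [mul_smul, mul_smul, hgia, h1, hga, mul_smul, mul_smul, hgib, h2, hgb]
        exact ⟨rfl, rfl⟩
      · right
        rw [mul_smul, mul_smul, hgia, h1, hgb, mul_smul, mul_smul, hgib, h2, hga]
        exact ⟨rfl, rfl⟩)
    have hS'y : ∀ t : pairStab N a b, t ∈ S' → (t : G) • y = y := by
      intro t ht
      obtain ⟨s, hs, hts⟩ := (hS' t).mp ht
      rw [hts, mul_smul, mul_smul, hgiy, hcfix s hs, hgc]
    obtain ⟨k, hk⟩ := MulAction.exists_smul_eq (pairStab N a b) S' S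
    refine ⟨k, fun t ht => ?_⟩
    have ht' : t ∈ ((k • S' : Sylow 2 (pairStab N a b)) : Subgroup (pairStab N a b)) := by
      rw [hk]; exact ht
    rw [Sylow.coe_subgroup_smul, Subgroup.mem_smul_pointwise_iff_exists] at ht'
    obtain ⟨t', ht'S, rfl⟩ := ht'
    change ((k * t' * k⁻¹ : pairStab N a b) : G) • ((k : G) • y) = (k : G) • y
    rw [Subgroup.coe_mul, Subgroup.coe_mul, Subgroup.coe_inv, mul_smul, mul_smul,
      inv_smul_smul, hS'y t' ht'S]
  obtain ⟨k, hk⟩ := hmove z hz.1 hz.2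
  obtain ⟨k', hk'⟩ := hmove z' hz'.1 hz'.2
  have hkk : (k : G) • z = (k' : G) • z' := huniq _ _ hk hk'
  have hz'eq : ((k' : G)⁻¹ * (k : G)) • z = z' := by
    rw [mul_smul, hkk, inv_smul_smul]
  have hh0 : (k' : G)⁻¹ * (k : G) ∈ pairStab N a b :=
    (pairStab N a b).mul_mem ((pairStab N a b).inv_mem k'.2) k.2
  rcases hh0.2 with ⟨h1, h2⟩ | ⟨h1, h2⟩
  · exact ⟨_, hh0.1, h1, h2, hz'eq⟩
  · -- compose with a swapping element fixing z
    have htP : (k : G)⁻¹ * t0 * k ∈ pairStab N a b :=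
      (pairStab N a b).mul_mem ((pairStab N a b).mul_mem ((pairStab N a b).inv_mem k.2) t0.2) k.2
    have htz : ((k : G)⁻¹ * t0 * k) • z = z := by
      rw [mul_smul, mul_smul, hk t0 ht0S, inv_smul_smul]
    have hta : ((k : G)⁻¹ * t0 * k) • a = b ∧ ((k : G)⁻¹ * t0 * k) • b = a := by
      rcases htP.2 with ⟨h3, h4⟩ | ⟨h3, h4⟩
      · exfalso
        rw [mul_smul, mul_smul, inv_smul_eq_iff] at h3
        rcases k.2.2 with ⟨h5, h6⟩ | ⟨h5, h6⟩
        · rw [h5, ht0a] at h3; exact hab h3.symm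
        · rw [h5, ht0b] at h3; exact hab h3
      · exact ⟨h3, h4⟩
    refine ⟨(k' : G)⁻¹ * (k : G) * ((k : G)⁻¹ * t0 * k), N.mul_mem hh0.1 htP.1, ?_, ?_, ?_⟩
    · rw [mul_smul, hta.1, h2]
    · rw [mul_smul, hta.2, h1]
    · rw [mul_smul, htz, hz'eq]

theorem three_of_points {N X : Type*} [Group N] [MulAction N X]
    (h : ∀ x1 x2 x3 y1 y2 y3 : X, x1 ≠ x2 → x1 ≠ x3 → x2 ≠ x3 → y1 ≠ y2 → y1 ≠ y3 → y2 ≠ y3 →
      ∃ g : N, g • x1 = y1 ∧ g • x2 = y2 ∧ g • x3 = y3) : IsMultiplyPretransitive N X 3 := by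
  refine ⟨fun e1 e2 => ?_⟩
  obtain ⟨g, h1, h2, h3⟩ := h (e1 0) (e1 1) (e1 2) (e2 0) (e2 1) (e2 2)
    (e1.injective.ne (by decide)) (e1.injective.ne (by decide)) (e1.injective.ne (by decide))
    (e2.injective.ne (by decide)) (e2.injective.ne (by decide)) (e2.injective.ne (by decide))
  refine ⟨g, ?_⟩
  ext i
  fin_cases i
  · exact h1
  · exact h2
  · exact h3

/-- Wagner's Theorem: a non-trivial normal subgroup of a triply transitive permutation group of odd degree at least 5 is triply transitive. -/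
theorem result {α : Type*} [Fintype α] [DecidableEq α] (G : Subgroup (Equiv.Perm α)) (hodd : Odd (Fintype.card α)) (h5 : 5 ≤ Fintype.card α) (hG : MulAction.IsMultiplyPretransitive G α 3) (N : Subgroup G) [N.Normal] (hN : N ≠ ⊥) : MulAction.IsMultiplyPretransitive N α 3 := by
  have hfaith : FaithfulSMul G α := by
    refine ⟨fun {g1 g2} h => ?_⟩
    apply Subtype.ext
    ext a
    exact h a
  have hodd' : Odd (Nat.card α) := by rwa [Nat.card_eq_fintype_card]
  have h2p : Fact (Nat.Prime 2) := ⟨Nat.prime_two⟩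
  have hN2 : IsMultiplyPretransitive N α 2 := by
    rcases Cfsg.Agent.S0698.gen 3 (by norm_num) hG (by rw [Nat.card_eq_fintype_card]; omega)
      N hN with h | ⟨-, hsemi, hsq⟩
    · exact h
    · exfalso
      obtain ⟨u, huN, hu1⟩ : ∃ u ∈ N, u ≠ 1 := by
        by_contra hc
        push Not at hc
        exact hN (eq_bot_iff.mpr (fun z hz => Subgroup.mem_bot.mpr (hc z hz)))
      have hu2 := hsq u huN
      have hpg : IsPGroup 2 (Subgroup.zpowers u) := by
        apply IsPGroup.of_card (n := 1)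
        rw [Nat.card_zpowers, pow_one]
        exact orderOf_eq_prime hu2 hu1
      obtain ⟨c, hc⟩ := hpg.nonempty_fixed_point_of_prime_not_dvd_card α
        (by rw [← Nat.not_even_iff_odd, even_iff_two_dvd] at hodd'; exact hodd')
      exact hu1 (hsemi c u huN (hc ⟨u, Subgroup.mem_zpowers u⟩))
  rw [is_two_pretransitive_iff] at hN2
  have hN2' : ∀ a b c d : α, a ≠ b → c ≠ d → ∃ h ∈ N, h • a = c ∧ h • b = d := by
    intro a b c d hab hcd
    obtain ⟨g, hg⟩ := hN2 hab hcd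
    exact ⟨g, g.2, hg⟩
  apply three_of_points
  intro x1 x2 x3 y1 y2 y3 hx12 hx13 hx23 hy12 hy13 hy23
  obtain ⟨h1, hh1N, hh1a, hh1b⟩ := hN2' x1 x2 y1 y2 hx12 hy12
  have hz : h1 • x3 ≠ y1 ∧ h1 • x3 ≠ y2 := by
    constructor
    · rw [← hh1a]; exact fun h => hx13 (MulAction.injective h1 h).symm
    · rw [← hh1b]; exact fun h => hx23 (MulAction.injective h1 h).symm
  obtain ⟨h2, hh2N, hh2a, hh2b, hh2z⟩ := core hodd' hG N hN2' y1 y2 hy12 (h1 • x3) y3 hz
    ⟨hy13.symm, hy23.symm⟩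
  refine ⟨⟨h2 * h1, N.mul_mem hh2N hh1N⟩, ?_, ?_, ?_⟩
  · change (h2 * h1) • x1 = y1; rw [mul_smul, hh1a, hh2a]
  · change (h2 * h1) • x2 = y2; rw [mul_smul, hh1b, hh2b]
  · change (h2 * h1) • x3 = y3; rw [mul_smul, hh2z]

end Cfsg.Agent.S0699
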