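import Cfsg.Statements.S0006
import Mathlib
import Cfsg.Agent.Lib.Helper1.Hall
import Cfsg.Agent.S0144

set_option autoImplicit false
open Cfsg

namespace Cfsg.Agent.S0006

open Subgroup

universe u

section basics

variable {G : Type*} [Group G]

/-- Characterisation of `s`-complements. -/
theorem comp_iff [Finite G] {s : ℕ} (hs : s.Prime) (L : Subgroup G) :
    L.index = s ^ (Nat.card G).factorization s ↔ (∃ j, L.index = s ^ j) ∧ ¬ s ∣ Nat.card L := by
  have hcard : Nat.card L * L.index = Nat.card G := L.card_mul_index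
  have hL0 : Nat.card L ≠ 0 := Nat.card_pos.ne'
  constructor
  · intro h
    refine ⟨⟨_, h⟩, ?_⟩
    have h2 : (Nat.card G).factorization s
        = (Nat.card L).factorization s + (Nat.card G).factorization s := by
      conv_lhs => rw [← hcard, h]
      rw [Nat.factorization_mul hL0 (pow_ne_zero _ hs.ne_zero), Finsupp.add_apply,
        hs.factorization_pow, Finsupp.single_eq_same]
    have h3 : (Nat.card L).factorization s = 0 := by omega
    intro hdvd
    have := hs.factorization_pos_of_dvd hL0 hdvd
    omega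
  · rintro ⟨⟨j, hj⟩, hnd⟩
    have h2 : (Nat.card G).factorization s = j := by
      rw [← hcard, hj, Nat.factorization_mul hL0 (pow_ne_zero _ hs.ne_zero), Finsupp.add_apply,
        hs.factorization_pow, Finsupp.single_eq_same, Nat.factorization_eq_zero_of_not_dvd hnd,
        zero_add]
    rw [h2, hj]

/-- Coprime indices: the relative index is the index. -/
theorem relIndex_eq_index_of_coprime [Finite G] {H L : Subgroup G}
    (h : Nat.Coprime H.index L.index) : L.relIndex H = L.index := by
  have h1 : H.index * L.index ∣ (H ⊓ L).index :=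
    Nat.Coprime.mul_dvd_of_dvd_of_dvd h (index_dvd_of_le inf_le_left) (index_dvd_of_le inf_le_right)
  have h2 : (H ⊓ L).index ≤ H.index * L.index := index_inf_le
  have h3 : (H ⊓ L).index ≠ 0 := index_ne_zero_of_finite
  have h4 : (H ⊓ L).index = H.index * L.index :=
    le_antisymm h2 (Nat.le_of_dvd (Nat.pos_of_ne_zero h3) h1)
  have h5 : (H ⊓ L).relIndex H * H.index = (H ⊓ L).index := relIndex_mul_index inf_le_left
  rw [h4, inf_relIndex_left, mul_comm] at h5
  exact Nat.eq_of_mul_eq_mul_left (Nat.pos_of_ne_zero index_ne_zero_of_finite) h5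

/-- Coprime indices: `G = K * H`. -/
theorem exists_mul_of_coprime_index [Finite G] {H K : Subgroup G}
    (h : Nat.Coprime K.index H.index) (x : G) : ∃ k ∈ K, ∃ h ∈ H, x = k * h := by
  let ι : K ⧸ (H.subgroupOf K) → G ⧸ H := Quotient.map' (fun k : K => (k : G)) (by
    intro a b hab
    rw [QuotientGroup.leftRel_apply] at hab ⊢
    exact hab)
  have hι : Function.Injective ι := by
    intro a b
    induction a using Quotient.inductionOn' with | _ a => ?_
    induction b using Quotient.inductionOn' with | _ b => ?_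
    intro hab
    have h1 : (QuotientGroup.mk (a : G) : G ⧸ H) = QuotientGroup.mk (b : G) := hab
    rw [QuotientGroup.eq] at h1
    apply Quotient.sound'
    rw [QuotientGroup.leftRel_apply]
    exact h1
  have hcard : Nat.card (G ⧸ H) ≤ Nat.card (K ⧸ (H.subgroupOf K)) := by
    have h1 : Nat.card (K ⧸ (H.subgroupOf K)) = H.relIndex K := rfl
    have h2 : Nat.card (G ⧸ H) = H.index := rfl
    rw [h1, h2, relIndex_eq_index_of_coprime h]
  have hbij := hι.bijective_of_nat_card_le hcard
  obtain ⟨y, hy⟩ := hbij.2 (QuotientGroup.mk x)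
  induction y using Quotient.inductionOn' with | _ k => ?_
  have h1 : (QuotientGroup.mk (k : G) : G ⧸ H) = QuotientGroup.mk x := hy
  rw [QuotientGroup.eq] at h1
  exact ⟨k, k.2, _, h1, by group⟩

/-- Coprime indices: `G = K * g * H` for every `g`. -/
theorem exists_mul_mul_of_coprime_index [Finite G] {H K : Subgroup G}
    (h : Nat.Coprime K.index H.index) (x g : G) : ∃ k ∈ K, ∃ h ∈ H, x = k * g * h := by
  obtain ⟨k₁, hk₁, h₁, hh₁, rfl⟩ := exists_mul_of_coprime_index h x
  obtain ⟨k₂, hk₂, h₂, hh₂, rfl⟩ := exists_mul_of_coprime_index h g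
  exact ⟨k₁ * k₂⁻¹, K.mul_mem hk₁ (K.inv_mem hk₂), h₂⁻¹ * h₁, H.mul_mem (H.inv_mem hh₂) hh₁,
    by group⟩

theorem card_subgroupOf_dvd (L H : Subgroup G) : Nat.card (L.subgroupOf H) ∣ Nat.card L := by
  rw [← inf_subgroupOf_right, Cfsg.Agent.Lib.Helper1.card_subgroupOf_of_le inf_le_right]
  exact card_dvd_of_le inf_le_left

/-- An `s`-complement of `G` induces an `s`-complement of a subgroup of coprime index. -/
theorem comp_subgroupOf_of_coprime [Finite G] {s : ℕ} (hs : s.Prime) {L H : Subgroup G}
    (hL : L.index = s ^ (Nat.card G).factorization s) (hcop : Nat.Coprime H.index L.index) :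
    (L.subgroupOf H).index = s ^ (Nat.card H).factorization s := by
  rw [comp_iff hs]
  obtain ⟨-, hnd⟩ := (comp_iff hs L).mp hL
  refine ⟨⟨(Nat.card G).factorization s, ?_⟩,
    fun hd => hnd (hd.trans (card_subgroupOf_dvd L H))⟩
  have h1 : (L.subgroupOf H).index = L.relIndex H := rfl
  rw [h1, relIndex_eq_index_of_coprime hcop, hL]

/-- An `s`-complement of `G` induces an `s`-complement of a normal subgroup. -/
theorem comp_subgroupOf_of_normal [Finite G] {s : ℕ} (hs : s.Prime) {L : Subgroup G}
    (M : Subgroup G) [M.Normal] (hL : L.index = s ^ (Nat.card G).factorization s) :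
    (L.subgroupOf M).index = s ^ (Nat.card M).factorization s := by
  rw [comp_iff hs]
  obtain ⟨-, hnd⟩ := (comp_iff hs L).mp hL
  refine ⟨?_, fun hd => hnd (hd.trans (card_subgroupOf_dvd L M))⟩
  have h1 : (L.subgroupOf M).index = L.relIndex M := rfl
  -- `rel * |M ⊓ L| = |M|`
  have h2 : Nat.card M = Nat.card (M ⊓ L : Subgroup G) * (M ⊓ L).relIndex M :=
    Cfsg.Agent.Lib.Helper1.card_eq_card_mul_relIndex inf_le_left
  rw [inf_comm, inf_relIndex_right] at h2
  have h3 := Cfsg.Agent.Lib.Helper1.card_sup_mul_card_inf M L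
  rw [inf_comm] at h3
  have hpos : 0 < Nat.card (L ⊓ M : Subgroup G) := Nat.card_pos
  have h4 : Nat.card (M ⊔ L : Subgroup G) = L.relIndex M * Nat.card L := by
    have h5 : Nat.card (M ⊔ L : Subgroup G) * Nat.card (L ⊓ M : Subgroup G)
        = (L.relIndex M * Nat.card L) * Nat.card (L ⊓ M : Subgroup G) := by
      rw [h3, h2]
      ring
    exact Nat.eq_of_mul_eq_mul_right hpos h5
  have h6 : Nat.card (M ⊔ L : Subgroup G) * (M ⊔ L).index = Nat.card L * L.index := by
    rw [card_mul_index, card_mul_index]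
  have h7 : L.relIndex M * (M ⊔ L).index = L.index := by
    have hposL : 0 < Nat.card L := Nat.card_pos
    have h8 : Nat.card L * (L.relIndex M * (M ⊔ L).index) = Nat.card L * L.index := by
      rw [← h6, h4]
      ring
    exact Nat.eq_of_mul_eq_mul_left hposL h8
  have h9 : L.relIndex M ∣ s ^ (Nat.card G).factorization s := by
    rw [← hL, ← h7]
    exact dvd_mul_right _ _
  obtain ⟨j, -, hj⟩ := (Nat.dvd_prime_pow hs).mp h9
  exact ⟨j, by rw [h1, hj]⟩

/-- An `s`-complement of `G` induces an `s`-complement of a quotient. -/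
theorem comp_map [Finite G] {s : ℕ} (hs : s.Prime) {L : Subgroup G}
    (M : Subgroup G) [M.Normal] (hL : L.index = s ^ (Nat.card G).factorization s) :
    (L.map (QuotientGroup.mk' M)).index = s ^ (Nat.card (G ⧸ M)).factorization s := by
  rw [comp_iff hs]
  obtain ⟨-, hnd⟩ := (comp_iff hs L).mp hL
  refine ⟨?_, fun hd => hnd (hd.trans (card_map_dvd _ _))⟩
  have h1 : (L.map (QuotientGroup.mk' M)).index ∣ s ^ (Nat.card G).factorization s := by
    rw [← hL]
    exact index_map_dvd L (QuotientGroup.mk'_surjective M)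
  obtain ⟨j, -, hj⟩ := (Nat.dvd_prime_pow hs).mp h1
  exact ⟨j, hj⟩

end basics

/-- Hall's converse, by induction on the order. -/
theorem main (n : ℕ) : ∀ (G : Type u) [Group G] [Finite G], Nat.card G = n →
    (∀ s : ℕ, s.Prime → ∃ L : Subgroup G, L.index = s ^ (Nat.card G).factorization s) →
    Group.IsSolvable G := by
  induction n using Nat.strong_induction_on with
  | _ n ih =>
  intro G _ _ hn hc
  by_cases h1 : Nat.card G = 1
  · have : Subsingleton G := (Nat.card_eq_one_iff_unique.mp h1).1
    infer_instance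
  obtain ⟨p, hp, hpd⟩ := Nat.exists_prime_and_dvd h1
  obtain ⟨H, hH⟩ := hc p hp
  have hG0 : Nat.card G ≠ 0 := Nat.card_pos.ne'
  have ha : 0 < (Nat.card G).factorization p := hp.factorization_pos_of_dvd hG0 hpd
  obtain ⟨-, hpH⟩ := (comp_iff hp H).mp hH
  have hHidx : 1 < H.index := by
    rw [hH]
    exact Nat.one_lt_pow ha.ne' hp.one_lt
  have hHcard : Nat.card H * H.index = Nat.card G := H.card_mul_index
  have hHpos : 0 < Nat.card H := Nat.card_pos
  have hHlt : Nat.card H < Nat.card G := by
    rw [← hHcard]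
    exact lt_mul_of_one_lt_right hHpos hHidx
  by_cases hH1 : Nat.card H = 1
  · -- `G` is a `p`-group
    apply Cfsg.Agent.S0144.result p 2 ((Nat.card G).factorization p) 0 hp Nat.prime_two
    have h2 : Nat.card G = H.index := by rw [← hHcard, hH1, one_mul]
    rw [pow_zero, mul_one, ← hH]
    exact h2
  -- `H` is solvable by induction
  have hHsol : Group.IsSolvable H := by
    apply ih (Nat.card H) (hn ▸ hHlt) H rfl
    intro s hs
    by_cases hsp : s = p
    · refine ⟨⊤, ?_⟩
      rw [index_top, hsp, Nat.factorization_eq_zero_of_not_dvd hpH, pow_zero]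
    · obtain ⟨L, hL⟩ := hc s hs
      refine ⟨L.subgroupOf H, comp_subgroupOf_of_coprime hs hL ?_⟩
      rw [hH, hL]
      exact Nat.Coprime.pow _ _ ((Nat.coprime_primes hp hs).mpr (Ne.symm hsp))
  have hHnt : Nontrivial H := by
    rw [← Finite.one_lt_card_iff_nontrivial]
    omega
  obtain ⟨Q, q, k, hQn, -, hq, hk0, hQcard⟩ := Cfsg.Agent.Lib.Helper1.exists_minNormal_pGroup H
  have hqH : q ∣ Nat.card H := by
    have h2 : Nat.card Q ∣ Nat.card H := Subgroup.card_subgroup_dvd_card Q
    rw [hQcard] at h2
    exact (dvd_pow_self q hk0.ne').trans h2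
  have hqp : q ≠ p := by
    rintro rfl
    exact hpH hqH
  by_cases hr : ∃ r : ℕ, r.Prime ∧ r ∣ Nat.card G ∧ r ≠ p ∧ r ≠ q
  · -- a third prime: the normal core of an `r`-complement is a proper nontrivial normal subgroup
    obtain ⟨r, hrp, hrd, hrp', hrq⟩ := hr
    obtain ⟨K, hK⟩ := hc r hrp
    have hc0 : 0 < (Nat.card G).factorization r := hrp.factorization_pos_of_dvd hG0 hrd
    have hqf : Fact q.Prime := ⟨hq⟩
    have hQp : IsPGroup q Q := IsPGroup.of_card hQcard
    -- fixed point of `Q` on `G ⧸ K`
    have hnd : ¬ q ∣ Nat.card (G ⧸ K) := by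
      have h2 : Nat.card (G ⧸ K) = K.index := rfl
      rw [h2, hK]
      intro hd
      exact hrq ((Nat.prime_dvd_prime_iff_eq hq hrp).mp (hq.dvd_of_dvd_pow hd)).symm
    let act : MulAction Q (G ⧸ K) := MulAction.compHom (G ⧸ K) (H.subtype.comp Q.subtype)
    obtain ⟨y, hy⟩ := hQp.nonempty_fixed_point_of_prime_not_dvd_card (G ⧸ K) hnd
    induction y using Quotient.inductionOn' with | _ g => ?_
    have hfix : ∀ n : Q, g⁻¹ * ((n : H) : G) * g ∈ K := by
      intro n
      have h2 : (QuotientGroup.mk (((n : H) : G) * g) : G ⧸ K) = QuotientGroup.mk g := hy n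
      rw [QuotientGroup.eq] at h2
      have h3 : (((n : H) : G) * g)⁻¹ * g = (g⁻¹ * ((n : H) : G) * g)⁻¹ := by group
      rw [h3] at h2
      exact (K.inv_mem_iff).mp h2
    have hcop : Nat.Coprime K.index H.index := by
      rw [hH, hK]
      exact Nat.Coprime.pow _ _ ((Nat.coprime_primes hrp hp).mpr hrp')
    set M := K.normalCore with hM
    have hMmem : ∀ n : Q, g⁻¹ * ((n : H) : G) * g ∈ M := by
      intro n x
      obtain ⟨k, hk, h, hh, hx⟩ := exists_mul_mul_of_coprime_index hcop (x * g⁻¹) g⁻¹
      have h2 : x * (g⁻¹ * ((n : H) : G) * g) * x⁻¹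
          = k * (g⁻¹ * (h * ((n : H) : G) * h⁻¹) * g) * k⁻¹ := by
        have h3 : x = k * g⁻¹ * h * g := by
          rw [← hx]
          group
        rw [h3]
        group
      rw [h2]
      have h4 : (⟨h, hh⟩ : H) * (n : H) * (⟨h, hh⟩ : H)⁻¹ ∈ Q := hQn.conj_mem (n : H) n.2 ⟨h, hh⟩
      have h5 := hfix ⟨_, h4⟩
      exact K.mul_mem (K.mul_mem hk h5) (K.inv_mem hk)
    have hMK : M ≤ K := normalCore_le K
    have hKlt : Nat.card K < Nat.card G := by
      have h2 : Nat.card K * K.index = Nat.card G := K.card_mul_index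
      have h3 : 1 < K.index := by
        rw [hK]
        exact Nat.one_lt_pow hc0.ne' hrp.one_lt
      rw [← h2]
      exact lt_mul_of_one_lt_right Nat.card_pos h3
    have hMlt : Nat.card M < Nat.card G := lt_of_le_of_lt (Subgroup.card_le_of_le hMK) hKlt
    have hMne : M ≠ ⊥ := by
      intro hbot
      have hQnt : Nontrivial Q := by
        rw [← Finite.one_lt_card_iff_nontrivial, hQcard]
        exact Nat.one_lt_pow hk0.ne' hq.one_lt
      obtain ⟨n, hn1⟩ := exists_ne (1 : Q)
      have h2 := hMmem n
      rw [hbot, mem_bot] at h2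
      apply hn1
      apply Subtype.ext
      apply Subtype.ext
      have h3 : ((n : H) : G) = g * (g⁻¹ * ((n : H) : G) * g) * g⁻¹ := by group
      rw [h3, h2]
      simp
    have hQlt : Nat.card (G ⧸ M) < Nat.card G := by
      have h2 : Nat.card (G ⧸ M) * Nat.card M = Nat.card G :=
        (Subgroup.card_eq_card_quotient_mul_card_subgroup M).symm
      have h3 : 1 < Nat.card M := by
        rw [Finite.one_lt_card_iff_nontrivial]
        exact (Subgroup.nontrivial_iff_ne_bot M).mpr hMne
      rw [← h2]
      exact lt_mul_of_one_lt_right Nat.card_pos h3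
    have hMsol : Group.IsSolvable M := by
      apply ih (Nat.card M) (hn ▸ hMlt) M rfl
      intro s hs
      obtain ⟨L, hL⟩ := hc s hs
      exact ⟨L.subgroupOf M, comp_subgroupOf_of_normal hs M hL⟩
    have hQsol : Group.IsSolvable (G ⧸ M) := by
      apply ih (Nat.card (G ⧸ M)) (hn ▸ hQlt) (G ⧸ M) rfl
      intro s hs
      obtain ⟨L, hL⟩ := hc s hs
      exact ⟨L.map (QuotientGroup.mk' M), comp_map hs M hL⟩
    exact (Group.isSolvable_iff_subgroup_quotient M).mpr ⟨hMsol, hQsol⟩
  · -- only two primes: Burnside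
    push Not at hr
    apply Cfsg.Agent.S0144.result p q ((Nat.card G).factorization p) ((Nat.card G).factorization q)
      hp hq
    apply Nat.eq_of_factorization_eq hG0
      (mul_ne_zero (pow_ne_zero _ hp.ne_zero) (pow_ne_zero _ hq.ne_zero))
    intro t
    rw [Nat.factorization_mul (pow_ne_zero _ hp.ne_zero) (pow_ne_zero _ hq.ne_zero),
      hp.factorization_pow, hq.factorization_pow, Finsupp.add_apply, Finsupp.single_apply,
      Finsupp.single_apply]
    by_cases htp : p = t
    · subst htp
      rw [if_pos rfl, if_neg hqp, add_zero]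
    · by_cases htq : q = t
      · subst htq
        rw [if_neg htp, if_pos rfl, zero_add]
      · rw [if_neg htp, if_neg htq, add_zero]
        by_cases ht : t.Prime
        · apply Nat.factorization_eq_zero_of_not_dvd
          intro hd
          rcases em (t = p) with h | h
          · exact htp h.symm
          · exact htq (hr t ht hd h).symm
        · exact Nat.factorization_eq_zero_of_not_prime _ ht

theorem result {G : Type*} [Group G] [Finite G]
    (h : ∀ p : ℕ, p.Prime → ∃ H : Subgroup G, H.index = p ^ (Nat.card G).factorization p) :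
    Group.IsSolvable G := by
  exact main (Nat.card G) G rfl h

end Cfsg.Agent.S0006
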