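import Mathlib
import Cfsg.Statements.S0065

set_option autoImplicit false
open Cfsg

namespace Cfsg.Agent.S0065

/-- A nontrivial normal subgroup of a nilpotent group intersects the centre nontrivially. -/
theorem result {G : Type*} [Group G] [Finite G] [Group.IsNilpotent G]
    (N : Subgroup G) [N.Normal] (hN : N ≠ ⊥) : N ⊓ Subgroup.center G ≠ ⊥ := by
  classical
  have hex : ∃ n, N ⊓ Subgroup.upperCentralSeries G n ≠ ⊥ := by
    refine ⟨Group.nilpotencyClass G, ?_⟩
    rw [Subgroup.upperCentralSeries_nilpotencyClass, inf_top_eq]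
    exact hN
  set n := Nat.find hex with hn
  have hspec : N ⊓ Subgroup.upperCentralSeries G n ≠ ⊥ := Nat.find_spec hex
  have hn0 : n ≠ 0 := by
    intro h0
    rw [h0, Subgroup.upperCentralSeries_zero, inf_bot_eq] at hspec
    exact hspec rfl
  obtain ⟨m, hm⟩ := Nat.exists_eq_succ_of_ne_zero hn0
  have hmin : N ⊓ Subgroup.upperCentralSeries G m = ⊥ := by
    have := Nat.find_min hex (m := m) (by omega)
    simpa using this
  obtain ⟨⟨x, hxmem⟩, hx1⟩ := (Subgroup.ne_bot_iff_exists_ne_one).mp hspec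
  have hx1' : x ≠ 1 := by
    intro h; apply hx1; exact Subtype.ext h
  have hxN : x ∈ N := hxmem.1
  have hxU0 : x ∈ Subgroup.upperCentralSeries G (m + 1) := by
    have := hxmem.2
    rw [hm] at this
    exact this
  have hxU := Subgroup.mem_upperCentralSeries_succ_iff.mp hxU0
  intro hbot
  have hxc : x ∈ N ⊓ Subgroup.center G := by
    refine Subgroup.mem_inf.mpr ⟨hxN, ?_⟩
    rw [Subgroup.mem_center_iff]
    intro y
    have h1 : x * y * x⁻¹ * y⁻¹ ∈ N ⊓ Subgroup.upperCentralSeries G m := by
      refine ⟨?_, by simpa [commutatorElement_def] using hxU y⟩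
      have h2 : y * x⁻¹ * y⁻¹ ∈ N := ‹N.Normal›.conj_mem _ (N.inv_mem hxN) y
      have h3 : x * (y * x⁻¹ * y⁻¹) ∈ N := N.mul_mem hxN h2
      simpa [mul_assoc] using h3
    rw [hmin, Subgroup.mem_bot] at h1
    have h4 : x * y = y * x := by
      have := congrArg (fun t => t * y * x) h1
      simpa [mul_assoc] using this
    exact h4.symm
  rw [hbot, Subgroup.mem_bot] at hxc
  exact hx1' hxc

end Cfsg.Agent.S0065
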