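import Mathlib
import Cfsg.Statements.S0090
import Cfsg.Agent.S0088

set_option autoImplicit false
open Cfsg
open scoped commutatorElement

namespace Cfsg.Agent.S0090

open scoped IsMulCommutative in
/-- Averaging: every element of an abelian normal Hall subgroup `A` is a product of an element
of `[A, G]` and a central element of `A`. -/
theorem le_sup {G : Type*} [Group G] [Finite G] (A : Subgroup G) [hAn : A.Normal]
    (hc : IsMulCommutative A) (hHall : Nat.Coprime (Nat.card A) A.index) :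
    A ≤ ⁅A, (⊤ : Subgroup G)⁆ ⊔ (Subgroup.center G ⊓ A) := by
  classical
  obtain ⟨K, hK⟩ := Subgroup.exists_right_complement'_of_coprime hHall
  have : Fintype K := Fintype.ofFinite K
  intro a ha
  -- conjugates of a as elements of A
  let f : K → A := fun k => ⟨(k : G) * a * (k : G)⁻¹, hAn.conj_mem a ha k⟩
  have hcommA : ⁅A, (⊤ : Subgroup G)⁆ ≤ A := by
    rw [Subgroup.commutator_le]
    intro x hx y _
    rw [commutatorElement_def]
    have := hAn.conj_mem x⁻¹ (A.inv_mem hx) y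
    have e : x * y * x⁻¹ * y⁻¹ = x * (y * x⁻¹ * y⁻¹) := by group
    rw [e]
    exact A.mul_mem hx this
  -- the product b of all conjugates
  have hb_conj : ∀ k₀ : K, ∀ (s : Finset K),
      (k₀ : G) * ((∏ k ∈ s, f k : A) : G) * (k₀ : G)⁻¹ = ((∏ k ∈ s, f (k₀ * k) : A) : G) := by
    intro k₀ s
    induction s using Finset.induction_on with
    | empty => simp
    | insert x s hx ih =>
      rw [Finset.prod_insert hx, Finset.prod_insert hx, Subgroup.coe_mul, Subgroup.coe_mul, ← ih]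
      simp only [f, Subgroup.coe_mul]
      group
  have hb_inv : ∀ k₀ : K, (k₀ : G) * ((∏ k, f k : A) : G) * (k₀ : G)⁻¹ = ((∏ k, f k : A) : G) := by
    intro k₀
    rw [hb_conj k₀ Finset.univ]
    congr 1
    exact Fintype.prod_equiv (Equiv.mulLeft k₀) _ _ (fun k => rfl)
  have hb_center : ((∏ k, f k : A) : G) ∈ Subgroup.center G := by
    rw [Subgroup.mem_center_iff]
    intro g
    have hg : g ∈ A ⊔ K := by rw [hK.sup_eq_top]; exact Subgroup.mem_top g
    obtain ⟨n, hn, k, hk, rfl⟩ := Subgroup.mem_sup_of_normal_left.mp hg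
    have h1 := hb_inv ⟨k, hk⟩
    have h2 : n * ((∏ k, f k : A) : G) = ((∏ k, f k : A) : G) * n := by
      have := hc.is_comm.comm (⟨n, hn⟩ : A) (∏ k, f k : A)
      exact congrArg (fun y : A => (y : G)) this
    simp only at h1
    calc n * k * ((∏ k, f k : A) : G) = n * (k * ((∏ k, f k : A) : G) * k⁻¹) * k := by group
      _ = n * ((∏ k, f k : A) : G) * k := by rw [h1]
      _ = ((∏ k, f k : A) : G) * n * k := by rw [h2]
      _ = ((∏ k, f k : A) : G) * (n * k) := by group
  -- a ^ |K| * b⁻¹ is a product of commutators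
  have hprod : ∀ s : Finset K, a ^ s.card * (((∏ k ∈ s, f k : A) : G))⁻¹ ∈ ⁅A, (⊤ : Subgroup G)⁆ := by
    intro s
    induction s using Finset.induction_on with
    | empty => simp
    | insert x s hx ih =>
      rw [Finset.prod_insert hx, Finset.card_insert_of_notMem hx, Subgroup.coe_mul]
      have h1 : ⁅a, (x : G)⁆ ∈ ⁅A, (⊤ : Subgroup G)⁆ :=
        Subgroup.commutator_mem_commutator ha (Subgroup.mem_top _)
      have hcomm1 : a * ((∏ k ∈ s, f k : A) : G) = ((∏ k ∈ s, f k : A) : G) * a := by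
        have := hc.is_comm.comm (⟨a, ha⟩ : A) (∏ k ∈ s, f k : A)
        exact congrArg (fun y : A => (y : G)) this
      have hcomm2 : ∀ n : ℕ, a ^ n * ((∏ k ∈ s, f k : A) : G) = ((∏ k ∈ s, f k : A) : G) * a ^ n := by
        intro n
        exact (Commute.pow_left hcomm1 n).eq
      have hcomm3 : ((f x : A) : G) * ((∏ k ∈ s, f k : A) : G) = ((∏ k ∈ s, f k : A) : G) * ((f x : A) : G) := by
        have := hc.is_comm.comm (f x) (∏ k ∈ s, f k : A)
        exact congrArg (fun y : A => (y : G)) this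
      have e : a ^ (s.card + 1) * (((f x : A) : G) * ((∏ k ∈ s, f k : A) : G))⁻¹
          = (a ^ s.card * (((∏ k ∈ s, f k : A) : G))⁻¹) * ⁅a, (x : G)⁆ := by
        rw [hcomm3, mul_inv_rev, commutatorElement_def]
        have hfx : ((f x : A) : G) = (x : G) * a * (x : G)⁻¹ := rfl
        rw [hfx, pow_succ]
        have h5 : a * (((∏ k ∈ s, f k : A) : G))⁻¹ = (((∏ k ∈ s, f k : A) : G))⁻¹ * a := by
          calc a * (((∏ k ∈ s, f k : A) : G))⁻¹
              = (((∏ k ∈ s, f k : A) : G))⁻¹ * (((∏ k ∈ s, f k : A) : G) * a) * (((∏ k ∈ s, f k : A) : G))⁻¹ := by group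
            _ = (((∏ k ∈ s, f k : A) : G))⁻¹ * (a * ((∏ k ∈ s, f k : A) : G)) * (((∏ k ∈ s, f k : A) : G))⁻¹ := by rw [hcomm1]
            _ = (((∏ k ∈ s, f k : A) : G))⁻¹ * a := by group
        calc a ^ s.card * a * (((x : G) * a * (x : G)⁻¹)⁻¹ * (((∏ k ∈ s, f k : A) : G))⁻¹)
            = a ^ s.card * a * (((∏ k ∈ s, f k : A) : G))⁻¹ * ((x : G) * a * (x : G)⁻¹)⁻¹ := by
              have h6 : ((x : G) * a * (x : G)⁻¹)⁻¹ * (((∏ k ∈ s, f k : A) : G))⁻¹
                  = (((∏ k ∈ s, f k : A) : G))⁻¹ * ((x : G) * a * (x : G)⁻¹)⁻¹ := by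
                rw [← mul_inv_rev, ← mul_inv_rev, ← hfx, hcomm3]
              rw [mul_assoc (a ^ s.card * a), ← h6]
          _ = a ^ s.card * (a * (((∏ k ∈ s, f k : A) : G))⁻¹) * ((x : G) * a * (x : G)⁻¹)⁻¹ := by group
          _ = a ^ s.card * ((((∏ k ∈ s, f k : A) : G))⁻¹ * a) * ((x : G) * a * (x : G)⁻¹)⁻¹ := by rw [h5]
          _ = a ^ s.card * (((∏ k ∈ s, f k : A) : G))⁻¹ * (a * (x : G) * a⁻¹ * (x : G)⁻¹) := by group
      rw [e]
      exact Subgroup.mul_mem _ ih h1
  have hcardK : (Finset.univ : Finset K).card = A.index := by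
    rw [Finset.card_univ, ← Nat.card_eq_fintype_card]
    exact (hK.symm.index_eq_card).symm
  have h1 := hprod Finset.univ
  rw [hcardK] at h1
  have h2 : a ^ A.index ∈ ⁅A, (⊤ : Subgroup G)⁆ ⊔ (Subgroup.center G ⊓ A) := by
    have e : a ^ A.index = (a ^ A.index * (((∏ k, f k : A) : G))⁻¹) * ((∏ k, f k : A) : G) := by group
    rw [e]
    exact Subgroup.mul_mem _ (Subgroup.mem_sup_left h1)
      (Subgroup.mem_sup_right (Subgroup.mem_inf.mpr ⟨hb_center, (∏ k, f k : A).2⟩))
  have hcop : Nat.Coprime A.index (orderOf a) := by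
    have h3 : orderOf a ∣ Nat.card A := Subgroup.orderOf_dvd_natCard A ha
    exact (Nat.Coprime.coprime_dvd_left h3 hHall).symm
  obtain ⟨m, hm⟩ := exists_pow_eq_self_of_coprime hcop
  rw [← hm]
  exact Subgroup.pow_mem _ h2 m

/-- An abelian normal Hall subgroup A splits as the internal direct product of G' ∩ A and Z(G) ∩ A, and [A, G] = G' ∩ A. -/
theorem result {G : Type*} [Group G] [Finite G] (A : Subgroup G) [A.Normal] (hc : IsMulCommutative A) (hHall : Nat.Coprime (Nat.card A) A.index) : ⁅A, (⊤ : Subgroup G)⁆ = commutator G ⊓ A ∧ (commutator G ⊓ A) ⊓ (Subgroup.center G ⊓ A) = ⊥ ∧ (commutator G ⊓ A) ⊔ (Subgroup.center G ⊓ A) = A := by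
  have hAn : A.Normal := inferInstance
  have h88 := Cfsg.Agent.S0088.result A hc hHall
  have hcommA : ⁅A, (⊤ : Subgroup G)⁆ ≤ commutator G ⊓ A := by
    apply le_inf
    · rw [commutator_def]; exact Subgroup.commutator_mono le_top le_rfl
    · rw [Subgroup.commutator_le]
      intro x hx y _
      rw [commutatorElement_def]
      have := hAn.conj_mem x⁻¹ (A.inv_mem hx) y
      have e : x * y * x⁻¹ * y⁻¹ = x * (y * x⁻¹ * y⁻¹) := by group
      rw [e]
      exact A.mul_mem hx this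
  have hbot : (commutator G ⊓ A) ⊓ (Subgroup.center G ⊓ A) = ⊥ := by
    rw [eq_bot_iff, ← h88]
    intro x hx
    obtain ⟨h1, h2⟩ := Subgroup.mem_inf.mp hx
    obtain ⟨h1a, h1b⟩ := Subgroup.mem_inf.mp h1
    obtain ⟨h2a, _⟩ := Subgroup.mem_inf.mp h2
    exact Subgroup.mem_inf.mpr ⟨Subgroup.mem_inf.mpr ⟨h1b, h1a⟩, h2a⟩
  have hsup := le_sup A hc hHall
  refine ⟨le_antisymm hcommA ?_, hbot, le_antisymm ?_ ?_⟩
  · intro x hx
    have hxA : x ∈ A := (Subgroup.mem_inf.mp hx).2
    obtain ⟨c, hcm, z, hzm, rfl⟩ := Subgroup.mem_sup_of_normal_left.mp (hsup hxA)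
    have hz : z ∈ (commutator G ⊓ A) ⊓ (Subgroup.center G ⊓ A) := by
      refine Subgroup.mem_inf.mpr ⟨?_, hzm⟩
      have e : z = c⁻¹ * (c * z) := by group
      rw [e]
      exact Subgroup.mul_mem _ (Subgroup.inv_mem _ (hcommA hcm)) hx
    rw [hbot, Subgroup.mem_bot] at hz
    rw [hz, mul_one]
    exact hcm
  · exact sup_le inf_le_right inf_le_right
  · exact hsup.trans (sup_le_sup_right hcommA _)

end Cfsg.Agent.S0090
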