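import Mathlib
import Cfsg.Statements.S0082
import Cfsg.Agent.S0090
import Cfsg.Agent.S0075
import Cfsg.Agent.Lib.Helper24.CyclicP

set_option autoImplicit false
open Cfsg
open scoped commutatorElement

namespace Cfsg.Agent.S0082

/-- With a cyclic Sylow p-subgroup, either there is a normal p-complement or the elements of order prime to p generate the whole group. -/
theorem result {G : Type*} [Group G] [Finite G] {p : ℕ} [Fact p.Prime] (P : Sylow p G) (hP : IsCyclic P) : Cfsg.HasNormalPComplement p G ∨ Cfsg.pResidual p G = ⊤ := by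
  have hp : p.Prime := Fact.out
  have hPN : (P : Subgroup G) ≤ Subgroup.normalizer (P : Set G) := Subgroup.le_normalizer
  have hP'n : ((P : Subgroup G).subgroupOf (Subgroup.normalizer (P : Set G))).Normal :=
    Subgroup.normal_in_normalizer
  have hP'cyc : IsCyclic ((P : Subgroup G).subgroupOf (Subgroup.normalizer (P : Set G))) :=
    (MulEquiv.isCyclic (Subgroup.subgroupOfEquivOfLe hPN)).mpr hP
  have hPc : IsMulCommutative (P : Subgroup G) := IsCyclic.isMulCommutative
  have hP'c : IsMulCommutative ((P : Subgroup G).subgroupOf (Subgroup.normalizer (P : Set G))) :=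
    IsCyclic.isMulCommutative
  have hP'p : IsPGroup p ((P : Subgroup G).subgroupOf (Subgroup.normalizer (P : Set G))) :=
    P.isPGroup'.comap_subtype
  have hHall : Nat.Coprime (Nat.card ((P : Subgroup G).subgroupOf (Subgroup.normalizer (P : Set G))))
      ((P : Subgroup G).subgroupOf (Subgroup.normalizer (P : Set G))).index := by
    obtain ⟨k, hk⟩ := hP'p.exists_card_eq
    rw [hk]
    apply Nat.Coprime.pow_left
    rw [hp.coprime_iff_not_dvd]
    intro hdvd
    have h1 : ((P : Subgroup G).subgroupOf (Subgroup.normalizer (P : Set G))).index ∣ (P : Subgroup G).index := by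
      have := Subgroup.relIndex_mul_index hPN
      exact Dvd.intro _ this
    exact P.not_dvd_index (hdvd.trans h1)
  obtain ⟨h1, h2, h3⟩ := Cfsg.Agent.S0090.result _ hP'c hHall
  rcases Cfsg.Agent.Lib.Helper24.eq_bot_or_eq_bot_of_inf_eq_bot_of_isCyclic
    ((P : Subgroup G).subgroupOf (Subgroup.normalizer (P : Set G))) hP'p _ _ inf_le_right inf_le_right h2 with hA | hB
  · left
    have hNC : Subgroup.normalizer (P : Set G) ≤ Subgroup.centralizer (P : Set G) := by
      intro n hn
      rw [Subgroup.mem_centralizer_iff]
      intro t ht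
      have h4 : ⁅(⟨t, hPN ht⟩ : Subgroup.normalizer (P : Set G)), (⟨n, hn⟩ : Subgroup.normalizer (P : Set G))⁆
          ∈ ⁅(P : Subgroup G).subgroupOf (Subgroup.normalizer (P : Set G)), (⊤ : Subgroup (Subgroup.normalizer (P : Set G)))⁆ :=
        Subgroup.commutator_mem_commutator (by exact ht) (Subgroup.mem_top _)
      rw [h1, hA, Subgroup.mem_bot, commutatorElement_eq_one_iff_mul_comm] at h4
      exact congrArg Subtype.val h4
    exact ⟨P, (MonoidHom.transferSylow P hNC).ker, inferInstance, MonoidHom.ker_transferSylow_isComplement' P hNC⟩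
  · right
    have h4 : ⁅(P : Subgroup G).subgroupOf (Subgroup.normalizer (P : Set G)), (⊤ : Subgroup (Subgroup.normalizer (P : Set G)))⁆
        = (P : Subgroup G).subgroupOf (Subgroup.normalizer (P : Set G)) := by
      rw [h1]; rw [hB, sup_bot_eq] at h3; exact h3
    have h5 : ⁅(P : Subgroup G), Subgroup.normalizer (P : Set G)⁆ = (P : Subgroup G) := by
      have h6 := congrArg (Subgroup.map (Subgroup.normalizer (P : Set G)).subtype) h4
      rw [Subgroup.map_commutator, Subgroup.subgroupOf_map_subtype, inf_of_le_left hPN,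
        ← MonoidHom.range_eq_map, Subgroup.range_subtype] at h6
      exact h6
    have h6 := Cfsg.Agent.S0075.result P hPc
    have h7 : (P : Subgroup G) ≤ Cfsg.pResidual p G := by
      rw [h5] at h6
      rw [← h6]
      exact inf_le_right
    have hn : (Cfsg.pResidual p G).Normal := Cfsg.Agent.Lib.Helper2.pResidual_normal p
    have h8 := Cfsg.Agent.Lib.Helper2.sylow_sup_eq_top P (Cfsg.pResidual p G) le_rfl
    rw [sup_of_le_right h7] at h8
    exact h8

end Cfsg.Agent.S0082
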