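import Mathlib
import Cfsg.Statements.S0086

set_option autoImplicit false
open Cfsg

namespace Cfsg.Agent.S0086

/-- A normal complement to a Sylow p-subgroup is exactly the set of elements of order prime to p. -/
theorem result {G : Type*} [Group G] [Finite G] {p : ℕ} [Fact p.Prime] (P : Sylow p G) (N : Subgroup G) [N.Normal] (hN : N.IsComplement' (P : Subgroup G)) (x : G) : x ∈ N ↔ Nat.Coprime (orderOf x) p := by
  have hp : p.Prime := Fact.out
  constructor
  · intro hx
    have h1 : orderOf x ∣ Nat.card N := Subgroup.orderOf_dvd_natCard N hx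
    have h2 : (P : Subgroup G).index = Nat.card N := hN.index_eq_card
    have h3 : ¬ p ∣ (P : Subgroup G).index := P.not_dvd_index
    have h4 : Nat.Coprime (Nat.card N) p := by
      rw [← h2]
      exact ((Nat.Prime.coprime_iff_not_dvd hp).mpr h3).symm
    exact Nat.Coprime.coprime_dvd_left h1 h4
  · intro hx
    have h1 : N.index = Nat.card (P : Subgroup G) := hN.symm.index_eq_card
    obtain ⟨n, hn⟩ := IsPGroup.iff_card.mp P.isPGroup'
    have h2 : orderOf (QuotientGroup.mk' N x) ∣ orderOf x := orderOf_map_dvd _ x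
    have h3 : orderOf (QuotientGroup.mk' N x) ∣ p ^ n := by
      rw [← hn, ← h1, Subgroup.index_eq_card]
      exact orderOf_dvd_natCard _
    have h4 : Nat.Coprime (orderOf (QuotientGroup.mk' N x)) (p ^ n) :=
      Nat.Coprime.pow_right n (Nat.Coprime.coprime_dvd_left h2 hx)
    have h5 : orderOf (QuotientGroup.mk' N x) = 1 := Nat.Coprime.eq_one_of_dvd h4 h3
    rw [orderOf_eq_one_iff] at h5
    exact (QuotientGroup.eq_one_iff x).mp h5

end Cfsg.Agent.S0086
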