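import Mathlib
import Cfsg.Statements.S0094
import Cfsg.Agent.Lib.Helper24.ClassTwo
import Cfsg.Agent.Lib.Helper70.FrattiniQuot

set_option autoImplicit false
open Cfsg
open scoped commutatorElement

namespace Cfsg.Agent.S0094

/-- In a finite `p`-group, `p`-th powers lie in the Frattini subgroup. -/
theorem pow_mem_frattini {P : Type*} [Group P] [Finite P] {p : ℕ} [Fact p.Prime]
    (hP : IsPGroup p P) (x : P) : x ^ p ∈ frattini P := by
  have h := (Cfsg.Agent.Lib.Helper70.frattini_quot_props hP).1 (x : P ⧸ frattini P)
  rw [← QuotientGroup.eq_one_iff, QuotientGroup.mk_pow]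
  exact h

/-- In a special `p`-group every element of the derived subgroup has order dividing `p`. -/
theorem pow_eq_one_of_mem_commutator {P : Type*} [Group P] [Finite P] {p : ℕ} [Fact p.Prime]
    (h : Cfsg.IsSpecial p P) (z : P) (hz : z ∈ commutator P) : z ^ p = 1 := by
  obtain ⟨hP, hfr, hcomm⟩ := h
  rw [commutator_eq_closure] at hz
  induction hz using Subgroup.closure_induction with
  | mem c hc =>
    obtain ⟨x, y, rfl⟩ := hc
    have hxy : ⁅x, y⁆ ∈ Subgroup.center P := by
      rw [← hcomm, commutator_def]
      exact Subgroup.commutator_mem_commutator (Subgroup.mem_top _) (Subgroup.mem_top _)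
    have hcx : Commute ⁅x, y⁆ x := ((Subgroup.mem_center_iff.mp hxy) x).symm
    rw [← Cfsg.Agent.Lib.Helper24.commutatorElement_pow_left_of_commute x y hcx p]
    have hxp : x ^ p ∈ Subgroup.center P := by
      rw [← hfr]; exact pow_mem_frattini hP x
    rw [commutatorElement_eq_one_iff_mul_comm]
    exact ((Subgroup.mem_center_iff.mp hxp) y).symm
  | one => exact one_pow p
  | mul a b ha _ hap hbp =>
    have hac : a ∈ Subgroup.center P := by
      rw [← hcomm, commutator_eq_closure]; exact ha
    have hab : Commute a b := ((Subgroup.mem_center_iff.mp hac) b).symm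
    rw [hab.mul_pow, hap, hbp, one_mul]
  | inv a _ hap => rw [inv_pow, hap, inv_one]

/-- In a special p-group every central element has order dividing p. -/
theorem result {P : Type*} [Group P] [Finite P] {p : ℕ} [Fact p.Prime] (h : Cfsg.IsSpecial p P) (z : P) (hz : z ∈ Subgroup.center P) : z ^ p = 1 := by
  apply pow_eq_one_of_mem_commutator h
  rw [h.2.2]
  exact hz

end Cfsg.Agent.S0094
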