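import Mathlib
import Cfsg.Statements.S0101
import Cfsg.Agent.Lib.Helper70.FrattiniQuot

set_option autoImplicit false
open Cfsg

namespace Cfsg.Agent.S0101

/-- In a finite `p`-group the derived subgroup lies in the Frattini subgroup. -/
theorem commutator_le_frattini {P : Type*} [Group P] [Finite P] {p : ℕ} [Fact p.Prime]
    (hP : IsPGroup p P) : commutator P ≤ frattini P := by
  rw [commutator_def, Subgroup.commutator_le]
  intro a _ b _
  have h := (Cfsg.Agent.Lib.Helper70.frattini_quot_props hP).2 (a : P ⧸ frattini P) (b : P ⧸ frattini P)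
  rw [← QuotientGroup.eq_one_iff, commutatorElement_def]
  have h1 : ((a * b * a⁻¹ * b⁻¹ : P) : P ⧸ frattini P)
      = (a : P ⧸ frattini P) * (b : P ⧸ frattini P) * (a : P ⧸ frattini P)⁻¹ * (b : P ⧸ frattini P)⁻¹ := rfl
  rw [h1, h]
  group

/-- A central element of a Sylow `p`-subgroup `P` of a perfect finite group lies in the derived
subgroup of `P`. -/
theorem central_mem_commutator {H : Type*} [Group H] [Finite H] (hH : commutator H = ⊤) {p : ℕ}
    [Fact p.Prime] (P : Sylow p H) (z : H) (hzP : z ∈ (P : Subgroup H))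
    (hzc : z ∈ Subgroup.center H) : (⟨z, hzP⟩ : (P : Subgroup H)) ∈ commutator (P : Subgroup H) := by
  have key : ∀ (k : ℕ) (g₀ : H), g₀⁻¹ * z ^ k * g₀ ∈ (P : Subgroup H) → g₀⁻¹ * z ^ k * g₀ = z ^ k := by
    intro k g₀ _
    have hzk : z ^ k ∈ Subgroup.center H := Subgroup.pow_mem _ hzc k
    have := (Subgroup.mem_center_iff.mp hzk) g₀
    rw [mul_assoc, ← this, inv_mul_cancel_left]
  have h1 := MonoidHom.transfer_eq_pow (Abelianization.of : (P : Subgroup H) →* Abelianization (P : Subgroup H)) z key
  have h2 : MonoidHom.transfer (Abelianization.of : (P : Subgroup H) →* Abelianization (P : Subgroup H)) z = 1 := by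
    have hz : z ∈ commutator H := by rw [hH]; exact Subgroup.mem_top z
    exact Abelianization.commutator_subset_ker _ hz
  rw [h2] at h1
  -- so z ^ index ∈ commutator P
  have h3 : (⟨z ^ (P : Subgroup H).index, Subgroup.pow_mem _ hzP _⟩ : (P : Subgroup H)) ∈ commutator (P : Subgroup H) := by
    have := h1.symm
    rwa [← MonoidHom.mem_ker, Abelianization.ker_of] at this
  -- z is a power of z ^ index
  have hcop : Nat.Coprime (P : Subgroup H).index (orderOf z) := by
    obtain ⟨k, hk⟩ := IsPGroup.iff_orderOf.mp P.isPGroup' ⟨z, hzP⟩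
    have hk' : orderOf z = p ^ k := by
      rw [← hk]
      exact (Subgroup.orderOf_mk _ _).symm
    rw [hk']
    have hp : p.Prime := Fact.out
    exact Nat.Coprime.pow_right k (hp.coprime_iff_not_dvd.mpr P.not_dvd_index).symm
  obtain ⟨m, hm⟩ := exists_pow_eq_self_of_coprime hcop
  have h4 : (⟨z, hzP⟩ : (P : Subgroup H)) = (⟨z ^ (P : Subgroup H).index, Subgroup.pow_mem _ hzP _⟩ : (P : Subgroup H)) ^ m := by
    ext
    simpa using hm.symm
  rw [h4]
  exact Subgroup.pow_mem _ h3 m

/-- In a perfect central extension, the kernel meets each Sylow p-subgroup P inside the Frattini subgroup of P. -/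
theorem result {H : Type*} {G : Type*} [Group H] [Group G] [Finite H] (σ : H →* G) (hσ : Function.Surjective σ) (hc : σ.ker ≤ Subgroup.center H) (hH : commutator H = ⊤) {p : ℕ} [Fact p.Prime] (P : Sylow p H) : σ.ker ⊓ (P : Subgroup H) ≤ (frattini P).map (P : Subgroup H).subtype := by
  intro z hz
  obtain ⟨hzk, hzP⟩ := Subgroup.mem_inf.mp hz
  have h1 := central_mem_commutator hH P z hzP (hc hzk)
  have h2 : (⟨z, hzP⟩ : (P : Subgroup H)) ∈ frattini (P : Subgroup H) :=
    commutator_le_frattini P.isPGroup' h1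
  exact ⟨⟨z, hzP⟩, h2, rfl⟩

end Cfsg.Agent.S0101
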