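import Mathlib
import Cfsg.Statements.S0104

set_option autoImplicit false
open Cfsg

namespace Cfsg.Agent.S0104

theorem sylow_conj_in_subgroup {G : Type*} [Group G] [Finite G] {p : ℕ} [Fact p.Prime] (P Q : Sylow p G) (N : Subgroup G)
    (hP : (P : Subgroup G) ≤ N) (hQ : (Q : Subgroup G) ≤ N) : ∃ n ∈ N, n • P = Q := by
  obtain ⟨n, hn⟩ := MulAction.exists_smul_eq N (P.subtype hP) (Q.subtype hQ)
  refine ⟨n, n.2, ?_⟩
  have h1 := Sylow.smul_subtype hP n
  rw [hn] at h1
  have h2 := Sylow.subtype_injective h1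
  exact h2.symm

theorem map_conj_mul {G : Type*} [Group G] (Z : Subgroup G) (a b : G) :
    (Z.map (MulAut.conj b).toMonoidHom).map (MulAut.conj a).toMonoidHom = Z.map (MulAut.conj (a * b)).toMonoidHom := by
  rw [Subgroup.map_map]
  congr 1
  ext x
  simp [mul_assoc]

theorem mem_smul_sylow_iff {G : Type*} [Group G] {p : ℕ} (P : Sylow p G) (g x : G) :
    x ∈ ((g • P : Sylow p G) : Subgroup G) ↔ g⁻¹ * x * g ∈ (P : Subgroup G) := by
  rw [Sylow.coe_subgroup_smul, Subgroup.mem_pointwise_smul_iff_inv_smul_mem]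
  simp

theorem mem_map_conj_iff {G : Type*} [Group G] (Z : Subgroup G) (g x : G) :
    x ∈ Z.map (MulAut.conj g).toMonoidHom ↔ g⁻¹ * x * g ∈ Z := by
  rw [Subgroup.mem_map]
  constructor
  · rintro ⟨z, hz, rfl⟩
    simpa [mul_assoc] using hz
  · intro h
    exact ⟨_, h, by simp [mul_assoc]⟩

/-- A subgroup Z of a Sylow p-subgroup P that is normalized by N_G(P) is weakly closed in P exactly when it is normal in every Sylow p-subgroup containing it. -/
theorem result {G : Type*} [Group G] [Finite G] {p : ℕ} [Fact p.Prime] (P : Sylow p G) (Z : Subgroup G) (hZP : Z ≤ (P : Subgroup G)) (hZN : Subgroup.normalizer (P : Set G) ≤ Subgroup.normalizer (Z : Set G)) : Cfsg.IsWeaklyClosed Z P ↔ ∀ R : Sylow p G, Z ≤ (R : Subgroup G) → (R : Subgroup G) ≤ Subgroup.normalizer (Z : Set G) := by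
  constructor
  · rintro ⟨_, hw⟩ R hZR
    obtain ⟨g, hg⟩ := MulAction.exists_smul_eq G P R
    have hgZ : g⁻¹ ∈ Subgroup.normalizer (Z : Set G) := by
      apply Subgroup.mem_normalizer_iff_map_conj_eq.mpr
      apply hw
      intro x hx
      rw [mem_map_conj_iff] at hx
      have hx' := hZR hx
      rw [← hg, mem_smul_sylow_iff] at hx'
      simpa [mul_assoc] using hx'
    have hgZ' : g ∈ Subgroup.normalizer (Z : Set G) := by
      have := Subgroup.inv_mem _ hgZ
      simpa using this
    intro r hr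
    rw [← hg, mem_smul_sylow_iff] at hr
    have h1 : g⁻¹ * r * g ∈ Subgroup.normalizer (Z : Set G) :=
      hZN (Subgroup.le_normalizer hr)
    have h2 : r = g * (g⁻¹ * r * g) * g⁻¹ := by group
    rw [h2]
    exact Subgroup.mul_mem _ (Subgroup.mul_mem _ hgZ' h1) hgZ
  · intro hall
    refine ⟨hZP, fun g hg => ?_⟩
    -- every Sylow containing Z^g normalizes Z^g
    have hall' : ∀ R : Sylow p G, Z.map (MulAut.conj g).toMonoidHom ≤ (R : Subgroup G) →
        (R : Subgroup G) ≤ Subgroup.normalizer ((Z.map (MulAut.conj g).toMonoidHom : Subgroup G) : Set G) := by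
      intro R hR r hr
      have hZR' : Z ≤ ((g⁻¹ • R : Sylow p G) : Subgroup G) := by
        intro z hz
        rw [mem_smul_sylow_iff]
        apply hR
        rw [mem_map_conj_iff]
        simpa [mul_assoc] using hz
      have h1 := hall (g⁻¹ • R) hZR'
      have h2 : g⁻¹ * r * g ∈ ((g⁻¹ • R : Sylow p G) : Subgroup G) := by
        rw [mem_smul_sylow_iff]
        simpa [mul_assoc] using hr
      have h3 := Subgroup.mem_normalizer_iff_map_conj_eq.mp (h1 h2)
      apply Subgroup.mem_normalizer_iff_map_conj_eq.mpr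
      have h4 : (Z.map (MulAut.conj g).toMonoidHom).map (MulAut.conj r).toMonoidHom
          = (Z.map (MulAut.conj (g⁻¹ * r * g)).toMonoidHom).map (MulAut.conj g).toMonoidHom := by
        rw [map_conj_mul, map_conj_mul]
        congr 3
        group
      rw [show ((MulAut.conj r : MulAut G) : G →* G) = (MulAut.conj r).toMonoidHom from rfl, h4]
      rw [show ((MulAut.conj (g⁻¹ * r * g)).toMonoidHom : G →* G) = ((MulAut.conj (g⁻¹ * r * g) : MulAut G) : G →* G) from rfl, h3]
    have hP : (P : Subgroup G) ≤ Subgroup.normalizer ((Z.map (MulAut.conj g).toMonoidHom : Subgroup G) : Set G) :=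
      hall' P hg
    have hQ : ((g • P : Sylow p G) : Subgroup G) ≤ Subgroup.normalizer ((Z.map (MulAut.conj g).toMonoidHom : Subgroup G) : Set G) := by
      apply hall'
      intro x hx
      rw [mem_map_conj_iff] at hx
      rw [mem_smul_sylow_iff]
      exact hZP hx
    obtain ⟨n, hn, hnQ⟩ := sylow_conj_in_subgroup (g • P) P _ hQ hP
    rw [← mul_smul, Sylow.smul_eq_iff_mem_normalizer] at hnQ
    have h5 := Subgroup.mem_normalizer_iff_map_conj_eq.mp (hZN hnQ)
    have h6 := Subgroup.mem_normalizer_iff_map_conj_eq.mp hn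
    have h7 := map_conj_mul Z n g
    rw [show ((MulAut.conj (n * g) : MulAut G) : G →* G) = (MulAut.conj (n * g)).toMonoidHom from rfl] at h5
    rw [show ((MulAut.conj n : MulAut G) : G →* G) = (MulAut.conj n).toMonoidHom from rfl] at h6
    rw [h5, h6] at h7
    exact h7

end Cfsg.Agent.S0104
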