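import Mathlib
import Cfsg.Statements.S4584
import Cfsg.Agent.S4586

set_option autoImplicit false
open Cfsg
open scoped commutatorElement

namespace Cfsg.Agent.S4584

theorem exists_central_of_normal {G : Type*} [Group G] [Finite G] {p : ℕ} [Fact p.Prime]
    (hG : IsPGroup p G) (N : Subgroup G) [N.Normal] (hN : N ≠ ⊥) :
    ∃ b ∈ N, b ∈ Subgroup.center G ∧ b ≠ 1 := by
  have hp : p ∣ Nat.card N := by
    rcases (hG.to_subgroup N).card_eq_or_dvd with h | h
    · exact absurd (Subgroup.card_eq_one.mp h) hN
    · exact h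
  have h1 : (1 : N) ∈ MulAction.fixedPoints (ConjAct G) N := by
    intro g
    apply Subtype.ext
    simp
  obtain ⟨b, hb, hb1⟩ :=
    (hG.of_equiv ConjAct.toConjAct).exists_fixed_point_of_prime_dvd_card_of_fixed_point N hp h1
  refine ⟨b, b.2, ?_, ?_⟩
  · rw [Subgroup.mem_center_iff]
    intro g
    have := hb (ConjAct.toConjAct g)
    have h2 := congrArg Subtype.val this
    simp only [ConjAct.Subgroup.val_conj_smul, ConjAct.smul_def, ConjAct.ofConjAct_toConjAct] at h2
    calc g * (b : G) = (g * b * g⁻¹) * g := by group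
      _ = b * g := by rw [h2]
  · intro h
    exact hb1 (Subtype.ext h.symm)

theorem le_center_of_normal_of_card {G : Type*} [Group G] [Finite G] {p : ℕ} [Fact p.Prime]
    (hG : IsPGroup p G) (N : Subgroup G) [N.Normal] (hN : Nat.card N = p) :
    N ≤ Subgroup.center G := by
  have hp : p.Prime := Fact.out
  have hNbot : N ≠ ⊥ := by
    intro h
    rw [h, Subgroup.card_bot] at hN
    exact hp.one_lt.ne hN
  obtain ⟨b, hbN, hbc, hb1⟩ := exists_central_of_normal hG N hNbot
  have hle : N ⊓ Subgroup.center G ≤ N := inf_le_left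
  have hdvd : Nat.card (N ⊓ Subgroup.center G : Subgroup G) ∣ p := hN ▸ Subgroup.card_dvd_of_le hle
  have hne1 : Nat.card (N ⊓ Subgroup.center G : Subgroup G) ≠ 1 := by
    intro h
    have h2 := Subgroup.card_eq_one.mp h
    have : b ∈ N ⊓ Subgroup.center G := ⟨hbN, hbc⟩
    rw [h2, Subgroup.mem_bot] at this
    exact hb1 this
  have hcard : Nat.card (N ⊓ Subgroup.center G : Subgroup G) = p :=
    ((Nat.dvd_prime hp).mp hdvd).resolve_left hne1
  have := Subgroup.eq_of_le_of_card_ge hle (by rw [hcard, hN])
  rw [← this]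
  exact inf_le_right

/-- When commutators are central, `g ↦ g a g⁻¹ a⁻¹` is a homomorphism. -/
def commHom {P : Type*} [Group P] (hcZ : commutator P ≤ Subgroup.center P) (a : P) : P →* P where
  toFun g := g * a * g⁻¹ * a⁻¹
  map_one' := by simp
  map_mul' g h := by
    have hc : h * a * h⁻¹ * a⁻¹ ∈ Subgroup.center P := hcZ (by
      rw [commutator_def]
      exact Subgroup.commutator_mem_commutator (Subgroup.mem_top h) (Subgroup.mem_top a))
    rw [Subgroup.mem_center_iff] at hc
    calc g * h * a * (g * h)⁻¹ * a⁻¹ = g * (h * a * h⁻¹ * a⁻¹) * (a * g⁻¹ * a⁻¹) := by group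
      _ = (h * a * h⁻¹ * a⁻¹) * g * (a * g⁻¹ * a⁻¹) := by rw [hc g]
      _ = (h * a * h⁻¹ * a⁻¹) * (g * a * g⁻¹ * a⁻¹) := by group
      _ = (g * a * g⁻¹ * a⁻¹) * (h * a * h⁻¹ * a⁻¹) := (hc _).symm

lemma commHom_apply {P : Type*} [Group P] (hcZ : commutator P ≤ Subgroup.center P) (a g : P) :
    commHom hcZ a g = g * a * g⁻¹ * a⁻¹ := rfl

lemma mem_ker_commHom {P : Type*} [Group P] (hcZ : commutator P ≤ Subgroup.center P) (a g : P) :
    g ∈ (commHom hcZ a).ker ↔ g * a = a * g := by
  rw [MonoidHom.mem_ker, commHom_apply, mul_inv_eq_one, mul_inv_eq_iff_eq_mul]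

lemma range_commHom_le {P : Type*} [Group P] (hcZ : commutator P ≤ Subgroup.center P) (a : P) :
    (commHom hcZ a).range ≤ commutator P := by
  rintro _ ⟨g, rfl⟩
  rw [commHom_apply, commutator_def]
  exact Subgroup.commutator_mem_commutator (Subgroup.mem_top g) (Subgroup.mem_top a)

/-- Lemma A: if `P` is nonabelian with an abelian normal subgroup of prime index `p`, then
`[P : P'] = p * |Z(P)|`. -/
theorem index_commutator_eq {P : Type*} [Group P] [Finite P] (p : ℕ) [Fact p.Prime]
    (N : Subgroup P) [N.Normal] (hN : N.index = p)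
    (hNab : ∀ a ∈ N, ∀ b ∈ N, a * b = b * a) (hnc : ¬ ∀ a b : P, a * b = b * a) :
    (commutator P).index = p * Nat.card (Subgroup.center P) := by
  have hp : p.Prime := Fact.out
  have hex : ∃ x : P, x ∉ N := by
    by_contra hcon
    have hall : ∀ x : P, x ∈ N := by
      intro x
      by_contra hx
      exact hcon ⟨x, hx⟩
    have : N = ⊤ := (Subgroup.eq_top_iff' N).2 hall
    rw [← Subgroup.index_eq_one, hN] at this
    exact hp.one_lt.ne' this
  obtain ⟨x, hx⟩ := hex
  have htop := S4586.sup_zpowers_eq_top p N hN x hx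
  have hk := S4586.key p N hN x hx
  have hcN : commutator N = ⊥ := by
    rw [eq_bot_iff, commutator_def, Subgroup.commutator_le]
    intro g₁ _ g₂ _
    rw [Subgroup.mem_bot, commutatorElement_eq_one_iff_mul_comm]
    exact Subtype.ext (hNab _ g₁.2 _ g₂.2)
  have hZN : Subgroup.center P ≤ N := by
    intro z hz
    by_contra hzN
    have htop' := S4586.sup_zpowers_eq_top p N hN z hzN
    apply hnc
    exact S4586.comm_of_gen (MonoidHom.id P) N z htop' (fun a ha b hb => hNab a ha b hb)
      (fun a _ => (Subgroup.mem_center_iff.1 hz a).symm)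
  have hc : Nat.card {n : N // x * n * x⁻¹ * (n : P)⁻¹ ∈ (commutator N).map N.subtype} =
      Nat.card (Subgroup.center P) := by
    apply Nat.card_congr
    refine ⟨fun n => ⟨(n.1 : P), ?_⟩, fun z => ⟨⟨z.1, hZN z.2⟩, ?_⟩, ?_, ?_⟩
    · rcases n with ⟨n, hn⟩
      show (n : P) ∈ Subgroup.center P
      rw [hcN, Subgroup.map_bot, Subgroup.mem_bot, mul_inv_eq_one, mul_inv_eq_iff_eq_mul] at hn
      rw [Subgroup.mem_center_iff]
      have hle : N ⊔ Subgroup.zpowers x ≤ Subgroup.centralizer {(n : P)} := by
        refine sup_le (fun a ha => ?_) ?_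
        · rw [Subgroup.mem_centralizer_iff]
          intro h hh
          rw [Set.mem_singleton_iff] at hh
          subst hh
          exact hNab _ n.2 _ ha
        · rw [Subgroup.zpowers_le, Subgroup.mem_centralizer_iff]
          intro h hh
          rw [Set.mem_singleton_iff] at hh
          subst hh
          exact hn.symm
      intro g
      have hg := hle (htop ▸ Subgroup.mem_top g)
      rw [Subgroup.mem_centralizer_iff] at hg
      exact (hg _ rfl).symm
    · have : x * (z.1 : P) * x⁻¹ * (z.1 : P)⁻¹ = 1 := by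
        rw [Subgroup.mem_center_iff.1 z.2 x]; group
      show x * (z.1 : P) * x⁻¹ * (z.1 : P)⁻¹ ∈ _
      rw [this]
      exact Subgroup.one_mem _
    · intro n; rfl
    · intro z; rfl
  rw [hc, hcN, Subgroup.card_bot, mul_one] at hk
  exact hk

/-- Lemma C: the centralizer of a noncentral element is abelian when it has index `p`
(in a group of order `p^4` with central derived subgroup). -/
theorem ker_abelian {P : Type*} [Group P] [Finite P] (p : ℕ) [Fact p.Prime]
    (hP : Nat.card P = p ^ 4) (hcZ : commutator P ≤ Subgroup.center P) (a : P)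
    (ha : a ∉ Subgroup.center P) (hK : (commHom hcZ a).ker.index = p) :
    ∀ g ∈ (commHom hcZ a).ker, ∀ h ∈ (commHom hcZ a).ker, g * h = h * g := by
  have hp : p.Prime := Fact.out
  set K := (commHom hcZ a).ker with hKdef
  have hmemK : ∀ g, g ∈ K ↔ g * a = a * g := mem_ker_commHom hcZ a
  have hK3 : Nat.card K = p ^ 3 := by
    have := Subgroup.card_mul_index K
    rw [hK, hP] at this
    exact Nat.eq_of_mul_eq_mul_right hp.pos (by rw [this]; ring)
  set Zg : Subgroup K := Subgroup.center K with hZg
  set Zg' : Subgroup P := Zg.map K.subtype with hZg'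
  have hcard : Nat.card Zg' = Nat.card Zg := Subgroup.card_subtype K Zg
  have hle : Subgroup.center P ≤ Zg' := by
    intro z hz
    have hzK : z ∈ K := (hmemK z).2 ((Subgroup.mem_center_iff.1 hz a).symm)
    refine ⟨⟨z, hzK⟩, ?_, rfl⟩
    show (⟨z, hzK⟩ : K) ∈ Subgroup.center K
    rw [Subgroup.mem_center_iff]
    intro g
    exact Subtype.ext (Subgroup.mem_center_iff.1 hz g)
  have haK : a ∈ K := (hmemK a).2 rfl
  have haZ : a ∈ Zg' := by
    refine ⟨⟨a, haK⟩, ?_, rfl⟩
    show (⟨a, haK⟩ : K) ∈ Subgroup.center K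
    rw [Subgroup.mem_center_iff]
    intro g
    exact Subtype.ext ((hmemK g).1 g.2)
  have hne : Subgroup.center P ≠ Zg' := fun h => ha (h ▸ haZ)
  have h1 : Nat.card (Subgroup.center P) ∣ Nat.card Zg' := Subgroup.card_dvd_of_le hle
  have h2 : Nat.card (Subgroup.center P) ≠ Nat.card Zg' := fun h =>
    hne (Subgroup.eq_of_le_of_card_ge hle h.ge)
  obtain ⟨i, hi0, hi⟩ := IsPGroup.card_center_eq_prime_pow hP (by norm_num)
  have h4 : Nat.card Zg' ∣ p ^ 3 := by
    rw [hcard, ← hK3]
    exact Subgroup.card_subgroup_dvd_card Zg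
  obtain ⟨k, hk3, hk⟩ := (Nat.dvd_prime_pow hp).1 h4
  rw [hk, hi] at h1 h2
  have hik : i ≤ k := (Nat.pow_dvd_pow_iff_le_right hp.one_lt).1 h1
  have hik' : i ≠ k := by
    rintro rfl
    exact h2 rfl
  have hk2 : 2 ≤ k := by omega
  have hidx : Zg.index ∣ p := by
    have hmul : Nat.card Zg * Zg.index = p ^ 3 := (Subgroup.card_mul_index Zg).trans hK3
    rw [← hcard, hk] at hmul
    have h5 : p ^ 2 * (p ^ (k - 2) * Zg.index) = p ^ 2 * p := by
      rw [← mul_assoc, ← pow_add, show 2 + (k - 2) = k by omega, hmul]; ring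
    have h6 := Nat.eq_of_mul_eq_mul_left (pow_pos hp.pos 2) h5
    exact Dvd.intro_left _ h6
  intro g hg h hh
  rcases (Nat.dvd_prime hp).1 hidx with h7 | h7
  · have h8 : Zg = ⊤ := Subgroup.index_eq_one.1 h7
    have h9 : (⟨h, hh⟩ : K) ∈ Zg := h8 ▸ Subgroup.mem_top _
    rw [hZg, Subgroup.mem_center_iff] at h9
    exact congrArg Subtype.val (h9 ⟨g, hg⟩)
  · have hcyc : IsCyclic (K ⧸ Zg) := isCyclic_of_prime_card (p := p) h7
    have hcomm := (QuotientGroup.mk' Zg).isMulCommutative_of_isCyclic_of_ker_le_center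
      (by rw [QuotientGroup.ker_mk'])
    exact congrArg Subtype.val (hcomm.is_comm.comm (⟨g, hg⟩ : K) ⟨h, hh⟩)

/-- Let p be a prime and P a group of order p^4. Then the derived subgroup P' has order p if and only if the centre Z(P) has index p^2 in P. -/
theorem result {P : Type*} [Group P] [Finite P] (p : ℕ) [Fact p.Prime] (hP : Nat.card P = p ^ 4) :
    Nat.card (commutator P) = p ↔ (Subgroup.center P).index = p ^ 2 := by
  have hp : p.Prime := Fact.out
  have hPp : IsPGroup p P := IsPGroup.of_card hP
  have hc1 : Nat.card (commutator P) * (commutator P).index = p ^ 4 :=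
    (Subgroup.card_mul_index _).trans hP
  have hc2 : Nat.card (Subgroup.center P) * (Subgroup.center P).index = p ^ 4 :=
    (Subgroup.card_mul_index _).trans hP
  -- common part
  have common : ∀ (hcZ : commutator P ≤ Subgroup.center P) (a : P) (_ : a ∉ Subgroup.center P)
      (_ : (commHom hcZ a).ker.index = p),
      (commutator P).index = p * Nat.card (Subgroup.center P) := by
    intro hcZ a ha hK
    have hab := ker_abelian p hP hcZ a ha hK
    apply index_commutator_eq p (commHom hcZ a).ker hK hab
    intro hcomm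
    exact ha (Subgroup.mem_center_iff.2 (fun g => hcomm g a))
  constructor
  · intro h
    have hcZ : commutator P ≤ Subgroup.center P := le_center_of_normal_of_card hPp _ h
    have hex : ∃ a : P, a ∉ Subgroup.center P := by
      by_contra hcon
      have hall : ∀ x : P, x ∈ Subgroup.center P := by
        intro x
        by_contra hx
        exact hcon ⟨x, hx⟩
      have htop : Subgroup.center P = ⊤ := (Subgroup.eq_top_iff' _).2 hall
      rw [← commutator_eq_bot_iff_center_eq_top] at htop
      rw [htop, Subgroup.card_bot] at h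
      exact hp.one_lt.ne h
    obtain ⟨a, ha⟩ := hex
    have hK : (commHom hcZ a).ker.index = p := by
      have h1 : (commHom hcZ a).ker.index ∣ p := by
        rw [Subgroup.index_ker, ← h]
        exact Subgroup.card_dvd_of_le (range_commHom_le hcZ a)
      rcases (Nat.dvd_prime hp).1 h1 with h2 | h2
      · exfalso
        have h3 : (commHom hcZ a).ker = ⊤ := Subgroup.index_eq_one.1 h2
        apply ha
        rw [Subgroup.mem_center_iff]
        intro g
        exact (mem_ker_commHom hcZ a g).1 (h3 ▸ Subgroup.mem_top g)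
      · exact h2
    have hA := common hcZ a ha hK
    rw [h, hA] at hc1
    -- p * (p * |Z|) = p^4
    have hZ : Nat.card (Subgroup.center P) = p ^ 2 := by
      have : p ^ 2 * Nat.card (Subgroup.center P) = p ^ 2 * p ^ 2 := by
        rw [← pow_add, ← hc1]; ring
      exact Nat.eq_of_mul_eq_mul_left (pow_pos hp.pos 2) this
    rw [hZ] at hc2
    have : p ^ 2 * (Subgroup.center P).index = p ^ 2 * p ^ 2 := by
      rw [← pow_add, hc2]
    exact Nat.eq_of_mul_eq_mul_left (pow_pos hp.pos 2) this
  · intro h
    have hZ : Nat.card (Subgroup.center P) = p ^ 2 := by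
      rw [h] at hc2
      have : Nat.card (Subgroup.center P) * p ^ 2 = p ^ 2 * p ^ 2 := by
        rw [← pow_add, hc2]
      exact Nat.eq_of_mul_eq_mul_right (pow_pos hp.pos 2) this
    have hcZ : commutator P ≤ Subgroup.center P := by
      rw [← Subgroup.Normal.quotient_commutative_iff_commutator_le]
      exact IsPGroup.isMulCommutative_of_card_eq_prime_sq (p := p) h
    have hex : ∃ a : P, a ∉ Subgroup.center P := by
      by_contra hcon
      have hall : ∀ x : P, x ∈ Subgroup.center P := by
        intro x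
        by_contra hx
        exact hcon ⟨x, hx⟩
      have htop : Subgroup.center P = ⊤ := (Subgroup.eq_top_iff' _).2 hall
      rw [htop, Subgroup.index_top] at h
      have : 1 < p ^ 2 := Nat.one_lt_pow (by norm_num) hp.one_lt
      omega
    obtain ⟨a, ha⟩ := hex
    have hK : (commHom hcZ a).ker.index = p := by
      have hle : Subgroup.center P ≤ (commHom hcZ a).ker := by
        intro z hz
        exact (mem_ker_commHom hcZ a z).2 ((Subgroup.mem_center_iff.1 hz a).symm)
      have h1 : (commHom hcZ a).ker.index ∣ p ^ 2 := h ▸ Subgroup.index_dvd_of_le hle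
      obtain ⟨j, hj2, hj⟩ := (Nat.dvd_prime_pow hp).1 h1
      have hj0 : j ≠ 0 := by
        rintro rfl
        rw [pow_zero] at hj
        have h3 : (commHom hcZ a).ker = ⊤ := Subgroup.index_eq_one.1 hj
        apply ha
        rw [Subgroup.mem_center_iff]
        intro g
        exact (mem_ker_commHom hcZ a g).1 (h3 ▸ Subgroup.mem_top g)
      have hj2' : j ≠ 2 := by
        rintro rfl
        have h4 := Subgroup.relIndex_mul_index hle
        rw [hj, h] at h4
        have h5 : (Subgroup.center P).relIndex (commHom hcZ a).ker = 1 :=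
          Nat.eq_of_mul_eq_mul_right (pow_pos hp.pos 2) (by rw [h4, one_mul])
        have h6 : (commHom hcZ a).ker ≤ Subgroup.center P := Subgroup.relIndex_eq_one.1 h5
        exact ha (h6 ((mem_ker_commHom hcZ a a).2 rfl))
      have hj1 : j = 1 := by omega
      rw [hj, hj1, pow_one]
    have hA := common hcZ a ha hK
    rw [hA, hZ] at hc1
    have : Nat.card (commutator P) * p ^ 3 = p * p ^ 3 := by
      calc Nat.card (commutator P) * p ^ 3 = Nat.card (commutator P) * (p * p ^ 2) := by ring
        _ = p ^ 4 := hc1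
        _ = p * p ^ 3 := by ring
    exact Nat.eq_of_mul_eq_mul_right (pow_pos hp.pos 3) this

end Cfsg.Agent.S4584
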