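import Mathlib
import Cfsg.Statements.S0115
import Cfsg.Agent.Lib.Helper73.MaxClass
import Cfsg.Agent.Lib.Helper73.MaxClassCenter
import Cfsg.Agent.S4584

set_option autoImplicit false
open Cfsg

namespace Cfsg.Agent.S0115

universe u

open scoped commutatorElement

/-- A nilpotent group with cyclic abelianization is abelian. -/
theorem commutator_eq_bot_of_cyclic {X : Type*} [Group X] [Group.IsNilpotent X]
    (hcyc : IsCyclic (X ⧸ commutator X)) : commutator X = ⊥ := by
  by_contra hne
  have hcl : 1 < Group.nilpotencyClass X := by
    by_contra hle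
    have h1 : Group.nilpotencyClass X ≤ 1 := by omega
    have := Subgroup.lowerCentralSeries_eq_bot_iff_nilpotencyClass_le.mpr h1
    rw [Subgroup.top_lowerCentralSeries_one] at this
    exact hne this
  have hlt := Cfsg.Agent.Lib.Helper73.lowerCentralSeries_succ_lt (X := X) (i := 1) hcl
  rw [Subgroup.top_lowerCentralSeries_one] at hlt
  set K : Subgroup X := (⊤ : Subgroup X).lowerCentralSeries (1 + 1) with hK
  have hKle : K ≤ commutator X := hlt.le
  -- X ⧸ K is commutative
  let f : X ⧸ K →* X ⧸ commutator X := QuotientGroup.map K (commutator X) (MonoidHom.id X) hKle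
  have hker : f.ker ≤ Subgroup.center (X ⧸ K) := by
    intro x hx
    obtain ⟨g, rfl⟩ := QuotientGroup.mk_surjective x
    rw [MonoidHom.mem_ker] at hx
    have hg : g ∈ commutator X := by
      have : f (g : X ⧸ K) = ((g : X) : X ⧸ commutator X) := rfl
      rw [this] at hx
      exact (QuotientGroup.eq_one_iff g).mp hx
    rw [Subgroup.mem_center_iff]
    intro y
    obtain ⟨h, rfl⟩ := QuotientGroup.mk_surjective y
    rw [← QuotientGroup.mk_mul, ← QuotientGroup.mk_mul, QuotientGroup.eq]
    have hmem : ⁅g, h⁆ ∈ K := by
      rw [hK, Subgroup.lowerCentralSeries_succ, Subgroup.top_lowerCentralSeries_one]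
      exact Subgroup.commutator_mem_commutator hg (Subgroup.mem_top h)
    have : (h * g)⁻¹ * (g * h) = ⁅g⁻¹, h⁻¹⁆ := by
      rw [commutatorElement_def]; group
    rw [this]
    rw [hK, Subgroup.lowerCentralSeries_succ, Subgroup.top_lowerCentralSeries_one]
    exact Subgroup.commutator_mem_commutator (inv_mem hg) (Subgroup.mem_top _)
  have hcomm : IsMulCommutative (X ⧸ K) :=
    MonoidHom.isMulCommutative_of_isCyclic_of_ker_le_center f hker
  have := Subgroup.Normal.quotient_commutative_iff_commutator_le.mp hcomm
  exact absurd (le_antisymm hKle this) hlt.ne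

theorem forward {X : Type*} [Group X] [Finite X] (n : ℕ) (hn : 3 ≤ n) (hX : Nat.card X = 2 ^ n)
    (hc : Group.nilpotencyClass X = n - 1) : IsKleinFour (X ⧸ commutator X) := by
  have : Fact (Nat.Prime 2) := ⟨Nat.prime_two⟩
  have hP : IsPGroup 2 X := IsPGroup.of_card hX
  have hnil : Group.IsNilpotent X := hP.isNilpotent
  have h4 : (commutator X).index = 4 := by
    have := Cfsg.Agent.Lib.Helper73.commutator_index_of_maximal_class (p := 2) n hn hX hc
    simpa using this
  have hcard : Nat.card (X ⧸ commutator X) = 4 := h4
  have hne : commutator X ≠ ⊥ := by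
    intro h
    have h1 : Group.nilpotencyClass X ≤ 1 := by
      apply Subgroup.lowerCentralSeries_eq_bot_iff_nilpotencyClass_le.mp
      rw [Subgroup.top_lowerCentralSeries_one, h]
    omega
  refine ⟨hcard, ?_⟩
  have hdvd : Monoid.exponent (X ⧸ commutator X) ∣ 4 := by
    rw [← hcard]; exact Group.exponent_dvd_nat_card
  have h4' : (4 : ℕ) = 2 ^ 2 := by norm_num
  rw [h4'] at hdvd
  obtain ⟨k, hk, hk'⟩ := (Nat.dvd_prime_pow Nat.prime_two).mp hdvd
  have hk3 : k = 0 ∨ k = 1 ∨ k = 2 := by omega
  rcases hk3 with rfl | rfl | rfl
  · exfalso
    rw [pow_zero, Monoid.exp_eq_one_iff] at hk'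
    have := Nat.card_eq_one_iff_unique.mpr ⟨hk', ⟨1⟩⟩
    omega
  · simpa using hk'
  · exfalso
    have hcomm : IsMulCommutative (X ⧸ commutator X) :=
      Subgroup.Normal.quotient_commutative_iff_commutator_le.mpr le_rfl
    let _ : CommGroup (X ⧸ commutator X) :=
      { (inferInstance : Group (X ⧸ commutator X)) with mul_comm := hcomm.is_comm.comm }
    have hex : Monoid.ExponentExists (X ⧸ commutator X) := Monoid.ExponentExists.of_finite
    obtain ⟨g, hg⟩ := Monoid.exists_orderOf_eq_exponent hex
    have hcyc : IsCyclic (X ⧸ commutator X) := by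
      apply isCyclic_of_orderOf_eq_card g
      rw [hg, hk', hcard]; norm_num
    exact hne (commutator_eq_bot_of_cyclic hcyc)

theorem backward_aux : ∀ (n : ℕ) (X : Type u) [Group X] [Finite X], 2 ≤ n → Nat.card X = 2 ^ n →
    (commutator X).index = 4 → Group.nilpotencyClass X = n - 1 := by
  intro n
  induction n with
  | zero => intro X _ _ h; omega
  | succ n ih =>
    intro X _ _ hn hX h4
    have : Fact (Nat.Prime 2) := ⟨Nat.prime_two⟩
    have hP : IsPGroup 2 X := IsPGroup.of_card hX
    have hnil : Group.IsNilpotent X := hP.isNilpotent
    have hnt : Nontrivial X := by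
      rw [← Finite.one_lt_card_iff_nontrivial, hX]
      exact Nat.one_lt_two_pow (by omega)
    rcases Nat.lt_or_ge n 2 with hlt | hge
    · -- n + 1 = 2 : abelian of order 4
      have hn1 : n = 1 := by omega
      subst hn1
      have hcomm : IsMulCommutative X := IsPGroup.isMulCommutative_of_card_eq_prime_sq (p := 2) hX
      have hbot : commutator X = ⊥ := by
        rw [commutator_eq_bot_iff_center_eq_top]
        rw [eq_top_iff]
        intro x _
        rw [Subgroup.mem_center_iff]
        intro y
        exact hcomm.is_comm.comm y x
      have h1 : Group.nilpotencyClass X ≤ 1 := by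
        apply Subgroup.lowerCentralSeries_eq_bot_iff_nilpotencyClass_le.mp
        rw [Subgroup.top_lowerCentralSeries_one, hbot]
      have h0 : Group.nilpotencyClass X ≠ 0 := by
        intro h
        have := Group.nilpotencyClass_zero_iff_subsingleton.mp h
        exact not_subsingleton X this
      omega
    · -- n + 1 ≥ 3
      have hne : commutator X ≠ ⊥ := by
        intro h
        rw [h, Subgroup.index_bot, hX] at h4
        have : (2 : ℕ) ^ 3 ≤ 2 ^ (n + 1) := Nat.pow_le_pow_right (by norm_num) (by omega)
        omega
      obtain ⟨m, a, b, hm, hScard, ha, hb, hrel, hAidx, hzc, hcen⟩ :=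
        Cfsg.Agent.Lib.Helper73.maximal_class_structure_center X hP h4 hne
      set z : X := a ^ (2 ^ (m - 1)) with hz
      -- the center is contained in the commutator subgroup
      obtain ⟨w, hwN, hwc, hw1⟩ := Cfsg.Agent.S4584.exists_central_of_normal hP (commutator X) hne
      have hwz : w = z := (hcen w hwc).resolve_left hw1
      have hZle : Subgroup.center X ≤ commutator X := by
        intro x hx
        rcases hcen x hx with h | h
        · rw [h]; exact one_mem _
        · rw [h, ← hwz]; exact hwN
      -- the center has order 2
      have hZcard : Nat.card (Subgroup.center X) = 2 := by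
        have hle : Nat.card (Subgroup.center X) ≤ 2 := by
          have hsub : ((Subgroup.center X : Subgroup X) : Set X) ⊆ ({1, z} : Set X) := by
            intro x hx
            rcases hcen x hx with h | h
            · left; exact h
            · right; exact h
          have h1 : Nat.card (Subgroup.center X) = Nat.card ((Subgroup.center X : Subgroup X) : Set X) := rfl
          rw [h1]
          calc Nat.card ((Subgroup.center X : Subgroup X) : Set X)
              ≤ Nat.card (({1, z} : Set X)) := Nat.card_mono (Set.toFinite _) hsub
            _ ≤ 2 := by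
              rw [Nat.card_coe_set_eq]
              exact (Set.ncard_insert_le 1 {z}).trans (by rw [Set.ncard_singleton])
        have hge2 : 2 ≤ Nat.card (Subgroup.center X) := by
          have : Nontrivial (Subgroup.center X) := hP.center_nontrivial
          have := Finite.one_lt_card_iff_nontrivial.mpr this
          omega
        omega
      -- the quotient
      have hQcard : Nat.card (X ⧸ Subgroup.center X) = 2 ^ n := by
        have h1 := (Subgroup.center X).card_mul_index
        rw [hZcard, hX, pow_succ, mul_comm] at h1
        have : (Subgroup.center X).index = 2 ^ n := Nat.eq_of_mul_eq_mul_right (by norm_num) h1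
        exact this
      have hQidx : (commutator (X ⧸ Subgroup.center X)).index = 4 := by
        have hmap : (commutator X).map (QuotientGroup.mk' (Subgroup.center X))
            = commutator (X ⧸ Subgroup.center X) := by
          rw [commutator_def, commutator_def, Subgroup.map_commutator]
          rw [← MonoidHom.range_eq_map, MonoidHom.range_eq_top.mpr (QuotientGroup.mk'_surjective _)]
        rw [← hmap, Subgroup.index_map_eq _ (QuotientGroup.mk'_surjective _)
          (by rw [QuotientGroup.ker_mk']; exact hZle)]
        exact h4
      have hih := ih (X ⧸ Subgroup.center X) hge hQcard hQidx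
      rw [Group.nilpotencyClass_eq_quotient_center_plus_one, hih]
      omega

/-- A 2-group of order 2^n, n ≥ 3, is of maximal class exactly when its commutator quotient is a Klein four-group. -/
theorem result {X : Type*} [Group X] [Finite X] (n : ℕ) (hn : 3 ≤ n) (hX : Nat.card X = 2 ^ n) : Group.nilpotencyClass X = n - 1 ↔ IsKleinFour (X ⧸ commutator X) := by
  constructor
  · exact forward n hn hX
  · intro h
    exact backward_aux n X (by omega) hX h.card_four

end Cfsg.Agent.S0115
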