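import Mathlib
import Cfsg.Statements.S0191
import Cfsg.Agent.Lib.Helper76.GaloisSum

set_option autoImplicit false
open Cfsg

namespace Cfsg.Agent.S0191

/-- An irreducible complex representation of a finite group of degree greater than 1 has a character that vanishes somewhere. -/
theorem result {G : Type*} [Group G] [Finite G] {V : Type*} [AddCommGroup V] [Module ℂ V] [FiniteDimensional ℂ V] (ρ : Representation ℂ G V) [ρ.IsIrreducible] (hdeg : 1 < Module.finrank ℂ V) : ∃ g : G, ρ.character g = 0 := by
  classical
  have := Fintype.ofFinite G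
  by_contra hcon
  have hcon' : ∀ g, ρ.character g ≠ 0 := fun g hg => hcon ⟨g, hg⟩
  let S : Finset G := Finset.univ.erase 1
  have hclosed : ∀ g ∈ S, ∀ k : ℕ, k.Coprime (Fintype.card G) → g ^ k ∈ S := by
    intro g hg k hk
    rw [Finset.mem_erase] at hg ⊢
    refine ⟨?_, Finset.mem_univ _⟩
    intro h1
    apply hg.1
    have hinj := Lib.Helper76.pow_injective_of_coprime (G := G) k hk
    exact hinj (by simpa using h1)
  have h1 := Lib.Helper76.card_le_sum_norm_sq ρ S hclosed (fun g _ => hcon' g)
  have h2 := Lib.Helper76.sum_norm_sq_eq_card ρ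
  rw [← Finset.add_sum_erase Finset.univ _ (Finset.mem_univ (1 : G))] at h2
  have h3 : ‖ρ.character 1‖ ^ 2 = (Module.finrank ℂ V : ℝ) ^ 2 := by
    rw [Representation.char_one]; simp
  have h4 : (S.card : ℝ) = Fintype.card G - 1 := by
    rw [Finset.card_erase_of_mem (Finset.mem_univ _), Finset.card_univ,
      Nat.cast_sub Fintype.card_pos]
    simp
  have h5 : (1 : ℝ) < (Module.finrank ℂ V : ℝ) := by exact_mod_cast hdeg
  nlinarith

end Cfsg.Agent.S0191
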