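import Mathlib
import Cfsg.Statements.S0242

set_option autoImplicit false
open Cfsg

namespace Cfsg.Agent.S0242

open Matrix in
theorem toGL_range_eq_ker_det' {n : Type*} [Fintype n] [DecidableEq n] {R : Type*} [CommRing R] :
    (Matrix.SpecialLinearGroup.toGL : Matrix.SpecialLinearGroup n R →* GL n R).range
      = (Matrix.GeneralLinearGroup.det : GL n R →* Rˣ).ker := by
  ext g
  constructor
  · rintro ⟨s, rfl⟩
    rw [MonoidHom.mem_ker]
    exact Matrix.SpecialLinearGroup.coeToGL_det s
  · intro hg
    rw [MonoidHom.mem_ker] at hg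
    have hdet : (g : Matrix n n R).det = 1 := by
      have := congrArg Units.val hg
      simpa using this
    refine ⟨⟨(g : Matrix n n R), hdet⟩, ?_⟩
    ext i j
    rfl

open Matrix in
theorem card_GL_eq_card_SL_mul' {n : Type*} [Fintype n] [DecidableEq n] [Nonempty n]
    {F : Type*} [Field F] [Fintype F] :
    Nat.card (GL n F) = Nat.card (Matrix.SpecialLinearGroup n F) * (Fintype.card F - 1) := by
  have h1 := Subgroup.card_eq_card_quotient_mul_card_subgroup
    (Matrix.GeneralLinearGroup.det : GL n F →* Fˣ).ker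
  have h2 : Nat.card (GL n F ⧸ (Matrix.GeneralLinearGroup.det : GL n F →* Fˣ).ker)
      = Nat.card Fˣ :=
    Nat.card_congr (QuotientGroup.quotientKerEquivOfSurjective _
      Matrix.GeneralLinearGroup.det_surjective).toEquiv
  have h3 : Nat.card (Matrix.GeneralLinearGroup.det : GL n F →* Fˣ).ker
      = Nat.card (Matrix.SpecialLinearGroup n F) := by
    rw [← toGL_range_eq_ker_det']
    exact (Nat.card_congr (MonoidHom.ofInjective
      Matrix.SpecialLinearGroup.toGL_injective).toEquiv).symm
  rw [h1, h2, h3, mul_comm, Nat.card_units, Nat.card_eq_fintype_card (α := F)]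

/-- Order of the special linear group: (q - 1) |SL_n(q)| = prod_{i<n} (q^n - q^i) = |GL_n(q)|, for n at least 1. -/
theorem result {F : Type*} [Field F] [Fintype F] {q : ℕ} (hF : Fintype.card F = q) (n : ℕ) (hn : 1 ≤ n) : (q - 1) * Nat.card (Matrix.SpecialLinearGroup (Fin n) F) = ∏ i : Fin n, (q ^ n - q ^ (i : ℕ)) := by
  have : Nonempty (Fin n) := ⟨⟨0, hn⟩⟩
  have h := card_GL_eq_card_SL_mul' (n := Fin n) (F := F)
  rw [Matrix.card_GL_field, hF] at h
  rw [h, mul_comm]

end Cfsg.Agent.S0242
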