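import Cfsg.Statements.S0436

set_option autoImplicit false
open Cfsg

namespace Cfsg.Agent.S0436

theorem sq_one {G : Type*} [Group G] {E : Set G} (hE : Cfsg.IsThreeTranspositionSet E)
    {d : G} (hd : d ∈ E) : d * d = 1 := by
  have := hE.1 d hd
  rw [← pow_two, ← this, pow_orderOf_eq_one]

theorem comm_or_braid {G : Type*} [Group G] {E : Set G} (hE : Cfsg.IsThreeTranspositionSet E)
    {d e : G} (hd : d ∈ E) (he : e ∈ E) : Commute d e ∨ d * e * d = e * d * e := by
  have hdd := sq_one hE hd
  have hee := sq_one hE he
  have hdinv : d⁻¹ = d := inv_eq_of_mul_eq_one_left hdd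
  have heinv : e⁻¹ = e := inv_eq_of_mul_eq_one_left hee
  rcases hE.2 d hd e he with h2 | h3
  · left
    have h2' : d * e * (d * e) = 1 := by rw [← pow_two]; exact h2
    have h5 := eq_inv_of_mul_eq_one_left h2'
    show d * e = e * d
    rw [h5, mul_inv_rev, hdinv, heinv]
  · right
    have h3' : d * e * d * (e * d * e) = 1 := by
      rw [← h3, pow_succ, pow_two]; simp only [mul_assoc]
    have h5 := eq_inv_of_mul_eq_one_left h3'
    rw [h5, mul_inv_rev, mul_inv_rev, hdinv, heinv, mul_assoc]

theorem main {G : Type*} [Group G] {E : Set G} (hE : Cfsg.IsThreeTranspositionSet E) {a b e : G} (ha : a ∈ E) (hb : b ∈ E) (he : e ∈ E) (hab : a ≠ b) (hcomm : Commute a b) : Commute e (a * b) ↔ (Commute e a ∧ Commute e b) := by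
  constructor
  · intro hc
    have haa := sq_one hE ha
    have hbb := sq_one hE hb
    have hainv : a⁻¹ = a := inv_eq_of_mul_eq_one_left haa
    have hbinv : b⁻¹ = b := inv_eq_of_mul_eq_one_left hbb
    rcases comm_or_braid hE he hb with hb' | hb'
    · refine ⟨?_, hb'⟩
      have : a = a * b * b⁻¹ := by group
      rw [this]
      exact hc.mul_right hb'.inv_right
    · rcases comm_or_braid hE he ha with ha' | ha'
      · refine ⟨ha', ?_⟩
        have : b = a⁻¹ * (a * b) := by group
        rw [this]
        exact ha'.inv_right.mul_right hc
      · exfalso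
        apply hab
        -- hc : e * (a * b) = a * b * e
        have hc' : e * (a * b) = a * b * e := hc
        have h1 : b * e * b = a * e * a := by
          calc b * e * b = a * (a * b * e) * b := by
                rw [← mul_assoc a, ← mul_assoc a, haa, one_mul]
            _ = a * (e * (a * b)) * b := by rw [hc']
            _ = a * e * a * (b * b) := by group
            _ = a * e * a := by rw [hbb, mul_one]
        have h2 : e * a * e = e * b * e := by
          rw [ha', hb', h1]
        exact mul_left_cancel (mul_right_cancel h2)
  · rintro ⟨h1, h2⟩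
    exact h1.mul_right h2

/-- For distinct commuting members a, b of a set of 3-transpositions E, a member e of E centralises the product a * b if and only if it centralises both a and b. -/
theorem result {G : Type*} [Group G] {E : Set G} (hE : Cfsg.IsThreeTranspositionSet E) {a b e : G} (ha : a ∈ E) (hb : b ∈ E) (he : e ∈ E) (hab : a ≠ b) (hcomm : Commute a b) : Commute e (a * b) ↔ (Commute e a ∧ Commute e b) := by
  exact main hE ha hb he hab hcomm

end Cfsg.Agent.S0436
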