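import Cfsg.Statements.S0437

set_option autoImplicit false
open Cfsg

namespace Cfsg.Agent.S0437

theorem sq_one {G : Type*} [Group G] {E : Set G} (hE : Cfsg.IsThreeTranspositionSet E)
    {d : G} (hd : d ∈ E) : d * d = 1 := by
  have := hE.1 d hd
  rw [← pow_two, ← this, pow_orderOf_eq_one]

theorem comm_or_braid {G : Type*} [Group G] {E : Set G} (hE : Cfsg.IsThreeTranspositionSet E)
    {d e : G} (hd : d ∈ E) (he : e ∈ E) : Commute d e ∨ d * e * d = e * d * e := by
  have hdd := sq_one hE hd
  have hee := sq_one hE he
  have hdinv : d⁻¹ = d := inv_eq_of_mul_eq_one_left hdd
  have heinv : e⁻¹ = e := inv_eq_of_mul_eq_one_left hee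
  rcases hE.2 d hd e he with h2 | h3
  · left
    have h2' : d * e * (d * e) = 1 := by rw [← pow_two]; exact h2
    have h5 := eq_inv_of_mul_eq_one_left h2'
    show d * e = e * d
    rw [h5, mul_inv_rev, hdinv, heinv]
  · right
    have h3' : d * e * d * (e * d * e) = 1 := by
      rw [← h3, pow_succ, pow_two]; simp only [mul_assoc]
    have h5 := eq_inv_of_mul_eq_one_left h3'
    rw [h5, mul_inv_rev, mul_inv_rev, hdinv, heinv, mul_assoc]

theorem main {G : Type*} [Group G] {E : Set G} (hE : Cfsg.IsThreeTranspositionSet E) {a b e : G} (ha : a ∈ E) (hb : b ∈ E) (he : e ∈ E) (hab : a ≠ b) (hcomm : Commute a b) : Commute e (a * b) ↔ (Commute e a ∧ Commute e b) := by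
  constructor
  · intro hc
    have haa := sq_one hE ha
    have hbb := sq_one hE hb
    have hainv : a⁻¹ = a := inv_eq_of_mul_eq_one_left haa
    have hbinv : b⁻¹ = b := inv_eq_of_mul_eq_one_left hbb
    rcases comm_or_braid hE he hb with hb' | hb'
    · refine ⟨?_, hb'⟩
      have : a = a * b * b⁻¹ := by group
      rw [this]
      exact hc.mul_right hb'.inv_right
    · rcases comm_or_braid hE he ha with ha' | ha'
      · refine ⟨ha', ?_⟩
        have : b = a⁻¹ * (a * b) := by group
        rw [this]
        exact ha'.inv_right.mul_right hc
      · exfalso
        apply hab
        -- hc : e * (a * b) = a * b * e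
        have hc' : e * (a * b) = a * b * e := hc
        have h1 : b * e * b = a * e * a := by
          calc b * e * b = a * (a * b * e) * b := by
                rw [← mul_assoc a, ← mul_assoc a, haa, one_mul]
            _ = a * (e * (a * b)) * b := by rw [hc']
            _ = a * e * a * (b * b) := by group
            _ = a * e * a := by rw [hbb, mul_one]
        have h2 : e * a * e = e * b * e := by
          rw [ha', hb', h1]
        exact mul_left_cancel (mul_right_cancel h2)
  · rintro ⟨h1, h2⟩
    exact h1.mul_right h2

/-- For three distinct, pairwise commuting members a, b, c of a set of 3-transpositions E, a member e of E centralises a * b * c if and only if it centralises each of a, b and c. -/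
theorem result {G : Type*} [Group G] {E : Set G} (hE : Cfsg.IsThreeTranspositionSet E) {a b c e : G} (ha : a ∈ E) (hb : b ∈ E) (hc : c ∈ E) (he : e ∈ E) (hab : a ≠ b) (hac : a ≠ c) (hbc : b ≠ c) (h₁ : Commute a b) (h₂ : Commute a c) (h₃ : Commute b c) : Commute e (a * b * c) ↔ (Commute e a ∧ Commute e b ∧ Commute e c) := by
  constructor
  · intro h
    have haa := sq_one hE ha
    have hbb := sq_one hE hb
    have hcc := sq_one hE hc
    have hee := sq_one hE he
    have hainv : a⁻¹ = a := inv_eq_of_mul_eq_one_left haa
    have hbinv : b⁻¹ = b := inv_eq_of_mul_eq_one_left hbb
    have hcinv : c⁻¹ = c := inv_eq_of_mul_eq_one_left hcc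
    rcases comm_or_braid hE he hc with hc' | hc'
    · -- e commutes with c, hence with a * b
      have hab' : Commute e (a * b) := by
        have : a * b = a * b * c * c⁻¹ := by group
        rw [this]
        exact h.mul_right hc'.inv_right
      have := (main hE ha hb he hab h₁).1 hab'
      exact ⟨this.1, this.2, hc'⟩
    · rcases comm_or_braid hE he ha with ha' | ha'
      · have hbc' : Commute e (b * c) := by
          have : b * c = a⁻¹ * (a * b * c) := by group
          rw [this]
          exact ha'.inv_right.mul_right h
        have := (main hE hb hc he hbc h₃).1 hbc'
        exact ⟨ha', this.1, this.2⟩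
      · rcases comm_or_braid hE he hb with hb' | hb'
        · have hac' : Commute e (a * c) := by
            have : a * c = a * b * c * b⁻¹ := by
              have h3 : b * c = c * b := h₃
              calc a * c = a * (c * b) * b⁻¹ := by group
                _ = a * (b * c) * b⁻¹ := by rw [h3]
                _ = a * b * c * b⁻¹ := by group
            rw [this]
            exact h.mul_right hb'.inv_right
          have := (main hE ha hc he hac h₂).1 hac'
          exact ⟨this.1, hb', this.2⟩
        · exfalso
          -- all three braid relations hold; derive e = a
          have h' : e * (a * b * c) = a * b * c * e := h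
          have h1 : a * b = b * a := h₁
          have h2 : a * c = c * a := h₂
          have h3 : b * c = c * b := h₃
          -- a e a = b c e c b
          have k1 : a * e * a = b * (c * e * c) * b := by
            calc a * e * a = a * (e * (a * b * c)) * (c * b) := by
                  calc a * e * a = a * e * a * (b * (c * c) * b) := by
                        rw [hcc, mul_one, hbb, mul_one]
                    _ = a * (e * (a * b * c)) * (c * b) := by group
              _ = a * (a * b * c * e) * (c * b) := by rw [h']
              _ = (a * a) * (b * (c * e * c) * b) := by group
              _ = b * (c * e * c) * b := by rw [haa, one_mul]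
          have k2 : b * (c * e * c) * b = (e * b * e) * c * (e * b * e) := by
            calc b * (c * e * c) * b = b * (e * c * e) * b := by rw [hc']
              _ = b * e * (b * b) * c * (b * b) * e * b := by rw [hbb]; group
              _ = (b * e * b) * (b * c * b) * (b * e * b) := by group
              _ = (b * e * b) * c * (b * e * b) := by
                  have : b * c * b = c := by
                    rw [h3, mul_assoc, hbb, mul_one]
                  rw [this]
              _ = (e * b * e) * c * (e * b * e) := by rw [hb']
          have k3 : e * a * e = e * (b * e * c * e * b) * e := by
            rw [ha', k1, k2]; group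
          have k4 : a = b * e * c * e * b := mul_left_cancel (mul_right_cancel k3)
          have k5 : a = (b * c) * e * (c * b) := by
            calc a = b * e * c * e * b := k4
              _ = b * (e * c * e) * b := by group
              _ = b * (c * e * c) * b := by rw [hc']
              _ = (b * c) * e * (c * b) := by group
          have k6 : e = a := by
            calc e = (c * b) * ((b * c) * e * (c * b)) * (b * c) := by
                  calc e = (c * (b * b) * c) * e * (c * (b * b) * c) := by
                        rw [hbb, mul_one, hcc, one_mul, mul_one]
                    _ = (c * b) * ((b * c) * e * (c * b)) * (b * c) := by group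
              _ = (c * b) * a * (b * c) := by rw [← k5]
              _ = a * ((c * b) * (b * c)) := by
                  have e1 : c * b * a = a * (c * b) := by
                    calc c * b * a = c * (b * a) := by group
                      _ = c * (a * b) := by rw [h1]
                      _ = (c * a) * b := by group
                      _ = (a * c) * b := by rw [h2]
                      _ = a * (c * b) := by group
                  rw [e1]; group
              _ = a := by
                  have : c * b * (b * c) = 1 := by
                    calc c * b * (b * c) = c * (b * b) * c := by group
                      _ = 1 := by rw [hbb, mul_one, hcc]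
                  rw [this, mul_one]
          -- but e commutes with a then; the braid relation gives no contradiction, so use hab-type argument
          -- e = a, so e b e = b e b reads a b a = b a b, while a b = b a gives a b a = b, so b = b a b, so a b = 1... 
          rw [k6] at hb'
          -- hb' : a * b * a = b * a * b
          have : a = b := by
            have e1 : a * b * a = b := by
              rw [h1, mul_assoc, haa, mul_one]
            have e2 : b * a * b = a := by
              rw [← h1, mul_assoc, hbb, mul_one]
            rw [e1, e2] at hb'
            exact hb'.symm
          exact hab this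
  · rintro ⟨h1, h2, h3⟩
    exact (h1.mul_right h2).mul_right h3

end Cfsg.Agent.S0437
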