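import Cfsg.Statements.S0438

set_option autoImplicit false
open Cfsg

namespace Cfsg.Agent.S0438

/-- Let E be a set of 3-transpositions closed under conjugation, and x an involutory automorphism of the group mapping E to itself. If some a in E fails to commute with its image x a, then x fixes an element of E. -/
theorem result {G : Type*} [Group G] {E : Set G} (hE : Cfsg.IsThreeTranspositionSet E) (hconj : ∀ g : G, ∀ d ∈ E, g * d * g⁻¹ ∈ E) (x : G ≃* G) (hx : ∀ g : G, x (x g) = g) (hxE : ∀ d ∈ E, x d ∈ E) {a : G} (ha : a ∈ E) (h : ¬ Commute a (x a)) : ∃ d ∈ E, x d = d := by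
  obtain ⟨hord, hprod⟩ := hE
  have haa : a * a = 1 := by
    have := hord a ha
    rw [← pow_two, ← this, pow_orderOf_eq_one]
  have hbE : x a ∈ E := hxE a ha
  have hbb : x a * x a = 1 := by
    have := hord (x a) hbE
    rw [← pow_two, ← this, pow_orderOf_eq_one]
  have hxb : x (x a) = a := hx a
  have hainv : a⁻¹ = a := inv_eq_of_mul_eq_one_left haa
  have hbinv : (x a)⁻¹ = x a := inv_eq_of_mul_eq_one_left hbb
  have h3 : (a * x a) ^ 3 = 1 := by
    rcases hprod a ha (x a) hbE with h2 | h3
    · exfalso
      apply h
      have h2' : a * x a * (a * x a) = 1 := by rw [← pow_two]; exact h2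
      show a * x a = x a * a
      calc a * x a = a * x a * (a * a) := by rw [haa, mul_one]
        _ = a * x a * (a * (x a * x a) * a) := by rw [hbb, mul_one]
        _ = (a * x a * (a * x a)) * (x a * a) := by group
        _ = x a * a := by rw [h2', one_mul]
    · exact h3
  have hbraid : a * x a * a = x a * a * x a := by
    have h3' : a * x a * (a * x a) * (a * x a) = 1 := by
      rw [← h3, pow_succ, pow_two]
    have h4 : a * x a * a * (x a * a * x a) = 1 := by
      rw [← h3']; group
    have h5 := eq_inv_of_mul_eq_one_left h4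
    rw [h5, mul_inv_rev, mul_inv_rev, hbinv, hainv, mul_assoc]
  refine ⟨a * x a * a⁻¹, hconj a (x a) hbE, ?_⟩
  rw [map_mul, map_mul, map_inv, hxb, hbinv, hainv]
  exact hbraid.symm

end Cfsg.Agent.S0438
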