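import Mathlib
import Cfsg.Statements.S0445

set_option autoImplicit false
open Cfsg

namespace Cfsg.Agent.S0445

open Matrix

abbrev M5 := Matrix (Fin 5) (Fin 5) (ZMod 2)

theorem single_mul_entry (A : M5) (i j : Fin 5) :
    (Matrix.single (0 : Fin 5) (1 : Fin 5) (1 : ZMod 2) * A) i j = if i = 0 then A 1 j else 0 := by
  by_cases h : i = 0
  · subst h
    rw [single_mul_apply_same, one_mul, if_pos rfl]
  · rw [single_mul_apply_of_ne _ _ _ _ _ h, if_neg h]

theorem mul_single_entry (A : M5) (i j : Fin 5) :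
    (A * Matrix.single (0 : Fin 5) (1 : Fin 5) (1 : ZMod 2)) i j = if j = 1 then A i 0 else 0 := by
  by_cases h : j = 1
  · subst h
    rw [mul_single_apply_same, mul_one, if_pos rfl]
  · rw [mul_single_apply_of_ne _ _ _ _ _ h, if_neg h]

/-- The shape of matrices commuting with the transvection. -/
def Shape (A : M5) : Prop :=
  A 0 0 = 1 ∧ (∀ i : Fin 4, A i.succ 0 = 0) ∧ A 1 1 = 1 ∧ (∀ j : Fin 3, A 1 j.succ.succ = 0)

theorem comm_iff (A : M5) :
    A * Matrix.transvection 0 1 1 = Matrix.transvection 0 1 1 * A ↔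
      ∀ i j : Fin 5, (if j = 1 then A i 0 else 0) = (if i = 0 then A 1 j else 0) := by
  unfold Matrix.transvection
  rw [mul_add, add_mul, mul_one, one_mul, add_right_inj]
  constructor
  · intro h i j
    rw [← mul_single_entry, ← single_mul_entry, h]
  · intro h
    ext i j
    rw [mul_single_entry, single_mul_entry, h]

theorem det_of_col (A : M5) (hcol : ∀ i : Fin 4, A i.succ 0 = 0) :
    A.det = A 0 0 * (A.submatrix Fin.succ Fin.succ).det := by
  rw [det_succ_column_zero, Fin.sum_univ_succ]
  simp [hcol]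

theorem det_of_row (B : Matrix (Fin 4) (Fin 4) (ZMod 2)) (hrow : ∀ j : Fin 3, B 0 j.succ = 0) :
    B.det = B 0 0 * (B.submatrix Fin.succ Fin.succ).det := by
  rw [det_succ_row_zero, Fin.sum_univ_succ]
  simp [hrow]

theorem zmod2_eq_one {x : ZMod 2} (h : x ≠ 0) : x = 1 := by
  revert x; decide

theorem shape_of_comm (A : M5) (hdet : A.det = 1)
    (h : A * Matrix.transvection 0 1 1 = Matrix.transvection 0 1 1 * A) : Shape A := by
  rw [comm_iff] at h
  have hcol : ∀ i : Fin 4, A i.succ 0 = 0 := by
    intro i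
    have := h i.succ 1
    rw [if_pos rfl, if_neg (Fin.succ_ne_zero i)] at this
    exact this
  have hrow : ∀ j : Fin 3, A 1 j.succ.succ = 0 := by
    intro j
    have := h 0 j.succ.succ
    rw [if_pos rfl, if_neg] at this
    · exact this.symm
    · intro h1
      have := congrArg Fin.val h1
      simp at this
  have h01 : A 0 0 = A 1 1 := by
    have := h 0 1
    rw [if_pos rfl, if_pos rfl] at this
    exact this
  have h00 : A 0 0 = 1 := by
    apply zmod2_eq_one
    intro h0
    rw [det_of_col A hcol, h0, zero_mul] at hdet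
    exact zero_ne_one hdet
  exact ⟨h00, hcol, h01 ▸ h00, hrow⟩

theorem comm_of_shape (A : M5) (hA : Shape A) :
    A * Matrix.transvection 0 1 1 = Matrix.transvection 0 1 1 * A := by
  obtain ⟨h00, hcol, h11, hrow⟩ := hA
  rw [comm_iff]
  intro i j
  by_cases hj : j = 1
  · subst hj
    rw [if_pos rfl]
    refine Fin.cases ?_ (fun i => ?_) i
    · rw [if_pos rfl, h00, h11]
    · rw [if_neg (Fin.succ_ne_zero i), hcol]
  · rw [if_neg hj]
    by_cases hi : i = 0
    · subst hi
      rw [if_pos rfl]
      revert hj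
      refine Fin.cases ?_ (fun j => ?_) j
      · intro _
        exact (hcol 0).symm
      · refine Fin.cases ?_ (fun j => ?_) j
        · intro h; exact absurd rfl h
        · intro _
          exact (hrow j).symm
    · rw [if_neg hi]

theorem det_of_shape (A : M5) (hA : Shape A) :
    A.det = (A.submatrix (fun i : Fin 3 => i.succ.succ) (fun j : Fin 3 => j.succ.succ)).det := by
  obtain ⟨h00, hcol, h11, hrow⟩ := hA
  rw [det_of_col A hcol, h00, one_mul, det_of_row]
  · have : (A.submatrix Fin.succ Fin.succ) 0 0 = 1 := h11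
    rw [this, one_mul]
    rfl
  · intro j
    exact hrow j


/-- The block matrix with prescribed free entries. -/
def blockMat (a : Fin 4 → ZMod 2) (r : Fin 3 → ZMod 2) (S : Matrix (Fin 3) (Fin 3) (ZMod 2)) : M5 :=
  Matrix.of (vecCons (vecCons 1 a)
    (vecCons (vecCons 0 (vecCons 1 0)) (fun i => vecCons 0 (vecCons (r i) (S i)))))

theorem blockMat_shape (a : Fin 4 → ZMod 2) (r : Fin 3 → ZMod 2)
    (S : Matrix (Fin 3) (Fin 3) (ZMod 2)) : Shape (blockMat a r S) := by
  refine ⟨rfl, ?_, rfl, fun j => rfl⟩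
  intro i
  refine Fin.cases ?_ (fun i => ?_) i
  · rfl
  · refine Fin.cases ?_ (fun i => ?_) i <;> rfl

theorem blockMat_sub (a : Fin 4 → ZMod 2) (r : Fin 3 → ZMod 2)
    (S : Matrix (Fin 3) (Fin 3) (ZMod 2)) :
    (blockMat a r S).submatrix (fun i : Fin 3 => i.succ.succ) (fun j : Fin 3 => j.succ.succ) = S := by
  ext i j
  rfl

theorem eq_blockMat_of_shape (A : M5) (hA : Shape A) :
    blockMat (fun j => A 0 j.succ) (fun i => A i.succ.succ 1)
      (A.submatrix (fun i : Fin 3 => i.succ.succ) (fun j : Fin 3 => j.succ.succ)) = A := by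
  obtain ⟨h00, hcol, h11, hrow⟩ := hA
  ext i j
  refine Fin.cases ?_ (fun i => ?_) i
  · refine Fin.cases ?_ (fun j => ?_) j
    · exact h00.symm
    · rfl
  · refine Fin.cases ?_ (fun i => ?_) i
    · refine Fin.cases ?_ (fun j => ?_) j
      · exact (hcol 0).symm
      · refine Fin.cases ?_ (fun j => ?_) j
        · exact h11.symm
        · exact (hrow j).symm
    · refine Fin.cases ?_ (fun j => ?_) j
      · exact (hcol i.succ).symm
      · refine Fin.cases ?_ (fun j => ?_) j
        · rfl
        · rfl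

theorem mem_centralizer_iff_shape (s : Matrix.SpecialLinearGroup (Fin 5) (ZMod 2))
    (hs : (s : Matrix (Fin 5) (Fin 5) (ZMod 2)) = Matrix.transvection 0 1 1)
    (A : Matrix.SpecialLinearGroup (Fin 5) (ZMod 2)) :
    A ∈ Subgroup.centralizer ({s} : Set (Matrix.SpecialLinearGroup (Fin 5) (ZMod 2))) ↔
      Shape (A : Matrix (Fin 5) (Fin 5) (ZMod 2)) := by
  rw [Subgroup.mem_centralizer_iff]
  constructor
  · intro h
    have h1 := h s rfl
    have h2 := congrArg Subtype.val h1
    rw [Matrix.SpecialLinearGroup.coe_mul, Matrix.SpecialLinearGroup.coe_mul, hs] at h2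
    exact shape_of_comm _ A.det_coe h2.symm
  · intro h x hx
    rw [Set.mem_singleton_iff] at hx
    subst hx
    apply Subtype.ext
    rw [Matrix.SpecialLinearGroup.coe_mul, Matrix.SpecialLinearGroup.coe_mul, hs]
    exact (comm_of_shape _ h).symm

/-- The centraliser as a product of explicit finite types. -/
def centEquiv (s : Matrix.SpecialLinearGroup (Fin 5) (ZMod 2))
    (hs : (s : Matrix (Fin 5) (Fin 5) (ZMod 2)) = Matrix.transvection 0 1 1) :
    Subgroup.centralizer ({s} : Set (Matrix.SpecialLinearGroup (Fin 5) (ZMod 2))) ≃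
      (Fin 4 → ZMod 2) × (Fin 3 → ZMod 2) × Matrix.SpecialLinearGroup (Fin 3) (ZMod 2) where
  toFun A := (fun j => (A.1 : M5) 0 j.succ, fun i => (A.1 : M5) i.succ.succ 1,
    ⟨(A.1 : M5).submatrix (fun i : Fin 3 => i.succ.succ) (fun j : Fin 3 => j.succ.succ), by
      rw [← det_of_shape _ ((mem_centralizer_iff_shape s hs A.1).mp A.2)]
      exact A.1.det_coe⟩)
  invFun p := ⟨⟨blockMat p.1 p.2.1 (p.2.2 : Matrix (Fin 3) (Fin 3) (ZMod 2)), by
      rw [det_of_shape _ (blockMat_shape _ _ _), blockMat_sub]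
      exact p.2.2.det_coe⟩,
      (mem_centralizer_iff_shape s hs _).mpr (blockMat_shape _ _ _)⟩
  left_inv A := by
    apply Subtype.ext
    apply Subtype.ext
    exact eq_blockMat_of_shape _ ((mem_centralizer_iff_shape s hs A.1).mp A.2)
  right_inv p := by
    obtain ⟨a, r, S⟩ := p
    refine Prod.ext ?_ (Prod.ext ?_ ?_)
    · rfl
    · rfl
    · apply Subtype.ext
      exact blockMat_sub _ _ _

theorem card_SL3 : Nat.card (Matrix.SpecialLinearGroup (Fin 3) (ZMod 2)) = 168 := by
  have hbij : Function.Bijective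
      (Matrix.SpecialLinearGroup.toGL :
        Matrix.SpecialLinearGroup (Fin 3) (ZMod 2) → GL (Fin 3) (ZMod 2)) := by
    refine ⟨Matrix.SpecialLinearGroup.toGL_injective, ?_⟩
    intro g
    have hdet : (g : Matrix (Fin 3) (Fin 3) (ZMod 2)).det = 1 := by
      have h1 : Matrix.GeneralLinearGroup.det g = 1 := Subsingleton.elim _ _
      have h2 := congrArg Units.val h1
      simpa using h2
    refine ⟨⟨g.1, hdet⟩, ?_⟩
    apply Units.ext
    rfl
  rw [Nat.card_congr (Equiv.ofBijective _ hbij), Matrix.card_GL_field]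
  simp [Fin.prod_univ_succ, ZMod.card]

/-- In the special linear group of dimension 5 over the field with two elements, the centraliser of a transvection has order 21504 = 2 ^ 7 · 168 (it is an extension of an extraspecial group of order 2 ^ 7 by the simple group of order 168). -/
theorem result (s : Matrix.SpecialLinearGroup (Fin 5) (ZMod 2)) (hs : (s : Matrix (Fin 5) (Fin 5) (ZMod 2)) = Matrix.transvection 0 1 1) : Nat.card (Subgroup.centralizer ({s} : Set (Matrix.SpecialLinearGroup (Fin 5) (ZMod 2)))) = 21504 := by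
  rw [Nat.card_congr (centEquiv s hs), Nat.card_prod, Nat.card_prod, card_SL3]
  simp [Nat.card_eq_fintype_card, ZMod.card]

end Cfsg.Agent.S0445
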