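-- Statement S0447 (helper1).
import Mathlib
import Cfsg.Statements.S0447
import Cfsg.Agent.Lib.Helper1.DoubleCoverInv
import Cfsg.Agent.Lib.Helper1.CentralSplit

set_option autoImplicit false
open Cfsg

namespace Cfsg.Agent.S0447

/-- Involutions in double covers of alternating groups: for n ≤ 7, a finite non-split double cover of the alternating group of degree n has exactly one element of order 2 (the central one); for degree 8 there is a non-split double cover with two distinct involutions. -/
theorem result : (∀ (n : ℕ) (H : Type) (_ : Group H) (_ : Finite H), n ≤ 7 → Cfsg.IsNonsplitDoubleCover H (alternatingGroup (Fin n)) → ∀ x y : H, orderOf x = 2 → orderOf y = 2 → x = y) ∧ ∃ (H : Type) (_ : Group H) (_ : Finite H), Cfsg.IsNonsplitDoubleCover H (alternatingGroup (Fin 8)) ∧ ∃ x y : H, x ≠ y ∧ orderOf x = 2 ∧ orderOf y = 2 := by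
  constructor
  · intro n H _ _ hn hcov x y hx hy
    obtain ⟨hc2, ⟨e⟩, hns⟩ := hcov
    obtain ⟨⟨z, hzc⟩, hz1, huniq⟩ := (Nat.card_eq_two_iff' (1 : Subgroup.center H)).mp hc2
    have hz1' : z ≠ 1 := fun h => hz1 (Subtype.ext h)
    have hcen : ∀ c ∈ Subgroup.center H, c = 1 ∨ c = z := by
      intro c hc
      by_cases h1 : c = 1
      · exact Or.inl h1
      · right
        have := huniq ⟨c, hc⟩ (fun h => h1 (congrArg Subtype.val h))
        exact congrArg Subtype.val this
    have hz2 : z ^ 2 = 1 := by
      rcases hcen (z ^ 2) (Subgroup.pow_mem _ hzc 2) with h | h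
      · exact h
      · exfalso
        apply hz1'
        rw [pow_two] at h
        exact mul_eq_left.mp h
    have hzz : z * z = 1 := by rw [← pow_two]; exact hz2
    let π : H →* alternatingGroup (Fin n) :=
      (e : H ⧸ Subgroup.center H →* alternatingGroup (Fin n)).comp
        (QuotientGroup.mk' (Subgroup.center H))
    have hπ : Function.Surjective π :=
      e.surjective.comp (QuotientGroup.mk'_surjective _)
    have hker : ∀ h : H, π h = 1 ↔ h = 1 ∨ h = z := by
      intro h
      have h1 : π h = 1 ↔ h ∈ Subgroup.center H := by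
        show e (QuotientGroup.mk' (Subgroup.center H) h) = 1 ↔ _
        rw [MulEquiv.map_eq_one_iff]
        exact QuotientGroup.eq_one_iff h
      rw [h1]
      constructor
      · exact hcen h
      · rintro (rfl | rfl)
        · exact Subgroup.one_mem _
        · exact hzc
    suffices hmain : ∀ t : H, orderOf t = 2 → t = z by
      rw [hmain x hx, hmain y hy]
    intro t ht
    by_contra htz
    have ht1 : t ≠ 1 := by intro h; rw [h, orderOf_one] at ht; omega
    have ht2 : t ^ 2 = 1 := by rw [← ht]; exact pow_orderOf_eq_one _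
    have hπt : π t ≠ 1 := by
      intro h
      rcases (hker t).mp h with h | h
      · exact ht1 h
      · exact htz h
    have hπt2 : orderOf (π t) = 2 := by
      refine orderOf_eq_prime ?_ hπt
      rw [← map_pow, ht2, map_one]
    have h4 : 4 ≤ n := by
      have hc := Cfsg.Agent.Lib.Helper1.CS.alt_involution_cycleType hn
        ((π t : alternatingGroup (Fin n)) : Equiv.Perm (Fin n))
        (Equiv.Perm.mem_alternatingGroup.mp (π t).2)
        (by rw [Subgroup.orderOf_coe]; exact hπt2)
      have hs := Equiv.Perm.sum_cycleType ((π t : alternatingGroup (Fin n)) : Equiv.Perm (Fin n))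
      rw [hc] at hs
      have hle : ((π t : alternatingGroup (Fin n)) : Equiv.Perm (Fin n)).support.card
          ≤ Fintype.card (Fin n) := Finset.card_le_univ _
      rw [Fintype.card_fin, ← hs] at hle
      exact hle
    obtain ⟨a', b', m, ha', hb', hm, hab', hcard⟩ :=
      Cfsg.Agent.Lib.Helper1.CS.alt_dihedral_data h4 hn
    obtain ⟨L, hzL, hL⟩ := Cfsg.Agent.Lib.Helper1.CS.split_of_involution π hπ z hzc hz1' hz2 hker
      (fun s s' hs hs' => Cfsg.Agent.Lib.Helper1.CS.alt_involutions_conj hn s s' hs hs')
      t ht2 hπt a' b' ha' hb' m hm hab' hcard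
    apply hns L
    apply Subgroup.isComplement'_of_disjoint_and_mul_eq_univ
    · rw [Subgroup.disjoint_def]
      intro c hc hcL
      rcases hcen c hc with h | h
      · exact h
      · rw [h] at hcL; exact absurd hcL hzL
    · rw [Set.eq_univ_iff_forall]
      intro h
      rw [Set.mem_mul]
      rcases hL h with h1 | h1
      · exact ⟨1, Subgroup.one_mem _, h, h1, one_mul h⟩
      · exact ⟨z, hzc, z * h, h1, by rw [← mul_assoc, hzz, one_mul]⟩
  · have hfin := Cfsg.Agent.Lib.Helper1.DC.finite_GL 8
    obtain ⟨g, hgz, hg⟩ := Cfsg.Agent.Lib.Helper1.DC.exists_second_involution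
    refine ⟨Cfsg.Agent.Lib.Helper1.DC.Gam 8, inferInstance, inferInstance,
      ⟨Cfsg.Agent.Lib.Helper1.DC.card_center_Gam (by norm_num),
        Cfsg.Agent.Lib.Helper1.DC.quot_center_Gam (by norm_num),
        fun L => Cfsg.Agent.Lib.Helper1.DC.Gam_nonsplit (by norm_num) L⟩,
      Cfsg.Agent.Lib.Helper1.DC.zG 8, g, fun h => hgz h.symm,
      Cfsg.Agent.Lib.Helper1.DC.zG_order 8, hg⟩

end Cfsg.Agent.S0447
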