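import Cfsg.Statements.S0547
import Mathlib
import Cfsg.Agent.Lib.Helper10.PrimSolv

set_option autoImplicit false
open Cfsg

namespace Cfsg.Agent.S0547

open Cfsg.Agent.Lib.Helper10

/-- Let a finite solvable group G act faithfully and primitively on a set, and let M be a minimal normal subgroup of G. Then M is transitive with trivial point stabilizers, and the number of points equals the order of M, which is a prime power p ^ d with d ≥ 1. -/
theorem result {G : Type*} [Group G] [Finite G] [Group.IsSolvable G] {Ω : Type*} [Nonempty Ω] [MulAction G Ω] [FaithfulSMul G Ω] (hprim : MulAction.IsPreprimitive G Ω) (M : Subgroup G) [M.Normal] (hM : M ≠ ⊥) (hmin : ∀ K : Subgroup G, K.Normal → K ≤ M → K = ⊥ ∨ K = M) : MulAction.IsPretransitive M Ω ∧ (∀ ω : Ω, MulAction.stabilizer M ω = ⊥) ∧ ∃ p d : ℕ, p.Prime ∧ 0 < d ∧ Nat.card Ω = p ^ d ∧ Nat.card M = p ^ d := by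
  have hcomm := comm_of_minimal_normal_solvable M hmin
  have htr : MulAction.IsPretransitive M Ω := isPretransitive_of_normal_of_preprimitive hprim M hM
  have hreg : ∀ ω : Ω, MulAction.stabilizer M ω = ⊥ :=
    fun ω => stabilizer_eq_bot_of_comm_transitive M hcomm ω
  obtain ⟨p, d, hp, hd, hc⟩ := exists_prime_pow_card_of_minimal_normal M hM hmin
  obtain ⟨ω⟩ := ‹Nonempty Ω›
  exact ⟨htr, hreg, p, d, hp, hd, (card_eq_of_regular M ω (hreg ω)).trans hc, hc⟩

end Cfsg.Agent.S0547
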