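import Cfsg.Statements.S0561
import Mathlib
import Cfsg.Agent.Lib.Helper1.HallLe
import Cfsg.Agent.Lib.Helper1.HallConj
import Cfsg.Agent.Lib.Helper10.Card

set_option autoImplicit false
open Pointwise
open Cfsg

namespace Cfsg.Agent.S0561

open Cfsg.Agent.Lib.Helper1 Cfsg.Agent.Lib.Helper10

theorem conj_smul_eq_of_mem_normalizer {G : Type*} [Group G] {A : Subgroup G} {g : G}
    (hg : g ∈ Subgroup.normalizer (A : Set G)) : MulAut.conj g • A = A := by
  ext x
  rw [Subgroup.mem_pointwise_smul_iff_inv_smul_mem, MulAut.smul_def, ← map_inv, MulAut.conj_apply,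
    inv_inv]
  exact ((Subgroup.mem_normalizer_iff''.mp hg) x).symm

theorem arith_lcm {N a b : ℕ} (ha : a ∣ N) (hb : b ∣ N) (hac : a.Coprime (N / a))
    (hbc : b.Coprime (N / b)) : (Nat.lcm a b).Coprime (N / Nat.lcm a b) := by
  have hr : Nat.lcm a b ∣ N := Nat.lcm_dvd ha hb
  have h1 : N / Nat.lcm a b ∣ N / a := Nat.div_dvd_div_left hr (Nat.dvd_lcm_left a b)
  have h2 : N / Nat.lcm a b ∣ N / b := Nat.div_dvd_div_left hr (Nat.dvd_lcm_right a b)
  have h3 : a.Coprime (N / Nat.lcm a b) := Nat.Coprime.coprime_dvd_right h1 hac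
  have h4 : b.Coprime (N / Nat.lcm a b) := Nat.Coprime.coprime_dvd_right h2 hbc
  exact Nat.Coprime.coprime_dvd_left (Nat.lcm_dvd_mul a b) (Nat.Coprime.mul_left h3 h4)

theorem sylow_arith {p a i N : ℕ} (hpa : p ∣ a) (hN : a * i = N)
    (hc : a.Coprime i) : p ^ (N.factorization p) ∣ a := by
  have h1 : p ^ (N.factorization p) ∣ a * i := by rw [hN]; exact Nat.ordProj_dvd N p
  have h2 : (p ^ (N.factorization p)).Coprime i :=
    Nat.Coprime.pow_left _ (Nat.Coprime.coprime_dvd_left hpa hc)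
  exact Nat.Coprime.dvd_of_dvd_mul_right h2 h1

theorem exists_common_conj {G : Type*} [Group G] (H K : Subgroup G)
    (hHK : ∀ g : G, ∃ h ∈ H, ∃ k ∈ K, g = h * k) (P Q : Subgroup G) (g : G)
    (hg : MulAut.conj g • P = Q) :
    ∃ c ∈ H, ∃ k ∈ K, MulAut.conj c • P = MulAut.conj k • Q := by
  obtain ⟨h, hh, k, hk, hgk⟩ := hHK g⁻¹
  refine ⟨h⁻¹, H.inv_mem hh, k, hk, ?_⟩
  rw [← hg, smul_smul, ← map_mul]
  have h1 : k * g = h⁻¹ := by
    have h2 : g = (h * k)⁻¹ := by rw [← hgk, inv_inv]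
    rw [h2]; group
  rw [h1]

theorem exists_conj_pair {G : Type*} [Group G] [Finite G] [Group.IsSolvable G]
    (H K A B : Subgroup G)
    (hHK : ∀ g : G, ∃ h ∈ H, ∃ k ∈ K, g = h * k)
    (hAn : H ≤ Subgroup.normalizer (A : Set G))
    (hBn : K ≤ Subgroup.normalizer (B : Set G))
    (m n : ℕ) (hG : Nat.card G = m * n) (hmn : m.Coprime n)
    (P Q : Subgroup G) (hP : Nat.card P = m) (hQ : Nat.card Q = m) :
    ∃ X : Subgroup G, Nat.card X = m ∧ (P ≤ A → Q ≤ B → X ≤ A ⊓ B) ∧
      (A ≤ P → B ≤ Q → A ⊔ B ≤ X) := by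
  obtain ⟨g, hg⟩ := hall_conj m n hG hmn P Q hP hQ
  obtain ⟨c, hc, k, hk, hck⟩ := exists_common_conj H K hHK P Q g hg
  refine ⟨MulAut.conj c • P, ?_, ?_, ?_⟩
  · rw [← hP]; exact Nat.card_congr (Subgroup.equivSMul (MulAut.conj c) P).toEquiv.symm
  · intro hPA hQB
    refine le_inf ?_ ?_
    · exact (Subgroup.pointwise_smul_le_pointwise_smul_iff.mpr hPA).trans
        (conj_smul_eq_of_mem_normalizer (hAn hc)).le
    · rw [hck]
      exact (Subgroup.pointwise_smul_le_pointwise_smul_iff.mpr hQB).trans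
        (conj_smul_eq_of_mem_normalizer (hBn hk)).le
  · intro hPA hQB
    refine sup_le ?_ ?_
    · exact (conj_smul_eq_of_mem_normalizer (hAn hc)).ge.trans
        (Subgroup.pointwise_smul_le_pointwise_smul_iff.mpr hPA)
    · rw [hck]
      exact (conj_smul_eq_of_mem_normalizer (hBn hk)).ge.trans
        (Subgroup.pointwise_smul_le_pointwise_smul_iff.mpr hQB)

theorem prod_hall_sub {G : Type*} [Group G] [Finite G] [Group.IsSolvable G] (H K A B : Subgroup G)
    (hHK : ∀ g : G, ∃ h ∈ H, ∃ k ∈ K, g = h * k)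
    (hAn : H ≤ Subgroup.normalizer (A : Set G))
    (hBn : K ≤ Subgroup.normalizer (B : Set G))
    (hAh : (Nat.card A).Coprime A.index) (hBh : (Nat.card B).Coprime B.index) :
    ∃ S : Subgroup G, (S : Set G) = (A : Set G) * (B : Set G) := by
  have hNpos : 0 < Nat.card G := Nat.card_pos
  have hapos : 0 < Nat.card A := Nat.card_pos
  have hbpos : 0 < Nat.card B := Nat.card_pos
  have haN : Nat.card A * A.index = Nat.card G := Subgroup.card_mul_index A
  have hbN : Nat.card B * B.index = Nat.card G := Subgroup.card_mul_index B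
  have hadvd : Nat.card A ∣ Nat.card G := Dvd.intro _ haN
  have hbdvd : Nat.card B ∣ Nat.card G := Dvd.intro _ hbN
  have hai : A.index = Nat.card G / Nat.card A := by
    rw [← haN, Nat.mul_div_cancel_left _ hapos]
  have hbi : B.index = Nat.card G / Nat.card B := by
    rw [← hbN, Nat.mul_div_cancel_left _ hbpos]
  have hAh' := hAh
  have hBh' := hBh
  rw [hai] at hAh'
  rw [hbi] at hBh'
  set r := Nat.lcm (Nat.card A) (Nat.card B) with hr
  have hrdvd : r ∣ Nat.card G := Nat.lcm_dvd hadvd hbdvd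
  have hrc : r.Coprime (Nat.card G / r) := arith_lcm hadvd hbdvd hAh' hBh'
  have hGr : Nat.card G = r * (Nat.card G / r) := (Nat.mul_div_cancel' hrdvd).symm
  have hAr : (Nat.card A).Coprime (Nat.card G / r) :=
    Nat.Coprime.coprime_dvd_left (Nat.dvd_lcm_left _ _) hrc
  have hBr : (Nat.card B).Coprime (Nat.card G / r) :=
    Nat.Coprime.coprime_dvd_left (Nat.dvd_lcm_right _ _) hrc
  obtain ⟨R₁, hR₁, hAR₁⟩ := hall_le r _ hGr hrc A hAr
  obtain ⟨R₂, hR₂, hBR₂⟩ := hall_le r _ hGr hrc B hBr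
  obtain ⟨R, hR, -, hRsup⟩ := exists_conj_pair H K A B hHK hAn hBn r _ hGr hrc R₁ R₂ hR₁ hR₂
  have hABR : A ⊔ B ≤ R := hRsup hAR₁ hBR₂
  have hgcd : Nat.gcd (Nat.card A) (Nat.card B) ∣ Nat.card ↥(A ⊓ B) := by
    rw [Nat.dvd_iff_prime_pow_dvd_dvd]
    intro p k hp hpk
    rcases Nat.eq_zero_or_pos k with hk0 | hkpos
    · rw [hk0, pow_zero]; exact one_dvd _
    have hpkA : p ^ k ∣ Nat.card A := hpk.trans (Nat.gcd_dvd_left _ _)
    have hpkB : p ^ k ∣ Nat.card B := hpk.trans (Nat.gcd_dvd_right _ _)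
    have hpA : p ∣ Nat.card A := (dvd_pow_self p hkpos.ne').trans hpkA
    have hpB : p ∣ Nat.card B := (dvd_pow_self p hkpos.ne').trans hpkB
    have : Fact p.Prime := ⟨hp⟩
    have hvA : p ^ ((Nat.card G).factorization p) ∣ Nat.card A := sylow_arith hpA haN hAh
    have hvB : p ^ ((Nat.card G).factorization p) ∣ Nat.card B := sylow_arith hpB hbN hBh
    obtain ⟨P₀, hP₀⟩ := Sylow.exists_subgroup_card_pow_prime p hvA
    obtain ⟨Q₀, hQ₀⟩ := Sylow.exists_subgroup_card_pow_prime p hvB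
    have hP : Nat.card (P₀.map A.subtype) = p ^ ((Nat.card G).factorization p) := by
      rw [Subgroup.card_map_of_injective A.subtype_injective]; exact hP₀
    have hQ : Nat.card (Q₀.map B.subtype) = p ^ ((Nat.card G).factorization p) := by
      rw [Subgroup.card_map_of_injective B.subtype_injective]; exact hQ₀
    have hPA : P₀.map A.subtype ≤ A := Subgroup.map_subtype_le P₀
    have hQB : Q₀.map B.subtype ≤ B := Subgroup.map_subtype_le Q₀
    have hGv : Nat.card G = p ^ ((Nat.card G).factorization p) *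
        (Nat.card G / p ^ ((Nat.card G).factorization p)) :=
      (Nat.ordProj_mul_ordCompl_eq_self _ p).symm
    have hcv : (p ^ ((Nat.card G).factorization p)).Coprime
        (Nat.card G / p ^ ((Nat.card G).factorization p)) :=
      Nat.Coprime.pow_left _ (Nat.coprime_ordCompl hp hNpos.ne')
    obtain ⟨X, hX, hXle, -⟩ := exists_conj_pair H K A B hHK hAn hBn _ _ hGv hcv _ _ hP hQ
    have hXAB := hXle hPA hQB
    have h1 : p ^ ((Nat.card G).factorization p) ∣ Nat.card ↥(A ⊓ B) :=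
      hX ▸ Subgroup.card_dvd_of_le hXAB
    have hkv : k ≤ (Nat.card G).factorization p :=
      (hp.pow_dvd_iff_le_factorization hNpos.ne').mp (hpkA.trans hadvd)
    exact (pow_dvd_pow p hkv).trans h1
  have hcount := card_mul_card_inf A B
  have hgl : Nat.gcd (Nat.card A) (Nat.card B) * r = Nat.card A * Nat.card B :=
    Nat.gcd_mul_lcm _ _
  have hle : Nat.card ↥(A ⊓ B) ∣ Nat.gcd (Nat.card A) (Nat.card B) :=
    Nat.dvd_gcd (Subgroup.card_dvd_of_le inf_le_left) (Subgroup.card_dvd_of_le inf_le_right)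
  have heq : Nat.card ↥(A ⊓ B) = Nat.gcd (Nat.card A) (Nat.card B) := Nat.dvd_antisymm hle hgcd
  have hcardAB : Nat.card ((A : Set G) * (B : Set G) : Set G) = r := by
    rw [heq] at hcount
    have h2 : Nat.card ((A : Set G) * (B : Set G) : Set G) * Nat.gcd (Nat.card A) (Nat.card B)
        = r * Nat.gcd (Nat.card A) (Nat.card B) := by rw [hcount, ← hgl, mul_comm]
    exact Nat.eq_of_mul_eq_mul_right (Nat.gcd_pos_of_pos_left _ hapos) h2
  refine ⟨R, ?_⟩
  symm
  refine Set.eq_of_subset_of_ncard_le ?_ ?_ (Set.toFinite _)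
  · rw [Set.mul_subset_iff]
    intro x hx y hy
    exact R.mul_mem (hABR (Subgroup.mem_sup_left hx)) (hABR (Subgroup.mem_sup_right hy))
  · rw [← Nat.card_coe_set_eq, ← Nat.card_coe_set_eq, hcardAB]
    exact hR.le

/-- Let the finite solvable group G be the product HK of subgroups, and let A be normal in H and B normal in K, where A and B are Hall subgroups of G (order coprime to index). Then for all x, y the product set of xAx⁻¹ and yBy⁻¹ is a subgroup of G. -/
theorem result {G : Type*} [Group G] [Finite G] [Group.IsSolvable G] (H K A B : Subgroup G) (hHK : ∀ g : G, ∃ h ∈ H, ∃ k ∈ K, g = h * k) (hA : A ≤ H) (hAn : (A.subgroupOf H).Normal) (hB : B ≤ K) (hBn : (B.subgroupOf K).Normal) (hAh : (Nat.card A).Coprime A.index) (hBh : (Nat.card B).Coprime B.index) (x y : G) : ∃ S : Subgroup G, (S : Set G) = ((MulAut.conj x • A : Subgroup G) : Set G) * ((MulAut.conj y • B : Subgroup G) : Set G) := by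
  have hAn' : H ≤ Subgroup.normalizer (A : Set G) :=
    (Subgroup.normal_subgroupOf_iff_le_normalizer hA).mp hAn
  have hBn' : K ≤ Subgroup.normalizer (B : Set G) :=
    (Subgroup.normal_subgroupOf_iff_le_normalizer hB).mp hBn
  obtain ⟨R, hR⟩ := prod_hall_sub H K A B hHK hAn' hBn' hAh hBh
  obtain ⟨h₀, hh₀, k₀, hk₀, hxy⟩ := hHK (x⁻¹ * y)
  have hxA : MulAut.conj x • A = MulAut.conj (x * h₀) • A := by
    rw [map_mul, mul_smul, conj_smul_eq_of_mem_normalizer (hAn' hh₀)]
  have hyB : MulAut.conj y • B = MulAut.conj (x * h₀) • B := by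
    have h1 : y = x * h₀ * k₀ := by rw [mul_assoc, ← hxy]; group
    rw [h1, map_mul MulAut.conj (x * h₀) k₀, mul_smul,
      conj_smul_eq_of_mem_normalizer (hBn' hk₀)]
  refine ⟨MulAut.conj (x * h₀) • R, ?_⟩
  rw [hxA, hyB, Subgroup.coe_pointwise_smul, Subgroup.coe_pointwise_smul,
    Subgroup.coe_pointwise_smul, hR, smul_mul']

end Cfsg.Agent.S0561
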