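import Cfsg.Statements.S0562
import Mathlib

set_option autoImplicit false
open Cfsg

namespace Cfsg.Agent.S0562

/-- Let the finite group G be the product HK of subgroups, A normal in H, B normal in K, and L the normalizer of the subgroup generated by A and B. Then every element of L is a product of an element of L ∩ H and an element of L ∩ K. -/
theorem result {G : Type*} [Group G] [Finite G] (H K A B : Subgroup G) (hHK : ∀ g : G, ∃ h ∈ H, ∃ k ∈ K, g = h * k) (hA : A ≤ H) (hAn : (A.subgroupOf H).Normal) (hB : B ≤ K) (hBn : (B.subgroupOf K).Normal) : ∀ g ∈ Subgroup.normalizer ((A ⊔ B : Subgroup G) : Set G), ∃ h ∈ Subgroup.normalizer ((A ⊔ B : Subgroup G) : Set G) ⊓ H, ∃ k ∈ Subgroup.normalizer ((A ⊔ B : Subgroup G) : Set G) ⊓ K, g = h * k := by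
  intro g hg
  obtain ⟨h, hh, k, hk, rfl⟩ := hHK g
  have hHA : H ≤ Subgroup.normalizer (A : Set G) :=
    (Subgroup.normal_subgroupOf_iff_le_normalizer hA).1 hAn
  have hKB : K ≤ Subgroup.normalizer (B : Set G) :=
    (Subgroup.normal_subgroupOf_iff_le_normalizer hB).1 hBn
  have hkN : k ∈ Subgroup.normalizer ((A ⊔ B : Subgroup G) : Set G) := by
    have hle : A ⊔ B ≤ (A ⊔ B).comap (MulAut.conj k⁻¹).toMonoidHom := by
      refine sup_le ?_ ?_
      · intro a ha
        rw [Subgroup.mem_comap]
        have h1 : h * a * h⁻¹ ∈ A := (Subgroup.mem_normalizer_iff.1 (hHA hh) a).1 ha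
        have h2 := (Subgroup.mem_normalizer_iff''.1 hg (h * a * h⁻¹)).1 (Subgroup.mem_sup_left h1)
        have e : (MulAut.conj k⁻¹).toMonoidHom a = (h * k)⁻¹ * (h * a * h⁻¹) * (h * k) := by
          simp [MulAut.conj_apply]; group
        rw [e]; exact h2
      · intro b hb
        rw [Subgroup.mem_comap]
        have h1 : k⁻¹ * b * k ∈ B := (Subgroup.mem_normalizer_iff''.1 (hKB hk) b).1 hb
        have e : (MulAut.conj k⁻¹).toMonoidHom b = k⁻¹ * b * k := by
          simp [MulAut.conj_apply]
        rw [e]; exact Subgroup.mem_sup_right h1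
    have hk' : k⁻¹ ∈ Subgroup.normalizer ((A ⊔ B : Subgroup G) : Set G) := by
      apply Subgroup.mem_normalizer_fintype
      intro n hn
      have := hle hn
      rw [Subgroup.mem_comap] at this
      simpa [MulAut.conj_apply] using this
    simpa using Subgroup.inv_mem _ hk'
  have hhN : h ∈ Subgroup.normalizer ((A ⊔ B : Subgroup G) : Set G) := by
    have := Subgroup.mul_mem _ hg (Subgroup.inv_mem _ hkN)
    simpa using this
  exact ⟨h, ⟨hhN, hh⟩, k, ⟨hkN, hk⟩, rfl⟩

end Cfsg.Agent.S0562
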