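import Cfsg.Statements.S0566
import Mathlib

set_option autoImplicit false
open Pointwise
open Cfsg

namespace Cfsg.Agent.S0566

/-- `X` permutes with `Y`, in the elementwise form `Y X ⊆ X Y`. -/
def Perm {G : Type*} [Group G] (X Y : Subgroup G) : Prop :=
  ∀ a ∈ X, ∀ y ∈ Y, ∃ a' ∈ X, ∃ y' ∈ Y, y * a = a' * y'

theorem Perm.symm' {G : Type*} [Group G] {X Y : Subgroup G} (h : Perm X Y) :
    ∀ a ∈ X, ∀ y ∈ Y, ∃ a' ∈ X, ∃ y' ∈ Y, a * y = y' * a' := by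
  intro a ha y hy
  obtain ⟨a', ha', y', hy', he⟩ := h a⁻¹ (X.inv_mem ha) y⁻¹ (Y.inv_mem hy)
  refine ⟨a'⁻¹, X.inv_mem ha', y'⁻¹, Y.inv_mem hy', ?_⟩
  have : (y⁻¹ * a⁻¹)⁻¹ = (a' * y')⁻¹ := by rw [he]
  simpa [mul_inv_rev] using this

theorem perm_sup {G : Type*} [Group G] {X X' Y : Subgroup G} (h : Perm X Y) (h' : Perm X' Y) :
    Perm (X ⊔ X') Y := by
  have key : ∀ z ∈ Subgroup.closure ((X : Set G) ∪ (X' : Set G)),
      (∀ y ∈ Y, ∃ z' ∈ X ⊔ X', ∃ y' ∈ Y, y * z = z' * y') ∧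
      (∀ y ∈ Y, ∃ z' ∈ X ⊔ X', ∃ y' ∈ Y, z * y = y' * z') := by
    intro z hz
    induction hz using Subgroup.closure_induction with
    | mem z hz =>
      rcases hz with hz | hz
      · constructor
        · intro y hy
          obtain ⟨a', ha', y', hy', he⟩ := h z hz y hy
          exact ⟨a', Subgroup.mem_sup_left ha', y', hy', he⟩
        · intro y hy
          obtain ⟨a', ha', y', hy', he⟩ := h.symm' z hz y hy
          exact ⟨a', Subgroup.mem_sup_left ha', y', hy', he⟩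
      · constructor
        · intro y hy
          obtain ⟨a', ha', y', hy', he⟩ := h' z hz y hy
          exact ⟨a', Subgroup.mem_sup_right ha', y', hy', he⟩
        · intro y hy
          obtain ⟨a', ha', y', hy', he⟩ := h'.symm' z hz y hy
          exact ⟨a', Subgroup.mem_sup_right ha', y', hy', he⟩
    | one =>
      constructor
      · intro y hy; exact ⟨1, Subgroup.one_mem _, y, hy, by simp⟩
      · intro y hy; exact ⟨1, Subgroup.one_mem _, y, hy, by simp⟩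
    | mul z₁ z₂ _ _ ih₁ ih₂ =>
      constructor
      · intro y hy
        obtain ⟨z₁', hz₁', y', hy', he⟩ := ih₁.1 y hy
        obtain ⟨z₂', hz₂', y'', hy'', he'⟩ := ih₂.1 y' hy'
        refine ⟨z₁' * z₂', Subgroup.mul_mem _ hz₁' hz₂', y'', hy'', ?_⟩
        rw [← mul_assoc, he, mul_assoc, he', mul_assoc]
      · intro y hy
        obtain ⟨z₂', hz₂', y', hy', he⟩ := ih₂.2 y hy
        obtain ⟨z₁', hz₁', y'', hy'', he'⟩ := ih₁.2 y' hy'
        refine ⟨z₁' * z₂', Subgroup.mul_mem _ hz₁' hz₂', y'', hy'', ?_⟩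
        rw [mul_assoc, he, ← mul_assoc, he', mul_assoc]
    | inv z _ ih =>
      constructor
      · intro y hy
        obtain ⟨z', hz', y', hy', he⟩ := ih.2 y⁻¹ (Y.inv_mem hy)
        refine ⟨z'⁻¹, Subgroup.inv_mem _ hz', y'⁻¹, Y.inv_mem hy', ?_⟩
        have : (z * y⁻¹)⁻¹ = (y' * z')⁻¹ := by rw [he]
        simpa [mul_inv_rev] using this
      · intro y hy
        obtain ⟨z', hz', y', hy', he⟩ := ih.1 y⁻¹ (Y.inv_mem hy)
        refine ⟨z'⁻¹, Subgroup.inv_mem _ hz', y'⁻¹, Y.inv_mem hy', ?_⟩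
        have : (y⁻¹ * z)⁻¹ = (z' * y')⁻¹ := by rw [he]
        simpa [mul_inv_rev] using this
  intro a ha y hy
  have ha' : a ∈ Subgroup.closure ((X : Set G) ∪ (X' : Set G)) := by
    rw [Subgroup.closure_union, Subgroup.closure_eq, Subgroup.closure_eq]; exact ha
  exact (key a ha').1 y hy

/-- the product set of two permuting subgroups, as a subgroup -/
def prodSubgroup {G : Type*} [Group G] (X Y : Subgroup G) (h : Perm X Y) : Subgroup G where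
  carrier := {z | ∃ a ∈ X, ∃ y ∈ Y, z = a * y}
  one_mem' := ⟨1, X.one_mem, 1, Y.one_mem, by simp⟩
  mul_mem' := by
    rintro _ _ ⟨a, ha, y, hy, rfl⟩ ⟨a₂, ha₂, y₂, hy₂, rfl⟩
    obtain ⟨a', ha', y', hy', he⟩ := h a₂ ha₂ y hy
    refine ⟨a * a', X.mul_mem ha ha', y' * y₂, Y.mul_mem hy' hy₂, ?_⟩
    calc a * y * (a₂ * y₂) = a * (y * a₂) * y₂ := by group
      _ = a * (a' * y') * y₂ := by rw [he]
      _ = a * a' * (y' * y₂) := by group
  inv_mem' := by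
    rintro _ ⟨a, ha, y, hy, rfl⟩
    obtain ⟨a', ha', y', hy', he⟩ := h a⁻¹ (X.inv_mem ha) y⁻¹ (Y.inv_mem hy)
    exact ⟨a', ha', y', hy', by rw [mul_inv_rev, he]⟩

theorem mem_prodSubgroup {G : Type*} [Group G] (X Y : Subgroup G) (h : Perm X Y) (z : G) :
    z ∈ prodSubgroup X Y h ↔ ∃ a ∈ X, ∃ y ∈ Y, z = a * y := Iff.rfl

/-- the conjugate `x B x⁻¹` -/
def conjS {G : Type*} [Group G] (B : Subgroup G) (x : G) : Subgroup G :=
  B.map (MulAut.conj x).toMonoidHom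

theorem mem_conjS {G : Type*} [Group G] (B : Subgroup G) (x z : G) :
    z ∈ conjS B x ↔ ∃ b ∈ B, z = x * b * x⁻¹ := by
  unfold conjS
  rw [Subgroup.mem_map]
  constructor
  · rintro ⟨b, hb, rfl⟩; exact ⟨b, hb, by simp [MulAut.conj_apply]⟩
  · rintro ⟨b, hb, rfl⟩; exact ⟨b, hb, by simp [MulAut.conj_apply]⟩

/-- elementwise form of "`A' * B^x` is a proper subgroup for all `x`" -/
def R {G : Type*} [Group G] (B A' : Subgroup G) : Prop :=
  ∀ x : G, Perm A' (conjS B x) ∧ ∃ z : G, ∀ a ∈ A', ∀ y ∈ conjS B x, z ≠ a * y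

open Pointwise in
theorem mem_conj_smul {G : Type*} [Group G] (B : Subgroup G) (x z : G) :
    z ∈ MulAut.conj x • B ↔ z ∈ conjS B x := by
  rw [Subgroup.mem_smul_pointwise_iff_exists, mem_conjS]
  constructor
  · rintro ⟨b, hb, rfl⟩; exact ⟨b, hb, by simp [MulAut.smul_def]⟩
  · rintro ⟨b, hb, rfl⟩; exact ⟨b, hb, by simp [MulAut.smul_def]⟩

open Pointwise in
theorem R_of_hyp {G : Type*} [Group G] (A B : Subgroup G)
    (h : ∀ x : G, ∃ S : Subgroup G, S ≠ ⊤ ∧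
      (S : Set G) = (A : Set G) * ((MulAut.conj x • B : Subgroup G) : Set G)) :
    R B A := by
  intro x
  obtain ⟨S, hS, hSe⟩ := h x
  have hmem : ∀ z, z ∈ S ↔ ∃ a ∈ A, ∃ y ∈ conjS B x, z = a * y := by
    intro z
    rw [← SetLike.mem_coe, hSe, Set.mem_mul]
    constructor
    · rintro ⟨a, ha, y, hy, rfl⟩
      exact ⟨a, ha, y, (mem_conj_smul B x y).1 hy, rfl⟩
    · rintro ⟨a, ha, y, hy, rfl⟩
      exact ⟨a, ha, y, (mem_conj_smul B x y).2 hy, rfl⟩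
  constructor
  · intro a ha y hy
    have h1 : y ∈ S := (hmem _).2 ⟨1, A.one_mem, y, hy, by simp⟩
    have h2 : a ∈ S := (hmem _).2 ⟨a, ha, 1, Subgroup.one_mem _, by simp⟩
    exact (hmem _).1 (S.mul_mem h1 h2)
  · have : ∃ z, z ∉ S := by
      by_contra hall
      push Not at hall
      exact hS ((Subgroup.eq_top_iff' S).2 hall)
    obtain ⟨z, hz⟩ := this
    exact ⟨z, fun a ha y hy he => hz ((hmem z).2 ⟨a, ha, y, hy, he⟩)⟩

/-- Let A and B be nontrivial subgroups of a finite group G such that for every x the product set of A and xBx⁻¹ is a proper subgroup of G. Then there is a proper normal subgroup of G containing A or containing B. -/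
theorem result {G : Type*} [Group G] [Finite G] (A B : Subgroup G) (hA : A ≠ ⊥) (hB : B ≠ ⊥) (h : ∀ x : G, ∃ S : Subgroup G, S ≠ ⊤ ∧ (S : Set G) = (A : Set G) * ((MulAut.conj x • B : Subgroup G) : Set G)) : ∃ N : Subgroup G, N.Normal ∧ N ≠ ⊤ ∧ (A ≤ N ∨ B ≤ N) := by
  classical
  by_contra hcon
  have hneg : ∀ N : Subgroup G, N.Normal → N ≠ ⊤ → ¬ A ≤ N ∧ ¬ B ≤ N := by
    intro N hN hNt
    exact ⟨fun hAN => hcon ⟨N, hN, hNt, Or.inl hAN⟩, fun hBN => hcon ⟨N, hN, hNt, Or.inr hBN⟩⟩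
  have hRA : R B A := R_of_hyp A B h
  obtain ⟨A₁, hAA₁, hmax⟩ :=
    Finite.exists_le_maximal (p := fun A' : Subgroup G => A ≤ A' ∧ R B A') (a := A) ⟨le_rfl, hRA⟩
  have hR₁ : R B A₁ := hmax.1.2
  have hA₁top : A₁ ≠ ⊤ := by
    intro htop
    obtain ⟨z, hz⟩ := (hR₁ 1).2
    exact hz z (by rw [htop]; trivial) 1 (Subgroup.one_mem _) (by simp)
  have hA₁n : ¬ A₁.Normal := fun hn => (hneg A₁ hn hA₁top).1 hAA₁
  have hNtop : Subgroup.normalizer (A₁ : Set G) ≠ ⊤ :=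
    fun ht => hA₁n (Subgroup.normalizer_eq_top_iff.1 ht)
  have hcore : (Subgroup.normalizer (A₁ : Set G)).normalCore ≠ ⊤ :=
    fun ht => hNtop (top_le_iff.1 (ht ▸ Subgroup.normalCore_le _))
  have hB' := (hneg _ (Subgroup.normalCore_normal _) hcore).2
  have hex : ∃ b ∈ B, ∃ g : G, g * b * g⁻¹ ∉ Subgroup.normalizer (A₁ : Set G) := by
    by_contra hall
    push Not at hall
    exact hB' (fun b hb g => hall b hb g)
  obtain ⟨b₁, hb₁, g, hc⟩ := hex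
  have hex2 : ∃ n ∈ A₁, (g * b₁ * g⁻¹) * n * (g * b₁ * g⁻¹)⁻¹ ∉ A₁ := by
    by_contra hall
    push Not at hall
    exact hc (Subgroup.mem_normalizer_fintype (S := (A₁ : Set G)) hall)
  obtain ⟨n, hn, hcn⟩ := hex2
  have hlt : A₁ < A₁ ⊔ conjS A₁ (g * b₁ * g⁻¹) := by
    refine lt_of_le_of_ne le_sup_left ?_
    intro he
    apply hcn
    rw [he]
    exact Subgroup.mem_sup_right ((mem_conjS _ _ _).2 ⟨n, hn, rfl⟩)
  -- the proper subgroup T = A₁ * B^g contains A₂ and B^g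
  have hTne : ∃ z, z ∉ prodSubgroup A₁ (conjS B g) (hR₁ g).1 := by
    obtain ⟨z, hz⟩ := (hR₁ g).2
    exact ⟨z, fun ⟨a, ha, y, hy, he⟩ => hz a ha y hy he⟩
  have hA₁T : A₁ ≤ prodSubgroup A₁ (conjS B g) (hR₁ g).1 :=
    fun a ha => ⟨a, ha, 1, Subgroup.one_mem _, by simp⟩
  have hBT : conjS B g ≤ prodSubgroup A₁ (conjS B g) (hR₁ g).1 :=
    fun y hy => ⟨1, Subgroup.one_mem _, y, hy, by simp⟩
  have hcT : g * b₁ * g⁻¹ ∈ prodSubgroup A₁ (conjS B g) (hR₁ g).1 :=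
    hBT ((mem_conjS _ _ _).2 ⟨b₁, hb₁, rfl⟩)
  have hA₂T : A₁ ⊔ conjS A₁ (g * b₁ * g⁻¹) ≤ prodSubgroup A₁ (conjS B g) (hR₁ g).1 := by
    refine sup_le hA₁T ?_
    intro y hy
    obtain ⟨m, hm, rfl⟩ := (mem_conjS _ _ _).1 hy
    exact Subgroup.mul_mem _ (Subgroup.mul_mem _ hcT (hA₁T hm)) (Subgroup.inv_mem _ hcT)
  have hR₂ : R B (A₁ ⊔ conjS A₁ (g * b₁ * g⁻¹)) := by
    intro x
    constructor
    · refine perm_sup (hR₁ x).1 ?_
      intro a ha y hy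
      obtain ⟨m, hm, rfl⟩ := (mem_conjS _ _ _).1 ha
      obtain ⟨b, hb, rfl⟩ := (mem_conjS _ _ _).1 hy
      obtain ⟨a', ha', y', hy', he⟩ := (hR₁ ((g * b₁ * g⁻¹)⁻¹ * x)).1 m hm
        (((g * b₁ * g⁻¹)⁻¹ * x) * b * ((g * b₁ * g⁻¹)⁻¹ * x)⁻¹) ((mem_conjS _ _ _).2 ⟨b, hb, rfl⟩)
      obtain ⟨b', hb', rfl⟩ := (mem_conjS _ _ _).1 hy'
      refine ⟨(g * b₁ * g⁻¹) * a' * (g * b₁ * g⁻¹)⁻¹, (mem_conjS _ _ _).2 ⟨a', ha', rfl⟩,
        x * b' * x⁻¹, (mem_conjS _ _ _).2 ⟨b', hb', rfl⟩, ?_⟩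
      generalize g * b₁ * g⁻¹ = c at he ⊢
      calc x * b * x⁻¹ * (c * m * c⁻¹) = c * (c⁻¹ * x * b * (c⁻¹ * x)⁻¹ * m) * c⁻¹ := by group
        _ = c * (a' * (c⁻¹ * x * b' * (c⁻¹ * x)⁻¹)) * c⁻¹ := by rw [he]
        _ = c * a' * c⁻¹ * (x * b' * x⁻¹) := by group
    · by_contra hall
      push Not at hall
      obtain ⟨a, ha, y, hy, he⟩ := hall (g * x⁻¹)
      obtain ⟨b, hb, rfl⟩ := (mem_conjS _ _ _).1 hy
      have hg : g = a * x * b := by
        calc g = g * x⁻¹ * x := by group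
          _ = a * (x * b * x⁻¹) * x := by rw [he]
          _ = a * x * b := by group
      have hx : x = a⁻¹ * g * b⁻¹ := by rw [hg]; group
      obtain ⟨z, hz⟩ := hTne
      apply hz
      obtain ⟨a', ha', y', hy', he'⟩ := hall (z * a)
      obtain ⟨b', hb', rfl⟩ := (mem_conjS _ _ _).1 hy'
      have hzz : z = a' * a⁻¹ * (g * (b⁻¹ * b' * b) * g⁻¹) := by
        calc z = z * a * a⁻¹ := by group
          _ = a' * (x * b' * x⁻¹) * a⁻¹ := by rw [he']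
          _ = a' * ((a⁻¹ * g * b⁻¹) * b' * (a⁻¹ * g * b⁻¹)⁻¹) * a⁻¹ := by rw [← hx]
          _ = a' * a⁻¹ * (g * (b⁻¹ * b' * b) * g⁻¹) := by group
      rw [hzz]
      refine Subgroup.mul_mem _ (hA₂T (Subgroup.mul_mem _ ha' (Subgroup.inv_mem _ ha))) (hBT ?_)
      exact (mem_conjS _ _ _).2 ⟨_, B.mul_mem (B.mul_mem (B.inv_mem hb) hb') hb, rfl⟩
  exact absurd (hmax.2 ⟨hAA₁.trans hlt.le, hR₂⟩ hlt.le) (not_le_of_gt hlt)

end Cfsg.Agent.S0566
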