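import Mathlib
import Cfsg.Statements.S0637
import Cfsg.Agent.Lib.Helper73.MaxClass
import Cfsg.Agent.Lib.Helper4.TwoRank
import Cfsg.Agent.S4209
import Cfsg.Agent.S4210
import Cfsg.Agent.S4225
import Cfsg.Agent.S0636

set_option autoImplicit false
open Cfsg

namespace Cfsg.Agent.S0637

universe u

/-- `|Ω₁|` is invariant under isomorphism. -/
theorem card_omega_congr {H H' : Type*} [Group H] [Group H'] (p : ℕ) (e : H ≃* H') :
    Nat.card (omegaOne p (⊤ : Subgroup H)) = Nat.card (omegaOne p (⊤ : Subgroup H')) := by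
  have h1 : (omegaOne p (⊤ : Subgroup H)).map e.toMonoidHom = omegaOne p (⊤ : Subgroup H') := by
    unfold omegaOne
    rw [MonoidHom.map_closure]
    congr 1
    ext y
    constructor
    · rintro ⟨x, ⟨-, hx⟩, rfl⟩
      refine ⟨Subgroup.mem_top _, ?_⟩
      show (e x) ^ p = 1
      rw [← map_pow, hx, map_one]
    · rintro ⟨-, hy⟩
      refine ⟨e.symm y, ⟨Subgroup.mem_top _, ?_⟩, ?_⟩
      · rw [← map_pow, hy, map_one]
      · show e (e.symm y) = y
        exact e.apply_symm_apply y
  rw [← h1]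
  exact Nat.card_congr
    ((omegaOne p (⊤ : Subgroup H)).equivMapOfInjective e.toMonoidHom e.injective).toEquiv

/-- `Ω₁` of a subgroup, computed inside the subgroup or in the ambient group. -/
theorem card_omega_subgroup {R : Type*} [Group R] (p : ℕ) (M : Subgroup R) :
    Nat.card (omegaOne p (⊤ : Subgroup ↥M)) = Nat.card (omegaOne p M) := by
  have h1 : (omegaOne p (⊤ : Subgroup ↥M)).map M.subtype = omegaOne p M := by
    unfold omegaOne
    rw [MonoidHom.map_closure]
    congr 1
    ext y
    constructor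
    · rintro ⟨x, ⟨-, hx⟩, rfl⟩
      refine ⟨x.2, ?_⟩
      have := congrArg Subtype.val hx
      simpa using this
    · rintro ⟨hy, hyp⟩
      exact ⟨⟨y, hy⟩, ⟨Subgroup.mem_top _, Subtype.ext (by simpa using hyp)⟩, rfl⟩
  rw [← h1]
  exact Nat.card_congr
    ((omegaOne p (⊤ : Subgroup ↥M)).equivMapOfInjective M.subtype M.subtype_injective).toEquiv

theorem card_omega_le {R : Type*} [Group R] [Finite R] (p : ℕ) (M : Subgroup R) :
    Nat.card (omegaOne p (⊤ : Subgroup ↥M)) ≤ Nat.card (omegaOne p (⊤ : Subgroup R)) := by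
  rw [card_omega_subgroup]
  apply Subgroup.card_le_of_le
  exact Subgroup.closure_mono (fun x hx => ⟨Subgroup.mem_top x, hx.2⟩)

/-- First isomorphism theorem, in the form needed. -/
theorem card_omega_quot {A B : Type*} [Group A] [Group B] (p : ℕ) (f : A →* B)
    (hf : Function.Surjective f) (K : Subgroup A) [K.Normal] (hK : f.ker = K) :
    Nat.card (omegaOne p (⊤ : Subgroup (A ⧸ K))) = Nat.card (omegaOne p (⊤ : Subgroup B)) := by
  subst hK
  exact card_omega_congr p (QuotientGroup.quotientKerEquivOfSurjective f hf)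

theorem card_of_surj {A B : Type*} [Group A] [Group B] (f : A →* B)
    (hf : Function.Surjective f) (K : Subgroup A) [K.Normal] (hK : f.ker = K) :
    Nat.card A = Nat.card B * Nat.card K := by
  subst hK
  rw [Subgroup.card_eq_card_quotient_mul_card_subgroup f.ker,
    Nat.card_congr (QuotientGroup.quotientKerEquivOfSurjective f hf).toEquiv]

/-- A group of order `p ^ n`, `n ≤ 4 < p`, is regular. -/
theorem regular_of_card {S : Type*} [Group S] [Finite S] {p : ℕ} [Fact p.Prime] (hp : 3 < p)
    {n : ℕ} (hn : n ≤ 4) (hS : Nat.card S = p ^ n) : IsRegularPGroup p S := by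
  have hP : IsPGroup p S := IsPGroup.of_card hS
  haveI := hP.isNilpotent
  apply Cfsg.Agent.S4209.result hP
  have h1 := Cfsg.Agent.Lib.Helper73.pow_le_card_lowerCentralSeries hP
    (Group.nilpotencyClass S) 0 (by simp)
  rw [Subgroup.lowerCentralSeries_zero, Subgroup.card_top, hS] at h1
  have hc : Group.nilpotencyClass S ≤ n :=
    (Nat.pow_le_pow_iff_right (Fact.out : p.Prime).one_lt).mp h1
  rw [Subgroup.lowerCentralSeries_eq_bot_iff_nilpotencyClass_le]
  have h4 : p ≠ 4 := by
    rintro rfl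
    exact absurd (Fact.out : (4 : ℕ).Prime) (by norm_num)
  omega

/-- Counting: in a regular `p`-group whose `p`-th powers lie in `T`, `|S| ≤ |T| |Ω₁(S)|`. -/
theorem card_le_of_pow_mem {S : Type*} [Group S] [Finite S] {p : ℕ} [Fact p.Prime]
    (hS : IsRegularPGroup p S) (T : Subgroup S) (hT : ∀ x : S, x ^ p ∈ T) :
    Nat.card S ≤ Nat.card T * Nat.card (omegaOne p (⊤ : Subgroup S)) := by
  obtain ⟨H, -, hH⟩ := Cfsg.Agent.S4225.result hS 1
  have hmem : ∀ x : S, x ∈ H ↔ x ^ p = 1 := by
    intro x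
    have : x ∈ (H : Set S) ↔ x ^ p = 1 := by rw [hH]; simp
    exact this
  have hHle : H ≤ omegaOne p (⊤ : Subgroup S) := by
    intro x hx
    exact Subgroup.subset_closure ⟨Subgroup.mem_top x, (hmem x).mp hx⟩
  let g : S ⧸ H → T := fun q => ⟨q.out ^ p, hT q.out⟩
  have hg : Function.Injective g := by
    intro q q' hqq
    have h1 : q.out ^ p = q'.out ^ p := congrArg Subtype.val hqq
    have h2 : (q.out⁻¹) ^ p ^ 1 = (q'.out⁻¹) ^ p ^ 1 := by
      rw [pow_one, inv_pow, inv_pow, h1]
    have h3 := (Cfsg.Agent.S4210.result hS q.out⁻¹ q'.out⁻¹ 1).mp h2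
    rw [pow_one, inv_inv] at h3
    have h4 : (q.out : S ⧸ H) = (q'.out : S ⧸ H) := QuotientGroup.eq.mpr ((hmem _).mpr h3)
    rw [QuotientGroup.out_eq', QuotientGroup.out_eq'] at h4
    exact h4
  have h5 : Nat.card (S ⧸ H) ≤ Nat.card T := Nat.card_le_card_of_injective g hg
  rw [Subgroup.card_eq_card_quotient_mul_card_subgroup H]
  exact Nat.mul_le_mul h5 (Subgroup.card_le_of_le hHle)

/-- The case of a normal subgroup of order `p`. -/
theorem core {p : ℕ} [Fact p.Prime] (hp : 3 < p) {R : Type u} [Group R] [Finite R]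
    (hR : IsPGroup p R) (hO : Nat.card (omegaOne p (⊤ : Subgroup R)) ≤ p ^ 2)
    (IH : ∀ (R' : Type u) [Group R'] [Finite R'], Nat.card R' < Nat.card R → IsPGroup p R' →
      Nat.card (omegaOne p (⊤ : Subgroup R')) ≤ p ^ 2 → ∀ (T' : Subgroup R') [T'.Normal],
      Nat.card (omegaOne p (⊤ : Subgroup (R' ⧸ T'))) ≤ p ^ 2)
    (T : Subgroup R) [T.Normal] (hTc : Nat.card T = p) :
    Nat.card (omegaOne p (⊤ : Subgroup (R ⧸ T))) ≤ p ^ 2 := by
  classical
  have hp' : p.Prime := Fact.out
  by_contra hcon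
  push Not at hcon
  have hπs : Function.Surjective (QuotientGroup.mk' T) := QuotientGroup.mk'_surjective T
  -- kernel of the restricted projection
  have hker : ∀ Mb : Subgroup (R ⧸ T), ((QuotientGroup.mk' T).subgroupComap Mb).ker
      = T.subgroupOf (Mb.comap (QuotientGroup.mk' T)) := by
    intro Mb
    ext x
    rw [MonoidHom.mem_ker, Subgroup.mem_subgroupOf]
    constructor
    · intro h
      have h1 : ((QuotientGroup.mk' T) (x : R) : R ⧸ T) = 1 := congrArg Subtype.val h
      exact (QuotientGroup.eq_one_iff _).mp h1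
    · intro h
      apply Subtype.ext
      exact (QuotientGroup.eq_one_iff (x : R)).mpr h
  -- (i) proper subgroups of the quotient satisfy the bound
  have hprop : ∀ Mb : Subgroup (R ⧸ T), Mb ≠ ⊤ → Nat.card (omegaOne p Mb) ≤ p ^ 2 := by
    intro Mb hM
    have hne : Mb.comap (QuotientGroup.mk' T) ≠ ⊤ := by
      intro h
      apply hM
      rw [eq_top_iff]
      intro y _
      obtain ⟨x, rfl⟩ := hπs y
      have : x ∈ Mb.comap (QuotientGroup.mk' T) := h ▸ Subgroup.mem_top x
      exact this
    have hMlt : Nat.card ↥(Mb.comap (QuotientGroup.mk' T)) < Nat.card R := by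
      by_contra hle
      push Not at hle
      exact hne (Subgroup.eq_top_of_le_card _ hle)
    have h1 := IH ↥(Mb.comap (QuotientGroup.mk' T)) hMlt (hR.to_subgroup _)
      ((card_omega_le p _).trans hO) (T.subgroupOf (Mb.comap (QuotientGroup.mk' T)))
    rw [card_omega_quot p ((QuotientGroup.mk' T).subgroupComap Mb)
      (MonoidHom.subgroupComap_surjective_of_surjective _ Mb hπs) _ (hker Mb),
      card_omega_subgroup] at h1
    exact h1
  -- (ii) the quotient is generated by its elements of order dividing `p`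
  have htop : omegaOne p (⊤ : Subgroup (R ⧸ T)) = ⊤ := by
    by_contra hne
    have h1 := hprop _ hne
    have h2 : omegaOne p (omegaOne p (⊤ : Subgroup (R ⧸ T)))
        = omegaOne p (⊤ : Subgroup (R ⧸ T)) := by
      apply le_antisymm
      · exact Subgroup.closure_mono (fun x hx => ⟨Subgroup.mem_top x, hx.2⟩)
      · apply Subgroup.closure_mono
        intro x hx
        exact ⟨Subgroup.subset_closure hx, hx.2⟩
    rw [h2] at h1
    omega
  have hcardQ : p ^ 2 < Nat.card (R ⧸ T) := by
    have := Subgroup.card_le_card_group (omegaOne p (⊤ : Subgroup (R ⧸ T)))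
    omega
  -- (iii) the quotient is not cyclic
  have hnc : ¬ IsCyclic (⊤ : Subgroup (R ⧸ T)) := by
    intro hc
    haveI : IsCyclic (R ⧸ T) :=
      isCyclic_of_surjective (Subgroup.topEquiv : (⊤ : Subgroup (R ⧸ T)) ≃* (R ⧸ T))
        Subgroup.topEquiv.surjective
    obtain ⟨g, hg⟩ := IsCyclic.exists_generator (α := R ⧸ T)
    have hcomm : ∀ a b : R ⧸ T, a * b = b * a := by
      intro a b
      obtain ⟨i, rfl⟩ := Subgroup.mem_zpowers_iff.mp (hg a)
      obtain ⟨j, rfl⟩ := Subgroup.mem_zpowers_iff.mp (hg b)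
      exact ((Commute.refl g).zpow_zpow i j).eq
    let H : Subgroup (R ⧸ T) :=
      { carrier := {y | y ^ p = 1}
        one_mem' := one_pow p
        mul_mem' := by
          intro a b ha hb
          show (a * b) ^ p = 1
          have ha' : a ^ p = 1 := ha
          have hb' : b ^ p = 1 := hb
          rw [(show Commute a b from hcomm a b).mul_pow, ha', hb', one_mul]
        inv_mem' := by
          intro a ha
          show a⁻¹ ^ p = 1
          have ha' : a ^ p = 1 := ha
          rw [inv_pow, ha', inv_one] }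
    have hle : omegaOne p (⊤ : Subgroup (R ⧸ T)) ≤ H :=
      (Subgroup.closure_le _).mpr (fun x hx => hx.2)
    have hgp : g ^ p = 1 := hle (by rw [htop]; exact Subgroup.mem_top g)
    have h1 : orderOf g ∣ p := orderOf_dvd_of_pow_eq_one hgp
    have h2 : orderOf g = Nat.card (R ⧸ T) := orderOf_eq_card_of_forall_mem_zpowers hg
    have h3 : Nat.card (R ⧸ T) ≤ p := by rw [← h2]; exact Nat.le_of_dvd hp'.pos h1
    nlinarith [hp'.two_le]
  -- (iv) a normal elementary abelian subgroup of order `p ^ 2` and an element outside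
  obtain ⟨E, -, hEn, hEel, hEc⟩ := Cfsg.Agent.S0636.result (p := p) (by omega)
    (hR.to_quotient T) (⊤ : Subgroup (R ⧸ T)) hnc
  have hex : ∃ v : R ⧸ T, v ^ p = 1 ∧ v ∉ E := by
    by_contra hno
    push Not at hno
    have h1 : omegaOne p (⊤ : Subgroup (R ⧸ T)) ≤ E :=
      (Subgroup.closure_le _).mpr (fun x hx => hno x hx.2)
    have h2 := Subgroup.card_le_of_le h1
    omega
  obtain ⟨v, hvp, hvE⟩ := hex
  have hv1 : v ≠ 1 := fun h => hvE (h ▸ E.one_mem)
  have hvo : orderOf v = p := orderOf_eq_prime hvp hv1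
  have hZc : Nat.card (Subgroup.zpowers v) = p := by rw [Nat.card_zpowers, hvo]
  -- (v) `S̄ = E⟨v⟩` has order `p ^ 3`
  have hScard : Nat.card ↥(E ⊔ Subgroup.zpowers v) = p ^ 3 := by
    have hinf : E.subgroupOf (Subgroup.zpowers v) = ⊥ := by
      haveI : Fact (Nat.card (Subgroup.zpowers v)).Prime := ⟨hZc ▸ hp'⟩
      rcases Subgroup.eq_bot_or_eq_top_of_prime_card (E.subgroupOf (Subgroup.zpowers v)) with h | h
      · exact h
      · exfalso
        rw [Subgroup.subgroupOf_eq_top] at h
        exact hvE (h (Subgroup.mem_zpowers v))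
    have hrel : E.relIndex (Subgroup.zpowers v) = p := by
      rw [Subgroup.relIndex, hinf, Subgroup.index_bot, hZc]
    have hrel2 : E.relIndex (E ⊔ Subgroup.zpowers v) = p := by
      rw [Subgroup.relIndex_sup_left]; exact hrel
    have h3 := Subgroup.relIndex_mul_relIndex _ _ _ (bot_le : (⊥ : Subgroup (R ⧸ T)) ≤ E)
      (le_sup_left : E ≤ E ⊔ Subgroup.zpowers v)
    rw [Subgroup.relIndex_bot_left, Subgroup.relIndex_bot_left, hrel2, hEc] at h3
    rw [← h3]; ring
  -- every element of `S̄` has `p`-th power `1`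
  have hSreg : IsRegularPGroup p ↥(E ⊔ Subgroup.zpowers v) :=
    regular_of_card hp (n := 3) (by norm_num) hScard
  have hexp : ∀ y ∈ E ⊔ Subgroup.zpowers v, y ^ p = 1 := by
    obtain ⟨H, -, hH⟩ := Cfsg.Agent.S4225.result hSreg 1
    have hmem : ∀ x : ↥(E ⊔ Subgroup.zpowers v), x ∈ H ↔ x ^ p = 1 := by
      intro x
      have : x ∈ (H : Set ↥(E ⊔ Subgroup.zpowers v)) ↔ x ^ p = 1 := by rw [hH]; simp
      exact this
    have hin : ∀ x : R ⧸ T, x ∈ E ⊔ Subgroup.zpowers v → x ^ p = 1 →
        x ∈ H.map (E ⊔ Subgroup.zpowers v).subtype := by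
      intro x hx hxp
      exact ⟨⟨x, hx⟩, (hmem _).mpr (Subtype.ext (by simpa using hxp)), rfl⟩
    have hle : E ⊔ Subgroup.zpowers v ≤ H.map (E ⊔ Subgroup.zpowers v).subtype := by
      apply sup_le
      · intro x hx
        exact hin x (le_sup_left (a := E) hx) (hEel.2 x hx)
      · rw [Subgroup.zpowers_le]
        exact hin v (le_sup_right (a := E) (Subgroup.mem_zpowers v)) hvp
    intro y hy
    obtain ⟨h, hh, rfl⟩ := hle hy
    have := (hmem h).mp hh
    have h2 := congrArg Subtype.val this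
    simpa using h2
  -- (vi) the preimage `S` has order `p ^ 4`
  have hTS : T ≤ (E ⊔ Subgroup.zpowers v).comap (QuotientGroup.mk' T) := by
    intro x hx
    rw [Subgroup.mem_comap]
    have : (QuotientGroup.mk' T) x = 1 := (QuotientGroup.eq_one_iff x).mpr hx
    rw [this]
    exact Subgroup.one_mem _
  have hTSc : Nat.card (T.subgroupOf ((E ⊔ Subgroup.zpowers v).comap (QuotientGroup.mk' T))) = p := by
    rw [Nat.card_congr (Subgroup.subgroupOfEquivOfLe hTS).toEquiv, hTc]
  have hS4 : Nat.card ↥((E ⊔ Subgroup.zpowers v).comap (QuotientGroup.mk' T)) = p ^ 4 := by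
    rw [card_of_surj ((QuotientGroup.mk' T).subgroupComap (E ⊔ Subgroup.zpowers v))
      (MonoidHom.subgroupComap_surjective_of_surjective _ _ hπs) _ (hker _), hTSc, hScard]
    ring
  have hSreg4 : IsRegularPGroup p ↥((E ⊔ Subgroup.zpowers v).comap (QuotientGroup.mk' T)) :=
    regular_of_card hp (n := 4) (by norm_num) hS4
  -- (ix) counting
  have hpow : ∀ x : ↥((E ⊔ Subgroup.zpowers v).comap (QuotientGroup.mk' T)),
      x ^ p ∈ T.subgroupOf ((E ⊔ Subgroup.zpowers v).comap (QuotientGroup.mk' T)) := by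
    intro x
    rw [Subgroup.mem_subgroupOf]
    have h1 : ((QuotientGroup.mk' T) (x : R)) ^ p = 1 := hexp _ x.2
    rw [← map_pow] at h1
    have h2 := (QuotientGroup.eq_one_iff _).mp h1
    simpa using h2
  have h6 := card_le_of_pow_mem hSreg4 _ hpow
  rw [hTSc, hS4] at h6
  have h7 := (card_omega_le p ((E ⊔ Subgroup.zpowers v).comap (QuotientGroup.mk' T))).trans hO
  have h8 : p ^ 4 ≤ p * p ^ 2 := h6.trans (Nat.mul_le_mul_left p h7)
  have h9 : p * p ^ 2 < p ^ 4 := by
    have : p ^ 4 = p * (p * p ^ 2) := by ring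
    rw [this]
    have hpos : 0 < p * p ^ 2 := by positivity
    nlinarith [hp'.two_le]
  omega

theorem main {p : ℕ} [Fact p.Prime] (hp : 3 < p) : ∀ n : ℕ, ∀ (R : Type u) [Group R] [Finite R],
    Nat.card R = n → IsPGroup p R → Nat.card (omegaOne p (⊤ : Subgroup R)) ≤ p ^ 2 →
    ∀ (T : Subgroup R) [T.Normal], Nat.card (omegaOne p (⊤ : Subgroup (R ⧸ T))) ≤ p ^ 2 := by
  intro n
  induction n using Nat.strong_induction_on with
  | _ n ih =>
    intro R _ _ hn hR hO T _
    have hp' : p.Prime := Fact.out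
    have IH : ∀ (R' : Type u) [Group R'] [Finite R'], Nat.card R' < Nat.card R → IsPGroup p R' →
        Nat.card (omegaOne p (⊤ : Subgroup R')) ≤ p ^ 2 → ∀ (T' : Subgroup R') [T'.Normal],
        Nat.card (omegaOne p (⊤ : Subgroup (R' ⧸ T'))) ≤ p ^ 2 := by
      intro R' _ _ hlt hR' hO' T' _
      exact ih (Nat.card R') (hn ▸ hlt) R' rfl hR' hO' T'
    by_cases hT : T = ⊥
    · subst hT
      rw [card_omega_congr p (QuotientGroup.quotientBot (G := R))]
      exact hO
    · obtain ⟨z, hzT, hz1, hzZ⟩ := Cfsg.Agent.Lib.Helper4.exists_central_of_normal hR T hT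
      obtain ⟨k, hk⟩ := (IsPGroup.iff_orderOf.mp hR) z
      have hk0 : k ≠ 0 := by
        rintro rfl
        rw [pow_zero, orderOf_eq_one_iff] at hk
        exact hz1 hk
      have hwo : orderOf (z ^ (orderOf z / p)) = p :=
        orderOf_pow_orderOf_div (orderOf_pos z).ne' (hk ▸ dvd_pow_self p hk0)
      have hwT : z ^ (orderOf z / p) ∈ T := T.pow_mem hzT _
      have hwZ : z ^ (orderOf z / p) ∈ Subgroup.center R := Subgroup.pow_mem _ hzZ _
      haveI hT1n : (Subgroup.zpowers (z ^ (orderOf z / p))).Normal :=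
        Cfsg.Agent.Lib.Helper4.zpowers_normal_of_central hwZ
      have hT1c : Nat.card (Subgroup.zpowers (z ^ (orderOf z / p))) = p := by
        rw [Nat.card_zpowers, hwo]
      have hT1le : Subgroup.zpowers (z ^ (orderOf z / p)) ≤ T := (Subgroup.zpowers_le).mpr hwT
      have hcore := core hp hR hO IH (Subgroup.zpowers (z ^ (orderOf z / p))) hT1c
      have hlt : Nat.card (R ⧸ Subgroup.zpowers (z ^ (orderOf z / p))) < Nat.card R := by
        have h1 := Subgroup.card_eq_card_quotient_mul_card_subgroup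
          (Subgroup.zpowers (z ^ (orderOf z / p)))
        rw [hT1c] at h1
        have hpos : 0 < Nat.card (R ⧸ Subgroup.zpowers (z ^ (orderOf z / p))) := Nat.card_pos
        nlinarith [hp'.two_le]
      have h2 := IH (R ⧸ Subgroup.zpowers (z ^ (orderOf z / p))) hlt (hR.to_quotient _) hcore
        (T.map (QuotientGroup.mk' (Subgroup.zpowers (z ^ (orderOf z / p)))))
      rw [card_omega_congr p (QuotientGroup.quotientQuotientEquivQuotient
        (Subgroup.zpowers (z ^ (orderOf z / p))) T hT1le)] at h2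
      exact h2

/-- For p greater than 3, the bound p² on the order of the subgroup generated by the elements of order dividing p passes from a p-group to all its quotients. -/
theorem result {R : Type*} [Group R] [Finite R] {p : ℕ} [Fact p.Prime] (hp : 3 < p) (hR : IsPGroup p R) (hO : Nat.card ↥(Cfsg.omegaOne p (⊤ : Subgroup R)) ≤ p ^ 2) (T : Subgroup R) [T.Normal] : Nat.card ↥(Cfsg.omegaOne p (⊤ : Subgroup (R ⧸ T))) ≤ p ^ 2 := by
  exact main hp _ R rfl hR hO T

end Cfsg.Agent.S0637
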