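import Cfsg.Statements.S0638
import Mathlib
import Cfsg.Agent.S0636
import Cfsg.Agent.S0130
import Cfsg.Agent.Lib.Helper38.PChain
import Cfsg.Agent.Lib.Helper91.Coprime2

set_option autoImplicit false
open Cfsg

namespace Cfsg.Agent.S0638

open Subgroup
open scoped commutatorElement

/-- A finite cyclic group all of whose elements have order dividing `p` has order at most `p`. -/
theorem card_le_of_cyclic_of_exp {C : Type*} [Group C] [Finite C] [IsCyclic C] (p : ℕ)
    (hp : 0 < p) (h : ∀ c : C, c ^ p = 1) : Nat.card C ≤ p := by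
  obtain ⟨g, hg⟩ := IsCyclic.exists_generator (α := C)
  have h1 : orderOf g = Nat.card C := orderOf_eq_card_of_forall_mem_zpowers hg
  rw [← h1]
  exact Nat.le_of_dvd hp (orderOf_dvd_of_pow_eq_one (h g))

/-- For odd p, in a non-cyclic metacyclic p-group the elements of order dividing p generate an elementary abelian subgroup of order p². -/
theorem result {R : Type*} [Group R] [Finite R] {p : ℕ} [Fact p.Prime] (hp : p ≠ 2) (hR : IsPGroup p R) (hm : Cfsg.IsMetacyclic R) (hnc : ¬ IsCyclic R) : Cfsg.IsElementaryAbelian p (Cfsg.omegaOne p (⊤ : Subgroup R)) ∧ Nat.card ↥(Cfsg.omegaOne p (⊤ : Subgroup R)) = p ^ 2 := by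
  have hpp : p.Prime := Fact.out
  have hnil : Group.IsNilpotent R := hR.isNilpotent
  have hnc' : ¬ IsCyclic (⊤ : Subgroup R) := by
    intro h
    exact hnc (isCyclic_of_surjective (Subgroup.topEquiv (G := R)) Subgroup.topEquiv.surjective)
  obtain ⟨E, -, hEn, ⟨hEc, hEe⟩, hEcard⟩ := Cfsg.Agent.S0636.result hp hR ⊤ hnc'
  have hEcomm : ∀ a ∈ E, ∀ b ∈ E, a * b = b * a := fun a ha b hb =>
    congrArg Subtype.val (mul_comm' (⟨a, ha⟩ : E) ⟨b, hb⟩)
  -- `[E, R]` is central
  have hcomm_central : ⁅E, (⊤ : Subgroup R)⁆ ≤ Subgroup.center R := by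
    obtain ⟨D, hD⟩ : ∃ D : Subgroup R, D = ⁅E, (⊤ : Subgroup R)⁆ := ⟨_, rfl⟩
    have hDn : D.Normal := by rw [hD]; infer_instance
    have hDE : D ≤ E := by rw [hD]; exact Subgroup.commutator_le_left E ⊤
    have hDne : D ≠ E := by
      intro h
      have h1 : E ≤ ⁅E, (⊤ : Subgroup R)⁆ ⊔ (⊥ : Subgroup R) := by
        rw [sup_bot_eq, ← hD, h]
      have h2 := Cfsg.Agent.S0130.le_of_le_commutator_sup E ⊥ h1
      have h3 : E = ⊥ := le_bot_iff.mp h2
      rw [h3, Subgroup.card_bot] at hEcard
      have := hpp.one_lt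
      nlinarith [hEcard]
    obtain ⟨m, hm'⟩ := (hR.to_subgroup D).exists_card_eq
    have hm1 : m ≤ 1 := by
      by_contra hcon
      have h1 : Nat.card E ≤ Nat.card D := by
        rw [hEcard, hm']
        exact Nat.pow_le_pow_right hpp.pos (by omega)
      exact hDne (Subgroup.eq_of_le_of_card_ge hDE h1)
    have h1 := Cfsg.Agent.Lib.Helper38.index_centralizer_le hR D m hm'
    have h2 : m * (m - 1) / 2 = 0 := by
      interval_cases m <;> simp
    rw [h2, pow_zero] at h1
    have h3 : (Subgroup.centralizer (D : Set R)).index = 1 :=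
      le_antisymm h1 (Nat.pos_of_ne_zero Subgroup.index_ne_zero_of_finite)
    have h4 := Subgroup.index_eq_one.mp h3
    rw [← hD]
    intro d hd
    rw [Subgroup.mem_center_iff]
    intro g
    have h5 : g ∈ Subgroup.centralizer (D : Set R) := h4 ▸ Subgroup.mem_top g
    exact (Subgroup.mem_centralizer_iff.mp h5 d hd).symm
  -- products `e * y` with `e ∈ E`, `y ^ p = 1` have order dividing `p`
  have hprod : ∀ e ∈ E, ∀ y : R, y ^ p = 1 → (e * y) ^ p = 1 := by
    intro e he y hy
    have hd1 : ⁅e, y⁆ ∈ ⁅E, (⊤ : Subgroup R)⁆ :=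
      Subgroup.commutator_mem_commutator he (Subgroup.mem_top y)
    have hd2 : ⁅y, e⁆ ∈ ⁅E, (⊤ : Subgroup R)⁆ := by
      rw [← commutatorElement_inv]
      exact Subgroup.inv_mem _ hd1
    have hdc := Subgroup.mem_center_iff.mp (hcomm_central hd2)
    have hdE : ⁅y, e⁆ ∈ E := Subgroup.commutator_le_left E ⊤ hd2
    have hrel : y * e = ⁅y, e⁆ * e * y := by
      rw [commutatorElement_def]
      group
    have h1 := Cfsg.Agent.S0130.mul_pow_of_central e y ⁅y, e⁆ (hdc e).symm (hdc y).symm hrel p
    have hdvd : p ∣ p.choose 2 := by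
      apply hpp.dvd_choose_self (by norm_num)
      have := hpp.two_le
      omega
    obtain ⟨c, hc⟩ := hdvd
    rw [h1, hEe e he, hy, hc, pow_mul, hEe _ hdE, one_pow, one_mul, one_mul]
  -- every element of order dividing `p` lies in `E`
  have hall : ∀ x : R, x ^ p = 1 → x ∈ E := by
    intro x hx
    by_contra hxE
    have hx1 : x ≠ 1 := fun h => hxE (h ▸ E.one_mem)
    have hxo : orderOf x = p := orderOf_eq_prime hx hx1
    obtain ⟨H, hH⟩ : ∃ H : Subgroup R, H = E ⊔ zpowers x := ⟨_, rfl⟩
    have hHexp : ∀ t ∈ H, t ^ p = 1 := by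
      intro t ht
      rw [hH] at ht
      obtain ⟨e, he, z, hz, rfl⟩ := Subgroup.mem_sup_of_normal_left.mp ht
      obtain ⟨i, rfl⟩ := hz
      apply hprod e he
      rw [← zpow_natCast, ← zpow_mul, mul_comm, zpow_mul, zpow_natCast, hx, one_zpow]
    have hHcard : Nat.card H = p ^ 3 := by
      have hinf : Nat.card (E ⊓ zpowers x : Subgroup R) = 1 := by
        have h1 : Nat.card (E ⊓ zpowers x : Subgroup R) ∣ p := by
          have := Subgroup.card_dvd_of_le (inf_le_right : E ⊓ zpowers x ≤ zpowers x)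
          rwa [Nat.card_zpowers, hxo] at this
        rcases (Nat.dvd_prime hpp).mp h1 with h | h
        · exact h
        · exfalso
          apply hxE
          have h2 : (E ⊓ zpowers x : Subgroup R) = zpowers x :=
            Subgroup.eq_of_le_of_card_ge inf_le_right (by rw [h, Nat.card_zpowers, hxo])
          have h3 : x ∈ (E ⊓ zpowers x : Subgroup R) := by
            rw [h2]
            exact mem_zpowers x
          exact h3.1
      have h1 := Cfsg.Agent.Lib.Helper91.card_sup_mul_card_inf_of_le_normalizer E (zpowers x)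
        (by rw [Subgroup.normalizer_eq_top]; exact le_top)
      rw [hinf, mul_one, hEcard, Nat.card_zpowers, hxo] at h1
      rw [hH, h1]
      ring
    obtain ⟨N, hNn, hNc, hQc⟩ := hm
    -- `H ∩ N` has order at most `p`
    have h1 : Nat.card (N ⊓ H : Subgroup R) ≤ p := by
      have e := Subgroup.subgroupOfEquivOfLe (inf_le_left : N ⊓ H ≤ N)
      have hcyc : IsCyclic ((N ⊓ H).subgroupOf N) := inferInstance
      have hcyc' : IsCyclic (N ⊓ H : Subgroup R) := isCyclic_of_surjective e e.surjective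
      apply card_le_of_cyclic_of_exp p hpp.pos
      intro c
      apply Subtype.ext
      rw [Subgroup.coe_pow, Subgroup.coe_one]
      exact hHexp c c.2.2
    -- the image of `H` in `R / N` has order at most `p`
    have h2 : Nat.card (H.map (QuotientGroup.mk' N)) ≤ p := by
      apply card_le_of_cyclic_of_exp p hpp.pos
      rintro ⟨_, t, ht, rfl⟩
      apply Subtype.ext
      rw [Subgroup.coe_pow, Subgroup.coe_one, ← map_pow, hHexp t ht, map_one]
    have h3 : N.relIndex H = Nat.card (H.map (QuotientGroup.mk' N)) := by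
      have h4 := Subgroup.relIndex_comap (⊥ : Subgroup (R ⧸ N)) (QuotientGroup.mk' N) H
      rw [MonoidHom.comap_bot, QuotientGroup.ker_mk', Subgroup.relIndex_bot_left] at h4
      exact h4
    have h5 := Cfsg.Agent.Lib.Helper1.card_eq_card_mul_relIndex (inf_le_right : N ⊓ H ≤ H)
    rw [Subgroup.inf_relIndex_right, h3, hHcard] at h5
    have h6 : p ^ 3 ≤ p * p := by
      rw [h5]
      exact Nat.mul_le_mul h1 h2
    have h7 : p * p < p ^ 3 := by
      have := hpp.one_lt
      have h8 : p ^ 3 = p * p * p := by ring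
      rw [h8]
      nlinarith
    omega
  have hEq : Cfsg.omegaOne p (⊤ : Subgroup R) = E := by
    apply le_antisymm
    · unfold Cfsg.omegaOne
      rw [Subgroup.closure_le]
      rintro x ⟨-, hx⟩
      exact hall x hx
    · intro e he
      unfold Cfsg.omegaOne
      exact Subgroup.subset_closure ⟨Subgroup.mem_top e, hEe e he⟩
  rw [hEq]
  exact ⟨⟨hEc, hEe⟩, hEcard⟩

end Cfsg.Agent.S0638
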