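import Mathlib
import Cfsg.Statements.S0640
import Cfsg.Agent.S1949
import Cfsg.Agent.Lib.Helper38.PChain
import Cfsg.Agent.Lib.Helper69.SmallClasses

set_option autoImplicit false
open Cfsg

namespace Cfsg.Agent.S0640

/-- Fixed point counting for an automorphism of prime order `q` on an invariant subgroup. -/
theorem fix_count {P : Type*} [Group P] [Finite P] (α : MulAut P) (q : ℕ) [Fact q.Prime]
    (hα : α ^ q = 1) (K : Subgroup P) (hK : ∀ k ∈ K, α k ∈ K) :
    ∃ F : Subgroup P, F ≤ K ∧ (∀ x, x ∈ F ↔ x ∈ K ∧ α x = x) ∧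
      Nat.card K ≡ Nat.card F [MOD q] := by
  classical
  let Fα : Subgroup P :=
    { carrier := {x | α x = x}
      mul_mem' := fun {x y} hx hy => by
        show α (x * y) = x * y
        rw [map_mul, show α x = x from hx, show α y = y from hy]
      one_mem' := map_one α
      inv_mem' := fun {x} hx => by
        show α x⁻¹ = x⁻¹
        rw [map_inv, show α x = x from hx] }
  refine ⟨K ⊓ Fα, inf_le_left, fun x => Iff.rfl, ?_⟩
  let f : Function.End ↥K := fun k => ⟨α k, hK k k.2⟩
  have hpow : ∀ (n : ℕ) (k : ↥K), (((f ^ n) k : ↥K) : P) = (α ^ n) k := by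
    intro n
    induction n with
    | zero => intro k; rfl
    | succ n ih =>
      intro k
      rw [pow_succ, pow_succ]
      show (((f ^ n) (f k) : ↥K) : P) = (α ^ n) (α k)
      rw [ih (f k)]
  have hf : f ^ q ^ 1 = 1 := by
    rw [pow_one]
    funext k
    apply Subtype.ext
    rw [hpow q k, hα]
    rfl
  have : Fintype ↥K := Fintype.ofFinite _
  have h1 := Equiv.Perm.card_fixedPoints_modEq (f := f) (p := q) (n := 1) hf
  have e : ↥(Function.fixedPoints f) ≃ ↥(K ⊓ Fα) :=
    { toFun := fun k => ⟨k.1.1, ⟨k.1.2, congrArg Subtype.val k.2⟩⟩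
      invFun := fun x => ⟨⟨x.1, x.2.1⟩, Subtype.ext x.2.2⟩
      left_inv := fun k => rfl
      right_inv := fun x => rfl }
  rw [Nat.card_eq_fintype_card, ← Nat.card_congr e, Nat.card_eq_fintype_card]
  exact h1

/-- If `p ^ a ≡ p ^ b (mod q)` with `b < a ≤ b + 2` and `q ≠ p` primes, then `q ∣ p ^ 2 - 1`. -/
theorem dvd_of_modEq {p q a b : ℕ} (hp : p.Prime) (hq : q.Prime) (hqp : q ≠ p) (hba : b < a)
    (hab : a ≤ b + 2) (h : p ^ a ≡ p ^ b [MOD q]) : q ∣ p ^ 2 - 1 := by
  obtain ⟨c, rfl⟩ : ∃ c, a = b + c := ⟨a - b, by omega⟩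
  have h1 : q ∣ p ^ (b + c) - p ^ b :=
    (Nat.modEq_iff_dvd' (Nat.pow_le_pow_right hp.pos (by omega))).mp h.symm
  have h2 : p ^ (b + c) - p ^ b = p ^ b * (p ^ c - 1) := by
    rw [pow_add, Nat.mul_sub, mul_one]
  rw [h2] at h1
  have hcop : Nat.Coprime q (p ^ b) := Nat.Coprime.pow_right b ((Nat.coprime_primes hq hp).mpr hqp)
  have h3 : q ∣ p ^ c - 1 := hcop.dvd_of_dvd_mul_left h1
  have hc : c = 1 ∨ c = 2 := by omega
  rcases hc with rfl | rfl
  · rw [pow_one] at h3
    have h4 : p ^ 2 - 1 = (p - 1) * (p + 1) := by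
      have := hp.one_lt
      obtain ⟨k, rfl⟩ : ∃ k, p = k + 1 := ⟨p - 1, by omega⟩
      simp only [Nat.add_sub_cancel]
      have : (k + 1) ^ 2 = k * (k + 1 + 1) + 1 := by ring
      rw [this, Nat.add_sub_cancel]
    rw [h4]
    exact Dvd.dvd.mul_right h3 _
  · exact h3

/-- In a `p`-group of rank at most 2, a subgroup of exponent `p` has order at most `p ^ 3`. -/
theorem card_le_of_exp {R : Type*} [Group R] [Finite R] {p : ℕ} [Fact p.Prime]
    (hR : IsPGroup p R) (hrk : Cfsg.PRankLE p 2 R) (D : Subgroup R) (hD : ∀ d ∈ D, d ^ p = 1) :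
    Nat.card D ≤ p ^ 3 := by
  have hp : p.Prime := Fact.out
  have hDp : IsPGroup p D := hR.to_subgroup D
  obtain ⟨A, hAn, hAc, hAC⟩ := Cfsg.Agent.Lib.Helper69.exists_selfCentralizing hDp
  have hA2 : Nat.card A ≤ p ^ 2 := by
    have h1 := hrk (A.map D.subtype)
      ⟨⟨fun u v => by
        apply Subtype.ext
        obtain ⟨x, hx, hxu⟩ := Subgroup.mem_map.mp u.2
        obtain ⟨y, hy, hyv⟩ := Subgroup.mem_map.mp v.2
        show (u : R) * (v : R) = (v : R) * (u : R)
        rw [← hxu, ← hyv]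
        have := hAc x hx y hy
        exact congrArg Subtype.val this⟩⟩
      (fun a ha => by
        obtain ⟨x, hx, rfl⟩ := Subgroup.mem_map.mp ha
        exact hD _ x.2)
    rwa [Subgroup.card_map_of_injective D.subtype_injective] at h1
  obtain ⟨m, hm⟩ := (hDp.to_subgroup A).exists_card_eq
  have hm2 : m ≤ 2 := by
    rw [hm] at hA2
    exact (Nat.pow_le_pow_iff_right hp.one_lt).mp hA2
  have hidx := Cfsg.Agent.Lib.Helper38.index_centralizer_le hDp A m hm
  rw [hAC] at hidx
  have hcard : Nat.card D = Nat.card A * A.index := (Subgroup.card_mul_index A).symm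
  rw [hcard, hm]
  have hp1 := hp.one_lt
  interval_cases m
  · simp only [pow_zero, one_mul] at hidx ⊢
    exact hidx.trans (Nat.one_le_pow _ _ hp.pos)
  · simp only [pow_one] at hidx ⊢
    have h3 : A.index ≤ 1 := by simpa using hidx
    calc p * A.index ≤ p * 1 := Nat.mul_le_mul_left _ h3
      _ = p ^ 1 := by rw [mul_one, pow_one]
      _ ≤ p ^ 3 := Nat.pow_le_pow_right hp.pos (by norm_num)
  · have h3 : A.index ≤ p := by simpa using hidx
    calc p ^ 2 * A.index ≤ p ^ 2 * p := Nat.mul_le_mul_left _ h3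
      _ = p ^ 3 := by ring

/-- For odd p, a prime q ≠ p dividing the order of the automorphism group of a p-group of rank at most 2 divides p² - 1 and is less than p. -/
theorem result {R : Type*} [Group R] [Finite R] {p : ℕ} [Fact p.Prime] (hp : p ≠ 2) (hR : IsPGroup p R) (hrk : Cfsg.PRankLE p 2 R) (q : ℕ) (hq : q.Prime) (hqp : q ≠ p) (hdvd : q ∣ Nat.card (MulAut R)) : q ∣ p ^ 2 - 1 ∧ q < p := by
  classical
  have hp' : p.Prime := Fact.out
  have hqf : Fact q.Prime := ⟨hq⟩
  have hfin : Finite (MulAut R) :=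
    Finite.of_injective (fun f : MulAut R => (f : R → R)) DFunLike.coe_injective
  have key : q ∣ p ^ 2 - 1 := by
    obtain ⟨α, hα⟩ := exists_prime_orderOf_dvd_card' q hdvd
    obtain ⟨D, hDinv, -, hDexp, -, hDfaith, -⟩ :=
      Cfsg.Agent.S1949.result hR (⊤ : Subgroup (MulAut R)) le_top
    have hDp : ∀ d ∈ D, d ^ p = 1 := fun d hd => (hDexp d hd).resolve_right (fun h => hp h.1)
    have hαcop : (orderOf α).Coprime p := by
      rw [hα]
      exact (Nat.coprime_primes hq hp').mpr hqp
    have hαne : ¬ (∀ d ∈ D, α d = d) := fun h => by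
      have h1 := hDfaith α (Subgroup.mem_top α) hαcop h
      rw [h1, orderOf_one] at hα
      exact hq.one_lt.ne hα
    have hαD : ∀ d ∈ D, α d ∈ D := fun d hd => by
      have h1 := hDinv α (Subgroup.mem_top α)
      rw [← h1]
      exact Subgroup.mem_map_of_mem _ hd
    have hαsurj : ∀ d ∈ D, ∃ d' ∈ D, α d' = d := fun d hd => by
      have h1 := hDinv α (Subgroup.mem_top α)
      rw [← h1] at hd
      obtain ⟨d', hd', h2⟩ := Subgroup.mem_map.mp hd
      exact ⟨d', hd', h2⟩
    have hαq : α ^ q = 1 := by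
      rw [← hα]
      exact pow_orderOf_eq_one α
    obtain ⟨F, hFD, hFmem, hmod⟩ := fix_count α q hαq D hαD
    have hFne : F ≠ D := by
      intro h
      apply hαne
      intro d hd
      rw [← h] at hd
      exact ((hFmem d).mp hd).2
    have hlt : Nat.card F < Nat.card D :=
      Cfsg.Agent.Lib.Helper1.card_lt_card_of_lt (lt_of_le_of_ne hFD hFne)
    obtain ⟨a, ha⟩ := (hR.to_subgroup D).exists_card_eq
    obtain ⟨b, hb⟩ := (hR.to_subgroup F).exists_card_eq
    have hba : b < a := by
      rw [ha, hb] at hlt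
      exact (Nat.pow_lt_pow_iff_right hp'.one_lt).mp hlt
    have ha3 : a ≤ 3 := by
      have h1 := card_le_of_exp hR hrk D hDp
      rw [ha] at h1
      exact (Nat.pow_le_pow_iff_right hp'.one_lt).mp h1
    rw [ha, hb] at hmod
    by_cases hab : a ≤ b + 2
    · exact dvd_of_modEq hp' hq hqp hba hab hmod
    · have hb0 : b = 0 := by omega
      have hFbot : F = ⊥ := by
        rw [hb0, pow_zero] at hb
        exact Subgroup.card_eq_one.mp hb
      -- the centre of D
      have hZinv : ∀ k ∈ D ⊓ Subgroup.centralizer (D : Set R),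
          α k ∈ D ⊓ Subgroup.centralizer (D : Set R) := by
        intro k hk
        refine Subgroup.mem_inf.mpr ⟨hαD k hk.1, ?_⟩
        rw [Subgroup.mem_centralizer_iff]
        intro d hd
        obtain ⟨d', hd', rfl⟩ := hαsurj d hd
        rw [← map_mul, ← map_mul, Subgroup.mem_centralizer_iff.mp hk.2 d' hd']
      obtain ⟨F', hF'Z, hF'mem, hmod'⟩ :=
        fix_count α q hαq (D ⊓ Subgroup.centralizer (D : Set R)) hZinv
      have hF'bot : F' = ⊥ := by
        rw [eq_bot_iff, ← hFbot]
        intro x hx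
        exact (hFmem x).mpr ⟨((hF'mem x).mp hx).1.1, ((hF'mem x).mp hx).2⟩
      have hZne : D ⊓ Subgroup.centralizer (D : Set R) ≠ ⊥ := by
        have hDnt : Nontrivial D := by
          rw [← Finite.one_lt_card_iff_nontrivial, ha]
          exact Nat.one_lt_pow (by omega) hp'.one_lt
        have hcn : Nontrivial (Subgroup.center D) := (hR.to_subgroup D).center_nontrivial
        obtain ⟨z, hz⟩ := exists_ne (1 : Subgroup.center D)
        intro hbot
        have hzmem : ((z : D) : R) ∈ D ⊓ Subgroup.centralizer (D : Set R) := by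
          refine Subgroup.mem_inf.mpr ⟨(z : D).2, ?_⟩
          rw [Subgroup.mem_centralizer_iff]
          intro d hd
          have h1 := Subgroup.mem_center_iff.mp z.2 ⟨d, hd⟩
          exact congrArg Subtype.val h1
        rw [hbot, Subgroup.mem_bot] at hzmem
        exact hz (Subtype.ext (Subtype.ext hzmem))
      obtain ⟨c, hc⟩ := (hR.to_subgroup (D ⊓ Subgroup.centralizer (D : Set R))).exists_card_eq
      have hc0 : 0 < c := by
        rcases Nat.eq_zero_or_pos c with h | h
        · rw [h, pow_zero] at hc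
          exact absurd (Subgroup.card_eq_one.mp hc) hZne
        · exact h
      have hc2 : c ≤ 2 := by
        have h1 := hrk (D ⊓ Subgroup.centralizer (D : Set R))
          ⟨⟨fun u v => Subtype.ext
            ((Subgroup.mem_centralizer_iff.mp v.2.2 u.1 u.2.1))⟩⟩
          (fun x hx => hDp x hx.1)
        rw [hc] at h1
        exact (Nat.pow_le_pow_iff_right hp'.one_lt).mp h1
      rw [hc, hF'bot, Subgroup.card_bot] at hmod'
      have hmod'' : p ^ c ≡ p ^ 0 [MOD q] := by rw [pow_zero]; exact hmod'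
      exact dvd_of_modEq hp' hq hqp hc0 (by omega) hmod''
  refine ⟨key, ?_⟩
  have hp3 : 3 ≤ p := by
    have := hp'.two_le
    omega
  have h4 : p ^ 2 - 1 = (p - 1) * (p + 1) := by
    obtain ⟨k, rfl⟩ : ∃ k, p = k + 1 := ⟨p - 1, by omega⟩
    simp only [Nat.add_sub_cancel]
    have : (k + 1) ^ 2 = k * (k + 1 + 1) + 1 := by ring
    rw [this, Nat.add_sub_cancel]
  rw [h4] at key
  rcases (Nat.Prime.dvd_mul hq).mp key with h | h
  · have := Nat.le_of_dvd (by omega) h
    omega
  · have h5 := Nat.le_of_dvd (by omega) h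
    have hodd : Odd p := hp'.odd_of_ne_two hp
    obtain ⟨k, hk⟩ := hodd
    by_contra hcon
    have hq1 : q = p + 1 := by omega
    have h2 : 2 ∣ q := ⟨k + 1, by omega⟩
    have h6 := (Nat.prime_dvd_prime_iff_eq Nat.prime_two hq).mp h2
    omega

end Cfsg.Agent.S0640
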