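import Mathlib
import Cfsg.Statements.S0644
import Cfsg.Agent.Lib.Helper38.Regular

set_option autoImplicit false
open Cfsg
open Cfsg.Agent.Lib.Helper38.Regular

namespace Cfsg.Agent.S0644

theorem result {G : Type*} [Group G] [Finite G] {p : ℕ} [Fact p.Prime] (hG : Cfsg.IsRegularPGroup p G) (H : Subgroup G) (n : ℕ) : {y : G | ∃ x ∈ H, y = x ^ (p ^ n)} = (Cfsg.powerClosure p n H : Set G) ∧ ⁅Cfsg.powerClosure p n H, Cfsg.powerClosure p n H⁆ ≤ Cfsg.powerClosure p n ⁅H, H⁆ := by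
  have h1 := reg1_of_regular hG
  constructor
  · ext g
    exact (mem_powerClosure_iff hG.1 h1 n H g).symm
  · rw [Subgroup.commutator_le]
    intro g₁ hg₁ g₂ hg₂
    obtain ⟨x, hx, rfl⟩ := (mem_powerClosure_iff hG.1 h1 n H g₁).mp hg₁
    have hg₂H : g₂ ∈ H := powerClosure_le p n H hg₂
    obtain ⟨t, ht, e⟩ := comm_pow hG.1 h1 n x g₂
    rw [commutatorElement_def, e]
    exact Subgroup.subset_closure ⟨t, Subgroup.commutator_mono (closure_pair_le hx hg₂H)
      (closure_pair_le hx hg₂H) ht, rfl⟩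

end Cfsg.Agent.S0644
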