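import Cfsg.Statements.S0680
import Cfsg.Agent.Lib.Helper58.SharplyTwo

set_option autoImplicit false
open Cfsg

namespace Cfsg.Agent.S0680


/-- A finite sharply doubly transitive permutation group has degree a prime power `p ^ j`; a Sylow `p`-subgroup is normal, elementary abelian and regular, and consists of the identity together with the elements without fixed points. (Frobenius' Theorem is not needed.) -/
theorem result {α : Type*} [Fintype α] [DecidableEq α] (G : Subgroup (Equiv.Perm α)) [MulAction.IsMultiplyPretransitive G α 2] (hsharp : ∀ x : Fin 2 ↪ α, MulAction.stabilizer G x = ⊥) (h2 : 2 ≤ Fintype.card α) : ∃ p j : ℕ, p.Prime ∧ 1 ≤ j ∧ Fintype.card α = p ^ j ∧ ∀ (hp : Fact p.Prime) (P : Sylow p G), (P : Subgroup G).Normal ∧ IsMulCommutative (P : Subgroup G) ∧ (∀ x ∈ (P : Subgroup G), x ^ p = 1) ∧ MulAction.IsPretransitive (P : Subgroup G) α ∧ (∀ a : α, MulAction.stabilizer (P : Subgroup G) a = ⊥) ∧ ∀ g : G, g ∈ (P : Subgroup G) ↔ g = 1 ∨ ∀ a :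 α, g • a ≠ a := by
  classical
  have S : Cfsg.Agent.Lib.Helper58.SharpTwo G α := Cfsg.Agent.Lib.Helper58.SharpTwo.of_multiply hsharp
  haveI : Nontrivial α := Fintype.one_lt_card_iff_nontrivial.mp (by omega)
  obtain ⟨N, p, j, hp, hj, hcard, hnormal, hNcard, hidx, hcomm, hpow, hmem, htrans, hsyl⟩ :=
    S.exists_kernel'
  refine ⟨p, j, hp, hj, by rw [← hcard, Nat.card_eq_fintype_card], fun hpF P => ?_⟩
  have hPN : (P : Subgroup G) = N := hsyl hpF P
  rw [hPN]
  refine ⟨hnormal, ⟨⟨fun a b => Subtype.ext (hcomm a a.2 b b.2)⟩⟩, hpow, ⟨fun a b => ?_⟩,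
    fun a => ?_, hmem⟩
  · obtain ⟨g, hg, hgab⟩ := htrans a b
    exact ⟨⟨g, hg⟩, hgab⟩
  · rw [eq_bot_iff]
    intro x hx
    rw [MulAction.mem_stabilizer_iff] at hx
    rcases (hmem x).mp x.2 with h1 | h1
    · exact Subgroup.mem_bot.mpr (Subtype.ext h1)
    · exact absurd hx (h1 a)

end Cfsg.Agent.S0680
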