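import Mathlib
import Cfsg.Statements.S0966
import Cfsg.Agent.Lib.Helper16.Cover
import Cfsg.Agent.Lib.Helper16.PRegular
import Cfsg.Agent.Lib.Helper16.NormalKer

set_option autoImplicit false
open Cfsg

namespace Cfsg.Agent.S0966

open Cfsg.Agent.Lib.Helper16

/-- Let N be a normal subgroup of p-power index in the finite group G and b a block of N relative to a maximal ideal M of the algebraic integers containing p. Then there is exactly one block B of G containing a character whose restriction to N has a constituent in b. -/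
theorem result {G : Type*} [Group G] [Fintype G] (p : ℕ) [Fact p.Prime] (M : Ideal Cfsg.AlgInt) (hM : Cfsg.IsPModular p M) (N : Subgroup G) [N.Normal] [Fintype N] (hidx : ∃ k : ℕ, N.index = p ^ k) (b : Set (Cfsg.IrrCharacter N)) (hb : Cfsg.IsPBlock M b) : ∃! B : Set (Cfsg.IrrCharacter G), Cfsg.IsPBlock M B ∧ ∃ χ ∈ B, ∃ θ ∈ b, Cfsg.classInner (fun n : N => (χ : G → ℂ) n) (θ : N → ℂ) ≠ 0 := by
  classical
  have hMp := isPrime_of_isPModular hM
  have hp : p.Prime := Fact.out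
  obtain ⟨k, hk⟩ := hidx
  obtain ⟨θ, hθ⟩ := IsPBlock.nonempty hMp hb
  obtain ⟨χ, hχ⟩ := exists_irr_over (G := G) N θ
  refine ⟨Cfsg.blockOf M (χ : G → ℂ), ⟨⟨χ, rfl⟩, χ, mem_blockOf_self hMp χ, θ, hθ, hχ⟩, ?_⟩
  rintro B' ⟨hB', χ', hχ', θ', hθ', hne'⟩
  rw [IsPBlock.eq_blockOf hMp hB' hχ']
  apply blockOf_eq_of_sameBlock hMp
  apply sameBlock_of_pRegular hM
  intro g hg
  have hgN : g ∈ N := mem_of_pRegular_of_index hp N hk hg
  have h1 := congr_of_cover N hMp hb χ' hθ' hne' hθ ⟨g, hgN⟩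
  have h2 := congr_of_cover N hMp hb χ hθ hχ hθ ⟨g, hgN⟩
  have e : Cfsg.centralChar (χ' : G → ℂ) g - Cfsg.centralChar (χ : G → ℂ) g =
      (Cfsg.centralChar (χ' : G → ℂ) g - Cfsg.inducedCentralChar N (θ : N → ℂ) g) -
      (Cfsg.centralChar (χ : G → ℂ) g - Cfsg.inducedCentralChar N (θ : N → ℂ) g) := by ring
  rw [e]
  exact memLocalIdeal_sub hMp h1 h2

end Cfsg.Agent.S0966
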