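import Mathlib
import Cfsg.Statements.S0974
import Cfsg.Agent.Lib.Helper17.Simple
import Cfsg.Agent.Lib.Helper17.Small
import Cfsg.Agent.Lib.Helper17.Count
import Cfsg.Agent.Lib.Helper17.PrimeSylow
import Cfsg.Agent.Lib.Helper17.PrimeDegree
import Cfsg.Agent.Lib.Helper17.Involution

set_option autoImplicit false
open Cfsg

namespace Cfsg.Agent.S0974

open Cfsg.Agent.Lib.Helper17

/-- an involution is its own inverse -/
theorem inv_eq_self_of_mul_self {G : Type*} [Group G] (t : G) (ht : t * t = 1) : t⁻¹ = t :=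
  inv_eq_of_mul_eq_one_left ht

/-- an involution normalizing but not centralizing a subgroup of prime order inverts it -/
theorem conj_eq_inv_of_involution {G : Type*} [Group G] {p : ℕ} (hp : p.Prime) (P : Subgroup G)
    (hP : Nat.card P = p) (t : G) (htN : t ∈ Subgroup.normalizer (P : Set G))
    (htC : t ∉ Subgroup.centralizer (P : Set G)) (ht : t * t = 1) (z : G) (hz : z ∈ P) :
    t * z * t⁻¹ = z⁻¹ := by
  have htz : t * z * t⁻¹ ∈ P := (Subgroup.mem_normalizer_iff.mp htN z).mp hz
  have hcomm : ∀ a ∈ P, ∀ b ∈ P, a * b = b * a := by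
    intro a ha b hb
    have : Fact p.Prime := ⟨hp⟩
    have hcyc : IsCyclic P := isCyclic_of_prime_card hP
    have := (IsCyclic.commGroup (α := P)).mul_comm ⟨a, ha⟩ ⟨b, hb⟩
    exact congrArg Subtype.val this
  have hw : z * (t * z * t⁻¹) ∈ P := P.mul_mem hz htz
  have hfix : t * (z * (t * z * t⁻¹)) * t⁻¹ = z * (t * z * t⁻¹) := by
    have h1 : t * (z * (t * z * t⁻¹)) * t⁻¹ = (t * z * t⁻¹) * (t * t * z * (t * t)⁻¹) := by group
    rw [h1, ht, one_mul, inv_one, mul_one]
    exact hcomm _ htz _ hz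
  by_contra hne
  have hw1 : z * (t * z * t⁻¹) ≠ 1 := by
    intro h
    exact hne (eq_inv_of_mul_eq_one_right h)
  have hgen := zpowers_eq_of_mem_of_card_prime hp P hP _ hw hw1
  apply htC
  rw [Subgroup.mem_centralizer_iff]
  intro y hy
  have hy' : y ∈ Subgroup.zpowers (z * (t * z * t⁻¹)) := by rw [hgen]; exact hy
  obtain ⟨k, rfl⟩ := Subgroup.mem_zpowers_iff.mp hy'
  have hcw : Commute t (z * (t * z * t⁻¹)) := by
    have h2 := hfix
    rw [mul_inv_eq_iff_eq_mul] at h2
    exact h2
  exact ((hcw.zpow_right k).eq).symm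

/-- an involution inverting `y` normalizes `⟨y⟩` -/
theorem mem_normalizer_zpowers_of_inv {G : Type*} [Group G] (t y : G) (ht : t * t = 1)
    (h : t * y * t⁻¹ = y⁻¹) : t ∈ Subgroup.normalizer ((Subgroup.zpowers y : Subgroup G) : Set G) := by
  have hti := inv_eq_self_of_mul_self t ht
  have hpow : ∀ k : ℤ, t * y ^ k * t⁻¹ = (y ^ k)⁻¹ := by
    intro k
    have h1 : t * y ^ k * t⁻¹ = (t * y * t⁻¹) ^ k := by
      rw [← conj_zpow]
    rw [h1, h, inv_zpow]
  rw [Subgroup.mem_normalizer_iff]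
  intro z
  constructor
  · intro hz
    obtain ⟨k, rfl⟩ := Subgroup.mem_zpowers_iff.mp hz
    rw [hpow]
    exact Subgroup.inv_mem _ (Subgroup.zpow_mem_zpowers y k)
  · intro hz
    obtain ⟨k, hk⟩ := Subgroup.mem_zpowers_iff.mp hz
    have h2 : z = t * y ^ k * t⁻¹ := by
      rw [hk, hti]
      have h3 : t * (t * z * t) * t = (t * t) * z * (t * t) := by group
      rw [h3, ht, one_mul, mul_one]
    rw [h2, hpow]
    exact Subgroup.inv_mem _ (Subgroup.zpow_mem_zpowers y k)

/-- the product of two involutions is inverted by both -/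
theorem inv_prod_left {G : Type*} [Group G] (a b : G) (ha : a * a = 1) (hb : b * b = 1) :
    a * (a * b) * a⁻¹ = (a * b)⁻¹ := by
  rw [inv_eq_self_of_mul_self a ha, mul_inv_rev, inv_eq_self_of_mul_self a ha,
    inv_eq_self_of_mul_self b hb]
  have : a * (a * b) * a = (a * a) * b * a := by group
  rw [this, ha, one_mul]

theorem inv_prod_right {G : Type*} [Group G] (a b : G) (ha : a * a = 1) (hb : b * b = 1) :
    b * (a * b) * b⁻¹ = (a * b)⁻¹ := by
  rw [inv_eq_self_of_mul_self b hb, mul_inv_rev, inv_eq_self_of_mul_self a ha,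
    inv_eq_self_of_mul_self b hb]
  have : b * (a * b) * b = b * a * (b * b) := by group
  rw [this, hb, mul_one]

/-- conjugation inverts powers -/
theorem conj_pow_inv {G : Type*} [Group G] (t g : G) (h : t * g * t⁻¹ = g⁻¹) (k : ℕ) :
    t * g ^ k * t⁻¹ = (g ^ k)⁻¹ := by
  rw [← conj_pow, h, inv_pow]

section main

variable {G : Type*} [Group G] [Finite G] [IsSimpleGroup G]

/-- Sylow `19`-data in a simple group of order `3648` -/
theorem syl19 [Fact (Nat.Prime 19)] (hG : Nat.card G = 3648) (Q : Sylow 19 G) :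
    Nat.card (Q : Subgroup G) = 19 ∧ Nat.card (Sylow 19 G) = 96 ∧
    Nat.card (Subgroup.normalizer ((Q : Subgroup G) : Set G)) = 38 ∧
    Nat.card (Subgroup.centralizer ((Q : Subgroup G) : Set G)) = 19 := by
  have hGn : ¬ (Nat.card G).Prime := by rw [hG]; norm_num
  have hQ : Nat.card (Q : Subgroup G) = 19 := by
    simpa using card_sylow_eq_of_card_eq 19 1 192 (by rw [hG]; norm_num) (by norm_num) Q
  have hn : Nat.card (Sylow 19 G) = 96 := by
    have hc := card_sylow_mem_cands (G := G) 19 1 192 (by rw [hG]; norm_num) (by norm_num)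
    have hcl : sylowCands 19 192 = [1, 96] := by decide +kernel
    rw [hcl] at hc
    have h3 : Nat.card (Sylow 19 G) ≠ 1 :=
      card_sylow_ne_one 19 (by rw [hG]; norm_num) 2 (by norm_num) (by norm_num)
        (by rw [hG]; norm_num)
    simp only [List.mem_cons, List.not_mem_nil, or_false] at hc
    omega
  have hN : Nat.card (Subgroup.normalizer ((Q : Subgroup G) : Set G)) = 38 := by
    have h4 := card_sylow_mul_card_normalizer 19 Q
    rw [hn, hG] at h4
    omega
  refine ⟨hQ, hn, hN, ?_⟩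
  obtain ⟨hr1, hr2, hr3, hPC⟩ := relIndex_centralizer_sylow_prime hGn 19 Q hQ
  rw [hN] at hr3
  obtain ⟨r, hr⟩ : ∃ r, r = (Subgroup.centralizer ((Q : Subgroup G) : Set G)).relIndex
      (Subgroup.normalizer ((Q : Subgroup G) : Set G)) := ⟨_, rfl⟩
  rw [← hr] at hr1 hr2 hr3
  obtain ⟨c, hc⟩ : ∃ c, c = Nat.card (Subgroup.centralizer ((Q : Subgroup G) : Set G)) :=
    ⟨_, rfl⟩
  rw [← hc] at hr3 ⊢
  have h18 : r ∣ 18 := by simpa using hr2
  have h38 : r ∣ 38 := Dvd.intro _ hr3
  have h2 : r ∣ 2 := by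
    have := Nat.dvd_gcd h18 h38
    simpa using this
  have hr2' : r ≤ 2 := Nat.le_of_dvd (by norm_num) h2
  interval_cases r
  · omega
  · exact absurd rfl hr1
  · omega

/-- a nontrivial involution does not centralize a Sylow `19`-subgroup -/
theorem not_mem_centralizer19 [Fact (Nat.Prime 19)] (hG : Nat.card G = 3648) (P : Sylow 19 G)
    (t : G) (ht : t * t = 1) (ht1 : t ≠ 1) :
    t ∉ Subgroup.centralizer ((P : Subgroup G) : Set G) := by
  intro hmem
  obtain ⟨-, -, -, hC⟩ := syl19 hG P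
  have h2 : orderOf t ∣ 2 := orderOf_dvd_of_pow_eq_one (by rw [pow_two]; exact ht)
  have h19 : orderOf t ∣ 19 := by
    have := Subgroup.orderOf_dvd_natCard _ hmem
    rwa [hC] at this
  have h1 : orderOf t ∣ 1 := by
    have := Nat.dvd_gcd h2 h19
    simpa using this
  exact ht1 (orderOf_eq_one_iff.mp (Nat.dvd_one.mp h1))

/-- an involution normalizing a Sylow `19`-subgroup normalizes exactly four of them -/
theorem fix4 [Fact (Nat.Prime 19)] (hG : Nat.card G = 3648) (P : Sylow 19 G)
    (t : G) (ht : t * t = 1) (ht1 : t ≠ 1)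
    (htN : t ∈ Subgroup.normalizer ((P : Subgroup G) : Set G)) :
    Set.ncard {Q : Sylow 19 G | t • Q = Q} = 4 := by
  classical
  have hGn : ¬ (Nat.card G).Prime := by rw [hG]; norm_num
  obtain ⟨hP, hn, hN, hC⟩ := syl19 hG P
  have htC := not_mem_centralizer19 hG P t ht ht1
  have hinv : ∀ z ∈ (P : Subgroup G), t * z * t⁻¹ = z⁻¹ := fun z hz =>
    conj_eq_inv_of_involution (by norm_num : Nat.Prime 19) (P : Subgroup G) hP t htN htC ht z hz
  have hti := inv_eq_self_of_mul_self t ht
  have : Fintype (Sylow 19 G) := Fintype.ofFinite _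
  have : Fintype (P : Subgroup G) := Fintype.ofFinite _
  have hPfix : ∀ y : G, y ∈ (P : Subgroup G) → y • P = P := fun y hy =>
    Sylow.smul_eq_iff_mem_normalizer.mpr (Subgroup.le_normalizer hy)
  have key : ∀ (Q : Sylow 19 G) (z : G), z ∈ (P : Subgroup G) → Q ≠ P → t • Q = Q →
      t • (z • Q) = z • Q → z = 1 := by
    intro Q z hz hQP h1 h2
    by_contra hz1
    have h3 : (z⁻¹ * t * z) • Q = Q := by
      rw [mul_smul, mul_smul, h2, inv_smul_smul]
    have h4 : (t * (z⁻¹ * t * z)) • Q = Q := by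
      rw [mul_smul, h3, h1]
    have h5 : t * (z⁻¹ * t * z) = z ^ 2 := by
      have h6 := hinv z⁻¹ (Subgroup.inv_mem _ hz)
      rw [inv_inv, hti] at h6
      calc t * (z⁻¹ * t * z) = (t * z⁻¹ * t) * z := by group
        _ = z ^ 2 := by rw [h6, pow_two]
    rw [h5] at h4
    have h7 : z ^ 2 ∈ Subgroup.normalizer ((Q : Subgroup G) : Set G) :=
      Sylow.smul_eq_iff_mem_normalizer.mp h4
    have hz19 : orderOf z = 19 :=
      orderOf_eq_of_mem_of_card_prime (by norm_num) (P : Subgroup G) hP z hz hz1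
    have hz2 : orderOf (z ^ 2) = 19 := by
      rw [orderOf_pow' z (by norm_num : (2:ℕ) ≠ 0), hz19]
      norm_num
    have h8 : z ^ 2 ∈ (Q : Subgroup G) :=
      mem_sylow_of_mem_normalizer_of_orderOf 19 Q (z ^ 2) h7 1 (by rw [hz2]; norm_num)
    have h9 : z ^ 2 ∈ (P : Subgroup G) := Subgroup.pow_mem _ hz 2
    have h10 := inf_eq_bot_of_sylow_prime 19 P Q hP (Ne.symm hQP)
    have h11 : z ^ 2 ∈ (P : Subgroup G) ⊓ (Q : Subgroup G) := ⟨h9, h8⟩
    rw [h10, Subgroup.mem_bot] at h11
    rw [h11, orderOf_one] at hz2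
    norm_num at hz2
  obtain ⟨F, hF⟩ : ∃ F : Finset (Sylow 19 G), F = Finset.univ.filter (fun Q => t • Q = Q) :=
    ⟨_, rfl⟩
  have hFmem : ∀ Q, Q ∈ F ↔ t • Q = Q := by
    intro Q; rw [hF, Finset.mem_filter]; simp
  have hPF : P ∈ F := (hFmem P).mpr (Sylow.smul_eq_iff_mem_normalizer.mpr htN)
  have hcardS : Fintype.card (Sylow 19 G) = 96 := by rw [← Nat.card_eq_fintype_card, hn]
  have hcardP : Fintype.card (P : Subgroup G) = 19 := by rw [← Nat.card_eq_fintype_card, hP]
  have hle : ((F.erase P) ×ˢ (Finset.univ : Finset (P : Subgroup G))).card ≤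
      ((Finset.univ : Finset (Sylow 19 G)).erase P).card := by
    apply Finset.card_le_card_of_injOn (fun x => (x.2 : G) • x.1)
    · intro x hx
      have hx' := Finset.mem_product.mp (Finset.mem_coe.mp hx)
      have hx1 := Finset.mem_erase.mp hx'.1
      apply Finset.mem_coe.mpr
      apply Finset.mem_erase.mpr
      refine ⟨?_, Finset.mem_univ _⟩
      intro h
      apply hx1.1
      have h2 := congrArg (fun Q => (x.2 : G)⁻¹ • Q) h
      simp only [inv_smul_smul] at h2
      rw [h2, hPfix _ (Subgroup.inv_mem _ x.2.2)]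
    · intro x hx x' hx' hxx'
      have hx1 := Finset.mem_erase.mp (Finset.mem_product.mp (Finset.mem_coe.mp hx)).1
      have hx1' := Finset.mem_erase.mp (Finset.mem_product.mp (Finset.mem_coe.mp hx')).1
      have hxx'' : (x.2 : G) • x.1 = (x'.2 : G) • x'.1 := hxx'
      have h1 : x'.1 = ((x'.2 : G)⁻¹ * (x.2 : G)) • x.1 := by
        rw [mul_smul, hxx'', inv_smul_smul]
      have hz : (x'.2 : G)⁻¹ * (x.2 : G) ∈ (P : Subgroup G) :=
        Subgroup.mul_mem _ (Subgroup.inv_mem _ x'.2.2) x.2.2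
      have h2 : (x'.2 : G)⁻¹ * (x.2 : G) = 1 := by
        apply key x.1 _ hz hx1.1 ((hFmem _).mp hx1.2)
        rw [← h1]; exact (hFmem _).mp hx1'.2
      have h3 : x.2 = x'.2 := Subtype.ext (inv_mul_eq_one.mp h2).symm
      have h4 : x.1 = x'.1 := by
        rw [h1, h2, one_smul]
      exact Prod.ext h4 h3
  rw [Finset.card_product, Finset.card_univ, hcardP, Finset.card_erase_of_mem (Finset.mem_univ _),
    Finset.card_univ, hcardS, Finset.card_erase_of_mem hPF] at hle
  have hFpos : 0 < F.card := Finset.card_pos.mpr ⟨P, hPF⟩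
  have hF6 : F.card ≤ 6 := by omega
  obtain ⟨c, hc4⟩ := involution_fixed_mod_four hGn (X := Sylow 19 G) t ht
  rw [hn] at hc4
  have hFs : Set.ncard {Q : Sylow 19 G | t • Q = Q} = F.card := by
    rw [← Set.ncard_coe_finset F]
    congr 1
    ext Q
    simp [hFmem]
  rw [hFs] at hc4 ⊢
  omega

/-- the centralizer of such an involution has order at most `8` -/
theorem card_centralizer_le [Fact (Nat.Prime 19)] (hG : Nat.card G = 3648) (P : Sylow 19 G)
    (t : G) (ht : t * t = 1) (ht1 : t ≠ 1)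
    (htN : t ∈ Subgroup.normalizer ((P : Subgroup G) : Set G)) :
    Nat.card (Subgroup.centralizer ({t} : Set G)) ≤ 8 := by
  classical
  obtain ⟨hP, hn, hN, hC⟩ := syl19 hG P
  have htC := not_mem_centralizer19 hG P t ht ht1
  have hinv : ∀ z ∈ (P : Subgroup G), t * z * t⁻¹ = z⁻¹ := fun z hz =>
    conj_eq_inv_of_involution (by norm_num : Nat.Prime 19) (P : Subgroup G) hP t htN htC ht z hz
  have : Fintype G := Fintype.ofFinite _
  have : Fintype (Sylow 19 G) := Fintype.ofFinite _
  obtain ⟨C, hCdef⟩ : ∃ C : Subgroup G, C = Subgroup.centralizer ({t} : Set G) := ⟨_, rfl⟩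
  rw [← hCdef]
  have hCmem : ∀ g : G, g ∈ C ↔ t * g = g * t := by
    intro g
    rw [hCdef, Subgroup.mem_centralizer_iff]
    constructor
    · intro h; exact h t rfl
    · intro h x hx
      rw [Set.mem_singleton_iff] at hx
      rw [hx]; exact h
  obtain ⟨K, hK⟩ : ∃ K : Subgroup G,
      K = Subgroup.normalizer ((P : Subgroup G) : Set G) ⊓ C := ⟨_, rfl⟩
  have htK : t ∈ K := by
    rw [hK]; exact ⟨htN, (hCmem t).mpr rfl⟩
  have hKcard : Nat.card K = 2 := by
    have h1 : Nat.card K ∣ 38 := by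
      rw [← hN, hK]; exact Subgroup.card_dvd_of_le inf_le_left
    have h2 : 2 ∣ Nat.card K := by
      have h3 : orderOf t = 2 := orderOf_eq_prime (by rw [pow_two]; exact ht) ht1
      rw [← h3]; exact Subgroup.orderOf_dvd_natCard K htK
    have h3 : ¬ 19 ∣ Nat.card K := by
      intro h19
      obtain ⟨y, hy⟩ := exists_prime_orderOf_dvd_card' (G := K) 19 h19
      have hy' : orderOf (y : G) = 19 := by rw [Subgroup.orderOf_coe, hy]
      have hyK : (y : G) ∈ Subgroup.normalizer ((P : Subgroup G) : Set G) ⊓ C := by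
        rw [← hK]; exact y.2
      have hyP : (y : G) ∈ (P : Subgroup G) :=
        mem_sylow_of_mem_normalizer_of_orderOf 19 P (y : G) hyK.1 1 (by rw [hy']; norm_num)
      have h4 := hinv _ hyP
      have h5 : t * (y : G) = (y : G) * t := (hCmem _).mp hyK.2
      have h6 : t * (y : G) * t⁻¹ = (y : G) := by rw [h5, mul_inv_cancel_right]
      rw [h6] at h4
      have h7 : (y : G) ^ 2 = 1 := by
        rw [pow_two]
        nth_rewrite 2 [h4]
        exact mul_inv_cancel _
      have h8 := orderOf_dvd_of_pow_eq_one h7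
      rw [hy'] at h8
      norm_num at h8
    have h4 : Nat.card K ≤ 38 := Nat.le_of_dvd (by norm_num) h1
    obtain ⟨k, hk⟩ : ∃ k, k = Nat.card K := ⟨_, rfl⟩
    rw [← hk] at h1 h2 h3 h4 ⊢
    interval_cases k <;> omega
  have hF4 := fix4 hG P t ht ht1 htN
  obtain ⟨F, hF⟩ : ∃ F : Finset (Sylow 19 G), F = Finset.univ.filter (fun Q => t • Q = Q) :=
    ⟨_, rfl⟩
  have hFmem : ∀ Q, Q ∈ F ↔ t • Q = Q := by
    intro Q; rw [hF, Finset.mem_filter]; simp
  have hFcard : F.card = 4 := by
    rw [← hF4, ← Set.ncard_coe_finset F]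
    congr 1
    ext Q
    simp [hFmem]
  obtain ⟨Cfin, hCfin⟩ : ∃ Cfin : Finset G, Cfin = Finset.univ.filter (fun g => g ∈ C) :=
    ⟨_, rfl⟩
  obtain ⟨Kfin, hKfin⟩ : ∃ Kfin : Finset G, Kfin = Finset.univ.filter (fun g => g ∈ K) :=
    ⟨_, rfl⟩
  have hCfmem : ∀ g, g ∈ Cfin ↔ g ∈ C := by
    intro g; rw [hCfin, Finset.mem_filter]; simp
  have hKfmem : ∀ g, g ∈ Kfin ↔ g ∈ K := by
    intro g; rw [hKfin, Finset.mem_filter]; simp
  have hCcard : Nat.card C = Cfin.card := by
    rw [Nat.card_eq_fintype_card]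
    exact Fintype.card_of_subtype Cfin hCfmem
  have hKcard' : Kfin.card = 2 := by
    rw [← hKcard, Nat.card_eq_fintype_card]
    exact (Fintype.card_of_subtype Kfin hKfmem).symm
  have hbound : Cfin.card ≤ 2 * F.card := by
    apply Finset.card_le_mul_card_image_of_maps_to (f := fun g : G => g • P)
    · intro g hg
      rw [hFmem]
      have hg2 : t * g = g * t := (hCmem g).mp ((hCfmem g).mp hg)
      rw [← mul_smul, hg2, mul_smul, Sylow.smul_eq_iff_mem_normalizer.mpr htN]
    · intro Q hQ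
      by_cases hempty : (Cfin.filter (fun a => a • P = Q)) = ∅
      · rw [hempty]; simp
      · obtain ⟨g₀, hg₀⟩ := Finset.nonempty_iff_ne_empty.mpr hempty
        rw [Finset.mem_filter] at hg₀
        rw [← hKcard']
        apply Finset.card_le_card_of_injOn (fun x => g₀⁻¹ * x)
        · intro x hx
          have hx' := Finset.mem_filter.mp (Finset.mem_coe.mp hx)
          apply Finset.mem_coe.mpr
          rw [hKfmem, hK]
          refine ⟨?_, ?_⟩
          · apply Sylow.smul_eq_iff_mem_normalizer.mp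
            rw [mul_smul, hx'.2, ← hg₀.2, inv_smul_smul]
          · exact Subgroup.mul_mem _ (Subgroup.inv_mem _ ((hCfmem _).mp hg₀.1))
              ((hCfmem _).mp hx'.1)
        · intro x _ x' _ hxx'
          exact mul_left_cancel hxx'
  rw [hCcard]
  omega

/-- the class of such an involution has at least `456` elements -/
theorem card_class_ge [Fact (Nat.Prime 19)] (hG : Nat.card G = 3648) (P : Sylow 19 G)
    (t : G) (ht : t * t = 1) (ht1 : t ≠ 1)
    (htN : t ∈ Subgroup.normalizer ((P : Subgroup G) : Set G)) :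
    456 ≤ Nat.card {h : G // IsConj t h} := by
  have h1 := card_isConj_mul_card_centralizer t
  rw [hG] at h1
  have h2 := card_centralizer_le hG P t ht ht1 htN
  by_contra h
  push Not at h
  have h3 : Nat.card {h : G // IsConj t h} * Nat.card (Subgroup.centralizer ({t} : Set G)) ≤
      455 * 8 := Nat.mul_le_mul (by omega) h2
  omega

omit [Finite G] [IsSimpleGroup G] in
/-- conjugates of such an involution are again such involutions -/
theorem conj_props [Fact (Nat.Prime 19)] (P : Sylow 19 G) (t : G) (ht : t * t = 1) (ht1 : t ≠ 1)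
    (htN : t ∈ Subgroup.normalizer ((P : Subgroup G) : Set G)) (h : G) (hh : IsConj t h) :
    h * h = 1 ∧ h ≠ 1 ∧
      ∃ Q : Sylow 19 G, h ∈ Subgroup.normalizer ((Q : Subgroup G) : Set G) := by
  obtain ⟨c, rfl⟩ := isConj_iff.mp hh
  refine ⟨?_, ?_, c • P, ?_⟩
  · have h1 : c * t * c⁻¹ * (c * t * c⁻¹) = c * (t * t) * c⁻¹ := by group
    rw [h1, ht, mul_one, mul_inv_cancel]
  · intro h1
    apply ht1
    have h2 : t = c⁻¹ * (c * t * c⁻¹) * c := by group
    rw [h2, h1]; group
  · apply Sylow.smul_eq_iff_mem_normalizer.mp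
    rw [← mul_smul]
    have h1 : c * t * c⁻¹ * c = c * t := by group
    rw [h1, mul_smul, Sylow.smul_eq_iff_mem_normalizer.mpr htN]

omit [IsSimpleGroup G] in
/-- a finset inside `K ∖ H` has at most `|K| - |H|` elements -/
theorem card_finset_diff_le (H K : Subgroup G) (hHK : H ≤ K)
    (s : Finset G) (hs : ∀ x ∈ s, x ∈ K ∧ x ∉ H) : s.card + Nat.card H ≤ Nat.card K := by
  classical
  have : Fintype G := Fintype.ofFinite _
  have hH : Nat.card H = (Finset.univ.filter (fun g : G => g ∈ H)).card := by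
    rw [Nat.card_eq_fintype_card]
    exact Fintype.card_of_subtype _ (fun x => by simp)
  have hK : Nat.card K = (Finset.univ.filter (fun g : G => g ∈ K)).card := by
    rw [Nat.card_eq_fintype_card]
    exact Fintype.card_of_subtype _ (fun x => by simp)
  have hdisj : Disjoint s (Finset.univ.filter (fun g : G => g ∈ H)) := by
    rw [Finset.disjoint_left]
    intro x hx hx'
    rw [Finset.mem_filter] at hx'
    exact (hs x hx).2 hx'.2
  rw [hH, hK, ← Finset.card_union_of_disjoint hdisj]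
  apply Finset.card_le_card
  intro x hx
  rw [Finset.mem_union] at hx
  rw [Finset.mem_filter]
  refine ⟨Finset.mem_univ _, ?_⟩
  rcases hx with hx | hx
  · exact (hs x hx).1
  · rw [Finset.mem_filter] at hx
    exact hHK hx.2

/-- a Sylow `2`-subgroup contains at most `24` conjugates of the involution -/
theorem card_conj_inter_sylow2_le [Fact (Nat.Prime 19)] (hG : Nat.card G = 3648) (P : Sylow 19 G)
    (t : G) (ht : t * t = 1) (ht1 : t ≠ 1)
    (htN : t ∈ Subgroup.normalizer ((P : Subgroup G) : Set G)) (S : Sylow 2 G)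
    (s : Finset G) (hs : ∀ h ∈ s, IsConj t h ∧ h ∈ (S : Subgroup G)) : s.card ≤ 24 := by
  classical
  have : Fintype (Sylow 19 G) := Fintype.ofFinite _
  obtain ⟨-, hn, -, -⟩ := syl19 hG P
  have hS : Nat.card (S : Subgroup G) = 64 := by
    simpa using card_sylow_eq_of_card_eq 2 6 57 (by rw [hG]; norm_num) (by norm_num) S
  obtain ⟨Fix, hFix⟩ : ∃ Fix : G → Finset (Sylow 19 G),
      Fix = fun h => Finset.univ.filter (fun Q => h • Q = Q) := ⟨_, rfl⟩
  have hFmem : ∀ h Q, Q ∈ Fix h ↔ h • Q = Q := by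
    intro h Q; rw [hFix, Finset.mem_filter]; simp
  have hFcard : ∀ h ∈ s, (Fix h).card = 4 := by
    intro h hh
    obtain ⟨h1, h2, Q, hQ⟩ := conj_props P t ht ht1 htN h (hs h hh).1
    rw [← fix4 hG Q h h1 h2 hQ, ← Set.ncard_coe_finset (Fix h)]
    congr 1
    ext R
    simp [hFmem]
  have hdisj : (s : Set G).PairwiseDisjoint Fix := by
    intro h hh h' hh' hne
    rw [Function.onFun, Finset.disjoint_left]
    intro Q hQ hQ'
    rw [hFmem] at hQ hQ'
    obtain ⟨h1, h2, -⟩ := conj_props P t ht ht1 htN h (hs h hh).1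
    obtain ⟨h1', h2', -⟩ := conj_props P t ht ht1 htN h' (hs h' hh').1
    obtain ⟨-, -, hNQ, -⟩ := syl19 hG Q
    obtain ⟨D, hD⟩ : ∃ D : Subgroup G,
        D = Subgroup.normalizer ((Q : Subgroup G) : Set G) ⊓ (S : Subgroup G) := ⟨_, rfl⟩
    have hhD : h ∈ D := by
      rw [hD]; exact ⟨Sylow.smul_eq_iff_mem_normalizer.mp hQ, (hs h hh).2⟩
    have hhD' : h' ∈ D := by
      rw [hD]; exact ⟨Sylow.smul_eq_iff_mem_normalizer.mp hQ', (hs h' hh').2⟩
    have hD2 : Nat.card D ∣ 2 := by
      have h38 : Nat.card D ∣ 38 := by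
        rw [← hNQ, hD]; exact Subgroup.card_dvd_of_le inf_le_left
      have h64 : Nat.card D ∣ 64 := by
        rw [← hS, hD]; exact Subgroup.card_dvd_of_le inf_le_right
      have := Nat.dvd_gcd h38 h64
      simpa using this
    have ho : orderOf h = 2 := orderOf_eq_prime (by rw [pow_two]; exact h1) h2
    have hz : Subgroup.zpowers h = D := by
      apply Subgroup.eq_of_le_of_card_ge (Subgroup.zpowers_le.mpr hhD)
      rw [Nat.card_zpowers, ho]
      exact Nat.le_of_dvd (by norm_num) hD2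
    rw [← hz] at hhD'
    obtain ⟨k, hk⟩ := Subgroup.mem_zpowers_iff.mp hhD'
    rcases Int.even_or_odd' k with ⟨m, hm | hm⟩
    · apply h2'
      rw [← hk, hm, zpow_mul, zpow_ofNat, pow_two, h1, one_zpow]
    · apply hne
      rw [← hk, hm, zpow_add, zpow_mul, zpow_ofNat, pow_two, h1, one_zpow, one_mul, zpow_one]
  have hcard : (s.biUnion Fix).card = 4 * s.card := by
    rw [Finset.card_biUnion hdisj, Finset.sum_congr rfl hFcard, Finset.sum_const, smul_eq_mul,
      mul_comm]
  have hle : (s.biUnion Fix).card ≤ 96 := by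
    have h1 := Finset.card_le_univ (s.biUnion Fix)
    rw [← Nat.card_eq_fintype_card, hn] at h1
    exact h1
  omega

/-- two involutions lie in a common Sylow `2`-subgroup, or in `N(P) ∖ C(P)` for a Sylow
`3`-subgroup `P`, or in `N(Q) ∖ Q` for a Sylow `19`-subgroup `Q` -/
theorem pair_cases [Fact (Nat.Prime 19)] (hG : Nat.card G = 3648) (a b : G) (ha : a * a = 1)
    (hb : b * b = 1) (ha1 : a ≠ 1) (hb1 : b ≠ 1) :
    (∃ S : Sylow 2 G, a ∈ (S : Subgroup G) ∧ b ∈ (S : Subgroup G)) ∨
    (∃ R : Sylow 3 G, (a ∈ Subgroup.normalizer ((R : Subgroup G) : Set G) ∧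
        a ∉ Subgroup.centralizer ((R : Subgroup G) : Set G)) ∧
      (b ∈ Subgroup.normalizer ((R : Subgroup G) : Set G) ∧
        b ∉ Subgroup.centralizer ((R : Subgroup G) : Set G))) ∨
    (∃ Q : Sylow 19 G, (a ∈ Subgroup.normalizer ((Q : Subgroup G) : Set G) ∧
        a ∉ (Q : Subgroup G)) ∧
      (b ∈ Subgroup.normalizer ((Q : Subgroup G) : Set G) ∧ b ∉ (Q : Subgroup G))) := by
  have hoa : orderOf a = 2 := orderOf_eq_prime (by rw [pow_two]; exact ha) ha1
  have hob : orderOf b = 2 := orderOf_eq_prime (by rw [pow_two]; exact hb) hb1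
  obtain ⟨g, hg⟩ : ∃ g, g = a * b := ⟨_, rfl⟩
  have hga : a * g * a⁻¹ = g⁻¹ := by rw [hg]; exact inv_prod_left a b ha hb
  have hgb : b * g * b⁻¹ = g⁻¹ := by rw [hg]; exact inv_prod_right a b ha hb
  have hog : orderOf g ∣ 3648 := by rw [← hG]; exact orderOf_dvd_natCard g
  have hpos : orderOf g ≠ 0 := (orderOf_pos g).ne'
  by_cases h19 : 19 ∣ orderOf g
  · right; right
    obtain ⟨y, hy⟩ : ∃ y, y = g ^ (orderOf g / 19) := ⟨_, rfl⟩
    have hoy : orderOf y = 19 := by rw [hy]; exact orderOf_pow_orderOf_div hpos h19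
    have hya : a * y * a⁻¹ = y⁻¹ := by rw [hy]; exact conj_pow_inv a g hga _
    have hyb : b * y * b⁻¹ = y⁻¹ := by rw [hy]; exact conj_pow_inv b g hgb _
    have hpg : IsPGroup 19 (Subgroup.zpowers y) := by
      apply IsPGroup.of_card (n := 1)
      rw [Nat.card_zpowers, hoy, pow_one]
    obtain ⟨Q, hQ⟩ := hpg.exists_le_sylow
    obtain ⟨hQc, -, -, -⟩ := syl19 hG Q
    have hQeq : Subgroup.zpowers y = (Q : Subgroup G) := by
      apply Subgroup.eq_of_le_of_card_ge hQ
      rw [Nat.card_zpowers, hoy, hQc]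
    refine ⟨Q, ⟨?_, ?_⟩, ⟨?_, ?_⟩⟩
    · rw [← hQeq]; exact mem_normalizer_zpowers_of_inv a y ha hya
    · intro hmem
      have := Subgroup.orderOf_dvd_natCard _ hmem
      rw [hoa, hQc] at this
      norm_num at this
    · rw [← hQeq]; exact mem_normalizer_zpowers_of_inv b y hb hyb
    · intro hmem
      have := Subgroup.orderOf_dvd_natCard _ hmem
      rw [hob, hQc] at this
      norm_num at this
  · by_cases h3 : 3 ∣ orderOf g
    · right; left
      obtain ⟨y, hy⟩ : ∃ y, y = g ^ (orderOf g / 3) := ⟨_, rfl⟩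
      have hoy : orderOf y = 3 := by rw [hy]; exact orderOf_pow_orderOf_div hpos h3
      have hya : a * y * a⁻¹ = y⁻¹ := by rw [hy]; exact conj_pow_inv a g hga _
      have hyb : b * y * b⁻¹ = y⁻¹ := by rw [hy]; exact conj_pow_inv b g hgb _
      have hpg : IsPGroup 3 (Subgroup.zpowers y) := by
        apply IsPGroup.of_card (n := 1)
        rw [Nat.card_zpowers, hoy, pow_one]
      obtain ⟨R, hR⟩ := hpg.exists_le_sylow
      have hRc : Nat.card (R : Subgroup G) = 3 := by
        simpa using card_sylow_eq_of_card_eq 3 1 1216 (by rw [hG]; norm_num) (by norm_num) R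
      have hReq : Subgroup.zpowers y = (R : Subgroup G) := by
        apply Subgroup.eq_of_le_of_card_ge hR
        rw [Nat.card_zpowers, hoy, hRc]
      have hyR : y ∈ (R : Subgroup G) := by rw [← hReq]; exact Subgroup.mem_zpowers y
      have hnc : ∀ c : G, c * y * c⁻¹ = y⁻¹ →
          c ∉ Subgroup.centralizer ((R : Subgroup G) : Set G) := by
        intro c hc hmem
        have h1 : y * c = c * y := Subgroup.mem_centralizer_iff.mp hmem y hyR
        have h2 : c * y * c⁻¹ = y := by rw [← h1, mul_inv_cancel_right]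
        rw [h2] at hc
        have h3 : y ^ 2 = 1 := by
          rw [pow_two]
          nth_rewrite 2 [hc]
          exact mul_inv_cancel _
        have h4 := orderOf_dvd_of_pow_eq_one h3
        rw [hoy] at h4
        norm_num at h4
      refine ⟨R, ⟨?_, hnc a hya⟩, ⟨?_, hnc b hyb⟩⟩
      · rw [← hReq]; exact mem_normalizer_zpowers_of_inv a y ha hya
      · rw [← hReq]; exact mem_normalizer_zpowers_of_inv b y hb hyb
    · left
      have hcop : Nat.Coprime (orderOf g) 57 := by
        have h57 : (57 : ℕ) = 3 * 19 := by norm_num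
        rw [h57]
        apply Nat.Coprime.mul_right
        · rw [Nat.coprime_comm]
          exact (Nat.Prime.coprime_iff_not_dvd Nat.prime_three).mpr h3
        · rw [Nat.coprime_comm]
          exact (Nat.Prime.coprime_iff_not_dvd (by norm_num : Nat.Prime 19)).mpr h19
      have h64 : orderOf g ∣ 2 ^ 6 := by
        have h1 : orderOf g ∣ 2 ^ 6 * 57 := by
          have : (2 : ℕ) ^ 6 * 57 = 3648 := by norm_num
          rw [this]; exact hog
        exact hcop.dvd_of_dvd_mul_right h1
      obtain ⟨j, -, hj⟩ := (Nat.dvd_prime_pow Nat.prime_two).mp h64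
      have hpg : IsPGroup 2 (Subgroup.zpowers g) := by
        apply IsPGroup.of_card (n := j)
        rw [Nat.card_zpowers, hj]
      have hpa : IsPGroup 2 (Subgroup.zpowers a) := by
        apply IsPGroup.of_card (n := 1)
        rw [Nat.card_zpowers, hoa, pow_one]
      have hle : Subgroup.zpowers a ≤
          Subgroup.normalizer ((Subgroup.zpowers g : Subgroup G) : Set G) :=
        Subgroup.zpowers_le.mpr (mem_normalizer_zpowers_of_inv a g ha hga)
      have hsup := IsPGroup.to_sup_of_normal_right' hpa hpg hle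
      obtain ⟨S, hS⟩ := hsup.exists_le_sylow
      have haS : a ∈ (S : Subgroup G) := hS (Subgroup.mem_sup_left (Subgroup.mem_zpowers a))
      have hgS : g ∈ (S : Subgroup G) := hS (Subgroup.mem_sup_right (Subgroup.mem_zpowers g))
      refine ⟨S, haS, ?_⟩
      have hbg : b = a⁻¹ * g := by rw [hg, inv_mul_cancel_left]
      rw [hbg]
      exact Subgroup.mul_mem _ (Subgroup.inv_mem _ haS) hgS

end main

/-- No finite simple group has order 3648 = 2^6 * 3 * 19. -/
theorem result {G : Type*} [Group G] [Finite G] [IsSimpleGroup G] : Nat.card G ≠ 3648 := by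
  intro hG
  classical
  have hGn : ¬ (Nat.card G).Prime := by rw [hG]; norm_num
  have : Fact (Nat.Prime 19) := ⟨by norm_num⟩
  have : Fintype G := Fintype.ofFinite _
  have : Fintype (Sylow 2 G) := Fintype.ofFinite _
  have : Fintype (Sylow 3 G) := Fintype.ofFinite _
  have : Fintype (Sylow 19 G) := Fintype.ofFinite _
  obtain ⟨P⟩ := (Sylow.nonempty : Nonempty (Sylow 19 G))
  obtain ⟨hP, hn19, hN, hC⟩ := syl19 hG P
  -- an involution in `N(P)`
  obtain ⟨t0, ht0⟩ := exists_prime_orderOf_dvd_card'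
    (G := ↥(Subgroup.normalizer ((P : Subgroup G) : Set G))) 2 (by rw [hN]; norm_num)
  obtain ⟨t, htdef⟩ : ∃ t : G, t = (t0 : G) := ⟨_, rfl⟩
  have hto : orderOf t = 2 := by rw [htdef, Subgroup.orderOf_coe, ht0]
  have ht : t * t = 1 := by rw [← pow_two, ← hto]; exact pow_orderOf_eq_one _
  have ht1 : t ≠ 1 := by
    intro h
    rw [h, orderOf_one] at hto
    norm_num at hto
  have htN : t ∈ Subgroup.normalizer ((P : Subgroup G) : Set G) := by rw [htdef]; exact t0.2
  -- its class
  obtain ⟨T, hT⟩ : ∃ T : Finset G, T = Finset.univ.filter (fun h => IsConj t h) := ⟨_, rfl⟩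
  have hTmem : ∀ h, h ∈ T ↔ IsConj t h := by
    intro h; rw [hT, Finset.mem_filter]; simp
  have hTcard : 456 ≤ T.card := by
    have h1 := card_class_ge hG P t ht ht1 htN
    rw [Nat.card_eq_fintype_card, Fintype.card_of_subtype T hTmem] at h1
    exact h1
  have hTprops : ∀ h ∈ T, h * h = 1 ∧ h ≠ 1 := by
    intro h hh
    obtain ⟨h1, h2, -⟩ := conj_props P t ht ht1 htN h ((hTmem h).mp hh)
    exact ⟨h1, h2⟩
  -- Sylow `3`-data
  have hP3 : ∀ R : Sylow 3 G, Nat.card (R : Subgroup G) = 3 := fun R => by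
    simpa using card_sylow_eq_of_card_eq 3 1 1216 (by rw [hG]; norm_num) (by norm_num) R
  have hc3 := card_sylow_mem_cands (G := G) 3 1 1216 (by rw [hG]; norm_num) (by norm_num)
  have hcl3 : sylowCands 3 1216 = [1, 4, 16, 19, 64, 76, 304, 1216] := by decide +kernel
  rw [hcl3] at hc3
  have hn3ne : Nat.card (Sylow 3 G) ≠ 1 :=
    card_sylow_ne_one 3 (by rw [hG]; norm_num) 2 (by norm_num) (by norm_num)
      (by rw [hG]; norm_num)
  have hfact3 := card_dvd_factorial_card_sylow (G := G) 3 hn3ne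
  rw [hG] at hfact3
  have hrel3 : ∀ R : Sylow 3 G,
      2 * Nat.card (Subgroup.centralizer ((R : Subgroup G) : Set G)) =
        Nat.card (Subgroup.normalizer ((R : Subgroup G) : Set G)) := by
    intro R
    obtain ⟨hr1, hr2, hr3, -⟩ := relIndex_centralizer_sylow_prime hGn 3 R (hP3 R)
    obtain ⟨r, hr⟩ : ∃ r, r = (Subgroup.centralizer ((R : Subgroup G) : Set G)).relIndex
        (Subgroup.normalizer ((R : Subgroup G) : Set G)) := ⟨_, rfl⟩
    rw [← hr] at hr1 hr2 hr3
    have h2 : r ∣ 2 := by simpa using hr2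
    have hr2' : r ≤ 2 := Nat.le_of_dvd (by norm_num) h2
    have hr0 : r ≠ 0 := by
      rintro rfl
      rw [zero_mul] at hr3
      have := Nat.card_pos (α := ↥(Subgroup.normalizer ((R : Subgroup G) : Set G)))
      omega
    have hr2'' : r = 2 := by omega
    rw [hr2''] at hr3
    exact hr3
  have hN3 : ∀ R : Sylow 3 G, Nat.card (Sylow 3 G) *
      Nat.card (Subgroup.normalizer ((R : Subgroup G) : Set G)) = 3648 := fun R => by
    rw [card_sylow_mul_card_normalizer 3 R, hG]
  obtain ⟨P3⟩ := (Sylow.nonempty : Nonempty (Sylow 3 G))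
  obtain ⟨n3, hn3⟩ : ∃ n3, n3 = Nat.card (Sylow 3 G) := ⟨_, rfl⟩
  obtain ⟨c3, hc3def⟩ : ∃ c3, c3 = Nat.card (Subgroup.centralizer ((P3 : Subgroup G) : Set G)) :=
    ⟨_, rfl⟩
  rw [← hn3] at hc3 hn3ne hfact3 hN3
  have hnc : n3 * c3 = 1824 := by
    have h1 : n3 * (2 * c3) = 3648 := by rw [hc3def, hrel3 P3]; exact hN3 P3
    have h2 : n3 * (2 * c3) = 2 * (n3 * c3) := by ring
    omega
  have hn0 : n3 ≠ 0 := by
    rintro rfl
    omega
  have hcent : ∀ R : Sylow 3 G,
      Nat.card (Subgroup.centralizer ((R : Subgroup G) : Set G)) = c3 := by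
    intro R
    have h1 := hN3 R
    rw [← hrel3 R] at h1
    have h2 : n3 * Nat.card (Subgroup.centralizer ((R : Subgroup G) : Set G)) = n3 * c3 := by
      have h3 : n3 * (2 * Nat.card (Subgroup.centralizer ((R : Subgroup G) : Set G))) =
          2 * (n3 * Nat.card (Subgroup.centralizer ((R : Subgroup G) : Set G))) := by ring
      omega
    exact Nat.eq_of_mul_eq_mul_left (Nat.pos_of_ne_zero hn0) h2
  have hc3le : c3 ≤ 24 := by
    simp only [List.mem_cons, List.not_mem_nil, or_false] at hc3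
    rcases hc3 with h | h | h | h | h | h | h | h
    · exact absurd h hn3ne
    · rw [h] at hfact3
      exact absurd hfact3 (by decide +kernel)
    · rw [h] at hfact3
      exact absurd hfact3 (by decide +kernel)
    · exfalso
      have hidx : (Subgroup.normalizer ((P3 : Subgroup G) : Set G)).index = 19 := by
        have h1 : Nat.card (Sylow 3 G) =
            (Subgroup.normalizer ((P3 : Subgroup G) : Set G)).index :=
          P3.card_eq_index_normalizer
        rw [← h1, ← hn3, h]
      have h1 := two_mul_card_normalizer_dvd_of_index_prime hGn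
        (Subgroup.normalizer ((P3 : Subgroup G) : Set G)) 19 (by norm_num) hidx P
      rw [hN] at h1
      norm_num at h1
    · rw [h] at hnc; omega
    · rw [h] at hnc; omega
    · rw [h] at hnc; omega
    · rw [h] at hnc; omega
  -- Sylow `2`-count
  have hn2 : Nat.card (Sylow 2 G) ∣ 57 :=
    card_sylow_dvd_of_card_eq 2 6 57 (by rw [hG]; norm_num)
  have hn2le : Nat.card (Sylow 2 G) ≤ 57 := Nat.le_of_dvd (by norm_num) hn2
  -- the three families of pairs
  obtain ⟨fA, hfA⟩ : ∃ fA : Sylow 2 G → Finset G,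
      fA = fun S : Sylow 2 G => T.filter (fun h => h ∈ (S : Subgroup G)) := ⟨_, rfl⟩
  obtain ⟨fB, hfB⟩ : ∃ fB : Sylow 3 G → Finset G,
      fB = fun R : Sylow 3 G => T.filter (fun h => h ∈ Subgroup.normalizer ((R : Subgroup G) : Set G) ∧
        h ∉ Subgroup.centralizer ((R : Subgroup G) : Set G)) := ⟨_, rfl⟩
  obtain ⟨fC, hfC⟩ : ∃ fC : Sylow 19 G → Finset G,
      fC = fun Q : Sylow 19 G => T.filter (fun h => h ∈ Subgroup.normalizer ((Q : Subgroup G) : Set G) ∧
        h ∉ (Q : Subgroup G)) := ⟨_, rfl⟩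
  have hfAmem : ∀ S h, h ∈ fA S ↔ h ∈ T ∧ h ∈ (S : Subgroup G) := by
    intro S h; rw [hfA, Finset.mem_filter]
  have hfBmem : ∀ R h, h ∈ fB R ↔ h ∈ T ∧
      (h ∈ Subgroup.normalizer ((R : Subgroup G) : Set G) ∧
        h ∉ Subgroup.centralizer ((R : Subgroup G) : Set G)) := by
    intro R h; rw [hfB, Finset.mem_filter]
  have hfCmem : ∀ Q h, h ∈ fC Q ↔ h ∈ T ∧
      (h ∈ Subgroup.normalizer ((Q : Subgroup G) : Set G) ∧ h ∉ (Q : Subgroup G)) := by
    intro Q h; rw [hfC, Finset.mem_filter]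
  have hAcard : ∀ S, (fA S).card ≤ 24 := by
    intro S
    apply card_conj_inter_sylow2_le hG P t ht ht1 htN S
    intro h hh
    rw [hfAmem] at hh
    exact ⟨(hTmem h).mp hh.1, hh.2⟩
  have hBcard : ∀ R, (fB R).card ≤ c3 := by
    intro R
    have h1 := card_finset_diff_le (Subgroup.centralizer ((R : Subgroup G) : Set G))
      (Subgroup.normalizer ((R : Subgroup G) : Set G)) (Subgroup.centralizer_le_normalizer _)
      (fB R) (fun x hx => ((hfBmem R x).mp hx).2)
    rw [← hrel3 R, hcent R] at h1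
    omega
  have hCcard : ∀ Q, (fC Q).card ≤ 19 := by
    intro Q
    obtain ⟨hQc, -, hQN, -⟩ := syl19 hG Q
    have h1 := card_finset_diff_le (Q : Subgroup G)
      (Subgroup.normalizer ((Q : Subgroup G) : Set G)) Subgroup.le_normalizer
      (fC Q) (fun x hx => ((hfCmem Q x).mp hx).2)
    rw [hQc, hQN] at h1
    omega
  have hsub : T ×ˢ T ⊆
      (Finset.univ.biUnion (fun S => fA S ×ˢ fA S)) ∪
        ((Finset.univ.biUnion (fun R => fB R ×ˢ fB R)) ∪
          (Finset.univ.biUnion (fun Q => fC Q ×ˢ fC Q))) := by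
    intro x hx
    rw [Finset.mem_product] at hx
    obtain ⟨h1a, h1b⟩ := hTprops x.1 hx.1
    obtain ⟨h2a, h2b⟩ := hTprops x.2 hx.2
    rcases pair_cases hG x.1 x.2 h1a h2a h1b h2b with ⟨S, hS1, hS2⟩ | ⟨R, hR1, hR2⟩ | ⟨Q, hQ1, hQ2⟩
    · apply Finset.mem_union_left
      rw [Finset.mem_biUnion]
      exact ⟨S, Finset.mem_univ _, Finset.mem_product.mpr
        ⟨(hfAmem S _).mpr ⟨hx.1, hS1⟩, (hfAmem S _).mpr ⟨hx.2, hS2⟩⟩⟩
    · apply Finset.mem_union_right
      apply Finset.mem_union_left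
      rw [Finset.mem_biUnion]
      exact ⟨R, Finset.mem_univ _, Finset.mem_product.mpr
        ⟨(hfBmem R _).mpr ⟨hx.1, hR1⟩, (hfBmem R _).mpr ⟨hx.2, hR2⟩⟩⟩
    · apply Finset.mem_union_right
      apply Finset.mem_union_right
      rw [Finset.mem_biUnion]
      exact ⟨Q, Finset.mem_univ _, Finset.mem_product.mpr
        ⟨(hfCmem Q _).mpr ⟨hx.1, hQ1⟩, (hfCmem Q _).mpr ⟨hx.2, hQ2⟩⟩⟩
  have hA : ((Finset.univ : Finset (Sylow 2 G)).biUnion (fun S => fA S ×ˢ fA S)).card ≤
      57 * (24 * 24) := by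
    refine (Finset.card_biUnion_le_card_mul _ _ (24 * 24) ?_).trans ?_
    · intro S _
      rw [Finset.card_product]
      exact Nat.mul_le_mul (hAcard S) (hAcard S)
    · rw [Finset.card_univ, ← Nat.card_eq_fintype_card]
      exact Nat.mul_le_mul_right _ hn2le
  have hB : ((Finset.univ : Finset (Sylow 3 G)).biUnion (fun R => fB R ×ˢ fB R)).card ≤
      1824 * 24 := by
    refine (Finset.card_biUnion_le_card_mul _ _ (c3 * c3) ?_).trans ?_
    · intro R _
      rw [Finset.card_product]
      exact Nat.mul_le_mul (hBcard R) (hBcard R)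
    · rw [Finset.card_univ, ← Nat.card_eq_fintype_card, ← hn3, ← mul_assoc, hnc]
      exact Nat.mul_le_mul_left _ hc3le
  have hC' : ((Finset.univ : Finset (Sylow 19 G)).biUnion (fun Q => fC Q ×ˢ fC Q)).card ≤
      96 * (19 * 19) := by
    refine (Finset.card_biUnion_le_card_mul _ _ (19 * 19) ?_).trans ?_
    · intro Q _
      rw [Finset.card_product]
      exact Nat.mul_le_mul (hCcard Q) (hCcard Q)
    · rw [Finset.card_univ, ← Nat.card_eq_fintype_card, hn19]
  have hfinal : T.card * T.card ≤ 57 * (24 * 24) + (1824 * 24 + 96 * (19 * 19)) := by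
    rw [← Finset.card_product]
    refine (Finset.card_le_card hsub).trans ?_
    refine (Finset.card_union_le _ _).trans ?_
    refine Nat.add_le_add hA ?_
    refine (Finset.card_union_le _ _).trans ?_
    exact Nat.add_le_add hB hC'
  have hsq : 456 * 456 ≤ T.card * T.card := Nat.mul_le_mul hTcard hTcard
  omega

end Cfsg.Agent.S0974
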