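import Cfsg.Statements.S0975
import Cfsg.Agent.Lib.Helper90.BrauerDeg

set_option autoImplicit false
open Cfsg

namespace Cfsg.Agent.S0975

open Cfsg.Agent.Lib.Helper17 Cfsg.Agent.Lib.Helper90.BrauerDeg

/-- no pair of divisors of `3744` solves Brauer's degree equation for `p = 13` -/
theorem arith_3744 (x y : ℕ) (hx : x ∣ 3744) (hy : y ∣ 3744) (hx1 : x ≠ 1) :
    ¬ (x % 13 = 1 ∧ y = x + 1) ∧ ¬ (x % 13 = 12 ∧ x = y + 1) := by
  have hx' : x ∈ Nat.divisors 3744 := Nat.mem_divisors.mpr ⟨hx, by norm_num⟩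
  have hy' : y ∈ Nat.divisors 3744 := Nat.mem_divisors.mpr ⟨hy, by norm_num⟩
  have key : ∀ x ∈ Nat.divisors 3744, ∀ y ∈ Nat.divisors 3744, x ≠ 1 →
      ¬ (x % 13 = 1 ∧ y = x + 1) ∧ ¬ (x % 13 = 12 ∧ x = y + 1) := by decide +kernel
  exact key x hx' y hy' hx1

/-- No finite simple group has order 3744 = 2^5 * 3^2 * 13. -/
theorem result {G : Type*} [Group G] [Finite G] [IsSimpleGroup G] : Nat.card G ≠ 3744 := by
  intro hG
  haveI : Fact (Nat.Prime 13) := ⟨by norm_num⟩
  have hGn : ¬ (Nat.card G).Prime := by rw [hG]; norm_num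
  obtain ⟨P⟩ := (Sylow.nonempty : Nonempty (Sylow 13 G))
  have hP : Nat.card (P : Subgroup G) = 13 := by
    simpa using card_sylow_eq_of_card_eq 13 1 288 (by rw [hG]; norm_num) (by norm_num) P
  have hn : Nat.card (Sylow 13 G) = 144 := by
    have hc := card_sylow_mem_cands (G := G) 13 1 288 (by rw [hG]; norm_num) (by norm_num)
    have hcl : sylowCands 13 288 = [1, 144] := by decide +kernel
    rw [hcl] at hc
    have h3 : Nat.card (Sylow 13 G) ≠ 1 :=
      card_sylow_ne_one 13 (by rw [hG]; norm_num) 2 (by norm_num) (by norm_num)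
        (by rw [hG]; norm_num)
    simp only [List.mem_cons, List.not_mem_nil, or_false] at hc
    omega
  have hN : Nat.card (Subgroup.normalizer ((P : Subgroup G) : Set G)) = 26 := by
    have h4 := card_sylow_mul_card_normalizer 13 P
    rw [hn, hG] at h4
    omega
  obtain ⟨hr1, hr2, hr3, -⟩ := relIndex_centralizer_sylow_prime hGn 13 P hP
  rw [hN] at hr3
  have hm : (Subgroup.centralizer ((P : Subgroup G) : Set G)).relIndex
      (Subgroup.normalizer ((P : Subgroup G) : Set G)) = 2 := by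
    obtain ⟨r, hr⟩ : ∃ r, r = (Subgroup.centralizer ((P : Subgroup G) : Set G)).relIndex
        (Subgroup.normalizer ((P : Subgroup G) : Set G)) := ⟨_, rfl⟩
    rw [← hr] at hr1 hr2 hr3 ⊢
    have h12 : r ∣ 12 := by simpa using hr2
    have h26 : r ∣ 26 := Dvd.intro _ hr3
    have h2 : r ∣ 2 := by
      have := Nat.dvd_gcd h12 h26
      simpa using this
    have hr2' : r ≤ 2 := Nat.le_of_dvd (by norm_num) h2
    interval_cases r
    · omega
    · exact absurd rfl hr1
    · rfl
  obtain ⟨k, a, x, d, δ, y, hk, hδ, hax, hy0, hyd, hrel, hfin⟩ :=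
    brauer_simple hGn 13 P hP 2 (by norm_num) hm
  rw [hG] at hyd
  have h6 : ((13 - 1) / 2 : ℕ) = 6 := by norm_num
  rw [h6] at hrel hfin
  push_cast at hrel hfin
  have hS : 0 ≤ ∑ i, a i ^ 2 := Finset.sum_nonneg (fun i _ => sq_nonneg _)
  have hd : d = 0 := by
    have h1 : d ≤ 0 := by nlinarith [sq_nonneg (d - δ)]
    have h2 : 0 ≤ d := by nlinarith [sq_nonneg (d - δ)]
    omega
  subst hd
  have hδ2 : δ ^ 2 = 1 := by rcases hδ with rfl | rfl <;> norm_num
  have hsum : ∑ i, a i ^ 2 = 1 := by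
    have h0 : (0 - δ) ^ 2 = 1 := by rw [zero_sub, neg_sq]; exact hδ2
    nlinarith
  have hk' : k = 0 ∨ k = 1 := by omega
  rcases hk' with rfl | rfl
  · simp at hsum
  · simp only [Fin.sum_univ_succ, Fin.sum_univ_zero, add_zero] at hsum hfin
    obtain ⟨ha0, hxd, hx1, hxa⟩ := hax 0
    rw [hG] at hxd
    have ha : a 0 = 1 ∨ a 0 = -1 := by
      have h1 : (a 0 - 1) * (a 0 + 1) = 0 := by nlinarith
      rcases mul_eq_zero.mp h1 with h | h
      · left; omega
      · right; omega
    have hxpos : 0 < x 0 := Nat.pos_of_dvd_of_pos hxd (by norm_num)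
    have harith := arith_3744 (x 0) y hxd hyd hx1
    unfold Int.ModEq at hxa
    rcases hδ with rfl | rfl <;> rcases ha with h | h <;> rw [h] at hfin hxa
    · exact harith.1 ⟨by omega, by omega⟩
    · omega
    · omega
    · exact harith.2 ⟨by omega, by omega⟩

end Cfsg.Agent.S0975
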