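import Cfsg.Statements.S0976
import Cfsg.Agent.Lib.Helper91.SSBasic
import Cfsg.Agent.Lib.Helper91.SSSum
import Cfsg.Agent.Lib.Helper91.SSBrauer
import Cfsg.Agent.Lib.Helper91.SSDihedral
import Cfsg.Agent.Lib.Helper17.PrimeSylow

set_option autoImplicit false
open Cfsg

namespace Cfsg.Agent.S0976

open Cfsg.Agent.Lib.Helper17 Cfsg.Agent.Lib.Helper91.SS

/-- Brauer's degree equation for `p = 7`, `e = 2` among divisors of `4032` -/
theorem arith_m2 (x y : ℕ) (hx : x ∣ 4032) (hy : y ∣ 4032) (hx1 : x ≠ 1) :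
    (x % 7 = 1 ∧ y = x + 1 → x = 8) ∧ ¬ (x % 7 = 6 ∧ x = y + 1) := by
  have hx' : x ∈ Nat.divisors 4032 := Nat.mem_divisors.mpr ⟨hx, by norm_num⟩
  have hy' : y ∈ Nat.divisors 4032 := Nat.mem_divisors.mpr ⟨hy, by norm_num⟩
  have key : ∀ x ∈ Nat.divisors 4032, ∀ y ∈ Nat.divisors 4032, x ≠ 1 →
      (x % 7 = 1 ∧ y = x + 1 → x = 8) ∧ ¬ (x % 7 = 6 ∧ x = y + 1) := by decide +kernel
  exact key x hx' y hy' hx1

/-- The principal `7`-block when `[N(P) : C(P)] = 2`: characters of degrees `8` and `9`. -/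
theorem block_m2 {G : Type*} [Group G] [Finite G] [IsSimpleGroup G] (hG : Nat.card G = 4032)
    (P : Sylow 7 G) (hP : Nat.card (P : Subgroup G) = 7)
    (hm : (Subgroup.centralizer ((P : Subgroup G) : Set G)).relIndex
      (Subgroup.normalizer ((P : Subgroup G) : Set G)) = 2) :
    ∃ χ η : IrrCharacter G, (χ : G → ℂ) 1 = 8 ∧ (η : G → ℂ) 1 = 9 ∧
      (∀ z y : G, IsPPart 7 z y → y ∈ (P : Subgroup G) → y ≠ 1 → (χ : G → ℂ) z = 1) ∧
      (∀ g : G, ¬ 7 ∣ orderOf g → (η : G → ℂ) g = 1 + (χ : G → ℂ) g) ∧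
      ∑ᶠ y : (P : Subgroup G), (η : G → ℂ) (y : G) = 7 := by
  have : Fact (Nat.Prime 7) := ⟨by norm_num⟩
  have hGn : ¬ (Nat.card G).Prime := by rw [hG]; norm_num
  obtain ⟨k, χ, a, η, d, δ, hk, hδ, hχ, hη1, hηP, hnorm, hrel, hj, hreal⟩ :=
    brauer_chars hGn 7 P hP 2 (by norm_num) hm
  have h3 : ((7 - 1) / 2 : ℕ) = 3 := by norm_num
  rw [h3] at hnorm hrel
  push_cast at hnorm hrel
  have hirrη := η.2
  obtain ⟨hyd, hypos, hydvd⟩ := Cfsg.Agent.Lib.Helper79.irr_charDegree hirrη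
  rw [hG] at hydvd
  obtain ⟨y, hydef⟩ : ∃ y, y = Cfsg.charDegree ((η : IrrCharacter G) : G → ℂ) := ⟨_, rfl⟩
  rw [← hydef] at hyd hypos hydvd
  have hrel1 := hrel 1 (by rw [orderOf_one]; norm_num)
  have hk' : k = 0 ∨ k = 1 := by omega
  rcases hk' with rfl | rfl
  · exfalso
    simp only [Finset.univ_eq_empty, Finset.sum_empty, add_zero] at hnorm hrel1
    rw [hyd] at hrel1
    have hrel1' : (3 * d - δ) * (y : ℤ) + 1 = 0 := by
      have h : (((3 * d - δ) * (y : ℤ) + 1 : ℤ) : ℂ) = 0 := by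
        push_cast
        exact hrel1
      exact_mod_cast h
    have hd : -1 ≤ d ∧ d ≤ 1 := by
      constructor <;> rcases hδ with rfl | rfl <;> nlinarith [sq_nonneg (d - 1), sq_nonneg (d + 1)]
    obtain ⟨hd1, hd2⟩ := hd
    interval_cases d <;> rcases hδ with rfl | rfl <;> norm_num at hnorm <;> omega
  · simp only [Fin.sum_univ_succ, Fin.sum_univ_zero, add_zero] at hnorm hrel hrel1
    obtain ⟨ha0, hx1, hxa⟩ := hχ 0
    have hirr := (χ 0).2
    obtain ⟨hxd, hxpos, hxdvd⟩ := Cfsg.Agent.Lib.Helper79.irr_charDegree hirr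
    rw [hG] at hxdvd
    obtain ⟨x, hxdef⟩ : ∃ x, x = Cfsg.charDegree ((χ 0 : IrrCharacter G) : G → ℂ) := ⟨_, rfl⟩
    rw [← hxdef] at hxd hxpos hxdvd
    have hx1' : x ≠ 1 := by
      intro h
      apply hx1
      rw [hxd, h]
      norm_num
    have hmod : (x : ℤ) ≡ a 0 [ZMOD 7] := by
      have := Cfsg.Agent.Lib.Helper90.BrauerDeg.degree_modEq hirr 7 (P : Subgroup G) hP (a 0)
        (fun y hy hy1 => hxa y y (isPPart_self (by norm_num) _ hP y hy hy1) hy hy1)
      rw [← hxdef] at this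
      exact_mod_cast this
    rw [hxd, hyd] at hrel1
    have hrel1' : (3 * d - δ) * (y : ℤ) + 1 + a 0 * (x : ℤ) = 0 := by
      have h : (((3 * d - δ) * (y : ℤ) + 1 + a 0 * (x : ℤ) : ℤ) : ℂ) = 0 := by
        push_cast
        exact hrel1
      exact_mod_cast h
    have hapos : 0 < a 0 ^ 2 := by positivity
    have hd : d = 0 := by
      have hd' : -1 ≤ d ∧ d ≤ 1 := by
        constructor <;> rcases hδ with rfl | rfl <;>
          nlinarith [sq_nonneg (d - 1), sq_nonneg (d + 1)]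
      obtain ⟨hd1, hd2⟩ := hd'
      obtain ⟨A, hA⟩ : ∃ A, A = a 0 ^ 2 := ⟨_, rfl⟩
      rw [← hA] at hnorm hapos
      interval_cases d <;> rcases hδ with rfl | rfl <;> norm_num at hnorm ⊢ <;> omega
    subst hd
    have ha2 : a 0 ^ 2 = 1 := by
      rcases hδ with rfl | rfl <;> norm_num at hnorm <;> linarith
    have ha : a 0 = 1 ∨ a 0 = -1 := by
      have h1 : (a 0 - 1) * (a 0 + 1) = 0 := by nlinarith
      rcases mul_eq_zero.mp h1 with h | h
      · left; omega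
      · right; omega
    have harith := arith_m2 x y hxdvd hydvd hx1'
    unfold Int.ModEq at hmod
    have hxy : x = 8 ∧ y = 9 ∧ a 0 = 1 ∧ δ = 1 := by
      rcases hδ with h | h <;> rcases ha with h' | h' <;> rw [h, h'] at hrel1' <;> rw [h'] at hmod
      · have := harith.1 ⟨by omega, by omega⟩
        exact ⟨this, by omega, h', h⟩
      · omega
      · omega
      · exact absurd ⟨by omega, by omega⟩ harith.2
    obtain ⟨hx8, hy9, ha1, hδ1⟩ := hxy
    refine ⟨χ 0, η, ?_, ?_, ?_, ?_, ?_⟩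
    · rw [hxd, hx8]
      norm_num
    · rw [hyd, hy9]
      norm_num
    · intro z y' hz hy' hy'1
      rw [hxa z y' hz hy' hy'1, ha1]
      norm_num
    · intro g hg
      have h := hrel g hg
      rw [ha1, hδ1] at h
      push_cast at h
      linear_combination -h
    · obtain ⟨j, nP, hj1, hj2, hsum, hjeq⟩ := hj
      rw [← hydef, hy9, hδ1] at hjeq
      have hnP : nP = 1 := by
        push_cast at hjeq
        omega
      rw [hsum, hnP]
      norm_num

/-- The case `n_7 = 36`: `[N(P) : C(P)] = 2` with an involution in `C(P)`. -/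
theorem case_36 {G : Type*} [Group G] [Finite G] [IsSimpleGroup G] (hG : Nat.card G = 4032)
    (P : Sylow 7 G) (hP : Nat.card (P : Subgroup G) = 7)
    (hm : (Subgroup.centralizer ((P : Subgroup G) : Set G)).relIndex
      (Subgroup.normalizer ((P : Subgroup G) : Set G)) = 2)
    (c : G) (hc : c ∈ Subgroup.centralizer ((P : Subgroup G) : Set G))
    (hc2 : orderOf c = 2) : False := by
  have : Fact (Nat.Prime 7) := ⟨by norm_num⟩
  have hGn : ¬ (Nat.card G).Prime := by rw [hG]; norm_num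
  obtain ⟨χ, η, hχ1, hη1, hA1, hA2, hA3⟩ := block_m2 hG P hP hm
  have hirr := χ.2
  have hchar := Cfsg.Agent.Lib.Helper80.isCharacter_of_isIrrCharacter hirr
  obtain ⟨t, ht1, ht2, htC, n, hn⟩ := sum_involution_centralizer hirr 7 (by norm_num)
    (P : Subgroup G) hP 1 hA1 c hc hc2
  obtain ⟨k4, hk4⟩ := mod_four hGn hchar t ht2
  rw [hχ1] at hn hk4
  have hnk : 14 * n + 4 * k4 = 28 := by
    have h : ((14 * n + 4 * k4 : ℕ) : ℂ) = ((28 : ℕ) : ℂ) := by
      push_cast at hn ⊢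
      linear_combination hk4 - hn
    exact Nat.cast_injective h
  have hb := Cfsg.Agent.Lib.Helper80.norm_char_le_charDegree hchar t
  have hdeg : Cfsg.charDegree (χ : G → ℂ) = 8 := by
    obtain ⟨h1, -, -⟩ := Cfsg.Agent.Lib.Helper79.irr_charDegree hirr
    rw [hχ1] at h1
    exact_mod_cast h1.symm
  have hk : k4 = 0 ∨ k4 = 7 := by omega
  rcases hk with rfl | rfl
  · apply ht1
    apply eq_one_of_char_eq χ (by rw [hχ1]; norm_num) t
    rw [hχ1]
    linear_combination hk4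
  · have hval : (χ : G → ℂ) t = -20 := by
      push_cast at hk4
      linear_combination hk4
    rw [hval, hdeg] at hb
    norm_num at hb

/-- candidates for the degrees of the non-exceptional characters -/
theorem arith_cands (x : ℕ) (hx : x ∣ 4032) (hx1 : x ≠ 1) :
    (x % 7 = 1 → x ∈ [8, 36, 64, 288]) ∧ (x % 7 = 6 → x ∈ [6, 48]) := by
  have hx' : x ∈ Nat.divisors 4032 := Nat.mem_divisors.mpr ⟨hx, by norm_num⟩
  have key : ∀ x ∈ Nat.divisors 4032, x ≠ 1 →
      (x % 7 = 1 → x ∈ [8, 36, 64, 288]) ∧ (x % 7 = 6 → x ∈ [6, 48]) := by decide +kernel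
  exact key x hx' hx1

/-- Brauer's degree equation for `p = 7`, `e = 3` among divisors of `4032` -/
theorem arith_64 (x₀ x₁ y : ℕ) (a₀ a₁ ε : ℤ) (hx₀ : x₀ ∣ 4032) (hx₁ : x₁ ∣ 4032) (hy : y ∣ 4032)
    (h0 : x₀ ≠ 1) (h1 : x₁ ≠ 1) (ha₀ : a₀ = 1 ∨ a₀ = -1) (ha₁ : a₁ = 1 ∨ a₁ = -1)
    (hε : ε = 1 ∨ ε = -1) (hm₀ : (x₀ : ℤ) % 7 = a₀ % 7) (hm₁ : (x₁ : ℤ) % 7 = a₁ % 7)
    (hrel : ε * y + 1 + a₀ * x₀ + a₁ * x₁ = 0) :
    (a₀ = -1 ∧ x₀ = 6) ∨ (a₁ = -1 ∧ x₁ = 6) := by
  have hy' : y ∈ Nat.divisors 4032 := Nat.mem_divisors.mpr ⟨hy, by norm_num⟩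
  have key : ∀ x₀ ∈ ([6, 8, 36, 48, 64, 288] : List ℕ),
      ∀ x₁ ∈ ([6, 8, 36, 48, 64, 288] : List ℕ),
      ∀ y ∈ Nat.divisors 4032, ∀ a₀ ∈ [(1 : ℤ), -1], ∀ a₁ ∈ [(1 : ℤ), -1], ∀ ε ∈ [(1 : ℤ), -1],
      (x₀ : ℤ) % 7 = a₀ % 7 → (x₁ : ℤ) % 7 = a₁ % 7 →
        ε * (y : ℤ) + 1 + a₀ * (x₀ : ℤ) + a₁ * (x₁ : ℤ) = 0 →
        (a₀ = -1 ∧ x₀ = 6) ∨ (a₁ = -1 ∧ x₁ = 6) := by decide +kernel
  have hc0 := arith_cands x₀ hx₀ h0
  have hc1 := arith_cands x₁ hx₁ h1
  have hx₀' : x₀ ∈ [6, 8, 36, 48, 64, 288] := by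
    rcases ha₀ with rfl | rfl
    · have h := hc0.1 (by omega)
      simp only [List.mem_cons, List.not_mem_nil, or_false] at h ⊢
      omega
    · have h := hc0.2 (by omega)
      simp only [List.mem_cons, List.not_mem_nil, or_false] at h ⊢
      omega
  have hx₁' : x₁ ∈ [6, 8, 36, 48, 64, 288] := by
    rcases ha₁ with rfl | rfl
    · have h := hc1.1 (by omega)
      simp only [List.mem_cons, List.not_mem_nil, or_false] at h ⊢
      omega
    · have h := hc1.2 (by omega)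
      simp only [List.mem_cons, List.not_mem_nil, or_false] at h ⊢
      omega
  exact key x₀ hx₀' x₁ hx₁' y hy' a₀ (by rcases ha₀ with rfl | rfl <;> simp)
    a₁ (by rcases ha₁ with rfl | rfl <;> simp) ε (by rcases hε with rfl | rfl <;> simp)
    hm₀ hm₁ hrel

/-- a complex number whose real part equals a bound for its norm is real -/
theorem eq_of_re_eq_of_norm_le (z : ℂ) (r : ℝ) (h1 : z.re = r) (h2 : ‖z‖ ≤ r) : z = (r : ℂ) := by
  have h3 : ‖z‖ ^ 2 = z.re ^ 2 + z.im ^ 2 := by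
    rw [Complex.sq_norm, Complex.normSq_apply]
    ring
  have h4 : z.im ^ 2 ≤ 0 := by nlinarith [norm_nonneg z]
  have h5 : z.im = 0 := by nlinarith [sq_nonneg z.im]
  apply Complex.ext
  · simp [h1]
  · simp [h5]

/-- The case `n_7 = 64`: `[N(P) : C(P)] = 3` with an element of order `3` in `C(P)`. -/
theorem case_64 {G : Type*} [Group G] [Finite G] [IsSimpleGroup G] (hG : Nat.card G = 4032)
    (P : Sylow 7 G) (hP : Nat.card (P : Subgroup G) = 7)
    (hm : (Subgroup.centralizer ((P : Subgroup G) : Set G)).relIndex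
      (Subgroup.normalizer ((P : Subgroup G) : Set G)) = 3)
    (c : G) (hc : c ∈ Subgroup.centralizer ((P : Subgroup G) : Set G))
    (hc3 : orderOf c = 3) : False := by
  have : Fact (Nat.Prime 7) := ⟨by norm_num⟩
  have hGn : ¬ (Nat.card G).Prime := by rw [hG]; norm_num
  obtain ⟨k, χ, a, η, d, δ, hk, hδ, hχ, hη1, hηP, hnorm, hrel, hj, hreal⟩ :=
    brauer_chars hGn 7 P hP 3 (by norm_num) hm
  have h2 : ((7 - 1) / 3 : ℕ) = 2 := by norm_num
  rw [h2] at hnorm hrel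
  push_cast at hnorm hrel
  -- a character with `a = -1` of degree `6` is impossible
  have hkill : ∀ i, a i = -1 → Cfsg.charDegree ((χ i : IrrCharacter G) : G → ℂ) = 6 → False := by
    intro i hai hdeg
    obtain ⟨-, hx1, hxa⟩ := hχ i
    have hirr := (χ i).2
    have hchar := Cfsg.Agent.Lib.Helper80.isCharacter_of_isIrrCharacter hirr
    obtain ⟨hxd, -, -⟩ := Cfsg.Agent.Lib.Helper79.irr_charDegree hirr
    rw [hdeg] at hxd
    obtain ⟨t, ht1, ht3, htC, n, hn⟩ := sum_order_three_centralizer hirr 7 (by norm_num)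
      (P : Subgroup G) hP (a i) hxa c hc hc3
    rw [hai, hxd, Cfsg.Agent.Lib.Helper80.char_inv_eq_conj hchar t] at hn
    have hb := Cfsg.Agent.Lib.Helper80.norm_char_le_charDegree hchar t
    rw [hdeg] at hb
    obtain ⟨z, hz⟩ : ∃ z, z = ((χ i : IrrCharacter G) : G → ℂ) t := ⟨_, rfl⟩
    rw [← hz] at hn hb
    have h1 : z + (starRingEnd ℂ) z = ((21 * n + 12 : ℕ) : ℂ) := by
      push_cast at hn ⊢
      linear_combination hn
    rw [Complex.add_conj] at h1
    have h2 : 2 * z.re = ((21 * n + 12 : ℕ) : ℝ) := by exact_mod_cast h1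
    have hb' : ‖z‖ ≤ 6 := by exact_mod_cast hb
    have h3 : z.re ≤ 6 := le_trans (Complex.re_le_norm z) hb'
    have hn0 : n = 0 := by
      have h4 : ((21 * n + 12 : ℕ) : ℝ) ≤ 12 := by rw [← h2]; linarith
      have h5 : 21 * n + 12 ≤ 12 := by exact_mod_cast h4
      omega
    subst hn0
    have h4 : z.re = 6 := by
      push_cast at h2
      linarith
    have h5 := eq_of_re_eq_of_norm_le z 6 h4 hb'
    apply ht1
    apply eq_one_of_char_eq (χ i) hx1 t
    rw [hxd, ← hz, h5]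
    norm_num
  have hd : -1 ≤ d ∧ d ≤ 1 := by
    have hSnn : 0 ≤ ∑ i, a i ^ 2 := Finset.sum_nonneg (fun i _ => sq_nonneg _)
    constructor <;> rcases hδ with rfl | rfl <;>
      nlinarith [sq_nonneg (d - 1), sq_nonneg (d + 1)]
  have hS : ∑ i, a i ^ 2 = 2 ∧ (2 * d - δ = 1 ∨ 2 * d - δ = -1) := by
    obtain ⟨hd1, hd2⟩ := hd
    have hSnn : 0 ≤ ∑ i, a i ^ 2 := Finset.sum_nonneg (fun i _ => sq_nonneg _)
    obtain ⟨A, hA⟩ : ∃ A, A = ∑ i, a i ^ 2 := ⟨_, rfl⟩
    rw [← hA] at hnorm hSnn ⊢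
    interval_cases d <;> rcases hδ with rfl | rfl <;> norm_num at hnorm ⊢ <;> omega
  obtain ⟨hS, hε⟩ := hS
  have hrel1 := hrel 1 (by rw [orderOf_one]; norm_num)
  have hirrη := η.2
  obtain ⟨hyd, hypos, hydvd⟩ := Cfsg.Agent.Lib.Helper79.irr_charDegree hirrη
  rw [hG] at hydvd
  have hk' : k = 0 ∨ k = 1 ∨ k = 2 := by omega
  rcases hk' with rfl | rfl | rfl
  · simp at hS
  · simp only [Fin.sum_univ_succ, Fin.sum_univ_zero, add_zero] at hS
    obtain ⟨b, hb⟩ : ∃ b, b = a 0 := ⟨_, rfl⟩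
    rw [← hb] at hS
    have hb1 : -1 ≤ b ∧ b ≤ 1 := by constructor <;> nlinarith
    obtain ⟨hb1, hb2⟩ := hb1
    interval_cases b <;> omega
  · simp only [Fin.sum_univ_two] at hS hrel1
    obtain ⟨ha0, hx0, hxa0⟩ := hχ 0
    obtain ⟨ha1, hx1, hxa1⟩ := hχ 1
    have hirr0 := (χ 0).2
    have hirr1 := (χ 1).2
    obtain ⟨hxd0, hxpos0, hxdvd0⟩ := Cfsg.Agent.Lib.Helper79.irr_charDegree hirr0
    obtain ⟨hxd1, hxpos1, hxdvd1⟩ := Cfsg.Agent.Lib.Helper79.irr_charDegree hirr1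
    rw [hG] at hxdvd0 hxdvd1
    have hmod0 := Cfsg.Agent.Lib.Helper90.BrauerDeg.degree_modEq hirr0 7 (P : Subgroup G) hP (a 0)
        (fun y hy hy1 => hxa0 y y (isPPart_self (by norm_num) _ hP y hy hy1) hy hy1)
    have hmod1 := Cfsg.Agent.Lib.Helper90.BrauerDeg.degree_modEq hirr1 7 (P : Subgroup G) hP (a 1)
        (fun y hy hy1 => hxa1 y y (isPPart_self (by norm_num) _ hP y hy hy1) hy hy1)
    obtain ⟨x₀, hx₀⟩ : ∃ x₀, x₀ = Cfsg.charDegree ((χ 0 : IrrCharacter G) : G → ℂ) := ⟨_, rfl⟩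
    obtain ⟨x₁, hx₁⟩ : ∃ x₁, x₁ = Cfsg.charDegree ((χ 1 : IrrCharacter G) : G → ℂ) := ⟨_, rfl⟩
    obtain ⟨y, hy⟩ : ∃ y, y = Cfsg.charDegree ((η : IrrCharacter G) : G → ℂ) := ⟨_, rfl⟩
    rw [← hx₀] at hxd0 hxdvd0 hmod0
    rw [← hx₁] at hxd1 hxdvd1 hmod1
    rw [← hy] at hyd hydvd
    have hx₀1 : x₀ ≠ 1 := by
      intro h
      apply hx0
      rw [hxd0, h]
      norm_num
    have hx₁1 : x₁ ≠ 1 := by
      intro h
      apply hx1
      rw [hxd1, h]
      norm_num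
    rw [hxd0, hxd1, hyd] at hrel1
    have hrel1' : (2 * d - δ) * (y : ℤ) + 1 + a 0 * (x₀ : ℤ) + a 1 * (x₁ : ℤ) = 0 := by
      have h : (((2 * d - δ) * (y : ℤ) + 1 + a 0 * (x₀ : ℤ) + a 1 * (x₁ : ℤ) : ℤ) : ℂ) = 0 := by
        push_cast
        linear_combination hrel1
      exact_mod_cast h
    have hp0 : 0 < a 0 ^ 2 := by positivity
    have hp1 : 0 < a 1 ^ 2 := by positivity
    have hsq0 : a 0 ^ 2 = 1 := by omega
    have hsq1 : a 1 ^ 2 = 1 := by omega
    have hpm : ∀ b : ℤ, b ^ 2 = 1 → b = 1 ∨ b = -1 := by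
      intro b hb
      have h1 : (b - 1) * (b + 1) = 0 := by nlinarith
      rcases mul_eq_zero.mp h1 with h | h
      · left; omega
      · right; omega
    have hfin := arith_64 x₀ x₁ y (a 0) (a 1) (2 * d - δ) hxdvd0 hxdvd1 hydvd hx₀1 hx₁1
      (hpm _ hsq0) (hpm _ hsq1) hε hmod0 hmod1 hrel1'
    rcases hfin with ⟨h, h'⟩ | ⟨h, h'⟩
    · exact hkill 0 h (by rw [← hx₀, h'])
    · exact hkill 1 h (by rw [← hx₁, h'])

/-- The case `n_7 = 288`: `N(P)` is dihedral of order `14`. -/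
theorem case_288 {G : Type*} [Group G] [Finite G] [IsSimpleGroup G] (hG : Nat.card G = 4032)
    (P : Sylow 7 G) (hn : Nat.card (Sylow 7 G) = 288) : False := by
  classical
  have : Fact (Nat.Prime 7) := ⟨by norm_num⟩
  have h7 : Nat.Prime 7 := by norm_num
  have hGn : ¬ (Nat.card G).Prime := by rw [hG]; norm_num
  have hQ : ∀ Q : Sylow 7 G, Nat.card (Q : Subgroup G) = 7 := fun Q => by
    simpa using card_sylow_eq_of_card_eq 7 1 576 (by rw [hG]; norm_num) (by norm_num) Q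
  have hN : ∀ Q : Sylow 7 G,
      Nat.card (Subgroup.normalizer ((Q : Subgroup G) : Set G)) = 2 * 7 := by
    intro Q
    have h4 := card_sylow_mul_card_normalizer 7 Q
    rw [hn, hG] at h4
    omega
  have hr : ∀ Q : Sylow 7 G, (Subgroup.centralizer ((Q : Subgroup G) : Set G)).relIndex
      (Subgroup.normalizer ((Q : Subgroup G) : Set G)) = 2 ∧
      Subgroup.centralizer ((Q : Subgroup G) : Set G) = (Q : Subgroup G) := by
    intro Q
    obtain ⟨hr1, hr2, hr3, hQC⟩ := relIndex_centralizer_sylow_prime hGn 7 Q (hQ Q)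
    rw [hN Q] at hr3
    obtain ⟨r, hr⟩ : ∃ r, r = (Subgroup.centralizer ((Q : Subgroup G) : Set G)).relIndex
      (Subgroup.normalizer ((Q : Subgroup G) : Set G)) := ⟨_, rfl⟩
    rw [← hr] at hr1 hr2 hr3 ⊢
    have h6 : r ∣ 6 := by simpa using hr2
    have hr6 : r ≤ 6 := Nat.le_of_dvd (by norm_num) h6
    have hr2' : r = 2 := by
      interval_cases r <;> omega
    refine ⟨hr2', ?_⟩
    rw [hr2'] at hr3
    have hC7 : Nat.card (Subgroup.centralizer ((Q : Subgroup G) : Set G)) = 7 := by omega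
    exact (Subgroup.eq_of_le_of_card_ge hQC (by rw [hC7, hQ Q])).symm
  have hC : ∀ Q : Sylow 7 G,
      Subgroup.centralizer ((Q : Subgroup G) : Set G) = (Q : Subgroup G) := fun Q => (hr Q).2
  obtain ⟨χ, η, hχ1, hη1, hA1, hA2, hA3⟩ := block_m2 hG P (hQ P) (hr P).1
  -- an involution of N(P)
  obtain ⟨s', hs'⟩ := exists_prime_orderOf_dvd_card'
    (G := Subgroup.normalizer ((P : Subgroup G) : Set G)) 2 (by rw [hN P]; norm_num)
  obtain ⟨s, hsdef⟩ : ∃ s : G, s = (s' : G) := ⟨_, rfl⟩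
  have hsN : s ∈ Subgroup.normalizer ((P : Subgroup G) : Set G) := by rw [hsdef]; exact s'.2
  have hso : orderOf s = 2 := by rw [hsdef, Subgroup.orderOf_coe]; exact hs'
  have hs1 : s ≠ 1 := by
    intro h
    rw [h, orderOf_one] at hso
    omega
  have hs2 : s * s = 1 := by
    rw [← pow_two, ← hso]
    exact pow_orderOf_eq_one s
  have hirr := χ.2
  have hirrη := η.2
  have hchar := Cfsg.Agent.Lib.Helper80.isCharacter_of_isIrrCharacter hirr
  have hcharη := Cfsg.Agent.Lib.Helper80.isCharacter_of_isIrrCharacter hirrη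
  have : Fintype G := Fintype.ofFinite G
  obtain ⟨Φ, hΦdef⟩ : ∃ Φ : G → ℂ, Φ = fun g => 1 + (χ : G → ℂ) g - (η : G → ℂ) g := ⟨_, rfl⟩
  have hΦ : ∀ g x : G, Φ (g * x * g⁻¹) = Φ x := by
    intro g x
    rw [hΦdef]
    simp only
    rw [Cfsg.Agent.Lib.Helper80.char_conj_eq hchar x g,
      Cfsg.Agent.Lib.Helper80.char_conj_eq hcharη x g]
  have hΦ0 : ∀ g : G, ¬ 7 ∣ orderOf g → Φ g = 0 := by
    intro g hg
    rw [hΦdef]
    simp only
    rw [hA2 g hg]
    ring
  have hmain := sum_conj_involution_mul 7 (by norm_num) hQ hC hN P s hsN hs1 hs2 Φ hΦ hΦ0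
  have hPsum : ∑ᶠ y : (P : Subgroup G), Φ (y : G) = 14 := by
    have : Fintype (P : Subgroup G) := Fintype.ofFinite _
    rw [finsum_eq_sum_of_fintype] at hA3 ⊢
    have h1 : ∑ y : (P : Subgroup G), ((χ : G → ℂ) (y : G) - 1) = 7 := by
      rw [Finset.sum_eq_single (1 : (P : Subgroup G))]
      · rw [Subgroup.coe_one, hχ1]
        norm_num
      · intro y _ hy1
        have hy1' : (y : G) ≠ 1 := fun h => hy1 (Subtype.ext h)
        rw [hA1 y y (isPPart_self h7 _ (hQ P) y y.2 hy1') y.2 hy1']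
        ring
      · intro h
        exact absurd (Finset.mem_univ _) h
    have h2 : ∑ y : (P : Subgroup G), (2 : ℂ) = 14 := by
      rw [Finset.sum_const, Finset.card_univ, ← Nat.card_eq_fintype_card, hQ P]
      norm_num
    calc ∑ y : (P : Subgroup G), Φ (y : G)
        = ∑ y : (P : Subgroup G),
            ((((χ : G → ℂ) (y : G) - 1) + 2) - (η : G → ℂ) (y : G)) := by
          apply Finset.sum_congr rfl
          intro y _
          rw [hΦdef]
          ring
      _ = 7 + 14 - 7 := by rw [Finset.sum_sub_distrib, Finset.sum_add_distrib, h1, h2, hA3]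
      _ = 14 := by norm_num
  have hsreg : ¬ 7 ∣ orderOf s := by rw [hso]; norm_num
  obtain ⟨k4, hk4⟩ := mod_four hGn hchar s hs2
  rw [hχ1] at hk4
  have hχs : (χ : G → ℂ) s = 8 - 4 * (k4 : ℂ) := by linear_combination hk4
  have hηs : (η : G → ℂ) s = 9 - 4 * (k4 : ℂ) := by rw [hA2 s hsreg, hχs]; ring
  have hLHS : ∑ g : G, Φ (g * s * g⁻¹ * s) = 896 * (k4 : ℂ) ^ 2 := by
    rw [hΦdef]
    simp only
    rw [Finset.sum_sub_distrib, Finset.sum_add_distrib,
      Cfsg.Agent.Lib.Helper79.irr_sum_conj_mul hirr s s,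
      Cfsg.Agent.Lib.Helper79.irr_sum_conj_mul hirrη s s, hχ1, hη1, hχs, hηs, hG]
    simp only [Finset.sum_const, Finset.card_univ, nsmul_eq_mul, mul_one]
    rw [← Nat.card_eq_fintype_card, hG]
    push_cast
    ring
  rw [hLHS, hPsum] at hmain
  obtain ⟨M, hM⟩ : ∃ M, M = Nat.card (Subgroup.centralizer ({s} : Set G)) := ⟨_, rfl⟩
  rw [← hM] at hmain
  have hMk : M * M = 128 * (k4 * k4) := by
    have h : ((M * M : ℕ) : ℂ) = ((128 * (k4 * k4) : ℕ) : ℂ) := by
      push_cast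
      linear_combination (-1 / 14 : ℂ) * hmain
    exact Nat.cast_injective h
  have hk0 : k4 ≠ 0 := by
    rintro rfl
    apply hs1
    apply eq_one_of_char_eq χ (by rw [hχ1]; norm_num) s
    rw [hχs, hχ1]
    norm_num
  have hdeg : Cfsg.charDegree (χ : G → ℂ) = 8 := by
    obtain ⟨h1, -, -⟩ := Cfsg.Agent.Lib.Helper79.irr_charDegree hirr
    rw [hχ1] at h1
    exact_mod_cast h1.symm
  have hb := Cfsg.Agent.Lib.Helper80.norm_char_le_charDegree hchar s
  rw [hχs, hdeg] at hb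
  have hk4le : k4 ≤ 4 := by
    have h1 : (8 : ℂ) - 4 * (k4 : ℂ) = ((8 - 4 * (k4 : ℤ) : ℤ) : ℂ) := by
      push_cast
      ring
    rw [h1, Complex.norm_intCast] at hb
    have h2 : |(8 - 4 * (k4 : ℤ) : ℤ)| ≤ 8 := by exact_mod_cast hb
    have h3 := abs_le.mp h2
    omega
  have hMle : M ≤ 45 := by nlinarith
  interval_cases k4 <;> interval_cases M <;> omega

/-- No finite simple group has order 4032 = 2^6 * 3^2 * 7. -/
theorem result {G : Type*} [Group G] [Finite G] [IsSimpleGroup G] : Nat.card G ≠ 4032 := by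
  intro hG
  have : Fact (Nat.Prime 7) := ⟨by norm_num⟩
  have hGn : ¬ (Nat.card G).Prime := by rw [hG]; norm_num
  obtain ⟨P⟩ := (Sylow.nonempty : Nonempty (Sylow 7 G))
  have hP : Nat.card (P : Subgroup G) = 7 := by
    simpa using card_sylow_eq_of_card_eq 7 1 576 (by rw [hG]; norm_num) (by norm_num) P
  have hc := card_sylow_mem_cands (G := G) 7 1 576 (by rw [hG]; norm_num) (by norm_num)
  have hcl : sylowCands 7 576 = [1, 8, 36, 64, 288] := by decide +kernel
  rw [hcl] at hc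
  have h1 : Nat.card (Sylow 7 G) ≠ 1 :=
    card_sylow_ne_one 7 (by rw [hG]; norm_num) 2 (by norm_num) (by norm_num)
      (by rw [hG]; norm_num)
  have h4 := card_sylow_mul_card_normalizer 7 P
  rw [hG] at h4
  obtain ⟨hr1, hr2, hr3, -⟩ := relIndex_centralizer_sylow_prime hGn 7 P hP
  obtain ⟨r, hr⟩ : ∃ r, r = (Subgroup.centralizer ((P : Subgroup G) : Set G)).relIndex
      (Subgroup.normalizer ((P : Subgroup G) : Set G)) := ⟨_, rfl⟩
  rw [← hr] at hr1 hr2 hr3
  have h6 : r ∣ 6 := by simpa using hr2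
  have hr6 : r ≤ 6 := Nat.le_of_dvd (by norm_num) h6
  simp only [List.mem_cons, List.not_mem_nil, or_false] at hc
  rcases hc with h | h | h | h | h
  · exact h1 h
  · have hd := card_normalizer_dvd_of_card_sylow_succ 7 h (by rw [hG]; norm_num) P
    rw [h] at h4
    have hN : Nat.card (Subgroup.normalizer ((P : Subgroup G) : Set G)) = 504 := by omega
    rw [hN] at hd
    revert hd
    decide
  · rw [h] at h4
    have hN : Nat.card (Subgroup.normalizer ((P : Subgroup G) : Set G)) = 112 := by omega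
    rw [hN] at hr3
    have hr2' : r = 2 := by
      interval_cases r <;> omega
    have hC : Nat.card (Subgroup.centralizer ((P : Subgroup G) : Set G)) = 56 := by
      rw [hr2'] at hr3
      omega
    obtain ⟨c', hc'⟩ := exists_prime_orderOf_dvd_card'
      (G := Subgroup.centralizer ((P : Subgroup G) : Set G)) 2 (by rw [hC]; norm_num)
    exact case_36 hG P hP (by rw [← hr, hr2']) (c' : G) c'.2
      (by rw [Subgroup.orderOf_coe]; exact hc')
  · rw [h] at h4
    have hN : Nat.card (Subgroup.normalizer ((P : Subgroup G) : Set G)) = 63 := by omega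
    rw [hN] at hr3
    have hr2' : r = 3 := by
      interval_cases r <;> omega
    have hC : Nat.card (Subgroup.centralizer ((P : Subgroup G) : Set G)) = 21 := by
      rw [hr2'] at hr3
      omega
    obtain ⟨c', hc'⟩ := exists_prime_orderOf_dvd_card'
      (G := Subgroup.centralizer ((P : Subgroup G) : Set G)) 3 (by rw [hC]; norm_num)
    exact case_64 hG P hP (by rw [← hr, hr2']) (c' : G) c'.2
      (by rw [Subgroup.orderOf_coe]; exact hc')
  · exact case_288 hG P h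

end Cfsg.Agent.S0976
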