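import Cfsg.Statements.S0977
import Cfsg.Agent.Lib.Helper91.SSFive
import Cfsg.Agent.Lib.Helper91.SSDihedral

set_option autoImplicit false
open Cfsg

namespace Cfsg.Agent.S0977

open Cfsg.Agent.Lib.Helper17 Cfsg.Agent.Lib.Helper91.SS

/-- the only solutions of Brauer's degree equation for `p = 5`, `e = 2` among divisors of `4320` -/
theorem arith_4320 (x y : ℕ) (hx : x ∣ 4320) (hy : y ∣ 4320) (hx1 : x ≠ 1) :
    ¬ (x % 5 = 1 ∧ y = x + 1) ∧ (x % 5 = 4 ∧ x = y + 1 → x = 4 ∨ x = 9) := by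
  have hx' : x ∈ Nat.divisors 4320 := Nat.mem_divisors.mpr ⟨hx, by norm_num⟩
  have hy' : y ∈ Nat.divisors 4320 := Nat.mem_divisors.mpr ⟨hy, by norm_num⟩
  have key : ∀ x ∈ Nat.divisors 4320, ∀ y ∈ Nat.divisors 4320, x ≠ 1 →
      ¬ (x % 5 = 1 ∧ y = x + 1) ∧ (x % 5 = 4 ∧ x = y + 1 → x = 4 ∨ x = 9) := by decide +kernel
  exact key x hx' y hy' hx1

/-- candidates for the degrees in the principal `5`-block -/
theorem list_4320 (f : ℕ) (hf : f ∣ 4320) (h1 : f ≠ 1) (hsq : f ^ 2 ≤ 4320)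
    (hmod : f % 5 = 1 ∨ f % 5 = 4) : f ∈ [4, 6, 9, 16, 24, 36, 54] := by
  have hf' : f ∈ Nat.divisors 4320 := Nat.mem_divisors.mpr ⟨hf, by norm_num⟩
  have key : ∀ f ∈ Nat.divisors 4320, f ≠ 1 → f ^ 2 ≤ 4320 → (f % 5 = 1 ∨ f % 5 = 4) →
      f ∈ [4, 6, 9, 16, 24, 36, 54] := by decide +kernel
  exact key f hf' h1 hsq hmod

/-- the value at the involution determined by the other three -/
def c3v (f₀ f₁ f₂ f₃ : ℕ) (c₀ c₁ c₂ : ℤ) : ℤ :=
  - sgnFive f₃ * (1 + (sgnFive f₀ * c₀ + sgnFive f₁ * c₁ + sgnFive f₂ * c₂))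

/-- the column sum -/
def sV (c₀ c₁ c₂ c₃ : ℤ) : ℤ := 1 + (c₀ ^ 2 + c₁ ^ 2 + c₂ ^ 2 + c₃ ^ 2)

/-- the class-equation side -/
def tV (f₀ f₁ f₂ f₃ : ℕ) (c₀ c₁ c₂ c₃ : ℤ) : ℤ :=
  864 + (sgnFive f₀ * c₀ ^ 2 * ((864 / f₀ : ℕ) : ℤ) + sgnFive f₁ * c₁ ^ 2 * ((864 / f₁ : ℕ) : ℤ) +
    sgnFive f₂ * c₂ ^ 2 * ((864 / f₂ : ℕ) : ℤ) + sgnFive f₃ * c₃ ^ 2 * ((864 / f₃ : ℕ) : ℤ))

/-- the check for one tuple -/
def chkV (f₀ f₁ f₂ f₃ k₀ k₁ k₂ : ℕ) : Prop :=
  sV ((f₀ : ℤ) - 4 * (k₀ : ℤ)) ((f₁ : ℤ) - 4 * (k₁ : ℤ)) ((f₂ : ℤ) - 4 * (k₂ : ℤ))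
      (c3v f₀ f₁ f₂ f₃ ((f₀ : ℤ) - 4 * (k₀ : ℤ)) ((f₁ : ℤ) - 4 * (k₁ : ℤ)) ((f₂ : ℤ) - 4 * (k₂ : ℤ))) *
    sV ((f₀ : ℤ) - 4 * (k₀ : ℤ)) ((f₁ : ℤ) - 4 * (k₁ : ℤ)) ((f₂ : ℤ) - 4 * (k₂ : ℤ))
      (c3v f₀ f₁ f₂ f₃ ((f₀ : ℤ) - 4 * (k₀ : ℤ)) ((f₁ : ℤ) - 4 * (k₁ : ℤ)) ((f₂ : ℤ) - 4 * (k₂ : ℤ))) ≤
    tV f₀ f₁ f₂ f₃ ((f₀ : ℤ) - 4 * (k₀ : ℤ)) ((f₁ : ℤ) - 4 * (k₁ : ℤ)) ((f₂ : ℤ) - 4 * (k₂ : ℤ))
      (c3v f₀ f₁ f₂ f₃ ((f₀ : ℤ) - 4 * (k₀ : ℤ)) ((f₁ : ℤ) - 4 * (k₁ : ℤ)) ((f₂ : ℤ) - 4 * (k₂ : ℤ))) →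
  ∀ M ∈ Nat.divisors 4320, (M : ℤ) * (M : ℤ) ≠
    tV f₀ f₁ f₂ f₃ ((f₀ : ℤ) - 4 * (k₀ : ℤ)) ((f₁ : ℤ) - 4 * (k₁ : ℤ)) ((f₂ : ℤ) - 4 * (k₂ : ℤ))
      (c3v f₀ f₁ f₂ f₃ ((f₀ : ℤ) - 4 * (k₀ : ℤ)) ((f₁ : ℤ) - 4 * (k₁ : ℤ)) ((f₂ : ℤ) - 4 * (k₂ : ℤ)))

instance (f₀ f₁ f₂ f₃ k₀ k₁ k₂ : ℕ) : Decidable (chkV f₀ f₁ f₂ f₃ k₀ k₁ k₂) := by
  unfold chkV
  infer_instance

set_option maxRecDepth 100000 in
/-- the finite verification -/
theorem key_216 : ∀ f₀ ∈ ([4, 6, 9, 16, 24, 36, 54] : List ℕ),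
    ∀ f₁ ∈ ([4, 6, 9, 16, 24, 36, 54] : List ℕ),
    ∀ f₂ ∈ ([4, 6, 9, 16, 24, 36, 54] : List ℕ),
    ∀ f₃ ∈ ([4, 6, 9, 16, 24, 36, 54] : List ℕ),
    1 + (sgnFive f₀ * (f₀ : ℤ) + sgnFive f₁ * (f₁ : ℤ) + sgnFive f₂ * (f₂ : ℤ) +
      sgnFive f₃ * (f₃ : ℤ)) = 0 →
    ∀ k₀ ∈ List.range (f₀ / 2 + 1), ∀ k₁ ∈ List.range (f₁ / 2 + 1),
    ∀ k₂ ∈ List.range (f₂ / 2 + 1), chkV f₀ f₁ f₂ f₃ k₀ k₁ k₂ := by
  decide +kernel

/-- the arithmetic contradiction in the case `n_5 = 216` -/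
theorem arith_216 (f : Fin 4 → ℕ) (a : Fin 4 → ℤ) (k : Fin 4 → ℕ) (M : ℕ)
    (hf : ∀ i, f i ∈ [4, 6, 9, 16, 24, 36, 54]) (ha : ∀ i, a i = 1 ∨ a i = -1)
    (hmod : ∀ i, (f i : ℤ) % 5 = a i % 5)
    (hrel1 : 1 + ∑ i, a i * (f i : ℤ) = 0)
    (hk : ∀ i, 2 * k i ≤ f i)
    (hrels : 1 + ∑ i, a i * ((f i : ℤ) - 4 * (k i : ℤ)) = 0)
    (hM : M ∣ 4320)
    (hT : (M : ℤ) * (M : ℤ) =
      864 + ∑ i, a i * ((f i : ℤ) - 4 * (k i : ℤ)) ^ 2 * ((864 / f i : ℕ) : ℤ))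
    (hS : 1 + ∑ i, ((f i : ℤ) - 4 * (k i : ℤ)) ^ 2 ≤ (M : ℤ)) : False := by
  have hsg : ∀ i, a i = sgnFive (f i) := by
    intro i
    have h1 := hf i
    have h2 := hmod i
    unfold sgnFive
    simp only [List.mem_cons, List.not_mem_nil, or_false] at h1
    rcases ha i with h | h <;> rw [h] at h2 ⊢ <;> split_ifs with h3 <;> omega
  simp only [Fin.sum_univ_four] at hrel1 hrels hT hS
  rw [hsg 0, hsg 1, hsg 2, hsg 3] at hrel1 hrels hT
  have hkr : ∀ i, k i ∈ List.range (f i / 2 + 1) := fun i =>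
    List.mem_range.mpr (by have := hk i; omega)
  have h := key_216 (f 0) (hf 0) (f 1) (hf 1) (f 2) (hf 2) (f 3) (hf 3) hrel1
    (k 0) (hkr 0) (k 1) (hkr 1) (k 2) (hkr 2)
  unfold chkV at h
  have hs3 : sgnFive (f 3) * sgnFive (f 3) = 1 := by
    rcases ha 3 with h' | h' <;> rw [← hsg 3, h'] <;> norm_num
  have hc3 : c3v (f 0) (f 1) (f 2) (f 3) ((f 0 : ℤ) - 4 * (k 0 : ℤ)) ((f 1 : ℤ) - 4 * (k 1 : ℤ))
      ((f 2 : ℤ) - 4 * (k 2 : ℤ)) = (f 3 : ℤ) - 4 * (k 3 : ℤ) := by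
    unfold c3v
    linear_combination (-(sgnFive (f 3))) * hrels + ((f 3 : ℤ) - 4 * (k 3 : ℤ)) * hs3
  rw [hc3] at h
  have hMd : M ∈ Nat.divisors 4320 := Nat.mem_divisors.mpr ⟨hM, by norm_num⟩
  refine h ?_ M hMd ?_
  · unfold sV tV
    rw [← hT]
    have hS1 : (0 : ℤ) ≤ 1 + (((f 0 : ℤ) - 4 * (k 0 : ℤ)) ^ 2 + ((f 1 : ℤ) - 4 * (k 1 : ℤ)) ^ 2 +
        ((f 2 : ℤ) - 4 * (k 2 : ℤ)) ^ 2 + ((f 3 : ℤ) - 4 * (k 3 : ℤ)) ^ 2) := by positivity
    nlinarith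
  · unfold tV
    rw [hT]

/-- candidates for the degrees in the principal `5`-block (long list) -/
theorem list_4320' (f : ℕ) (hf : f ∣ 4320) (h1 : f ≠ 1) (hsq : f ^ 2 ≤ 4320)
    (hmod : f % 5 = 1 ∨ f % 5 = 4) : f ∈ [4, 6, 9, 16, 24, 36, 54, 64] := by
  have h := list_4320 f hf h1 hsq hmod
  simp only [List.mem_cons, List.not_mem_nil, or_false] at h ⊢
  omega

/-- The cases where `C(P)` contains an element of order `2` or `3`. -/
theorem case_central {G : Type*} [Group G] [Finite G] [IsSimpleGroup G] (hG : Nat.card G = 4320)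
    (P : Sylow 5 G) (hP : Nat.card (P : Subgroup G) = 5)
    (hC : 2 ∣ Nat.card (Subgroup.centralizer ((P : Subgroup G) : Set G)) ∨
      3 ∣ Nat.card (Subgroup.centralizer ((P : Subgroup G) : Set G))) : False := by
  have : Fact (Nat.Prime 5) := ⟨by norm_num⟩
  have hGn : ¬ (Nat.card G).Prime := by rw [hG]; norm_num
  obtain ⟨c, hc, hcq⟩ : ∃ c : G, c ∈ Subgroup.centralizer ((P : Subgroup G) : Set G) ∧
      (orderOf c = 2 ∨ orderOf c = 3) := by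
    rcases hC with h | h
    · obtain ⟨c', hc'⟩ := exists_prime_orderOf_dvd_card'
        (G := Subgroup.centralizer ((P : Subgroup G) : Set G)) 2 h
      exact ⟨(c' : G), c'.2, Or.inl (by rw [Subgroup.orderOf_coe]; exact hc')⟩
    · obtain ⟨c', hc'⟩ := exists_prime_orderOf_dvd_card'
        (G := Subgroup.centralizer ((P : Subgroup G) : Set G)) 3 h
      exact ⟨(c' : G), c'.2, Or.inr (by rw [Subgroup.orderOf_coe]; exact hc')⟩
  obtain ⟨hr1, hr2, hr3, -⟩ := relIndex_centralizer_sylow_prime hGn 5 P hP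
  obtain ⟨r, hr⟩ : ∃ r, r = (Subgroup.centralizer ((P : Subgroup G) : Set G)).relIndex
      (Subgroup.normalizer ((P : Subgroup G) : Set G)) := ⟨_, rfl⟩
  rw [← hr] at hr1 hr2 hr3
  have h4' : r ∣ 4 := by simpa using hr2
  have hr4 : r ≤ 4 := Nat.le_of_dvd (by norm_num) h4'
  have hr0 : r ≠ 0 := by
    rintro rfl
    simp at h4'
  have hr24 : r = 2 ∨ r = 4 := by
    interval_cases r
    · exact absurd rfl hr0
    · exact absurd rfl hr1
    · exact Or.inl rfl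
    · exact absurd h4' (by norm_num)
    · exact Or.inr rfl
  rcases hr24 with h | h
  · refine case_m2_five hGn ?_ P hP (by rw [← hr, h]) c hc hcq
    intro x y hx hy hx1
    rw [hG] at hx hy
    exact arith_4320 x y hx hy hx1
  · refine case_m4_five hGn ?_ P hP (by rw [← hr, h]) c hc hcq
    intro f hf h1 hsq hmod
    rw [hG] at hf hsq
    exact list_4320' f hf h1 hsq hmod

/-- The case `n_5 = 216` with self-centralizing Sylow `5`-subgroups: `N(P)` is a Frobenius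
group of order `20`. -/
theorem case_216 {G : Type*} [Group G] [Finite G] [IsSimpleGroup G] (hG : Nat.card G = 4320)
    (P : Sylow 5 G) (hn : Nat.card (Sylow 5 G) = 216)
    (hr : ∀ Q : Sylow 5 G, (Subgroup.centralizer ((Q : Subgroup G) : Set G)).relIndex
      (Subgroup.normalizer ((Q : Subgroup G) : Set G)) = 4 ∧
      Subgroup.centralizer ((Q : Subgroup G) : Set G) = (Q : Subgroup G)) : False := by
  classical
  have : Fact (Nat.Prime 5) := ⟨by norm_num⟩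
  have h5 : Nat.Prime 5 := by norm_num
  have hGn : ¬ (Nat.card G).Prime := by rw [hG]; norm_num
  have hQ : ∀ Q : Sylow 5 G, Nat.card (Q : Subgroup G) = 5 := fun Q => by
    simpa using card_sylow_eq_of_card_eq 5 1 864 (by rw [hG]; norm_num) (by norm_num) Q
  have hN : ∀ Q : Sylow 5 G,
      Nat.card (Subgroup.normalizer ((Q : Subgroup G) : Set G)) = 4 * 5 := by
    intro Q
    have h4 := card_sylow_mul_card_normalizer 5 Q
    rw [hn, hG] at h4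
    omega
  have hC : ∀ Q : Sylow 5 G,
      Subgroup.centralizer ((Q : Subgroup G) : Set G) = (Q : Subgroup G) := fun Q => (hr Q).2
  obtain ⟨χ, a, hinj, hχ, hrel, -⟩ := block_m4_five hGn P (hQ P) (hr P).1
  have hdegs : ∀ i, ((χ i : G → ℂ) 1 = (Cfsg.charDegree (χ i : G → ℂ) : ℂ)) ∧
      Cfsg.charDegree (χ i : G → ℂ) ∈ [4, 6, 9, 16, 24, 36, 54] ∧
      ((Cfsg.charDegree (χ i : G → ℂ) : ℕ) : ℤ) % 5 = a i % 5 := by
    intro i
    obtain ⟨ha, hx1, hxa⟩ := hχ i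
    have hirr := (χ i).2
    obtain ⟨hxd, hxpos, hxdvd⟩ := Cfsg.Agent.Lib.Helper79.irr_charDegree hirr
    have hmod := Cfsg.Agent.Lib.Helper90.BrauerDeg.degree_modEq hirr 5 (P : Subgroup G) (hQ P) (a i)
        (fun y hy hy1 => hxa y y (isPPart_self (by norm_num) _ (hQ P) y hy hy1) hy hy1)
    have hmod' : ((Cfsg.charDegree (χ i : G → ℂ) : ℕ) : ℤ) % 5 = a i % 5 := by
      have := hmod
      unfold Int.ModEq at this
      exact_mod_cast this
    refine ⟨hxd, ?_, hmod'⟩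
    rw [hG] at hxdvd
    apply list_4320 _ hxdvd
    · intro h
      apply hx1
      rw [hxd, h]
      norm_num
    · have := Cfsg.Agent.Lib.Helper80.charDegree_sq_le_card hirr
      rw [hG] at this
      exact this
    · rcases ha with h | h <;> rw [h] at hmod' <;> omega
  obtain ⟨f, hfdef⟩ : ∃ f : Fin 4 → ℕ, f = fun i => Cfsg.charDegree (χ i : G → ℂ) := ⟨_, rfl⟩
  have hfi : ∀ i, Cfsg.charDegree (χ i : G → ℂ) = f i := fun i => by rw [hfdef]
  have hf1 : ∀ i, (χ i : G → ℂ) 1 = (f i : ℂ) := fun i => by rw [← hfi i]; exact (hdegs i).1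
  have hfL : ∀ i, f i ∈ [4, 6, 9, 16, 24, 36, 54] := fun i => by
    rw [← hfi i]; exact (hdegs i).2.1
  have hfmod : ∀ i, (f i : ℤ) % 5 = a i % 5 := fun i => by rw [← hfi i]; exact (hdegs i).2.2
  -- an involution of `N(P)`
  obtain ⟨s', hs'⟩ := exists_prime_orderOf_dvd_card'
      (G := Subgroup.normalizer ((P : Subgroup G) : Set G)) 2 (by rw [hN P]; norm_num)
  obtain ⟨s, hsdef⟩ : ∃ s : G, s = (s' : G) := ⟨_, rfl⟩
  have hso : orderOf s = 2 := by rw [hsdef, Subgroup.orderOf_coe]; exact hs'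
  have hs1 : s ≠ 1 := by
    intro h
    rw [h, orderOf_one] at hso
    omega
  have hs2 : s * s = 1 := by
    rw [← pow_two, ← hso]
    exact pow_orderOf_eq_one s
  have hsN : s ∈ Subgroup.normalizer ((P : Subgroup G) : Set G) := by rw [hsdef]; exact s'.2
  have hsreg : ¬ 5 ∣ orderOf s := by rw [hso]; norm_num
  -- values at `s`
  have hvals : ∀ i, ∃ k : ℕ, (χ i : G → ℂ) s = (f i : ℂ) - 4 * (k : ℂ) ∧ 2 * k ≤ f i := by
    intro i
    have hchar := Cfsg.Agent.Lib.Helper80.isCharacter_of_isIrrCharacter (χ i).2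
    obtain ⟨k, hk⟩ := mod_four hGn hchar s hs2
    rw [hf1 i] at hk
    have hχs : (χ i : G → ℂ) s = (f i : ℂ) - 4 * (k : ℂ) := by linear_combination hk
    refine ⟨k, hχs, ?_⟩
    have hb := Cfsg.Agent.Lib.Helper80.norm_char_le_charDegree hchar s
    rw [hχs, hfi i] at hb
    have h1 : (f i : ℂ) - 4 * (k : ℂ) = (((f i : ℤ) - 4 * (k : ℤ) : ℤ) : ℂ) := by
      push_cast
      ring
    rw [h1, Complex.norm_intCast] at hb
    have h2 : |((f i : ℤ) - 4 * (k : ℤ) : ℤ)| ≤ (f i : ℤ) := by exact_mod_cast hb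
    have h3 := abs_le.mp h2
    omega
  choose k hk using hvals
  have : Fintype G := Fintype.ofFinite G
  obtain ⟨Φ, hΦdef⟩ : ∃ Φ : G → ℂ, Φ = fun g => 1 + ∑ i, (a i : ℂ) * (χ i : G → ℂ) g :=
    ⟨_, rfl⟩
  have hΦ : ∀ g u : G, Φ (g * u * g⁻¹) = Φ u := by
    intro g u
    rw [hΦdef]
    simp only
    congr 1
    apply Finset.sum_congr rfl
    intro i _
    rw [Cfsg.Agent.Lib.Helper80.char_conj_eq
      (Cfsg.Agent.Lib.Helper80.isCharacter_of_isIrrCharacter (χ i).2) u g]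
  have hΦ0 : ∀ g : G, ¬ 5 ∣ orderOf g → Φ g = 0 := by
    intro g hg
    rw [hΦdef]
    exact hrel g hg
  have hmain := sum_conj_involution_fixed 5 (by norm_num) hQ hC P s hs1 hs2 Φ hΦ hΦ0
  have ha2 : ∀ i, (a i : ℂ) * (a i : ℂ) = 1 := by
    intro i
    rcases (hχ i).1 with h | h <;> rw [h] <;> push_cast <;> ring
  have hPsum : ∑ᶠ u : (P : Subgroup G), Φ (u : G) = 20 := by
    have : Fintype (P : Subgroup G) := Fintype.ofFinite _
    rw [finsum_eq_sum_of_fintype]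
    have h1 : ∑ u : (P : Subgroup G), ((5 : ℂ) - Φ (u : G)) = 5 := by
      rw [Finset.sum_eq_single (1 : (P : Subgroup G))]
      · rw [Subgroup.coe_one, hΦ0 1 (by rw [orderOf_one]; norm_num)]
        ring
      · intro u _ hu1
        have hu1' : (u : G) ≠ 1 := fun h => hu1 (Subtype.ext h)
        rw [hΦdef]
        simp only
        rw [Finset.sum_congr rfl (fun i _ => by
          rw [(hχ i).2.2 u u (isPPart_self h5 _ (hQ P) u u.2 hu1') u.2 hu1', ha2 i])]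
        simp only [Finset.sum_const, Finset.card_univ, Fintype.card_fin, nsmul_eq_mul, mul_one]
        norm_num
      · intro h
        exact absurd (Finset.mem_univ _) h
    have h2 : ∑ u : (P : Subgroup G), (5 : ℂ) = 25 := by
      rw [Finset.sum_const, Finset.card_univ, ← Nat.card_eq_fintype_card, hQ P]
      norm_num
    rw [Finset.sum_sub_distrib, h2] at h1
    linear_combination -h1
  have hLHS : ∑ g : G, Φ (g * s * g⁻¹ * s) =
      4320 * (1 + ∑ i, (a i : ℂ) * ((f i : ℂ) - 4 * (k i : ℂ)) ^ 2 / (f i : ℂ)) := by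
    rw [hΦdef]
    simp only
    rw [Finset.sum_add_distrib, Finset.sum_comm]
    have h1 : ∀ i, ∑ g : G, (a i : ℂ) * (χ i : G → ℂ) (g * s * g⁻¹ * s) =
        4320 * ((a i : ℂ) * ((f i : ℂ) - 4 * (k i : ℂ)) ^ 2 / (f i : ℂ)) := by
      intro i
      rw [← Finset.mul_sum, Cfsg.Agent.Lib.Helper79.irr_sum_conj_mul (χ i).2 s s, hf1 i,
        (hk i).1, hG]
      push_cast
      ring
    rw [Finset.sum_congr rfl (fun i _ => h1 i), ← Finset.mul_sum]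
    simp only [Finset.sum_const, Finset.card_univ, nsmul_eq_mul, mul_one]
    rw [← Nat.card_eq_fintype_card, hG]
    push_cast
    ring
  rw [hLHS, hPsum] at hmain
  obtain ⟨M, hM⟩ : ∃ M, M = Nat.card (Subgroup.centralizer ({s} : Set G)) := ⟨_, rfl⟩
  obtain ⟨fc, hfc⟩ : ∃ fc, fc = Set.ncard {Q : Sylow 5 G | s • Q = Q} := ⟨_, rfl⟩
  have hcf := card_fixed_sylow 5 (by norm_num) hQ hC 4 hN P s hsN hs1 hs2
  rw [← hM, ← hfc] at hmain hcf
  have hMdvd : M ∣ 4320 := by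
    rw [hM, ← hG]
    exact Subgroup.card_subgroup_dvd_card _
  have hw : ∀ i, (f i : ℂ) * (((864 / f i : ℕ) : ℤ) : ℂ) = 864 ∧ (f i : ℂ) ≠ 0 := by
    intro i
    have h := hfL i
    simp only [List.mem_cons, List.not_mem_nil, or_false] at h
    rcases h with h | h | h | h | h | h | h <;> rw [h] <;> norm_num
  have hterm : ∀ i, (a i : ℂ) * ((f i : ℂ) - 4 * (k i : ℂ)) ^ 2 / (f i : ℂ) =
      (a i : ℂ) * ((f i : ℂ) - 4 * (k i : ℂ)) ^ 2 * (((864 / f i : ℕ) : ℤ) : ℂ) / 864 := by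
    intro i
    obtain ⟨h1, h2⟩ := hw i
    rw [div_eq_div_iff h2 (by norm_num)]
    linear_combination (-((a i : ℂ) * ((f i : ℂ) - 4 * (k i : ℂ)) ^ 2)) * h1
  rw [Finset.sum_congr rfl (fun i _ => hterm i), ← Finset.sum_div] at hmain
  have hT : (M : ℤ) * (M : ℤ) =
      864 + ∑ i, a i * ((f i : ℤ) - 4 * (k i : ℤ)) ^ 2 * ((864 / f i : ℕ) : ℤ) := by
    have hcfc : (M : ℂ) = 4 * (fc : ℂ) := by
      rw [← hcf]
      push_cast
      ring
    have h : (((M : ℤ) * (M : ℤ) : ℤ) : ℂ) =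
        ((864 + ∑ i, a i * ((f i : ℤ) - 4 * (k i : ℤ)) ^ 2 * ((864 / f i : ℕ) : ℤ) : ℤ) : ℂ) := by
      push_cast
      rw [hcfc] at hmain ⊢
      push_cast at hmain
      linear_combination (-1 / 5 : ℂ) * hmain
    exact_mod_cast h
  have hrel1 : 1 + ∑ i, a i * (f i : ℤ) = 0 := by
    have h0 := hrel 1 (by rw [orderOf_one]; norm_num)
    have h : ((1 + ∑ i, a i * (f i : ℤ) : ℤ) : ℂ) = 0 := by
      push_cast
      rw [← h0]
      congr 1
      exact Finset.sum_congr rfl (fun i _ => by rw [hf1 i])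
    exact_mod_cast h
  have hrels : 1 + ∑ i, a i * ((f i : ℤ) - 4 * (k i : ℤ)) = 0 := by
    have h0 := hrel s hsreg
    have h : ((1 + ∑ i, a i * ((f i : ℤ) - 4 * (k i : ℤ)) : ℤ) : ℂ) = 0 := by
      push_cast
      rw [← h0]
      congr 1
      exact Finset.sum_congr rfl (fun i _ => by rw [(hk i).1])
    exact_mod_cast h
  have hS : 1 + ∑ i, ((f i : ℤ) - 4 * (k i : ℤ)) ^ 2 ≤ (M : ℤ) := by
    rw [hM]
    exact one_add_sum_sq_le_card_centralizer 4 χ hinj (fun i => (hχ i).2.1) s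
      (fun i => (f i : ℤ) - 4 * (k i : ℤ)) (fun i => by rw [(hk i).1]; push_cast; ring)
  exact arith_216 f a k M hfL (fun i => (hχ i).1) hfmod hrel1 (fun i => (hk i).2) hrels hMdvd
    hT hS

/-- No finite simple group has order 4320 = 2^5 * 3^3 * 5. -/
theorem result {G : Type*} [Group G] [Finite G] [IsSimpleGroup G] : Nat.card G ≠ 4320 := by
  intro hG
  have : Fact (Nat.Prime 5) := ⟨by norm_num⟩
  have hGn : ¬ (Nat.card G).Prime := by rw [hG]; norm_num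
  obtain ⟨P⟩ := (Sylow.nonempty : Nonempty (Sylow 5 G))
  have hQ : ∀ Q : Sylow 5 G, Nat.card (Q : Subgroup G) = 5 := fun Q => by
    simpa using card_sylow_eq_of_card_eq 5 1 864 (by rw [hG]; norm_num) (by norm_num) Q
  have hc := card_sylow_mem_cands (G := G) 5 1 864 (by rw [hG]; norm_num) (by norm_num)
  have hcl : sylowCands 5 864 = [1, 6, 16, 36, 96, 216] := by decide +kernel
  rw [hcl] at hc
  have h1 : Nat.card (Sylow 5 G) ≠ 1 :=
    card_sylow_ne_one 5 (by rw [hG]; norm_num) 2 (by norm_num) (by norm_num)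
      (by rw [hG]; norm_num)
  have hrQ : ∀ Q : Sylow 5 G, ∃ r, r = (Subgroup.centralizer ((Q : Subgroup G) : Set G)).relIndex
      (Subgroup.normalizer ((Q : Subgroup G) : Set G)) ∧ (r = 2 ∨ r = 4) ∧
      r * Nat.card (Subgroup.centralizer ((Q : Subgroup G) : Set G)) =
        Nat.card (Subgroup.normalizer ((Q : Subgroup G) : Set G)) ∧
      (Q : Subgroup G) ≤ Subgroup.centralizer ((Q : Subgroup G) : Set G) := by
    intro Q
    obtain ⟨hr1, hr2, hr3, hQC⟩ := relIndex_centralizer_sylow_prime hGn 5 Q (hQ Q)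
    obtain ⟨r, hr⟩ : ∃ r, r = (Subgroup.centralizer ((Q : Subgroup G) : Set G)).relIndex
        (Subgroup.normalizer ((Q : Subgroup G) : Set G)) := ⟨_, rfl⟩
    rw [← hr] at hr1 hr2 hr3
    have h4' : r ∣ 4 := by simpa using hr2
    have hr4 : r ≤ 4 := Nat.le_of_dvd (by norm_num) h4'
    have hr0 : r ≠ 0 := by
      rintro rfl
      simp at h4'
    have hr24 : r = 2 ∨ r = 4 := by
      interval_cases r
      · exact absurd rfl hr0
      · exact absurd rfl hr1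
      · exact Or.inl rfl
      · exact absurd h4' (by norm_num)
      · exact Or.inr rfl
    exact ⟨r, hr, hr24, hr3, hQC⟩
  have h4 := card_sylow_mul_card_normalizer 5 P
  rw [hG] at h4
  obtain ⟨r, hr, hr24, hr3, -⟩ := hrQ P
  simp only [List.mem_cons, List.not_mem_nil, or_false] at hc
  rcases hc with h | h | h | h | h | h
  · exact h1 h
  · have hd := card_normalizer_dvd_of_card_sylow_succ 5 h (by rw [hG]; norm_num) P
    rw [h] at h4
    have hN : Nat.card (Subgroup.normalizer ((P : Subgroup G) : Set G)) = 720 := by omega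
    rw [hN] at hd
    revert hd
    decide
  · rw [h] at h4
    have hN : Nat.card (Subgroup.normalizer ((P : Subgroup G) : Set G)) = 270 := by omega
    rw [hN] at hr3
    exact case_central hG P (hQ P)
      (Or.inr (by rcases hr24 with h' | h' <;> rw [h'] at hr3 <;> omega))
  · rw [h] at h4
    have hN : Nat.card (Subgroup.normalizer ((P : Subgroup G) : Set G)) = 120 := by omega
    rw [hN] at hr3
    exact case_central hG P (hQ P)
      (Or.inl (by rcases hr24 with h' | h' <;> rw [h'] at hr3 <;> omega))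
  · rw [h] at h4
    have hN : Nat.card (Subgroup.normalizer ((P : Subgroup G) : Set G)) = 45 := by omega
    rw [hN] at hr3
    rcases hr24 with h' | h' <;> rw [h'] at hr3 <;> omega
  · refine case_216 hG P h ?_
    intro Q
    obtain ⟨r, hr, hr24, hr3, hQC⟩ := hrQ Q
    have h4Q := card_sylow_mul_card_normalizer 5 Q
    rw [hG, h] at h4Q
    have hN : Nat.card (Subgroup.normalizer ((Q : Subgroup G) : Set G)) = 20 := by omega
    rw [hN] at hr3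
    rcases hr24 with h' | h'
    · exfalso
      rw [h'] at hr3
      exact case_central hG Q (hQ Q) (Or.inl (by omega))
    · rw [← hr, h']
      refine ⟨rfl, ?_⟩
      rw [h'] at hr3
      have hC5 : Nat.card (Subgroup.centralizer ((Q : Subgroup G) : Set G)) = 5 := by omega
      exact (Subgroup.eq_of_le_of_card_ge hQC (by rw [hC5, hQ Q])).symm

end Cfsg.Agent.S0977
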