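import Cfsg.Statements.S0978
import Cfsg.Agent.Lib.Helper91.SSFive2
import Cfsg.Agent.Lib.Helper91.SSExtra

set_option autoImplicit false
open Cfsg

namespace Cfsg.Agent.S0978

open Cfsg.Agent.Lib.Helper17 Cfsg.Agent.Lib.Helper91.SS

/-! ### Arithmetic -/

/-- the solutions of Brauer's degree equation for `p = 5`, `e = 2` among divisors of `5040` -/
theorem arith_5040 (x y : ℕ) (hx : x ∣ 5040) (hy : y ∣ 5040) (hx1 : x ≠ 1) :
    (x % 5 = 1 ∧ y = x + 1 → x = 6) ∧ (x % 5 = 4 ∧ x = y + 1 → x = 4 ∨ x = 9) := by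
  have hx' : x ∈ Nat.divisors 5040 := Nat.mem_divisors.mpr ⟨hx, by norm_num⟩
  have hy' : y ∈ Nat.divisors 5040 := Nat.mem_divisors.mpr ⟨hy, by norm_num⟩
  have key : ∀ x ∈ Nat.divisors 5040, ∀ y ∈ Nat.divisors 5040, x ≠ 1 →
      (x % 5 = 1 ∧ y = x + 1 → x = 6) ∧ (x % 5 = 4 ∧ x = y + 1 → x = 4 ∨ x = 9) := by
    decide +kernel
  exact key x hx' y hy' hx1

/-- the solutions of Brauer's degree equation for `p = 7`, `e = 2` among divisors of `5040` -/
theorem arith7_5040 (x y : ℕ) (hx : x ∣ 5040) (hy : y ∣ 5040) (hx1 : x ≠ 1) :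
    (x % 7 = 1 ∧ y = x + 1 → x = 8 ∨ x = 15) ∧ (x % 7 = 6 ∧ x = y + 1 → x = 6) := by
  have hx' : x ∈ Nat.divisors 5040 := Nat.mem_divisors.mpr ⟨hx, by norm_num⟩
  have hy' : y ∈ Nat.divisors 5040 := Nat.mem_divisors.mpr ⟨hy, by norm_num⟩
  have key : ∀ x ∈ Nat.divisors 5040, ∀ y ∈ Nat.divisors 5040, x ≠ 1 →
      (x % 7 = 1 ∧ y = x + 1 → x = 8 ∨ x = 15) ∧ (x % 7 = 6 ∧ x = y + 1 → x = 6) := by
    decide +kernel
  exact key x hx' y hy' hx1

/-- candidates for the degrees in the principal `5`-block -/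
theorem list_5040 (f : ℕ) (hf : f ∣ 5040) (h1 : f ≠ 1) (hsq : f ^ 2 ≤ 5040)
    (hmod : f % 5 = 1 ∨ f % 5 = 4) : f ∈ [4, 6, 9, 14, 16, 21, 24, 36, 56] := by
  have hf' : f ∈ Nat.divisors 5040 := Nat.mem_divisors.mpr ⟨hf, by norm_num⟩
  have key : ∀ f ∈ Nat.divisors 5040, f ≠ 1 → f ^ 2 ≤ 5040 → (f % 5 = 1 ∨ f % 5 = 4) →
      f ∈ [4, 6, 9, 14, 16, 21, 24, 36, 56] := by decide +kernel
  exact key f hf' h1 hsq hmod

/-- the admissible values `k` for an involution centralizing a Sylow `5`-subgroup -/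
def ksB (f : ℕ) : List ℕ :=
  (List.range (f / 2 + 1)).filter (fun k => decide (1 ≤ k ∧
    ((f : ℤ) + 4 * sgnFive f - 2 * (k : ℤ)) % 5 = 0 ∧ 0 ≤ (f : ℤ) + 4 * sgnFive f - 2 * (k : ℤ)))

/-- the check for one tuple -/
def chkB (f₀ f₁ f₂ f₃ k₀ k₁ k₂ k₃ : ℕ) : Prop :=
  1 + (sgnFive f₀ * ((f₀ : ℤ) - 4 * (k₀ : ℤ)) + sgnFive f₁ * ((f₁ : ℤ) - 4 * (k₁ : ℤ)) +
    sgnFive f₂ * ((f₂ : ℤ) - 4 * (k₂ : ℤ)) + sgnFive f₃ * ((f₃ : ℤ) - 4 * (k₃ : ℤ))) = 0 →
  0 ≤ 5040 + (sgnFive f₀ * ((f₀ : ℤ) - 4 * (k₀ : ℤ)) ^ 2 * ((5040 / f₀ : ℕ) : ℤ) +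
    sgnFive f₁ * ((f₁ : ℤ) - 4 * (k₁ : ℤ)) ^ 2 * ((5040 / f₁ : ℕ) : ℤ) +
    sgnFive f₂ * ((f₂ : ℤ) - 4 * (k₂ : ℤ)) ^ 2 * ((5040 / f₂ : ℕ) : ℤ) +
    sgnFive f₃ * ((f₃ : ℤ) - 4 * (k₃ : ℤ)) ^ 2 * ((5040 / f₃ : ℕ) : ℤ)) →
  670 ≤ 1 + (((f₀ : ℤ) - 4 * (k₀ : ℤ)) ^ 2 + ((f₁ : ℤ) - 4 * (k₁ : ℤ)) ^ 2 +
    ((f₂ : ℤ) - 4 * (k₂ : ℤ)) ^ 2 + ((f₃ : ℤ) - 4 * (k₃ : ℤ)) ^ 2)

instance (f₀ f₁ f₂ f₃ k₀ k₁ k₂ k₃ : ℕ) : Decidable (chkB f₀ f₁ f₂ f₃ k₀ k₁ k₂ k₃) := by
  unfold chkB
  infer_instance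

set_option maxRecDepth 100000 in
/-- the finite verification for the principal `5`-block with `[N(P) : C(P)] = 4` -/
theorem key_B : ∀ f₀ ∈ ([4, 6, 9, 14, 16, 21, 24, 36, 56] : List ℕ),
    ∀ f₁ ∈ ([4, 6, 9, 14, 16, 21, 24, 36, 56] : List ℕ),
    ∀ f₂ ∈ ([4, 6, 9, 14, 16, 21, 24, 36, 56] : List ℕ),
    ∀ f₃ ∈ ([4, 6, 9, 14, 16, 21, 24, 36, 56] : List ℕ),
    1 + (sgnFive f₀ * (f₀ : ℤ) + sgnFive f₁ * (f₁ : ℤ) + sgnFive f₂ * (f₂ : ℤ) +
      sgnFive f₃ * (f₃ : ℤ)) = 0 →
    ∀ k₀ ∈ ksB f₀, ∀ k₁ ∈ ksB f₁, ∀ k₂ ∈ ksB f₂, ∀ k₃ ∈ ksB f₃,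
      chkB f₀ f₁ f₂ f₃ k₀ k₁ k₂ k₃ := by
  decide +kernel

/-- the arithmetic of the principal `5`-block with `[N(P) : C(P)] = 4` and an involution in
`C(P)` -/
theorem arith_B (f : Fin 4 → ℕ) (a : Fin 4 → ℤ) (k n : Fin 4 → ℕ)
    (hf : ∀ i, f i ∈ [4, 6, 9, 14, 16, 21, 24, 36, 56]) (ha : ∀ i, a i = 1 ∨ a i = -1)
    (hmod : ∀ i, (f i : ℤ) % 5 = a i % 5)
    (hrel1 : 1 + ∑ i, a i * (f i : ℤ) = 0)
    (hk : ∀ i, 5 * (n i : ℤ) + 2 * (k i : ℤ) = (f i : ℤ) + 4 * a i ∧ 1 ≤ k i ∧ 2 * k i ≤ f i)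
    (hrels : 1 + ∑ i, a i * ((f i : ℤ) - 4 * (k i : ℤ)) = 0)
    (hpos : 0 ≤ 5040 + ∑ i, a i * ((f i : ℤ) - 4 * (k i : ℤ)) ^ 2 * ((5040 / f i : ℕ) : ℤ)) :
    670 ≤ 1 + ∑ i, ((f i : ℤ) - 4 * (k i : ℤ)) ^ 2 := by
  have hsg : ∀ i, a i = sgnFive (f i) := by
    intro i
    have h1 := hf i
    have h2 := hmod i
    unfold sgnFive
    simp only [List.mem_cons, List.not_mem_nil, or_false] at h1
    rcases ha i with h | h <;> rw [h] at h2 ⊢ <;> split_ifs with h3 <;> omega
  simp only [Fin.sum_univ_four] at hrel1 hrels hpos ⊢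
  rw [hsg 0, hsg 1, hsg 2, hsg 3] at hrel1 hrels hpos
  have hkr : ∀ i, k i ∈ ksB (f i) := by
    intro i
    obtain ⟨h1, h2, h3⟩ := hk i
    rw [hsg i] at h1
    unfold ksB
    rw [List.mem_filter, List.mem_range, decide_eq_true_eq]
    refine ⟨by omega, h2, ?_, ?_⟩
    · have : (f i : ℤ) + 4 * sgnFive (f i) - 2 * (k i : ℤ) = 5 * (n i : ℤ) := by linarith
      rw [this]
      omega
    · have : (f i : ℤ) + 4 * sgnFive (f i) - 2 * (k i : ℤ) = 5 * (n i : ℤ) := by linarith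
      rw [this]
      positivity
  have h := key_B (f 0) (hf 0) (f 1) (hf 1) (f 2) (hf 2) (f 3) (hf 3) hrel1
    (k 0) (hkr 0) (k 1) (hkr 1) (k 2) (hkr 2) (k 3) (hkr 3)
  unfold chkB at h
  exact h hrels hpos

/-- arithmetic for the centralizer of the involution, `[N(P) : C(P)] = 4` -/
theorem arith_HB (e q n w h : ℕ) (hcase : (e = 4 ∧ q = 15) ∨ (e = 3 ∧ q = 5))
    (hwT : 2 ^ e ∣ w) (hw5 : 5 ∣ w) (hw : w ∣ 2 ^ e * q) (hmod : n % 5 = 1)
    (hnw : n * w = h) (hh : h ∣ 5040) (hb : 670 ≤ h) :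
    h = 5040 ∨ 3 * h = 5040 ∨ 6 * h = 5040 := by
  rcases hcase with ⟨rfl, rfl⟩ | ⟨rfl, rfl⟩
  · norm_num at hwT hw
    have hw' : w = 80 ∨ w = 240 := by
      have hle : w ≤ 240 := Nat.le_of_dvd (by norm_num) hw
      obtain ⟨j, rfl⟩ : 80 ∣ w := by omega
      have hj : j ≤ 3 := by omega
      interval_cases j
      · omega
      · left; rfl
      · exfalso; revert hw; decide
      · right; rfl
    rcases hw' with rfl | rfl
    · have hn : n ∣ 63 := by
        have h1 : n * 80 ∣ 63 * 80 := by rw [hnw]; exact hh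
        exact Nat.dvd_of_mul_dvd_mul_right (by norm_num) h1
      have key : ∀ n ∈ Nat.divisors 63, n % 5 = 1 → n = 1 ∨ n = 21 := by decide +kernel
      rcases key n (Nat.mem_divisors.mpr ⟨hn, by norm_num⟩) hmod with rfl | rfl
      · omega
      · right; left; omega
    · have hn : n ∣ 21 := by
        have h1 : n * 240 ∣ 21 * 240 := by rw [hnw]; exact hh
        exact Nat.dvd_of_mul_dvd_mul_right (by norm_num) h1
      have key : ∀ n ∈ Nat.divisors 21, n % 5 = 1 → n = 1 ∨ n = 21 := by decide +kernel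
      rcases key n (Nat.mem_divisors.mpr ⟨hn, by norm_num⟩) hmod with rfl | rfl
      · omega
      · left; omega
  · norm_num at hwT hw
    have hw' : w = 40 := by
      have hle : w ≤ 40 := Nat.le_of_dvd (by norm_num) hw
      obtain ⟨j, rfl⟩ : 40 ∣ w := by omega
      have hj : j ≤ 1 := by omega
      interval_cases j
      · omega
      · rfl
    subst hw'
    have hn : n ∣ 126 := by
      have h1 : n * 40 ∣ 126 * 40 := by rw [hnw]; exact hh
      exact Nat.dvd_of_mul_dvd_mul_right (by norm_num) h1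
    have key : ∀ n ∈ Nat.divisors 126, n % 5 = 1 → n = 1 ∨ n = 6 ∨ n = 21 ∨ n = 126 := by
      decide +kernel
    rcases key n (Nat.mem_divisors.mpr ⟨hn, by norm_num⟩) hmod with rfl | rfl | rfl | rfl
    · omega
    · omega
    · right; right; omega
    · left; omega

/-! ### The case `[N(P) : C(P)] = 4` with an involution in `C(P)` -/

set_option maxHeartbeats 1600000 in
/-- The case `[N(P) : C(P)] = 4` with `|N(P)| = 240` or `|N(P)| = 40`: an involution of `C(P)`
central in a Sylow `2`-subgroup of `N(P)` has too large a centralizer. -/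
theorem case_B {G : Type*} [Group G] [Finite G] [IsSimpleGroup G] (hG : Nat.card G = 5040)
    (P : Sylow 5 G) (hP : Nat.card (P : Subgroup G) = 5)
    (hm : (Subgroup.centralizer ((P : Subgroup G) : Set G)).relIndex
      (Subgroup.normalizer ((P : Subgroup G) : Set G)) = 4)
    (e q : ℕ) (hcase : (e = 4 ∧ q = 15) ∨ (e = 3 ∧ q = 5))
    (hN : Nat.card (Subgroup.normalizer ((P : Subgroup G) : Set G)) = 2 ^ e * q) : False := by
  classical
  have : Fact (Nat.Prime 5) := ⟨by norm_num⟩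
  have : Fact (Nat.Prime 2) := ⟨by norm_num⟩
  have hGn : ¬ (Nat.card G).Prime := by rw [hG]; norm_num
  have hq2 : ¬ 2 ∣ q := by rcases hcase with ⟨-, rfl⟩ | ⟨-, rfl⟩ <;> norm_num
  have he3 : 3 ≤ e := by rcases hcase with ⟨rfl, -⟩ | ⟨rfl, -⟩ <;> norm_num
  -- a Sylow 2-subgroup of N(P)
  obtain ⟨T'⟩ := (Sylow.nonempty :
    Nonempty (Sylow 2 (Subgroup.normalizer ((P : Subgroup G) : Set G))))
  have hT'8 := card_sylow_eq_of_card_eq 2 e q hN hq2 T'
  obtain ⟨T, hTdef⟩ : ∃ T : Subgroup G, T = (T' : Subgroup _).map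
      (Subgroup.normalizer ((P : Subgroup G) : Set G)).subtype := ⟨_, rfl⟩
  have hT8 : Nat.card T = 2 ^ e := by
    rw [hTdef, Subgroup.card_map_of_injective (Subgroup.subtype_injective _), hT'8]
  have hTN : T ≤ Subgroup.normalizer ((P : Subgroup G) : Set G) := by
    rw [hTdef]
    exact Subgroup.map_subtype_le _
  have hT2 : IsPGroup 2 T := IsPGroup.of_card (n := e) hT8
  -- T ⊓ C(P) is nontrivial
  have hMne : T ⊓ Subgroup.centralizer ((P : Subgroup G) : Set G) ≠ ⊥ := by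
    intro h
    have h1 := Subgroup.inf_relIndex_right (Subgroup.centralizer ((P : Subgroup G) : Set G)) T
    rw [inf_comm, h, Subgroup.relIndex_bot_left, hT8] at h1
    have h2 := Subgroup.relIndex_le_of_le_right
      (H := Subgroup.centralizer ((P : Subgroup G) : Set G)) hTN (by rw [hm]; norm_num)
    rw [← h1, hm] at h2
    have : 2 ^ 3 ≤ 2 ^ e := Nat.pow_le_pow_right (by norm_num) he3
    omega
  have hTM : T ≤ Subgroup.normalizer
      ((T ⊓ Subgroup.centralizer ((P : Subgroup G) : Set G) : Subgroup G) : Set G) := by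
    apply Cfsg.Agent.Lib.Helper53.le_normalizer_of_conj_mem
    intro g hg w hw
    exact ⟨T.mul_mem (T.mul_mem hg hw.1) (T.inv_mem hg),
      conj_mem_centralizer_of_mem_normalizer (P : Subgroup G) g w (hTN hg) hw.2⟩
  obtain ⟨t, htM, ht2, htc⟩ := exists_involution_central T
    (T ⊓ Subgroup.centralizer ((P : Subgroup G) : Set G)) hT2 inf_le_left hTM hMne
  have htC : t ∈ Subgroup.centralizer ((P : Subgroup G) : Set G) := htM.2
  have ht1 : t ≠ 1 := by
    intro h
    rw [h, orderOf_one] at ht2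
    omega
  have htreg : ¬ 5 ∣ orderOf t := by rw [ht2]; norm_num
  -- the centralizer of t
  obtain ⟨H, hHdef⟩ : ∃ H : Subgroup G, H = Subgroup.centralizer ({t} : Set G) := ⟨_, rfl⟩
  have hmemH : ∀ g : G, g ∈ H ↔ g * t = t * g := by
    intro g
    rw [hHdef, Subgroup.mem_centralizer_iff]
    simp only [Set.mem_singleton_iff, forall_eq]
    exact eq_comm
  have hPH : (P : Subgroup G) ≤ H := by
    intro u hu
    rw [hmemH]
    exact Subgroup.mem_centralizer_iff.mp htC u hu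
  have hTH : T ≤ H := fun g hg => (hmemH g).mpr (htc g hg)
  obtain ⟨W, hWdef⟩ : ∃ W : Subgroup G,
      W = Subgroup.normalizer ((P : Subgroup G) : Set G) ⊓ H := ⟨_, rfl⟩
  have hwT : 2 ^ e ∣ Nat.card W := by
    rw [← hT8]
    exact Subgroup.card_dvd_of_le (by rw [hWdef]; exact le_inf hTN hTH)
  have hw5 : 5 ∣ Nat.card W := by
    rw [← hP]
    exact Subgroup.card_dvd_of_le (by rw [hWdef]; exact le_inf Subgroup.le_normalizer hPH)
  have hwN : Nat.card W ∣ 2 ^ e * q := by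
    rw [← hN]
    exact Subgroup.card_dvd_of_le (by rw [hWdef]; exact inf_le_left)
  obtain ⟨hmod, hcount⟩ := card_sylow_subgroup 5 P H hPH
  rw [← hWdef] at hcount
  have hHdvd : Nat.card H ∣ 5040 := by
    rw [← hG]
    exact Subgroup.card_subgroup_dvd_card H
  -- the principal block
  obtain ⟨χ, a, hinj, hχ, hrel, -⟩ := block_m4_five hGn P hP hm
  have hdegs : ∀ i, ((χ i : G → ℂ) 1 = (Cfsg.charDegree (χ i : G → ℂ) : ℂ)) ∧
      Cfsg.charDegree (χ i : G → ℂ) ∈ [4, 6, 9, 14, 16, 21, 24, 36, 56] ∧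
      ((Cfsg.charDegree (χ i : G → ℂ) : ℕ) : ℤ) % 5 = a i % 5 := by
    intro i
    obtain ⟨ha, hx1, hxa⟩ := hχ i
    have hirr := (χ i).2
    obtain ⟨hxd, hxpos, hxdvd⟩ := Cfsg.Agent.Lib.Helper79.irr_charDegree hirr
    have hmod := Cfsg.Agent.Lib.Helper90.BrauerDeg.degree_modEq hirr 5 (P : Subgroup G) hP (a i)
        (fun y hy hy1 => hxa y y (isPPart_self (by norm_num) _ hP y hy hy1) hy hy1)
    have hmod' : ((Cfsg.charDegree (χ i : G → ℂ) : ℕ) : ℤ) % 5 = a i % 5 := by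
      have := hmod
      unfold Int.ModEq at this
      exact_mod_cast this
    refine ⟨hxd, ?_, hmod'⟩
    rw [hG] at hxdvd
    apply list_5040 _ hxdvd
    · intro h
      apply hx1
      rw [hxd, h]
      norm_num
    · have := Cfsg.Agent.Lib.Helper80.charDegree_sq_le_card hirr
      rw [hG] at this
      exact this
    · rcases ha with h | h <;> rw [h] at hmod' <;> omega
  obtain ⟨f, hfdef⟩ : ∃ f : Fin 4 → ℕ, f = fun i => Cfsg.charDegree (χ i : G → ℂ) := ⟨_, rfl⟩
  have hfi : ∀ i, Cfsg.charDegree (χ i : G → ℂ) = f i := fun i => by rw [hfdef]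
  have hf1 : ∀ i, (χ i : G → ℂ) 1 = (f i : ℂ) := fun i => by rw [← hfi i]; exact (hdegs i).1
  have hfL : ∀ i, f i ∈ [4, 6, 9, 14, 16, 21, 24, 36, 56] := fun i => by
    rw [← hfi i]; exact (hdegs i).2.1
  have hfmod : ∀ i, (f i : ℤ) % 5 = a i % 5 := fun i => by rw [← hfi i]; exact (hdegs i).2.2
  -- values at `t`
  have hvals : ∀ i, ∃ n k : ℕ, 5 * (n : ℤ) + 2 * (k : ℤ) = (f i : ℤ) + 4 * a i ∧ 1 ≤ k ∧
      2 * k ≤ f i ∧ (χ i : G → ℂ) t = (((f i : ℤ) - 4 * (k : ℤ) : ℤ) : ℂ) := by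
    intro i
    obtain ⟨n, k, h1, h2, h3, h4⟩ := involution_value hGn 5 (by norm_num) (P : Subgroup G) hP
      (χ i) (hχ i).2.1 (a i) (hχ i).2.2 t htC ht2
    rw [hfi i] at h1 h3 h4
    refine ⟨n, k, ?_, h2, h3, h4⟩
    push_cast at h1
    linear_combination h1
  choose n k hk using hvals
  have hχt : ∀ i, (χ i : G → ℂ) t = (f i : ℂ) - 4 * (k i : ℂ) := by
    intro i
    have := (hk i).2.2.2
    push_cast at this
    exact this
  have hrel1 : 1 + ∑ i, a i * (f i : ℤ) = 0 := by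
    have h0 := hrel 1 (by rw [orderOf_one]; norm_num)
    have h : ((1 + ∑ i, a i * (f i : ℤ) : ℤ) : ℂ) = 0 := by
      push_cast
      rw [← h0]
      congr 1
      exact Finset.sum_congr rfl (fun i _ => by rw [hf1 i])
    exact_mod_cast h
  have hrels : 1 + ∑ i, a i * ((f i : ℤ) - 4 * (k i : ℤ)) = 0 := by
    have h0 := hrel t htreg
    have h : ((1 + ∑ i, a i * ((f i : ℤ) - 4 * (k i : ℤ)) : ℤ) : ℂ) = 0 := by
      push_cast
      rw [← h0]
      congr 1
      exact Finset.sum_congr rfl (fun i _ => by rw [hχt i])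
    exact_mod_cast h
  -- positivity
  obtain ⟨r, hr0, hr⟩ := sum_conj_nonneg_of_block 5 P 4 χ a (fun i => (hχ i).2.2) hrel t t
  have hw : ∀ i, (f i : ℂ) * (((5040 / f i : ℕ) : ℤ) : ℂ) = 5040 ∧ (f i : ℂ) ≠ 0 := by
    intro i
    have h := hfL i
    simp only [List.mem_cons, List.not_mem_nil, or_false] at h
    rcases h with h | h | h | h | h | h | h | h | h <;> rw [h] <;> norm_num
  have hpos : 0 ≤ 5040 + ∑ i, a i * ((f i : ℤ) - 4 * (k i : ℤ)) ^ 2 * ((5040 / f i : ℕ) : ℤ) := by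
    have hterm : ∀ i, (5040 : ℂ) * ((a i : ℂ) *
        ((χ i : G → ℂ) t * (χ i : G → ℂ) t / (χ i : G → ℂ) 1)) =
        (a i : ℂ) * ((f i : ℂ) - 4 * (k i : ℂ)) ^ 2 * (((5040 / f i : ℕ) : ℤ) : ℂ) := by
      intro i
      obtain ⟨h1, h2⟩ := hw i
      rw [hχt i, hf1 i, ← h1]
      field_simp
    have hsum : ((5040 + ∑ i, a i * ((f i : ℤ) - 4 * (k i : ℤ)) ^ 2 * ((5040 / f i : ℕ) : ℤ) : ℤ) : ℂ)
        = (r : ℂ) := by
      rw [← hr, hG]
      push_cast
      rw [mul_add, Finset.mul_sum, mul_one]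
      congr 1
      exact Finset.sum_congr rfl (fun i _ => by
        have := hterm i
        push_cast at this
        exact this.symm)
    have hreal : ((5040 + ∑ i, a i * ((f i : ℤ) - 4 * (k i : ℤ)) ^ 2 * ((5040 / f i : ℕ) : ℤ) : ℤ) : ℝ)
        = r := by
      apply Complex.ofReal_injective
      rw [Complex.ofReal_intCast]
      exact hsum
    have h0 : (0 : ℝ) ≤
        ((5040 + ∑ i, a i * ((f i : ℤ) - 4 * (k i : ℤ)) ^ 2 * ((5040 / f i : ℕ) : ℤ) : ℤ) : ℝ) := by
      rw [hreal]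
      exact hr0
    exact_mod_cast h0
  have hS := arith_B f a k n hfL (fun i => (hχ i).1) hfmod hrel1
    (fun i => ⟨(hk i).1, (hk i).2.1, (hk i).2.2.1⟩) hrels hpos
  have hcol := one_add_sum_sq_le_card_centralizer 4 χ hinj (fun i => (hχ i).2.1) t
    (fun i => (f i : ℤ) - 4 * (k i : ℤ)) (fun i => (hk i).2.2.2)
  rw [← hHdef] at hcol
  have hbound : 670 ≤ Nat.card H := by
    have h670 : (670 : ℤ) ≤ (Nat.card H : ℤ) := le_trans hS hcol
    exact_mod_cast h670
  have hidx : ∀ j : ℕ, j * Nat.card H = 5040 → H.index = j := by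
    intro j hj
    have h1 := H.index_mul_card
    rw [hG, ← hj] at h1
    exact Nat.eq_of_mul_eq_mul_right Nat.card_pos h1
  have hfact : ∀ j : ℕ, 2 ≤ j → j ≤ 6 → H.index = j → False := by
    intro j hj2 hj6 hj
    have hHne : H ≠ ⊤ := by
      intro htop
      rw [htop, Subgroup.index_top] at hj
      omega
    have h2 := card_dvd_factorial_index H hHne
    rw [hj, hG] at h2
    interval_cases j <;> revert h2 <;> decide
  rcases arith_HB e q _ _ _ hcase hwT hw5 hwN hmod hcount hHdvd hbound with h | h | h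
  · have hHtop : H = ⊤ := Subgroup.eq_top_of_card_eq H (by rw [h, hG])
    apply ht1
    apply eq_one_of_central hGn t
    intro g
    exact (hmemH g).mp (by rw [hHtop]; exact Subgroup.mem_top g)
  · exact hfact 3 (by norm_num) (by norm_num) (hidx 3 h)
  · exact hfact 6 (by norm_num) (by norm_num) (hidx 6 h)

/-! ### The principal `7`-block -/

set_option maxHeartbeats 1600000 in
/-- The principal `7`-block for `[N(Q) : C(Q)] = 2` and an involution `c` of `C(Q)`: there are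
characters of degrees `15` and `16` with values `-13` and `-12` at `c`. -/
theorem block_seven {G : Type*} [Group G] [Finite G] [IsSimpleGroup G] (hG : Nat.card G = 5040)
    (Q : Sylow 7 G) (hQ : Nat.card (Q : Subgroup G) = 7)
    (hm : (Subgroup.centralizer ((Q : Subgroup G) : Set G)).relIndex
      (Subgroup.normalizer ((Q : Subgroup G) : Set G)) = 2)
    (c : G) (hc : c ∈ Subgroup.centralizer ((Q : Subgroup G) : Set G)) (hc2 : orderOf c = 2) :
    ∃ χ η : IrrCharacter G, (χ : G → ℂ) 1 ≠ 1 ∧ (η : G → ℂ) 1 ≠ 1 ∧ χ ≠ η ∧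
      (χ : G → ℂ) c = ((-13 : ℤ) : ℂ) ∧ (η : G → ℂ) c = ((-12 : ℤ) : ℂ) := by
  have : Fact (Nat.Prime 7) := ⟨by norm_num⟩
  have hGn : ¬ (Nat.card G).Prime := by rw [hG]; norm_num
  have hcreg : ¬ 7 ∣ orderOf c := by rw [hc2]; norm_num
  obtain ⟨k, χ, a, η, d, δ, hk, hδ, hχ, hη1, hηP, hnorm, hrel, hj, hreal⟩ :=
    brauer_chars hGn 7 Q hQ 2 (by norm_num) hm
  have h2 : ((7 - 1) / 2 : ℕ) = 3 := by norm_num
  rw [h2] at hnorm hrel
  push_cast at hnorm hrel
  have hirrη := η.2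
  obtain ⟨hyd, hypos, hydvd⟩ := Cfsg.Agent.Lib.Helper79.irr_charDegree hirrη
  obtain ⟨y, hydef⟩ : ∃ y, y = Cfsg.charDegree ((η : IrrCharacter G) : G → ℂ) := ⟨_, rfl⟩
  rw [← hydef] at hyd hypos hydvd
  have hk' : k = 0 ∨ k = 1 := by omega
  rcases hk' with rfl | rfl
  · exfalso
    simp only [Finset.univ_eq_empty, Finset.sum_empty, add_zero] at hnorm hrel
    have hrel1 := hrel 1 (by rw [orderOf_one]; norm_num)
    rw [hyd] at hrel1
    have hrel1' : (3 * d - δ) * (y : ℤ) + 1 = 0 := by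
      have h : (((3 * d - δ) * (y : ℤ) + 1 : ℤ) : ℂ) = 0 := by
        push_cast
        exact hrel1
      exact_mod_cast h
    have hd : -1 ≤ d ∧ d ≤ 1 := by
      constructor <;> rcases hδ with rfl | rfl <;>
        nlinarith [sq_nonneg (d - 1), sq_nonneg (d + 1)]
    obtain ⟨hd1, hd2⟩ := hd
    rcases hδ with rfl | rfl <;> interval_cases d <;> norm_num at hnorm <;> omega
  · simp only [Fin.sum_univ_succ, Fin.sum_univ_zero, add_zero] at hnorm hrel
    obtain ⟨ha0, hx1, hxa⟩ := hχ 0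
    have hirr := (χ 0).2
    obtain ⟨hxd, hxpos, hxdvd⟩ := Cfsg.Agent.Lib.Helper79.irr_charDegree hirr
    have hmod : (Cfsg.charDegree ((χ 0 : IrrCharacter G) : G → ℂ) : ℤ) ≡ a 0 [ZMOD 7] := by
      have := Cfsg.Agent.Lib.Helper90.BrauerDeg.degree_modEq hirr 7 (Q : Subgroup G) hQ (a 0)
        (fun y hy hy1 => hxa y y (isPPart_self (by norm_num) _ hQ y hy hy1) hy hy1)
      exact_mod_cast this
    obtain ⟨n, kk, hv1, hv2, hv3, hv4⟩ := involution_value hGn 7 (by norm_num) (Q : Subgroup G) hQ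
      (χ 0) hx1 (a 0) hxa c hc hc2
    obtain ⟨x, hxdef⟩ : ∃ x, x = Cfsg.charDegree ((χ 0 : IrrCharacter G) : G → ℂ) := ⟨_, rfl⟩
    rw [← hxdef] at hxd hxpos hxdvd hmod hv1 hv3 hv4
    push_cast at hv1
    have hx1' : x ≠ 1 := by
      intro h
      apply hx1
      rw [hxd, h]
      norm_num
    have hrel1 := hrel 1 (by rw [orderOf_one]; norm_num)
    rw [hxd, hyd] at hrel1
    have hrel1' : (3 * d - δ) * (y : ℤ) + 1 + a 0 * (x : ℤ) = 0 := by
      have h : (((3 * d - δ) * (y : ℤ) + 1 + a 0 * (x : ℤ) : ℤ) : ℂ) = 0 := by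
        push_cast
        exact hrel1
      exact_mod_cast h
    have hd : -1 ≤ d ∧ d ≤ 1 := by
      constructor <;> rcases hδ with rfl | rfl <;>
        nlinarith [sq_nonneg (a 0), sq_nonneg (d - 1), sq_nonneg (d + 1)]
    have ha2 : a 0 ^ 2 = 1 ∧ d = 0 := by
      obtain ⟨hd1, hd2⟩ := hd
      have hapos : 0 < a 0 ^ 2 := by positivity
      obtain ⟨A, hA⟩ : ∃ A, A = a 0 ^ 2 := ⟨_, rfl⟩
      rw [← hA] at hnorm hapos ⊢
      interval_cases d <;> rcases hδ with rfl | rfl <;> norm_num at hnorm ⊢ <;> omega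
    obtain ⟨ha2, hd0⟩ := ha2
    subst hd0
    have ha : a 0 = 1 ∨ a 0 = -1 := by
      have h1 : (a 0 - 1) * (a 0 + 1) = 0 := by nlinarith
      rcases mul_eq_zero.mp h1 with h | h
      · left; omega
      · right; omega
    rw [hG] at hxdvd hydvd
    have harith := arith7_5040 x y hxdvd hydvd hx1'
    unfold Int.ModEq at hmod
    have hrelc := hrel c hcreg
    rw [hv4] at hrelc
    rcases hδ with h | h <;> rcases ha with h' | h' <;> rw [h, h'] at hrel1' <;>
      rw [h'] at hmod hv1 <;> rw [h, h'] at hrelc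
    · have hx := harith.1 ⟨by omega, by omega⟩
      have hy : y = x + 1 := by omega
      rcases hx with hx | hx
      · exfalso
        omega
      · have hkk : kk = 7 := by omega
        rw [hx, hkk] at hv4 hrelc
        refine ⟨χ 0, η, hx1, hη1, ?_, ?_, ?_⟩
        · intro heq
          rw [heq, hyd] at hxd
          have : y = x := by exact_mod_cast hxd
          omega
        · rw [hv4]
          norm_num
        · push_cast at hrelc ⊢
          linear_combination (-1 : ℂ) * hrelc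
    · exfalso
      omega
    · exfalso
      omega
    · exfalso
      have hx := harith.2 ⟨by omega, by omega⟩
      omega

/-! ### The case `n_5 = 36` with `|C(P)| = 35` -/

/-- arithmetic for the Sylow `7`-subgroups -/
theorem arith_seven (n N7 : ℕ) (h : n * N7 = 5040) (hd : 140 ∣ N7) (hmod : n % 7 = 1)
    (hn1 : n ≠ 1) : n = 36 ∧ N7 = 140 := by
  obtain ⟨w, rfl⟩ := hd
  have h2 : 140 * (n * w) = 5040 := by rw [← h]; ring
  have h3 : n * w = 36 := by omega
  have hn : n ≤ 36 := Nat.le_of_dvd (by norm_num) (Dvd.intro _ h3)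
  have hn36 : n = 36 := by interval_cases n <;> omega
  subst hn36
  omega

/-- arithmetic for the centralizer of the involution -/
theorem arith_HD (n w h : ℕ) (hw4 : 4 ∣ w) (hw7 : 7 ∣ w) (hw : w ∣ 140) (hmod : n % 7 = 1)
    (hnw : n * w = h) (hh : h ∣ 5040) (hb : 314 ≤ h) (h5 : ¬ 5 ∣ h) : 5 * h = 5040 := by
  have hw' : w = 28 ∨ w = 140 := by
    have hle : w ≤ 140 := Nat.le_of_dvd (by norm_num) hw
    obtain ⟨j, rfl⟩ : 28 ∣ w := by omega
    have hj : j ≤ 5 := by omega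
    interval_cases j
    · omega
    · left; rfl
    · exfalso; revert hw; decide
    · exfalso; revert hw; decide
    · exfalso; revert hw; decide
    · right; rfl
  rcases hw' with rfl | rfl
  · have hn : n ∣ 180 := by
      have h1 : n * 28 ∣ 180 * 28 := by rw [hnw]; exact hh
      exact Nat.dvd_of_mul_dvd_mul_right (by norm_num) h1
    have key : ∀ n ∈ Nat.divisors 180, n % 7 = 1 → n = 1 ∨ n = 15 ∨ n = 36 := by decide +kernel
    rcases key n (Nat.mem_divisors.mpr ⟨hn, by norm_num⟩) hmod with rfl | rfl | rfl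
    · omega
    · omega
    · omega
  · have hn : n ∣ 36 := by
      have h1 : n * 140 ∣ 36 * 140 := by rw [hnw]; exact hh
      exact Nat.dvd_of_mul_dvd_mul_right (by norm_num) h1
    have key : ∀ n ∈ Nat.divisors 36, n % 7 = 1 → n = 1 ∨ n = 36 := by decide +kernel
    rcases key n (Nat.mem_divisors.mpr ⟨hn, by norm_num⟩) hmod with rfl | rfl
    · omega
    · omega

set_option maxHeartbeats 1600000 in
/-- The case `n_5 = 36` where every Sylow `5`-subgroup has centralizer of order `35`: the Sylow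
`7`-subgroup `Q` of `C(P)` is normalized by `N(P)`, so `|N(Q)| = 140`, `|C(Q)| = 70`, and the
principal `7`-block gives an involution with centralizer of order `1008`. -/
theorem case_D {G : Type*} [Group G] [Finite G] [IsSimpleGroup G] (hG : Nat.card G = 5040)
    (P : Sylow 5 G) (hP : Nat.card (P : Subgroup G) = 5)
    (hN : Nat.card (Subgroup.normalizer ((P : Subgroup G) : Set G)) = 140)
    (hC : ∀ Q : Sylow 5 G,
      Nat.card (Subgroup.centralizer ((Q : Subgroup G) : Set G)) = 35) : False := by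
  classical
  have : Fact (Nat.Prime 5) := ⟨by norm_num⟩
  have : Fact (Nat.Prime 7) := ⟨by norm_num⟩
  have : Fact (Nat.Prime 2) := ⟨by norm_num⟩
  have hGn : ¬ (Nat.card G).Prime := by rw [hG]; norm_num
  obtain ⟨-, -, -, hPC⟩ := relIndex_centralizer_sylow_prime hGn 5 P hP
  have hC35 : Nat.card (Subgroup.centralizer ((P : Subgroup G) : Set G)) = 7 ^ 1 * 5 := by
    rw [hC P]
    norm_num
  -- an element of order 7 in C(P)
  obtain ⟨x', hx'⟩ := exists_prime_orderOf_dvd_card'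
    (G := Subgroup.centralizer ((P : Subgroup G) : Set G)) 7 (by rw [hC P]; norm_num)
  obtain ⟨x, hxdef⟩ : ∃ x : G, x = (x' : G) := ⟨_, rfl⟩
  have hxC : x ∈ Subgroup.centralizer ((P : Subgroup G) : Set G) := by rw [hxdef]; exact x'.2
  have hx7 : orderOf x = 7 := by rw [hxdef, Subgroup.orderOf_coe]; exact hx'
  -- the Sylow 7-subgroup of C(P) is unique
  obtain ⟨S₀⟩ := (Sylow.nonempty :
    Nonempty (Sylow 7 (Subgroup.centralizer ((P : Subgroup G) : Set G))))
  have hS₀ := card_sylow_eq_of_card_eq 7 1 5 hC35 (by norm_num) S₀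
  have hab : ∀ a ∈ (P : Subgroup G), ∀ b ∈ (P : Subgroup G), a * b = b * a := by
    intro a ha b hb
    exact Subgroup.mem_centralizer_iff.mp (hPC hb) a ha
  obtain ⟨w, hw1, hw2, hw3⟩ := card_sylow_centralizer_mul (P : Subgroup G) hab 7 S₀
  rw [hP] at hw2
  rw [hS₀, pow_one] at hw3
  rw [hC P] at hw1
  have hn1 : Nat.card (Sylow 7 (Subgroup.centralizer ((P : Subgroup G) : Set G))) = 1 := by
    have hw35 : w = 35 := by
      apply Nat.dvd_antisymm (Dvd.intro_left _ hw1)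
      omega
    rw [hw35] at hw1
    omega
  have hNQ := normalizer_le_normalizer_zpowers (P : Subgroup G) 7 5 hC35 (by norm_num) hn1 x hxC hx7
  -- the Sylow 7-subgroup of G generated by x
  have hpx : IsPGroup 7 (Subgroup.zpowers x) :=
    IsPGroup.of_card (n := 1) (by rw [Nat.card_zpowers, hx7, pow_one])
  obtain ⟨Q, hQ⟩ := hpx.exists_le_sylow
  have hQ7 : Nat.card (Q : Subgroup G) = 7 := by
    simpa using card_sylow_eq_of_card_eq 7 1 720 (by rw [hG]; norm_num) (by norm_num) Q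
  have hxQ : Subgroup.zpowers x = (Q : Subgroup G) :=
    Subgroup.eq_of_le_of_card_ge hQ (by rw [hQ7, Nat.card_zpowers, hx7])
  rw [hxQ] at hNQ
  have h7 := card_sylow_mul_card_normalizer 7 Q
  rw [hG] at h7
  have hdvd := Subgroup.card_dvd_of_le hNQ
  rw [hN] at hdvd
  have hn7 : Nat.card (Sylow 7 G) ≠ 1 :=
    card_sylow_ne_one 7 (by rw [hG]; norm_num) 2 (by norm_num) (by norm_num)
      (by rw [hG]; norm_num)
  obtain ⟨h36, hN7⟩ := arith_seven _ _ h7 hdvd (card_sylow_mod 7) hn7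
  -- [N(Q) : C(Q)] = 2
  obtain ⟨hr1, hr2, hr3, hQC⟩ := relIndex_centralizer_sylow_prime hGn 7 Q hQ7
  rw [hN7] at hr3
  obtain ⟨r, hr⟩ : ∃ r, r = (Subgroup.centralizer ((Q : Subgroup G) : Set G)).relIndex
      (Subgroup.normalizer ((Q : Subgroup G) : Set G)) := ⟨_, rfl⟩
  rw [← hr] at hr1 hr2 hr3
  have h6 : r ∣ 6 := by simpa using hr2
  have hr6 : r ≤ 6 := Nat.le_of_dvd (by norm_num) h6
  obtain ⟨cC, hcC⟩ : ∃ cC, cC = Nat.card (Subgroup.centralizer ((Q : Subgroup G) : Set G)) :=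
    ⟨_, rfl⟩
  rw [← hcC] at hr3
  have hr2' : r = 2 := by interval_cases r <;> omega
  -- a Sylow 2-subgroup of N(Q)
  obtain ⟨T'⟩ := (Sylow.nonempty :
    Nonempty (Sylow 2 (Subgroup.normalizer ((Q : Subgroup G) : Set G))))
  have hT'4 := card_sylow_eq_of_card_eq 2 2 35 (by rw [hN7]; norm_num) (by norm_num) T'
  obtain ⟨T, hTdef⟩ : ∃ T : Subgroup G, T = (T' : Subgroup _).map
      (Subgroup.normalizer ((Q : Subgroup G) : Set G)).subtype := ⟨_, rfl⟩
  have hT4 : Nat.card T = 4 := by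
    rw [hTdef, Subgroup.card_map_of_injective (Subgroup.subtype_injective _), hT'4]
    norm_num
  have hTN : T ≤ Subgroup.normalizer ((Q : Subgroup G) : Set G) := by
    rw [hTdef]
    exact Subgroup.map_subtype_le _
  have hT2 : IsPGroup 2 T := IsPGroup.of_card (n := 2) (by rw [hT4]; norm_num)
  have hMne : T ⊓ Subgroup.centralizer ((Q : Subgroup G) : Set G) ≠ ⊥ := by
    intro h
    have h1 := Subgroup.inf_relIndex_right (Subgroup.centralizer ((Q : Subgroup G) : Set G)) T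
    rw [inf_comm, h, Subgroup.relIndex_bot_left, hT4] at h1
    have h2 := Subgroup.relIndex_le_of_le_right
      (H := Subgroup.centralizer ((Q : Subgroup G) : Set G)) hTN (by rw [← hr, hr2']; norm_num)
    rw [← hr, ← h1, hr2'] at h2
    omega
  have hTM : T ≤ Subgroup.normalizer
      ((T ⊓ Subgroup.centralizer ((Q : Subgroup G) : Set G) : Subgroup G) : Set G) := by
    apply Cfsg.Agent.Lib.Helper53.le_normalizer_of_conj_mem
    intro g hg w hw
    exact ⟨T.mul_mem (T.mul_mem hg hw.1) (T.inv_mem hg),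
      conj_mem_centralizer_of_mem_normalizer (Q : Subgroup G) g w (hTN hg) hw.2⟩
  obtain ⟨t, htM, ht2, htc⟩ := exists_involution_central T
    (T ⊓ Subgroup.centralizer ((Q : Subgroup G) : Set G)) hT2 inf_le_left hTM hMne
  have htC : t ∈ Subgroup.centralizer ((Q : Subgroup G) : Set G) := htM.2
  -- the centralizer of t
  obtain ⟨H, hHdef⟩ : ∃ H : Subgroup G, H = Subgroup.centralizer ({t} : Set G) := ⟨_, rfl⟩
  have hmemH : ∀ g : G, g ∈ H ↔ g * t = t * g := by
    intro g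
    rw [hHdef, Subgroup.mem_centralizer_iff]
    simp only [Set.mem_singleton_iff, forall_eq]
    exact eq_comm
  have hQH : (Q : Subgroup G) ≤ H := by
    intro u hu
    rw [hmemH]
    exact Subgroup.mem_centralizer_iff.mp htC u hu
  have hTH : T ≤ H := fun g hg => (hmemH g).mpr (htc g hg)
  obtain ⟨W, hWdef⟩ : ∃ W : Subgroup G,
      W = Subgroup.normalizer ((Q : Subgroup G) : Set G) ⊓ H := ⟨_, rfl⟩
  have hw4 : 4 ∣ Nat.card W := by
    rw [← hT4]
    exact Subgroup.card_dvd_of_le (by rw [hWdef]; exact le_inf hTN hTH)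
  have hw7 : 7 ∣ Nat.card W := by
    rw [← hQ7]
    exact Subgroup.card_dvd_of_le (by rw [hWdef]; exact le_inf Subgroup.le_normalizer hQH)
  have hw140 : Nat.card W ∣ 140 := by
    rw [← hN7]
    exact Subgroup.card_dvd_of_le (by rw [hWdef]; exact inf_le_left)
  obtain ⟨hmod, hcount⟩ := card_sylow_subgroup 7 Q H hQH
  rw [← hWdef] at hcount
  have hHdvd : Nat.card H ∣ 5040 := by
    rw [← hG]
    exact Subgroup.card_subgroup_dvd_card H
  -- the characters of degrees 15 and 16 bound the centralizer from below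
  have hbound : 314 ≤ Nat.card H := by
    obtain ⟨χ, η, hχ1, hη1, hne, hχt, hηt⟩ := block_seven hG Q hQ7 (by rw [← hr, hr2']) t htC ht2
    have hinj : Function.Injective (![χ, η] : Fin 2 → IrrCharacter G) := by
      intro i j hij
      fin_cases i <;> fin_cases j
      · rfl
      · exact absurd hij hne
      · exact absurd hij.symm hne
      · rfl
    have hcol := one_add_sum_sq_le_card_centralizer 2 ![χ, η] hinj
      (by intro i; fin_cases i; exacts [hχ1, hη1]) t ![-13, -12]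
      (by intro i; fin_cases i; exacts [hχt, hηt])
    rw [← hHdef] at hcol
    simp only [Fin.sum_univ_two, Matrix.cons_val_zero, Matrix.cons_val_one] at hcol
    have h314 : (314 : ℤ) ≤ (Nat.card H : ℤ) := by
      refine le_trans ?_ hcol
      norm_num
    exact_mod_cast h314
  -- no element of order 5 commutes with t
  have h5 : ¬ 5 ∣ Nat.card H := by
    intro h5
    obtain ⟨y', hy'⟩ := exists_prime_orderOf_dvd_card' (G := H) 5 h5
    obtain ⟨y, hydef⟩ : ∃ y : G, y = (y' : G) := ⟨_, rfl⟩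
    have hyH : y ∈ H := by rw [hydef]; exact y'.2
    have hy5 : orderOf y = 5 := by rw [hydef, Subgroup.orderOf_coe]; exact hy'
    have hpy : IsPGroup 5 (Subgroup.zpowers y) :=
      IsPGroup.of_card (n := 1) (by rw [Nat.card_zpowers, hy5, pow_one])
    obtain ⟨Q5, hQ5⟩ := hpy.exists_le_sylow
    have hQ5c : Nat.card (Q5 : Subgroup G) = 5 := by
      simpa using card_sylow_eq_of_card_eq 5 1 1008 (by rw [hG]; norm_num) (by norm_num) Q5
    have hyQ : Subgroup.zpowers y = (Q5 : Subgroup G) :=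
      Subgroup.eq_of_le_of_card_ge hQ5 (by rw [hQ5c, Nat.card_zpowers, hy5])
    have hle : (Q5 : Subgroup G) ≤ H := by
      rw [← hyQ]
      exact (Subgroup.zpowers_le (H := H)).mpr hyH
    have htC5 : t ∈ Subgroup.centralizer ((Q5 : Subgroup G) : Set G) := by
      rw [Subgroup.mem_centralizer_iff]
      intro u hu
      exact (hmemH u).mp (hle hu)
    have hdvd2 : 2 ∣ 35 := by
      have := orderOf_dvd_natCard
        (⟨t, htC5⟩ : Subgroup.centralizer ((Q5 : Subgroup G) : Set G))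
      rw [hC Q5, Subgroup.orderOf_mk, ht2] at this
      exact this
    omega
  have h1008 := arith_HD _ _ _ hw4 hw7 hw140 hmod hcount hHdvd hbound h5
  have hidx : H.index = 5 := by
    have h1 := H.index_mul_card
    rw [hG, ← h1008] at h1
    exact Nat.eq_of_mul_eq_mul_right Nat.card_pos h1
  have hHne : H ≠ ⊤ := by
    intro htop
    rw [htop, Subgroup.index_top] at hidx
    omega
  have h2 := card_dvd_factorial_index H hHne
  rw [hidx, hG] at h2
  revert h2
  decide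

/-! ### The theorem -/

/-- No finite simple group has order 5040 = 2^4 * 3^2 * 5 * 7. -/
theorem result {G : Type*} [Group G] [Finite G] [IsSimpleGroup G] : Nat.card G ≠ 5040 := by
  intro hG
  have : Fact (Nat.Prime 5) := ⟨by norm_num⟩
  have hGn : ¬ (Nat.card G).Prime := by rw [hG]; norm_num
  obtain ⟨P⟩ := (Sylow.nonempty : Nonempty (Sylow 5 G))
  have hQ : ∀ Q : Sylow 5 G, Nat.card (Q : Subgroup G) = 5 := fun Q => by
    simpa using card_sylow_eq_of_card_eq 5 1 1008 (by rw [hG]; norm_num) (by norm_num) Q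
  have hc := card_sylow_mem_cands (G := G) 5 1 1008 (by rw [hG]; norm_num) (by norm_num)
  have hcl : sylowCands 5 1008 = [1, 6, 16, 21, 36, 56, 126, 336] := by decide +kernel
  rw [hcl] at hc
  have h1 : Nat.card (Sylow 5 G) ≠ 1 :=
    card_sylow_ne_one 5 (by rw [hG]; norm_num) 2 (by norm_num) (by norm_num)
      (by rw [hG]; norm_num)
  have hrQ : ∀ Q : Sylow 5 G, ∃ r, r = (Subgroup.centralizer ((Q : Subgroup G) : Set G)).relIndex
      (Subgroup.normalizer ((Q : Subgroup G) : Set G)) ∧ (r = 2 ∨ r = 4) ∧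
      r * Nat.card (Subgroup.centralizer ((Q : Subgroup G) : Set G)) =
        Nat.card (Subgroup.normalizer ((Q : Subgroup G) : Set G)) := by
    intro Q
    obtain ⟨hr1, hr2, hr3, -⟩ := relIndex_centralizer_sylow_prime hGn 5 Q (hQ Q)
    obtain ⟨r, hr⟩ : ∃ r, r = (Subgroup.centralizer ((Q : Subgroup G) : Set G)).relIndex
        (Subgroup.normalizer ((Q : Subgroup G) : Set G)) := ⟨_, rfl⟩
    rw [← hr] at hr1 hr2 hr3
    have h4' : r ∣ 4 := by simpa using hr2
    have hr4 : r ≤ 4 := Nat.le_of_dvd (by norm_num) h4'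
    have hr0 : r ≠ 0 := by
      rintro rfl
      simp at h4'
    have hr24 : r = 2 ∨ r = 4 := by
      interval_cases r
      · exact absurd rfl hr0
      · exact absurd rfl hr1
      · exact Or.inl rfl
      · exact absurd h4' (by norm_num)
      · exact Or.inr rfl
    exact ⟨r, hr, hr24, hr3⟩
  -- the case `[N(Q) : C(Q)] = 2` with an element of order 2 or 3 in `C(Q)`
  have hA : ∀ Q : Sylow 5 G, (Subgroup.centralizer ((Q : Subgroup G) : Set G)).relIndex
      (Subgroup.normalizer ((Q : Subgroup G) : Set G)) = 2 →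
      (2 ∣ Nat.card (Subgroup.centralizer ((Q : Subgroup G) : Set G)) ∨
        3 ∣ Nat.card (Subgroup.centralizer ((Q : Subgroup G) : Set G))) → False := by
    intro Q hm hdiv
    obtain ⟨c, hc, hcq⟩ : ∃ c : G, c ∈ Subgroup.centralizer ((Q : Subgroup G) : Set G) ∧
        (orderOf c = 2 ∨ orderOf c = 3) := by
      rcases hdiv with h | h
      · obtain ⟨c', hc'⟩ := exists_prime_orderOf_dvd_card'
          (G := Subgroup.centralizer ((Q : Subgroup G) : Set G)) 2 h
        exact ⟨(c' : G), c'.2, Or.inl (by rw [Subgroup.orderOf_coe]; exact hc')⟩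
      · obtain ⟨c', hc'⟩ := exists_prime_orderOf_dvd_card'
          (G := Subgroup.centralizer ((Q : Subgroup G) : Set G)) 3 h
        exact ⟨(c' : G), c'.2, Or.inr (by rw [Subgroup.orderOf_coe]; exact hc')⟩
    refine case_m2_five' hGn ?_ Q (hQ Q) hm c hc hcq
    intro x y hx hy hx1
    rw [hG] at hx hy
    exact arith_5040 x y hx hy hx1
  have h4 : ∀ Q : Sylow 5 G, Nat.card (Sylow 5 G) *
      Nat.card (Subgroup.normalizer ((Q : Subgroup G) : Set G)) = 5040 := fun Q => by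
    have := card_sylow_mul_card_normalizer 5 Q
    rwa [hG] at this
  simp only [List.mem_cons, List.not_mem_nil, or_false] at hc
  rcases hc with h | h | h | h | h | h | h | h
  · exact h1 h
  · have hd := card_normalizer_dvd_of_card_sylow_succ 5 h (by rw [hG]; norm_num) P
    have h4P := h4 P
    rw [h] at h4P
    have hN : Nat.card (Subgroup.normalizer ((P : Subgroup G) : Set G)) = 840 := by omega
    rw [hN] at hd
    revert hd
    decide
  · obtain ⟨r, hr, hr24, hr3⟩ := hrQ P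
    have h4P := h4 P
    rw [h] at h4P
    have hN : Nat.card (Subgroup.normalizer ((P : Subgroup G) : Set G)) = 315 := by omega
    rw [hN] at hr3
    rcases hr24 with h' | h' <;> rw [h'] at hr3 <;> omega
  · obtain ⟨r, hr, hr24, hr3⟩ := hrQ P
    have h4P := h4 P
    rw [h] at h4P
    have hN : Nat.card (Subgroup.normalizer ((P : Subgroup G) : Set G)) = 240 := by omega
    rw [hN] at hr3
    rcases hr24 with h' | h'
    · rw [h'] at hr3
      exact hA P (by rw [← hr, h']) (Or.inl (by omega))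
    · exact case_B hG P (hQ P) (by rw [← hr, h']) 4 15 (Or.inl ⟨rfl, rfl⟩) (by rw [hN]; norm_num)
  · have hall : ∀ Q : Sylow 5 G,
        Nat.card (Subgroup.normalizer ((Q : Subgroup G) : Set G)) = 140 ∧
        Nat.card (Subgroup.centralizer ((Q : Subgroup G) : Set G)) = 35 := by
      intro Q
      obtain ⟨r, hr, hr24, hr3⟩ := hrQ Q
      have h4Q := h4 Q
      rw [h] at h4Q
      have hN : Nat.card (Subgroup.normalizer ((Q : Subgroup G) : Set G)) = 140 := by omega
      rw [hN] at hr3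
      rcases hr24 with h' | h'
      · exfalso
        rw [h'] at hr3
        exact hA Q (by rw [← hr, h']) (Or.inl (by omega))
      · rw [h'] at hr3
        exact ⟨hN, by omega⟩
    exact case_D hG P (hQ P) (hall P).1 (fun Q => (hall Q).2)
  · obtain ⟨r, hr, hr24, hr3⟩ := hrQ P
    have h4P := h4 P
    rw [h] at h4P
    have hN : Nat.card (Subgroup.normalizer ((P : Subgroup G) : Set G)) = 90 := by omega
    rw [hN] at hr3
    rcases hr24 with h' | h'
    · rw [h'] at hr3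
      exact hA P (by rw [← hr, h']) (Or.inr (by omega))
    · rw [h'] at hr3
      omega
  · obtain ⟨r, hr, hr24, hr3⟩ := hrQ P
    have h4P := h4 P
    rw [h] at h4P
    have hN : Nat.card (Subgroup.normalizer ((P : Subgroup G) : Set G)) = 40 := by omega
    rw [hN] at hr3
    rcases hr24 with h' | h'
    · rw [h'] at hr3
      exact hA P (by rw [← hr, h']) (Or.inl (by omega))
    · exact case_B hG P (hQ P) (by rw [← hr, h']) 3 5 (Or.inr ⟨rfl, rfl⟩) (by rw [hN]; norm_num)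
  · obtain ⟨r, hr, hr24, hr3⟩ := hrQ P
    have h4P := h4 P
    rw [h] at h4P
    have hN : Nat.card (Subgroup.normalizer ((P : Subgroup G) : Set G)) = 15 := by omega
    rw [hN] at hr3
    rcases hr24 with h' | h' <;> rw [h'] at hr3 <;> omega

end Cfsg.Agent.S0978
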