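import Cfsg.Statements.S0979
import Cfsg.Agent.Lib.Helper90.BrauerDeg

set_option autoImplicit false
open Cfsg

namespace Cfsg.Agent.S0979

open Cfsg.Agent.Lib.Helper17 Cfsg.Agent.Lib.Helper90.BrauerDeg

/-- divisors of `5472` other than `1` congruent to `±1` modulo `19` -/
theorem arith_5472 (x : ℕ) (hx : x ∣ 5472) (hx1 : x ≠ 1) :
    (x % 19 = 1 → x = 96) ∧ (x % 19 = 18 → x = 18) := by
  have hx' : x ∈ Nat.divisors 5472 := Nat.mem_divisors.mpr ⟨hx, by norm_num⟩
  have key : ∀ x ∈ Nat.divisors 5472, x ≠ 1 →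
      (x % 19 = 1 → x = 96) ∧ (x % 19 = 18 → x = 18) := by decide +kernel
  exact key x hx' hx1

/-- No finite simple group has order 5472 = 2^5 * 3^2 * 19. -/
theorem result {G : Type*} [Group G] [Finite G] [IsSimpleGroup G] : Nat.card G ≠ 5472 := by
  intro hG
  haveI : Fact (Nat.Prime 19) := ⟨by norm_num⟩
  have hGn : ¬ (Nat.card G).Prime := by rw [hG]; norm_num
  obtain ⟨P⟩ := (Sylow.nonempty : Nonempty (Sylow 19 G))
  have hP : Nat.card (P : Subgroup G) = 19 := by
    simpa using card_sylow_eq_of_card_eq 19 1 288 (by rw [hG]; norm_num) (by norm_num) P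
  have hn : Nat.card (Sylow 19 G) = 96 := by
    have hc := card_sylow_mem_cands (G := G) 19 1 288 (by rw [hG]; norm_num) (by norm_num)
    have hcl : sylowCands 19 288 = [1, 96] := by decide +kernel
    rw [hcl] at hc
    have h3 : Nat.card (Sylow 19 G) ≠ 1 :=
      card_sylow_ne_one 19 (by rw [hG]; norm_num) 2 (by norm_num) (by norm_num)
        (by rw [hG]; norm_num)
    simp only [List.mem_cons, List.not_mem_nil, or_false] at hc
    omega
  have hN : Nat.card (Subgroup.normalizer ((P : Subgroup G) : Set G)) = 57 := by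
    have h4 := card_sylow_mul_card_normalizer 19 P
    rw [hn, hG] at h4
    omega
  obtain ⟨hr1, hr2, hr3, -⟩ := relIndex_centralizer_sylow_prime hGn 19 P hP
  rw [hN] at hr3
  have hm : (Subgroup.centralizer ((P : Subgroup G) : Set G)).relIndex
      (Subgroup.normalizer ((P : Subgroup G) : Set G)) = 3 := by
    obtain ⟨r, hr⟩ : ∃ r, r = (Subgroup.centralizer ((P : Subgroup G) : Set G)).relIndex
        (Subgroup.normalizer ((P : Subgroup G) : Set G)) := ⟨_, rfl⟩
    rw [← hr] at hr1 hr2 hr3 ⊢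
    have h18 : r ∣ 18 := by simpa using hr2
    have h57 : r ∣ 57 := Dvd.intro _ hr3
    have h3 : r ∣ 3 := by
      have := Nat.dvd_gcd h18 h57
      simpa using this
    have hr3' : r ≤ 3 := Nat.le_of_dvd (by norm_num) h3
    interval_cases r
    · omega
    · exact absurd rfl hr1
    · omega
    · rfl
  obtain ⟨k, a, x, d, δ, y, hk, hδ, hax, hy0, hyd, hrel, hfin⟩ :=
    brauer_simple hGn 19 P hP 3 (by norm_num) hm
  rw [hG] at hyd
  have h6 : ((19 - 1) / 3 : ℕ) = 6 := by norm_num
  rw [h6] at hrel hfin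
  push_cast at hrel hfin
  have hS : 0 ≤ ∑ i, a i ^ 2 := Finset.sum_nonneg (fun i _ => sq_nonneg _)
  have hd : d = 0 := by
    have h1 : d ≤ 0 := by nlinarith [sq_nonneg (d - δ)]
    have h2 : 0 ≤ d := by nlinarith [sq_nonneg (d - δ)]
    omega
  subst hd
  have hδ2 : δ ^ 2 = 1 := by rcases hδ with rfl | rfl <;> norm_num
  have hsum : ∑ i, a i ^ 2 = 2 := by
    have h0 : (0 - δ) ^ 2 = 1 := by rw [zero_sub, neg_sq]; exact hδ2
    nlinarith
  have hpm : ∀ b : ℤ, b ^ 2 = 1 → b = 1 ∨ b = -1 := by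
    intro b hb
    have h1 : (b - 1) * (b + 1) = 0 := by nlinarith
    rcases mul_eq_zero.mp h1 with h | h
    · left; omega
    · right; omega
  have hk' : k = 0 ∨ k = 1 ∨ k = 2 := by omega
  rcases hk' with rfl | rfl | rfl
  · simp at hsum
  · simp only [Fin.sum_univ_succ, Fin.sum_univ_zero, add_zero] at hsum
    have h1 : a 0 ≤ 1 := by nlinarith
    have h2 : -1 ≤ a 0 := by nlinarith
    have h3 : a 0 = -1 ∨ a 0 = 0 ∨ a 0 = 1 := by omega
    rcases h3 with h | h | h <;> rw [h] at hsum <;> norm_num at hsum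
  · rw [Fin.sum_univ_two] at hsum hfin
    obtain ⟨ha0, hxd0, hx10, hxa0⟩ := hax 0
    obtain ⟨ha1, hxd1, hx11, hxa1⟩ := hax 1
    rw [hG] at hxd0 hxd1
    have hsq0 : 1 ≤ a 0 ^ 2 := by
      rcases lt_trichotomy (a 0) 0 with h | h | h
      · nlinarith
      · exact absurd h ha0
      · nlinarith
    have hsq1 : 1 ≤ (a 1) ^ 2 := by
      rcases lt_trichotomy (a 1) 0 with h | h | h
      · nlinarith
      · exact absurd h ha1
      · nlinarith
    have hA0 := hpm (a 0) (by omega)
    have hA1 := hpm (a 1) (by omega)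
    have hX0 := arith_5472 (x 0) hxd0 hx10
    have hX1 := arith_5472 (x 1) hxd1 hx11
    unfold Int.ModEq at hxa0 hxa1
    have hy35 : ¬ (35 ∣ 5472) := by norm_num
    have hy79 : ¬ (79 ∣ 5472) := by norm_num
    have hy193 : ¬ (193 ∣ 5472) := by norm_num
    rcases hA0 with h0 | h0 <;> rcases hA1 with h1 | h1 <;> rw [h0] at hxa0 hfin <;>
      rw [h1] at hxa1 hfin
    · have e0 : x 0 = 96 := hX0.1 (by omega)
      have e1 : x 1 = 96 := hX1.1 (by omega)
      rw [e0, e1] at hfin
      rcases hδ with rfl | rfl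
      · have : y = 193 := by omega
        rw [this] at hyd; exact hy193 hyd
      · omega
    · have e0 : x 0 = 96 := hX0.1 (by omega)
      have e1 : x 1 = 18 := hX1.2 (by omega)
      rw [e0, e1] at hfin
      rcases hδ with rfl | rfl
      · have : y = 79 := by omega
        rw [this] at hyd; exact hy79 hyd
      · omega
    · have e0 : x 0 = 18 := hX0.2 (by omega)
      have e1 : x 1 = 96 := hX1.1 (by omega)
      rw [e0, e1] at hfin
      rcases hδ with rfl | rfl
      · have : y = 79 := by omega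
        rw [this] at hyd; exact hy79 hyd
      · omega
    · have e0 : x 0 = 18 := hX0.2 (by omega)
      have e1 : x 1 = 18 := hX1.2 (by omega)
      rw [e0, e1] at hfin
      rcases hδ with rfl | rfl
      · omega
      · have : y = 35 := by omega
        rw [this] at hyd; exact hy35 hyd

end Cfsg.Agent.S0979
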