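import Cfsg.Statements.S0980
import Cfsg.Agent.Lib.Helper91.SSFive
import Cfsg.Agent.Lib.Helper91.SSDihedral

set_option autoImplicit false
open Cfsg

namespace Cfsg.Agent.S0980

open Cfsg.Agent.Lib.Helper17 Cfsg.Agent.Lib.Helper91.SS

/-- the only solutions of Brauer's degree equation for `p = 5`, `e = 2` among divisors of `5760` -/
theorem arith_5760 (x y : ℕ) (hx : x ∣ 5760) (hy : y ∣ 5760) (hx1 : x ≠ 1) :
    ¬ (x % 5 = 1 ∧ y = x + 1) ∧ (x % 5 = 4 ∧ x = y + 1 → x = 4 ∨ x = 9) := by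
  have hx' : x ∈ Nat.divisors 5760 := Nat.mem_divisors.mpr ⟨hx, by norm_num⟩
  have hy' : y ∈ Nat.divisors 5760 := Nat.mem_divisors.mpr ⟨hy, by norm_num⟩
  have key : ∀ x ∈ Nat.divisors 5760, ∀ y ∈ Nat.divisors 5760, x ≠ 1 →
      ¬ (x % 5 = 1 ∧ y = x + 1) ∧ (x % 5 = 4 ∧ x = y + 1 → x = 4 ∨ x = 9) := by decide +kernel
  exact key x hx' y hy' hx1

/-- candidates for the degrees in the principal `5`-block -/
theorem list_5760 (f : ℕ) (hf : f ∣ 5760) (h1 : f ≠ 1) (hsq : f ^ 2 ≤ 5760)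
    (hmod : f % 5 = 1 ∨ f % 5 = 4) : f ∈ [4, 6, 9, 16, 24, 36, 54, 64] := by
  have hf' : f ∈ Nat.divisors 5760 := Nat.mem_divisors.mpr ⟨hf, by norm_num⟩
  have key : ∀ f ∈ Nat.divisors 5760, f ≠ 1 → f ^ 2 ≤ 5760 → (f % 5 = 1 ∨ f % 5 = 4) →
      f ∈ [4, 6, 9, 16, 24, 36, 54, 64] := by decide +kernel
  exact key f hf' h1 hsq hmod

/-- The cases where `C(P)` contains an element of order `2` or `3`. -/
theorem case_central {G : Type*} [Group G] [Finite G] [IsSimpleGroup G] (hG : Nat.card G = 5760)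
    (P : Sylow 5 G) (hP : Nat.card (P : Subgroup G) = 5)
    (hC : 2 ∣ Nat.card (Subgroup.centralizer ((P : Subgroup G) : Set G)) ∨
      3 ∣ Nat.card (Subgroup.centralizer ((P : Subgroup G) : Set G))) : False := by
  have : Fact (Nat.Prime 5) := ⟨by norm_num⟩
  have hGn : ¬ (Nat.card G).Prime := by rw [hG]; norm_num
  obtain ⟨c, hc, hcq⟩ : ∃ c : G, c ∈ Subgroup.centralizer ((P : Subgroup G) : Set G) ∧
      (orderOf c = 2 ∨ orderOf c = 3) := by
    rcases hC with h | h
    · obtain ⟨c', hc'⟩ := exists_prime_orderOf_dvd_card'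
        (G := Subgroup.centralizer ((P : Subgroup G) : Set G)) 2 h
      exact ⟨(c' : G), c'.2, Or.inl (by rw [Subgroup.orderOf_coe]; exact hc')⟩
    · obtain ⟨c', hc'⟩ := exists_prime_orderOf_dvd_card'
        (G := Subgroup.centralizer ((P : Subgroup G) : Set G)) 3 h
      exact ⟨(c' : G), c'.2, Or.inr (by rw [Subgroup.orderOf_coe]; exact hc')⟩
  obtain ⟨hr1, hr2, hr3, -⟩ := relIndex_centralizer_sylow_prime hGn 5 P hP
  obtain ⟨r, hr⟩ : ∃ r, r = (Subgroup.centralizer ((P : Subgroup G) : Set G)).relIndex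
      (Subgroup.normalizer ((P : Subgroup G) : Set G)) := ⟨_, rfl⟩
  rw [← hr] at hr1 hr2 hr3
  have h4' : r ∣ 4 := by simpa using hr2
  have hr4 : r ≤ 4 := Nat.le_of_dvd (by norm_num) h4'
  have hr0 : r ≠ 0 := by
    rintro rfl
    simp at h4'
  have hr24 : r = 2 ∨ r = 4 := by
    interval_cases r
    · exact absurd rfl hr0
    · exact absurd rfl hr1
    · exact Or.inl rfl
    · exact absurd h4' (by norm_num)
    · exact Or.inr rfl
  rcases hr24 with h | h
  · refine case_m2_five hGn ?_ P hP (by rw [← hr, h]) c hc hcq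
    intro x y hx hy hx1
    rw [hG] at hx hy
    exact arith_5760 x y hx hy hx1
  · refine case_m4_five hGn ?_ P hP (by rw [← hr, h]) c hc hcq
    intro f hf h1 hsq hmod
    rw [hG] at hf hsq
    exact list_5760 f hf h1 hsq hmod

/-- The case `n_5 = 576`: `N(P)` is dihedral of order `10`. -/
theorem case_576 {G : Type*} [Group G] [Finite G] [IsSimpleGroup G] (hG : Nat.card G = 5760)
    (P : Sylow 5 G) (hn : Nat.card (Sylow 5 G) = 576) : False := by
  classical
  have : Fact (Nat.Prime 5) := ⟨by norm_num⟩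
  have h5 : Nat.Prime 5 := by norm_num
  have hGn : ¬ (Nat.card G).Prime := by rw [hG]; norm_num
  have hQ : ∀ Q : Sylow 5 G, Nat.card (Q : Subgroup G) = 5 := fun Q => by
    simpa using card_sylow_eq_of_card_eq 5 1 1152 (by rw [hG]; norm_num) (by norm_num) Q
  have hN : ∀ Q : Sylow 5 G,
      Nat.card (Subgroup.normalizer ((Q : Subgroup G) : Set G)) = 2 * 5 := by
    intro Q
    have h4 := card_sylow_mul_card_normalizer 5 Q
    rw [hn, hG] at h4
    omega
  have hr : ∀ Q : Sylow 5 G, (Subgroup.centralizer ((Q : Subgroup G) : Set G)).relIndex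
      (Subgroup.normalizer ((Q : Subgroup G) : Set G)) = 2 ∧
      Subgroup.centralizer ((Q : Subgroup G) : Set G) = (Q : Subgroup G) := by
    intro Q
    obtain ⟨hr1, hr2, hr3, hQC⟩ := relIndex_centralizer_sylow_prime hGn 5 Q (hQ Q)
    rw [hN Q] at hr3
    obtain ⟨r, hr⟩ : ∃ r, r = (Subgroup.centralizer ((Q : Subgroup G) : Set G)).relIndex
      (Subgroup.normalizer ((Q : Subgroup G) : Set G)) := ⟨_, rfl⟩
    rw [← hr] at hr1 hr2 hr3 ⊢
    have h4' : r ∣ 4 := by simpa using hr2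
    have hr4 : r ≤ 4 := Nat.le_of_dvd (by norm_num) h4'
    have hr2' : r = 2 := by
      interval_cases r <;> omega
    refine ⟨hr2', ?_⟩
    rw [hr2'] at hr3
    have hC5 : Nat.card (Subgroup.centralizer ((Q : Subgroup G) : Set G)) = 5 := by omega
    exact (Subgroup.eq_of_le_of_card_ge hQC (by rw [hC5, hQ Q])).symm
  have hC : ∀ Q : Sylow 5 G,
      Subgroup.centralizer ((Q : Subgroup G) : Set G) = (Q : Subgroup G) := fun Q => (hr Q).2
  have harith : ∀ x y : ℕ, x ∣ Nat.card G → y ∣ Nat.card G → x ≠ 1 →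
      ¬ (x % 5 = 1 ∧ y = x + 1) ∧ (x % 5 = 4 ∧ x = y + 1 → x = 4 ∨ x = 9) := by
    intro x y hx hy hx1
    rw [hG] at hx hy
    exact arith_5760 x y hx hy hx1
  obtain ⟨χ, η, hχ1, hdeg, hxy, hval, hregη, hreal, hsumη⟩ :=
    block_m2_five hGn harith P (hQ P) (hr P).1
  -- a central involution of a Sylow 2-subgroup
  obtain ⟨z, hz1, hz2, hz128⟩ := exists_central_involution (G := G) (by rw [hG]; norm_num)
  have h128 := hz128 7 (by rw [hG]; norm_num)
  have hirr := χ.2
  have hirrη := η.2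
  have hchar := Cfsg.Agent.Lib.Helper80.isCharacter_of_isIrrCharacter hirr
  have hcharη := Cfsg.Agent.Lib.Helper80.isCharacter_of_isIrrCharacter hirrη
  obtain ⟨hxd, -, -⟩ := Cfsg.Agent.Lib.Helper79.irr_charDegree hirr
  obtain ⟨hyd, -, -⟩ := Cfsg.Agent.Lib.Helper79.irr_charDegree hirrη
  obtain ⟨x, hx⟩ : ∃ x, x = Cfsg.charDegree (χ : G → ℂ) := ⟨_, rfl⟩
  obtain ⟨y, hy⟩ : ∃ y, y = Cfsg.charDegree (η : G → ℂ) := ⟨_, rfl⟩
  rw [← hx] at hxd hdeg hxy
  rw [← hy] at hyd hxy
  have : Fintype G := Fintype.ofFinite G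
  obtain ⟨Φ, hΦdef⟩ : ∃ Φ : G → ℂ, Φ = fun g => 1 - (χ : G → ℂ) g + (η : G → ℂ) g := ⟨_, rfl⟩
  have hΦ : ∀ g u : G, Φ (g * u * g⁻¹) = Φ u := by
    intro g u
    rw [hΦdef]
    simp only
    rw [Cfsg.Agent.Lib.Helper80.char_conj_eq hchar u g,
      Cfsg.Agent.Lib.Helper80.char_conj_eq hcharη u g]
  have hΦ0 : ∀ g : G, ¬ 5 ∣ orderOf g → Φ g = 0 := by
    intro g hg
    rw [hΦdef]
    simp only
    rw [hregη g hg]
    ring
  have hmain := sum_conj_involution_fixed 5 (by norm_num) hQ hC P z hz1 hz2 Φ hΦ hΦ0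
  have hPsum : ∑ᶠ u : (P : Subgroup G), Φ (u : G) = 10 := by
    have : Fintype (P : Subgroup G) := Fintype.ofFinite _
    rw [finsum_eq_sum_of_fintype] at hsumη ⊢
    have h1 : ∑ u : (P : Subgroup G), ((χ : G → ℂ) (u : G) + 1) = (x : ℂ) + 1 := by
      rw [Finset.sum_eq_single (1 : (P : Subgroup G))]
      · rw [Subgroup.coe_one, hxd]
      · intro u _ hu1
        have hu1' : (u : G) ≠ 1 := fun h => hu1 (Subtype.ext h)
        rw [hval u u (isPPart_self h5 _ (hQ P) u u.2 hu1') u.2 hu1']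
        push_cast
        ring
      · intro h
        exact absurd (Finset.mem_univ _) h
    have h2 : ∑ u : (P : Subgroup G), (2 : ℂ) = 10 := by
      rw [Finset.sum_const, Finset.card_univ, ← Nat.card_eq_fintype_card, hQ P]
      norm_num
    have hxyc : (x : ℂ) = (y : ℂ) + 1 := by exact_mod_cast hxy
    calc ∑ u : (P : Subgroup G), Φ (u : G)
        = ∑ u : (P : Subgroup G),
            (((2 : ℂ) - ((χ : G → ℂ) (u : G) + 1)) + (η : G → ℂ) (u : G)) := by
          apply Finset.sum_congr rfl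
          intro u _
          rw [hΦdef]
          ring
      _ = 10 - ((x : ℂ) + 1) + ((y : ℂ) + 2) := by
          rw [Finset.sum_add_distrib, Finset.sum_sub_distrib, h1, h2, hsumη, hyd]
      _ = 10 := by rw [hxyc]; ring
  have hzo : orderOf z ∣ 2 := orderOf_dvd_of_pow_eq_one (by rw [pow_two]; exact hz2)
  have hzreg : ¬ 5 ∣ orderOf z := by
    intro h
    have h1 := Nat.le_of_dvd (by norm_num) (h.trans hzo)
    omega
  obtain ⟨k4, hk4⟩ := mod_four hGn hchar z hz2
  rw [hxd] at hk4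
  have hχz : (χ : G → ℂ) z = (x : ℂ) - 4 * (k4 : ℂ) := by linear_combination hk4
  have hηz : (η : G → ℂ) z = (x : ℂ) - 4 * (k4 : ℂ) - 1 := by rw [hregη z hzreg, hχz]
  have hLHS : ∑ g : G, Φ (g * z * g⁻¹ * z) =
      5760 * (1 - ((x : ℂ) - 4 * (k4 : ℂ)) ^ 2 / (x : ℂ) +
        ((x : ℂ) - 4 * (k4 : ℂ) - 1) ^ 2 / (y : ℂ)) := by
    rw [hΦdef]
    simp only
    rw [Finset.sum_add_distrib, Finset.sum_sub_distrib,
      Cfsg.Agent.Lib.Helper79.irr_sum_conj_mul hirr z z,
      Cfsg.Agent.Lib.Helper79.irr_sum_conj_mul hirrη z z, hxd, hyd, hχz, hηz, hG]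
    simp only [Finset.sum_const, Finset.card_univ, nsmul_eq_mul, mul_one]
    rw [← Nat.card_eq_fintype_card, hG]
    push_cast
    ring
  rw [hLHS, hPsum] at hmain
  obtain ⟨M, hM⟩ : ∃ M, M = Nat.card (Subgroup.centralizer ({z} : Set G)) := ⟨_, rfl⟩
  obtain ⟨f, hf⟩ : ∃ f, f = Set.ncard {Q : Sylow 5 G | z • Q = Q} := ⟨_, rfl⟩
  rw [← hM, ← hf] at hmain
  rw [← hM] at h128
  have hMpos : 0 < M := by rw [hM]; exact Nat.card_pos
  have hM128 : 128 ≤ M := Nat.le_of_dvd hMpos (by simpa using h128)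
  have hb := Cfsg.Agent.Lib.Helper80.norm_char_le_charDegree hchar z
  rw [hχz, ← hx] at hb
  have hkx : 4 * k4 ≤ 2 * x := by
    have h1 : (x : ℂ) - 4 * (k4 : ℂ) = (((x : ℤ) - 4 * (k4 : ℤ) : ℤ) : ℂ) := by
      push_cast
      ring
    rw [h1, Complex.norm_intCast] at hb
    have h2 : |((x : ℤ) - 4 * (k4 : ℤ) : ℤ)| ≤ (x : ℤ) := by exact_mod_cast hb
    have h3 := abs_le.mp h2
    omega
  -- the two possible degree patterns
  have hkey : (x = 4 ∧ 7680 * (k4 * k4) = 10 * (M * f)) ∨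
      (x = 9 ∧ 1280 * (k4 * k4) = 10 * (M * f)) := by
    rcases hdeg with h | h
    · left
      refine ⟨h, ?_⟩
      have hy3 : y = 3 := by omega
      rw [h, hy3] at hmain
      have h1 : ((7680 * (k4 * k4) : ℕ) : ℂ) = ((10 * (M * f) : ℕ) : ℂ) := by
        push_cast
        push_cast at hmain
        linear_combination hmain
      exact Nat.cast_injective h1
    · right
      refine ⟨h, ?_⟩
      have hy8 : y = 8 := by omega
      rw [h, hy8] at hmain
      have h1 : ((1280 * (k4 * k4) : ℕ) : ℂ) = ((10 * (M * f) : ℕ) : ℂ) := by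
        push_cast
        push_cast at hmain
        linear_combination hmain
      exact Nat.cast_injective h1
  -- `z` normalizes some Sylow 5-subgroup
  have hf0 : f ≠ 0 := by
    intro h0
    have hk0 : k4 = 0 := by
      rcases hkey with ⟨-, h⟩ | ⟨-, h⟩ <;> rw [h0] at h <;> nlinarith
    apply hz1
    apply eq_one_of_char_eq χ hχ1 z
    rw [hχz, hxd, hk0]
    push_cast
    ring
  obtain ⟨Q, hQz⟩ : ∃ Q : Sylow 5 G, z • Q = Q := by
    by_contra hne
    apply hf0
    rw [hf]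
    have hempty : {Q : Sylow 5 G | z • Q = Q} = ∅ := by
      ext Q
      simp only [Set.mem_empty_iff_false, iff_false]
      exact fun h => hne ⟨Q, h⟩
    rw [hempty, Set.ncard_empty]
  have hcf := card_fixed_sylow 5 (by norm_num) hQ hC 2 hN Q z
    (Sylow.smul_eq_iff_mem_normalizer.mp hQz) hz1 hz2
  rw [← hf, ← hM] at hcf
  rcases hkey with ⟨hx4, h⟩ | ⟨hx9, h⟩
  · have hk : k4 ≤ 2 := by omega
    have h1 : 5 * (M * M) = 7680 * (k4 * k4) := by
      rw [h, ← hcf]
      ring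
    have h2 : k4 * k4 ≤ 4 := by nlinarith
    nlinarith
  · have hk : k4 ≤ 4 := by omega
    have h1 : 5 * (M * M) = 1280 * (k4 * k4) := by
      rw [h, ← hcf]
      ring
    have h2 : k4 * k4 ≤ 16 := by nlinarith
    nlinarith

/-- No finite simple group has order 5760 = 2^7 * 3^2 * 5. -/
theorem result {G : Type*} [Group G] [Finite G] [IsSimpleGroup G] : Nat.card G ≠ 5760 := by
  intro hG
  have : Fact (Nat.Prime 5) := ⟨by norm_num⟩
  have hGn : ¬ (Nat.card G).Prime := by rw [hG]; norm_num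
  obtain ⟨P⟩ := (Sylow.nonempty : Nonempty (Sylow 5 G))
  have hP : Nat.card (P : Subgroup G) = 5 := by
    simpa using card_sylow_eq_of_card_eq 5 1 1152 (by rw [hG]; norm_num) (by norm_num) P
  have hc := card_sylow_mem_cands (G := G) 5 1 1152 (by rw [hG]; norm_num) (by norm_num)
  have hcl : sylowCands 5 1152 = [1, 6, 16, 36, 96, 576] := by decide +kernel
  rw [hcl] at hc
  have h1 : Nat.card (Sylow 5 G) ≠ 1 :=
    card_sylow_ne_one 5 (by rw [hG]; norm_num) 2 (by norm_num) (by norm_num)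
      (by rw [hG]; norm_num)
  have h4 := card_sylow_mul_card_normalizer 5 P
  rw [hG] at h4
  obtain ⟨hr1, hr2, hr3, -⟩ := relIndex_centralizer_sylow_prime hGn 5 P hP
  obtain ⟨r, hr⟩ : ∃ r, r = (Subgroup.centralizer ((P : Subgroup G) : Set G)).relIndex
      (Subgroup.normalizer ((P : Subgroup G) : Set G)) := ⟨_, rfl⟩
  rw [← hr] at hr1 hr2 hr3
  have h4' : r ∣ 4 := by simpa using hr2
  have hr4 : r ≤ 4 := Nat.le_of_dvd (by norm_num) h4'
  have hr0 : r ≠ 0 := by
    rintro rfl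
    simp at h4'
  have hr24 : r = 2 ∨ r = 4 := by
    interval_cases r
    · exact absurd rfl hr0
    · exact absurd rfl hr1
    · exact Or.inl rfl
    · exact absurd h4' (by norm_num)
    · exact Or.inr rfl
  simp only [List.mem_cons, List.not_mem_nil, or_false] at hc
  rcases hc with h | h | h | h | h | h
  · exact h1 h
  · have hd := card_normalizer_dvd_of_card_sylow_succ 5 h (by rw [hG]; norm_num) P
    rw [h] at h4
    have hN : Nat.card (Subgroup.normalizer ((P : Subgroup G) : Set G)) = 960 := by omega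
    rw [hN] at hd
    revert hd
    decide
  · rw [h] at h4
    have hN : Nat.card (Subgroup.normalizer ((P : Subgroup G) : Set G)) = 360 := by omega
    rw [hN] at hr3
    exact case_central hG P hP (Or.inl (by rcases hr24 with h' | h' <;> rw [h'] at hr3 <;> omega))
  · rw [h] at h4
    have hN : Nat.card (Subgroup.normalizer ((P : Subgroup G) : Set G)) = 160 := by omega
    rw [hN] at hr3
    exact case_central hG P hP (Or.inl (by rcases hr24 with h' | h' <;> rw [h'] at hr3 <;> omega))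
  · rw [h] at h4
    have hN : Nat.card (Subgroup.normalizer ((P : Subgroup G) : Set G)) = 60 := by omega
    rw [hN] at hr3
    exact case_central hG P hP (Or.inr (by rcases hr24 with h' | h' <;> rw [h'] at hr3 <;> omega))
  · exact case_576 hG P h

end Cfsg.Agent.S0980
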