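import Cfsg.Statements.S4702
import Mathlib
import Cfsg.Agent.S0727

set_option autoImplicit false
open Cfsg

namespace Cfsg.Agent.S4702

open Matrix in
/-- Over a finite field of characteristic two, `PGL(2, F)` is isomorphic to `SL(2, F)`. -/
theorem pgl_equiv_sl (F : Type) [Field F] [Fintype F] (h2 : (2 : F) = 0) :
    Nonempty (Matrix.ProjGenLinGroup (Fin 2) F ≃* Matrix.SpecialLinearGroup (Fin 2) F) := by
  classical
  haveI : CharP F 2 := CharTwo.of_one_ne_zero_of_two_eq_zero one_ne_zero h2
  have hch : ringChar F = 2 := ringChar.eq F 2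
  let φ : Matrix.SpecialLinearGroup (Fin 2) F →* Matrix.ProjGenLinGroup (Fin 2) F :=
    Matrix.SpecialLinearGroup.toPGL
  have hinj : Function.Injective φ := by
    rw [← MonoidHom.ker_eq_bot_iff, Matrix.SpecialLinearGroup.toPGL_ker, Subgroup.eq_bot_iff_forall]
    intro A hA
    rw [Matrix.SpecialLinearGroup.mem_center_iff] at hA
    obtain ⟨r, hr, hA⟩ := hA
    have hr1 : r = 1 := by
      have h0 : (r - 1) ^ 2 = 0 := by
        have : (r - 1) ^ 2 = r ^ 2 - 2 * r + 1 := by ring
        rw [this]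
        simp only [Fintype.card_fin] at hr
        rw [hr, h2, zero_mul, sub_zero]
        calc (1 : F) + 1 = 2 := by norm_num
        _ = 0 := h2
      exact sub_eq_zero.mp (pow_eq_zero_iff (two_ne_zero) |>.mp h0)
    apply Subtype.ext
    rw [← hA, hr1]
    simp
  have hsurj : Function.Surjective φ := by
    have h1 : Function.Surjective
        (Matrix.ProjectiveSpecialLinearGroup.toPGL (n := Fin 2) (R := F)) := by
      apply Matrix.ProjectiveSpecialLinearGroup.toPGL_surj_of_roots
      intro r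
      obtain ⟨k, hk⟩ := FiniteField.isSquare_of_char_two hch (r : F)
      have hk0 : k ≠ 0 := by
        intro h
        rw [h, mul_zero] at hk
        exact r.ne_zero hk
      refine ⟨Units.mk0 k hk0, Units.ext ?_⟩
      simp only [Fintype.card_fin, Units.val_pow_eq_pow_val, Units.val_mk0]
      rw [hk, pow_two]
    intro x
    obtain ⟨y, hy⟩ := h1 x
    induction y using QuotientGroup.induction_on with
    | H y => exact ⟨y, hy⟩
  exact ⟨(MulEquiv.ofBijective φ ⟨hinj, hsurj⟩).symm⟩


/-- Let G be a triply transitive permutation group on a finite set of odd size m ≥ 3 in which only the identity fixes three or more points. Then m = 2^a + 1 for some a ≥ 1 and G is isomorphic to SL(2, 2^a). -/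
theorem result {α : Type*} [Fintype α] [DecidableEq α] (hm : 3 ≤ Fintype.card α) (hodd : Odd (Fintype.card α)) (G : Subgroup (Equiv.Perm α)) (h3 : MulAction.IsMultiplyPretransitive G α 3) (hfix : ∀ g : G, 3 ≤ Nat.card (MulAction.fixedBy α g) → g = 1) : ∃ a : ℕ, 1 ≤ a ∧ Fintype.card α = 2 ^ a + 1 ∧ ∃ (F : Type) (_ : Field F) (_ : Fintype F), Fintype.card F = 2 ^ a ∧ Nonempty (G ≃* Matrix.SpecialLinearGroup (Fin 2) F) := by
  classical
  have emb : ∀ a b c : α, a ≠ b → a ≠ c → b ≠ c →
      ∃ x : Fin 3 ↪ α, x 0 = a ∧ x 1 = b ∧ x 2 = c := by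
    intro a b c hab hac hbc
    refine ⟨⟨![a, b, c], ?_⟩, rfl, rfl, rfl⟩
    intro i j hij
    fin_cases i <;> fin_cases j <;> simp_all
  have hsharp : ∀ x : Fin 3 ↪ α, MulAction.stabilizer G x = ⊥ := by
    intro x
    rw [Subgroup.eq_bot_iff_forall]
    intro g hg
    apply hfix
    rw [MulAction.mem_stabilizer_iff] at hg
    have hsub : Set.range x ⊆ MulAction.fixedBy α g := by
      rintro _ ⟨i, rfl⟩
      rw [MulAction.mem_fixedBy]
      have := congrFun (congrArg DFunLike.coe hg) i
      exact this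
    have h3c : (Set.range x).ncard = 3 := by
      rw [← Set.image_univ, Set.ncard_image_of_injective _ x.injective, Set.ncard_univ]
      simp
    rw [Nat.card_coe_set_eq, ← h3c]
    exact Set.ncard_le_ncard hsub (Set.toFinite _)
  have hT : ∀ a b c a' b' c' : α, a ≠ b → a ≠ c → b ≠ c → a' ≠ b' → a' ≠ c' → b' ≠ c' →
      ∃ g : G, g • a = a' ∧ g • b = b' ∧ g • c = c' := by
    intro a b c a' b' c' hab hac hbc hab' hac' hbc'
    obtain ⟨x, hx0, hx1, hx2⟩ := emb a b c hab hac hbc
    obtain ⟨y, hy0, hy1, hy2⟩ := emb a' b' c' hab' hac' hbc'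
    obtain ⟨g, hg⟩ := h3.exists_smul_eq x y
    refine ⟨g, ?_, ?_, ?_⟩
    · rw [← hx0, ← hy0, ← hg]; rfl
    · rw [← hx1, ← hy1, ← hg]; rfl
    · rw [← hx2, ← hy2, ← hg]; rfl
  have hS : ∀ (g : G) (a b c : α), a ≠ b → a ≠ c → b ≠ c → g • a = a → g • b = b → g • c = c →
      g = 1 := by
    intro g a b c hab hac hbc ha hb hc
    obtain ⟨x, hx0, hx1, hx2⟩ := emb a b c hab hac hbc
    have : g ∈ MulAction.stabilizer G x := by
      rw [MulAction.mem_stabilizer_iff]
      ext i
      fin_cases i
      · show g • x 0 = x 0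
        rw [hx0, ha]
      · show g • x 1 = x 1
        rw [hx1, hb]
      · show g • x 2 = x 2
        rw [hx2, hc]
    rw [hsharp] at this
    exact Subgroup.mem_bot.mp this
  obtain ⟨p⟩ : Nonempty α := Fintype.card_pos_iff.mp (by omega)
  have hne : ∀ x : SubMulAction.ofStabilizer G p, (x : α) ≠ p := fun x =>
    (SubMulAction.mem_ofStabilizer_iff G p).mp x.2
  have S : Lib.Helper58.SharpTwo (MulAction.stabilizer G p) (SubMulAction.ofStabilizer G p) := by
    refine ⟨fun a b c d hab hcd => ?_, fun g a b hab ha hb => ?_⟩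
    · obtain ⟨g, hg1, hg2, hg3⟩ := hT p a b p c d (hne a).symm (hne b).symm
        (fun h => hab (Subtype.ext h)) (hne c).symm (hne d).symm (fun h => hcd (Subtype.ext h))
      exact ⟨⟨g, hg1⟩, Subtype.ext hg2, Subtype.ext hg3⟩
    · apply Subtype.ext
      exact hS g p a b (hne a).symm (hne b).symm (fun h => hab (Subtype.ext h)) g.2
        (congrArg Subtype.val ha) (congrArg Subtype.val hb)
  have hcA : Nat.card (SubMulAction.ofStabilizer G p) = Fintype.card α - 1 := by
    rw [SubMulAction.nat_card_ofStabilizer_eq, Nat.card_eq_fintype_card]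
  haveI : Finite (SubMulAction.ofStabilizer G p) := Nat.finite_of_card_ne_zero (by omega)
  haveI : Nontrivial (SubMulAction.ofStabilizer G p) := by
    rw [← Finite.one_lt_card_iff_nontrivial]
    omega
  obtain ⟨N, q, j, hq, hj, hcard, -⟩ := S.exists_kernel
  have hq2 : q = 2 := by
    have heven : Even (q ^ j) := by
      rw [← hcard, hcA]
      obtain ⟨k, hk⟩ := hodd
      exact ⟨k, by omega⟩
    have := (Nat.Prime.even_iff hq).mp ((Nat.even_pow.mp heven).1)
    exact this
  subst hq2
  have hα : Fintype.card α = 2 ^ j + 1 := by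
    rw [← hcard, hcA]
    omega
  obtain ⟨F, fF, ftF, hF, ⟨iso⟩⟩ := Cfsg.Agent.S0727.result hj hα G h3 hsharp
  have h2F : (2 : F) = 0 := by
    have h := Nat.cast_card_eq_zero F
    rw [hF] at h
    push_cast at h
    exact (pow_eq_zero_iff (by omega)).mp h
  obtain ⟨iso2⟩ := pgl_equiv_sl F h2F
  exact ⟨j, hj, hα, F, fF, ftF, hF, ⟨iso.trans iso2⟩⟩

end Cfsg.Agent.S4702
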