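import Cfsg.Statements.S0983
import Cfsg.Agent.Lib.Helper91.SO2Sweep
import Cfsg.Agent.S0976
import Cfsg.Agent.S0977
import Cfsg.Agent.S0978
import Cfsg.Agent.S0979
import Cfsg.Agent.S0980
import Cfsg.Agent.Lib.Helper37.Ord3780
import Cfsg.Agent.Lib.Helper65.Ord3960
import Cfsg.Agent.Lib.Helper44.Ord4200
import Cfsg.Agent.Lib.Helper91.Ord4212
import Cfsg.Agent.Lib.Helper37.Ord4536
import Cfsg.Agent.Lib.Helper4.Ord4620
import Cfsg.Agent.Lib.Helper29.Ord4680
import Cfsg.Agent.Lib.Helper25.Ord4800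
import Cfsg.Agent.Lib.Helper29.Ord4960
import Cfsg.Agent.Lib.Helper64.Ord5148
import Cfsg.Agent.Lib.Helper82.Ord5376
import Cfsg.Agent.Lib.Helper72.Ord5400
import Cfsg.Agent.Lib.Helper4.Ord5460
import Cfsg.Agent.Lib.Helper97.Ord5880
import Cfsg.Agent.Lib.Helper65.Ord5940

set_option autoImplicit false
open Cfsg

namespace Cfsg.Agent.S0983

open Cfsg.Agent.Lib.Helper91.SO2

/-- A non-abelian finite simple group of order greater than 3640 and at most 6232 has order 4080, 5616, 6048 or 6072. -/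
theorem result {G : Type*} [Group G] [Finite G] [IsSimpleGroup G] (hG : ¬ IsMulCommutative G) (h1 : 3640 < Nat.card G) (h2 : Nat.card G ≤ 6232) : Nat.card G = 4080 ∨ Nat.card G = 5616 ∨ Nat.card G = 6048 ∨ Nat.card G = 6072 := by
  by_contra hcon
  have e1 : Nat.card G ≠ 4080 := fun h => hcon (Or.inl h)
  have e2 : Nat.card G ≠ 5616 := fun h => hcon (Or.inr (Or.inl h))
  have e3 : Nat.card G ≠ 6048 := fun h => hcon (Or.inr (Or.inr (Or.inl h)))
  have e4 : Nat.card G ≠ 6072 := fun h => hcon (Or.inr (Or.inr (Or.inr h)))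
  rcases hex : excB2 (Nat.card G) with _ | _
  · exact sweepAll (Nat.card G) (by omega) h2 hex G hG rfl
  · simp only [excB2, Bool.or_eq_true, decide_eq_true_eq] at hex
    have h24 : Nat.card G = 3780 ∨ Nat.card G = 3960 ∨ Nat.card G = 4032 ∨ Nat.card G = 4200 ∨
        Nat.card G = 4212 ∨ Nat.card G = 4320 ∨ Nat.card G = 4536 ∨ Nat.card G = 4620 ∨
        Nat.card G = 4680 ∨ Nat.card G = 4800 ∨ Nat.card G = 4960 ∨ Nat.card G = 5040 ∨
        Nat.card G = 5148 ∨ Nat.card G = 5376 ∨ Nat.card G = 5400 ∨ Nat.card G = 5460 ∨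
        Nat.card G = 5472 ∨ Nat.card G = 5760 ∨ Nat.card G = 5880 ∨ Nat.card G = 5940 := by
      omega
    rcases h24 with h | h | h | h | h | h | h | h | h | h | h | h | h | h | h | h | h | h | h | h
    · exact Cfsg.Agent.Lib.Helper37.Ord3780.noSimple_3780 G hG h
    · exact Cfsg.Agent.Lib.Helper65.Ord3960.noSimple_3960 G hG h
    · exact Cfsg.Agent.S0976.result h
    · exact Cfsg.Agent.Lib.Helper44.Ord4200.noSimple_4200 G hG h
    · exact Cfsg.Agent.Lib.Helper91.Ord4212.noSimple_4212 G hG h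
    · exact Cfsg.Agent.S0977.result h
    · exact Cfsg.Agent.Lib.Helper37.Ord4536.noSimple_4536 G hG h
    · exact Cfsg.Agent.Lib.Helper4.Ord4620.noSimple_4620 G hG h
    · exact Cfsg.Agent.Lib.Helper29.Ord4680.noSimple_4680 G hG h
    · exact Cfsg.Agent.Lib.Helper25.Ord4800.noSimple_4800 G hG h
    · exact Cfsg.Agent.Lib.Helper29.Ord4960.noSimple_4960 G hG h
    · exact Cfsg.Agent.S0978.result h
    · exact Cfsg.Agent.Lib.Helper64.Ord5148.noSimple_5148 G hG h
    · exact Cfsg.Agent.Lib.Helper82.Ord5376.noSimple_5376 G hG h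
    · exact Cfsg.Agent.Lib.Helper72.Ord5400.noSimple_5400 G hG h
    · exact Cfsg.Agent.Lib.Helper4.Ord5460.noSimple_5460 G hG h
    · exact Cfsg.Agent.S0979.result h
    · exact Cfsg.Agent.S0980.result h
    · exact Cfsg.Agent.Lib.Helper97.Ord5880.noSimple_5880 G hG h
    · exact Cfsg.Agent.Lib.Helper65.Ord5940.noSimple_5940 G hG h

end Cfsg.Agent.S0983
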