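import Cfsg.Statements.S1011
import Mathlib
import Cfsg.Agent.S4702
import Cfsg.Agent.Lib.Helper5.PSL2
import Cfsg.Agent.Lib.Helper5.OrbitHom
import Cfsg.Agent.Lib.Helper35.Ord504d

set_option autoImplicit false
open Cfsg

namespace Cfsg.Agent.S1011

open Cfsg.Agent.Lib.Helper35.Ord504

/-- A simple group of order 504 is `SL₂` of some field with 8 elements: it acts sharply
3-transitively on its nine Sylow 2-subgroups. -/
theorem exists_sl2 {G : Type*} [Group G] [Finite G] [IsSimpleGroup G] (h : Nat.card G = 504) :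
    ∃ (F₀ : Type) (_ : Field F₀) (_ : Fintype F₀), Fintype.card F₀ = 8 ∧
      Nonempty (G ≃* Matrix.SpecialLinearGroup (Fin 2) F₀) := by
  classical
  have : Fintype (Sylow 2 G) := Fintype.ofFinite _
  have hinj := injective_toPermHom h
  have hcardΩ : Fintype.card (Sylow 2 G) = 9 := by
    rw [← Nat.card_eq_fintype_card, card_sylow2 h]
  have hfix : ∀ g : (MulAction.toPermHom G (Sylow 2 G)).range,
      3 ≤ Nat.card (MulAction.fixedBy (Sylow 2 G) g) → g = 1 := by
    rintro ⟨_, g, rfl⟩ hg
    rw [Nat.card_coe_set_eq] at hg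
    obtain ⟨S₁, S₂, S₃, h1, h2, h3, h12, h13, h23⟩ := (Set.two_lt_ncard_iff).mp hg
    have := eq_one_of_fix_three h g S₁ S₂ S₃ h12 h13 h23 h1 h2 h3
    subst this
    apply Subtype.ext
    exact map_one (MulAction.toPermHom G (Sylow 2 G))
  have h3 : MulAction.IsMultiplyPretransitive (MulAction.toPermHom G (Sylow 2 G)).range
      (Sylow 2 G) 3 := by
    rw [MulAction.isMultiplyPretransitive_iff]
    intro x y
    have hf : Function.Injective
        (fun g : (MulAction.toPermHom G (Sylow 2 G)).range => g • x) := by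
      intro g g' hgg
      have hgg' : g • x = g' • x := hgg
      have hstab : (g⁻¹ * g') • x = x := by
        have e1 : (g⁻¹ * g') • x = g⁻¹ • (g' • x) := mul_smul _ _ _
        rw [e1, ← hgg']; exact inv_smul_smul g x
      have : g⁻¹ * g' = 1 := by
        apply hfix
        rw [Nat.card_coe_set_eq]
        have hsub : ({x 0, x 1, x 2} : Set (Sylow 2 G)) ⊆
            MulAction.fixedBy (Sylow 2 G) (g⁻¹ * g') := by
          rintro S (rfl | rfl | rfl)
          · exact congrArg (fun e : Fin 3 ↪ Sylow 2 G => e 0) hstab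
          · exact congrArg (fun e : Fin 3 ↪ Sylow 2 G => e 1) hstab
          · exact congrArg (fun e : Fin 3 ↪ Sylow 2 G => e 2) hstab
        have hc3 : Set.ncard ({x 0, x 1, x 2} : Set (Sylow 2 G)) = 3 :=
          Set.ncard_eq_three.mpr ⟨x 0, x 1, x 2, by simp [x.injective.ne_iff],
            by simp [x.injective.ne_iff], by simp [x.injective.ne_iff], rfl⟩
        rw [← hc3]; exact Set.ncard_le_ncard hsub
      exact inv_mul_eq_one.mp this
    have hcard : Nat.card (Fin 3 ↪ Sylow 2 G) ≤
        Nat.card (MulAction.toPermHom G (Sylow 2 G)).range := by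
      rw [Nat.card_eq_fintype_card, Fintype.card_embedding_eq, hcardΩ, Fintype.card_fin,
        ← Nat.card_congr (MonoidHom.ofInjective hinj).toEquiv, h]
      decide
    exact (hf.bijective_of_nat_card_le hcard).2 y
  obtain ⟨a, ha1, ha2, F₀, iF, iFt, hF₀, ⟨e⟩⟩ := Cfsg.Agent.S4702.result
    (by rw [hcardΩ]; norm_num) (by rw [hcardΩ]; decide)
    (MulAction.toPermHom G (Sylow 2 G)).range h3 hfix
  refine ⟨F₀, iF, iFt, ?_, ⟨(MonoidHom.ofInjective hinj).trans e⟩⟩
  rw [hF₀]; rw [hcardΩ] at ha2; omega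

/-- A simple group of order 504 is isomorphic to the projective special linear group of dimension 2 over the field with 8 elements. -/
theorem result {G : Type*} [Group G] [Finite G] [IsSimpleGroup G] (h : Nat.card G = 504) {F : Type*} [Field F] [Fintype F] (hF : Fintype.card F = 8) : Nonempty (G ≃* Matrix.ProjectiveSpecialLinearGroup (Fin 2) F) := by
  obtain ⟨F₀, iF, iFt, hF₀, ⟨e⟩⟩ := exists_sl2 h
  have e1 : F₀ ≃+* F := FiniteField.ringEquivOfCardEq (hF₀.trans hF.symm)
  have h2 : (2 : F) = 0 := Cfsg.Agent.Lib.Helper5.two_eq_zero_of_even_card (by rw [hF]; decide)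
  have hc := Cfsg.Agent.Lib.Helper5.center_SL2_eq_bot_of_two_eq_zero h2
  exact ⟨(e.trans (Cfsg.Agent.Lib.Helper5.slCongr e1)).trans
    ((QuotientGroup.quotientMulEquivOfEq hc).trans QuotientGroup.quotientBot).symm⟩

end Cfsg.Agent.S1011
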