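import Cfsg.Statements.S1017
import Cfsg.Agent.Lib.Helper69.InvFix
import Cfsg.Agent.S3279

set_option autoImplicit false
open Cfsg

namespace Cfsg.Agent.S1017

open Cfsg.Agent.Lib.Helper17 Cfsg.Agent.Lib.Helper69.InvFix

/-- arithmetic: a power of two dividing `2 ^ a * m` with `m` odd is at most `2 ^ a` -/
theorem two_pow_le (k a m : ℕ) (hm : ¬ 2 ∣ m) (h : 2 ^ k ∣ 2 ^ a * m) : 2 ^ k ≤ 2 ^ a := by
  have hcop : Nat.Coprime (2 ^ k) m := (Nat.prime_two.coprime_iff_not_dvd.mpr hm).pow_left k
  exact Nat.le_of_dvd (by positivity) (hcop.dvd_of_dvd_mul_right h)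

section
variable {G : Type*} [Group G] [Finite G]

/-- a `2`-subgroup of a group of order `2 ^ a * m`, `m` odd, containing a subgroup of order
`2 ^ a` equals it -/
theorem eq_of_two_group (K T L : Subgroup G) (a m : ℕ) (hm : ¬ 2 ∣ m)
    (hL : Nat.card L = 2 ^ a * m) (hKL : K ≤ L) (hK : IsPGroup 2 K) (hT : Nat.card T = 2 ^ a)
    (hTK : T ≤ K) : K = T := by
  haveI : Fact (Nat.Prime 2) := ⟨Nat.prime_two⟩
  obtain ⟨k, hk⟩ := IsPGroup.iff_card.mp hK
  have h1 : Nat.card K ∣ Nat.card L := Subgroup.card_dvd_of_le hKL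
  rw [hk, hL] at h1
  have h2 := two_pow_le k a m hm h1
  exact (Subgroup.eq_of_le_of_card_ge hTK (by rw [hk, hT]; exact h2)).symm

/-- the configuration: a simple group of order 2016 with 36 Sylow 7-subgroups -/
structure Cfg (G : Type*) [Group G] [Finite G] (P : Sylow 7 G) : Prop where
  simple : IsSimpleGroup G
  card : Nat.card G = 2016
  cardP : Nat.card (P : Subgroup G) = 7
  syl : Nat.card (Sylow 7 G) = 36
  cardN : Nat.card (Subgroup.normalizer ((P : Subgroup G) : Set G)) = 56
  cardC : Nat.card (Subgroup.centralizer ((P : Subgroup G) : Set G)) = 28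

variable {P : Sylow 7 G}

theorem Cfg.not_prime (h : Cfg G P) : ¬ (Nat.card G).Prime := by
  rw [h.card]; norm_num

theorem Cfg.P_le_C (h : Cfg G P) :
    (P : Subgroup G) ≤ Subgroup.centralizer ((P : Subgroup G) : Set G) := by
  haveI : Fact (Nat.Prime 7) := ⟨by norm_num⟩
  haveI := h.simple
  exact (relIndex_centralizer_sylow_prime h.not_prime 7 P h.cardP).2.2.2

/-- a Sylow 2-subgroup of `C(P)` -/
theorem Cfg.exists_T (h : Cfg G P) : ∃ T : Subgroup G,
    T ≤ Subgroup.centralizer ((P : Subgroup G) : Set G) ∧ Nat.card T = 4 := by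
  haveI : Fact (Nat.Prime 2) := ⟨Nat.prime_two⟩
  obtain ⟨K, hK⟩ := Sylow.exists_subgroup_card_pow_prime (G := Subgroup.centralizer ((P : Subgroup G) : Set G)) 2
    (n := 2) (by rw [h.cardC]; norm_num)
  refine ⟨K.map (Subgroup.subtype _), ?_, ?_⟩
  · rintro x ⟨y, -, rfl⟩
    exact y.2
  · rw [Subgroup.card_map_of_injective (Subgroup.subtype_injective _), hK]; norm_num

/-- `C(P)` is abelian -/
theorem Cfg.comm (h : Cfg G P) : Subgroup.centralizer ((P : Subgroup G) : Set G) ≤
    Subgroup.centralizer ((Subgroup.centralizer ((P : Subgroup G) : Set G) : Subgroup G) : Set G) := by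
  haveI : Fact (Nat.Prime 2) := ⟨Nat.prime_two⟩
  obtain ⟨T, hT, hT4⟩ := h.exists_T
  apply le_centralizer_self_of _ (P : Subgroup G) T h.P_le_C hT le_rfl
  · intro a ha b hb
    have hc := IsPGroup.isMulCommutative_of_card_eq_prime_sq (p := 2) (G := T)
      (by rw [hT4]; norm_num)
    exact congrArg Subtype.val (hc.is_comm.comm ⟨a, ha⟩ ⟨b, hb⟩)
  · rw [h.cardP, hT4]; decide
  · rw [h.cardC, h.cardP, hT4]

/-- every involution of `C(P)` lies in a given subgroup of order 4 of `C(P)` -/
theorem Cfg.invol_mem (h : Cfg G P) (T : Subgroup G)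
    (hT : T ≤ Subgroup.centralizer ((P : Subgroup G) : Set G)) (hT4 : Nat.card T = 4) (u : G)
    (hu : u ∈ Subgroup.centralizer ((P : Subgroup G) : Set G)) (hu2 : u * u = 1) : u ∈ T := by
  haveI : Fact (Nat.Prime 2) := ⟨Nat.prime_two⟩
  have hTp : IsPGroup 2 T := IsPGroup.of_card (n := 2) (by rw [hT4]; norm_num)
  have hup : IsPGroup 2 (Subgroup.zpowers u) := by
    by_cases h1 : u = 1
    · apply IsPGroup.of_card (n := 0)
      rw [Nat.card_zpowers, h1, orderOf_one, pow_zero]
    · apply IsPGroup.of_card (n := 1)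
      rw [Nat.card_zpowers, pow_one]
      exact orderOf_eq_prime (by rw [pow_two]; exact hu2) h1
  have hnorm : T ≤ Subgroup.normalizer ((Subgroup.zpowers u : Subgroup G) : Set G) := by
    refine le_trans ?_ (Subgroup.centralizer_le_normalizer _)
    intro a ha
    rw [Subgroup.mem_centralizer_iff]
    intro b hb
    obtain ⟨k, rfl⟩ := Subgroup.mem_zpowers_iff.mp hb
    have h1 : u * a = a * u := Subgroup.mem_centralizer_iff.mp (h.comm (hT ha)) u hu
    exact ((show Commute u a from h1).zpow_left k).eq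
  have hK := IsPGroup.to_sup_of_normal_right' hTp hup hnorm
  have hle : T ⊔ Subgroup.zpowers u ≤ Subgroup.centralizer ((P : Subgroup G) : Set G) :=
    sup_le hT (by rw [Subgroup.zpowers_le]; exact hu)
  have := eq_of_two_group (T ⊔ Subgroup.zpowers u) T _ 2 7 (by norm_num)
    (by rw [h.cardC]; norm_num) hle hK (by rw [hT4]; norm_num) le_sup_left
  rw [← this]
  exact (le_sup_right : Subgroup.zpowers u ≤ T ⊔ Subgroup.zpowers u) (Subgroup.mem_zpowers u)

/-- the centralizer of an involution of `C(P)` is `N(P)` -/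
theorem Cfg.cent_invol (h : Cfg G P) (t : G)
    (ht : t ∈ Subgroup.centralizer ((P : Subgroup G) : Set G)) (ht2 : orderOf t = 2) :
    Subgroup.centralizer ({t} : Set G) = Subgroup.normalizer ((P : Subgroup G) : Set G) := by
  haveI : Fact (Nat.Prime 7) := ⟨by norm_num⟩
  haveI : Fact (Nat.Prime 2) := ⟨Nat.prime_two⟩
  haveI := h.simple
  have htt : t * t = 1 := by rw [← pow_two, ← ht2, pow_orderOf_eq_one]
  have ht1 : t ≠ 1 := by rintro rfl; rw [orderOf_one] at ht2; omega
  set C := Subgroup.centralizer ((P : Subgroup G) : Set G) with hCdef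
  set N := Subgroup.normalizer ((P : Subgroup G) : Set G) with hNdef
  set H := Subgroup.centralizer ({t} : Set G) with hHdef
  have hCN : C ≤ N := Subgroup.centralizer_le_normalizer _
  have hCH : C ≤ H := by
    intro c hc
    rw [hHdef, Subgroup.mem_centralizer_iff]
    intro g hg
    rw [Set.mem_singleton_iff] at hg
    rw [hg]
    exact Subgroup.mem_centralizer_iff.mp (h.comm hc) t ht
  -- fixed points
  have hf1 := ncard_fixed_mod 7 P h.cardP t ht
  obtain ⟨c, hf2⟩ := involution_fixed_mod_four h.not_prime (X := Sylow 7 G) t htt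
  rw [h.syl] at hf2
  have hf3 : Set.ncard {Q : Sylow 7 G | t • Q = Q} ≠ 36 := by
    intro h36
    have huniv : {Q : Sylow 7 G | t • Q = Q} = Set.univ := by
      rw [Set.eq_univ_iff_ncard, h36, h.syl]
    have hker : MulAction.toPermHom G (Sylow 7 G) t = 1 := by
      apply Equiv.ext
      intro Q
      have : Q ∈ {Q : Sylow 7 G | t • Q = Q} := by rw [huniv]; exact Set.mem_univ Q
      exact this
    have hinj := toPermHom_sylow_injective (G := G) 7 (by rw [h.syl]; norm_num)
    exact ht1 (hinj (by rw [hker, map_one]))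
  have hf : Set.ncard {Q : Sylow 7 G | t • Q = Q} = 8 := by omega
  -- the number of conjugates of P under H
  have hk1 := relIndex_normalizer_mod 7 P H (h.P_le_C.trans hCH)
  have hk2 := relIndex_normalizer_le_fixed 7 P t ht
  rw [hf] at hk2
  have hk3 := relIndex_mul_card_inf N H
  have hx1 : 28 ∣ Nat.card (H ⊓ N : Subgroup G) := by
    rw [← h.cardC]; exact Subgroup.card_dvd_of_le (le_inf hCH hCN)
  have hx2 : Nat.card (H ⊓ N : Subgroup G) ∣ 56 := by
    rw [← h.cardN]; exact Subgroup.card_dvd_of_le inf_le_right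
  have hH : Nat.card H ∣ 2016 := by rw [← h.card]; exact Subgroup.card_subgroup_dvd_card H
  obtain ⟨k, hk⟩ : ∃ k, k = N.relIndex H := ⟨_, rfl⟩
  obtain ⟨x, hx⟩ : ∃ x, x = Nat.card (H ⊓ N : Subgroup G) := ⟨_, rfl⟩
  rw [← hk] at hk1 hk2 hk3
  rw [← hx] at hk3 hx1 hx2
  have hx3 : x = 28 ∨ x = 56 := by
    obtain ⟨a, ha⟩ := hx1
    obtain ⟨b, hb⟩ := hx2
    have hab : a * b = 2 := by rw [ha] at hb; nlinarith
    have ha2 : a ≤ 2 := Nat.le_of_dvd (by norm_num) ⟨b, hab.symm⟩
    interval_cases a <;> omega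
  have hk4 : k = 1 ∨ k = 8 := by omega
  rcases hk4 with rfl | rfl
  · -- H ≤ N
    rw [one_mul] at hk3
    have hHN : H ≤ N := by
      have : H ⊓ N = H := Subgroup.eq_of_le_of_card_ge inf_le_left (by rw [← hx, hk3])
      exact inf_eq_left.mp this
    rcases hx3 with hx3 | hx3
    · -- |H| = 28: S3279
      exfalso
      have hHC : H = C :=
        (Subgroup.eq_of_le_of_card_ge hCH (by rw [h.cardC, ← hk3, hx3])).symm
      obtain ⟨T, hT, hT4⟩ := h.exists_T
      have h3 : Nat.card {u : ↥(Subgroup.centralizer ({t} : Set G)) // orderOf u = 2} ≤ 3 := by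
        classical
        have : Fintype T := Fintype.ofFinite _
        have : Fintype {u : ↥H // orderOf u = 2} := Fintype.ofFinite _
        have hmem : ∀ u : {u : ↥H // orderOf u = 2}, ((u : ↥H) : G) ∈ T := fun u => by
          apply h.invol_mem T hT hT4
          · rw [← hCdef, ← hHC]; exact u.1.2
          · have h2 : orderOf (u : ↥H) = 2 := u.2
            have h3 : (u : ↥H) ^ 2 = 1 := by
              have := pow_orderOf_eq_one (u : ↥H)
              rwa [h2] at this
            have h4 : ((u : ↥H) : G) ^ 2 = 1 := by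
              have := congrArg Subtype.val h3
              simpa using this
            rwa [pow_two] at h4
        let f : {u : ↥H // orderOf u = 2} → T := fun u => ⟨((u : ↥H) : G), hmem u⟩
        have hfinj : Function.Injective f := by
          intro u v huv
          have : ((u : ↥H) : G) = ((v : ↥H) : G) := by
            have := congrArg Subtype.val huv
            exact this
          exact Subtype.ext (Subtype.ext this)
        have hnot : (1 : T) ∉ Set.range f := by
          rintro ⟨u, hu⟩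
          have h1 : ((u : ↥H) : G) = 1 := congrArg Subtype.val hu
          have h2 : (u : ↥H) = 1 := Subtype.ext h1
          have h3 := u.2
          rw [h2, orderOf_one] at h3
          omega
        have hlt := Fintype.card_lt_of_injective_of_notMem f hfinj hnot
        rw [← Nat.card_eq_fintype_card, ← Nat.card_eq_fintype_card, hT4] at hlt
        exact Nat.le_of_lt_succ hlt
      obtain ⟨⟨S, hS⟩, -⟩ := Cfsg.Agent.S3279.result t ht2 h3
      have hS32 : Nat.card (S : Subgroup G) = 2 ^ 5 :=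
        card_sylow_eq_of_card_eq 2 5 63 (by rw [h.card]; norm_num) (by norm_num) S
      have := Subgroup.card_dvd_of_le hS
      rw [hS32, ← hHdef, ← hk3, hx3] at this
      omega
    · exact Subgroup.eq_of_le_of_card_ge hHN (by rw [h.cardN, ← hk3, hx3])
  · -- index 9
    exfalso
    have hH224 : Nat.card H = 224 := by
      rcases hx3 with hx3 | hx3
      · rw [← hk3, hx3]
      · exfalso
        rw [hx3] at hk3
        rw [← hk3] at hH
        omega
    have hidx : H.index = 9 := by
      have := Subgroup.card_mul_index H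
      rw [hH224, h.card] at this
      omega
    exact no_index_add_two h.not_prime 7 (by norm_num) P h.cardP H (by rw [hidx]) t ht htt ht1

/-- the final contradiction -/
theorem Cfg.false (h : Cfg G P) : False := by
  haveI : Fact (Nat.Prime 7) := ⟨by norm_num⟩
  haveI : Fact (Nat.Prime 2) := ⟨Nat.prime_two⟩
  haveI := h.simple
  set C := Subgroup.centralizer ((P : Subgroup G) : Set G) with hCdef
  set N := Subgroup.normalizer ((P : Subgroup G) : Set G) with hNdef
  have hCN : C ≤ N := Subgroup.centralizer_le_normalizer _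
  obtain ⟨T, hT, hT4⟩ := h.exists_T
  have hTp : IsPGroup 2 T := IsPGroup.of_card (n := 2) (by rw [hT4]; norm_num)
  -- an involution of T
  obtain ⟨t', ht'⟩ := exists_prime_orderOf_dvd_card' (G := T) 2 (by rw [hT4]; norm_num)
  set t : G := (t' : G) with htdef
  have htT : t ∈ T := t'.2
  have ht2 : orderOf t = 2 := by rw [htdef, Subgroup.orderOf_coe]; exact ht'
  have htt : t * t = 1 := by rw [← pow_two, ← ht2, pow_orderOf_eq_one]
  have ht1 : t ≠ 1 := by intro h1; rw [h1, orderOf_one] at ht2; omega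
  -- S₀
  have hTN : T ≤ N := hT.trans hCN
  have hT' : IsPGroup 2 (T.subgroupOf N) := by
    apply IsPGroup.of_card (n := 2)
    rw [Nat.card_congr (Subgroup.subgroupOfEquivOfLe hTN).toEquiv, hT4]; norm_num
  obtain ⟨S₀', hS₀'⟩ := hT'.exists_le_sylow
  set S₀ : Subgroup G := (S₀' : Subgroup N).map N.subtype with hS₀def
  have hS₀N : S₀ ≤ N := by
    rintro x ⟨y, -, rfl⟩; exact y.2
  have hTS₀ : T ≤ S₀ := by
    intro τ hτ
    exact ⟨⟨τ, hTN hτ⟩, hS₀' (Subgroup.mem_subgroupOf.mpr hτ), rfl⟩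
  have hS₀8 : Nat.card S₀ = 2 ^ 3 := by
    rw [hS₀def, Subgroup.card_map_of_injective (Subgroup.subtype_injective _)]
    exact card_sylow_eq_of_card_eq 2 3 7 (by rw [h.cardN]; norm_num) (by norm_num) S₀'
  have hS₀p : IsPGroup 2 S₀ := IsPGroup.of_card hS₀8
  obtain ⟨S, hS⟩ := hS₀p.exists_le_sylow
  have hS32 : Nat.card (S : Subgroup G) = 2 ^ 5 :=
    card_sylow_eq_of_card_eq 2 5 63 (by rw [h.card]; norm_num) (by norm_num) S
  -- S ⊓ N = S₀
  have hSN : (S : Subgroup G) ⊓ N = S₀ :=
    eq_of_two_group ((S : Subgroup G) ⊓ N) S₀ N 3 7 (by norm_num) (by rw [h.cardN]; norm_num)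
      inf_le_right (S.2.to_le inf_le_left) hS₀8 (le_inf hS hS₀N)
  -- central involution z of S
  obtain ⟨z, hzS, hz2, hzc⟩ : ∃ z ∈ (S : Subgroup G), orderOf z = 2 ∧
      ∀ s ∈ (S : Subgroup G), s * z = z * s := by
    haveI : Nontrivial (S : Subgroup G) := by
      rw [← Finite.one_lt_card_iff_nontrivial, hS32]; norm_num
    have hcn := IsPGroup.center_nontrivial (S.2 : IsPGroup 2 (S : Subgroup G))
    have hcp : IsPGroup 2 (Subgroup.center (S : Subgroup G)) := S.2.to_subgroup _
    obtain ⟨k, hk⟩ := IsPGroup.iff_card.mp hcp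
    have hk0 : k ≠ 0 := by
      rintro rfl
      rw [pow_zero] at hk
      have := Finite.one_lt_card_iff_nontrivial.mpr hcn
      omega
    obtain ⟨z', hz'⟩ := exists_prime_orderOf_dvd_card' (G := Subgroup.center (S : Subgroup G)) 2
      (by rw [hk]; exact dvd_pow_self 2 hk0)
    refine ⟨((z' : (S : Subgroup G)) : G), (z' : (S : Subgroup G)).2, ?_, ?_⟩
    · rw [Subgroup.orderOf_coe, Subgroup.orderOf_coe]; exact hz'
    · intro s hs
      have := Subgroup.mem_center_iff.mp z'.2 ⟨s, hs⟩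
      exact congrArg Subtype.val this
  have hcent : Subgroup.centralizer ({t} : Set G) = N := h.cent_invol t (hT htT) ht2
  have hzN : z ∈ N := by
    rw [← hcent, Subgroup.mem_centralizer_iff]
    intro g hg
    rw [Set.mem_singleton_iff] at hg
    rw [hg]
    exact hzc t (hS (hTS₀ htT))
  have hzC : z ∉ C := by
    intro hzC
    have h1 : Subgroup.centralizer ({z} : Set G) = N := h.cent_invol z hzC hz2
    have h2 : (S : Subgroup G) ≤ Subgroup.centralizer ({z} : Set G) := by
      intro s hs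
      rw [Subgroup.mem_centralizer_iff]
      intro g hg
      rw [Set.mem_singleton_iff] at hg
      rw [hg]
      exact (hzc s hs).symm
    rw [h1] at h2
    have := Subgroup.card_dvd_of_le h2
    rw [hS32, h.cardN] at this
    omega
  have hzS₀ : z ∈ S₀ := by rw [← hSN]; exact ⟨hzS, hzN⟩
  have hzT : z ∉ T := fun hz => hzC (hT hz)
  have hzz : z * z = 1 := by rw [← pow_two, ← hz2, pow_orderOf_eq_one]
  -- index two
  have hidx : (T.subgroupOf S₀).index = 2 := by
    have h1 := Subgroup.index_mul_card (T.subgroupOf S₀)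
    rw [Nat.card_congr (Subgroup.subgroupOfEquivOfLe hTS₀).toEquiv, hT4, hS₀8] at h1
    omega
  have hmul : ∀ a ∈ S₀, ∀ b ∈ S₀, a ∉ T → b ∉ T → a * b ∈ T := by
    intro a ha b hb haT hbT
    have := Subgroup.mul_mem_iff_of_index_two hidx (a := ⟨a, ha⟩) (b := ⟨b, hb⟩)
    simp only [Subgroup.mem_subgroupOf] at this
    exact this.mpr ⟨fun h => absurd h haT, fun h => absurd h hbT⟩
  -- T abelian
  have hTcomm : ∀ a ∈ T, ∀ b ∈ T, a * b = b * a := by
    intro a ha b hb
    have hc := IsPGroup.isMulCommutative_of_card_eq_prime_sq (p := 2) (G := T)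
      (by rw [hT4]; norm_num)
    exact congrArg Subtype.val (hc.is_comm.comm ⟨a, ha⟩ ⟨b, hb⟩)
  have hdec : ∀ a ∈ S₀, a ∈ T ∨ a * z ∈ T := by
    intro a ha
    by_cases haT : a ∈ T
    · exact Or.inl haT
    · exact Or.inr (hmul a ha z hzS₀ haT hzT)
  have hS₀S : S₀ ≤ (S : Subgroup G) := hS
  -- S₀ abelian
  have hkey : ∀ a ∈ S₀, ∀ τ ∈ T, a * τ = τ * a := by
    intro a ha τ hτ
    rcases hdec a ha with h1 | h1
    · exact hTcomm a h1 τ hτ
    · have h2 := hTcomm (a * z) h1 τ hτ
      have h3 := hzc τ (hS₀S (hTS₀ hτ))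
      calc a * τ = a * z * (z * τ) := by rw [mul_assoc, ← mul_assoc z z τ, hzz, one_mul]
        _ = a * z * (τ * z) := by rw [h3]
        _ = a * z * τ * z := (mul_assoc (a * z) τ z).symm
        _ = τ * (a * z) * z := by rw [h2]
        _ = τ * a := by rw [mul_assoc τ (a * z) z, mul_assoc a z z, hzz, mul_one]
  have hS₀comm : ∀ a ∈ S₀, ∀ b ∈ S₀, a * b = b * a := by
    intro a ha b hb
    rcases hdec b hb with h1 | h1
    · exact hkey a ha b h1
    · have h2 := hkey a ha (b * z) h1
      have h3 := hzc a (hS₀S ha)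
      calc a * b = a * (b * z) * z := by
            rw [mul_assoc a (b * z) z, mul_assoc b z z, hzz, mul_one]
        _ = b * z * a * z := by rw [h2]
        _ = b * (z * (a * z)) := by group
        _ = b * (z * (z * a)) := by rw [h3]
        _ = b * a := by rw [← mul_assoc z z a, hzz, one_mul]
  -- x
  have hlt : S₀.subgroupOf (S : Subgroup G) < ⊤ := by
    rw [lt_top_iff_ne_top]
    intro htop
    have h1 : (S : Subgroup G) ≤ S₀ := Subgroup.subgroupOf_eq_top.mp htop
    have := Subgroup.card_dvd_of_le h1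
    rw [hS32, hS₀8] at this
    omega
  haveI : Group.IsNilpotent (S : Subgroup G) := S.2.isNilpotent
  have hnc := Group.normalizerCondition_of_isNilpotent (G := (S : Subgroup G)) _ hlt
  obtain ⟨x₀', hx₀n, hx₀'⟩ := SetLike.exists_of_lt hnc
  set x₀ : G := (x₀' : G) with hx₀def
  have hx₀S : x₀ ∈ (S : Subgroup G) := x₀'.2
  have hx₀S₀ : x₀ ∉ S₀ := fun h => hx₀' (Subgroup.mem_subgroupOf.mpr h)
  have hnorm₀ : ∀ y ∈ S₀, x₀ * y * x₀⁻¹ ∈ S₀ := by
    intro y hy
    have := (Subgroup.mem_normalizer_iff.mp hx₀n ⟨y, hS₀S hy⟩).mp (Subgroup.mem_subgroupOf.mpr hy)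
    exact Subgroup.mem_subgroupOf.mp this
  have hnormpow : ∀ n : ℕ, ∀ y ∈ S₀, x₀ ^ n * y * (x₀ ^ n)⁻¹ ∈ S₀ := by
    intro n
    induction n with
    | zero => intro y hy; simpa using hy
    | succ n ih =>
      intro y hy
      have := hnorm₀ _ (ih y hy)
      have e : x₀ ^ (n + 1) * y * (x₀ ^ (n + 1))⁻¹ = x₀ * (x₀ ^ n * y * (x₀ ^ n)⁻¹) * x₀⁻¹ := by
        rw [pow_succ']; group
      rw [e]; exact this
  obtain ⟨m, hm⟩ := (S.2 : IsPGroup 2 (S : Subgroup G)) x₀'
  have hx₀pow : x₀ ^ 2 ^ m = 1 := by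
    have := congrArg Subtype.val hm
    simpa using this
  have hex : ∃ j, x₀ ^ 2 ^ j ∈ S₀ := ⟨m, by rw [hx₀pow]; exact Subgroup.one_mem _⟩
  classical
  set j₀ := Nat.find hex with hj₀
  have hj₀spec : x₀ ^ 2 ^ j₀ ∈ S₀ := Nat.find_spec hex
  have hj₀pos : j₀ ≠ 0 := by
    intro h0
    rw [h0, pow_zero, pow_one] at hj₀spec
    exact hx₀S₀ hj₀spec
  set x : G := x₀ ^ 2 ^ (j₀ - 1) with hxdef
  have hxS₀ : x ∉ S₀ := Nat.find_min hex (by omega : j₀ - 1 < j₀)
  have hxx : x * x ∈ S₀ := by
    have e : 2 ^ j₀ = 2 ^ (j₀ - 1) + 2 ^ (j₀ - 1) := by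
      obtain ⟨i, hi⟩ : ∃ i, j₀ = i + 1 := ⟨j₀ - 1, by omega⟩
      rw [hi, Nat.add_sub_cancel, pow_succ]; ring
    have : x * x = x₀ ^ 2 ^ j₀ := by
      rw [hxdef, ← pow_add, ← e]
    rw [this]; exact hj₀spec
  have hxS : x ∈ (S : Subgroup G) := Subgroup.pow_mem _ hx₀S _
  have hxnorm : ∀ y ∈ S₀, x * y * x⁻¹ ∈ S₀ := hnormpow _
  have hxN : x ∉ N := fun hx => hxS₀ (by rw [← hSN]; exact ⟨hxS, hx⟩)
  -- x fixes no involution of T
  have hfix : ∀ w ∈ T, w ≠ 1 → w * w = 1 → x * w * x⁻¹ = w → False := by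
    intro w hw hw1 hww hxw
    have hw2 : orderOf w = 2 := orderOf_eq_prime (by rw [pow_two]; exact hww) hw1
    have hc : Subgroup.centralizer ({w} : Set G) = N := h.cent_invol w (hT hw) hw2
    apply hxN
    rw [← hc, Subgroup.mem_centralizer_iff]
    intro g hg
    rw [Set.mem_singleton_iff] at hg
    rw [hg]
    have : x * w = w * x := by
      calc x * w = x * w * x⁻¹ * x := by group
        _ = w * x := by rw [hxw]
    exact this.symm
  have hK : ∀ y ∈ T, y ≠ 1 → x * y * x⁻¹ ≠ y ∧ x * y * x⁻¹ ≠ y⁻¹ := by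
    intro y hy hy1
    have hy4 : y ^ 4 = 1 := by
      have h1 : (⟨y, hy⟩ : T) ^ Nat.card T = 1 := pow_card_eq_one'
      rw [hT4] at h1
      have := congrArg Subtype.val h1
      simpa using this
    by_cases hyy : y * y = 1
    · have hinv : y⁻¹ = y := inv_eq_of_mul_eq_one_left hyy
      rw [hinv]
      exact ⟨fun h => hfix y hy hy1 hyy h, fun h => hfix y hy hy1 hyy h⟩
    · have hw : y * y ∈ T := Subgroup.mul_mem _ hy hy
      have hww : (y * y) * (y * y) = 1 := by
        rw [← pow_two, ← pow_two, ← pow_mul]; exact hy4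
      have hconj : ∀ v : G, x * (v * v) * x⁻¹ = (x * v * x⁻¹) * (x * v * x⁻¹) := fun v => by
        group
      constructor
      · intro h1
        apply hfix (y * y) hw hyy hww
        rw [hconj, h1]
      · intro h1
        apply hfix (y * y) hw hyy hww
        rw [hconj, h1]
        have : y⁻¹ * y⁻¹ = (y * y)⁻¹ := by group
        rw [this]
        exact inv_eq_of_mul_eq_one_left hww
  have hβ : ∀ y ∈ T, y ≠ 1 → y * (x * y * x⁻¹) ∉ T := by
    intro y hy hy1 hmem
    obtain ⟨hK1, hK2⟩ := hK y hy hy1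
    have hyS₀ : y ∈ S₀ := hTS₀ hy
    have hcS₀ : x * y * x⁻¹ ∈ S₀ := hxnorm y hyS₀
    have hb1 : y * (x * y * x⁻¹) ≠ 1 := by
      intro h1
      apply hK2
      exact (eq_inv_of_mul_eq_one_right h1)
    have hbfix : x * (y * (x * y * x⁻¹)) * x⁻¹ = y * (x * y * x⁻¹) := by
      have h1 : x * (y * (x * y * x⁻¹)) * x⁻¹ = (x * y * x⁻¹) * ((x * x) * y * (x * x)⁻¹) := by
        group
      have h2 : (x * x) * y * (x * x)⁻¹ = y := by
        rw [hS₀comm (x * x) hxx y hyS₀]; group
      rw [h1, h2]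
      exact hS₀comm _ hcS₀ y hyS₀
    exact (hK _ hmem hb1).1 hbfix
  -- a third element of T
  obtain ⟨y, hyT, hy1, hyt⟩ : ∃ y ∈ T, y ≠ 1 ∧ y ≠ t := by
    by_contra hcon
    have hsub : (T : Set G) ⊆ {1, t} := by
      intro y hy
      by_cases hy1 : y = 1
      · left; exact hy1
      · right
        by_contra hyt
        exact hcon ⟨y, hy, hy1, hyt⟩
    have h1 : Nat.card T = (T : Set G).ncard := Nat.card_coe_set_eq (T : Set G)
    have h2 := Set.ncard_le_ncard hsub (Set.toFinite _)
    have h3 : ({1, t} : Set G).ncard ≤ 2 := by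
      have := Set.ncard_insert_le (1 : G) {t}
      rw [Set.ncard_singleton] at this
      exact this
    omega
  have hty1 : t * y ≠ 1 := by
    intro h1
    apply hyt
    have : y = t⁻¹ := eq_inv_of_mul_eq_one_right h1
    rw [this]; exact inv_eq_of_mul_eq_one_left htt
  have h1 := hβ t htT ht1
  have h2 := hβ y hyT hy1
  have h3 := hβ (t * y) (Subgroup.mul_mem _ htT hyT) hty1
  apply h3
  have htS₀ := hTS₀ htT
  have hyS₀ := hTS₀ hyT
  have e : t * y * (x * (t * y) * x⁻¹) = (t * (x * t * x⁻¹)) * (y * (x * y * x⁻¹)) := by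
    have hc := hS₀comm y hyS₀ (x * t * x⁻¹) (hxnorm t htS₀)
    calc t * y * (x * (t * y) * x⁻¹) = t * (y * (x * t * x⁻¹)) * (x * y * x⁻¹) := by group
      _ = t * ((x * t * x⁻¹) * y) * (x * y * x⁻¹) := by rw [hc]
      _ = _ := by group
  rw [e]
  exact hmul _ (Subgroup.mul_mem _ htS₀ (hxnorm t htS₀)) _
    (Subgroup.mul_mem _ hyS₀ (hxnorm y hyS₀)) h1 h2

end

/-- No finite simple group has order 2016 = 2^5 * 3^2 * 7. -/
theorem result {G : Type*} [Group G] [Finite G] [IsSimpleGroup G] : Nat.card G ≠ 2016 := by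
  intro hG
  haveI : Fact (Nat.Prime 7) := ⟨by norm_num⟩
  have hGn : ¬ (Nat.card G).Prime := by rw [hG]; norm_num
  obtain ⟨P⟩ := (Sylow.nonempty : Nonempty (Sylow 7 G))
  have hP : Nat.card (P : Subgroup G) = 7 := by
    simpa using card_sylow_eq_of_card_eq 7 1 288 (by rw [hG]; norm_num) (by norm_num) P
  have hc := card_sylow_mem_cands (G := G) 7 1 288 (by rw [hG]; norm_num) (by norm_num)
  have hcl : sylowCands 7 288 = [1, 8, 36, 288] := by decide +kernel
  rw [hcl] at hc
  have h1 : Nat.card (Sylow 7 G) ≠ 1 :=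
    card_sylow_ne_one 7 (by rw [hG]; norm_num) 2 (by norm_num) (by norm_num)
      (by rw [hG]; norm_num)
  have h4 := card_sylow_mul_card_normalizer 7 P
  rw [hG] at h4
  obtain ⟨hr1, hr2, hr3, -⟩ := relIndex_centralizer_sylow_prime hGn 7 P hP
  obtain ⟨r, hr⟩ : ∃ r, r = (Subgroup.centralizer ((P : Subgroup G) : Set G)).relIndex
      (Subgroup.normalizer ((P : Subgroup G) : Set G)) := ⟨_, rfl⟩
  rw [← hr] at hr1 hr2 hr3
  have h6 : r ∣ 6 := by simpa using hr2
  simp only [List.mem_cons, List.not_mem_nil, or_false] at hc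
  rcases hc with hc | hc | hc | hc
  · exact h1 hc
  · have hN : Nat.card (Subgroup.normalizer ((P : Subgroup G) : Set G)) = 252 := by
      rw [hc] at h4; omega
    have := card_normalizer_dvd_of_card_sylow_succ 7 P hP (by rw [hc])
    rw [hN] at this
    omega
  · have hN : Nat.card (Subgroup.normalizer ((P : Subgroup G) : Set G)) = 56 := by
      rw [hc] at h4; omega
    rw [hN] at hr3
    have h56 : r ∣ 56 := Dvd.intro _ hr3
    have h2 : r ∣ 2 := by
      have := Nat.dvd_gcd h6 h56
      simpa using this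
    have hr2' : r ≤ 2 := Nat.le_of_dvd (by norm_num) h2
    have hC : Nat.card (Subgroup.centralizer ((P : Subgroup G) : Set G)) = 28 := by
      interval_cases r <;> omega
    exact (Cfg.mk inferInstance hG hP hc hN hC).false
  · have hN : Nat.card (Subgroup.normalizer ((P : Subgroup G) : Set G)) = 7 := by
      rw [hc] at h4; omega
    rw [hN] at hr3
    have h7 : r ∣ 7 := Dvd.intro _ hr3
    have h2 : r ∣ 1 := by
      have := Nat.dvd_gcd h6 h7
      simpa using this
    exact hr1 (Nat.dvd_one.mp h2)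

end Cfsg.Agent.S1017
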