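import Mathlib
import Cfsg.Agent.Lib.Helper22.Fstar
import Cfsg.Agent.Lib.Helper30.Bender
import Cfsg.Statements.S1313

set_option autoImplicit false
open Cfsg

namespace Cfsg.Agent.S1313

/-- For a finite group H, |H| ≤ |F*(H)|!. -/
theorem result {H : Type*} [Group H] [Finite H] : Nat.card H ≤ Nat.factorial (Nat.card ↥(Cfsg.generalizedFittingSubgroup H)) := by
  classical
  obtain ⟨F, hF⟩ : ∃ F : Subgroup H, F = Cfsg.generalizedFittingSubgroup H := ⟨_, rfl⟩
  rw [← hF]
  have hFn : F.Normal := hF ▸ Cfsg.Agent.Lib.Helper22.generalizedFittingSubgroup_normal' H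
  have hC : Subgroup.centralizer (F : Set H) ≤ F :=
    hF ▸ Cfsg.Agent.Lib.Helper30.centralizer_generalizedFittingSubgroup_le H
  let φ : H →* MulAut ↥F := MulAut.conjNormal
  have hker : ∀ z ∈ φ.ker, z ∈ F := by
    intro z hz
    apply hC
    rw [Subgroup.mem_centralizer_iff]
    intro f hf
    rw [MonoidHom.mem_ker] at hz
    have h1 : ((φ z ⟨f, hf⟩ : F) : H) = f := by rw [hz]; rfl
    have h2 : ((φ z ⟨f, hf⟩ : F) : H) = z * f * z⁻¹ := MulAut.conjNormal_apply z ⟨f, hf⟩
    rw [h2] at h1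
    calc f * z = (z * f * z⁻¹) * z := by rw [h1]
      _ = z * f := by group
  let ψ : φ.ker × φ.range → Equiv.Perm ↥F := fun a =>
    (a.2.1 : ↥F ≃* ↥F).toEquiv.trans (Equiv.mulLeft ⟨a.1.1, hker a.1.1 a.1.2⟩)
  have hψ : Function.Injective ψ := by
    rintro ⟨z, σ⟩ ⟨z', σ'⟩ h
    have h1 : ∀ f : F, (⟨z.1, hker z.1 z.2⟩ : F) * σ.1 f = ⟨z'.1, hker z'.1 z'.2⟩ * σ'.1 f :=
      fun f => congrArg (fun e : Equiv.Perm F => e f) h
    have h2 := h1 1
    rw [map_one, map_one, mul_one, mul_one] at h2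
    have hz : z = z' := Subtype.ext (congrArg (fun w : F => (w : H)) h2)
    subst hz
    have hσ : σ = σ' := by
      apply Subtype.ext
      ext f
      exact congrArg Subtype.val (mul_left_cancel (h1 f))
    rw [hσ]
  have h1 : Nat.card H = Nat.card (φ.ker × φ.range) := by
    rw [Nat.card_prod, ← Subgroup.index_ker φ, Subgroup.card_mul_index]
  rw [h1, ← Nat.card_perm]
  exact Nat.card_le_card_of_injective ψ hψ

end Cfsg.Agent.S1313
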