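-- Statement S1449 (helper1).
import Mathlib
import Cfsg.Statements.S1449
import Cfsg.Agent.Lib.Helper1.RankTwoLin

set_option autoImplicit false
open Cfsg

namespace Cfsg.Agent.S1449

open Cfsg.Agent.Lib.Helper1

/-- Let G be a finite group, p an odd prime, R a p-subgroup with no elementary abelian subgroup of order p ^ 3, and A a solvable subgroup of odd order normalizing R with A ∩ C_G(R) = 1. Then the derived subgroup [A, A] is a p-group. -/
theorem result {G : Type*} [Group G] [Finite G] (p : ℕ) [Fact p.Prime] (hp : p ≠ 2) (R A : Subgroup G) (hR : IsPGroup p R) (hr : Cfsg.PRankLE p 2 R)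
    (hA : (A ≤ Subgroup.normalizer (R : Set G))) (hAs : Group.IsSolvable A) (hAodd : Odd (Nat.card A)) (hfaith : A ⊓ Subgroup.centralizer (R : Set G) = ⊥) :
    IsPGroup p ↥⁅A, A⁆ := by
  obtain ⟨φ, hφ⟩ := exists_linearization hp R A hR hr hA
  have hker : ∀ a : A, φ a = 1 → ∃ n : ℕ, a ^ p ^ n = 1 := by
    intro a ha
    obtain ⟨n, hn⟩ := pow_mem_centralizer_of_ker R A φ hφ a ha
    refine ⟨n, ?_⟩
    have h1 : (a : G) ^ p ^ n ∈ A ⊓ Subgroup.centralizer (R : Set G) :=
      ⟨A.pow_mem a.2 _, hn⟩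
    rw [hfaith, Subgroup.mem_bot] at h1
    exact Subtype.ext (by rw [Subgroup.coe_pow]; exact h1)
  have hcomm : IsPGroup p (commutator A) := by
    intro x
    obtain ⟨n, hn⟩ := map_commutator_isPGroup hp hAodd φ x.1 x.2
    obtain ⟨m, hm⟩ := hker _ hn
    refine ⟨n + m, ?_⟩
    apply Subtype.ext
    rw [Subgroup.coe_pow, Subgroup.coe_one, pow_add, pow_mul]
    exact hm
  have h4 : (commutator A).map A.subtype = ⁅A, A⁆ := by
    rw [commutator_def, Subgroup.map_commutator, ← MonoidHom.range_eq_map,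
      Subgroup.range_subtype]
  rw [← h4]
  exact hcomm.map A.subtype

end Cfsg.Agent.S1449
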