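-- Statement S1455 (helper54): solvable groups of odd order with a narrow Sylow p-subgroup.
import Mathlib
import Cfsg.Statements.S1455
import Cfsg.Agent.Lib.Helper54.NarrowMax
import Cfsg.Agent.Lib.Helper1.RankTwoSolv
import Cfsg.Agent.Lib.Helper24.PRank
import Cfsg.Agent.Lib.Helper55.Cores
import Cfsg.Agent.Lib.Helper63.PLength

set_option autoImplicit false
open Cfsg

namespace Cfsg.Agent.S1455

open Cfsg.Agent.Lib.Helper54 Cfsg.Agent.Lib.Helper1 Cfsg.Agent.Lib.Helper63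
open scoped commutatorElement Pointwise

universe u

/-- The `p`-rank of a group is that of its Sylow `p`-subgroups. -/
theorem pRankLE_of_sylow {G : Type*} [Group G] [Finite G] {p : ℕ} [Fact p.Prime] (k : ℕ)
    (S : Sylow p G) (h : Cfsg.PRankLE p k ↥(S : Subgroup G)) : Cfsg.PRankLE p k G := by
  intro A hAc hAe
  have hcA : ∀ x ∈ A, ∀ y ∈ A, x * y = y * x := fun x hx y hy =>
    congrArg Subtype.val (hAc.is_comm.comm ⟨x, hx⟩ ⟨y, hy⟩)
  have hAp : IsPGroup p A := fun a =>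
    ⟨1, Subtype.ext (by rw [pow_one, Subgroup.coe_pow]; exact hAe a a.2)⟩
  obtain ⟨Q, hQ⟩ := hAp.exists_le_sylow
  obtain ⟨g, hg⟩ := MulAction.exists_smul_eq G Q S
  have hconj : ∀ a ∈ A, g * a * g⁻¹ ∈ (S : Subgroup G) := by
    intro a ha
    have h2 : MulAut.conj g • a ∈ ((g • Q : Sylow p G) : Subgroup G) := by
      rw [Sylow.coe_subgroup_smul]
      exact Subgroup.smul_mem_pointwise_smul _ _ _ (hQ ha)
    rw [hg, MulAut.smul_def, MulAut.conj_apply] at h2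
    exact h2
  have h1 := (Cfsg.Agent.Lib.Helper24.pRankLE_subgroup_iff p k (S : Subgroup G)).1 h
    (A.map (MulAut.conj g).toMonoidHom) ?_ ?_ ?_
  · rwa [Subgroup.card_map_of_injective (MulAut.conj g).injective] at h1
  · rintro _ ⟨a, ha, rfl⟩
    exact hconj a ha
  · rintro _ ⟨a, ha, rfl⟩ _ ⟨b, hb, rfl⟩
    change (MulAut.conj g) a * (MulAut.conj g) b = (MulAut.conj g) b * (MulAut.conj g) a
    rw [← map_mul, ← map_mul, hcA a ha b hb]
  · rintro _ ⟨a, ha, rfl⟩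
    change ((MulAut.conj g) a) ^ p = 1
    rw [← map_pow, hAe a ha, map_one]

/-- Structure of `X = G / O_{p'}(G)` when the Sylow `p`-subgroups are narrow of rank at least
three and `G` has `p`-length one. -/
theorem quotient_struct {G : Type u} [Group G] [Finite G] [Group.IsSolvable G]
    (p : ℕ) [Fact p.Prime] (hp : p ≠ 2) (S : Sylow p G)
    (hS : Cfsg.IsNarrow p ↥(S : Subgroup G)) (hr : ¬ Cfsg.PRankLE p 2 ↥(S : Subgroup G))
    (hpl : Cfsg.PLengthLE p 1 G) :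
    commutator (G ⧸ Cfsg.pPrimeCore p G) ≤ Cfsg.pCore p (G ⧸ Cfsg.pPrimeCore p G) ∧
    ∀ q : ℕ, q.Prime → q ≠ p → q ∣ Nat.card (G ⧸ Cfsg.pPrimeCore p G) → q < p := by
  have hpp : p.Prime := Fact.out
  have hK := Cfsg.Agent.Lib.Helper55.pPrimeCore_coprime p G
  have hsolvX : Group.IsSolvable (G ⧸ Cfsg.pPrimeCore p G) :=
    Group.isSolvable_of_surjective (QuotientGroup.mk'_surjective (Cfsg.pPrimeCore p G))
  obtain ⟨π, hπ⟩ : ∃ π : G →* G ⧸ Cfsg.pPrimeCore p G,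
      π = QuotientGroup.mk' (Cfsg.pPrimeCore p G) := ⟨_, rfl⟩
  have hπs : Function.Surjective π := by rw [hπ]; exact QuotientGroup.mk'_surjective _
  have hπker : ∀ g : G, π g = 1 ↔ g ∈ Cfsg.pPrimeCore p G := by
    intro g; rw [hπ]; exact QuotientGroup.eq_one_iff g
  have hO : ∀ N : Subgroup (G ⧸ Cfsg.pPrimeCore p G), N.Normal → (Nat.card N).Coprime p →
      N = ⊥ := Cfsg.Agent.Lib.Helper55.eq_bot_of_normal_coprime_quotient p G
  have hC := Cfsg.Agent.Lib.Helper55.centralizer_pCore_le (p := p)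
    (X := G ⧸ Cfsg.pPrimeCore p G) hO
  have hQp := Cfsg.Agent.Lib.Helper55.pCore_isPGroup p (G ⧸ Cfsg.pPrimeCore p G)
  -- p-length one
  have h0 : Cfsg.pPrimeCore p (G ⧸ Cfsg.pPrimeCore p G) = ⊥ :=
    hO _ inferInstance (Cfsg.Agent.Lib.Helper55.pPrimeCore_coprime p _)
  have hplX : Cfsg.PLengthLE p 1 (G ⧸ Cfsg.pPrimeCore p G) := plengthLE_quotient _ hpl
  have hU3 : U p (G ⧸ Cfsg.pPrimeCore p G) (2 + 1) = ⊤ := (plengthLE_iff p 1 _).mp hplX
  have hall : ∀ x : G ⧸ Cfsg.pPrimeCore p G, ∃ m : ℕ, m.Coprime p ∧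
      x ^ m ∈ Cfsg.pCore p (G ⧸ Cfsg.pPrimeCore p G) := by
    intro x
    obtain ⟨m, hm, hx⟩ := (U_isPSeries p (G ⧸ Cfsg.pPrimeCore p G)).even 2 (by decide) x
      (by rw [hU3]; exact Subgroup.mem_top x)
    exact ⟨m, hm, U_two_le_pCore h0 hx⟩
  -- `p`-elements lie in `O_p(X)`
  have hpel : ∀ x : G ⧸ Cfsg.pPrimeCore p G, (∃ j : ℕ, x ^ p ^ j = 1) →
      x ∈ Cfsg.pCore p (G ⧸ Cfsg.pPrimeCore p G) := by
    rintro x ⟨j, hj⟩
    obtain ⟨m, hm, hx⟩ := hall x
    have hco : (orderOf x).Coprime m :=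
      Nat.Coprime.coprime_dvd_left (orderOf_dvd_of_pow_eq_one hj) (Nat.Coprime.pow_left j hm.symm)
    exact (Subgroup.zpowers_le.2 hx) (mem_zpowers_pow_of_coprime x m hco)
  have hSpow : ∀ s : ↥(S : Subgroup G), ∃ j : ℕ, (s : G) ^ p ^ j = 1 := by
    intro s
    obtain ⟨j, hj⟩ := S.2 s
    refine ⟨j, ?_⟩
    have h1 := congrArg Subtype.val hj
    rwa [Subgroup.coe_pow] at h1
  have hιQ : ∀ s : ↥(S : Subgroup G),
      (π.comp (S : Subgroup G).subtype) s ∈ Cfsg.pCore p (G ⧸ Cfsg.pPrimeCore p G) := by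
    intro s
    apply hpel
    obtain ⟨j, hj⟩ := hSpow s
    refine ⟨j, ?_⟩
    change (π (s : G)) ^ p ^ j = 1
    rw [← map_pow, hj, map_one]
  -- `O_p(X)` is the image of `S`
  have hQS : ∀ y ∈ Cfsg.pCore p (G ⧸ Cfsg.pPrimeCore p G),
      ∃ s : ↥(S : Subgroup G), π (s : G) = y := by
    have hP : IsPGroup p ((S : Subgroup G).map π) := S.2.map π
    have hidx : ¬ p ∣ ((S : Subgroup G).map π).index := fun h =>
      S.not_dvd_index (h.trans (Subgroup.index_map_dvd _ hπs))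
    have hle := Cfsg.Agent.Lib.Helper55.pCore_le_sylow (hP.toSylow hidx)
    intro y hy
    have h1 : y ∈ (S : Subgroup G).map π := by
      have h2 := hle hy
      rwa [IsPGroup.toSylow_coe] at h2
    obtain ⟨s, hs, rfl⟩ := h1
    exact ⟨⟨s, hs⟩, rfl⟩
  -- the isomorphism
  obtain ⟨f, hf⟩ : ∃ f : ↥(S : Subgroup G) →* ↥(Cfsg.pCore p (G ⧸ Cfsg.pPrimeCore p G)),
      ∀ s, ((f s : ↥(Cfsg.pCore p (G ⧸ Cfsg.pPrimeCore p G))) : G ⧸ Cfsg.pPrimeCore p G)
        = π (s : G) :=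
    ⟨(π.comp (S : Subgroup G).subtype).codRestrict _ hιQ, fun s => rfl⟩
  have hfinj : Function.Injective f := by
    rw [injective_iff_map_eq_one]
    intro s hs
    have h1 : π (s : G) = 1 := by rw [← hf, hs]; rfl
    have h2 : (s : G) ∈ Cfsg.pPrimeCore p G := (hπker _).mp h1
    obtain ⟨j, hj⟩ := hSpow s
    have hd1 : orderOf (s : G) ∣ p ^ j := orderOf_dvd_of_pow_eq_one hj
    have hd2 : orderOf (s : G) ∣ Nat.card (Cfsg.pPrimeCore p G) :=
      Subgroup.orderOf_dvd_natCard _ h2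
    have h3 : orderOf (s : G) = 1 :=
      Nat.eq_one_of_dvd_coprimes (Nat.Coprime.pow_right j hK) hd2 hd1
    exact Subtype.ext (orderOf_eq_one_iff.mp h3)
  have hfsurj : Function.Surjective f := by
    intro y
    obtain ⟨s, hs⟩ := hQS y y.2
    exact ⟨s, Subtype.ext (by rw [hf, hs])⟩
  obtain ⟨e, -⟩ : ∃ e : ↥(S : Subgroup G) ≃* ↥(Cfsg.pCore p (G ⧸ Cfsg.pPrimeCore p G)),
      ∀ s, e s = f s := ⟨MulEquiv.ofBijective f ⟨hfinj, hfsurj⟩, fun s => rfl⟩
  -- the action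
  obtain ⟨θ, hθ⟩ : ∃ θ : (G ⧸ Cfsg.pPrimeCore p G) →* MulAut ↥(S : Subgroup G),
      ∀ x, θ x = MulAut.congr e.symm (MulAut.conjNormal x) :=
    ⟨(MulAut.congr e.symm).toMonoidHom.comp
      (MulAut.conjNormal : (G ⧸ Cfsg.pPrimeCore p G) →* MulAut ↥(Cfsg.pCore p _)), fun x => rfl⟩
  have hθ1 : ∀ x : G ⧸ Cfsg.pPrimeCore p G, θ x = 1 →
      x ∈ Subgroup.centralizer (Cfsg.pCore p (G ⧸ Cfsg.pPrimeCore p G) : Set _) := by
    intro x hx
    rw [hθ] at hx
    have h1 : (MulAut.conjNormal x : MulAut ↥(Cfsg.pCore p (G ⧸ Cfsg.pPrimeCore p G))) = 1 := by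
      apply (MulAut.congr e.symm).injective
      rw [map_one]
      exact hx
    rw [Subgroup.mem_centralizer_iff]
    intro r hr'
    have h2 : ((MulAut.conjNormal x (⟨r, hr'⟩ : ↥(Cfsg.pCore p (G ⧸ Cfsg.pPrimeCore p G))) :
        ↥(Cfsg.pCore p (G ⧸ Cfsg.pPrimeCore p G))) : G ⧸ Cfsg.pPrimeCore p G)
        = x * r * x⁻¹ := MulAut.conjNormal_apply _ _
    rw [h1] at h2
    have h3 : r = x * r * x⁻¹ := h2
    calc r * x = x * r * x⁻¹ * x := by rw [← h3]
      _ = x * r := by group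
  obtain ⟨N, hNn, hNc, hNpow, hNfix⟩ := narrow_action_of_isNarrow p hp S.2 hS hr θ
  have hNp : IsPGroup p N := by
    intro x
    obtain ⟨x, hx⟩ := x
    obtain ⟨k, hk⟩ := hNfix x hx
    have h1 : x ^ p ^ k ∈ Cfsg.pCore p (G ⧸ Cfsg.pPrimeCore p G) := hC (hθ1 _ hk)
    obtain ⟨j, hj⟩ := hQp ⟨_, h1⟩
    refine ⟨k + j, Subtype.ext ?_⟩
    have h2 := congrArg Subtype.val hj
    rw [Subgroup.coe_pow, Subgroup.coe_one] at h2
    rw [Subgroup.coe_pow, Subgroup.coe_one, pow_add, pow_mul]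
    exact h2
  have hNQ : N ≤ Cfsg.pCore p (G ⧸ Cfsg.pPrimeCore p G) :=
    Cfsg.Agent.Lib.Helper55.le_pCore hNn hNp
  constructor
  · refine le_trans ?_ hNQ
    rw [commutator_def, Subgroup.commutator_le]
    intro a _ b _
    exact hNc a b
  · intro q hq hqp hqd
    have : Fact q.Prime := ⟨hq⟩
    obtain ⟨y, hy⟩ := exists_prime_orderOf_dvd_card' q hqd
    obtain ⟨k, hk⟩ := hNp ⟨_, hNpow y⟩
    have hk' : (y ^ (p - 1)) ^ p ^ k = 1 := by
      have h2 := congrArg Subtype.val hk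
      rwa [Subgroup.coe_pow] at h2
    have hd1 : orderOf (y ^ (p - 1)) ∣ p ^ k := orderOf_dvd_of_pow_eq_one hk'
    have hd2 : orderOf (y ^ (p - 1)) ∣ q := hy ▸ orderOf_pow_dvd _
    have h3 : orderOf (y ^ (p - 1)) = 1 :=
      Nat.eq_one_of_dvd_coprimes
        (Nat.Coprime.pow_right k ((Nat.coprime_primes hq hpp).mpr hqp)) hd2 hd1
    have h4 : q ∣ p - 1 := by
      rw [← hy]
      exact orderOf_dvd_of_pow_eq_one (orderOf_eq_one_iff.mp h3)
    have h5 := hpp.two_le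
    have h6 : q ≤ p - 1 := Nat.le_of_dvd (by omega) h4
    omega

/-- Let G be a solvable group of odd order, p a prime dividing its order, and S a Sylow p-subgroup of G that is narrow; if S has an elementary abelian subgroup of order p ^ 3 assume also G = O_{p',p,p'}(G). Then every prime dividing the index of O_{p'}(G) is at most p; if p = 3 or p is the smallest prime divisor of #G then G has a normal p-complement; G' has a normal p-complement; every subgroup of G' of order coprime to p lies in O_{p'}(G'); and G' ≤ O_{p',p}(G) with the index of O_{p',p}(G) coprime to p. -/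
theorem result {G : Type*} [Group G] [Finite G] [Group.IsSolvable G] (hodd : Odd (Nat.card G)) (p : ℕ) [Fact p.Prime] (hpG : p ∣ Nat.card G) (S : Sylow p G) (hS : Cfsg.IsNarrow p ↥(S : Subgroup G))
    (hpl : ¬ Cfsg.PRankLE p 2 ↥(S : Subgroup G) → Cfsg.PLengthLE p 1 G) :
    (∀ q : ℕ, q.Prime → q ∣ (Cfsg.pPrimeCore p G).index → q ≤ p) ∧
      ((p = 3 ∨ ∀ q : ℕ, q.Prime → q ∣ Nat.card G → p ≤ q) → Cfsg.HasNormalPComplement p G) ∧
      Cfsg.HasNormalPComplement p ↥(commutator G) ∧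
      (∀ L : Subgroup ↥(commutator G), (Nat.card L).Coprime p → L ≤ Cfsg.pPrimeCore p ↥(commutator G)) ∧
      commutator G ≤ Cfsg.pPrimePCore p G ∧ ((Cfsg.pPrimePCore p G).index).Coprime p := by
  have hp : p ≠ 2 := by
    intro h
    rw [h] at hpG
    exact (Nat.not_even_iff_odd.2 hodd) (even_iff_two_dvd.2 hpG)
  by_cases hr : Cfsg.PRankLE p 2 ↥(S : Subgroup G)
  · exact rank_two_conclusions hodd hp (pRankLE_of_sylow 2 S hr)
  · obtain ⟨h1, h2⟩ := quotient_struct p hp S hS hr (hpl hr)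
    exact conclusions_of_struct hodd h1 h2

end Cfsg.Agent.S1455
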