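import Cfsg.Statements.S1615
import Cfsg.Agent.Lib.Helper55.FischerBridge
import Cfsg.Agent.Lib.Helper55.FischerDx
import Cfsg.Agent.Lib.Helper55.FischerTwin
import Cfsg.Agent.Lib.Helper55.FischerCount
import Cfsg.Agent.Lib.Helper55.FischerMoore
import Cfsg.Agent.Lib.Helper55.Cores
import Cfsg.Agent.Lib.Helper24.LocalS3

set_option autoImplicit false
open Cfsg

namespace Cfsg.Agent.S1615

open Cfsg.Agent.Lib.Helper55 Cfsg.Agent.Lib.Helper55.FischerDx Cfsg.Agent.Lib.Helper55.FischerTwin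
  Cfsg.Agent.Lib.Helper55.FischerCount Cfsg.Agent.Lib.Helper55.FischerMoore

/-- If O(⟨D_x⟩) is not central in ⟨D_x⟩ for some transposition x, the 3-transposition group is the symmetric group of degree 5. -/
theorem result {G : Type*} [Group G] [Finite G] (hsol : ∀ N : Subgroup G, N.Normal → Group.IsSolvable ↥N → N = ⊥) (hperf : ⁅commutator G, commutator G⁆ = commutator G) {D : Set G} (hD : Cfsg.IsThreeTranspositionClass D) (x : G) (hx : x ∈ D) (h : ¬ Cfsg.oddCore ↥(Subgroup.closure {y : G | y ∈ D ∧ y ≠ x ∧ Commute x y}) ≤ Subgroup.center ↥(Subgroup.closure {y : G | y ∈ D ∧ y ≠ x ∧ Commute x y})) : Nonempty (G ≃* Equiv.Perm (Fin 5)) := by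
  obtain ⟨hsimple, hnonab⟩ := FischerBridge.bridge hsol hperf hD
  have hTT := Fischer.TT.of_class hD
  have hgen := hD.2.2
  have hprim := Fischer.prim_of_simple hTT hgen hsimple
  have hnc : ∀ a ∈ D, ∃ c ∈ D, ¬ Commute a c := fun a ha =>
    Fischer.exists_noncommuting hTT hgen hnonab ha
  -- twins in `D_x`
  obtain ⟨a, w, htw⟩ : ∃ a w, Twin D x a w := by
    obtain ⟨H, hH⟩ : ∃ H : Subgroup G, H = Subgroup.closure (Dx D x) := ⟨_, rfl⟩
    have h' : ¬ Cfsg.oddCore ↥H ≤ Subgroup.center ↥H := by rw [hH]; exact h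
    have hcard : Nat.card ((Cfsg.oddCore ↥H).map H.subtype) = Nat.card (Cfsg.oddCore ↥H) :=
      Subgroup.card_map_of_injective H.subtype_injective
    have hcop : (Nat.card ((Cfsg.oddCore ↥H).map H.subtype)).Coprime 2 := by
      rw [hcard]; exact Cfsg.Agent.Lib.Helper55.pPrimeCore_coprime 2 ↥H
    have hN1 : ∀ e ∈ (Cfsg.oddCore ↥H).map H.subtype, e * e = 1 → e = 1 := by
      intro e he h2
      have h1 : orderOf e ∣ Nat.card ((Cfsg.oddCore ↥H).map H.subtype) :=
        Subgroup.orderOf_dvd_natCard _ he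
      have h2' : orderOf e ∣ 2 := orderOf_dvd_of_pow_eq_one (by rw [pow_two]; exact h2)
      have h3 := Nat.dvd_gcd h1 h2'
      rw [Nat.Coprime.gcd_eq_one hcop] at h3
      exact orderOf_eq_one_iff.mp (Nat.dvd_one.mp h3)
    have hN2 : ∀ g ∈ Subgroup.closure (Dx D x), ∀ n ∈ (Cfsg.oddCore ↥H).map H.subtype,
        g * n * g⁻¹ ∈ (Cfsg.oddCore ↥H).map H.subtype := by
      intro g hg n hn
      rw [← hH] at hg
      obtain ⟨n', hn', rfl⟩ := Subgroup.mem_map.mp hn
      refine Subgroup.mem_map.mpr ⟨⟨g, hg⟩ * n' * ⟨g, hg⟩⁻¹, ?_, rfl⟩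
      exact (Cfsg.pPrimeCore_normal 2 ↥H).conj_mem n' hn' ⟨g, hg⟩
    have hN4 : (Cfsg.oddCore ↥H).map H.subtype ≤ Subgroup.closure (Dx D x) := by
      rw [← hH]; exact Subgroup.map_subtype_le _
    have hN3 : ∃ n ∈ (Cfsg.oddCore ↥H).map H.subtype, ∃ a ∈ Dx D x, ¬ Commute n a := by
      obtain ⟨n', hn', hn'c⟩ := SetLike.not_le_iff_exists.mp h'
      by_contra hcon
      push Not at hcon
      apply hn'c
      rw [Subgroup.mem_center_iff]
      intro g
      have hle : Subgroup.closure (Dx D x) ≤ Subgroup.centralizer {(n' : G)} := by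
        rw [Subgroup.closure_le]
        intro a ha
        rw [SetLike.mem_coe, Subgroup.mem_centralizer_iff]
        intro v hv
        rw [Set.mem_singleton_iff] at hv
        rw [hv]
        exact (hcon (n' : G) (Subgroup.mem_map.mpr ⟨n', hn', rfl⟩) a ha).eq
      have hg := hle (show (g : G) ∈ Subgroup.closure (Dx D x) by rw [← hH]; exact g.2)
      rw [Subgroup.mem_centralizer_iff] at hg
      exact Subtype.ext (hg (n' : G) rfl).symm
    exact exists_twin_of_odd_normal hTT _ hN1 hN2 hN4 hN3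
  -- no two members of any `D_d` commute
  have hpw := pairwise_noncomm hTT hprim hnc hx htw
  have h2 : ∀ d ∈ D, ∃ e ∈ Dx D d, ∃ f ∈ Dx D d, e ≠ f := by
    intro d hd
    obtain ⟨g, rfl⟩ := hTT.trans x hx d hd
    refine ⟨g * a * g⁻¹, (Dx_conj hTT g x a).mpr htw.1, g * w * g⁻¹,
      (Dx_conj hTT g x w).mpr htw.2.1, ?_⟩
    intro he
    have haw : a = w := mul_left_cancel (mul_right_cancel he)
    rw [haw] at htw
    exact htw.2.2.1 (Commute.refl _)
  have hZ : ∀ z : G, (∀ d ∈ D, Commute z d) → z = 1 := by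
    intro z hz
    have hle : Subgroup.closure D ≤ Subgroup.centralizer {z} := by
      rw [Subgroup.closure_le]
      intro e he
      rw [SetLike.mem_coe, Subgroup.mem_centralizer_iff]
      intro v hv
      rw [Set.mem_singleton_iff] at hv
      rw [hv]
      exact (hz e he).eq
    have hzc : z ∈ Subgroup.center G := by
      rw [Subgroup.mem_center_iff]
      intro g
      have hg : g ∈ Subgroup.centralizer {z} := hle (by rw [hgen]; trivial)
      rw [Subgroup.mem_centralizer_iff] at hg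
      exact (hg z rfl).symm
    have hbot : Subgroup.center G = ⊥ :=
      hsol (Subgroup.center G) inferInstance
        (Group.isSolvable_of_comm (fun p q => Subtype.ext (by
          have := Subgroup.mem_center_iff.mp q.2 (p : G)
          exact this)))
    rw [hbot] at hzc
    exact Subgroup.mem_bot.mp hzc
  have hline : ∀ d ∈ D, ∃ a b : G, ∀ c ∈ Dx D d, c = a ∨ c = b ∨ c = a * b * a :=
    fun d hd => Dx_line hTT hprim hpw h2 hnc hZ hd
  have hL : Cfsg.Agent.Lib.Helper24.LS D := by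
    refine ⟨Cfsg.Agent.Lib.Helper24.TD.of_class hD, fun h1 => ne_one_of_mem hnc h1 rfl,
      fun d hd p hp q hq hpq => hpw d hd p hp q hq hpq, fun d hd => h2 d hd, ?_⟩
    intro d hd p hp q hq hpq z hz
    have hp' : p ∈ Dx D d := hp
    have hq' : q ∈ Dx D d := hq
    have hz' : z ∈ Dx D d := hz
    obtain ⟨a', b', hab'⟩ := hline d hd
    have hcard : (Dx D d).ncard ≤ 3 := by
      have hsub : Dx D d ⊆ ({a', b', a' * b' * a'} : Set G) := by
        intro c hc
        rcases hab' c hc with h | h | h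
        · rw [h]; exact Set.mem_insert _ _
        · rw [h]; exact Set.mem_insert_of_mem _ (Set.mem_insert _ _)
        · rw [h]; exact Set.mem_insert_of_mem _ (Set.mem_insert_of_mem _ (Set.mem_singleton _))
      have h0 := Set.ncard_le_ncard hsub (Set.toFinite _)
      have h1 := Set.ncard_insert_le a' ({b', a' * b' * a'} : Set G)
      have h2' := Set.ncard_insert_le b' ({a' * b' * a'} : Set G)
      rw [Set.ncard_singleton] at h2'
      omega
    have hnpq : ¬ Commute p q := hpw d hd p hp' q hq' hpq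
    have hp2 := hTT.sq p hp'.1
    have hpqp : p * q * p ∈ Dx D d := by
      have := Dx_map hTT (conj_fix_of_commute hp'.2.2.symm) hq'
      rwa [hTT.inv_eq hp'.1] at this
    have hne1 : p ≠ p * q * p := by
      intro he
      apply hpq
      have e1 : p * 1 = p * (q * p) := by rw [mul_one, ← mul_assoc]; exact he
      have e2 : q * p = 1 := (mul_left_cancel e1).symm
      have e3 : q = p⁻¹ := eq_inv_of_mul_eq_one_left e2
      rw [e3, hTT.inv_eq hp'.1]
    have hne2 : q ≠ p * q * p := by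
      intro he
      apply hnpq
      show p * q = q * p
      calc p * q = p * q * (p * p) := by rw [hp2, mul_one]
        _ = (p * q * p) * p := by group
        _ = q * p := by rw [← he]
    have h3 : ({p, q, p * q * p} : Set G).ncard = 3 :=
      Set.ncard_eq_three.mpr ⟨p, q, p * q * p, hpq, hne1, hne2, rfl⟩
    have hsub : ({p, q, p * q * p} : Set G) ⊆ Dx D d := by
      intro c hc
      rcases hc with h | h | h
      · rw [h]; exact hp'
      · rw [h]; exact hq'
      · rw [Set.mem_singleton_iff.mp h]; exact hpqp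
    have heq : ({p, q, p * q * p} : Set G) = Dx D d :=
      Set.eq_of_subset_of_ncard_le hsub (by rw [h3]; exact hcard) (Set.toFinite _)
    rw [← heq] at hz'
    rcases hz' with h | h | h
    · exact Or.inl h
    · exact Or.inr (Or.inl h)
    · exact Or.inr (Or.inr (Set.mem_singleton_iff.mp h))
  have hB : ∀ d ∈ D, ∀ e₁ ∈ Cfsg.Agent.Lib.Helper24.ASet D d,
      ∀ e₂ ∈ Cfsg.Agent.Lib.Helper24.ASet D d, e₁ ≠ e₂ → ∀ x ∈ D, x ≠ d →
      Commute x e₁ → ¬ Commute x e₂ := by
    intro d hd e₁ he₁ e₂ he₂ hne x' hx' hx'd hc1 hc2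
    have he₁' : e₁ ∈ Dx D d := he₁
    have he₂' : e₂ ∈ Dx D d := he₂
    have hne12 : ¬ Commute e₁ e₂ := hpw d hd e₁ he₁' e₂ he₂' hne
    obtain ⟨v, hv⟩ := Set.ncard_eq_one.mp
      (mu_one hTT hprim hpw h2 hnc he₁'.1 he₂'.1 hne12)
    have hd1 : d ∈ Dx D e₁ ∩ Dx D e₂ :=
      ⟨⟨hd, Ne.symm he₁'.2.1, he₁'.2.2.symm⟩, ⟨hd, Ne.symm he₂'.2.1, he₂'.2.2.symm⟩⟩
    have hx1 : x' ∈ Dx D e₁ ∩ Dx D e₂ := by
      refine ⟨⟨hx', ?_, hc1.symm⟩, ⟨hx', ?_, hc2.symm⟩⟩
      · intro he
        rw [he] at hc2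
        exact hne12 hc2
      · intro he
        rw [he] at hc1
        exact hne12 hc1.symm
    rw [hv] at hd1 hx1
    exact hx'd ((Set.mem_singleton_iff.mp hx1).trans (Set.mem_singleton_iff.mp hd1).symm)
  obtain ⟨e⟩ := hL.caseB hD.1 ⟨x, hx⟩ hB
  exact ⟨(Subgroup.topEquiv.symm.trans (MulEquiv.subgroupCongr hgen.symm)).trans e⟩

end Cfsg.Agent.S1615
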