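import Mathlib
import Cfsg.Statements.S1892
import Cfsg.Agent.Lib.Helper63.HallHigman
import Cfsg.Agent.S0027

set_option autoImplicit false
open Cfsg

namespace Cfsg.Agent.S1892

open Cfsg.Agent.Lib.Helper63

/-- three subgroups lemma modulo a normal subgroup -/
theorem three_subgroups_le {G : Type*} [Group G] (H₁ H₂ H₃ M : Subgroup G) [M.Normal]
    (h1 : ⁅⁅H₂, H₃⁆, H₁⁆ ≤ M) (h2 : ⁅⁅H₃, H₁⁆, H₂⁆ ≤ M) : ⁅⁅H₁, H₂⁆, H₃⁆ ≤ M := by
  have key : ∀ (K₁ K₂ K₃ : Subgroup G), ⁅⁅K₁, K₂⁆, K₃⁆ ≤ M ↔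
      ⁅⁅K₁.map (QuotientGroup.mk' M), K₂.map (QuotientGroup.mk' M)⁆,
        K₃.map (QuotientGroup.mk' M)⁆ = ⊥ := by
    intro K₁ K₂ K₃
    rw [← Subgroup.map_commutator, ← Subgroup.map_commutator, Subgroup.map_eq_bot_iff,
      QuotientGroup.ker_mk']
  rw [key] at h1 h2 ⊢
  exact Subgroup.commutator_commutator_eq_bot_of_rotate h1 h2

/-- three subgroups lemma modulo a subgroup normalized by the three subgroups -/
theorem three_subgroups_le' {G : Type*} [Group G] (H₁ H₂ H₃ M : Subgroup G)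
    (n1 : H₁ ≤ Subgroup.normalizer (M : Set G)) (n2 : H₂ ≤ Subgroup.normalizer (M : Set G))
    (n3 : H₃ ≤ Subgroup.normalizer (M : Set G))
    (h1 : ⁅⁅H₂, H₃⁆, H₁⁆ ≤ M) (h2 : ⁅⁅H₃, H₁⁆, H₂⁆ ≤ M) : ⁅⁅H₁, H₂⁆, H₃⁆ ≤ M := by
  set T := Subgroup.normalizer (M : Set G) with hT
  have hMT : M ≤ T := Subgroup.le_normalizer
  haveI : (M.subgroupOf T).Normal := Subgroup.normal_in_normalizer
  have key : ∀ (K₁ K₂ K₃ : Subgroup G), K₁ ≤ T → K₂ ≤ T → K₃ ≤ T → (⁅⁅K₁, K₂⁆, K₃⁆ ≤ M ↔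
      ⁅⁅K₁.subgroupOf T, K₂.subgroupOf T⁆, K₃.subgroupOf T⁆ ≤ M.subgroupOf T) := by
    intro K₁ K₂ K₃ k1 k2 k3
    have e : (⁅⁅K₁.subgroupOf T, K₂.subgroupOf T⁆, K₃.subgroupOf T⁆).map T.subtype
        = ⁅⁅K₁, K₂⁆, K₃⁆ := by
      rw [Subgroup.map_commutator, Subgroup.map_commutator, Subgroup.map_subgroupOf_eq_of_le k1,
        Subgroup.map_subgroupOf_eq_of_le k2, Subgroup.map_subgroupOf_eq_of_le k3]
    rw [← e, Subgroup.map_le_iff_le_comap]
    rfl
  rw [key _ _ _ n2 n3 n1] at h1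
  rw [key _ _ _ n3 n1 n2] at h2
  rw [key _ _ _ n1 n2 n3]
  exact three_subgroups_le _ _ _ _ h1 h2

/-- Let S be a finite p-solvable group with no nontrivial normal subgroup of order prime to p, A a p-subgroup of S, and Q a nontrivial A-invariant subgroup of order prime to p with [A, Q] = Q. Then the commutator [O_p(S), A, Q] is nontrivial. -/
theorem result {S : Type*} [Group S] [Finite S] {p : ℕ} [Fact p.Prime]
    (hS : Cfsg.IsPSolvable p S) (hred : Cfsg.pPrimeCore p S = ⊥)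
    (A Q : Subgroup S) (hA : IsPGroup p A) (hQ : ¬ p ∣ Nat.card Q) (hQ1 : Q ≠ ⊥)
    (hinv : ∀ a ∈ A, ∀ x ∈ Q, a * x * a⁻¹ ∈ Q) (hAQ : ⁅A, Q⁆ = Q) :
    ⁅⁅Cfsg.pCore p S, A⁆, Q⁆ ≠ ⊥ := by
  intro h
  have hp : p.Prime := Fact.out
  set P := Cfsg.pCore p S with hP
  set N := ⁅P, A⁆ with hN
  have hPp : IsPGroup p P := pCore_isPGroup' p S
  have n1 : A ≤ Subgroup.normalizer (N : Set S) := Subgroup.normalizer_commutator_ge_right P A
  have n3 : P ≤ Subgroup.normalizer (N : Set S) := Subgroup.normalizer_commutator_ge_left P A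
  have n2 : Q ≤ Subgroup.normalizer (N : Set S) := by
    have hc : N ≤ Subgroup.centralizer (Q : Set S) := Subgroup.commutator_eq_bot_iff_le_centralizer.1 h
    intro q hq
    rw [Subgroup.mem_normalizer_iff]
    intro x
    constructor
    · intro hx
      have := (Subgroup.mem_centralizer_iff.1 (hc hx)) q hq
      have e : q * x * q⁻¹ = x := by rw [this]; group
      rw [e]; exact hx
    · intro hx
      have := (Subgroup.mem_centralizer_iff.1 (hc hx)) q hq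
      have e : x = q⁻¹ * (q * x * q⁻¹) * q := by group
      have e2 : q⁻¹ * (q * x * q⁻¹) * q = q * x * q⁻¹ := by
        rw [mul_assoc, ← this]; group
      rw [e, e2]; exact hx
  have h1 : ⁅⁅Q, P⁆, A⁆ ≤ N := by
    have : ⁅Q, P⁆ ≤ P := Subgroup.commutator_le_right Q P
    exact Subgroup.commutator_mono this le_rfl
  have h2 : ⁅⁅P, A⁆, Q⁆ ≤ N := by rw [h]; exact bot_le
  have h3 : ⁅⁅A, Q⁆, P⁆ ≤ N := three_subgroups_le' A Q P N n1 n2 n3 h1 h2
  rw [hAQ, Subgroup.commutator_comm] at h3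
  have h4 : ⁅⁅P, Q⁆, Q⁆ = ⊥ := by
    rw [← le_bot_iff, ← h]
    exact Subgroup.commutator_mono h3 le_rfl
  have hQP : Q ≤ Subgroup.normalizer (P : Set S) := by
    rw [Subgroup.normalizer_eq_top]; exact le_top
  obtain ⟨k, hk⟩ := (IsPGroup.iff_card).1 hPp
  have hcop : (Nat.card Q).Coprime (Nat.card P) := by
    rw [hk]
    exact Nat.Coprime.pow_right k (Nat.coprime_comm.1 ((Nat.Prime.coprime_iff_not_dvd hp).2 hQ))
  have hsolvP : Group.IsSolvable P := by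
    haveI := hPp.isNilpotent
    infer_instance
  have h5 := Cfsg.Agent.S0027.result Q P hQP hcop (Or.inr hsolvP)
  rw [h4] at h5
  have h6 : Q ≤ Subgroup.centralizer (P : Set S) := by
    rw [← Subgroup.commutator_eq_bot_iff_le_centralizer, Subgroup.commutator_comm]
    exact h5.symm
  have h7 : Q ≤ P := h6.trans (centralizer_pCore_le hred (exists_plengthLE_of_isPSolvable hS))
  have h8 : Nat.card Q ∣ p ^ k := hk ▸ Subgroup.card_dvd_of_le h7
  obtain ⟨j, _, hj⟩ := (Nat.dvd_prime_pow hp).1 h8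
  have hj0 : j = 0 := by
    by_contra hne
    exact hQ (hj ▸ dvd_pow_self p hne)
  rw [hj0, pow_zero] at hj
  exact hQ1 (Subgroup.eq_bot_of_card_eq Q hj)

end Cfsg.Agent.S1892
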