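import Cfsg.Statements.S1895
import Mathlib
import Cfsg.Agent.Lib.Helper32.Rank2c

set_option autoImplicit false
open Cfsg

namespace Cfsg.Agent.S1895

/-- Let p be an odd prime and G a finite p-solvable group with no elementary abelian subgroup of order p³. Then every chief factor H/K of G (H, K normal in G with no normal subgroup of G strictly between them) whose order is a power of p has order p or p². -/
theorem result {G : Type*} [Group G] [Finite G] {p : ℕ} [Fact p.Prime] (hp : p ≠ 2)
    (hG : Cfsg.IsPSolvable p G) (hr : Cfsg.PRankLE p 2 G)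
    (H K : Subgroup G) [H.Normal] [K.Normal] (hKH : K < H) (hpow : ∃ n : ℕ, K.relIndex H = p ^ n)
    (hchief : ∀ L : Subgroup G, L.Normal → K ≤ L → L ≤ H → L = K ∨ L = H) :
    K.relIndex H = p ∨ K.relIndex H = p ^ 2 := by
  obtain ⟨n, hn⟩ := hpow
  have hmain := Cfsg.Agent.Lib.Helper32.chiefBd_top hp hG hr
  have h2 := hmain H K inferInstance inferInstance bot_le hKH le_top hchief n hn
  have h0 : n ≠ 0 := by
    rintro rfl
    rw [pow_zero] at hn
    exact (not_le_of_gt hKH) (Subgroup.relIndex_eq_one.1 hn)
  have h3 : n = 1 ∨ n = 2 := by omega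
  rcases h3 with rfl | rfl
  · left; rw [hn, pow_one]
  · right; exact hn

end Cfsg.Agent.S1895
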