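import Mathlib
import Cfsg.Statements.S1898

set_option autoImplicit false
open Cfsg
open scoped commutatorElement

namespace Cfsg.Agent.S1898

theorem mul_sq_of_central {X : Type*} [Group X] (x y c : X) (h : y * x = c * (x * y))
    (hc : ∀ g : X, g * c = c * g) : (x * y) ^ 2 = c * (x ^ 2 * y ^ 2) := by
  rw [pow_two, pow_two, pow_two]
  calc x * y * (x * y) = x * ((y * x) * y) := by simp only [mul_assoc]
    _ = x * ((c * (x * y)) * y) := by rw [h]
    _ = (x * c) * (x * (y * y)) := by simp only [mul_assoc]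
    _ = (c * x) * (x * (y * y)) := by rw [hc x]
    _ = c * (x * x * (y * y)) := by simp only [mul_assoc]

theorem sq_comm_of_central {X : Type*} [Group X] (x y c : X) (h : y * x = c * (x * y))
    (hc : ∀ g : X, g * c = c * g) (hc2 : c ^ 2 = 1) : y ^ 2 * x = x * y ^ 2 := by
  rw [pow_two] at hc2 ⊢
  calc y * y * x = y * (y * x) := by simp only [mul_assoc]
    _ = y * (c * (x * y)) := by rw [h]
    _ = (y * c) * (x * y) := by simp only [mul_assoc]
    _ = (c * y) * (x * y) := by rw [hc y]
    _ = c * ((y * x) * y) := by simp only [mul_assoc]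
    _ = c * ((c * (x * y)) * y) := by rw [h]
    _ = (c * c) * (x * (y * y)) := by simp only [mul_assoc]
    _ = x * (y * y) := by rw [hc2, one_mul]

/-- Let X be a finite 2-group whose derived subgroup is elementary abelian and central. Then the subgroup generated by the elements of order dividing 4 has exponent dividing 4, and every automorphism of X fixing each element of order dividing 4 has 2-power order. -/
theorem result {X : Type*} [Group X] [Finite X] (hX : IsPGroup 2 X)
    (hel : Cfsg.IsElementaryAbelian 2 (commutator X)) (hcen : commutator X ≤ Subgroup.center X) :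
    (∀ x ∈ Subgroup.closure {g : X | g ^ 4 = 1}, x ^ 4 = 1) ∧
      ∀ φ : MulAut X, (∀ g : X, g ^ 4 = 1 → φ g = g) → ∃ k : ℕ, φ ^ (2 ^ k) = 1 := by
  obtain ⟨-, hexp⟩ := hel
  have hcmem : ∀ a b : X, ⁅a, b⁆ ∈ commutator X := by
    intro a b
    rw [commutator_def]
    exact Subgroup.commutator_mem_commutator (Subgroup.mem_top a) (Subgroup.mem_top b)
  have hc2 : ∀ a b : X, ⁅a, b⁆ ^ 2 = 1 := fun a b => hexp _ (hcmem a b)
  have hccomm : ∀ a b g : X, g * ⁅a, b⁆ = ⁅a, b⁆ * g := by
    intro a b g
    exact (Subgroup.mem_center_iff.mp (hcen (hcmem a b)) g)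
  have hswap : ∀ x y : X, y * x = ⁅y, x⁆ * (x * y) := by
    intro x y; rw [commutatorElement_def]; simp [mul_assoc]
  have hmul2 : ∀ x y : X, (x * y) ^ 2 = ⁅y, x⁆ * (x ^ 2 * y ^ 2) :=
    fun x y => mul_sq_of_central x y _ (hswap x y) (hccomm y x)
  have hsq : ∀ x y : X, y ^ 2 * x = x * y ^ 2 :=
    fun x y => sq_comm_of_central x y _ (hswap x y) (hccomm y x) (hc2 y x)
  have hmul4 : ∀ x y : X, (x * y) ^ 4 = x ^ 4 * y ^ 4 := by
    intro x y
    have h4 : (x * y) ^ 4 = ((x * y) ^ 2) ^ 2 := by rw [← pow_mul]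
    rw [h4, hmul2]
    have hcc : ∀ g : X, g * ⁅y, x⁆ = ⁅y, x⁆ * g := hccomm y x
    have hcsq : ⁅y, x⁆ * ⁅y, x⁆ = 1 := by rw [← pow_two]; exact hc2 y x
    generalize ⁅y, x⁆ = c at hcc hcsq ⊢
    calc (c * (x ^ 2 * y ^ 2)) ^ 2
        = c * ((x ^ 2 * y ^ 2) * c) * (x ^ 2 * y ^ 2) := by rw [pow_two]; simp only [mul_assoc]
      _ = c * (c * (x ^ 2 * y ^ 2)) * (x ^ 2 * y ^ 2) := by rw [hcc (x ^ 2 * y ^ 2)]
      _ = (c * c) * (x ^ 2 * (y ^ 2 * x ^ 2) * y ^ 2) := by simp only [mul_assoc]
      _ = x ^ 2 * (x ^ 2 * y ^ 2) * y ^ 2 := by rw [hcsq, one_mul, hsq (x ^ 2) y]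
      _ = (x ^ 2 * x ^ 2) * (y ^ 2 * y ^ 2) := by simp only [mul_assoc]
      _ = x ^ 4 * y ^ 4 := by rw [← pow_add, ← pow_add]
  refine ⟨?_, ?_⟩
  · intro x hx
    induction hx using Subgroup.closure_induction with
    | mem x hx => exact hx
    | one => simp
    | mul x y _ _ hx hy => rw [hmul4, hx, hy, one_mul]
    | inv x _ hx => rw [inv_pow, hx, inv_one]
  · intro φ hφ
    have hN : orderOf φ ≠ 0 := (orderOf_pos φ).ne'
    obtain ⟨k, m, hm, hkm⟩ := Nat.exists_eq_two_pow_mul_odd hN
    refine ⟨k, ?_⟩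
    set ψ := φ ^ (2 ^ k) with hψ
    have hψm : ψ ^ m = 1 := by rw [hψ, ← pow_mul, ← hkm, pow_orderOf_eq_one]
    have hψfix : ∀ g : X, g ^ 4 = 1 → ψ g = g := by
      intro g hg
      have : ∀ j : ℕ, (φ ^ j) g = g := by
        intro j
        induction j with
        | zero => simp
        | succ j ih => rw [pow_succ, MulAut.mul_apply, hφ g hg, ih]
      exact this _
    have main : ∀ j : ℕ, ∀ x : X, x ^ (2 ^ j) = 1 → ψ x = x := by
      intro j
      induction j with
      | zero =>
        intro x hx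
        simp at hx
        subst hx
        simp
      | succ j ih =>
        intro x hx
        have hx2 : (x ^ 2) ^ (2 ^ j) = 1 := by rw [← pow_mul, ← pow_succ']; exact hx
        have h1 : ψ (x ^ 2) = x ^ 2 := ih _ hx2
        set u := x⁻¹ * ψ x with hu
        have hψx : ψ x = x * u := by rw [hu]; simp
        have h2 : (x * u) ^ 2 = x ^ 2 := by rw [← hψx, ← map_pow, h1]
        rw [hmul2] at h2
        have h3 : ⁅u, x⁆ * u ^ 2 = 1 := by
          have h4 : x ^ 2 * (⁅u, x⁆ * u ^ 2) = x ^ 2 * 1 := by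
            rw [mul_one, ← mul_assoc, hccomm u x (x ^ 2)]
            rw [mul_assoc]; exact h2
          exact mul_left_cancel h4
        have hu4 : u ^ 4 = 1 := by
          have h5 : u ^ 2 = ⁅u, x⁆⁻¹ := by
            rw [eq_inv_iff_mul_eq_one, hccomm u x (u ^ 2)]
            exact h3
          have : u ^ 4 = (u ^ 2) ^ 2 := by rw [← pow_mul]
          rw [this, h5, inv_pow, hc2, inv_one]
        have hψu : ψ u = u := hψfix u hu4
        have hiter : ∀ i : ℕ, (ψ ^ i) x = x * u ^ i := by
          intro i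
          induction i with
          | zero => simp
          | succ i ih2 =>
            rw [pow_succ', MulAut.mul_apply, ih2, map_mul, map_pow, hψu, hψx, mul_assoc, ← pow_succ']
        have hum : u ^ m = 1 := by
          have := hiter m
          rw [hψm] at this
          simpa using this.symm
        have hu1 : u = 1 := by
          have hdvd4 : orderOf u ∣ 4 := orderOf_dvd_of_pow_eq_one hu4
          have hdvdm : orderOf u ∣ m := orderOf_dvd_of_pow_eq_one hum
          have hcop2 : Nat.Coprime 2 m := (Nat.coprime_two_left).mpr hm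
          have hcop : Nat.Coprime (2 ^ 2) m := Nat.Coprime.pow_left 2 hcop2
          have h41 : Nat.gcd 4 m = 1 := hcop
          have : orderOf u ∣ 1 := by
            have := Nat.dvd_gcd hdvd4 hdvdm
            rwa [h41] at this
          exact orderOf_eq_one_iff.mp (Nat.dvd_one.mp this)
        rw [hψx, hu1, mul_one]
    ext x
    obtain ⟨j, hj⟩ := hX x
    exact main j x hj

end Cfsg.Agent.S1898
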