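import Mathlib
import Cfsg.Statements.S1899

set_option autoImplicit false
open Cfsg

namespace Cfsg.Agent.S1899

/-- Let a dihedral group of order 2n, n odd and n > 1, act on a finite abelian 2-group A through automorphisms d and t with d^n = 1, t² = 1 and t d t⁻¹ = d⁻¹, and suppose that d fixes only the identity. Then A is the internal direct product of C_A(t) and its image under d. -/
theorem result {A : Type*} [CommGroup A] [Finite A] (hA : IsPGroup 2 A)
    {n : ℕ} (hn : Odd n) (hn1 : 1 < n) (d t : MulAut A) (hd : d ^ n = 1) (ht : t ^ 2 = 1) (hdt : t * d * t⁻¹ = d⁻¹)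
    (hfix : ∀ a : A, d a = a → a = 1) :
    (MulEquiv.toMonoidHom t).eqLocus (MonoidHom.id A) ⊓ ((MulEquiv.toMonoidHom t).eqLocus (MonoidHom.id A)).map d.toMonoidHom = ⊥ ∧
      (MulEquiv.toMonoidHom t).eqLocus (MonoidHom.id A) ⊔ ((MulEquiv.toMonoidHom t).eqLocus (MonoidHom.id A)).map d.toMonoidHom = ⊤ := by
  -- basic relations
  have htt : ∀ a : A, t (t a) = a := by
    intro a
    have : (t ^ 2) a = a := by rw [ht]; rfl
    simpa [pow_two] using this
  have htd : ∀ a : A, t (d a) = d⁻¹ (t a) := by
    intro a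
    have h1 : t * d = d⁻¹ * t := by
      have := congrArg (· * t) hdt
      simpa [mul_assoc] using this
    have := congrArg (fun φ : MulAut A => φ a) h1
    simpa using this
  have htd' : ∀ a : A, t (d⁻¹ a) = d (t a) := by
    intro a
    have h := htd (d⁻¹ a)
    have h2 : d (d⁻¹ a) = a := by simp
    rw [h2] at h
    rw [h]; simp
  -- d^2 has no fixed points
  have hfix2 : ∀ a : A, d (d a) = a → a = 1 := by
    intro a ha
    apply hfix
    obtain ⟨k, rfl⟩ := hn
    have hk : ∀ j : ℕ, (d ^ (2 * j)) a = a := by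
      intro j
      induction j with
      | zero => simp
      | succ j ih =>
        have : d ^ (2 * (j + 1)) = d ^ (2 * j) * d * d := by
          rw [mul_add, pow_add]; simp [pow_two, mul_assoc]
        rw [this]
        simp only [MulAut.mul_apply]
        rw [ha, ih]
    have h1 : d ^ (2 * (k + 1)) = d := by
      have : 2 * (k + 1) = (2 * k + 1) + 1 := by ring
      rw [this, pow_succ, hd, one_mul]
    have := hk (k + 1)
    rw [h1] at this
    exact this
  set C : Subgroup A := (MulEquiv.toMonoidHom t).eqLocus (MonoidHom.id A) with hC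
  have hCmem : ∀ a : A, a ∈ C ↔ t a = a := by
    intro a; rfl
  have hinf : C ⊓ C.map d.toMonoidHom = ⊥ := by
    rw [eq_bot_iff]
    rintro a ⟨ha1, ha2⟩
    obtain ⟨b, hb, rfl⟩ := ha2
    have hb' : t b = b := (hCmem b).1 hb
    have ha1' : t (d b) = d b := (hCmem _).1 ha1
    rw [htd, hb'] at ha1'
    have : d (d b) = b := by
      have := congrArg d ha1'
      simpa using this.symm
    have hb1 := hfix2 b this
    subst hb1
    simp
  refine ⟨hinf, ?_⟩
  -- counting
  -- f a = a * t a
  let f : A →* A :=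
    { toFun := fun a => a * t a
      map_one' := by simp
      map_mul' := by
        intro a b
        simp [mul_mul_mul_comm] }
  -- delta a = d a * (d⁻¹ a)⁻¹
  let δ : A →* A :=
    { toFun := fun a => d a * (d⁻¹ a)⁻¹
      map_one' := by simp
      map_mul' := by
        intro a b
        simp only [map_mul, mul_inv]
        exact mul_mul_mul_comm _ _ _ _ }
  have hδinj : Function.Injective δ := by
    rw [injective_iff_map_eq_one]
    intro a ha
    have ha' : d a * (d⁻¹ a)⁻¹ = 1 := ha
    have h1 : d a = d⁻¹ a := by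
      rw [mul_inv_eq_one] at ha'
      exact ha'
    apply hfix2
    rw [h1]; simp
  have hrange : f.range ≤ C := by
    rintro _ ⟨a, rfl⟩
    rw [hCmem]
    show t (a * t a) = a * t a
    rw [map_mul, htt, mul_comm]
  have hker : ∀ a ∈ f.ker, δ a ∈ C := by
    intro a ha
    rw [MonoidHom.mem_ker] at ha
    have ha' : a * t a = 1 := ha
    have hta : t a = a⁻¹ := by
      rw [← mul_right_inj a, ha', mul_inv_cancel]
    rw [hCmem]
    show t (d a * (d⁻¹ a)⁻¹) = d a * (d⁻¹ a)⁻¹
    rw [map_mul, map_inv, htd, htd', hta, map_inv, map_inv, inv_inv, mul_comm]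
  have hcardker : Nat.card f.ker ≤ Nat.card C := by
    apply Nat.card_le_card_of_injective (fun a : f.ker => (⟨δ a.1, hker a.1 a.2⟩ : C))
    intro a b hab
    have : δ a.1 = δ b.1 := congrArg Subtype.val hab
    exact Subtype.ext (hδinj this)
  have hcardrange : Nat.card f.range ≤ Nat.card C := Subgroup.card_le_of_le hrange
  have hA1 : Nat.card A = Nat.card f.ker * Nat.card f.range := by
    rw [← f.ker.card_mul_index, Subgroup.index_ker]
  have hA2 : Nat.card A ≤ Nat.card C * Nat.card C := by
    rw [hA1]; exact Nat.mul_le_mul hcardker hcardrange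
  have hCd : Nat.card (C.map d.toMonoidHom) = Nat.card C :=
    Subgroup.card_map_of_injective (MulEquiv.injective d)
  have hprod : Nat.card C * Nat.card (C.map d.toMonoidHom) ≤ Nat.card ↥(C ⊔ C.map d.toMonoidHom) := by
    rw [← Nat.card_prod]
    apply Nat.card_le_card_of_injective
      (fun x : C × (C.map d.toMonoidHom) =>
        (⟨x.1.1 * x.2.1, Subgroup.mul_mem _ (Subgroup.mem_sup_left x.1.2) (Subgroup.mem_sup_right x.2.2)⟩ :
          ↥(C ⊔ C.map d.toMonoidHom)))
    rintro ⟨⟨x, hx⟩, ⟨y, hy⟩⟩ ⟨⟨x', hx'⟩, ⟨y', hy'⟩⟩ h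
    have h' : x * y = x' * y' := congrArg Subtype.val h
    have h1 : x'⁻¹ * x = y' * y⁻¹ := by
      rw [inv_mul_eq_iff_eq_mul, ← mul_assoc, ← h', mul_assoc, mul_inv_cancel, mul_one]
    have h2 : x'⁻¹ * x ∈ C ⊓ C.map d.toMonoidHom := by
      refine ⟨Subgroup.mul_mem _ (Subgroup.inv_mem _ hx') hx, ?_⟩
      rw [h1]
      exact Subgroup.mul_mem _ hy' (Subgroup.inv_mem _ hy)
    rw [hinf, Subgroup.mem_bot] at h2
    have hxx : x = x' := by
      rw [inv_mul_eq_one] at h2; exact h2.symm
    subst hxx
    have hyy : y = y' := by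
      exact mul_left_cancel h'
    subst hyy
    rfl
  apply Subgroup.eq_top_of_le_card
  rw [hCd] at hprod
  exact le_trans hA2 hprod

end Cfsg.Agent.S1899
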