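import Mathlib
import Cfsg.Agent.Lib.Helper61.Coprime
import Cfsg.Agent.Lib.Helper61.Norm
import Cfsg.Agent.Lib.Helper48.Generation
import Cfsg.Agent.Lib.Helper23.Compl
import Cfsg.Agent.S0026
import Cfsg.Statements.S1900

namespace Cfsg.Agent.S1900

open Cfsg.Agent.Lib.Helper61 Cfsg.Agent.Lib.Helper48 in
theorem result {S : Type*} [Group S] [Finite S] {p q : ℕ} [Fact p.Prime] [Fact q.Prime] (hpq : p ≠ q)
    (P : Sylow p S) [(P : Subgroup S).Normal] (Q : Subgroup S) (hQ : Cfsg.IsElementaryAbelian q Q) (hQc : Nat.card Q = q ^ 2)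
    (hS : (P : Subgroup S) ⊔ Q = ⊤)
    (X₁ X₂ : Subgroup S) (h₁ : X₁ ≤ Q) (h₂ : X₂ ≤ Q) (h₁₂ : X₁ ≠ X₂) (hc₁ : Nat.card X₁ = q) (hc₂ : Nat.card X₂ = q)
    (hf₁ : (P : Subgroup S) ⊓ Subgroup.centralizer (X₁ : Set S) ≠ ⊥)
    (hf₂ : (P : Subgroup S) ⊓ Subgroup.centralizer (X₂ : Set S) ≠ ⊥)
    (honly : ∀ X : Subgroup S, X ≤ Q → Nat.card X = q →
      (P : Subgroup S) ⊓ Subgroup.centralizer (X : Set S) ≠ ⊥ → X = X₁ ∨ X = X₂) :
    ⁅(P : Subgroup S) ⊓ Subgroup.centralizer (X₁ : Set S), (P : Subgroup S) ⊓ Subgroup.centralizer (X₂ : Set S)⁆ = ⊥ ∧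
      ((P : Subgroup S) ⊓ Subgroup.centralizer (X₁ : Set S)) ⊓ ((P : Subgroup S) ⊓ Subgroup.centralizer (X₂ : Set S)) = ⊥ ∧
      ((P : Subgroup S) ⊓ Subgroup.centralizer (X₁ : Set S)) ⊔ ((P : Subgroup S) ⊓ Subgroup.centralizer (X₂ : Set S)) = P := by
  have hp : p.Prime := Fact.out
  have hq : q.Prime := Fact.out
  have hPp : IsPGroup p (P : Subgroup S) := P.isPGroup'
  obtain ⟨n, hn⟩ := hPp.exists_card_eq
  have hqdvd : ∀ R : Subgroup S, R ≤ (P : Subgroup S) → ¬ q ∣ Nat.card R := by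
    intro R hR h
    have h1 : q ∣ p ^ n := hn ▸ h.trans (Subgroup.card_dvd_of_le hR)
    exact hpq ((Nat.prime_dvd_prime_iff_eq hq hp).mp (hq.dvd_of_dvd_pow h1)).symm
  have hcopq : ∀ R : Subgroup S, R ≤ (P : Subgroup S) → ∀ A : Subgroup S, Nat.card A = q →
      (Nat.card A).Coprime (Nat.card R) := by
    intro R hR A hA
    rw [hA]
    exact (Nat.Prime.coprime_iff_not_dvd hq).mpr (hqdvd R hR)
  have hsolvR : ∀ R : Subgroup S, R ≤ (P : Subgroup S) → Group.IsSolvable R := by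
    intro R hR
    have : Group.IsNilpotent R := (hPp.to_le hR).isNilpotent
    infer_instance
  have hcommQ : ∀ x ∈ Q, ∀ y ∈ Q, x * y = y * x := by
    intro x hx y hy
    have := hQ.1.is_comm.comm (⟨x, hx⟩ : Q) ⟨y, hy⟩
    exact congrArg Subtype.val this
  have hexpQ := hQ.2
  have hQnc : ¬ IsCyclic Q := by
    intro hcyc
    obtain ⟨g, hg⟩ := hcyc.exists_generator
    have h1 : orderOf g = Nat.card Q := orderOf_eq_card_of_forall_mem_zpowers hg
    have h2 : orderOf g ∣ q := by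
      apply orderOf_dvd_of_pow_eq_one
      apply Subtype.ext
      simpa using hexpQ g g.2
    have h3 : Nat.card Q ≤ q := h1 ▸ Nat.le_of_dvd hq.pos h2
    have h4 : q < q ^ 2 := by
      calc q = q ^ 1 := (pow_one q).symm
        _ < q ^ 2 := Nat.pow_lt_pow_right hq.one_lt (by norm_num)
    omega
  have hQPn : Q ≤ Subgroup.normalizer ((P : Subgroup S) : Set S) := by
    rw [Subgroup.normalizer_eq_top]; exact le_top
  -- Q normalizes the centralizer of any of its subgroups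
  have hQC : ∀ X : Subgroup S, X ≤ Q →
      Q ≤ Subgroup.normalizer ((Subgroup.centralizer (X : Set S) : Subgroup S) : Set S) := by
    intro X hX y hy
    apply Subgroup.le_normalizer
    rw [Subgroup.mem_centralizer_iff]
    intro x hx
    exact hcommQ x (hX hx) y hy
  have hQP₁ : Q ≤ Subgroup.normalizer
      (((P : Subgroup S) ⊓ Subgroup.centralizer (X₁ : Set S) : Subgroup S) : Set S) :=
    fun y hy => normalizer_inf_le_normalizer_inf _ _ ⟨hQPn hy, hQC X₁ h₁ hy⟩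
  have hQP₂ : Q ≤ Subgroup.normalizer
      (((P : Subgroup S) ⊓ Subgroup.centralizer (X₂ : Set S) : Subgroup S) : Set S) :=
    fun y hy => normalizer_inf_le_normalizer_inf _ _ ⟨hQPn hy, hQC X₂ h₂ hy⟩
  -- (a) generation of Q-invariant subgroups
  have gen : ∀ R : Subgroup S, R ≤ (P : Subgroup S) → Q ≤ Subgroup.normalizer (R : Set S) →
      R ≤ (R ⊓ ((P : Subgroup S) ⊓ Subgroup.centralizer (X₁ : Set S))) ⊔
        (R ⊓ ((P : Subgroup S) ⊓ Subgroup.centralizer (X₂ : Set S))) := by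
    intro R hR hQR
    apply coprime_generation_le R Q hcommQ hexpQ hQnc (hqdvd R hR) hQR
    intro u hu hu1
    have hXQ : Subgroup.zpowers u ≤ Q := by rw [Subgroup.zpowers_le]; exact hu
    have hXc : Nat.card (Subgroup.zpowers u) = q := by
      rw [Nat.card_zpowers]; exact orderOf_eq_prime (hexpQ u hu) hu1
    have hle : R ⊓ Subgroup.centralizer ({u} : Set S) ≤
        (P : Subgroup S) ⊓ Subgroup.centralizer ((Subgroup.zpowers u : Subgroup S) : Set S) :=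
      inf_le_inf hR (centralizer_singleton_le_centralizer_zpowers u)
    by_cases hbot : (P : Subgroup S) ⊓
        Subgroup.centralizer ((Subgroup.zpowers u : Subgroup S) : Set S) = ⊥
    · rw [hbot] at hle
      exact hle.trans bot_le
    · rcases honly _ hXQ hXc hbot with h | h
      · rw [h] at hle
        exact (le_inf inf_le_left hle).trans le_sup_left
      · rw [h] at hle
        exact (le_inf inf_le_left hle).trans le_sup_right
  -- (b) P₁ ⊓ P₂ = ⊥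
  have hinf : ((P : Subgroup S) ⊓ Subgroup.centralizer (X₁ : Set S)) ⊓
      ((P : Subgroup S) ⊓ Subgroup.centralizer (X₂ : Set S)) = ⊥ := by
    have hnt₁ : ∃ x₁ ∈ X₁, x₁ ≠ 1 := by
      by_contra hc
      push Not at hc
      have : X₁ = ⊥ := (Subgroup.eq_bot_iff_forall _).mpr hc
      rw [this, Subgroup.card_bot] at hc₁
      exact hq.one_lt.ne hc₁
    have hnt₂ : ∃ x₂ ∈ X₂, x₂ ≠ 1 := by
      by_contra hc
      push Not at hc
      have : X₂ = ⊥ := (Subgroup.eq_bot_iff_forall _).mpr hc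
      rw [this, Subgroup.card_bot] at hc₂
      exact hq.one_lt.ne hc₂
    obtain ⟨x₁, hx₁, hx₁1⟩ := hnt₁
    obtain ⟨x₂, hx₂, hx₂1⟩ := hnt₂
    have hX₁z := eq_zpowers_of_prime_card hq X₁ hc₁ hx₁ hx₁1
    have hX₂z := eq_zpowers_of_prime_card hq X₂ hc₂ hx₂ hx₂1
    have hx₂X₁ : x₂ ∉ X₁ := by
      intro h
      apply h₁₂
      symm
      apply Subgroup.eq_of_le_of_card_ge
      · rw [hX₂z, Subgroup.zpowers_le]; exact h
      · rw [hc₁, hc₂]
    have hx₁X₂ : x₁ ∉ X₂ := by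
      intro h
      apply h₁₂
      apply Subgroup.eq_of_le_of_card_ge
      · rw [hX₁z, Subgroup.zpowers_le]; exact h
      · rw [hc₁, hc₂]
    have hu1 : x₁ * x₂ ≠ 1 := by
      intro h
      apply hx₂X₁
      have : x₂ = x₁⁻¹ := eq_inv_of_mul_eq_one_right h
      rw [this]; exact X₁.inv_mem hx₁
    have huQ : x₁ * x₂ ∈ Q := Q.mul_mem (h₁ hx₁) (h₂ hx₂)
    have hXQ : Subgroup.zpowers (x₁ * x₂) ≤ Q := by rw [Subgroup.zpowers_le]; exact huQ
    have hXc : Nat.card (Subgroup.zpowers (x₁ * x₂)) = q := by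
      rw [Nat.card_zpowers]; exact orderOf_eq_prime (hexpQ _ huQ) hu1
    have hX₃ : (P : Subgroup S) ⊓
        Subgroup.centralizer ((Subgroup.zpowers (x₁ * x₂) : Subgroup S) : Set S) = ⊥ := by
      by_contra hne
      rcases honly _ hXQ hXc hne with h | h
      · apply hx₂X₁
        have h3 : x₁ * x₂ ∈ X₁ := h ▸ Subgroup.mem_zpowers _
        have h4 : x₂ = x₁⁻¹ * (x₁ * x₂) := by group
        rw [h4]; exact X₁.mul_mem (X₁.inv_mem hx₁) h3
      · apply hx₁X₂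
        have h3 : x₁ * x₂ ∈ X₂ := h ▸ Subgroup.mem_zpowers _
        have h4 : x₁ = (x₁ * x₂) * x₂⁻¹ := by group
        rw [h4]; exact X₂.mul_mem h3 (X₂.inv_mem hx₂)
    rw [eq_bot_iff, ← hX₃]
    intro c hc
    refine Subgroup.mem_inf.mpr ⟨hc.1.1, ?_⟩
    apply centralizer_singleton_le_centralizer_zpowers
    rw [Subgroup.mem_centralizer_iff]
    intro z hz
    rw [Set.mem_singleton_iff] at hz
    subst hz
    have e1 : x₁ * c = c * x₁ := Subgroup.mem_centralizer_iff.mp hc.1.2 x₁ hx₁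
    have e2 : x₂ * c = c * x₂ := Subgroup.mem_centralizer_iff.mp hc.2.2 x₂ hx₂
    calc x₁ * x₂ * c = x₁ * (x₂ * c) := by group
      _ = x₁ * (c * x₂) := by rw [e2]
      _ = (x₁ * c) * x₂ := by group
      _ = c * (x₁ * x₂) := by rw [e1]; group
  set P₁ := (P : Subgroup S) ⊓ Subgroup.centralizer (X₁ : Set S) with hP₁
  set P₂ := (P : Subgroup S) ⊓ Subgroup.centralizer (X₂ : Set S) with hP₂
  have hP₁P : P₁ ≤ (P : Subgroup S) := inf_le_left
  have hP₂P : P₂ ≤ (P : Subgroup S) := inf_le_left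
  -- (c) [P₁, X₂] = P₁
  have hc : ⁅P₁, X₂⁆ = P₁ := by
    have h26 := Cfsg.Agent.S0026.result X₂ P₁ (h₂.trans hQP₁) (hcopq P₁ hP₁P X₂ hc₂)
      (Or.inr (hsolvR P₁ hP₁P))
    have hb : P₁ ⊓ Subgroup.centralizer (X₂ : Set S) = ⊥ := by
      rw [eq_bot_iff, ← hinf]
      exact le_inf inf_le_left (le_inf (inf_le_left.trans hP₁P) inf_le_right)
    rw [hb, sup_bot_eq] at h26
    exact h26
  -- (d) M₂ centralizes P₁
  have hM₂P : P₂ ⊓ Subgroup.normalizer (P₁ : Set S) ≤ (P : Subgroup S) := inf_le_left.trans hP₂P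
  have hX₁M₂ : X₁ ≤ Subgroup.normalizer
      ((P₂ ⊓ Subgroup.normalizer (P₁ : Set S) : Subgroup S) : Set S) := by
    intro x hx
    refine normalizer_inf_le_normalizer_inf _ _ ⟨hQP₂ (h₁ hx), ?_⟩
    exact Subgroup.le_normalizer (hQP₁ (h₁ hx))
  have hM₂X₁ : ⁅P₂ ⊓ Subgroup.normalizer (P₁ : Set S), X₁⁆ =
      P₂ ⊓ Subgroup.normalizer (P₁ : Set S) := by
    have h26 := Cfsg.Agent.S0026.result X₁ (P₂ ⊓ Subgroup.normalizer (P₁ : Set S)) hX₁M₂
      (hcopq _ hM₂P X₁ hc₁) (Or.inr (hsolvR _ hM₂P))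
    have hb : (P₂ ⊓ Subgroup.normalizer (P₁ : Set S)) ⊓ Subgroup.centralizer (X₁ : Set S) = ⊥ := by
      rw [eq_bot_iff, ← hinf]
      exact le_inf (le_inf (inf_le_left.trans hM₂P) inf_le_right) (inf_le_left.trans inf_le_left)
    rw [hb, sup_bot_eq] at h26
    exact h26
  have hM₂cent : P₂ ⊓ Subgroup.normalizer (P₁ : Set S) ≤ Subgroup.centralizer (P₁ : Set S) := by
    have e0 : ⁅P₁, X₁⁆ = ⊥ := Subgroup.commutator_eq_bot_iff_le_centralizer.mpr inf_le_right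
    have e1 : ⁅⁅X₁, P₁⁆, P₂ ⊓ Subgroup.normalizer (P₁ : Set S)⁆ = ⊥ := by
      rw [Subgroup.commutator_comm X₁ P₁, e0, Subgroup.commutator_bot_left]
    have e2 : ⁅⁅P₁, P₂ ⊓ Subgroup.normalizer (P₁ : Set S)⁆, X₁⁆ = ⊥ := by
      rw [eq_bot_iff, ← e0]
      exact Subgroup.commutator_mono (commutator_le_of_le_normalizer inf_le_right) le_rfl
    have e3 : ⁅⁅P₂ ⊓ Subgroup.normalizer (P₁ : Set S), X₁⁆, P₁⁆ = ⊥ :=
      Subgroup.commutator_commutator_eq_bot_of_rotate e1 e2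
    rw [hM₂X₁] at e3
    exact Subgroup.commutator_eq_bot_iff_le_centralizer.mp e3
  set M₂ := P₂ ⊓ Subgroup.normalizer (P₁ : Set S) with hM₂
  have hNP : P₁ ⊔ M₂ ≤ (P : Subgroup S) := sup_le hP₁P hM₂P
  have hcommPM : ∀ a ∈ P₁, ∀ b ∈ M₂, a * b = b * a := by
    intro a ha b hb
    exact Subgroup.mem_centralizer_iff.mp (hM₂cent hb) a ha
  have hQN : Q ≤ Subgroup.normalizer ((P₁ ⊔ M₂ : Subgroup S) : Set S) := by
    intro y hy
    refine normalizer_inf_le_normalizer_sup _ _ ⟨hQP₁ hy, ?_⟩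
    exact normalizer_inf_le_normalizer_inf _ _ ⟨hQP₂ hy, Subgroup.le_normalizer (hQP₁ hy)⟩
  have hQR : Q ≤ Subgroup.normalizer
      (((P : Subgroup S) ⊓ Subgroup.normalizer ((P₁ ⊔ M₂ : Subgroup S) : Set S) : Subgroup S) : Set S) :=
    fun y hy => normalizer_inf_le_normalizer_inf _ _ ⟨hQPn hy, Subgroup.le_normalizer (hQN hy)⟩
  have hkey : ∀ r ∈ P₂, r ∈ Subgroup.normalizer ((P₁ ⊔ M₂ : Subgroup S) : Set S) →
      ∀ u ∈ P₁, r * u * r⁻¹ ∈ P₁ := by
    intro r hr hrN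
    have hS' : ⁅P₁, X₂⁆ ≤ P₁ ⊓ P₁.comap (MulAut.conj r).toMonoidHom := by
      rw [Subgroup.commutator_le]
      intro u hu x hx
      have hxu : x * u⁻¹ * x⁻¹ ∈ P₁ :=
        (Subgroup.mem_normalizer_iff.mp (hQP₁ (h₂ hx)) u⁻¹).1 (P₁.inv_mem hu)
      have hcomm_eq : u * x * u⁻¹ * x⁻¹ = u * (x * u⁻¹ * x⁻¹) := by group
      have hruN : r * u * r⁻¹ ∈ P₁ ⊔ M₂ :=
        (Subgroup.mem_normalizer_iff.mp hrN u).1 (Subgroup.mem_sup_left hu)
      obtain ⟨a, ha, b, hb, hab⟩ :=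
        Cfsg.Agent.Lib.Helper23.mem_sup_of_commute P₁ M₂ hcommPM hruN
      have hxr : x * r = r * x := Subgroup.mem_centralizer_iff.mp hr.2 x hx
      have hxb : x * b = b * x := Subgroup.mem_centralizer_iff.mp hb.1.2 x hx
      have hxa : x * a⁻¹ * x⁻¹ ∈ P₁ :=
        (Subgroup.mem_normalizer_iff.mp (hQP₁ (h₂ hx)) a⁻¹).1 (P₁.inv_mem ha)
      refine Subgroup.mem_inf.mpr ⟨?_, ?_⟩
      · show u * x * u⁻¹ * x⁻¹ ∈ P₁
        rw [hcomm_eq]; exact P₁.mul_mem hu hxu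
      · show r * (u * x * u⁻¹ * x⁻¹) * r⁻¹ ∈ P₁
        have e : r * (u * x * u⁻¹ * x⁻¹) * r⁻¹ = a * (x * a⁻¹ * x⁻¹) := by
          have e1 : r * (u * x * u⁻¹ * x⁻¹) * r⁻¹ =
              (r * u * r⁻¹) * (r * x * r⁻¹) * (r * u * r⁻¹)⁻¹ * (r * x * r⁻¹)⁻¹ := by group
          have e2 : r * x * r⁻¹ = x := by rw [← hxr]; group
          have e3 : b * x * b⁻¹ = x := by rw [← hxb]; group
          rw [e1, e2, hab]
          calc a * b * x * (a * b)⁻¹ * x⁻¹ = a * (b * x * b⁻¹) * a⁻¹ * x⁻¹ := by group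
            _ = a * (x * a⁻¹ * x⁻¹) := by rw [e3]; group
        rw [e]; exact P₁.mul_mem ha hxa
    intro u hu
    have hu' : u ∈ ⁅P₁, X₂⁆ := by rw [hc]; exact hu
    exact (hS' hu').2
  have hRP₂ : ((P : Subgroup S) ⊓ Subgroup.normalizer ((P₁ ⊔ M₂ : Subgroup S) : Set S)) ⊓ P₂ ≤ M₂ := by
    intro r hr
    refine Subgroup.mem_inf.mpr ⟨hr.2, ?_⟩
    rw [Subgroup.mem_normalizer_iff]
    intro u
    constructor
    · exact hkey r hr.2 hr.1.2 u
    · intro h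
      have h2 := hkey r⁻¹ (P₂.inv_mem hr.2) (Subgroup.inv_mem _ hr.1.2) _ h
      have h3 : r⁻¹ * (r * u * r⁻¹) * r⁻¹⁻¹ = u := by group
      rwa [h3] at h2
  have hRN : (P : Subgroup S) ⊓ Subgroup.normalizer ((P₁ ⊔ M₂ : Subgroup S) : Set S) ≤ P₁ ⊔ M₂ := by
    refine (gen _ inf_le_left hQR).trans (sup_le ?_ ?_)
    · exact inf_le_right.trans le_sup_left
    · exact hRP₂.trans le_sup_right
  have hNeq : P₁ ⊔ M₂ = (P : Subgroup S) := by
    by_contra hne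
    have hlt : P₁ ⊔ M₂ < (P : Subgroup S) := lt_of_le_of_ne hNP hne
    have hnil : Group.IsNilpotent (P : Subgroup S) := hPp.isNilpotent
    have hnc : NormalizerCondition (P : Subgroup S) := Group.normalizerCondition_of_isNilpotent
    have hlt' : (P₁ ⊔ M₂).subgroupOf (P : Subgroup S) < ⊤ := by
      rw [lt_top_iff_ne_top, Ne, Subgroup.subgroupOf_eq_top]
      exact not_le_of_gt hlt
    obtain ⟨x, hxn, hxD⟩ := SetLike.exists_of_lt (hnc _ hlt')
    rw [← Subgroup.subgroupOf_normalizer_eq hNP] at hxn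
    exact hxD (hRN ⟨x.2, hxn⟩)
  have hP₂M₂ : P₂ ≤ M₂ := by
    intro u hu
    have huN : u ∈ P₁ ⊔ M₂ := by rw [hNeq]; exact hP₂P hu
    obtain ⟨a, ha, b, hb, hab⟩ := Cfsg.Agent.Lib.Helper23.mem_sup_of_commute P₁ M₂ hcommPM huN
    have ha2 : a ∈ P₂ := by
      have : a = u * b⁻¹ := by rw [hab]; group
      rw [this]; exact P₂.mul_mem hu (P₂.inv_mem hb.1)
    have ha1 : a = 1 := by
      have : a ∈ P₁ ⊓ P₂ := ⟨ha, ha2⟩
      rw [hinf] at this
      exact Subgroup.mem_bot.mp this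
    rw [hab, ha1, one_mul]; exact hb
  refine ⟨?_, hinf, ?_⟩
  · rw [Subgroup.commutator_eq_bot_iff_le_centralizer, Subgroup.le_centralizer_iff]
    exact hP₂M₂.trans hM₂cent
  · apply le_antisymm (sup_le hP₁P hP₂P)
    rw [← hNeq]
    exact sup_le_sup le_rfl inf_le_left

end Cfsg.Agent.S1900
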