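import Mathlib
import Cfsg.Statements.S1901
import Cfsg.Agent.Lib.Helper63.HallHigman
import Cfsg.Agent.S0027

set_option autoImplicit false
open Cfsg

namespace Cfsg.Agent.S1901

open Cfsg.Agent.Lib.Helper63
open scoped commutatorElement

theorem mem_of_pow_mem_of_coprime {G : Type*} [Group G] (H : Subgroup G) {a : G} {m n : ℕ}
    (hcop : m.Coprime n) (hm : a ^ m ∈ H) (hn : a ^ n ∈ H) : a ∈ H := by
  have h := Nat.gcd_eq_gcd_ab m n
  rw [hcop.gcd_eq_one] at h
  have e : a = (a ^ m) ^ (Nat.gcdA m n) * (a ^ n) ^ (Nat.gcdB m n) := by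
    rw [← zpow_natCast, ← zpow_natCast, ← zpow_mul, ← zpow_mul, ← zpow_add, ← h]
    simp
  rw [e]
  exact H.mul_mem (H.zpow_mem hm _) (H.zpow_mem hn _)

theorem eq_one_of_mem_pgroup_of_mem_coprime {G : Type*} [Group G] [Finite G] {p : ℕ}
    {R Q : Subgroup G} (hR : IsPGroup p R) (hQ : (Nat.card Q).Coprime p) {x : G} (hxR : x ∈ R)
    (hxQ : x ∈ Q) : x = 1 := by
  obtain ⟨j, hj⟩ := hR ⟨x, hxR⟩
  have hj' : x ^ p ^ j = 1 := congrArg Subtype.val hj
  have h1 : orderOf x ∣ p ^ j := orderOf_dvd_of_pow_eq_one hj'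
  have h2 : orderOf x ∣ Nat.card Q := Subgroup.orderOf_dvd_natCard Q hxQ
  have h3 : orderOf x = 1 :=
    Nat.Coprime.eq_one_of_dvd (Nat.Coprime.coprime_dvd_left h2 (Nat.Coprime.pow_right j hQ)) h1
  exact orderOf_eq_one_iff.1 h3

/-- In a finite group of finite `p`-length, if a `p'`-subgroup `Q` normalizes a Sylow
`p`-subgroup, then every `p`-subgroup of `N_G(Q)` centralizes `Q`. -/
theorem key.{u} (p : ℕ) [Fact p.Prime] : ∀ (n : ℕ) (G : Type u) [Group G] [Finite G],
    Nat.card G = n → (∃ k, PLengthLE p k G) → ∀ (Q : Subgroup G), (Nat.card Q).Coprime p →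
    ∀ (P : Sylow p G), Q ≤ Subgroup.normalizer ((P : Subgroup G) : Set G) →
    ∀ (A : Subgroup G), IsPGroup p A → A ≤ Subgroup.normalizer (Q : Set G) →
    A ≤ Subgroup.centralizer (Q : Set G) := by
  intro n
  induction n using Nat.strong_induction_on with
  | _ n ih =>
  intro G _ _ hn hl Q hQ P hQP A hA hAQ
  have hp : p.Prime := Fact.out
  have hconj : ∀ a ∈ A, ∀ q ∈ Q, a * q * a⁻¹ ∈ Q := fun a ha q hq =>
    (Subgroup.mem_normalizer_iff.1 (hAQ ha) q).1 hq
  have hquot : ∀ (M : Subgroup G) [M.Normal], M ≠ ⊥ →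
      ∀ a ∈ A, ∀ q ∈ Q, a * q * a⁻¹ * q⁻¹ ∈ M := by
    intro M _ hM a ha q hq
    have hcard : Nat.card (G ⧸ M) < n := by
      have h1 := Subgroup.card_eq_card_quotient_mul_card_subgroup M
      have h2 : 1 < Nat.card M := (Subgroup.one_lt_card_iff_ne_bot M).2 hM
      have h3 : 0 < Nat.card (G ⧸ M) := Nat.card_pos
      rw [← hn, h1]
      nlinarith
    obtain ⟨k, hk⟩ := hl
    have h1 := ih _ hcard (G ⧸ M) rfl ⟨k, plengthLE_quotient M hk⟩ (Q.map (QuotientGroup.mk' M))
      (Nat.Coprime.coprime_dvd_left (Subgroup.card_map_dvd Q _) hQ)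
      (P.mapSurjective (QuotientGroup.mk'_surjective M))
      ((Subgroup.map_mono hQP).trans (Subgroup.le_normalizer_map _))
      (A.map (QuotientGroup.mk' M)) (hA.map _)
      ((Subgroup.map_mono hAQ).trans (Subgroup.le_normalizer_map _))
    have h2 := h1 ⟨a, ha, rfl⟩
    rw [Subgroup.mem_centralizer_iff] at h2
    have h3 := h2 _ ⟨q, hq, rfl⟩
    rw [← QuotientGroup.eq_one_iff]
    show QuotientGroup.mk' M (a * q * a⁻¹ * q⁻¹) = 1
    rw [map_mul, map_mul, map_mul, map_inv, map_inv, ← h3]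
    group
  by_cases hN : pPrimeCore p G = ⊥
  · by_cases hR : pCore p G = ⊥
    · have hU : ∀ j, U p G j ≤ pCore p G :=
        U_le_pCore_of_central hN (by rw [hR]; exact bot_le)
      obtain ⟨k, hk⟩ := hl
      have htop : (⊤ : Subgroup G) ≤ ⊥ := by
        rw [← hR, ← (plengthLE_iff p k G).1 hk]; exact hU _
      intro a _
      have h1 : a = 1 := by simpa using htop (Subgroup.mem_top a)
      rw [h1]; exact Subgroup.one_mem _
    · intro a ha
      rw [Subgroup.mem_centralizer_iff]
      intro q hq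
      have h1 := hquot (pCore p G) hR a ha q hq
      have h2 : a * q * a⁻¹ * q⁻¹ ∈ Q := Q.mul_mem (hconj a ha q hq) (Q.inv_mem hq)
      have h3 := eq_one_of_mem_pgroup_of_mem_coprime (pCore_isPGroup' p G) hQ h1 h2
      have e : a * q = (a * q * a⁻¹ * q⁻¹) * (q * a) := by group
      rw [e, h3, one_mul]
  · set N := pPrimeCore p G with hNdef
    have hNc : (Nat.card N).Coprime p := card_pPrimeCore_coprime' p G
    have h1 := hquot N hN
    set Q₁ := Q ⊓ N with hQ₁
    have hPQ₁ : (P : Subgroup G) ≤ Subgroup.centralizer (Q₁ : Set G) := by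
      intro x hx
      rw [Subgroup.mem_centralizer_iff]
      intro q hq
      have hqQ : q ∈ Q := hq.1
      have hqN : q ∈ N := hq.2
      have c1 : q * x * q⁻¹ * x⁻¹ ∈ (P : Subgroup G) :=
        Subgroup.mul_mem _ ((Subgroup.mem_normalizer_iff.1 (hQP hqQ) x).1 hx) (Subgroup.inv_mem _ hx)
      have c2 : q * x * q⁻¹ * x⁻¹ ∈ N := by
        have : q * x * q⁻¹ * x⁻¹ = q * (x * q⁻¹ * x⁻¹) := by group
        rw [this]
        exact N.mul_mem hqN ((inferInstance : N.Normal).conj_mem _ (N.inv_mem hqN) x)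
      have c3 := eq_one_of_mem_pgroup_of_mem_coprime P.isPGroup' hNc c1 c2
      have e : q * x = (q * x * q⁻¹ * x⁻¹) * (x * q) := by group
      rw [e, c3, one_mul]
    have hAT : A ≤ Subgroup.normalizer (Q₁ : Set G) := by
      intro a ha
      rw [Subgroup.mem_normalizer_iff]
      intro h
      constructor
      · intro hh
        exact ⟨hconj a ha h hh.1, (inferInstance : N.Normal).conj_mem _ hh.2 a⟩
      · intro hh
        refine ⟨(Subgroup.mem_normalizer_iff.1 (hAQ ha) h).2 hh.1, ?_⟩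
        have := (inferInstance : N.Normal).conj_mem _ hh.2 a⁻¹
        simpa [mul_assoc] using this
    have hidx : ((Subgroup.centralizer (Q₁ : Set G)).relIndex
        (Subgroup.normalizer (Q₁ : Set G))).Coprime p := by
      have d1 : (Subgroup.centralizer (Q₁ : Set G)).relIndex (Subgroup.normalizer (Q₁ : Set G))
          ∣ (P : Subgroup G).relIndex (Subgroup.normalizer (Q₁ : Set G)) :=
        Subgroup.relIndex_dvd_of_le_left _ hPQ₁
      have d2 : (P : Subgroup G).relIndex (Subgroup.normalizer (Q₁ : Set G))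
          ∣ (P : Subgroup G).index :=
        Subgroup.relIndex_dvd_index_of_le
          (hPQ₁.trans (Subgroup.centralizer_le_normalizer _))
      have d3 : ((P : Subgroup G).index).Coprime p :=
        Nat.coprime_comm.1 ((Nat.Prime.coprime_iff_not_dvd hp).2 P.not_dvd_index)
      exact Nat.Coprime.coprime_dvd_left (d1.trans d2) d3
    have hAC : A ≤ Subgroup.centralizer (Q₁ : Set G) := by
      intro a ha
      have hm := Subgroup.pow_index_mem
        ((Subgroup.centralizer (Q₁ : Set G)).subgroupOf (Subgroup.normalizer (Q₁ : Set G)))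
        (⟨a, hAT ha⟩ : Subgroup.normalizer (Q₁ : Set G))
      have hm' : a ^ (Subgroup.centralizer (Q₁ : Set G)).relIndex
          (Subgroup.normalizer (Q₁ : Set G)) ∈ Subgroup.centralizer (Q₁ : Set G) := hm
      obtain ⟨j, hj⟩ := hA ⟨a, ha⟩
      have hj' : a ^ p ^ j = 1 := congrArg Subtype.val hj
      refine mem_of_pow_mem_of_coprime _ (Nat.Coprime.pow_right j hidx) hm' ?_
      rw [hj']; exact Subgroup.one_mem _
    -- coprime action
    obtain ⟨j, hj⟩ := (IsPGroup.iff_card).1 hA
    have hcop : (Nat.card A).Coprime (Nat.card Q) := by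
      rw [hj]; exact Nat.Coprime.pow_left j (Nat.coprime_comm.1 hQ)
    have hsolvA : Group.IsSolvable A := by
      haveI := hA.isNilpotent
      infer_instance
    have h5 := Cfsg.Agent.S0027.result A Q hAQ hcop (Or.inl hsolvA)
    have h6 : ⁅Q, A⁆ ≤ Q₁ := by
      rw [Subgroup.commutator_le]
      intro q hq a ha
      have e : ⁅q, a⁆ = (a * q * a⁻¹ * q⁻¹)⁻¹ := by
        rw [commutatorElement_def]; group
      rw [e]
      exact Subgroup.inv_mem _ ⟨Q.mul_mem (hconj a ha q hq) (Q.inv_mem hq), h1 a ha q hq⟩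
    have h7 : ⁅Q₁, A⁆ = ⊥ := by
      rw [Subgroup.commutator_comm, Subgroup.commutator_eq_bot_iff_le_centralizer]
      exact hAC
    have h8 : ⁅Q, A⁆ = ⊥ := by
      rw [← h5, ← le_bot_iff, ← h7]
      exact Subgroup.commutator_mono h6 le_rfl
    rw [← Subgroup.commutator_eq_bot_iff_le_centralizer, Subgroup.commutator_comm]
    exact h8

/-- Let G be a finite p-solvable group and Q a subgroup of order prime to p such that p divides the index of C_G(Q) in N_G(Q). Then Q normalizes no Sylow p-subgroup of G. -/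
theorem result {G : Type*} [Group G] [Finite G] {p : ℕ} [Fact p.Prime]
    (hG : Cfsg.IsPSolvable p G) (Q : Subgroup G) (hQ : ¬ p ∣ Nat.card Q)
    (hA : p ∣ (Subgroup.centralizer (Q : Set G)).relIndex (Subgroup.normalizer (Q : Set G)))
    (P : Sylow p G) : ¬ Q ≤ Subgroup.normalizer ((P : Subgroup G) : Set G) := by
  intro hQP
  have hp : p.Prime := Fact.out
  have hQc : (Nat.card Q).Coprime p := Nat.coprime_comm.1 ((Nat.Prime.coprime_iff_not_dvd hp).2 hQ)
  obtain ⟨S⟩ := (inferInstance : Nonempty (Sylow p (Subgroup.normalizer (Q : Set G))))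
  have hSA : ((S : Subgroup (Subgroup.normalizer (Q : Set G))).map
      (Subgroup.normalizer (Q : Set G)).subtype) ≤ Subgroup.centralizer (Q : Set G) := by
    refine key p _ G rfl (exists_plengthLE_of_isPSolvable hG) Q hQc P hQP _ (S.isPGroup'.map _) ?_
    exact Subgroup.map_subtype_le _
  have hle : (S : Subgroup (Subgroup.normalizer (Q : Set G))) ≤
      (Subgroup.centralizer (Q : Set G)).subgroupOf (Subgroup.normalizer (Q : Set G)) := by
    intro s hs
    exact hSA ⟨s, hs, rfl⟩
  have hdvd := Subgroup.index_dvd_of_le hle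
  exact S.not_dvd_index (hA.trans hdvd)

end Cfsg.Agent.S1901
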