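import Cfsg.Statements.S1902
import Cfsg.Agent.Lib.Helper23.PSolvConstr

set_option autoImplicit false
open Cfsg

namespace Cfsg.Agent.S1902

/-- Let p be an odd prime, G a finite p-solvable group, and B an elementary abelian subgroup of order p² such that B is the subgroup generated by the elements of order p of some Sylow p-subgroup of C_G(b₀), for some nontrivial b₀ ∈ B. Then every B-invariant subgroup of G of order prime to p lies in O_{p'}(G). -/
theorem result {G : Type*} [Group G] [Finite G] {p : ℕ} [Fact p.Prime] (hp : p ≠ 2)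
    (hG : Cfsg.IsPSolvable p G) (B : Subgroup G) (hB : Cfsg.IsElementaryAbelian p B) (hBc : Nat.card B = p ^ 2)
    (b₀ : G) (hb₀ : b₀ ∈ B) (hb₁ : b₀ ≠ 1) (P : Sylow p ↥(Subgroup.centralizer ({b₀} : Set G)))
    (hBP : B = Subgroup.closure {x : G | x ∈ ((P : Subgroup ↥(Subgroup.centralizer ({b₀} : Set G))).map
      (Subgroup.centralizer ({b₀} : Set G)).subtype : Subgroup G) ∧ orderOf x = p})
    (Q : Subgroup G) (hQ : ¬ p ∣ Nat.card Q) (hinv : ∀ b ∈ B, ∀ x ∈ Q, b * x * b⁻¹ ∈ Q) :
    Q ≤ Cfsg.pPrimeCore p G := by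
  have hpp : p.Prime := Fact.out
  have hBp : IsPGroup p B := IsPGroup.of_card hBc
  exact Cfsg.Agent.Lib.Helper23.le_pPrimeCore_of_full_omega hp
    (Cfsg.Agent.Lib.Helper23.isPConstrained_of_isPSolvable p hG) B Q hBp
    (fun x hx hxo => Cfsg.Agent.Lib.Helper23.mem_of_omega_sylow_centralizer B hB b₀ hb₀ P hBP x hx hxo)
    ((Nat.Prime.coprime_iff_not_dvd hpp).mpr hQ).symm
    (Cfsg.Agent.Lib.Helper23.le_normalizer_of_conj_mem' hinv)

end Cfsg.Agent.S1902
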