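import Cfsg.Statements.S1903
import Cfsg.Agent.Lib.Helper45.G320SU

set_option autoImplicit false
open Cfsg

namespace Cfsg.Agent.S1903

/-- A finite group of order 320 whose derived subgroup has order 64 and has centre a Klein four-group is isomorphic to the centralizer of an involution in PSU₃(4). -/
theorem result {G : Type*} [Group G] [Finite G] (hG : Nat.card G = 320) (hD : Nat.card (commutator G) = 64)
    (hZ : IsKleinFour (Subgroup.center (commutator G)))
    {F : Type*} [Field F] [Fintype F] (hF : Fintype.card F = 16) :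
    ∃ t : Cfsg.PSU 3 F 4, orderOf t = 2 ∧ Nonempty (G ≃* Subgroup.centralizer ({t} : Set (Cfsg.PSU 3 F 4))) := by
  have hF' : Fintype.card F = 4 ^ 2 := by rw [hF]; norm_num
  obtain ⟨t, ht, ⟨e⟩⟩ := Cfsg.Agent.Lib.Helper45.G320.psu_centralizer hF'
  obtain ⟨h1, h2, h3⟩ := Cfsg.Agent.Lib.Helper45.G320.cent_GD_hyp hF'
  haveI : Finite ↥(Subgroup.centralizer {Cfsg.Agent.Lib.Helper45.G320.tau hF'}) :=
    Nat.finite_of_card_ne_zero (by rw [h1]; norm_num)
  obtain ⟨q, x₀, x₁, x₂, x₃, c₁, c₂, p⟩ := Cfsg.Agent.Lib.Helper45.G320.exists_GD hG hD hZ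
  obtain ⟨q', x₀', x₁', x₂', x₃', c₁', c₂', p'⟩ := Cfsg.Agent.Lib.Helper45.G320.exists_GD h1 h2 h3
  obtain ⟨e'⟩ := Cfsg.Agent.Lib.Helper45.G320.GD.iso p p'
  exact ⟨t, ht, ⟨e'.trans e⟩⟩

end Cfsg.Agent.S1903
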