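import Mathlib
import Cfsg.Statements.S1905
import Cfsg.Agent.Lib.Helper32.SylowConj
import Cfsg.Agent.Lib.Helper32.Invol
import Cfsg.Agent.Lib.Helper32.Invol2

set_option autoImplicit false
open Cfsg

namespace Cfsg.Agent.S1905

open Cfsg.Agent.Lib.Helper32

/-- Let M be a subgroup of even order of a finite group S such that M contains the centralizer in S of each of its involutions and the normal core of M in S has odd order. Then all involutions of S are conjugate. If moreover N_S(X) ≤ M for a Sylow 2-subgroup X of M and I is an involution in the centre of X, then all involutions of M are conjugate in M and M = M₀ C_M(I) for some subgroup M₀ of M of odd order. -/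
theorem result {S : Type*} [Group S] [Finite S] (M : Subgroup S) (hM : Even (Nat.card M))
    (hC : ∀ i ∈ M, orderOf i = 2 → Subgroup.centralizer ({i} : Set S) ≤ M) (hcore : Odd (Nat.card M.normalCore)) :
    (∀ x y : S, orderOf x = 2 → orderOf y = 2 → IsConj x y) ∧
      ∀ (X : Sylow 2 M) (I : M), I ∈ (Subgroup.center ↥(X : Subgroup ↥M)).map (X : Subgroup ↥M).subtype → orderOf I = 2 →
        Subgroup.normalizer (((X : Subgroup M).map M.subtype : Subgroup S) : Set S) ≤ M →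
        (∀ x y : M, orderOf x = 2 → orderOf y = 2 → IsConj x y) ∧
          ∃ M₀ : Subgroup M, Odd (Nat.card M₀) ∧
            ∀ m : M, ∃ a ∈ M₀, ∃ c ∈ Subgroup.centralizer ({I} : Set M), m = a * c := by
  classical
  obtain ⟨i₀', hi₀'⟩ := exists_prime_orderOf_dvd_card' (G := M) 2 hM.two_dvd
  have hi₀ : orderOf (i₀' : S) = 2 := by rw [Subgroup.orderOf_coe]; exact hi₀'
  have hnotall : ¬ ∀ j : S, orderOf j = 2 → j ∈ M := by
    intro hall
    have hmem : (i₀' : S) ∈ M.normalCore := fun b => hall _ (orderOf_conj_two hi₀ b)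
    have h2 : 2 ∣ Nat.card M.normalCore := by
      have := orderOf_dvd_natCard (⟨(i₀' : S), hmem⟩ : M.normalCore)
      rwa [Subgroup.orderOf_mk, hi₀] at this
    exact hcore.not_two_dvd_nat h2
  have hkey : ∀ i ∈ M, orderOf i = 2 → ∀ j : S, orderOf j = 2 → ¬ IsConj i j → j ∈ M := by
    intro i hiM hi j hj hnc
    rcases invol_dichotomy hi hj with h | ⟨k, hk, hki, hkj⟩
    · exact absurd h hnc
    · have hkM : k ∈ M := hC i hiM hi (by rw [Subgroup.mem_centralizer_singleton_iff]; exact hki)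
      exact hC k hkM hk (by rw [Subgroup.mem_centralizer_singleton_iff]; exact hkj.symm)
  have part1 : ∀ x y : S, orderOf x = 2 → orderOf y = 2 → IsConj x y := by
    by_contra hcon
    push Not at hcon
    obtain ⟨x, y, hx, hy, hxy⟩ := hcon
    apply hnotall
    have hj : ∃ j₁ ∈ M, orderOf j₁ = 2 ∧ ¬ IsConj (i₀' : S) j₁ := by
      by_cases h1 : IsConj (i₀' : S) x
      · have h2 : ¬ IsConj (i₀' : S) y := fun h2 => hxy (h1.symm.trans h2)
        exact ⟨y, hkey _ i₀'.2 hi₀ y hy h2, hy, h2⟩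
      · exact ⟨x, hkey _ i₀'.2 hi₀ x hx h1, hx, h1⟩
    obtain ⟨j₁, hj₁M, hj₁, hj₁c⟩ := hj
    intro j hj
    by_cases h : IsConj (i₀' : S) j
    · apply hkey j₁ hj₁M hj₁ j hj
      intro h'
      exact hj₁c (h.trans h'.symm)
    · exact hkey _ i₀'.2 hi₀ j hj h
  refine ⟨part1, ?_⟩
  intro X I hI hIord hN
  have hI' : orderOf (I : S) = 2 := by rw [Subgroup.orderOf_coe]; exact hIord
  have hI2 : (I : S) * (I : S) = 1 := mul_self_of_orderOf_two hI'
  have hIcomm : ∀ s ∈ (X : Subgroup M).map M.subtype, s * (I : S) = (I : S) * s := by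
    rintro s ⟨s', hs', rfl⟩
    obtain ⟨w, hw, hwI⟩ := hI
    have h1 := Subgroup.mem_center_iff.mp hw ⟨s', hs'⟩
    have h2 : s' * I = I * s' := by
      rw [← hwI]
      exact congrArg Subtype.val h1
    exact congrArg Subtype.val h2
  -- fusion control
  have FC : ∀ x ∈ M, orderOf x = 2 → ∀ g : S, g * x * g⁻¹ ∈ M → g ∈ M := by
    intro x hxM hx g hg
    obtain ⟨m, hm, hmx⟩ := exists_conj_mem_map_sylow_of_mem M X x hxM
      ⟨1, by rw [pow_one, pow_two]; exact mul_self_of_orderOf_two hx⟩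
    have hc1 := hIcomm _ hmx
    obtain ⟨n₀, hn₀⟩ : ∃ n₀ : S, n₀ = g * m⁻¹ := ⟨_, rfl⟩
    have hi₂ord : orderOf (n₀ * (I : S) * n₀⁻¹) = 2 := orderOf_conj_two hI' n₀
    have hi₂M : n₀ * (I : S) * n₀⁻¹ ∈ M := by
      apply hC (g * x * g⁻¹) hg (orderOf_conj_two hx g)
      rw [Subgroup.mem_centralizer_singleton_iff]
      calc n₀ * (I : S) * n₀⁻¹ * (g * x * g⁻¹)
          = g * m⁻¹ * ((I : S) * (m * x * m⁻¹)) * m * g⁻¹ := by rw [hn₀]; simp [mul_assoc]
        _ = g * m⁻¹ * ((m * x * m⁻¹) * (I : S)) * m * g⁻¹ := by rw [hc1]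
        _ = g * x * g⁻¹ * (n₀ * (I : S) * n₀⁻¹) := by rw [hn₀]; simp [mul_assoc]
    have hX₂ : ((X : Subgroup M).map M.subtype).map (MulAut.conj n₀).toMonoidHom ≤ M := by
      rintro _ ⟨s, hs, rfl⟩
      apply hC _ hi₂M hi₂ord
      rw [Subgroup.mem_centralizer_singleton_iff]
      have h := hIcomm s hs
      show n₀ * s * n₀⁻¹ * (n₀ * (I : S) * n₀⁻¹) = n₀ * (I : S) * n₀⁻¹ * (n₀ * s * n₀⁻¹)
      calc n₀ * s * n₀⁻¹ * (n₀ * (I : S) * n₀⁻¹) = n₀ * (s * (I : S)) * n₀⁻¹ := by simp [mul_assoc]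
        _ = n₀ * ((I : S) * s) * n₀⁻¹ := by rw [h]
        _ = n₀ * (I : S) * n₀⁻¹ * (n₀ * s * n₀⁻¹) := by simp [mul_assoc]
    have hX₂p : IsPGroup 2 (((X : Subgroup M).map M.subtype).map (MulAut.conj n₀).toMonoidHom) :=
      (X.isPGroup'.map M.subtype).map _
    obtain ⟨h, hh, hconj⟩ := exists_conj_mem_map_sylow_of_le M X _ hX₂p hX₂
    have hnorm : h * n₀ ∈ Subgroup.normalizer (((X : Subgroup M).map M.subtype : Subgroup S) : Set S) := by
      apply mem_normalizer_of_conj_mem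
      intro s hs
      have h3 := hconj (n₀ * s * n₀⁻¹) ⟨s, hs, rfl⟩
      have e : h * n₀ * s * (h * n₀)⁻¹ = h * (n₀ * s * n₀⁻¹) * h⁻¹ := by simp [mul_assoc]
      rw [e]
      exact h3
    have hhn := hN hnorm
    have hg' : g = h⁻¹ * (h * n₀) * m := by rw [hn₀]; simp [mul_assoc]
    rw [hg']
    exact M.mul_mem (M.mul_mem (M.inv_mem hh) hhn) hm
  have part2a : ∀ x y : M, orderOf x = 2 → orderOf y = 2 → IsConj x y := by
    intro x y hx hy
    have hx' : orderOf (x : S) = 2 := by rw [Subgroup.orderOf_coe]; exact hx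
    have hy' : orderOf (y : S) = 2 := by rw [Subgroup.orderOf_coe]; exact hy
    obtain ⟨g, hg⟩ := isConj_iff.mp (part1 x y hx' hy')
    have hgM : g ∈ M := FC x x.2 hx' g (by rw [hg]; exact y.2)
    exact isConj_iff.mpr ⟨⟨g, hgM⟩, Subtype.ext (by simpa using hg)⟩
  refine ⟨part2a, ?_⟩
  have hout : ∃ u : S, orderOf u = 2 ∧ u ∉ M := by
    by_contra h
    push Not at h
    exact hnotall h
  obtain ⟨b, hb, hbM⟩ := hout
  obtain ⟨x, hx⟩ := isConj_iff.mp (part1 I b hI' hb)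
  have hxM : x ∉ M := fun h => hbM (by rw [← hx]; exact M.mul_mem (M.mul_mem h I.2) (M.inv_mem h))
  have hb2 := mul_self_of_orderOf_two hb
  have hodd : ∀ a ∈ M, orderOf a = 2 → Odd (orderOf (a * b)) := by
    intro a haM ha
    rcases invol_odd_or_commuting (mul_self_of_orderOf_two ha) hb2 with h | ⟨k, hk, hka, hkb⟩
    · exact h
    · exfalso
      have hkM : k ∈ M := hC a haM ha (by rw [Subgroup.mem_centralizer_singleton_iff]; exact hka)
      exact hbM (hC k hkM hk (by rw [Subgroup.mem_centralizer_singleton_iff]; exact hkb.symm))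
  have hconjelt : ∀ a ∈ M, orderOf a = 2 → ∃ i : S, i * a = b * i ∧ i * i = 1 := by
    intro a haM ha
    obtain ⟨k, hk⟩ := hodd a haM ha
    have hpow : (a * b) ^ (2 * k + 1) = 1 := by rw [← hk]; exact pow_orderOf_eq_one _
    obtain ⟨h1, h2⟩ := dihedral_conj_elt a b (mul_self_of_orderOf_two ha) hb2 k hpow
    exact ⟨_, h1, h2⟩
  obtain ⟨i₁, hi₁a, hi₁2⟩ := hconjelt I I.2 hI'
  have hxi₁ : x⁻¹ * i₁ ∈ M := by
    apply hC I I.2 hI'
    rw [Subgroup.mem_centralizer_singleton_iff]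
    calc x⁻¹ * i₁ * (I : S) = x⁻¹ * (i₁ * (I : S)) := by rw [mul_assoc]
      _ = x⁻¹ * (x * (I : S) * x⁻¹ * i₁) := by rw [hi₁a, hx]
      _ = (I : S) * (x⁻¹ * i₁) := by simp [mul_assoc]
  have hi₁x : i₁ * x ∈ M := by
    have : i₁ * x = (x⁻¹ * i₁)⁻¹ := by rw [mul_inv_rev, inv_inv, inv_eq_of_mul_eq_one_left hi₁2]
    rw [this]
    exact M.inv_mem hxi₁
  refine ⟨(M ⊓ M.map (MulAut.conj x).toMonoidHom).subgroupOf M, ?_, ?_⟩
  · rw [← Nat.not_even_iff_odd]
    intro hev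
    obtain ⟨k, hk⟩ := exists_prime_orderOf_dvd_card'
      (G := (M ⊓ M.map (MulAut.conj x).toMonoidHom).subgroupOf M) 2 hev.two_dvd
    have hkS : orderOf ((k : M) : S) = 2 := by rw [Subgroup.orderOf_coe, Subgroup.orderOf_coe]; exact hk
    have hkD : ((k : M) : S) ∈ M ⊓ M.map (MulAut.conj x).toMonoidHom := Subgroup.mem_subgroupOf.mp k.2
    rw [Subgroup.mem_inf] at hkD
    obtain ⟨hk1, hk2⟩ := hkD
    rw [mem_map_conj_iff'] at hk2
    have h3 := FC _ hk1 hkS x⁻¹ (by simpa using hk2)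
    exact hxM (by simpa using M.inv_mem h3)
  · intro m
    have ha : orderOf ((m : S) * (I : S) * (m : S)⁻¹) = 2 := orderOf_conj_two hI' m
    have haM : (m : S) * (I : S) * (m : S)⁻¹ ∈ M := M.mul_mem (M.mul_mem m.2 I.2) (M.inv_mem m.2)
    obtain ⟨i₂, hi₂a, hi₂2⟩ := hconjelt _ haM ha
    have hxi₂ : x⁻¹ * i₂ ∈ M := by
      have hc : x⁻¹ * i₂ * (m : S) ∈ M := by
        apply hC I I.2 hI'
        rw [Subgroup.mem_centralizer_singleton_iff]
        calc x⁻¹ * i₂ * (m : S) * (I : S) = x⁻¹ * (i₂ * ((m : S) * (I : S) * (m : S)⁻¹)) * (m : S) := by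
              simp [mul_assoc]
          _ = x⁻¹ * (x * (I : S) * x⁻¹ * i₂) * (m : S) := by rw [hi₂a, hx]
          _ = (I : S) * (x⁻¹ * i₂ * (m : S)) := by simp [mul_assoc]
      have : x⁻¹ * i₂ = (x⁻¹ * i₂ * (m : S)) * (m : S)⁻¹ := by simp [mul_assoc]
      rw [this]
      exact M.mul_mem hc (M.inv_mem m.2)
    obtain ⟨d, hd⟩ : ∃ d : S, d = i₂ * i₁ := ⟨_, rfl⟩
    have hdM : d ∈ M := by
      have hi₂x : i₂ * x ∈ M := by
        have : i₂ * x = (x⁻¹ * i₂)⁻¹ := by rw [mul_inv_rev, inv_inv, inv_eq_of_mul_eq_one_left hi₂2]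
        rw [this]
        exact M.inv_mem hxi₂
      have : d = (i₂ * x) * (x⁻¹ * i₁) := by rw [hd]; simp [mul_assoc]
      rw [this]
      exact M.mul_mem hi₂x hxi₁
    have hdD : d ∈ M ⊓ M.map (MulAut.conj x).toMonoidHom := by
      rw [Subgroup.mem_inf]
      refine ⟨hdM, ?_⟩
      rw [mem_map_conj_iff']
      have : x⁻¹ * d * x = (x⁻¹ * i₂) * (i₁ * x) := by rw [hd]; simp [mul_assoc]
      rw [this]
      exact M.mul_mem hxi₂ hi₁x
    have hdI : d * (I : S) = ((m : S) * (I : S) * (m : S)⁻¹) * d := by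
      have h3 : ((m : S) * (I : S) * (m : S)⁻¹) * i₂ = i₂ * b := by
        calc ((m : S) * (I : S) * (m : S)⁻¹) * i₂
            = (i₂ * i₂) * (((m : S) * (I : S) * (m : S)⁻¹) * i₂) := by rw [hi₂2, one_mul]
          _ = i₂ * (i₂ * ((m : S) * (I : S) * (m : S)⁻¹)) * i₂ := by simp only [mul_assoc]
          _ = i₂ * (b * i₂) * i₂ := by rw [hi₂a]
          _ = i₂ * b * (i₂ * i₂) := by simp only [mul_assoc]
          _ = i₂ * b := by rw [hi₂2, mul_one]
      calc d * (I : S) = i₂ * (i₁ * (I : S)) := by rw [hd, mul_assoc]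
        _ = i₂ * (b * i₁) := by rw [hi₁a]
        _ = (i₂ * b) * i₁ := by rw [mul_assoc]
        _ = ((m : S) * (I : S) * (m : S)⁻¹) * i₂ * i₁ := by rw [h3]
        _ = ((m : S) * (I : S) * (m : S)⁻¹) * d := by rw [hd, mul_assoc]
    refine ⟨⟨d, hdM⟩, Subgroup.mem_subgroupOf.mpr hdD, (⟨d, hdM⟩ : M)⁻¹ * m, ?_, by simp⟩
    rw [Subgroup.mem_centralizer_singleton_iff]
    apply Subtype.ext
    show d⁻¹ * (m : S) * (I : S) = (I : S) * (d⁻¹ * (m : S))
    calc d⁻¹ * (m : S) * (I : S) = d⁻¹ * (((m : S) * (I : S) * (m : S)⁻¹) * d) * (d⁻¹ * (m : S)) := by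
          simp [mul_assoc]
      _ = d⁻¹ * (d * (I : S)) * (d⁻¹ * (m : S)) := by rw [hdI]
      _ = (I : S) * (d⁻¹ * (m : S)) := by simp [mul_assoc]

end Cfsg.Agent.S1905
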