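import Cfsg.Statements.S1906
import Cfsg.Agent.Lib.Helper51.GL3.Assembly
import Cfsg.Agent.Lib.Helper51.GL3.Core
import Cfsg.Agent.Lib.Helper69.GL3.LemDiag
import Cfsg.Agent.Lib.Helper90.GL3.LemCentral
import Cfsg.Agent.Lib.Helper75.GL3.LemDerived
import Cfsg.Agent.Lib.Helper78.GL3.LemTransferVal
import Cfsg.Agent.Lib.Helper7.GL3.LemIndexTwo

set_option autoImplicit false
open Cfsg

namespace Cfsg.Agent.S1906

/-- Let G be a finite group with no subgroup of index 2 whose Sylow 2-subgroup X embeds in GL₃(F) for a finite field F of odd order. If X contains an elementary abelian subgroup of order 8, then X is abelian. -/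
theorem result {G : Type*} [Group G] [Finite G] (hG : ∀ H : Subgroup G, H.index ≠ 2) (X : Sylow 2 G)
    {F : Type*} [Field F] [Fintype F] (hF : Odd (Fintype.card F))
    (f : ↥(X : Subgroup G) →* GL (Fin 3) F) (hf : Function.Injective f)
    (E : Subgroup G) (hE : E ≤ (X : Subgroup G)) (hEa : Cfsg.IsElementaryAbelian 2 E) (hE8 : Nat.card E = 8) :
    IsMulCommutative (X : Subgroup G) :=
  Cfsg.Agent.Lib.Helper51.GL3.main Cfsg.Agent.Lib.Helper69.GL3.lemDiag
    (Cfsg.Agent.Lib.Helper51.GL3.lemCore Cfsg.Agent.Lib.Helper90.GL3.lemCentral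
      Cfsg.Agent.Lib.Helper75.GL3.lemDerived)
    Cfsg.Agent.Lib.Helper78.GL3.lemTransferVal Cfsg.Agent.Lib.Helper7.GL3.lemIndexTwo
    hG X hF f hf E hE hEa hE8

end Cfsg.Agent.S1906
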