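import Mathlib
import Cfsg.Statements.S1907
import Cfsg.Agent.Lib.Helper32.SylowConj
import Cfsg.Agent.Lib.Helper32.Invol2
import Cfsg.Agent.Lib.Helper55.Cores

set_option autoImplicit false
open Cfsg

namespace Cfsg.Agent.S1907

open Cfsg.Agent.Lib.Helper32

/-- `O_{p',p}(G)` is normal. -/
theorem pPrimePCore_normal' (p : ℕ) (G : Type*) [Group G] : (Cfsg.pPrimePCore p G).Normal := by
  unfold Cfsg.pPrimePCore
  exact Subgroup.Normal.comap inferInstance _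

/-- `O_{p',p}(G) ≤ O_{p'}(G) P`. -/
theorem pPrimePCore_le_sup {G : Type*} [Group G] [Finite G] {p : ℕ} [Fact p.Prime] (P : Sylow p G) :
    Cfsg.pPrimePCore p G ≤ Cfsg.pPrimeCore p G ⊔ (P : Subgroup G) := by
  intro x hx
  unfold Cfsg.pPrimePCore at hx
  rw [Subgroup.mem_comap] at hx
  have hsurj : Function.Surjective (QuotientGroup.mk' (Cfsg.pPrimeCore p G)) :=
    QuotientGroup.mk'_surjective _
  have h1 : Cfsg.pCore p (G ⧸ Cfsg.pPrimeCore p G) ≤ ((P.mapSurjective hsurj : Sylow p _) : Subgroup _) :=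
    Cfsg.Agent.Lib.Helper55.pCore_le_sylow _
  have h2 := h1 hx
  rw [Sylow.coe_mapSurjective, Subgroup.mem_map] at h2
  obtain ⟨s, hs, hsx⟩ := h2
  have h3 : s⁻¹ * x ∈ Cfsg.pPrimeCore p G := by
    have := QuotientGroup.eq.mp (show ((s : G) : G ⧸ Cfsg.pPrimeCore p G) = (x : G ⧸ Cfsg.pPrimeCore p G) from hsx)
    exact this
  have h4 : x = s * (s⁻¹ * x) := by simp
  rw [h4]
  have h5 : s * (s⁻¹ * x) = (s * (s⁻¹ * x) * s⁻¹) * s := by simp
  rw [h5]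
  exact Subgroup.mul_mem _ (Subgroup.mem_sup_left ((inferInstance : (Cfsg.pPrimeCore p G).Normal).conj_mem _ h3 s))
    (Subgroup.mem_sup_right hs)

/-- `P ∩ O_{p'}(G) = 1`. -/
theorem eq_one_of_mem_sylow_of_mem_pPrimeCore {G : Type*} [Group G] [Finite G] {p : ℕ} [Fact p.Prime]
    (P : Sylow p G) {x : G} (hxP : x ∈ (P : Subgroup G)) (hxD : x ∈ Cfsg.pPrimeCore p G) : x = 1 := by
  have hcop := Cfsg.Agent.Lib.Helper55.pPrimeCore_coprime p G
  obtain ⟨k, hk⟩ := P.2 ⟨x, hxP⟩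
  have hk' : x ^ p ^ k = 1 := by
    have := congrArg Subtype.val hk
    simpa using this
  have h1 : orderOf x ∣ p ^ k := orderOf_dvd_of_pow_eq_one hk'
  have h2 : orderOf x ∣ Nat.card (Cfsg.pPrimeCore p G) := by
    have : orderOf (⟨x, hxD⟩ : Cfsg.pPrimeCore p G) ∣ Nat.card (Cfsg.pPrimeCore p G) := orderOf_dvd_natCard _
    rwa [Subgroup.orderOf_mk] at this
  have h3 : (orderOf x).Coprime (p ^ k) :=
    Nat.Coprime.coprime_dvd_left h2 (Nat.Coprime.pow_right k hcop)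
  have h4 : orderOf x = 1 := Nat.Coprime.eq_one_of_dvd h3 h1
  exact orderOf_eq_one_iff.mp h4

/-- A `p'`-element normalising a `p`-subgroup `H` of `P` inside `O_{p'}` centralises it. -/
theorem commute_of_mem_normalizer_of_mem_pPrimeCore {G : Type*} [Group G] [Finite G] {p : ℕ} [Fact p.Prime]
    (P : Sylow p G) (H : Subgroup G) (hH : H ≤ (P : Subgroup G)) {n : G}
    (hn : n ∈ Subgroup.normalizer (H : Set G)) (hnD : n ∈ Cfsg.pPrimeCore p G) {h : G} (hh : h ∈ H) :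
    n * h = h * n := by
  have hD : (Cfsg.pPrimeCore p G).Normal := inferInstance
  have h1 : n * h * n⁻¹ ∈ H := (Subgroup.mem_normalizer_iff.mp hn h).mp hh
  have h2 : n * h * n⁻¹ * h⁻¹ ∈ H := H.mul_mem h1 (H.inv_mem hh)
  have h3 : n * h * n⁻¹ * h⁻¹ ∈ Cfsg.pPrimeCore p G := by
    have : n * h * n⁻¹ * h⁻¹ = n * (h * n⁻¹ * h⁻¹) := by simp only [mul_assoc]
    rw [this]
    exact Subgroup.mul_mem _ hnD (hD.conj_mem _ (Subgroup.inv_mem _ hnD) h)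
  have h4 := eq_one_of_mem_sylow_of_mem_pPrimeCore P (hH h2) h3
  have h5 : n * h = (n * h * n⁻¹ * h⁻¹) * (h * n) := by simp [mul_assoc]
  rw [h5, h4, one_mul]

theorem part_a {G : Type*} [Group G] [Finite G] {p : ℕ} [Fact p.Prime] (P : Sylow p G)
    (H : Subgroup G) (hH : H ≤ (P : Subgroup G))
    (y : G) (hy : y ∈ Subgroup.normalizer (H : Set G)) (k : ℕ) (hyk : y ^ p ^ k = 1)
    (d : G) (hd : d ∈ Cfsg.pPrimeCore p G) (hyd : d⁻¹ * y * d ∈ Subgroup.normalizer (H : Set G)) :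
    ∃ d₁ ∈ Cfsg.pPrimeCore p G ⊓ Subgroup.centralizer ({y} : Set G),
      ∃ d₂ ∈ Cfsg.pPrimeCore p G ⊓ Subgroup.centralizer (H : Set G), d = d₁ * d₂ := by
  classical
  have hD : (Cfsg.pPrimeCore p G).Normal := inferInstance
  set D := Cfsg.pPrimeCore p G with hDdef
  set C : Subgroup G := D ⊓ Subgroup.centralizer (H : Set G) with hCdef
  -- normaliser normalises C
  have hNC : ∀ n ∈ Subgroup.normalizer (H : Set G), ∀ c ∈ C, n * c * n⁻¹ ∈ C := by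
    intro n hn c hc
    rw [hCdef, Subgroup.mem_inf] at hc ⊢
    refine ⟨hD.conj_mem _ hc.1 n, ?_⟩
    rw [Subgroup.mem_centralizer_iff]
    intro h hh
    have h1 : n⁻¹ * h * n ∈ H := by
      have := (Subgroup.mem_normalizer_iff.mp (Subgroup.inv_mem _ hn) h).mp hh
      simpa using this
    have h2 := (Subgroup.mem_centralizer_iff.mp hc.2) _ h1
    calc h * (n * c * n⁻¹) = n * ((n⁻¹ * h * n) * c) * n⁻¹ := by simp [mul_assoc]
      _ = n * (c * (n⁻¹ * h * n)) * n⁻¹ := by rw [h2]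
      _ = n * c * n⁻¹ * h := by simp [mul_assoc]
  -- c := y⁻¹ * (d⁻¹ y d) ∈ C
  have hc : y⁻¹ * (d⁻¹ * y * d) ∈ C := by
    have hcD : y⁻¹ * (d⁻¹ * y * d) ∈ D := by
      have : y⁻¹ * (d⁻¹ * y * d) = (y⁻¹ * d⁻¹ * y⁻¹⁻¹) * d := by simp [mul_assoc]
      rw [this]
      exact Subgroup.mul_mem _ (hD.conj_mem _ (Subgroup.inv_mem _ hd) _) hd
    have hcN : y⁻¹ * (d⁻¹ * y * d) ∈ Subgroup.normalizer (H : Set G) :=
      Subgroup.mul_mem _ (Subgroup.inv_mem _ hy) hyd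
    rw [hCdef, Subgroup.mem_inf]
    refine ⟨hcD, ?_⟩
    rw [Subgroup.mem_centralizer_iff]
    intro h hh
    exact (commute_of_mem_normalizer_of_mem_pPrimeCore P H hH hcN hcD hh).symm
  -- the permutation
  have hmap : ∀ c₀ ∈ C, (d⁻¹ * y * d) * c₀ * y⁻¹ ∈ C := by
    intro c₀ hc₀
    have : (d⁻¹ * y * d) * c₀ * y⁻¹ = y * ((y⁻¹ * (d⁻¹ * y * d)) * c₀) * y⁻¹ := by simp [mul_assoc]
    rw [this]
    exact hNC y hy _ (C.mul_mem hc hc₀)
  have hmapinv : ∀ c₀ ∈ C, (d⁻¹ * y * d)⁻¹ * c₀ * y ∈ C := by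
    intro c₀ hc₀
    have : (d⁻¹ * y * d)⁻¹ * c₀ * y = (y⁻¹ * (d⁻¹ * y * d))⁻¹ * (y⁻¹ * c₀ * y⁻¹⁻¹) := by simp [mul_assoc]
    rw [this]
    exact C.mul_mem (C.inv_mem hc) (hNC _ (Subgroup.inv_mem _ hy) _ hc₀)
  let σ : Equiv.Perm C :=
    { toFun := fun c₀ => ⟨(d⁻¹ * y * d) * c₀.1 * y⁻¹, hmap c₀.1 c₀.2⟩
      invFun := fun c₀ => ⟨(d⁻¹ * y * d)⁻¹ * c₀.1 * y, hmapinv c₀.1 c₀.2⟩
      left_inv := by intro c₀; apply Subtype.ext; simp [mul_assoc]
      right_inv := by intro c₀; apply Subtype.ext; simp [mul_assoc] }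
  have hσpow : ∀ (n : ℕ) (c₀ : C), ((σ ^ n) c₀ : G) = (d⁻¹ * y * d) ^ n * c₀.1 * (y ^ n)⁻¹ := by
    intro n
    induction n with
    | zero => intro c₀; simp
    | succ n ih =>
      intro c₀
      rw [pow_succ', Equiv.Perm.mul_apply]
      show (d⁻¹ * y * d) * ((σ ^ n) c₀ : G) * y⁻¹ = _
      rw [ih c₀, pow_succ' (d⁻¹ * y * d), pow_succ' y]
      simp [mul_assoc]
  have hyd_pow : (d⁻¹ * y * d) ^ p ^ k = 1 := by
    have : (d⁻¹ * y * d) ^ p ^ k = d⁻¹ * y ^ p ^ k * d := by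
      have := conj_pow (a := d⁻¹) (b := y) (i := p ^ k)
      simpa using this
    rw [this, hyk]; simp
  have hσ : σ ^ p ^ k = 1 := by
    ext c₀
    rw [hσpow, hyd_pow, hyk]; simp
  have : Fintype C := Fintype.ofFinite C
  have hCcard : ¬ p ∣ Fintype.card C := by
    have hcop := Cfsg.Agent.Lib.Helper55.pPrimeCore_coprime p G
    have hdvd : Nat.card C ∣ Nat.card D := Subgroup.card_dvd_of_le inf_le_left
    have hcop' : (Nat.card C).Coprime p := Nat.Coprime.coprime_dvd_left hdvd hcop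
    rw [← Nat.card_eq_fintype_card]
    intro hp
    have := Nat.Coprime.eq_one_of_dvd hcop'.symm hp
    exact (Fact.out : p.Prime).one_lt.ne' this
  obtain ⟨c₀, hc₀⟩ := Equiv.Perm.exists_fixed_point_of_prime hCcard hσ
  have hfix : (d⁻¹ * y * d) * c₀.1 * y⁻¹ = c₀.1 := congrArg Subtype.val hc₀
  have hc₀C : c₀.1 ∈ D ⊓ Subgroup.centralizer (H : Set G) := c₀.2
  rw [Subgroup.mem_inf] at hc₀C
  refine ⟨d * c₀.1, ?_, c₀.1⁻¹, C.inv_mem c₀.2, by simp⟩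
  rw [Subgroup.mem_inf]
  refine ⟨Subgroup.mul_mem _ hd hc₀C.1, ?_⟩
  rw [Subgroup.mem_centralizer_iff]
  intro z hz
  rw [Set.mem_singleton_iff] at hz
  subst hz
  have : z * (d * c₀.1) = d * ((d⁻¹ * z * d) * c₀.1 * z⁻¹) * z := by simp [mul_assoc]
  rw [this, hfix]

/-- Let P be a Sylow p-subgroup of a finite group G, H = P ∩ O_{p',p}(G), N = N_G(H) and D = O_{p'}(G). (a) If y is an element of p-power order of N and d ∈ D with d⁻¹ y d ∈ N, then d = d₁ d₂ with d₁ ∈ C_D(y) and d₂ ∈ C_D(H). (b) Two elements of P that are conjugate in G are conjugate in N. -/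
theorem result {G : Type*} [Group G] [Finite G] {p : ℕ} [Fact p.Prime] (P : Sylow p G) :
    (∀ y ∈ Subgroup.normalizer (((P : Subgroup G) ⊓ Cfsg.pPrimePCore p G : Subgroup G) : Set G), (∃ k : ℕ, orderOf y = p ^ k) →
      ∀ d ∈ Cfsg.pPrimeCore p G, d⁻¹ * y * d ∈ Subgroup.normalizer (((P : Subgroup G) ⊓ Cfsg.pPrimePCore p G : Subgroup G) : Set G) →
        ∃ d₁ ∈ Cfsg.pPrimeCore p G ⊓ Subgroup.centralizer ({y} : Set G),
          ∃ d₂ ∈ Cfsg.pPrimeCore p G ⊓ Subgroup.centralizer (((P : Subgroup G) ⊓ Cfsg.pPrimePCore p G : Subgroup G) : Set G), d = d₁ * d₂) ∧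
    ∀ x y : G, x ∈ (P : Subgroup G) → y ∈ (P : Subgroup G) → IsConj x y →
      ∃ n ∈ Subgroup.normalizer (((P : Subgroup G) ⊓ Cfsg.pPrimePCore p G : Subgroup G) : Set G), n * x * n⁻¹ = y := by
  have hD : (Cfsg.pPrimeCore p G).Normal := inferInstance
  have hK : (Cfsg.pPrimePCore p G).Normal := pPrimePCore_normal' p G
  have hA : ∀ y ∈ Subgroup.normalizer (((P : Subgroup G) ⊓ Cfsg.pPrimePCore p G : Subgroup G) : Set G),
      (∃ k : ℕ, y ^ p ^ k = 1) →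
      ∀ d ∈ Cfsg.pPrimeCore p G, d⁻¹ * y * d ∈ Subgroup.normalizer (((P : Subgroup G) ⊓ Cfsg.pPrimePCore p G : Subgroup G) : Set G) →
        ∃ d₁ ∈ Cfsg.pPrimeCore p G ⊓ Subgroup.centralizer ({y} : Set G),
          ∃ d₂ ∈ Cfsg.pPrimeCore p G ⊓ Subgroup.centralizer (((P : Subgroup G) ⊓ Cfsg.pPrimePCore p G : Subgroup G) : Set G), d = d₁ * d₂ := by
    rintro y hy ⟨k, hk⟩ d hd hyd
    exact part_a P _ inf_le_left y hy k hk d hd hyd
  refine ⟨?_, ?_⟩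
  · rintro y hy ⟨k, hk⟩ d hd hyd
    exact hA y hy ⟨k, by rw [← hk]; exact pow_orderOf_eq_one y⟩ d hd hyd
  · intro x y hx hy hxy
    obtain ⟨g, hg⟩ := isConj_iff.mp hxy
    set Hs : Subgroup G := (P : Subgroup G) ⊓ Cfsg.pPrimePCore p G with hHs
    -- P ≤ N
    have hPN : ∀ s ∈ (P : Subgroup G), s ∈ Subgroup.normalizer (Hs : Set G) := by
      intro s hs
      apply mem_normalizer_of_conj_mem
      intro t ht
      rw [hHs, Subgroup.mem_inf] at ht ⊢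
      exact ⟨Subgroup.mul_mem _ (Subgroup.mul_mem _ hs ht.1) (Subgroup.inv_mem _ hs), hK.conj_mem _ ht.2 s⟩
    -- Q := g Hs g⁻¹
    have hQp : IsPGroup p (Hs.map (MulAut.conj g).toMonoidHom) := by
      have h1 : IsPGroup p Hs := P.2.to_le inf_le_left
      exact h1.map _
    have hQle : Hs.map (MulAut.conj g).toMonoidHom ≤ Cfsg.pPrimeCore p G ⊔ (P : Subgroup G) := by
      intro t ht
      rw [Subgroup.mem_map] at ht
      obtain ⟨t₀, ht₀, rfl⟩ := ht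
      apply pPrimePCore_le_sup P
      have ht₀' : t₀ ∈ (P : Subgroup G) ⊓ Cfsg.pPrimePCore p G := ht₀
      rw [Subgroup.mem_inf] at ht₀'
      have := hK.conj_mem _ ht₀'.2 g
      simpa [MulAut.conj_apply] using this
    obtain ⟨h, hh, hconj⟩ := exists_conj_mem_sylow_of_le (Cfsg.pPrimeCore p G ⊔ (P : Subgroup G)) P
      le_sup_right _ hQp hQle
    have hn₀ : h * g ∈ Subgroup.normalizer (Hs : Set G) := by
      apply mem_normalizer_of_conj_mem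
      intro t ht
      have h1 : g * t * g⁻¹ ∈ Hs.map (MulAut.conj g).toMonoidHom := by
        rw [Subgroup.mem_map]
        exact ⟨t, ht, by simp [MulAut.conj_apply]⟩
      have h2 := hconj _ h1
      have ht' : t ∈ (P : Subgroup G) ⊓ Cfsg.pPrimePCore p G := ht
      rw [Subgroup.mem_inf] at ht'
      have h3 : h * g * t * (h * g)⁻¹ = h * (g * t * g⁻¹) * h⁻¹ := by simp [mul_assoc]
      rw [hHs, Subgroup.mem_inf, h3]
      refine ⟨h2, ?_⟩
      have := hK.conj_mem _ ht'.2 (h * g)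
      rw [h3] at this
      exact this
    rw [Subgroup.mem_sup_of_normal_left] at hh
    obtain ⟨d₀, hd₀, s₀, hs₀, rfl⟩ := hh
    -- g = d' * n' with d' := s₀⁻¹ d₀⁻¹ s₀, n' := s₀⁻¹ * (d₀ * s₀ * g)
    have hd' : s₀⁻¹ * d₀ * s₀⁻¹⁻¹ ∈ Cfsg.pPrimeCore p G := hD.conj_mem _ hd₀ _
    have hn' : s₀⁻¹ * (d₀ * s₀ * g) ∈ Subgroup.normalizer (Hs : Set G) :=
      Subgroup.mul_mem _ (Subgroup.inv_mem _ (hPN s₀ hs₀)) hn₀
    set n' := s₀⁻¹ * (d₀ * s₀ * g) with hn'def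
    set d' := s₀⁻¹ * d₀ * s₀⁻¹⁻¹ with hd'def
    have hgdn : g = d'⁻¹ * n' := by
      rw [hn'def, hd'def]; simp [mul_assoc]
    -- x' := n' x n'⁻¹
    have hx' : n' * x * n'⁻¹ ∈ Subgroup.normalizer (Hs : Set G) :=
      Subgroup.mul_mem _ (Subgroup.mul_mem _ hn' (hPN x hx)) (Subgroup.inv_mem _ hn')
    have hx'p : ∃ k : ℕ, (n' * x * n'⁻¹) ^ p ^ k = 1 := by
      obtain ⟨k, hk⟩ := P.2 ⟨x, hx⟩
      have hk' : x ^ p ^ k = 1 := by
        have := congrArg Subtype.val hk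
        simpa using this
      refine ⟨k, ?_⟩
      rw [conj_pow, hk']; simp
    have hyx' : d'⁻¹ * (n' * x * n'⁻¹) * d' = y := by
      rw [← hg, hgdn]; simp [mul_assoc]
    have hyN : d'⁻¹ * (n' * x * n'⁻¹) * d' ∈ Subgroup.normalizer (Hs : Set G) := by
      rw [hyx']; exact hPN y hy
    obtain ⟨d₁, hd₁, d₂, hd₂, hdd⟩ := hA _ hx' hx'p d' hd' hyN
    rw [Subgroup.mem_inf] at hd₁ hd₂
    have hd₁c : (n' * x * n'⁻¹) * d₁ = d₁ * (n' * x * n'⁻¹) :=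
      Subgroup.mem_centralizer_iff.mp hd₁.2 _ rfl
    have hd₂N : d₂ ∈ Subgroup.normalizer (Hs : Set G) := by
      apply mem_normalizer_of_conj_mem
      intro t ht
      have := Subgroup.mem_centralizer_iff.mp hd₂.2 t ht
      have h1 : d₂ * t * d₂⁻¹ = t := by rw [← this]; simp
      rw [h1]; exact ht
    refine ⟨d₂⁻¹ * n', Subgroup.mul_mem _ (Subgroup.inv_mem _ hd₂N) hn', ?_⟩
    rw [← hyx', hdd]
    have h2 : d₁⁻¹ * (n' * x * n'⁻¹) * d₁ = n' * x * n'⁻¹ := by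
      rw [mul_assoc, hd₁c]; simp
    calc d₂⁻¹ * n' * x * (d₂⁻¹ * n')⁻¹ = d₂⁻¹ * (n' * x * n'⁻¹) * d₂ := by simp [mul_assoc]
      _ = d₂⁻¹ * (d₁⁻¹ * (n' * x * n'⁻¹) * d₁) * d₂ := by rw [h2]
      _ = (d₁ * d₂)⁻¹ * (n' * x * n'⁻¹) * (d₁ * d₂) := by simp [mul_assoc]

end Cfsg.Agent.S1907
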