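import Cfsg.Statements.S1924
import Cfsg.Agent.Lib.Helper50.SignTransfer
import Cfsg.Agent.Lib.Helper47.PIrr

set_option autoImplicit false
open Cfsg

namespace Cfsg.Agent.S1924

/-- A consequence of Thompson's transfer lemma. Let G be a finite group, L a subgroup with O²(L) = L, T a Sylow 2-subgroup of L and S a Sylow 2-subgroup of G containing T. Suppose D ≤ S is a dihedral subgroup of order at least 4 (the four-group counts) with D ∩ T = 1 and S = TD as a set of products (so |S| = |T|·|D|), and C ≤ D is cyclic of index 2 in D. If no involution of D outside C is G-conjugate to an involution of the subgroup generated by T and C, and the involution of C is not G-conjugate to any involution of T, then G has a normal subgroup K, containing every Sylow 2-subgroup of L as a Sylow 2-subgroup, with G = KD. -/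
theorem result {G : Type*} [Group G] [Finite G] (L T S D C : Subgroup G) (hL : Cfsg.pResidual 2 ↥L = ⊤)
    (hTL : T ≤ L) (hT2 : IsPGroup 2 T) (hTsyl : ¬ 2 ∣ T.relIndex L)
    (hS2 : IsPGroup 2 S) (hSsyl : ¬ 2 ∣ S.index) (hTS : T ≤ S)
    (hDS : D ≤ S) (hDih : ∃ n : ℕ, 2 ≤ n ∧ Nonempty (↥D ≃* DihedralGroup n)) (hDT : D ⊓ T = ⊥) (hTD : T ⊔ D = S) (hTDc : Nat.card T * Nat.card D = Nat.card S)
    (hCD : C ≤ D) (hC : IsCyclic ↥C) (hCi : C.relIndex D = 2)
    (h1 : ∀ x ∈ D, x ∉ C → orderOf x = 2 → ∀ g : G, g * x * g⁻¹ ∈ T ⊔ C → False)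
    (h2 : ∀ c ∈ C, orderOf c = 2 → ∀ g : G, g * c * g⁻¹ ∈ T → False) :
    ∃ K : Subgroup G, K.Normal ∧ K ⊔ D = ⊤ ∧
      ∀ T' : Subgroup G, T' ≤ L → IsPGroup 2 T' → ¬ 2 ∣ T'.relIndex L → T' ≤ K ∧ ¬ 2 ∣ T'.relIndex K := by
  classical
  haveI : Fact (Nat.Prime 2) := ⟨Nat.prime_two⟩
  obtain ⟨K, hKn, hLK, hKS, hhomG, hhomK⟩ : ∃ K : Subgroup G, K.Normal ∧ L ≤ K ∧ K ⊔ S = ⊤ ∧
      (∀ (f : G →* ℤˣ) (x : G), x ∈ K → f x = 1) ∧ (∀ (f : ↥K →* ℤˣ) (x : ↥K), f x = 1) :=
    ⟨Cfsg.pResidual 2 G, Cfsg.Agent.Lib.Helper47.pResidual_normal 2 G,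
      Cfsg.Agent.Lib.Helper50.st_le_pResidual_of_eq_top 2 L hL,
      Cfsg.Agent.Lib.Helper47.pResidual_sup_sylow (hS2.toSylow hSsyl),
      fun f x hx => Cfsg.Agent.Lib.Helper50.st_hom_eq_one_of_mem_pResidual f hx,
      fun f x => Cfsg.Agent.Lib.Helper50.st_hom_pResidual_eq_one f x⟩
  haveI := hKn
  have hTK : T ≤ K := hTL.trans hLK
  have hTD0 : T ⊓ D = ⊥ := by rw [inf_comm]; exact hDT
  have hdec : ∀ s ∈ S, ∃ t ∈ T, ∃ d ∈ D, s = t * d := by
    have h := Cfsg.Agent.Lib.Helper50.mul_eq_sup_of_card_mul_card T D (by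
      rw [hTD, hTD0, Subgroup.card_bot, mul_one]; exact hTDc.ge)
    intro s hs
    have hs' : s ∈ ((T ⊔ D : Subgroup G) : Set G) := by rw [hTD]; exact hs
    rw [h] at hs'
    obtain ⟨t, ht, d, hd, rfl⟩ := hs'
    exact ⟨t, ht, d, hd, rfl⟩
  have hinv : ∀ x ∈ D, x ∉ C → orderOf x = 2 := fun x hxD hxC =>
    Cfsg.Agent.Lib.Helper50.st_orderOf_eq_two_of_not_mem D C hDih hCD hC hCi hxD hxC
  have hTC : T ⊓ C = ⊥ := by
    apply le_bot_iff.mp
    rw [← hTD0]
    exact inf_le_inf_left T hCD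
  have hSodd : Odd S.index := Nat.not_even_iff_odd.mp (fun h => hSsyl (even_iff_two_dvd.mp h))
  -- (a) `D ∩ K ≤ C`
  have hDKC : D ⊓ K ≤ C := by
    intro x hx
    by_contra hxC
    have hxD : x ∈ D := hx.1
    have hxK : x ∈ K := hx.2
    have hx2 : orderOf x = 2 := hinv x hxD hxC
    have hxsq : x ^ 2 = 1 := by rw [← hx2]; exact pow_orderOf_eq_one x
    have hUS : T ⊔ C ≤ S := sup_le hTS (hCD.trans hDS)
    have hxU : x ∉ T ⊔ C := fun h => h1 x hxD hxC hx2 1 (by rw [one_mul, inv_one, mul_one]; exact h)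
    have hrel : (T ⊔ C).relIndex S = 2 := by
      have e1 := Cfsg.Agent.Lib.Helper50.st_card_mul_relIndex hUS
      have e2 := Cfsg.Agent.Lib.Helper50.card_mul_card_le T C
      rw [hTC, Subgroup.card_bot, mul_one] at e2
      have e3 := Cfsg.Agent.Lib.Helper50.st_card_mul_relIndex hCD
      rw [hCi] at e3
      have hne1 : (T ⊔ C).relIndex S ≠ 1 := by
        intro h
        exact hxU (Subgroup.relIndex_eq_one.mp h (hDS hxD))
      have hSpos : 0 < Nat.card ↥S := Nat.card_pos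
      have hne0 : (T ⊔ C).relIndex S ≠ 0 := by
        intro h
        rw [h, mul_zero] at e1
        omega
      have hUpos : 0 < Nat.card ↥(T ⊔ C) := Nat.card_pos
      by_contra hne
      have h3 : 3 ≤ (T ⊔ C).relIndex S := by omega
      have h5 : Nat.card ↥(T ⊔ C) * 3 ≤ Nat.card ↥S := by
        rw [← e1]; exact Nat.mul_le_mul_left _ h3
      have h4 : Nat.card ↥S = Nat.card ↥T * Nat.card ↥C * 2 := by
        rw [← hTDc, ← e3, mul_assoc]
      nlinarith
    have hidx : (T ⊔ C).index = orderOf x * S.index := by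
      rw [← Subgroup.relIndex_mul_index hUS, hrel, hx2]
    have hsr : ∀ (m : ℕ) (g : G), g⁻¹ * x ^ m * g ∈ T ⊔ C → x ^ m = 1 := by
      intro m g hg
      rcases Nat.even_or_odd m with hm | hm
      · obtain ⟨j, rfl⟩ := hm
        rw [← two_mul, pow_mul, hxsq, one_pow]
      · exfalso
        obtain ⟨j, rfl⟩ := hm
        rw [pow_succ, pow_mul, hxsq, one_pow, one_mul] at hg
        exact h1 x hxD hxC hx2 g⁻¹ (by rw [inv_inv]; exact hg)
    obtain ⟨f, hf⟩ := Cfsg.Agent.Lib.Helper50.st_exists_hom_neg_one (T ⊔ C) x hsr S.index hSodd hidx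
      (by rw [hx2]; exact even_two)
    have hf1 : f x = 1 := hhomG f x hxK
    rw [hf1] at hf
    exact absurd hf (by decide)
  -- `S ∩ K` is a Sylow 2-subgroup of `K`
  have hSK : ¬ 2 ∣ (S ⊓ K).relIndex K := by
    rw [Subgroup.inf_relIndex_right]
    exact Cfsg.Agent.Lib.Helper50.not_dvd_relIndex_of_le_sup (hS2.toSylow hSsyl) K K le_rfl
      le_sup_right
  have hTSK : T ≤ S ⊓ K := le_inf hTS hTK
  have hDKSK : D ⊓ K ≤ S ⊓ K := inf_le_inf_right K hDS
  have hcardSK : Nat.card ↥(S ⊓ K) = Nat.card ↥T * Nat.card ↥(D ⊓ K) := by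
    apply Cfsg.Agent.Lib.Helper50.st_card_eq_mul_of_exact T (D ⊓ K) (S ⊓ K) hTSK hDKSK
    · apply le_bot_iff.mp
      rw [← hTD0]
      exact inf_le_inf_left T inf_le_left
    · intro s hs
      obtain ⟨t, ht, d, hd, rfl⟩ := hdec s hs.1
      refine ⟨t, ht, d, ⟨hd, ?_⟩, rfl⟩
      have h := K.mul_mem (K.inv_mem (hTK ht)) hs.2
      rwa [inv_mul_cancel_left] at h
  -- (b) `D ∩ K = 1`
  have hD₀ : D ⊓ K = ⊥ := by
    by_contra hne
    haveI hcyc : IsCyclic ↥(D ⊓ K) := by
      haveI := hC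
      exact isCyclic_of_injective (Subgroup.inclusion hDKC) (Subgroup.inclusion_injective hDKC)
    obtain ⟨g, hg⟩ := hcyc.exists_generator
    have hgK : (g : G) ∈ K := g.2.2
    have hordg : orderOf (g : G) = Nat.card ↥(D ⊓ K) := by
      rw [Subgroup.orderOf_coe, orderOf_eq_card_of_forall_mem_zpowers hg]
    have hDK2 : IsPGroup 2 ↥(D ⊓ K) := hS2.to_le (inf_le_left.trans hDS)
    obtain ⟨k, hk⟩ := IsPGroup.iff_card.mp hDK2
    have hk0 : k ≠ 0 := by
      rintro rfl
      rw [pow_zero] at hk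
      exact hne (Subgroup.eq_bot_of_card_eq _ hk)
    have heven : Even (orderOf (g : G)) := by
      rw [hordg, hk]
      exact (Nat.even_pow.mpr ⟨even_two, hk0⟩)
    have eT := Cfsg.Agent.Lib.Helper50.st_card_mul_relIndex hTL
    have eL := Cfsg.Agent.Lib.Helper50.st_card_mul_relIndex hLK
    have eSK := Cfsg.Agent.Lib.Helper50.st_card_mul_relIndex (inf_le_right : S ⊓ K ≤ K)
    have hTpos : 0 < Nat.card ↥T := Nat.card_pos
    have harith : T.relIndex L * L.relIndex K = 2 ^ k * (S ⊓ K).relIndex K := by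
      have h1' : Nat.card ↥T * (T.relIndex L * L.relIndex K)
          = Nat.card ↥T * (2 ^ k * (S ⊓ K).relIndex K) := by
        rw [← mul_assoc, eT, eL, ← mul_assoc, ← hk, ← hcardSK, eSK]
      exact Nat.eq_of_mul_eq_mul_left hTpos h1'
    have hcop : Nat.Coprime (2 ^ k) (T.relIndex L) :=
      Nat.Coprime.pow_left k ((Nat.Prime.coprime_iff_not_dvd Nat.prime_two).mpr hTsyl)
    have hdvd : 2 ^ k ∣ L.relIndex K :=
      hcop.dvd_of_dvd_mul_left (Dvd.intro _ harith.symm)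
    obtain ⟨r, hr⟩ := hdvd
    have hrodd : Odd r := by
      rw [hr] at harith
      have h2k : 0 < 2 ^ k := by positivity
      have h6 : T.relIndex L * r = (S ⊓ K).relIndex K := by
        apply Nat.eq_of_mul_eq_mul_left h2k
        rw [← harith]; ring
      by_contra hnodd
      rw [Nat.not_odd_iff_even] at hnodd
      apply hSK
      rw [← h6]
      exact Dvd.dvd.mul_left (even_iff_two_dvd.mp hnodd) _
    obtain ⟨y, hy⟩ : ∃ y : ↥K, (y : G) = (g : G) := ⟨⟨(g : G), hgK⟩, rfl⟩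
    have hordy : orderOf y = orderOf (g : G) := by
      rw [← hy, Subgroup.orderOf_coe]
    have hidx : (L.subgroupOf K).index = orderOf y * r := by
      rw [hordy, hordg, hk]; exact hr
    have hsr : ∀ (m : ℕ) (a : ↥K), a⁻¹ * y ^ m * a ∈ L.subgroupOf K → y ^ m = 1 := by
      intro m a ha
      by_contra hne1
      have haL0 : (a : G)⁻¹ * (y : G) ^ m * (a : G) ∈ L := Subgroup.mem_subgroupOf.mp ha
      rw [hy] at haL0
      have hz : (g : G) ^ m ≠ 1 := by
        intro h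
        apply hne1
        apply Subtype.ext
        rw [Subgroup.coe_pow, hy]
        exact h
      obtain ⟨z, hzdef⟩ : ∃ z : G, z = (g : G) ^ m := ⟨_, rfl⟩
      rw [← hzdef] at haL0 hz
      have hzC : z ∈ C := by
        rw [hzdef]
        exact hDKC ((D ⊓ K).pow_mem g.2 m)
      have hzord : orderOf z ∣ 2 ^ k := by
        rw [← hk, ← hordg, hzdef]
        exact orderOf_pow_dvd m
      obtain ⟨j, hj, hzj⟩ := (Nat.dvd_prime_pow Nat.prime_two).mp hzord
      have hj0 : j ≠ 0 := by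
        rintro rfl
        rw [pow_zero, orderOf_eq_one_iff] at hzj
        exact hz hzj
      obtain ⟨j', rfl⟩ := Nat.exists_eq_succ_of_ne_zero hj0
      obtain ⟨w, hwdef⟩ : ∃ w : G, w = z ^ (2 ^ j') := ⟨_, rfl⟩
      have hw2 : orderOf w = 2 := by
        have hd : 2 ^ j' ∣ orderOf z := by rw [hzj, pow_succ]; exact Dvd.intro _ rfl
        rw [hwdef, orderOf_pow_of_dvd (pow_ne_zero _ two_ne_zero) hd, hzj, pow_succ]
        exact Nat.mul_div_cancel_left 2 (by positivity)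
      have hwC : w ∈ C := by rw [hwdef]; exact C.pow_mem hzC _
      obtain ⟨u, hudef⟩ : ∃ u : G, u = (a : G)⁻¹ * w * (a : G) := ⟨_, rfl⟩
      have huL : u ∈ L := by
        have h : ∀ i : ℕ, ((a : G)⁻¹ * z * (a : G)) ^ i = (a : G)⁻¹ * z ^ i * (a : G) := by
          intro i
          induction i with
          | zero => simp
          | succ i ih => rw [pow_succ, ih, pow_succ]; group
        rw [hudef, hwdef, ← h]
        exact L.pow_mem haL0 _
      have huord : orderOf u = 2 := by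
        have h : u = (a : G)⁻¹ * w * ((a : G)⁻¹)⁻¹ := by rw [inv_inv]; exact hudef
        rw [h, Cfsg.Agent.Lib.Helper47.orderOf_conj_eq, hw2]
      have hB2 : IsPGroup 2 ↥(Subgroup.zpowers u) := by
        apply IsPGroup.of_card (n := 1)
        rw [Nat.card_zpowers, huord, pow_one]
      have hBL : Subgroup.zpowers u ≤ L := by
        rw [Subgroup.zpowers_le]; exact huL
      obtain ⟨c, hcL, hc⟩ := Cfsg.Agent.Lib.Helper50.exists_conj_le_of_not_dvd_relIndex T
        (Subgroup.zpowers u) L hBL hT2 hB2 hTsyl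
      obtain ⟨t, ht, htu⟩ := hc (Subgroup.mem_zpowers u)
      have htu' : c * t * c⁻¹ = u := htu
      apply h2 w hwC hw2 (c⁻¹ * (a : G)⁻¹)
      have h7 : c⁻¹ * (a : G)⁻¹ * w * (c⁻¹ * (a : G)⁻¹)⁻¹ = t := by
        rw [hudef] at htu'
        have h8 : t = c⁻¹ * ((a : G)⁻¹ * w * (a : G)) * c := by rw [← htu']; group
        rw [h8]; group
      rw [h7]; exact ht
    obtain ⟨f, hf⟩ := Cfsg.Agent.Lib.Helper50.st_exists_hom_neg_one (L.subgroupOf K) y hsr r hrodd
      hidx (by rw [hordy]; exact heven)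
    have hf1 : f y = 1 := hhomK f y
    rw [hf1] at hf
    exact absurd hf (by decide)
  -- conclusion
  refine ⟨K, hKn, ?_, ?_⟩
  · apply top_le_iff.mp
    rw [← hKS, ← hTD]
    exact sup_le le_sup_left (sup_le (hTK.trans le_sup_left) le_sup_right)
  · intro T' hT'L hT'2 hT'syl
    refine ⟨hT'L.trans hLK, ?_⟩
    have hc1 : Nat.card ↥T' = Nat.card ↥T :=
      Cfsg.Agent.Lib.Helper50.st_card_eq_of_not_dvd_relIndex hT'L hTL hT'2 hT2 hT'syl hTsyl
    have hc2 : Nat.card ↥(S ⊓ K) = Nat.card ↥T := by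
      rw [hcardSK, hD₀, Subgroup.card_bot, mul_one]
    have e1 := Cfsg.Agent.Lib.Helper50.st_card_mul_relIndex (hT'L.trans hLK)
    have e2 := Cfsg.Agent.Lib.Helper50.st_card_mul_relIndex (inf_le_right : S ⊓ K ≤ K)
    rw [hc1] at e1
    rw [hc2] at e2
    have h9 : T'.relIndex K = (S ⊓ K).relIndex K :=
      Nat.eq_of_mul_eq_mul_left Nat.card_pos (e1.trans e2.symm)
    rw [h9]; exact hSK

end Cfsg.Agent.S1924
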