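import Mathlib
import Cfsg.Statements.S1939
import Cfsg.Agent.Lib.Helper32.SylowConj

set_option autoImplicit false
open Cfsg

namespace Cfsg.Agent.S1939

open Cfsg.Agent.Lib.Helper32 in
/-- Let S be a Sylow p-subgroup of the finite group G and a an element of S that is the only G-conjugate of a lying in S. Then every power of a has the same property: for every n, the only G-conjugate of a^n lying in S is a^n. -/
theorem result {G : Type*} [Group G] [Finite G] {p : ℕ} [Fact p.Prime] (S : Sylow p G) (a : G)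
    (haS : a ∈ (S : Subgroup G)) (hwc : ∀ g : G, g * a * g⁻¹ ∈ (S : Subgroup G) → g * a * g⁻¹ = a) (n : ℕ) :
    ∀ g : G, g * a ^ n * g⁻¹ ∈ (S : Subgroup G) → g * a ^ n * g⁻¹ = a ^ n := by
  intro g hg
  have hcent : ∀ s ∈ (S : Subgroup G), s * a * s⁻¹ = a := fun s hs =>
    hwc s (mul_mem (mul_mem hs haS) (inv_mem hs))
  have hcomm : ∀ s ∈ (S : Subgroup G), s * a = a * s := by
    intro s hs
    have := hcent s hs
    rwa [mul_inv_eq_iff_eq_mul] at this
  have hcommn : ∀ s ∈ (S : Subgroup G), s * a ^ n = a ^ n * s := by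
    intro s hs
    have h : Commute s a := hcomm s hs
    exact h.pow_right n
  set b' := g * a ^ n * g⁻¹ with hb'
  have hab' : b' * a = a * b' := hcomm b' hg
  have haH : a ∈ Subgroup.centralizer ({b'} : Set G) := by
    rw [Subgroup.mem_centralizer_singleton_iff]
    exact hab'.symm
  have hS' : ((g • S : Sylow p G) : Subgroup G) ≤ Subgroup.centralizer ({b'} : Set G) := by
    intro x hx
    have hs : g⁻¹ * x * g⁻¹⁻¹ ∈ (g⁻¹ • (g • S) : Sylow p G) := conj_mem_smul_sylow g⁻¹ x (g • S) hx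
    rw [inv_smul_smul, inv_inv] at hs
    have hsc := hcommn _ hs
    rw [Subgroup.mem_centralizer_singleton_iff, hb']
    calc x * (g * a ^ n * g⁻¹) = g * ((g⁻¹ * x * g) * a ^ n) * g⁻¹ := by simp [mul_assoc]
      _ = g * (a ^ n * (g⁻¹ * x * g)) * g⁻¹ := by rw [hsc]
      _ = g * a ^ n * g⁻¹ * x := by simp [mul_assoc]
  have hap : ∃ k : ℕ, a ^ p ^ k = 1 := by
    obtain ⟨k, hk⟩ := S.isPGroup' ⟨a, haS⟩
    refine ⟨k, ?_⟩
    have := congrArg Subtype.val hk
    simpa using this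
  obtain ⟨c, hc, hca⟩ := exists_conj_mem_sylow_of_mem (Subgroup.centralizer ({b'} : Set G)) (g • S) hS' a haH hap
  have h1 : g⁻¹ * (c * a * c⁻¹) * g⁻¹⁻¹ ∈ (g⁻¹ • (g • S) : Sylow p G) :=
    conj_mem_smul_sylow g⁻¹ _ (g • S) hca
  rw [inv_smul_smul, inv_inv] at h1
  have h2 : (g⁻¹ * c) * a * (g⁻¹ * c)⁻¹ = a := by
    apply hwc
    have e : (g⁻¹ * c) * a * (g⁻¹ * c)⁻¹ = g⁻¹ * (c * a * c⁻¹) * g := by simp [mul_assoc]
    rw [e]; exact h1
  have h3 : c * a * c⁻¹ = g * a * g⁻¹ := by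
    have e : c * a * c⁻¹ = g * ((g⁻¹ * c) * a * (g⁻¹ * c)⁻¹) * g⁻¹ := by simp [mul_assoc]
    rw [e, h2]
  have h4 : c * a ^ n * c⁻¹ = b' := by
    have e1 : c * a ^ n * c⁻¹ = (c * a * c⁻¹) ^ n := by rw [conj_pow]
    have e2 : g * a ^ n * g⁻¹ = (g * a * g⁻¹) ^ n := by rw [conj_pow]
    rw [hb', e1, e2, h3]
  have hcb : b' * c = c * b' := by
    rw [Subgroup.mem_centralizer_singleton_iff] at hc
    exact hc.symm
  -- a^n = c⁻¹ b' c = b'
  have h5 : a ^ n = c⁻¹ * b' * c := by rw [← h4]; simp [mul_assoc]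
  rw [h5, mul_assoc, hcb, ← mul_assoc, inv_mul_cancel, one_mul]

end Cfsg.Agent.S1939
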