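import Mathlib
import Cfsg.Statements.S1940

set_option autoImplicit false
open Cfsg

namespace Cfsg.Agent.S1940

/-- Let the finite group L act by automorphisms on the finite abelian group M, and let N be an L-invariant subgroup of M such that M/N is a p-group on which L acts trivially (every l • m lies in the coset mN). If every element of M is a product of an element of N and an element fixed by a Sylow p-subgroup T of L, then every element of M is a product of an element of N and an element fixed by all of L. -/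
theorem result {L : Type*} [Group L] [Finite L] {M : Type*} [CommGroup M] [Finite M] [MulDistribMulAction L M]
    {p : ℕ} [Fact p.Prime] (N : Subgroup M) (hN : ∀ (l : L) (m : M), m ∈ N → l • m ∈ N)
    (hquot : IsPGroup p (M ⧸ N)) (htriv : ∀ (l : L) (m : M), (l • m) * m⁻¹ ∈ N) (T : Sylow p L)
    (hT : ∀ m : M, ∃ n ∈ N, ∃ c : M, (∀ t ∈ (T : Subgroup L), t • c = c) ∧ m = n * c) :
    ∀ m : M, ∃ n ∈ N, ∃ c : M, (∀ l : L, l • c = c) ∧ m = n * c := by
  classical
  intro m
  obtain ⟨n, hn, c, hc, rfl⟩ := hT m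
  haveI : Fintype (L ⧸ (T : Subgroup L)) := Fintype.ofFinite _
  set k : ℕ := Fintype.card (L ⧸ (T : Subgroup L)) with hk
  set c' : M := ∏ q : L ⧸ (T : Subgroup L), (q.out) • c with hc'
  -- c' is fixed by L
  have hfix : ∀ l : L, l • c' = c' := by
    intro l
    rw [hc', Finset.smul_prod']
    have h1 : ∀ q : L ⧸ (T : Subgroup L), l • (q.out • c) = ((l • q).out) • c := by
      intro q
      have hq : ((l * q.out : L) : L ⧸ (T : Subgroup L)) = (((l • q).out : L) : L ⧸ (T : Subgroup L)) := by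
        rw [QuotientGroup.out_eq']
        show ((l * q.out : L) : L ⧸ (T : Subgroup L)) = l • q
        conv_rhs => rw [← QuotientGroup.out_eq' q]
        rfl
      rw [QuotientGroup.eq] at hq
      have ht := hc _ hq
      rw [← mul_smul]
      have e : (l • q).out = (l * q.out) * ((l * q.out)⁻¹ * (l • q).out) := by group
      rw [e, mul_smul (l * q.out), ht]
    rw [Finset.prod_congr rfl (fun q _ => h1 q)]
    exact Equiv.prod_comp (MulAction.toPerm l) (fun q : L ⧸ (T : Subgroup L) => q.out • c)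
  -- c' ≡ c^k mod N
  have hmod : c' * (c ^ k)⁻¹ ∈ N := by
    have e : c' * (c ^ k)⁻¹ = ∏ q : L ⧸ (T : Subgroup L), ((q.out) • c) * c⁻¹ := by
      rw [Finset.prod_mul_distrib, Finset.prod_const, Finset.card_univ, ← hk, inv_pow]
    rw [e]
    exact Subgroup.prod_mem _ (fun q _ => htriv _ _)
  -- c^(p^e) ∈ N
  obtain ⟨e, he⟩ := hquot (c : M ⧸ N)
  have hw : c ^ (p ^ e) ∈ N := by
    rw [← QuotientGroup.eq_one_iff]
    exact he
  -- k coprime to p^e
  have hkidx : k = (T : Subgroup L).index := by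
    rw [hk, Subgroup.index, Nat.card_eq_fintype_card]
  have hcop : Nat.Coprime k (p ^ e) := by
    apply Nat.Coprime.pow_right
    rw [Nat.coprime_comm]
    apply (Nat.Prime.coprime_iff_not_dvd Fact.out).mpr
    rw [hkidx]
    exact T.not_dvd_index
  have hbez : (1 : ℤ) = (k : ℤ) * Nat.gcdA k (p ^ e) + ((p ^ e : ℕ) : ℤ) * Nat.gcdB k (p ^ e) := by
    have := Nat.gcd_eq_gcd_ab k (p ^ e)
    rw [hcop] at this
    exact_mod_cast this
  set x := Nat.gcdA k (p ^ e) with hx
  set y := Nat.gcdB k (p ^ e) with hy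
  -- d = c^k * c'⁻¹ ∈ N
  have hd : c ^ k * c'⁻¹ ∈ N := by
    have := N.inv_mem hmod
    rwa [mul_inv_rev, inv_inv] at this
  have hcdecomp : c = ((c ^ k * c'⁻¹) ^ x * (c ^ (p ^ e)) ^ y) * c' ^ x := by
    have h1 : c = c ^ (1 : ℤ) := by simp
    have h2 : c ^ (1 : ℤ) = (c ^ k) ^ x * (c ^ (p ^ e)) ^ y := by
      rw [hbez, zpow_add, zpow_mul, zpow_mul, zpow_natCast, zpow_natCast]
    rw [mul_zpow, inv_zpow]
    calc c = (c ^ k) ^ x * (c ^ (p ^ e)) ^ y := h1.trans h2
      _ = (c ^ k) ^ x * (c' ^ x)⁻¹ * (c ^ p ^ e) ^ y * c' ^ x := by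
        rw [mul_assoc ((c ^ k) ^ x), mul_comm ((c' ^ x)⁻¹), mul_assoc, mul_assoc, inv_mul_cancel, mul_one]
  refine ⟨n * ((c ^ k * c'⁻¹) ^ x * (c ^ (p ^ e)) ^ y), ?_, c' ^ x, ?_, ?_⟩
  · exact N.mul_mem hn (N.mul_mem (N.zpow_mem hd x) (N.zpow_mem hw y))
  · intro l
    rw [smul_zpow', hfix]
  · rw [mul_assoc, ← hcdecomp]

end Cfsg.Agent.S1940
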