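import Cfsg.Statements.S1944
import Mathlib
import Cfsg.Agent.Lib.Helper49.PPrimeP
import Cfsg.Agent.Lib.Helper49.Trace

set_option autoImplicit false
open Cfsg

namespace Cfsg.Agent.S1944

/-- Let S be a Sylow p-subgroup of the finite group G and suppose that the centre Z(S) lies in O_{p',p}(G). The elements of S each of which is its only G-conjugate in S form a subgroup W of Z(S); W is then a direct factor of Z(S): there is a subgroup K of Z(S) with W ∩ K = 1 and WK = Z(S). -/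
theorem result {G : Type*} [Group G] [Finite G] {p : ℕ} [Fact p.Prime] (S : Sylow p G)
    (hZ : ((S : Subgroup G) ⊓ Subgroup.centralizer ((S : Subgroup G) : Set G)) ≤ Cfsg.pPrimePCore p G) :
    ∃ W K : Subgroup G, (∀ x : G, x ∈ W ↔ (x ∈ (S : Subgroup G) ∧ ∀ g : G, g * x * g⁻¹ ∈ (S : Subgroup G) → g * x * g⁻¹ = x)) ∧
      K ≤ ((S : Subgroup G) ⊓ Subgroup.centralizer ((S : Subgroup G) : Set G)) ∧ W ⊓ K = ⊥ ∧ W ⊔ K = ((S : Subgroup G) ⊓ Subgroup.centralizer ((S : Subgroup G) : Set G)) := by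
  have hOn : (Cfsg.pPrimeCore p G).Normal := Cfsg.Agent.Lib.Helper22.pPrimeCore_normal' p G
  have hcop := Cfsg.Agent.Lib.Helper22.card_pPrimeCore_coprime p G
  have hSN := Cfsg.Agent.Lib.Helper49.sylow_le_normalizer_inf_pPrimePCore S
  have hF := Cfsg.Agent.Lib.Helper49.normalizer_inf_pPrimePCore_sup S
  -- the weakly closed elements
  have hW : ∀ x : G, x ∈ (S : Subgroup G) ⊓ Subgroup.centralizer
      ((Subgroup.normalizer (((S : Subgroup G) ⊓ Cfsg.pPrimePCore p G : Subgroup G) : Set G) :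
        Subgroup G) : Set G) ↔
      (x ∈ (S : Subgroup G) ∧ ∀ g : G, g * x * g⁻¹ ∈ (S : Subgroup G) → g * x * g⁻¹ = x) := by
    intro x
    constructor
    · rintro ⟨hxS, hxC⟩
      refine ⟨hxS, ?_⟩
      intro g hg
      have hgmem : g ∈ ((Cfsg.pPrimeCore p G ⊔ Subgroup.normalizer
          (((S : Subgroup G) ⊓ Cfsg.pPrimePCore p G : Subgroup G) : Set G) : Subgroup G) : Set G) := by
        rw [sup_comm, hF]; trivial
      rw [Subgroup.normal_mul] at hgmem
      obtain ⟨o, ho, n, hn, rfl⟩ := Set.mem_mul.mp hgmem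
      have h1 : n * x * n⁻¹ = x := by
        rw [Subgroup.mem_centralizer_iff.mp hxC n hn]; group
      have h2 : o * n * x * (o * n)⁻¹ = o * x * o⁻¹ := by
        have : o * n * x * (o * n)⁻¹ = o * (n * x * n⁻¹) * o⁻¹ := by group
        rw [this, h1]
      rw [h2] at hg ⊢
      have h5 : o * x * o⁻¹ * x⁻¹ ∈ (S : Subgroup G) :=
        Subgroup.mul_mem _ hg (Subgroup.inv_mem _ hxS)
      have h6 : o * x * o⁻¹ * x⁻¹ ∈ Cfsg.pPrimeCore p G := by
        have h7 : o * x * o⁻¹ * x⁻¹ = o * (x * o⁻¹ * x⁻¹) := by group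
        rw [h7]
        exact Subgroup.mul_mem _ ho (hOn.conj_mem _ (Subgroup.inv_mem _ ho) x)
      have h8 := Cfsg.Agent.Lib.Helper49.eq_one_of_mem_pgroup_of_mem_coprime hcop S.isPGroup' h5 h6
      have h9 : o * x * o⁻¹ = (o * x * o⁻¹ * x⁻¹) * x := by group
      rw [h9, h8, one_mul]
    · rintro ⟨hxS, hx⟩
      refine ⟨hxS, ?_⟩
      have hxCS : x ∈ Subgroup.centralizer ((S : Subgroup G) : Set G) := by
        rw [Subgroup.mem_centralizer_iff]
        intro s hs
        have h1 := hx s (Subgroup.mul_mem _ (Subgroup.mul_mem _ hs hxS) (Subgroup.inv_mem _ hs))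
        have h2 : s * x = (s * x * s⁻¹) * s := by group
        rw [h2, h1]
      have hxP : x ∈ (S : Subgroup G) ⊓ Cfsg.pPrimePCore p G := ⟨hxS, hZ ⟨hxS, hxCS⟩⟩
      refine Subgroup.mem_centralizer_iff.mpr ?_
      intro n hn
      have h1 : n * x * n⁻¹ ∈ (S : Subgroup G) := ((Subgroup.mem_normalizer_iff.mp hn x).mp hxP).1
      have h2 := hx n h1
      have h3 : n * x = (n * x * n⁻¹) * n := by group
      rw [h3, h2]
  have hidx : ¬ p ∣ (S : Subgroup G).relIndex (Subgroup.normalizer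
      (((S : Subgroup G) ⊓ Cfsg.pPrimePCore p G : Subgroup G) : Set G)) := by
    intro hd
    exact S.not_dvd_index (dvd_trans hd (Dvd.intro _ (Subgroup.relIndex_mul_index hSN)))
  obtain ⟨K, hK1, hK2, hK3⟩ := Cfsg.Agent.Lib.Helper49.exists_complement_of_trace (p := p)
    (S : Subgroup G)
    (Subgroup.normalizer (((S : Subgroup G) ⊓ Cfsg.pPrimePCore p G : Subgroup G) : Set G))
    (((S : Subgroup G) ⊓ Cfsg.pPrimePCore p G) ⊓ Subgroup.centralizer
      (((S : Subgroup G) ⊓ Cfsg.pPrimePCore p G : Subgroup G) : Set G))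
    ((S : Subgroup G) ⊓ Subgroup.centralizer ((S : Subgroup G) : Set G))
    ((S : Subgroup G) ⊓ Subgroup.centralizer
      ((Subgroup.normalizer (((S : Subgroup G) ⊓ Cfsg.pPrimePCore p G : Subgroup G) : Set G) :
        Subgroup G) : Set G))
    S.isPGroup' hidx
    (inf_le_left.trans inf_le_left)
    (by
      rintro a ⟨haP, -⟩ b ⟨-, hbC⟩
      exact Subgroup.mem_centralizer_iff.mp hbC a haP)
    (by
      rintro n hn a ⟨haP, haC⟩
      refine ⟨(Subgroup.mem_normalizer_iff.mp hn a).mp haP, ?_⟩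
      refine Subgroup.mem_centralizer_iff.mpr ?_
      intro y hy
      have h1 : n⁻¹ * y * n⁻¹⁻¹ ∈ (S : Subgroup G) ⊓ Cfsg.pPrimePCore p G :=
        (Subgroup.mem_normalizer_iff.mp (Subgroup.inv_mem _ hn) y).mp hy
      have h2 := Subgroup.mem_centralizer_iff.mp haC _ h1
      have h3 : y * (n * a * n⁻¹) = n * ((n⁻¹ * y * n⁻¹⁻¹) * a) * n⁻¹ := by group
      rw [h3, h2]; group)
    (by
      rintro z ⟨hzS, hzC⟩
      exact ⟨⟨hzS, hZ ⟨hzS, hzC⟩⟩, Subgroup.centralizer_le inf_le_left hzC⟩)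
    (by
      rintro z ⟨-, hzC⟩ s hs
      exact Subgroup.mem_centralizer_iff.mp hzC s hs)
    (by
      rintro w ⟨hwS, hwC⟩
      exact ⟨hwS, Subgroup.centralizer_le hSN hwC⟩)
    (by
      rintro w ⟨-, hwC⟩ n hn
      exact Subgroup.mem_centralizer_iff.mp hwC n hn)
    (by
      rintro a ⟨⟨haS, -⟩, -⟩ ha
      refine ⟨haS, ?_⟩
      refine Subgroup.mem_centralizer_iff.mpr ?_
      intro n hn
      have h1 := ha n hn
      have h3 : n * a = (n * a * n⁻¹) * n := by group
      rw [h3, h1])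
  exact ⟨_, K, hW, hK1, hK2, hK3⟩

end Cfsg.Agent.S1944
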