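-- Statement S1946 (helper1).
import Mathlib
import Cfsg.Statements.S1946
import Cfsg.Agent.Lib.Helper54.Frobenius
import Cfsg.Agent.Lib.Helper54.OmegaAut
import Cfsg.Agent.Lib.Helper1.QuatSylow

set_option autoImplicit false
open Cfsg

namespace Cfsg.Agent.S1946

open Cfsg.Agent.Lib.Helper1 Cfsg.Agent.Lib.Helper54

/-- A `p'`-element normalizing a `p`-subgroup `Q` and commuting with its elements of order
dividing `p` (dividing `4` if `p = 2`) centralizes `Q`. -/
theorem mem_centralizer_of_fix_omega {G : Type*} [Group G] [Finite G] {p : ℕ} [hpF : Fact p.Prime]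
    (Q : Subgroup G) (hQ : IsPGroup p Q) (g : G) (hg : g ∈ Subgroup.normalizer (Q : Set G))
    (hgp : (orderOf g).Coprime p)
    (hfix : ∀ a ∈ Q, (a ^ p = 1 ∨ (p = 2 ∧ a ^ 4 = 1)) → g * a = a * g) :
    g ∈ Subgroup.centralizer (Q : Set G) := by
  obtain ⟨α, hα⟩ : ∃ α : MulAut Q, α = Subgroup.normalizerMonoidHom Q ⟨g, hg⟩ := ⟨_, rfl⟩
  have hαapp : ∀ q : Q, ((α q : Q) : G) = g * q * g⁻¹ := by
    intro q; rw [hα]; rfl
  have hαord : (orderOf α).Coprime p := by
    have h1 : orderOf α ∣ orderOf (⟨g, hg⟩ : Subgroup.normalizer (Q : Set G)) := by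
      rw [hα]; exact orderOf_map_dvd _ _
    rw [Subgroup.orderOf_mk] at h1
    exact Nat.Coprime.coprime_dvd_left h1 hgp
  have hfix' : ∀ x : Q, ((x : G) ^ p = 1 ∨ (p = 2 ∧ (x : G) ^ 4 = 1)) → α x = x := by
    intro x hx
    apply Subtype.ext
    rw [hαapp, hfix x x.2 hx]
    group
  have hα1 : α = 1 := by
    rcases eq_or_ne p 2 with hp2 | hp2
    · subst hp2
      apply aut_eq_one_of_fix_omega hQ α hαord 2 (by norm_num) omega_exponent_two
      intro x hx
      apply hfix' x
      right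
      refine ⟨rfl, ?_⟩
      have h1 := congrArg Subtype.val hx
      simpa using h1
    · apply aut_eq_one_of_fix_omega hQ α hαord 1 le_rfl (omega_exponent_odd hpF.out hp2)
      intro x hx
      apply hfix' x
      left
      have h1 := congrArg Subtype.val hx
      simpa using h1
  rw [Subgroup.mem_centralizer_iff]
  intro q hq
  have h1 := hαapp ⟨q, hq⟩
  rw [hα1] at h1
  have h2 : q = g * q * g⁻¹ := h1
  calc q * g = (g * q * g⁻¹) * g := by rw [← h2]
    _ = g * q := by group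

/-- The key induction: if `P` controls fusion of its elements of order `p` (or `4`), every
`p'`-element normalizing a subgroup `Q ≤ P` centralizes it. -/
theorem key {G : Type*} [Group G] [Finite G] {p : ℕ} [hpF : Fact p.Prime] (P : Sylow p G)
    (hfus : ∀ a ∈ (P : Subgroup G), (a ^ p = 1 ∨ (p = 2 ∧ a ^ 4 = 1)) → ∀ g : G,
      g * a * g⁻¹ ∈ (P : Subgroup G) → ∃ x ∈ (P : Subgroup G), g * a * g⁻¹ = x * a * x⁻¹) :
    ∀ (n : ℕ) (Q : Subgroup G), Q ≤ (P : Subgroup G) → Nat.card Q = n →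
      ∀ g ∈ Subgroup.normalizer (Q : Set G), (orderOf g).Coprime p →
        g ∈ Subgroup.centralizer (Q : Set G) := by
  classical
  intro n
  induction n using Nat.strong_induction_on with
  | _ n ih =>
  intro Q hQP hn g hg hgp
  have hQp : IsPGroup p Q := P.isPGroup'.to_le hQP
  have hconjQ : ∀ q ∈ Q, g * q * g⁻¹ ∈ Q := fun q hq => (Subgroup.mem_normalizer_iff.mp hg q).mp hq
  -- upper central series of `P`, inside `G`
  obtain ⟨Z, hZ⟩ : ∃ Z : ℕ → Subgroup G,
      Z = fun i => (Subgroup.upperCentralSeries (↥(P : Subgroup G)) i).map (P : Subgroup G).subtype :=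
    ⟨_, rfl⟩
  have hnil : Group.IsNilpotent (↥(P : Subgroup G)) := P.isPGroup'.isNilpotent
  obtain ⟨N, hN⟩ := hnil.nilpotent
  have hex : ∃ i, Q ≤ Z i := by
    refine ⟨N, ?_⟩
    intro q hq
    rw [hZ]
    exact ⟨⟨q, hQP hq⟩, by rw [hN]; trivial, rfl⟩
  obtain ⟨c, hc⟩ : ∃ c, c = Nat.find hex := ⟨_, rfl⟩
  have hcQ : Q ≤ Z c := hc ▸ Nat.find_spec hex
  rcases Nat.eq_zero_or_pos c with hc0 | hcpos
  · -- Q is trivial
    rw [hc0, hZ] at hcQ
    rw [Subgroup.mem_centralizer_iff]
    intro q hq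
    obtain ⟨y, hy, hyq⟩ := Subgroup.mem_map.mp (hcQ hq)
    rw [Subgroup.upperCentralSeries_zero, Subgroup.mem_bot] at hy
    rw [← hyq, hy]; simp
  · obtain ⟨c', rfl⟩ : ∃ c', c = c' + 1 := ⟨c - 1, by omega⟩
    have hc'Q : ¬ Q ≤ Z c' := by
      have := Nat.find_min hex (m := c') (by omega)
      exact this
    obtain ⟨M, hM⟩ : ∃ M : Subgroup G, M = Q ⊓ Z c' := ⟨_, rfl⟩
    have hMQ : M ≤ Q := hM ▸ inf_le_left
    have hMlt : Nat.card M < n := by
      rw [← hn]
      apply card_lt_card_of_lt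
      refine lt_of_le_of_ne hMQ ?_
      intro h
      apply hc'Q
      rw [← h, hM]; exact inf_le_right
    -- conjugation by `Q` preserves `M`
    have hMconj : ∀ k ∈ Q, ∀ m ∈ M, k * m * k⁻¹ ∈ M := by
      intro k hk m hm
      rw [hM] at hm ⊢
      refine ⟨Q.mul_mem (Q.mul_mem hk hm.1) (Q.inv_mem hk), ?_⟩
      have hm2 := hm.2
      rw [hZ] at hm2 ⊢
      obtain ⟨y, hy, hym⟩ := Subgroup.mem_map.mp hm2
      refine Subgroup.mem_map.mpr ⟨⟨k, hQP hk⟩ * y * ⟨k, hQP hk⟩⁻¹, ?_, ?_⟩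
      · exact (inferInstance : (Subgroup.upperCentralSeries (↥(P : Subgroup G)) c').Normal).conj_mem
          y hy _
      · rw [← hym]; rfl
    -- the key property on generators
    have hkey : ∀ a ∈ Q, (a ^ p = 1 ∨ (p = 2 ∧ a ^ 4 = 1)) → g * a * g⁻¹ * a⁻¹ ∈ M := by
      intro a ha hΩ
      obtain ⟨x, hx, hxa⟩ := hfus a (hQP ha) hΩ g (hQP (hconjQ a ha))
      rw [hM]
      refine ⟨Q.mul_mem (hconjQ a ha) (Q.inv_mem ha), ?_⟩
      have ha2 := hcQ ha
      rw [hZ] at ha2 ⊢
      obtain ⟨y, hy, hya⟩ := Subgroup.mem_map.mp ha2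
      have h1 := Subgroup.mem_upperCentralSeries_succ_iff.mp hy ⟨x, hx⟩
      have h2 := Subgroup.inv_mem _ h1
      refine Subgroup.mem_map.mpr ⟨_, h2, ?_⟩
      rw [hxa, commutatorElement_def, ← hya]
      show ((y : G) * x * (y : G)⁻¹ * x⁻¹)⁻¹ = x * (y : G) * x⁻¹ * (y : G)⁻¹
      group
    obtain ⟨W, hW⟩ : ∃ W : Subgroup G,
        W = Subgroup.closure {a : G | a ∈ Q ∧ (a ^ p = 1 ∨ (p = 2 ∧ a ^ 4 = 1))} := ⟨_, rfl⟩
    have hWQ : W ≤ Q := by
      rw [hW, Subgroup.closure_le]
      intro a ha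
      exact ha.1
    have hWgen : ∀ a ∈ Q, (a ^ p = 1 ∨ (p = 2 ∧ a ^ 4 = 1)) → a ∈ W := by
      intro a ha hΩ
      rw [hW]
      exact Subgroup.subset_closure ⟨ha, hΩ⟩
    -- `g` normalizes `W`
    have hWg : g ∈ Subgroup.normalizer (W : Set G) := by
      apply mem_normalizer_of_conj_mem
      intro w hw
      rw [hW] at hw
      induction hw using Subgroup.closure_induction with
      | mem a ha =>
        apply hWgen _ (hconjQ a ha.1)
        rcases ha.2 with h | ⟨h2, h4⟩
        · left; rw [conj_pow, h]; group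
        · right; refine ⟨h2, ?_⟩; rw [conj_pow, h4]; group
      | one => simp
      | mul a b _ _ iha ihb =>
        have h1 : g * (a * b) * g⁻¹ = (g * a * g⁻¹) * (g * b * g⁻¹) := by group
        rw [h1]; exact W.mul_mem iha ihb
      | inv a _ iha =>
        have h1 : g * a⁻¹ * g⁻¹ = (g * a * g⁻¹)⁻¹ := by group
        rw [h1]; exact W.inv_mem iha
    by_cases hWeq : W = Q
    · -- `g` acts trivially on `Q` modulo `M`
      have hall' : ∀ k ∈ Subgroup.closure {a : G | a ∈ Q ∧ (a ^ p = 1 ∨ (p = 2 ∧ a ^ 4 = 1))},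
          k ∈ Q ∧ g * k * g⁻¹ * k⁻¹ ∈ M := by
        intro k hkW
        induction hkW using Subgroup.closure_induction with
        | mem a ha => exact ⟨ha.1, hkey a ha.1 ha.2⟩
        | one => exact ⟨Q.one_mem, by simp⟩
        | mul a b _ _ iha ihb =>
          refine ⟨Q.mul_mem iha.1 ihb.1, ?_⟩
          have h1 : g * (a * b) * g⁻¹ * (a * b)⁻¹ =
              (g * a * g⁻¹ * a⁻¹) * (a * (g * b * g⁻¹ * b⁻¹) * a⁻¹) := by group
          rw [h1]
          exact M.mul_mem iha.2 (hMconj a iha.1 _ ihb.2)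
        | inv a _ iha =>
          refine ⟨Q.inv_mem iha.1, ?_⟩
          have h1 : g * a⁻¹ * g⁻¹ * a⁻¹⁻¹ = a⁻¹ * (g * a * g⁻¹ * a⁻¹)⁻¹ * a⁻¹⁻¹ := by group
          rw [h1]
          exact hMconj a⁻¹ (Q.inv_mem iha.1) _ (M.inv_mem iha.2)
      have hall : ∀ k ∈ Q, g * k * g⁻¹ * k⁻¹ ∈ M := by
        intro k hk
        have hkW : k ∈ W := hWeq ▸ hk
        rw [hW] at hkW
        exact (hall' k hkW).2
      -- `g` normalizes `M`, hence centralizes it by induction
      have hMg : g ∈ Subgroup.normalizer (M : Set G) := by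
        apply mem_normalizer_of_conj_mem
        intro m hm
        have h1 := M.mul_mem (hall m (hMQ hm)) hm
        have h2 : g * m * g⁻¹ * m⁻¹ * m = g * m * g⁻¹ := by group
        rwa [h2] at h1
      have hMc := ih (Nat.card M) hMlt M (hMQ.trans hQP) rfl g hMg hgp
      rw [Subgroup.mem_centralizer_iff]
      intro k hk
      obtain ⟨m, hm⟩ : ∃ m, m = g * k * g⁻¹ * k⁻¹ := ⟨_, rfl⟩
      have hmM : m ∈ M := hm ▸ hall k hk
      have hmg : m * g = g * m := Subgroup.mem_centralizer_iff.mp hMc m hmM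
      have hgk : g * k * g⁻¹ = m * k := by rw [hm]; group
      have hpow : ∀ j : ℕ, g ^ j * k * (g ^ j)⁻¹ = m ^ j * k := by
        intro j
        induction j with
        | zero => simp
        | succ j ihj =>
          have h1 : g ^ (j + 1) * k * (g ^ (j + 1))⁻¹ = g * (g ^ j * k * (g ^ j)⁻¹) * g⁻¹ := by
            rw [pow_succ']; group
          have hcomm : Commute g (m ^ j) := (Commute.pow_right (show Commute g m from hmg.symm) j)
          rw [h1, ihj]
          calc g * (m ^ j * k) * g⁻¹ = (g * m ^ j) * (k * g⁻¹) := by group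
            _ = (m ^ j * g) * (k * g⁻¹) := by rw [hcomm.eq]
            _ = m ^ j * (g * k * g⁻¹) := by group
            _ = m ^ j * (m * k) := by rw [hgk]
            _ = m ^ (j + 1) * k := by rw [pow_succ]; group
      have h3 := hpow (orderOf g)
      rw [pow_orderOf_eq_one] at h3
      have h4 : m ^ orderOf g = 1 := by
        have h5 : k = m ^ orderOf g * k := by simpa using h3
        exact (mul_eq_right.mp h5.symm)
      have h6 : orderOf m ∣ orderOf g := orderOf_dvd_of_pow_eq_one h4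
      have hm1 : m = 1 := by
        obtain ⟨e, he⟩ := hQp ⟨m, hMQ hmM⟩
        have he' : m ^ p ^ e = 1 := by simpa using congrArg Subtype.val he
        have h7 : orderOf m ∣ p ^ e := orderOf_dvd_of_pow_eq_one he'
        have h8 := Nat.dvd_gcd h6 h7
        rw [(Nat.Coprime.pow_right e hgp).gcd_eq_one] at h8
        exact orderOf_eq_one_iff.mp (Nat.dvd_one.mp h8)
      rw [hm1, one_mul] at hgk
      calc k * g = (g * k * g⁻¹) * g := by rw [hgk]
        _ = g * k := by group
    · -- `W < Q`: induction gives that `g` centralizes `W`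
      have hWlt : Nat.card W < n := by
        rw [← hn]
        exact card_lt_card_of_lt (lt_of_le_of_ne hWQ hWeq)
      have hWc := ih (Nat.card W) hWlt W (hWQ.trans hQP) rfl g hWg hgp
      apply mem_centralizer_of_fix_omega Q hQp g hg hgp
      intro a ha hΩ
      exact (Subgroup.mem_centralizer_iff.mp hWc a (hWgen a ha hΩ)).symm

theorem result {G : Type*} [Group G] [Finite G] {p : ℕ} [Fact p.Prime] (P : Sylow p G) :
    Cfsg.HasNormalPComplement p G ↔
      ∀ a ∈ (P : Subgroup G), (a ^ p = 1 ∨ (p = 2 ∧ a ^ 4 = 1)) → ∀ g : G, g * a * g⁻¹ ∈ (P : Subgroup G) →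
        ∃ x ∈ (P : Subgroup G), g * a * g⁻¹ = x * a * x⁻¹ := by
  rw [hasNormalPComplement_iff_frobeniusCondition]
  constructor
  · intro hF a ha _ g hga
    exact fusion_control hF P ha hga
  · intro hfus
    apply frobeniusCondition_of_le_sylow P
    intro Q hQP g hg hgp
    exact key P hfus (Nat.card Q) Q hQP rfl g hg hgp

end Cfsg.Agent.S1946
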