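import Mathlib
import Cfsg.Statements.S1947
import Cfsg.Agent.Lib.Helper54.OmegaComplement

set_option autoImplicit false
open Cfsg

namespace Cfsg.Agent.S1947

open Cfsg.Agent.Lib.Helper54

/-- Let G be a finite group and p a prime. If every element of G of order dividing p (dividing 4 when p = 2) lies in some fixed term Z_n(G) of the upper central series, then G has a normal p-complement. -/
theorem result {G : Type*} [Group G] [Finite G] {p : ℕ} [Fact p.Prime] (n : ℕ)
    (h : ∀ a : G, (a ^ p = 1 ∨ (p = 2 ∧ a ^ 4 = 1)) → a ∈ Subgroup.upperCentralSeries G n) : Cfsg.HasNormalPComplement p G := by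
  rw [hasNormalPComplement_iff_frobeniusCondition]
  by_cases hp2 : p = 2
  · apply frobeniusCondition_of_fix_omega 2 (by norm_num) (by rw [hp2]; exact omega_exponent_two)
    intro Q hQ g hg hgp x hx hxp
    apply conj_eq_of_mem_upperCentralSeries hQ hg hgp n x hx
    apply h
    right
    refine ⟨hp2, ?_⟩
    rw [hp2] at hxp
    simpa using hxp
  · apply frobeniusCondition_of_fix_omega 1 le_rfl (omega_exponent_odd Fact.out hp2)
    intro Q hQ g hg hgp x hx hxp
    apply conj_eq_of_mem_upperCentralSeries hQ hg hgp n x hx
    apply h
    left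
    simpa using hxp

end Cfsg.Agent.S1947
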