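import Cfsg.Statements.S1948
import Mathlib
import Cfsg.Agent.Lib.Helper49.PPrimeP

set_option autoImplicit false
open Cfsg

namespace Cfsg.Agent.S1948

/-- Let S be a Sylow p-subgroup of the finite group G. Then G = N_G(S)·O_{p'}(G) if and only if G is p-constrained and N_G(S) controls fusion in S, in the sense that whenever a subgroup Q of S has a conjugate g Q g⁻¹ inside S, the element g is a product n c with n normalizing S and c centralizing Q. -/
theorem result {G : Type*} [Group G] [Finite G] {p : ℕ} [Fact p.Prime] (S : Sylow p G) :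
    Subgroup.normalizer ((S : Subgroup G) : Set G) ⊔ Cfsg.pPrimeCore p G = ⊤ ↔
      (Cfsg.IsPConstrained p G ∧
        ∀ Q : Subgroup G, Q ≤ (S : Subgroup G) → ∀ g : G, Q.map (MulAut.conj g).toMonoidHom ≤ (S : Subgroup G) →
          ∃ n ∈ Subgroup.normalizer ((S : Subgroup G) : Set G), ∃ c ∈ Subgroup.centralizer (Q : Set G), g = n * c) := by
  have hOn : (Cfsg.pPrimeCore p G).Normal := Cfsg.Agent.Lib.Helper22.pPrimeCore_normal' p G
  have hcop := Cfsg.Agent.Lib.Helper22.card_pPrimeCore_coprime p G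
  have hObar : Cfsg.pPrimeCore p (G ⧸ Cfsg.pPrimeCore p G) = ⊥ :=
    Cfsg.Agent.Lib.Helper22.pPrimeCore_quotient_eq_bot p G
  have hker : (QuotientGroup.mk' (Cfsg.pPrimeCore p G)).ker = Cfsg.pPrimeCore p G :=
    QuotientGroup.ker_mk' _
  have hsurj := QuotientGroup.mk'_surjective (Cfsg.pPrimeCore p G)
  constructor
  · intro hsup
    refine ⟨?_, ?_⟩
    · -- p-constrained
      have h1 : (Subgroup.normalizer ((S : Subgroup G) : Set G)).map
          (QuotientGroup.mk' (Cfsg.pPrimeCore p G)) = ⊤ := by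
        have h2 : (Subgroup.normalizer ((S : Subgroup G) : Set G) ⊔ Cfsg.pPrimeCore p G).map
            (QuotientGroup.mk' (Cfsg.pPrimeCore p G)) = ⊤ := by
          rw [hsup]
          exact Subgroup.map_top_of_surjective _ hsurj
        rw [Subgroup.map_sup, (Subgroup.map_eq_bot_iff _).mpr (le_of_eq hker.symm), sup_bot_eq] at h2
        exact h2
      have h3 : ((S : Subgroup G).map (QuotientGroup.mk' (Cfsg.pPrimeCore p G))).Normal := by
        rw [← Subgroup.normalizer_eq_top_iff, eq_top_iff, ← h1]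
        exact Subgroup.le_normalizer_map _
      have hchar := Cfsg.Agent.Lib.Helper49.charp_of_normal_sylow hObar
        (S.mapSurjective hsurj) h3
      exact Cfsg.Agent.Lib.Helper49.isPConstrained_of_surjective_charp
        (QuotientGroup.mk' (Cfsg.pPrimeCore p G)) hsurj (by rw [hker]; exact hcop) hchar
    · intro Q hQS g hg
      have hgmem : g ∈ ((Subgroup.normalizer ((S : Subgroup G) : Set G) ⊔ Cfsg.pPrimeCore p G :
          Subgroup G) : Set G) := by
        rw [hsup]; trivial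
      rw [Subgroup.mul_normal] at hgmem
      obtain ⟨n, hn, o, ho, rfl⟩ := Set.mem_mul.mp hgmem
      refine ⟨n, hn, o, ?_, rfl⟩
      rw [Subgroup.mem_centralizer_iff]
      intro x hx
      have h1 : (n * o) * x * (n * o)⁻¹ ∈ (S : Subgroup G) := hg ⟨x, hx, rfl⟩
      have h2 : o * x * o⁻¹ ∈ (S : Subgroup G) := by
        have h3 := (Subgroup.mem_normalizer_iff.mp (Subgroup.inv_mem _ hn) _).mp h1
        have h4 : n⁻¹ * (n * o * x * (n * o)⁻¹) * n⁻¹⁻¹ = o * x * o⁻¹ := by group
        rwa [h4] at h3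
      have h5 : o * x * o⁻¹ * x⁻¹ ∈ (S : Subgroup G) :=
        Subgroup.mul_mem _ h2 (Subgroup.inv_mem _ (hQS hx))
      have h6 : o * x * o⁻¹ * x⁻¹ ∈ Cfsg.pPrimeCore p G := by
        have h7 : o * x * o⁻¹ * x⁻¹ = o * (x * o⁻¹ * x⁻¹) := by group
        rw [h7]
        exact Subgroup.mul_mem _ ho (hOn.conj_mem _ (Subgroup.inv_mem _ ho) x)
      have h8 := Cfsg.Agent.Lib.Helper49.eq_one_of_mem_pgroup_of_mem_coprime hcop S.isPGroup' h5 h6
      have h9 : o * x = (o * x * o⁻¹ * x⁻¹) * (x * o) := by group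
      rw [h9, h8, one_mul]
  · rintro ⟨hc, hf⟩
    have hF := Cfsg.Agent.Lib.Helper49.normalizer_inf_pPrimePCore_sup S
    rw [eq_top_iff, ← hF]
    refine sup_le ?_ le_sup_right
    intro g hg
    have hconj : ((S : Subgroup G) ⊓ Cfsg.pPrimePCore p G).map (MulAut.conj g).toMonoidHom ≤
        (S : Subgroup G) := by
      rintro _ ⟨x, hx, rfl⟩
      exact ((Subgroup.mem_normalizer_iff.mp hg x).mp hx).1
    obtain ⟨n, hn, c, hcc, rfl⟩ := hf _ inf_le_left g hconj
    obtain ⟨Q, hQ⟩ := Cfsg.Agent.Lib.Helper49.exists_sylow_pPrimePCore S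
    have h1 := hc Q
    rw [hQ] at h1
    have h2 : c ∈ Cfsg.pPrimePCore p G := h1 hcc
    rw [Cfsg.Agent.Lib.Helper49.pPrimePCore_eq_sup S] at h2
    have h3 : ((S : Subgroup G) ⊓ Cfsg.pPrimePCore p G) ⊔ Cfsg.pPrimeCore p G ≤
        Subgroup.normalizer ((S : Subgroup G) : Set G) ⊔ Cfsg.pPrimeCore p G :=
      sup_le_sup_right (inf_le_left.trans Subgroup.le_normalizer) _
    exact Subgroup.mul_mem _ (Subgroup.mem_sup_left hn) (h3 h2)

end Cfsg.Agent.S1948
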