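import Cfsg.Statements.S2007
import Cfsg.Agent.Lib.Helper34.ConjAux
import Cfsg.Agent.Lib.Helper34.SylowAux
import Cfsg.Agent.Lib.Helper34.PComplement

set_option autoImplicit false
open Cfsg

namespace Cfsg.Agent.S2007

/-- Abstract form: `Cn ⊴ N`, the `p`-subgroup `S'` of `N` has index prime to `p`, the elements of
`S' ∩ Cn` lie in a set `T` centralized by `Cn`, and every `p'`-element of `N` lies in `Cn`. -/
theorem core {G : Type*} [Group G] [Finite G] {p : ℕ} [Fact p.Prime] (N Cn : Subgroup G)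
    [hCnormal : (Cn.subgroupOf N).Normal] (S' : Subgroup N) (hS'p : IsPGroup p S')
    (hS'i : ¬ p ∣ S'.index) (T : Subgroup G)
    (hT : ∀ x ∈ S', (x : G) ∈ Cn → (x : G) ∈ T)
    (hcomm : ∀ c ∈ Cn, ∀ t ∈ T, t * c = c * t)
    (hN : ∀ g : N, (orderOf g).Coprime p → (g : G) ∈ Cn) :
    Cfsg.HasNormalPComplement p ↥N := by
  classical
  -- Step 1: every Sylow p-subgroup of C' is central in C'
  have hcent : ∀ Z : Sylow p ↥(Cn.subgroupOf N),
      (Z : Subgroup ↥(Cn.subgroupOf N)) ≤ Subgroup.center ↥(Cn.subgroupOf N) := by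
    intro Z x hx
    have hBp : IsPGroup p ((Z : Subgroup ↥(Cn.subgroupOf N)).map (Cn.subgroupOf N).subtype) :=
      Z.isPGroup'.map _
    obtain ⟨n, hn⟩ := Lib.Helper34.exists_conj_le_of_index_coprime _ hS'p hS'i _ hBp
    have hx1 := hn (x : ↥N) ⟨x, hx, rfl⟩
    have hxC : ((x : ↥N) : G) ∈ Cn := Subgroup.mem_subgroupOf.mp x.2
    have hconjC : ∀ c : ↥N, (c : G) ∈ Cn → ((n * c * n⁻¹ : ↥N) : G) ∈ Cn := by
      intro c hc
      have := hCnormal.conj_mem c (Subgroup.mem_subgroupOf.mpr hc) n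
      exact Subgroup.mem_subgroupOf.mp this
    have hxT : ((n * (x : ↥N) * n⁻¹ : ↥N) : G) ∈ T := hT _ hx1 (hconjC _ hxC)
    rw [Subgroup.mem_center_iff]
    intro c
    have hcC : ((c : ↥N) : G) ∈ Cn := Subgroup.mem_subgroupOf.mp c.2
    have hcm := hcomm _ (hconjC _ hcC) _ hxT
    apply Subtype.ext
    apply Subtype.ext
    push_cast at hcm ⊢
    have h1 : (n : G)⁻¹ * ((n : G) * ((x : ↥N) : G) * (n : G)⁻¹ *
        ((n : G) * ((c : ↥N) : G) * (n : G)⁻¹)) * (n : G) = ((x : ↥N) : G) * ((c : ↥N) : G) := by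
      group
    have h2 : (n : G)⁻¹ * ((n : G) * ((c : ↥N) : G) * (n : G)⁻¹ *
        ((n : G) * ((x : ↥N) : G) * (n : G)⁻¹)) * (n : G) = ((c : ↥N) : G) * ((x : ↥N) : G) := by
      group
    rw [← h1, ← h2, hcm]
  -- Step 2: the p'-elements of C' form a normal subgroup K₁ of C'
  obtain ⟨K₁, hK₁n, hK₁c, hK₁⟩ := Lib.Helper34.exists_normal_pPrime_of_central_sylow p hcent
  -- Step 3: its image K in N is normal, of order prime to p, with p-group quotient
  have hKnormal : (K₁.map (Cn.subgroupOf N).subtype).Normal := by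
    constructor
    rintro _ ⟨k, hk, rfl⟩ g
    have hmem := hCnormal.conj_mem (k : ↥N) k.2 g
    refine ⟨⟨_, hmem⟩, ?_, rfl⟩
    have hk' : (orderOf k).Coprime p := (hK₁ k).mp hk
    refine (hK₁ _).mpr ?_
    have h1 : orderOf (⟨g * (k : ↥N) * g⁻¹, hmem⟩ : ↥(Cn.subgroupOf N)) = orderOf k := by
      rw [← Subgroup.orderOf_coe, ← Subgroup.orderOf_coe k]
      have hsc : SemiconjBy g (k : ↥N) (g * (k : ↥N) * g⁻¹) := by
        unfold SemiconjBy; group
      exact (SemiconjBy.orderOf_eq g hsc).symm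
    rw [h1]; exact hk'
  have hKcard : (Nat.card (K₁.map (Cn.subgroupOf N).subtype)).Coprime p := by
    have : Nat.card (K₁.map (Cn.subgroupOf N).subtype) = Nat.card K₁ :=
      Subgroup.card_map_of_injective (Subgroup.subtype_injective _)
    rw [this]; exact hK₁c
  have hQ : IsPGroup p (↥N ⧸ (K₁.map (Cn.subgroupOf N).subtype)) := by
    apply Lib.Helper34.isPGroup_quotient_of_coprime_mem
    intro g hg
    have hgC := hN g hg
    refine ⟨⟨g, Subgroup.mem_subgroupOf.mpr hgC⟩, ?_, rfl⟩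
    refine (hK₁ _).mpr ?_
    rw [← Subgroup.orderOf_coe]
    exact hg
  exact Lib.Helper34.hasNormalPComplement_of_normal p _ hKcard hQ

/-- Let p be a prime, G a finite group with Sylow p-subgroup S, and T a normal subgroup of S containing C_S(T). If N_G(T)/C_G(T) is a p-group (every element of N_G(T) of order prime to p centralizes T), then N_G(T) has a normal p-complement. -/
theorem result {G : Type*} [Group G] [Finite G] {p : ℕ} [Fact p.Prime] (S : Sylow p G) (T : Subgroup G) (hTS : T ≤ (S : Subgroup G)) (hTn : (S : Subgroup G) ≤ Subgroup.normalizer ((T : Subgroup G) : Set G)) (hC : (S : Subgroup G) ⊓ Subgroup.centralizer ((T : Subgroup G) : Set G) ≤ T) (hN : ∀ g ∈ Subgroup.normalizer ((T : Subgroup G) : Set G), (orderOf g).Coprime p → g ∈ Subgroup.centralizer ((T : Subgroup G) : Set G)) : Cfsg.HasNormalPComplement p ↥(Subgroup.normalizer ((T : Subgroup G) : Set G)) := by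
  have hS'p : IsPGroup p ((S : Subgroup G).subgroupOf (Subgroup.normalizer ((T : Subgroup G) : Set G))) :=
    S.isPGroup'.comap_subtype
  have hS'i : ¬ p ∣ ((S : Subgroup G).subgroupOf (Subgroup.normalizer ((T : Subgroup G) : Set G))).index := by
    have h1 : ((S : Subgroup G).subgroupOf (Subgroup.normalizer ((T : Subgroup G) : Set G))).index ∣
        (S : Subgroup G).index :=
      Subgroup.relIndex_dvd_index_of_le (H := (S : Subgroup G))
        (K := Subgroup.normalizer ((T : Subgroup G) : Set G)) hTn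
    intro h
    exact S.not_dvd_index (dvd_trans h h1)
  refine core (Subgroup.normalizer ((T : Subgroup G) : Set G)) (Subgroup.centralizer ((T : Subgroup G) : Set G))
    _ hS'p hS'i T ?_ ?_ ?_
  · intro x hx hxC
    exact hC (Subgroup.mem_inf.mpr ⟨Subgroup.mem_subgroupOf.mp hx, hxC⟩)
  · intro c hc t ht
    exact Subgroup.mem_centralizer_iff.mp hc t ht
  · intro g hg
    exact hN (g : G) g.2 (by rw [Subgroup.orderOf_coe]; exact hg)

end Cfsg.Agent.S2007
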