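import Cfsg.Statements.S2015
import Mathlib
import Cfsg.Agent.Lib.Helper33.K5
import Cfsg.Agent.S1978

set_option autoImplicit false
universe u
open Cfsg

namespace Cfsg.Agent.S2015

/-- For p ≥ 5, every finite p-group P has a characteristic subgroup K containing Z(P), depending only on P, whose normalizer controls transfer wherever P is a Sylow subgroup: for every finite group G and every embedding ι of P onto a Sylow p-subgroup of G, the intersection of ι(P) with the derived subgroup of G equals its intersection with the derived subgroup of N_G(ι(K)). -/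
theorem result (p : ℕ) [Fact p.Prime] (hp : 5 ≤ p) (P : Type u) [Group P] [Finite P] (hP : IsPGroup p P) : ∃ K : Subgroup P, K.Characteristic ∧ Subgroup.center P ≤ K ∧ ∀ (G : Type u) [Group G] [Finite G] (ι : P →* G), Function.Injective ι → (∃ T : Sylow p G, (T : Subgroup G) = ι.range) → ι.range ⊓ commutator G = ι.range ⊓ (commutator ↥(Subgroup.normalizer ((K.map ι : Subgroup G) : Set G))).map (Subgroup.normalizer ((K.map ι : Subgroup G) : Set G)).subtype := by
  have hW := Cfsg.Agent.Lib.Helper33.isCharPFunctor_kInfLower.{u} p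
  obtain ⟨hcK, hZc, -, -⟩ := Cfsg.Agent.S1978.result (P := P) hP
  refine ⟨Cfsg.kInfLower P, ?_, hZc.trans hcK, ?_⟩
  · rw [Subgroup.characteristic_iff_map_eq]
    intro φ
    exact hW.2 P P hP φ
  · intro G _ _ ι hι ⟨T, hT⟩
    -- the isomorphism of `P` onto the Sylow subgroup
    let φ : P ≃* ↥(T : Subgroup G) :=
      (MonoidHom.ofInjective hι).trans (MulEquiv.subgroupCongr hT.symm)
    have hφ : ∀ x : P, ((φ x : ↥(T : Subgroup G)) : G) = ι x := fun x => rfl
    have h1 : (Cfsg.kInfLower P).map φ.toMonoidHom = Cfsg.kInfLower ↥(T : Subgroup G) :=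
      hW.2 P ↥(T : Subgroup G) hP φ
    have h2 : (Cfsg.kInfLower P).map ι =
        Cfsg.inducedFunctor (G := G) Cfsg.kInfLower (T : Subgroup G) := by
      show _ = (Cfsg.kInfLower ↥(T : Subgroup G)).map (T : Subgroup G).subtype
      rw [← h1, Subgroup.map_map]
      congr 1
    have h3 := Cfsg.Agent.Lib.Helper33.kInf_transfer_at hp T
    rw [← h2, hT] at h3
    rw [h3]
    congr 1
    rw [commutator_def, Subgroup.map_commutator, ← MonoidHom.range_eq_map,
      Subgroup.range_subtype]

end Cfsg.Agent.S2015
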