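import Cfsg.Statements.S2132
import Cfsg.Agent.Lib.Helper26.McInvSyl
import Cfsg.Agent.Lib.Helper34.MCI.Nsdc
import Cfsg.Agent.Lib.Helper34.MCI.Syl
import Cfsg.Agent.Lib.Helper34.MCI.A8Cen
import Cfsg.Agent.Lib.Helper34.MCI.A8Gen
import Cfsg.Agent.Lib.Helper45.MCI.Core
import Cfsg.Agent.Lib.Helper45.MCI.Aut
import Cfsg.Agent.Lib.Helper87.MCI.Transport
import Cfsg.Agent.Lib.Helper87.MCI.Rho

set_option autoImplicit false
open Cfsg

namespace Cfsg.Agent.S2132

/-- The McLaughlin group (as a two-vector stabiliser in the automorphism group of the rank-24 lattice) has a single conjugacy class of involutions, and the centraliser of an involution is a non-split double cover of the alternating group of degree 8. -/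
theorem result : (∀ x y : ↥Cfsg.Spor.McL, orderOf x = 2 → orderOf y = 2 → IsConj x y) ∧ ∃ t : ↥Cfsg.Spor.McL, orderOf t = 2 ∧ Cfsg.IsNonsplitDoubleCover ↥(Subgroup.centralizer ({t} : Set ↥Cfsg.Spor.McL)) ↥(alternatingGroup (Fin 8)) := by
  exact Cfsg.Agent.Lib.Helper26.Co3.mcl_stmt Cfsg.Agent.Lib.Helper34.MCI.pkgSyl
    (Cfsg.Agent.Lib.Helper45.MCI.pkgCore Cfsg.Agent.Lib.Helper45.MCI.pkgAut
      Cfsg.Agent.Lib.Helper87.MCI.pkgRho Cfsg.Agent.Lib.Helper34.MCI.pkgA8Gen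
      Cfsg.Agent.Lib.Helper34.MCI.pkgA8Cen Cfsg.Agent.Lib.Helper34.MCI.pkgNsdc)
    Cfsg.Agent.Lib.Helper87.MCI.pkgTransport

end Cfsg.Agent.S2132
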