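import Cfsg.Statements.S2133
import Cfsg.Agent.Lib.Helper6.CenAMat
import Cfsg.Agent.Lib.Helper6.TransvCen

set_option autoImplicit false
open Cfsg

namespace Cfsg.Agent.S2133

open Cfsg.Agent.Lib.Helper6.Golay Cfsg.Agent.Lib.Helper6.M24 Cfsg.Agent.Lib.Helper6.Cls
  Cfsg.Agent.Lib.Helper6.TC

/-- The Mathieu group M₂₄ (the automorphism group of the length-24 binary code) has an involution whose centraliser is isomorphic to the centraliser of a transvection in SL(5, 2) (a group of shape 2^{1+6}:GL(3, 2)). -/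
theorem result (s : Matrix.SpecialLinearGroup (Fin 5) (ZMod 2)) (hs : (s : Matrix (Fin 5) (Fin 5) (ZMod 2)) = Matrix.transvection 0 1 1) : ∃ z : ↥Cfsg.M24, orderOf z = 2 ∧ Nonempty (↥(Subgroup.centralizer ({z} : Set ↥Cfsg.M24)) ≃* ↥(Subgroup.centralizer ({s} : Set (Matrix.SpecialLinearGroup (Fin 5) (ZMod 2))))) := by
  let z : ↥Cfsg.M24 := ⟨UA, UA_mem⟩
  have hz : orderOf z = 2 := by
    rw [← UA_order]
    exact Subgroup.orderOf_mk UA UA_mem
  have hmem : ∀ g : ↥(Subgroup.centralizer ({z} : Set ↥Cfsg.M24)),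
      ((g : ↥Cfsg.M24) : Equiv.Perm GolayPt) ∈ cen UA := by
    intro g
    refine ⟨g.1.2, ?_⟩
    have h := Subgroup.mem_centralizer_iff.1 g.2 z rfl
    exact (congrArg Subtype.val h).symm
  let φ : ↥(Subgroup.centralizer ({z} : Set ↥Cfsg.M24)) →*
      ↥(Subgroup.centralizer ({s} : Set (Matrix.SpecialLinearGroup (Fin 5) (ZMod 2)))) :=
    { toFun := fun g => ⟨(⟨matOf ((g : ↥Cfsg.M24) : Equiv.Perm GolayPt), matOf_det (hmem g)⟩ :
          Matrix.SpecialLinearGroup (Fin 5) (ZMod 2)), by
        refine Subgroup.mem_centralizer_iff.2 ?_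
        intro h hh
        rw [Set.mem_singleton_iff] at hh
        subst hh
        apply Subtype.ext
        show (h : Matrix (Fin 5) (Fin 5) (ZMod 2)) * matOf ((g : ↥Cfsg.M24) : Equiv.Perm GolayPt) =
          matOf ((g : ↥Cfsg.M24) : Equiv.Perm GolayPt) * (h : Matrix (Fin 5) (Fin 5) (ZMod 2))
        rw [hs, ← matOf_UA, ← matOf_mul UA_mem_cen (hmem g), ← matOf_mul (hmem g) UA_mem_cen,
          (hmem g).2]⟩
      map_one' := by
        apply Subtype.ext; apply Subtype.ext; exact matOf_one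
      map_mul' := fun a b => by
        apply Subtype.ext; apply Subtype.ext; exact matOf_mul (hmem a) (hmem b) }
  have hinj : Function.Injective φ := by
    rw [injective_iff_map_eq_one]
    intro g hg
    have h1 : matOf ((g : ↥Cfsg.M24) : Equiv.Perm GolayPt) = 1 :=
      congrArg (fun x : ↥(Subgroup.centralizer ({s} : Set (Matrix.SpecialLinearGroup (Fin 5) (ZMod 2)))) =>
        ((x : Matrix.SpecialLinearGroup (Fin 5) (ZMod 2)) : Matrix (Fin 5) (Fin 5) (ZMod 2))) hg
    have h2 := eq_one_of_matOf (hmem g) h1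
    apply Subtype.ext; apply Subtype.ext; exact h2
  have hcard1 : 21504 ≤ Nat.card ↥(Subgroup.centralizer ({z} : Set ↥Cfsg.M24)) := by
    have e : ↥(cen UA) ≃ ↥(Subgroup.centralizer ({z} : Set ↥Cfsg.M24)) :=
      { toFun := fun c => ⟨⟨c.1, c.2.1⟩, by
          rw [Subgroup.mem_centralizer_iff]
          intro h hh
          rw [Set.mem_singleton_iff] at hh
          subst hh
          apply Subtype.ext
          exact c.2.2.symm⟩
        invFun := fun g => ⟨((g : ↥Cfsg.M24) : Equiv.Perm GolayPt), hmem g⟩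
        left_inv := fun _ => rfl
        right_inv := fun _ => rfl }
    rw [← Nat.card_congr e]
    exact card_cen_UA_ge
  have hcard2 := card_centralizer_le s hs
  have hbij : Function.Bijective φ := hinj.bijective_of_nat_card_le (le_trans hcard2 hcard1)
  exact ⟨z, hz, ⟨MulEquiv.ofBijective φ hbij⟩⟩

end Cfsg.Agent.S2133
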