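import Cfsg.Statements.S2162
import Cfsg.Agent.Lib.Helper36.SqZero

set_option autoImplicit false
open Cfsg

namespace Cfsg.Agent.S2162

theorem two_eq_zero' (F : Type*) [Field F] [CharP F 2] : (2 : F) = 0 := by
  have := CharP.cast_eq_zero F 2
  exact_mod_cast this

theorem sub_one_sq {F : Type*} [Field F] [CharP F 2] {n : ℕ} (A : Matrix (Fin n) (Fin n) F)
    (hA : A * A = 1) : (A - 1) * (A - 1) = 0 := by
  have h2 : (2 : F) = 0 := two_eq_zero' F
  have hAA : A + A = 0 := by
    ext i j
    rw [Matrix.add_apply, Matrix.zero_apply, ← two_mul, h2, zero_mul]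
  have h11 : (1 : Matrix (Fin n) (Fin n) F) + 1 = 0 := by
    ext i j
    rw [Matrix.add_apply, Matrix.zero_apply, ← two_mul, h2, zero_mul]
  calc (A - 1) * (A - 1) = A * A - (A + A) + 1 := by
        rw [mul_sub, sub_mul, sub_mul, mul_one, one_mul, one_mul]; abel
    _ = 0 := by rw [hA, hAA, sub_zero, h11]

theorem coe_sq_of_order {F : Type*} [Field F] {n : ℕ} (a : Matrix.SpecialLinearGroup (Fin n) F)
    (ha : orderOf a = 2) :
    (a : Matrix (Fin n) (Fin n) F) * (a : Matrix (Fin n) (Fin n) F) = 1 := by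
  have hsq : a ^ 2 = 1 := by rw [← ha]; exact pow_orderOf_eq_one a
  rw [pow_two] at hsq
  have := congrArg (fun x : Matrix.SpecialLinearGroup (Fin n) F =>
    (x : Matrix (Fin n) (Fin n) F)) hsq
  simpa using this

theorem coe_ne_one_of_order {F : Type*} [Field F] {n : ℕ} (a : Matrix.SpecialLinearGroup (Fin n) F)
    (ha : orderOf a = 2) : (a : Matrix (Fin n) (Fin n) F) - 1 ≠ 0 := by
  intro h
  have h1 : a = 1 := by
    apply Matrix.SpecialLinearGroup.ext
    intro i j
    have := sub_eq_zero.mp h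
    rw [this, Matrix.SpecialLinearGroup.coe_one]
  rw [h1, orderOf_one] at ha
  exact absurd ha (by norm_num)

/-- Conjugacy of involutions in the special linear group over a finite field of characteristic two, in dimension at least 3: two elements of order 2 of SL_n(F) are conjugate in SL_n(F) exactly when the matrices a − 1 and b − 1 have the same rank (the rank of a − 1 is the dimension of the commutator space [V, a]). -/
theorem result {F : Type*} [Field F] [Fintype F] [CharP F 2] {n : ℕ} (hn : 3 ≤ n) (a b : Matrix.SpecialLinearGroup (Fin n) F) (ha : orderOf a = 2) (hb : orderOf b = 2) :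
    IsConj a b ↔ ((a : Matrix (Fin n) (Fin n) F) - 1).rank = ((b : Matrix (Fin n) (Fin n) F) - 1).rank := by
  set A : Matrix (Fin n) (Fin n) F := (a : Matrix (Fin n) (Fin n) F) with hAdef
  set B : Matrix (Fin n) (Fin n) F := (b : Matrix (Fin n) (Fin n) F) with hBdef
  constructor
  · intro h
    obtain ⟨c, hc⟩ := isConj_iff.mp h
    have hBC : B = (c : Matrix (Fin n) (Fin n) F) * A * ((c⁻¹ : Matrix.SpecialLinearGroup (Fin n) F) : Matrix (Fin n) (Fin n) F) := by
      rw [hBdef, ← hc, Matrix.SpecialLinearGroup.coe_mul, Matrix.SpecialLinearGroup.coe_mul]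
    have hcc : (c : Matrix (Fin n) (Fin n) F) * ((c⁻¹ : Matrix.SpecialLinearGroup (Fin n) F) : Matrix (Fin n) (Fin n) F) = 1 := by
      rw [← Matrix.SpecialLinearGroup.coe_mul, mul_inv_cancel, Matrix.SpecialLinearGroup.coe_one]
    have hB1 : B - 1 = (c : Matrix (Fin n) (Fin n) F) * (A - 1) * ((c⁻¹ : Matrix.SpecialLinearGroup (Fin n) F) : Matrix (Fin n) (Fin n) F) := by
      rw [mul_sub, sub_mul, mul_one, hcc, ← hBC]
    rw [hB1]
    have hu1 : IsUnit (c : Matrix (Fin n) (Fin n) F).det := by
      rw [Matrix.SpecialLinearGroup.det_coe]; exact isUnit_one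
    have hu2 : IsUnit ((c⁻¹ : Matrix.SpecialLinearGroup (Fin n) F) : Matrix (Fin n) (Fin n) F).det := by
      rw [Matrix.SpecialLinearGroup.det_coe]; exact isUnit_one
    rw [Matrix.rank_mul_eq_left_of_isUnit_det _ _ hu2, Matrix.rank_mul_eq_right_of_isUnit_det _ _ hu1]
  · intro hrank
    have hAA := coe_sq_of_order a ha
    have hBB := coe_sq_of_order b hb
    have hN : Matrix.toLin' (A - 1) ∘ₗ Matrix.toLin' (A - 1) = 0 := by
      rw [← Matrix.toLin'_mul, sub_one_sq A hAA, map_zero]
    have hN' : Matrix.toLin' (B - 1) ∘ₗ Matrix.toLin' (B - 1) = 0 := by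
      rw [← Matrix.toLin'_mul, sub_one_sq B hBB, map_zero]
    have hr : Module.finrank F (LinearMap.range (Matrix.toLin' (A - 1)))
        = Module.finrank F (LinearMap.range (Matrix.toLin' (B - 1))) := by
      rw [Matrix.toLin'_apply', Matrix.toLin'_apply']
      exact hrank
    have hne : Matrix.toLin' (A - 1) ≠ 0 := by
      intro h
      exact coe_ne_one_of_order a ha ((LinearEquiv.map_eq_zero_iff _).mp h)
    have hsq : ∀ x : F, IsSquare x := FiniteField.isSquare_of_char_two (ringChar.eq F 2)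
    obtain ⟨Ψ, hΨ, hdet⟩ := Cfsg.Agent.Lib.Helper36.sq_zero_conj _ _ hN hN' hr hne hsq
    have hC : LinearMap.toMatrix' Ψ * (A - 1) = (B - 1) * LinearMap.toMatrix' Ψ := by
      have := congrArg LinearMap.toMatrix' hΨ
      rwa [LinearMap.toMatrix'_comp, LinearMap.toMatrix'_comp, LinearMap.toMatrix'_toLin',
        LinearMap.toMatrix'_toLin'] at this
    have hCA : LinearMap.toMatrix' Ψ * A = B * LinearMap.toMatrix' Ψ := by
      rw [mul_sub, sub_mul, mul_one, one_mul] at hC
      exact sub_left_injective hC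
    have hCdet : (LinearMap.toMatrix' Ψ).det = 1 := by
      rw [LinearMap.det_toMatrix', hdet]
    let c : Matrix.SpecialLinearGroup (Fin n) F := ⟨LinearMap.toMatrix' Ψ, hCdet⟩
    have hc : (c : Matrix (Fin n) (Fin n) F) = LinearMap.toMatrix' Ψ := rfl
    rw [isConj_iff]
    refine ⟨c, ?_⟩
    rw [mul_inv_eq_iff_eq_mul]
    apply Matrix.SpecialLinearGroup.ext
    intro i j
    rw [Matrix.SpecialLinearGroup.coe_mul, Matrix.SpecialLinearGroup.coe_mul, hc]
    exact congrFun (congrFun hCA i) j

end Cfsg.Agent.S2162
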