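import Cfsg.Statements.S2163
-- import your own Cfsg.Agent.* helpers here

set_option autoImplicit false
open Cfsg

namespace Cfsg.Agent.S2163

/-- the nilpotent block matrix -/
def nmat (F : Type*) [Field F] (n ℓ : ℕ) : Matrix (Fin n) (Fin n) F :=
  Matrix.of (fun i j : Fin n => if j.val < ℓ ∧ i.val = j.val + (n - ℓ) then (1 : F) else 0)

theorem nmat_apply (F : Type*) [Field F] (n ℓ : ℕ) (i j : Fin n) :
    nmat F n ℓ i j = if j.val < ℓ ∧ i.val = j.val + (n - ℓ) then (1 : F) else 0 := rfl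

theorem nmat_sq (F : Type*) [Field F] (n ℓ : ℕ) (h1 : 1 ≤ ℓ) (h2 : 2 * ℓ ≤ n) :
    nmat F n ℓ * nmat F n ℓ = 0 := by
  ext i k
  rw [Matrix.mul_apply, Matrix.zero_apply]
  apply Finset.sum_eq_zero
  intro j _
  rw [nmat_apply, nmat_apply]
  by_cases hj : j.val < ℓ
  · have : ¬ (k.val < ℓ ∧ j.val = k.val + (n - ℓ)) := by omega
    rw [if_neg this, mul_zero]
  · have : ¬ (j.val < ℓ ∧ i.val = j.val + (n - ℓ)) := by omega
    rw [if_neg this, zero_mul]

theorem nmat_mul_diag (F : Type*) [Field F] (n ℓ : ℕ) :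
    nmat F n ℓ * Matrix.diagonal (fun j : Fin n => if j.val < ℓ then (1 : F) else 0) = nmat F n ℓ := by
  ext i j
  rw [Matrix.mul_diagonal, nmat_apply]
  by_cases hj : j.val < ℓ
  · rw [if_pos hj, mul_one]
  · have : ¬ (j.val < ℓ ∧ i.val = j.val + (n - ℓ)) := by omega
    rw [if_neg this, zero_mul]

theorem nmat_tr_mul (F : Type*) [Field F] (n ℓ : ℕ) (h2 : 2 * ℓ ≤ n) :
    (nmat F n ℓ).transpose * nmat F n ℓ
      = Matrix.diagonal (fun j : Fin n => if j.val < ℓ then (1 : F) else 0) := by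
  ext j k
  rw [Matrix.mul_apply, Matrix.diagonal_apply]
  by_cases hjk : j = k
  · subst hjk
    rw [if_pos rfl]
    by_cases hj : j.val < ℓ
    · rw [if_pos hj]
      have hlt : j.val + (n - ℓ) < n := by omega
      rw [Finset.sum_eq_single (⟨j.val + (n - ℓ), hlt⟩ : Fin n)]
      · rw [Matrix.transpose_apply, nmat_apply, if_pos ⟨hj, rfl⟩, mul_one]
      · intro i _ hi
        rw [Matrix.transpose_apply, nmat_apply]
        have : ¬ (j.val < ℓ ∧ i.val = j.val + (n - ℓ)) := by
          rintro ⟨_, h⟩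
          exact hi (Fin.ext h)
        rw [if_neg this, mul_zero]
      · intro h
        exact absurd (Finset.mem_univ _) h
    · rw [if_neg hj]
      apply Finset.sum_eq_zero
      intro i _
      rw [Matrix.transpose_apply, nmat_apply]
      have : ¬ (j.val < ℓ ∧ i.val = j.val + (n - ℓ)) := by omega
      rw [if_neg this, mul_zero]
  · rw [if_neg hjk]
    apply Finset.sum_eq_zero
    intro i _
    rw [Matrix.transpose_apply, nmat_apply, nmat_apply]
    have hne : j.val ≠ k.val := fun h => hjk (Fin.ext h)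
    by_cases h : j.val < ℓ ∧ i.val = j.val + (n - ℓ)
    · have : ¬ (k.val < ℓ ∧ i.val = k.val + (n - ℓ)) := by omega
      rw [if_neg this, mul_zero]
    · rw [if_neg h, zero_mul]

theorem diag_rank (F : Type*) [Field F] (n ℓ : ℕ) (h2 : ℓ ≤ n) :
    (Matrix.diagonal (fun j : Fin n => if j.val < ℓ then (1 : F) else 0)).rank = ℓ := by
  classical
  have hc := Fintype.card_fin_lt_of_le h2
  rw [Matrix.rank_diagonal]
  refine Eq.trans (Fintype.card_congr ?_) hc
  refine Equiv.subtypeEquivRight ?_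
  intro i
  by_cases hi : i.val < ℓ
  · simp [hi]
  · simp [hi]

theorem nmat_rank (F : Type*) [Field F] (n ℓ : ℕ) (h2 : 2 * ℓ ≤ n) :
    (nmat F n ℓ).rank = ℓ := by
  apply le_antisymm
  · have h := Matrix.rank_mul_le_right (nmat F n ℓ)
      (Matrix.diagonal (fun j : Fin n => if j.val < ℓ then (1 : F) else 0))
    rw [nmat_mul_diag, diag_rank F n ℓ (by omega)] at h
    exact h
  · have h := Matrix.rank_mul_le_right (nmat F n ℓ).transpose (nmat F n ℓ)
    rw [nmat_tr_mul F n ℓ h2, diag_rank F n ℓ (by omega)] at h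
    exact h

theorem one_add_sq (F : Type*) [Field F] [CharP F 2] (n ℓ : ℕ) (h1 : 1 ≤ ℓ) (h2 : 2 * ℓ ≤ n) :
    (1 + nmat F n ℓ) * (1 + nmat F n ℓ) = 1 := by
  have h22 : (2 : F) = 0 := by
    have := CharP.cast_eq_zero F 2
    exact_mod_cast this
  have h2N : nmat F n ℓ + nmat F n ℓ = 0 := by
    ext i j
    rw [Matrix.add_apply, Matrix.zero_apply, ← two_mul, h22, zero_mul]
  calc (1 + nmat F n ℓ) * (1 + nmat F n ℓ)
      = 1 + (nmat F n ℓ + nmat F n ℓ) + nmat F n ℓ * nmat F n ℓ := by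
        rw [mul_add, add_mul, add_mul, one_mul, mul_one, one_mul]; abel
    _ = 1 := by rw [h2N, nmat_sq F n ℓ h1 h2, add_zero, add_zero]

theorem det_one_add (F : Type*) [Field F] [CharP F 2] (n ℓ : ℕ) (h1 : 1 ≤ ℓ) (h2 : 2 * ℓ ≤ n) :
    (1 + nmat F n ℓ).det = 1 := by
  have h22 : (2 : F) = 0 := by
    have := CharP.cast_eq_zero F 2
    exact_mod_cast this
  have h := congrArg Matrix.det (one_add_sq F n ℓ h1 h2)
  rw [Matrix.det_mul, Matrix.det_one] at h
  set d := (1 + nmat F n ℓ).det with hd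
  have h3 : (d - 1) * (d - 1) = 0 := by
    calc (d - 1) * (d - 1) = d * d - 2 * d + 1 := by ring
      _ = 1 - 0 * d + 1 := by rw [h, h22]
      _ = 2 := by ring
      _ = 0 := h22
  have h4 : d - 1 = 0 := by
    rcases mul_eq_zero.mp h3 with h | h <;> exact h
  exact sub_eq_zero.mp h4

/-- Over a finite field of characteristic two and for n ≥ 3: for every ℓ with 1 ≤ ℓ and 2ℓ ≤ n, the matrix j_ℓ that is the identity plus the entries 1 in positions (n − ℓ + i, i) for i < ℓ (an identity block of size ℓ in the lower left corner) lies in SL_n(F), has order 2, and j_ℓ − 1 has rank ℓ. Together with the conjugacy criterion by rank, these matrices represent the conjugacy classes of involutions of SL_n(F). -/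
theorem result {F : Type*} [Field F] [Fintype F] [CharP F 2] {n : ℕ} (hn : 3 ≤ n) (ℓ : ℕ) (h1 : 1 ≤ ℓ) (h2 : 2 * ℓ ≤ n) :
    ∃ a : Matrix.SpecialLinearGroup (Fin n) F, (a : Matrix (Fin n) (Fin n) F) = 1 + Matrix.of (fun i j : Fin n => if j.val < ℓ ∧ i.val = j.val + (n - ℓ) then (1 : F) else 0) ∧ orderOf a = 2 ∧ ((a : Matrix (Fin n) (Fin n) F) - 1).rank = ℓ := by
  let a : Matrix.SpecialLinearGroup (Fin n) F := ⟨1 + nmat F n ℓ, det_one_add F n ℓ h1 h2⟩
  have ha : (a : Matrix (Fin n) (Fin n) F) = 1 + nmat F n ℓ := rfl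
  refine ⟨a, ha, ?_, ?_⟩
  · have hp : Fact (Nat.Prime 2) := ⟨Nat.prime_two⟩
    apply orderOf_eq_prime
    · apply Matrix.SpecialLinearGroup.ext
      intro i j
      rw [pow_two, Matrix.SpecialLinearGroup.coe_mul, ha, one_add_sq F n ℓ h1 h2,
        Matrix.SpecialLinearGroup.coe_one]
    · intro h
      have h' : (a : Matrix (Fin n) (Fin n) F) = 1 := by
        rw [h, Matrix.SpecialLinearGroup.coe_one]
      have h0 : nmat F n ℓ = 0 := by
        have : (1 : Matrix (Fin n) (Fin n) F) + nmat F n ℓ = 1 + 0 := by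
          rw [add_zero, ← ha]; exact h'
        exact add_left_cancel this
      have hi : n - ℓ < n := by omega
      have hj : 0 < n := by omega
      have h00 := congrFun (congrFun h0 ⟨n - ℓ, hi⟩) ⟨0, hj⟩
      have hc : (0 < ℓ ∧ n - ℓ = 0 + (n - ℓ)) := ⟨by omega, by omega⟩
      rw [nmat_apply, if_pos hc] at h00
      exact one_ne_zero h00
  · rw [ha, add_sub_cancel_left]
    exact nmat_rank F n ℓ h2

end Cfsg.Agent.S2163
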