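import Mathlib
import Cfsg.Statements.S2164
import Cfsg.Agent.Lib.Helper8.UnitaryInv
-- import your own Cfsg.Agent.* helpers here

set_option autoImplicit false
open Cfsg

namespace Cfsg.Agent.S2164

/-- Conjugacy of involutions in the special unitary group SU_n(q), q even, n ≥ 3, realised over the field F with q² elements as the matrices of determinant 1 preserving the form Σ u_i v_i^q: for two elements of order 2 of SU_n(q) the following are equivalent — they are conjugate in SU_n(q); they are conjugate in SL_n(F); the matrices a − 1 and b − 1 have the same rank. -/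
theorem result {F : Type*} [Field F] [Fintype F] [CharP F 2] {n q : ℕ} (hF : Fintype.card F = q ^ 2) (hn : 3 ≤ n) (a b : ↥(Cfsg.SU n F q)) (ha : orderOf a = 2) (hb : orderOf b = 2) :
    (IsConj a b ↔ IsConj (a : Matrix.SpecialLinearGroup (Fin n) F) (b : Matrix.SpecialLinearGroup (Fin n) F)) ∧
    (IsConj a b ↔ (((a : Matrix.SpecialLinearGroup (Fin n) F) : Matrix (Fin n) (Fin n) F) - 1).rank = (((b : Matrix.SpecialLinearGroup (Fin n) F) : Matrix (Fin n) (Fin n) F) - 1).rank) := by
  have h1 : IsConj a b →
      IsConj (a : Matrix.SpecialLinearGroup (Fin n) F) (b : Matrix.SpecialLinearGroup (Fin n) F) := by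
    intro h
    obtain ⟨c, hc⟩ := isConj_iff.mp h
    refine isConj_iff.mpr ⟨(c : Matrix.SpecialLinearGroup (Fin n) F), ?_⟩
    rw [← hc]
    rfl
  have h2 : IsConj (a : Matrix.SpecialLinearGroup (Fin n) F)
      (b : Matrix.SpecialLinearGroup (Fin n) F) →
      (((a : Matrix.SpecialLinearGroup (Fin n) F) : Matrix (Fin n) (Fin n) F) - 1).rank =
        (((b : Matrix.SpecialLinearGroup (Fin n) F) : Matrix (Fin n) (Fin n) F) - 1).rank := by
    intro h
    obtain ⟨c, hc⟩ := isConj_iff.mp h
    have hcc : (c : Matrix (Fin n) (Fin n) F) *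
        ((c⁻¹ : Matrix.SpecialLinearGroup (Fin n) F) : Matrix (Fin n) (Fin n) F) = 1 := by
      rw [← Matrix.SpecialLinearGroup.coe_mul, mul_inv_cancel, Matrix.SpecialLinearGroup.coe_one]
    have e : ((b : Matrix.SpecialLinearGroup (Fin n) F) : Matrix (Fin n) (Fin n) F) - 1 =
        (c : Matrix (Fin n) (Fin n) F) *
          (((a : Matrix.SpecialLinearGroup (Fin n) F) : Matrix (Fin n) (Fin n) F) - 1) *
          ((c⁻¹ : Matrix.SpecialLinearGroup (Fin n) F) : Matrix (Fin n) (Fin n) F) := by
      rw [← hc, Matrix.SpecialLinearGroup.coe_mul, Matrix.SpecialLinearGroup.coe_mul,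
        Matrix.mul_sub, Matrix.sub_mul, Matrix.mul_one, hcc]
    rw [e, Matrix.rank_mul_eq_left_of_isUnit_det _ _ (by
        rw [Matrix.SpecialLinearGroup.det_coe]; exact isUnit_one),
      Matrix.rank_mul_eq_right_of_isUnit_det _ _ (by
        rw [Matrix.SpecialLinearGroup.det_coe]; exact isUnit_one)]
  have h3 : (((a : Matrix.SpecialLinearGroup (Fin n) F) : Matrix (Fin n) (Fin n) F) - 1).rank =
        (((b : Matrix.SpecialLinearGroup (Fin n) F) : Matrix (Fin n) (Fin n) F) - 1).rank →
      IsConj a b := by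
    intro hr
    have hA : Cfsg.Agent.Lib.Helper45.IsHermIso n F q
        (((a : Matrix.SpecialLinearGroup (Fin n) F) : Matrix (Fin n) (Fin n) F)) := a.2
    have hB : Cfsg.Agent.Lib.Helper45.IsHermIso n F q
        (((b : Matrix.SpecialLinearGroup (Fin n) F) : Matrix (Fin n) (Fin n) F)) := b.2
    have hsq : ∀ c : ↥(Cfsg.SU n F q), orderOf c = 2 →
        ((c : Matrix.SpecialLinearGroup (Fin n) F) : Matrix (Fin n) (Fin n) F) *
          ((c : Matrix.SpecialLinearGroup (Fin n) F) : Matrix (Fin n) (Fin n) F) = 1 ∧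
        ((c : Matrix.SpecialLinearGroup (Fin n) F) : Matrix (Fin n) (Fin n) F) ≠ 1 := by
      intro c hc
      constructor
      · have h : c ^ 2 = 1 := by rw [← hc]; exact pow_orderOf_eq_one c
        have h' : (c : Matrix.SpecialLinearGroup (Fin n) F) *
            (c : Matrix.SpecialLinearGroup (Fin n) F) = 1 := by
          rw [pow_two] at h
          have := congrArg (Subtype.val) h
          exact this
        have := congrArg (fun s : Matrix.SpecialLinearGroup (Fin n) F =>
          (s : Matrix (Fin n) (Fin n) F)) h'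
        simpa using this
      · intro h
        have hc1 : c = 1 := by
          apply Subtype.ext
          apply Subtype.ext
          exact h
        rw [hc1, orderOf_one] at hc
        omega
    obtain ⟨G, hG, hGdet, hGAB⟩ := Cfsg.Agent.Lib.Helper8.UnitaryInv.exists_su_conj hF _ _ hA hB
      (hsq a ha).1 (hsq b hb).1 (hsq b hb).2 hr
    have hg' : (⟨G, hGdet⟩ : Matrix.SpecialLinearGroup (Fin n) F) ∈ Cfsg.SU n F q := by
      intro u v
      exact hG u v
    rw [isConj_iff]
    refine ⟨⟨⟨G, hGdet⟩, hg'⟩, ?_⟩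
    rw [mul_inv_eq_iff_eq_mul]
    apply Subtype.ext
    apply Subtype.ext
    exact hGAB
  exact ⟨⟨h1, fun h => h3 (h2 h)⟩, ⟨fun h => h2 (h1 h), h3⟩⟩

end Cfsg.Agent.S2164
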