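import Cfsg.Statements.S2165
-- import your own Cfsg.Agent.* helpers here

set_option autoImplicit false
open Cfsg

namespace Cfsg.Agent.S2165

/-- the swap of coordinates `i` and `i + (n - ℓ)` for `i < ℓ` -/
def sw (n ℓ : ℕ) (i : Fin n) : Fin n :=
  if h : i.val < ℓ ∧ i.val + (n - ℓ) < n then ⟨i.val + (n - ℓ), h.2⟩
  else if n - ℓ ≤ i.val then ⟨i.val - (n - ℓ), lt_of_le_of_lt (Nat.sub_le _ _) i.isLt⟩
  else i

theorem sw_val (n ℓ : ℕ) (h2 : 2 * ℓ ≤ n) (i : Fin n) :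
    (sw n ℓ i).val = if i.val < ℓ then i.val + (n - ℓ)
      else if n - ℓ ≤ i.val then i.val - (n - ℓ) else i.val := by
  unfold sw
  have hi := i.isLt
  by_cases h : i.val < ℓ
  · have h' : i.val < ℓ ∧ i.val + (n - ℓ) < n := ⟨h, by omega⟩
    rw [dif_pos h', if_pos h]
  · have h' : ¬ (i.val < ℓ ∧ i.val + (n - ℓ) < n) := fun hh => h hh.1
    rw [dif_neg h', if_neg h]
    by_cases h3 : n - ℓ ≤ i.val
    · rw [if_pos h3, if_pos h3]
    · rw [if_neg h3, if_neg h3]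

theorem sw_sw (n ℓ : ℕ) (_h1 : 1 ≤ ℓ) (h2 : 2 * ℓ ≤ n) (i : Fin n) : sw n ℓ (sw n ℓ i) = i := by
  apply Fin.ext
  rw [sw_val n ℓ h2, sw_val n ℓ h2]
  have hi := i.isLt
  split_ifs <;> omega

/-- the permutation matrix of the statement -/
def pmat (F : Type*) [Field F] (n ℓ : ℕ) : Matrix (Fin n) (Fin n) F :=
  Matrix.of (fun i j : Fin n => if (j.val < ℓ ∧ i.val = j.val + (n - ℓ)) ∨ (i.val < ℓ ∧ j.val = i.val + (n - ℓ)) ∨ (i = j ∧ ℓ ≤ i.val ∧ i.val < n - ℓ) then (1 : F) else 0)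

theorem pmat_apply (F : Type*) [Field F] (n ℓ : ℕ) (h1 : 1 ≤ ℓ) (h2 : 2 * ℓ ≤ n) (i j : Fin n) :
    pmat F n ℓ i j = if j = sw n ℓ i then (1 : F) else 0 := by
  have hi := i.isLt
  have hj := j.isLt
  have hiff : ((j.val < ℓ ∧ i.val = j.val + (n - ℓ)) ∨ (i.val < ℓ ∧ j.val = i.val + (n - ℓ)) ∨
      (i = j ∧ ℓ ≤ i.val ∧ i.val < n - ℓ)) ↔ j = sw n ℓ i := by
    rw [Fin.ext_iff, Fin.ext_iff, sw_val n ℓ h2]
    split_ifs <;> omega
  show (if (j.val < ℓ ∧ i.val = j.val + (n - ℓ)) ∨ (i.val < ℓ ∧ j.val = i.val + (n - ℓ)) ∨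
      (i = j ∧ ℓ ≤ i.val ∧ i.val < n - ℓ) then (1 : F) else 0) = _
  by_cases h : j = sw n ℓ i
  · rw [if_pos h, if_pos (hiff.mpr h)]
  · rw [if_neg h, if_neg (fun hh => h (hiff.mp hh))]

theorem pmat_mul (F : Type*) [Field F] (n ℓ : ℕ) (h1 : 1 ≤ ℓ) (h2 : 2 * ℓ ≤ n)
    (X : Matrix (Fin n) (Fin n) F) (i j : Fin n) :
    (pmat F n ℓ * X) i j = X (sw n ℓ i) j := by
  rw [Matrix.mul_apply, Finset.sum_eq_single (sw n ℓ i)]
  · rw [pmat_apply F n ℓ h1 h2, if_pos rfl, one_mul]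
  · intro k _ hk
    rw [pmat_apply F n ℓ h1 h2, if_neg hk, zero_mul]
  · intro h
    exact absurd (Finset.mem_univ _) h

theorem mul_pmat (F : Type*) [Field F] (n ℓ : ℕ) (h1 : 1 ≤ ℓ) (h2 : 2 * ℓ ≤ n)
    (X : Matrix (Fin n) (Fin n) F) (i j : Fin n) :
    (X * pmat F n ℓ) i j = X i (sw n ℓ j) := by
  rw [Matrix.mul_apply, Finset.sum_eq_single (sw n ℓ j)]
  · rw [pmat_apply F n ℓ h1 h2, if_pos (sw_sw n ℓ h1 h2 j).symm, mul_one]
  · intro k _ hk
    have : ¬ j = sw n ℓ k := by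
      intro h
      apply hk
      rw [h, sw_sw n ℓ h1 h2]
    rw [pmat_apply F n ℓ h1 h2, if_neg this, mul_zero]
  · intro h
    exact absurd (Finset.mem_univ _) h

theorem pmat_mulVec (F : Type*) [Field F] (n ℓ : ℕ) (h1 : 1 ≤ ℓ) (h2 : 2 * ℓ ≤ n)
    (u : Fin n → F) (i : Fin n) :
    (pmat F n ℓ).mulVec u i = u (sw n ℓ i) := by
  rw [Matrix.mulVec, dotProduct, Finset.sum_eq_single (sw n ℓ i)]
  · rw [pmat_apply F n ℓ h1 h2, if_pos rfl, one_mul]
  · intro k _ hk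
    rw [pmat_apply F n ℓ h1 h2, if_neg hk, zero_mul]
  · intro h
    exact absurd (Finset.mem_univ _) h

theorem pmat_sq (F : Type*) [Field F] (n ℓ : ℕ) (h1 : 1 ≤ ℓ) (h2 : 2 * ℓ ≤ n) :
    pmat F n ℓ * pmat F n ℓ = 1 := by
  ext i j
  rw [pmat_mul F n ℓ h1 h2, pmat_apply F n ℓ h1 h2, sw_sw n ℓ h1 h2, Matrix.one_apply]
  by_cases h : i = j
  · rw [if_pos h, if_pos h.symm]
  · rw [if_neg h, if_neg (fun hh => h hh.symm)]

theorem two_eq_zero' (F : Type*) [Field F] [CharP F 2] : (2 : F) = 0 := by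
  have := CharP.cast_eq_zero F 2
  exact_mod_cast this

theorem pmat_det (F : Type*) [Field F] [CharP F 2] (n ℓ : ℕ) (h1 : 1 ≤ ℓ) (h2 : 2 * ℓ ≤ n) :
    (pmat F n ℓ).det = 1 := by
  have h22 : (2 : F) = 0 := two_eq_zero' F
  have h := congrArg Matrix.det (pmat_sq F n ℓ h1 h2)
  rw [Matrix.det_mul, Matrix.det_one] at h
  set d := (pmat F n ℓ).det with hd
  have h3 : (d - 1) * (d - 1) = 0 := by
    calc (d - 1) * (d - 1) = d * d - 2 * d + 1 := by ring
      _ = 1 - 0 * d + 1 := by rw [h, h22]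
      _ = 2 := by ring
      _ = 0 := h22
  have h4 : d - 1 = 0 := by
    rcases mul_eq_zero.mp h3 with h | h <;> exact h
  exact sub_eq_zero.mp h4

/-- indicator of the first `ℓ` coordinates -/
def wv (F : Type*) [Field F] (n ℓ : ℕ) (i : Fin n) : F := if i.val < ℓ then 1 else 0

theorem wv_sw (F : Type*) [Field F] (n ℓ : ℕ) (h2 : 2 * ℓ ≤ n) (i : Fin n) :
    wv F n ℓ (sw n ℓ i) = if n - ℓ ≤ i.val then 1 else 0 := by
  unfold wv
  rw [sw_val n ℓ h2]
  have hi := i.isLt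
  split_ifs <;> first | rfl | omega

theorem diag_rank (F : Type*) [Field F] (n ℓ : ℕ) (h2 : ℓ ≤ n) :
    (Matrix.diagonal (wv F n ℓ)).rank = ℓ := by
  classical
  have hc := Fintype.card_fin_lt_of_le h2
  rw [Matrix.rank_diagonal]
  refine Eq.trans (Fintype.card_congr ?_) hc
  refine Equiv.subtypeEquivRight ?_
  intro i
  unfold wv
  by_cases hi : i.val < ℓ
  · simp [hi]
  · simp [hi]

theorem key1 (F : Type*) [Field F] (n ℓ : ℕ) (h1 : 1 ≤ ℓ) (h2 : 2 * ℓ ≤ n) :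
    Matrix.diagonal (wv F n ℓ) * (pmat F n ℓ - 1) * (-Matrix.diagonal (wv F n ℓ))
      = Matrix.diagonal (wv F n ℓ) := by
  ext i j
  rw [Matrix.mul_neg, Matrix.neg_apply, Matrix.mul_diagonal, Matrix.diagonal_mul, Matrix.sub_apply,
    pmat_apply F n ℓ h1 h2, Matrix.one_apply, Matrix.diagonal_apply]
  have hi := i.isLt
  have hj := j.isLt
  unfold wv
  by_cases hij : i = j
  · subst hij
    have hne : ¬ i = sw n ℓ i ∨ ¬ i.val < ℓ := by
      by_cases h : i.val < ℓ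
      · left
        intro h'
        have := congrArg Fin.val h'
        rw [sw_val n ℓ h2, if_pos h] at this
        omega
      · right; exact h
    rcases hne with hne | hne
    · rw [if_neg hne, if_pos rfl, if_pos rfl]
      by_cases h : i.val < ℓ
      · rw [if_pos h]; ring
      · rw [if_neg h]; ring
    · rw [if_neg hne, if_pos rfl, if_pos rfl]; ring
  · rw [if_neg hij, if_neg hij]
    by_cases h : j = sw n ℓ i
    · rw [if_pos h]
      have hv := congrArg Fin.val h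
      rw [sw_val n ℓ h2] at hv
      by_cases hi' : i.val < ℓ
      · have : ¬ j.val < ℓ := by
          rw [if_pos hi'] at hv; omega
        rw [if_neg this]; ring
      · rw [if_neg hi']; ring
    · rw [if_neg h]; ring

theorem key2 (F : Type*) [Field F] (n ℓ : ℕ) (h1 : 1 ≤ ℓ) (h2 : 2 * ℓ ≤ n) :
    (1 - pmat F n ℓ) * (Matrix.diagonal (wv F n ℓ) * (pmat F n ℓ - 1)) = pmat F n ℓ - 1 := by
  have hexp : (1 - pmat F n ℓ) * (Matrix.diagonal (wv F n ℓ) * (pmat F n ℓ - 1))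
      = Matrix.diagonal (wv F n ℓ) * pmat F n ℓ - Matrix.diagonal (wv F n ℓ)
        - pmat F n ℓ * Matrix.diagonal (wv F n ℓ) * pmat F n ℓ
        + pmat F n ℓ * Matrix.diagonal (wv F n ℓ) := by
    noncomm_ring
  rw [hexp]
  ext i j
  have hi := i.isLt
  have hj := j.isLt
  have hswi := sw_val n ℓ h2 i
  have hswj := sw_val n ℓ h2 j
  have e1 : (sw n ℓ i = sw n ℓ j) ↔ i = j := by
    constructor
    · intro h
      have := congrArg (sw n ℓ) h
      rwa [sw_sw n ℓ h1 h2, sw_sw n ℓ h1 h2] at this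
    · intro h; rw [h]
  have e2 : (sw n ℓ i = j) ↔ j = sw n ℓ i := ⟨fun h => h.symm, fun h => h.symm⟩
  have e3 : (i = sw n ℓ j) ↔ j = sw n ℓ i := by
    constructor
    · intro h; rw [h, sw_sw n ℓ h1 h2]
    · intro h; rw [h, sw_sw n ℓ h1 h2]
  simp only [mul_pmat F n ℓ h1 h2, pmat_mul F n ℓ h1 h2, Matrix.add_apply, Matrix.sub_apply,
    Matrix.diagonal_apply, Matrix.one_apply, pmat_apply F n ℓ h1 h2, wv_sw F n ℓ h2, e1, e2, e3]
  unfold wv
  have hfix : (i = sw n ℓ i) ↔ (¬ i.val < ℓ ∧ ¬ n - ℓ ≤ i.val) := by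
    rw [Fin.ext_iff, hswi]
    split_ifs <;> omega
  by_cases P2 : i = j
  · subst P2
    by_cases P1 : i = sw n ℓ i
    · have h34 := hfix.mp P1
      simp only [if_pos P1, if_neg h34.1, if_neg h34.2, if_true]
      ring
    · have h34 : i.val < ℓ ∨ n - ℓ ≤ i.val := by
        by_contra hcon
        rw [not_or, not_lt, not_le] at hcon
        exact P1 (hfix.mpr ⟨by omega, by omega⟩)
      rcases h34 with h | h
      · simp only [if_neg P1, if_pos h, if_neg (show ¬ n - ℓ ≤ i.val by omega), if_true]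
        ring
      · simp only [if_neg P1, if_neg (show ¬ i.val < ℓ by omega), if_pos h, if_true]
        ring
  · by_cases P1 : j = sw n ℓ i
    · have hne : ¬ i = sw n ℓ i := fun h => P2 (h.trans P1.symm)
      have h34 : i.val < ℓ ∨ n - ℓ ≤ i.val := by
        by_contra hcon
        rw [not_or, not_lt, not_le] at hcon
        exact hne (hfix.mpr ⟨by omega, by omega⟩)
      rcases h34 with h | h
      · simp only [if_pos P1, if_neg P2, if_pos h, if_neg (show ¬ n - ℓ ≤ i.val by omega)]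
        ring
      · simp only [if_pos P1, if_neg P2, if_neg (show ¬ i.val < ℓ by omega), if_pos h]
        ring
    · simp only [if_neg P1, if_neg P2]
      ring

theorem pmat_sub_rank (F : Type*) [Field F] (n ℓ : ℕ) (h1 : 1 ≤ ℓ) (h2 : 2 * ℓ ≤ n) :
    (pmat F n ℓ - 1).rank = ℓ := by
  apply le_antisymm
  · have h := Matrix.rank_mul_le_right (1 - pmat F n ℓ)
      (Matrix.diagonal (wv F n ℓ) * (pmat F n ℓ - 1))
    rw [key2 F n ℓ h1 h2] at h
    have h' := Matrix.rank_mul_le_left (Matrix.diagonal (wv F n ℓ)) (pmat F n ℓ - 1)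
    rw [diag_rank F n ℓ (by omega)] at h'
    exact le_trans h h'
  · have h := Matrix.rank_mul_le_left (Matrix.diagonal (wv F n ℓ) * (pmat F n ℓ - 1))
      (-Matrix.diagonal (wv F n ℓ))
    rw [key1 F n ℓ h1 h2, diag_rank F n ℓ (by omega)] at h
    have h' := Matrix.rank_mul_le_right (Matrix.diagonal (wv F n ℓ)) (pmat F n ℓ - 1)
    exact le_trans h h'

theorem pmat_herm (F : Type*) [Field F] (n ℓ q : ℕ) (h1 : 1 ≤ ℓ) (h2 : 2 * ℓ ≤ n)
    (u v : Fin n → F) :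
    Cfsg.hermForm n F q ((pmat F n ℓ).mulVec u) ((pmat F n ℓ).mulVec v) = Cfsg.hermForm n F q u v := by
  unfold Cfsg.hermForm
  have hinv : Function.Involutive (sw n ℓ) := sw_sw n ℓ h1 h2
  have := Equiv.sum_comp (Function.Involutive.toPerm (sw n ℓ) hinv) (fun i => u i * v i ^ q)
  rw [← this]
  apply Finset.sum_congr rfl
  intro i _
  rw [pmat_mulVec F n ℓ h1 h2, pmat_mulVec F n ℓ h1 h2]
  rfl

/-- In SU_n(q), q even, n ≥ 3 (matrices of determinant 1 over the field with q² elements preserving Σ u_i v_i^q): for every ℓ with 1 ≤ ℓ and 2ℓ ≤ n, the permutation matrix of the involution of {0, …, n−1} exchanging i and n − ℓ + i for each i < ℓ lies in SU_n(q), has order 2, and differs from the identity by a matrix of rank ℓ. So every rank between 1 and n/2 occurs for involutions of SU_n(q). -/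
theorem result {F : Type*} [Field F] [Fintype F] [CharP F 2] {n q : ℕ} (hF : Fintype.card F = q ^ 2) (hn : 3 ≤ n) (ℓ : ℕ) (h1 : 1 ≤ ℓ) (h2 : 2 * ℓ ≤ n) :
    ∃ a : ↥(Cfsg.SU n F q), (((a : Matrix.SpecialLinearGroup (Fin n) F) : Matrix (Fin n) (Fin n) F) = Matrix.of (fun i j : Fin n => if (j.val < ℓ ∧ i.val = j.val + (n - ℓ)) ∨ (i.val < ℓ ∧ j.val = i.val + (n - ℓ)) ∨ (i = j ∧ ℓ ≤ i.val ∧ i.val < n - ℓ) then (1 : F) else 0)) ∧ orderOf a = 2 ∧ ((((a : Matrix.SpecialLinearGroup (Fin n) F) : Matrix (Fin n) (Fin n) F)) - 1).rank = ℓ := by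
  let a0 : Matrix.SpecialLinearGroup (Fin n) F := ⟨pmat F n ℓ, pmat_det F n ℓ h1 h2⟩
  have ha0 : (a0 : Matrix (Fin n) (Fin n) F) = pmat F n ℓ := rfl
  have hmem : a0 ∈ Cfsg.SU n F q := by
    intro u v
    exact pmat_herm F n ℓ q h1 h2 u v
  let a : ↥(Cfsg.SU n F q) := ⟨a0, hmem⟩
  have ha : ((a : Matrix.SpecialLinearGroup (Fin n) F) : Matrix (Fin n) (Fin n) F) = pmat F n ℓ := rfl
  refine ⟨a, ha, ?_, ?_⟩
  · have hp : Fact (Nat.Prime 2) := ⟨Nat.prime_two⟩
    apply orderOf_eq_prime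
    · apply Subtype.ext
      apply Matrix.SpecialLinearGroup.ext
      intro i j
      rw [pow_two, Subgroup.coe_mul, Matrix.SpecialLinearGroup.coe_mul, ha, pmat_sq F n ℓ h1 h2,
        Subgroup.coe_one, Matrix.SpecialLinearGroup.coe_one]
    · intro h
      have h' : ((a : Matrix.SpecialLinearGroup (Fin n) F) : Matrix (Fin n) (Fin n) F) = 1 := by
        rw [h, Subgroup.coe_one, Matrix.SpecialLinearGroup.coe_one]
      rw [ha] at h'
      have hj : 0 < n := by omega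
      have h00 := congrFun (congrFun h' ⟨0, hj⟩) ⟨0, hj⟩
      rw [pmat_apply F n ℓ h1 h2, Matrix.one_apply, if_pos rfl] at h00
      have hne : ¬ (⟨0, hj⟩ : Fin n) = sw n ℓ ⟨0, hj⟩ := by
        intro hh
        have hv := congrArg Fin.val hh
        rw [sw_val n ℓ h2] at hv
        simp only at hv
        rw [if_pos (by omega)] at hv
        omega
      rw [if_neg hne] at h00
      exact zero_ne_one h00
  · rw [ha]
    exact pmat_sub_rank F n ℓ h1 h2

end Cfsg.Agent.S2165
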