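import Cfsg.Statements.S2167
import Cfsg.Agent.Lib.Helper36.AltEven

set_option autoImplicit false
open Cfsg

namespace Cfsg.Agent.S2167

theorem two_eq_zero' (F : Type*) [Field F] [CharP F 2] : (2 : F) = 0 := by
  have := CharP.cast_eq_zero F 2
  exact_mod_cast this

/-- the standard form is alternating -/
theorem J_alt (F : Type*) [Field F] (m : ℕ) (v : Fin m ⊕ Fin m → F) :
    v ⬝ᵥ (Matrix.J (Fin m) F).mulVec v = 0 := by
  have h1 : (Matrix.J (Fin m) F).mulVec v
      = Sum.elim (fun i => - v (Sum.inr i)) (fun i => v (Sum.inl i)) := by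
    have hv : v = Sum.elim (fun i => v (Sum.inl i)) (fun i => v (Sum.inr i)) := by
      ext x
      cases x <;> rfl
    conv_lhs => rw [hv]
    rw [Matrix.J, Matrix.fromBlocks_mulVec]
    simp only [Matrix.zero_mulVec, Matrix.neg_mulVec, Matrix.one_mulVec, zero_add, add_zero]
    rfl
  rw [h1, dotProduct, Fintype.sum_sum_type]
  simp only [Sum.elim_inl, Sum.elim_inr]
  rw [← Finset.sum_add_distrib]
  apply Finset.sum_eq_zero
  intro i _
  ring

section main

variable {F : Type*} [Field F] {m : ℕ}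

/-- the matrix `J * A` is skew when `A` is a symplectic involution -/
theorem JA_transpose (A : Matrix (Fin m ⊕ Fin m) (Fin m ⊕ Fin m) F)
    (hA : A.transpose * Matrix.J (Fin m) F * A = Matrix.J (Fin m) F) (hAA : A * A = 1) :
    (Matrix.J (Fin m) F * A).transpose = -(Matrix.J (Fin m) F * A) := by
  have h1 : A.transpose * Matrix.J (Fin m) F = Matrix.J (Fin m) F * A := by
    calc A.transpose * Matrix.J (Fin m) F
        = A.transpose * Matrix.J (Fin m) F * (A * A) := by rw [hAA, mul_one]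
      _ = (A.transpose * Matrix.J (Fin m) F * A) * A := by rw [mul_assoc, mul_assoc, mul_assoc]
      _ = Matrix.J (Fin m) F * A := by rw [hA]
  rw [Matrix.transpose_mul, Matrix.J_transpose, mul_neg, h1]

theorem cross (N : Matrix (Fin m ⊕ Fin m) (Fin m ⊕ Fin m) F) (hN : N.transpose = -N)
    (u v : Fin m ⊕ Fin m → F) : u ⬝ᵥ N.mulVec v + v ⬝ᵥ N.mulVec u = 0 := by
  have h1 : u ⬝ᵥ N.mulVec v = (N.transpose.mulVec u) ⬝ᵥ v := by
    rw [Matrix.dotProduct_mulVec, Matrix.mulVec_transpose]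
  rw [h1, hN, Matrix.neg_mulVec, neg_dotProduct, dotProduct_comm (N.mulVec u) v]
  ring

theorem q_add (N : Matrix (Fin m ⊕ Fin m) (Fin m ⊕ Fin m) F) (hN : N.transpose = -N)
    (u v : Fin m ⊕ Fin m → F) :
    (u + v) ⬝ᵥ N.mulVec (u + v) = u ⬝ᵥ N.mulVec u + v ⬝ᵥ N.mulVec v := by
  rw [Matrix.mulVec_add, add_dotProduct, dotProduct_add, dotProduct_add]
  have := cross N hN u v
  linear_combination this

theorem q_smul (N : Matrix (Fin m ⊕ Fin m) (Fin m ⊕ Fin m) F) (c : F)
    (v : Fin m ⊕ Fin m → F) :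
    (c • v) ⬝ᵥ N.mulVec (c • v) = c * c * (v ⬝ᵥ N.mulVec v) := by
  rw [Matrix.mulVec_smul, smul_dotProduct, dotProduct_smul, smul_eq_mul, smul_eq_mul, mul_assoc]

/-- the additive map `v ↦ v ⬝ N v` -/
def qhom (N : Matrix (Fin m ⊕ Fin m) (Fin m ⊕ Fin m) F) (hN : N.transpose = -N) :
    (Fin m ⊕ Fin m → F) →+ F where
  toFun v := v ⬝ᵥ N.mulVec v
  map_zero' := by simp
  map_add' := q_add N hN

theorem qhom_apply (N : Matrix (Fin m ⊕ Fin m) (Fin m ⊕ Fin m) F) (hN : N.transpose = -N)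
    (v : Fin m ⊕ Fin m → F) : qhom N hN v = v ⬝ᵥ N.mulVec v := rfl

theorem qhom_range [Fintype F] [CharP F 2] (N : Matrix (Fin m ⊕ Fin m) (Fin m ⊕ Fin m) F)
    (hN : N.transpose = -N) : (qhom N hN).range = ⊥ ∨ (qhom N hN).range = ⊤ := by
  by_cases h : ∀ v, qhom N hN v = 0
  · left
    rw [eq_bot_iff]
    rintro x ⟨v, rfl⟩
    rw [h v]
    exact AddSubgroup.zero_mem _
  · right
    rw [not_forall] at h
    obtain ⟨v, hv⟩ := h
    rw [eq_top_iff]
    intro y _
    have hchar : ringChar F = 2 := ringChar.eq F 2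
    obtain ⟨c, hc⟩ := FiniteField.isSquare_of_char_two hchar (y / qhom N hN v)
    refine ⟨c • v, ?_⟩
    rw [qhom_apply, q_smul, ← qhom_apply N hN, ← hc, div_mul_cancel₀ _ hv]

theorem card_ker [Fintype F] [CharP F 2] (N : Matrix (Fin m ⊕ Fin m) (Fin m ⊕ Fin m) F)
    (hN : N.transpose = -N) :
    Nat.card (qhom N hN).ker = Fintype.card F ^ (2 * m) ∨
      Nat.card (qhom N hN).ker * Fintype.card F = Fintype.card F ^ (2 * m) := by
  have h1 := AddSubgroup.card_mul_index (qhom N hN).ker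
  rw [AddSubgroup.index_ker] at h1
  have hV : Nat.card (Fin m ⊕ Fin m → F) = Fintype.card F ^ (2 * m) := by
    rw [Nat.card_eq_fintype_card, Fintype.card_fun, Fintype.card_sum, Fintype.card_fin, two_mul]
  rw [hV] at h1
  rcases qhom_range N hN with h | h
  · left
    rw [h, AddSubgroup.card_bot, mul_one] at h1
    exact h1
  · right
    have hF : Nat.card F = Fintype.card F := Nat.card_eq_fintype_card
    rw [h, AddSubgroup.card_top, hF] at h1
    exact h1

end main

/-- For an involution t of the symplectic group Sp_{2m}(F), m ≥ 2, F a finite field of characteristic two (matrices A with A J Aᵀ = J acting on column vectors, alternating form f(u, v) = u ⬝ (J v)): the set V(t) of vectors v with f(v, t v) = 0 has either q^{2m} or q^{2m−1} elements, q the order of F (it is a subspace of codimension at most 1), and if it is the whole space then t − 1 has even rank. -/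
theorem result {F : Type*} [Field F] [Fintype F] [CharP F 2] {m : ℕ} (hm : 2 ≤ m) (a : ↥(Matrix.symplecticGroup (Fin m) F)) (ha : orderOf a = 2) :
    (Nat.card {v : Fin m ⊕ Fin m → F // Cfsg.sympForm m F v (Matrix.mulVec ((a : ↥(Matrix.symplecticGroup (Fin m) F)) : Matrix (Fin m ⊕ Fin m) (Fin m ⊕ Fin m) F) v) = 0} = Fintype.card F ^ (2 * m) ∨ Nat.card {v : Fin m ⊕ Fin m → F // Cfsg.sympForm m F v (Matrix.mulVec ((a : ↥(Matrix.symplecticGroup (Fin m) F)) : Matrix (Fin m ⊕ Fin m) (Fin m ⊕ Fin m) F) v) = 0} * Fintype.card F = Fintype.card F ^ (2 * m)) ∧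
    ((∀ v : Fin m ⊕ Fin m → F, Cfsg.sympForm m F v (Matrix.mulVec ((a : ↥(Matrix.symplecticGroup (Fin m) F)) : Matrix (Fin m ⊕ Fin m) (Fin m ⊕ Fin m) F) v) = 0) → Even (((a : ↥(Matrix.symplecticGroup (Fin m) F)) : Matrix (Fin m ⊕ Fin m) (Fin m ⊕ Fin m) F) - 1).rank) := by
  have hsq : a ^ 2 = 1 := by rw [← ha]; exact pow_orderOf_eq_one a
  set A : Matrix (Fin m ⊕ Fin m) (Fin m ⊕ Fin m) F := (a : Matrix (Fin m ⊕ Fin m) (Fin m ⊕ Fin m) F) with hAdef
  have hAA : A * A = 1 := by
    have := congrArg (fun x : ↥(Matrix.symplecticGroup (Fin m) F) =>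
      (x : Matrix (Fin m ⊕ Fin m) (Fin m ⊕ Fin m) F)) hsq
    simpa [pow_two] using this
  have hA : A.transpose * Matrix.J (Fin m) F * A = Matrix.J (Fin m) F :=
    SymplecticGroup.mem_iff'.mp a.2
  have hN := JA_transpose A hA hAA
  have hform : ∀ v : Fin m ⊕ Fin m → F, Cfsg.sympForm m F v (A.mulVec v)
      = v ⬝ᵥ (Matrix.J (Fin m) F * A).mulVec v := by
    intro v
    unfold Cfsg.sympForm
    rw [Matrix.mulVec_mulVec]
  constructor
  · have hcard : Nat.card {v : Fin m ⊕ Fin m → F // Cfsg.sympForm m F v (A.mulVec v) = 0}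
        = Nat.card (qhom (Matrix.J (Fin m) F * A) hN).ker := by
      apply Nat.card_congr
      refine Equiv.subtypeEquivRight ?_
      intro v
      rw [AddMonoidHom.mem_ker, qhom_apply, hform]
    rw [hcard]
    exact card_ker (Matrix.J (Fin m) F * A) hN
  · intro hall
    have hrank : (Matrix.J (Fin m) F * (A - 1)).rank = (A - 1).rank :=
      Matrix.rank_mul_eq_right_of_isUnit_det _ _ (Matrix.isUnit_det_J (Fin m) F)
    rw [← hrank]
    apply Cfsg.Agent.Lib.Helper36.even_rank_of_alt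
    intro v
    rw [mul_sub, mul_one, Matrix.sub_mulVec, dotProduct_sub, ← hform, hall v, J_alt, sub_zero]

end Cfsg.Agent.S2167
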