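import Mathlib
import Cfsg.Statements.S2166
import Cfsg.Agent.S2167
import Cfsg.Agent.Lib.Helper8.SympInv
-- import your own Cfsg.Agent.* helpers here

set_option autoImplicit false
open Cfsg

namespace Cfsg.Agent.S2166

/-- Conjugacy of involutions in the symplectic group Sp_{2m}(F), F a finite field of characteristic two, m ≥ 2 (Sp taken as the matrices A with A J Aᵀ = J, acting on column vectors, with the alternating form f(u, v) = u ⬝ (J v)). For an involution t write V(t) for the set of vectors v with f(v, t v) = 0 (a subspace). Two involutions a, b are conjugate in Sp_{2m}(F) exactly when a − 1 and b − 1 have the same rank and, in case that rank is even, V(a) and V(b) have the same number of elements. -/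
theorem result {F : Type*} [Field F] [Fintype F] [CharP F 2] {m : ℕ} (hm : 2 ≤ m) (a b : ↥(Matrix.symplecticGroup (Fin m) F)) (ha : orderOf a = 2) (hb : orderOf b = 2) :
    IsConj a b ↔ ((((a : ↥(Matrix.symplecticGroup (Fin m) F)) : Matrix (Fin m ⊕ Fin m) (Fin m ⊕ Fin m) F) - 1).rank = (((b : ↥(Matrix.symplecticGroup (Fin m) F)) : Matrix (Fin m ⊕ Fin m) (Fin m ⊕ Fin m) F) - 1).rank ∧
      (Even (((a : ↥(Matrix.symplecticGroup (Fin m) F)) : Matrix (Fin m ⊕ Fin m) (Fin m ⊕ Fin m) F) - 1).rank → Nat.card {v : Fin m ⊕ Fin m → F // Cfsg.sympForm m F v (Matrix.mulVec ((a : ↥(Matrix.symplecticGroup (Fin m) F)) : Matrix (Fin m ⊕ Fin m) (Fin m ⊕ Fin m) F) v) = 0} = Nat.card {v : Fin m ⊕ Fin m → F // Cfsg.sympForm m F v (Matrix.mulVec ((b : ↥(Matrix.symplecticGroup (Fin m) F)) : Matrix (Fin m ⊕ Fin m) (Fin m ⊕ Fin m) F) v) = 0})) := by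
  have h2 : (2 : F) = 0 := CharTwo.two_eq_zero
  have hsq : ∀ c : ↥(Matrix.symplecticGroup (Fin m) F), orderOf c = 2 →
      (c : Matrix (Fin m ⊕ Fin m) (Fin m ⊕ Fin m) F) * (c : Matrix (Fin m ⊕ Fin m) (Fin m ⊕ Fin m) F) = 1 := by
    intro c hc
    have h : c ^ orderOf c = 1 := pow_orderOf_eq_one c
    rw [hc, pow_two] at h
    exact congrArg Subtype.val h
  constructor
  · intro h
    obtain ⟨c, hc⟩ := isConj_iff.mp h
    have hcc : (c : Matrix (Fin m ⊕ Fin m) (Fin m ⊕ Fin m) F) * ((c⁻¹ : ↥(Matrix.symplecticGroup (Fin m) F)) : Matrix (Fin m ⊕ Fin m) (Fin m ⊕ Fin m) F) = 1 :=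
      congrArg Subtype.val (mul_inv_cancel c)
    have hcc' : ((c⁻¹ : ↥(Matrix.symplecticGroup (Fin m) F)) : Matrix (Fin m ⊕ Fin m) (Fin m ⊕ Fin m) F) * (c : Matrix (Fin m ⊕ Fin m) (Fin m ⊕ Fin m) F) = 1 :=
      congrArg Subtype.val (inv_mul_cancel c)
    have hb' : (b : Matrix (Fin m ⊕ Fin m) (Fin m ⊕ Fin m) F) = (c : Matrix (Fin m ⊕ Fin m) (Fin m ⊕ Fin m) F) * (a : Matrix (Fin m ⊕ Fin m) (Fin m ⊕ Fin m) F) *
        ((c⁻¹ : ↥(Matrix.symplecticGroup (Fin m) F)) : Matrix (Fin m ⊕ Fin m) (Fin m ⊕ Fin m) F) := by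
      rw [← hc]
      rfl
    constructor
    · have e : (b : Matrix (Fin m ⊕ Fin m) (Fin m ⊕ Fin m) F) - 1 = (c : Matrix (Fin m ⊕ Fin m) (Fin m ⊕ Fin m) F) * ((a : Matrix (Fin m ⊕ Fin m) (Fin m ⊕ Fin m) F) - 1) *
          ((c⁻¹ : ↥(Matrix.symplecticGroup (Fin m) F)) : Matrix (Fin m ⊕ Fin m) (Fin m ⊕ Fin m) F) := by
        rw [hb', Matrix.mul_sub, Matrix.sub_mul, Matrix.mul_one, hcc]
      rw [e, Matrix.rank_mul_eq_left_of_isUnit_det _ _
          (SymplecticGroup.symplectic_det (c⁻¹).2),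
        Matrix.rank_mul_eq_right_of_isUnit_det _ _ (SymplecticGroup.symplectic_det c.2)]
    · intro _
      apply Nat.card_congr
      refine Equiv.subtypeEquiv ⟨fun v => Matrix.mulVec (c : Matrix (Fin m ⊕ Fin m) (Fin m ⊕ Fin m) F) v,
        fun v => Matrix.mulVec ((c⁻¹ : ↥(Matrix.symplecticGroup (Fin m) F)) : Matrix (Fin m ⊕ Fin m) (Fin m ⊕ Fin m) F) v, ?_, ?_⟩ ?_
      · intro v
        show Matrix.mulVec _ (Matrix.mulVec _ v) = v
        rw [Matrix.mulVec_mulVec, hcc', Matrix.one_mulVec]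
      · intro v
        show Matrix.mulVec _ (Matrix.mulVec _ v) = v
        rw [Matrix.mulVec_mulVec, hcc, Matrix.one_mulVec]
      · intro v
        show _ ↔ Cfsg.sympForm m F (Matrix.mulVec (c : Matrix (Fin m ⊕ Fin m) (Fin m ⊕ Fin m) F) v)
          (Matrix.mulVec (b : Matrix (Fin m ⊕ Fin m) (Fin m ⊕ Fin m) F) (Matrix.mulVec (c : Matrix (Fin m ⊕ Fin m) (Fin m ⊕ Fin m) F) v)) = 0
        have e : Matrix.mulVec (b : Matrix (Fin m ⊕ Fin m) (Fin m ⊕ Fin m) F) (Matrix.mulVec (c : Matrix (Fin m ⊕ Fin m) (Fin m ⊕ Fin m) F) v) =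
            Matrix.mulVec (c : Matrix (Fin m ⊕ Fin m) (Fin m ⊕ Fin m) F) (Matrix.mulVec (a : Matrix (Fin m ⊕ Fin m) (Fin m ⊕ Fin m) F) v) := by
          rw [Matrix.mulVec_mulVec, Matrix.mulVec_mulVec, hb', Matrix.mul_assoc, hcc',
            Matrix.mul_one]
        rw [e, Cfsg.Agent.Lib.Helper13.sympForm_mulVec_of_mem m c.2]
  · rintro ⟨hr, hcard⟩
    have htype : (∀ v, Cfsg.sympForm m F v (Matrix.mulVec (a : Matrix (Fin m ⊕ Fin m) (Fin m ⊕ Fin m) F) v) = 0) ↔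
        (∀ v, Cfsg.sympForm m F v (Matrix.mulVec (b : Matrix (Fin m ⊕ Fin m) (Fin m ⊕ Fin m) F) v) = 0) := by
      by_cases hev : Even ((a : Matrix (Fin m ⊕ Fin m) (Fin m ⊕ Fin m) F) - 1).rank
      · have hc := hcard hev
        rw [Cfsg.Agent.Lib.Helper8.SympInv.forall_iff_card,
          Cfsg.Agent.Lib.Helper8.SympInv.forall_iff_card
            (fun v => Cfsg.sympForm m F v (Matrix.mulVec (b : Matrix (Fin m ⊕ Fin m) (Fin m ⊕ Fin m) F) v) = 0), hc]
      · constructor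
        · intro h
          exact absurd ((Cfsg.Agent.S2167.result hm a ha).2 h) hev
        · intro h
          have := (Cfsg.Agent.S2167.result hm b hb).2 h
          rw [← hr] at this
          exact absurd this hev
    obtain ⟨G, hG, hGAB⟩ := Cfsg.Agent.Lib.Helper8.SympInv.exists_sp_conj h2 (a : Matrix (Fin m ⊕ Fin m) (Fin m ⊕ Fin m) F) (b : Matrix (Fin m ⊕ Fin m) (Fin m ⊕ Fin m) F)
      a.2 b.2 (hsq a ha) (hsq b hb) hr htype
    rw [isConj_iff]
    refine ⟨⟨G, hG⟩, ?_⟩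
    rw [mul_inv_eq_iff_eq_mul]
    apply Subtype.ext
    exact hGAB

end Cfsg.Agent.S2166
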