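import Mathlib
import Cfsg.Statements.S2168
import Cfsg.Agent.Lib.Helper8.OrthInv
import Cfsg.Agent.Lib.Helper14.Forms
-- import your own Cfsg.Agent.* helpers here

set_option autoImplicit false
open Cfsg

namespace Cfsg.Agent.S2168

/-- Involutions in the full isometry group O of the hyperbolic quadratic form Σ x_i y_i in dimension 2m over a finite field F of characteristic two, m ≥ 4 (plus type): two elements of order 2 of O are conjugate in O exactly when they are conjugate under the group of all invertible matrices preserving the polar bilinear form (u, v) ↦ Q(u + v) − Q(u) − Q(v) (the symplectic group of that form). -/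
theorem result {F : Type*} [Field F] [Fintype F] [CharP F 2] {m : ℕ} (hm : 4 ≤ m) (t s : ↥(Cfsg.isometryGroup F (Cfsg.quadFormPlus m F))) (ht : orderOf t = 2) (hs : orderOf s = 2) :
    IsConj t s ↔ ∃ g ∈ Cfsg.preserving (Units.coeHom (Matrix (Fin m ⊕ Fin m) (Fin m ⊕ Fin m) F)) (fun u v => Cfsg.quadFormPlus m F (u + v) - Cfsg.quadFormPlus m F u - Cfsg.quadFormPlus m F v), g * ((t : ↥(Cfsg.isometryGroup F (Cfsg.quadFormPlus m F))) : GL (Fin m ⊕ Fin m) F) * g⁻¹ = ((s : ↥(Cfsg.isometryGroup F (Cfsg.quadFormPlus m F))) : GL (Fin m ⊕ Fin m) F) := by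
  have hQc := Cfsg.Agent.Lib.Helper14.plusQF_coe m F
  have hmem : ∀ c : ↥(Cfsg.isometryGroup F (Cfsg.quadFormPlus m F)), ∀ v,
      Cfsg.quadFormPlus m F (Matrix.mulVec ((c : GL (Fin m ⊕ Fin m) F) : Matrix (Fin m ⊕ Fin m) (Fin m ⊕ Fin m) F) v) =
        Cfsg.quadFormPlus m F v := fun c v => c.2 v v
  constructor
  · intro h
    obtain ⟨c, hc⟩ := isConj_iff.mp h
    refine ⟨(c : GL (Fin m ⊕ Fin m) F), ?_, ?_⟩
    · intro u v
      show Cfsg.quadFormPlus m F (Matrix.mulVec ((c : GL (Fin m ⊕ Fin m) F) : Matrix (Fin m ⊕ Fin m) (Fin m ⊕ Fin m) F) u +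
          Matrix.mulVec ((c : GL (Fin m ⊕ Fin m) F) : Matrix (Fin m ⊕ Fin m) (Fin m ⊕ Fin m) F) v) -
        Cfsg.quadFormPlus m F (Matrix.mulVec ((c : GL (Fin m ⊕ Fin m) F) : Matrix (Fin m ⊕ Fin m) (Fin m ⊕ Fin m) F) u) -
        Cfsg.quadFormPlus m F (Matrix.mulVec ((c : GL (Fin m ⊕ Fin m) F) : Matrix (Fin m ⊕ Fin m) (Fin m ⊕ Fin m) F) v) = _
      rw [← Matrix.mulVec_add, hmem, hmem, hmem]
    · rw [← hc]
      rfl
  · rintro ⟨g, hg, hgts⟩
    have hS2 : ((s : GL (Fin m ⊕ Fin m) F) : Matrix (Fin m ⊕ Fin m) (Fin m ⊕ Fin m) F) *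
        ((s : GL (Fin m ⊕ Fin m) F) : Matrix (Fin m ⊕ Fin m) (Fin m ⊕ Fin m) F) = 1 := by
      have h : s ^ orderOf s = 1 := pow_orderOf_eq_one s
      rw [hs, pow_two] at h
      have h' : (s : GL (Fin m ⊕ Fin m) F) * (s : GL (Fin m ⊕ Fin m) F) = 1 :=
        congrArg Subtype.val h
      have := congrArg (fun x : GL (Fin m ⊕ Fin m) F => (x : Matrix (Fin m ⊕ Fin m) (Fin m ⊕ Fin m) F)) h'
      simpa using this
    have hconj : (g : Matrix (Fin m ⊕ Fin m) (Fin m ⊕ Fin m) F) * ((t : GL (Fin m ⊕ Fin m) F) : Matrix (Fin m ⊕ Fin m) (Fin m ⊕ Fin m) F) =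
        ((s : GL (Fin m ⊕ Fin m) F) : Matrix (Fin m ⊕ Fin m) (Fin m ⊕ Fin m) F) * (g : Matrix (Fin m ⊕ Fin m) (Fin m ⊕ Fin m) F) := by
      rw [mul_inv_eq_iff_eq_mul] at hgts
      have := congrArg (fun x : GL (Fin m ⊕ Fin m) F => (x : Matrix (Fin m ⊕ Fin m) (Fin m ⊕ Fin m) F)) hgts
      simpa using this
    obtain ⟨G, hG, hGts⟩ := Cfsg.Agent.Lib.Helper8.OrthInv.exists_orth_conj
      (Cfsg.Agent.Lib.Helper14.plusQF m F) (Cfsg.Agent.Lib.Helper14.plusQF_nondegenerate m F)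
      ((t : GL (Fin m ⊕ Fin m) F) : Matrix (Fin m ⊕ Fin m) (Fin m ⊕ Fin m) F) ((s : GL (Fin m ⊕ Fin m) F) : Matrix (Fin m ⊕ Fin m) (Fin m ⊕ Fin m) F) g
      (fun v => by rw [hQc]; exact hmem t v) (fun v => by rw [hQc]; exact hmem s v) hS2
      (fun u v => by
        rw [hQc]
        exact hg u v) hconj
    have hGmem : G ∈ Cfsg.isometryGroup F (Cfsg.quadFormPlus m F) := by
      intro u v
      have := hG u
      rw [hQc] at this
      exact this
    rw [isConj_iff]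
    refine ⟨⟨G, hGmem⟩, ?_⟩
    rw [mul_inv_eq_iff_eq_mul]
    apply Subtype.ext
    apply Units.ext
    exact hGts

end Cfsg.Agent.S2168
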