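import Mathlib
import Cfsg.Statements.S2170
import Cfsg.Agent.Lib.Helper8.OrthInv
import Cfsg.Agent.Lib.Helper14.Forms
-- import your own Cfsg.Agent.* helpers here

set_option autoImplicit false
open Cfsg

namespace Cfsg.Agent.S2170

/-- In characteristic two the minus-type form with anisotropic binary part has non-degenerate
polar form. -/
theorem minus_nondeg_char_two {F : Type*} [Field F] [Fintype F] [CharP F 2] (k : ℕ) (c d : F)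
    (hcd : ∀ z₁ z₂ : F, z₁ ^ 2 + c * z₁ * z₂ + d * z₂ ^ 2 = 0 → z₁ = 0 ∧ z₂ = 0) :
    (QuadraticMap.polarBilin (Cfsg.Agent.Lib.Helper14.minusQF k F c d)).Nondegenerate := by
  have h2 : (2 : F) = 0 := by
    have := CharP.cast_eq_zero F 2
    exact_mod_cast this
  have hc : c ≠ 0 := by
    rintro rfl
    obtain ⟨r, hr⟩ := FiniteField.isSquare_of_char_two (CharP.ringChar_of_prime_eq_zero
      Nat.prime_two h2) d
    have := (hcd r 1 (by rw [hr]; linear_combination (r * r) * h2)).2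
    exact one_ne_zero this
  apply Cfsg.Agent.Lib.Helper14.nondegenerate_of_coords
  rintro ((j | j) | j)
  · exact ⟨Pi.single (Sum.inl (Sum.inr j)) 1, 1, one_ne_zero,
      fun x => by rw [Cfsg.Agent.Lib.Helper14.minusQF_coe,
        Cfsg.Agent.Lib.Helper14.minus_polar_inr, one_mul]⟩
  · exact ⟨Pi.single (Sum.inl (Sum.inl j)) 1, 1, one_ne_zero,
      fun x => by rw [Cfsg.Agent.Lib.Helper14.minusQF_coe,
        Cfsg.Agent.Lib.Helper14.minus_polar_inl, one_mul]⟩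
  · fin_cases j
    · refine ⟨Pi.single (Sum.inr 1) 1, c, hc, fun x => ?_⟩
      rw [Cfsg.Agent.Lib.Helper14.minusQF_coe, Cfsg.Agent.Lib.Helper14.minus_polar_one]
      simp only [Fin.zero_eta]
      linear_combination (d * x (Sum.inr 1)) * h2
    · refine ⟨Pi.single (Sum.inr 0) 1, c, hc, fun x => ?_⟩
      rw [Cfsg.Agent.Lib.Helper14.minusQF_coe, Cfsg.Agent.Lib.Helper14.minus_polar_zero]
      simp only [Fin.mk_one]
      linear_combination (x (Sum.inr 0)) * h2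

/-- Involutions in the full isometry group O of the quadratic form Σ x_i y_i + (z₁² + c z₁ z₂ + d z₂²) in dimension 2m with anisotropic binary part over a finite field F of characteristic two, m ≥ 4 (minus type): two elements of order 2 of O are conjugate in O exactly when they are conjugate under the group of all invertible matrices preserving the polar bilinear form (u, v) ↦ Q(u + v) − Q(u) − Q(v) (the symplectic group of that form). -/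
theorem result {F : Type*} [Field F] [Fintype F] [CharP F 2] {m : ℕ} (hm : 4 ≤ m) (c d : F) (hcd : ∀ z₁ z₂ : F, z₁ ^ 2 + c * z₁ * z₂ + d * z₂ ^ 2 = 0 → z₁ = 0 ∧ z₂ = 0) (t s : ↥(Cfsg.isometryGroup F (Cfsg.quadFormMinus (m - 1) F c d))) (ht : orderOf t = 2) (hs : orderOf s = 2) :
    IsConj t s ↔ ∃ g ∈ Cfsg.preserving (Units.coeHom (Matrix ((Fin (m - 1) ⊕ Fin (m - 1)) ⊕ Fin 2) ((Fin (m - 1) ⊕ Fin (m - 1)) ⊕ Fin 2) F)) (fun u v => Cfsg.quadFormMinus (m - 1) F c d (u + v) - Cfsg.quadFormMinus (m - 1) F c d u - Cfsg.quadFormMinus (m - 1) F c d v), g * ((t : ↥(Cfsg.isometryGroup F (Cfsg.quadFormMinus (m - 1) F c d))) : GL ((Fin (m - 1) ⊕ Fin (m - 1)) ⊕ Fin 2) F) * g⁻¹ = ((s : ↥(Cfsg.isometryGroup F (Cfsg.quadFormMinus (m - 1) F c d))) : GL ((Fin (m - 1) ⊕ Fin (m - 1)) ⊕ Fin 2) F) := by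
  have hQc := Cfsg.Agent.Lib.Helper14.minusQF_coe (m - 1) F c d
  have hQnd := minus_nondeg_char_two (m - 1) c d hcd
  have hmem : ∀ x : ↥(Cfsg.isometryGroup F (Cfsg.quadFormMinus (m - 1) F c d)), ∀ v,
      Cfsg.quadFormMinus (m - 1) F c d (Matrix.mulVec ((x : GL ((Fin (m - 1) ⊕ Fin (m - 1)) ⊕ Fin 2) F) : Matrix ((Fin (m - 1) ⊕ Fin (m - 1)) ⊕ Fin 2) ((Fin (m - 1) ⊕ Fin (m - 1)) ⊕ Fin 2) F) v) =
        Cfsg.quadFormMinus (m - 1) F c d v := fun x v => x.2 v v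
  constructor
  · intro h
    obtain ⟨x, hx⟩ := isConj_iff.mp h
    refine ⟨(x : GL ((Fin (m - 1) ⊕ Fin (m - 1)) ⊕ Fin 2) F), ?_, ?_⟩
    · intro u v
      show Cfsg.quadFormMinus (m - 1) F c d (Matrix.mulVec ((x : GL ((Fin (m - 1) ⊕ Fin (m - 1)) ⊕ Fin 2) F) : Matrix ((Fin (m - 1) ⊕ Fin (m - 1)) ⊕ Fin 2) ((Fin (m - 1) ⊕ Fin (m - 1)) ⊕ Fin 2) F) u +
          Matrix.mulVec ((x : GL ((Fin (m - 1) ⊕ Fin (m - 1)) ⊕ Fin 2) F) : Matrix ((Fin (m - 1) ⊕ Fin (m - 1)) ⊕ Fin 2) ((Fin (m - 1) ⊕ Fin (m - 1)) ⊕ Fin 2) F) v) -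
        Cfsg.quadFormMinus (m - 1) F c d (Matrix.mulVec ((x : GL ((Fin (m - 1) ⊕ Fin (m - 1)) ⊕ Fin 2) F) : Matrix ((Fin (m - 1) ⊕ Fin (m - 1)) ⊕ Fin 2) ((Fin (m - 1) ⊕ Fin (m - 1)) ⊕ Fin 2) F) u) -
        Cfsg.quadFormMinus (m - 1) F c d (Matrix.mulVec ((x : GL ((Fin (m - 1) ⊕ Fin (m - 1)) ⊕ Fin 2) F) : Matrix ((Fin (m - 1) ⊕ Fin (m - 1)) ⊕ Fin 2) ((Fin (m - 1) ⊕ Fin (m - 1)) ⊕ Fin 2) F) v) = _
      rw [← Matrix.mulVec_add, hmem, hmem, hmem]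
    · rw [← hx]
      rfl
  · rintro ⟨g, hg, hgts⟩
    have hS2 : ((s : GL ((Fin (m - 1) ⊕ Fin (m - 1)) ⊕ Fin 2) F) : Matrix ((Fin (m - 1) ⊕ Fin (m - 1)) ⊕ Fin 2) ((Fin (m - 1) ⊕ Fin (m - 1)) ⊕ Fin 2) F) *
        ((s : GL ((Fin (m - 1) ⊕ Fin (m - 1)) ⊕ Fin 2) F) : Matrix ((Fin (m - 1) ⊕ Fin (m - 1)) ⊕ Fin 2) ((Fin (m - 1) ⊕ Fin (m - 1)) ⊕ Fin 2) F) = 1 := by
      have h : s ^ orderOf s = 1 := pow_orderOf_eq_one s
      rw [hs, pow_two] at h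
      have h' : (s : GL ((Fin (m - 1) ⊕ Fin (m - 1)) ⊕ Fin 2) F) * (s : GL ((Fin (m - 1) ⊕ Fin (m - 1)) ⊕ Fin 2) F) = 1 :=
        congrArg Subtype.val h
      have := congrArg (fun x : GL ((Fin (m - 1) ⊕ Fin (m - 1)) ⊕ Fin 2) F => (x : Matrix ((Fin (m - 1) ⊕ Fin (m - 1)) ⊕ Fin 2) ((Fin (m - 1) ⊕ Fin (m - 1)) ⊕ Fin 2) F)) h'
      simpa using this
    have hconj : (g : Matrix ((Fin (m - 1) ⊕ Fin (m - 1)) ⊕ Fin 2) ((Fin (m - 1) ⊕ Fin (m - 1)) ⊕ Fin 2) F) * ((t : GL ((Fin (m - 1) ⊕ Fin (m - 1)) ⊕ Fin 2) F) : Matrix ((Fin (m - 1) ⊕ Fin (m - 1)) ⊕ Fin 2) ((Fin (m - 1) ⊕ Fin (m - 1)) ⊕ Fin 2) F) =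
        ((s : GL ((Fin (m - 1) ⊕ Fin (m - 1)) ⊕ Fin 2) F) : Matrix ((Fin (m - 1) ⊕ Fin (m - 1)) ⊕ Fin 2) ((Fin (m - 1) ⊕ Fin (m - 1)) ⊕ Fin 2) F) * (g : Matrix ((Fin (m - 1) ⊕ Fin (m - 1)) ⊕ Fin 2) ((Fin (m - 1) ⊕ Fin (m - 1)) ⊕ Fin 2) F) := by
      rw [mul_inv_eq_iff_eq_mul] at hgts
      have := congrArg (fun x : GL ((Fin (m - 1) ⊕ Fin (m - 1)) ⊕ Fin 2) F => (x : Matrix ((Fin (m - 1) ⊕ Fin (m - 1)) ⊕ Fin 2) ((Fin (m - 1) ⊕ Fin (m - 1)) ⊕ Fin 2) F)) hgts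
      simpa using this
    obtain ⟨G, hG, hGts⟩ := Cfsg.Agent.Lib.Helper8.OrthInv.exists_orth_conj
      (Cfsg.Agent.Lib.Helper14.minusQF (m - 1) F c d) hQnd
      ((t : GL ((Fin (m - 1) ⊕ Fin (m - 1)) ⊕ Fin 2) F) : Matrix ((Fin (m - 1) ⊕ Fin (m - 1)) ⊕ Fin 2) ((Fin (m - 1) ⊕ Fin (m - 1)) ⊕ Fin 2) F) ((s : GL ((Fin (m - 1) ⊕ Fin (m - 1)) ⊕ Fin 2) F) : Matrix ((Fin (m - 1) ⊕ Fin (m - 1)) ⊕ Fin 2) ((Fin (m - 1) ⊕ Fin (m - 1)) ⊕ Fin 2) F) g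
      (fun v => by rw [hQc]; exact hmem t v) (fun v => by rw [hQc]; exact hmem s v) hS2
      (fun u v => by
        rw [hQc]
        exact hg u v) hconj
    have hGmem : G ∈ Cfsg.isometryGroup F (Cfsg.quadFormMinus (m - 1) F c d) := by
      intro u v
      have := hG u
      rw [hQc] at this
      exact this
    rw [isConj_iff]
    refine ⟨⟨G, hGmem⟩, ?_⟩
    rw [mul_inv_eq_iff_eq_mul]
    apply Subtype.ext
    apply Units.ext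
    exact hGts

end Cfsg.Agent.S2170
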