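import Mathlib
import Cfsg.Statements.S2172
import Cfsg.Agent.Lib.Helper8.OmegaConj
-- import your own Cfsg.Agent.* helpers here

set_option autoImplicit false
open Cfsg

namespace Cfsg.Agent.S2172

/-- Splitting of involution classes from O to Ω for the hyperbolic quadratic form Q = Σ x_i y_i in dimension 2m over a finite field F of characteristic two, m ≥ 4. Let t, s be involutions of the commutator subgroup Ω that are conjugate in the full isometry group O. If it is not the case that t − 1 has rank m and Q(v + t v) = 0 for every vector v, then t and s are conjugate by an element of Ω. If t − 1 has rank m and Q(v + t v) = 0 for all v, then t and s are conjugate by an element of Ω exactly when the intersection of the images of t − 1 and s − 1 has even dimension (so the class of t in O meets at most two classes of Ω). -/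
theorem result {F : Type*} [Field F] [Fintype F] [CharP F 2] {m : ℕ} (hm : 4 ≤ m) (t s : ↥(Cfsg.isometryGroup F (Cfsg.quadFormPlus m F))) (ht : orderOf t = 2) (hs : orderOf s = 2) (htO : t ∈ Cfsg.Omega F (Cfsg.quadFormPlus m F)) (hsO : s ∈ Cfsg.Omega F (Cfsg.quadFormPlus m F)) (hconj : IsConj t s) :
    (¬ (((((t : ↥(Cfsg.isometryGroup F (Cfsg.quadFormPlus m F))) : GL (Fin m ⊕ Fin m) F) : Matrix (Fin m ⊕ Fin m) (Fin m ⊕ Fin m) F) - 1).rank = m ∧ ∀ v : Fin m ⊕ Fin m → F, Cfsg.quadFormPlus m F (v + Matrix.mulVec (((t : ↥(Cfsg.isometryGroup F (Cfsg.quadFormPlus m F))) : GL (Fin m ⊕ Fin m) F) : Matrix (Fin m ⊕ Fin m) (Fin m ⊕ Fin m) F) v) = 0) →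
      ∃ g ∈ Cfsg.Omega F (Cfsg.quadFormPlus m F), g * t * g⁻¹ = s) ∧
    ((((((t : ↥(Cfsg.isometryGroup F (Cfsg.quadFormPlus m F))) : GL (Fin m ⊕ Fin m) F) : Matrix (Fin m ⊕ Fin m) (Fin m ⊕ Fin m) F) - 1).rank = m ∧ ∀ v : Fin m ⊕ Fin m → F, Cfsg.quadFormPlus m F (v + Matrix.mulVec (((t : ↥(Cfsg.isometryGroup F (Cfsg.quadFormPlus m F))) : GL (Fin m ⊕ Fin m) F) : Matrix (Fin m ⊕ Fin m) (Fin m ⊕ Fin m) F) v) = 0) →
      ((∃ g ∈ Cfsg.Omega F (Cfsg.quadFormPlus m F), g * t * g⁻¹ = s) ↔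
        Even (Module.finrank F ↥(LinearMap.range (Matrix.toLin' ((((t : ↥(Cfsg.isometryGroup F (Cfsg.quadFormPlus m F))) : GL (Fin m ⊕ Fin m) F) : Matrix (Fin m ⊕ Fin m) (Fin m ⊕ Fin m) F) - 1)) ⊓ LinearMap.range (Matrix.toLin' ((((s : ↥(Cfsg.isometryGroup F (Cfsg.quadFormPlus m F))) : GL (Fin m ⊕ Fin m) F) : Matrix (Fin m ⊕ Fin m) (Fin m ⊕ Fin m) F) - 1)))))) := by
  have h2 : (2 : F) = 0 := CharTwo.two_eq_zero
  have hQc := Cfsg.Agent.Lib.Helper14.plusQF_coe m F
  have hQ := Cfsg.Agent.Lib.Helper14.plusQF_nondegenerate m F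
  have hcard : Fintype.card F ≠ 2 ∨ Fintype.card (Fin m ⊕ Fin m) ≠ 4 := by
    right
    rw [Fintype.card_sum, Fintype.card_fin]
    omega
  have hT2 : ((t : GL (Fin m ⊕ Fin m) F) : Matrix (Fin m ⊕ Fin m) (Fin m ⊕ Fin m) F) * ((t : GL (Fin m ⊕ Fin m) F) : Matrix (Fin m ⊕ Fin m) (Fin m ⊕ Fin m) F) = 1 := by
    have h : t ^ orderOf t = 1 := pow_orderOf_eq_one t
    rw [ht, pow_two] at h
    have h' : (t : GL (Fin m ⊕ Fin m) F) * (t : GL (Fin m ⊕ Fin m) F) = 1 := congrArg Subtype.val h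
    have := congrArg (fun x : GL (Fin m ⊕ Fin m) F => (x : Matrix (Fin m ⊕ Fin m) (Fin m ⊕ Fin m) F)) h'
    simpa using this
  constructor
  · intro hnot
    exact Cfsg.Agent.Lib.Helper8.OmegaConj.omega_conj_of_fixed_fun h2 (Cfsg.quadFormPlus m F)
      (Cfsg.Agent.Lib.Helper14.plusQF m F) hQc hQ hcard t s hconj
      (Cfsg.Agent.Lib.Helper8.OmegaConj.plus_exists_fixed m F h2 _ hT2 hnot)
  · rintro ⟨hrank, hts⟩
    have hmeven : Even m := by
      have := (Cfsg.Agent.Lib.Helper44.mem_omega_iff_even_rank_fun h2 _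
        (Cfsg.Agent.Lib.Helper14.plusQF m F) hQc hQ hcard t).mp htO
      rw [hrank] at this
      exact this
    obtain ⟨g₁, hg₁⟩ := isConj_iff.mp hconj
    constructor
    · rintro ⟨g, hgO, hg⟩
      exact (Cfsg.Agent.Lib.Helper8.OmegaConj.mts_conj_iff h2 _
        (Cfsg.Agent.Lib.Helper14.plusQF m F) hQc hQ hcard
        (Cfsg.Agent.Lib.Helper14.finrank_plus m F) t s g hg hrank hts hmeven).mp hgO
    · intro hev
      exact ⟨g₁, (Cfsg.Agent.Lib.Helper8.OmegaConj.mts_conj_iff h2 _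
        (Cfsg.Agent.Lib.Helper14.plusQF m F) hQc hQ hcard
        (Cfsg.Agent.Lib.Helper14.finrank_plus m F) t s g₁ hg₁ hrank hts hmeven).mpr hev, hg₁⟩

end Cfsg.Agent.S2172
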