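import Mathlib
import Cfsg.Statements.S2173
import Cfsg.Agent.Lib.Helper8.OmegaConj
-- import your own Cfsg.Agent.* helpers here

set_option autoImplicit false
open Cfsg

namespace Cfsg.Agent.S2173

/-- For the quadratic form Σ x_i y_i + (z₁² + c z₁ z₂ + d z₂²) in dimension 2m with anisotropic binary part over a finite field F of characteristic two, m ≥ 4 (minus type): two involutions of the commutator subgroup Ω that are conjugate in the full isometry group O are conjugate by an element of Ω (no class of involutions of O inside Ω splits). -/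
theorem result {F : Type*} [Field F] [Fintype F] [CharP F 2] {m : ℕ} (hm : 4 ≤ m) (c d : F) (hcd : ∀ z₁ z₂ : F, z₁ ^ 2 + c * z₁ * z₂ + d * z₂ ^ 2 = 0 → z₁ = 0 ∧ z₂ = 0) (t s : ↥(Cfsg.isometryGroup F (Cfsg.quadFormMinus (m - 1) F c d))) (ht : orderOf t = 2) (hs : orderOf s = 2) (htO : t ∈ Cfsg.Omega F (Cfsg.quadFormMinus (m - 1) F c d)) (hsO : s ∈ Cfsg.Omega F (Cfsg.quadFormMinus (m - 1) F c d)) (hconj : IsConj t s) :
    ∃ g ∈ Cfsg.Omega F (Cfsg.quadFormMinus (m - 1) F c d), g * t * g⁻¹ = s := by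
  have h2 : (2 : F) = 0 := CharTwo.two_eq_zero
  have hT2 : ((t : GL ((Fin (m - 1) ⊕ Fin (m - 1)) ⊕ Fin 2) F) : Matrix ((Fin (m - 1) ⊕ Fin (m - 1)) ⊕ Fin 2) ((Fin (m - 1) ⊕ Fin (m - 1)) ⊕ Fin 2) F) * ((t : GL ((Fin (m - 1) ⊕ Fin (m - 1)) ⊕ Fin 2) F) : Matrix ((Fin (m - 1) ⊕ Fin (m - 1)) ⊕ Fin 2) ((Fin (m - 1) ⊕ Fin (m - 1)) ⊕ Fin 2) F) = 1 := by
    have h : t ^ orderOf t = 1 := pow_orderOf_eq_one t
    rw [ht, pow_two] at h
    have h' : (t : GL ((Fin (m - 1) ⊕ Fin (m - 1)) ⊕ Fin 2) F) * (t : GL ((Fin (m - 1) ⊕ Fin (m - 1)) ⊕ Fin 2) F) = 1 := congrArg Subtype.val h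
    have := congrArg (fun x : GL ((Fin (m - 1) ⊕ Fin (m - 1)) ⊕ Fin 2) F => (x : Matrix ((Fin (m - 1) ⊕ Fin (m - 1)) ⊕ Fin 2) ((Fin (m - 1) ⊕ Fin (m - 1)) ⊕ Fin 2) F)) h'
    simpa using this
  refine Cfsg.Agent.Lib.Helper8.OmegaConj.omega_conj_of_fixed_fun h2
    (Cfsg.quadFormMinus (m - 1) F c d)
    (Cfsg.Agent.Lib.Helper14.minusQF (m - 1) F c d)
    (Cfsg.Agent.Lib.Helper14.minusQF_coe (m - 1) F c d)
    (Cfsg.Agent.Lib.Helper44.minusQF_nondegenerate_char2 (m - 1) F h2 c d hcd) ?_ t s hconj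
    (Cfsg.Agent.Lib.Helper8.OmegaConj.minus_exists_fixed (m - 1) F h2 c d hcd _ hT2)
  right
  rw [Fintype.card_sum, Fintype.card_sum, Fintype.card_fin, Fintype.card_fin]
  omega

end Cfsg.Agent.S2173
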