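import Cfsg.Statements.S2177
import Cfsg.Agent.Lib.Helper36.G2InvC

set_option autoImplicit false
open Cfsg

namespace Cfsg.Agent.S2177

/-- Conjugacy classes of involutions in the Chevalley group of type G₂ over a finite field F of characteristic two with at least four elements (the matrix group generated by the root elements x_r(t)). In this problem's root numbering for type G₂ (the Chevalley data module; p₁ = a short, p₂ = b long; roots indexed by coefficient vectors in increasing order) let 11 be the highest root 3a + 2b (long) and 9 the short root 2a + b; consider x_{3a+2b}(1) and x_{2a+b}(1). Then: each invertible matrix equal to one of these two products lies in the group and has order 2; every element of order 2 of the group is conjugate in the group to one of them; and no two of them are conjugate in the group (so, the two matrices being distinct, the group has exactly two conjugacy classes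 of involutions). -/
theorem result {F : Type*} [Field F] [Fintype F] [CharP F 2] (hF : 4 ≤ Fintype.card F) :
    (∀ y : GL Cfsg.Lie.chevG2.Idx F, ((y : GL Cfsg.Lie.chevG2.Idx F) : Matrix Cfsg.Lie.chevG2.Idx Cfsg.Lie.chevG2.Idx F) ∈ [Cfsg.Lie.chevG2.x F 11 1, Cfsg.Lie.chevG2.x F 9 1] → y ∈ Cfsg.Lie.chevG2.group F ∧ orderOf y = 2) ∧
    (∀ g ∈ Cfsg.Lie.chevG2.group F, orderOf g = 2 → ∃ y ∈ Cfsg.Lie.chevG2.group F, ((y : GL Cfsg.Lie.chevG2.Idx F) : Matrix Cfsg.Lie.chevG2.Idx Cfsg.Lie.chevG2.Idx F) ∈ [Cfsg.Lie.chevG2.x F 11 1, Cfsg.Lie.chevG2.x F 9 1] ∧ ∃ h ∈ Cfsg.Lie.chevG2.group F, h * g * h⁻¹ = y) ∧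
    (∀ y₁ ∈ Cfsg.Lie.chevG2.group F, ∀ y₂ ∈ Cfsg.Lie.chevG2.group F, ((y₁ : GL Cfsg.Lie.chevG2.Idx F) : Matrix Cfsg.Lie.chevG2.Idx Cfsg.Lie.chevG2.Idx F) ∈ [Cfsg.Lie.chevG2.x F 11 1, Cfsg.Lie.chevG2.x F 9 1] → ((y₂ : GL Cfsg.Lie.chevG2.Idx F) : Matrix Cfsg.Lie.chevG2.Idx Cfsg.Lie.chevG2.Idx F) ∈ [Cfsg.Lie.chevG2.x F 11 1, Cfsg.Lie.chevG2.x F 9 1] →
      (∃ h ∈ Cfsg.Lie.chevG2.group F, h * y₁ * h⁻¹ = y₂) → ((y₁ : GL Cfsg.Lie.chevG2.Idx F) : Matrix Cfsg.Lie.chevG2.Idx Cfsg.Lie.chevG2.Idx F) = ((y₂ : GL Cfsg.Lie.chevG2.Idx F) : Matrix Cfsg.Lie.chevG2.Idx Cfsg.Lie.chevG2.Idx F)) := by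
  open Cfsg.Agent.Lib.Helper36 Cfsg.Agent.Lib.Helper18 in
  refine ⟨?_, ?_, ?_⟩
  · intro y hy
    simp only [List.mem_cons, List.not_mem_nil, or_false] at hy
    rcases hy with hy | hy
    · rw [eq_xU Cfsg.Lie.chevG2 g2m 11 1 y hy]
      exact ⟨xU_mem_group Cfsg.Lie.chevG2 g2m 11 1,
        orderOf_eq_prime (by rw [pow_two]; exact xU_sq 11 1)
          (fun h => one_ne_zero (g2_xU_eq_one 11 (by decide) (1 : F) h))⟩
    · rw [eq_xU Cfsg.Lie.chevG2 g2m 9 1 y hy]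
      exact ⟨xU_mem_group Cfsg.Lie.chevG2 g2m 9 1,
        orderOf_eq_prime (by rw [pow_two]; exact xU_sq 9 1)
          (fun h => one_ne_zero (g2_xU_eq_one 9 (by decide) (1 : F) h))⟩
  · intro g hg ho
    have hg2 : g * g = 1 := by
      have h := pow_orderOf_eq_one g
      rw [ho, pow_two] at h
      exact h
    have hg1 : g ≠ 1 := by
      rintro rfl
      rw [orderOf_one] at ho
      exact absurd ho (by norm_num)
    obtain ⟨x, hx⟩ := exists_conj_mem_pos (F := F) Cfsg.Lie.chevG2 g2m 2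
      (Subgroup.zpowers (⟨g, hg⟩ : ↥(Cfsg.Lie.chevG2.group F)))
      (IsPGroup.of_card (n := 1) (by rw [Nat.card_zpowers, Subgroup.orderOf_mk, ho]; rfl))
    have hU : (x : GL Cfsg.Lie.chevG2.Idx F) * g * (x : GL Cfsg.Lie.chevG2.Idx F)⁻¹ ∈
        Cfsg.Lie.chevG2.posUnipotent F := hx ⟨g, hg⟩ (Subgroup.mem_zpowers _)
    have hcj : Cj g ((x : GL Cfsg.Lie.chevG2.Idx F) * g * (x : GL Cfsg.Lie.chevG2.Idx F)⁻¹) :=
      ⟨x, x.prop, rfl⟩
    have hc := inv_class _ hU (cj_sq hcj hg2) (by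
      intro h
      apply hg1
      have e : g = (x : GL Cfsg.Lie.chevG2.Idx F)⁻¹ *
          ((x : GL Cfsg.Lie.chevG2.Idx F) * g * (x : GL Cfsg.Lie.chevG2.Idx F)⁻¹) *
          (x : GL Cfsg.Lie.chevG2.Idx F) := by group
      rw [e, h]
      group)
    rcases hc with h | h
    · obtain ⟨k, hk, ek⟩ := hcj.trans h
      refine ⟨xU Cfsg.Lie.chevG2 g2m 11 1, xU_mem_group Cfsg.Lie.chevG2 g2m 11 1, ?_, k, hk, ek⟩
      rw [coe_xU]
      simp
    · obtain ⟨k, hk, ek⟩ := hcj.trans h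
      refine ⟨xU Cfsg.Lie.chevG2 g2m 9 1, xU_mem_group Cfsg.Lie.chevG2 g2m 9 1, ?_, k, hk, ek⟩
      rw [coe_xU]
      simp
  · intro y₁ _ y₂ _ hm₁ hm₂ hconj
    obtain ⟨h, hh, e⟩ := hconj
    simp only [List.mem_cons, List.not_mem_nil, or_false] at hm₁ hm₂
    rcases hm₁ with hm₁ | hm₁ <;> rcases hm₂ with hm₂ | hm₂
    · rw [hm₁, hm₂]
    · exfalso
      rw [eq_xU Cfsg.Lie.chevG2 g2m 11 1 y₁ hm₁, eq_xU Cfsg.Lie.chevG2 g2m 9 1 y₂ hm₂] at e
      exact not_cj_9_11 (F := F) ⟨h⁻¹, inv_mem hh, by rw [← e]; group⟩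
    · exfalso
      rw [eq_xU Cfsg.Lie.chevG2 g2m 9 1 y₁ hm₁, eq_xU Cfsg.Lie.chevG2 g2m 11 1 y₂ hm₂] at e
      exact not_cj_9_11 (F := F) ⟨h, hh, e⟩
    · rw [hm₁, hm₂]

end Cfsg.Agent.S2177
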