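import Cfsg.Statements.S2178
import Cfsg.Agent.Lib.Helper36.ChevHighCentData

set_option autoImplicit false
open Cfsg

namespace Cfsg.Agent.S2178

/-- Centralizers of the long and the short root involutions in the Chevalley group G of type F₄ over a finite field F of characteristic two (this problem's root numbering for type F₄, from the Chevalley data module: fundamental roots p₁, p₂ short, p₃, p₄ long, with indices 33, 27, 25, 24, their negatives 14, 20, 22, 23; highest root 47, highest short root 44; U the subgroup generated by the positive root subgroups). For an element t of G with matrix x_47(1): the centralizer of t in G is the subgroup generated by U and the root subgroups X_{−p₁}, X_{−p₂}, X_{−p₃} (the unipotent radical of the maximal parabolic subgroup whose Levi factor has fundamental roots p₁, p₂, p₃, together with that Levi factor's root subgroups; the Levi factor is of type C₃). For an element u of G with matrix x_44(1): the centralizer of u in G is generated by U and X_{−p₂},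 X_{−p₃}, X_{−p₄} (the same construction for the Levi factor with fundamental roots p₂, p₃, p₄, of type B₃). -/
theorem result {F : Type*} [Field F] [Fintype F] [CharP F 2] (t u : GL Cfsg.Lie.chevF4.Idx F) (ht : (t : Matrix Cfsg.Lie.chevF4.Idx Cfsg.Lie.chevF4.Idx F) = Cfsg.Lie.chevF4.x F 47 1) (hu : (u : Matrix Cfsg.Lie.chevF4.Idx Cfsg.Lie.chevF4.Idx F) = Cfsg.Lie.chevF4.x F 44 1) :
    Cfsg.Lie.chevF4.group F ⊓ Subgroup.centralizer {t} = Cfsg.Lie.chevF4.posUnipotent F ⊔ Cfsg.Lie.chevF4.rootSubgroup F 14 ⊔ Cfsg.Lie.chevF4.rootSubgroup F 20 ⊔ Cfsg.Lie.chevF4.rootSubgroup F 22 ∧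
    Cfsg.Lie.chevF4.group F ⊓ Subgroup.centralizer {u} = Cfsg.Lie.chevF4.posUnipotent F ⊔ Cfsg.Lie.chevF4.rootSubgroup F 20 ⊔ Cfsg.Lie.chevF4.rootSubgroup F 22 ⊔ Cfsg.Lie.chevF4.rootSubgroup F 23 := by
  have hO := Cfsg.Agent.Lib.Helper36.highOK_of_chk (F := F) Cfsg.Lie.chevF4 (by simp) 47 3
    Cfsg.Agent.Lib.Helper36.highChk_F4
  have hO' := Cfsg.Agent.Lib.Helper36.highOK_of_chk (F := F) Cfsg.Lie.chevF4 (by simp) 44 0
    Cfsg.Agent.Lib.Helper36.highChk_F4s
  constructor
  · rw [Cfsg.Agent.Lib.Helper36.high_cent Cfsg.Lie.chevF4 (by simp) 47 3 hO t ht,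
      Cfsg.Agent.Lib.Helper36.highR_eq_sup Cfsg.Lie.chevF4 3 _
        (Cfsg.Agent.Lib.Helper36.mem_of_listChk _ _ _ Cfsg.Agent.Lib.Helper36.listChk_F4),
      Cfsg.Agent.Lib.Helper36.sup_three_eq]
  · rw [Cfsg.Agent.Lib.Helper36.high_cent Cfsg.Lie.chevF4 (by simp) 44 0 hO' u hu,
      Cfsg.Agent.Lib.Helper36.highR_eq_sup Cfsg.Lie.chevF4 0 _
        (Cfsg.Agent.Lib.Helper36.mem_of_listChk _ _ _ Cfsg.Agent.Lib.Helper36.listChk_F4s),
      Cfsg.Agent.Lib.Helper36.sup_three_eq]

end Cfsg.Agent.S2178
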