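import Cfsg.Statements.S2209
import Cfsg.Agent.Lib.Helper36.ChevHighCentData

set_option autoImplicit false
open Cfsg

namespace Cfsg.Agent.S2209

/-- Centralizer of a long root involution in the Chevalley groups of type E₆, E₇, E₈ over a finite field F of characteristic two. Let G be the group generated by the root elements, U the subgroup generated by the positive root subgroups, r the highest root (the last root index: 71, 125, 239 respectively), and t the element of G with matrix x_r(1). Then the centralizer of t in G is the subgroup generated by U together with the root subgroups X_{−p} for the fundamental roots p orthogonal to r — all fundamental roots except p₂ for E₆, except p₁ for E₇, except p₈ for E₈ (numbering with p₁–p₃–p₄–…–p_l the long chain and p₂ joined to p₄); the indices of these negative fundamental roots are 15, 29, 32, 34, 35 (E₆), 47, 52, 56, 59, 61, 62 (E₇), 77, 98, 104, 109, 113, 116, 118 (E₈). (This is the unipotent radical of the corresponding maximal parabolic subgroup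 extended by the root subgroups of its Levi factor, of type A₅, D₆, E₇ respectively.) -/
theorem result {F : Type*} [Field F] [Fintype F] [CharP F 2] (d : Cfsg.Lie.ChevalleyDatum × List ℕ)
    (hd : d ∈ [(Cfsg.Lie.chevE6, [15, 29, 32, 34, 35]), (Cfsg.Lie.chevE7, [47, 52, 56, 59, 61, 62]), (Cfsg.Lie.chevE8, [77, 98, 104, 109, 113, 116, 118])])
    (t : GL d.1.Idx F) (ht : (t : Matrix d.1.Idx d.1.Idx F) = d.1.x F (d.1.nroots - 1) 1) :
    d.1.group F ⊓ Subgroup.centralizer {t} = d.1.posUnipotent F ⊔ Subgroup.closure {g : GL d.1.Idx F | ∃ s ∈ d.2, ∃ c : F, (g : Matrix d.1.Idx d.1.Idx F) = d.1.x F s c} := by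
  simp only [List.mem_cons, List.not_mem_nil, or_false] at hd
  rcases hd with rfl | rfl | rfl
  · have hO := Cfsg.Agent.Lib.Helper36.highOK_of_chk (F := F) Cfsg.Lie.chevE6 (by simp) 71 1
      Cfsg.Agent.Lib.Helper36.highChk_E6
    have ht' : (t : Matrix Cfsg.Lie.chevE6.Idx Cfsg.Lie.chevE6.Idx F) =
        Cfsg.Lie.chevE6.x F 71 1 := ht
    exact (Cfsg.Agent.Lib.Helper36.high_cent Cfsg.Lie.chevE6 (by simp) 71 1 hO t ht').trans
      (Cfsg.Agent.Lib.Helper36.highR_eq_sup Cfsg.Lie.chevE6 1 _
        (Cfsg.Agent.Lib.Helper36.mem_of_listChk _ _ _ Cfsg.Agent.Lib.Helper36.listChk_E6))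
  · have hO := Cfsg.Agent.Lib.Helper36.highOK_of_chk (F := F) Cfsg.Lie.chevE7 (by simp) 125 0
      Cfsg.Agent.Lib.Helper36.highChk_E7
    have ht' : (t : Matrix Cfsg.Lie.chevE7.Idx Cfsg.Lie.chevE7.Idx F) =
        Cfsg.Lie.chevE7.x F 125 1 := ht
    exact (Cfsg.Agent.Lib.Helper36.high_cent Cfsg.Lie.chevE7 (by simp) 125 0 hO t ht').trans
      (Cfsg.Agent.Lib.Helper36.highR_eq_sup Cfsg.Lie.chevE7 0 _
        (Cfsg.Agent.Lib.Helper36.mem_of_listChk _ _ _ Cfsg.Agent.Lib.Helper36.listChk_E7))
  · have hO := Cfsg.Agent.Lib.Helper36.highOK_of_chk (F := F) Cfsg.Lie.chevE8 (by simp) 239 7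
      Cfsg.Agent.Lib.Helper36.highChk_E8
    have ht' : (t : Matrix Cfsg.Lie.chevE8.Idx Cfsg.Lie.chevE8.Idx F) =
        Cfsg.Lie.chevE8.x F 239 1 := ht
    exact (Cfsg.Agent.Lib.Helper36.high_cent Cfsg.Lie.chevE8 (by simp) 239 7 hO t ht').trans
      (Cfsg.Agent.Lib.Helper36.highR_eq_sup Cfsg.Lie.chevE8 7 _
        (Cfsg.Agent.Lib.Helper36.mem_of_listChk _ _ _ Cfsg.Agent.Lib.Helper36.listChk_E8))

end Cfsg.Agent.S2209
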