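import Cfsg.Statements.S2214
import Cfsg.Agent.Lib.Helper36.ChevSubfield

set_option autoImplicit false
open Cfsg

namespace Cfsg.Agent.S2214

/-- Let k be an algebraically closed field of prime characteristic p, G the adjoint Chevalley group of type G₂, B₂, D₄, F₄, E₆, E₇ or E₈ over k (the matrix group generated by the root elements x_s(t), t ∈ k, acting on the Lie algebra), q = p^a with a ≥ 1, and K a subgroup of G containing every root element x_s(t) with t^q = t and consisting of matrices all of whose entries c satisfy c^q = c. Then the centralizer of K in G is trivial, and the normalizer of K in G is exactly the set of elements of G all of whose entries c satisfy c^q = c. -/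
theorem result {k : Type*} [Field k] [IsAlgClosed k] (p : ℕ) [Fact p.Prime] [CharP k p] (D : Cfsg.Lie.ChevalleyDatum) (hD : D ∈ [Cfsg.Lie.chevG2, Cfsg.Lie.chevB2, Cfsg.Lie.chevD4, Cfsg.Lie.chevF4, Cfsg.Lie.chevE6, Cfsg.Lie.chevE7, Cfsg.Lie.chevE8]) (a : ℕ) (ha : 1 ≤ a) (K : Subgroup (GL D.Idx k)) (hKG : K ≤ D.group k)
    (hLK : Subgroup.closure {g : GL D.Idx k | ∃ (s : ℕ) (t : k), t ^ (p ^ a) = t ∧ (g : Matrix D.Idx D.Idx k) = D.x k s t} ≤ K)
    (hKfix : ∀ g ∈ K, ∀ i j : D.Idx, ((g : Matrix D.Idx D.Idx k) i j) ^ (p ^ a) = (g : Matrix D.Idx D.Idx k) i j) :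
    D.group k ⊓ Subgroup.centralizer (K : Set (GL D.Idx k)) = ⊥ ∧
    ∀ g : GL D.Idx k, g ∈ D.group k → (g ∈ Subgroup.normalizer (K : Set (GL D.Idx k)) ↔ ∀ i j : D.Idx, ((g : Matrix D.Idx D.Idx k) i j) ^ (p ^ a) = (g : Matrix D.Idx D.Idx k) i j) := by
  have : ExpChar k p := ExpChar.prime Fact.out
  have hσ : ∀ t : k, iterateFrobenius k p a t = t ^ p ^ a := fun t => rfl
  have hfixiff : ∀ g : GL D.Idx k,
      Cfsg.Agent.Lib.Helper36.glMap D (iterateFrobenius k p a) g = g ↔
        ∀ i j : D.Idx, ((g : Matrix D.Idx D.Idx k) i j) ^ (p ^ a) =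
          (g : Matrix D.Idx D.Idx k) i j := by
    intro g
    constructor
    · intro h i j
      have h1 := congrArg (fun m : GL D.Idx k => (m : Matrix D.Idx D.Idx k) i j) h
      simp only [Cfsg.Agent.Lib.Helper36.coe_glMap, Matrix.map_apply] at h1
      rw [← hσ]
      exact h1
    · intro h
      apply Units.ext
      ext i j
      rw [Cfsg.Agent.Lib.Helper36.coe_glMap, Matrix.map_apply, hσ]
      exact h i j
  have hL : Cfsg.Agent.Lib.Helper36.fixL D (iterateFrobenius k p a) ≤ K := by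
    refine le_trans ?_ hLK
    unfold Cfsg.Agent.Lib.Helper36.fixL
    apply Subgroup.closure_mono
    rintro g ⟨s, t, ht, hg⟩
    exact ⟨s, t, by rw [← hσ]; exact ht, hg⟩
  obtain ⟨h1, h2⟩ := Cfsg.Agent.Lib.Helper36.subfield_cent_norm D hD (iterateFrobenius k p a) K
    hKG hL (fun x hx => (hfixiff x).mpr (hKfix x hx))
  exact ⟨h1, fun g hg => (h2 g hg).trans (hfixiff g)⟩

end Cfsg.Agent.S2214
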