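import Cfsg.Statements.S2231
import Mathlib
-- import your own Cfsg.Agent.* helpers here

set_option autoImplicit false
open Cfsg

namespace Cfsg.Agent.S2231

/-- A Sylow `p`-subgroup maps onto a `p`-group quotient. -/
theorem sylow_map_eq_top {p : ℕ} [Fact p.Prime] {A B : Type*} [Group A] [Group B] [Finite A]
    (f : A →* B) (hf : Function.Surjective f) (hB : IsPGroup p B) (S : Sylow p A) :
    (S : Subgroup A).map f = ⊤ := by
  have : Finite B := Finite.of_surjective f hf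
  have h1 : ((S : Subgroup A).map f).index ∣ (S : Subgroup A).index := Subgroup.index_map_dvd _ hf
  have h2 : ¬ p ∣ (S : Subgroup A).index := S.not_dvd_index
  obtain ⟨n, hn⟩ := hB.index ((S : Subgroup A).map f)
  rw [← Subgroup.index_eq_one]
  rcases n with _ | n
  · simpa using hn
  · exfalso
    apply h2
    exact dvd_trans (hn ▸ dvd_pow_self p (Nat.succ_ne_zero n)) h1

/-- If all `p`-subgroups of the finite group `G` are commutative and `H` has a `p`-subgroup with two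
non-commuting elements, then `H` is not involved in `G`. -/
theorem not_involves_of_comm {p : ℕ} [Fact p.Prime] {H : Type*} {G : Type*} [Group H] [Group G]
    [Finite G]
    (hG : ∀ P : Subgroup G, IsPGroup p P → ∀ a ∈ P, ∀ b ∈ P, a * b = b * a)
    (U : Subgroup H) (hU : IsPGroup p U) (x y : H) (hx : x ∈ U) (hy : y ∈ U)
    (hxy : x * y ≠ y * x) : ¬ Cfsg.Involves H G := by
  rintro ⟨K, R, hN, ⟨e⟩⟩
  let f : K →* H := e.toMonoidHom.comp (QuotientGroup.mk' (R.subgroupOf K))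
  have hf : Function.Surjective f := e.surjective.comp (QuotientGroup.mk'_surjective _)
  let g : U.comap f →* U := f.subgroupComap U
  have hg : Function.Surjective g := f.subgroupComap_surjective_of_surjective U hf
  obtain ⟨S⟩ : Nonempty (Sylow p (U.comap f)) := inferInstance
  have htop := sylow_map_eq_top g hg hU S
  have hS : ∀ a ∈ (S : Subgroup (U.comap f)), ∀ b ∈ (S : Subgroup (U.comap f)), a * b = b * a := by
    intro a ha b hb
    let ι : (U.comap f) →* G := K.subtype.comp (U.comap f).subtype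
    have hι : Function.Injective ι :=
      (Subgroup.subtype_injective K).comp (Subgroup.subtype_injective _)
    have h := hG ((S : Subgroup _).map ι) (S.isPGroup'.map ι) (ι a) ⟨a, ha, rfl⟩ (ι b) ⟨b, hb, rfl⟩
    apply hι
    simpa using h
  have hx' : (⟨x, hx⟩ : U) ∈ (S : Subgroup _).map g := by rw [htop]; trivial
  have hy' : (⟨y, hy⟩ : U) ∈ (S : Subgroup _).map g := by rw [htop]; trivial
  obtain ⟨a, ha, hax⟩ := hx'
  obtain ⟨b, hb, hby⟩ := hy'
  apply hxy
  have h := congrArg g (hS a ha b hb)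
  rw [map_mul, map_mul, hax, hby] at h
  exact congrArg Subtype.val h

theorem sl2_param {K : Type*} [Field K] (M : Matrix (Fin 2) (Fin 2) K) (x y : K) (hx : x ≠ 0)
    (h1 : M 0 0 * M 1 1 - M 0 1 * M 1 0 = 1) (h2 : M 0 0 * x + M 0 1 * y = x)
    (h3 : M 1 0 * x + M 1 1 * y = y) :
    ∃ t : K, M 0 0 = 1 - t * (x * y) ∧ M 0 1 = t * x ^ 2 ∧ M 1 0 = - (t * y ^ 2) ∧
      M 1 1 = 1 + t * (x * y) := by
  have E : M 1 1 * x - M 0 1 * y - x = 0 := by
    linear_combination x * h1 - M 1 1 * h2 + M 0 1 * h3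
  refine ⟨M 0 1 / x ^ 2, ?_, ?_, ?_, ?_⟩
  · field_simp
    linear_combination h2
  · field_simp
  · field_simp
    linear_combination x * h3 - y * E
  · field_simp
    linear_combination E

theorem sl2_param' {K : Type*} [Field K] (M : Matrix (Fin 2) (Fin 2) K) (x y : K) (hy : y ≠ 0)
    (h1 : M 0 0 * M 1 1 - M 0 1 * M 1 0 = 1) (h2 : M 0 0 * x + M 0 1 * y = x)
    (h3 : M 1 0 * x + M 1 1 * y = y) :
    ∃ t : K, M 0 0 = 1 - t * (x * y) ∧ M 0 1 = t * x ^ 2 ∧ M 1 0 = - (t * y ^ 2) ∧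
      M 1 1 = 1 + t * (x * y) := by
  have E : M 0 0 * y - M 1 0 * x - y = 0 := by
    linear_combination y * h1 - M 0 0 * h3 + M 1 0 * h2
  refine ⟨- M 1 0 / y ^ 2, ?_, ?_, ?_, ?_⟩
  · field_simp
    linear_combination E
  · field_simp
    linear_combination y * h2 - x * E
  · field_simp
  · field_simp
    linear_combination h3

theorem sl2_comm_of_fix {K : Type*} [Field K] (A B : Matrix (Fin 2) (Fin 2) K) (v : Fin 2 → K)
    (hv : v ≠ 0) (hA : A.det = 1) (hB : B.det = 1) (hAv : A.mulVec v = v) (hBv : B.mulVec v = v) :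
    A * B = B * A := by
  have hA0 := congrFun hAv 0
  have hA1 := congrFun hAv 1
  have hB0 := congrFun hBv 0
  have hB1 := congrFun hBv 1
  simp only [Matrix.mulVec, dotProduct, Fin.sum_univ_two] at hA0 hA1 hB0 hB1
  rw [Matrix.det_fin_two] at hA hB
  have key : ∀ M : Matrix (Fin 2) (Fin 2) K, M 0 0 * M 1 1 - M 0 1 * M 1 0 = 1 →
      M 0 0 * v 0 + M 0 1 * v 1 = v 0 → M 1 0 * v 0 + M 1 1 * v 1 = v 1 →
      ∃ t : K, M 0 0 = 1 - t * (v 0 * v 1) ∧ M 0 1 = t * v 0 ^ 2 ∧ M 1 0 = - (t * v 1 ^ 2) ∧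
      M 1 1 = 1 + t * (v 0 * v 1) := by
    intro M h1 h2 h3
    by_cases hx : v 0 = 0
    · have hy : v 1 ≠ 0 := by
        intro hy
        apply hv
        ext i
        fin_cases i
        · exact hx
        · exact hy
      exact sl2_param' M _ _ hy h1 h2 h3
    · exact sl2_param M _ _ hx h1 h2 h3
  obtain ⟨t, a1, a2, a3, a4⟩ := key A hA hA0 hA1
  obtain ⟨s, b1, b2, b3, b4⟩ := key B hB hB0 hB1
  ext i j
  fin_cases i <;> fin_cases j <;>
    simp [Matrix.mul_apply, Fin.sum_univ_two, a1, a2, a3, a4, b1, b2, b3, b4] <;> ring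

theorem sl2_pgroup_comm {p : ℕ} [Fact p.Prime] {K : Type*} [Field K] [Fintype K] [CharP K p]
    (S : Subgroup (Matrix.SpecialLinearGroup (Fin 2) K)) (hS : IsPGroup p S) :
    ∀ a ∈ S, ∀ b ∈ S, a * b = b * a := by
  have hdvd : p ∣ Nat.card (Fin 2 → K) := by
    have h1 : p ∣ Fintype.card K := by
      have := Nat.cast_card_eq_zero K
      exact (CharP.cast_eq_zero_iff K p (Fintype.card K)).mp this
    rw [Nat.card_eq_fintype_card, Fintype.card_fun, Fintype.card_fin]
    exact dvd_pow h1 (by norm_num)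
  have h0 : (0 : Fin 2 → K) ∈ MulAction.fixedPoints S (Fin 2 → K) := fun g => smul_zero g
  obtain ⟨v, hv, hv0⟩ := hS.exists_fixed_point_of_prime_dvd_card_of_fixed_point (Fin 2 → K) hdvd h0
  intro a ha b hb
  have hav : (a : Matrix (Fin 2) (Fin 2) K).mulVec v = v := hv ⟨a, ha⟩
  have hbv : (b : Matrix (Fin 2) (Fin 2) K).mulVec v = v := hv ⟨b, hb⟩
  apply Subtype.ext
  exact sl2_comm_of_fix _ _ v (Ne.symm hv0) a.2 b.2 hav hbv

theorem psl2_pgroup_comm {p : ℕ} [Fact p.Prime] {K : Type*} [Field K] [Fintype K] [CharP K p]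
    (P : Subgroup (Matrix.ProjectiveSpecialLinearGroup (Fin 2) K)) (hP : IsPGroup p P) :
    ∀ a ∈ P, ∀ b ∈ P, a * b = b * a := by
  classical
  have : Finite (Matrix.SpecialLinearGroup (Fin 2) K) :=
    Finite.of_injective (fun A => A.1) Subtype.val_injective
  let π : Matrix.SpecialLinearGroup (Fin 2) K →* Matrix.ProjectiveSpecialLinearGroup (Fin 2) K :=
    QuotientGroup.mk' _
  have hπ : Function.Surjective π := QuotientGroup.mk'_surjective _
  let g : P.comap π →* P := π.subgroupComap P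
  have hg : Function.Surjective g := π.subgroupComap_surjective_of_surjective P hπ
  obtain ⟨S⟩ : Nonempty (Sylow p (P.comap π)) := inferInstance
  have htop := sylow_map_eq_top g hg hP S
  have hS : ∀ a ∈ (S : Subgroup (P.comap π)), ∀ b ∈ (S : Subgroup (P.comap π)), a * b = b * a := by
    intro a ha b hb
    have h := sl2_pgroup_comm ((S : Subgroup _).map (P.comap π).subtype)
      (S.isPGroup'.map _) a ⟨a, ha, rfl⟩ b ⟨b, hb, rfl⟩
    exact Subtype.ext h
  intro x hx y hy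
  have hx' : (⟨x, hx⟩ : P) ∈ (S : Subgroup _).map g := by rw [htop]; trivial
  have hy' : (⟨y, hy⟩ : P) ∈ (S : Subgroup _).map g := by rw [htop]; trivial
  obtain ⟨a, ha, hax⟩ := hx'
  obtain ⟨b, hb, hby⟩ := hy'
  have h := congrArg g (hS a ha b hb)
  rw [map_mul, map_mul, hax, hby] at h
  exact congrArg Subtype.val h

/-- Upper unitriangular matrices in `SL₃`. -/
def uni3 (R : Type*) [CommRing R] : Subgroup (Matrix.SpecialLinearGroup (Fin 3) R) where
  carrier := {M | (M : Matrix (Fin 3) (Fin 3) R) 1 0 = 0 ∧ (M : Matrix (Fin 3) (Fin 3) R) 2 0 = 0 ∧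
    (M : Matrix (Fin 3) (Fin 3) R) 2 1 = 0 ∧ (M : Matrix (Fin 3) (Fin 3) R) 0 0 = 1 ∧
    (M : Matrix (Fin 3) (Fin 3) R) 1 1 = 1 ∧ (M : Matrix (Fin 3) (Fin 3) R) 2 2 = 1}
  mul_mem' := by
    rintro A B ⟨a1, a2, a3, a4, a5, a6⟩ ⟨b1, b2, b3, b4, b5, b6⟩
    simp only [Set.mem_ofPred_eq, Matrix.SpecialLinearGroup.coe_mul, Matrix.mul_apply,
      Fin.sum_univ_three]
    simp [a1, a2, a3, a4, a5, a6, b1, b2, b3, b4, b5, b6]
  one_mem' := by
    simp
  inv_mem' := by
    rintro A ⟨a1, a2, a3, a4, a5, a6⟩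
    simp only [Set.mem_ofPred_eq, Matrix.SpecialLinearGroup.coe_inv, Matrix.adjugate_fin_three]
    simp [a1, a2, a3, a4, a5, a6]

theorem uni3_pow {p : ℕ} [Fact p.Prime] (hp : p ≠ 2)
    (M : Matrix.SpecialLinearGroup (Fin 3) (ZMod p)) (hM : M ∈ uni3 (ZMod p)) : M ^ p = 1 := by
  obtain ⟨a1, a2, a3, a4, a5, a6⟩ := hM
  apply Subtype.ext
  rw [Matrix.SpecialLinearGroup.coe_pow, Matrix.SpecialLinearGroup.coe_one]
  set N : Matrix (Fin 3) (Fin 3) (ZMod p) := (M : Matrix (Fin 3) (Fin 3) (ZMod p)) - 1 with hN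
  have hM' : (M : Matrix (Fin 3) (Fin 3) (ZMod p)) = 1 + N := by rw [hN]; abel
  have hN3 : N ^ 3 = 0 := by
    rw [pow_succ, pow_two]
    ext i j
    fin_cases i <;> fin_cases j <;>
      simp [hN, Matrix.mul_apply, Fin.sum_univ_three, a1, a2, a3, a4, a5, a6]
  have hp3 : 3 ≤ p := by
    have := (Fact.out : p.Prime).two_le
    omega
  have hNp : N ^ p = 0 := by
    exact pow_eq_zero_of_le hp3 hN3
  rw [hM', add_pow_char_of_commute p (Commute.one_left N), hNp, one_pow, add_zero]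

def qx (p : ℕ) : Matrix.SpecialLinearGroup (Fin 3) (ZMod p) :=
  ⟨!![1, 1, 0; 0, 1, 0; 0, 0, 1], by simp [Matrix.det_fin_three]⟩

def qy (p : ℕ) : Matrix.SpecialLinearGroup (Fin 3) (ZMod p) :=
  ⟨!![1, 0, 0; 0, 1, 1; 0, 0, 1], by simp [Matrix.det_fin_three]⟩

theorem qx_mem_uni (p : ℕ) : qx p ∈ uni3 (ZMod p) := by
  refine ⟨?_, ?_, ?_, ?_, ?_, ?_⟩ <;> simp [qx]

theorem qy_mem_uni (p : ℕ) : qy p ∈ uni3 (ZMod p) := by
  refine ⟨?_, ?_, ?_, ?_, ?_, ?_⟩ <;> simp [qy]

theorem uni3_le_qd (p : ℕ) : uni3 (ZMod p) ≤ Cfsg.qd p := by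
  intro M hM
  obtain ⟨a1, a2, a3, a4, a5, a6⟩ := hM
  exact Subgroup.subset_closure ⟨a2, a3, a6⟩

theorem qxy_ne (p : ℕ) [Fact p.Prime] : qx p * qy p ≠ qy p * qx p := by
  intro h
  have h2 : ((qx p * qy p : Matrix.SpecialLinearGroup (Fin 3) (ZMod p)) :
      Matrix (Fin 3) (Fin 3) (ZMod p)) 0 2 =
      ((qy p * qx p : Matrix.SpecialLinearGroup (Fin 3) (ZMod p)) :
      Matrix (Fin 3) (Fin 3) (ZMod p)) 0 2 := by rw [h]
  rw [Matrix.SpecialLinearGroup.coe_mul, Matrix.SpecialLinearGroup.coe_mul] at h2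
  simp [qx, qy, Matrix.mul_apply, Fin.sum_univ_three] at h2

/-- Let p be an odd prime and K a finite field of characteristic p. Then Qd(p) (the natural semidirect product of an elementary abelian group of order p² by SL₂(p)) is not involved in the projective special linear group PSL₂(K). -/
theorem result {p : ℕ} [Fact p.Prime] (hp : p ≠ 2) {K : Type*} [Field K] [Fintype K] [CharP K p] : ¬ Cfsg.Involves ↥(Cfsg.qd p) (Matrix.ProjectiveSpecialLinearGroup (Fin 2) K) := by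
  classical
  have hfin : Finite (Matrix.SpecialLinearGroup (Fin 2) K) :=
    Finite.of_injective (fun A => A.1) Subtype.val_injective
  have hU0 : IsPGroup p (uni3 (ZMod p)) := fun g =>
    ⟨1, by rw [pow_one]; exact Subtype.ext (uni3_pow hp g.1 g.2)⟩
  have hU : IsPGroup p ((uni3 (ZMod p)).subgroupOf (Cfsg.qd p)) := hU0.comap_subtype
  refine not_involves_of_comm (p := p) (fun P hP => psl2_pgroup_comm P hP)
    ((uni3 (ZMod p)).subgroupOf (Cfsg.qd p)) hU
    ⟨qx p, uni3_le_qd p (qx_mem_uni p)⟩ ⟨qy p, uni3_le_qd p (qy_mem_uni p)⟩ ?_ ?_ ?_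
  · exact Subgroup.mem_subgroupOf.mpr (qx_mem_uni p)
  · exact Subgroup.mem_subgroupOf.mpr (qy_mem_uni p)
  · intro h
    exact qxy_ne p (congrArg Subtype.val h)

end Cfsg.Agent.S2231
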