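import Cfsg.Statements.S2232
-- import your own Cfsg.Agent.* helpers here

import Mathlib
import Cfsg.Agent.Lib.Helper37.PJoin
import Cfsg.Agent.Lib.Helper37.QdFacts
import Cfsg.Agent.Lib.Helper37.SU3PJoin

set_option autoImplicit false
open Cfsg

namespace Cfsg.Agent.S2232

open Cfsg.Agent.Lib.Helper37

/-- Let p be an odd prime, q a power of p and K a finite field with q² elements. Then Qd(p) (the natural semidirect product of an elementary abelian group of order p² by SL₂(p)) is not involved in the projective special unitary group PSU₃(q) realised over K. -/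
theorem result {p : ℕ} [Fact p.Prime] (hp : p ≠ 2) {K : Type*} [Field K] [Fintype K] [CharP K p] (n : ℕ) (hn : 1 ≤ n) (hK : Fintype.card K = (p ^ n) ^ 2) : ¬ Cfsg.Involves ↥(Cfsg.qd p) (Cfsg.PSU 3 K (p ^ n)) := by
  rintro ⟨H, R, hN, ⟨e⟩⟩
  have hpj : PJoin p ↥(Cfsg.SU 3 K (p ^ n)) := su3_pjoin hK
  have hfin : Finite (Matrix.SpecialLinearGroup (Fin 3) K) :=
    Finite.of_injective (fun g => (g : Matrix (Fin 3) (Fin 3) K)) Subtype.val_injective
  have hπ : Function.Surjective (QuotientGroup.mk' (Subgroup.center (Cfsg.SU 3 K (p ^ n)))) :=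
    QuotientGroup.mk'_surjective _
  have hf : Function.Surjective ((e.toMonoidHom.comp (QuotientGroup.mk' (R.subgroupOf H))).comp
      ((QuotientGroup.mk' (Subgroup.center (Cfsg.SU 3 K (p ^ n)))).subgroupComap H)) :=
    (e.surjective.comp (QuotientGroup.mk'_surjective _)).comp
      (MonoidHom.subgroupComap_surjective_of_surjective _ H hπ)
  exact (hpj.subgroup (H.comap (QuotientGroup.mk' (Subgroup.center (Cfsg.SU 3 K (p ^ n)))))).not_surjective_qd _ hf

end Cfsg.Agent.S2232
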