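import Cfsg.Statements.S2256
import Cfsg.Agent.S2254
import Mathlib

set_option autoImplicit false
open Cfsg

namespace Cfsg.Agent.S2256

open Cfsg.Agent.Lib.Helper95.NilpNum
open Cfsg.Agent.S2253 (main sylow_bound)
open Cfsg.Agent.S2255 (restrP sign_eq_mul restrP_injective main_alt)
open Cfsg.Agent.S2254 (exists_orbit_three eq_of_card_three conj_invariant F_four_mul_add_one
  F_four_mul_add_two g_mul_lt orbit_invariant)

theorem F_four : F 4 = 8 := by unfold F; rw [e2_four]; rfl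

theorem F_eight : F 8 = 128 := by unfold F; rw [e2_eq_e2f 8 8 le_rfl]; rfl

theorem F_step_four (j : ℕ) : 8 * F (4 * j) ≤ F (4 * (j + 1)) := by
  have := F_mul_le 4 (4 * j)
  rw [F_four] at this
  have e : 4 + 4 * j = 4 * (j + 1) := by ring
  rwa [e] at this

theorem F_step_eight (j : ℕ) : 128 * F (4 * j) ≤ F (4 * (j + 2)) := by
  have := F_mul_le 8 (4 * j)
  rw [F_eight] at this
  have e : 8 + 4 * j = 4 * (j + 2) := by ring
  rwa [e] at this

theorem h_special_eq : ∀ a ∈ ({1, 3, 5, 6, 9} : Finset ℕ), ∀ b ∈ ({1, 3, 5, 6, 9} : Finset ℕ),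
    (a + b) % 4 = 3 → 7 ≤ a + b → h a * h b = h (a + b) → a = 3 ∨ b = 3 := by decide

theorem h_mul_eq_aux : ∀ a b : ℕ, 1 ≤ a → 1 ≤ b → (a + b) % 4 = 3 → 7 ≤ a + b →
    h a * h b = h (a + b) → ¬ (a ∈ ({1, 3, 5, 6, 9} : Finset ℕ)) → b = 3 := by
  intro a b ha hb hm h7 heq hns
  simp only [Finset.mem_insert, Finset.mem_singleton, not_or] at hns
  obtain ⟨h1, h3, h5, h6, h9⟩ := hns
  have ea := h_generic (m := a) (by omega) h3 h5 h6 h9
  have em := h_generic (m := a + b) (by omega) (by omega) (by omega) (by omega) (by omega)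
  by_contra hb3
  by_cases hsb : b ∈ ({1, 5, 6, 9} : Finset ℕ)
  · simp only [Finset.mem_insert, Finset.mem_singleton] at hsb
    rcases hsb with rfl | rfl | rfl | rfl
    · obtain ⟨j, rfl⟩ : ∃ j, a = 4 * j + 2 := ⟨a / 4, by omega⟩
      have hh1 : h 1 = 1 := by decide
      rw [hh1, mul_one] at heq
      have e1 : g (4 * j + 2) = 2 * F (4 * j) := by
        rw [g_of_mod (by omega), F_four_mul_add_two]
      have e2' : g (4 * j + 2 + 1) = 3 * F (4 * j) := g_add_three j
      have := F_pos (4 * j)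
      omega
    · obtain ⟨j, rfl⟩ : ∃ j, a = 4 * j + 2 := ⟨a / 4, by omega⟩
      have hh : h 5 = 5 := by decide
      rw [hh] at heq
      have e1 : g (4 * j + 2) = 2 * F (4 * j) := by
        rw [g_of_mod (by omega), F_four_mul_add_two]
      have e2' : g (4 * j + 2 + 5) = 3 * F (4 * (j + 1)) := by
        have : 4 * j + 2 + 5 = 4 * (j + 1) + 3 := by ring
        rw [this, g_add_three]
      have e3 := F_step_four j
      have := F_pos (4 * j)
      omega
    · obtain ⟨j, rfl⟩ : ∃ j, a = 4 * j + 1 := ⟨a / 4, by omega⟩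
      have hh : h 6 = 9 := by decide
      rw [hh] at heq
      have e1 : g (4 * j + 1) = F (4 * j) := by
        rw [g_of_mod (by omega), F_four_mul_add_one]
      have e2' : g (4 * j + 1 + 6) = 3 * F (4 * (j + 1)) := by
        have : 4 * j + 1 + 6 = 4 * (j + 1) + 3 := by ring
        rw [this, g_add_three]
      have e3 := F_step_four j
      have := F_pos (4 * j)
      omega
    · obtain ⟨j, rfl⟩ : ∃ j, a = 4 * j + 2 := ⟨a / 4, by omega⟩
      have hh : h 9 = 81 := by decide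
      rw [hh] at heq
      have e1 : g (4 * j + 2) = 2 * F (4 * j) := by
        rw [g_of_mod (by omega), F_four_mul_add_two]
      have e2' : g (4 * j + 2 + 9) = 3 * F (4 * (j + 2)) := by
        have : 4 * j + 2 + 9 = 4 * (j + 2) + 3 := by ring
        rw [this, g_add_three]
      have e3 := F_step_eight j
      have := F_pos (4 * j)
      omega
  · simp only [Finset.mem_insert, Finset.mem_singleton, not_or] at hsb
    obtain ⟨b1, b5, b6, b9⟩ := hsb
    have eb := h_generic (m := b) (by omega) hb3 b5 b6 b9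
    have hmul := g_mul_le a b
    rw [← ea, ← eb, ← em, ← heq] at hmul
    have hpa := h_pos a
    have hpb := h_pos b
    have := Nat.mul_pos hpa hpb
    nlinarith

theorem h_mul_eq {a b : ℕ} (ha : 1 ≤ a) (hb : 1 ≤ b) (hm : (a + b) % 4 = 3) (h7 : 7 ≤ a + b)
    (heq : h a * h b = h (a + b)) : a = 3 ∨ b = 3 := by
  by_cases hsa : a ∈ ({1, 3, 5, 6, 9} : Finset ℕ)
  · by_cases hsb : b ∈ ({1, 3, 5, 6, 9} : Finset ℕ)
    · exact h_special_eq a hsa b hsb hm h7 heq
    · left
      exact h_mul_eq_aux b a hb ha (by rw [add_comm]; exact hm) (by omega)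
        (by rw [mul_comm, add_comm b a]; exact heq) hsb
  · right
    exact h_mul_eq_aux a b ha hb hm h7 heq hsa

theorem card_le_restrP {α : Type*} [Finite α] (N : Subgroup (Equiv.Perm α)) (p : α → Prop)
    (hp : ∀ σ ∈ N, ∀ x, p (σ x) ↔ p x) (hp' : ∀ σ ∈ N, ∀ x, ¬ p (σ x) ↔ ¬ p x) :
    Nat.card N ≤ Nat.card (restrP N p hp).range *
      Nat.card (restrP N (fun x => ¬ p x) hp').range := by
  rw [← Nat.card_prod]
  exact Nat.card_le_card_of_injective _ (restrP_injective N p hp hp')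

theorem sign_restr_mul {α : Type} [Fintype α] [DecidableEq α] (N : Subgroup (Equiv.Perm α))
    (heven : N ≤ alternatingGroup α) (p : α → Prop) [DecidablePred p]
    (hp : ∀ σ ∈ N, ∀ x, p (σ x) ↔ p x) (hp' : ∀ σ ∈ N, ∀ x, ¬ p (σ x) ↔ ¬ p x) (σ : N) :
    Equiv.Perm.sign (restrP N p hp σ) * Equiv.Perm.sign (restrP N (fun x => ¬ p x) hp' σ) = 1 := by
  have h1 : Equiv.Perm.sign (σ : Equiv.Perm α) = 1 :=
    Equiv.Perm.mem_alternatingGroup.mp (heven σ.2)
  rw [sign_eq_mul (σ : Equiv.Perm α) p (hp σ σ.2) (hp' σ σ.2)] at h1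
  exact h1

theorem even_of_even {α : Type} [Fintype α] [DecidableEq α] (N : Subgroup (Equiv.Perm α))
    (heven : N ≤ alternatingGroup α) (p : α → Prop) [DecidablePred p]
    (hp : ∀ σ ∈ N, ∀ x, p (σ x) ↔ p x) (hp' : ∀ σ ∈ N, ∀ x, ¬ p (σ x) ↔ ¬ p x)
    (hev1 : (restrP N p hp).range ≤ alternatingGroup {x // p x}) :
    (restrP N (fun x => ¬ p x) hp').range ≤ alternatingGroup {x // ¬ p x} := by
  rintro _ ⟨σ, rfl⟩
  rw [Equiv.Perm.mem_alternatingGroup]
  have h1 := sign_restr_mul N heven p hp hp' σ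
  have h2 : Equiv.Perm.sign (restrP N p hp σ) = 1 :=
    Equiv.Perm.mem_alternatingGroup.mp (hev1 ⟨σ, rfl⟩)
  rw [h2, one_mul] at h1
  exact h1

theorem two_mul_card_le {α : Type} [Fintype α] [DecidableEq α] (N : Subgroup (Equiv.Perm α))
    (heven : N ≤ alternatingGroup α) (p : α → Prop) [DecidablePred p]
    (hp : ∀ σ ∈ N, ∀ x, p (σ x) ↔ p x) (hp' : ∀ σ ∈ N, ∀ x, ¬ p (σ x) ↔ ¬ p x)
    (hodd : ¬ (restrP N p hp).range ≤ alternatingGroup {x // p x}) :
    Nat.card N * 2 ≤ Nat.card (restrP N p hp).range *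
      Nat.card (restrP N (fun x => ¬ p x) hp').range := by
  set ρ₁ := restrP N p hp with hρ₁
  set ρ₂ := restrP N (fun x => ¬ p x) hp' with hρ₂
  have hinj := restrP_injective N p hp hp'
  have hsign : ∀ σ : N, Equiv.Perm.sign (ρ₁ σ) * Equiv.Perm.sign (ρ₂ σ) = 1 :=
    sign_restr_mul N heven p hp hp'
  obtain ⟨x₀, hx₀, hx₀odd⟩ : ∃ x₀ ∈ ρ₁.range, x₀ ∉ alternatingGroup {x // p x} :=
    SetLike.not_le_iff_exists.mp hodd
  let ψ : ρ₁.range × ρ₂.range →* ℤˣ :=
    (Equiv.Perm.sign.comp (ρ₁.range.subtype.comp (MonoidHom.fst _ _))) *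
      (Equiv.Perm.sign.comp (ρ₂.range.subtype.comp (MonoidHom.snd _ _)))
  have hψ : ∀ z : ρ₁.range × ρ₂.range, ψ z =
      Equiv.Perm.sign (z.1 : Equiv.Perm {x // p x}) *
        Equiv.Perm.sign (z.2 : Equiv.Perm {x // ¬ p x}) :=
    fun z => rfl
  have hK : ∀ σ : N, (ρ₁.rangeRestrict σ, ρ₂.rangeRestrict σ) ∈ ψ.ker := by
    intro σ
    rw [MonoidHom.mem_ker, hψ]
    exact hsign σ
  have hcardK : Nat.card N ≤ Nat.card ψ.ker := by
    apply Nat.card_le_card_of_injective (fun σ : N => (⟨_, hK σ⟩ : ψ.ker))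
    intro σ τ hστ
    exact hinj (congrArg Subtype.val hστ)
  have hKne : ψ.ker ≠ ⊤ := by
    intro htop
    have hmem : ((⟨x₀, hx₀⟩ : ρ₁.range), (1 : ρ₂.range)) ∈ ψ.ker := by
      rw [htop]; trivial
    rw [MonoidHom.mem_ker, hψ] at hmem
    simp at hmem
    exact hx₀odd (Equiv.Perm.mem_alternatingGroup.mpr hmem)
  have hidx : 2 ≤ ψ.ker.index := by
    have h0 : ψ.ker.index ≠ 0 := Subgroup.index_ne_zero_of_finite
    have h1 : ψ.ker.index ≠ 1 := fun h => hKne (Subgroup.index_eq_one.mp h)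
    omega
  have hmul := Subgroup.card_mul_index ψ.ker
  rw [Nat.card_prod] at hmul
  have h5 : Nat.card ψ.ker * 2 ≤ Nat.card ρ₁.range * Nat.card ρ₂.range := by
    rw [← hmul]; exact Nat.mul_le_mul_left _ hidx
  calc Nat.card N * 2 ≤ Nat.card ψ.ker * 2 := Nat.mul_le_mul_right _ hcardK
    _ ≤ _ := h5

theorem orbit_restrP {α : Type*} (N : Subgroup (Equiv.Perm α)) (p : α → Prop)
    (hp : ∀ σ ∈ N, ∀ x, p (σ x) ↔ p x) (y : {x // p x}) :
    Subtype.val '' (MulAction.orbit (restrP N p hp).range y) = MulAction.orbit N (y : α) := by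
  ext z
  constructor
  · rintro ⟨w, ⟨⟨x, ⟨σ, rfl⟩⟩, rfl⟩, rfl⟩
    exact ⟨σ, rfl⟩
  · rintro ⟨σ, rfl⟩
    exact ⟨restrP N p hp σ • y, ⟨⟨restrP N p hp σ, ⟨σ, rfl⟩⟩, rfl⟩, rfl⟩

theorem exists_inv_three {α : Type} [Fintype α] [DecidableEq α] (hm : Nat.card α % 4 = 3)
    (h7 : 7 ≤ Nat.card α) (N : Subgroup (Equiv.Perm α)) (hN : Group.IsNilpotent N)
    (heven : N ≤ alternatingGroup α) (hcard : Nat.card N = h (Nat.card α)) :
    ∃ s : Set α, s.ncard = 3 ∧ ∀ σ ∈ N, ∀ x, σ x ∈ s ↔ x ∈ s := by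
  classical
  obtain ⟨k, hk⟩ : ∃ k, Nat.card α = 4 * k + 3 := ⟨Nat.card α / 4, by omega⟩
  have hk1 : 1 ≤ k := by omega
  have hgm : g (Nat.card α) = 2 * h (Nat.card α) :=
    (h_generic (by omega) (by omega) (by omega) (by omega) (by omega)).symm
  have hhm : 2 * h (Nat.card α) = 3 * F (4 * k) := by
    rw [← hgm, hk, g_add_three]
  have hne : Nonempty α := by
    by_contra hcon
    rw [not_nonempty_iff] at hcon
    have : Nat.card α = 0 := Nat.card_of_isEmpty
    omega
  obtain ⟨ω⟩ := hne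
  by_cases htr : MulAction.orbit N ω = Set.univ
  · exfalso
    have : MulAction.IsPretransitive N α := by
      refine ⟨fun x y => ?_⟩
      have hx : x ∈ MulAction.orbit N ω := by rw [htr]; trivial
      have hy : y ∈ MulAction.orbit N ω := by rw [htr]; trivial
      obtain ⟨a, rfl⟩ := hx
      obtain ⟨b, rfl⟩ := hy
      exact ⟨b * a⁻¹, by simp [mul_smul]⟩
    have : Nonempty α := ⟨ω⟩
    have hkk : Nat.card N ≠ 0 := Nat.card_pos.ne'
    have hm2 : ∀ a : ℕ, 1 ≤ a → Nat.card α ≠ 2 ^ a := by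
      intro a ha hma
      have : 2 ∣ Nat.card α := by rw [hma]; exact dvd_pow_self 2 (by omega)
      omega
    have hT := numeric_bound2 (Nat.card α) (by omega) hm2 (Nat.card N) hkk
      (fun p hp => sylow_bound (Γ := N) (α := α) p hp)
    rw [T2_generic (by omega) (by omega) (by omega) (by omega)] at hT
    have hF3 : F (Nat.card α) = 2 * F (4 * k) := by rw [hk, F_four_mul_add_three]
    rw [hF3] at hT
    have := F_pos (4 * k)
    omega
  · set s := MulAction.orbit N ω with hs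
    have hinv : ∀ σ ∈ N, ∀ x, σ x ∈ s ↔ x ∈ s := orbit_invariant N ω
    have hinv' : ∀ σ ∈ N, ∀ x, ¬ σ x ∈ s ↔ ¬ x ∈ s :=
      fun σ hσ x => not_congr (hinv σ hσ x)
    set ρ₁ := restrP N (· ∈ s) hinv with hρ₁
    set ρ₂ := restrP N (fun x => ¬ x ∈ s) hinv' with hρ₂
    have hadd : Nat.card {x // x ∈ s} + Nat.card {x // ¬ x ∈ s} = Nat.card α := by
      rw [Nat.card_eq_fintype_card, Nat.card_eq_fintype_card,
        Nat.card_eq_fintype_card, Fintype.card_subtype_compl]
      have := Fintype.card_subtype_le (· ∈ s)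
      omega
    have hs0 : 0 < Nat.card {x // x ∈ s} := by
      have : Nonempty {x // x ∈ s} := ⟨⟨ω, MulAction.mem_orbit_self ω⟩⟩
      exact Nat.card_pos
    have hsc0 : 0 < Nat.card {x // ¬ x ∈ s} := by
      obtain ⟨y, hy⟩ := (Set.ne_univ_iff_exists_notMem s).mp htr
      have : Nonempty {x // ¬ x ∈ s} := ⟨⟨y, hy⟩⟩
      exact Nat.card_pos
    have hn1 : Group.IsNilpotent ρ₁.range :=
      Group.nilpotent_of_surjective ρ₁.rangeRestrict (MonoidHom.rangeRestrict_surjective _)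
    have hn2 : Group.IsNilpotent ρ₂.range :=
      Group.nilpotent_of_surjective ρ₂.rangeRestrict (MonoidHom.rangeRestrict_surjective _)
    have hcardle : Nat.card N ≤ Nat.card ρ₁.range * Nat.card ρ₂.range :=
      card_le_restrP N (· ∈ s) hinv hinv'
    by_cases hev1 : ρ₁.range ≤ alternatingGroup {x // x ∈ s}
    · have hev2 : ρ₂.range ≤ alternatingGroup {x // ¬ x ∈ s} :=
        even_of_even N heven (· ∈ s) hinv hinv' hev1
      have h1 := main_alt _ {x // x ∈ s} rfl ρ₁.range hn1 hev1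
      have h2 := main_alt _ {x // ¬ x ∈ s} rfl ρ₂.range hn2 hev2
      have h3 := h_mul_le _ _ hs0 hsc0
      have heq : h (Nat.card {x // x ∈ s}) * h (Nat.card {x // ¬ x ∈ s}) =
          h (Nat.card {x // x ∈ s} + Nat.card {x // ¬ x ∈ s}) := by
        apply le_antisymm h3
        rw [hadd]
        calc h (Nat.card α) = Nat.card N := hcard.symm
          _ ≤ _ := hcardle
          _ ≤ _ := Nat.mul_le_mul h1 h2
      rcases h_mul_eq hs0 hsc0 (by rw [hadd]; exact hm) (by rw [hadd]; exact h7) heq with h3' | h3'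
      · refine ⟨s, ?_, hinv⟩
        rw [← Nat.card_coe_set_eq]; exact h3'
      · refine ⟨sᶜ, ?_, ?_⟩
        · rw [← Nat.card_coe_set_eq]; exact h3'
        · intro σ hσ x
          simp only [Set.mem_compl_iff]
          exact hinv' σ hσ x
    · have h2le := two_mul_card_le N heven (· ∈ s) hinv hinv' hev1
      have h1 := main _ {x // x ∈ s} rfl ρ₁.range hn1
      have h2 := main _ {x // ¬ x ∈ s} rfl ρ₂.range hn2
      have h3 := g_mul_le (Nat.card {x // x ∈ s}) (Nat.card {x // ¬ x ∈ s})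
      rw [hadd] at h3
      have hga := g_pos (Nat.card {x // x ∈ s})
      have hgb := g_pos (Nat.card {x // ¬ x ∈ s})
      have hprod : Nat.card ρ₁.range * Nat.card ρ₂.range =
          g (Nat.card {x // x ∈ s}) * g (Nat.card {x // ¬ x ∈ s}) :=
        le_antisymm (Nat.mul_le_mul h1 h2) (by
          calc g (Nat.card {x // x ∈ s}) * g (Nat.card {x // ¬ x ∈ s}) ≤ g (Nat.card α) := h3
            _ = Nat.card N * 2 := by rw [hgm, hcard, mul_comm]
            _ ≤ _ := h2le)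
      have hgeq : g (Nat.card {x // x ∈ s}) * g (Nat.card {x // ¬ x ∈ s}) = g (Nat.card α) := by
        apply le_antisymm h3
        rw [← hprod, hgm, ← hcard, mul_comm]; exact h2le
      have hn1eq : Nat.card ρ₁.range = g (Nat.card {x // x ∈ s}) := by
        by_contra hne
        have hlt := lt_of_le_of_ne h1 hne
        have : Nat.card ρ₁.range * Nat.card ρ₂.range <
            g (Nat.card {x // x ∈ s}) * g (Nat.card {x // ¬ x ∈ s}) :=
          calc Nat.card ρ₁.range * Nat.card ρ₂.range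
              ≤ Nat.card ρ₁.range * g (Nat.card {x // ¬ x ∈ s}) := Nat.mul_le_mul_left _ h2
            _ < g (Nat.card {x // x ∈ s}) * g (Nat.card {x // ¬ x ∈ s}) :=
              Nat.mul_lt_mul_of_pos_right hlt hgb
        omega
      have hn2eq : Nat.card ρ₂.range = g (Nat.card {x // ¬ x ∈ s}) := by
        rw [hn1eq] at hprod
        exact Nat.eq_of_mul_eq_mul_left hga hprod
      by_cases ha3 : Nat.card {x // x ∈ s} % 4 = 3
      · obtain ⟨y, hy⟩ := exists_orbit_three _ {x // x ∈ s} rfl ha3 ρ₁.range hn1 hn1eq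
        refine ⟨MulAction.orbit N (y : α), ?_, orbit_invariant N _⟩
        rw [← orbit_restrP N (· ∈ s) hinv y,
          Set.ncard_image_of_injective _ Subtype.val_injective]
        exact hy
      · by_cases hb3 : Nat.card {x // ¬ x ∈ s} % 4 = 3
        · obtain ⟨y, hy⟩ := exists_orbit_three _ {x // ¬ x ∈ s} rfl hb3 ρ₂.range hn2 hn2eq
          refine ⟨MulAction.orbit N (y : α), ?_, orbit_invariant N _⟩
          rw [← orbit_restrP N (fun x => ¬ x ∈ s) hinv' y,
            Set.ncard_image_of_injective _ Subtype.val_injective]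
          exact hy
        · exfalso
          have hab : (Nat.card {x // x ∈ s} % 4 = 1 ∧ Nat.card {x // ¬ x ∈ s} % 4 = 2) ∨
              (Nat.card {x // x ∈ s} % 4 = 2 ∧ Nat.card {x // ¬ x ∈ s} % 4 = 1) := by omega
          rcases hab with ⟨h1', h2'⟩ | ⟨h1', h2'⟩
          · have := g_mul_lt h1' h2'
            rw [hadd] at this
            omega
          · have := g_mul_lt h2' h1'
            rw [add_comm, hadd, mul_comm] at this
            omega

theorem card_three_le_alt {β : Type*} [Fintype β] [DecidableEq β] (A : Subgroup (Equiv.Perm β))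
    (hA : Nat.card A = 3) : A ≤ alternatingGroup β := by
  intro x hx
  rw [Equiv.Perm.mem_alternatingGroup]
  have h3 : x ^ 3 = 1 := by
    have := pow_card_eq_one' (G := A) (x := ⟨x, hx⟩)
    rw [hA] at this
    exact congrArg Subtype.val this
  have hs : Equiv.Perm.sign x ^ 3 = 1 := by rw [← map_pow, h3, map_one]
  rcases Int.units_eq_one_or (Equiv.Perm.sign x) with h | h
  · exact h
  · rw [h] at hs; exact absurd hs (by decide)

theorem structure_alt {α : Type} [Fintype α] [DecidableEq α] (N : Subgroup (Equiv.Perm α))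
    (hN : Group.IsNilpotent N) (heven : N ≤ alternatingGroup α) (s : Set α)
    [DecidablePred (· ∈ s)]
    (hinv : ∀ σ ∈ N, ∀ x, σ x ∈ s ↔ x ∈ s) (hs3 : s.ncard = 3) (hm : Nat.card α % 4 = 3)
    (h7 : 7 ≤ Nat.card α) (hcard : Nat.card N = h (Nat.card α)) :
    ∃ (A : Subgroup (Equiv.Perm {x // x ∈ s})) (Q : Subgroup (Equiv.Perm {x // ¬ x ∈ s})),
      Nat.card A = 3 ∧ Nat.card Q * 2 = F (Nat.card α - 3) ∧
      Q ≤ alternatingGroup {x // ¬ x ∈ s} ∧
      N = (A.prod Q).map (Equiv.Perm.subtypeCongrHom (· ∈ s)) := by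
  have hinv' : ∀ σ ∈ N, ∀ x, ¬ σ x ∈ s ↔ ¬ x ∈ s := fun σ hσ x => not_congr (hinv σ hσ x)
  set ρ₁ := restrP N (· ∈ s) hinv with hρ₁
  set ρ₂ := restrP N (fun x => ¬ x ∈ s) hinv' with hρ₂
  have hc1 : Nat.card {x // x ∈ s} = 3 := by rw [← hs3]; exact Nat.card_coe_set_eq s
  have hc2 : Nat.card {x // ¬ x ∈ s} = Nat.card α - 3 := by
    rw [← hc1, Nat.card_eq_fintype_card, Nat.card_eq_fintype_card, Nat.card_eq_fintype_card,
      Fintype.card_subtype_compl]
  have hn1 : Group.IsNilpotent ρ₁.range :=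
    Group.nilpotent_of_surjective ρ₁.rangeRestrict (MonoidHom.rangeRestrict_surjective _)
  have hn2 : Group.IsNilpotent ρ₂.range :=
    Group.nilpotent_of_surjective ρ₂.rangeRestrict (MonoidHom.rangeRestrict_surjective _)
  have h1 := main _ {x // x ∈ s} hc1 ρ₁.range hn1
  have h2 := main _ {x // ¬ x ∈ s} hc2 ρ₂.range hn2
  have hg3 : g 3 = 3 := by unfold g; simp [F_zero]
  obtain ⟨k, hk⟩ : ∃ k, Nat.card α = 4 * k + 3 := ⟨Nat.card α / 4, by omega⟩
  have hk1 : 1 ≤ k := by omega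
  have hhm : 2 * h (Nat.card α) = 3 * F (4 * k) := by
    rw [h_generic (by omega) (by omega) (by omega) (by omega) (by omega), hk, g_add_three]
  have hsub : Nat.card α - 3 = 4 * k := by omega
  have hg2 : g (Nat.card α - 3) = F (4 * k) := by rw [hsub]; exact g_of_mod (by omega)
  have hh2 : 2 * h (4 * k) = F (4 * k) := by
    rw [h_generic (by omega) (by omega) (by omega) (by omega) (by omega), g_of_mod (by omega)]
  have hle : N ≤ (ρ₁.range.prod ρ₂.range).map (Equiv.Perm.subtypeCongrHom (· ∈ s)) := by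
    intro σ hσ
    refine ⟨(ρ₁ ⟨σ, hσ⟩, ρ₂ ⟨σ, hσ⟩), ⟨⟨⟨σ, hσ⟩, rfl⟩, ⟨⟨σ, hσ⟩, rfl⟩⟩, ?_⟩
    ext x
    by_cases hx : x ∈ s
    · rw [Equiv.Perm.subtypeCongrHom_apply, Equiv.Perm.subtypeCongr.left_apply _ _ hx]; rfl
    · rw [Equiv.Perm.subtypeCongrHom_apply, Equiv.Perm.subtypeCongr.right_apply _ _ hx]; rfl
  have hcardmap : Nat.card ((ρ₁.range.prod ρ₂.range).map (Equiv.Perm.subtypeCongrHom (· ∈ s))) =
      Nat.card ρ₁.range * Nat.card ρ₂.range := by
    rw [Nat.card_congr ((ρ₁.range.prod ρ₂.range).equivMapOfInjective _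
      (Equiv.Perm.subtypeCongrHom_injective _)).toEquiv.symm,
      Nat.card_congr (Subgroup.prodEquiv _ _).toEquiv, Nat.card_prod]
  have hNle : Nat.card N ≤ Nat.card ρ₁.range * Nat.card ρ₂.range := by
    rw [← hcardmap]; exact Subgroup.card_le_of_le hle
  have hF := F_pos (4 * k)
  rw [hg3] at h1
  rw [hg2] at h2
  have hA : Nat.card ρ₁.range = 3 := by
    by_cases hev1 : ρ₁.range ≤ alternatingGroup {x // x ∈ s}
    · have hev2 : ρ₂.range ≤ alternatingGroup {x // ¬ x ∈ s} :=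
        even_of_even N heven (· ∈ s) hinv hinv' hev1
      have h2' := main_alt _ {x // ¬ x ∈ s} hc2 ρ₂.range hn2 hev2
      rw [hsub] at h2'
      by_contra hne
      have h' : Nat.card ρ₁.range ≤ 2 := by omega
      have := Nat.mul_le_mul h' h2'
      omega
    · have h2le : Nat.card N * 2 ≤ Nat.card ρ₁.range * Nat.card ρ₂.range :=
        two_mul_card_le N heven (· ∈ s) hinv hinv' hev1
      by_contra hne
      have h' : Nat.card ρ₁.range ≤ 2 := by omega
      have := Nat.mul_le_mul h' h2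
      omega
  have hev1 : ρ₁.range ≤ alternatingGroup {x // x ∈ s} := card_three_le_alt _ hA
  have hev2 : ρ₂.range ≤ alternatingGroup {x // ¬ x ∈ s} :=
    even_of_even N heven (· ∈ s) hinv hinv' hev1
  have h2' := main_alt _ {x // ¬ x ∈ s} hc2 ρ₂.range hn2 hev2
  rw [hsub] at h2'
  have hQ : Nat.card ρ₂.range * 2 = F (4 * k) := by
    rw [hA] at hNle
    omega
  refine ⟨ρ₁.range, ρ₂.range, hA, by rw [hQ, hsub], hev2, ?_⟩
  exact Subgroup.eq_of_le_of_card_ge hle (by rw [hcardmap, hA, hcard]; omega)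

theorem conj_extremal_alt {α : Type} [Fintype α] [DecidableEq α] (hm : Nat.card α % 4 = 3)
    (h7 : 7 ≤ Nat.card α)
    (N₁ N₂ : Subgroup (Equiv.Perm α)) (h1 : Group.IsNilpotent N₁) (h2 : Group.IsNilpotent N₂)
    (he1 : N₁ ≤ alternatingGroup α) (he2 : N₂ ≤ alternatingGroup α)
    (hc1 : Nat.card N₁ = h (Nat.card α)) (hc2 : Nat.card N₂ = h (Nat.card α)) :
    ∃ γ ∈ alternatingGroup α, N₂ = N₁.map (MulAut.conj γ).toMonoidHom := by
  classical
  obtain ⟨s₁, hs₁, hinv₁⟩ := exists_inv_three hm h7 N₁ h1 he1 hc1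
  obtain ⟨s₂, hs₂, hinv₂⟩ := exists_inv_three hm h7 N₂ h2 he2 hc2
  have hcard12 : Nat.card {x // x ∈ s₁} = Nat.card {x // x ∈ s₂} := by
    have e1 : Nat.card {x // x ∈ s₁} = s₁.ncard := Nat.card_coe_set_eq s₁
    have e2 : Nat.card {x // x ∈ s₂} = s₂.ncard := Nat.card_coe_set_eq s₂
    rw [e1, e2, hs₁, hs₂]
  obtain ⟨e⟩ : Nonempty ({x // x ∈ s₁} ≃ {x // x ∈ s₂}) := Finite.card_eq.mp hcard12
  have hγ₀ : ∀ x, e.extendSubtype x ∈ s₂ ↔ x ∈ s₁ := by
    intro x
    constructor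
    · intro h
      by_contra hx
      exact e.extendSubtype_not_mem x hx h
    · intro hx
      exact e.extendSubtype_mem x hx
  obtain ⟨γ, hγeven, hγ⟩ : ∃ γ : Equiv.Perm α, γ ∈ alternatingGroup α ∧
      ∀ x, γ x ∈ s₂ ↔ x ∈ s₁ := by
    by_cases hsg : Equiv.Perm.sign e.extendSubtype = 1
    · exact ⟨e.extendSubtype, Equiv.Perm.mem_alternatingGroup.mpr hsg, hγ₀⟩
    · have hsg' : Equiv.Perm.sign e.extendSubtype = -1 :=
        (Int.units_eq_one_or _).resolve_left hsg
      obtain ⟨a, b, ha, hb, hab⟩ : ∃ a b, a ∈ s₁ ∧ b ∈ s₁ ∧ a ≠ b := by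
        have : 1 < s₁.ncard := by omega
        exact (Set.one_lt_ncard_iff (Set.toFinite s₁)).mp this
      refine ⟨e.extendSubtype * Equiv.swap a b, ?_, ?_⟩
      · rw [Equiv.Perm.mem_alternatingGroup, map_mul, hsg', Equiv.Perm.sign_swap hab]; rfl
      · intro x
        rw [Equiv.Perm.mul_apply, hγ₀]
        by_cases hxa : x = a
        · subst hxa; rw [Equiv.swap_apply_left]; exact ⟨fun _ => ha, fun _ => hb⟩
        · by_cases hxb : x = b
          · subst hxb; rw [Equiv.swap_apply_right]; exact ⟨fun _ => hb, fun _ => ha⟩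
          · rw [Equiv.swap_apply_of_ne_of_ne hxa hxb]
  set N₁' := N₁.map (MulAut.conj γ).toMonoidHom with hN₁'def
  have hinv₁' := conj_invariant N₁ γ s₁ s₂ hγ hinv₁
  have hN₁'nil : Group.IsNilpotent N₁' :=
    Group.nilpotent_of_mulEquiv (N₁.equivMapOfInjective _ (MulEquiv.injective _))
  have hN₁'card : Nat.card N₁' = h (Nat.card α) := by
    rw [← hc1]
    exact Nat.card_congr (N₁.equivMapOfInjective _ (MulEquiv.injective _)).toEquiv.symm
  have hN₁'even : N₁' ≤ alternatingGroup α := by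
    rintro _ ⟨σ, hσ, rfl⟩
    rw [Equiv.Perm.mem_alternatingGroup]
    have := Equiv.Perm.mem_alternatingGroup.mp (he1 hσ)
    simp [MulAut.conj_apply, this]
  obtain ⟨A₁, Q₁, hA₁, hQ₁, hQ₁e, hN₁'⟩ :=
    structure_alt N₁' hN₁'nil hN₁'even s₂ hinv₁' hs₂ hm h7 hN₁'card
  obtain ⟨A₂, Q₂, hA₂, hQ₂, hQ₂e, hN₂⟩ := structure_alt N₂ h2 he2 s₂ hinv₂ hs₂ hm h7 hc2
  have hc3 : Nat.card {x // x ∈ s₂} = 3 := by rw [← hs₂]; exact Nat.card_coe_set_eq s₂
  have hP6 : Nat.card (Equiv.Perm {x // x ∈ s₂}) = 6 := by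
    rw [Nat.card_perm, hc3]; rfl
  have hA : A₁ = A₂ := eq_of_card_three hP6 A₁ A₂ hA₁ hA₂
  have : Fact (Nat.Prime 2) := ⟨Nat.prime_two⟩
  have hcc : Nat.card {x // ¬ x ∈ s₂} = Nat.card α - 3 := by
    rw [← hc3, Nat.card_eq_fintype_card, Nat.card_eq_fintype_card, Nat.card_eq_fintype_card,
      Fintype.card_subtype_compl]
  have hnt : Nontrivial {x // ¬ x ∈ s₂} := by
    rw [← Finite.one_lt_card_iff_nontrivial, hcc]; omega
  have hG' : 2 * Nat.card (alternatingGroup {x // ¬ x ∈ s₂}) =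
      Nat.card (Equiv.Perm {x // ¬ x ∈ s₂}) := two_mul_nat_card_alternatingGroup
  have hfacP : (Nat.card (Equiv.Perm {x // ¬ x ∈ s₂})).factorization 2 = e2 (Nat.card α - 3) := by
    rw [Nat.card_perm, hcc]; rfl
  have hfacG : (Nat.card (alternatingGroup {x // ¬ x ∈ s₂})).factorization 2 + 1 =
      e2 (Nat.card α - 3) := by
    rw [← hfacP, ← hG', Nat.factorization_mul (by norm_num) Nat.card_pos.ne', Finsupp.add_apply,
      Nat.prime_two.factorization_self, add_comm]
  have hcardQ : ∀ Q : Subgroup (Equiv.Perm {x // ¬ x ∈ s₂}),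
      Nat.card Q * 2 = F (Nat.card α - 3) → Q ≤ alternatingGroup {x // ¬ x ∈ s₂} →
      Nat.card (Q.subgroupOf (alternatingGroup {x // ¬ x ∈ s₂})) =
        2 ^ (Nat.card (alternatingGroup {x // ¬ x ∈ s₂})).factorization 2 := by
    intro Q hQ hQe
    rw [Nat.card_congr (Subgroup.subgroupOfEquivOfLe hQe).toEquiv]
    have : Nat.card Q * 2 =
        2 ^ ((Nat.card (alternatingGroup {x // ¬ x ∈ s₂})).factorization 2) * 2 := by
      rw [hQ, ← pow_succ, hfacG]; rfl
    omega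
  obtain ⟨τ', hτ'⟩ := MulAction.exists_smul_eq (alternatingGroup {x // ¬ x ∈ s₂})
    (Sylow.ofCard (Q₁.subgroupOf (alternatingGroup {x // ¬ x ∈ s₂})) (hcardQ Q₁ hQ₁ hQ₁e))
    (Sylow.ofCard (Q₂.subgroupOf (alternatingGroup {x // ¬ x ∈ s₂})) (hcardQ Q₂ hQ₂ hQ₂e))
  have hQ : ∀ q ∈ Q₁, (τ' : Equiv.Perm {x // ¬ x ∈ s₂}) * q *
      (τ' : Equiv.Perm {x // ¬ x ∈ s₂})⁻¹ ∈ Q₂ := by
    intro q hq
    have hmem : τ' * ⟨q, hQ₁e hq⟩ * τ'⁻¹ ∈
        ((τ' • Sylow.ofCard (Q₁.subgroupOf (alternatingGroup {x // ¬ x ∈ s₂}))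
          (hcardQ Q₁ hQ₁ hQ₁e) : Sylow 2 _) : Subgroup _) := by
      rw [Sylow.coe_subgroup_smul, Subgroup.mem_smul_pointwise_iff_exists]
      exact ⟨⟨q, hQ₁e hq⟩, by simpa [Subgroup.mem_subgroupOf] using hq,
        by simp [MulAut.smul_def]⟩
    rw [hτ'] at hmem
    simpa [Subgroup.mem_subgroupOf] using hmem
  set τ : Equiv.Perm α :=
    Equiv.Perm.subtypeCongrHom (· ∈ s₂) (1, (τ' : Equiv.Perm {x // ¬ x ∈ s₂})) with hτdef
  have hτeven : τ ∈ alternatingGroup α := by
    rw [Equiv.Perm.mem_alternatingGroup, hτdef, Equiv.Perm.subtypeCongrHom_apply,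
      Equiv.Perm.sign_subtypeCongr, map_one, one_mul]
    exact Equiv.Perm.mem_alternatingGroup.mp τ'.2
  refine ⟨τ * γ, mul_mem hτeven hγeven, ?_⟩
  have hmapmap : N₁.map (MulAut.conj (τ * γ)).toMonoidHom =
      N₁'.map (MulAut.conj τ).toMonoidHom := by
    rw [hN₁'def, Subgroup.map_map]
    congr 1
  rw [hmapmap]
  symm
  apply Subgroup.eq_of_le_of_card_ge
  · rintro _ ⟨y, hy, rfl⟩
    rw [hN₁'] at hy
    obtain ⟨⟨a, q⟩, ⟨ha, hq⟩, rfl⟩ := hy
    rw [hN₂]
    refine ⟨(a, (τ' : Equiv.Perm {x // ¬ x ∈ s₂}) * q *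
      (τ' : Equiv.Perm {x // ¬ x ∈ s₂})⁻¹), ⟨hA ▸ ha, hQ q hq⟩, ?_⟩
    show Equiv.Perm.subtypeCongrHom (· ∈ s₂) (a, (τ' : Equiv.Perm {x // ¬ x ∈ s₂}) * q *
      (τ' : Equiv.Perm {x // ¬ x ∈ s₂})⁻¹) =
      τ * Equiv.Perm.subtypeCongrHom (· ∈ s₂) (a, q) * τ⁻¹
    rw [hτdef, ← map_inv, ← map_mul, ← map_mul]
    congr 1
  · rw [hc2, ← hN₁'card]
    exact (Nat.card_congr (N₁'.equivMapOfInjective _ (MulEquiv.injective _)).toEquiv).le

theorem map_subtype_facts {Γ : Type*} [Group Γ] (H : Subgroup Γ) (N : Subgroup H)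
    (hN : Group.IsNilpotent N) :
    Nat.card (N.map H.subtype) = Nat.card N ∧ Group.IsNilpotent (N.map H.subtype) ∧
      N.map H.subtype ≤ H := by
  refine ⟨Nat.card_congr (N.equivMapOfInjective _ (Subgroup.subtype_injective _)).toEquiv.symm,
    Group.nilpotent_of_surjective
      (N.equivMapOfInjective _ (Subgroup.subtype_injective _)).toMonoidHom
      (MulEquiv.surjective _), ?_⟩
  rintro _ ⟨x, -, rfl⟩
  exact x.2

/-- Let n ≡ 3 (mod 4) with n ≥ 7. Then every nilpotent subgroup of the alternating group on n letters has order at most 3 times the order of a Sylow 2-subgroup of the alternating group on n − 3 letters; the bound is attained by a nilpotent subgroup isomorphic to the direct product of such a Sylow 2-subgroup with a cyclic group of order 3; and any two nilpotent subgroups of the alternating group attaining the bound are conjugate in it. -/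
theorem result  (n : ℕ) (hn : n % 4 = 3) (h7 : 7 ≤ n)
    (P : Sylow 2 (alternatingGroup (Fin (n - 3)))) :
    (∀ N : Subgroup (alternatingGroup (Fin n)), Group.IsNilpotent N → Nat.card N ≤ 3 * Nat.card P) ∧
    (∃ M : Subgroup (alternatingGroup (Fin n)), Group.IsNilpotent M ∧ Nat.card M = 3 * Nat.card P ∧
      Nonempty (M ≃* (↥(P : Subgroup (alternatingGroup (Fin (n - 3)))) × Multiplicative (ZMod 3)))) ∧
    (∀ N₁ N₂ : Subgroup (alternatingGroup (Fin n)), Group.IsNilpotent N₁ → Group.IsNilpotent N₂ →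
      Nat.card N₁ = 3 * Nat.card P → Nat.card N₂ = 3 * Nat.card P →
      ∃ g : alternatingGroup (Fin n), N₂ = N₁.map (MulAut.conj g).toMonoidHom) := by
  have : Fact (Nat.Prime 2) := ⟨Nat.prime_two⟩
  have hnt : Nontrivial (Fin (n - 3)) := Fin.nontrivial_iff_two_le.mpr (by omega)
  have hP : Nat.card P * 2 = F (n - 3) := by
    rw [Sylow.card_eq_multiplicity P]
    have h2 : 2 * Nat.card (alternatingGroup (Fin (n - 3))) = (n - 3).factorial := by
      rw [two_mul_nat_card_alternatingGroup, Nat.card_perm, Nat.card_fin]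
    unfold F e2
    rw [← h2, Nat.factorization_mul (by norm_num) Nat.card_pos.ne', Finsupp.add_apply,
      Nat.prime_two.factorization_self, pow_add, pow_one, mul_comm]
  have hh : h n = 3 * Nat.card P := by
    have := h_generic (m := n) (by omega) (by omega) (by omega) (by omega) (by omega)
    unfold g at this
    rw [if_pos hn] at this
    omega
  refine ⟨?_, ?_, ?_⟩
  · intro N hN
    obtain ⟨hcard, hnil, heven⟩ := map_subtype_facts (alternatingGroup (Fin n)) N hN
    have hmain := main_alt n (Fin n) (Nat.card_fin n) _ hnil heven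
    rw [hcard, hh] at hmain
    exact hmain
  · let e : Fin (n - 3) ⊕ Fin 3 ≃ Fin n := finSumFinEquiv.trans (finCongr (by omega))
    let ι : Equiv.Perm (Fin (n - 3)) × Equiv.Perm (Fin 3) →* Equiv.Perm (Fin n) :=
      e.permCongrHom.toMonoidHom.comp (Equiv.Perm.sumCongrHom _ _)
    have hι : Function.Injective ι :=
      (e.permCongrHom.injective).comp Equiv.Perm.sumCongrHom_injective
    have hsignι : ∀ z, Equiv.Perm.sign (ι z) = Equiv.Perm.sign z.1 * Equiv.Perm.sign z.2 := by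
      intro z
      show Equiv.Perm.sign (e.permCongr (Equiv.Perm.sumCongr z.1 z.2)) = _
      rw [Equiv.Perm.sign_permCongr, Equiv.Perm.sign_sumCongr]
    have h3 : 3 ∣ Nat.card (Equiv.Perm (Fin 3)) := by
      rw [Nat.card_perm, Nat.card_fin]; decide
    have : Fact (Nat.Prime 3) := ⟨Nat.prime_three⟩
    obtain ⟨c, hc⟩ := exists_prime_orderOf_dvd_card' 3 h3
    have hC : Nat.card (Subgroup.zpowers c) = 3 := by rw [Nat.card_zpowers, hc]
    have hZ : Nat.card (Multiplicative (ZMod 3)) = 3 := by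
      rw [Nat.card_eq_fintype_card, Fintype.card_multiplicative, ZMod.card]
    set P' : Subgroup (Equiv.Perm (Fin (n - 3))) :=
      (P : Subgroup (alternatingGroup (Fin (n - 3)))).map
        (alternatingGroup (Fin (n - 3))).subtype with hP'
    let eP : ↥(P : Subgroup (alternatingGroup (Fin (n - 3)))) ≃* P' :=
      (P : Subgroup (alternatingGroup (Fin (n - 3)))).equivMapOfInjective _
        (Subgroup.subtype_injective _)
    have hM₀even : (P'.prod (Subgroup.zpowers c)).map ι ≤ alternatingGroup (Fin n) := by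
      rintro _ ⟨⟨a, b⟩, ⟨ha, hb⟩, rfl⟩
      rw [Equiv.Perm.mem_alternatingGroup, hsignι]
      have ha' : Equiv.Perm.sign a = 1 := by
        obtain ⟨a', -, rfl⟩ := ha
        exact Equiv.Perm.mem_alternatingGroup.mp a'.2
      have hb' : Equiv.Perm.sign b = 1 :=
        Equiv.Perm.mem_alternatingGroup.mp (card_three_le_alt _ hC hb)
      show Equiv.Perm.sign a * Equiv.Perm.sign b = 1
      rw [ha', hb', one_mul]
    let eM : ((P'.prod (Subgroup.zpowers c)).map ι).subgroupOf (alternatingGroup (Fin n)) ≃*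
        (↥(P : Subgroup (alternatingGroup (Fin (n - 3)))) × Multiplicative (ZMod 3)) :=
      (Subgroup.subgroupOfEquivOfLe hM₀even).trans
        (((P'.prod (Subgroup.zpowers c)).equivMapOfInjective ι hι).symm.trans
          ((Subgroup.prodEquiv _ _).trans
            (MulEquiv.prodCongr eP.symm (mulEquivOfPrimeCardEq (p := 3) hC hZ))))
    refine ⟨_, ?_, ?_, ⟨eM⟩⟩
    · have : Group.IsNilpotent (P : Subgroup (alternatingGroup (Fin (n - 3)))) :=
        P.isPGroup'.isNilpotent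
      exact Group.nilpotent_of_mulEquiv eM.symm
    · rw [Nat.card_congr eM.toEquiv, Nat.card_prod, hZ]; ring
  · intro N₁ N₂ h1 h2 hc1 hc2
    have hm : Nat.card (Fin n) % 4 = 3 := by rw [Nat.card_fin]; exact hn
    have h7' : 7 ≤ Nat.card (Fin n) := by rw [Nat.card_fin]; exact h7
    obtain ⟨hcard1, hnil1, heven1⟩ := map_subtype_facts (alternatingGroup (Fin n)) N₁ h1
    obtain ⟨hcard2, hnil2, heven2⟩ := map_subtype_facts (alternatingGroup (Fin n)) N₂ h2
    obtain ⟨γ, hγ, hconj⟩ := conj_extremal_alt hm h7' _ _ hnil1 hnil2 heven1 heven2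
      (by rw [hcard1, hc1, Nat.card_fin, hh]) (by rw [hcard2, hc2, Nat.card_fin, hh])
    refine ⟨⟨γ, hγ⟩, ?_⟩
    ext x
    constructor
    · intro hx
      have hx' : (x : Equiv.Perm (Fin n)) ∈ N₂.map (alternatingGroup (Fin n)).subtype :=
        ⟨x, hx, rfl⟩
      rw [hconj] at hx'
      obtain ⟨y, ⟨y', hy', rfl⟩, hy⟩ := hx'
      refine ⟨y', hy', ?_⟩
      apply Subtype.ext
      exact hy
    · rintro ⟨y, hy, rfl⟩
      have hmem : ((MulAut.conj (⟨γ, hγ⟩ : alternatingGroup (Fin n)) y :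
          alternatingGroup (Fin n)) : Equiv.Perm (Fin n)) ∈
          N₂.map (alternatingGroup (Fin n)).subtype := by
        rw [hconj]
        exact ⟨(y : Equiv.Perm (Fin n)), ⟨y, hy, rfl⟩, rfl⟩
      obtain ⟨z, hz, hzeq⟩ := hmem
      have hzz : z = MulAut.conj (⟨γ, hγ⟩ : alternatingGroup (Fin n)) y := Subtype.ext hzeq
      show MulAut.conj (⟨γ, hγ⟩ : alternatingGroup (Fin n)) y ∈ N₂
      rw [← hzz]; exact hz

end Cfsg.Agent.S2256
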