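import Cfsg.Statements.S2268
import Mathlib

set_option autoImplicit false
open Cfsg

namespace Cfsg.Agent.S2268

open Subgroup MulAction

/-- Fusion lemma: an element normalizing `Q ≤ P` (with `P` an abelian Sylow subgroup) is
a product of an element centralizing `Q` and an element normalizing both `Q` and `P`. -/
theorem fusion {G : Type*} [Group G] [Finite G] {p : ℕ} [Fact p.Prime]
    (P : Sylow p G) (hP : IsMulCommutative (P : Subgroup G)) (Q : Subgroup G)
    (hQ : Q ≤ (P : Subgroup G)) (g : G) (hg : g ∈ normalizer (Q : Set G)) :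
    ∃ c ∈ centralizer (Q : Set G), c * g ∈ normalizer ((P : Subgroup G) : Set G) := by
  have hPc : (P : Subgroup G) ≤ centralizer ((P : Subgroup G) : Set G) := Subgroup.le_centralizer _
  have h1 : (P : Subgroup G) ≤ centralizer (Q : Set G) :=
    hPc.trans (Subgroup.centralizer_le hQ)
  have h2 : ↑(g • P) ≤ centralizer (Q : Set G) := by
    rintro - ⟨z, hz, rfl⟩
    intro q hq
    have hq' : g⁻¹ * q * g ∈ Q := by
      have := (mem_set_normalizer_iff''.mp hg q).mp hq
      exact this
    have hc := h1 hz (g⁻¹ * q * g) hq'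
    change q * (g * z * g⁻¹) = (g * z * g⁻¹) * q
    calc q * (g * z * g⁻¹) = g * ((g⁻¹ * q * g) * z) * g⁻¹ := by group
      _ = g * (z * (g⁻¹ * q * g)) * g⁻¹ := by rw [hc]
      _ = g * z * g⁻¹ * q := by group
  obtain ⟨h, hh⟩ :=
    exists_smul_eq (centralizer (Q : Set G)) ((g • P).subtype h2) (P.subtype h1)
  simp_rw [Sylow.smul_subtype, Subgroup.smul_def, smul_smul] at hh
  exact ⟨h, h.2, Sylow.smul_eq_iff_mem_normalizer.mp (Sylow.subtype_injective hh)⟩

theorem part1 {G : Type*} [Group G] [Finite G] {p : ℕ} [Fact p.Prime]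
    (P : Sylow p G) (hP : IsMulCommutative (P : Subgroup G)) (Q : Subgroup G)
    (hQ : Q ≤ (P : Subgroup G)) :
    normalizer (Q : Set G) =
      (normalizer (Q : Set G) ⊓ normalizer ((P : Subgroup G) : Set G)) ⊔ centralizer (Q : Set G) := by
  apply le_antisymm
  · intro g hg
    obtain ⟨c, hc, hcg⟩ := fusion P hP Q hQ g hg
    have hcN : c ∈ normalizer (Q : Set G) := centralizer_le_normalizer _ hc
    have : g = c⁻¹ * (c * g) := by group
    rw [this]
    exact Subgroup.mul_mem _ (mem_sup_right (inv_mem hc))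
      (mem_sup_left ⟨Subgroup.mul_mem _ hcN hg, hcg⟩)
  · exact sup_le inf_le_left (centralizer_le_normalizer _)

/-- Let G be a finite group with an abelian Sylow p-subgroup P and let Q ≤ P. Then N_G(Q) = (N_G(Q) ∩ N_G(P))·C_G(Q), so that N_G(Q)/C_G(Q) is a homomorphic image of the subgroup (N_G(Q) ∩ N_G(P))/C_G(P) of N_G(P)/C_G(P); in particular the order of N_G(Q)/C_G(Q) divides the order of N_G(P)/C_G(P). -/
theorem result {G : Type*} [Group G] [Finite G] {p : ℕ} [Fact p.Prime]
    (P : Sylow p G) (hP : IsMulCommutative (P : Subgroup G)) (Q : Subgroup G) (hQ : Q ≤ (P : Subgroup G)) :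
    Subgroup.normalizer (Q : Set G) =
      (Subgroup.normalizer (Q : Set G) ⊓ Subgroup.normalizer ((P : Subgroup G) : Set G)) ⊔ Subgroup.centralizer (Q : Set G) ∧
    ((Subgroup.centralizer (Q : Set G)).subgroupOf (Subgroup.normalizer (Q : Set G))).index ∣ ((Subgroup.centralizer ((P : Subgroup G) : Set G)).subgroupOf (Subgroup.normalizer ((P : Subgroup G) : Set G))).index := by
  have h1 := part1 P hP Q hQ
  refine ⟨h1, ?_⟩
  set N := normalizer (Q : Set G) with hN
  set C := centralizer (Q : Set G) with hC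
  set NP := normalizer ((P : Subgroup G) : Set G) with hNP
  set CP := centralizer ((P : Subgroup G) : Set G) with hCP
  set A := N ⊓ NP with hA
  have hCN : C ≤ N := centralizer_le_normalizer _
  have hAN : A ≤ N := inf_le_left
  have hCPC : CP ≤ C := Subgroup.centralizer_le hQ
  have hCPNP : CP ≤ NP := centralizer_le_normalizer _
  have hCPA : CP ≤ C ⊓ A := le_inf hCPC (le_inf (hCPC.trans hCN) hCPNP)
  -- left side
  have hL : (C.subgroupOf N).index = (C ⊓ A).relIndex A := by
    have hnorm : (C.subgroupOf N).Normal := normal_subgroupOf_centralizer_normalizer _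
    have htop : A.subgroupOf N ⊔ C.subgroupOf N = ⊤ := by
      rw [← subgroupOf_sup hAN hCN, ← h1, subgroupOf_self]
    have := relIndex_sup_right (A.subgroupOf N) (C.subgroupOf N)
    rw [htop, relIndex_top_right, relIndex_subgroupOf hAN] at this
    rw [this, inf_relIndex_right]
  have hR : (CP.subgroupOf NP).index = CP.relIndex NP := rfl
  rw [hL, hR]
  have e1 := relIndex_mul_relIndex CP A NP (hCPA.trans inf_le_right) inf_le_right
  have e2 := relIndex_mul_relIndex CP (C ⊓ A) A hCPA inf_le_right
  rw [← e1, ← e2]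
  exact Dvd.intro_left _ rfl |>.mul_right _

end Cfsg.Agent.S2268
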