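import Cfsg.Statements.S2269
import Mathlib

set_option autoImplicit false
open Cfsg

namespace Cfsg.Agent.S2269

open Subgroup MulAction Equiv

/-- Fusion lemma: an element normalizing `Q ≤ P` (with `P` an abelian Sylow subgroup) is
a product of an element centralizing `Q` and an element normalizing both `Q` and `P`. -/
theorem fusion {G : Type*} [Group G] [Finite G] {p : ℕ} [Fact p.Prime]
    (P : Sylow p G) (hP : IsMulCommutative (P : Subgroup G)) (Q : Subgroup G)
    (hQ : Q ≤ (P : Subgroup G)) (g : G) (hg : g ∈ normalizer (Q : Set G)) :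
    ∃ c ∈ centralizer (Q : Set G), c * g ∈ normalizer ((P : Subgroup G) : Set G) := by
  have hPc : (P : Subgroup G) ≤ centralizer ((P : Subgroup G) : Set G) := Subgroup.le_centralizer _
  have h1 : (P : Subgroup G) ≤ centralizer (Q : Set G) :=
    hPc.trans (Subgroup.centralizer_le hQ)
  have h2 : ↑(g • P) ≤ centralizer (Q : Set G) := by
    rintro - ⟨z, hz, rfl⟩
    intro q hq
    have hq' : g⁻¹ * q * g ∈ Q := by
      have := (mem_set_normalizer_iff''.mp hg q).mp hq
      exact this
    have hc := h1 hz (g⁻¹ * q * g) hq'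
    change q * (g * z * g⁻¹) = (g * z * g⁻¹) * q
    calc q * (g * z * g⁻¹) = g * ((g⁻¹ * q * g) * z) * g⁻¹ := by group
      _ = g * (z * (g⁻¹ * q * g)) * g⁻¹ := by rw [hc]
      _ = g * z * g⁻¹ * q := by group
  obtain ⟨h, hh⟩ :=
    exists_smul_eq (centralizer (Q : Set G)) ((g • P).subtype h2) (P.subtype h1)
  simp_rw [Sylow.smul_subtype, Subgroup.smul_def, smul_smul] at hh
  exact ⟨h, h.2, Sylow.smul_eq_iff_mem_normalizer.mp (Sylow.subtype_injective hh)⟩

/-- If some element of `N(P)` inverts an element `x ≠ x⁻¹` of `P`, then `N(P)/C(P)` has even order. -/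
theorem even_index_of_inverting {G : Type*} [Group G] [Finite G] (P : Subgroup G)
    (x m : G) (hx : x ∈ P) (hm : m ∈ normalizer (P : Set G)) (hinv : m * x * m⁻¹ = x⁻¹)
    (hne : x⁻¹ ≠ x) :
    2 ∣ ((centralizer (P : Set G)).subgroupOf (normalizer (P : Set G))).index := by
  set N := normalizer (P : Set G) with hN
  set C := (centralizer (P : Set G)).subgroupOf N with hC
  have hnorm : C.Normal := normal_subgroupOf_centralizer_normalizer _
  rw [Subgroup.index_eq_card]
  set mbar : N ⧸ C := QuotientGroup.mk ⟨m, hm⟩ with hmbar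
  have hdvd : orderOf mbar ∣ Nat.card (N ⧸ C) := orderOf_dvd_natCard mbar
  refine dvd_trans ?_ hdvd
  have hpow : ∀ j : ℕ, m ^ j * x * (m ^ j)⁻¹ = if Even j then x else x⁻¹ := by
    intro j
    induction j with
    | zero => simp
    | succ j ih =>
      have : m ^ (j + 1) * x * (m ^ (j + 1))⁻¹ = m * (m ^ j * x * (m ^ j)⁻¹) * m⁻¹ := by
        rw [pow_succ']; group
      rw [this, ih]
      by_cases hj : Even j
      · have hj' : ¬ Even (j + 1) := by
          rw [Nat.even_add_one]; exact not_not.mpr hj
        rw [if_pos hj, if_neg hj', hinv]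
      · have hj' : Even (j + 1) := by
          rw [Nat.even_add_one]; exact hj
        rw [if_neg hj, if_pos hj']
        have : m * x⁻¹ * m⁻¹ = (m * x * m⁻¹)⁻¹ := by group
        rw [this, hinv, inv_inv]
  by_contra hodd
  have hk : ¬ Even (orderOf mbar) := fun h => hodd (even_iff_two_dvd.mp h)
  have h1 : mbar ^ orderOf mbar = 1 := pow_orderOf_eq_one mbar
  have h2 : (⟨m, hm⟩ : N) ^ orderOf mbar ∈ C := by
    rw [hmbar, ← QuotientGroup.mk_pow] at h1
    exact (QuotientGroup.eq_one_iff _).mp h1
  have h3 : m ^ orderOf mbar ∈ centralizer (P : Set G) := by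
    have h2' : (⟨m, hm⟩ : N) ^ orderOf mbar ∈ (centralizer (P : Set G)).subgroupOf N := h2
    rw [mem_subgroupOf] at h2'
    simpa using h2'
  have h4 := h3 x hx
  have h5 := hpow (orderOf mbar)
  rw [if_neg hk] at h5
  apply hne
  rw [← h5, ← h4]
  group

/-- If an element `x ≠ x⁻¹` of an abelian Sylow subgroup `P` is conjugate to its inverse,
then `N(P)/C(P)` has even order. -/
theorem even_index_of_real {G : Type*} [Group G] [Finite G] {p : ℕ} [Fact p.Prime]
    (P : Sylow p G) (hP : IsMulCommutative (P : Subgroup G)) (x t : G)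
    (hxP : x ∈ (P : Subgroup G)) (hne : x⁻¹ ≠ x) (ht : t * x * t⁻¹ = x⁻¹) :
    2 ∣ ((centralizer ((P : Subgroup G) : Set G)).subgroupOf
      (normalizer ((P : Subgroup G) : Set G))).index := by
  have hQ : zpowers x ≤ (P : Subgroup G) := by
    rw [zpowers_le]; exact hxP
  have htN : t ∈ normalizer ((zpowers x : Subgroup G) : Set G) := by
    rw [mem_set_normalizer_iff]
    intro h
    have key : ∀ k : ℤ, t * x ^ k * t⁻¹ = (x ^ k)⁻¹ := by
      intro k
      have : t * x ^ k * t⁻¹ = (t * x * t⁻¹) ^ k := by
        rw [conj_zpow]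
      rw [this, ht, inv_zpow]
    constructor
    · rintro ⟨k, rfl⟩
      change t * x ^ k * t⁻¹ ∈ zpowers x
      rw [key k]
      exact inv_mem (zpow_mem (mem_zpowers x) k)
    · intro hh
      change t * h * t⁻¹ ∈ zpowers x at hh
      obtain ⟨k, hk⟩ := hh
      have : h = t⁻¹ * x ^ k * t := by
        have hk' : x ^ k = t * h * t⁻¹ := hk
        rw [hk']; group
      have h2 : t⁻¹ * x ^ k * t = (x ^ k)⁻¹ := by
        have := key k
        have h3 : x ^ k = t⁻¹ * (x ^ k)⁻¹ * t := by rw [← this]; group
        have h4 : (x ^ k)⁻¹ = (t⁻¹ * (x ^ k)⁻¹ * t)⁻¹ := by rw [← h3]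
        rw [h4]; group
      change h ∈ zpowers x
      rw [this, h2]
      exact inv_mem (zpow_mem (mem_zpowers x) k)
  obtain ⟨c, hc, hcm⟩ := fusion P hP (zpowers x) hQ t htN
  have hcx : c * x⁻¹ * c⁻¹ = x⁻¹ := by
    have := hc x⁻¹ (inv_mem (mem_zpowers x))
    rw [← this]; group
  have hinv : (c * t) * x * (c * t)⁻¹ = x⁻¹ := by
    have : (c * t) * x * (c * t)⁻¹ = c * (t * x * t⁻¹) * c⁻¹ := by group
    rw [this, ht, hcx]
  exact even_index_of_inverting (P : Subgroup G) x (c * t) hxP hcm hinv hne

theorem not_sq_dvd_factorial {p n : ℕ} (hp : p.Prime) (h1 : p ≤ n) (h2 : n ≤ p + 1) :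
    ¬ p ^ 2 ∣ n.factorial := by
  intro h
  obtain ⟨m, rfl⟩ : ∃ m, p = m + 1 := ⟨p - 1, by have := hp.pos; omega⟩
  have hm : ¬ (m + 1) ∣ m.factorial := fun h' => by
    have := (hp.dvd_factorial).mp h'; omega
  rcases Nat.eq_or_lt_of_le h1 with rfl | hlt
  · rw [Nat.factorial_succ, pow_two] at h
    exact hm (Nat.dvd_of_mul_dvd_mul_left hp.pos h)
  · have hn : n = m + 2 := by omega
    subst hn
    rw [Nat.factorial_succ, Nat.factorial_succ, pow_two] at h
    have h' : (m + 1) * (m + 1) ∣ (m + 1) * ((m + 1 + 1) * m.factorial) := by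
      convert h using 1; ring
    have h'' := Nat.dvd_of_mul_dvd_mul_left hp.pos h'
    rcases (hp.dvd_mul).mp h'' with h3 | h3
    · have h4 : (m + 1) ∣ 1 := (Nat.dvd_add_right (dvd_refl (m + 1))).mp h3
      have := hp.one_lt
      have := Nat.le_of_dvd one_pos h4
      omega
    · exact hm h3

theorem odd_case (n : ℕ) {p : ℕ} [Fact p.Prime] (hp : p ≠ 2)
    (P : Sylow p (alternatingGroup (Fin n)))
    (hP : IsMulCommutative (P : Subgroup (alternatingGroup (Fin n)))) :
    2 ∣ ((centralizer ((P : Subgroup (alternatingGroup (Fin n))) : Set (alternatingGroup (Fin n)))).subgroupOf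
      (normalizer ((P : Subgroup (alternatingGroup (Fin n))) : Set (alternatingGroup (Fin n))))).index ∨
    IsCyclic (P : Subgroup (alternatingGroup (Fin n))) := by
  have hpp : p.Prime := Fact.out
  by_cases hcyc : IsCyclic (P : Subgroup (alternatingGroup (Fin n)))
  · exact Or.inr hcyc
  left
  obtain ⟨k, hk⟩ := P.2.exists_card_eq
  have hk0 : k ≠ 0 := by
    rintro rfl
    rw [pow_zero] at hk
    have : Subsingleton (P : Subgroup (alternatingGroup (Fin n))) :=
      (Nat.card_eq_one_iff_unique.mp hk).1
    exact hcyc isCyclic_of_subsingleton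
  have hcardP : p ∣ Nat.card (P : Subgroup (alternatingGroup (Fin n))) := by
    rw [hk]; exact dvd_pow_self p hk0
  obtain ⟨y, hy⟩ := exists_prime_orderOf_dvd_card' (G := (P : Subgroup (alternatingGroup (Fin n)))) p hcardP
  set x' : alternatingGroup (Fin n) := (y : alternatingGroup (Fin n)) with hx'def
  set x : Perm (Fin n) := (x' : Perm (Fin n)) with hxdef
  have hx'P : x' ∈ (P : Subgroup (alternatingGroup (Fin n))) := y.2
  have hx'ord : orderOf x' = p := by
    rw [hx'def, Subgroup.orderOf_coe, hy]
  have hxord : orderOf x = p := by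
    rw [hxdef, Subgroup.orderOf_coe, hx'ord]
  have hne : x'⁻¹ ≠ x' := by
    intro h
    have h2 : x' ^ 2 = 1 := by
      rw [pow_two]
      nth_rw 1 [← h]
      exact inv_mul_cancel x'
    have h3 : orderOf x' ∣ 2 := orderOf_dvd_of_pow_eq_one h2
    rw [hx'ord] at h3
    exact hp ((Nat.prime_dvd_prime_iff_eq hpp Nat.prime_two).mp h3)
  by_cases hcent : centralizer {x} ≤ alternatingGroup (Fin n)
  · -- then P has order p, hence is cyclic
    exfalso
    apply hcyc
    obtain ⟨-, hfix, hcount⟩ := Equiv.Perm.centralizer_le_alternating_iff.mp hcent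
    obtain ⟨j, hj⟩ := Equiv.Perm.cycleType_prime_order (σ := x) (by rw [hxord]; exact hpp)
    rw [hxord] at hj
    have hj0 : j = 0 := by
      have := hcount p
      rw [hj, Multiset.count_replicate_self] at this
      omega
    subst hj0
    have hsum : x.cycleType.sum = p := by
      rw [hj]; simp
    rw [hsum, Fintype.card_fin] at hfix
    have hpn : p ≤ n := by
      have := Equiv.Perm.sum_cycleType_le x
      rw [hsum, Fintype.card_fin] at this
      exact this
    have hdvd : p ^ k ∣ n.factorial := by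
      rw [← hk]
      have h1 : Nat.card (P : Subgroup (alternatingGroup (Fin n))) ∣ Nat.card (alternatingGroup (Fin n)) :=
        Subgroup.card_subgroup_dvd_card _
      have h2 : Nat.card (alternatingGroup (Fin n)) ∣ Nat.card (Perm (Fin n)) :=
        Subgroup.card_subgroup_dvd_card _
      have h3 : Nat.card (Perm (Fin n)) = n.factorial := by
        rw [Nat.card_eq_fintype_card, Fintype.card_perm, Fintype.card_fin]
      rw [← h3]
      exact h1.trans h2
    have hk1 : k = 1 := by
      by_contra hk1
      have hk2 : 2 ≤ k := by omega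
      exact not_sq_dvd_factorial hpp hpn hfix ((pow_dvd_pow p hk2).trans hdvd)
    rw [hk1, pow_one] at hk
    exact isCyclic_of_prime_card hk
  · -- an odd permutation centralizes x, so x is conjugate to its inverse in the alternating group
    obtain ⟨s, hs, hsA⟩ := SetLike.not_le_iff_exists.mp hcent
    have hsx : s * x * s⁻¹ = x := by
      have := mem_centralizer_singleton_iff.mp hs
      rw [this]; group
    have hsign : Perm.sign s = -1 := by
      rcases Int.units_eq_one_or (Perm.sign s) with h | h
      · exact absurd (Perm.mem_alternatingGroup.mpr h) hsA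
      · exact h
    have hconj : IsConj x x⁻¹ := by
      rw [Equiv.Perm.isConj_iff_cycleType_eq, Equiv.Perm.cycleType_inv]
    obtain ⟨t, ht⟩ := isConj_iff.mp hconj
    obtain ⟨t', ht'A, ht'⟩ : ∃ t' : Perm (Fin n), t' ∈ alternatingGroup (Fin n) ∧ t' * x * t'⁻¹ = x⁻¹ := by
      rcases Int.units_eq_one_or (Perm.sign t) with h | h
      · exact ⟨t, Perm.mem_alternatingGroup.mpr h, ht⟩
      · refine ⟨t * s, ?_, ?_⟩
        · rw [Perm.mem_alternatingGroup, map_mul, h, hsign]; simp
        · have : t * s * x * (t * s)⁻¹ = t * (s * x * s⁻¹) * t⁻¹ := by group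
          rw [this, hsx, ht]
    have hT : (⟨t', ht'A⟩ : alternatingGroup (Fin n)) * x' * (⟨t', ht'A⟩ : alternatingGroup (Fin n))⁻¹ = x'⁻¹ := by
      apply Subtype.ext
      exact ht'
    exact even_index_of_real P hP x' ⟨t', ht'A⟩ hx'P hne hT


/-! ### The prime 2, degree at least 6: Sylow 2-subgroups are not abelian -/

/-- An element of order 4 in the alternating group of degree 6. -/
def c6 : Perm (Fin 6) := swap 0 1 * swap 1 2 * swap 2 3 * swap 4 5

/-- An involution inverting `c6`. -/
def s6 : Perm (Fin 6) := swap 0 2 * swap 4 5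

/-- A dihedral group of order 8 inside the alternating group of degree 6. -/
def d8fun : DihedralGroup 4 → Perm (Fin 6)
  | .r i => c6 ^ i.val
  | .sr i => s6 * c6 ^ i.val

theorem d8fun_mul : ∀ a b : DihedralGroup 4, d8fun (a * b) = d8fun a * d8fun b := by decide

theorem d8fun_sign : ∀ a : DihedralGroup 4, Perm.sign (d8fun a) = 1 := by decide

theorem d8fun_nc : d8fun (.r 1) * d8fun (.sr 0) ≠ d8fun (.sr 0) * d8fun (.r 1) := by decide

/-- `d8fun` as a homomorphism. -/
def d8hom : DihedralGroup 4 →* Perm (Fin 6) := MonoidHom.mk' d8fun d8fun_mul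

theorem two_case_false (n : ℕ) (hn : 6 ≤ n) (P : Sylow 2 (alternatingGroup (Fin n)))
    (hP : IsMulCommutative (P : Subgroup (alternatingGroup (Fin n)))) : False := by
  classical
  let ι : Fin 6 ↪ Fin n := Fin.castLEEmb hn
  let F : DihedralGroup 4 →* Perm (Fin n) := (Perm.viaEmbeddingHom ι).comp d8hom
  have hFA : ∀ a, F a ∈ alternatingGroup (Fin n) := by
    intro a
    rw [Perm.mem_alternatingGroup]
    change Perm.sign (Perm.viaEmbedding (d8hom a) ι) = 1
    rw [Perm.viaEmbedding, Perm.sign_extendDomain]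
    exact d8fun_sign a
  let F' : DihedralGroup 4 →* alternatingGroup (Fin n) := F.codRestrict _ hFA
  have hR : IsPGroup 2 F'.range := by
    have h8 : IsPGroup 2 (DihedralGroup 4) :=
      IsPGroup.of_card (n := 3) (by rw [DihedralGroup.nat_card]; norm_num)
    exact h8.of_surjective F'.rangeRestrict F'.rangeRestrict_surjective
  obtain ⟨Q, hQ⟩ := hR.exists_le_sylow
  obtain ⟨g, hg⟩ := MulAction.exists_smul_eq (alternatingGroup (Fin n)) Q P
  have hmem : ∀ a : DihedralGroup 4, g * F' a * g⁻¹ ∈ (P : Subgroup (alternatingGroup (Fin n))) := by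
    intro a
    have ha : F' a ∈ (Q : Subgroup (alternatingGroup (Fin n))) := hQ ⟨a, rfl⟩
    rw [← hg, Sylow.coe_subgroup_smul]
    exact Subgroup.smul_mem_pointwise_smul (F' a) (MulAut.conj g) _ ha
  have hcomm := setLike_mul_comm (s := (P : Subgroup (alternatingGroup (Fin n)))) (hmem (.r 1)) (hmem (.sr 0))
  have hcomm' : F' (.r 1) * F' (.sr 0) = F' (.sr 0) * F' (.r 1) := by
    have h1 : g * F' (.r 1) * g⁻¹ * (g * F' (.sr 0) * g⁻¹) = g * (F' (.r 1) * F' (.sr 0)) * g⁻¹ := by group
    have h2 : g * F' (.sr 0) * g⁻¹ * (g * F' (.r 1) * g⁻¹) = g * (F' (.sr 0) * F' (.r 1)) * g⁻¹ := by group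
    rw [h1, h2] at hcomm
    exact mul_left_cancel (mul_right_cancel hcomm)
  have hcomm'' : F (.r 1 * .sr 0) = F (.sr 0 * .r 1) := by
    have := congrArg Subtype.val hcomm'
    rw [map_mul, map_mul]
    exact this
  have hinj := Perm.viaEmbeddingHom_injective ι hcomm''
  apply d8fun_nc
  have h3 : d8hom (.r 1 * .sr 0) = d8hom (.sr 0 * .r 1) := hinj
  rw [map_mul, map_mul] at h3
  exact h3

/-! ### The prime 2, degree 5 -/

theorem a5_no4 : ∀ σ : Perm (Fin 5), Perm.sign σ = 1 → σ ^ 4 = 1 → σ ^ 2 = 1 := by decide +kernel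

theorem a5_case (P : Sylow 2 (alternatingGroup (Fin 5))) :
    ((centralizer ((P : Subgroup (alternatingGroup (Fin 5))) : Set (alternatingGroup (Fin 5)))).subgroupOf
      (normalizer ((P : Subgroup (alternatingGroup (Fin 5))) : Set (alternatingGroup (Fin 5))))).index = 3 ∧
    IsKleinFour (P : Subgroup (alternatingGroup (Fin 5))) := by
  have hcardG : Nat.card (alternatingGroup (Fin 5)) = 60 := by
    rw [nat_card_alternatingGroup]
    simp [Nat.factorial]
  -- the order of P
  have hcardP : Nat.card (P : Subgroup (alternatingGroup (Fin 5))) = 4 := by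
    obtain ⟨k, hk⟩ := P.2.exists_card_eq
    have h1 : Nat.card (P : Subgroup (alternatingGroup (Fin 5))) * (P : Subgroup (alternatingGroup (Fin 5))).index = 60 := by
      rw [Subgroup.card_mul_index, hcardG]
    have h2 : ¬ 2 ∣ (P : Subgroup (alternatingGroup (Fin 5))).index := P.not_dvd_index
    rw [hk] at h1 ⊢
    have hk3 : k < 6 := by
      by_contra hk6
      have : 2 ^ 6 ≤ 2 ^ k := Nat.pow_le_pow_right (by norm_num) (by omega)
      have hpos : 0 < (P : Subgroup (alternatingGroup (Fin 5))).index := by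
        rcases Nat.eq_zero_or_pos (P : Subgroup (alternatingGroup (Fin 5))).index with h0 | h0
        · rw [h0] at h1; omega
        · exact h0
      nlinarith
    interval_cases k <;> omega
  have hnt : Nontrivial (P : Subgroup (alternatingGroup (Fin 5))) := by
    rw [← Finite.one_lt_card_iff_nontrivial, hcardP]; norm_num
  have hklein : IsKleinFour (P : Subgroup (alternatingGroup (Fin 5))) := by
    refine ⟨hcardP, ?_⟩
    rw [Monoid.exponent_eq_prime_iff Nat.prime_two]
    intro g hg
    have h4 : g ^ 4 = 1 := by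
      have := pow_card_eq_one' (G := (P : Subgroup (alternatingGroup (Fin 5)))) (x := g)
      rwa [hcardP] at this
    have h4' : ((g : alternatingGroup (Fin 5)) : Perm (Fin 5)) ^ 4 = 1 := by
      have := congrArg (fun z : (P : Subgroup (alternatingGroup (Fin 5))) => ((z : alternatingGroup (Fin 5)) : Perm (Fin 5))) h4
      simpa using this
    have h2' := a5_no4 _ (Perm.mem_alternatingGroup.mp (g : alternatingGroup (Fin 5)).2) h4'
    have h2 : g ^ 2 = 1 := by
      apply Subtype.ext
      apply Subtype.ext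
      simpa using h2'
    have hdvd : orderOf g ∣ 2 := orderOf_dvd_of_pow_eq_one h2
    rcases (Nat.dvd_prime Nat.prime_two).mp hdvd with h | h
    · exact absurd (orderOf_eq_one_iff.mp h) hg
    · exact h
  refine ⟨?_, hklein⟩
  set N := normalizer ((P : Subgroup (alternatingGroup (Fin 5))) : Set (alternatingGroup (Fin 5))) with hN
  set C := centralizer ((P : Subgroup (alternatingGroup (Fin 5))) : Set (alternatingGroup (Fin 5))) with hC
  have hCN : C ≤ N := centralizer_le_normalizer _
  have hPC : (P : Subgroup (alternatingGroup (Fin 5))) ≤ C := by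
    intro x hx y hy
    have hcomm : ∀ a b : (P : Subgroup (alternatingGroup (Fin 5))), a * b = b * a :=
      mul_comm_of_exponent_two hklein.exponent_two
    have := hcomm ⟨y, hy⟩ ⟨x, hx⟩
    exact congrArg Subtype.val this
  -- the index divides 24
  have h24 : (C.subgroupOf N).index ∣ 24 := by
    have key := Subgroup.card_dvd_of_injective _
      (QuotientGroup.kerLift_injective (P : Subgroup (alternatingGroup (Fin 5))).normalizerMonoidHom)
    rw [normalizerMonoidHom_ker, ← Subgroup.index_eq_card] at key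
    have h2 : Nat.card (MulAut (P : Subgroup (alternatingGroup (Fin 5)))) ∣
        Nat.card (Perm (P : Subgroup (alternatingGroup (Fin 5)))) :=
      Subgroup.card_dvd_of_injective (MulAut.toPerm _) (fun a b h => MulEquiv.toEquiv_injective h)
    have h3 : Nat.card (Perm (P : Subgroup (alternatingGroup (Fin 5)))) = 24 := by
      rw [Nat.card_perm, hcardP]; rfl
    rw [h3] at h2
    exact key.trans h2
  -- the index divides 15
  have h15 : (C.subgroupOf N).index ∣ 15 := by
    have h1 : (C.subgroupOf N).index * Nat.card (C.subgroupOf N) = Nat.card N :=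
      Subgroup.index_mul_card _
    have h2 : Nat.card (C.subgroupOf N) = Nat.card C :=
      Nat.card_congr (Subgroup.subgroupOfEquivOfLe hCN).toEquiv
    have h3 : Nat.card (P : Subgroup (alternatingGroup (Fin 5))) ∣ Nat.card C := Subgroup.card_dvd_of_le hPC
    have h4 : Nat.card N ∣ 60 := hcardG ▸ Subgroup.card_subgroup_dvd_card N
    rw [hcardP] at h3
    obtain ⟨e, he⟩ := h3
    rw [h2, he] at h1
    have h5 : 4 * (C.subgroupOf N).index ∣ 4 * 15 := by
      have : 4 * (C.subgroupOf N).index ∣ Nat.card N := by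
        rw [← h1]; exact ⟨e, by ring⟩
      exact this.trans h4
    exact Nat.dvd_of_mul_dvd_mul_left (by norm_num) h5
  have h3 : (C.subgroupOf N).index ∣ 3 := by
    have := Nat.dvd_gcd h24 h15
    simpa using this
  rcases (Nat.dvd_prime Nat.prime_three).mp h3 with h1 | h1
  · -- index 1 is impossible by Burnside's transfer theorem
    exfalso
    have hle : N ≤ C := Subgroup.relIndex_eq_one.mp h1
    have hcomp := MonoidHom.ker_transferSylow_isComplement' P hle
    have hmul := hcomp.card_mul_card
    rw [hcardP, hcardG] at hmul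
    have hsimple : IsSimpleGroup (alternatingGroup (Fin 5)) := alternatingGroup.isSimpleGroup (by simp)
    rcases (MonoidHom.normal_ker (MonoidHom.transferSylow P hle)).eq_bot_or_eq_top with hb | ht
    · rw [hb, Subgroup.card_bot] at hmul; omega
    · rw [ht, Subgroup.card_top, hcardG] at hmul; omega
  · exact h1

/-- Let n ≥ 5 and let P be an abelian Sylow p-subgroup of the alternating group A_n. Then N(P)/C(P) (taken in A_n) has even order, or P is cyclic, except when n = 5 and p = 2, where P is a four-group and N(P)/C(P) has order 3. -/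
theorem result (n : ℕ) (hn : 5 ≤ n) {p : ℕ} [Fact p.Prime]
    (P : Sylow p (alternatingGroup (Fin n))) (hP : IsMulCommutative (P : Subgroup (alternatingGroup (Fin n)))) :
    (¬ (n = 5 ∧ p = 2) → 2 ∣ ((Subgroup.centralizer ((P : Subgroup (alternatingGroup (Fin n))) : Set (alternatingGroup (Fin n)))).subgroupOf (Subgroup.normalizer ((P : Subgroup (alternatingGroup (Fin n))) : Set (alternatingGroup (Fin n))))).index ∨ IsCyclic (P : Subgroup (alternatingGroup (Fin n)))) ∧
    ((n = 5 ∧ p = 2) → ((Subgroup.centralizer ((P : Subgroup (alternatingGroup (Fin n))) : Set (alternatingGroup (Fin n)))).subgroupOf (Subgroup.normalizer ((P : Subgroup (alternatingGroup (Fin n))) : Set (alternatingGroup (Fin n))))).index = 3 ∧ IsKleinFour (P : Subgroup (alternatingGroup (Fin n)))) := by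
  constructor
  · intro h
    by_cases hp : p = 2
    · subst hp
      have hn6 : 6 ≤ n := by
        rcases Nat.eq_or_lt_of_le hn with h5 | h5
        · exact absurd ⟨h5.symm, rfl⟩ h
        · exact h5
      exact (two_case_false n hn6 P hP).elim
    · exact odd_case n hp P hP
  · rintro ⟨rfl, rfl⟩
    exact a5_case P

end Cfsg.Agent.S2269
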