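import Cfsg.Statements.S2270
import Mathlib

set_option autoImplicit false
open Cfsg

namespace Cfsg.Agent.S2270

open Subgroup MulAction

/-- Fusion lemma: an element normalizing `Q ≤ P` (with `P` an abelian Sylow subgroup) is
a product of an element centralizing `Q` and an element normalizing both `Q` and `P`. -/
theorem fusion {G : Type*} [Group G] [Finite G] {p : ℕ} [Fact p.Prime]
    (P : Sylow p G) (hP : IsMulCommutative (P : Subgroup G)) (Q : Subgroup G)
    (hQ : Q ≤ (P : Subgroup G)) (g : G) (hg : g ∈ normalizer (Q : Set G)) :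
    ∃ c ∈ centralizer (Q : Set G), c * g ∈ normalizer ((P : Subgroup G) : Set G) := by
  have hPc : (P : Subgroup G) ≤ centralizer ((P : Subgroup G) : Set G) := Subgroup.le_centralizer _
  have h1 : (P : Subgroup G) ≤ centralizer (Q : Set G) :=
    hPc.trans (Subgroup.centralizer_le hQ)
  have h2 : ↑(g • P) ≤ centralizer (Q : Set G) := by
    rintro - ⟨z, hz, rfl⟩
    intro q hq
    have hq' : g⁻¹ * q * g ∈ Q := by
      have := (mem_set_normalizer_iff''.mp hg q).mp hq
      exact this
    have hc := h1 hz (g⁻¹ * q * g) hq'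
    change q * (g * z * g⁻¹) = (g * z * g⁻¹) * q
    calc q * (g * z * g⁻¹) = g * ((g⁻¹ * q * g) * z) * g⁻¹ := by group
      _ = g * (z * (g⁻¹ * q * g)) * g⁻¹ := by rw [hc]
      _ = g * z * g⁻¹ * q := by group
  obtain ⟨h, hh⟩ :=
    exists_smul_eq (centralizer (Q : Set G)) ((g • P).subtype h2) (P.subtype h1)
  simp_rw [Sylow.smul_subtype, Subgroup.smul_def, smul_smul] at hh
  exact ⟨h, h.2, Sylow.smul_eq_iff_mem_normalizer.mp (Sylow.subtype_injective hh)⟩

/-- If some element of `N(P)` inverts an element `x ≠ x⁻¹` of `P`, then `N(P)/C(P)` has even order. -/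
theorem even_index_of_inverting {G : Type*} [Group G] [Finite G] (P : Subgroup G)
    (x m : G) (hx : x ∈ P) (hm : m ∈ normalizer (P : Set G)) (hinv : m * x * m⁻¹ = x⁻¹)
    (hne : x⁻¹ ≠ x) :
    2 ∣ ((centralizer (P : Set G)).subgroupOf (normalizer (P : Set G))).index := by
  set N := normalizer (P : Set G) with hN
  set C := (centralizer (P : Set G)).subgroupOf N with hC
  have hnorm : C.Normal := normal_subgroupOf_centralizer_normalizer _
  rw [Subgroup.index_eq_card]
  set mbar : N ⧸ C := QuotientGroup.mk ⟨m, hm⟩ with hmbar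
  have hdvd : orderOf mbar ∣ Nat.card (N ⧸ C) := orderOf_dvd_natCard mbar
  refine dvd_trans ?_ hdvd
  -- conjugation by powers of m
  have hpow : ∀ j : ℕ, m ^ j * x * (m ^ j)⁻¹ = if Even j then x else x⁻¹ := by
    intro j
    induction j with
    | zero => simp
    | succ j ih =>
      have : m ^ (j + 1) * x * (m ^ (j + 1))⁻¹ = m * (m ^ j * x * (m ^ j)⁻¹) * m⁻¹ := by
        rw [pow_succ']; group
      rw [this, ih]
      by_cases hj : Even j
      · have hj' : ¬ Even (j + 1) := by
          rw [Nat.even_add_one]; exact not_not.mpr hj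
        rw [if_pos hj, if_neg hj', hinv]
      · have hj' : Even (j + 1) := by
          rw [Nat.even_add_one]; exact hj
        rw [if_neg hj, if_pos hj']
        have : m * x⁻¹ * m⁻¹ = (m * x * m⁻¹)⁻¹ := by group
        rw [this, hinv, inv_inv]
  by_contra hodd
  have hk : ¬ Even (orderOf mbar) := fun h => hodd (even_iff_two_dvd.mp h)
  have h1 : mbar ^ orderOf mbar = 1 := pow_orderOf_eq_one mbar
  have h2 : (⟨m, hm⟩ : N) ^ orderOf mbar ∈ C := by
    rw [hmbar, ← QuotientGroup.mk_pow] at h1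
    exact (QuotientGroup.eq_one_iff _).mp h1
  have h3 : m ^ orderOf mbar ∈ centralizer (P : Set G) := by
    have h2' : (⟨m, hm⟩ : N) ^ orderOf mbar ∈ (centralizer (P : Set G)).subgroupOf N := h2
    rw [mem_subgroupOf] at h2'
    simpa using h2'
  have h4 := h3 x hx
  have h5 := hpow (orderOf mbar)
  rw [if_neg hk] at h5
  apply hne
  rw [← h5, ← h4]
  group

/-- Let n ≥ 3, p an odd prime, and P an abelian Sylow p-subgroup of the symmetric group S_n (with p dividing n!, so that P ≠ 1). Then N(P)/C(P) has even order. -/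
theorem result (n : ℕ) (hn : 3 ≤ n) {p : ℕ} [Fact p.Prime] (hp : p ≠ 2) (hpn : p ≤ n)
    (P : Sylow p (Equiv.Perm (Fin n))) (hP : IsMulCommutative (P : Subgroup (Equiv.Perm (Fin n)))) :
    2 ∣ ((Subgroup.centralizer ((P : Subgroup (Equiv.Perm (Fin n))) : Set (Equiv.Perm (Fin n)))).subgroupOf (Subgroup.normalizer ((P : Subgroup (Equiv.Perm (Fin n))) : Set (Equiv.Perm (Fin n))))).index := by
  have hpp : p.Prime := Fact.out
  -- an element of order p in P
  have hcard : p ∣ Nat.card (Equiv.Perm (Fin n)) := by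
    rw [Nat.card_eq_fintype_card, Fintype.card_perm, Fintype.card_fin]
    exact Nat.dvd_factorial hpp.pos hpn
  have hcardP : p ∣ Nat.card (P : Subgroup (Equiv.Perm (Fin n))) := P.dvd_card_of_dvd_card hcard
  obtain ⟨y, hy⟩ := exists_prime_orderOf_dvd_card' (G := (P : Subgroup (Equiv.Perm (Fin n)))) p hcardP
  set x : Equiv.Perm (Fin n) := (y : Equiv.Perm (Fin n)) with hxdef
  have hxP : x ∈ (P : Subgroup (Equiv.Perm (Fin n))) := y.2
  have hxord : orderOf x = p := by
    rw [hxdef, Subgroup.orderOf_coe, hy]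
  -- x is conjugate to its inverse
  have hconj : IsConj x x⁻¹ := by
    rw [Equiv.Perm.isConj_iff_cycleType_eq, Equiv.Perm.cycleType_inv]
  obtain ⟨t, ht⟩ := isConj_iff.mp hconj
  -- t normalizes zpowers x
  have hQ : zpowers x ≤ (P : Subgroup (Equiv.Perm (Fin n))) := by
    rw [zpowers_le]; exact hxP
  have htN : t ∈ normalizer ((zpowers x : Subgroup (Equiv.Perm (Fin n))) : Set (Equiv.Perm (Fin n))) := by
    rw [mem_set_normalizer_iff]
    intro h
    have key : ∀ k : ℤ, t * x ^ k * t⁻¹ = (x ^ k)⁻¹ := by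
      intro k
      have : t * x ^ k * t⁻¹ = (t * x * t⁻¹) ^ k := by
        rw [conj_zpow]
      rw [this, ht, inv_zpow]
    constructor
    · rintro ⟨k, rfl⟩
      change t * x ^ k * t⁻¹ ∈ zpowers x
      rw [key k]
      exact inv_mem (zpow_mem (mem_zpowers x) k)
    · intro hh
      change t * h * t⁻¹ ∈ zpowers x at hh
      obtain ⟨k, hk⟩ := hh
      have : h = t⁻¹ * x ^ k * t := by
        have hk' : x ^ k = t * h * t⁻¹ := hk
        rw [hk']; group
      have h2 : t⁻¹ * x ^ k * t = (x ^ k)⁻¹ := by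
        have := key k
        have h3 : x ^ k = t⁻¹ * (x ^ k)⁻¹ * t := by rw [← this]; group
        have h4 : (x ^ k)⁻¹ = (t⁻¹ * (x ^ k)⁻¹ * t)⁻¹ := by rw [← h3]
        rw [h4]; group
      change h ∈ zpowers x
      rw [this, h2]
      exact inv_mem (zpow_mem (mem_zpowers x) k)
  obtain ⟨c, hc, hcm⟩ := fusion P hP (zpowers x) hQ t htN
  have hcx : c * x⁻¹ * c⁻¹ = x⁻¹ := by
    have := hc x⁻¹ (inv_mem (mem_zpowers x))
    rw [← this]; group
  have hinv : (c * t) * x * (c * t)⁻¹ = x⁻¹ := by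
    have : (c * t) * x * (c * t)⁻¹ = c * (t * x * t⁻¹) * c⁻¹ := by group
    rw [this, ht, hcx]
  have hne : x⁻¹ ≠ x := by
    intro h
    have h2 : x ^ 2 = 1 := by
      rw [pow_two]
      nth_rw 1 [← h]
      exact inv_mul_cancel x
    have h3 : orderOf x ∣ 2 := orderOf_dvd_of_pow_eq_one h2
    rw [hxord] at h3
    exact hp ((Nat.prime_dvd_prime_iff_eq hpp Nat.prime_two).mp h3)
  exact even_index_of_inverting (P : Subgroup (Equiv.Perm (Fin n))) x (c * t) hxP hcm hinv hne

end Cfsg.Agent.S2270
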