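import Cfsg.Statements.S2280
import Cfsg.Agent.Lib.Helper99.TvMat

set_option autoImplicit false

open Cfsg

namespace Cfsg.Agent.S2280


open Matrix Cfsg.Agent.Lib.Helper99

theorem regGen_exists (m : ℕ) (F : Type*) [Field F] [Finite F] :
    ∃ u g h : Matrix.SpecialLinearGroup (Fin (m + 3)) F,
      (IsNilpotent ((u : Matrix (Fin (m + 3)) (Fin (m + 3)) F) - 1) ∧
        ((u : Matrix (Fin (m + 3)) (Fin (m + 3)) F) - 1) ^ (m + 3 - 1) ≠ 0) ∧
      Subgroup.closure ({u, g * u * g⁻¹, h * u * h⁻¹} :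
        Set (Matrix.SpecialLinearGroup (Fin (m + 3)) F)) = ⊤ := by
  classical
  obtain ⟨ζ, hζ⟩ := IsCyclic.exists_generator (α := Fˣ)
  obtain ⟨lam, hlamdef⟩ : ∃ lam : F, lam = (ζ : F) := ⟨_, rfl⟩
  have hlam0 : lam ≠ 0 := by rw [hlamdef]; exact ζ.ne_zero
  have hlam : ∀ x : F, x ≠ 0 → ∃ k : ℕ, x = lam ^ k := by
    intro x hx
    have h1 : Units.mk0 x hx ∈ Subgroup.zpowers ζ := hζ _
    rw [← mem_powers_iff_mem_zpowers] at h1
    obtain ⟨k, hk⟩ := h1
    refine ⟨k, ?_⟩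
    have h2 := congrArg Units.val hk
    rw [hlamdef]
    simpa using h2.symm
  obtain ⟨s, hs⟩ : ∃ s : ℤˣ, s = Equiv.Perm.sign (Fin.revPerm : Equiv.Perm (Fin (m + 3))) :=
    ⟨_, rfl⟩
  obtain ⟨ε, hε⟩ : ∃ ε : F, ε = ((s : ℤ) : F) := ⟨_, rfl⟩
  have hεε : ε * ε = 1 := by
    rw [hε, ← Int.cast_mul, ← Units.val_mul, Int.units_mul_self, Units.val_one, Int.cast_one]
  have hε0 : ε ≠ 0 := by
    intro h; rw [h] at hεε; simp at hεε
  obtain ⟨γ, hγdef⟩ : ∃ γ : ℕ → F, γ =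
      fun k => if k = 0 then ε * lam⁻¹ * lam⁻¹ else if k = 1 then lam else 1 := ⟨_, rfl⟩
  obtain ⟨d, hddef⟩ : ∃ d : ℕ → F, d =
      fun k => if k = 0 then ε * lam else if k = 1 then lam⁻¹ else 1 := ⟨_, rfl⟩
  have hγ0 : γ 0 = ε * lam⁻¹ * lam⁻¹ := by rw [hγdef]; simp
  have hγ1 : γ 1 = lam := by rw [hγdef]; simp
  have hγ2 : ∀ k, 2 ≤ k → γ k = 1 := by
    intro k hk
    have h1 : k ≠ 0 := by omega
    have h2 : k ≠ 1 := by omega
    rw [hγdef]; simp [h1, h2]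
  have hd0 : d 0 = ε * lam := by rw [hddef]; simp
  have hd1 : d 1 = lam⁻¹ := by rw [hddef]; simp
  have hd2 : ∀ k, 2 ≤ k → d k = 1 := by
    intro k hk
    have h1 : k ≠ 0 := by omega
    have h2 : k ≠ 1 := by omega
    rw [hddef]; simp [h1, h2]
  have hγ : ∀ k, γ k ≠ 0 := by
    intro k
    rcases k with _ | _ | k
    · rw [hγ0]; exact mul_ne_zero (mul_ne_zero hε0 (inv_ne_zero hlam0)) (inv_ne_zero hlam0)
    · rw [hγ1]; exact hlam0
    · rw [hγ2 _ (by omega)]; exact one_ne_zero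
  have hd : ∀ k, d (k + 1) = γ k * d k := by
    intro k
    rcases k with _ | _ | k
    · rw [hd1, hγ0, hd0]
      calc lam⁻¹ = (ε * ε) * (lam⁻¹ * lam) * lam⁻¹ := by
            rw [hεε, inv_mul_cancel₀ hlam0, one_mul, one_mul]
        _ = ε * lam⁻¹ * lam⁻¹ * (ε * lam) := by ring
    · rw [hd2 _ (by omega), hγ1, hd1, mul_inv_cancel₀ hlam0]
    · rw [hd2 _ (by omega), hγ2 _ (by omega), hd2 _ (by omega), one_mul]
  obtain ⟨u, hu⟩ : ∃ u : Matrix.SpecialLinearGroup (Fin (m + 3)) F,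
      (u : Matrix (Fin (m + 3)) (Fin (m + 3)) F) = 1 + ncMat (m + 3) γ :=
    ⟨⟨1 + ncMat (m + 3) γ, one_add_ncMat_det γ⟩, rfl⟩
  have hdetM : (adMat (m + 3) d).det = 1 := by
    rw [adMat_det, ← hs, ← hε, Fin.prod_univ_succ, Fin.prod_univ_succ]
    have h1 : ∏ i : Fin (m + 1), d ((i.succ.succ : Fin (m + 3)) : ℕ) = 1 := by
      apply Finset.prod_eq_one
      intro i _
      exact hd2 _ (by simp)
    rw [h1, mul_one]
    have h2 : d ((0 : Fin (m + 3)) : ℕ) = ε * lam := by simpa using hd0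
    have h3 : d (((0 : Fin (m + 2)).succ : Fin (m + 3)) : ℕ) = lam⁻¹ := by simpa using hd1
    rw [h2, h3]
    calc ε * (ε * lam * lam⁻¹) = (ε * ε) * (lam * lam⁻¹) := by ring
      _ = 1 := by rw [hεε, mul_inv_cancel₀ hlam0, one_mul]
  obtain ⟨M, hM⟩ : ∃ M : Matrix.SpecialLinearGroup (Fin (m + 3)) F,
      (M : Matrix (Fin (m + 3)) (Fin (m + 3)) F) = adMat (m + 3) d :=
    ⟨⟨adMat (m + 3) d, hdetM⟩, rfl⟩
  obtain ⟨P, hP⟩ : ∃ P : Matrix.SpecialLinearGroup (Fin (m + 3)) F,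
      P = Matrix.SpecialLinearGroup.map (Int.castRingHom F) (pzS m) := ⟨_, rfl⟩
  obtain ⟨L, hL⟩ : ∃ L : Matrix.SpecialLinearGroup (Fin (m + 3)) F,
      L = Matrix.SpecialLinearGroup.map (Int.castRingHom F) (lzS m) := ⟨_, rfl⟩
  have hMu : M * u * M⁻¹ = L := by
    rw [mul_inv_eq_iff_eq_mul]
    apply Subtype.ext
    rw [Matrix.SpecialLinearGroup.coe_mul, Matrix.SpecialLinearGroup.coe_mul, hL, lzS_map, hM, hu]
    exact adMat_mul_ncMat γ d hd
  have hC : (P⁻¹ * M) * u * (P⁻¹ * M)⁻¹ = cF m F := by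
    have h1 : (P⁻¹ * M) * u * (P⁻¹ * M)⁻¹ = P⁻¹ * (M * u * M⁻¹) * P := by group
    rw [h1, hMu, hP, hL, cF, czS, map_mul, map_mul, map_inv]
  have h01 : (0 : Fin (m + 3)) ≠ 1 := by
    intro h; have := congrArg Fin.val h; simp at this
  have h02 : (0 : Fin (m + 3)) ≠ 2 := by
    intro h; have := congrArg Fin.val h; rw [Fin.val_zero, Fin.val_two] at this; omega
  have hu0 : (u : Matrix (Fin (m + 3)) (Fin (m + 3)) F) *ᵥ ev (m + 3) F 0 = ev (m + 3) F 0 := by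
    rw [hu]; exact one_add_ncMat_mulVec_ev_zero γ (by omega)
  have hurows : ∀ j, ev (m + 3) F j ᵥ* (u : Matrix (Fin (m + 3)) (Fin (m + 3)) F) =
      ev (m + 3) F j + γ j • ev (m + 3) F (j + 1) := by
    intro j; rw [hu]; exact ev_vecMul_one_add_ncMat γ j
  have hu1 : ev (m + 3) F 1 ᵥ* (u : Matrix (Fin (m + 3)) (Fin (m + 3)) F) =
      ev (m + 3) F 1 + lam • ev (m + 3) F 2 := by
    rw [hurows 1, hγ1]
  have hgu : Matrix.SpecialLinearGroup.transvection h01 lam⁻¹ * u *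
      (Matrix.SpecialLinearGroup.transvection h01 lam⁻¹)⁻¹ =
      u * Matrix.SpecialLinearGroup.transvection h02 (1 : F) := by
    rw [mul_inv_eq_iff_eq_mul]
    apply Subtype.ext
    rw [Matrix.SpecialLinearGroup.coe_mul, Matrix.SpecialLinearGroup.coe_mul,
      Matrix.SpecialLinearGroup.coe_mul, transvection_eq_tvm, transvection_eq_tvm]
    have e0 : ((0 : Fin (m + 3)) : ℕ) = 0 := rfl
    have e1 : ((1 : Fin (m + 3)) : ℕ) = 1 := Fin.val_one _
    have e2 : ((2 : Fin (m + 3)) : ℕ) = 2 := Fin.val_two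
    rw [e0, e1, e2]
    exact tv_conj_aux _ lam hlam0 hu0 hu1
  have hsub : (u : Matrix (Fin (m + 3)) (Fin (m + 3)) F) - 1 = ncMat (m + 3) γ := by
    rw [hu, add_sub_cancel_left]
  refine ⟨u, Matrix.SpecialLinearGroup.transvection h01 lam⁻¹, P⁻¹ * M, ⟨?_, ?_⟩, ?_⟩
  · rw [hsub]; exact ⟨m + 3, ncMat_pow_eq_zero γ⟩
  · rw [hsub]; exact ncMat_pow_ne_zero γ hγ (by omega)
  · rw [hgu, hC]
    obtain ⟨H, hH⟩ : ∃ H : Subgroup (Matrix.SpecialLinearGroup (Fin (m + 3)) F), H =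
        Subgroup.closure ({u, u * Matrix.SpecialLinearGroup.transvection h02 (1 : F), cF m F} :
          Set (Matrix.SpecialLinearGroup (Fin (m + 3)) F)) := ⟨_, rfl⟩
    rw [← hH]
    have huH : u ∈ H := by rw [hH]; exact Subgroup.subset_closure (by simp)
    have hτH : Matrix.SpecialLinearGroup.transvection h02 (1 : F) ∈ H := by
      have h1 : u * Matrix.SpecialLinearGroup.transvection h02 (1 : F) ∈ H := by
        rw [hH]; exact Subgroup.subset_closure (by simp)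
      have h2 := mul_mem (inv_mem huH) h1
      rwa [inv_mul_cancel_left] at h2
    have hCH : cF m F ∈ H := by rw [hH]; exact Subgroup.subset_closure (by simp)
    apply tv_gen_main H u (cF m F) lam (yF m) huH hCH
    · refine ⟨_, hτH, ?_⟩
      rw [transvection_eq_tvm, one_smul]
      have e0 : ((0 : Fin (m + 3)) : ℕ) = 0 := rfl
      have e2 : ((2 : Fin (m + 3)) : ℕ) = 2 := Fin.val_two
      rw [e0, e2]
    · exact hu0
    · exact hu1
    · intro j hj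
      rw [hurows j, hγ2 j hj, one_smul]
    · exact cF_col m F
    · exact cF_row m F
    · exact yF_unit m
    · exact hlam

/-- Let F be a finite field and n ≥ 3. Then SL_n(F) is generated by three conjugate regular unipotent elements: there are u with u − 1 nilpotent and (u − 1)^(n−1) ≠ 0, and g, h, such that u, g u g⁻¹ and h u h⁻¹ generate SL_n(F). -/
theorem result {F : Type*} [Field F] [Fintype F] (n : ℕ) (hn : 3 ≤ n) :
    ∃ u g h : Matrix.SpecialLinearGroup (Fin n) F, (IsNilpotent ((u : Matrix (Fin n) (Fin n) F) - 1) ∧ ((u : Matrix (Fin n) (Fin n) F) - 1) ^ (n - 1) ≠ 0) ∧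
      Subgroup.closure ({u, g * u * g⁻¹, h * u * h⁻¹} : Set (Matrix.SpecialLinearGroup (Fin n) F)) = ⊤ := by
  obtain ⟨m, rfl⟩ : ∃ m, n = m + 3 := ⟨n - 3, by omega⟩
  exact regGen_exists m F

end Cfsg.Agent.S2280
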