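import Cfsg.Statements.S2281
import Cfsg.Agent.Lib.Helper94.SpRU.Large3

set_option autoImplicit false
open Cfsg

namespace Cfsg.Agent.S2281

open Cfsg.Geo Cfsg.Agent.Lib.Helper94 Cfsg.Agent.Lib.Helper94.SpGen2 Cfsg.Agent.Lib.Helper94.SpRU in
/-- The generation statement for the explicit regular unipotent element, in `GL`. -/
theorem gl_version {F : Type*} [Field F] [Fintype F] (n : ℕ) (hn : 2 ≤ n)
    (h22 : ¬ (n = 2 ∧ Fintype.card F = 2)) :
    ∃ g h : GL (Fin n ⊕ Fin n) F, g ∈ spGL n F ∧ h ∈ spGL n F ∧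
      spGL n F ≤ Subgroup.closure {ruGL n F, g * ruGL n F * g⁻¹, h * ruGL n F * h⁻¹} := by
  by_cases hq : 4 ≤ Fintype.card F
  · exact large_case hq hn
  · have h1 : 1 < Fintype.card F := Fintype.one_lt_card
    have hp : (Fintype.card F).Prime := by
      have h23 : Fintype.card F = 2 ∨ Fintype.card F = 3 := by omega
      rcases h23 with h | h
      · rw [h]; exact Nat.prime_two
      · rw [h]; exact Nat.prime_three
    exact prime_case hp hn h22

/-- Let F be a finite field and n ≥ 2, excluding the case n = 2 with F of two elements (where the group is not quasisimple). Then the symplectic group Sp_2n(F) is generated by three conjugate regular unipotent elements: there are u ∈ Sp_2n(F) with u − 1 nilpotent and (u − 1)^(2n−1) ≠ 0, and g, h ∈ Sp_2n(F), such that u, g u g⁻¹ and h u h⁻¹ generate Sp_2n(F). -/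
theorem result {F : Type*} [Field F] [Fintype F] (n : ℕ) (hn : 2 ≤ n) (h22 : ¬ (n = 2 ∧ Fintype.card F = 2)) :
    ∃ u g h : Matrix.symplecticGroup (Fin n) F,
      IsNilpotent ((u : Matrix (Fin n ⊕ Fin n) (Fin n ⊕ Fin n) F) - 1) ∧
      ((u : Matrix (Fin n ⊕ Fin n) (Fin n ⊕ Fin n) F) - 1) ^ (2 * n - 1) ≠ 0 ∧
      Subgroup.closure ({u, g * u * g⁻¹, h * u * h⁻¹} : Set (Matrix.symplecticGroup (Fin n) F)) = ⊤ := by
  obtain ⟨g, h, hgS, hhS, hgen⟩ := gl_version (F := F) n hn h22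
  obtain ⟨U, G, H, hU, htop⟩ := Cfsg.Agent.Lib.Helper94.SpRU.sp_three_gen_transfer
    (Cfsg.Agent.Lib.Helper94.SpRU.ruGL n F) g h Cfsg.Agent.Lib.Helper94.SpRU.ru_mem hgS hhS hgen
  refine ⟨U, G, H, ?_, ?_, htop⟩
  · rw [hU]
    exact ⟨2 * n, Cfsg.Agent.Lib.Helper94.SpRU.ruN_pow_eq_zero (by omega)⟩
  · rw [hU]
    exact Cfsg.Agent.Lib.Helper94.SpRU.ruN_pow_ne_zero (by omega)

end Cfsg.Agent.S2281
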