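import Cfsg.Statements.S2286
import Cfsg.Agent.Lib.Helper59.Pres3E

set_option autoImplicit false
open Cfsg

namespace Cfsg.Agent.S2286

/-- For every finite field F, SL_2(F) and PSL_2(F) have presentations with 3 generators and at most 9 relations; when F has characteristic 2, PSL_2(F) has a presentation with 3 generators and at most 5 relations. -/
theorem result {F : Type*} [Field F] [Fintype F] :
    (∃ rels : Finset (FreeGroup (Fin 3)), rels.card ≤ 9 ∧ Nonempty (PresentedGroup (↑rels : Set (FreeGroup (Fin 3))) ≃* Matrix.SpecialLinearGroup (Fin 2) F)) ∧ (∃ rels : Finset (FreeGroup (Fin 3)), rels.card ≤ 9 ∧ Nonempty (PresentedGroup (↑rels : Set (FreeGroup (Fin 3))) ≃* Matrix.ProjectiveSpecialLinearGroup (Fin 2) F)) ∧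
    (CharP F 2 → ∃ rels : Finset (FreeGroup (Fin 3)), rels.card ≤ 5 ∧ Nonempty (PresentedGroup (↑rels : Set (FreeGroup (Fin 3))) ≃* Matrix.ProjectiveSpecialLinearGroup (Fin 2) F)) := by
  by_cases h2 : (2 : F) = 0
  · have : CharP F 2 := CharTwo.of_one_ne_zero_of_two_eq_zero one_ne_zero h2
    obtain ⟨⟨r1, hc1, hn1⟩, ⟨r2, hc2, hn2⟩⟩ := Cfsg.Agent.Lib.Helper59.sl2_pres_even F
    exact ⟨⟨r1, hc1.trans (by norm_num), hn1⟩, ⟨r2, hc2.trans (by norm_num), hn2⟩,
      fun _ => ⟨r2, hc2, hn2⟩⟩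
  · obtain ⟨h1, h2'⟩ := Cfsg.Agent.Lib.Helper59.sl2_pres_odd F h2
    refine ⟨h1, h2', fun hch => ?_⟩
    exfalso
    apply h2
    have := CharP.cast_eq_zero F 2
    exact_mod_cast this

end Cfsg.Agent.S2286
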