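import Cfsg.Statements.S2337
import Mathlib
import Cfsg.Agent.Lib.Helper37.SzRep
import Cfsg.Agent.Lib.Helper37.SzLieC
import Cfsg.Agent.Lib.Helper37.SzSimple

set_option autoImplicit false
open Cfsg

namespace Cfsg.Agent.S2337

open Cfsg.Agent.Lib.Helper37

/-- For the Suzuki group Sz(q), q = 2^(2m+1) with m ≥ 1 (realised inside Sp₄ over the field with q elements), every irreducible complex representation of degree at least 2 has degree at least 2^m·(q − 1). -/
theorem result {F : Type*} [Field F] [Fintype F] (m : ℕ) (hm : 1 ≤ m) (hF : Fintype.card F = 2 ^ (2 * m + 1)) :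
    (∀ (k : ℕ) (ρ : Representation ℂ (Cfsg.Lie.Sz F (2 ^ (m + 1))) (Fin k → ℂ)), ρ.IsIrreducible → 2 ≤ k → 2 ^ m * (2 ^ (2 * m + 1) - 1) ≤ k) := by
  intro k ρ hirr hk
  have h := szData_of_card hm hF
  by_contra hlt
  have hρ' : (ρ.comp (szLieEquiv h).toMonoidHom : Representation ℂ ↥(Cfsg.Sz F m) (Fin k → ℂ))
      (szTm h 0 1) = 1 := by
    by_contra hne
    apply hlt
    have h1 := sz_rep_bound hF h
      (ρ.comp (szLieEquiv h).toMonoidHom : Representation ℂ ↥(Cfsg.Sz F m) (Fin k → ℂ)) hne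
    rw [Module.finrank_fin_fun] at h1
    exact h1
  have hsimple : IsSimpleGroup ↥(Cfsg.Sz F m) := sz_simple hm hF
  have hker : (ρ.comp (szLieEquiv h).toMonoidHom).ker = ⊤ := by
    rcases IsSimpleGroup.eq_bot_or_eq_top_of_normal _
      (MonoidHom.normal_ker (ρ.comp (szLieEquiv h).toMonoidHom)) with h1 | h1
    · exfalso
      have h2 : szTm h 0 1 ∈ (ρ.comp (szLieEquiv h).toMonoidHom).ker := MonoidHom.mem_ker.mpr hρ'
      rw [h1, Subgroup.mem_bot, szTm_eq_one_iff] at h2
      exact one_ne_zero h2.2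
    · exact h1
  have htriv : ∀ x : ↥(Cfsg.Lie.Sz F (2 ^ (m + 1))), ρ x = 1 := by
    intro x
    have h1 : (szLieEquiv h).symm x ∈ (ρ.comp (szLieEquiv h).toMonoidHom).ker := by
      rw [hker]
      exact Subgroup.mem_top _
    have h2 := MonoidHom.mem_ker.mp h1
    rw [MonoidHom.comp_apply] at h2
    have h3 : (szLieEquiv h).toMonoidHom ((szLieEquiv h).symm x) = x :=
      (szLieEquiv h).apply_symm_apply x
    rw [h3] at h2
    exact h2
  -- a line is invariant, contradicting irreducibility in degree at least two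
  let S : Subrepresentation ρ :=
    { toSubmodule := Submodule.span ℂ {(Pi.single (⟨0, by omega⟩ : Fin k) (1 : ℂ) : Fin k → ℂ)}
      apply_mem_toSubmodule := by
        intro g v hv
        rw [htriv g]
        exact hv }
  have hmem : (Pi.single (⟨0, by omega⟩ : Fin k) (1 : ℂ) : Fin k → ℂ) ∈ S.toSubmodule :=
    Submodule.subset_span (Set.mem_singleton _)
  rcases hirr.eq_bot_or_eq_top S with h1 | h1
  · have h2 : S.toSubmodule = ⊥ := congrArg Subrepresentation.toSubmodule h1
    rw [h2, Submodule.mem_bot] at hmem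
    have h3 := congrFun hmem (⟨0, by omega⟩ : Fin k)
    simp at h3
  · have h2 : S.toSubmodule = ⊤ := congrArg Subrepresentation.toSubmodule h1
    have h3 : (Pi.single (⟨1, by omega⟩ : Fin k) (1 : ℂ) : Fin k → ℂ) ∈ S.toSubmodule := by
      rw [h2]
      exact Submodule.mem_top
    obtain ⟨c, hc⟩ := Submodule.mem_span_singleton.mp h3
    have h4 := congrFun hc (⟨1, by omega⟩ : Fin k)
    simp at h4

end Cfsg.Agent.S2337
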