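import Cfsg.Statements.S2450
import Mathlib

set_option autoImplicit false
open Cfsg

namespace Cfsg.Agent.S2450

open Matrix Polynomial

/-- A quadratic polynomial function with nonzero leading coefficient cannot have constant square
on a field with at least four elements. -/
theorem quad_sq_not_const {F : Type*} [Field F] [Fintype F] (h4 : 4 ≤ Fintype.card F)
    (α β γ κ : F) (hα : α ≠ 0) (h : ∀ s : F, (α * s ^ 2 + β * s + γ) ^ 2 = κ) : False := by
  classical
  have h0 : γ ^ 2 = κ := by simpa using h 0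
  have hprod : ∀ s : F, (α * s ^ 2 + β * s) * (α * s ^ 2 + β * s + 2 * γ) = 0 := by
    intro s
    have := h s
    rw [← h0] at this
    linear_combination this
  set q₁ : F[X] := C α * X ^ 2 + C β * X with hq₁
  set q₂ : F[X] := C α * X ^ 2 + C β * X + C (2 * γ) with hq₂
  have hd₁ : q₁.natDegree ≤ 2 := by
    rw [hq₁]; compute_degree
  have hd₂ : q₂.natDegree ≤ 2 := by
    rw [hq₂]; compute_degree
  have hc₁ : q₁.coeff 2 = α := by
    rw [hq₁]; simp
  have hc₂ : q₂.coeff 2 = α := by
    rw [hq₂]; simp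
  have hq₁0 : q₁ ≠ 0 := by
    intro h; rw [h] at hc₁; simp at hc₁; exact hα hc₁.symm
  have hq₂0 : q₂ ≠ 0 := by
    intro h; rw [h] at hc₂; simp at hc₂; exact hα hc₂.symm
  have he₁ : ∀ s : F, q₁.eval s = α * s ^ 2 + β * s := by
    intro s; rw [hq₁]; simp
  have he₂ : ∀ s : F, q₂.eval s = α * s ^ 2 + β * s + 2 * γ := by
    intro s; rw [hq₂]; simp
  by_cases h2 : (2 : F) = 0
  · -- characteristic two
    have hall : ∀ s ∈ (Finset.univ : Finset F), q₁.eval s = 0 := by
      intro s _
      have := hprod s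
      rw [h2, zero_mul, add_zero] at this
      rw [he₁]
      exact mul_self_eq_zero.mp this
    have := eq_zero_of_natDegree_lt_card_of_eval_eq_zero' q₁ Finset.univ hall
      (by rw [Finset.card_univ]; omega)
    exact hq₁0 this
  · have hcard : Fintype.card F ≠ 4 := by
      intro hc
      have h40 : ((Fintype.card F : ℕ) : F) = 0 := Nat.cast_card_eq_zero F
      rw [hc] at h40
      apply h2
      have : (2 : F) * 2 = 0 := by
        have : ((4 : ℕ) : F) = 2 * 2 := by norm_num
        rw [← this]; exact h40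
      exact mul_self_eq_zero.mp this
    have hall : ∀ s ∈ (Finset.univ : Finset F), (q₁ * q₂).eval s = 0 := by
      intro s _
      rw [eval_mul, he₁, he₂]
      exact hprod s
    have hdeg : (q₁ * q₂).natDegree < (Finset.univ : Finset F).card := by
      rw [Finset.card_univ]
      have := natDegree_mul_le (p := q₁) (q := q₂)
      omega
    have := eq_zero_of_natDegree_lt_card_of_eval_eq_zero' (q₁ * q₂) Finset.univ hall hdeg
    rcases mul_eq_zero.mp this with h | h
    · exact hq₁0 h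
    · exact hq₂0 h


variable {F : Type*} [Field F]

/-- upper unitriangular element -/
def upper (s : F) : Matrix.SpecialLinearGroup (Fin 2) F := ⟨!![1, s; 0, 1], by simp [det_fin_two]⟩

/-- lower unitriangular element -/
def lower (s : F) : Matrix.SpecialLinearGroup (Fin 2) F := ⟨!![1, 0; s, 1], by simp [det_fin_two]⟩

/-- the Weyl element -/
def weyl : Matrix.SpecialLinearGroup (Fin 2) F := ⟨!![0, 1; -1, 0], by simp [det_fin_two]⟩

theorem upper_coe (s : F) : (upper s).1 = !![1, s; 0, 1] := rfl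

theorem lower_coe (s : F) : (lower s).1 = !![1, 0; s, 1] := rfl

theorem weyl_coe : (weyl : Matrix.SpecialLinearGroup (Fin 2) F).1 = !![0, 1; -1, 0] := rfl

/-- A non-central element of `SL₂` has a conjugate with nonzero lower-left entry. -/
theorem exists_conj_ne_zero (A : Matrix.SpecialLinearGroup (Fin 2) F)
    (hA : A ∉ Subgroup.center (Matrix.SpecialLinearGroup (Fin 2) F)) :
    ∃ u : Matrix.SpecialLinearGroup (Fin 2) F,
      (u * A * u⁻¹ : Matrix.SpecialLinearGroup (Fin 2) F).1 1 0 ≠ 0 := by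
  have hdet : A.1 0 0 * A.1 1 1 - A.1 0 1 * A.1 1 0 = 1 := by
    have := A.det_coe
    rwa [det_fin_two] at this
  by_cases hc : A.1 1 0 = 0
  · by_cases hb : A.1 0 1 = 0
    · -- diagonal
      have had : A.1 0 0 ≠ A.1 1 1 := by
        intro had
        apply hA
        rw [Matrix.SpecialLinearGroup.mem_center_iff]
        refine ⟨A.1 0 0, ?_, ?_⟩
        · rw [Fintype.card_fin]
          rw [hb, ← had] at hdet
          linear_combination hdet
        · ext i j
          fin_cases i <;> fin_cases j <;> simp [hb, hc, had]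
      refine ⟨lower 1, ?_⟩
      simp only [Matrix.SpecialLinearGroup.coe_inv, Matrix.SpecialLinearGroup.coe_mul, lower_coe,
        adjugate_fin_two, Matrix.mul_apply, Fin.sum_univ_two]
      simp [hb, hc]
      intro h
      apply had
      linear_combination h
    · refine ⟨weyl, ?_⟩
      simp only [Matrix.SpecialLinearGroup.coe_inv, Matrix.SpecialLinearGroup.coe_mul, weyl_coe,
        adjugate_fin_two, Matrix.mul_apply, Fin.sum_univ_two]
      simp [hb, hc]
  · exact ⟨1, by simpa using hc⟩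

theorem trace_conj_upper (A B : Matrix.SpecialLinearGroup (Fin 2) F) (s : F) :
    (A * (upper s * B * (upper s)⁻¹) : Matrix.SpecialLinearGroup (Fin 2) F).1.trace =
      (-(A.1 1 0 * B.1 1 0)) * s ^ 2
        + (A.1 0 0 * B.1 1 0 - A.1 1 0 * B.1 0 0 + A.1 1 0 * B.1 1 1 - A.1 1 1 * B.1 1 0) * s
        + (A.1 0 0 * B.1 0 0 + A.1 0 1 * B.1 1 0 + A.1 1 0 * B.1 0 1 + A.1 1 1 * B.1 1 1) := by
  simp only [Matrix.SpecialLinearGroup.coe_inv, Matrix.SpecialLinearGroup.coe_mul, upper_coe,
    adjugate_fin_two, Matrix.mul_apply, Fin.sum_univ_two, Matrix.trace_fin_two]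
  simp
  ring

theorem trace_sq_eq_of_isConj (X Y : Matrix.SpecialLinearGroup (Fin 2) F)
    (h : IsConj (QuotientGroup.mk X : Matrix.ProjectiveSpecialLinearGroup (Fin 2) F)
      (QuotientGroup.mk Y)) :
    X.1.trace ^ 2 = Y.1.trace ^ 2 := by
  rw [isConj_iff] at h
  obtain ⟨g, hg⟩ := h
  obtain ⟨G, rfl⟩ := QuotientGroup.mk_surjective g
  rw [← QuotientGroup.mk_inv, ← QuotientGroup.mk_mul, ← QuotientGroup.mk_mul, QuotientGroup.eq] at hg
  obtain ⟨r, hr, hrs⟩ := Matrix.SpecialLinearGroup.mem_center_iff.mp hg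
  rw [Fintype.card_fin] at hr
  have hY : Y = G * X * G⁻¹ * ((G * X * G⁻¹)⁻¹ * Y) := by group
  have hY' : Y.1 = G.1 * X.1 * (G⁻¹).1 * scalar (Fin 2) r := by
    rw [hrs]
    conv_lhs => rw [hY]
    simp only [Matrix.SpecialLinearGroup.coe_mul]
  have hGG : (G⁻¹).1 * G.1 = 1 := by
    rw [← Matrix.SpecialLinearGroup.coe_mul, inv_mul_cancel, Matrix.SpecialLinearGroup.coe_one]
  have htr : Y.1.trace = r * X.1.trace := by
    rw [hY', Matrix.trace_mul_comm, Matrix.scalar_apply, ← Matrix.smul_one_eq_diagonal,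
      Matrix.smul_mul, Matrix.one_mul, Matrix.trace_smul, Matrix.trace_mul_comm, ← Matrix.mul_assoc,
      hGG, Matrix.one_mul, smul_eq_mul]
  rw [htr, mul_pow, hr, one_mul]

/-- The Arad–Herzog conjecture for PSL(2,q): let F be a finite field with q ≥ 4 elements. For any two non-identity elements a, b of PSL(2,F), the set of products of a conjugate of a with a conjugate of b is not a single conjugacy class. -/
theorem result {F : Type*} [Field F] [Fintype F] (h4 : 4 ≤ Fintype.card F)
    (a b : Matrix.ProjectiveSpecialLinearGroup (Fin 2) F) (ha : a ≠ 1) (hb : b ≠ 1) (c : Matrix.ProjectiveSpecialLinearGroup (Fin 2) F) :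
    {g : Matrix.ProjectiveSpecialLinearGroup (Fin 2) F | ∃ u v : Matrix.ProjectiveSpecialLinearGroup (Fin 2) F, g = (u * a * u⁻¹) * (v * b * v⁻¹)} ≠ {g | IsConj c g} := by
  intro hset
  obtain ⟨A₀, rfl⟩ := QuotientGroup.mk_surjective a
  obtain ⟨B₀, rfl⟩ := QuotientGroup.mk_surjective b
  obtain ⟨C, rfl⟩ := QuotientGroup.mk_surjective c
  have hA₀ : A₀ ∉ Subgroup.center (Matrix.SpecialLinearGroup (Fin 2) F) := by
    intro h; apply ha; exact (QuotientGroup.eq_one_iff A₀).mpr h
  have hB₀ : B₀ ∉ Subgroup.center (Matrix.SpecialLinearGroup (Fin 2) F) := by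
    intro h; apply hb; exact (QuotientGroup.eq_one_iff B₀).mpr h
  obtain ⟨u, hu⟩ := exists_conj_ne_zero A₀ hA₀
  obtain ⟨v, hv⟩ := exists_conj_ne_zero B₀ hB₀
  have key : ∀ s : F, ((u * A₀ * u⁻¹) * (upper s * (v * B₀ * v⁻¹) * (upper s)⁻¹) :
      Matrix.SpecialLinearGroup (Fin 2) F).1.trace ^ 2 = C.1.trace ^ 2 := by
    intro s
    symm
    apply trace_sq_eq_of_isConj
    have hmem : (QuotientGroup.mk ((u * A₀ * u⁻¹) * (upper s * (v * B₀ * v⁻¹) * (upper s)⁻¹)) :
        Matrix.ProjectiveSpecialLinearGroup (Fin 2) F) ∈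
        {g : Matrix.ProjectiveSpecialLinearGroup (Fin 2) F | ∃ u v : Matrix.ProjectiveSpecialLinearGroup (Fin 2) F, g = (u * QuotientGroup.mk A₀ * u⁻¹) * (v * QuotientGroup.mk B₀ * v⁻¹)} := by
      refine ⟨QuotientGroup.mk u, QuotientGroup.mk (upper s * v), ?_⟩
      simp only [← QuotientGroup.mk_mul, ← QuotientGroup.mk_inv]
      congr 1
      group
    rw [hset] at hmem
    exact hmem
  set A := u * A₀ * u⁻¹ with hAdef
  set B := v * B₀ * v⁻¹ with hBdef
  refine quad_sq_not_const h4 (-(A.1 1 0 * B.1 1 0))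
    (A.1 0 0 * B.1 1 0 - A.1 1 0 * B.1 0 0 + A.1 1 0 * B.1 1 1 - A.1 1 1 * B.1 1 0)
    (A.1 0 0 * B.1 0 0 + A.1 0 1 * B.1 1 0 + A.1 1 0 * B.1 0 1 + A.1 1 1 * B.1 1 1)
    (C.1.trace ^ 2) (neg_ne_zero.mpr (mul_ne_zero hu hv)) ?_
  intro s
  rw [← trace_conj_upper]
  exact key s

end Cfsg.Agent.S2450
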