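import Cfsg.Statements.S2455
import Cfsg.Agent.Lib.Helper41.SL2Odd

set_option autoImplicit false
open Cfsg

namespace Cfsg.Agent.S2455

open Cfsg.Agent.Lib.Helper41

/-- A strong covering result in the direction of Thompson's conjecture (non-identity elements) for PSL(2,q), q odd: let F be a finite field of odd characteristic p with at least 5 elements and let x ∈ PSL(2,F) have order greater than 2 and not divisible by p (so x is not unipotent). Then every non-identity element of PSL(2,F) is a product of two conjugates of x. -/
theorem result {F : Type*} [Field F] [Fintype F] (p : ℕ) [Fact p.Prime] [CharP F p] (hp : p ≠ 2) (h5 : 5 ≤ Fintype.card F)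
    (x : Matrix.ProjectiveSpecialLinearGroup (Fin 2) F) (hx2 : 2 < orderOf x) (hxp : ¬ p ∣ orderOf x) : ∀ g : Matrix.ProjectiveSpecialLinearGroup (Fin 2) F, g ≠ 1 → ∃ u v : Matrix.ProjectiveSpecialLinearGroup (Fin 2) F, g = (u * x * u⁻¹) * (v * x * v⁻¹) := by
  intro g hg
  have hpp : p.Prime := Fact.out
  have h2 : (2 : F) ≠ 0 := by
    intro h
    have h' : ((2 : ℕ) : F) = 0 := by exact_mod_cast h
    rw [CharP.cast_eq_zero_iff F p] at h'
    exact hp ((Nat.prime_dvd_prime_iff_eq hpp Nat.prime_two).mp h')
  obtain ⟨X, rfl⟩ := QuotientGroup.mk_surjective x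
  obtain ⟨G, rfl⟩ := QuotientGroup.mk_surjective g
  have hGc : G ∉ Subgroup.center (Matrix.SpecialLinearGroup (Fin 2) F) := by
    intro h
    exact hg ((QuotientGroup.eq_one_iff G).mpr h)
  have hdet : X.1.det = 1 := X.det_coe
  have hτ0 : X.1.trace ≠ 0 := by
    intro h0
    have hc := cayley2_det_one hdet
    rw [h0, zero_smul, zero_sub] at hc
    have hx : (QuotientGroup.mk X : Matrix.ProjectiveSpecialLinearGroup (Fin 2) F) ^ 2 = 1 := by
      rw [psl2_pow_eq_one_iff]
      right
      rw [pow_two, Matrix.SpecialLinearGroup.coe_mul, hc]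
    have := Nat.le_of_dvd (by norm_num) (orderOf_dvd_of_pow_eq_one hx)
    omega
  have hτ : X.1.trace * X.1.trace ≠ 4 := by
    intro h4
    have hcases : X.1.trace = 2 * 1 ∨ X.1.trace = 2 * (-1) := by
      have : (X.1.trace - 2) * (X.1.trace + 2) = 0 := by linear_combination h4
      rcases mul_eq_zero.mp this with h | h
      · left; linear_combination h
      · right; linear_combination h
    have hx : (QuotientGroup.mk X : Matrix.ProjectiveSpecialLinearGroup (Fin 2) F) ^ p = 1 := by
      rw [psl2_pow_eq_one_iff, Matrix.SpecialLinearGroup.coe_pow]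
      rcases hcases with h | h
      · left
        rw [pow_char_of_trace p hdet (by ring) h, one_pow, one_smul]
      · rw [pow_char_of_trace p hdet (by ring) h]
        rcases neg_one_pow_eq_or F p with h' | h'
        · left; rw [h', one_smul]
        · right; rw [h']; simp
    have hdvd := orderOf_dvd_of_pow_eq_one hx
    rcases (Nat.dvd_prime hpp).mp hdvd with h | h
    · omega
    · exact hxp (by rw [h])
  exact psl2_odd_class_product h2 X hτ0 hτ G hGc

end Cfsg.Agent.S2455
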