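import Cfsg.Statements.S2456
import Cfsg.Agent.Lib.Helper41.SL2Conj

set_option autoImplicit false
open Cfsg

namespace Cfsg.Agent.S2456

open Cfsg.Agent.Lib.Helper41

/-- A strong covering result in the direction of Thompson's conjecture (non-identity elements) for PSL(2,q), q even: let F be a finite field of characteristic 2 with q ≥ 4 elements and let x ∈ PSL(2,F) have order greater than 2 and not dividing q + 1. Then every non-identity element of PSL(2,F) is a product of two conjugates of x. -/
theorem result {F : Type*} [Field F] [Fintype F] [CharP F 2] (h4 : 4 ≤ Fintype.card F)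
    (x : Matrix.ProjectiveSpecialLinearGroup (Fin 2) F) (hx2 : 2 < orderOf x) (hxq : ¬ orderOf x ∣ Fintype.card F + 1) : ∀ g : Matrix.ProjectiveSpecialLinearGroup (Fin 2) F, g ≠ 1 → ∃ u v : Matrix.ProjectiveSpecialLinearGroup (Fin 2) F, g = (u * x * u⁻¹) * (v * x * v⁻¹) := by
  intro g hg
  have h2 : (2 : F) = 0 := CharTwo.two_eq_zero
  have : Fact (Nat.Prime 2) := ⟨Nat.prime_two⟩
  obtain ⟨X, rfl⟩ := QuotientGroup.mk_surjective x
  obtain ⟨G, rfl⟩ := QuotientGroup.mk_surjective g
  rw [psl2_orderOf_of_two_eq_zero h2] at hx2 hxq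
  have hGc : G ∉ Subgroup.center (Matrix.SpecialLinearGroup (Fin 2) F) := by
    intro h
    exact hg ((QuotientGroup.eq_one_iff G).mpr h)
  have hdet : X.1.det = 1 := X.det_coe
  have hroot : ∃ l : F, l * l - X.1.trace * l + 1 = 0 := by
    by_contra hno
    push Not at hno
    apply hxq
    exact orderOf_dvd_of_pow_eq_one (sl2_pow_eq_one_of_coe (pow_card_add_one_of_nonsplit hdet hno))
  obtain ⟨l, hl⟩ := hroot
  have hl2 : l * l ≠ 1 := by
    intro hl2
    have ht : X.1.trace = 2 * l := by
      have h1 : X.1.trace * l = 2 := by linear_combination -hl + hl2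
      calc X.1.trace = X.1.trace * (l * l) := by rw [hl2, mul_one]
        _ = (X.1.trace * l) * l := by ring
        _ = 2 * l := by rw [h1]
    have hpow := pow_char_of_trace 2 hdet hl2 ht
    have hX2 : X ^ 2 = 1 := by
      apply sl2_pow_eq_one_of_coe
      rw [hpow, pow_two, hl2, one_smul]
    have := orderOf_dvd_of_pow_eq_one hX2
    have := Nat.le_of_dvd (by norm_num) this
    omega
  have hl0 : l ≠ 0 := by
    rintro rfl
    simp at hl
  obtain ⟨U, V, hUV⟩ := split_class_product X (Units.mk0 l hl0) (by simpa using hl)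
    (by simpa using hl2) G hGc
  refine ⟨QuotientGroup.mk U, QuotientGroup.mk V, ?_⟩
  rw [hUV]
  simp

end Cfsg.Agent.S2456
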