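import Cfsg.Statements.S2459
import Cfsg.Agent.Lib.Helper79.PSL3.Cover

set_option autoImplicit false
open Cfsg

namespace Cfsg.Agent.S2459

/-- A form of Thompson's conjecture for PSL(3,q), q > 2 (covering the non-identity elements), with a semisimple class: for F a finite field of characteristic p with more than 2 elements there is an element x of PSL(3,F) of order prime to p such that every non-identity element of PSL(3,F) is a product of two conjugates of x. -/
theorem result {F : Type*} [Field F] [Fintype F] (p : ℕ) [Fact p.Prime] [CharP F p] (h3 : 3 ≤ Fintype.card F) :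
    ∃ x : Matrix.ProjectiveSpecialLinearGroup (Fin 3) F, ¬ p ∣ orderOf x ∧ ∀ g : Matrix.ProjectiveSpecialLinearGroup (Fin 3) F, g ≠ 1 → ∃ u v : Matrix.ProjectiveSpecialLinearGroup (Fin 3) F, g = (u * x * u⁻¹) * (v * x * v⁻¹) := by
  have hpp : p.Prime := Fact.out
  by_cases hp2 : p = 2
  · subst hp2
    have h2 : (2 : F) = 0 := by exact_mod_cast CharP.cast_eq_zero F 2
    refine ⟨(QuotientGroup.mk (Lib.Helper79.PSL3.Xsl (1 : F)) : Matrix.ProjectiveSpecialLinearGroup (Fin 3) F), ?_, ?_⟩
    · have h : (QuotientGroup.mk (Lib.Helper79.PSL3.Xsl (1 : F)) : Matrix.ProjectiveSpecialLinearGroup (Fin 3) F) ^ 3 = 1 := by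
        rw [← QuotientGroup.mk_pow, Lib.Helper79.PSL3.Xsl_one_pow_three h2]
        rfl
      intro hd
      have h3 := Nat.dvd_trans hd (orderOf_dvd_of_pow_eq_one h)
      omega
    · intro g hg
      obtain ⟨G, rfl⟩ := QuotientGroup.mk_surjective g
      have hGc : G ∉ Subgroup.center (Matrix.SpecialLinearGroup (Fin 3) F) := by
        intro h
        exact hg ((QuotientGroup.eq_one_iff G).mpr h)
      obtain ⟨u, v, huv⟩ := Lib.Helper79.PSL3.sl3_cover (1 : F) (by norm_num) (Lib.Helper79.PSL3.Xsl 1) rfl G hGc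
      refine ⟨QuotientGroup.mk u, QuotientGroup.mk v, ?_⟩
      rw [huv]
      rfl
  · have h2 : (2 : F) ≠ 0 := by
      intro h
      have h' : ((2 : ℕ) : F) = 0 := by exact_mod_cast h
      rw [CharP.cast_eq_zero_iff F p] at h'
      exact hp2 ((Nat.prime_dvd_prime_iff_eq hpp Nat.prime_two).mp h')
    refine ⟨(QuotientGroup.mk (Lib.Helper79.PSL3.Xsl (0 : F)) : Matrix.ProjectiveSpecialLinearGroup (Fin 3) F), ?_, ?_⟩
    · have h : (QuotientGroup.mk (Lib.Helper79.PSL3.Xsl (0 : F)) : Matrix.ProjectiveSpecialLinearGroup (Fin 3) F) ^ 4 = 1 := by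
        rw [← QuotientGroup.mk_pow, Lib.Helper79.PSL3.Xsl_zero_pow_four]
        rfl
      intro hd
      have h4 : p ∣ 2 ^ 2 := Nat.dvd_trans hd (orderOf_dvd_of_pow_eq_one h)
      exact hp2 ((Nat.prime_dvd_prime_iff_eq hpp Nat.prime_two).mp (hpp.dvd_of_dvd_pow h4))
    · intro g hg
      obtain ⟨G, rfl⟩ := QuotientGroup.mk_surjective g
      have hGc : G ∉ Subgroup.center (Matrix.SpecialLinearGroup (Fin 3) F) := by
        intro h
        exact hg ((QuotientGroup.eq_one_iff G).mpr h)
      obtain ⟨u, v, huv⟩ := Lib.Helper79.PSL3.sl3_cover (0 : F) (by rw [sub_zero]; exact h2) (Lib.Helper79.PSL3.Xsl 0) rfl G hGc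
      refine ⟨QuotientGroup.mk u, QuotientGroup.mk v, ?_⟩
      rw [huv]
      rfl

end Cfsg.Agent.S2459
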