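import Cfsg.Statements.S2466
import Cfsg.Agent.Lib.Helper41.AltCycle

set_option autoImplicit false
open Cfsg

namespace Cfsg.Agent.S2466

open Cfsg.Agent.Lib.Helper41

/-- Adjacency of odd primes in the prime graph of the alternating groups: let r ≠ s be odd primes at most n. The alternating group of degree n has an element of order r·s if and only if r + s ≤ n. -/
theorem result (n r s : ℕ) (hr : r.Prime) (hs : s.Prime) (hr2 : r ≠ 2) (hs2 : s ≠ 2) (hrs : r ≠ s) (hrn : r ≤ n) (hsn : s ≤ n) :
    (r * s ∈ Set.range (orderOf : alternatingGroup (Fin n) → ℕ)) ↔ r + s ≤ n := by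
  have hcop : Nat.Coprime r s := (Nat.coprime_primes hr hs).mpr hrs
  have hr2' : 2 ≤ r := hr.two_le
  have hs2' : 2 ≤ s := hs.two_le
  constructor
  · rintro ⟨σ, hσ⟩
    obtain ⟨h2, hsum, -, hlcm⟩ := alt_cycleType_props σ
    rw [hσ] at hlcm
    obtain ⟨a, ha, hra⟩ := prime_dvd_multiset_lcm hr _ (hlcm ▸ Dvd.intro _ rfl)
    obtain ⟨b, hb, hsb⟩ := prime_dvd_multiset_lcm hs _ (hlcm ▸ Dvd.intro_left _ rfl)
    have ha0 : 0 < a := by have := h2 a ha; omega
    have hb0 : 0 < b := by have := h2 b hb; omega
    by_cases hab : a = b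
    · subst hab
      have h1 : r * s ∣ a := Nat.Coprime.mul_dvd_of_dvd_of_dvd hcop hra hsb
      have h3 : r * s ≤ a := Nat.le_of_dvd ha0 h1
      have h4 : a ≤ _ := le_sum_of_mem' ha
      have h5 : r + s ≤ r * s := by nlinarith
      omega
    · obtain ⟨t, ht⟩ := Multiset.exists_cons_of_mem ha
      rw [ht] at hb hsum
      rw [Multiset.mem_cons] at hb
      rcases hb with hb | hb
      · exact absurd hb.symm hab
      · have h4 : b ≤ t.sum := le_sum_of_mem' hb
        rw [Multiset.sum_cons] at hsum
        have h5 : r ≤ a := Nat.le_of_dvd ha0 hra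
        have h6 : s ≤ b := Nat.le_of_dvd hb0 hsb
        omega
  · intro h
    have hodd_r : Odd r := hr.odd_of_ne_two hr2
    have hodd_s : Odd s := hs.odd_of_ne_two hs2
    have := exists_alt_of_cycleType (n := n) ({r, s} : Multiset ℕ)
      (by
        intro a ha
        simp at ha
        rcases ha with rfl | rfl <;> assumption)
      (by simpa using h)
      (by
        obtain ⟨k, hk⟩ := hodd_r
        obtain ⟨l, hl⟩ := hodd_s
        refine ⟨k + l + 2, ?_⟩
        simp
        omega)
    have hl : ({r, s} : Multiset ℕ).lcm = r * s := by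
      have : ({r, s} : Multiset ℕ) = r ::ₘ {s} := rfl
      rw [this, Multiset.lcm_cons, Multiset.lcm_singleton]
      simp [lcm_eq_nat_lcm, Nat.Coprime.lcm_eq_mul hcop]
    rwa [hl] at this

end Cfsg.Agent.S2466
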