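import Cfsg.Statements.S2467
import Cfsg.Agent.Lib.Helper41.AltCycle

set_option autoImplicit false
open Cfsg

namespace Cfsg.Agent.S2467

open Cfsg.Agent.Lib.Helper41

/-- Adjacency of 2 and an odd prime in the prime graph of the alternating groups: let r be an odd prime at most n, with n ≥ 4. The alternating group of degree n has an element of order 2r if and only if r + 4 ≤ n. -/
theorem result (n r : ℕ) (hn : 4 ≤ n) (hr : r.Prime) (hr2 : r ≠ 2) (hrn : r ≤ n) :
    (2 * r ∈ Set.range (orderOf : alternatingGroup (Fin n) → ℕ)) ↔ r + 4 ≤ n := by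
  have hodd_r : Odd r := hr.odd_of_ne_two hr2
  have hr3 : 3 ≤ r := by
    have := hr.two_le
    omega
  have hcop : Nat.Coprime 2 r := (Nat.coprime_primes Nat.prime_two hr).mpr (Ne.symm hr2)
  constructor
  · rintro ⟨σ, hσ⟩
    obtain ⟨h2, hsum, hev, hlcm⟩ := alt_cycleType_props σ
    rw [hσ] at hlcm
    obtain ⟨a, ha, hra⟩ := prime_dvd_multiset_lcm hr _ (hlcm ▸ Dvd.intro_left _ rfl)
    obtain ⟨b, hb, h2b⟩ := prime_dvd_multiset_lcm Nat.prime_two _ (hlcm ▸ Dvd.intro _ rfl)
    have ha0 : 0 < a := by have := h2 a ha; omega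
    have hra' : r ≤ a := Nat.le_of_dvd ha0 hra
    obtain ⟨t, ht⟩ := Multiset.exists_cons_of_mem hb
    rw [ht] at hsum hev ha h2
    rw [Multiset.sum_cons] at hsum
    rw [Multiset.sum_cons, Multiset.card_cons] at hev
    have hb2 : 2 ≤ b := h2 b (Multiset.mem_cons_self b t)
    -- a second even part
    have hex : ∃ b' ∈ t, ¬ Odd b' := by
      by_contra hcon
      push Not at hcon
      have h3 := even_sum_add_card_of_odd t hcon
      obtain ⟨k, hk⟩ := h3
      obtain ⟨l, hl⟩ := hev
      obtain ⟨j, hj⟩ := h2b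
      omega
    obtain ⟨b', hb', hb'odd⟩ := hex
    rw [Nat.not_odd_iff_even] at hb'odd
    have h2b' : 2 ∣ b' := hb'odd.two_dvd
    have hb'2 : 2 ≤ b' := h2 b' (Multiset.mem_cons_of_mem hb')
    obtain ⟨u, hu⟩ := Multiset.exists_cons_of_mem hb'
    rw [hu] at hsum ha
    rw [Multiset.sum_cons] at hsum
    rw [Multiset.mem_cons, Multiset.mem_cons] at ha
    rcases ha with ha | ha | ha
    · -- a = b
      subst ha
      have h1 : 2 * r ∣ a := Nat.Coprime.mul_dvd_of_dvd_of_dvd hcop h2b hra
      have h3 : 2 * r ≤ a := Nat.le_of_dvd ha0 h1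
      omega
    · subst ha
      have h1 : 2 * r ∣ a := Nat.Coprime.mul_dvd_of_dvd_of_dvd hcop h2b' hra
      have h3 : 2 * r ≤ a := Nat.le_of_dvd ha0 h1
      omega
    · have h4 : a ≤ u.sum := le_sum_of_mem' ha
      omega
  · intro h
    have := exists_alt_of_cycleType (n := n) ({r, 2, 2} : Multiset ℕ)
      (by
        intro a ha
        simp at ha
        rcases ha with rfl | rfl <;> omega)
      (by
        have : ({r, 2, 2} : Multiset ℕ).sum = r + 4 := by
          simp
        omega)
      (by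
        obtain ⟨k, hk⟩ := hodd_r
        refine ⟨k + 4, ?_⟩
        simp
        omega)
    have hl : ({r, 2, 2} : Multiset ℕ).lcm = 2 * r := by
      have : ({r, 2, 2} : Multiset ℕ) = r ::ₘ 2 ::ₘ {2} := rfl
      rw [this, Multiset.lcm_cons, Multiset.lcm_cons, Multiset.lcm_singleton]
      simp [lcm_eq_nat_lcm, Nat.Coprime.lcm_eq_mul hcop.symm, mul_comm]
    rwa [hl] at this

end Cfsg.Agent.S2467
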