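import Cfsg.Statements.S2471
import Cfsg.Agent.Lib.Helper41.SL2

set_option autoImplicit false
open Cfsg

namespace Cfsg.Agent.S2471

open Cfsg.Agent.Lib.Helper41

/-- In PSL(2,q) with q odd, the characteristic p is isolated from 2 in the prime graph: for F a finite field of odd characteristic p with at least 5 elements, PSL(2,F) has no element of order 2p. -/
theorem result {F : Type*} [Field F] [Fintype F] (p : ℕ) [Fact p.Prime] [CharP F p] (hp : p ≠ 2) (h5 : 5 ≤ Fintype.card F) (g : Matrix.ProjectiveSpecialLinearGroup (Fin 2) F) :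
    orderOf g ≠ 2 * p := by
  intro hord
  have hpp : p.Prime := Fact.out
  have hpq : p ∣ Fintype.card F := by
    rw [← CharP.cast_eq_zero_iff F p]
    exact Nat.cast_card_eq_zero F
  have hd1 : Nat.gcd 2 (Fintype.card F - 1) ∣ Fintype.card F - 1 := Nat.gcd_dvd_right _ _
  have hd2 : Nat.gcd 2 (Fintype.card F - 1) ∣ Fintype.card F + 1 := by
    have h2 : Nat.gcd 2 (Fintype.card F - 1) ∣ 2 := Nat.gcd_dvd_left _ _
    have : Fintype.card F + 1 = (Fintype.card F - 1) + 2 := by omega
    rw [this]
    exact dvd_add hd1 h2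
  have hp_dvd : p ∣ orderOf g := by rw [hord]; exact dvd_mul_left p 2
  rcases psl2_orderOf_dvd p g with h | h | h
  · rw [hord] at h
    have := Nat.le_of_dvd hpp.pos h
    have := hpp.pos
    omega
  · have h1 : p ∣ Fintype.card F - 1 := (hp_dvd.trans h).trans (Nat.div_dvd_of_dvd hd1)
    have h2 : p ∣ 1 := by
      have : Fintype.card F = (Fintype.card F - 1) + 1 := by omega
      rw [this] at hpq
      exact (Nat.dvd_add_right h1).mp hpq
    exact hpp.one_lt.ne' (Nat.dvd_one.mp h2)
  · have h1 : p ∣ Fintype.card F + 1 := (hp_dvd.trans h).trans (Nat.div_dvd_of_dvd hd2)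
    have h2 : p ∣ 1 := (Nat.dvd_add_right hpq).mp h1
    exact hpp.one_lt.ne' (Nat.dvd_one.mp h2)

end Cfsg.Agent.S2471
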