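import Cfsg.Statements.S2485
import Mathlib

set_option autoImplicit false
open scoped Pointwise
open Cfsg

namespace Cfsg.Agent.S2485

open Matrix

variable {K : Type*} [Field K]

theorem scalar_eq (r : K) : scalar (Fin 2) r = !![r, 0; 0, r] := by
  ext i j
  fin_cases i <;> fin_cases j <;> simp

/-- entrywise form of `M * M = scalar c` -/
theorem sq_scalar_entries {M : Matrix (Fin 2) (Fin 2) K} {c : K} (h : M * M = scalar (Fin 2) c) :
    M 0 0 * M 0 0 + M 0 1 * M 1 0 = c ∧ M 0 1 * (M 0 0 + M 1 1) = 0 ∧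
      M 1 0 * (M 0 0 + M 1 1) = 0 ∧ M 1 1 * M 1 1 + M 0 1 * M 1 0 = c := by
  have h00 := congrFun (congrFun h 0) 0
  have h01 := congrFun (congrFun h 0) 1
  have h10 := congrFun (congrFun h 1) 0
  have h11 := congrFun (congrFun h 1) 1
  simp [Matrix.mul_apply, Fin.sum_univ_two] at h00 h01 h10 h11
  refine ⟨h00, by linear_combination h01, by linear_combination h10, by linear_combination h11⟩

theorem nonscalar_cases {M : Matrix (Fin 2) (Fin 2) K} (hns : ∀ r : K, M ≠ scalar (Fin 2) r) :
    M 0 1 ≠ 0 ∨ M 1 0 ≠ 0 ∨ M 0 0 ≠ M 1 1 := by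
  by_contra hcon
  push Not at hcon
  obtain ⟨h1, h2, h3⟩ := hcon
  apply hns (M 0 0)
  rw [scalar_eq]
  ext i j
  fin_cases i <;> fin_cases j <;> simp [h1, h2, h3]

theorem sq_scalar_trace_zero {M : Matrix (Fin 2) (Fin 2) K} {c : K} (h : M * M = scalar (Fin 2) c)
    (hns : ∀ r : K, M ≠ scalar (Fin 2) r) : M 1 1 = - M 0 0 := by
  obtain ⟨h1, h2, h3, h4⟩ := sq_scalar_entries h
  by_contra hcon
  have ht : M 0 0 + M 1 1 ≠ 0 := by
    intro h0
    apply hcon
    linear_combination h0
  have hb : M 0 1 = 0 := by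
    rcases mul_eq_zero.mp h2 with h | h
    · exact h
    · exact absurd h ht
  have hc : M 1 0 = 0 := by
    rcases mul_eq_zero.mp h3 with h | h
    · exact h
    · exact absurd h ht
  have had : M 0 0 = M 1 1 := by
    have : (M 0 0 - M 1 1) * (M 0 0 + M 1 1) = 0 := by linear_combination h1 - h4
    rcases mul_eq_zero.mp this with h | h
    · linear_combination h
    · exact absurd h ht
  rcases nonscalar_cases hns with h | h | h
  · exact h hb
  · exact h hc
  · exact h had

/-- centralizer of a traceless non-scalar matrix -/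
theorem comm_form (h2 : (2 : K) ≠ 0) {M X : Matrix (Fin 2) (Fin 2) K}
    (hns : ∀ r : K, M ≠ scalar (Fin 2) r) (htr : M 1 1 = - M 0 0) (hc : X * M = M * X) :
    ∃ p : K × K, X = scalar (Fin 2) p.1 + p.2 • M := by
  have h00 := congrFun (congrFun hc 0) 0
  have h01 := congrFun (congrFun hc 0) 1
  have h10 := congrFun (congrFun hc 1) 0
  have h11 := congrFun (congrFun hc 1) 1
  simp [Matrix.mul_apply, Fin.sum_univ_two, htr] at h00 h01 h10 h11
  have hx : ∀ y : K, y * M 0 1 = X 0 1 → y * M 1 0 = X 1 0 → 2 * (y * M 0 0) = X 0 0 - X 1 1 →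
      X = scalar (Fin 2) ((X 0 0 + X 1 1) / 2) + y • M := by
    intro y e1 e2 e3
    rw [scalar_eq]
    ext i j
    fin_cases i <;> fin_cases j <;> simp [htr]
    · field_simp
      linear_combination -e3
    · exact e1.symm
    · exact e2.symm
    · field_simp
      linear_combination e3
  rcases nonscalar_cases hns with hb | hb | hb
  · refine ⟨((X 0 0 + X 1 1) / 2, X 0 1 / M 0 1), hx _ ?_ ?_ ?_⟩
    · field_simp
    · field_simp
      linear_combination h00
    · field_simp
      linear_combination -h01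
  · refine ⟨((X 0 0 + X 1 1) / 2, X 1 0 / M 1 0), hx _ ?_ ?_ ?_⟩
    · field_simp
      linear_combination -h00
    · field_simp
    · field_simp
      linear_combination h10
  · by_cases hb1 : M 0 1 = 0
    · by_cases hb2 : M 1 0 = 0
      · have ha : M 0 0 ≠ 0 := by
          intro h0
          apply hb
          rw [htr, h0]; simp
        rw [hb1] at h01
        rw [hb2] at h10
        have hx01 : X 0 1 = 0 := by
          have : 2 * M 0 0 * X 0 1 = 0 := by linear_combination -h01
          rcases mul_eq_zero.mp this with h | h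
          · exact absurd h (mul_ne_zero h2 ha)
          · exact h
        have hx10 : X 1 0 = 0 := by
          have : 2 * M 0 0 * X 1 0 = 0 := by linear_combination h10
          rcases mul_eq_zero.mp this with h | h
          · exact absurd h (mul_ne_zero h2 ha)
          · exact h
        refine ⟨((X 0 0 + X 1 1) / 2, (X 0 0 - X 1 1) / (2 * M 0 0)), hx _ ?_ ?_ ?_⟩
        · rw [hb1, hx01]; simp
        · rw [hb2, hx10]; simp
        · field_simp
      · refine ⟨((X 0 0 + X 1 1) / 2, X 1 0 / M 1 0), hx _ ?_ ?_ ?_⟩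
        · field_simp
          linear_combination -h00
        · field_simp
        · field_simp
          linear_combination h10
    · refine ⟨((X 0 0 + X 1 1) / 2, X 0 1 / M 0 1), hx _ ?_ ?_ ?_⟩
      · field_simp
      · field_simp
        linear_combination h00
      · field_simp
        linear_combination -h01

theorem scalar_mul' (c : K) (X : Matrix (Fin 2) (Fin 2) K) : scalar (Fin 2) c * X = c • X := by
  rw [scalar_eq]
  ext i j
  fin_cases i <;> fin_cases j <;> simp [Matrix.mul_apply, Fin.sum_univ_two]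

theorem mul_scalar' (c : K) (X : Matrix (Fin 2) (Fin 2) K) : X * scalar (Fin 2) c = c • X := by
  rw [scalar_eq]
  ext i j
  fin_cases i <;> fin_cases j <;> simp [Matrix.mul_apply, Fin.sum_univ_two, mul_comm]

/-- if `X M = l • (M X)` with `M² = c ≠ 0` scalar and `X ≠ 0` then `l = ±1` -/
theorem sign_sq {M X : Matrix (Fin 2) (Fin 2) K} {c l : K} (h : M * M = scalar (Fin 2) c)
    (hc : c ≠ 0) (hX : X ≠ 0) (hl : X * M = l • (M * X)) : l = 1 ∨ l = -1 := by
  have h1 : X * (M * M) = (l * l) • ((M * M) * X) := by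
    rw [← Matrix.mul_assoc, hl, Matrix.smul_mul, Matrix.mul_assoc, hl, Matrix.mul_smul, smul_smul,
      Matrix.mul_assoc]
  rw [h, mul_scalar', scalar_mul', smul_smul] at h1
  have h3 : c = l * l * c := smul_left_injective K hX h1
  have h4 : (l - 1) * (l + 1) = 0 := by
    have : (l * l - 1) * c = 0 := by linear_combination -h3
    rcases mul_eq_zero.mp this with h | h
    · linear_combination h
    · exact absurd h hc
  rcases mul_eq_zero.mp h4 with h | h
  · left; linear_combination h
  · right; linear_combination h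

/-- invertible matrices commuting with `M` -/
def commSet (M : Matrix (Fin 2) (Fin 2) K) : Set (GL (Fin 2) K) := {X | X.val * M = M * X.val}

/-- invertible matrices anticommuting with `M` -/
def anticommSet (M : Matrix (Fin 2) (Fin 2) K) : Set (GL (Fin 2) K) :=
  {X | X.val * M = -(M * X.val)}

theorem unit_val_ne_zero (X : GL (Fin 2) K) : X.val ≠ 0 := by
  intro h
  have := X.mul_inv
  rw [h, Matrix.zero_mul] at this
  have h00 := congrFun (congrFun this 0) 0
  simp at h00

theorem commSet_ncard_le [Fintype K] (h2 : (2 : K) ≠ 0) {M : Matrix (Fin 2) (Fin 2) K}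
    (hns : ∀ r : K, M ≠ scalar (Fin 2) r) (htr : M 1 1 = - M 0 0) (S : Finset (K × K))
    (hS : ∀ X ∈ commSet M, ∀ p : K × K, X.val = scalar (Fin 2) p.1 + p.2 • M → p ∉ S) :
    (commSet M).ncard ≤ Fintype.card K * Fintype.card K - S.card := by
  classical
  let f : GL (Fin 2) K → K × K := fun X =>
    if h : ∃ p : K × K, X.val = scalar (Fin 2) p.1 + p.2 • M then h.choose else (0, 0)
  have hf : ∀ X ∈ commSet M, X.val = scalar (Fin 2) (f X).1 + (f X).2 • M := by
    intro X hX
    have h := comm_form h2 hns htr hX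
    simp only [f, dif_pos h]
    exact h.choose_spec
  have hmaps : ∀ X ∈ commSet M, f X ∈ ((Sᶜ : Finset (K × K)) : Set (K × K)) := by
    intro X hX
    simp only [Finset.coe_compl, Set.mem_compl_iff, Finset.mem_coe]
    exact hS X hX _ (hf X hX)
  have hinj : Set.InjOn f (commSet M) := by
    intro X hX Y hY hXY
    apply Units.ext
    rw [hf X hX, hf Y hY, hXY]
  have := Set.ncard_le_ncard_of_injOn f hmaps hinj
  rw [Set.ncard_coe_finset, Finset.card_compl, Fintype.card_prod] at this
  exact this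

theorem anticomm_ncard_le [Finite K] (M : Matrix (Fin 2) (Fin 2) K) :
    (anticommSet M).ncard ≤ (commSet M).ncard := by
  rcases Set.eq_empty_or_nonempty (anticommSet M) with h | ⟨X₀, hX₀⟩
  · rw [h]; simp
  · have hX₀' : X₀.val * M = -(M * X₀.val) := hX₀
    have key : (X₀⁻¹).val * M = -(M * (X₀⁻¹).val) := by
      have e1 : (X₀⁻¹).val * (X₀.val * M) * (X₀⁻¹).val = M * (X₀⁻¹).val := by
        rw [← Matrix.mul_assoc, ← Units.val_mul, inv_mul_cancel, Units.val_one, Matrix.one_mul]
      rw [hX₀', Matrix.mul_neg, Matrix.neg_mul, ← Matrix.mul_assoc, Matrix.mul_assoc _ X₀.val,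
        ← Units.val_mul, mul_inv_cancel, Units.val_one, Matrix.mul_one] at e1
      rw [← e1, neg_neg]
    apply Set.ncard_le_ncard_of_injOn (fun X => X₀⁻¹ * X)
    · intro X hX
      have hX' : X.val * M = -(M * X.val) := hX
      show (X₀⁻¹ * X).val * M = M * (X₀⁻¹ * X).val
      rw [Units.val_mul, Matrix.mul_assoc, hX', Matrix.mul_neg, ← Matrix.mul_assoc, key,
        Matrix.neg_mul, neg_neg, Matrix.mul_assoc]
    · intro X _ Y _ hXY
      exact mul_left_cancel hXY


/-- cardinality of the preimage of a subgroup of a quotient -/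
theorem card_comap_mk {G : Type*} [Group G] [Finite G] (N : Subgroup G) [N.Normal]
    (S : Subgroup (G ⧸ N)) :
    Nat.card (S.comap (QuotientGroup.mk' N)) = Nat.card S * Nat.card N := by
  have h1 : (S.comap (QuotientGroup.mk' N)).index = S.index :=
    Subgroup.index_comap_of_surjective S (QuotientGroup.mk'_surjective N)
  have h2 := Subgroup.card_mul_index (S.comap (QuotientGroup.mk' N))
  have h3 := Subgroup.card_mul_index S
  have h4 := Subgroup.card_eq_card_quotient_mul_card_subgroup N
  have h5 : S.index ≠ 0 := Subgroup.index_ne_zero_of_finite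
  rw [h1] at h2
  have h6 : Nat.card (S.comap (QuotientGroup.mk' N)) * S.index
      = Nat.card S * Nat.card N * S.index := by
    rw [h2, h4, ← h3]; ring
  exact Nat.eq_of_mul_eq_mul_right (Nat.pos_of_ne_zero h5) h6

theorem comap_centralizer_subset (A : GL (Fin 2) K) {c : K}
    (hA : A.val * A.val = scalar (Fin 2) c) :
    (((Subgroup.centralizer
      {(QuotientGroup.mk A : GL (Fin 2) K ⧸ Subgroup.center (GL (Fin 2) K))}).comap
      (QuotientGroup.mk' (Subgroup.center (GL (Fin 2) K)))) : Set (GL (Fin 2) K)) ⊆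
      commSet A.val ∪ anticommSet A.val := by
  intro X hX
  have h1 : (QuotientGroup.mk A : GL (Fin 2) K ⧸ Subgroup.center (GL (Fin 2) K)) *
      QuotientGroup.mk X = QuotientGroup.mk X * QuotientGroup.mk A :=
    Subgroup.mem_centralizer_iff.mp hX _ rfl
  rw [← QuotientGroup.mk_mul, ← QuotientGroup.mk_mul, QuotientGroup.eq] at h1
  rw [Matrix.GeneralLinearGroup.center_eq_range_scalar] at h1
  obtain ⟨u, hu⟩ := h1
  have h2 : X * A = A * X * Matrix.GeneralLinearGroup.scalar (Fin 2) u := by rw [hu]; group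
  have h3 : X.val * A.val = (u : K) • (A.val * X.val) := by
    have := congrArg Units.val h2
    rw [Units.val_mul, Units.val_mul, Units.val_mul, Matrix.GeneralLinearGroup.coe_scalar,
      mul_scalar'] at this
    exact this
  have hc : c ≠ 0 := by
    intro h0
    rw [h0, map_zero] at hA
    exact unit_val_ne_zero (A * A) (by rw [Units.val_mul]; exact hA)
  rcases sign_sq hA hc (unit_val_ne_zero X) h3 with h | h
  · left
    show X.val * A.val = A.val * X.val
    rw [h3, h, one_smul]
  · right
    show X.val * A.val = -(A.val * X.val)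
    rw [h3, h, neg_smul, one_smul]

theorem centralizer_card_bound [Fintype K] (h2 : (2 : K) ≠ 0) (A : GL (Fin 2) K) {c : K}
    (hA : A.val * A.val = scalar (Fin 2) c) (hns : ∀ r : K, A.val ≠ scalar (Fin 2) r)
    (S : Finset (K × K))
    (hS : ∀ X ∈ commSet A.val, ∀ p : K × K, X.val = scalar (Fin 2) p.1 + p.2 • A.val → p ∉ S) :
    Nat.card (Subgroup.centralizer
      {(QuotientGroup.mk A : GL (Fin 2) K ⧸ Subgroup.center (GL (Fin 2) K))}) *
      Nat.card (Subgroup.center (GL (Fin 2) K)) ≤
      2 * (Fintype.card K * Fintype.card K - S.card) := by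
  rw [← card_comap_mk]
  have htr := sq_scalar_trace_zero hA hns
  have h1 := commSet_ncard_le h2 hns htr S hS
  have h3 := anticomm_ncard_le A.val
  have h4 := Set.ncard_le_ncard (comap_centralizer_subset A hA)
  have h5 := Set.ncard_union_le (commSet A.val) (anticommSet A.val)
  have h6 : Nat.card ((Subgroup.centralizer
      {(QuotientGroup.mk A : GL (Fin 2) K ⧸ Subgroup.center (GL (Fin 2) K))}).comap
      (QuotientGroup.mk' (Subgroup.center (GL (Fin 2) K)))) =
      (((Subgroup.centralizer
      {(QuotientGroup.mk A : GL (Fin 2) K ⧸ Subgroup.center (GL (Fin 2) K))}).comap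
      (QuotientGroup.mk' (Subgroup.center (GL (Fin 2) K)))) : Set (GL (Fin 2) K)).ncard :=
    Nat.card_coe_set_eq _
  omega

theorem det_comm_eq {M N : Matrix (Fin 2) (Fin 2) K} {c : K} (hM : M * M = scalar (Fin 2) c)
    (hN : N * N = scalar (Fin 2) c) (htM : M 1 1 = - M 0 0) (htN : N 1 1 = - N 0 0) :
    det (M * N - N * M) = det (N - M) * det (N + M) := by
  obtain ⟨h1, -, -, -⟩ := sq_scalar_entries hM
  obtain ⟨h2, -, -, -⟩ := sq_scalar_entries hN
  simp only [det_fin_two, Matrix.sub_apply, Matrix.add_apply, Matrix.mul_apply, Fin.sum_univ_two,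
    htM, htN]
  linear_combination
    (-(M 0 0 * M 0 0 + M 0 1 * M 1 0 - (N 0 0 * N 0 0 + N 0 1 * N 1 0))) * (h1 - h2)

theorem det_sub_ne_zero {M N : Matrix (Fin 2) (Fin 2) K} {c : K} (hM : M * M = scalar (Fin 2) c)
    (hN : N * N = scalar (Fin 2) c) (htM : M 1 1 = - M 0 0) (htN : N 1 1 = - N 0 0)
    (hsq : ∀ y : K, y * y ≠ c) (hne : N ≠ M) : det (N - M) ≠ 0 := by
  obtain ⟨h1, -, -, -⟩ := sq_scalar_entries hM
  obtain ⟨h2, -, -, -⟩ := sq_scalar_entries hN
  intro hdet
  rw [det_fin_two] at hdet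
  simp only [Matrix.sub_apply, htM, htN] at hdet
  have hq : (N 0 0 - M 0 0) * (N 0 0 - M 0 0) + (N 0 1 - M 0 1) * (N 1 0 - M 1 0) = 0 := by
    linear_combination -hdet
  have htr : 2 * M 0 0 * (N 0 0 - M 0 0) + M 0 1 * (N 1 0 - M 1 0) + M 1 0 * (N 0 1 - M 0 1) = 0 := by
    linear_combination h2 - h1 - hq
  by_cases hd2 : N 0 1 - M 0 1 = 0
  · have hd1 : N 0 0 - M 0 0 = 0 := by
      rw [hd2, zero_mul, add_zero] at hq
      exact mul_self_eq_zero.mp hq
    rw [hd1, hd2] at htr
    simp only [mul_zero, zero_add, add_zero] at htr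
    rcases mul_eq_zero.mp htr with hb | hd3
    · apply hsq (M 0 0)
      rw [hb] at h1
      linear_combination h1
    · apply hne
      ext i j
      fin_cases i <;> fin_cases j <;> simp
      · linear_combination hd1
      · linear_combination hd2
      · linear_combination hd3
      · rw [htM, htN]; linear_combination -hd1
  · apply hsq ((M 0 1 * (N 0 0 - M 0 0) - M 0 0 * (N 0 1 - M 0 1)) / (N 0 1 - M 0 1))
    field_simp
    linear_combination (-(M 0 1)) * ((N 0 1 - M 0 1) * htr - (M 0 1) * hq)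
      + (N 0 1 - M 0 1) ^ 2 * h1

/-- the commutator of two distinct (up to sign) traceless matrices with the same non-square
square is invertible -/
theorem det_comm_ne_zero {M N : Matrix (Fin 2) (Fin 2) K} {c : K} (hM : M * M = scalar (Fin 2) c)
    (hN : N * N = scalar (Fin 2) c) (htM : M 1 1 = - M 0 0) (htN : N 1 1 = - N 0 0)
    (hsq : ∀ y : K, y * y ≠ c) (hne : N ≠ M) (hne' : N ≠ -M) : det (M * N - N * M) ≠ 0 := by
  rw [det_comm_eq hM hN htM htN]
  refine mul_ne_zero (det_sub_ne_zero hM hN htM htN hsq hne) ?_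
  have hM' : (-M) * (-M) = scalar (Fin 2) c := by rw [neg_mul_neg]; exact hM
  have htM' : (-M) 1 1 = - (-M) 0 0 := by simp [htM]
  have := det_sub_ne_zero hM' hN htM' htN hsq hne'
  rwa [sub_neg_eq_add] at this

theorem comm_anticomm {M N : Matrix (Fin 2) (Fin 2) K} {c : K} (hM : M * M = scalar (Fin 2) c) :
    (M * N - N * M) * M = -(M * (M * N - N * M)) := by
  rw [Matrix.sub_mul, Matrix.mul_sub, Matrix.mul_assoc N M M, ← Matrix.mul_assoc M M N, hM,
    mul_scalar', scalar_mul', Matrix.mul_assoc M N M]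
  abel

theorem comm_anticomm' {M N : Matrix (Fin 2) (Fin 2) K} {c : K} (hN : N * N = scalar (Fin 2) c) :
    (M * N - N * M) * N = -(N * (M * N - N * M)) := by
  rw [Matrix.sub_mul, Matrix.mul_sub, Matrix.mul_assoc M N N, ← Matrix.mul_assoc N N M, hN,
    mul_scalar', scalar_mul', Matrix.mul_assoc N M N]
  abel

theorem nat_aux (q : ℕ) (hq : 1 ≤ q) :
    (q ^ 2 - q ^ 0) * (q ^ 2 - q ^ 1) = ((q + 1) * q * (q - 1)) * (q - 1) := by
  obtain ⟨m, rfl⟩ : ∃ m, q = m + 1 := ⟨q - 1, by omega⟩
  have e1 : (m + 1) ^ 2 - (m + 1) ^ 0 = m * (m + 2) := by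
    have : (m + 1) ^ 2 = m * (m + 2) + 1 := by ring
    rw [this]; simp
  have e2 : (m + 1) ^ 2 - (m + 1) ^ 1 = (m + 1) * m := by
    have : (m + 1) ^ 2 = (m + 1) * m + (m + 1) ^ 1 := by ring
    rw [this]; simp
  rw [e1, e2]
  simp
  ring

theorem scalar_injective : Function.Injective (Matrix.GeneralLinearGroup.scalar (Fin 2) (R := K)) := by
  intro u v h
  have := congrArg (fun M : GL (Fin 2) K => M.val 0 0) h
  simp [Matrix.GeneralLinearGroup.coe_scalar] at this
  exact Units.ext this

theorem card_center [Fintype K] :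
    Nat.card (Subgroup.center (GL (Fin 2) K)) = Fintype.card K - 1 := by
  rw [Matrix.GeneralLinearGroup.center_eq_range_scalar]
  rw [← Nat.card_congr (MonoidHom.ofInjective scalar_injective).toEquiv, Nat.card_units,
    Nat.card_eq_fintype_card]

theorem card_quot [Fintype K] :
    Nat.card (GL (Fin 2) K ⧸ Subgroup.center (GL (Fin 2) K)) =
      (Fintype.card K + 1) * Fintype.card K * (Fintype.card K - 1) := by
  have h1 := Subgroup.card_eq_card_quotient_mul_card_subgroup (Subgroup.center (GL (Fin 2) K))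
  rw [card_center, Matrix.card_GL_field, Fin.prod_univ_two] at h1
  have hpos : 1 < Fintype.card K := Fintype.one_lt_card
  simp only [Fin.val_zero, Fin.val_one] at h1
  rw [nat_aux _ hpos.le] at h1
  exact (Nat.eq_of_mul_eq_mul_right (by omega) h1).symm

/-- Let q = 2^k − 1 ≥ 7 be a prime and let G = PGL(2,q), the general linear group of degree 2 over the field with q elements modulo its centre. Then any two Sylow 2-subgroups of G have a non-trivial intersection: for a Sylow 2-subgroup H and every x ∈ G, H ∩ H^x ≠ 1. -/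
theorem result {q k : ℕ} [Fact q.Prime] (hk : q + 1 = 2 ^ k) (hq : 7 ≤ q)
    (H : Sylow 2 (GL (Fin 2) (ZMod q) ⧸ Subgroup.center (GL (Fin 2) (ZMod q))))
    (x : GL (Fin 2) (ZMod q) ⧸ Subgroup.center (GL (Fin 2) (ZMod q))) :
    (H : Subgroup (GL (Fin 2) (ZMod q) ⧸ Subgroup.center (GL (Fin 2) (ZMod q)))) ⊓ MulAut.conj x • (H : Subgroup _) ≠ ⊥ := by
  classical
  have h2 : (2 : ZMod q) ≠ 0 := by
    intro h
    have h' : ((2 : ℕ) : ZMod q) = 0 := by exact_mod_cast h
    rw [ZMod.natCast_eq_zero_iff] at h'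
    have := Nat.le_of_dvd (by norm_num) h'
    omega
  have hcardK : Fintype.card (ZMod q) = q := ZMod.card q
  have hZ : Nat.card (Subgroup.center (GL (Fin 2) (ZMod q))) = q - 1 := by
    rw [card_center, hcardK]
  have hG : Nat.card (GL (Fin 2) (ZMod q) ⧸ Subgroup.center (GL (Fin 2) (ZMod q))) =
      (q + 1) * q * (q - 1) := by
    rw [card_quot, hcardK]
  obtain ⟨j, rfl⟩ : ∃ j, k = j + 1 := by
    refine ⟨k - 1, ?_⟩
    have : k ≠ 0 := by
      intro h0
      rw [h0] at hk
      simp at hk
      omega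
    omega
  have hk' : q + 1 = 2 * 2 ^ j := by rw [hk, pow_succ]; ring
  have hdvdG : 2 ^ (j + 2) ∣ Nat.card (GL (Fin 2) (ZMod q) ⧸ Subgroup.center (GL (Fin 2) (ZMod q))) := by
    rw [hG]
    have e : q - 1 = 2 * (2 ^ j - 1) := by omega
    rw [e, hk]
    exact ⟨q * (2 ^ j - 1), by ring⟩
  have hHdvd : 2 ^ (j + 2) ∣ Nat.card H := H.pow_dvd_card_of_pow_dvd_card hdvdG
  have hHcard : 2 ^ (j + 2) ≤ Nat.card H := Nat.le_of_dvd Nat.card_pos hHdvd
  have hpow : 2 ^ (j + 2) = 2 * (q + 1) := by rw [hk']; ring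
  -- a central involution of `H`
  have hHnt : Nontrivial H := by
    rw [← Finite.one_lt_card_iff_nontrivial]
    omega
  have hcen : Nontrivial (Subgroup.center H) := H.isPGroup'.center_nontrivial
  have hcenP : IsPGroup 2 (Subgroup.center H) := H.isPGroup'.to_subgroup _
  obtain ⟨n, hn⟩ := IsPGroup.iff_card.mp hcenP
  have hn0 : n ≠ 0 := by
    intro h0
    rw [h0, pow_zero] at hn
    have := Finite.one_lt_card_iff_nontrivial.mpr hcen
    omega
  have hdvd : 2 ∣ Nat.card (Subgroup.center H) := by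
    rw [hn]; exact dvd_pow_self 2 hn0
  obtain ⟨z₀, hz₀⟩ := exists_prime_orderOf_dvd_card' 2 hdvd
  obtain ⟨z, hzdef⟩ : ∃ z : GL (Fin 2) (ZMod q) ⧸ Subgroup.center (GL (Fin 2) (ZMod q)),
      z = ((z₀ : H) : GL (Fin 2) (ZMod q) ⧸ Subgroup.center (GL (Fin 2) (ZMod q))) := ⟨_, rfl⟩
  have hzH : z ∈ (H : Subgroup _) := by rw [hzdef]; exact (z₀ : H).2
  have hz1 : z ≠ 1 := by
    rw [hzdef]
    intro h
    have h' : z₀ = 1 := by
      apply Subtype.ext; apply Subtype.ext; exact h
    rw [h', orderOf_one] at hz₀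
    omega
  have hzz : z * z = 1 := by
    have h := pow_orderOf_eq_one z₀
    rw [hz₀, pow_two] at h
    rw [hzdef]
    have h' := congrArg (fun w : Subgroup.center H => ((w : H) : GL (Fin 2) (ZMod q) ⧸ Subgroup.center (GL (Fin 2) (ZMod q)))) h
    simpa using h'
  have hzc : ∀ h ∈ (H : Subgroup _), h * z = z * h := by
    intro h hh
    have := Subgroup.mem_center_iff.mp z₀.2 ⟨h, hh⟩
    rw [hzdef]
    exact congrArg Subtype.val this
  clear hzdef hz₀ z₀ hdvd hn0 hn hcenP hcen
  obtain ⟨A, rfl⟩ := QuotientGroup.mk_surjective z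
  have hns : ∀ r : ZMod q, A.val ≠ scalar (Fin 2) r := by
    intro r hr
    apply hz1
    rw [QuotientGroup.eq_one_iff, Matrix.GeneralLinearGroup.mem_center_iff_val_mem_range_scalar]
    exact ⟨r, hr.symm⟩
  obtain ⟨c, hc⟩ : ∃ c : ZMod q, A.val * A.val = scalar (Fin 2) c := by
    have h : (A * A) ∈ Subgroup.center (GL (Fin 2) (ZMod q)) := by
      rw [← QuotientGroup.eq_one_iff, QuotientGroup.mk_mul]; exact hzz
    rw [Matrix.GeneralLinearGroup.mem_center_iff_val_mem_range_scalar] at h
    obtain ⟨c, hc⟩ := h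
    exact ⟨c, by rw [hc, Units.val_mul]⟩
  have htr := sq_scalar_trace_zero hc hns
  have hle : (H : Subgroup (GL (Fin 2) (ZMod q) ⧸ Subgroup.center (GL (Fin 2) (ZMod q)))) ≤
      Subgroup.centralizer {(QuotientGroup.mk A :
        GL (Fin 2) (ZMod q) ⧸ Subgroup.center (GL (Fin 2) (ZMod q)))} := by
    intro h hh
    rw [Subgroup.mem_centralizer_iff]
    intro g hg
    rw [Set.mem_singleton_iff] at hg
    rw [hg]; exact (hzc h hh).symm
  have hS1 : ∀ X ∈ commSet A.val, ∀ p : ZMod q × ZMod q,
      X.val = scalar (Fin 2) p.1 + p.2 • A.val → p ∉ ({(0, 0)} : Finset (ZMod q × ZMod q)) := by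
    intro X _ p hp hmem
    rw [Finset.mem_singleton] at hmem
    rw [hmem] at hp
    exact unit_val_ne_zero X (by simp at hp)
  have hb1 := centralizer_card_bound h2 A hc hns {(0, 0)} hS1
  rw [hZ, hcardK, Finset.card_singleton] at hb1
  have hcardle := Subgroup.card_le_of_le hle
  have hqq : 49 ≤ q * q := Nat.mul_le_mul hq hq
  have e : 2 * (q * q - 1) = 2 * (q + 1) * (q - 1) := by
    obtain ⟨m, hm⟩ : ∃ m, q = m + 1 := ⟨q - 1, by omega⟩
    rw [hm]
    have : (m + 1) * (m + 1) = (m + 1 + 1) * m + 1 := by ring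
    rw [this]; simp; ring
  have hCcard : Nat.card (Subgroup.centralizer {(QuotientGroup.mk A :
        GL (Fin 2) (ZMod q) ⧸ Subgroup.center (GL (Fin 2) (ZMod q)))}) ≤ 2 ^ (j + 2) := by
    rw [e] at hb1
    rw [hpow]
    exact Nat.le_of_mul_le_mul_right hb1 (by omega)
  have hHC : (H : Subgroup (GL (Fin 2) (ZMod q) ⧸ Subgroup.center (GL (Fin 2) (ZMod q)))) =
      Subgroup.centralizer {(QuotientGroup.mk A :
        GL (Fin 2) (ZMod q) ⧸ Subgroup.center (GL (Fin 2) (ZMod q)))} :=
    Subgroup.eq_of_le_of_card_ge hle (by omega)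
  have hsq : ∀ y : ZMod q, y * y ≠ c := by
    intro y hy
    have hS2 : ∀ X ∈ commSet A.val, ∀ p : ZMod q × ZMod q,
        X.val = scalar (Fin 2) p.1 + p.2 • A.val →
        p ∉ ({(0, 0), (-y, 1)} : Finset (ZMod q × ZMod q)) := by
      intro X _ p hp hmem
      rw [Finset.mem_insert, Finset.mem_singleton] at hmem
      rcases hmem with hmem | hmem
      · rw [hmem] at hp
        exact unit_val_ne_zero X (by simp at hp)
      · rw [hmem] at hp
        simp only [one_smul] at hp
        have h0 : X.val * (A.val + scalar (Fin 2) y) = 0 := by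
          rw [hp, Matrix.add_mul, Matrix.mul_add, Matrix.mul_add, hc, scalar_mul', scalar_mul',
            mul_scalar', ← hy, scalar_eq, scalar_eq]
          ext i j
          fin_cases i <;> fin_cases j <;> simp
        have h1 : A.val + scalar (Fin 2) y = 0 := by
          have := congrArg (fun M => (X⁻¹).val * M) h0
          simp only [← Matrix.mul_assoc, ← Units.val_mul, inv_mul_cancel, Units.val_one,
            Matrix.one_mul, Matrix.mul_zero] at this
          exact this
        apply hns (-y)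
        rw [map_neg]
        exact eq_neg_of_add_eq_zero_left h1
    have hb2 := centralizer_card_bound h2 A hc hns {(0, 0), (-y, 1)} hS2
    have hcard2 : ({(0, 0), (-y, 1)} : Finset (ZMod q × ZMod q)).card = 2 := by
      rw [Finset.card_pair]
      simp
    rw [hZ, hcardK, hcard2] at hb2
    have hmul : 2 ^ (j + 2) * (q - 1) ≤ Nat.card (Subgroup.centralizer {(QuotientGroup.mk A :
        GL (Fin 2) (ZMod q) ⧸ Subgroup.center (GL (Fin 2) (ZMod q)))}) * (q - 1) :=
      Nat.mul_le_mul_right _ (le_trans hHcard hcardle)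
    rw [hpow, ← e] at hmul
    omega
  obtain ⟨X, rfl⟩ := QuotientGroup.mk_surjective x
  by_cases hzz' : (QuotientGroup.mk X : GL (Fin 2) (ZMod q) ⧸ Subgroup.center (GL (Fin 2) (ZMod q))) *
      QuotientGroup.mk A * (QuotientGroup.mk X)⁻¹ = QuotientGroup.mk A
  · intro hbot
    have hmem : (QuotientGroup.mk A : GL (Fin 2) (ZMod q) ⧸ Subgroup.center (GL (Fin 2) (ZMod q))) ∈
        (H : Subgroup (GL (Fin 2) (ZMod q) ⧸ Subgroup.center (GL (Fin 2) (ZMod q)))) ⊓
          MulAut.conj (QuotientGroup.mk X :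
            GL (Fin 2) (ZMod q) ⧸ Subgroup.center (GL (Fin 2) (ZMod q))) •
            (H : Subgroup (GL (Fin 2) (ZMod q) ⧸ Subgroup.center (GL (Fin 2) (ZMod q)))) := by
      refine Subgroup.mem_inf.mpr ⟨hzH, ?_⟩
      have := Subgroup.smul_mem_pointwise_smul _ (MulAut.conj (QuotientGroup.mk X :
        GL (Fin 2) (ZMod q) ⧸ Subgroup.center (GL (Fin 2) (ZMod q))))
        (H : Subgroup (GL (Fin 2) (ZMod q) ⧸ Subgroup.center (GL (Fin 2) (ZMod q)))) hzH
      rw [MulAut.smul_def, MulAut.conj_apply, hzz'] at this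
      exact this
    rw [hbot, Subgroup.mem_bot] at hmem
    exact hz1 hmem
  · obtain ⟨B, hB⟩ : ∃ B : GL (Fin 2) (ZMod q), B = X * A * X⁻¹ := ⟨_, rfl⟩
    have hBc : B.val * B.val = scalar (Fin 2) c := by
      have h1 : B * B = X * (A * A) * X⁻¹ := by rw [hB]; group
      have h2 : (X * (A * A) * X⁻¹).val = scalar (Fin 2) c := by
        rw [Units.val_mul, Units.val_mul, Units.val_mul, hc, mul_scalar', Matrix.smul_mul,
          ← Units.val_mul, mul_inv_cancel, Units.val_one, scalar_eq]
        ext i j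
        fin_cases i <;> fin_cases j <;> simp
      rw [← Units.val_mul, h1, h2]
    have hBns : ∀ r : ZMod q, B.val ≠ scalar (Fin 2) r := by
      intro r hr
      apply hz1
      have hBcen : B ∈ Subgroup.center (GL (Fin 2) (ZMod q)) := by
        rw [Matrix.GeneralLinearGroup.mem_center_iff_val_mem_range_scalar]
        exact ⟨r, hr.symm⟩
      have hAB : A = X⁻¹ * B * X⁻¹⁻¹ := by rw [hB]; group
      rw [QuotientGroup.eq_one_iff, hAB]
      exact (inferInstance : (Subgroup.center (GL (Fin 2) (ZMod q))).Normal).conj_mem B hBcen X⁻¹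
    have htrB := sq_scalar_trace_zero hBc hBns
    have hne : B.val ≠ A.val := by
      intro h
      apply hzz'
      have hBA : B = A := Units.ext h
      rw [← QuotientGroup.mk_inv, ← QuotientGroup.mk_mul, ← QuotientGroup.mk_mul, ← hB, hBA]
    have hne' : B.val ≠ -A.val := by
      intro h
      apply hzz'
      rw [← QuotientGroup.mk_inv, ← QuotientGroup.mk_mul, ← QuotientGroup.mk_mul, ← hB,
        QuotientGroup.eq, Matrix.GeneralLinearGroup.mem_center_iff_val_mem_range_scalar]
      refine ⟨-1, ?_⟩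
      have h1 : B.val * scalar (Fin 2) (-1) = A.val := by
        rw [mul_scalar', h]; simp
      rw [Units.val_mul, ← h1, ← Matrix.mul_assoc, ← Units.val_mul, inv_mul_cancel, Units.val_one,
        Matrix.one_mul]
    have hdet := det_comm_ne_zero hc hBc htr htrB hsq hne hne'
    obtain ⟨C, hCval⟩ : ∃ C : GL (Fin 2) (ZMod q), C.val = A.val * B.val - B.val * A.val :=
      ⟨Matrix.GeneralLinearGroup.mkOfDetNeZero _ hdet, rfl⟩
    have hCA : (QuotientGroup.mk A : GL (Fin 2) (ZMod q) ⧸ Subgroup.center (GL (Fin 2) (ZMod q))) *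
        QuotientGroup.mk C = QuotientGroup.mk C * QuotientGroup.mk A := by
      rw [← QuotientGroup.mk_mul, ← QuotientGroup.mk_mul, QuotientGroup.eq,
        Matrix.GeneralLinearGroup.mem_center_iff_val_mem_range_scalar]
      refine ⟨-1, ?_⟩
      have h1 : (C * A).val = (A * C).val * scalar (Fin 2) (-1) := by
        rw [Units.val_mul, Units.val_mul, mul_scalar', hCval, comm_anticomm hc]; simp
      rw [Units.val_mul, h1, ← Matrix.mul_assoc, ← Units.val_mul, inv_mul_cancel, Units.val_one,
        Matrix.one_mul]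
    have hCB : (QuotientGroup.mk B : GL (Fin 2) (ZMod q) ⧸ Subgroup.center (GL (Fin 2) (ZMod q))) *
        QuotientGroup.mk C = QuotientGroup.mk C * QuotientGroup.mk B := by
      rw [← QuotientGroup.mk_mul, ← QuotientGroup.mk_mul, QuotientGroup.eq,
        Matrix.GeneralLinearGroup.mem_center_iff_val_mem_range_scalar]
      refine ⟨-1, ?_⟩
      have h1 : (C * B).val = (B * C).val * scalar (Fin 2) (-1) := by
        rw [Units.val_mul, Units.val_mul, mul_scalar', hCval, comm_anticomm' hBc]; simp
      rw [Units.val_mul, h1, ← Matrix.mul_assoc, ← Units.val_mul, inv_mul_cancel, Units.val_one,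
        Matrix.one_mul]
    have hC1 : (QuotientGroup.mk C : GL (Fin 2) (ZMod q) ⧸ Subgroup.center (GL (Fin 2) (ZMod q))) ≠ 1 := by
      intro h
      rw [QuotientGroup.eq_one_iff, Matrix.GeneralLinearGroup.mem_center_iff_val_mem_range_scalar] at h
      obtain ⟨r, hr⟩ := h
      have h00 := congrFun (congrFun hr 0) 0
      have h11 := congrFun (congrFun hr 1) 1
      rw [hCval] at h00 h11
      simp [Matrix.mul_apply, Fin.sum_univ_two] at h00 h11
      have h2r : 2 * r = 0 := by linear_combination h00 + h11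
      have hr0 : r = 0 := by
        rcases mul_eq_zero.mp h2r with h | h
        · exact absurd h h2
        · exact h
      rw [hr0, map_zero] at hr
      exact unit_val_ne_zero C hr.symm
    intro hbot
    have hmem : (QuotientGroup.mk C : GL (Fin 2) (ZMod q) ⧸ Subgroup.center (GL (Fin 2) (ZMod q))) ∈
        (H : Subgroup (GL (Fin 2) (ZMod q) ⧸ Subgroup.center (GL (Fin 2) (ZMod q)))) ⊓
          MulAut.conj (QuotientGroup.mk X :
            GL (Fin 2) (ZMod q) ⧸ Subgroup.center (GL (Fin 2) (ZMod q))) •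
            (H : Subgroup (GL (Fin 2) (ZMod q) ⧸ Subgroup.center (GL (Fin 2) (ZMod q)))) := by
      refine Subgroup.mem_inf.mpr ⟨?_, ?_⟩
      · rw [hHC, Subgroup.mem_centralizer_iff]
        intro g hg
        rw [Set.mem_singleton_iff] at hg
        rw [hg]; exact hCA
      · rw [Subgroup.mem_pointwise_smul_iff_inv_smul_mem, hHC, Subgroup.mem_centralizer_iff]
        intro g hg
        rw [Set.mem_singleton_iff] at hg
        rw [hg, MulAut.smul_def, MulAut.conj_inv_apply]
        have hB' : (QuotientGroup.mk B : GL (Fin 2) (ZMod q) ⧸ Subgroup.center (GL (Fin 2) (ZMod q))) =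
            QuotientGroup.mk X * QuotientGroup.mk A * (QuotientGroup.mk X)⁻¹ := by
          rw [hB]; simp
        have hA' : (QuotientGroup.mk A : GL (Fin 2) (ZMod q) ⧸ Subgroup.center (GL (Fin 2) (ZMod q))) =
            (QuotientGroup.mk X)⁻¹ * QuotientGroup.mk B * QuotientGroup.mk X := by
          rw [hB']; group
        rw [hA']
        have e1 : ((QuotientGroup.mk X : GL (Fin 2) (ZMod q) ⧸ Subgroup.center (GL (Fin 2) (ZMod q))))⁻¹ *
            QuotientGroup.mk B * QuotientGroup.mk X *
            ((QuotientGroup.mk X)⁻¹ * QuotientGroup.mk C * QuotientGroup.mk X) =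
            (QuotientGroup.mk X)⁻¹ * (QuotientGroup.mk B * QuotientGroup.mk C) * QuotientGroup.mk X := by
          group
        have e2 : ((QuotientGroup.mk X : GL (Fin 2) (ZMod q) ⧸ Subgroup.center (GL (Fin 2) (ZMod q))))⁻¹ *
            QuotientGroup.mk C * QuotientGroup.mk X *
            ((QuotientGroup.mk X)⁻¹ * QuotientGroup.mk B * QuotientGroup.mk X) =
            (QuotientGroup.mk X)⁻¹ * (QuotientGroup.mk C * QuotientGroup.mk B) * QuotientGroup.mk X := by
          group
        rw [e1, e2, hCB]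
    rw [hbot, Subgroup.mem_bot] at hmem
    exact hC1 hmem

end Cfsg.Agent.S2485
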