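import Mathlib
import Cfsg.Statements.S2486
import Cfsg.Agent.S0242

set_option autoImplicit false
open scoped Pointwise
open Cfsg

namespace Cfsg.Agent.S2486

open Matrix

theorem zmod2_eq_one : ∀ x : ZMod 2, x ≠ 0 → x = 1 := by decide

/-- The upper triangular subgroup of `SL_n(𝔽₂)`. -/
def upperSub (n : ℕ) : Subgroup (Matrix.SpecialLinearGroup (Fin n) (ZMod 2)) where
  carrier := {g | (g : Matrix (Fin n) (Fin n) (ZMod 2)).IsUpperTriangular}
  one_mem' := by
    show ((1 : Matrix.SpecialLinearGroup (Fin n) (ZMod 2)) : Matrix (Fin n) (Fin n) (ZMod 2)).IsUpperTriangular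
    rw [Matrix.SpecialLinearGroup.coe_one]
    exact Matrix.blockTriangular_one
  mul_mem' := by
    intro a b ha hb
    show ((a * b : Matrix.SpecialLinearGroup (Fin n) (ZMod 2)) : Matrix (Fin n) (Fin n) (ZMod 2)).IsUpperTriangular
    rw [Matrix.SpecialLinearGroup.coe_mul]
    exact Matrix.BlockTriangular.mul ha hb
  inv_mem' := by
    intro a ha
    have hpos : 0 < orderOf a := orderOf_pos a
    have hinv : a⁻¹ = a ^ (orderOf a - 1) := by
      apply inv_eq_of_mul_eq_one_right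
      rw [← pow_succ', Nat.sub_add_cancel hpos, pow_orderOf_eq_one]
    show ((a⁻¹ : Matrix.SpecialLinearGroup (Fin n) (ZMod 2)) : Matrix (Fin n) (Fin n) (ZMod 2)).IsUpperTriangular
    rw [hinv, Matrix.SpecialLinearGroup.coe_pow]
    exact Matrix.BlockTriangular.pow ha _

theorem mem_upperSub {n : ℕ} (g : Matrix.SpecialLinearGroup (Fin n) (ZMod 2)) :
    g ∈ upperSub n ↔ ∀ i j : Fin n, j < i → g.1 i j = 0 :=
  ⟨fun h i j hij => h hij, fun h i j hij => h i j hij⟩

/-- Diagonal entries of an upper triangular element are `1`. -/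
theorem upper_diag {n : ℕ} (M : Matrix (Fin n) (Fin n) (ZMod 2)) (hM : M.IsUpperTriangular)
    (hdet : M.det = 1) (i : Fin n) : M i i = 1 := by
  apply zmod2_eq_one
  intro h0
  rw [Matrix.det_of_isUpperTriangular hM] at hdet
  have : ∏ i : Fin n, M i i = 0 := Finset.prod_eq_zero (Finset.mem_univ i) h0
  rw [this] at hdet
  exact zero_ne_one hdet

/-- An upper triangular matrix with unit diagonal has determinant one. -/
theorem det_unitri {n : ℕ} (M : Matrix (Fin n) (Fin n) (ZMod 2)) (hM : ∀ i j : Fin n, j < i → M i j = 0)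
    (hd : ∀ i, M i i = 1) : M.det = 1 := by
  have hU : M.IsUpperTriangular := fun i j hij => hM i j hij
  rw [Matrix.det_of_isUpperTriangular hU]
  exact Finset.prod_eq_one (fun i _ => hd i)

/-- The strictly upper triangular positions. -/
abbrev Idx (n : ℕ) : Type := Σ j : Fin n, Fin (j : ℕ)

/-- The upper triangular group is in bijection with the functions on the strictly upper
triangular positions. -/
noncomputable def upperEquiv (n : ℕ) : upperSub n ≃ (Idx n → ZMod 2) where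
  toFun g := fun p => g.1.1 (Fin.castLE p.1.2.le p.2) p.1
  invFun f := ⟨⟨Matrix.of (fun i j : Fin n => if i = j then (1 : ZMod 2) else
      if h : i < j then f ⟨j, ⟨i, h⟩⟩ else 0), by
        apply det_unitri
        · intro i j hij
          have h1 : i ≠ j := ne_of_gt hij
          have h2 : ¬ i < j := not_lt.mpr hij.le
          simp [h1, h2]
        · intro i; simp⟩, by
        intro i j hij
        have h1 : i ≠ j := ne_of_gt hij
        have h2 : ¬ i < j := not_lt.mpr hij.le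
        simp [h1, h2]⟩
  left_inv := by
    rintro ⟨g, hg⟩
    apply Subtype.ext
    apply Subtype.ext
    ext i j
    simp only [Matrix.of_apply]
    by_cases h1 : i = j
    · subst h1
      rw [if_pos rfl]
      exact (upper_diag g.1 hg g.2 i).symm
    · rw [if_neg h1]
      by_cases h2 : i < j
      · rw [dif_pos h2]
        rfl
      · rw [dif_neg h2]
        have : j < i := lt_of_le_of_ne (not_lt.mp h2) (Ne.symm h1)
        exact (hg this).symm
  right_inv := by
    intro f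
    funext p
    obtain ⟨j, i⟩ := p
    have h1 : (Fin.castLE j.2.le i : Fin n) ≠ j := by
      intro h
      have := congrArg Fin.val h
      simp at this
      omega
    have h2 : (Fin.castLE j.2.le i : Fin n) < j := by
      rw [Fin.lt_def]; simp
    simp only [Matrix.of_apply]
    rw [if_neg h1, dif_pos h2]
    rfl

theorem card_upperSub (n : ℕ) : Nat.card (upperSub n) = 2 ^ (∑ j : Fin n, (j : ℕ)) := by
  rw [Nat.card_congr (upperEquiv n), Nat.card_eq_fintype_card, Fintype.card_fun, ZMod.card,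
    Fintype.card_sigma]
  simp

theorem card_SL (n : ℕ) (hn : 1 ≤ n) :
    Nat.card (Matrix.SpecialLinearGroup (Fin n) (ZMod 2)) =
      2 ^ (∑ j : Fin n, (j : ℕ)) * ∏ j : Fin n, (2 ^ (n - (j : ℕ)) - 1) := by
  have h := Cfsg.Agent.S0242.result (F := ZMod 2) (q := 2) (ZMod.card 2) n hn
  rw [show (2 - 1 : ℕ) = 1 from rfl, one_mul] at h
  rw [h, ← Finset.prod_pow_eq_pow_sum, ← Finset.prod_mul_distrib]
  apply Finset.prod_congr rfl
  intro j _
  have hj : (j : ℕ) < n := j.2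
  have : 2 ^ n = 2 ^ (j : ℕ) * 2 ^ (n - (j : ℕ)) := by
    rw [← pow_add]; congr 1; omega
  rw [this, Nat.mul_sub, mul_one]

theorem upperSub_isPGroup (n : ℕ) : IsPGroup 2 (upperSub n) :=
  IsPGroup.of_card (card_upperSub n)

theorem upperSub_index (n : ℕ) (hn : 1 ≤ n) : ¬ 2 ∣ (upperSub n).index := by
  have h1 := (upperSub n).card_mul_index
  rw [card_upperSub, card_SL n hn] at h1
  have h2 : (upperSub n).index = ∏ j : Fin n, (2 ^ (n - (j : ℕ)) - 1) :=
    Nat.eq_of_mul_eq_mul_left (by positivity) h1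
  rw [h2, Nat.prime_two.prime.dvd_finsetProd_iff]
  rintro ⟨j, -, hj⟩
  have hj' : (j : ℕ) < n := j.2
  have : 2 ∣ 2 ^ (n - (j : ℕ)) := dvd_pow_self 2 (by omega)
  have hpos : 1 ≤ 2 ^ (n - (j : ℕ)) := Nat.one_le_two_pow
  omega

/-- `v` is supported on the indices `< k`. -/
def Below {n : ℕ} {R : Type*} [Zero R] (k : ℕ) (v : Fin n → R) : Prop :=
  ∀ i : Fin n, k ≤ (i : ℕ) → v i = 0

theorem card_ge_le (n b : ℕ) : Fintype.card {i : Fin n // b ≤ (i : ℕ)} ≤ n - b := by
  by_cases hb : b ≤ n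
  · have : Fintype.card {i : Fin n // b ≤ (i : ℕ)} ≤ Fintype.card (Fin (n - b)) := by
      apply Fintype.card_le_of_injective
        (fun i : {i : Fin n // b ≤ (i : ℕ)} => (⟨(i.1 : ℕ) - b, by have := i.1.2; have := i.2; omega⟩ : Fin (n - b)))
      intro i j hij
      have h := congrArg Fin.val hij
      simp only at h
      apply Subtype.ext
      apply Fin.ext
      have := i.2; have := j.2
      omega
    simpa using this
  · have : IsEmpty {i : Fin n // b ≤ (i : ℕ)} := ⟨fun i => by have := i.1.2; have := i.2; omega⟩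
    simp

theorem card_lt_eq (n k : ℕ) (hk : k ≤ n) : Fintype.card {j : Fin n // (j : ℕ) < k} = k := by
  have e : Fin k ≃ {j : Fin n // (j : ℕ) < k} :=
    { toFun := fun i => ⟨⟨i, lt_of_lt_of_le i.2 hk⟩, i.2⟩
      invFun := fun j => ⟨j.1, j.2⟩
      left_inv := fun i => rfl
      right_inv := fun j => rfl }
  rw [← Fintype.card_congr e, Fintype.card_fin]

/-- An underdetermined homogeneous system has a nonzero solution. -/
theorem exists_below {K : Type*} [Field K] {n : ℕ} (A : Matrix (Fin n) (Fin n) K) (a b : ℕ)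
    (hab : n < a + b) (ha : a ≤ n) (hb : b ≤ n) :
    ∃ c : Fin n → K, c ≠ 0 ∧ Below a c ∧ Below b (A *ᵥ c) := by
  classical
  let L : (Fin n → K) →ₗ[K]
      (({i : Fin n // b ≤ (i : ℕ)} → K) × ({i : Fin n // a ≤ (i : ℕ)} → K)) :=
    { toFun := fun c => (fun i => (A *ᵥ c) i, fun i => c i)
      map_add' := by
        intro c d
        ext i <;> simp [Matrix.mulVec_add]
      map_smul' := by
        intro r c
        ext i <;> simp [Matrix.mulVec_smul] }
  have hfin : Module.finrank K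
      (({i : Fin n // b ≤ (i : ℕ)} → K) × ({i : Fin n // a ≤ (i : ℕ)} → K)) <
      Module.finrank K (Fin n → K) := by
    rw [Module.finrank_prod, Module.finrank_fintype_fun_eq_card,
      Module.finrank_fintype_fun_eq_card, Module.finrank_fintype_fun_eq_card, Fintype.card_fin]
    have h1 := card_ge_le n b
    have h2 := card_ge_le n a
    omega
  have hker := LinearMap.ker_ne_bot_of_finrank_lt (f := L) hfin
  obtain ⟨c, hc, hc0⟩ := (Submodule.ne_bot_iff _).mp hker
  rw [LinearMap.mem_ker] at hc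
  have h1 : (fun i : {i : Fin n // b ≤ (i : ℕ)} => (A *ᵥ c) i) = 0 := congrArg Prod.fst hc
  have h2 : (fun i : {i : Fin n // a ≤ (i : ℕ)} => c i) = 0 := congrArg Prod.snd hc
  refine ⟨c, hc0, ?_, ?_⟩
  · intro i hi
    exact congrFun h2 ⟨i, hi⟩
  · intro i hi
    exact congrFun h1 ⟨i, hi⟩

/-- A functional vanishing on two subspaces that meet nontrivially and have complementary
dimensions. -/
theorem exists_phi {K : Type*} [Field K] {n : ℕ} (G : Matrix (Fin n) (Fin n) K) (k : ℕ)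
    (hk : k ≤ n) (c : Fin n → K) (hc0 : c ≠ 0) (hc : Below (n - k) c) (hv : Below k (G *ᵥ c)) :
    ∃ φ : Fin n → K, φ ≠ 0 ∧ (∀ j : Fin n, (j : ℕ) < k → φ j = 0) ∧
      (∀ j : Fin n, (j : ℕ) < n - k → (φ ᵥ* G) j = 0) := by
  classical
  let L : (Fin n → K) →ₗ[K]
      (({j : Fin n // (j : ℕ) < k} → K) × ({j : Fin n // (j : ℕ) < n - k} → K)) :=
    { toFun := fun φ => (fun j => φ j, fun j => (φ ᵥ* G) j)
      map_add' := by
        intro c d
        ext i <;> simp [Matrix.add_vecMul]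
      map_smul' := by
        intro r c
        ext i <;> simp [Matrix.smul_vecMul] }
  have hfin : Module.finrank K (Fin n → K) = Module.finrank K
      (({j : Fin n // (j : ℕ) < k} → K) × ({j : Fin n // (j : ℕ) < n - k} → K)) := by
    rw [Module.finrank_prod, Module.finrank_fintype_fun_eq_card,
      Module.finrank_fintype_fun_eq_card, Module.finrank_fintype_fun_eq_card, Fintype.card_fin,
      card_lt_eq n k hk, card_lt_eq n (n - k) (Nat.sub_le n k)]
    omega
  have hninj : ¬ Function.Injective L := by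
    intro hinj
    have hsurj := (LinearMap.injective_iff_surjective_of_finrank_eq_finrank hfin).mp hinj
    -- a coordinate where `c` is nonzero
    obtain ⟨j0, hj0⟩ : ∃ j0 : Fin n, c j0 ≠ 0 := by
      by_contra h
      push Not at h
      exact hc0 (funext h)
    have hj0k : (j0 : ℕ) < n - k := by
      by_contra h
      exact hj0 (hc j0 (not_lt.mp h))
    obtain ⟨φ₀, hφ₀⟩ := hsurj (0, Pi.single ⟨j0, hj0k⟩ 1)
    have h1 : ∀ j : Fin n, (j : ℕ) < k → φ₀ j = 0 := by
      intro j hj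
      have := congrArg Prod.fst hφ₀
      exact congrFun this ⟨j, hj⟩
    have h2 : ∀ j : Fin n, (hj : (j : ℕ) < n - k) → (φ₀ ᵥ* G) j =
        (Pi.single (⟨j0, hj0k⟩ : {j : Fin n // (j : ℕ) < n - k}) (1 : K) :
          {j : Fin n // (j : ℕ) < n - k} → K) ⟨j, hj⟩ := by
      intro j hj
      have := congrArg Prod.snd hφ₀
      exact congrFun this ⟨j, hj⟩
    have e1 : φ₀ ⬝ᵥ (G *ᵥ c) = 0 := by
      rw [dotProduct]
      apply Finset.sum_eq_zero
      intro j _
      by_cases hj : (j : ℕ) < k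
      · rw [h1 j hj, zero_mul]
      · rw [hv j (not_lt.mp hj), mul_zero]
    have e2 : (φ₀ ᵥ* G) ⬝ᵥ c = c j0 := by
      rw [dotProduct, Finset.sum_eq_single j0]
      · rw [h2 j0 hj0k]
        simp
      · intro j _ hj
        by_cases hjk : (j : ℕ) < n - k
        · rw [h2 j hjk, Pi.single_apply, if_neg, zero_mul]
          intro h
          exact hj (congrArg Subtype.val h)
        · rw [hc j (not_lt.mp hjk), mul_zero]
      · intro h
        exact absurd (Finset.mem_univ j0) h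
    rw [Matrix.dotProduct_mulVec, e2] at e1
    exact hj0 e1
  have hker : LinearMap.ker L ≠ ⊥ := fun h => hninj (LinearMap.ker_eq_bot.mp h)
  obtain ⟨φ, hφ, hφ0⟩ := (Submodule.ne_bot_iff _).mp hker
  rw [LinearMap.mem_ker] at hφ
  have h1 : (fun j : {j : Fin n // (j : ℕ) < k} => φ j) = 0 := congrArg Prod.fst hφ
  have h2 : (fun j : {j : Fin n // (j : ℕ) < n - k} => (φ ᵥ* G) j) = 0 := congrArg Prod.snd hφ
  exact ⟨φ, hφ0, fun j hj => congrFun h1 ⟨j, hj⟩, fun j hj => congrFun h2 ⟨j, hj⟩⟩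

/-- The longest Weyl group element: the reversal permutation matrix. -/
def w0 (n : ℕ) : Matrix.SpecialLinearGroup (Fin n) (ZMod 2) :=
  ⟨(Fin.revPerm : Equiv.Perm (Fin n)).permMatrix (ZMod 2), by
    rw [Matrix.det_permutation]
    rcases Int.units_eq_one_or (Equiv.Perm.sign (Fin.revPerm : Equiv.Perm (Fin n))) with h | h
    · rw [h]; simp
    · rw [h]; simp⟩

theorem mul_w0 {n : ℕ} (M : Matrix (Fin n) (Fin n) (ZMod 2)) (i j : Fin n) :
    (M * (w0 n).1) i j = M i (Fin.rev j) := by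
  show (M * ((Fin.revPerm : Equiv.Perm (Fin n)).toPEquiv.toMatrix :
    Matrix (Fin n) (Fin n) (ZMod 2))) i j = M i (Fin.rev j)
  rw [PEquiv.mul_toMatrix_toPEquiv]
  rfl

theorem w0_mul {n : ℕ} (M : Matrix (Fin n) (Fin n) (ZMod 2)) (i j : Fin n) :
    ((w0 n).1 * M) i j = M (Fin.rev i) j := by
  show (((Fin.revPerm : Equiv.Perm (Fin n)).toPEquiv.toMatrix :
    Matrix (Fin n) (Fin n) (ZMod 2)) * M) i j = M (Fin.rev i) j
  rw [PEquiv.toMatrix_toPEquiv_mul]
  rfl

theorem w0_mul_self (n : ℕ) : w0 n * w0 n = 1 := by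
  apply Subtype.ext
  ext i j
  rw [Matrix.SpecialLinearGroup.coe_mul, mul_w0]
  show ((Fin.revPerm : Equiv.Perm (Fin n)).toPEquiv.toMatrix :
    Matrix (Fin n) (Fin n) (ZMod 2)) i (Fin.rev j) = _
  rw [Matrix.SpecialLinearGroup.coe_one, PEquiv.toMatrix_toPEquiv_apply, Matrix.one_apply,
    Pi.single_apply]
  simp [Fin.rev_eq_iff, eq_comm]

theorem w0_inv (n : ℕ) : (w0 n)⁻¹ = w0 n := inv_eq_of_mul_eq_one_right (w0_mul_self n)

/-- Entries of a `w0`-conjugate. -/
theorem w0_conj_apply {n : ℕ} (y : Matrix.SpecialLinearGroup (Fin n) (ZMod 2)) (i j : Fin n) :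
    (w0 n * y * w0 n).1 i j = y.1 (Fin.rev i) (Fin.rev j) := by
  rw [Matrix.SpecialLinearGroup.coe_mul, mul_w0, Matrix.SpecialLinearGroup.coe_mul, w0_mul]

/-- Opposite flags: the big cell. -/
theorem bigcell {n : ℕ} (g : Matrix.SpecialLinearGroup (Fin n) (ZMod 2))
    (hopp : ∀ k : ℕ, k ≤ n → ∀ c : Fin n → ZMod 2, Below (n - k) c → Below k (g.1 *ᵥ c) → c = 0) :
    ∃ u ∈ upperSub n, ∃ m ∈ upperSub n, g * m = u * w0 n := by
  classical
  have hex : ∀ i : Fin n, ∃ c : Fin n → ZMod 2, c ≠ 0 ∧ Below (n - (i : ℕ)) c ∧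
      Below ((i : ℕ) + 1) (g.1 *ᵥ c) := by
    intro i
    have hi := i.2
    exact exists_below g.1 (n - (i : ℕ)) ((i : ℕ) + 1) (by omega) (by omega) (by omega)
  choose c hc0 hca hcb using hex
  have hdiag : ∀ i : Fin n, (g.1 *ᵥ c i) i = 1 := by
    intro i
    apply zmod2_eq_one
    intro h0
    apply hc0 i
    apply hopp (i : ℕ) i.2.le (c i) (hca i)
    intro j hj
    rcases Nat.eq_or_lt_of_le hj with h | h
    · have : j = i := Fin.ext h.symm
      rw [this]; exact h0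
    · exact hcb i j h
  let Cmat : Matrix (Fin n) (Fin n) (ZMod 2) := Matrix.of (fun j i => c i j)
  have hU : ∀ j i : Fin n, (g.1 * Cmat) j i = (g.1 *ᵥ c i) j := by
    intro j i
    rfl
  have hUdet : (g.1 * Cmat).det = 1 := by
    apply det_unitri
    · intro j i hij
      rw [hU]
      exact hcb i j hij
    · intro i
      rw [hU]
      exact hdiag i
  have hM : ∀ j i : Fin n, (Cmat * (w0 n).1) j i = c (Fin.rev i) j := by
    intro j i
    rw [mul_w0]
    rfl
  have hMdet : (Cmat * (w0 n).1).det = 1 := by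
    have h1 : (g.1 * (Cmat * (w0 n).1)).det = 1 := by
      rw [← Matrix.mul_assoc, Matrix.det_mul, hUdet, (w0 n).2, mul_one]
    rw [Matrix.det_mul, g.2, one_mul] at h1
    exact h1
  let u : Matrix.SpecialLinearGroup (Fin n) (ZMod 2) := ⟨g.1 * Cmat, hUdet⟩
  let m : Matrix.SpecialLinearGroup (Fin n) (ZMod 2) := ⟨Cmat * (w0 n).1, hMdet⟩
  refine ⟨u, ?_, m, ?_, ?_⟩
  · refine (mem_upperSub u).mpr ?_
    intro j i hij
    show (g.1 * Cmat) j i = 0
    rw [hU]
    exact hcb i j hij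
  · refine (mem_upperSub m).mpr ?_
    intro j i hij
    show (Cmat * (w0 n).1) j i = 0
    rw [hM]
    apply hca
    have h1 : ((Fin.rev i : Fin n) : ℕ) = n - ((i : ℕ) + 1) := Fin.val_rev i
    have h2 : (i : ℕ) < (j : ℕ) := hij
    have h3 := j.2
    omega
  · apply Subtype.ext
    show g.1 * (Cmat * (w0 n).1) = g.1 * Cmat * (w0 n).1
    rw [Matrix.mul_assoc]

/-- Non-opposite flags: a common transvection. -/
theorem exists_common {n : ℕ} (g : Matrix.SpecialLinearGroup (Fin n) (ZMod 2)) (k : ℕ)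
    (hk : k ≤ n) (c : Fin n → ZMod 2) (hc0 : c ≠ 0) (hc : Below (n - k) c)
    (hv : Below k (g.1 *ᵥ c)) :
    ∃ T ∈ upperSub n, T ≠ 1 ∧ ∃ T' ∈ upperSub n, g * T' = T * g := by
  classical
  obtain ⟨φ, hφ0, hφ1, hφ2⟩ := exists_phi g.1 k hk c hc0 hc hv
  have hv0 : g.1 *ᵥ c ≠ 0 := by
    intro h
    exact hc0 (Matrix.eq_zero_of_mulVec_eq_zero (by rw [g.2]; exact one_ne_zero) h)
  have key1 : ∀ i j : Fin n, j ≤ i → (g.1 *ᵥ c) i * φ j = 0 := by
    intro i j hij
    by_cases hi : (i : ℕ) < k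
    · rw [hφ1 j (lt_of_le_of_lt hij hi), mul_zero]
    · rw [hv i (not_lt.mp hi), zero_mul]
  have key2 : ∀ i j : Fin n, j ≤ i → c i * (φ ᵥ* g.1) j = 0 := by
    intro i j hij
    by_cases hi : (i : ℕ) < n - k
    · rw [hφ2 j (lt_of_le_of_lt hij hi), mul_zero]
    · rw [hc i (not_lt.mp hi), zero_mul]
  have hT1 : ∀ i j : Fin n, j < i → (1 + Matrix.vecMulVec (g.1 *ᵥ c) φ) i j = 0 := by
    intro i j hij
    rw [Matrix.add_apply, Matrix.one_apply_ne (ne_of_gt hij), Matrix.vecMulVec_apply,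
      key1 i j hij.le, add_zero]
  have hT2 : ∀ i j : Fin n, j < i → (1 + Matrix.vecMulVec c (φ ᵥ* g.1)) i j = 0 := by
    intro i j hij
    rw [Matrix.add_apply, Matrix.one_apply_ne (ne_of_gt hij), Matrix.vecMulVec_apply,
      key2 i j hij.le, add_zero]
  have hTdet : (1 + Matrix.vecMulVec (g.1 *ᵥ c) φ).det = 1 := by
    apply det_unitri _ hT1
    intro i
    rw [Matrix.add_apply, Matrix.one_apply_eq, Matrix.vecMulVec_apply, key1 i i le_rfl, add_zero]
  have hT'det : (1 + Matrix.vecMulVec c (φ ᵥ* g.1)).det = 1 := by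
    apply det_unitri _ hT2
    intro i
    rw [Matrix.add_apply, Matrix.one_apply_eq, Matrix.vecMulVec_apply, key2 i i le_rfl, add_zero]
  let T : Matrix.SpecialLinearGroup (Fin n) (ZMod 2) := ⟨_, hTdet⟩
  let T' : Matrix.SpecialLinearGroup (Fin n) (ZMod 2) := ⟨_, hT'det⟩
  refine ⟨T, (mem_upperSub T).mpr hT1, ?_, T', (mem_upperSub T').mpr hT2, ?_⟩
  · intro h
    have h' : (1 + Matrix.vecMulVec (g.1 *ᵥ c) φ) = (1 : Matrix (Fin n) (Fin n) (ZMod 2)) :=
      congrArg Subtype.val h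
    obtain ⟨i, hi⟩ : ∃ i, (g.1 *ᵥ c) i ≠ 0 := by
      by_contra hne
      push Not at hne
      exact hv0 (funext hne)
    obtain ⟨j, hj⟩ : ∃ j, φ j ≠ 0 := by
      by_contra hne
      push Not at hne
      exact hφ0 (funext hne)
    have h2 := congrFun (congrFun h' i) j
    rw [Matrix.add_apply, Matrix.vecMulVec_apply] at h2
    have h3 : (g.1 *ᵥ c) i * φ j = 0 := by
      have := add_left_cancel (a := (1 : Matrix (Fin n) (Fin n) (ZMod 2)) i j) (b := (g.1 *ᵥ c) i * φ j) (c := 0)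
        (by rw [add_zero]; exact h2)
      exact this
    exact mul_ne_zero hi hj h3
  · apply Subtype.ext
    show g.1 * (1 + Matrix.vecMulVec c (φ ᵥ* g.1)) = (1 + Matrix.vecMulVec (g.1 *ᵥ c) φ) * g.1
    rw [Matrix.mul_add, Matrix.add_mul, Matrix.mul_one, Matrix.one_mul, Matrix.mul_vecMulVec,
      Matrix.vecMulVec_mul]

/-- Bruhat big cell: if `U ∩ U^m = 1` then `m ∈ U w₀ U`. -/
theorem cM {n : ℕ} (m : Matrix.SpecialLinearGroup (Fin n) (ZMod 2))
    (h : ∀ y ∈ upperSub n, m * y * m⁻¹ ∈ upperSub n → y = 1) :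
    ∃ v ∈ upperSub n, ∃ v' ∈ upperSub n, m = v * w0 n * v' := by
  have hopp : ∀ k : ℕ, k ≤ n → ∀ c : Fin n → ZMod 2, Below (n - k) c →
      Below k (m.1 *ᵥ c) → c = 0 := by
    intro k hk c hc hv
    by_contra hc0
    obtain ⟨T, hT, hT1, T', hT', heq⟩ := exists_common m k hk c hc0 hc hv
    have h1 : m * T' * m⁻¹ = T := by rw [heq]; group
    have h2 := h T' hT' (h1 ▸ hT)
    rw [h2] at h1
    apply hT1
    rw [← h1]; group
  obtain ⟨u, hu, mm, hmm, heq⟩ := bigcell m hopp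
  refine ⟨u, hu, mm⁻¹, (upperSub n).inv_mem hmm, ?_⟩
  rw [← heq]; group

/-- An element of `U` whose `w₀`-conjugate is in `U` is trivial. -/
theorem upper_inter_lower {n : ℕ} (y : Matrix.SpecialLinearGroup (Fin n) (ZMod 2))
    (hy : y ∈ upperSub n) (hy' : w0 n * y * w0 n ∈ upperSub n) : y = 1 := by
  apply Subtype.ext
  ext i j
  rw [Matrix.SpecialLinearGroup.coe_one, Matrix.one_apply]
  rcases lt_trichotomy i j with hij | hij | hij
  · rw [if_neg (ne_of_lt hij)]
    have := (mem_upperSub _).mp hy' (Fin.rev i) (Fin.rev j) (Fin.rev_lt_rev.mpr hij)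
    rw [w0_conj_apply, Fin.rev_rev, Fin.rev_rev] at this
    exact this
  · rw [if_pos hij, hij]
    exact upper_diag y.1 hy y.2 j
  · rw [if_neg (ne_of_gt hij)]
    exact (mem_upperSub _).mp hy i j hij

/-- The upper triangular group is self-normalizing. -/
theorem bM {n : ℕ} (g : Matrix.SpecialLinearGroup (Fin n) (ZMod 2))
    (h : ∀ y, y ∈ upperSub n ↔ g * y * g⁻¹ ∈ upperSub n) : g ∈ upperSub n := by
  classical
  have h1 : ∀ y ∈ upperSub n, (g * w0 n) * y * (g * w0 n)⁻¹ ∈ upperSub n → y = 1 := by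
    intro y hy hy'
    have e : (g * w0 n) * y * (g * w0 n)⁻¹ = g * (w0 n * y * w0 n) * g⁻¹ := by
      rw [_root_.mul_inv_rev, w0_inv]; group
    rw [e] at hy'
    exact upper_inter_lower y hy ((h _).mpr hy')
  obtain ⟨v, hv, v', hv', heq⟩ := cM (g * w0 n) h1
  -- `l = w₀ v' w₀` is lower triangular and normalizes `U`
  have hg : g = v * (w0 n * v' * w0 n) := by
    have : g = (g * w0 n) * w0 n := by rw [mul_assoc, w0_mul_self, mul_one]
    rw [this, heq]; group
  set l := w0 n * v' * w0 n with hl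
  have hlinv : l⁻¹ = w0 n * v'⁻¹ * w0 n := by
    rw [hl, _root_.mul_inv_rev, _root_.mul_inv_rev, w0_inv, mul_assoc]
  have hlU : l ∈ upperSub n := by
    rw [mem_upperSub]
    intro b j hjb
    -- the transvection `T = 1 + E_{jb}`
    have hT1 : ∀ p q : Fin n, q < p →
        (1 + Matrix.vecMulVec (Pi.single j (1 : ZMod 2)) (Pi.single b (1 : ZMod 2))) p q = 0 := by
      intro p q hqp
      rw [Matrix.add_apply, Matrix.one_apply_ne (ne_of_gt hqp), Matrix.vecMulVec_apply,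
        Pi.single_apply, Pi.single_apply]
      by_cases h1 : p = j
      · by_cases h2 : q = b
        · exfalso
          rw [h1, h2] at hqp
          exact lt_asymm hqp hjb
        · simp [h2]
      · simp [h1]
    have hTdet : (1 + Matrix.vecMulVec (Pi.single j (1 : ZMod 2))
        (Pi.single b (1 : ZMod 2))).det = 1 := by
      apply det_unitri _ hT1
      intro p
      rw [Matrix.add_apply, Matrix.one_apply_eq, Matrix.vecMulVec_apply,
        Pi.single_apply, Pi.single_apply]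
      by_cases h1 : p = j
      · have h2 : p ≠ b := by rw [h1]; exact ne_of_lt hjb
        simp [h2]
      · simp [h1]
    let T : Matrix.SpecialLinearGroup (Fin n) (ZMod 2) := ⟨_, hTdet⟩
    have hTU : T ∈ upperSub n := (mem_upperSub T).mpr hT1
    have hconj : l * T * l⁻¹ ∈ upperSub n := by
      have e : l * T * l⁻¹ = v⁻¹ * (g * T * g⁻¹) * v := by rw [hg]; group
      rw [e]
      exact (upperSub n).mul_mem ((upperSub n).mul_mem ((upperSub n).inv_mem hv) ((h T).mp hTU)) hv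
    have hd := upper_diag (l * T * l⁻¹).1 hconj (l * T * l⁻¹).2 b
    have hmat : (l * T * l⁻¹).1 = 1 + Matrix.vecMulVec (l.1 *ᵥ Pi.single j 1)
        (Pi.single b 1 ᵥ* (l⁻¹).1) := by
      have hll : l.1 * (l⁻¹).1 = 1 := by
        rw [← Matrix.SpecialLinearGroup.coe_mul, mul_inv_cancel, Matrix.SpecialLinearGroup.coe_one]
      rw [Matrix.SpecialLinearGroup.coe_mul, Matrix.SpecialLinearGroup.coe_mul]
      show l.1 * (1 + Matrix.vecMulVec (Pi.single j (1 : ZMod 2)) (Pi.single b (1 : ZMod 2))) *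
        (l⁻¹).1 = _
      rw [Matrix.mul_add, Matrix.add_mul, Matrix.mul_one, hll, Matrix.mul_vecMulVec,
        Matrix.vecMulVec_mul]
    rw [hmat, Matrix.add_apply, Matrix.one_apply_eq, Matrix.vecMulVec_apply,
      Matrix.mulVec_single_one, Matrix.single_one_vecMul] at hd
    have hlinvbb : (l⁻¹).1 b b = 1 := by
      rw [hlinv, w0_conj_apply]
      exact upper_diag _ ((upperSub n).inv_mem hv') (v'⁻¹).2 _
    have hd' : l.1 b j * (l⁻¹).1 b b = 0 := by
      have := add_left_cancel (a := (1 : ZMod 2)) (b := l.1 b j * (l⁻¹).1 b b) (c := 0)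
        (by rw [add_zero]; exact hd)
      exact this
    rw [hlinvbb, mul_one] at hd'
    exact hd'
  rw [hg]
  exact (upperSub n).mul_mem hv hlU

/-- Every 2-subgroup is conjugate into the upper triangular group. -/
theorem aM {n : ℕ} (hn : 1 ≤ n) (P : Subgroup (Matrix.SpecialLinearGroup (Fin n) (ZMod 2)))
    (hP : IsPGroup 2 P) : ∃ m, ∀ y ∈ P, m⁻¹ * y * m ∈ upperSub n := by
  haveI : Fact (Nat.Prime 2) := ⟨Nat.prime_two⟩
  let PU : Sylow 2 (Matrix.SpecialLinearGroup (Fin n) (ZMod 2)) :=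
    (upperSub_isPGroup n).toSylow (upperSub_index n hn)
  obtain ⟨Q, hQ⟩ := hP.exists_le_sylow
  obtain ⟨m, hm⟩ := MulAction.exists_smul_eq (Matrix.SpecialLinearGroup (Fin n) (ZMod 2)) PU Q
  refine ⟨m, fun y hy => ?_⟩
  have h1 : y ∈ ((m • PU : Sylow 2 (Matrix.SpecialLinearGroup (Fin n) (ZMod 2))) :
      Subgroup (Matrix.SpecialLinearGroup (Fin n) (ZMod 2))) := by
    rw [hm]; exact hQ hy
  rw [Sylow.coe_subgroup_smul, Subgroup.mem_pointwise_smul_iff_inv_smul_mem, MulAut.smul_def,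
    ← map_inv, MulAut.conj_apply, inv_inv] at h1
  exact h1

section Abstract

variable {G : Type*} [Group G]

theorem mem_smul_sylow (g y : G) (P : Sylow 2 G) :
    y ∈ ((g • P : Sylow 2 G) : Subgroup G) ↔ g⁻¹ * y * g ∈ (P : Subgroup G) := by
  rw [Sylow.coe_subgroup_smul, Subgroup.mem_pointwise_smul_iff_inv_smul_mem, MulAut.smul_def,
    ← map_inv, MulAut.conj_apply, inv_inv]

theorem conj_mem_iff_of_mem (V : Subgroup G) {v : G} (hv : v ∈ V) (z : G) :
    v⁻¹ * z * v ∈ V ↔ z ∈ V := by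
  constructor
  · intro h
    have : z = v * (v⁻¹ * z * v) * v⁻¹ := by group
    rw [this]
    exact V.mul_mem (V.mul_mem hv h) (V.inv_mem hv)
  · intro h
    exact V.mul_mem (V.mul_mem (V.inv_mem hv) h) hv

variable [Finite G]

/-- The intersection of a Sylow 2-subgroup with `N` is a conjugate of `V`. -/
theorem stepA (N : Subgroup G) [N.Normal]
    (V : Subgroup G) (hVN : V ≤ N) (hV2 : IsPGroup 2 V)
    (ha : ∀ P : Subgroup G, P ≤ N → IsPGroup 2 P → ∃ m ∈ N, ∀ y ∈ P, m⁻¹ * y * m ∈ V)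
    (H' : Sylow 2 G) :
    ∃ m ∈ N, ∀ y, (y ∈ (H' : Subgroup G) ∧ y ∈ N) ↔ m⁻¹ * y * m ∈ V := by
  haveI : Fact (Nat.Prime 2) := ⟨Nat.prime_two⟩
  obtain ⟨m, hmN, hm⟩ := ha ((H' : Subgroup G) ⊓ N) inf_le_right (H'.isPGroup'.to_le inf_le_left)
  refine ⟨m, hmN, ?_⟩
  -- the conjugate `P1 = m V m⁻¹`
  have hle : (H' : Subgroup G) ⊓ N ≤ MulAut.conj m • V := by
    intro y hy
    rw [Subgroup.mem_pointwise_smul_iff_inv_smul_mem, MulAut.smul_def, ← map_inv,
      MulAut.conj_apply, inv_inv]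
    exact hm y hy
  have hP1 : IsPGroup 2 (MulAut.conj m • V : Subgroup G) := by
    have := hV2.map (MulAut.conj m).toMonoidHom
    exact this
  obtain ⟨Q, hQ⟩ := hP1.exists_le_sylow
  obtain ⟨g, hg⟩ := MulAction.exists_smul_eq G H' Q
  have hP1N : MulAut.conj m • V ≤ N := by
    intro y hy
    rw [Subgroup.mem_pointwise_smul_iff_inv_smul_mem, MulAut.smul_def, ← map_inv,
      MulAut.conj_apply, inv_inv] at hy
    have h1 : m⁻¹ * y * m ∈ N := hVN hy
    have : y = m * (m⁻¹ * y * m) * m⁻¹ := by group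
    rw [this]
    exact ‹N.Normal›.conj_mem _ h1 m
  have hle2 : MulAut.conj m • V ≤ MulAut.conj g • ((H' : Subgroup G) ⊓ N) := by
    rw [Subgroup.smul_inf, Subgroup.Normal.conj_smul_eq_self g N, ← Sylow.coe_subgroup_smul, hg]
    exact le_inf hQ hP1N
  have hcard : Nat.card (MulAut.conj m • V : Subgroup G) ≤
      Nat.card ((H' : Subgroup G) ⊓ N : Subgroup G) := by
    have h1 := Subgroup.card_le_of_le hle2
    have h2 : Nat.card (MulAut.conj g • ((H' : Subgroup G) ⊓ N) : Subgroup G) =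
        Nat.card ((H' : Subgroup G) ⊓ N : Subgroup G) :=
      (Nat.card_congr (Subgroup.equivSMul (MulAut.conj g) ((H' : Subgroup G) ⊓ N)).toEquiv).symm
    rw [h2] at h1
    exact h1
  have heq : (H' : Subgroup G) ⊓ N = MulAut.conj m • V := Subgroup.eq_of_le_of_card_ge hle hcard
  intro y
  rw [← Subgroup.mem_inf, heq, Subgroup.mem_pointwise_smul_iff_inv_smul_mem, MulAut.smul_def,
    ← map_inv, MulAut.conj_apply, inv_inv]

omit [Finite G] in
/-- The normalizer in `G` of the intersection of a Sylow 2-subgroup with `N` is that Sylow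
subgroup. -/
theorem stepB (N : Subgroup G) [N.Normal] (hidx : N.index = 2)
    (V : Subgroup G) (hV2 : IsPGroup 2 V)
    (hb : ∀ m ∈ N, (∀ y, y ∈ V ↔ m * y * m⁻¹ ∈ V) → m ∈ V)
    (H' : Sylow 2 G) (m : G) (hmN : m ∈ N)
    (hm : ∀ y, (y ∈ (H' : Subgroup G) ∧ y ∈ N) ↔ m⁻¹ * y * m ∈ V)
    (s : G) (hs : ∀ y, m⁻¹ * y * m ∈ V ↔ m⁻¹ * (s * y * s⁻¹) * m ∈ V) :
    s ∈ (H' : Subgroup G) := by
  have hK : IsPGroup 2 (Subgroup.normalizer (((H' : Subgroup G) ⊓ N : Subgroup G) : Set G)) := by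
    rintro ⟨y, hy⟩
    rw [Subgroup.mem_normalizer_iff] at hy
    have hy2N : y ^ 2 ∈ N := by
      have := Subgroup.pow_index_mem N y
      rwa [hidx] at this
    have hy2 : ∀ z, z ∈ (H' : Subgroup G) ⊓ N ↔ y ^ 2 * z * (y ^ 2)⁻¹ ∈ (H' : Subgroup G) ⊓ N := by
      intro z
      rw [hy z, hy (y * z * y⁻¹)]
      have : y * (y * z * y⁻¹) * y⁻¹ = y ^ 2 * z * (y ^ 2)⁻¹ := by
        simp [pow_two, mul_assoc]
      rw [this]
    have hmem : m⁻¹ * y ^ 2 * m ∈ V := by
      apply hb _ (N.mul_mem (N.mul_mem (N.inv_mem hmN) hy2N) hmN)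
      intro z
      have h1 := hm (m * z * m⁻¹)
      have h2 := hm (y ^ 2 * (m * z * m⁻¹) * (y ^ 2)⁻¹)
      have h3 := hy2 (m * z * m⁻¹)
      rw [Subgroup.mem_inf, Subgroup.mem_inf, h1, h2] at h3
      have e1 : m⁻¹ * (m * z * m⁻¹) * m = z := by group
      have e2 : m⁻¹ * (y ^ 2 * (m * z * m⁻¹) * (y ^ 2)⁻¹) * m =
          m⁻¹ * y ^ 2 * m * z * (m⁻¹ * y ^ 2 * m)⁻¹ := by group
      rw [e1, e2] at h3
      exact h3
    obtain ⟨k, hk⟩ := hV2 ⟨_, hmem⟩
    refine ⟨k + 1, ?_⟩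
    apply Subtype.ext
    have hk' : (m⁻¹ * y ^ 2 * m) ^ 2 ^ k = 1 := congrArg Subtype.val hk
    have e : (m⁻¹ * y ^ 2 * m) ^ 2 ^ k = m⁻¹ * (y ^ 2) ^ 2 ^ k * m := by
      have := map_pow (MulAut.conj m⁻¹) (y ^ 2) (2 ^ k)
      simp only [MulAut.conj_apply, inv_inv] at this
      exact this.symm
    rw [e] at hk'
    have h2 : (y ^ 2) ^ 2 ^ k = 1 := by
      have : (y ^ 2) ^ 2 ^ k = m * (m⁻¹ * (y ^ 2) ^ 2 ^ k * m) * m⁻¹ := by group
      rw [this, hk']; group
    show y ^ 2 ^ (k + 1) = 1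
    rw [pow_succ', pow_mul]
    exact h2
  have hle : (H' : Subgroup G) ≤
      Subgroup.normalizer (((H' : Subgroup G) ⊓ N : Subgroup G) : Set G) := by
    intro h hh
    rw [Subgroup.mem_normalizer_iff]
    intro z
    constructor
    · rintro ⟨hz1, hz2⟩
      exact ⟨(H' : Subgroup G).mul_mem ((H' : Subgroup G).mul_mem hh hz1)
        ((H' : Subgroup G).inv_mem hh), ‹N.Normal›.conj_mem _ hz2 h⟩
    · rintro ⟨hz1, hz2⟩
      have e : z = h⁻¹ * (h * z * h⁻¹) * h := by group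
      refine ⟨?_, ?_⟩
      · rw [e]
        exact (H' : Subgroup G).mul_mem ((H' : Subgroup G).mul_mem
          ((H' : Subgroup G).inv_mem hh) hz1) hh
      · have := ‹N.Normal›.conj_mem _ hz2 h⁻¹
        rw [inv_inv] at this
        rw [e]; exact this
  have heq := H'.is_maximal' hK hle
  have hsmem : s ∈ Subgroup.normalizer (((H' : Subgroup G) ⊓ N : Subgroup G) : Set G) := by
    rw [Subgroup.mem_normalizer_iff]
    intro z
    rw [Subgroup.mem_inf, Subgroup.mem_inf, hm z, hm (s * z * s⁻¹)]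
    exact hs z
  rw [heq] at hsmem
  exact hsmem

/-- Two Sylow 2-subgroups whose intersections with `N` meet trivially are simultaneously
conjugate to the standard opposite pair. -/
theorem stepC (N : Subgroup G) [N.Normal]
    (V : Subgroup G) (hVN : V ≤ N) (hV2 : IsPGroup 2 V) (w : G)
    (ha : ∀ P : Subgroup G, P ≤ N → IsPGroup 2 P → ∃ m ∈ N, ∀ y ∈ P, m⁻¹ * y * m ∈ V)
    (hc : ∀ m ∈ N, (∀ y ∈ V, m * y * m⁻¹ ∈ V → y = 1) → ∃ v ∈ V, ∃ v' ∈ V, m = v * w * v')
    (H1 H2 : Sylow 2 G)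
    (htriv : ∀ y, y ∈ (H1 : Subgroup G) → y ∈ (H2 : Subgroup G) → y ∈ N → y = 1) :
    ∃ a ∈ N, (∀ y, (y ∈ (H1 : Subgroup G) ∧ y ∈ N) ↔ a⁻¹ * y * a ∈ V) ∧
      (∀ y, (y ∈ (H2 : Subgroup G) ∧ y ∈ N) ↔ (a * w)⁻¹ * y * (a * w) ∈ V) := by
  obtain ⟨m1, hm1N, hm1⟩ := stepA N V hVN hV2 ha H1
  obtain ⟨m2, hm2N, hm2⟩ := stepA N V hVN hV2 ha H2
  have hd : ∀ y ∈ V, (m1⁻¹ * m2) * y * (m1⁻¹ * m2)⁻¹ ∈ V → y = 1 := by
    intro y hy hy'
    have h2 : m2 * y * m2⁻¹ ∈ (H2 : Subgroup G) ∧ m2 * y * m2⁻¹ ∈ N := by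
      rw [hm2]
      have : m2⁻¹ * (m2 * y * m2⁻¹) * m2 = y := by group
      rw [this]; exact hy
    have h1 : m2 * y * m2⁻¹ ∈ (H1 : Subgroup G) ∧ m2 * y * m2⁻¹ ∈ N := by
      rw [hm1]
      have : m1⁻¹ * (m2 * y * m2⁻¹) * m1 = (m1⁻¹ * m2) * y * (m1⁻¹ * m2)⁻¹ := by group
      rw [this]; exact hy'
    have h3 := htriv _ h1.1 h2.1 h2.2
    have : y = m2⁻¹ * (m2 * y * m2⁻¹) * m2 := by group
    rw [this, h3]; group
  obtain ⟨v, hv, v', hv', hd'⟩ := hc (m1⁻¹ * m2) (N.mul_mem (N.inv_mem hm1N) hm2N) hd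
  have hm2eq : m2 = m1 * v * w * v' := by
    have : m2 = m1 * (m1⁻¹ * m2) := by group
    rw [this, hd']; group
  refine ⟨m1 * v, N.mul_mem hm1N (hVN hv), ?_, ?_⟩
  · intro y
    rw [hm1 y]
    have : (m1 * v)⁻¹ * y * (m1 * v) = v⁻¹ * (m1⁻¹ * y * m1) * v := by group
    rw [this, conj_mem_iff_of_mem V hv]
  · intro y
    rw [hm2 y]
    have : m2⁻¹ * y * m2 = v'⁻¹ * ((m1 * v * w)⁻¹ * y * (m1 * v * w)) * v' := by
      rw [hm2eq]; group
    rw [this, conj_mem_iff_of_mem V hv']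

/-- The abstract statement: Sylow 2-subgroups of an index two extension pairwise meet. -/
theorem sylow_meet (N : Subgroup G) [N.Normal] (hidx : N.index = 2)
    (V : Subgroup G) (hVN : V ≤ N) (hV2 : IsPGroup 2 V) (w : G) (hw : w ∈ N)
    (ha : ∀ P : Subgroup G, P ≤ N → IsPGroup 2 P → ∃ m ∈ N, ∀ y ∈ P, m⁻¹ * y * m ∈ V)
    (hb : ∀ m ∈ N, (∀ y, y ∈ V ↔ m * y * m⁻¹ ∈ V) → m ∈ V)
    (hc : ∀ m ∈ N, (∀ y ∈ V, m * y * m⁻¹ ∈ V → y = 1) → ∃ v ∈ V, ∃ v' ∈ V, m = v * w * v')
    (H : Sylow 2 G) (x : G) :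
    (H : Subgroup G) ⊓ MulAut.conj x • (H : Subgroup G) ≠ ⊥ := by
  haveI : Fact (Nat.Prime 2) := ⟨Nat.prime_two⟩
  intro hbot
  have hH2 : ((x • H : Sylow 2 G) : Subgroup G) = MulAut.conj x • (H : Subgroup G) :=
    Sylow.coe_subgroup_smul
  have htriv : ∀ y, y ∈ (H : Subgroup G) → y ∈ ((x • H : Sylow 2 G) : Subgroup G) → y = 1 := by
    intro y h1 h2
    rw [hH2] at h2
    have : y ∈ (H : Subgroup G) ⊓ MulAut.conj x • (H : Subgroup G) := ⟨h1, h2⟩
    rw [hbot] at this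
    exact Subgroup.mem_bot.mp this
  -- an element outside `N`
  obtain ⟨g, hg⟩ : ∃ g : G, g ∉ N := by
    by_contra hall
    push Not at hall
    have : N = ⊤ := by
      rw [eq_top_iff]; intro y _; exact hall y
    rw [this, Subgroup.index_top] at hidx
    omega
  obtain ⟨a, haN, ha1, ha2⟩ := stepC N V hVN hV2 w ha hc H (x • H)
    (fun y h1 h2 _ => htriv y h1 h2)
  obtain ⟨a', ha'N, ha'1, ha'2⟩ := stepC N V hVN hV2 w ha hc (g • H) (g • (x • H)) (by
    intro y h1 h2 _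
    rw [mem_smul_sylow] at h1 h2
    have := htriv _ h1 h2
    have e : y = g * (g⁻¹ * y * g) * g⁻¹ := by group
    rw [e, this]; group)
  -- the element `s`
  set s : G := a * a'⁻¹ * g with hs
  have hsN : s ∉ N := by
    intro h
    apply hg
    have : g = (a * a'⁻¹)⁻¹ * s := by rw [hs]; group
    rw [this]
    exact N.mul_mem (N.inv_mem (N.mul_mem haN (N.inv_mem ha'N))) h
  have hconjN : ∀ y, g * y * g⁻¹ ∈ N ↔ y ∈ N := by
    intro y
    constructor
    · intro h
      have := ‹N.Normal›.conj_mem _ h g⁻¹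
      rw [inv_inv] at this
      have e : y = g⁻¹ * (g * y * g⁻¹) * g := by group
      rw [e]; exact this
    · intro h
      exact ‹N.Normal›.conj_mem _ h g
  have hs1 : s ∈ (H : Subgroup G) := by
    apply stepB N hidx V hV2 hb H a haN ha1 s
    intro y
    rw [← ha1 y]
    have e : a⁻¹ * (s * y * s⁻¹) * a = a'⁻¹ * (g * y * g⁻¹) * a' := by rw [hs]; group
    rw [e, ← ha'1 (g * y * g⁻¹), mem_smul_sylow g (g * y * g⁻¹) H, hconjN]
    have e2 : g⁻¹ * (g * y * g⁻¹) * g = y := by group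
    rw [e2]
  have hs2 : s ∈ ((x • H : Sylow 2 G) : Subgroup G) := by
    apply stepB N hidx V hV2 hb (x • H) (a * w) (N.mul_mem haN hw) ha2 s
    intro y
    rw [← ha2 y]
    have e : (a * w)⁻¹ * (s * y * s⁻¹) * (a * w) = (a' * w)⁻¹ * (g * y * g⁻¹) * (a' * w) := by
      rw [hs]; group
    rw [e, ← ha'2 (g * y * g⁻¹), mem_smul_sylow g (g * y * g⁻¹) (x • H), hconjN]
    have e2 : g⁻¹ * (g * y * g⁻¹) * g = y := by group
    rw [e2]
  have := htriv s hs1 hs2
  rw [this] at hsN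
  exact hsN N.one_mem

end Abstract

/-- Let n ≥ 4 and let G be a finite group with a normal subgroup N of index 2 isomorphic to SL(n,2) and with trivial centralizer in G (so G is the extension of the simple group L_n(2) by its inverse-transpose automorphism, its full automorphism group). Then any two Sylow 2-subgroups of G have a non-trivial intersection: for a Sylow 2-subgroup H and every x ∈ G, H ∩ H^x ≠ 1. -/
theorem result {G : Type*} [Group G] [Finite G] {n : ℕ} (hn : 4 ≤ n) (N : Subgroup G) [N.Normal]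
    (e : N ≃* Matrix.SpecialLinearGroup (Fin n) (ZMod 2)) (hidx : N.index = 2)
    (hC : Subgroup.centralizer (N : Set G) = ⊥)
    (H : Sylow 2 G) (x : G) :
    (H : Subgroup G) ⊓ MulAut.conj x • (H : Subgroup G) ≠ ⊥ := by
  -- the upper triangular group transported to `G`
  let V : Subgroup G := ((upperSub n).comap e.toMonoidHom).map N.subtype
  have hmemV : ∀ y : G, y ∈ V ↔ ∃ hy : y ∈ N, e ⟨y, hy⟩ ∈ upperSub n := by
    intro y
    constructor
    · rintro ⟨z, hz, rfl⟩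
      exact ⟨z.2, hz⟩
    · rintro ⟨hy, h⟩
      exact ⟨⟨y, hy⟩, h, rfl⟩
  have hVN : V ≤ N := Subgroup.map_subtype_le _
  have hV2 : IsPGroup 2 V :=
    ((upperSub_isPGroup n).comap_of_injective e.toMonoidHom e.injective).map N.subtype
  have hsymm : ∀ z : Matrix.SpecialLinearGroup (Fin n) (ZMod 2),
      ((e.symm z : N) : G) ∈ V ↔ z ∈ upperSub n := by
    intro z
    rw [hmemV]
    constructor
    · rintro ⟨hy, h⟩
      have : (⟨((e.symm z : N) : G), hy⟩ : N) = e.symm z := rfl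
      rw [this, MulEquiv.apply_symm_apply] at h
      exact h
    · intro h
      refine ⟨(e.symm z).2, ?_⟩
      have : (⟨((e.symm z : N) : G), (e.symm z).2⟩ : N) = e.symm z := rfl
      rw [this, MulEquiv.apply_symm_apply]
      exact h
  have hconj : ∀ (m : G) (hmN : m ∈ N) (z : Matrix.SpecialLinearGroup (Fin n) (ZMod 2)),
      m * ((e.symm z : N) : G) * m⁻¹ ∈ V ↔ e ⟨m, hmN⟩ * z * (e ⟨m, hmN⟩)⁻¹ ∈ upperSub n := by
    intro m hmN z
    rw [hmemV]
    have key : ∀ hy : m * ((e.symm z : N) : G) * m⁻¹ ∈ N,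
        e ⟨m * ((e.symm z : N) : G) * m⁻¹, hy⟩ = e ⟨m, hmN⟩ * z * (e ⟨m, hmN⟩)⁻¹ := by
      intro hy
      have : (⟨m * ((e.symm z : N) : G) * m⁻¹, hy⟩ : N) = ⟨m, hmN⟩ * e.symm z * ⟨m, hmN⟩⁻¹ := rfl
      rw [this, map_mul, map_mul, map_inv, MulEquiv.apply_symm_apply]
    constructor
    · rintro ⟨hy, h⟩
      rw [key hy] at h
      exact h
    · intro h
      have hy : m * ((e.symm z : N) : G) * m⁻¹ ∈ N :=
        N.mul_mem (N.mul_mem hmN (e.symm z).2) (N.inv_mem hmN)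
      exact ⟨hy, by rw [key hy]; exact h⟩
  apply sylow_meet N hidx V hVN hV2 ((e.symm (w0 n) : N) : G) (e.symm (w0 n)).2
  · intro P hPN hP
    have hPM : IsPGroup 2 ((P.subgroupOf N).map e.toMonoidHom) := (hP.comap_subtype).map _
    obtain ⟨m', hm'⟩ := aM (by omega) _ hPM
    refine ⟨((e.symm m' : N) : G), (e.symm m').2, ?_⟩
    intro y hy
    have hyN : y ∈ N := hPN hy
    have h1 : e ⟨y, hyN⟩ ∈ (P.subgroupOf N).map e.toMonoidHom :=
      ⟨⟨y, hyN⟩, Subgroup.mem_subgroupOf.mpr hy, rfl⟩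
    have h2 := hm' _ h1
    rw [hmemV]
    have hy' : ((e.symm m' : N) : G)⁻¹ * y * ((e.symm m' : N) : G) ∈ N :=
      N.mul_mem (N.mul_mem (N.inv_mem (e.symm m').2) hyN) (e.symm m').2
    refine ⟨hy', ?_⟩
    have : (⟨((e.symm m' : N) : G)⁻¹ * y * ((e.symm m' : N) : G), hy'⟩ : N) =
        (e.symm m')⁻¹ * ⟨y, hyN⟩ * e.symm m' := rfl
    rw [this, map_mul, map_mul, map_inv, MulEquiv.apply_symm_apply]
    exact h2
  · intro m hmN hm
    rw [hmemV]
    refine ⟨hmN, ?_⟩
    apply bM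
    intro z
    rw [← hconj m hmN z, ← hm, hsymm]
  · intro m hmN hm
    have hcm := cM (e ⟨m, hmN⟩) (by
      intro z hz hz'
      have h1 : ((e.symm z : N) : G) ∈ V := (hsymm z).mpr hz
      have h2 : m * ((e.symm z : N) : G) * m⁻¹ ∈ V := (hconj m hmN z).mpr hz'
      have h3 := hm _ h1 h2
      have h4 : e.symm z = 1 := Subtype.ext h3
      have h5 := congrArg e h4
      rw [MulEquiv.apply_symm_apply, map_one] at h5
      exact h5)
    obtain ⟨v, hv, v', hv', heq⟩ := hcm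
    refine ⟨((e.symm v : N) : G), (hsymm v).mpr hv, ((e.symm v' : N) : G), (hsymm v').mpr hv', ?_⟩
    have h5 : (⟨m, hmN⟩ : N) = e.symm v * e.symm (w0 n) * e.symm v' := by
      rw [← map_mul, ← map_mul, ← heq, MulEquiv.symm_apply_apply]
    exact congrArg Subtype.val h5

end Cfsg.Agent.S2486
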