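import Mathlib
import Cfsg.Statements.S2488

set_option autoImplicit false
open scoped Pointwise
open Cfsg

namespace Cfsg.Agent.S2488

open Equiv Equiv.Perm

/-- An even involution of `S₆` has centralizer of order 16. -/
theorem perm6_centralizer_pow (s g : Perm (Fin 6)) (hs : orderOf s = 2) (hsgn : Perm.sign s = 1)
    (hg : g * s = s * g) : g ^ 16 = 1 := by
  have hp : (orderOf s).Prime := by rw [hs]; exact Nat.prime_two
  obtain ⟨n, hn⟩ := cycleType_prime_order hp
  rw [hs] at hn
  have hsum := sum_cycleType_le s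
  rw [hn] at hsum
  simp at hsum
  have hsg := sign_of_cycleType s
  rw [hn, hsgn] at hsg
  simp at hsg
  have hn1 : n = 1 := by
    have hn3 : n ≤ 2 := by omega
    interval_cases n
    · revert hsg; decide
    · rfl
    · revert hsg; decide
  subst hn1
  have hcard := nat_card_centralizer s
  rw [hn] at hcard
  have h16 : Nat.card (Subgroup.centralizer {s}) = 16 := by
    rw [hcard]; decide
  have hmem : g ∈ Subgroup.centralizer {s} := by
    rw [Subgroup.mem_centralizer_singleton_iff]; exact hg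
  have h := pow_card_eq_one' (G := Subgroup.centralizer {s}) (x := ⟨g, hmem⟩)
  rw [h16] at h
  exact congrArg Subtype.val h

/-- Cycle types of elements of odd order in `S₆`. -/
theorem perm6_odd_cycleType (s : Perm (Fin 6)) (hodd : Odd (orderOf s)) (h1 : orderOf s ≠ 1) :
    (s.cycleType = {3} ∧ orderOf s = 3) ∨ (s.cycleType = {3, 3} ∧ orderOf s = 3) ∨
      (s.cycleType = {5} ∧ orderOf s = 5) := by
  have hsum := sum_cycleType_le s
  simp only [Fintype.card_fin] at hsum
  have hge : ∀ n ∈ s.cycleType, 3 ≤ n ∧ Odd n := by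
    intro n hn
    have h2 := two_le_of_mem_cycleType hn
    have hd := dvd_of_mem_cycleType hn
    have ho : Odd n := Odd.of_dvd_nat hodd hd
    refine ⟨?_, ho⟩
    rcases ho with ⟨k, hk⟩
    omega
  have hlcm := lcm_cycleType s
  have hcard : Multiset.card s.cycleType * 3 ≤ s.cycleType.sum := by
    have := Multiset.card_nsmul_le_sum (s := s.cycleType) (a := 3) (fun x hx => (hge x hx).1)
    simpa using this
  have hc2 : Multiset.card s.cycleType ≤ 2 := by omega
  have hc0 : Multiset.card s.cycleType ≠ 0 := by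
    intro h0
    rw [Multiset.card_eq_zero] at h0
    rw [h0] at hlcm
    simp at hlcm
    exact h1 hlcm.symm
  have hc : Multiset.card s.cycleType = 1 ∨ Multiset.card s.cycleType = 2 := by omega
  rcases hc with hc | hc
  · rw [Multiset.card_eq_one] at hc
    obtain ⟨a, ha⟩ := hc
    have hmem : a ∈ s.cycleType := by rw [ha]; simp
    obtain ⟨h3, ho⟩ := hge a hmem
    rw [ha] at hsum hlcm
    simp at hsum hlcm
    rcases ho with ⟨k, hk⟩
    have : a = 3 ∨ a = 5 := by omega
    rcases this with rfl | rfl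
    · left; exact ⟨ha, hlcm.symm⟩
    · right; right; exact ⟨ha, hlcm.symm⟩
  · rw [Multiset.card_eq_two] at hc
    obtain ⟨a, b, hab⟩ := hc
    have hmema : a ∈ s.cycleType := by rw [hab]; simp
    have hmemb : b ∈ s.cycleType := by rw [hab]; simp
    obtain ⟨h3a, -⟩ := hge a hmema
    obtain ⟨h3b, -⟩ := hge b hmemb
    rw [hab] at hsum hlcm
    simp at hsum hlcm
    have ha3 : a = 3 := by omega
    have hb3 : b = 3 := by omega
    subst ha3 hb3
    right; left
    refine ⟨hab, ?_⟩
    rw [← hlcm]; rfl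

/-- Among three elements of `A_n` with the same cycle type, two are conjugate in `A_n`. -/
theorem alt_conj_of_three {n : ℕ} (a b c : alternatingGroup (Fin n))
    (hab : (a : Perm (Fin n)).cycleType = (b : Perm (Fin n)).cycleType)
    (hac : (a : Perm (Fin n)).cycleType = (c : Perm (Fin n)).cycleType) :
    IsConj a b ∨ IsConj a c ∨ IsConj b c := by
  rw [← isConj_iff_cycleType_eq] at hab hac
  obtain ⟨σ, hσ⟩ := isConj_iff.mp hab
  obtain ⟨ρ, hρ⟩ := isConj_iff.mp hac
  by_cases h1 : σ ∈ alternatingGroup (Fin n)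
  · left; exact isConj_iff.mpr ⟨⟨σ, h1⟩, Subtype.ext hσ⟩
  by_cases h2 : ρ ∈ alternatingGroup (Fin n)
  · right; left; exact isConj_iff.mpr ⟨⟨ρ, h2⟩, Subtype.ext hρ⟩
  right; right
  have h3 : ρ * σ⁻¹ ∈ alternatingGroup (Fin n) := by
    rw [mem_alternatingGroup] at h1 h2 ⊢
    rcases Int.units_eq_one_or (sign σ) with h | h
    · exact absurd h h1
    rcases Int.units_eq_one_or (sign ρ) with h' | h'
    · exact absurd h' h2
    rw [map_mul, map_inv, h, h']; decide
  refine isConj_iff.mpr ⟨⟨ρ * σ⁻¹, h3⟩, Subtype.ext ?_⟩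
  simp only [Subgroup.coe_mul, Subgroup.coe_inv]
  rw [← hσ, ← hρ]
  group

/-- Among four elements of `A₆` of the same odd order `k > 1`, two are conjugate in `A₆`. -/
theorem alt6_four_conj {ι : Type*} [Fintype ι] (hι : Fintype.card ι = 4)
    (a : ι → alternatingGroup (Fin 6)) (k : ℕ) (hk : Odd k) (hk1 : k ≠ 1)
    (h : ∀ i, orderOf (a i) = k) : ∃ i j, i ≠ j ∧ IsConj (a i) (a j) := by
  classical
  have hord : ∀ i, orderOf (a i : Perm (Fin 6)) = k := fun i => by
    rw [← h i]; exact Subgroup.orderOf_coe _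
  have hct : ∀ i, (a i : Perm (Fin 6)).cycleType ≠ {3} →
      (a i : Perm (Fin 6)).cycleType = if k = 3 then {3, 3} else {5} := by
    intro i hi
    have := perm6_odd_cycleType (a i : Perm (Fin 6)) (by rw [hord i]; exact hk)
      (by rw [hord i]; exact hk1)
    rw [hord i] at this
    rcases this with ⟨h1, -⟩ | ⟨h1, h2⟩ | ⟨h1, h2⟩
    · exact absurd h1 hi
    · rw [h1, if_pos h2]
    · rw [h1, if_neg (by omega)]
  let F : Finset ι := Finset.univ.filter (fun i => (a i : Perm (Fin 6)).cycleType = {3})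
  by_cases hF : 1 < F.card
  · obtain ⟨i, hi, j, hj, hij⟩ := Finset.one_lt_card.mp hF
    refine ⟨i, j, hij, ?_⟩
    apply alternatingGroup.isThreeCycle_isConj (by simp)
    · exact (Finset.mem_filter.mp hi).2
    · exact (Finset.mem_filter.mp hj).2
  · have hFc : 2 < Fᶜ.card := by rw [Finset.card_compl]; omega
    obtain ⟨i, hi, j, hj, l, hl, hij, hil, hjl⟩ := Finset.two_lt_card.mp hFc
    have hi' : (a i : Perm (Fin 6)).cycleType ≠ {3} := fun h' =>
      (Finset.mem_compl.mp hi) (Finset.mem_filter.mpr ⟨Finset.mem_univ _, h'⟩)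
    have hj' : (a j : Perm (Fin 6)).cycleType ≠ {3} := fun h' =>
      (Finset.mem_compl.mp hj) (Finset.mem_filter.mpr ⟨Finset.mem_univ _, h'⟩)
    have hl' : (a l : Perm (Fin 6)).cycleType ≠ {3} := fun h' =>
      (Finset.mem_compl.mp hl) (Finset.mem_filter.mpr ⟨Finset.mem_univ _, h'⟩)
    rcases alt_conj_of_three (a i) (a j) (a l) ((hct i hi').trans (hct j hj').symm)
      ((hct i hi').trans (hct l hl').symm) with h' | h' | h'
    · exact ⟨i, j, hij, h'⟩
    · exact ⟨i, l, hil, h'⟩
    · exact ⟨j, l, hjl, h'⟩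

section Generic

variable {G : Type*} [Group G]

/-- If the involution `z` inverts `c` and the centralizer of `c` has an element of even order,
some nontrivial element centralizes both `z` and `c`. -/
theorem exists_comm_of_even [Finite G] (z c y : G) (hz : z * z = 1)
    (hzc : z * c * z⁻¹ = c⁻¹) (hy : y * c = c * y) (hyo : Even (orderOf y)) :
    ∃ τ : G, τ ≠ 1 ∧ τ * z = z * τ ∧ τ * c = c * τ := by
  classical
  let A := Subgroup.centralizer ({c} : Set G)
  have hmemA : ∀ t : G, t ∈ A ↔ t * c = c * t := fun t => Subgroup.mem_centralizer_singleton_iff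
  have hzinv : z⁻¹ = z := inv_eq_of_mul_eq_one_left hz
  have hc : z * c = c⁻¹ * z := by
    have : z * c = (z * c * z⁻¹) * z := by group
    rw [this, hzc]
  have hc' : c * z = z * c⁻¹ := by
    have h1 : z * c * z = c⁻¹ := by rw [← hzc, hzinv]
    calc c * z = z * z * (c * z) := by rw [hz, one_mul]
      _ = z * (z * c * z) := by group
      _ = z * c⁻¹ := by rw [h1]
  have hconj : ∀ t : G, t ∈ A → z * t * z⁻¹ ∈ A := by
    intro t ht
    rw [hmemA] at ht ⊢
    have ht' : t * c⁻¹ = c⁻¹ * t := by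
      calc t * c⁻¹ = c⁻¹ * (c * t) * c⁻¹ := by group
        _ = c⁻¹ * (t * c) * c⁻¹ := by rw [ht]
        _ = c⁻¹ * t := by group
    rw [hzinv]
    calc z * t * z * c = z * t * (z * c) := by group
      _ = z * t * (c⁻¹ * z) := by rw [hc]
      _ = z * (t * c⁻¹) * z := by group
      _ = z * (c⁻¹ * t) * z := by rw [ht']
      _ = (z * c⁻¹) * t * z := by group
      _ = (c * z) * t * z := by rw [hc']
      _ = c * (z * t * z) := by group
  let f : Function.End A := fun t => ⟨z * t * z⁻¹, hconj t t.2⟩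
  have hf : f ^ 2 ^ 1 = 1 := by
    rw [pow_one, sq]
    funext t
    apply Subtype.ext
    show z * (z * (t : G) * z⁻¹) * z⁻¹ = t
    rw [hzinv]
    calc z * (z * (t : G) * z) * z = (z * z) * t * (z * z) := by group
      _ = t := by rw [hz, one_mul, mul_one]
  haveI : Fintype A := Fintype.ofFinite A
  haveI : Fact (Nat.Prime 2) := ⟨Nat.prime_two⟩
  have hmod := Equiv.Perm.card_fixedPoints_modEq (p := 2) (n := 1) hf
  have hyA : y ∈ A := (hmemA y).mpr hy
  have hA2 : 2 ∣ Fintype.card A := by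
    have h1 : orderOf (⟨y, hyA⟩ : A) ∣ Fintype.card A := orderOf_dvd_card
    rw [Subgroup.orderOf_mk] at h1
    exact (even_iff_two_dvd.mp hyo).trans h1
  have hfix2 : 2 ∣ Fintype.card (Function.fixedPoints f) := by
    have := (Nat.modEq_zero_iff_dvd.mpr hA2).symm.trans hmod
    exact (Nat.modEq_zero_iff_dvd.mp this.symm)
  have h1fix : (1 : A) ∈ Function.fixedPoints f := by
    show f 1 = 1
    apply Subtype.ext
    show z * ((1 : A) : G) * z⁻¹ = ((1 : A) : G)
    simp
  have hnontriv : Nontrivial (Function.fixedPoints f) := by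
    rw [← Fintype.one_lt_card_iff_nontrivial]
    have hpos : 0 < Fintype.card (Function.fixedPoints f) :=
      Fintype.card_pos_iff.mpr ⟨⟨1, h1fix⟩⟩
    have := Nat.le_of_dvd hpos hfix2
    omega
  obtain ⟨τ, hτ⟩ := exists_ne (⟨1, h1fix⟩ : Function.fixedPoints f)
  refine ⟨((τ : A) : G), ?_, ?_, ?_⟩
  · intro h
    apply hτ
    apply Subtype.ext
    apply Subtype.ext
    exact h
  · have h2 : f (τ : A) = (τ : A) := τ.2
    have h3 : z * ((τ : A) : G) * z⁻¹ = ((τ : A) : G) := congrArg Subtype.val h2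
    calc ((τ : A) : G) * z = (z * ((τ : A) : G) * z⁻¹) * z := by rw [h3]
      _ = z * ((τ : A) : G) := by group
  · exact (hmemA _).mp (τ : A).2

/-- A nontrivial normal subgroup of a finite `p`-group contains a nontrivial central element. -/
theorem exists_mem_center_of_normal' {R : Type*} [Group R] [Finite R] {p : ℕ} [Fact p.Prime]
    (hR : IsPGroup p R) (D : Subgroup R) [D.Normal] (hD : D ≠ ⊥) :
    ∃ z : R, z ∈ D ∧ z ≠ 1 ∧ z ∈ Subgroup.center R := by
  have hRc : IsPGroup p (ConjAct R) := hR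
  have hDp : p ∣ Nat.card D := by
    rcases (hR.to_subgroup D).card_eq_or_dvd with h | h
    · exact absurd (Subgroup.card_eq_one.mp h) hD
    · exact h
  have h1 : (1 : D) ∈ MulAction.fixedPoints (ConjAct R) D := by
    intro g
    exact smul_one g
  obtain ⟨b, hb, hb1⟩ := hRc.exists_fixed_point_of_prime_dvd_card_of_fixed_point D hDp h1
  refine ⟨(b : R), b.2, fun h => hb1 (Subtype.ext h.symm), ?_⟩
  rw [Subgroup.mem_center_iff]
  intro g
  have h2 := hb (ConjAct.toConjAct g)
  have h3 := congrArg Subtype.val h2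
  rw [ConjAct.Subgroup.val_conj_smul, ConjAct.smul_def, ConjAct.ofConjAct_toConjAct] at h3
  calc g * (b : R) = g * (b : R) * g⁻¹ * g := by group
    _ = (b : R) * g := by rw [h3]

/-- A normal subgroup of even order contains an involution central in a given Sylow 2-subgroup. -/
theorem exists_central_invol [Finite G] (N : Subgroup G) [N.Normal] (hN2 : 2 ∣ Nat.card N)
    (H : Sylow 2 G) : ∃ z ∈ N, orderOf z = 2 ∧ ∀ h ∈ (H : Subgroup G), h * z = z * h := by
  haveI : Fact (Nat.Prime 2) := ⟨Nat.prime_two⟩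
  -- an involution in `N`
  obtain ⟨t, ht⟩ := exists_prime_orderOf_dvd_card' (G := N) 2 hN2
  have htG : orderOf (t : G) = 2 := by rw [Subgroup.orderOf_coe]; exact ht
  have hP : IsPGroup 2 (Subgroup.zpowers (t : G)) := by
    apply IsPGroup.of_card (n := 1)
    rw [Nat.card_zpowers, htG, pow_one]
  obtain ⟨Q, hQ⟩ := hP.exists_le_sylow
  obtain ⟨g, hg⟩ := MulAction.exists_smul_eq G Q H
  -- `g t g⁻¹ ∈ H ⊓ N`
  have hgt : g * (t : G) * g⁻¹ ∈ (H : Subgroup G) := by
    rw [← hg, Sylow.coe_subgroup_smul]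
    have := Subgroup.smul_mem_pointwise_smul (t : G) (MulAut.conj g) (Q : Subgroup G)
      (hQ (Subgroup.mem_zpowers _))
    rwa [MulAut.smul_def, MulAut.conj_apply] at this
  have hgtN : g * (t : G) * g⁻¹ ∈ N := ‹N.Normal›.conj_mem _ t.2 g
  have hne : g * (t : G) * g⁻¹ ≠ 1 := by
    intro h
    have : (t : G) = 1 := by
      have := congrArg (fun u => g⁻¹ * u * g) h
      simpa [mul_assoc] using this
    rw [this, orderOf_one] at htG
    omega
  -- the normal subgroup `N ⊓ H` of `H`
  have hD : N.subgroupOf (H : Subgroup G) ≠ ⊥ := by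
    intro h
    have hmem : (⟨g * (t : G) * g⁻¹, hgt⟩ : (H : Subgroup G)) ∈ N.subgroupOf (H : Subgroup G) :=
      Subgroup.mem_subgroupOf.mpr hgtN
    rw [h, Subgroup.mem_bot] at hmem
    exact hne (congrArg Subtype.val hmem)
  obtain ⟨w, hwD, hw1, hwc⟩ := exists_mem_center_of_normal' H.isPGroup' (N.subgroupOf (H : Subgroup G)) hD
  -- a power of `w` of order 2
  obtain ⟨k, hk⟩ := (IsPGroup.iff_orderOf.mp H.isPGroup') w
  have hk0 : k ≠ 0 := by
    rintro rfl
    rw [pow_zero, orderOf_eq_one_iff] at hk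
    exact hw1 hk
  obtain ⟨m, rfl⟩ := Nat.exists_eq_succ_of_ne_zero hk0
  have hord : orderOf (w ^ (2 ^ m)) = 2 := by
    have := orderOf_pow' w (n := 2 ^ m) (pow_ne_zero _ two_ne_zero)
    rw [this, hk, Nat.gcd_eq_right (pow_dvd_pow 2 (Nat.le_succ m)), pow_succ,
      Nat.mul_div_cancel_left _ (pow_pos two_pos m)]
  refine ⟨((w ^ (2 ^ m) : (H : Subgroup G)) : G), ?_, ?_, ?_⟩
  · exact Subgroup.mem_subgroupOf.mp ((N.subgroupOf (H : Subgroup G)).pow_mem hwD _)
  · rw [Subgroup.orderOf_coe]; exact hord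
  · intro h hh
    have h1 : w ^ (2 ^ m) ∈ Subgroup.center (H : Subgroup G) := (Subgroup.center _).pow_mem hwc _
    rw [Subgroup.mem_center_iff] at h1
    have := h1 ⟨h, hh⟩
    exact congrArg Subtype.val this

end Generic

/-- Let G be a finite group with a normal subgroup N of index 4 isomorphic to the alternating group of degree 6 and with trivial centralizer in G (so G is the full automorphism group of A₆). Then any two Sylow 2-subgroups of G have a non-trivial intersection: for a Sylow 2-subgroup H and every x ∈ G, H ∩ H^x ≠ 1. -/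
theorem result {G : Type*} [Group G] [Finite G] (N : Subgroup G) [N.Normal]
    (e : N ≃* alternatingGroup (Fin 6)) (hidx : N.index = 4)
    (hC : Subgroup.centralizer (N : Set G) = ⊥)
    (H : Sylow 2 G) (x : G) :
    (H : Subgroup G) ⊓ MulAut.conj x • (H : Subgroup G) ≠ ⊥ := by
  classical
  have hpow4 : ∀ g : G, g ^ 4 ∈ N := by
    intro g
    have := Subgroup.pow_index_mem N g
    rwa [hidx] at this
  have hNcard : Nat.card N = 360 := by
    rw [Nat.card_congr e.toEquiv, Nat.card_eq_fintype_card]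
    have h2 := two_mul_card_alternatingGroup (α := Fin 6)
    rw [Fintype.card_perm, Fintype.card_fin] at h2
    have : Nat.factorial 6 = 720 := by decide
    omega
  -- the central involution
  obtain ⟨z, hzN, hzo, hzH⟩ := exists_central_invol N (by rw [hNcard]; norm_num) H
  have hzz : z * z = 1 := by rw [← sq, ← hzo]; exact pow_orderOf_eq_one z
  have hzinv : z⁻¹ = z := inv_eq_of_mul_eq_one_left hzz
  -- its centralizer is a 2-group, hence equal to `H`
  have hP : IsPGroup 2 (Subgroup.centralizer ({z} : Set G)) := by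
    rintro ⟨g, hg⟩
    refine ⟨6, ?_⟩
    rw [Subgroup.mem_centralizer_singleton_iff] at hg
    apply Subtype.ext
    show g ^ 2 ^ 6 = 1
    have hcomm : (⟨g ^ 4, hpow4 g⟩ : N) * ⟨z, hzN⟩ = ⟨z, hzN⟩ * ⟨g ^ 4, hpow4 g⟩ := by
      apply Subtype.ext
      show g ^ 4 * z = z * g ^ 4
      exact ((Commute.pow_left (show Commute g z from hg) 4)).eq
    have hcomm' : ((e ⟨g ^ 4, hpow4 g⟩ : alternatingGroup (Fin 6)) : Perm (Fin 6)) *
        ((e ⟨z, hzN⟩ : alternatingGroup (Fin 6)) : Perm (Fin 6)) =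
        ((e ⟨z, hzN⟩ : alternatingGroup (Fin 6)) : Perm (Fin 6)) *
        ((e ⟨g ^ 4, hpow4 g⟩ : alternatingGroup (Fin 6)) : Perm (Fin 6)) := by
      rw [← Subgroup.coe_mul, ← Subgroup.coe_mul, ← map_mul, ← map_mul, hcomm]
    have hord : orderOf ((e ⟨z, hzN⟩ : alternatingGroup (Fin 6)) : Perm (Fin 6)) = 2 := by
      rw [Subgroup.orderOf_coe, MulEquiv.orderOf_eq, Subgroup.orderOf_mk, hzo]
    have hsgn : Perm.sign ((e ⟨z, hzN⟩ : alternatingGroup (Fin 6)) : Perm (Fin 6)) = 1 :=
      Equiv.Perm.mem_alternatingGroup.mp (e ⟨z, hzN⟩).2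
    have h16 := perm6_centralizer_pow _ _ hord hsgn hcomm'
    have h16' : (e ⟨g ^ 4, hpow4 g⟩) ^ 16 = 1 := by
      apply Subtype.ext
      rw [Subgroup.coe_pow]
      exact h16
    rw [← map_pow, map_eq_one_iff e e.injective] at h16'
    have h16'' : (g ^ 4) ^ 16 = 1 := congrArg Subtype.val h16'
    rw [← pow_mul] at h16''
    exact h16''
  have hle : (H : Subgroup G) ≤ Subgroup.centralizer ({z} : Set G) := by
    intro h hh
    rw [Subgroup.mem_centralizer_singleton_iff]
    exact hzH h hh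
  have hHeq : Subgroup.centralizer ({z} : Set G) = (H : Subgroup G) := H.is_maximal' hP hle
  have hCz : ∀ g : G, g * z = z * g → g ∈ (H : Subgroup G) := by
    intro g hg
    rw [← hHeq, Subgroup.mem_centralizer_singleton_iff]
    exact hg
  -- the conjugate involution
  set z' : G := x * z * x⁻¹ with hz'
  set c : G := z * z' with hc
  have hz'N : z' ∈ N := ‹N.Normal›.conj_mem _ hzN x
  have hcN : c ∈ N := N.mul_mem hzN hz'N
  have hz'z' : z' * z' = 1 := by
    rw [hz']
    calc x * z * x⁻¹ * (x * z * x⁻¹) = x * (z * z) * x⁻¹ := by group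
      _ = 1 := by rw [hzz]; group
  have hzc : z * c * z⁻¹ = c⁻¹ := by
    rw [hc, hzinv]
    have : (z * z')⁻¹ = z' * z := by
      rw [mul_inv_rev, hzinv, inv_eq_of_mul_eq_one_left hz'z']
    rw [this]
    calc z * (z * z') * z = (z * z) * z' * z := by group
      _ = z' * z := by rw [hzz, one_mul]
  -- an element of even order centralizing `c`
  have hy : ∃ y : G, y * c = c * y ∧ Even (orderOf y) := by
    by_cases hev : Even (orderOf c)
    · exact ⟨c, rfl, hev⟩
    rw [Nat.not_even_iff_odd] at hev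
    by_cases hc1 : orderOf c = 1
    · rw [orderOf_eq_one_iff] at hc1
      refine ⟨z, by rw [hc1]; simp, by rw [hzo]; exact even_two⟩
    -- `c` has odd order `> 1`: pigeonhole on the four cosets of `N`
    haveI : Fintype (G ⧸ N) := Fintype.ofFinite _
    have hQ : Fintype.card (G ⧸ N) = 4 := by
      rw [← Nat.card_eq_fintype_card]; exact hidx
    let gq : G ⧸ N → G := fun q => Quotient.out q
    have hgq : ∀ q : G ⧸ N, (QuotientGroup.mk (gq q) : G ⧸ N) = q := fun q => QuotientGroup.out_eq' q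
    have hmemq : ∀ q : G ⧸ N, gq q * c * (gq q)⁻¹ ∈ N := fun q => ‹N.Normal›.conj_mem _ hcN _
    let a : G ⧸ N → alternatingGroup (Fin 6) := fun q => e ⟨gq q * c * (gq q)⁻¹, hmemq q⟩
    have ha : ∀ q, orderOf (a q) = orderOf c := by
      intro q
      show orderOf (e ⟨gq q * c * (gq q)⁻¹, hmemq q⟩) = orderOf c
      rw [MulEquiv.orderOf_eq, Subgroup.orderOf_mk]
      have h := MulEquiv.orderOf_eq (MulAut.conj (gq q)) c
      rwa [MulAut.conj_apply] at h
    obtain ⟨q1, q2, hq12, hconj⟩ := alt6_four_conj hQ a (orderOf c) hev hc1 ha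
    obtain ⟨m, hm⟩ := isConj_iff.mp hconj
    -- m * a q1 * m⁻¹ = a q2
    have hm' : (e.symm m : N) * ⟨gq q1 * c * (gq q1)⁻¹, hmemq q1⟩ * (e.symm m : N)⁻¹ =
        ⟨gq q2 * c * (gq q2)⁻¹, hmemq q2⟩ := by
      apply e.injective
      rw [map_mul, map_mul, map_inv, MulEquiv.apply_symm_apply]
      exact hm
    have hm'' : ((e.symm m : N) : G) * (gq q1 * c * (gq q1)⁻¹) * ((e.symm m : N) : G)⁻¹ =
        gq q2 * c * (gq q2)⁻¹ := congrArg Subtype.val hm'
    set n : G := ((e.symm m : N) : G) with hn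
    have hnN : n ∈ N := (e.symm m).2
    refine ⟨(gq q2)⁻¹ * n * gq q1, ?_, ?_⟩
    · calc (gq q2)⁻¹ * n * gq q1 * c
          = (gq q2)⁻¹ * (n * (gq q1 * c * (gq q1)⁻¹) * n⁻¹) * n * gq q1 := by group
        _ = (gq q2)⁻¹ * (gq q2 * c * (gq q2)⁻¹) * n * gq q1 := by rw [hm'']
        _ = c * ((gq q2)⁻¹ * n * gq q1) := by group
    · by_contra hodd
      rw [Nat.not_even_iff_odd] at hodd
      set y : G := (gq q2)⁻¹ * n * gq q1 with hy
      have hd1 : orderOf (QuotientGroup.mk y : G ⧸ N) ∣ orderOf y :=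
        orderOf_map_dvd (QuotientGroup.mk' N) y
      have hd2 : orderOf (QuotientGroup.mk y : G ⧸ N) ∣ 4 := by
        rw [← hQ]; exact orderOf_dvd_card
      have hodd' : Odd (orderOf (QuotientGroup.mk y : G ⧸ N)) := Odd.of_dvd_nat hodd hd1
      have hle4 : orderOf (QuotientGroup.mk y : G ⧸ N) ≤ 4 := Nat.le_of_dvd (by norm_num) hd2
      have hone : orderOf (QuotientGroup.mk y : G ⧸ N) = 1 := by
        rcases hodd' with ⟨r, hr⟩
        have hr1 : r ≤ 1 := by omega
        interval_cases r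
        · simpa using hr
        · rw [hr] at hd2; norm_num at hd2
      rw [orderOf_eq_one_iff] at hone
      apply hq12
      have h1 : (QuotientGroup.mk y : G ⧸ N) = q2⁻¹ * 1 * q1 := by
        rw [hy, QuotientGroup.mk_mul, QuotientGroup.mk_mul, QuotientGroup.mk_inv, hgq, hgq,
          (QuotientGroup.eq_one_iff n).mpr hnN]
      rw [hone] at h1
      have : q2 * 1 = q2 * (q2⁻¹ * 1 * q1) := by rw [← h1]
      simpa using this.symm
  obtain ⟨y, hyc, hyo⟩ := hy
  obtain ⟨τ, hτ1, hτz, hτc⟩ := exists_comm_of_even z c y hzz hzc hyc hyo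
  have hz'c : z' = z * c := by
    rw [hc, ← mul_assoc, hzz, one_mul]
  have hτz' : τ * z' = z' * τ := by
    rw [hz'c]
    calc τ * (z * c) = (τ * z) * c := by group
      _ = z * (τ * c) := by rw [hτz]; group
      _ = z * c * τ := by rw [hτc]; group
  have hτH : τ ∈ (H : Subgroup G) := hCz τ hτz
  have hτH' : τ ∈ MulAut.conj x • (H : Subgroup G) := by
    rw [Subgroup.mem_pointwise_smul_iff_inv_smul_mem, MulAut.smul_def, ← map_inv,
      MulAut.conj_apply, inv_inv]
    apply hCz
    rw [hz'] at hτz'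
    calc x⁻¹ * τ * x * z = x⁻¹ * (τ * (x * z * x⁻¹)) * x := by group
      _ = x⁻¹ * (x * z * x⁻¹ * τ) * x := by rw [hτz']
      _ = z * (x⁻¹ * τ * x) := by group
  intro hbot
  have : τ ∈ (H : Subgroup G) ⊓ MulAut.conj x • (H : Subgroup G) := ⟨hτH, hτH'⟩
  rw [hbot, Subgroup.mem_bot] at this
  exact hτ1 this

end Cfsg.Agent.S2488
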