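-- Statement S2490: a group of order 7920 with a disconnected prime graph is simple.
import Cfsg.Statements.S2490
import Cfsg.Agent.Lib.Helper82.PGf

set_option autoImplicit false
open Cfsg

namespace Cfsg.Agent.S2490

open Cfsg.Agent.Lib.Helper82.PG in
/-- Let G be a finite group of order 7920 = 2⁴·3²·5·11 (the order of the smallest Mathieu group) and suppose its prime graph (vertices the prime divisors of the order, distinct p, q joined when there is an element of order pq) is disconnected: the prime divisors split into two non-empty parts with no element of order pq for p in one part and q in the other. Then G is simple. -/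
theorem result {G : Type*} [Group G] [Finite G] (hord : Nat.card G = 7920)
    (hdisc : (∃ A : Set ℕ, (∃ a ∈ A, a.Prime ∧ a ∣ Nat.card G) ∧ (∃ b ∉ A, b.Prime ∧ b ∣ Nat.card G) ∧
      ∀ a ∈ A, ∀ b ∉ A, a.Prime → b.Prime → a ∣ Nat.card G → b ∣ Nat.card G → ¬ ∃ g : G, orderOf g = a * b)) :
    IsSimpleGroup G := by
  classical
  obtain ⟨A, ⟨a0, ha0A, ha0p, ha0d⟩, ⟨b0, hb0A, hb0p, hb0d⟩, hA⟩ := hdisc
  rw [hord] at ha0d hb0d
  have ha4 := prime_dvd_7920 ha0p ha0d
  have hb4 := prime_dvd_7920 hb0p hb0d
  have hcolf : ∀ p ∈ primes4,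
      colf (decide (2 ∈ A)) (decide (3 ∈ A)) (decide (5 ∈ A)) (decide (11 ∈ A)) p =
        decide (p ∈ A) := by
    intro p hp
    simp only [primes4, List.mem_cons, List.mem_nil_iff, or_false] at hp
    rcases hp with rfl | rfl | rfl | rfl <;> rfl
  apply simple_7920 hord (decide (2 ∈ A)) (decide (3 ∈ A)) (decide (5 ∈ A)) (decide (11 ∈ A))
  · rintro ⟨h1, h2, h3⟩
    have hconst : ∀ p ∈ primes4, decide (p ∈ A) = decide (2 ∈ A) := by
      intro p hp
      simp only [primes4, List.mem_cons, List.mem_nil_iff, or_false] at hp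
      rcases hp with rfl | rfl | rfl | rfl
      · rfl
      · exact h1.symm
      · exact (h1.trans h2).symm
      · exact (h1.trans (h2.trans h3)).symm
    have e1 := hconst a0 ha4
    have e2 := hconst b0 hb4
    rw [← e2] at e1
    simp [ha0A, hb0A] at e1
  · intro p hp q hq hpq hcol
    rw [hcolf p hp, hcolf q hq] at hcol
    obtain ⟨hpp, -, hpd1, -, hpd2⟩ := primes4_spec p hp
    obtain ⟨hqp, -, hqd1, -, hqd2⟩ := primes4_spec q hq
    have hpd : p ∣ Nat.card G := by rw [hord]; exact hpd2.trans hpd1
    have hqd : q ∣ Nat.card G := by rw [hord]; exact hqd2.trans hqd1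
    by_cases hpA : p ∈ A
    · have hqA : q ∉ A := by
        intro hqA
        apply hcol
        simp [hpA, hqA]
      exact hA p hpA q hqA hpp hqp hpd hqd
    · have hqA : q ∈ A := by
        by_contra hqA
        apply hcol
        simp [hpA, hqA]
      exact NoEdge.symm (hA q hqA p hpA hqp hpp hqd hpd)

end Cfsg.Agent.S2490
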