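import Cfsg.Statements.S2507
import Cfsg.Agent.Lib.Helper41.SL2Cent
import Cfsg.Agent.Lib.Helper5.PSL2

set_option autoImplicit false
open Cfsg

namespace Cfsg.Agent.S2507

open Cfsg.Agent.Lib.Helper41 Matrix

/-- the index of a centralizer is invariant under group isomorphism -/
theorem index_centralizer_equiv {G H : Type*} [Group G] [Group H] (e : G ≃* H) (g : G) :
    (Subgroup.centralizer ({e g} : Set H)).index = (Subgroup.centralizer ({g} : Set G)).index := by
  have h : Subgroup.centralizer ({e g} : Set H) =
      (Subgroup.centralizer ({g} : Set G)).map (e : G →* H) := by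
    ext x
    simp only [Subgroup.mem_centralizer_iff, Set.mem_singleton_iff, forall_eq, Subgroup.mem_map]
    constructor
    · intro h
      refine ⟨e.symm x, ?_, by simp⟩
      apply e.injective
      simpa using h
    · rintro ⟨y, hy, rfl⟩
      have := congrArg e hy
      simpa using this
  rw [h, Subgroup.index_map_equiv]

theorem arith (q x : ℕ) (hq : 2 ≤ q) :
    (x * q = q * (q ^ 2 - 1) → x = q ^ 2 - 1) ∧
    (x * (q - 1) = q * (q ^ 2 - 1) → x = q * (q + 1)) ∧
    (x * (q + 1) = q * (q ^ 2 - 1) → x = q * (q - 1)) := by
  obtain ⟨k, rfl⟩ : ∃ k, q = k + 2 := ⟨q - 2, by omega⟩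
  have e1 : (k + 2) ^ 2 - 1 = (k + 1) * (k + 3) := by
    rw [Nat.sub_eq_iff_eq_add (Nat.one_le_pow _ _ (by omega))]; ring
  have e3 : k + 2 - 1 = k + 1 := by omega
  rw [e1, e3]
  refine ⟨?_, ?_, ?_⟩
  · intro h
    apply Nat.eq_of_mul_eq_mul_right (show 0 < k + 2 by omega)
    rw [h]; ring
  · intro h
    apply Nat.eq_of_mul_eq_mul_right (show 0 < k + 1 by omega)
    rw [h]; ring
  · intro h
    apply Nat.eq_of_mul_eq_mul_right (show 0 < k + 2 + 1 by omega)
    rw [h]; ring

/-- Let F be a finite field with q = 2^f ≥ 4 elements. The conjugacy class sizes of PSL(2,F) are exactly 1, q(q − 1), q² − 1 and q(q + 1). -/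
theorem result {F : Type*} [Field F] [Fintype F]
    (h2 : 2 ∣ Fintype.card F) (h4 : 4 ≤ Fintype.card F) :
    Set.range (fun g : (Matrix.ProjectiveSpecialLinearGroup (Fin 2) F) => (Subgroup.centralizer ({g} : Set (Matrix.ProjectiveSpecialLinearGroup (Fin 2) F))).index) =
      {1, Fintype.card F * (Fintype.card F - 1), Fintype.card F ^ 2 - 1, Fintype.card F * (Fintype.card F + 1)} := by
  have h20 : (2 : F) = 0 :=
    Cfsg.Agent.Lib.Helper5.two_eq_zero_of_even_card (even_iff_two_dvd.mpr h2)
  have hneg : (-1 : Matrix (Fin 2) (Fin 2) F) = 1 := by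
    have : (-1 : F) = 1 := by linear_combination -h20
    ext i j
    fin_cases i <;> fin_cases j <;> simp [this]
  have hcenter : Subgroup.center (Matrix.SpecialLinearGroup (Fin 2) F) = ⊥ := by
    rw [eq_bot_iff]
    intro A hA
    rw [sl2_mem_center_iff, hneg, or_self] at hA
    rw [Subgroup.mem_bot]
    exact Subtype.ext hA
  obtain ⟨e⟩ : Nonempty (Matrix.ProjectiveSpecialLinearGroup (Fin 2) F ≃*
      Matrix.SpecialLinearGroup (Fin 2) F) :=
    ⟨(QuotientGroup.quotientMulEquivOfEq hcenter).trans QuotientGroup.quotientBot⟩
  have hcard := Cfsg.Agent.Lib.Helper5.card_SL2 (F := F)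
  have hq2 : 2 ≤ Fintype.card F := by omega
  have key : ∀ A : Matrix.SpecialLinearGroup (Fin 2) F, A ≠ 1 →
      (Subgroup.centralizer ({A} : Set (Matrix.SpecialLinearGroup (Fin 2) F))).index *
        Nat.card (conic A.1.trace) = Fintype.card F * (Fintype.card F ^ 2 - 1) := by
    intro A hA
    have hAc : A ∉ Subgroup.center (Matrix.SpecialLinearGroup (Fin 2) F) := by
      rw [hcenter, Subgroup.mem_bot]
      exact hA
    rw [← card_centralizer_eq_card_conic A hAc, Subgroup.index_mul_card, hcard]
  have hzero : ∀ A : Matrix.SpecialLinearGroup (Fin 2) F, A ≠ 1 → A.1.trace = 0 →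
      (Subgroup.centralizer ({A} : Set (Matrix.SpecialLinearGroup (Fin 2) F))).index =
        Fintype.card F ^ 2 - 1 := by
    intro A hA ht
    have h := key A hA
    rw [ht, card_conic_zero h20] at h
    exact (arith _ _ hq2).1 h
  have hsplit : ∀ A : Matrix.SpecialLinearGroup (Fin 2) F, A ≠ 1 → ∀ l : F,
      l * l + A.1.trace * l + 1 = 0 → l ≠ 1 →
      (Subgroup.centralizer ({A} : Set (Matrix.SpecialLinearGroup (Fin 2) F))).index =
        Fintype.card F * (Fintype.card F + 1) := by
    intro A hA l hl hl1
    have h := key A hA
    rw [card_conic_split h20 hl hl1] at h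
    exact (arith _ _ hq2).2.1 h
  have hnonsplit : ∀ A : Matrix.SpecialLinearGroup (Fin 2) F, A ≠ 1 →
      (∀ a : F, a * a + A.1.trace * a + 1 ≠ 0) →
      (Subgroup.centralizer ({A} : Set (Matrix.SpecialLinearGroup (Fin 2) F))).index =
        Fintype.card F * (Fintype.card F - 1) := by
    intro A hA hno
    have h := key A hA
    rw [card_conic_nonsplit h20 hno] at h
    exact (arith _ _ hq2).2.2 h
  have hone : (Subgroup.centralizer ({(1 : Matrix.SpecialLinearGroup (Fin 2) F)} :
      Set (Matrix.SpecialLinearGroup (Fin 2) F))).index = 1 := by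
    rw [Subgroup.index_eq_one, eq_top_iff]
    intro x _
    rw [Subgroup.mem_centralizer_iff]
    intro h hh
    rw [Set.mem_singleton_iff] at hh
    rw [hh, one_mul, mul_one]
  have hidx : ∀ A : Matrix.SpecialLinearGroup (Fin 2) F,
      (Subgroup.centralizer ({e.symm A} : Set (Matrix.ProjectiveSpecialLinearGroup (Fin 2) F))).index
        = (Subgroup.centralizer ({A} : Set (Matrix.SpecialLinearGroup (Fin 2) F))).index := by
    intro A
    rw [← index_centralizer_equiv e (e.symm A), e.apply_symm_apply]
  apply Set.eq_of_subset_of_subset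
  · rintro _ ⟨g, rfl⟩
    simp only [Set.mem_insert_iff, Set.mem_singleton_iff]
    have hg : (Subgroup.centralizer ({g} : Set (Matrix.ProjectiveSpecialLinearGroup (Fin 2) F))).index
        = (Subgroup.centralizer ({e g} : Set (Matrix.SpecialLinearGroup (Fin 2) F))).index := by
      rw [← hidx (e g), e.symm_apply_apply]
    rw [hg]
    by_cases hA : e g = 1
    · left
      rw [hA]
      exact hone
    · by_cases ht : (e g).1.trace = 0
      · right; right; left
        exact hzero _ hA ht
      · by_cases hroot : ∃ l : F, l * l + (e g).1.trace * l + 1 = 0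
        · obtain ⟨l, hl⟩ := hroot
          right; right; right
          apply hsplit _ hA l hl
          rintro rfl
          apply ht
          linear_combination hl - h20
        · push Not at hroot
          right; left
          exact hnonsplit _ hA hroot
  · intro n hn
    simp only [Set.mem_insert_iff, Set.mem_singleton_iff] at hn
    rcases hn with rfl | rfl | rfl | rfl
    · exact ⟨e.symm 1, (hidx 1).trans hone⟩
    · -- non-split element
      have hchar : CharP F 2 := CharTwo.of_one_ne_zero_of_two_eq_zero one_ne_zero h20
      have hfact : Fact (Nat.Prime 2) := ⟨Nat.prime_two⟩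
      obtain ⟨W, hW⟩ := exists_sl2_orderOf_card_add_one (F := F) 2
      have hW1 : W ≠ 1 := by
        rintro rfl
        rw [orderOf_one] at hW
        omega
      refine ⟨e.symm W, ?_⟩
      simp only
      rw [hidx]
      apply hnonsplit W hW1
      intro l hl
      have hl' : l * l - W.1.trace * l + 1 = 0 := by
        linear_combination hl - (W.1.trace * l) * h20
      by_cases hl2 : l * l = 1
      · have hl1 : l = 1 := by
          have : (l + 1) * (l + 1) = 0 := by linear_combination hl2 + (l + 1) * h20
          have := mul_self_eq_zero.mp this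
          linear_combination this - h20
        have ht : W.1.trace = 0 := by
          rw [hl1] at hl
          linear_combination hl - h20
        have hc := cayley2_det_one W.det_coe
        rw [ht, zero_smul, zero_sub, hneg] at hc
        have hW2 : W ^ 2 = 1 := by
          apply sl2_pow_eq_one_of_coe
          rw [pow_two, hc]
        have := Nat.le_of_dvd (by norm_num) (orderOf_dvd_of_pow_eq_one hW2)
        omega
      · have hl0 : l ≠ 0 := by
          rintro rfl
          simp at hl
        have hpow := pow_eq_one_of_split W.det_coe hl' hl2 (Fintype.card F - 1)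
          (FiniteField.pow_card_sub_one_eq_one l hl0)
        have hWp : W ^ (Fintype.card F - 1) = 1 := sl2_pow_eq_one_of_coe hpow
        have := Nat.le_of_dvd (by omega) (orderOf_dvd_of_pow_eq_one hWp)
        omega
    · refine ⟨e.symm (upperU 1), ?_⟩
      simp only
      rw [hidx]
      apply hzero
      · intro h
        have h1 := congrArg (fun A : Matrix.SpecialLinearGroup (Fin 2) F => A.1 0 1) h
        simp [upperU_coe] at h1
      · rw [upperU_coe, Matrix.trace_fin_two]
        simp
        linear_combination h20
    · have hex : ∃ l : F, l ≠ 0 ∧ l ≠ 1 := by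
        classical
        by_contra hcon
        push Not at hcon
        have hsub : (Finset.univ : Finset F) ⊆ {0, 1} := by
          intro x _
          by_cases hx : x = 0
          · simp [hx]
          · simp [hcon x hx]
        have := Finset.card_le_card hsub
        have h3 : ({0, 1} : Finset F).card ≤ 2 := Finset.card_insert_le _ _
        rw [Finset.card_univ] at this
        omega
      obtain ⟨l, hl0, hl1⟩ := hex
      refine ⟨e.symm (diagD (Units.mk0 l hl0)), ?_⟩
      simp only
      rw [hidx]
      apply hsplit _ _ l
      · rw [diagD_coe, Matrix.trace_fin_two]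
        simp
        field_simp
        linear_combination (l * l + 1) * h20
      · exact hl1
      · intro h
        have h1 := congrArg (fun A : Matrix.SpecialLinearGroup (Fin 2) F => A.1 0 0) h
        simp [diagD_coe] at h1
        exact hl1 h1

end Cfsg.Agent.S2507
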