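import Cfsg.Statements.S2508
import Cfsg.Agent.Lib.Helper41.PSL2Class
import Cfsg.Agent.Lib.Helper41.SL2OddOrder
import Cfsg.Agent.Lib.Helper5.PSL2

set_option autoImplicit false
open Cfsg

namespace Cfsg.Agent.S2508

open Cfsg.Agent.Lib.Helper41 Matrix

theorem arith (q x : ℕ) (hodd : q % 2 = 1) (h3 : 3 ≤ q) :
    (x * (2 * q) = q * (q ^ 2 - 1) → x = (q ^ 2 - 1) / 2) ∧
    (x * (q - 1) = q * (q ^ 2 - 1) → x = q * (q + 1)) ∧
    (x * (q + 1) = q * (q ^ 2 - 1) → x = q * (q - 1)) ∧
    (2 * x * (q - 1) = q * (q ^ 2 - 1) → x = q * (q + 1) / 2) ∧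
    (2 * x * (q + 1) = q * (q ^ 2 - 1) → x = q * (q - 1) / 2) := by
  obtain ⟨k, rfl⟩ : ∃ k, q = 2 * k + 1 := ⟨q / 2, by omega⟩
  have hk : 1 ≤ k := by omega
  have e1 : (2 * k + 1) ^ 2 - 1 = 4 * k * (k + 1) := by
    rw [Nat.sub_eq_iff_eq_add (Nat.one_le_pow _ _ (by omega))]; ring
  have e3 : 2 * k + 1 - 1 = 2 * k := by omega
  have e4 : 2 * k + 1 + 1 = 2 * (k + 1) := by ring
  rw [e1, e3, e4]
  have d1 : 4 * k * (k + 1) / 2 = 2 * k * (k + 1) :=
    Nat.div_eq_of_eq_mul_left (by norm_num) (by ring)
  have d2 : (2 * k + 1) * (2 * (k + 1)) / 2 = (2 * k + 1) * (k + 1) :=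
    Nat.div_eq_of_eq_mul_left (by norm_num) (by ring)
  have d3 : (2 * k + 1) * (2 * k) / 2 = (2 * k + 1) * k :=
    Nat.div_eq_of_eq_mul_left (by norm_num) (by ring)
  rw [d1, d2, d3]
  refine ⟨?_, ?_, ?_, ?_, ?_⟩
  · intro h
    apply Nat.eq_of_mul_eq_mul_right (show 0 < 2 * (2 * k + 1) by omega)
    rw [h]; ring
  · intro h
    apply Nat.eq_of_mul_eq_mul_right (show 0 < 2 * k by omega)
    rw [h]; ring
  · intro h
    apply Nat.eq_of_mul_eq_mul_right (show 0 < 2 * (k + 1) by omega)
    rw [h]; ring
  · intro h
    apply Nat.eq_of_mul_eq_mul_right (show 0 < 2 * (2 * k) by omega)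
    have : x * (2 * (2 * k)) = 2 * x * (2 * k) := by ring
    rw [this, h]; ring
  · intro h
    apply Nat.eq_of_mul_eq_mul_right (show 0 < 2 * (2 * (k + 1)) by omega)
    have : x * (2 * (2 * (k + 1))) = 2 * x * (2 * (k + 1)) := by ring
    rw [this, h]; ring

/-- class sizes of `PSL₂(q)`, `q` odd, in terms of whether `-1` is a square -/
theorem range_eq {F : Type*} [Field F] [Fintype F] (h2 : (2 : F) ≠ 0) (h7 : 7 ≤ Fintype.card F)
    (z : ℕ) (hz1 : (∃ l : F, l * l = -1) → z = Fintype.card F * (Fintype.card F + 1) / 2)
    (hz2 : (¬ ∃ l : F, l * l = -1) → z = Fintype.card F * (Fintype.card F - 1) / 2) :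
    Set.range (fun g : (Matrix.ProjectiveSpecialLinearGroup (Fin 2) F) => (Subgroup.centralizer ({g} : Set (Matrix.ProjectiveSpecialLinearGroup (Fin 2) F))).index) =
      {1, (Fintype.card F ^ 2 - 1) / 2, z,
        Fintype.card F * (Fintype.card F - 1), Fintype.card F * (Fintype.card F + 1)} := by
  classical
  have hcard := Cfsg.Agent.Lib.Helper5.card_SL2 (F := F)
  have hqodd : Fintype.card F % 2 = 1 := card_mod_two_of_two_ne_zero h2
  have har := fun x => arith (Fintype.card F) x hqodd (by omega)
  have h4 : (4 : F) ≠ 0 := by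
    have : (4 : F) = 2 * 2 := by norm_num
    rw [this]
    exact mul_ne_zero h2 h2
  -- index in SL₂ times conic
  have key : ∀ A : Matrix.SpecialLinearGroup (Fin 2) F,
      A ∉ Subgroup.center (Matrix.SpecialLinearGroup (Fin 2) F) →
      (Subgroup.centralizer ({A} : Set (Matrix.SpecialLinearGroup (Fin 2) F))).index *
        Nat.card (conic A.1.trace) = Fintype.card F * (Fintype.card F ^ 2 - 1) := by
    intro A hA
    rw [← card_centralizer_eq_card_conic A hA, Subgroup.index_mul_card, hcard]
  have hcentral : ∀ A : Matrix.SpecialLinearGroup (Fin 2) F,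
      A ∈ Subgroup.center (Matrix.SpecialLinearGroup (Fin 2) F) →
      (Subgroup.centralizer ({(QuotientGroup.mk A :
        Matrix.ProjectiveSpecialLinearGroup (Fin 2) F)} :
        Set (Matrix.ProjectiveSpecialLinearGroup (Fin 2) F))).index = 1 := by
    intro A hA
    have h1 : (QuotientGroup.mk A : Matrix.ProjectiveSpecialLinearGroup (Fin 2) F) = 1 :=
      (QuotientGroup.eq_one_iff A).mpr hA
    rw [h1, Subgroup.index_eq_one, eq_top_iff]
    intro x _
    rw [Subgroup.mem_centralizer_iff]
    intro h hh
    rw [Set.mem_singleton_iff] at hh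
    rw [hh, one_mul, mul_one]
  have hunip : ∀ A : Matrix.SpecialLinearGroup (Fin 2) F,
      A ∉ Subgroup.center (Matrix.SpecialLinearGroup (Fin 2) F) → A.1.trace * A.1.trace = 4 →
      (Subgroup.centralizer ({(QuotientGroup.mk A :
        Matrix.ProjectiveSpecialLinearGroup (Fin 2) F)} :
        Set (Matrix.ProjectiveSpecialLinearGroup (Fin 2) F))).index =
        (Fintype.card F ^ 2 - 1) / 2 := by
    intro A hA ht
    have ht0 : A.1.trace ≠ 0 := by
      intro h0
      rw [h0, mul_zero] at ht
      exact h4 ht.symm
    rw [psl2_index_centralizer_of_trace_ne_zero h2 A ht0]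
    have h := key A hA
    rw [card_conic_unipotent h2 ht] at h
    exact (har _).1 h
  have hsplit : ∀ A : Matrix.SpecialLinearGroup (Fin 2) F,
      A ∉ Subgroup.center (Matrix.SpecialLinearGroup (Fin 2) F) → A.1.trace ≠ 0 → ∀ l : F,
      l * l - A.1.trace * l + 1 = 0 → l * l ≠ 1 →
      (Subgroup.centralizer ({(QuotientGroup.mk A :
        Matrix.ProjectiveSpecialLinearGroup (Fin 2) F)} :
        Set (Matrix.ProjectiveSpecialLinearGroup (Fin 2) F))).index =
        Fintype.card F * (Fintype.card F + 1) := by
    intro A hA ht0 l hl hl2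
    rw [psl2_index_centralizer_of_trace_ne_zero h2 A ht0]
    have h := key A hA
    rw [card_conic_split' hl hl2] at h
    exact (har _).2.1 h
  have hnonsplit : ∀ A : Matrix.SpecialLinearGroup (Fin 2) F,
      A ∉ Subgroup.center (Matrix.SpecialLinearGroup (Fin 2) F) → A.1.trace ≠ 0 →
      (∀ a : F, a * a - A.1.trace * a + 1 ≠ 0) →
      (Subgroup.centralizer ({(QuotientGroup.mk A :
        Matrix.ProjectiveSpecialLinearGroup (Fin 2) F)} :
        Set (Matrix.ProjectiveSpecialLinearGroup (Fin 2) F))).index =
        Fintype.card F * (Fintype.card F - 1) := by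
    intro A hA ht0 hno
    rw [psl2_index_centralizer_of_trace_ne_zero h2 A ht0]
    have h := key A hA
    rw [card_conic_nonsplit' h2 hno] at h
    exact (har _).2.2.1 h
  have hzero : ∀ A : Matrix.SpecialLinearGroup (Fin 2) F,
      A ∉ Subgroup.center (Matrix.SpecialLinearGroup (Fin 2) F) → A.1.trace = 0 →
      (Subgroup.centralizer ({(QuotientGroup.mk A :
        Matrix.ProjectiveSpecialLinearGroup (Fin 2) F)} :
        Set (Matrix.ProjectiveSpecialLinearGroup (Fin 2) F))).index = z := by
    intro A hA ht
    have h := key A hA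
    rw [← psl2_index_centralizer_of_trace_eq_zero h2 A ht, ht] at h
    by_cases hi : ∃ l : F, l * l = -1
    · rw [hz1 hi]
      obtain ⟨l, hl⟩ := hi
      have hl' : l * l - (0 : F) * l + 1 = 0 := by linear_combination hl
      have hl2 : l * l ≠ 1 := by
        rw [hl]
        intro h'
        apply h2
        linear_combination -h'
      rw [card_conic_split' hl' hl2] at h
      exact (har _).2.2.2.1 h
    · rw [hz2 hi]
      have hno : ∀ a : F, a * a - (0 : F) * a + 1 ≠ 0 := by
        intro a ha
        apply hi
        exact ⟨a, by linear_combination ha⟩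
      rw [card_conic_nonsplit' h2 hno] at h
      exact (har _).2.2.2.2 h
  apply Set.eq_of_subset_of_subset
  · rintro _ ⟨g, rfl⟩
    obtain ⟨A, rfl⟩ := QuotientGroup.mk_surjective g
    simp only [Set.mem_insert_iff, Set.mem_singleton_iff]
    by_cases hA : A ∈ Subgroup.center (Matrix.SpecialLinearGroup (Fin 2) F)
    · left
      exact hcentral A hA
    · by_cases ht : A.1.trace = 0
      · right; right; left
        exact hzero A hA ht
      · by_cases ht4 : A.1.trace * A.1.trace = 4
        · right; left
          exact hunip A hA ht4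
        · by_cases hroot : ∃ l : F, l * l - A.1.trace * l + 1 = 0
          · obtain ⟨l, hl⟩ := hroot
            right; right; right; right
            apply hsplit A hA ht l hl
            intro hl2
            apply ht4
            have h1 : A.1.trace * l = 2 := by linear_combination -hl + hl2
            have e : A.1.trace * A.1.trace = (A.1.trace * l) * (A.1.trace * l) := by
              rw [mul_mul_mul_comm, hl2, mul_one]
            rw [e, h1]
            norm_num
          · push Not at hroot
            right; right; right; left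
            exact hnonsplit A hA ht hroot
  · intro n hn
    simp only [Set.mem_insert_iff, Set.mem_singleton_iff] at hn
    rcases hn with rfl | rfl | rfl | rfl | rfl
    · exact ⟨QuotientGroup.mk 1, hcentral 1 (Subgroup.one_mem _)⟩
    · refine ⟨QuotientGroup.mk (upperU 1), ?_⟩
      apply hunip
      · rw [sl2_mem_center_iff]
        rintro (h | h)
        · have h1 := congrFun (congrFun h 0) 1
          simp [upperU_coe] at h1
        · have h1 := congrFun (congrFun h 0) 1
          simp [upperU_coe] at h1
      · rw [upperU_coe, Matrix.trace_fin_two]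
        simp
        norm_num
    · refine ⟨QuotientGroup.mk weylW, ?_⟩
      apply hzero
      · rw [sl2_mem_center_iff]
        rintro (h | h)
        · have h1 := congrFun (congrFun h 0) 1
          simp [weylW_coe] at h1
        · have h1 := congrFun (congrFun h 0) 1
          simp [weylW_coe] at h1
      · rw [weylW_coe, Matrix.trace_fin_two]
        simp
    · -- non-split element of order `q + 1`
      obtain ⟨p, hchar⟩ := CharP.exists F
      have hfact : Fact p.Prime := ⟨CharP.char_is_prime F p⟩
      obtain ⟨W, hW⟩ := exists_sl2_orderOf_card_add_one (F := F) p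
      obtain ⟨m, hpp, hqp⟩ := FiniteField.card F p
      have hWc : W ∉ Subgroup.center (Matrix.SpecialLinearGroup (Fin 2) F) := by
        intro h
        rw [sl2_mem_center_iff] at h
        have hW2 : W ^ 2 = 1 := by
          apply sl2_pow_eq_one_of_coe
          rcases h with h | h
          · rw [h, one_pow]
          · rw [h]; simp
        have := Nat.le_of_dvd (by norm_num) (orderOf_dvd_of_pow_eq_one hW2)
        omega
      have hW4 : W.1.trace * W.1.trace ≠ 4 := by
        intro h
        have h2p := pow_two_mul_char_of_trace_sq p W h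
        have hd1 : orderOf W ∣ 2 * p := orderOf_dvd_of_pow_eq_one h2p
        have hcop : Nat.Coprime (Fintype.card F + 1) p := by
          rw [Nat.coprime_comm, Nat.Prime.coprime_iff_not_dvd hpp]
          intro hdvd
          have hpq : p ∣ Fintype.card F := by
            rw [hqp]
            exact dvd_pow_self p m.ne_zero
          have : p ∣ 1 := (Nat.dvd_add_right hpq).mp hdvd
          exact hpp.one_lt.ne' (Nat.dvd_one.mp this)
        rw [hW] at hd1
        have hd2 : Fintype.card F + 1 ∣ 2 := hcop.dvd_of_dvd_mul_right hd1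
        have := Nat.le_of_dvd (by norm_num) hd2
        omega
      have hWt : W.1.trace ≠ 0 := by
        intro h0
        have hc := cayley2_det_one W.det_coe
        rw [h0, zero_smul, zero_sub] at hc
        have hW4' : W ^ 4 = 1 := by
          apply sl2_pow_eq_one_of_coe
          have : (W.1) ^ 4 = (W.1 * W.1) * (W.1 * W.1) := by
            rw [show (4 : ℕ) = 2 + 2 from rfl, pow_add, pow_two]
          rw [this, hc]
          simp
        have := Nat.le_of_dvd (by norm_num) (orderOf_dvd_of_pow_eq_one hW4')
        omega
      refine ⟨QuotientGroup.mk W, ?_⟩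
      apply hnonsplit W hWc hWt
      intro l hl
      by_cases hl2 : l * l = 1
      · apply hW4
        have h1 : W.1.trace * l = 2 := by linear_combination -hl + hl2
        have e : W.1.trace * W.1.trace = (W.1.trace * l) * (W.1.trace * l) := by
          rw [mul_mul_mul_comm, hl2, mul_one]
        rw [e, h1]
        norm_num
      · have hl0 : l ≠ 0 := by
          rintro rfl
          simp at hl
        have hpow := pow_eq_one_of_split W.det_coe hl hl2 (Fintype.card F - 1)
          (FiniteField.pow_card_sub_one_eq_one l hl0)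
        have hWp : W ^ (Fintype.card F - 1) = 1 := sl2_pow_eq_one_of_coe hpow
        have := Nat.le_of_dvd (by omega) (orderOf_dvd_of_pow_eq_one hWp)
        omega
    · -- split element `diag(l, l⁻¹)` with `l⁴ ≠ 1`
      obtain ⟨u, hu⟩ := IsCyclic.exists_generator (α := Fˣ)
      have hordu : orderOf u = Fintype.card F - 1 := by
        rw [orderOf_eq_card_of_forall_mem_zpowers hu, Nat.card_units, Nat.card_eq_fintype_card]
      have hu4 : (u : F) ^ 4 ≠ 1 := by
        intro h
        have h' : u ^ 4 = 1 := Units.ext (by rw [Units.val_pow_eq_pow_val, h, Units.val_one])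
        have := Nat.le_of_dvd (by norm_num) (orderOf_dvd_of_pow_eq_one h')
        omega
      have hu2 : (u : F) * u ≠ 1 := by
        intro h
        apply hu4
        have : (u : F) ^ 4 = ((u : F) * u) * ((u : F) * u) := by ring
        rw [this, h, mul_one]
      have hu2' : (u : F) * u ≠ -1 := by
        intro h
        apply hu4
        have : (u : F) ^ 4 = ((u : F) * u) * ((u : F) * u) := by ring
        rw [this, h]
        ring
      have hu0 : (u : F) ≠ 0 := u.ne_zero
      have htr : (diagD u).1.trace = (u : F) + (u : F)⁻¹ := by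
        rw [diagD_coe, Matrix.trace_fin_two]
        simp
      refine ⟨QuotientGroup.mk (diagD u), ?_⟩
      apply hsplit (diagD u) _ _ (u : F)
      · rw [htr]
        field_simp
        ring
      · exact hu2
      · rw [sl2_mem_center_iff]
        rintro (h | h)
        · have h1 : (u : F) = 1 := by
            have h0 := congrFun (congrFun h 0) 0
            simpa [diagD_coe] using h0
          apply hu2
          rw [h1, mul_one]
        · have h1 : (u : F) = -1 := by
            have h0 := congrFun (congrFun h 0) 0
            simpa [diagD_coe] using h0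
          apply hu2
          rw [h1]
          ring
      · rw [htr]
        intro h
        apply hu2'
        field_simp at h
        linear_combination h

/-- Let F be a finite field with q elements, q odd and q ≥ 7. If q ≡ 1 (mod 4) the conjugacy class sizes of PSL(2,F) are exactly 1, (q² − 1)/2, q(q + 1)/2, q(q − 1) and q(q + 1); if q ≡ 3 (mod 4) they are exactly 1, (q² − 1)/2, q(q − 1)/2, q(q + 1) and q(q − 1). -/
theorem result {F : Type*} [Field F] [Fintype F]
    (hodd : ¬ 2 ∣ Fintype.card F) (h7 : 7 ≤ Fintype.card F) :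
    (Fintype.card F % 4 = 1 →
      Set.range (fun g : (Matrix.ProjectiveSpecialLinearGroup (Fin 2) F) => (Subgroup.centralizer ({g} : Set (Matrix.ProjectiveSpecialLinearGroup (Fin 2) F))).index) =
        {1, (Fintype.card F ^ 2 - 1) / 2, Fintype.card F * (Fintype.card F + 1) / 2,
          Fintype.card F * (Fintype.card F - 1), Fintype.card F * (Fintype.card F + 1)}) ∧
    (Fintype.card F % 4 = 3 →
      Set.range (fun g : (Matrix.ProjectiveSpecialLinearGroup (Fin 2) F) => (Subgroup.centralizer ({g} : Set (Matrix.ProjectiveSpecialLinearGroup (Fin 2) F))).index) =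
        {1, (Fintype.card F ^ 2 - 1) / 2, Fintype.card F * (Fintype.card F - 1) / 2,
          Fintype.card F * (Fintype.card F + 1), Fintype.card F * (Fintype.card F - 1)}) := by
  have h2 : (2 : F) ≠ 0 := by
    apply Cfsg.Agent.Lib.Helper5.two_ne_zero_of_odd_card
    rw [Nat.odd_iff]
    omega
  have hsq : (∃ l : F, l * l = -1) ↔ Fintype.card F % 4 ≠ 3 := by
    rw [← FiniteField.isSquare_neg_one_iff]
    constructor
    · rintro ⟨l, hl⟩
      exact ⟨l, hl.symm⟩
    · rintro ⟨l, hl⟩
      exact ⟨l, hl.symm⟩
  constructor
  · intro h1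
    apply range_eq h2 h7
    · intro _
      rfl
    · intro hno
      exfalso
      apply hno
      rw [hsq]
      omega
  · intro h3
    rw [Set.pair_comm (Fintype.card F * (Fintype.card F + 1)) (Fintype.card F * (Fintype.card F - 1))]
    apply range_eq h2 h7
    · intro hyes
      exfalso
      rw [hsq] at hyes
      exact hyes h3
    · intro _
      rfl

end Cfsg.Agent.S2508
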