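import Cfsg.Statements.S2510
import Cfsg.Agent.Lib.Helper58.SpecProd.Main
import Cfsg.Agent.Lib.Helper85.SpecProd.Abs3
import Cfsg.Agent.Lib.Helper85.SpecProd.Abs2
import Cfsg.Agent.Lib.Helper76.SpecProd.SingerPSL
import Cfsg.Agent.Lib.Helper1.SpecProd.Z
import Cfsg.Agent.Lib.Helper27.SpecProd.DI
import Cfsg.Agent.Lib.Helper66.SpecProd.Dec
import Cfsg.Agent.Lib.Helper66.SpecProd.SplitOrPow
import Cfsg.Agent.Lib.Helper1.SpecProd.Prim
import Cfsg.Agent.Lib.Helper51.SpecProd.PrimField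
import Cfsg.Agent.Lib.Helper51.SpecProd.PrimArith
import Cfsg.Agent.Lib.Helper27.SpecProd.U
import Cfsg.Agent.Lib.Helper11.SpecProd.UBound
import Cfsg.Agent.Lib.Helper61.SpecProd.UEx

set_option autoImplicit false
open Cfsg

namespace Cfsg.Agent.S2510

/-- Let F be a finite field with q = p^a elements, n ≥ 2 (with q ≥ 4 when n = 2), L = PSL(n, F), and let r be a prime dividing q − 1 and not dividing n. Then for every m the direct product L × L × L × (ℤ/r)^m has the same set of element orders as L × L × L; and if n − 1 ≠ p^j for every j ≥ 0 (so never when n = 2, since 1 = p^0), then already L × L × (ℤ/r)^m has the same set of element orders as L × L. -/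
theorem result {F : Type*} [Field F] [Fintype F] (p a n r m : ℕ) (hp : p.Prime) (ha : 1 ≤ a) (hF : Fintype.card F = p ^ a)
    (hn : 2 ≤ n) (hn2 : n = 2 → 4 ≤ Fintype.card F) (hr : r.Prime) (hrq : r ∣ Fintype.card F - 1) (hrn : ¬ r ∣ n) :
    Set.range (orderOf : Matrix.ProjectiveSpecialLinearGroup (Fin n) F × Matrix.ProjectiveSpecialLinearGroup (Fin n) F × Matrix.ProjectiveSpecialLinearGroup (Fin n) F × Multiplicative (Fin m → ZMod r) → ℕ) =
      Set.range (orderOf : Matrix.ProjectiveSpecialLinearGroup (Fin n) F × Matrix.ProjectiveSpecialLinearGroup (Fin n) F × Matrix.ProjectiveSpecialLinearGroup (Fin n) F → ℕ) ∧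
    ((¬ ∃ j : ℕ, n - 1 = p ^ j) →
      Set.range (orderOf : Matrix.ProjectiveSpecialLinearGroup (Fin n) F × Matrix.ProjectiveSpecialLinearGroup (Fin n) F × Multiplicative (Fin m → ZMod r) → ℕ) =
        Set.range (orderOf : Matrix.ProjectiveSpecialLinearGroup (Fin n) F × Matrix.ProjectiveSpecialLinearGroup (Fin n) F → ℕ)) := by
  exact Cfsg.Agent.Lib.Helper58.SpecProd.main2510 Cfsg.Agent.Lib.Helper85.SpecProd.pkgAbs3
    Cfsg.Agent.Lib.Helper85.SpecProd.pkgAbs2 Cfsg.Agent.Lib.Helper76.SpecProd.pkgSingerPSL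
    Cfsg.Agent.Lib.Helper1.SpecProd.pkgZ
    (Cfsg.Agent.Lib.Helper27.SpecProd.pkgDI_of Cfsg.Agent.Lib.Helper66.SpecProd.pkgDec
      Cfsg.Agent.Lib.Helper66.SpecProd.pkgSplitOrPow
      (Cfsg.Agent.Lib.Helper1.SpecProd.pkgPrim_of
        (Cfsg.Agent.Lib.Helper51.SpecProd.pkgPrimField_of
          Cfsg.Agent.Lib.Helper51.SpecProd.pkgPrimArith)))
    (Cfsg.Agent.Lib.Helper27.SpecProd.pkgU_of Cfsg.Agent.Lib.Helper11.SpecProd.pkgUBound
      Cfsg.Agent.Lib.Helper61.SpecProd.pkgUEx)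
    p a n r m hp ha hF hn hr hrq hrn

end Cfsg.Agent.S2510
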