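import Cfsg.Statements.S2513
import Cfsg.Agent.Lib.Helper58.SpecProd.Main
import Cfsg.Agent.Lib.Helper76.SpecProd.PowA
import Cfsg.Agent.Lib.Helper11.SpecProd.Pow2B
import Cfsg.Agent.Lib.Helper27.SpecProd.Pow2Arith

set_option autoImplicit false
open Cfsg

namespace Cfsg.Agent.S2513

/-- Let F be the field with two elements, n ≥ 2, L = PSL(n, F) and k₀ = ⌊(n + 3)/2⌋. Then for every k ≥ k₀ the direct product of k copies of L has the same set of element orders as the direct product of k₀ copies of L. -/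
theorem result {F : Type*} [Field F] [Fintype F] (hF : Fintype.card F = 2) (n k : ℕ) (hn : 2 ≤ n) (hk : (n + 3) / 2 ≤ k) :
    Set.range (orderOf : (Fin k → Matrix.ProjectiveSpecialLinearGroup (Fin n) F) → ℕ) = Set.range (orderOf : (Fin ((n + 3) / 2) → Matrix.ProjectiveSpecialLinearGroup (Fin n) F) → ℕ) := by
  exact Cfsg.Agent.Lib.Helper58.SpecProd.main2513 Cfsg.Agent.Lib.Helper76.SpecProd.pkgPowA
    Cfsg.Agent.Lib.Helper11.SpecProd.pkgPow2B Cfsg.Agent.Lib.Helper27.SpecProd.pkgPow2Arith hF n k hn hk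

end Cfsg.Agent.S2513
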