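import Cfsg.Statements.S2514
import Mathlib

set_option autoImplicit false
open Cfsg

namespace Cfsg.Agent.S2514

/-- every element order divides a maximal one -/
lemma exists_max {X : Type*} [Group X] [Finite X] (n : ℕ) (hn : n ∈ Set.range (orderOf : X → ℕ)) :
    ∃ m, (m ∈ Set.range (orderOf : X → ℕ) ∧ ∀ m' ∈ Set.range (orderOf : X → ℕ), m ∣ m' → m' = m) ∧ n ∣ m := by
  classical
  let S : Set ℕ := {m | m ∈ Set.range (orderOf : X → ℕ) ∧ n ∣ m}
  have hfin : S.Finite := (Set.finite_range (orderOf : X → ℕ)).subset (fun m hm => hm.1)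
  have hne : S.Nonempty := ⟨n, hn, dvd_rfl⟩
  obtain ⟨m, hmS, hmax⟩ := Set.exists_max_image S id hfin hne
  refine ⟨m, ⟨hmS.1, ?_⟩, hmS.2⟩
  intro m' hm' hdvd
  have h1 : m' ∈ S := ⟨hm', hmS.2.trans hdvd⟩
  have h2 : m' ≤ m := hmax m' h1
  obtain ⟨x, rfl⟩ := hm'
  have h3 : 0 < orderOf x := orderOf_pos x
  have h4 : m ≤ orderOf x := Nat.le_of_dvd h3 hdvd
  exact le_antisymm h2 h4

/-- divisors of element orders are element orders -/
lemma dvd_mem {X : Type*} [Group X] [Finite X] (m d : ℕ) (hm : m ∈ Set.range (orderOf : X → ℕ)) (hd : d ∣ m) :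
    d ∈ Set.range (orderOf : X → ℕ) := by
  obtain ⟨x, rfl⟩ := hm
  obtain ⟨e, he⟩ := hd
  have h3 : 0 < orderOf x := orderOf_pos x
  have he0 : e ≠ 0 := by
    rintro rfl
    rw [mul_zero] at he
    omega
  have hd0 : d ≠ 0 := by
    rintro rfl
    rw [zero_mul] at he
    omega
  refine ⟨x ^ e, ?_⟩
  rw [orderOf_pow_of_dvd he0 ⟨d, by rw [he, mul_comm]⟩, he]
  exact Nat.mul_div_cancel _ (Nat.pos_of_ne_zero he0)

/-- For a finite group X write μ(X) for the set of element orders of X that are maximal under divisibility. Let G and H be finite groups and k ≥ 1 such that μ(H) ⊆ μ(G) and μ(G) has fewer than k elements outside μ(H). Then the direct product of k copies of G has the same set of element orders as the direct product of k − 1 copies of G with H. -/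
theorem result {G H : Type*} [Group G] [Finite G] [Group H] [Finite H] (k : ℕ) (hk : 1 ≤ k)
    (hsub : {n : ℕ | n ∈ Set.range (orderOf : H → ℕ) ∧ ∀ m ∈ Set.range (orderOf : H → ℕ), n ∣ m → m = n} ⊆ {n : ℕ | n ∈ Set.range (orderOf : G → ℕ) ∧ ∀ m ∈ Set.range (orderOf : G → ℕ), n ∣ m → m = n})
    (hfew : ({n : ℕ | n ∈ Set.range (orderOf : G → ℕ) ∧ ∀ m ∈ Set.range (orderOf : G → ℕ), n ∣ m → m = n} \ {n : ℕ | n ∈ Set.range (orderOf : H → ℕ) ∧ ∀ m ∈ Set.range (orderOf : H → ℕ), n ∣ m → m = n}).ncard < k) :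
    Set.range (orderOf : (Fin k → G) → ℕ) = Set.range (orderOf : (Fin (k - 1) → G) × H → ℕ) := by
  classical
  obtain ⟨k', rfl⟩ : ∃ k', k = k' + 1 := ⟨k - 1, by omega⟩
  show Set.range (orderOf : (Fin (k' + 1) → G) → ℕ) = Set.range (orderOf : (Fin k' → G) × H → ℕ)
  have hpi : ∀ (j : ℕ) (x : Fin j → G) (N : ℕ), x ^ N = 1 ↔ ∀ l, (x l) ^ N = 1 := by
    intro j x N
    constructor
    · intro h l
      have := congrFun h l
      simpa using this
    · intro h
      funext l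
      simpa using h l
  have hprod : ∀ (f : Fin k' → G) (h : H) (N : ℕ), ((f, h) : (Fin k' → G) × H) ^ N = 1 ↔
      (∀ l, (f l) ^ N = 1) ∧ h ^ N = 1 := by
    intro f h N
    rw [Prod.ext_iff]
    simp only [Prod.pow_fst, Prod.fst_one, Prod.pow_snd, Prod.snd_one]
    rw [hpi]
  apply Set.eq_of_subset_of_subset
  · -- ⊆
    rintro _ ⟨x, rfl⟩
    have hex : ∀ l, ∃ m, (m ∈ Set.range (orderOf : G → ℕ) ∧ ∀ m' ∈ Set.range (orderOf : G → ℕ), m ∣ m' → m' = m) ∧
        orderOf (x l) ∣ m := fun l => exists_max (orderOf (x l)) ⟨x l, rfl⟩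
    choose M hM1 hM2 using hex
    by_cases hc : ∃ i, M i ∈ {n : ℕ | n ∈ Set.range (orderOf : H → ℕ) ∧ ∀ m ∈ Set.range (orderOf : H → ℕ), n ∣ m → m = n}
    · obtain ⟨i, hi⟩ := hc
      obtain ⟨h, hh⟩ := dvd_mem (X := H) (M i) (orderOf (x i)) hi.1 (hM2 i)
      refine ⟨(fun l => x (i.succAbove l), h), ?_⟩
      rw [orderOf_eq_orderOf_iff]
      intro N
      rw [hprod, hpi, Fin.forall_iff_succAbove i]
      have h1 : h ^ N = 1 ↔ (x i) ^ N = 1 := orderOf_eq_orderOf_iff.mp hh N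
      rw [h1]
      tauto
    · push Not at hc
      have hmaps : ∀ a ∈ (Set.univ : Set (Fin (k' + 1))), M a ∈ ({n : ℕ | n ∈ Set.range (orderOf : G → ℕ) ∧ ∀ m ∈ Set.range (orderOf : G → ℕ), n ∣ m → m = n} \ {n : ℕ | n ∈ Set.range (orderOf : H → ℕ) ∧ ∀ m ∈ Set.range (orderOf : H → ℕ), n ∣ m → m = n}) :=
        fun a _ => ⟨hM1 a, hc a⟩
      have hfin : ({n : ℕ | n ∈ Set.range (orderOf : G → ℕ) ∧ ∀ m ∈ Set.range (orderOf : G → ℕ), n ∣ m → m = n} \ {n : ℕ | n ∈ Set.range (orderOf : H → ℕ) ∧ ∀ m ∈ Set.range (orderOf : H → ℕ), n ∣ m → m = n}).Finite :=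
        (Set.finite_range (orderOf : G → ℕ)).subset (fun m hm => hm.1.1)
      have hcard : ({n : ℕ | n ∈ Set.range (orderOf : G → ℕ) ∧ ∀ m ∈ Set.range (orderOf : G → ℕ), n ∣ m → m = n} \ {n : ℕ | n ∈ Set.range (orderOf : H → ℕ) ∧ ∀ m ∈ Set.range (orderOf : H → ℕ), n ∣ m → m = n}).ncard < (Set.univ : Set (Fin (k' + 1))).ncard := by
        rw [Set.ncard_univ, Nat.card_fin]
        exact hfew
      obtain ⟨i, -, j, -, hij, hMij⟩ := Set.exists_ne_map_eq_of_ncard_lt_of_maps_to hcard hmaps hfin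
      have hlcm : Nat.lcm (orderOf (x i)) (orderOf (x j)) ∣ M i :=
        Nat.lcm_dvd (hM2 i) (hMij ▸ hM2 j)
      obtain ⟨y, hy⟩ := dvd_mem (X := G) (M i) _ (hM1 i).1 hlcm
      have hyN : ∀ N, y ^ N = 1 ↔ (x i) ^ N = 1 ∧ (x j) ^ N = 1 := by
        intro N
        rw [← orderOf_dvd_iff_pow_eq_one, ← orderOf_dvd_iff_pow_eq_one, ← orderOf_dvd_iff_pow_eq_one, hy,
          Nat.lcm_dvd_iff]
      let x' : Fin (k' + 1) → G := Function.update (Function.update x i y) j 1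
      have hx'j : x' j = 1 := by simp [x']
      have hx'i : x' i = y := by simp [x', hij]
      have hx'l : ∀ l, l ≠ i → l ≠ j → x' l = x l := by
        intro l hli hlj
        simp [x', hli, hlj]
      refine ⟨(fun l => x' (j.succAbove l), 1), ?_⟩
      rw [orderOf_eq_orderOf_iff]
      intro N
      rw [hprod, hpi]
      have h1 : ((∀ l, x' (j.succAbove l) ^ N = 1) ∧ (1 : H) ^ N = 1) ↔ ∀ l, x' l ^ N = 1 := by
        rw [Fin.forall_iff_succAbove j, hx'j]
        simp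
      rw [h1]
      constructor
      · intro h l
        have hi' := h i
        rw [hx'i, hyN] at hi'
        by_cases hli : l = i
        · rw [hli]; exact hi'.1
        · by_cases hlj : l = j
          · rw [hlj]; exact hi'.2
          · rw [← hx'l l hli hlj]; exact h l
      · intro h l
        by_cases hli : l = i
        · rw [hli, hx'i, hyN]; exact ⟨h i, h j⟩
        · by_cases hlj : l = j
          · rw [hlj, hx'j]; simp
          · rw [hx'l l hli hlj]; exact h l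
  · -- ⊇
    rintro _ ⟨⟨f, h⟩, rfl⟩
    obtain ⟨m, hm, hdvd⟩ := exists_max (X := H) (orderOf h) ⟨h, rfl⟩
    have hmG := hsub hm
    obtain ⟨g', hg'⟩ := dvd_mem (X := G) m (orderOf h) hmG.1 hdvd
    refine ⟨Fin.cons g' f, ?_⟩
    rw [orderOf_eq_orderOf_iff]
    intro N
    rw [hprod, hpi, Fin.forall_fin_succ]
    have h1 : g' ^ N = 1 ↔ h ^ N = 1 := orderOf_eq_orderOf_iff.mp hg' N
    simp only [Fin.cons_zero, Fin.cons_succ]
    rw [h1]
    tauto

end Cfsg.Agent.S2514
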