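import Cfsg.Statements.S2516

set_option autoImplicit false
open Cfsg

namespace Cfsg.Agent.S2516

section aux

variable {F : Type*} [Field F] {V : Type*} [AddCommGroup V] [Module F V]
    {G : Type*} [Group G] (ρ : Representation F G V)

/-- the action used in the semidirect product -/
noncomputable abbrev act : G →* MulAut (Multiplicative V) :=
  (MulAutMultiplicative V).symm.toMonoidHom.comp
        ((DistribMulAction.toAddAut ((V →ₗ[F] V)ˣ) V).comp ρ.asGroupHom)

lemma act_apply (g : G) (v : V) :
    act ρ g (Multiplicative.ofAdd v) = Multiplicative.ofAdd (ρ g v) := by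
  simp
  rfl

lemma pow_eq (g : G) (v : V) (m : ℕ) :
    ((⟨Multiplicative.ofAdd v, g⟩ : Multiplicative V ⋊[act ρ] G) ^ m) =
      ⟨Multiplicative.ofAdd (∑ i ∈ Finset.range m, ρ (g ^ i) v), g ^ m⟩ := by
  induction m with
  | zero =>
    apply SemidirectProduct.ext <;> simp
  | succ m ih =>
    rw [pow_succ, ih, SemidirectProduct.mul_def]
    apply SemidirectProduct.ext
    · simp only []
      rw [act_apply, Finset.sum_range_succ, ofAdd_add]
    · simp only []
      rw [pow_succ]

end aux

/-- Let F be a field of characteristic p > 0, V a non-zero finite-dimensional F-vector space, G a finite group and ρ a representation of G on V; form the semidirect product V ⋊ G. For g ∈ G of order k, the coset Vg contains an element of order pk if and only if the minimal polynomial of ρ(g) does not divide 1 + X + ⋯ + X^(k−1). -/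
theorem result {F : Type*} [Field F] (p : ℕ) [Fact p.Prime] [CharP F p] {V : Type*} [AddCommGroup V] [Module F V] [FiniteDimensional F V] [Nontrivial V]
    {G : Type*} [Group G] [Finite G] (ρ : Representation F G V) (g : G) :
    (∃ x : Multiplicative V ⋊[(MulAutMultiplicative V).symm.toMonoidHom.comp
        ((DistribMulAction.toAddAut ((V →ₗ[F] V)ˣ) V).comp ρ.asGroupHom)] G,
        x.right = g ∧ orderOf x = p * orderOf g) ↔
      ¬ (minpoly F (ρ g) ∣ ∑ i ∈ Finset.range (orderOf g), (Polynomial.X : Polynomial F) ^ i) := by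
  classical
  have hp : p.Prime := Fact.out
  have hk : 0 < orderOf g := orderOf_pos g
  rw [minpoly.dvd_iff]
  have haeval : (Polynomial.aeval (ρ g)) (∑ i ∈ Finset.range (orderOf g), (Polynomial.X : Polynomial F) ^ i)
      = ∑ i ∈ Finset.range (orderOf g), ρ (g ^ i) := by
    simp [map_sum, map_pow]
  rw [haeval]
  -- key facts about x = ⟨v, g⟩
  have hxk : ∀ v : V, ((⟨Multiplicative.ofAdd v, g⟩ : Multiplicative V ⋊[act ρ] G) ^ (orderOf g)) =
      ⟨Multiplicative.ofAdd ((∑ i ∈ Finset.range (orderOf g), ρ (g ^ i)) v), 1⟩ := by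
    intro v
    rw [pow_eq, pow_orderOf_eq_one]
    simp [LinearMap.sum_apply]
  have hdvd : ∀ x : Multiplicative V ⋊[act ρ] G, x.right = g → orderOf g ∣ orderOf x := by
    intro x hx
    have := orderOf_map_dvd (SemidirectProduct.rightHom (φ := act ρ)) x
    simpa [hx] using this
  constructor
  · rintro ⟨x, hxg, hord⟩ hzero
    obtain ⟨n, g'⟩ := x
    simp only at hxg
    subst hxg
    have h1 := hxk (Multiplicative.toAdd n)
    rw [hzero] at h1
    have h2 : ((⟨n, g'⟩ : Multiplicative V ⋊[act ρ] G) ^ (orderOf g')) = 1 := by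
      rw [show n = Multiplicative.ofAdd (Multiplicative.toAdd n) from rfl, h1]
      apply SemidirectProduct.ext <;> simp
    have h3 := orderOf_dvd_of_pow_eq_one h2
    rw [hord] at h3
    have h4 := Nat.le_of_dvd hk h3
    have h5 : 2 * orderOf g' ≤ p * orderOf g' := Nat.mul_le_mul_right _ hp.two_le
    omega
  · intro hne
    obtain ⟨v, hv⟩ : ∃ v : V, (∑ i ∈ Finset.range (orderOf g), ρ (g ^ i)) v ≠ 0 := by
      by_contra hcon
      push Not at hcon
      exact hne (LinearMap.ext (fun v => by simpa using hcon v))
    refine ⟨⟨Multiplicative.ofAdd v, g⟩, rfl, ?_⟩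
    set x : Multiplicative V ⋊[act ρ] G := ⟨Multiplicative.ofAdd v, g⟩ with hx
    set w : V := (∑ i ∈ Finset.range (orderOf g), ρ (g ^ i)) v with hw
    have h1 : x ^ (orderOf g) = ⟨Multiplicative.ofAdd w, 1⟩ := hxk v
    have h2 : (x ^ (orderOf g)) ^ p = 1 := by
      rw [h1]
      have : ∀ m : ℕ, ((⟨Multiplicative.ofAdd w, 1⟩ : Multiplicative V ⋊[act ρ] G) ^ m) =
          ⟨Multiplicative.ofAdd (m • w), 1⟩ := by
        intro m
        induction m with
        | zero => apply SemidirectProduct.ext <;> simp
        | succ m ih =>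
          rw [pow_succ, ih, SemidirectProduct.mul_def]
          apply SemidirectProduct.ext
          · simp only [map_one, MulAut.one_apply]
            rw [← ofAdd_add, succ_nsmul]
          · simp
      rw [this]
      have hpw : p • w = 0 := by
        have : (p : F) = 0 := CharP.cast_eq_zero F p
        rw [← Nat.cast_smul_eq_nsmul F, this, zero_smul]
      rw [hpw]
      apply SemidirectProduct.ext <;> simp
    have h3 : x ^ (orderOf g) ≠ 1 := by
      rw [h1]
      intro hcon
      have := congrArg SemidirectProduct.left hcon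
      simp only [SemidirectProduct.one_left] at this
      exact hv (by simpa using this)
    have h4 : orderOf (x ^ (orderOf g)) = p := orderOf_eq_prime h2 h3
    rw [orderOf_pow' x hk.ne'] at h4
    have h5 : orderOf g ∣ orderOf x := hdvd x rfl
    rw [Nat.gcd_eq_right h5] at h4
    have h6 := Nat.div_mul_cancel h5
    rw [h4] at h6
    exact h6.symm

end Cfsg.Agent.S2516
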