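import Cfsg.Statements.S2518
import Cfsg.Agent.Lib.Helper60.G23.Main3
import Cfsg.Agent.Lib.Helper60.G23.PSL

set_option autoImplicit false
open Cfsg

namespace Cfsg.Agent.S2518

/-- Let F₃ be the field with 3 elements and F₁₃ the field with 13 elements. The Chevalley group G₂(F₃) and PSL(2, F₁₃) have the same prime graph: the same prime divisors of their orders, and for distinct primes r, s an element of order rs in one iff in the other. -/
theorem result {F : Type*} [Field F] [Fintype F] (hF : Fintype.card F = 3) {E : Type*} [Field E] [Fintype E] (hE : Fintype.card E = 13) :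
    ((∀ r : ℕ, r.Prime → (r ∣ Nat.card ↥(Cfsg.Lie.chevG2.group F) ↔ r ∣ Nat.card (Matrix.ProjectiveSpecialLinearGroup (Fin 2) E))) ∧
      (∀ r s : ℕ, r.Prime → s.Prime → r ≠ s → ((∃ x : ↥(Cfsg.Lie.chevG2.group F), orderOf x = r * s) ↔ (∃ y : (Matrix.ProjectiveSpecialLinearGroup (Fin 2) E), orderOf y = r * s)))) := by
  refine ⟨fun r hr => ?_, fun r s hr hs hrs => ⟨?_, ?_⟩⟩
  · rw [Cfsg.Agent.Lib.Helper60.G23.prime_dvd_card hF r hr,
      Cfsg.Agent.Lib.Helper60.G23.psl13_prime_dvd hE r hr]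
  · rintro ⟨x, hx⟩
    have h6 := Cfsg.Agent.Lib.Helper60.G23.pq_order hF x r s hr hs hrs hx
    rw [h6]
    exact Cfsg.Agent.Lib.Helper60.G23.psl13_six hE
  · rintro ⟨y, hy⟩
    have h6 := Cfsg.Agent.Lib.Helper60.G23.psl13_pq hE y r s hr hs hrs hy
    rw [h6]
    exact (Cfsg.Agent.Lib.Helper60.G23.summary hF).2.1

end Cfsg.Agent.S2518
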