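import Cfsg.Statements.S2553
-- import your own Cfsg.Agent.* helpers here
import Cfsg.Agent.Lib.Helper98.A8.Data.R5
import Cfsg.Agent.Lib.Helper98.A8.Data.R7
import Cfsg.Agent.Lib.Helper4.A8.Solv
import Cfsg.Agent.Lib.Helper47.A8.Cyc
import Cfsg.Agent.Lib.Helper76.A8.Act
import Cfsg.Agent.Lib.Helper76.A8.Simp
import Cfsg.Agent.Lib.Helper76.A8.Burn
import Cfsg.Agent.Lib.Helper80.A8.L32
import Cfsg.Agent.Lib.Helper80.A8.Trans

set_option autoImplicit false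
open Cfsg

namespace Cfsg.Agent.S2553

/-- The packages used by the certificates (proved by helper4, helper76 and helper80). -/
theorem pkgs : Cfsg.Agent.Lib.Helper98.A8.Pkgs where
  inv := Cfsg.Agent.Lib.Helper4.A8.pkgInv
  odd := Cfsg.Agent.Lib.Helper4.A8.pkgOdd
  oddg := Cfsg.Agent.Lib.Helper4.A8.pkgOddG
  simp := Cfsg.Agent.Lib.Helper76.A8.pkgSimp
  l32 := Cfsg.Agent.Lib.Helper80.A8.pkgL32
  act := Cfsg.Agent.Lib.Helper76.A8.pkgAct

/-- Let H be a nontrivial subgroup of GL(4,2) (a group isomorphic to the alternating group of degree 8) whose largest normal 2-subgroup and largest normal subgroup of odd order are both trivial. Then H is isomorphic to an alternating group of degree n for some 5 ≤ n ≤ 8, to the symmetric group of degree 5 or 6, or to GL(3,2). -/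
theorem result (H : Subgroup (GL (Fin 4) (ZMod 2))) (hH : H ≠ ⊥) (hO : Cfsg.pPrimeCore 2 ↥H = ⊥) (hO2 : Cfsg.pCore 2 ↥H = ⊥) :
    (∃ n : ℕ, 5 ≤ n ∧ n ≤ 8 ∧ Nonempty (↥H ≃* alternatingGroup (Fin n))) ∨
    Nonempty (↥H ≃* Equiv.Perm (Fin 5)) ∨ Nonempty (↥H ≃* Equiv.Perm (Fin 6)) ∨ Nonempty (↥H ≃* GL (Fin 3) (ZMod 2)) := by
  exact Cfsg.Agent.Lib.Helper98.A8.final_of_roots Cfsg.Agent.Lib.Helper4.A8.pkgSolv
    Cfsg.Agent.Lib.Helper80.A8.pkgTrans Cfsg.Agent.Lib.Helper76.A8.pkgBurn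
    Cfsg.Agent.Lib.Helper47.A8.pkgCyc Cfsg.Agent.Lib.Helper98.A8.g5c
    Cfsg.Agent.Lib.Helper98.A8.g7c Cfsg.Agent.Lib.Helper98.A8.g5c_order
    Cfsg.Agent.Lib.Helper98.A8.g7c_order (Cfsg.Agent.Lib.Helper98.A8.PR5 pkgs)
    (Cfsg.Agent.Lib.Helper98.A8.PR7 pkgs) H hH hO hO2

end Cfsg.Agent.S2553
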