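import Cfsg.Statements.S2694
import Mathlib
import Cfsg.Agent.Lib.Helper14.AutOM

set_option autoImplicit false
open Cfsg

namespace Cfsg.Agent.S2694

open Cfsg.Agent.Lib.Helper14 Module

/-- For m ≥ 3 and a finite field F of odd order, the automorphism group of the orthogonal group Ω_{2m+1}(F) (realised as PΩ of the form x₀² + Σ xᵢ yᵢ, whose centre is trivial) is generated by the automorphisms induced by the semisimilarities v ↦ g σ(v) of the form (the image of the projective semisimilarity group); there are no graph or graph-field automorphisms. -/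
theorem result {F : Type*} [Field F] [Fintype F] (hodd : Odd (Fintype.card F)) {m : ℕ} (hm : 3 ≤ m) :
    Cfsg.gammaPOmega F (Cfsg.quadFormOdd m F) = ⊤ := by
  have h2 : (2 : F) ≠ 0 := two_ne_zero_of_card_odd hodd
  have hcard : Fintype.card (Unit ⊕ (Fin m ⊕ Fin m)) = 2 * m + 1 := by
    simp only [Fintype.card_sum, Fintype.card_fin, Fintype.card_unit]; omega
  have hbig : 9 ≤ Fintype.card (Unit ⊕ (Fin m ⊕ Fin m)) ∨ NoTS4 (oddQF m F) := by
    by_cases h4 : 4 ≤ m
    · left
      rw [hcard]; omega
    · right
      have hm3 : m = 3 := by omega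
      subst hm3
      exact noTS4_odd F h2
  have h := gammaPOmega_eq_top (oddQF m F) (oddQF_nondegenerate m F h2)
    (by rw [hcard]; omega) hbig
  rw [oddQF_coe] at h
  exact h

end Cfsg.Agent.S2694
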