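import Mathlib
import Cfsg.Statements.S2898
import Cfsg.Agent.Lib.Helper48.SPE
import Cfsg.Agent.Lib.Helper48.Cores

set_option autoImplicit false
open Cfsg

namespace Cfsg.Agent.S2898

/-- Let G be a finite group of even order with parabolic characteristic 2. If the centre of G ⧸ O(G) is trivial, then O(G) = 1. -/
theorem result {G : Type*} [Group G] [Finite G] (h2 : 2 ∣ Nat.card G) (hG : Cfsg.IsOfParabolicCharacteristic 2 G) [hN : (Cfsg.oddCore G).Normal] (hZ : Subgroup.center (G ⧸ Cfsg.oddCore G) = ⊥) : Cfsg.oddCore G = ⊥ := by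
  by_contra hKne
  haveI : Fact (Nat.Prime 2) := ⟨Nat.prime_two⟩
  set K : Subgroup G := Cfsg.oddCore G with hKdef
  have hKcard : (Nat.card K).Coprime 2 := Cfsg.Agent.Lib.Helper48.pPrimeCore_coprime' 2 G
  let S : Sylow 2 G := default
  have hSne : (S : Subgroup G) ≠ ⊥ := S.ne_bot_of_dvd_card h2
  obtain ⟨z, hzS, hzo, hzc⟩ := Cfsg.Agent.Lib.Helper48.exists_central_orderOf_eq_prime
    (S : Subgroup G) (S : Subgroup G) S.isPGroup' le_rfl hSne Subgroup.le_normalizer
  have hzz : z * z = 1 := by
    have := pow_orderOf_eq_one z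
    rw [hzo, pow_two] at this
    exact this
  have hzinv : z⁻¹ = z := inv_eq_of_mul_eq_one_left hzz
  have hz1 : z ≠ 1 := by
    intro h
    rw [h, orderOf_one] at hzo
    exact absurd hzo (by norm_num)
  -- step 1 : K ∩ C(z) = 1
  have hZp : IsPGroup 2 (Subgroup.zpowers z) := by
    rw [IsPGroup.iff_card]
    exact ⟨1, by rw [Nat.card_zpowers, hzo, pow_one]⟩
  have hZne : Subgroup.zpowers z ≠ ⊥ := by
    intro h
    exact hz1 (Subgroup.zpowers_eq_bot.mp h)
  have hcn : Subgroup.centralizer ({z} : Set G) ≤
      Subgroup.normalizer ((Subgroup.zpowers z : Subgroup G) : Set G) := by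
    intro g hg
    rw [Subgroup.mem_centralizer_iff] at hg
    have hgz : z * g = g * z := hg z (Set.mem_singleton z)
    rw [Subgroup.mem_normalizer_iff]
    intro x
    have hconj : ∀ y : G, y ∈ Subgroup.zpowers z → g * y * g⁻¹ = y := by
      intro y hy
      obtain ⟨n, rfl⟩ := Subgroup.mem_zpowers_iff.mp hy
      have hc : Commute g (z ^ n) := (Commute.zpow_right hgz.symm n)
      rw [hc.eq, mul_inv_cancel_right]
    constructor
    · intro hx
      rw [hconj x hx]; exact hx
    · intro hx
      have h3 : g⁻¹ * (g * x * g⁻¹) * g = g * x * g⁻¹ := by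
        have hc2 : ∀ y : G, y ∈ Subgroup.zpowers z → g⁻¹ * y * g = y := by
          intro y hy
          have := hconj y hy
          calc g⁻¹ * y * g = g⁻¹ * (g * y * g⁻¹) * g := by rw [this]
            _ = y := by group
        exact hc2 _ hx
      have h4 : g⁻¹ * (g * x * g⁻¹) * g = x := by group
      rw [h4] at h3
      rw [h3]; exact hx
  have hSz : (S : Subgroup G) ≤ Subgroup.normalizer ((Subgroup.zpowers z : Subgroup G) : Set G) := by
    intro s hs
    apply hcn
    rw [Subgroup.mem_centralizer_iff]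
    intro h hh
    rw [Set.mem_singleton_iff] at hh
    subst hh
    exact (hzc s hs).symm
  have hstep1 : K ⊓ Subgroup.centralizer ({z} : Set G) = ⊥ := by
    have h1 := Cfsg.Agent.Lib.Helper48.inf_normalizer_eq_bot_of_parabolic hG S
      (Subgroup.zpowers z) hZp hZne hSz K hKcard
    rw [eq_bot_iff, ← h1]
    exact inf_le_inf_left K hcn
  -- step 2 : z inverts K, K abelian
  have hinv := Cfsg.Agent.Lib.Helper48.inverts_of_cent_trivial K z hzz hstep1
  have hab := Cfsg.Agent.Lib.Helper48.comm_of_inverts K z hinv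
  -- step 3 : C = C_G(K) has odd order hence lies in K
  set C : Subgroup G := Subgroup.centralizer (K : Set G) with hCdef
  haveI hCn : C.Normal := by rw [hCdef]; infer_instance
  have hSC : (S : Subgroup G) ⊓ C = ⊥ := by
    by_contra hne
    have hRp : IsPGroup 2 ((S : Subgroup G) ⊓ C : Subgroup G) := S.isPGroup'.to_inf_left
    have hSR : (S : Subgroup G) ≤ Subgroup.normalizer ((((S : Subgroup G) ⊓ C : Subgroup G)) : Set G) := by
      rw [Subgroup.le_normalizer_iff]
      intro s hs x hx
      exact ⟨(S : Subgroup G).mul_mem ((S : Subgroup G).mul_mem hs hx.1) ((S : Subgroup G).inv_mem hs),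
        hCn.conj_mem _ hx.2 s⟩
    have h1 := Cfsg.Agent.Lib.Helper48.inf_normalizer_eq_bot_of_parabolic hG S
      ((S : Subgroup G) ⊓ C) hRp hne hSR K hKcard
    have hKN : K ≤ Subgroup.normalizer ((((S : Subgroup G) ⊓ C : Subgroup G)) : Set G) := by
      rw [Subgroup.le_normalizer_iff]
      intro k hk x hx
      have hxc : x ∈ C := hx.2
      rw [hCdef, Subgroup.mem_centralizer_iff] at hxc
      have h3 : k * x = x * k := hxc k hk
      have h4 : k * x * k⁻¹ = x := by rw [h3, mul_inv_cancel_right]
      rw [h4]; exact hx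
    apply hKne
    rw [eq_bot_iff, ← h1]
    exact le_inf le_rfl hKN
  have hCcard : (Nat.card C).Coprime 2 := by
    apply Nat.Coprime.symm
    rw [Nat.Prime.coprime_iff_not_dvd Nat.prime_two]
    intro hdvd
    exact Cfsg.Agent.Lib.Helper48.sylow_inf_normal_ne_bot S C hdvd hSC
  have hCK : C ≤ K := Cfsg.Agent.Lib.Helper48.le_pPrimeCore' hCn hCcard
  -- step 4 : the image of z is central in G ⧸ K
  have hzK : z ∈ K := by
    have hcen : (QuotientGroup.mk z : G ⧸ K) ∈ Subgroup.center (G ⧸ K) := by
      rw [Subgroup.mem_center_iff]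
      intro q
      induction q using QuotientGroup.induction_on with
      | H g =>
        rw [← QuotientGroup.mk_mul, ← QuotientGroup.mk_mul, QuotientGroup.eq]
        apply hCK
        rw [hCdef, Subgroup.mem_centralizer_iff]
        intro k hk
        -- c = (g z)⁻¹ (z g)
        have hk' : g * k * g⁻¹ ∈ K := hN.conj_mem k hk g
        have e1 := hinv (g * k * g⁻¹) hk'
        have e2 := hinv k hk
        have e3 : z * k = k⁻¹ * z := by
          have := congrArg (fun x => x * z) e2
          simpa [mul_assoc] using this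
        have e4 : z * k⁻¹ = k * z := by
          have := hinv k⁻¹ (K.inv_mem hk)
          have := congrArg (fun x => x * z) this
          simpa [mul_assoc] using this
        have e5 : z * (g * k * g⁻¹) = (g * k * g⁻¹)⁻¹ * z := by
          have := congrArg (fun x => x * z) e1
          simpa [mul_assoc] using this
        calc k * ((g * z)⁻¹ * (z * g)) = k * z⁻¹ * g⁻¹ * z * g := by group
          _ = (k * z) * g⁻¹ * z * g := by rw [hzinv]
          _ = (z * k⁻¹) * g⁻¹ * z * g := by rw [e4]
          _ = z * g⁻¹ * ((g * k * g⁻¹)⁻¹ * z) * g := by group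
          _ = z * g⁻¹ * (z * (g * k * g⁻¹)) * g := by rw [e5]
          _ = z⁻¹ * g⁻¹ * (z * (g * k * g⁻¹)) * g := by rw [hzinv]
          _ = (g * z)⁻¹ * (z * g) * k := by group
    rw [hZ, Subgroup.mem_bot, QuotientGroup.eq_one_iff] at hcen
    exact hcen
  have hdvd : orderOf (⟨z, hzK⟩ : K) ∣ Nat.card K := orderOf_dvd_natCard _
  rw [← Subgroup.orderOf_coe] at hdvd
  simp only at hdvd
  rw [hzo] at hdvd
  have := Nat.Coprime.eq_one_of_dvd hKcard.symm hdvd
  exact absurd this (by norm_num)

end Cfsg.Agent.S2898
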