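import Mathlib
import Cfsg.Statements.S2907

set_option autoImplicit false
open Cfsg

namespace Cfsg.Agent.S2907

/-- Let X be a finite semi-extraspecial p-group and x an element of X outside the centre. Then the index of C_X(x) in X equals the order of Z(X), and the commutators [x, y], y ∈ X, form exactly the centre Z(X). -/
theorem result {X : Type*} [Group X] [Finite X] {p : ℕ} [Fact p.Prime] (hX : Cfsg.IsSemiExtraspecial p X) (x : X) (hx : x ∉ Subgroup.center X) : (Subgroup.centralizer ({x} : Set X)).index = Nat.card ↥(Subgroup.center X) ∧ {z : X | ∃ y : X, z = x * y * x⁻¹ * y⁻¹} = (Subgroup.center X : Set X) := by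
  obtain ⟨⟨hXp, hfrat, hcomm⟩, hsemi⟩ := hX
  -- commutators are central
  have hcen : ∀ y : X, x * y * x⁻¹ * y⁻¹ ∈ Subgroup.center X := by
    intro y
    rw [← hcomm, commutator_def]
    exact Subgroup.commutator_mem_commutator (Subgroup.mem_top x) (Subgroup.mem_top y)
  -- the commutator map with x is a homomorphism
  let φ : X →* X :=
    { toFun := fun y => x * y * x⁻¹ * y⁻¹
      map_one' := by group
      map_mul' := by
        intro a b
        have hb := Subgroup.mem_center_iff.mp (hcen b) (x * a * x⁻¹)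
        calc x * (a * b) * x⁻¹ * (a * b)⁻¹
            = (x * a * x⁻¹) * (x * b * x⁻¹ * b⁻¹) * a⁻¹ := by group
          _ = (x * b * x⁻¹ * b⁻¹) * (x * a * x⁻¹) * a⁻¹ := by rw [hb]
          _ = (x * b * x⁻¹ * b⁻¹) * (x * a * x⁻¹ * a⁻¹) := by group
          _ = (x * a * x⁻¹ * a⁻¹) * (x * b * x⁻¹ * b⁻¹) :=
            (Subgroup.mem_center_iff.mp (hcen b) (x * a * x⁻¹ * a⁻¹)).symm }
  have hφ : ∀ y, φ y = x * y * x⁻¹ * y⁻¹ := fun y => rfl
  have hker : φ.ker = Subgroup.centralizer ({x} : Set X) := by
    ext y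
    rw [MonoidHom.mem_ker, hφ, Subgroup.mem_centralizer_singleton_iff]
    constructor
    · intro h
      have : x * y * x⁻¹ * y⁻¹ * y * x = y * x := by rw [h, one_mul]
      have h2 : x * y * x⁻¹ * y⁻¹ * y * x = x * y := by group
      rw [h2] at this
      exact this.symm
    · intro h
      calc x * y * x⁻¹ * y⁻¹ = (x * y) * x⁻¹ * y⁻¹ := by group
        _ = (y * x) * x⁻¹ * y⁻¹ := by rw [h]
        _ = 1 := by group
  have hrange_le : φ.range ≤ Subgroup.center X := by
    rintro _ ⟨y, rfl⟩
    exact hcen y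
  have hrange : φ.range = Subgroup.center X := by
    by_contra hne
    -- the range, inside the centre, lies in a coatom
    have hne' : φ.range.subgroupOf (Subgroup.center X) ≠ ⊤ := by
      intro h
      rw [Subgroup.subgroupOf_eq_top] at h
      exact hne (le_antisymm hrange_le h)
    obtain ⟨Y', hY'co, hY'le⟩ := (eq_top_or_exists_le_coatom _).resolve_left hne'
    set Y : Subgroup X := Y'.map (Subgroup.center X).subtype with hYdef
    have hYle : Y ≤ Subgroup.center X := by
      rintro _ ⟨y, -, rfl⟩; exact y.2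
    have hYsub : Y.subgroupOf (Subgroup.center X) = Y' :=
      Subgroup.comap_map_eq_self_of_injective (Subgroup.subtype_injective _) Y'
    obtain ⟨hYn, ⟨-, -, -⟩, hcard⟩ := hsemi Y hYle (by rw [hYsub]; exact hY'co)
    have hrY : φ.range ≤ Y := by
      intro z hz
      have h1 : (⟨z, hrange_le hz⟩ : Subgroup.center X) ∈ Y' := hY'le (Subgroup.mem_subgroupOf.mpr hz)
      exact ⟨⟨z, hrange_le hz⟩, h1, rfl⟩
    -- the image of x is central in X ⧸ Y
    have hxbar : (QuotientGroup.mk' Y x) ∈ Subgroup.center (X ⧸ Y) := by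
      rw [Subgroup.mem_center_iff]
      intro g
      obtain ⟨y, rfl⟩ := QuotientGroup.mk'_surjective Y g
      rw [← map_mul, ← map_mul, QuotientGroup.mk'_apply, QuotientGroup.mk'_apply, QuotientGroup.eq]
      have h1 := hYn.conj_mem (x * y * x⁻¹ * y⁻¹) (hrY ⟨y, rfl⟩) (x * y)⁻¹
      have h2 : (x * y)⁻¹ * (x * y * x⁻¹ * y⁻¹) * (x * y)⁻¹⁻¹ = (y * x)⁻¹ * (x * y) := by group
      rw [h2] at h1
      exact h1
    -- the image of the centre is all of the centre of the quotient
    have : Fact (Nat.card (Subgroup.center (X ⧸ Y))).Prime := ⟨by rw [hcard]; exact Fact.out⟩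
    have himg : ∀ z ∈ Subgroup.center X, QuotientGroup.mk' Y z ∈ Subgroup.center (X ⧸ Y) := by
      intro z hz
      rw [Subgroup.mem_center_iff]
      intro g
      obtain ⟨y, rfl⟩ := QuotientGroup.mk'_surjective Y g
      rw [← map_mul, ← map_mul, Subgroup.mem_center_iff.mp hz y]
    rcases (((Subgroup.center X).map (QuotientGroup.mk' Y)).subgroupOf
        (Subgroup.center (X ⧸ Y))).eq_bot_or_eq_top_of_prime_card with h | h
    · -- then centre ≤ Y, contradicting properness of the coatom
      have hcenY : Subgroup.center X ≤ Y := by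
        intro z hz
        have h1 : (⟨QuotientGroup.mk' Y z, himg z hz⟩ : Subgroup.center (X ⧸ Y)) ∈
            ((Subgroup.center X).map (QuotientGroup.mk' Y)).subgroupOf (Subgroup.center (X ⧸ Y)) :=
          Subgroup.mem_subgroupOf.mpr ⟨z, hz, rfl⟩
        rw [h, Subgroup.mem_bot] at h1
        have h2 : QuotientGroup.mk' Y z = 1 := congrArg Subtype.val h1
        rwa [QuotientGroup.mk'_apply, QuotientGroup.eq_one_iff] at h2
      apply hY'co.1
      rw [← hYsub, Subgroup.subgroupOf_eq_top]
      exact hcenY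
    · have h1 : (⟨QuotientGroup.mk' Y x, hxbar⟩ : Subgroup.center (X ⧸ Y)) ∈
          ((Subgroup.center X).map (QuotientGroup.mk' Y)).subgroupOf (Subgroup.center (X ⧸ Y)) := by
        rw [h]; exact Subgroup.mem_top _
      obtain ⟨z, hz, hzx⟩ := Subgroup.mem_subgroupOf.mp h1
      have hzx' : QuotientGroup.mk' Y z = QuotientGroup.mk' Y x := hzx
      rw [QuotientGroup.mk'_eq_mk'] at hzx'
      obtain ⟨y, hy, rfl⟩ := hzx'
      exact hx ((Subgroup.center X).mul_mem hz (hYle hy))
  constructor
  · rw [← hker, Subgroup.index_ker, hrange]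
  · ext z
    constructor
    · rintro ⟨y, rfl⟩
      exact hcen y
    · intro hz
      have hz' : z ∈ φ.range := by rw [hrange]; exact hz
      obtain ⟨y, rfl⟩ := hz'
      exact ⟨y, rfl⟩

end Cfsg.Agent.S2907
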