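import Mathlib
import Cfsg.Statements.S2909
import Cfsg.Agent.Lib.Helper48.Coprime
import Cfsg.Agent.Lib.Helper48.Generation

set_option autoImplicit false
open Cfsg

namespace Cfsg.Agent.S2909

open scoped commutatorElement

/-- The elements whose commutators with all elements of `U` lie in the normal subgroup `C`. -/
def commSub {G : Type*} [Group G] (C : Subgroup G) [hC : C.Normal] (U : Subgroup G) : Subgroup G where
  carrier := {g | ∀ t ∈ U, ⁅g, t⁆ ∈ C}
  one_mem' := by
    intro t _
    rw [commutatorElement_one_left]; exact C.one_mem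
  mul_mem' := by
    intro x y hx hy t ht
    have hid : ⁅x * y, t⁆ = x * ⁅y, t⁆ * x⁻¹ * ⁅x, t⁆ := by
      simp only [commutatorElement_def]; group
    rw [hid]
    exact C.mul_mem (hC.conj_mem _ (hy t ht) x) (hx t ht)
  inv_mem' := by
    intro x hx t ht
    have hid : ⁅x⁻¹, t⁆ = x⁻¹ * (⁅x, t⁆)⁻¹ * x⁻¹⁻¹ := by
      simp only [commutatorElement_def]; group
    rw [hid]
    exact hC.conj_mem _ (C.inv_mem (hx t ht)) x⁻¹

/-- The elements normalizing `D` and acting trivially on `E` modulo `D`. -/
def kerSub {G : Type*} [Group G] (E D : Subgroup G) : Subgroup G where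
  carrier := {g | g ∈ Subgroup.normalizer (D : Set G) ∧ ∀ e ∈ E, ⁅e, g⁆ ∈ D}
  one_mem' := by
    refine ⟨Subgroup.one_mem _, fun e _ => ?_⟩
    rw [commutatorElement_one_right]; exact D.one_mem
  mul_mem' := by
    intro g h hg hh
    refine ⟨Subgroup.mul_mem _ hg.1 hh.1, fun e he => ?_⟩
    have hid : ⁅e, g * h⁆ = ⁅e, g⁆ * (g * ⁅e, h⁆ * g⁻¹) := by
      simp only [commutatorElement_def]; group
    rw [hid]
    exact D.mul_mem (hg.2 e he) ((Subgroup.mem_normalizer_iff.mp hg.1 _).mp (hh.2 e he))
  inv_mem' := by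
    intro g hg
    refine ⟨Subgroup.inv_mem _ hg.1, fun e he => ?_⟩
    have hid : ⁅e, g⁻¹⁆ = g⁻¹ * (⁅e, g⁆)⁻¹ * g⁻¹⁻¹ := by
      simp only [commutatorElement_def]; group
    rw [hid]
    exact (Subgroup.mem_normalizer_iff.mp (Subgroup.inv_mem _ hg.1) _).mp (D.inv_mem (hg.2 e he))

open Cfsg.Agent.Lib.Helper48 in
/-- Let p be a prime, E a normal p-subgroup of the finite group G, and U a non-cyclic elementary abelian p-subgroup of G such that either C_E(U) = C_E(u) for every nontrivial u ∈ U, or [E, U] = [E, ⟨u⟩] for every nontrivial u ∈ U. If R is a subgroup of order prime to p normalized by U, then [R, U] centralizes E. -/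
theorem result {G : Type*} [Group G] [Finite G] {p : ℕ} [Fact p.Prime] (E : Subgroup G) [E.Normal] (hE : IsPGroup p ↥E) (U : Subgroup G) (hU : Cfsg.IsElementaryAbelian p U) (hnc : ¬ IsCyclic ↥U) (hcond : (∀ u ∈ U, u ≠ 1 → E ⊓ Subgroup.centralizer (U : Set G) = E ⊓ Subgroup.centralizer ({u} : Set G)) ∨ (∀ u ∈ U, u ≠ 1 → ⁅E, U⁆ = ⁅E, Subgroup.zpowers u⁆)) (R : Subgroup G) (hR : ¬ p ∣ Nat.card ↥R) (hRU : U ≤ Subgroup.normalizer (R : Set G)) : ⁅R, U⁆ ≤ Subgroup.centralizer (E : Set G) := by
  have hp : p.Prime := Fact.out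
  have hEn : E.Normal := inferInstance
  have hUcomm : ∀ x ∈ U, ∀ y ∈ U, x * y = y * x := by
    intro x hx y hy
    have h3 : (⟨x, hx⟩ : U) * ⟨y, hy⟩ = ⟨y, hy⟩ * ⟨x, hx⟩ := hU.1.is_comm.comm _ _
    exact congrArg Subtype.val h3
  have hUexp : ∀ x ∈ U, x ^ p = 1 := hU.2
  set C : Subgroup G := Subgroup.centralizer (E : Set G) with hCdef
  have hCn : C.Normal := by rw [hCdef]; infer_instance
  suffices hRM : R ≤ commSub C U by
    rw [Subgroup.commutator_le]
    exact fun r hr t ht => hRM hr t ht
  apply coprime_generation_le R U hUcomm hUexp hnc hR hRU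
  intro u hu hu1
  set Ru : Subgroup G := R ⊓ Subgroup.centralizer ({u} : Set G) with hRu
  set B : Subgroup G := ⁅Ru, U⁆ with hBdef
  suffices hBC : B ≤ C by
    intro r hr t ht
    exact hBC (Subgroup.commutator_mem_commutator hr ht)
  -- common facts
  have huo : orderOf u = p := orderOf_eq_prime (hUexp u hu) hu1
  have hA : IsPGroup p (Subgroup.zpowers u) := by
    apply IsPGroup.of_card (n := 1)
    rw [Nat.card_zpowers, huo, pow_one]
  have hBR : B ≤ R :=
    (Subgroup.commutator_mono inf_le_left le_rfl).trans (commutator_le_of_le_normalizer R U hRU)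
  have hB : ¬ p ∣ Nat.card B := fun h => hR (h.trans (Subgroup.card_dvd_of_le hBR))
  have hUcu : U ≤ Subgroup.centralizer ({u} : Set G) := by
    intro t ht
    rw [Subgroup.mem_centralizer_iff]
    intro h hh
    rw [Set.mem_singleton_iff] at hh
    subst hh
    exact hUcomm h hu t ht
  have hBcu : B ≤ Subgroup.centralizer ({u} : Set G) := by
    rw [hBdef, Subgroup.commutator_le]
    intro r hr t ht
    rw [commutatorElement_def]
    exact Subgroup.mul_mem _ (Subgroup.mul_mem _ (Subgroup.mul_mem _ hr.2 (hUcu ht))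
      (Subgroup.inv_mem _ hr.2)) (Subgroup.inv_mem _ (hUcu ht))
  have hAB : ⁅Subgroup.zpowers u, B⁆ = ⊥ := by
    rw [Subgroup.commutator_eq_bot_iff_le_centralizer, Subgroup.zpowers_le,
      Subgroup.mem_centralizer_iff]
    intro b hb
    have := Subgroup.mem_centralizer_iff.mp (hBcu hb) u (Set.mem_singleton u)
    exact this.symm
  have hnA : Subgroup.zpowers u ≤ Subgroup.normalizer (E : Set G) := by
    rw [Subgroup.normalizer_eq_top]; exact le_top
  have hnB : B ≤ Subgroup.normalizer (E : Set G) := by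
    rw [Subgroup.normalizer_eq_top]; exact le_top
  suffices hEB : ⁅E, B⁆ = ⊥ by
    rw [Subgroup.commutator_comm, Subgroup.commutator_eq_bot_iff_le_centralizer] at hEB
    exact hEB
  rcases hcond with h1 | h2
  · -- Thompson A × B
    apply thompson_AxB (Subgroup.zpowers u) B hA hB hAB (Nat.card E) E le_rfl hE hnA hnB
    have hE0 : E ⊓ Subgroup.centralizer ((Subgroup.zpowers u : Subgroup G) : Set G) ≤
        E ⊓ Subgroup.centralizer (U : Set G) := by
      rw [h1 u hu hu1]
      apply inf_le_inf_left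
      apply Subgroup.centralizer_le
      intro x hx
      rw [Set.mem_singleton_iff] at hx
      rw [hx]
      exact Subgroup.mem_zpowers u
    refine hE0.trans ?_
    rw [Subgroup.le_centralizer_iff, hBdef, Subgroup.commutator_le]
    intro r hr t ht
    -- ⁅r, t⁆ centralizes E₀
    have hU0 : ∀ s ∈ U, s ∈ Subgroup.centralizer
        ((E ⊓ Subgroup.centralizer (U : Set G) : Subgroup G) : Set G) := by
      intro s hs
      rw [Subgroup.mem_centralizer_iff]
      intro e he
      exact (Subgroup.mem_centralizer_iff.mp he.2 s hs).symm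
    have hrt : r * t * r⁻¹ ∈ Subgroup.centralizer
        ((E ⊓ Subgroup.centralizer (U : Set G) : Subgroup G) : Set G) := by
      rw [Subgroup.mem_centralizer_iff]
      intro e he
      have he' : r⁻¹ * e * r ∈ E ⊓ Subgroup.centralizer (U : Set G) := by
        rw [h1 u hu hu1]
        rw [h1 u hu hu1] at he
        refine ⟨?_, ?_⟩
        · have := hEn.conj_mem e he.1 r⁻¹
          simpa using this
        · exact Subgroup.mul_mem _ (Subgroup.mul_mem _ (Subgroup.inv_mem _ hr.2) he.2) hr.2
      have h3 : (r⁻¹ * e * r) * t = t * (r⁻¹ * e * r) :=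
        Subgroup.mem_centralizer_iff.mp he'.2 t ht |>.symm ▸ rfl
      calc e * (r * t * r⁻¹) = r * ((r⁻¹ * e * r) * t) * r⁻¹ := by group
        _ = r * (t * (r⁻¹ * e * r)) * r⁻¹ := by rw [h3]
        _ = r * t * r⁻¹ * e := by group
    rw [commutatorElement_def]
    exact Subgroup.mul_mem _ hrt (Subgroup.inv_mem _ (hU0 t ht))
  · -- dual A × B
    apply commutator_eq_bot_of_le_commutator E (Subgroup.zpowers u) B hE hA hB hnA hnB hAB
    rw [← h2 u hu hu1]
    suffices hBK : B ≤ kerSub E ⁅E, U⁆ by
      rw [Subgroup.commutator_le]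
      exact fun e he b hb => (hBK hb).2 e he
    have hUK : U ≤ kerSub E ⁅E, U⁆ := by
      intro t ht
      refine ⟨?_, fun e he => Subgroup.commutator_mem_commutator he ht⟩
      have : U ≤ Subgroup.normalizer ((⁅E, U⁆ : Subgroup G) : Set G) := by
        rw [Subgroup.le_normalizer_iff]
        intro s hs
        apply conj_mem_commutator s
        · exact fun k hk => hEn.conj_mem k hk s
        · exact fun k hk => U.mul_mem (U.mul_mem hs hk) (U.inv_mem hs)
      exact this ht
    have hRuN : Ru ≤ Subgroup.normalizer ((⁅E, U⁆ : Subgroup G) : Set G) := by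
      rw [h2 u hu hu1, Subgroup.le_normalizer_iff]
      intro r hr
      apply conj_mem_commutator r
      · exact fun k hk => hEn.conj_mem k hk r
      · intro k hk
        obtain ⟨n, rfl⟩ := Subgroup.mem_zpowers_iff.mp hk
        have hru : u * r = r * u := Subgroup.mem_centralizer_iff.mp hr.2 u (Set.mem_singleton u)
        have hc : Commute r (u ^ n) := Commute.zpow_right hru.symm n
        rw [hc.eq, mul_inv_cancel_right]
        exact Subgroup.zpow_mem_zpowers u n
    rw [hBdef, Subgroup.commutator_le]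
    intro r hr t ht
    have hrt : r * t * r⁻¹ ∈ kerSub E ⁅E, U⁆ := by
      refine ⟨Subgroup.mul_mem _ (Subgroup.mul_mem _ (hRuN hr) (hUK ht).1)
        (Subgroup.inv_mem _ (hRuN hr)), fun e he => ?_⟩
      have hid : ⁅e, r * t * r⁻¹⁆ = r * ⁅r⁻¹ * e * r⁻¹⁻¹, t⁆ * r⁻¹ := by
        simp only [commutatorElement_def]; group
      rw [hid]
      apply (Subgroup.mem_normalizer_iff.mp (hRuN hr) _).mp
      exact Subgroup.commutator_mem_commutator (hEn.conj_mem e he r⁻¹) ht
    rw [commutatorElement_def]
    exact Subgroup.mul_mem _ hrt (Subgroup.inv_mem _ (hUK ht))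

end Cfsg.Agent.S2909
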