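import Mathlib
import Cfsg.Statements.S2911
import Cfsg.Agent.Lib.Helper49.OddPerm

set_option autoImplicit false
open Cfsg

namespace Cfsg.Agent.S2911

open Cfsg.Agent.Lib.Helper49

theorem d8_center (d : DihedralGroup 4) (hd : ∀ x : DihedralGroup 4, x * d = d * x) (h1 : d ≠ 1) :
    d = DihedralGroup.r 2 := by
  revert d; decide

theorem d8_comm : (DihedralGroup.r 2 : DihedralGroup 4) =
    DihedralGroup.r 1 * DihedralGroup.sr 0 * (DihedralGroup.r 1)⁻¹ * (DihedralGroup.sr 0)⁻¹ := by
  decide

theorem zeta_ne_one : (Multiplicative.ofAdd (1 : ZMod 2)) ≠ 1 := by decide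

theorem zeta_mul_self :
    (Multiplicative.ofAdd (1 : ZMod 2)) * (Multiplicative.ofAdd (1 : ZMod 2)) = 1 := by decide

/-- A finite group whose Sylow 2-subgroups are isomorphic to the direct product of a group of order 2 and a dihedral group of order 8 has a subgroup of index two. -/
theorem result {G : Type*} [Group G] [Finite G] (S : Sylow 2 G) (hS : Nonempty (↥(S : Subgroup G) ≃* Multiplicative (ZMod 2) × DihedralGroup 4)) : ∃ H : Subgroup G, H.index = 2 := by
  classical
  obtain ⟨e⟩ := hS
  have : Fact (Nat.Prime 2) := ⟨Nat.prime_two⟩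
  set ζ : Multiplicative (ZMod 2) := Multiplicative.ofAdd 1 with hζ
  have hζ1 : ζ ≠ 1 := zeta_ne_one
  have hζ2 : ζ * ζ = 1 := zeta_mul_self
  set z₀ : ↥(S : Subgroup G) := e.symm (ζ, 1) with hz₀
  set φ : ↥(S : Subgroup G) →* Multiplicative (ZMod 2) :=
    (MonoidHom.fst _ _).comp e.toMonoidHom with hφ
  have hφe : ∀ s : ↥(S : Subgroup G), φ s = (e s).1 := fun s => rfl
  have hφz : φ z₀ = ζ := by rw [hφe, hz₀, e.apply_symm_apply]
  have hφsurj : Function.Surjective φ := by
    intro y
    exact ⟨e.symm (y, 1), by rw [hφe, e.apply_symm_apply]⟩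
  have hz₀sq : z₀ * z₀ = 1 := by
    apply e.injective
    rw [map_mul, hz₀, e.apply_symm_apply, Prod.mk_mul_mk, hζ2, one_mul, map_one]
    rfl
  have hz₀c : ∀ s : ↥(S : Subgroup G), s * z₀ = z₀ * s := by
    intro s
    apply e.injective
    rw [map_mul, map_mul, hz₀, e.apply_symm_apply]
    ext
    · simp [mul_comm]
    · simp
  set M₀ : Subgroup ↥(S : Subgroup G) := φ.ker with hM₀
  set M : Subgroup G := M₀.map (S : Subgroup G).subtype with hM
  have hM₀idx : M₀.index = 2 := by
    rw [hM₀, Subgroup.index_ker, MonoidHom.range_eq_top.mpr hφsurj, Subgroup.card_top,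
      Nat.card_eq_fintype_card]
    rfl
  have hMidx : M.index = 2 * (S : Subgroup G).index := by
    rw [hM, Subgroup.index_map_subtype, hM₀idx]
  have hSodd : Odd (S : Subgroup G).index := by
    have := S.not_dvd_index
    rwa [← Nat.not_even_iff_odd, even_iff_two_dvd]
  set z : G := (z₀ : G) with hz
  have hzsq : z * z = 1 := by
    have := congrArg (fun s : ↥(S : Subgroup G) => (s : G)) hz₀sq
    simpa using this
  have hzc : ∀ s : G, s ∈ (S : Subgroup G) → s * z = z * s := by
    intro s hs
    have := congrArg (fun s : ↥(S : Subgroup G) => (s : G)) (hz₀c ⟨s, hs⟩)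
    simpa using this
  have hz1 : z ≠ 1 := by
    intro h
    have : z₀ = 1 := Subtype.ext h
    rw [this, map_one] at hφz
    exact hζ1 hφz.symm
  let _ : Fintype (G ⧸ M) := Fintype.ofFinite _
  set σ : Equiv.Perm (G ⧸ M) := MulAction.toPerm z with hσdef
  have hσ : σ ^ 2 = 1 := by
    ext q
    simp only [hσdef, sq, Equiv.Perm.coe_mul, Function.comp_apply, MulAction.toPerm_apply,
      Equiv.Perm.coe_one, id_eq]
    rw [← mul_smul, hzsq, one_smul]
  have hcard : Fintype.card (G ⧸ M) = 2 * (S : Subgroup G).index := by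
    rw [← hMidx, Subgroup.index_eq_card, Nat.card_eq_fintype_card]
  have hsm : ∀ (s : ↥(S : Subgroup G)) (q : G ⧸ M), s • q = (s : G) • q := fun s q => rfl
  -- the key claim
  have hF : 4 ∣ Nat.card (Function.fixedPoints σ) := by
    let Fix : SubMulAction ↥(S : Subgroup G) (G ⧸ M) :=
      { carrier := {q | z • q = q}
        smul_mem' := by
          intro c x hx
          have hx' : z • x = x := hx
          show z • c • x = c • x
          rw [hsm, ← mul_smul, ← hzc _ c.2, mul_smul, hx'] }
    have hFixcard : Nat.card (Function.fixedPoints σ) = Nat.card ↥Fix := by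
      apply Nat.card_congr
      exact Equiv.subtypeEquivRight (fun q => Iff.rfl)
    rw [hFixcard]
    apply dvd_card_of_dvd_orbits (S := ↥(S : Subgroup G)) 4
    intro b
    set St : Subgroup ↥(S : Subgroup G) := MulAction.stabilizer ↥(S : Subgroup G) b with hSt
    have horb : Nat.card (MulAction.orbit ↥(S : Subgroup G) b) = St.index := by
      rw [Subgroup.index_eq_card]
      exact Nat.card_congr (MulAction.orbitEquivQuotientStabilizer ↥(S : Subgroup G) b)
    rw [horb]
    obtain ⟨k, hk⟩ := (S.isPGroup').index St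
    rw [hk]
    by_cases hk2 : 2 ≤ k
    · exact pow_dvd_pow 2 hk2
    exfalso
    have hk1 : k ≤ 1 := by omega
    obtain ⟨q, hq⟩ := b
    obtain ⟨g, rfl⟩ := QuotientGroup.mk_surjective q
    have hq' : z • (g : G ⧸ M) = (g : G ⧸ M) := hq
    -- stabilizer membership
    have hmemSt : ∀ s : ↥(S : Subgroup G), s ∈ St ↔ g⁻¹ * (s : G) * g ∈ M := by
      intro s
      rw [hSt, MulAction.mem_stabilizer_iff, Subtype.ext_iff, SubMulAction.val_smul,
        hsm, MulAction.Quotient.smul_mk, QuotientGroup.eq, smul_eq_mul]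
      constructor
      · intro h
        have := M.inv_mem h
        simpa [mul_assoc] using this
      · intro h
        have := M.inv_mem h
        simpa [mul_assoc] using this
    have hz₀St : z₀ ∈ St := by
      rw [hSt, MulAction.mem_stabilizer_iff, Subtype.ext_iff, SubMulAction.val_smul,
        hsm]
      exact hq'
    -- cardinalities
    have hcardSt : Nat.card ↥M ≤ Nat.card ↥St := by
      have h1 : Nat.card ↥M = Nat.card ↥M₀ :=
        Subgroup.card_map_of_injective (S : Subgroup G).subtype_injective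
      have h2 := Subgroup.card_mul_index M₀
      have h3 := Subgroup.card_mul_index St
      rw [hM₀idx] at h2
      rw [hk] at h3
      have h4 : 2 ^ k ≤ 2 := by
        calc 2 ^ k ≤ 2 ^ 1 := Nat.pow_le_pow_right (by norm_num) hk1
          _ = 2 := by norm_num
      have h5 : Nat.card ↥St * 2 ^ k ≤ Nat.card ↥St * 2 := Nat.mul_le_mul_left _ h4
      rw [h1]
      omega
    let ψ : ↥St → ↥M := fun s => ⟨g⁻¹ * ((s : ↥(S : Subgroup G)) : G) * g, (hmemSt s).mp s.2⟩
    have hψinj : Function.Injective ψ := by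
      intro s t hst
      have h1 : g⁻¹ * ((s : ↥(S : Subgroup G)) : G) * g = g⁻¹ * ((t : ↥(S : Subgroup G)) : G) * g :=
        congrArg Subtype.val hst
      have h2 : ((s : ↥(S : Subgroup G)) : G) = ((t : ↥(S : Subgroup G)) : G) := by
        have := mul_right_cancel h1
        exact mul_left_cancel this
      exact Subtype.ext (Subtype.ext h2)
    have hψsurj : Function.Surjective ψ := (hψinj.bijective_of_nat_card_le hcardSt).2
    have hMconj : ∀ m : G, m ∈ M → ∃ s : ↥(S : Subgroup G), s ∈ St ∧ g⁻¹ * (s : G) * g = m := by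
      intro m hm
      obtain ⟨s, hs⟩ := hψsurj ⟨m, hm⟩
      exact ⟨s, s.2, congrArg Subtype.val hs⟩
    -- the element w
    set w : G := g⁻¹ * z * g with hw
    have hwM : w ∈ M := (hmemSt z₀).mp hz₀St
    have hwc : ∀ m : G, m ∈ M → m * w = w * m := by
      intro m hm
      obtain ⟨s, -, rfl⟩ := hMconj m hm
      rw [hw]
      have := hzc (s : G) s.2
      calc g⁻¹ * (s : G) * g * (g⁻¹ * z * g) = g⁻¹ * ((s : G) * z) * g := by group
        _ = g⁻¹ * (z * (s : G)) * g := by rw [this]
        _ = g⁻¹ * z * g * (g⁻¹ * (s : G) * g) := by group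
    obtain ⟨w₀, hw₀M, hw₀⟩ := Subgroup.mem_map.mp hwM
    have hw₀' : (w₀ : G) = w := hw₀
    have hw₀1 : (e w₀).1 = 1 := hw₀M
    set d : DihedralGroup 4 := (e w₀).2 with hd
    have hew₀ : e w₀ = (1, d) := by
      ext
      · exact hw₀1
      · rfl
    have hmemM₀ : ∀ x : DihedralGroup 4, e.symm (1, x) ∈ M₀ := by
      intro x
      rw [hM₀, MonoidHom.mem_ker, hφe, e.apply_symm_apply]
    have hmemM : ∀ x : DihedralGroup 4, ((e.symm (1, x) : ↥(S : Subgroup G)) : G) ∈ M := by
      intro x
      exact Subgroup.mem_map.mpr ⟨_, hmemM₀ x, rfl⟩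
    have hdc : ∀ x : DihedralGroup 4, x * d = d * x := by
      intro x
      have h1 := hwc _ (hmemM x)
      rw [← hw₀'] at h1
      have h2 : e.symm (1, x) * w₀ = w₀ * e.symm (1, x) := Subtype.ext h1
      have h3 := congrArg e h2
      rw [map_mul, map_mul, e.apply_symm_apply, hew₀] at h3
      have h4 := congrArg Prod.snd h3
      simpa using h4
    have hd1 : d ≠ 1 := by
      intro h
      rw [h] at hew₀
      have h1 : w₀ = 1 := by
        apply e.injective
        rw [hew₀, map_one]
        rfl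
      rw [h1] at hw₀'
      have h2 : w = 1 := by rw [← hw₀']; rfl
      rw [hw] at h2
      apply hz1
      calc z = g * (g⁻¹ * z * g) * g⁻¹ := by group
        _ = 1 := by rw [h2]; group
    have hd2 : d = DihedralGroup.r 2 := d8_center d hdc hd1
    set a : ↥(S : Subgroup G) := e.symm (1, DihedralGroup.r 1) with ha
    set c : ↥(S : Subgroup G) := e.symm (1, DihedralGroup.sr 0) with hc
    have hw₀comm : w₀ = a * c * a⁻¹ * c⁻¹ := by
      apply e.injective
      rw [map_mul, map_mul, map_mul, map_inv, map_inv, ha, hc, e.apply_symm_apply,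
        e.apply_symm_apply, hew₀, hd2, d8_comm]
      ext
      · simp
      · simp
    obtain ⟨s₁, -, hs₁⟩ := hMconj _ (hmemM (DihedralGroup.r 1))
    obtain ⟨s₂, -, hs₂⟩ := hMconj _ (hmemM (DihedralGroup.sr 0))
    have hzcomm : z₀ = s₁ * s₂ * s₁⁻¹ * s₂⁻¹ := by
      apply Subtype.ext
      have h1 : (a : G) = g⁻¹ * (s₁ : G) * g := hs₁.symm
      have h2 : (c : G) = g⁻¹ * (s₂ : G) * g := hs₂.symm
      have h3 : w = (a : G) * (c : G) * (a : G)⁻¹ * (c : G)⁻¹ := by
        rw [← hw₀', hw₀comm]
        simp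
      have h4 : z = g * w * g⁻¹ := by rw [hw]; group
      show z = _
      rw [h4, h3, h1, h2]
      simp only [Subgroup.coe_mul, Subgroup.coe_inv]
      group
    have : φ z₀ = 1 := by
      rw [hzcomm, map_mul, map_mul, map_mul, map_inv, map_inv]
      rw [mul_comm (φ s₁) (φ s₂), mul_inv_cancel_right, mul_inv_cancel]
    rw [hφz] at this
    exact hζ1 this
  obtain ⟨F, hF⟩ := hF
  obtain ⟨m, hm⟩ : ∃ m, (S : Subgroup G).index = m := ⟨_, rfl⟩
  rw [hm] at hcard hSodd
  have hsign := sign_involution σ hσ m F hSodd hcard hF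
  exact exists_index_two_of_sign z hsign

end Cfsg.Agent.S2911
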