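import Cfsg.Statements.S2912
import Cfsg.Agent.Lib.Helper97.ExtraModMul
import Cfsg.Agent.Lib.Helper97.SectMod

set_option autoImplicit false
open Cfsg

namespace Cfsg.Agent.S2912

/-- Let p and r be distinct primes, let E be an extraspecial subgroup of order p^(2w+1) of a finite group, and let A be an elementary abelian r-subgroup normalized by E on which E acts faithfully (C_E(A) = 1). If n ≥ 1 is least with p dividing rⁿ − 1 (the smallest dimension of a faithful representation of a group of order p over the field with r elements), then the order of A is at least r^(n·p^w). -/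
theorem result {G : Type*} [Group G] [Finite G] {p r : ℕ} [Fact p.Prime] [hr : Fact r.Prime] (hpr : p ≠ r) (E A : Subgroup G) (w : ℕ) (hE : Cfsg.IsExtraspecial p ↥E) (hEcard : Nat.card ↥E = p ^ (2 * w + 1)) (hA : Cfsg.IsElementaryAbelian r A) (hnorm : E ≤ Subgroup.normalizer (A : Set G)) (hfaith : E ⊓ Subgroup.centralizer (A : Set G) = ⊥) (n : ℕ) (hn : 1 ≤ n) (hdiv : p ∣ r ^ n - 1) (hmin : ∀ k : ℕ, 1 ≤ k → p ∣ r ^ k - 1 → n ≤ k) : r ^ (n * p ^ w) ≤ Nat.card ↥A := by
  classical
  have hp : p.Prime := Fact.out
  have hrp : r.Prime := hr.out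
  obtain ⟨⟨-, -, hcomm⟩, hZ⟩ := hE
  letI cg : CommGroup ↥A :=
    { (inferInstance : Group ↥A) with mul_comm := fun a b => hA.1.is_comm.comm a b }
  letI act : MulDistribMulAction ↥E ↥A := Cfsg.Agent.Lib.Helper97.SectMod.conjAct E A hnorm
  have key := Cfsg.Agent.Lib.Helper97.ExtraMod.extraspecial_faithful_bound (E := ↥E) (V := ↥A)
    hp hrp hpr w hEcard hZ
    (by
      intro g h
      rw [← hcomm, commutator_def]
      exact Subgroup.commutator_mem_commutator (Subgroup.mem_top g) (Subgroup.mem_top h))
    (by
      intro v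
      apply Subtype.ext
      rw [Subgroup.coe_pow]
      exact hA.2 v v.2)
    (by
      intro g hg
      have h1 : (g : G) ∈ E ⊓ Subgroup.centralizer (A : Set G) := by
        refine Subgroup.mem_inf.mpr ⟨g.2, ?_⟩
        rw [Subgroup.mem_centralizer_iff]
        intro a ha
        have h2 := congrArg Subtype.val (hg ⟨a, ha⟩)
        have h3 : (g : G) * a * (g : G)⁻¹ = a := h2
        calc a * (g : G) = ((g : G) * a * (g : G)⁻¹) * (g : G) := by rw [h3]
          _ = (g : G) * a := by group
      rw [hfaith] at h1
      exact Subtype.ext (Subgroup.mem_bot.mp h1))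
    n hmin
  exact key

end Cfsg.Agent.S2912
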