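import Cfsg.Statements.S2922
import Mathlib
import Cfsg.Agent.Lib.Helper49.CharP
import Cfsg.Agent.Lib.Helper30.Bender
import Cfsg.Agent.Lib.Helper31.EvenChar

set_option autoImplicit false
open Cfsg

namespace Cfsg.Agent.S2922

/-- Let p be a prime, X a finite group, B a p-subgroup of X and C a normal subgroup of B. If N_X(C) has characteristic p (its generalized Fitting subgroup is O_p(N_X(C))), then N_X(B) and C_X(B) have characteristic p. -/
theorem result {X : Type*} [Group X] [Finite X] {p : ℕ} [Fact p.Prime] (B C : Subgroup X) (hB : IsPGroup p ↥B) (hCB : C ≤ B) (hCn : (C.subgroupOf B).Normal) (hC : Cfsg.generalizedFittingSubgroup ↥(Subgroup.normalizer (C : Set X)) = Cfsg.pCore p ↥(Subgroup.normalizer (C : Set X))) : Cfsg.generalizedFittingSubgroup ↥(Subgroup.normalizer (B : Set X)) = Cfsg.pCore p ↥(Subgroup.normalizer (B : Set X)) ∧ Cfsg.generalizedFittingSubgroup ↥(Subgroup.centralizer (B : Set X)) = Cfsg.pCore p ↥(Subgroup.centralizer (B : Set X)) := by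
  have hM : Subgroup.centralizer (Cfsg.pCore p ↥(Subgroup.normalizer (C : Set X)) :
      Set ↥(Subgroup.normalizer (C : Set X))) ≤ Cfsg.pCore p ↥(Subgroup.normalizer (C : Set X)) := by
    have := Cfsg.Agent.Lib.Helper30.centralizer_generalizedFittingSubgroup_le
      ↥(Subgroup.normalizer (C : Set X))
    rwa [hC] at this
  have hN := Cfsg.Agent.Lib.Helper31.charp_normalizer_of_centralizer_le
    (Subgroup.normalizer (C : Set X)) C B hM (Subgroup.centralizer_le_normalizer _) hCB
    Subgroup.le_normalizer hB
  constructor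
  · exact Cfsg.Agent.Lib.Helper31.generalizedFittingSubgroup_eq_pCore hN
  · apply Cfsg.Agent.Lib.Helper31.generalizedFittingSubgroup_eq_pCore
    have hle : Subgroup.centralizer (B : Set X) ≤ Subgroup.normalizer (B : Set X) :=
      Subgroup.centralizer_le_normalizer _
    have hnorm : ((Subgroup.centralizer (B : Set X)).subgroupOf
        (Subgroup.normalizer (B : Set X))).Normal :=
      (Subgroup.normal_subgroupOf_iff_le_normalizer hle).mpr
        (Cfsg.Agent.Lib.Helper31.normalizer_le_normalizer_centralizer B)
    have h1 := Cfsg.Agent.Lib.Helper49.charp_of_subnormal hN _ hnorm.isSubnormal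
    exact Cfsg.Agent.Lib.Helper49.charp_of_equiv (Subgroup.subgroupOfEquivOfLe hle) h1

end Cfsg.Agent.S2922
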