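import Cfsg.Statements.S2925
import Mathlib
import Cfsg.Agent.Lib.Helper22.Comp
import Cfsg.Agent.Lib.Helper4.SylowTwo
import Cfsg.Agent.Lib.Helper49.SylSub

set_option autoImplicit false
open Cfsg

namespace Cfsg.Agent.S2925

/-- Let K be a component of the finite group X and T a Sylow 2-subgroup of X. If some abelian normal subgroup Y of T does not normalize K, then K ⧸ Z(K) has abelian Sylow 2-subgroups. -/
theorem result {X : Type*} [Group X] [Finite X] (K : Subgroup X) (hK : Cfsg.IsComponent K) (T : Sylow 2 X) (Y : Subgroup X) (hYT : Y ≤ (T : Subgroup X)) (hYn : (Y.subgroupOf (T : Subgroup X)).Normal) (hYab : IsMulCommutative ↥Y) (hnot : ¬ Y ≤ Subgroup.normalizer (K : Set X)) (P : Sylow 2 (↥K ⧸ Subgroup.center ↥K)) : IsMulCommutative ↥(P : Subgroup (↥K ⧸ Subgroup.center ↥K)) := by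
  classical
  have : Fact (Nat.Prime 2) := ⟨Nat.prime_two⟩
  obtain ⟨y, hyY, hyN⟩ := SetLike.not_le_iff_exists.mp hnot
  set K' : Subgroup X := K.map (MulAut.conj y).toMonoidHom with hK'
  have hK'c : Cfsg.IsComponent K' :=
    Cfsg.Agent.Lib.Helper22.isComponent_map_equiv (MulAut.conj y) hK
  have hc1 : ∀ s ∈ K, y * s * y⁻¹ ∈ K' := fun s hs => ⟨s, hs, rfl⟩
  have hne : K ≠ K' := by
    intro h
    apply hyN
    rw [Subgroup.mem_normalizer_iff]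
    intro k
    constructor
    · intro hk
      have h1 := hc1 k hk
      rw [← h] at h1
      exact h1
    · intro hk
      have h1 : y * k * y⁻¹ ∈ K' := h ▸ hk
      obtain ⟨k', hk', hkk⟩ := h1
      have h2 : y * k' * y⁻¹ = y * k * y⁻¹ := hkk
      have h3 : k' = k := mul_left_cancel (mul_right_cancel h2)
      rw [← h3]
      exact hk'
  have hcomm : ∀ a ∈ K, ∀ b ∈ K', a * b = b * a :=
    Cfsg.Agent.Lib.Helper22.comm_of_commutator_eq_bot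
      (Cfsg.Agent.Lib.Helper22.components_commute hK hK'c hne)
  have hcY : ∀ s ∈ (T : Subgroup X), y * s * y⁻¹ * s⁻¹ ∈ Y := by
    intro s hs
    have h1 : s * y⁻¹ * s⁻¹ ∈ Y := by
      have := hYn.conj_mem ⟨y⁻¹, hYT (Y.inv_mem hyY)⟩
        (Subgroup.mem_subgroupOf.mpr (Y.inv_mem hyY)) ⟨s, hs⟩
      exact Subgroup.mem_subgroupOf.mp this
    have h2 := Y.mul_mem hyY h1
    have h3 : y * (s * y⁻¹ * s⁻¹) = y * s * y⁻¹ * s⁻¹ := by group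
    rwa [h3] at h2
  have hYc : ∀ a ∈ Y, ∀ b ∈ Y, a * b = b * a := by
    intro a ha b hb
    have := hYab.is_comm.comm (⟨a, ha⟩ : ↥Y) ⟨b, hb⟩
    exact congrArg Subtype.val this
  have hkey : ∀ s₁ ∈ (T : Subgroup X) ⊓ K, ∀ s₂ ∈ (T : Subgroup X) ⊓ K, ∀ k ∈ K,
      (s₂⁻¹ * s₁⁻¹ * s₂ * s₁) * k = k * (s₂⁻¹ * s₁⁻¹ * s₂ * s₁) := by
    intro s₁ hs₁ s₂ hs₂ k hk
    obtain ⟨hs₁T, hs₁K⟩ := Subgroup.mem_inf.mp hs₁
    obtain ⟨hs₂T, hs₂K⟩ := Subgroup.mem_inf.mp hs₂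
    have h3 := hYc _ (hcY s₁ hs₁T) _ (hcY s₂ hs₂T)
    have e1 : s₁⁻¹ * (y * s₂ * y⁻¹) = (y * s₂ * y⁻¹) * s₁⁻¹ :=
      hcomm _ (K.inv_mem hs₁K) _ (hc1 s₂ hs₂K)
    have e2 : s₂⁻¹ * (y * s₁ * y⁻¹) = (y * s₁ * y⁻¹) * s₂⁻¹ :=
      hcomm _ (K.inv_mem hs₂K) _ (hc1 s₁ hs₁K)
    have hstar : y * s₁ * s₂ * y⁻¹ * s₁⁻¹ * s₂⁻¹ = y * s₂ * s₁ * y⁻¹ * s₂⁻¹ * s₁⁻¹ := by
      calc y * s₁ * s₂ * y⁻¹ * s₁⁻¹ * s₂⁻¹
          = y * s₁ * y⁻¹ * ((y * s₂ * y⁻¹) * s₁⁻¹) * s₂⁻¹ := by group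
        _ = y * s₁ * y⁻¹ * (s₁⁻¹ * (y * s₂ * y⁻¹)) * s₂⁻¹ := by rw [e1]
        _ = (y * s₁ * y⁻¹ * s₁⁻¹) * (y * s₂ * y⁻¹ * s₂⁻¹) := by group
        _ = (y * s₂ * y⁻¹ * s₂⁻¹) * (y * s₁ * y⁻¹ * s₁⁻¹) := h3
        _ = y * s₂ * y⁻¹ * (s₂⁻¹ * (y * s₁ * y⁻¹)) * s₁⁻¹ := by group
        _ = y * s₂ * y⁻¹ * ((y * s₁ * y⁻¹) * s₂⁻¹) * s₁⁻¹ := by rw [e2]
        _ = y * s₂ * s₁ * y⁻¹ * s₂⁻¹ * s₁⁻¹ := by group
    have hw : s₂⁻¹ * s₁⁻¹ * s₂ * s₁ = y * (s₁⁻¹ * s₂⁻¹ * s₁ * s₂) * y⁻¹ := by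
      calc s₂⁻¹ * s₁⁻¹ * s₂ * s₁
          = (y * s₂ * s₁ * y⁻¹)⁻¹ * (y * s₂ * s₁ * y⁻¹ * s₂⁻¹ * s₁⁻¹) * (s₂ * s₁) := by group
        _ = (y * s₂ * s₁ * y⁻¹)⁻¹ * (y * s₁ * s₂ * y⁻¹ * s₁⁻¹ * s₂⁻¹) * (s₂ * s₁) := by
            rw [hstar]
        _ = y * (s₁⁻¹ * s₂⁻¹ * s₁ * s₂) * y⁻¹ := by group
    have hwK' : s₂⁻¹ * s₁⁻¹ * s₂ * s₁ ∈ K' := by
      rw [hw]
      exact hc1 _ (K.mul_mem (K.mul_mem (K.mul_mem (K.inv_mem hs₁K) (K.inv_mem hs₂K)) hs₁K) hs₂K)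
    exact (hcomm k hk _ hwK').symm
  -- Sylow part
  obtain ⟨Q, hQ⟩ := Cfsg.Agent.Lib.Helper49.exists_sylow_inf_subnormal T K hK.1
  have hπs : Function.Surjective (QuotientGroup.mk' (Subgroup.center ↥K)) :=
    QuotientGroup.mk'_surjective _
  obtain ⟨g, hg⟩ := MulAction.exists_smul_eq (↥K ⧸ Subgroup.center ↥K) (Q.mapSurjective hπs) P
  have hQcomm : ∀ a ∈ (Q : Subgroup ↥K), ∀ b ∈ (Q : Subgroup ↥K),
      (QuotientGroup.mk' (Subgroup.center ↥K)) a * (QuotientGroup.mk' (Subgroup.center ↥K)) b =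
        (QuotientGroup.mk' (Subgroup.center ↥K)) b * (QuotientGroup.mk' (Subgroup.center ↥K)) a := by
    intro a ha b hb
    rw [hQ, Subgroup.mem_subgroupOf] at ha hb
    rw [← map_mul, ← map_mul]
    show ((a * b : ↥K) : ↥K ⧸ Subgroup.center ↥K) = ((b * a : ↥K) : ↥K ⧸ Subgroup.center ↥K)
    rw [QuotientGroup.eq, Subgroup.mem_center_iff]
    intro k
    apply Subtype.ext
    have h1 := hkey (a : X) (Subgroup.mem_inf.mpr ⟨ha, a.2⟩) (b : X)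
      (Subgroup.mem_inf.mpr ⟨hb, b.2⟩) (k : X) k.2
    simp only [Subgroup.coe_mul, Subgroup.coe_inv]
    have h2 : ((a : X) * (b : X))⁻¹ * ((b : X) * (a : X)) =
        (b : X)⁻¹ * (a : X)⁻¹ * (b : X) * (a : X) := by group
    rw [h2]
    exact h1.symm
  refine ⟨⟨fun u v => ?_⟩⟩
  have hu : (u : ↥K ⧸ Subgroup.center ↥K) ∈ g • Q.mapSurjective hπs := by rw [hg]; exact u.2
  have hv : (v : ↥K ⧸ Subgroup.center ↥K) ∈ g • Q.mapSurjective hπs := by rw [hg]; exact v.2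
  rw [Cfsg.Agent.Lib.Helper4.mem_sylow_smul_iff] at hu hv
  obtain ⟨a, ha, hau⟩ := hu
  obtain ⟨b, hb, hbv⟩ := hv
  have h1 := hQcomm a ha b hb
  have hau' : (QuotientGroup.mk' (Subgroup.center ↥K)) a = g⁻¹ * (u : ↥K ⧸ Subgroup.center ↥K) * g := hau
  have hbv' : (QuotientGroup.mk' (Subgroup.center ↥K)) b = g⁻¹ * (v : ↥K ⧸ Subgroup.center ↥K) * g := hbv
  rw [hau', hbv'] at h1
  apply Subtype.ext
  show (u : ↥K ⧸ Subgroup.center ↥K) * (v : ↥K ⧸ Subgroup.center ↥K) =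
    (v : ↥K ⧸ Subgroup.center ↥K) * (u : ↥K ⧸ Subgroup.center ↥K)
  have h2 : g⁻¹ * ((u : ↥K ⧸ Subgroup.center ↥K) * (v : ↥K ⧸ Subgroup.center ↥K)) * g =
      g⁻¹ * ((v : ↥K ⧸ Subgroup.center ↥K) * (u : ↥K ⧸ Subgroup.center ↥K)) * g := by
    calc g⁻¹ * ((u : ↥K ⧸ Subgroup.center ↥K) * (v : ↥K ⧸ Subgroup.center ↥K)) * g
        = (g⁻¹ * (u : ↥K ⧸ Subgroup.center ↥K) * g) * (g⁻¹ * (v : ↥K ⧸ Subgroup.center ↥K) * g) := by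
          group
      _ = (g⁻¹ * (v : ↥K ⧸ Subgroup.center ↥K) * g) * (g⁻¹ * (u : ↥K ⧸ Subgroup.center ↥K) * g) := h1
      _ = g⁻¹ * ((v : ↥K ⧸ Subgroup.center ↥K) * (u : ↥K ⧸ Subgroup.center ↥K)) * g := by group
  exact mul_left_cancel (mul_right_cancel h2)

end Cfsg.Agent.S2925
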