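import Cfsg.Statements.S2928
import Mathlib
import Cfsg.Agent.Lib.Helper82.Alt2.Main
import Cfsg.Agent.Lib.Helper82.Alt2.Pair
import Cfsg.Agent.Lib.Helper61.Alt3.LemF
import Cfsg.Agent.Lib.Helper85.Alt3.LemAIso
import Cfsg.Agent.Lib.Helper48.Alt2.Syl
import Cfsg.Agent.Lib.Helper62.Alt2.Odd
import Cfsg.Agent.Lib.Helper24.Alt2.Alt3
import Cfsg.Agent.Lib.Helper24.Alt2.Move
import Cfsg.Agent.Lib.Helper48.Alt2.Conn
import Cfsg.Agent.Lib.Helper25.Alt2.Delta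
import Cfsg.Agent.Lib.Helper25.Alt2.Fano7
import Cfsg.Agent.Lib.Helper62.Alt2.Fano8
import Cfsg.Agent.Lib.Helper25.Alt2.FanoAll
import Cfsg.Agent.Lib.Helper61.Alt2.Aff

set_option autoImplicit false
open Cfsg

namespace Cfsg.Agent.S2928

/-- Let n ≥ 8 and let H be a subgroup of the symmetric group of degree n whose generalized Fitting subgroup F*(H) is quasisimple. If H contains a Sylow 2-subgroup of the alternating group of degree n, then F*(H) is isomorphic to an alternating group of degree m for some m ∈ {n − 3, n − 2, n − 1, n}. -/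
theorem result (n : ℕ) (hn : 8 ≤ n) (H : Subgroup (Equiv.Perm (Fin n))) (hF : Cfsg.IsQuasisimple ↥(Cfsg.generalizedFittingSubgroup ↥H)) (hS : ∃ P : Sylow 2 ↥(alternatingGroup (Fin n)), ((P : Subgroup ↥(alternatingGroup (Fin n))).map (alternatingGroup (Fin n)).subtype) ≤ H) : ∃ m : ℕ, (m = n - 3 ∨ m = n - 2 ∨ m = n - 1 ∨ m = n) ∧ Nonempty (↥(Cfsg.generalizedFittingSubgroup ↥H) ≃* ↥(alternatingGroup (Fin m))) := by
  exact Cfsg.Agent.Lib.Helper82.Alt2.s2928_of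
    Cfsg.Agent.Lib.Helper61.Alt3.lemF
    Cfsg.Agent.Lib.Helper85.Alt3.lemAIso
    Cfsg.Agent.Lib.Helper48.Alt2.pkgSyl
    Cfsg.Agent.Lib.Helper62.Alt2.pkgOdd
    Cfsg.Agent.Lib.Helper24.Alt2.pkgAlt3
    Cfsg.Agent.Lib.Helper24.Alt2.pkgMove
    (Cfsg.Agent.Lib.Helper48.Alt2.pkgConn_of Cfsg.Agent.Lib.Helper24.Alt2.pkgMove)
    Cfsg.Agent.Lib.Helper25.Alt2.pkgDelta
    (Cfsg.Agent.Lib.Helper82.Alt2.pkgPair_of Cfsg.Agent.Lib.Helper24.Alt2.pkgMove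
      Cfsg.Agent.Lib.Helper25.Alt2.pkgDelta)
    Cfsg.Agent.Lib.Helper25.Alt2.pkgFano7
    Cfsg.Agent.Lib.Helper62.Alt2.pkgFano8
    Cfsg.Agent.Lib.Helper25.Alt2.pkgFanoAll
    Cfsg.Agent.Lib.Helper61.Alt2.pkgAff n hn H hF hS

end Cfsg.Agent.S2928
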