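import Cfsg.Statements.S2929
import Mathlib
import Cfsg.Agent.Lib.Helper38.Alt3.Main
import Cfsg.Agent.Lib.Helper38.Alt3.LemQ
import Cfsg.Agent.Lib.Helper38.Alt3.LemP
import Cfsg.Agent.Lib.Helper24.Alt3.LemJ
import Cfsg.Agent.Lib.Helper24.Alt3.LemS
import Cfsg.Agent.Lib.Helper85.Alt3.LemAIso
import Cfsg.Agent.Lib.Helper85.Alt3.LemO
import Cfsg.Agent.Lib.Helper61.Alt3.LemF
import Cfsg.Agent.Lib.Helper61.Alt3.LemASimple
import Cfsg.Agent.Lib.Helper61.Alt3.LemASolv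

set_option autoImplicit false
open Cfsg

namespace Cfsg.Agent.S2929

/-- Let n ≥ 5 and let H be a subgroup of the symmetric group of degree n whose generalized Fitting subgroup F*(H) is quasisimple. If H contains a Sylow 3-subgroup of the symmetric group, then F*(H) is isomorphic to an alternating group of degree m for some m ∈ {n − 2, n − 1, n}. -/
theorem result (n : ℕ) (hn : 5 ≤ n) (H : Subgroup (Equiv.Perm (Fin n))) (hF : Cfsg.IsQuasisimple ↥(Cfsg.generalizedFittingSubgroup ↥H)) (hS : ∃ P : Sylow 3 (Equiv.Perm (Fin n)), (P : Subgroup (Equiv.Perm (Fin n))) ≤ H) : ∃ m : ℕ, (m = n - 2 ∨ m = n - 1 ∨ m = n) ∧ Nonempty (↥(Cfsg.generalizedFittingSubgroup ↥H) ≃* ↥(alternatingGroup (Fin m))) := by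
  exact Cfsg.Agent.Lib.Helper38.Alt3.s2929_of
    Cfsg.Agent.Lib.Helper61.Alt3.lemF
    Cfsg.Agent.Lib.Helper38.Alt3.lemQ
    Cfsg.Agent.Lib.Helper38.Alt3.lemP
    (Cfsg.Agent.Lib.Helper85.Alt3.lemO Cfsg.Agent.Lib.Helper24.Alt3.lemJ)
    Cfsg.Agent.Lib.Helper85.Alt3.lemAIso
    (Cfsg.Agent.Lib.Helper61.Alt3.lemASimple Cfsg.Agent.Lib.Helper85.Alt3.lemAIso)
    (Cfsg.Agent.Lib.Helper61.Alt3.lemASolv Cfsg.Agent.Lib.Helper85.Alt3.lemAIso)
    Cfsg.Agent.Lib.Helper24.Alt3.lemS n hn H hF hS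

end Cfsg.Agent.S2929
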