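import Cfsg.Statements.S2930
import Cfsg.Agent.Lib.Helper38.Pmin3.Main
import Cfsg.Agent.Lib.Helper38.Pmin3.Card
import Cfsg.Agent.Lib.Helper38.Pmin3.Aut
import Cfsg.Agent.Lib.Helper38.Pmin3.Brk
import Cfsg.Agent.Lib.Helper38.Pmin3.R1
import Cfsg.Agent.Lib.Helper38.Pmin3.R2
import Cfsg.Agent.Lib.Helper1.Pmin3.RS3
import Cfsg.Agent.Lib.Helper1.Pmin3.Swap
import Cfsg.Agent.Lib.Helper1.Pmin3.R3
import Cfsg.Agent.Lib.Helper27.Pmin3.Prim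
import Cfsg.Agent.Lib.Helper27.Pmin3.B3a
import Cfsg.Agent.Lib.Helper27.Pmin3.B3
import Cfsg.Agent.Lib.Helper22.Pmin3.C0
import Cfsg.Agent.Lib.Helper22.Pmin3.Transport
import Cfsg.Agent.Lib.Helper22.Pmin3.F1
import Cfsg.Agent.Lib.Helper22.Pmin3.F2
import Cfsg.Agent.Lib.Helper61.Pmin3.Top
import Cfsg.Agent.Lib.Helper61.Pmin3.Aut6

set_option autoImplicit false
open Cfsg

namespace Cfsg.Agent.S2930

/-- Let X be a finite 3-minimal group (a Sylow 3-subgroup is not normal and lies in a unique maximal subgroup) whose generalized Fitting subgroup is isomorphic to an alternating group of degree n ≥ 5. Then X = F*(X), and n = 6, n = 9, or n = 3ᵃ + 1 for some a ≥ 2. -/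
theorem result {X : Type*} [Group X] [Finite X] (hX : Cfsg.IsPMinimal 3 X) (n : ℕ) (hn : 5 ≤ n) (hF : Nonempty (↥(Cfsg.generalizedFittingSubgroup X) ≃* ↥(alternatingGroup (Fin n)))) : Cfsg.generalizedFittingSubgroup X = ⊤ ∧ (n = 6 ∨ n = 9 ∨ ∃ a : ℕ, 2 ≤ a ∧ n = 3 ^ a + 1) := by
  exact Cfsg.Agent.Lib.Helper38.Pmin3.s2930_of
    Cfsg.Agent.Lib.Helper38.Pmin3.lemCard
    Cfsg.Agent.Lib.Helper1.Pmin3.lemR3
    Cfsg.Agent.Lib.Helper1.Pmin3.lemRS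
    Cfsg.Agent.Lib.Helper1.Pmin3.lemRS3
    Cfsg.Agent.Lib.Helper1.Pmin3.lemSwap
    Cfsg.Agent.Lib.Helper38.Pmin3.lemBrk
    Cfsg.Agent.Lib.Helper27.Pmin3.lemPrim
    Cfsg.Agent.Lib.Helper27.Pmin3.lemB3a
    Cfsg.Agent.Lib.Helper27.Pmin3.lemB3
    Cfsg.Agent.Lib.Helper61.Pmin3.lemTop
    Cfsg.Agent.Lib.Helper38.Pmin3.lemR1
    Cfsg.Agent.Lib.Helper38.Pmin3.lemR2
    Cfsg.Agent.Lib.Helper22.Pmin3.lemC0
    Cfsg.Agent.Lib.Helper22.Pmin3.lemTransport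
    Cfsg.Agent.Lib.Helper61.Pmin3.lemAut6
    Cfsg.Agent.Lib.Helper38.Pmin3.lemAut
    Cfsg.Agent.Lib.Helper22.Pmin3.lemF1
    Cfsg.Agent.Lib.Helper22.Pmin3.lemF2
    hX n hn hF

end Cfsg.Agent.S2930
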