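import Cfsg.Statements.S2939
import Mathlib
import Cfsg.Agent.Lib.Helper49.SylCtl
import Cfsg.Agent.Lib.Helper49.SylCtl2

set_option autoImplicit false
open Cfsg

namespace Cfsg.Agent.S2939

open Cfsg.Agent.Lib.Helper49

/-- Let p be a prime dividing the order of the finite group G and 𝓕 a family of subgroups of G closed under conjugation, with conjugates taken as X^g = g⁻¹Xg. Then 𝓕 controls Sylow p-intersections in G (any two distinct Sylow p-subgroups S and T with S ∩ T ≠ 1 are joined by a chain S = S₀, S₁, …, Sₙ = T of Sylow p-subgroups where, for each i, some member Xᵢ of 𝓕 meets both S_{i-1} and Sᵢ in Sylow p-subgroups of Xᵢ, satisfies S ∩ T ≤ Sᵢ ∩ Xᵢ, and contains an element xᵢ with Sᵢ^{xᵢ} = S_{i-1}) if and only if 𝓕 strongly controls p-fusion in G (whenever A is a subset of a Sylow p-subgroup S, A contains an element other than 1, and A^g ⊆ S, the element g factorises as g = y₁⋯yₙy with y ∈ N_G(S) and each yᵢ in a member Yᵢ of 𝓕 that meets S in a Sylow p-subgroup of Yᵢ, with A^{y₁⋯yᵢ} ⊆ S ∩ Yᵢ for each i). -/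
theorem result {G : Type*} [Group G] [Finite G] {p : ℕ} [Fact p.Prime] (hdiv : p ∣ Nat.card G) (𝓕 : Set (Subgroup G)) (h𝓕 : Cfsg.IsNormalSet 𝓕) : Cfsg.ControlsSylowIntersections p 𝓕 ↔ Cfsg.FamilyStronglyControlsFusion p 𝓕 := by
  classical
  constructor
  · intro hc S A g hAS hA1 hAg
    set T : Sylow p G := g • S with hT
    have hTcoe : (T : Subgroup G) = Cfsg.subgroupConjRight g⁻¹ (S : Subgroup G) := coe_smul_sylow g S
    by_cases hST : S = T
    · refine ⟨0, Fin.elim0, Fin.elim0, g, ?_, fun i => i.elim0, by simp, fun i => i.elim0⟩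
      exact Sylow.smul_eq_iff_mem_normalizer.mp hST.symm
    · obtain ⟨a, haA, ha1⟩ := hA1
      have hAT : ∀ a ∈ A, a ∈ (T : Subgroup G) := by
        intro a ha
        rw [hTcoe, mem_subgroupConjRight, inv_inv]
        exact hAg ⟨a, ha, rfl⟩
      have hint : (S : Subgroup G) ⊓ (T : Subgroup G) ≠ ⊥ := by
        intro h
        have : a ∈ (S : Subgroup G) ⊓ (T : Subgroup G) := Subgroup.mem_inf.mpr ⟨hAS haA, hAT a haA⟩
        rw [h, Subgroup.mem_bot] at this
        exact ha1 this
      obtain ⟨n, c, X, x, hc0, hcn, hall⟩ := hc S T hST hint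
      let K : ℕ → G := fun j => Nat.rec 1 (fun j Kj => (if h : j < n then x ⟨j, h⟩ else 1) * Kj) j
      have hK0 : K 0 = 1 := rfl
      have hKs : ∀ i : Fin n, K (i.val + 1) = x i * K i.val := by
        intro i
        show (if h : i.val < n then x ⟨i.val, h⟩ else 1) * K i.val = _
        rw [dif_pos i.2]
      have hcK : ∀ i : Fin (n + 1),
          (c i : Subgroup G) = Cfsg.subgroupConjRight (K i.val)⁻¹ (S : Subgroup G) := by
        intro i
        induction i using Fin.induction with
        | zero =>
          rw [hc0]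
          show _ = Cfsg.subgroupConjRight (K 0)⁻¹ _
          rw [hK0, inv_one, subgroupConjRight_one]
        | succ i ih =>
          obtain ⟨-, -, -, hconj, -⟩ := hall i
          have h1 : (c i.succ : Subgroup G) =
              Cfsg.subgroupConjRight (x i)⁻¹ (c i.castSucc : Subgroup G) := by
            rw [← hconj, subgroupConjRight_inv_cancel]
          rw [h1, ih, subgroupConjRight_mul]
          show Cfsg.subgroupConjRight ((K i.val)⁻¹ * (x i)⁻¹) _ =
            Cfsg.subgroupConjRight (K (i.val + 1))⁻¹ _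
          rw [hKs, mul_inv_rev]
      let y : Fin n → G := fun i => (K i.val)⁻¹ * K (i.val + 1)
      have hprod := prod_take_ofFn_tele K hK0 y (fun i => rfl)
      refine ⟨n, fun i => Cfsg.subgroupConjRight (K i.val) (X i), y, (K n)⁻¹ * g, ?_, ?_, ?_, ?_⟩
      · apply mem_normalizer_of_conjRight_eq
        rw [← subgroupConjRight_mul]
        have h1 := hcK (Fin.last n)
        rw [hcn, hTcoe] at h1
        have h2 : Cfsg.subgroupConjRight (K n)⁻¹ (S : Subgroup G) =
            Cfsg.subgroupConjRight g⁻¹ (S : Subgroup G) := h1.symm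
        rw [h2, subgroupConjRight_cancel_inv]
      · intro i
        obtain ⟨hX1, -, hx, -, -⟩ := hall i
        constructor
        · have h1 := sylowMembers_conj h𝓕 (K i.val) hX1
          rw [hcK i.castSucc] at h1
          have h2 : Cfsg.subgroupConjRight (K i.val)
              (Cfsg.subgroupConjRight (K i.val)⁻¹ (S : Subgroup G)) = (S : Subgroup G) :=
            subgroupConjRight_cancel_inv _ _
          exact h2 ▸ h1
        · show (K i.val)⁻¹ * K (i.val + 1) ∈ Cfsg.subgroupConjRight (K i.val) (X i)
          rw [mem_subgroupConjRight, hKs]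
          have h1 : K i.val * ((K i.val)⁻¹ * (x i * K i.val)) * (K i.val)⁻¹ = x i := by group
          rw [h1]
          exact hx
      · have h1 : (List.ofFn y).prod = K n := by
          have := hprod n le_rfl
          rwa [List.take_of_length_le (by simp)] at this
        rw [h1]
        group
      · intro i
        obtain ⟨-, -, hx, -, hle⟩ := hall i
        rw [hprod (i.val + 1) (by omega)]
        rintro b ⟨a, ha, rfl⟩
        have haST : a ∈ (S : Subgroup G) ⊓ (T : Subgroup G) :=
          Subgroup.mem_inf.mpr ⟨hAS ha, hAT a ha⟩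
        obtain ⟨h3, h4⟩ := Subgroup.mem_inf.mp (hle haST)
        rw [hcK i.succ, mem_subgroupConjRight] at h3
        constructor
        · have h5 : (K (i.val + 1))⁻¹ * a * K (i.val + 1) =
              (K (i.val + 1))⁻¹ * a * (K (i.val + 1))⁻¹⁻¹ := by rw [inv_inv]
          show (K (i.val + 1))⁻¹ * a * K (i.val + 1) ∈ (S : Subgroup G)
          rw [h5]
          exact h3
        · show (K (i.val + 1))⁻¹ * a * K (i.val + 1) ∈ Cfsg.subgroupConjRight (K i.val) (X i)
          rw [mem_subgroupConjRight, hKs]
          have h5 : K i.val * ((x i * K i.val)⁻¹ * a * (x i * K i.val)) * (K i.val)⁻¹ =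
              (x i)⁻¹ * a * x i := by group
          rw [h5]
          exact (X i).mul_mem ((X i).mul_mem ((X i).inv_mem hx) h4) hx
  · intro hf S T hST hint
    obtain ⟨g, hg⟩ := MulAction.exists_smul_eq G S T
    have hTcoe : (T : Subgroup G) = Cfsg.subgroupConjRight g⁻¹ (S : Subgroup G) := by
      rw [← hg]
      exact coe_smul_sylow g S
    set A : Set G := (((S : Subgroup G) ⊓ (T : Subgroup G) : Subgroup G) : Set G) with hA
    have hAS : A ⊆ (S : Set G) := fun a ha => (Subgroup.mem_inf.mp ha).1
    have hA1 : ∃ a ∈ A, a ≠ 1 := by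
      by_contra hcon
      apply hint
      rw [eq_bot_iff]
      intro a ha
      by_contra ha1
      exact hcon ⟨a, ha, fun h => ha1 (by rw [Subgroup.mem_bot]; exact h)⟩
    have hAg : Cfsg.conjRight g A ⊆ (S : Set G) := by
      rintro b ⟨a, ha, rfl⟩
      have h1 : a ∈ (T : Subgroup G) := (Subgroup.mem_inf.mp ha).2
      rw [hTcoe, mem_subgroupConjRight, inv_inv] at h1
      exact h1
    obtain ⟨n, Y, y, y₀, hy₀, hY, hgy, hAY⟩ := hf S A g hAS hA1 hAg
    let K : ℕ → G := fun j => ((List.ofFn y).take j).prod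
    have hK0 : K 0 = 1 := by simp [K]
    have hKs : ∀ i : Fin n, K (i.val + 1) = K i.val * y i := by
      intro i
      show ((List.ofFn y).take (i.val + 1)).prod = ((List.ofFn y).take i.val).prod * y i
      rw [List.prod_take_succ _ _ (by simp), List.getElem_ofFn]
    have hKn : K n = (List.ofFn y).prod := by
      show ((List.ofFn y).take n).prod = _
      rw [List.take_of_length_le (by simp)]
    refine ⟨n, fun i => K i.val • S, fun i => Cfsg.subgroupConjRight (K (i.val + 1))⁻¹ (Y i),
      fun i => K (i.val + 1) * (K i.val)⁻¹, ?_, ?_, ?_⟩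
    · show K 0 • S = S
      rw [hK0, one_smul]
    · show K n • S = T
      rw [hKn, ← hg]
      have h1 : (List.ofFn y).prod = g * y₀⁻¹ := by rw [hgy]; group
      rw [h1, mul_smul]
      congr 1
      exact Sylow.smul_eq_iff_mem_normalizer.mpr (Subgroup.inv_mem _ hy₀)
    · intro i
      obtain ⟨hYi, hyi⟩ := hY i
      have hc1 : ((K i.val • S : Sylow p G) : Subgroup G) =
          Cfsg.subgroupConjRight (K i.val)⁻¹ (S : Subgroup G) := coe_smul_sylow _ _
      have hc2 : ((K (i.val + 1) • S : Sylow p G) : Subgroup G) =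
          Cfsg.subgroupConjRight (K (i.val + 1))⁻¹ (S : Subgroup G) := coe_smul_sylow _ _
      refine ⟨?_, ?_, ?_, ?_, ?_⟩
      · show Cfsg.subgroupConjRight (K (i.val + 1))⁻¹ (Y i) ∈
          Cfsg.sylowMembers p 𝓕 ((K i.val • S : Sylow p G) : Subgroup G)
        rw [hc1]
        have h1 : Cfsg.subgroupConjRight (K (i.val + 1))⁻¹ (Y i) =
            Cfsg.subgroupConjRight (K i.val)⁻¹ (Y i) := by
          rw [hKs, mul_inv_rev, ← subgroupConjRight_mul,
            subgroupConjRight_of_mem ((Y i).inv_mem hyi)]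
        rw [h1]
        exact sylowMembers_conj h𝓕 _ hYi
      · show Cfsg.subgroupConjRight (K (i.val + 1))⁻¹ (Y i) ∈
          Cfsg.sylowMembers p 𝓕 ((K (i.val + 1) • S : Sylow p G) : Subgroup G)
        rw [hc2]
        exact sylowMembers_conj h𝓕 _ hYi
      · show K (i.val + 1) * (K i.val)⁻¹ ∈ Cfsg.subgroupConjRight (K (i.val + 1))⁻¹ (Y i)
        rw [mem_subgroupConjRight, hKs]
        have h1 : (K i.val * y i)⁻¹ * (K i.val * y i * (K i.val)⁻¹) * (K i.val * y i)⁻¹⁻¹ = y i := by
          group
        rw [h1]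
        exact hyi
      · show Cfsg.subgroupConjRight (K (i.val + 1) * (K i.val)⁻¹)
            ((K (i.val + 1) • S : Sylow p G) : Subgroup G) = ((K i.val • S : Sylow p G) : Subgroup G)
        rw [hc1, hc2, subgroupConjRight_mul]
        congr 1
        group
      · show (S : Subgroup G) ⊓ (T : Subgroup G) ≤
          ((K (i.val + 1) • S : Sylow p G) : Subgroup G) ⊓
            Cfsg.subgroupConjRight (K (i.val + 1))⁻¹ (Y i)
        intro a ha
        have h1 := hAY i ⟨a, ha, rfl⟩
        rw [hc2]
        refine Subgroup.mem_inf.mpr ⟨?_, ?_⟩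
        · rw [mem_subgroupConjRight, inv_inv]
          exact h1.1
        · rw [mem_subgroupConjRight, inv_inv]
          exact h1.2

end Cfsg.Agent.S2939
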