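import Mathlib
import Cfsg.Statements.S2940

set_option autoImplicit false
open Cfsg

namespace Cfsg.Agent.S2940

/-- Let S be a Sylow p-subgroup of the finite group G and G₁, G₂ subgroups containing S with G = G₁G₂. Then for every g ∈ G there is a Sylow p-subgroup U of G with S ∩ S^g ≤ U ≤ G₁ ∩ G₂^g (conjugates taken as X^g = g⁻¹Xg). -/
theorem result {G : Type*} [Group G] [Finite G] {p : ℕ} [Fact p.Prime] (S : Sylow p G) (G₁ G₂ : Subgroup G) (h1 : (S : Subgroup G) ≤ G₁) (h2 : (S : Subgroup G) ≤ G₂) (hfact : ∀ g : G, ∃ g₁ ∈ G₁, ∃ g₂ ∈ G₂, g = g₁ * g₂) (g : G) : ∃ U : Sylow p G, (S : Subgroup G) ⊓ Cfsg.subgroupConjRight g (S : Subgroup G) ≤ (U : Subgroup G) ∧ (U : Subgroup G) ≤ G₁ ⊓ Cfsg.subgroupConjRight g G₂ := by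
  classical
  obtain ⟨g₁, hg₁, g₂, hg₂, hg⟩ := hfact g⁻¹
  -- g = a * b with a ∈ G₂, b ∈ G₁
  have hgab : g = g₂⁻¹ * g₁⁻¹ := by
    rw [← mul_inv_rev, ← hg, inv_inv]
  set D : Subgroup G := G₁ ⊓ Cfsg.subgroupConjRight g G₂ with hD
  -- the conjugate b⁻¹ S b lies in D
  have hS'D : (S : Subgroup G).map (MulAut.conj g₁).toMonoidHom ≤ D := by
    rintro y ⟨s, hs, rfl⟩
    refine ⟨?_, ?_⟩
    · simpa using G₁.mul_mem (G₁.mul_mem hg₁ (h1 hs)) (G₁.inv_mem hg₁)
    · refine ⟨g₂⁻¹ * s * g₂, G₂.mul_mem (G₂.mul_mem (G₂.inv_mem hg₂) (h2 hs)) hg₂, ?_⟩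
      simp only [MulEquiv.coe_toMonoidHom, MulAut.conj_apply, inv_inv]
      rw [hgab]
      group
  have hDidx : ¬ p ∣ D.index := by
    intro hdvd
    have h3 : D.index ∣ ((S : Subgroup G).map (MulAut.conj g₁).toMonoidHom).index :=
      Subgroup.index_dvd_of_le hS'D
    have h4 : ((S : Subgroup G).map (MulAut.conj g₁).toMonoidHom).index = (S : Subgroup G).index :=
      Subgroup.index_map_equiv (S : Subgroup G) (MulAut.conj g₁)
    rw [h4] at h3
    exact S.not_dvd_index (dvd_trans hdvd h3)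
  -- the p-subgroup S ⊓ S^g of D
  have hQD : (S : Subgroup G) ⊓ Cfsg.subgroupConjRight g (S : Subgroup G) ≤ D := by
    refine inf_le_inf h1 ?_
    exact Subgroup.map_mono h2
  have hQp : IsPGroup p (((S : Subgroup G) ⊓ Cfsg.subgroupConjRight g (S : Subgroup G)).subgroupOf D) := by
    have : IsPGroup p ((S : Subgroup G) ⊓ Cfsg.subgroupConjRight g (S : Subgroup G) : Subgroup G) :=
      S.isPGroup'.to_le inf_le_left
    exact this.comap_of_injective D.subtype D.subtype_injective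
  obtain ⟨P, hP⟩ := hQp.exists_le_sylow
  have hU₀p : IsPGroup p ((P : Subgroup D).map D.subtype) := P.isPGroup'.map D.subtype
  have hU₀idx : ¬ p ∣ ((P : Subgroup D).map D.subtype).index := by
    rw [Subgroup.index_map_subtype]
    intro hdvd
    rcases (Nat.Prime.dvd_mul Fact.out).mp hdvd with h | h
    · exact P.not_dvd_index h
    · exact hDidx h
  refine ⟨hU₀p.toSylow hU₀idx, ?_, ?_⟩
  · intro x hx
    show x ∈ (P : Subgroup D).map D.subtype
    exact ⟨⟨x, hQD hx⟩, hP (by simpa [Subgroup.mem_subgroupOf] using hx), rfl⟩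
  · intro x hx
    have hx' : x ∈ (P : Subgroup D).map D.subtype := hx
    obtain ⟨y, -, rfl⟩ := hx'
    exact y.2

end Cfsg.Agent.S2940
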