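import Cfsg.Statements.S2955
import Mathlib
import Cfsg.Agent.Lib.Helper49.SylCtl

set_option autoImplicit false
open Cfsg

namespace Cfsg.Agent.S2955

open Cfsg.Agent.Lib.Helper49

/-- Let p be a prime dividing the order of the finite group G and 𝓕 a conjugation-closed family of subgroups that controls Sylow p-intersections in G. Suppose the Sylow p-subgroups of G are chain-connected: any two of them are joined by a chain of Sylow p-subgroups, consecutive ones distinct with nontrivial intersection, all containing the intersection of the two ends (equivalently, the graph on the Sylow p-subgroups whose edges are the distinct pairs meeting nontrivially is connected). Then for every Sylow p-subgroup S, G is generated by N_G(S) together with the members of 𝓕 that meet S in a Sylow p-subgroup of themselves. -/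
theorem result {G : Type*} [Group G] [Finite G] (p : ℕ) [Fact p.Prime] (hdiv : p ∣ Nat.card G)
    (𝓕 : Set (Subgroup G)) (h𝓕 : Cfsg.IsNormalSet 𝓕) (hc : Cfsg.ControlsSylowIntersections p 𝓕)
    (hconn : Cfsg.IsSylowChainConnected p G) (S : Sylow p G) :
    (⨆ X ∈ Cfsg.sylowMembers p 𝓕 (S : Subgroup G), X) ⊔ Subgroup.normalizer ((S : Subgroup G) : Set G) = ⊤ := by
  classical
  set H : Subgroup G := (⨆ X ∈ Cfsg.sylowMembers p 𝓕 (S : Subgroup G), X) ⊔
    Subgroup.normalizer ((S : Subgroup G) : Set G) with hH
  have hXH : ∀ X ∈ Cfsg.sylowMembers p 𝓕 (S : Subgroup G), X ≤ H := by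
    intro X hX
    exact le_sup_of_le_left (le_biSup (fun X => X) hX)
  have hNH : Subgroup.normalizer ((S : Subgroup G) : Set G) ≤ H := le_sup_right
  -- the predicate: T is an H-conjugate of S
  let Q : Sylow p G → Prop := fun T => ∃ h ∈ H, Cfsg.subgroupConjRight h (S : Subgroup G) = (T : Subgroup G)
  -- one step
  have hstep : ∀ (T T' : Sylow p G) (X : Subgroup G) (x : G), Q T →
      X ∈ Cfsg.sylowMembers p 𝓕 (T : Subgroup G) → x ∈ X →
      Cfsg.subgroupConjRight x (T' : Subgroup G) = (T : Subgroup G) → Q T' := by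
    rintro T T' X x ⟨h, hh, hT⟩ hX hx hxT
    have h1 := sylowMembers_conj h𝓕 h⁻¹ hX
    rw [← hT, subgroupConjRight_inv_cancel] at h1
    have h2 : h * x * h⁻¹ ∈ Cfsg.subgroupConjRight h⁻¹ X := by
      rw [mem_subgroupConjRight]
      have : h⁻¹ * (h * x * h⁻¹) * h⁻¹⁻¹ = x := by group
      rw [this]
      exact hx
    have h3 : h * x * h⁻¹ ∈ H := hXH _ h1 h2
    have h4 : x ∈ H := by
      have := H.mul_mem (H.mul_mem (H.inv_mem hh) h3) hh
      have h5 : h⁻¹ * (h * x * h⁻¹) * h = x := by group
      rwa [h5] at this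
    refine ⟨h * x⁻¹, H.mul_mem hh (H.inv_mem h4), ?_⟩
    rw [← subgroupConjRight_mul, hT, ← hxT, subgroupConjRight_inv_cancel]
  -- adjacent Sylow subgroups
  have hadj : ∀ T T' : Sylow p G, Q T → T ≠ T' → (T : Subgroup G) ⊓ (T' : Subgroup G) ≠ ⊥ → Q T' := by
    intro T T' hQT hne hint
    obtain ⟨n, c, X, x, hc0, hcn, hall⟩ := hc T T' hne hint
    have : ∀ i : Fin (n + 1), Q (c i) := by
      intro i
      induction i using Fin.induction with
      | zero => rw [hc0]; exact hQT
      | succ i ih =>
        obtain ⟨hX1, -, hx, hconj, -⟩ := hall i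
        exact hstep _ _ (X i) (x i) ih hX1 hx hconj
    rw [← hcn]
    exact this _
  -- all Sylow subgroups
  have hallQ : ∀ T : Sylow p G, Q T := by
    intro T
    obtain ⟨n, c, hc0, hcn, -, hall⟩ := hconn S T
    have : ∀ i : Fin (n + 1), Q (c i) := by
      intro i
      induction i using Fin.induction with
      | zero =>
        rw [hc0]
        exact ⟨1, H.one_mem, subgroupConjRight_one _⟩
      | succ i ih =>
        obtain ⟨hne, hint⟩ := hall i
        exact hadj _ _ ih hne hint
    rw [← hcn]
    exact this _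
  rw [eq_top_iff]
  intro g _
  obtain ⟨h, hh, hhS⟩ := hallQ (g⁻¹ • S)
  rw [coe_inv_smul_sylow] at hhS
  have hk : g * h⁻¹ ∈ Subgroup.normalizer ((S : Subgroup G) : Set G) := by
    rw [Subgroup.mem_normalizer_iff]
    intro y
    have h1 : Cfsg.subgroupConjRight (g * h⁻¹) (S : Subgroup G) = (S : Subgroup G) := by
      rw [← subgroupConjRight_mul, ← hhS, subgroupConjRight_inv_cancel]
    rw [← mem_subgroupConjRight, h1]
  have := H.mul_mem (hNH hk) hh
  simpa using this

end Cfsg.Agent.S2955
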