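import Cfsg.Statements.S2956
import Mathlib
import Cfsg.Agent.Lib.Helper49.SylCtl
import Cfsg.Agent.Lib.Helper49.SylCtl2
import Cfsg.Agent.Lib.Helper49.FunReg
import Cfsg.Agent.Lib.Helper49.FunReg2
import Cfsg.Agent.Lib.Helper49.FunReg3

set_option autoImplicit false
open Cfsg

namespace Cfsg.Agent.S2956

/-- Let p be a prime dividing the order of the finite group G, and f an assignment to every p-subgroup P of a set f(P) of subgroups of P, each normalized by N_G(P), compatible with conjugation, such that for P ≠ 1 the members of f(P) are nontrivial. Let 𝓕 be the family of the normalizers N_G(F) of the members F of f(S) over the Sylow p-subgroups S of G, and 𝓕' the family of the maximal p-local subgroups M of G that are singular for f (the corresponding family of normalizers inside M does not control Sylow p-intersections in M). Then 𝓕 ∪ 𝓕' controls Sylow p-intersections in G. -/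
theorem result {G : Type*} [Group G] [Finite G] (p : ℕ) [Fact p.Prime] (hdiv : p ∣ Nat.card G)
    (f : Subgroup G → Set (Subgroup G)) (hf : Cfsg.IsNormalizerFunctor p f)
    (hf1 : ∀ P : Subgroup G, IsPGroup p ↥P → P ≠ ⊥ → ∀ F ∈ f P, F ≠ ⊥)
    (𝓕 𝓕' : Set (Subgroup G)) (h𝓕 : 𝓕 = Cfsg.functorFamily p f ⊤)
    (h𝓕' : 𝓕' = {M | Cfsg.IsMaximalPLocal p M ∧ ¬ Cfsg.IsFunctorRegular p f M}) :
    Cfsg.ControlsSylowIntersections p (𝓕 ∪ 𝓕') := by
  classical
  subst h𝓕 h𝓕'
  apply Cfsg.Agent.Lib.Helper49.controls_of_rtg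
  have main : ∀ k : ℕ, ∀ S T : Sylow p G,
      Nat.card G - Nat.card ↥((S : Subgroup G) ⊓ (T : Subgroup G)) = k →
      (S : Subgroup G) ⊓ (T : Subgroup G) ≠ ⊥ →
      Relation.ReflTransGen (Cfsg.Agent.Lib.Helper49.SLink p (Cfsg.functorFamily p f ⊤ ∪
        {M | Cfsg.IsMaximalPLocal p M ∧ ¬ Cfsg.IsFunctorRegular p f M})
        ((S : Subgroup G) ⊓ (T : Subgroup G))) S T := by
    intro k
    induction k using Nat.strong_induction_on with
    | _ k ih =>
      intro S T hk hne
      by_cases hST : S = T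
      · rw [hST]
      have IHD : ∀ A B : Sylow p G,
          (S : Subgroup G) ⊓ (T : Subgroup G) ≤ (A : Subgroup G) ⊓ (B : Subgroup G) →
          Nat.card ↥((S : Subgroup G) ⊓ (T : Subgroup G)) <
            Nat.card ↥((A : Subgroup G) ⊓ (B : Subgroup G)) →
          Relation.ReflTransGen (Cfsg.Agent.Lib.Helper49.SLink p (Cfsg.functorFamily p f ⊤ ∪
            {M | Cfsg.IsMaximalPLocal p M ∧ ¬ Cfsg.IsFunctorRegular p f M})
            ((S : Subgroup G) ⊓ (T : Subgroup G))) A B := by
        intro A B hle hlt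
        have h5 : Nat.card ↥((A : Subgroup G) ⊓ (B : Subgroup G)) ≤ Nat.card G :=
          Subgroup.card_le_card_group _
        have hAB : (A : Subgroup G) ⊓ (B : Subgroup G) ≠ ⊥ := by
          intro h0
          exact hne (eq_bot_iff.mpr (h0 ▸ hle))
        have h1 := ih (Nat.card G - Nat.card ↥((A : Subgroup G) ⊓ (B : Subgroup G))) (by omega)
          A B rfl hAB
        exact Relation.ReflTransGen.mono (fun _ _ h => h.mono hle) _ _ h1
      have hDp : IsPGroup p ↥((S : Subgroup G) ⊓ (T : Subgroup G)) := S.isPGroup'.to_le inf_le_left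
      have hDS : (S : Subgroup G) ⊓ (T : Subgroup G) ≠ (S : Subgroup G) := by
        intro h0
        apply hST
        have h3 : (S : Subgroup G) ≤ (T : Subgroup G) := h0 ▸ inf_le_right
        exact Sylow.ext (T.isPGroup'.to_le le_rfl |> fun hT => (S.is_maximal' hT h3).symm)
      have hDT : (S : Subgroup G) ⊓ (T : Subgroup G) ≠ (T : Subgroup G) := by
        intro h0
        apply hST
        have h3 : (T : Subgroup G) ≤ (S : Subgroup G) := h0 ▸ inf_le_left
        exact Sylow.ext (S.isPGroup'.to_le le_rfl |> fun hS => (T.is_maximal' hS h3))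
      have hltS := Cfsg.Agent.Lib.Helper49.card_lt_card_inf_normalizer S.isPGroup' inf_le_left hDS
      have hltT := Cfsg.Agent.Lib.Helper49.card_lt_card_inf_normalizer T.isPGroup' inf_le_right hDT
      obtain ⟨M, hMmax, hNM⟩ := Cfsg.Agent.Lib.Helper49.exists_maximal_plocal_ge (p := p)
        (N := Subgroup.normalizer (((S : Subgroup G) ⊓ (T : Subgroup G) : Subgroup G) : Set G))
        ⟨_, hDp, hne, rfl⟩
      obtain ⟨R, hR1, hR2⟩ := Cfsg.Agent.Lib.Helper49.exists_sylow_inf_card
        (K := (S : Subgroup G) ⊓ Subgroup.normalizer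
          (((S : Subgroup G) ⊓ (T : Subgroup G) : Subgroup G) : Set G))
        (S.isPGroup'.to_le inf_le_left) (inf_le_right.trans hNM)
      obtain ⟨R', hR'1, hR'2⟩ := Cfsg.Agent.Lib.Helper49.exists_sylow_inf_card
        (K := (T : Subgroup G) ⊓ Subgroup.normalizer
          (((S : Subgroup G) ⊓ (T : Subgroup G) : Subgroup G) : Set G))
        (T.isPGroup'.to_le inf_le_left) (inf_le_right.trans hNM)
      have hDNS : (S : Subgroup G) ⊓ (T : Subgroup G) ≤ (S : Subgroup G) ⊓ Subgroup.normalizer
          (((S : Subgroup G) ⊓ (T : Subgroup G) : Subgroup G) : Set G) :=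
        le_inf inf_le_left Subgroup.le_normalizer
      have hDNT : (S : Subgroup G) ⊓ (T : Subgroup G) ≤ (T : Subgroup G) ⊓ Subgroup.normalizer
          (((S : Subgroup G) ⊓ (T : Subgroup G) : Subgroup G) : Set G) :=
        le_inf inf_le_right Subgroup.le_normalizer
      have hle1 : (S : Subgroup G) ⊓ Subgroup.normalizer
          (((S : Subgroup G) ⊓ (T : Subgroup G) : Subgroup G) : Set G) ≤
          (S : Subgroup G) ⊓ (R : Subgroup G) := le_inf inf_le_left hR1
      have hle3 : (T : Subgroup G) ⊓ Subgroup.normalizer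
          (((S : Subgroup G) ⊓ (T : Subgroup G) : Subgroup G) : Set G) ≤
          (R' : Subgroup G) ⊓ (T : Subgroup G) := le_inf hR'1 inf_le_left
      have hle2 : (S : Subgroup G) ⊓ Subgroup.normalizer
          (((S : Subgroup G) ⊓ (T : Subgroup G) : Subgroup G) : Set G) ≤
          (R : Subgroup G) ⊓ M := le_inf hR1 (inf_le_right.trans hNM)
      have hle2' : (T : Subgroup G) ⊓ Subgroup.normalizer
          (((S : Subgroup G) ⊓ (T : Subgroup G) : Subgroup G) : Set G) ≤
          (R' : Subgroup G) ⊓ M := le_inf hR'1 (inf_le_right.trans hNM)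
      have s1 := IHD S R (hDNS.trans hle1) (lt_of_lt_of_le hltS (Subgroup.card_le_of_le hle1))
      have s3 := IHD R' T (hDNT.trans hle3) (lt_of_lt_of_le hltT (Subgroup.card_le_of_le hle3))
      have s2 := Cfsg.Agent.Lib.Helper49.funreg_inner_claim hf hf1 _ hne IHD _ M R R' hMmax rfl
        hR2 hR'2 (hDNS.trans hle2) (hDNT.trans hle2')
        (lt_of_lt_of_le hltS (Subgroup.card_le_of_le hle2))
      exact s1.trans (s2.trans s3)
  intro S T _ hne
  exact main _ S T rfl hne

end Cfsg.Agent.S2956
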