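import Cfsg.Statements.S2957
import Mathlib
import Cfsg.Agent.S2940
import Cfsg.Agent.Lib.Helper49.SylCtl
import Cfsg.Agent.Lib.Helper49.SylCtl2
import Cfsg.Agent.Lib.Helper49.FunReg

set_option autoImplicit false
open Cfsg

namespace Cfsg.Agent.S2957

/-- Let p be a prime dividing the order of the finite group G, f an equivariant assignment of a set of subgroups f(P) of P to every p-subgroup P, each normalized by N_G(P), and S a Sylow p-subgroup. If G = G₁G₂ for subgroups G₁, G₂ both containing S and both regular for f (in each Gᵢ, the family of normalizers in Gᵢ of the members of f(P), P a Sylow p-subgroup of Gᵢ, controls Sylow p-intersections), then G itself is regular for f. -/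
theorem result {G : Type*} [Group G] [Finite G] (p : ℕ) [Fact p.Prime] (hdiv : p ∣ Nat.card G)
    (f : Subgroup G → Set (Subgroup G)) (hf : Cfsg.IsNormalizerFunctor p f) (S : Sylow p G)
    (G₁ G₂ : Subgroup G) (h₁ : (S : Subgroup G) ≤ G₁) (h₂ : (S : Subgroup G) ≤ G₂)
    (hprod : ∀ g : G, ∃ g₁ ∈ G₁, ∃ g₂ ∈ G₂, g = g₁ * g₂)
    (hr₁ : Cfsg.IsFunctorRegular p f G₁) (hr₂ : Cfsg.IsFunctorRegular p f G₂) :
    Cfsg.IsFunctorRegular p f ⊤ := by
  classical
  have hidx : ∀ M : Subgroup G, (S : Subgroup G) ≤ M → ¬ p ∣ M.index := fun M hSM hdvd =>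
    S.not_dvd_index (dvd_trans hdvd (Subgroup.index_dvd_of_le hSM))
  have hM1 := hidx G₁ h₁
  have hM2 := hidx G₂ h₂
  have htop : ¬ p ∣ (⊤ : Subgroup G).index := hidx ⊤ le_top
  apply Cfsg.Agent.Lib.Helper49.regular_of_chain htop
  -- the claim at the Sylow subgroup `S`
  have claim : ∀ T : Sylow p G, S ≠ T → (S : Subgroup G) ⊓ (T : Subgroup G) ≠ ⊥ →
      Relation.ReflTransGen
        (Cfsg.Agent.Lib.Helper49.FLink p f ⊤ ((S : Subgroup G) ⊓ (T : Subgroup G))) S T := by
    intro T hST hne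
    obtain ⟨g, hg⟩ := MulAction.exists_smul_eq G T S
    have hT : T = g⁻¹ • S := by rw [← hg, inv_smul_smul]
    have hTcoe : (T : Subgroup G) = Cfsg.subgroupConjRight g (S : Subgroup G) := by
      rw [hT]; exact Cfsg.Agent.Lib.Helper49.coe_inv_smul_sylow g S
    obtain ⟨U, hU1, hU2⟩ := Cfsg.Agent.S2940.result S G₁ G₂ h₁ h₂ hprod g
    rw [← hTcoe] at hU1
    have part1 : Relation.ReflTransGen
        (Cfsg.Agent.Lib.Helper49.FLink p f ⊤ ((S : Subgroup G) ⊓ (T : Subgroup G))) S U := by
      by_cases hSU : S = U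
      · rw [← hSU]
      · have hne1 : (S : Subgroup G) ⊓ (U : Subgroup G) ≠ ⊥ := fun h0 =>
          hne (eq_bot_iff.mpr (h0 ▸ le_inf inf_le_left hU1))
        have h3 := Cfsg.Agent.Lib.Helper49.chain_of_regular hf hM1 hr₁ S U h₁
          (hU2.trans inf_le_left) hSU hne1
        exact Relation.ReflTransGen.mono
          (fun A B hAB => (hAB.mono (le_inf inf_le_left hU1)).top) _ _ h3
    have part2 : Relation.ReflTransGen
        (Cfsg.Agent.Lib.Helper49.FLink p f ⊤ ((S : Subgroup G) ⊓ (T : Subgroup G))) U T := by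
      by_cases hUT : U = T
      · rw [hUT]
      · have hU₀coe : ((g • U : Sylow p G) : Subgroup G) =
            Cfsg.subgroupConjRight g⁻¹ (U : Subgroup G) :=
          Cfsg.Agent.Lib.Helper49.coe_smul_sylow g U
        have hU₀G₂ : ((g • U : Sylow p G) : Subgroup G) ≤ G₂ := by
          rw [hU₀coe]
          have h4 := Cfsg.Agent.Lib.Helper49.subgroupConjRight_mono g⁻¹ (hU2.trans inf_le_right)
          rwa [Cfsg.Agent.Lib.Helper49.subgroupConjRight_inv_cancel] at h4
        have hU₀S : g • U ≠ S := by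
          intro h0
          apply hUT
          rw [hT, ← h0, inv_smul_smul]
        have hne2 : ((g • U : Sylow p G) : Subgroup G) ⊓ (S : Subgroup G) ≠ ⊥ := by
          intro h0
          apply hne
          have h3 : Cfsg.subgroupConjRight g⁻¹ ((U : Subgroup G) ⊓ (T : Subgroup G)) = ⊥ := by
            rw [Cfsg.Agent.Lib.Helper49.subgroupConjRight_inf, ← hU₀coe, hTcoe,
              Cfsg.Agent.Lib.Helper49.subgroupConjRight_inv_cancel, h0]
          have h4 : (U : Subgroup G) ⊓ (T : Subgroup G) = ⊥ := by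
            have h5 := congrArg (Cfsg.subgroupConjRight g) h3
            rw [Cfsg.Agent.Lib.Helper49.subgroupConjRight_cancel_inv] at h5
            rw [h5]
            exact Subgroup.map_bot _
          exact eq_bot_iff.mpr (h4 ▸ le_inf hU1 inf_le_right)
        have h6 := Cfsg.Agent.Lib.Helper49.chain_of_regular hf hM2 hr₂ (g • U) S hU₀G₂ h₂ hU₀S hne2
        have h7 := Relation.ReflTransGen.lift (fun Q : Sylow p G => g⁻¹ • Q)
          (fun A B hAB => (Cfsg.Agent.Lib.Helper49.FLink.top hAB).conj hf g) _ _ h6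
        have e1 : g⁻¹ • (g • U) = U := inv_smul_smul g U
        have h8 : Relation.ReflTransGen (Cfsg.Agent.Lib.Helper49.FLink p f ⊤
            (Cfsg.subgroupConjRight g (((g • U : Sylow p G) : Subgroup G) ⊓ (S : Subgroup G))))
            (g⁻¹ • (g • U)) (g⁻¹ • S) := h7
        rw [e1, ← hT] at h8
        refine Relation.ReflTransGen.mono (fun A B hAB => hAB.mono ?_) _ _ h8
        rw [Cfsg.Agent.Lib.Helper49.subgroupConjRight_inf, hU₀coe,
          Cfsg.Agent.Lib.Helper49.subgroupConjRight_cancel_inv, ← hTcoe]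
        exact le_inf hU1 inf_le_right
    exact part1.trans part2
  intro A B _ _ hAB hne
  obtain ⟨h, hh⟩ := MulAction.exists_smul_eq G A S
  have hA : A = h⁻¹ • S := by rw [← hh, inv_smul_smul]
  obtain ⟨T, hT⟩ : ∃ T : Sylow p G, T = h • B := ⟨_, rfl⟩
  have hB : B = h⁻¹ • T := by rw [hT, inv_smul_smul]
  have hST : S ≠ T := by
    intro h0; apply hAB; rw [hA, hB, h0]
  have hcoe : (A : Subgroup G) ⊓ (B : Subgroup G) =
      Cfsg.subgroupConjRight h ((S : Subgroup G) ⊓ (T : Subgroup G)) := by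
    rw [Cfsg.Agent.Lib.Helper49.subgroupConjRight_inf, hA, hB]; rfl
  have hne' : (S : Subgroup G) ⊓ (T : Subgroup G) ≠ ⊥ := by
    intro h0; apply hne; rw [hcoe, h0]; exact Subgroup.map_bot _
  have h5 := Relation.ReflTransGen.lift (fun Q : Sylow p G => h⁻¹ • Q)
    (fun A B hAB => Cfsg.Agent.Lib.Helper49.FLink.conj hf h hAB) _ _ (claim T hST hne')
  have h6 : Relation.ReflTransGen (Cfsg.Agent.Lib.Helper49.FLink p f ⊤
      (Cfsg.subgroupConjRight h ((S : Subgroup G) ⊓ (T : Subgroup G)))) (h⁻¹ • S) (h⁻¹ • T) := h5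
  rw [hcoe, hA, hB]
  exact h6

end Cfsg.Agent.S2957
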