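import Mathlib
import Cfsg.Statements.S2958

set_option autoImplicit false
open Cfsg

namespace Cfsg.Agent.S2958

/-- Let X, A, B be subgroups of a group G such that G is generated by the conjugates of X and every conjugate of X is contained in A or in B. Then A = G or B = G. -/
theorem result {G : Type*} [Group G] (X A B : Subgroup G) (hgen : (⨆ g : G, X.map (MulAut.conj g).toMonoidHom) = ⊤) (hcover : ∀ g : G, X.map (MulAut.conj g).toMonoidHom ≤ A ∨ X.map (MulAut.conj g).toMonoidHom ≤ B) : A = ⊤ ∨ B = ⊤ := by
  classical
  by_cases hall : ∀ g : G, X.map (MulAut.conj g).toMonoidHom ≤ A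
  · left
    rw [eq_top_iff, ← hgen]
    exact iSup_le hall
  · right
    push Not at hall
    obtain ⟨g₀, hg₀⟩ := hall
    -- B₁ : the join of the conjugates not contained in A
    set B₁ : Subgroup G := ⨆ g : {g : G // ¬ X.map (MulAut.conj g).toMonoidHom ≤ A},
      X.map (MulAut.conj (g : G)).toMonoidHom with hB₁
    have hB₁B : B₁ ≤ B := by
      refine iSup_le ?_
      rintro ⟨g, hg⟩
      exact (hcover g).resolve_left hg
    -- conjugating a conjugate
    have hconj : ∀ a g : G, (X.map (MulAut.conj g).toMonoidHom).map (MulAut.conj a).toMonoidHom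
        = X.map (MulAut.conj (a * g)).toMonoidHom := by
      intro a g
      rw [Subgroup.map_map]
      congr 1
      ext x
      simp [mul_assoc]
    -- A normalizes B₁
    have hAnorm : ∀ a ∈ A, B₁.map (MulAut.conj a).toMonoidHom ≤ B₁ := by
      intro a ha
      rw [hB₁, Subgroup.map_iSup]
      refine iSup_le ?_
      rintro ⟨g, hg⟩
      rw [hconj]
      have : ¬ X.map (MulAut.conj (a * g)).toMonoidHom ≤ A := by
        intro hle
        apply hg
        intro y hy
        have hy' : a * y * a⁻¹ ∈ X.map (MulAut.conj (a * g)).toMonoidHom := by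
          rw [← hconj]
          exact ⟨y, hy, by simp⟩
        have := hle hy'
        have h2 : a⁻¹ * (a * y * a⁻¹) * a ∈ A := A.mul_mem (A.mul_mem (A.inv_mem ha) this) ha
        simpa [mul_assoc] using h2
      exact le_iSup (fun g : {g : G // ¬ X.map (MulAut.conj g).toMonoidHom ≤ A} =>
        X.map (MulAut.conj (g : G)).toMonoidHom) ⟨a * g, this⟩
    -- the set of elements conjugating B₁ into itself (both ways) is a subgroup containing everything
    have hnormal : ∀ g : G, B₁.map (MulAut.conj g).toMonoidHom ≤ B₁ := by
      -- N = {g | g B₁ g⁻¹ ≤ B₁} contains A and B₁; it is a submonoid; G is generated by conjugates of X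
      let N : Submonoid G :=
        { carrier := {g | B₁.map (MulAut.conj g).toMonoidHom ≤ B₁}
          one_mem' := by
            show B₁.map (MulAut.conj (1 : G)).toMonoidHom ≤ B₁
            intro y hy
            obtain ⟨z, hz, rfl⟩ := hy
            simpa using hz
          mul_mem' := by
            intro a b ha hb
            show B₁.map (MulAut.conj (a * b)).toMonoidHom ≤ B₁
            intro y hy
            obtain ⟨z, hz, rfl⟩ := hy
            have h1 : b * z * b⁻¹ ∈ B₁ := hb ⟨z, hz, by simp⟩
            have h2 : a * (b * z * b⁻¹) * a⁻¹ ∈ B₁ := ha ⟨_, h1, by simp⟩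
            simpa [mul_assoc] using h2 }
      have hXN : ∀ g : G, ((X.map (MulAut.conj g).toMonoidHom : Subgroup G) : Set G) ⊆ N := by
        intro g y hy
        by_cases hg : X.map (MulAut.conj g).toMonoidHom ≤ A
        · exact hAnorm y (hg hy)
        · have hyB : y ∈ B₁ := (le_iSup (fun g : {g : G // ¬ X.map (MulAut.conj g).toMonoidHom ≤ A} =>
            X.map (MulAut.conj (g : G)).toMonoidHom) ⟨g, hg⟩) hy
          show B₁.map (MulAut.conj y).toMonoidHom ≤ B₁
          intro w hw
          obtain ⟨z, hz, rfl⟩ := hw
          simpa using B₁.mul_mem (B₁.mul_mem hyB hz) (B₁.inv_mem hyB)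
      intro g
      have hg : g ∈ (⨆ g : G, X.map (MulAut.conj g).toMonoidHom) := by rw [hgen]; trivial
      have : g ∈ N := by
        refine Subgroup.iSup_induction (C := fun g => g ∈ N) _ hg ?_ ?_ ?_
        · intro i x hx
          exact hXN i hx
        · exact N.one_mem
        · intro x y hx hy
          exact N.mul_mem hx hy
      exact this
    -- hence every conjugate of X lies in B₁
    rw [eq_top_iff, ← hgen]
    refine iSup_le ?_
    intro g
    have h0 : X.map (MulAut.conj g₀).toMonoidHom ≤ B₁ :=
      le_iSup (fun g : {g : G // ¬ X.map (MulAut.conj g).toMonoidHom ≤ A} =>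
        X.map (MulAut.conj (g : G)).toMonoidHom) ⟨g₀, hg₀⟩
    have h1 : X.map (MulAut.conj g).toMonoidHom
        = (X.map (MulAut.conj g₀).toMonoidHom).map (MulAut.conj (g * g₀⁻¹)).toMonoidHom := by
      rw [hconj]; simp
    rw [h1]
    exact le_trans (le_trans (Subgroup.map_mono h0) (hnormal _)) hB₁B

end Cfsg.Agent.S2958
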