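import Mathlib
import Cfsg.Statements.S2959

set_option autoImplicit false
open Cfsg
open scoped commutatorElement

namespace Cfsg.Agent.S2959

/-- power trick: if `z = h s h⁻¹ s⁻¹` commutes with `s`, then `h s^k h⁻¹ = z^k s^k`. -/
theorem conj_pow_eq {G : Type*} [Group G] (h s : G) (hz : Commute (h * s * h⁻¹ * s⁻¹) s) (k : ℕ) :
    h * s ^ k * h⁻¹ = (h * s * h⁻¹ * s⁻¹) ^ k * s ^ k := by
  have h1 : h * s * h⁻¹ = (h * s * h⁻¹ * s⁻¹) * s := by group
  have h2 : h * s ^ k * h⁻¹ = (h * s * h⁻¹) ^ k := by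
    rw [conj_pow]
  rw [h2, h1, hz.mul_pow]
  congr 1
  congr 1
  group

theorem step {G : Type*} [Group G] (p : ℕ) (y h : G) (m : ℕ) (hy : y ^ m = 1) (hm : Nat.Coprime m p)
    (k : ℕ) (hz : (h * y * h⁻¹ * y⁻¹) ^ (p ^ k) = 1) (hc : Commute (h * y * h⁻¹ * y⁻¹) y) :
    h * y = y * h := by
  have hpow := conj_pow_eq h y hc m
  rw [hy] at hpow
  simp only [mul_one, mul_inv_cancel] at hpow
  have hord1 : orderOf (h * y * h⁻¹ * y⁻¹) ∣ m := orderOf_dvd_of_pow_eq_one hpow.symm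
  have hord2 : orderOf (h * y * h⁻¹ * y⁻¹) ∣ p ^ k := orderOf_dvd_of_pow_eq_one hz
  have h1 : orderOf (h * y * h⁻¹ * y⁻¹) = 1 :=
    Nat.eq_one_of_dvd_coprimes (Nat.Coprime.pow_right k hm) hord1 hord2
  rw [orderOf_eq_one_iff] at h1
  have : h * y = (h * y * h⁻¹ * y⁻¹) * (y * h) := by group
  rw [this, h1, one_mul]

theorem pCore_isPGroup' {H : Type*} [Group H] (p : ℕ) [Fact p.Prime] : IsPGroup p (Cfsg.pCore p H) := by
  unfold Cfsg.pCore
  exact Sylow.sSup_of_normal _ (fun _ h => h.2) (fun _ h => h.1)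

theorem pCore_normal' {H : Type*} [Group H] (p : ℕ) : (Cfsg.pCore p H).Normal := by
  unfold Cfsg.pCore
  exact Subgroup.sSup_normal _ (fun _ h => h.1)

/-- Let G be a finite group of characteristic p, that is C_G(O_p(G)) ≤ O_p(G), with p prime, and let L be a subgroup of G normalized by O_p(G). Then L has characteristic p: C_L(O_p(L)) ≤ O_p(L). -/
theorem result {G : Type*} [Group G] [Finite G] {p : ℕ} [Fact p.Prime] (hG : Subgroup.centralizer (Cfsg.pCore p G : Set G) ≤ Cfsg.pCore p G) (L : Subgroup G) (hL : Cfsg.pCore p G ≤ Subgroup.normalizer (L : Set G)) : Subgroup.centralizer (Cfsg.pCore p ↥L : Set ↥L) ≤ Cfsg.pCore p ↥L := by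
  have hp : p.Prime := Fact.out
  have hQn : (Cfsg.pCore p G).Normal := pCore_normal' p
  have hRn : (Cfsg.pCore p ↥L).Normal := pCore_normal' p
  have hQp : IsPGroup p (Cfsg.pCore p G) := pCore_isPGroup' p
  have hpow : ∀ z ∈ Cfsg.pCore p G, ∃ k : ℕ, z ^ (p ^ k) = 1 := by
    intro z hz
    obtain ⟨k, hk⟩ := hQp ⟨z, hz⟩
    refine ⟨k, ?_⟩
    have := congrArg (fun x : Cfsg.pCore p G => (x : G)) hk
    simpa using this
  -- Q ∩ L inside L is a normal p-subgroup of L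
  have hQL : (Cfsg.pCore p G).subgroupOf L ≤ Cfsg.pCore p ↥L := by
    have hn : ((Cfsg.pCore p G).subgroupOf L).Normal := inferInstance
    have hpg : IsPGroup p ((Cfsg.pCore p G).subgroupOf L) := by
      intro x
      obtain ⟨k, hk⟩ := hpow (x : L) (Subgroup.mem_subgroupOf.mp x.2)
      refine ⟨k, ?_⟩
      apply Subtype.ext
      apply Subtype.ext
      simpa using hk
    unfold Cfsg.pCore
    exact le_sSup ⟨hn, hpg⟩
  have hCn : (Subgroup.centralizer (Cfsg.pCore p ↥L : Set ↥L)).Normal := inferInstance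
  have hCp : IsPGroup p (Subgroup.centralizer (Cfsg.pCore p ↥L : Set ↥L)) := by
    intro x
    obtain ⟨a, m, hm, hxa⟩ := Nat.exists_eq_pow_mul_and_not_dvd (orderOf_pos ((x : L) : G)).ne' p hp.ne_one
    have hcop : Nat.Coprime m p := (Nat.Coprime.symm ((Nat.Prime.coprime_iff_not_dvd hp).mpr hm))
    have hy : (((x : L) : G) ^ (p ^ a)) ^ m = 1 := by
      rw [← pow_mul, ← hxa, pow_orderOf_eq_one]
    have hyC : (x : L) ^ (p ^ a) ∈ Subgroup.centralizer (Cfsg.pCore p ↥L : Set ↥L) :=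
      Subgroup.pow_mem _ x.2 _
    have hyL : ((x : L) : G) ^ (p ^ a) ∈ L := L.pow_mem (x : L).2 _
    have hcent : ((x : L) : G) ^ (p ^ a) ∈ Subgroup.centralizer (Cfsg.pCore p G : Set G) := by
      rw [Subgroup.mem_centralizer_iff]
      intro q hq
      set y : G := ((x : L) : G) ^ (p ^ a) with hydef
      have hzQ : q * y * q⁻¹ * y⁻¹ ∈ Cfsg.pCore p G := by
        have h1 : y * q⁻¹ * y⁻¹ ∈ Cfsg.pCore p G := hQn.conj_mem _ (Subgroup.inv_mem _ hq) y
        have : q * y * q⁻¹ * y⁻¹ = q * (y * q⁻¹ * y⁻¹) := by group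
        rw [this]
        exact Subgroup.mul_mem _ hq h1
      have hzL : q * y * q⁻¹ * y⁻¹ ∈ L := by
        have h1 : q * y * q⁻¹ ∈ L := (Subgroup.mem_normalizer_iff.mp (hL hq) y).mp hyL
        exact L.mul_mem h1 (L.inv_mem hyL)
      have hzR : (⟨q * y * q⁻¹ * y⁻¹, hzL⟩ : L) ∈ Cfsg.pCore p ↥L :=
        hQL (Subgroup.mem_subgroupOf.mpr hzQ)
      have hcomm' := (Subgroup.mem_centralizer_iff.mp hyC) _ hzR
      have hcomm : Commute (q * y * q⁻¹ * y⁻¹) y := by
        have h := congrArg (fun x : L => (x : G)) hcomm'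
        simp only [Subgroup.coe_mul, Subgroup.coe_pow] at h
        exact h
      obtain ⟨t, ht⟩ := hpow _ hzQ
      exact step p y q m hy hcop t ht hcomm
    obtain ⟨t, ht⟩ := hpow _ (hG hcent)
    have h1 : orderOf (((x : L) : G) ^ (p ^ a)) ∣ m := orderOf_dvd_of_pow_eq_one hy
    have h2 : orderOf (((x : L) : G) ^ (p ^ a)) ∣ p ^ t := orderOf_dvd_of_pow_eq_one ht
    have h3 : orderOf (((x : L) : G) ^ (p ^ a)) = 1 :=
      Nat.eq_one_of_dvd_coprimes (Nat.Coprime.pow_right t hcop) h1 h2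
    rw [orderOf_eq_one_iff] at h3
    refine ⟨a, ?_⟩
    apply Subtype.ext
    apply Subtype.ext
    simpa using h3
  unfold Cfsg.pCore
  exact le_sSup ⟨hCn, hCp⟩

end Cfsg.Agent.S2959
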