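import Cfsg.Statements.S2963
import Mathlib

set_option autoImplicit false
open Cfsg

namespace Cfsg.Agent.S2963

open scoped Pointwise

/-- Let n be odd. If the symmetric group of degree n is a minimal parabolic group for the prime 2, that is, a Sylow 2-subgroup is not normal and lies in exactly one maximal subgroup, then n = 2^m + 1 for some natural number m. -/
theorem result (n : ℕ) (hn : Odd n) (h : Cfsg.IsPMinimal 2 (Equiv.Perm (Fin n))) : ∃ m : ℕ, n = 2 ^ m + 1 := by
  classical
  have hp2 : Fact (Nat.Prime 2) := ⟨Nat.prime_two⟩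
  obtain ⟨S⟩ : Nonempty (Sylow 2 (Equiv.Perm (Fin n))) := inferInstance
  obtain ⟨hnn, M, ⟨hMco, hSM⟩, huniq⟩ := h S
  obtain ⟨k, hk⟩ := hn
  -- the case n = 1
  have hk0 : k ≠ 0 := by
    rintro rfl
    have hn1 : n = 1 := by omega
    subst hn1
    apply hnn
    refine ⟨fun x hx g => ?_⟩
    rwa [Subsingleton.elim (g * x * g⁻¹) x]
  have hSp : IsPGroup 2 ↥(S : Subgroup (Equiv.Perm (Fin n))) := S.isPGroup'
  -- a fixed point
  have hfix : (MulAction.fixedPoints ↥(S : Subgroup (Equiv.Perm (Fin n))) (Fin n)).Nonempty := by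
    apply hSp.nonempty_fixed_point_of_prime_not_dvd_card
    rw [Nat.card_fin]
    omega
  obtain ⟨x₀, hx₀⟩ := hfix
  rw [MulAction.mem_fixedPoints] at hx₀
  have hx₀' : ∀ s : Equiv.Perm (Fin n), s ∈ (S : Subgroup (Equiv.Perm (Fin n))) → s x₀ = x₀ :=
    fun s hs => hx₀ ⟨s, hs⟩
  have hodd : ∀ A : Set (Fin n), Nat.card (Fin n) ≠ 2 * A.ncard := by
    intro A
    rw [Nat.card_fin]
    omega
  -- another point
  obtain ⟨y, hy⟩ : ∃ y : Fin n, y ≠ x₀ := by
    by_contra hcon
    have hsub : Subsingleton (Fin n) := ⟨fun a b => by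
      have ha : a = x₀ := by by_contra h'; exact hcon ⟨a, h'⟩
      have hb : b = x₀ := by by_contra h'; exact hcon ⟨b, h'⟩
      rw [ha, hb]⟩
    have := Fintype.card_le_one_iff_subsingleton.mpr hsub
    rw [Fintype.card_fin] at this
    omega
  -- the stabilizer of {x₀} is M
  have hM1 : MulAction.stabilizer (Equiv.Perm (Fin n)) ({x₀} : Set (Fin n)) = M := by
    apply huniq
    refine ⟨Equiv.Perm.isCoatom_stabilizer (Set.singleton_nonempty x₀) ⟨y, hy⟩ (hodd _), ?_⟩
    intro s hs
    rw [MulAction.mem_stabilizer_set]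
    intro b
    simp only [Set.mem_singleton_iff, Equiv.Perm.smul_def]
    constructor
    · intro hb
      apply s.injective
      rw [hb, hx₀' s hs]
    · intro hb
      rw [hb, hx₀' s hs]
  -- the orbit of y
  set A : Set (Fin n) := MulAction.orbit ↥(S : Subgroup (Equiv.Perm (Fin n))) y with hA
  have hyA : y ∈ A := MulAction.mem_orbit_self y
  have hx₀A : x₀ ∉ A := by
    rintro ⟨s, hs⟩
    apply hy
    have h1 : (s : Equiv.Perm (Fin n)) y = x₀ := hs
    have h2 : (s : Equiv.Perm (Fin n)) x₀ = x₀ := hx₀' _ s.2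
    exact (s : Equiv.Perm (Fin n)).injective (h1.trans h2.symm)
  have hM2 : MulAction.stabilizer (Equiv.Perm (Fin n)) A = M := by
    apply huniq
    refine ⟨Equiv.Perm.isCoatom_stabilizer ⟨y, hyA⟩ ⟨x₀, hx₀A⟩ (hodd _), ?_⟩
    intro s hs
    rw [MulAction.mem_stabilizer_set]
    intro b
    constructor
    · rintro ⟨t, ht⟩
      refine ⟨(⟨s, hs⟩ : ↥(S : Subgroup (Equiv.Perm (Fin n))))⁻¹ * t, ?_⟩
      have h1 : (t : Equiv.Perm (Fin n)) y = s b := ht
      show (s⁻¹ * (t : Equiv.Perm (Fin n))) y = b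
      rw [Equiv.Perm.mul_apply, h1]
      simp
    · rintro ⟨t, ht⟩
      refine ⟨(⟨s, hs⟩ : ↥(S : Subgroup (Equiv.Perm (Fin n)))) * t, ?_⟩
      have h1 : (t : Equiv.Perm (Fin n)) y = b := ht
      show (s * (t : Equiv.Perm (Fin n))) y = s • b
      rw [Equiv.Perm.mul_apply, h1]
      rfl
  have hAcompl : A = ({x₀} : Set (Fin n))ᶜ := by
    ext b
    simp only [Set.mem_compl_iff, Set.mem_singleton_iff]
    constructor
    · intro hb hbx
      exact hx₀A (hbx ▸ hb)
    · intro hbx
      by_contra hbA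
      have hsw : Equiv.swap y b ∈ MulAction.stabilizer (Equiv.Perm (Fin n)) ({x₀} : Set (Fin n)) := by
        rw [MulAction.mem_stabilizer_set]
        intro c
        simp only [Set.mem_singleton_iff, Equiv.Perm.smul_def]
        have hsx : Equiv.swap y b x₀ = x₀ := Equiv.swap_apply_of_ne_of_ne (Ne.symm hy) (Ne.symm hbx)
        constructor
        · intro hc
          apply (Equiv.swap y b).injective
          rw [hc, hsx]
        · intro hc
          rw [hc, hsx]
      rw [hM1, ← hM2, MulAction.mem_stabilizer_set] at hsw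
      have := (hsw y).mpr hyA
      rw [Equiv.Perm.smul_def, Equiv.swap_apply_left] at this
      exact hbA this
  obtain ⟨m, hm⟩ := hSp.card_orbit y
  refine ⟨m, ?_⟩
  have h1 : Nat.card ↥A = A.ncard := rfl
  have h2 := Set.ncard_add_ncard_compl ({x₀} : Set (Fin n))
  rw [Set.ncard_singleton, ← hAcompl, Nat.card_fin] at h2
  rw [← hm, ← hA, h1]
  omega

end Cfsg.Agent.S2963
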