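import Cfsg.Statements.S2998
import Cfsg.Agent.Lib.Helper50.SylowAux
import Mathlib

set_option autoImplicit false
open Cfsg

namespace Cfsg.Agent.S2998

open Cfsg.Agent.Lib.Helper50

/-- If `g A g⁻¹ ≤ A` in a finite group then `g` normalizes `A`. -/
theorem mem_normalizer_of_conj_le {G : Type*} [Group G] [Finite G] (A : Subgroup G) (g : G)
    (h : A.map (MulAut.conj g).toMonoidHom ≤ A) : g ∈ Subgroup.normalizer (A : Set G) := by
  have heq : A.map (MulAut.conj g).toMonoidHom = A := by
    apply Subgroup.eq_of_le_of_card_ge h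
    have : Nat.card ↥(A.map (MulAut.conj g).toMonoidHom) = Nat.card A :=
      Subgroup.card_map_of_injective (MulAut.conj g).injective
    rw [this]
  exact Subgroup.mem_normalizer_iff_map_conj_eq.mpr heq

/-- Let G be a finite group, p a prime, P a Sylow p-subgroup of G and x ∈ P an element such that N_G(R) ≤ C_G(x) for every nontrivial subgroup R of P. Then P ≤ C_G(x); every G-conjugate of x lying in P equals x (so g ∈ C_G(x) whenever g x g⁻¹ ∈ P); and for every normal subgroup N of G, the image of x in G ⧸ N has the same property with respect to the image of P: the normalizer of every nontrivial subgroup of the image of P centralizes the image of x. -/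
theorem result {G : Type*} [Group G] [Finite G] {p : ℕ} [Fact p.Prime] (P : Sylow p G) (x : G) (hxP : x ∈ (P : Subgroup G)) (hlc : ∀ R : Subgroup G, R ≤ (P : Subgroup G) → R ≠ ⊥ → Subgroup.normalizer (R : Set G) ≤ Subgroup.centralizer ({x} : Set G)) : (P : Subgroup G) ≤ Subgroup.centralizer ({x} : Set G) ∧ (∀ g : G, g * x * g⁻¹ ∈ (P : Subgroup G) → g * x * g⁻¹ = x) ∧ ∀ (N : Subgroup G) [N.Normal], ∀ R : Subgroup (G ⧸ N), R ≤ (P : Subgroup G).map (QuotientGroup.mk' N) → R ≠ ⊥ → Subgroup.normalizer (R : Set (G ⧸ N)) ≤ Subgroup.centralizer ({(QuotientGroup.mk x : G ⧸ N)} : Set (G ⧸ N)) := by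
  have memC : ∀ w : G, w ∈ Subgroup.centralizer ({x} : Set G) ↔ x * w = w * x := by
    intro w
    rw [Subgroup.mem_centralizer_iff]
    simp
  have part1 : (P : Subgroup G) ≤ Subgroup.centralizer ({x} : Set G) := by
    by_cases hP : (P : Subgroup G) = ⊥
    · have hx1 : x = 1 := by
        rw [hP, Subgroup.mem_bot] at hxP; exact hxP
      intro w _
      rw [memC, hx1]; simp
    · exact Subgroup.le_normalizer.trans (hlc P le_rfl hP)
  refine ⟨part1, ?_, ?_⟩
  · intro g hg
    by_cases hx1 : x = 1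
    · rw [hx1]; simp
    have hPne : (P : Subgroup G) ≠ ⊥ := by
      intro h
      rw [h, Subgroup.mem_bot] at hxP
      exact hx1 hxP
    set y := g * x * g⁻¹ with hy
    have hy1 : y ≠ 1 := by
      intro h
      apply hx1
      have : g⁻¹ * y * g = 1 := by rw [h]; simp
      rw [hy] at this
      simpa [mul_assoc] using this
    have hzy : Subgroup.zpowers y ≤ (P : Subgroup G) := by
      rw [Subgroup.zpowers_le]; exact hg
    have hzy1 : Subgroup.zpowers y ≠ ⊥ := by
      rw [Ne, Subgroup.zpowers_eq_bot]; exact hy1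
    have hNy := hlc _ hzy hzy1
    have hCy : Subgroup.centralizer ({y} : Set G) ≤ Subgroup.centralizer ({x} : Set G) := by
      refine le_trans ?_ hNy
      intro c hc
      rw [Subgroup.mem_centralizer_iff] at hc
      have hc' : y * c = c * y := hc y (Set.mem_singleton y)
      have hcy : c * y * c⁻¹ = y := by rw [← hc']; group
      apply mem_normalizer_of_conj_le
      rintro _ ⟨z, hz, rfl⟩
      obtain ⟨k, rfl⟩ := Subgroup.mem_zpowers_iff.mp hz
      have : (MulAut.conj c).toMonoidHom (y ^ k) = y ^ k := by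
        change c * y ^ k * c⁻¹ = y ^ k
        rw [← conj_zpow, hcy]
      rw [this]
      exact Subgroup.zpow_mem_zpowers y k
    -- the conjugate of `P` by `g` lies in the centralizer of `x`
    have hconjC : (P : Subgroup G).map (MulAut.conj g).toMonoidHom
        ≤ Subgroup.centralizer ({x} : Set G) := by
      rintro _ ⟨a, ha, rfl⟩
      apply hCy
      rw [Subgroup.mem_centralizer_iff]
      intro z hz
      rw [Set.mem_singleton_iff] at hz
      subst hz
      have hax : x * a = a * x := (memC a).mp (part1 ha)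
      change y * (g * a * g⁻¹) = (g * a * g⁻¹) * y
      rw [hy]
      have e1 : g * x * g⁻¹ * (g * a * g⁻¹) = g * (x * a) * g⁻¹ := by group
      have e2 : g * a * g⁻¹ * (g * x * g⁻¹) = g * (a * x) * g⁻¹ := by group
      rw [e1, e2, hax]
    -- Sylow conjugacy inside the centralizer of `x`
    have hidx : ¬ p ∣ (P : Subgroup G).relIndex (Subgroup.centralizer ({x} : Set G)) := by
      intro h
      exact P.not_dvd_index (h.trans (Subgroup.relIndex_dvd_index_of_le part1))
    obtain ⟨c, hc, hle⟩ := exists_conj_le_of_not_dvd_relIndex (P : Subgroup G)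
      ((P : Subgroup G).map (MulAut.conj g).toMonoidHom) (Subgroup.centralizer ({x} : Set G))
      hconjC P.isPGroup' (P.isPGroup'.map _) hidx
    have hnorm : c⁻¹ * g ∈ Subgroup.normalizer ((P : Subgroup G) : Set G) := by
      apply mem_normalizer_of_conj_le
      rintro _ ⟨a, ha, rfl⟩
      obtain ⟨b, hb, hb'⟩ := hle ⟨a, ha, rfl⟩
      have hb'' : c * b * c⁻¹ = g * a * g⁻¹ := hb'
      have : (MulAut.conj (c⁻¹ * g)).toMonoidHom a = b := by
        change c⁻¹ * g * a * (c⁻¹ * g)⁻¹ = b
        have : c⁻¹ * g * a * (c⁻¹ * g)⁻¹ = c⁻¹ * (g * a * g⁻¹) * c := by group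
        rw [this, ← hb'']; group
      rw [this]; exact hb
    have hcg : c⁻¹ * g ∈ Subgroup.centralizer ({x} : Set G) := hlc P le_rfl hPne hnorm
    have hgC : g ∈ Subgroup.centralizer ({x} : Set G) := by
      have := Subgroup.mul_mem _ hc hcg
      simpa using this
    have hgx : x * g = g * x := (memC g).mp hgC
    rw [hy, ← hgx]; group
  · intro N _ R hR hRne gb hgb
    obtain ⟨g, rfl⟩ := QuotientGroup.mk'_surjective N gb
    set K : Subgroup G := R.comap (QuotientGroup.mk' N) with hKdef
    have hNK : N ≤ K := by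
      intro n hn
      rw [hKdef, Subgroup.mem_comap]
      have : (QuotientGroup.mk' N) n = 1 := by
        rw [QuotientGroup.mk'_apply, QuotientGroup.eq_one_iff]; exact hn
      rw [this]; exact R.one_mem
    -- every element of `K` is a product of an element of `P ⊓ K` and an element of `N`
    have hKdec : ∀ k ∈ K, ∃ a ∈ (P : Subgroup G) ⊓ K, a⁻¹ * k ∈ N := by
      intro k hk
      have hk' : (QuotientGroup.mk' N) k ∈ R := hk
      obtain ⟨a, ha, hak⟩ := hR hk'
      have haK : a ∈ K := by
        rw [hKdef, Subgroup.mem_comap, hak]; exact hk'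
      refine ⟨a, ⟨ha, haK⟩, ?_⟩
      have : (QuotientGroup.mk' N) (a⁻¹ * k) = 1 := by
        rw [map_mul, map_inv, hak]; simp
      rw [QuotientGroup.mk'_apply, QuotientGroup.eq_one_iff] at this
      exact this
    have hKle : K ≤ (P : Subgroup G) ⊔ N := by
      intro k hk
      obtain ⟨a, ha, han⟩ := hKdec k hk
      have : k = a * (a⁻¹ * k) := by group
      rw [this]
      exact Subgroup.mul_mem_sup ha.1 han
    have hidx : ¬ p ∣ ((P : Subgroup G) ⊓ K).relIndex K := by
      rw [Subgroup.inf_relIndex_right]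
      exact not_dvd_relIndex_of_le_sup P N K hNK hKle
    -- `P ⊓ K` is nontrivial
    have hR0ne : (P : Subgroup G) ⊓ K ≠ ⊥ := by
      intro hbot
      apply hRne
      rw [eq_bot_iff]
      intro r hr
      obtain ⟨a, ha, rfl⟩ := hR hr
      have : a ∈ (P : Subgroup G) ⊓ K := ⟨ha, hr⟩
      rw [hbot, Subgroup.mem_bot] at this
      rw [this]; simp
    have hN0 := hlc _ inf_le_left hR0ne
    -- `g` normalizes `K`
    have hgK : ∀ k ∈ K, g * k * g⁻¹ ∈ K := by
      intro k hk
      rw [hKdef, Subgroup.mem_comap, map_mul, map_mul, map_inv]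
      exact (Subgroup.mem_normalizer_iff.mp hgb _).mp hk
    have hBK : ((P : Subgroup G) ⊓ K).map (MulAut.conj g).toMonoidHom ≤ K := by
      rintro _ ⟨a, ha, rfl⟩
      exact hgK a ha.2
    have hPK : IsPGroup p ↥((P : Subgroup G) ⊓ K) := P.isPGroup'.to_le inf_le_left
    obtain ⟨k, hk, hle⟩ := exists_conj_le_of_not_dvd_relIndex ((P : Subgroup G) ⊓ K)
      (((P : Subgroup G) ⊓ K).map (MulAut.conj g).toMonoidHom) K hBK hPK (hPK.map _) hidx
    have hnorm : k⁻¹ * g ∈ Subgroup.normalizer (((P : Subgroup G) ⊓ K : Subgroup G) : Set G) := by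
      apply mem_normalizer_of_conj_le
      rintro _ ⟨a, ha, rfl⟩
      obtain ⟨b, hb, hb'⟩ := hle ⟨a, ha, rfl⟩
      have hb'' : k * b * k⁻¹ = g * a * g⁻¹ := hb'
      have : (MulAut.conj (k⁻¹ * g)).toMonoidHom a = b := by
        change k⁻¹ * g * a * (k⁻¹ * g)⁻¹ = b
        have : k⁻¹ * g * a * (k⁻¹ * g)⁻¹ = k⁻¹ * (g * a * g⁻¹) * k := by group
        rw [this, ← hb'']; group
      rw [this]; exact hb
    have hkg : k⁻¹ * g ∈ Subgroup.centralizer ({x} : Set G) := hN0 hnorm
    obtain ⟨a, ha, han⟩ := hKdec k hk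
    have haC : a ∈ Subgroup.centralizer ({x} : Set G) := part1 ha.1
    -- `g = a * (a⁻¹ k) * (k⁻¹ g)` with `a`, `k⁻¹ g` centralizing `x` and `a⁻¹ k ∈ N`
    have hmk : (QuotientGroup.mk' N) g = (QuotientGroup.mk' N) (a * (k⁻¹ * g)) := by
      have h1 : g = a * (a⁻¹ * k) * (k⁻¹ * g) := by group
      have h2 : (QuotientGroup.mk' N) (a⁻¹ * k) = 1 := by
        rw [QuotientGroup.mk'_apply, QuotientGroup.eq_one_iff]; exact han
      have h3 : (QuotientGroup.mk' N) g
          = (QuotientGroup.mk' N) a * (QuotientGroup.mk' N) (a⁻¹ * k)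
            * (QuotientGroup.mk' N) (k⁻¹ * g) := by
        rw [← map_mul, ← map_mul, ← h1]
      rw [h3, h2, mul_one, ← map_mul]
    have hcomm : x * (a * (k⁻¹ * g)) = (a * (k⁻¹ * g)) * x :=
      (memC _).mp (Subgroup.mul_mem _ haC hkg)
    rw [Subgroup.mem_centralizer_iff]
    intro z hz
    rw [Set.mem_singleton_iff] at hz
    subst hz
    rw [hmk]
    change (QuotientGroup.mk' N) x * (QuotientGroup.mk' N) (a * (k⁻¹ * g))
      = (QuotientGroup.mk' N) (a * (k⁻¹ * g)) * (QuotientGroup.mk' N) x
    rw [← map_mul, ← map_mul, hcomm]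

end Cfsg.Agent.S2998
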