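import Cfsg.Statements.S3003
import Cfsg.Agent.S1324

set_option autoImplicit false
open Cfsg

namespace Cfsg.Agent.S3003

theorem part_a {G : Type*} [Group G] [Finite G] {p : ℕ} [Fact p.Prime] (Q : Subgroup G)
    (hQp : IsPGroup p ↥Q) (hlarge : Cfsg.IsLarge Q) (G₁ : Subgroup G) (hQG : Q ≤ G₁)
    (R : Subgroup G) (hR : (Nat.card ↥R).Coprime p)
    (hGR : G₁ ≤ Subgroup.normalizer (R : Set G)) (U : Subgroup G)
    (h : ∃ x ∈ U, x ≠ 1 ∧ ∃ g ∈ G₁, g * x * g⁻¹ ∈ Q ⊓ Subgroup.centralizer (Q : Set G)) :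
    R ⊓ Subgroup.centralizer (U : Set G) = ⊥ := by
  obtain ⟨x, hxU, hx1, g, hg, hz⟩ := h
  have hz1 : g * x * g⁻¹ ≠ 1 := by
    intro h
    apply hx1
    have h2 : x = g⁻¹ * (g * x * g⁻¹) * g := by group
    rw [h2, h]; group
  have hQR : ∀ y, y ∈ Q → y ∈ R → y = 1 := by
    intro y hyQ hyR
    have h1 : orderOf y ∣ Nat.card R := Subgroup.orderOf_dvd_natCard R hyR
    obtain ⟨k, hk⟩ := hQp ⟨y, hyQ⟩
    have h2 : orderOf y ∣ p ^ k := by
      apply orderOf_dvd_of_pow_eq_one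
      have := congrArg (Subtype.val) hk
      simpa using this
    have h3 : orderOf y ∣ Nat.gcd (Nat.card R) (p ^ k) := Nat.dvd_gcd h1 h2
    have h4 : Nat.gcd (Nat.card R) (p ^ k) = 1 := Nat.Coprime.pow_right k hR
    rw [h4, Nat.dvd_one] at h3
    exact orderOf_eq_one_iff.mp h3
  have key : ∀ r ∈ R, r * (g * x * g⁻¹) = (g * x * g⁻¹) * r → r = 1 := by
    intro r hr hrz
    have hrN : r ∈ Subgroup.normalizer
        ((Subgroup.zpowers (g * x * g⁻¹) : Subgroup G) : Set G) := by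
      have hcomm : ∀ y ∈ Subgroup.zpowers (g * x * g⁻¹), r * y * r⁻¹ = y := by
        intro y hy
        obtain ⟨n, rfl⟩ := hy
        have : Commute r ((g * x * g⁻¹) ^ n) := (Commute.zpow_right hrz n)
        rw [this.eq]; group
      rw [Subgroup.mem_normalizer_iff]
      intro y
      constructor
      · intro hy
        rw [hcomm y hy]; exact hy
      · intro hy
        have h5 := hcomm _ hy
        have h6 : y = r * y * r⁻¹ := by
          have : r * (r * y * r⁻¹) * r⁻¹ = r * y * r⁻¹ := h5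
          have h7 : r * y * r⁻¹ = y := by
            have := congrArg (fun t => r⁻¹ * t * r) this
            beta_reduce at this
            have e1 : r⁻¹ * (r * (r * y * r⁻¹) * r⁻¹) * r = r * y * r⁻¹ := by group
            have e2 : r⁻¹ * (r * y * r⁻¹) * r = y := by group
            rw [e1, e2] at this
            exact this
          exact h7.symm
        rw [h6]; exact hy
    have hzc : Subgroup.zpowers (g * x * g⁻¹) ≤ Subgroup.centralizer (Q : Set G) := by
      rw [Subgroup.zpowers_le]; exact hz.2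
    have hzne : Subgroup.zpowers (g * x * g⁻¹) ≠ ⊥ := by
      rw [Ne, Subgroup.zpowers_eq_bot]; exact hz1
    have hrQ : r ∈ Subgroup.normalizer (Q : Set G) := hlarge.2 _ hzc hzne hrN
    have hrC : r ∈ Subgroup.centralizer (Q : Set G) := by
      rw [Subgroup.mem_centralizer_iff]
      intro q hq
      have h1 : q * r * q⁻¹ * r⁻¹ ∈ R :=
        R.mul_mem ((Subgroup.mem_normalizer_iff.mp (hGR (hQG hq)) r).mp hr) (R.inv_mem hr)
      have h2 : q * r * q⁻¹ * r⁻¹ ∈ Q := by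
        have h3 : r * q⁻¹ * r⁻¹ ∈ Q :=
          (Subgroup.mem_normalizer_iff.mp hrQ q⁻¹).mp (Q.inv_mem hq)
        have h4 := Q.mul_mem hq h3
        have e : q * (r * q⁻¹ * r⁻¹) = q * r * q⁻¹ * r⁻¹ := by group
        rw [e] at h4; exact h4
      have h5 := hQR _ h2 h1
      have h6 : q * r = (q * r * q⁻¹ * r⁻¹) * (r * q) := by group
      rw [h6, h5, one_mul]
    exact hQR r (hlarge.1 hrC) hr
  rw [eq_bot_iff]
  intro r hr
  rw [Subgroup.mem_bot]
  obtain ⟨hrR, hrC⟩ := hr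
  have h1 : g * r * g⁻¹ ∈ R := (Subgroup.mem_normalizer_iff.mp (hGR hg) r).mp hrR
  have h2 : (g * r * g⁻¹) * (g * x * g⁻¹) = (g * x * g⁻¹) * (g * r * g⁻¹) := by
    have h3 : x * r = r * x := (Subgroup.mem_centralizer_iff.mp hrC) x hxU
    calc g * r * g⁻¹ * (g * x * g⁻¹) = g * (r * x) * g⁻¹ := by group
      _ = g * (x * r) * g⁻¹ := by rw [h3]
      _ = g * x * g⁻¹ * (g * r * g⁻¹) := by group
  have h4 := key _ h1 h2
  have h5 : r = g⁻¹ * (g * r * g⁻¹) * g := by group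
  rw [h5, h4]; group

theorem result_of {G : Type*} [Group G] [Finite G] {p : ℕ} [Fact p.Prime]
    (h1324 : ∀ (A X : Subgroup G), Cfsg.IsElementaryAbelian p A → p ^ 2 ≤ Nat.card ↥A →
      ¬ p ∣ Nat.card ↥X → A ≤ Subgroup.normalizer (X : Set G) →
      X = ⨆ B : {B : Subgroup G // B ≤ A ∧ B.relIndex A ≤ p},
        X ⊓ Subgroup.centralizer ((B : Subgroup G) : Set G))
    (Q : Subgroup G) (hQp : IsPGroup p ↥Q) (hlarge : Cfsg.IsLarge Q) (G₁ : Subgroup G) (hQG : Q ≤ G₁) (R : Subgroup G) (hR : (Nat.card ↥R).Coprime p) (hGR : G₁ ≤ Subgroup.normalizer (R : Set G)) (U : Subgroup G) (hUG : U ≤ G₁) (hUp : IsPGroup p ↥U) : ((∃ x ∈ U, x ≠ 1 ∧ ∃ g ∈ G₁, g * x * g⁻¹ ∈ Q ⊓ Subgroup.centralizer (Q : Set G)) → R ⊓ Subgroup.centralizer (U : Set G) = ⊥) ∧ (Cfsg.IsElementaryAbelian p U → p ^ 2 ≤ Nat.card ↥U → (∀ U₀ : Subgroup G, U₀ ≤ U → IsCoatom (U₀.subgroupOf U) → ∃ x ∈ U₀, x ≠ 1 ∧ ∃ g ∈ G₁, g * x * g⁻¹ ∈ Q ⊓ Subgroup.centralizer (Q : Set G)) → R = ⊥)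 := by
  have hp : p.Prime := Fact.out
  refine ⟨part_a Q hQp hlarge G₁ hQG R hR hGR U, ?_⟩
  intro hEA hcard hmax
  have hndvd : ¬ p ∣ Nat.card ↥R := by
    intro h
    have := Nat.Coprime.eq_one_of_dvd hR.symm h
    exact hp.one_lt.ne' this
  rw [h1324 U R hEA hcard hndvd (hUG.trans hGR)]
  rw [iSup_eq_bot]
  rintro ⟨B, hBU, hidx⟩
  show R ⊓ Subgroup.centralizer (B : Set G) = ⊥
  have hdvd : B.relIndex U ∣ Nat.card U := Subgroup.relIndex_dvd_card B U
  obtain ⟨k, hk⟩ := IsPGroup.iff_card.mp hUp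
  rw [hk] at hdvd
  obtain ⟨j, hjk, hj⟩ := (Nat.dvd_prime_pow hp).mp hdvd
  have hj1 : j ≤ 1 := by
    by_contra hcon
    rw [not_le] at hcon
    have : p ^ 2 ≤ p ^ j := Nat.pow_le_pow_right hp.pos hcon
    have h2 : p < p ^ 2 := by
      have := hp.one_lt
      nlinarith
    rw [hj] at hidx
    omega
  -- a coatom-based argument
  have hcoatom : ∀ U₀ : Subgroup G, U₀ ≤ U → IsCoatom (U₀.subgroupOf U) →
      R ⊓ Subgroup.centralizer (U₀ : Set G) = ⊥ := fun U₀ h1 h2 =>
    part_a Q hQp hlarge G₁ hQG R hR hGR U₀ (hmax U₀ h1 h2)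
  interval_cases j
  · -- relIndex = 1, so U ≤ B
    have hUB : U ≤ B := Subgroup.relIndex_eq_one.mp (by simpa using hj)
    have hnontriv : (⊥ : Subgroup ↥U) ≠ ⊤ := by
      intro h
      have h1 : Nat.card (⊥ : Subgroup ↥U) = Nat.card (⊤ : Subgroup ↥U) := by rw [h]
      rw [Subgroup.card_bot, Subgroup.card_top] at h1
      have : 1 < p ^ 2 := Nat.one_lt_pow (by norm_num) hp.one_lt
      omega
    rcases eq_top_or_exists_le_coatom (⊥ : Subgroup ↥U) with h | ⟨U₀', hU₀', -⟩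
    · exact absurd h hnontriv
    · have h1 : (U₀'.map U.subtype).subgroupOf U = U₀' :=
        Subgroup.comap_map_eq_self_of_injective U.subtype_injective U₀'
      have h2 : U₀'.map U.subtype ≤ U := Subgroup.map_subtype_le U₀'
      have h3 := hcoatom (U₀'.map U.subtype) h2 (by rw [h1]; exact hU₀')
      rw [eq_bot_iff, ← h3]
      exact inf_le_inf_left R
        (Subgroup.centralizer_le (SetLike.coe_subset_coe.mpr (h2.trans hUB)))
  · -- relIndex = p
    have hidxp : (B.subgroupOf U).index = p := by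
      have : B.relIndex U = p := by simpa using hj
      exact this
    apply hcoatom B hBU
    constructor
    · intro h
      rw [h, Subgroup.index_top] at hidxp
      exact hp.one_lt.ne hidxp
    · intro K hK
      have h1 : K.index ∣ (B.subgroupOf U).index := Subgroup.index_dvd_of_le hK.le
      rw [hidxp] at h1
      rcases (Nat.dvd_prime hp).mp h1 with h2 | h2
      · exact Subgroup.index_eq_one.mp h2
      · exfalso
        have h3 : (B.subgroupOf U).relIndex K * K.index = (B.subgroupOf U).index :=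
          Subgroup.relIndex_mul_index hK.le
        rw [hidxp, h2] at h3
        have h4 : (B.subgroupOf U).relIndex K = 1 := by
          have := hp.pos
          nlinarith
        exact absurd (Subgroup.relIndex_eq_one.mp h4) (not_le_of_gt hK)

/-- Let G be a finite group, p a prime and Q a large p-subgroup of G: C_G(Q) ≤ Q and N_G(U) ≤ N_G(Q) for every nontrivial subgroup U of C_G(Q). Let Q ≤ G₁ ≤ G, let R be a subgroup of order prime to p normalized by G₁, and let U ≤ G₁ be a p-subgroup. If U contains a nontrivial element which is G₁-conjugate to an element of Z(Q), then C_R(U) = 1. In particular, if U is elementary abelian of order at least p² and every maximal subgroup of U contains a nontrivial element G₁-conjugate into Z(Q), then R = 1. -/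
theorem result {G : Type*} [Group G] [Finite G] {p : ℕ} [Fact p.Prime] (Q : Subgroup G) (hQp : IsPGroup p ↥Q) (hlarge : Cfsg.IsLarge Q) (G₁ : Subgroup G) (hQG : Q ≤ G₁) (R : Subgroup G) (hR : (Nat.card ↥R).Coprime p) (hGR : G₁ ≤ Subgroup.normalizer (R : Set G)) (U : Subgroup G) (hUG : U ≤ G₁) (hUp : IsPGroup p ↥U) : ((∃ x ∈ U, x ≠ 1 ∧ ∃ g ∈ G₁, g * x * g⁻¹ ∈ Q ⊓ Subgroup.centralizer (Q : Set G)) → R ⊓ Subgroup.centralizer (U : Set G) = ⊥) ∧ (Cfsg.IsElementaryAbelian p U → p ^ 2 ≤ Nat.card ↥U → (∀ U₀ : Subgroup G, U₀ ≤ U → IsCoatom (U₀.subgroupOf U) → ∃ x ∈ U₀, x ≠ 1 ∧ ∃ g ∈ G₁, g * x * g⁻¹ ∈ Q ⊓ Subgroup.centralizer (Q : Set G)) → R = ⊥) :=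
  result_of (fun A X hA hA2 hX hAX => Cfsg.Agent.S1324.result p A X hA hA2 hX hAX)
    Q hQp hlarge G₁ hQG R hR hGR U hUG hUp

end Cfsg.Agent.S3003
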