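import Cfsg.Statements.S3005
import Cfsg.Agent.Lib.Helper50.CentrallyLarge

set_option autoImplicit false
open scoped Pointwise
open Cfsg

namespace Cfsg.Agent.S3005

open Cfsg.Agent.Lib.Helper50

/-- Let P be a finite p-group; call R ≤ P centrally large if |R|·|Z(R)| is as large as possible among subgroups of P, and measure-largest if |R|·|C_P(R)| is as large as possible. Then: a centrally large Q is measure-largest with C_P(Q) = Z(Q); a measure-largest Q is centrally large if and only if C_P(Q) ≤ Q; if Q and R are centrally large then QR = RQ is a centrally large subgroup; and the subgroups generated by all centrally large subgroups, respectively by all minimal centrally large subgroups, are themselves centrally large. -/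
theorem result {p : ℕ} [Fact p.Prime] (P : Type*) [Group P] [Finite P] (hP : IsPGroup p P) : (∀ Q : Subgroup P, Cfsg.IsCentrallyLarge Q → Cfsg.IsCentralizerLarge Q ∧ Subgroup.centralizer (Q : Set P) = Q ⊓ Subgroup.centralizer (Q : Set P)) ∧ (∀ Q : Subgroup P, Cfsg.IsCentralizerLarge Q → (Cfsg.IsCentrallyLarge Q ↔ Subgroup.centralizer (Q : Set P) ≤ Q)) ∧ (∀ Q R : Subgroup P, Cfsg.IsCentrallyLarge Q → Cfsg.IsCentrallyLarge R → ((Q ⊔ R : Subgroup P) : Set P) = (Q : Set P) * (R : Set P) ∧ Cfsg.IsCentrallyLarge (Q ⊔ R)) ∧ Cfsg.IsCentrallyLarge (Cfsg.centrallyLargeJoin P) ∧ Cfsg.IsCentrallyLarge (Cfsg.minimalCentrallyLargeJoin P) := by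
  refine ⟨?_, ?_, ?_, ?_, ?_⟩
  · intro Q hQ
    obtain ⟨h1, h2⟩ := isCentralizerLarge_of_isCentrallyLarge Q hQ
    exact ⟨h1, (inf_of_le_right h2).symm⟩
  · intro Q hQ
    exact ⟨fun h => (isCentralizerLarge_of_isCentrallyLarge Q h).2,
      fun h => isCentrallyLarge_of_isCentralizerLarge Q hQ h⟩
  · intro Q R hQ hR
    exact isCentrallyLarge_sup Q R hQ hR
  · exact isCentrallyLarge_centrallyLargeJoin
  · exact isCentrallyLarge_minimalCentrallyLargeJoin

end Cfsg.Agent.S3005
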