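import Cfsg.Statements.S3007
import Cfsg.Agent.Lib.Helper50.MinimalCL

set_option autoImplicit false
open Cfsg

namespace Cfsg.Agent.S3007

open Cfsg.Agent.Lib.Helper50

/-- Let P be a finite p-group and Q, R minimal centrally large subgroups of P (centrally large: |Q|·|Z(Q)| maximal among subgroups of P; minimal among such under inclusion). Then Q = (Q ∩ R)·Z(Q), the derived subgroups [Q, Q] and [R, R] coincide, |Q| = |R| and |Z(Q)| = |Z(R)|; and if Q is abelian then the minimal centrally large subgroups of P are exactly the abelian subgroups of P of largest order. -/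
theorem result {p : ℕ} [Fact p.Prime] (P : Type*) [Group P] [Finite P] (hP : IsPGroup p P) (Q R : Subgroup P) (hQ : Cfsg.IsMinimalCentrallyLarge Q) (hR : Cfsg.IsMinimalCentrallyLarge R) : (Q ⊓ R) ⊔ (Q ⊓ Subgroup.centralizer (Q : Set P)) = Q ∧ ⁅Q, Q⁆ = ⁅R, R⁆ ∧ Nat.card ↥Q = Nat.card ↥R ∧ Nat.card ↥(Q ⊓ Subgroup.centralizer (Q : Set P)) = Nat.card ↥(R ⊓ Subgroup.centralizer (R : Set P)) ∧ (IsMulCommutative ↥Q → ∀ X : Subgroup P, Cfsg.IsMinimalCentrallyLarge X ↔ X ∈ Cfsg.maxAbelianSubgroups P) := by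
  have hZQ : Q ⊓ Subgroup.centralizer (Q : Set P) = Subgroup.centralizer (Q : Set P) :=
    inf_of_le_right (isCentralizerLarge_of_isCentrallyLarge Q hQ.1).2
  have hZR : R ⊓ Subgroup.centralizer (R : Set P) = Subgroup.centralizer (R : Set P) :=
    inf_of_le_right (isCentralizerLarge_of_isCentrallyLarge R hR.1).2
  rw [hZQ, hZR]
  obtain ⟨h3, h4⟩ := minimalCL_card_eq Q R hQ hR
  exact ⟨minimalCL_inf_sup_centralizer Q R hQ hR.1, minimalCL_commutator_eq Q R hQ hR, h3, h4,
    fun hab X => minimalCL_iff_maxAbelian Q hQ hab X⟩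

end Cfsg.Agent.S3007
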