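import Cfsg.Statements.S3008
import Mathlib
import Cfsg.Agent.Lib.Helper48.CLNormMain

set_option autoImplicit false
open Cfsg

namespace Cfsg.Agent.S3008
open scoped commutatorElement

open Cfsg.Agent.Lib.Helper48 Cfsg.Agent.Lib.Helper50

/-- Let P be a finite p-group, with J(P) generated by its abelian subgroups of largest order and J̃(P) = C_P(Z(J(P))); call R ≤ P centrally large if |R|·|Z(R)| is as large as possible, and let P_MCL be generated by the minimal centrally large subgroups. Then: for every centrally large Q, Q·J(P) ⊇ J̃(P); some minimal centrally large subgroup of P is normalized by both J(P) and P_MCL; if P = J(P) and d(P)² = |P|·|Z(P)|, where d(P) is the largest order of an abelian subgroup, then every minimal centrally large subgroup of P is abelian; and if every minimal centrally large subgroup is abelian then J̃(P) = J(P). -/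
theorem result {p : ℕ} [Fact p.Prime] (P : Type*) [Group P] [Finite P] (hP : IsPGroup p P) : (∀ Q : Subgroup P, Cfsg.IsCentrallyLarge Q → Subgroup.centralizer ((Cfsg.thompsonSubgroupA P ⊓ Subgroup.centralizer (Cfsg.thompsonSubgroupA P : Set P) : Subgroup P) : Set P) ≤ Q ⊔ Cfsg.thompsonSubgroupA P) ∧ (∃ Q : Subgroup P, Cfsg.IsMinimalCentrallyLarge Q ∧ Cfsg.thompsonSubgroupA P ≤ Subgroup.normalizer (Q : Set P) ∧ Cfsg.minimalCentrallyLargeJoin P ≤ Subgroup.normalizer (Q : Set P)) ∧ (Cfsg.thompsonSubgroupA P = ⊤ → (∀ A ∈ Cfsg.maxAbelianSubgroups P, Nat.card ↥A ^ 2 = Nat.card P * Nat.card ↥(Subgroup.center P)) → ∀ Q : Subgroup P, Cfsg.IsMinimalCentrallyLarge Q → IsMulCommutative ↥Q) ∧ ((∀ Q : Subgroup P, Cfsg.IsMinimalCentrallyLarge Q → IsMulCommutative ↥Q) → Subgroup.centralizer ((Cfsg.thompsonSubgroupA P ⊓ Subgroup.centralizer (Cfsg.thompsonSubgroupA P : Set P) : Subgroup P) : Set P) = Cfsg.thompsonSubgroupA P) := by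
  have hpart1 : ∀ Q : Subgroup P, Cfsg.IsCentrallyLarge Q → Subgroup.centralizer ((Cfsg.thompsonSubgroupA P ⊓ Subgroup.centralizer (Cfsg.thompsonSubgroupA P : Set P) : Subgroup P) : Set P) ≤ Q ⊔ Cfsg.thompsonSubgroupA P :=
    fun Q hQ => centralizer_center_thompsonA_le Q hQ
  refine ⟨hpart1, cln_thompson_normalizes hP, ?_, ?_⟩
  · intro hJ hd Q hQ
    obtain ⟨A, hA⟩ := maxAbelian_nonempty (G := P)
    -- the whole group is centrally large
    have htop : Cfsg.IsCentrallyLarge (⊤ : Subgroup P) := by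
      have h1 := isCentrallyLarge_sup_thompsonA Q hQ.1
      rwa [hJ, sup_top_eq] at h1
    have hmax : Cfsg.maxCentralProduct P = Nat.card P * Nat.card ↥(Subgroup.center P) := by
      unfold Cfsg.IsCentrallyLarge at htop
      rw [← htop, card_center_eq]
      have h2 : (⊤ : Subgroup P) ⊓ Subgroup.centralizer (((⊤ : Subgroup P) : Subgroup P) : Set P)
          = Subgroup.center P := by
        rw [top_inf_eq, Subgroup.coe_top, Subgroup.centralizer_univ]
      rw [h2, Subgroup.card_top]
    -- every large abelian subgroup is centrally large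
    have hcl : ∀ B ∈ Cfsg.maxAbelianSubgroups P, Cfsg.IsCentrallyLarge B := by
      intro B hB
      unfold Cfsg.IsCentrallyLarge
      rw [hmax, ← hd B hB, card_center_eq]
      have h3 : B ⊓ Subgroup.centralizer (B : Set P) = B :=
        inf_eq_left.mpr (Subgroup.le_centralizer_iff_isMulCommutative.mpr hB.1)
      rw [h3, sq]
    obtain ⟨hQ1, hQ2⟩ := isCentralizerLarge_of_isCentrallyLarge Q hQ.1
    obtain ⟨-, -, hB, -, -⟩ := centrallyLarge_sup_maxAbelian Q A hQ.1 hA
    have hBQ : (A ⊓ Q) ⊔ Subgroup.centralizer (Q : Set P) ≤ Q := sup_le inf_le_right hQ2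
    have hBeq := hQ.2 _ hBQ (hcl _ hB)
    rw [← hBeq]
    exact hB.1
  · intro hab
    apply le_antisymm
    · obtain ⟨Q₀, hQ₀⟩ := exists_isCentrallyLarge (G := P)
      obtain ⟨Q, -, hQ⟩ := exists_isMinimalCentrallyLarge_le Q₀ hQ₀
      have hQab := hab Q hQ
      have hQA : Q ∈ Cfsg.maxAbelianSubgroups P := (minimalCL_iff_maxAbelian Q hQ hQab Q).mp hQ
      have hQJ : Q ≤ Cfsg.thompsonSubgroupA P := le_sSup hQA
      have h1 := hpart1 Q hQ.1
      rwa [sup_eq_right.mpr hQJ] at h1
    · intro j hj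
      rw [Subgroup.mem_centralizer_iff]
      intro y hy
      have hy2 : y ∈ Subgroup.centralizer (Cfsg.thompsonSubgroupA P : Set P) := hy.2
      rw [Subgroup.mem_centralizer_iff] at hy2
      exact (hy2 j hj).symm

end Cfsg.Agent.S3008
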