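import Cfsg.Statements.S3011
import Mathlib
import Cfsg.Agent.Lib.Helper29.Sidki
-- import your own Cfsg.Agent.* helpers here

set_option autoImplicit false
open Cfsg

namespace Cfsg.Agent.S3011

open Cfsg.Agent.Lib.Helper29

/-- Let G be a finite group and V a nontrivial elementary abelian 2-subgroup of G of order at most 4 such that, whenever an element of V inverts an element h of G of odd order, some nontrivial element of V commutes with h. Then V meets O₂(G) nontrivially. (The case of order at most 4 has a short argument from the Baer–Suzuki theorem.) -/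
theorem result {G : Type*} [Group G] [Finite G] (V : Subgroup G) (hV : Cfsg.IsElementaryAbelian 2 V) (hV1 : V ≠ ⊥) (hS : Cfsg.IsSidkiPair V) (h4 : Nat.card V ≤ 4) : V ⊓ Cfsg.pCore 2 G ≠ ⊥ := by
  obtain ⟨hVc, hV2⟩ := hV
  have hsq : ∀ v ∈ V, v * v = 1 := fun v hv => by rw [← pow_two]; exact hV2 v hv
  obtain ⟨⟨a, haV'⟩, ha1⟩ := (Subgroup.ne_bot_iff_exists_ne_one.mp hV1)
  have ha1' : a ≠ 1 := fun h => ha1 (Subtype.ext h)
  have key : ∀ v : G, v ∈ V → v ≠ 1 → v ∈ Cfsg.pCore 2 G → V ⊓ Cfsg.pCore 2 G ≠ ⊥ := by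
    intro v hv hv1 hvc hbot
    have hmem : v ∈ V ⊓ Cfsg.pCore 2 G := ⟨hv, hvc⟩
    rw [hbot] at hmem
    exact hv1 (Subgroup.mem_bot.mp hmem)
  by_cases hno : ∀ k : G, Odd (orderOf k) → a * k * a⁻¹ = k⁻¹ → k = 1
  · exact key a haV' ha1' (mem_pCore_two_of_no_inv a (hsq a haV') hno)
  · push Not at hno
    obtain ⟨h, hho, hah, hh1⟩ := hno
    obtain ⟨b, hbV, hb1, hbh⟩ := hS h a haV' hho hah
    have hab : a ≠ b := by
      intro hab
      rw [← hab] at hbh
      exact hh1 (eq_one_of_inv_of_comm a h hho hah hbh)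
    have hVall := four_group_elements V h4 a b haV' hbV ha1' hb1 hab (hsq b hbV)
    have hbno : ∀ k : G, Odd (orderOf k) → b * k * b⁻¹ = k⁻¹ → k = 1 := by
      intro k hko hbk
      obtain ⟨w, hwV, hw1, hwc⟩ := hS k b hbV hko hbk
      rcases hVall w hwV with hw | hw | hw | hw
      · exact absurd hw hw1
      · rw [hw] at hwc
        exact sidki_core V hS a b haV' hbV (hsq b hbV) hVall h k hho hko hh1 hah hbh hbk hwc
      · rw [hw] at hwc
        exact eq_one_of_inv_of_comm b k hko hbk hwc
      · rw [hw] at hwc hwV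
        have hVall' : ∀ w ∈ V, w = 1 ∨ w = a * b ∨ w = b ∨ w = (a * b) * b := by
          intro w hw
          have hab_b : a * b * b = a := by rw [mul_assoc, hsq b hbV, mul_one]
          rcases hVall w hw with h1 | h1 | h1 | h1
          · exact Or.inl h1
          · right; right; right; rw [hab_b]; exact h1
          · right; right; left; exact h1
          · right; left; exact h1
        have hch : (a * b) * h * (a * b)⁻¹ = h⁻¹ := by
          calc (a * b) * h * (a * b)⁻¹ = a * ((b * h) * b⁻¹) * a⁻¹ := by group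
            _ = a * h * a⁻¹ := by rw [hbh, mul_inv_cancel_right]
            _ = h⁻¹ := hah
        exact sidki_core V hS (a * b) b hwV hbV (hsq b hbV) hVall' h k hho hko hh1 hch hbh
          hbk hwc
    exact key b hbV hb1 (mem_pCore_two_of_no_inv b (hsq b hbV) hbno)

end Cfsg.Agent.S3011
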