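import Cfsg.Statements.S3013
import Mathlib

set_option autoImplicit false
open Cfsg

namespace Cfsg.Agent.S3013

theorem commute_of_sq {G : Type*} [Group G] (w x : G) (hx : Odd (orderOf x))
    (h : Commute w (x ^ 2)) : Commute w x := by
  obtain ⟨k, hk⟩ := hx
  have : x = (x ^ 2) ^ (k + 1) := by
    rw [← pow_mul]
    have : 2 * (k + 1) = orderOf x + 1 := by omega
    rw [this, pow_succ, pow_orderOf_eq_one, one_mul]
  rw [this]
  exact h.pow_right _

/-- Let G be a finite group and V a nontrivial elementary abelian 2-subgroup of G satisfying the Sidki pair condition. Let v ∈ V and let x be an element of odd order inverted by v, and put C = C_G(v) ∩ C_G(x), the centralizer of the dihedral subgroup generated by v and x. Then C ∩ V is nontrivial and satisfies the Sidki pair condition inside C: every odd-order element of C inverted by an element of C ∩ V commutes with a nontrivial element of C ∩ V. -/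
theorem result {G : Type*} [Group G] [Finite G] (V : Subgroup G) (hV : Cfsg.IsElementaryAbelian 2 V) (hV1 : V ≠ ⊥) (hS : Cfsg.IsSidkiPair V) (v x : G) (hv : v ∈ V) (hx : Odd (orderOf x)) (hinv : v * x * v⁻¹ = x⁻¹) (C : Subgroup G) (hC : C = Subgroup.centralizer ({v} : Set G) ⊓ Subgroup.centralizer ({x} : Set G)) : C ⊓ V ≠ ⊥ ∧ Cfsg.IsSidkiPair ((C ⊓ V).subgroupOf C) := by
  have hcomm : ∀ a ∈ V, ∀ b ∈ V, a * b = b * a := by
    intro a ha b hb
    haveI := hV.1
    have h := mul_comm' (⟨a, ha⟩ : V) ⟨b, hb⟩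
    exact congrArg Subtype.val h
  have memC : ∀ w : G, w ∈ C ↔ (v * w = w * v ∧ x * w = w * x) := by
    intro w
    rw [hC, Subgroup.mem_inf, Subgroup.mem_centralizer_iff, Subgroup.mem_centralizer_iff]
    simp
  constructor
  · obtain ⟨w, hwV, hw1, hwx⟩ := hS x v hv hx hinv
    intro hbot
    have hwC : w ∈ C := (memC w).mpr ⟨hcomm v hv w hwV, hwx.symm⟩
    have : w ∈ C ⊓ V := ⟨hwC, hwV⟩
    rw [hbot, Subgroup.mem_bot] at this
    exact hw1 this
  · intro h u hu hodd hinvh
    rw [Subgroup.mem_subgroupOf] at hu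
    have huV : (u : G) ∈ V := hu.2
    obtain ⟨hvh, hxh⟩ := (memC (h : G)).mp h.2
    obtain ⟨hvu, hxu⟩ := (memC (u : G)).mp u.2
    have hoddh : Odd (orderOf (h : G)) := by
      rw [Subgroup.orderOf_coe]; exact hodd
    have hinvh' : (u : G) * (h : G) * (u : G)⁻¹ = (h : G)⁻¹ := by
      have := congrArg Subtype.val hinvh
      simpa using this
    have hcxh : Commute x (h : G) := hxh
    have hyodd : Odd (orderOf (x * (h : G))) := by
      have hdvd := hcxh.orderOf_mul_dvd_lcm
      have hl : Odd (Nat.lcm (orderOf x) (orderOf (h : G))) := by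
        rw [Nat.odd_iff, ← Nat.two_dvd_ne_zero] at *
        intro h2
        rcases (Nat.Prime.dvd_mul Nat.prime_two).mp (dvd_trans h2 (Nat.lcm_dvd_mul _ _)) with h3 | h3
        · exact hx h3
        · exact hoddh h3
      exact Odd.of_dvd_nat hl hdvd
    have hinvy : ((u : G) * v) * (x * (h : G)) * ((u : G) * v)⁻¹ = (x * (h : G))⁻¹ := by
      have e1 : ((u : G) * v) * (x * (h : G)) * ((u : G) * v)⁻¹
          = ((u : G) * (v * x * v⁻¹) * (u : G)⁻¹) * ((u : G) * (v * (h : G) * v⁻¹) * (u : G)⁻¹) := by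
        group
      have e2 : v * (h : G) * v⁻¹ = (h : G) := by rw [hvh]; group
      have e3 : (u : G) * x⁻¹ * (u : G)⁻¹ = x⁻¹ := by
        have : (u : G) * x⁻¹ = x⁻¹ * (u : G) := by
          have h1 : x⁻¹ * (x * (u : G)) * x⁻¹ = x⁻¹ * ((u : G) * x) * x⁻¹ := by rw [hxu]
          simpa [mul_assoc] using h1
        rw [this]; group
      rw [e1, hinv, e2, e3, hinvh', mul_inv_rev]
      exact (hcxh.inv_inv).eq
    obtain ⟨w, hwV, hw1, hwy⟩ := hS (x * (h : G)) ((u : G) * v) (V.mul_mem huV hv) hyodd hinvy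
    have hwv : w * v = v * w := hcomm w hwV v hv
    have hwy' : Commute w (x * (h : G)) := hwy
    have hwvinv : Commute w v⁻¹ := (show Commute w v from hwv).inv_right
    have hw2 : Commute w (v * (x * (h : G)) * v⁻¹) :=
      ((show Commute w v from hwv).mul_right hwy').mul_right hwvinv
    have e4 : v * (x * (h : G)) * v⁻¹ = x⁻¹ * (h : G) := by
      have : v * (x * (h : G)) * v⁻¹ = (v * x * v⁻¹) * (v * (h : G) * v⁻¹) := by group
      rw [this, hinv]
      congr 1
      rw [hvh]; group
    rw [e4] at hw2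
    have hw3 : Commute w ((x * (h : G)) * (x⁻¹ * (h : G))⁻¹) := hwy'.mul_right hw2.inv_right
    have e5 : (x * (h : G)) * (x⁻¹ * (h : G))⁻¹ = x ^ 2 := by
      rw [mul_inv_rev, inv_inv, mul_assoc, ← mul_assoc (h : G), mul_inv_cancel, one_mul, pow_two]
    rw [e5] at hw3
    have hwx : Commute w x := commute_of_sq w x hx hw3
    have hwh : Commute w (h : G) := by
      have : (h : G) = x⁻¹ * (x * (h : G)) := by group
      rw [this]
      exact hwx.inv_right.mul_right hwy'
    have hwC : w ∈ C := (memC w).mpr ⟨hwv.symm, hwx.eq.symm⟩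
    refine ⟨⟨w, hwC⟩, ?_, ?_, ?_⟩
    · rw [Subgroup.mem_subgroupOf]; exact ⟨hwC, hwV⟩
    · intro h1
      apply hw1
      exact congrArg Subtype.val h1
    · apply Subtype.ext
      simpa using hwh.eq

end Cfsg.Agent.S3013
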