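import Cfsg.Statements.S3014
import Mathlib

set_option autoImplicit false
set_option linter.style.haveILetI false
open Cfsg

namespace Cfsg.Agent.S3014

variable {G : Type*} [Group G]

lemma mem_map_conj (H : Subgroup G) (g y : G) :
    y ∈ H.map (MulAut.conj g).toMonoidHom ↔ g⁻¹ * y * g ∈ H := by
  constructor
  · rintro ⟨x, hx, rfl⟩
    simpa [mul_assoc] using hx
  · intro h
    exact ⟨g⁻¹ * y * g, h, by simp [mul_assoc]⟩

lemma conj_mem_map_conj (H : Subgroup G) (g h : G) (hh : h ∈ H) :
    g * h * g⁻¹ ∈ H.map (MulAut.conj g).toMonoidHom :=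
  ⟨h, hh, by simp⟩

/-- strong closure -/
lemma strongly_closed (H M : Subgroup G)
    (hcl : ∀ g : G, (H ⊔ H.map (MulAut.conj g).toMonoidHom) ⊓ M = H)
    (g h : G) (hh : h ∈ H) (hM : g * h * g⁻¹ ∈ M) : g * h * g⁻¹ ∈ H := by
  rw [← hcl g]
  exact ⟨(le_sup_right : H.map (MulAut.conj g).toMonoidHom ≤ _) (conj_mem_map_conj H g h hh), hM⟩

lemma normal_in (H M : Subgroup G) (hHM : H ≤ M)
    (hcl : ∀ g : G, (H ⊔ H.map (MulAut.conj g).toMonoidHom) ⊓ M = H)
    (m h : G) (hm : m ∈ M) (hh : h ∈ H) : m * h * m⁻¹ ∈ H :=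
  strongly_closed H M hcl m h hh (M.mul_mem (M.mul_mem hm (hHM hh)) (M.inv_mem hm))

lemma sup_zpowers_eq (H M : Subgroup G) (hHM : H ≤ M) (hmaxH : IsCoatom (H.subgroupOf M))
    (z : G) (hzM : z ∈ M) (hzH : z ∉ H) : H ⊔ Subgroup.zpowers z = M := by
  apply le_antisymm
  · exact sup_le hHM (by rw [Subgroup.zpowers_le]; exact hzM)
  · have h1 : H.subgroupOf M < (H ⊔ Subgroup.zpowers z).subgroupOf M := by
      refine lt_of_le_of_ne ?_ ?_
      · intro x hx
        exact Subgroup.mem_subgroupOf.mpr (le_sup_left (a := H) (Subgroup.mem_subgroupOf.mp hx))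
      · intro heq
        have : (⟨z, hzM⟩ : M) ∈ (H ⊔ Subgroup.zpowers z).subgroupOf M :=
          Subgroup.mem_subgroupOf.mpr
            ((le_sup_right : Subgroup.zpowers z ≤ H ⊔ Subgroup.zpowers z)
              (Subgroup.mem_zpowers z))
        rw [← heq] at this
        exact hzH (Subgroup.mem_subgroupOf.mp this)
    have h2 := hmaxH.2 _ h1
    intro x hx
    have : (⟨x, hx⟩ : M) ∈ (H ⊔ Subgroup.zpowers z).subgroupOf M := by rw [h2]; trivial
    exact Subgroup.mem_subgroupOf.mp this


lemma map_conj_sup_zpowers (H M : Subgroup G) (z : G)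
    (h : H ⊔ Subgroup.zpowers z = M) (x : G) :
    H.map (MulAut.conj x).toMonoidHom ⊔ Subgroup.zpowers (x * z * x⁻¹)
      = M.map (MulAut.conj x).toMonoidHom := by
  rw [← h, Subgroup.map_sup, MonoidHom.map_zpowers]
  simp

/-- Case A: some point stabilizer intersection is not inside `H`. -/
lemma caseA [Finite G] (H M : Subgroup G) (hHM : H ≤ M)
    (hcl : ∀ g : G, (H ⊔ H.map (MulAut.conj g).toMonoidHom) ⊓ M = H)
    (hmaxH : IsCoatom (H.subgroupOf M)) (hmaxM : IsCoatom M)
    (x : G) (hxM : M.map (MulAut.conj x).toMonoidHom ≠ M)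
    (z : G) (hzM : z ∈ M) (hzMx : z ∈ M.map (MulAut.conj x).toMonoidHom) (hzH : z ∉ H) :
    Subgroup.normalClosure (H : Set G) ⊓ M = H := by
  set K := H ⊔ H.map (MulAut.conj x).toMonoidHom with hK
  -- z normalizes K
  have hz1 : ∀ k ∈ H, z * k * z⁻¹ ∈ H := fun k hk => normal_in H M hHM hcl z k hzM hk
  have hzx : x⁻¹ * z * x ∈ M := (mem_map_conj M x z).mp hzMx
  have hzxH : x⁻¹ * z * x ∉ H := by
    intro hc
    apply hzH
    have := strongly_closed H M hcl x (x⁻¹ * z * x) hc (by simpa [mul_assoc] using hzM)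
    simpa [mul_assoc] using this
  have hz2 : ∀ k ∈ H.map (MulAut.conj x).toMonoidHom,
      z * k * z⁻¹ ∈ H.map (MulAut.conj x).toMonoidHom := by
    intro k hk
    rw [mem_map_conj] at hk ⊢
    have := normal_in H M hHM hcl (x⁻¹ * z * x) (x⁻¹ * k * x) hzx hk
    simpa [mul_assoc] using this
  have hzK : ∀ k ∈ K, z * k * z⁻¹ ∈ K := by
    intro k hk
    have hmap : K.map (MulAut.conj z).toMonoidHom ≤ K := by
      rw [hK, Subgroup.map_sup]
      apply sup_le
      · rintro _ ⟨k, hk, rfl⟩
        exact (le_sup_left : H ≤ _) (by simpa using hz1 k hk)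
      · rintro _ ⟨k, hk, rfl⟩
        exact (le_sup_right : H.map (MulAut.conj x).toMonoidHom ≤ _) (by simpa using hz2 k hk)
    exact hmap (conj_mem_map_conj K z k hk)
  have hzN : z ∈ Subgroup.normalizer (K : Set G) := by
    rw [Subgroup.mem_normalizer_iff]
    intro k
    constructor
    · exact hzK k
    · intro hk
      -- finite: conjugation by z is a bijection of K
      have hinj : Function.Injective (fun k : K => (⟨z * k * z⁻¹, hzK k k.2⟩ : K)) := by
        intro a b hab
        have := congrArg Subtype.val hab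
        simp only [mul_left_inj, mul_right_inj] at this
        exact Subtype.ext this
      have hsurj := Finite.surjective_of_injective hinj
      obtain ⟨a, ha⟩ := hsurj ⟨z * k * z⁻¹, hk⟩
      have := congrArg Subtype.val ha
      simp only [mul_left_inj, mul_right_inj] at this
      rw [← this]; exact a.2
  -- K ⊔ zpowers z = ⊤
  have h1 : H ⊔ Subgroup.zpowers z = M := sup_zpowers_eq H M hHM hmaxH z hzM hzH
  have h2 : H ⊔ Subgroup.zpowers (x⁻¹ * z * x) = M :=
    sup_zpowers_eq H M hHM hmaxH _ hzx hzxH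
  have h3 := map_conj_sup_zpowers H M _ h2 x
  have h3' : x * (x⁻¹ * z * x) * x⁻¹ = z := by group
  rw [h3'] at h3
  have hM1 : M ≤ K ⊔ Subgroup.zpowers z := by
    rw [← h1]; exact sup_le_sup_right le_sup_left _
  have hM2 : M.map (MulAut.conj x).toMonoidHom ≤ K ⊔ Subgroup.zpowers z := by
    rw [← h3]; exact sup_le_sup_right le_sup_right _
  have htop : K ⊔ Subgroup.zpowers z = ⊤ := by
    by_contra hne
    have hlt : M < K ⊔ Subgroup.zpowers z ∨ M = K ⊔ Subgroup.zpowers z := lt_or_eq_of_le hM1
    rcases hlt with hlt | heq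
    · exact hne (hmaxM.2 _ hlt)
    · rw [← heq] at hM2
      apply hxM
      apply Subgroup.eq_of_le_of_card_ge hM2
      rw [Subgroup.card_map_of_injective (MulAut.conj x).injective]
  have hKn : K.Normal := by
    rw [← Subgroup.normalizer_eq_top_iff]
    apply top_le_iff.mp
    rw [← htop]
    exact sup_le Subgroup.le_normalizer (by rw [Subgroup.zpowers_le]; exact hzN)
  apply le_antisymm
  · have hle : Subgroup.normalClosure (H : Set G) ≤ K :=
      Subgroup.normalClosure_le_normal (fun h hh => (le_sup_left : H ≤ K) hh)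
    calc Subgroup.normalClosure (H : Set G) ⊓ M ≤ K ⊓ M := inf_le_inf_right _ hle
      _ = H := hcl x
  · exact le_inf Subgroup.subset_normalClosure hHM


lemma isCyclic_quot (H M : Subgroup G) [(H.subgroupOf M).Normal]
    (hmaxH : IsCoatom (H.subgroupOf M)) : IsCyclic (M ⧸ H.subgroupOf M) := by
  obtain ⟨z, hz⟩ : ∃ z : M, z ∉ H.subgroupOf M := by
    by_contra hc
    push Not at hc
    exact hmaxH.1 (top_le_iff.mp fun x _ => hc x)
  have hlt : H.subgroupOf M < H.subgroupOf M ⊔ Subgroup.zpowers z := by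
    refine lt_of_le_of_ne le_sup_left ?_
    intro heq
    apply hz
    rw [heq]
    exact (le_sup_right : Subgroup.zpowers z ≤ _) (Subgroup.mem_zpowers z)
  have htop := hmaxH.2 _ hlt
  have h2 := congrArg (Subgroup.map (QuotientGroup.mk' (H.subgroupOf M))) htop
  rw [Subgroup.map_sup, QuotientGroup.map_mk'_self, MonoidHom.map_zpowers, bot_sup_eq,
    Subgroup.map_top_of_surjective _ (QuotientGroup.mk'_surjective _)] at h2
  exact isCyclic_iff_exists_zpowers_eq_top.mpr ⟨_, h2⟩

/-- Case B: the transfer into `M ⧸ H`. -/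
lemma caseB [Finite G] (H M : Subgroup G) (hHM : H ≤ M)
    (hcl : ∀ g : G, (H ⊔ H.map (MulAut.conj g).toMonoidHom) ⊓ M = H)
    (hmaxH : IsCoatom (H.subgroupOf M))
    (hB : ∀ x : G, x ∉ M → M ⊓ M.map (MulAut.conj x).toMonoidHom ≤ H) :
    Subgroup.normalClosure (H : Set G) ⊓ M = H := by
  classical
  haveI hn : (H.subgroupOf M).Normal := by
    constructor
    intro n hn g
    rw [Subgroup.mem_subgroupOf] at hn ⊢
    exact normal_in H M hHM hcl g n g.2 hn
  haveI := isCyclic_quot H M hmaxH
  letI : CommGroup (M ⧸ H.subgroupOf M) := IsCyclic.commGroup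
  let ϕ : M →* M ⧸ H.subgroupOf M := QuotientGroup.mk' (H.subgroupOf M)
  let τ : G →* M ⧸ H.subgroupOf M := MonoidHom.transfer ϕ
  have hϕ1 : ∀ (y : G) (hy : y ∈ M), y ∈ H → ϕ ⟨y, hy⟩ = 1 := by
    intro y hy hyH
    exact (QuotientGroup.eq_one_iff _).mpr (Subgroup.mem_subgroupOf.mpr hyH)
  -- τ kills H
  have hτH : ∀ h ∈ H, τ h = 1 := by
    intro h hh
    letI := Fintype.ofFinite (Quotient (MulAction.orbitRel (Subgroup.zpowers h) (G ⧸ M)))
    show MonoidHom.transfer ϕ h = 1
    rw [MonoidHom.transfer_eq_prod_quotient_orbitRel_zpowers_quot]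
    apply Finset.prod_eq_one
    intro q _
    apply hϕ1
    have hmem := QuotientGroup.out_conj_pow_minimalPeriod_mem M h q.out
    have := strongly_closed H M hcl (q.out.out)⁻¹ (h ^ Function.minimalPeriod (h • ·) q.out)
      (H.pow_mem hh _) (by simpa using hmem)
    simpa using this
  -- τ restricted to M is ϕ
  have hτM : ∀ (m : G) (hm : m ∈ M), τ m = ϕ ⟨m, hm⟩ := by
    intro m hm
    letI := Fintype.ofFinite (Quotient (MulAction.orbitRel (Subgroup.zpowers m) (G ⧸ M)))
    show MonoidHom.transfer ϕ m = _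
    rw [MonoidHom.transfer_eq_prod_quotient_orbitRel_zpowers_quot]
    set q₀ : Quotient (MulAction.orbitRel (Subgroup.zpowers m) (G ⧸ M)) :=
      Quotient.mk'' ((1 : G) : G ⧸ M) with hq₀
    have hfix : ∀ k ∈ Subgroup.zpowers m, k • (((1 : G) : G ⧸ M)) = ((1 : G) : G ⧸ M) := by
      intro k hk
      have hkM : k ∈ M := (Subgroup.zpowers_le.mpr hm) hk
      rw [MulAction.Quotient.smul_mk, QuotientGroup.eq]
      simpa using hkM
    have hout : ∀ q : Quotient (MulAction.orbitRel (Subgroup.zpowers m) (G ⧸ M)),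
        q.out.out ∈ M → q = q₀ := by
      intro q hq
      have h1 : q.out = ((1 : G) : G ⧸ M) := by
        rw [← QuotientGroup.out_eq' q.out, QuotientGroup.eq]
        simpa using hq
      rw [← Quotient.out_eq q, h1]
    have hq₀out : q₀.out = ((1 : G) : G ⧸ M) := by
      have h1 : Quotient.mk'' q₀.out = q₀ := Quotient.out_eq' q₀
      rw [hq₀] at h1
      have h2 := Quotient.exact' h1
      change q₀.out ∈ MulAction.orbit (Subgroup.zpowers m) (((1 : G) : G ⧸ M)) at h2
      obtain ⟨k, hk⟩ := h2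
      rw [← hk]
      exact hfix k.1 k.2
    rw [Fintype.prod_eq_single q₀]
    · -- the factor at q₀
      have hper : Function.minimalPeriod (m • ·) q₀.out = 1 := by
        rw [Function.minimalPeriod_eq_one_iff_isFixedPt, hq₀out]
        exact hfix m (Subgroup.mem_zpowers m)
      have hxM : q₀.out.out ∈ M := by
        have := QuotientGroup.out_eq' q₀.out
        rw [hq₀out] at this ⊢
        have h3 := QuotientGroup.eq.mp this
        simpa using h3
      have : (⟨q₀.out.out⁻¹ * m ^ Function.minimalPeriod (m • ·) q₀.out * q₀.out.out,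
            QuotientGroup.out_conj_pow_minimalPeriod_mem M m q₀.out⟩ : M)
          = (⟨q₀.out.out, hxM⟩ : M)⁻¹ * ⟨m, hm⟩ * ⟨q₀.out.out, hxM⟩ := by
        apply Subtype.ext
        simp [hper]
      rw [this, map_mul, map_mul, map_inv, mul_comm, mul_inv_cancel_left]
    · intro q hq
      have hxM : q.out.out ∉ M := fun h => hq (hout q h)
      have hmem := QuotientGroup.out_conj_pow_minimalPeriod_mem M m q.out
      set x := q.out.out with hx
      set n := Function.minimalPeriod (m • ·) q.out with hn'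
      have hmn : m ^ n ∈ H := by
        apply hB x hxM
        exact ⟨M.pow_mem hm n, (mem_map_conj M x (m ^ n)).mpr hmem⟩
      apply hϕ1
      have := strongly_closed H M hcl x⁻¹ (m ^ n) hmn (by simpa using hmem)
      simpa using this
  apply le_antisymm
  · intro g hg
    have hgN : g ∈ τ.ker := by
      have hle : Subgroup.normalClosure (H : Set G) ≤ τ.ker :=
        Subgroup.normalClosure_le_normal (fun h hh => hτH h hh)
      exact hle hg.1
    have h1 : τ g = 1 := hgN
    rw [hτM g hg.2] at h1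
    have := (QuotientGroup.eq_one_iff _).mp h1
    exact Subgroup.mem_subgroupOf.mp this
  · exact le_inf Subgroup.subset_normalClosure hHM

/-- Let G be a finite group and H ≤ M ≤ G subgroups such that for every g ∈ G the subgroup generated by H and g H g⁻¹ meets M exactly in H. If H is a maximal subgroup of M and M is a maximal subgroup of G, then the normal closure of H in G meets M exactly in H. -/
theorem result {G : Type*} [Group G] [Finite G] (H M : Subgroup G) (hHM : H ≤ M) (hcl : ∀ g : G, (H ⊔ H.map (MulAut.conj g).toMonoidHom) ⊓ M = H) (hmaxH : IsCoatom (H.subgroupOf M)) (hmaxM : IsCoatom M) : Subgroup.normalClosure (H : Set G) ⊓ M = H := by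
  classical
  by_cases hN : ∀ g : G, H.map (MulAut.conj g).toMonoidHom ≤ M
  · -- `H` is normal
    have hnorm : H.Normal := by
      constructor
      intro n hn g
      have h1 : H ⊔ H.map (MulAut.conj g).toMonoidHom ≤ M := sup_le hHM (hN g)
      have h2 := hcl g
      rw [inf_eq_left.mpr h1] at h2
      have h3 : g * n * g⁻¹ ∈ H ⊔ H.map (MulAut.conj g).toMonoidHom :=
        (le_sup_right : H.map (MulAut.conj g).toMonoidHom ≤ _) (conj_mem_map_conj H g n hn)
      rw [h2] at h3
      exact h3
    apply le_antisymm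
    · exact inf_le_left.trans (Subgroup.normalClosure_le_normal (le_refl _))
    · exact le_inf Subgroup.subset_normalClosure hHM
  · by_cases hA : ∀ x : G, x ∉ M → M ⊓ M.map (MulAut.conj x).toMonoidHom ≤ H
    · exact caseB H M hHM hcl hmaxH hA
    · push Not at hA
      obtain ⟨x, hxM, hx⟩ := hA
      obtain ⟨z, hz, hzH⟩ := SetLike.not_le_iff_exists.mp hx
      have hxM' : M.map (MulAut.conj x).toMonoidHom ≠ M := by
        intro heq
        apply hN
        have hxn : x ∈ Subgroup.normalizer (M : Set G) := by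
          rw [Subgroup.mem_normalizer_iff_map_conj_eq]
          exact heq
        have hlt : M < Subgroup.normalizer (M : Set G) :=
          lt_of_le_of_ne Subgroup.le_normalizer (fun h => hxM (h ▸ hxn))
        have htop := hmaxM.2 _ hlt
        have hMn : M.Normal := Subgroup.normalizer_eq_top_iff.mp htop
        intro g
        rintro _ ⟨h, hh, rfl⟩
        simpa using hMn.conj_mem h (hHM hh) g
      exact caseA H M hHM hcl hmaxH hmaxM x hxM' z hz.1 hz.2 hzH

end Cfsg.Agent.S3014
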