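import Cfsg.Statements.S3015
import Cfsg.Agent.S3014
import Mathlib

set_option autoImplicit false
set_option linter.style.haveILetI false
open Cfsg

namespace Cfsg.Agent.S3015

open Cfsg.Agent.S3014 (mem_map_conj conj_mem_map_conj)

variable {G : Type*} [Group G]

/-- the subgroup generated by the `p'`-elements of `H` -/
def ppr (p : ℕ) (H : Subgroup G) : Subgroup G :=
  Subgroup.closure {x | x ∈ H ∧ (orderOf x).Coprime p}

lemma ppr_le (p : ℕ) (H : Subgroup G) : ppr p H ≤ H := by
  rw [ppr, Subgroup.closure_le]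
  exact fun x hx => hx.1

lemma ppr_map_conj (p : ℕ) (H : Subgroup G) (g : G) :
    ppr p (H.map (MulAut.conj g).toMonoidHom) = (ppr p H).map (MulAut.conj g).toMonoidHom := by
  rw [ppr, ppr, MonoidHom.map_closure]
  congr 1
  ext y
  constructor
  · rintro ⟨⟨x, hx, rfl⟩, hy⟩
    refine ⟨x, ⟨hx, ?_⟩, rfl⟩
    have : orderOf ((MulAut.conj g).toMonoidHom x) = orderOf x :=
      orderOf_injective (MulAut.conj g).toMonoidHom (MulAut.conj g).injective x
    rw [← this]; exact hy
  · rintro ⟨x, ⟨hx, hx2⟩, rfl⟩
    refine ⟨⟨x, hx, rfl⟩, ?_⟩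
    have : orderOf ((MulAut.conj g).toMonoidHom x) = orderOf x :=
      orderOf_injective (MulAut.conj g).toMonoidHom (MulAut.conj g).injective x
    show (orderOf ((MulAut.conj g).toMonoidHom x)).Coprime p
    rw [this]; exact hx2

/-- elements of `M` of order prime to the index of the normal subgroup `H` lie in `H`. -/
lemma mem_of_coprime (M H : Subgroup G) (hHn : (H.subgroupOf M).Normal)
    (x : G) (hx : x ∈ M) (hc : (orderOf x).Coprime (H.relIndex M)) : x ∈ H := by
  have h1 : (⟨x, hx⟩ : M) ^ (H.subgroupOf M).index ∈ H.subgroupOf M :=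
    Subgroup.pow_index_mem _ _
  rw [Subgroup.mem_subgroupOf] at h1
  have h2 : x ^ (H.relIndex M) ∈ H := by simpa [Subgroup.relIndex] using h1
  obtain ⟨m, hm⟩ := exists_pow_eq_self_of_coprime hc.symm
  rw [← hm]
  exact H.pow_mem h2 m


lemma map_conj_eq_of_le [Finite G] (H : Subgroup G) (g : G)
    (h : H.map (MulAut.conj g).toMonoidHom ≤ H) : H.map (MulAut.conj g).toMonoidHom = H := by
  apply Subgroup.eq_of_le_of_card_ge h
  rw [Subgroup.card_map_of_injective (MulAut.conj g).injective]

lemma map_conj_eq_of_ge [Finite G] (H : Subgroup G) (g : G)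
    (h : H ≤ H.map (MulAut.conj g).toMonoidHom) : H.map (MulAut.conj g).toMonoidHom = H := by
  symm
  apply Subgroup.eq_of_le_of_card_ge h
  rw [Subgroup.card_map_of_injective (MulAut.conj g).injective]

lemma normal_of_normalizer_ge [Finite G] (M K : Subgroup G) (hmaxM : IsCoatom M)
    (hM : M ≤ Subgroup.normalizer (K : Set G)) (g : G) (hg : g ∉ M)
    (hgK : g ∈ Subgroup.normalizer (K : Set G)) : K.Normal := by
  rw [← Subgroup.normalizer_eq_top_iff]
  apply hmaxM.2
  exact lt_of_le_of_ne hM (fun h => hg (h ▸ hgK))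

/-- In a simple group, a maximal subgroup `M ≠ ⊥` is self-normalizing. -/
lemma mem_of_map_conj_eq [Finite G] [IsSimpleGroup G] (M : Subgroup G) (hmaxM : IsCoatom M)
    (hM : M ≠ ⊥) (g : G) (hg : M.map (MulAut.conj g).toMonoidHom = M) : g ∈ M := by
  by_contra hgM
  have hn : M.Normal := by
    apply normal_of_normalizer_ge M M hmaxM Subgroup.le_normalizer g hgM
    rw [Subgroup.mem_normalizer_iff_map_conj_eq]
    exact hg
  rcases hn.eq_bot_or_eq_top with h | h
  · exact hM h
  · exact hmaxM.1 h

lemma isCoatom_of_prime_index [Finite G] (M H : Subgroup G)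
    (hidx : (H.relIndex M).Prime) : IsCoatom (H.subgroupOf M) := by
  constructor
  · intro h
    rw [Subgroup.relIndex, h, Subgroup.index_top] at hidx
    exact Nat.not_prime_one hidx
  · intro K hK
    have h1 : K.index ∣ (H.subgroupOf M).index := Subgroup.index_dvd_of_le hK.le
    rcases (Nat.dvd_prime hidx).mp h1 with h | h
    · exact Subgroup.index_eq_one.mp h
    · exfalso
      have h2 := Subgroup.card_mul_index K
      have h3 := Subgroup.card_mul_index (H.subgroupOf M)
      rw [h] at h2
      have h4 : Nat.card K = Nat.card (H.subgroupOf M) := by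
        have hpos : 0 < (H.subgroupOf M).index := hidx.pos
        exact Nat.eq_of_mul_eq_mul_right hpos (h2.trans h3.symm)
      exact hK.ne (Subgroup.eq_of_le_of_card_ge hK.le h4.le)


lemma card_mul_relIndex' (H M : Subgroup G) (h : H ≤ M) :
    Nat.card H * H.relIndex M = Nat.card M := by
  rw [← Nat.card_congr (Subgroup.subgroupOfEquivOfLe h).toEquiv]
  exact Subgroup.card_mul_index _

/-- No conjugate of `H` other than `H` lies in `M`. -/
lemma no_arrow [Finite G] [IsSimpleGroup G] (M H : Subgroup G) (hmaxM : IsCoatom M)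
    (hHM : H ≤ M) (hHn : (H.subgroupOf M).Normal) (hidx : (H.relIndex M).Prime) (g : G)
    (hg : H.map (MulAut.conj g).toMonoidHom ≤ M) : H.map (MulAut.conj g).toMonoidHom = H := by
  by_contra hne
  set p := H.relIndex M with hp
  set H' := H.map (MulAut.conj g).toMonoidHom with hH'
  have hMbot : M ≠ ⊥ := by
    intro h
    rw [hp, h, Subgroup.relIndex_bot_right] at hidx
    exact Nat.not_prime_one hidx
  have hHnorm : ∀ m ∈ M, ∀ h ∈ H, m * h * m⁻¹ ∈ H := by
    intro m hm h hh
    have := hHn.conj_mem ⟨h, hHM hh⟩ (Subgroup.mem_subgroupOf.mpr hh) ⟨m, hm⟩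
    exact Subgroup.mem_subgroupOf.mp this
  have hMH : ∀ m ∈ M, H.map (MulAut.conj m).toMonoidHom = H := by
    intro m hm
    apply map_conj_eq_of_le
    rintro _ ⟨h, hh, rfl⟩
    simpa using hHnorm m hm h hh
  have hgM : g ∉ M := fun h => hne (hMH g h)
  have hMg : M.map (MulAut.conj g).toMonoidHom ≠ M :=
    fun h => hgM (mem_of_map_conj_eq M hmaxM hMbot g h)
  have hR1 : ppr p H' ≤ ppr p H := by
    rw [ppr, Subgroup.closure_le]
    intro x hx
    apply Subgroup.subset_closure
    exact ⟨mem_of_coprime M H hHn x (hg hx.1) hx.2, hx.2⟩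
  have hR2 : (ppr p H).map (MulAut.conj g).toMonoidHom = ppr p H := by
    apply map_conj_eq_of_le
    rw [← ppr_map_conj]; exact hR1
  have hR3 : ∀ m ∈ M, (ppr p H).map (MulAut.conj m).toMonoidHom = ppr p H := by
    intro m hm
    rw [← ppr_map_conj, hMH m hm]
  have hRn : (ppr p H).Normal := by
    apply normal_of_normalizer_ge M _ hmaxM _ g hgM
    · rw [Subgroup.mem_normalizer_iff_map_conj_eq]; exact hR2
    · intro m hm
      rw [Subgroup.mem_normalizer_iff_map_conj_eq]; exact hR3 m hm
  have hRbot : ppr p H = ⊥ := by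
    rcases hRn.eq_bot_or_eq_top with h | h
    · exact h
    · exfalso; apply hmaxM.1; apply top_le_iff.mp; rw [← h]; exact (ppr_le p H).trans hHM
  have hpr : p.Prime := hidx
  have hcardM : ∃ k, Nat.card M = p ^ k := by
    refine ⟨_, Nat.eq_prime_pow_of_unique_prime_dvd Nat.card_pos.ne' ?_⟩
    intro q hq hqd
    by_contra hqp
    haveI := Fact.mk hq
    obtain ⟨x, hx⟩ := exists_prime_orderOf_dvd_card' (G := M) q hqd
    have hcop : (orderOf (x : G)).Coprime p := by
      rw [Subgroup.orderOf_coe, hx]
      exact (Nat.coprime_primes hq hpr).mpr hqp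
    have hxH : (x : G) ∈ H := mem_of_coprime M H hHn x x.2 hcop
    have hxR : (x : G) ∈ ppr p H := Subgroup.subset_closure ⟨hxH, hcop⟩
    rw [hRbot, Subgroup.mem_bot] at hxR
    have h1 : orderOf (x : G) = 1 := by rw [hxR, orderOf_one]
    rw [Subgroup.orderOf_coe, hx] at h1
    exact hq.one_lt.ne' h1
  obtain ⟨k, hk⟩ := hcardM
  have hk0 : k ≠ 0 := by
    rintro rfl
    apply hMbot
    exact Subgroup.card_eq_one.mp (by simpa using hk)
  have hminFac : (Nat.card M).minFac = p := by
    rw [hk]; exact hpr.pow_minFac hk0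
  have hcardH' : Nat.card H' = Nat.card H :=
    Subgroup.card_map_of_injective (MulAut.conj g).injective
  have hidx' : (H'.subgroupOf M).index = p := by
    have h1 := card_mul_relIndex' H M hHM
    have h2 := card_mul_relIndex' H' M hg
    rw [hcardH', ← h1] at h2
    exact Nat.eq_of_mul_eq_mul_left Nat.card_pos h2
  have hH'n : (H'.subgroupOf M).Normal :=
    Subgroup.normal_of_index_eq_minFac_card (hidx'.trans hminFac.symm)
  -- `H'` is normalized by `M` and by `M^g`
  have hN1 : M ≤ Subgroup.normalizer (H' : Set G) := by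
    rw [Subgroup.le_normalizer_iff]
    intro m hm h hh
    have := hH'n.conj_mem ⟨h, hg hh⟩ (Subgroup.mem_subgroupOf.mpr hh) ⟨m, hm⟩
    exact Subgroup.mem_subgroupOf.mp this
  have hN2 : M.map (MulAut.conj g).toMonoidHom ≤ Subgroup.normalizer (H' : Set G) := by
    rw [Subgroup.le_normalizer_iff]
    rintro _ ⟨m, hm, rfl⟩ _ ⟨h, hh, rfl⟩
    refine ⟨m * h * m⁻¹, hHnorm m hm h hh, ?_⟩
    simp [mul_assoc]
  have hNtop : Subgroup.normalizer (H' : Set G) = ⊤ := by
    by_contra hnt
    rcases lt_or_eq_of_le hN1 with hlt | heq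
    · exact hnt (hmaxM.2 _ hlt)
    · rw [← heq] at hN2
      exact hMg (map_conj_eq_of_le M g hN2)
  have hH'N : H'.Normal := Subgroup.normalizer_eq_top_iff.mp hNtop
  rcases hH'N.eq_bot_or_eq_top with h | h
  · apply hne
    have hHbot : H = ⊥ := by
      rw [← Subgroup.card_eq_one, ← hcardH', h]
      simp
    rw [h, hHbot]
  · apply hmaxM.1
    apply top_le_iff.mp
    rw [← h]; exact hg


/-- Herstein: a nonabelian simple group has no maximal subgroup of prime order. -/
lemma herstein [Finite G] [IsSimpleGroup G] (hG : ¬ IsMulCommutative G) (M : Subgroup G)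
    (hmaxM : IsCoatom M) (p : ℕ) (hp : p.Prime) (hM : Nat.card M = p) : False := by
  haveI := Fact.mk hp
  have hMp : IsPGroup p M := IsPGroup.of_card (n := 1) (by simpa using hM)
  obtain ⟨P, hP⟩ := hMp.exists_le_sylow
  have hMbot : M ≠ ⊥ := by
    intro h
    rw [h] at hM
    simp at hM
    exact hp.one_lt.ne hM
  have hPM : (P : Subgroup G) = M := by
    by_contra hne
    have hlt : M < (P : Subgroup G) := lt_of_le_of_ne hP (Ne.symm hne)
    have htop := hmaxM.2 _ hlt
    have hGp : IsPGroup p G := by
      have h1 := P.isPGroup'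
      rw [htop] at h1
      exact IsPGroup.of_equiv h1 Subgroup.topEquiv
    haveI := hGp.center_nontrivial
    have hc : Subgroup.center G = ⊤ := by
      rcases (inferInstance : (Subgroup.center G).Normal).eq_bot_or_eq_top with h | h
      · exfalso
        exact (Subgroup.nontrivial_iff_ne_bot _).mp inferInstance h
      · exact h
    apply hG
    refine ⟨⟨fun a b => ?_⟩⟩
    have : a ∈ Subgroup.center G := by rw [hc]; trivial
    exact (Subgroup.mem_center_iff.mp this b).symm
  have hNP : Subgroup.normalizer ((P : Subgroup G) : Set G) = M := by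
    by_contra hne
    have hlt : M < Subgroup.normalizer ((P : Subgroup G) : Set G) :=
      lt_of_le_of_ne (hPM ▸ Subgroup.le_normalizer) (Ne.symm hne)
    have htop := hmaxM.2 _ hlt
    have hn : (P : Subgroup G).Normal := Subgroup.normalizer_eq_top_iff.mp htop
    rw [hPM] at hn
    rcases hn.eq_bot_or_eq_top with h | h
    · exact hMbot h
    · exact hmaxM.1 h
  have hcyc : IsCyclic M := isCyclic_of_prime_card hM
  have hcomm : ∀ a ∈ M, ∀ b ∈ M, a * b = b * a := by
    intro a ha b hb
    letI := IsCyclic.commGroup (α := M)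
    have := mul_comm (⟨a, ha⟩ : M) ⟨b, hb⟩
    exact congrArg Subtype.val this
  have hNC : Subgroup.normalizer ((P : Subgroup G) : Set G) ≤
      Subgroup.centralizer ((P : Subgroup G) : Set G) := by
    rw [hNP]
    intro a ha
    rw [Subgroup.mem_centralizer_iff]
    intro b hb
    exact hcomm b (hPM ▸ hb) a ha
  have hcomp := MonoidHom.ker_transferSylow_isComplement' P hNC
  rcases (MonoidHom.normal_ker (MonoidHom.transferSylow P hNC)).eq_bot_or_eq_top with h | h
  · rw [h, Subgroup.isComplement'_bot_left] at hcomp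
    exact hmaxM.1 (hPM ▸ hcomp)
  · rw [h, Subgroup.isComplement'_top_left] at hcomp
    exact hMbot (hPM ▸ hcomp)

lemma eq_or_eq_of_coatom (H M L : Subgroup G) (hco : IsCoatom (H.subgroupOf M))
    (hHL : H ≤ L) (hLM : L ≤ M) : L = H ∨ L = M := by
  by_cases h : L ≤ H
  · left; exact le_antisymm h hHL
  · right
    apply le_antisymm hLM
    have hlt : H.subgroupOf M < L.subgroupOf M := by
      refine lt_of_le_of_ne
        (fun x hx => Subgroup.mem_subgroupOf.mpr (hHL (Subgroup.mem_subgroupOf.mp hx))) ?_
      intro heq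
      apply h
      intro x hx
      have : (⟨x, hLM hx⟩ : M) ∈ L.subgroupOf M := Subgroup.mem_subgroupOf.mpr hx
      rw [← heq] at this
      exact Subgroup.mem_subgroupOf.mp this
    have htop := hco.2 _ hlt
    intro x hx
    have : (⟨x, hx⟩ : M) ∈ L.subgroupOf M := by rw [htop]; trivial
    exact Subgroup.mem_subgroupOf.mp this

/-- Let G be a finite non-abelian simple group, M a maximal subgroup of G and H a normal subgroup of M of prime index in M. Then G is generated by H together with one of its conjugates. -/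
theorem result {G : Type*} [Group G] [Finite G] [IsSimpleGroup G] (hG : ¬ IsMulCommutative G) (M H : Subgroup G) (hmaxM : IsCoatom M) (hHM : H ≤ M) (hHn : (H.subgroupOf M).Normal) (hidx : (H.relIndex M).Prime) : ∃ g : G, H ⊔ H.map (MulAut.conj g).toMonoidHom = ⊤ := by
  classical
  by_contra hno
  push Not at hno
  have hHneM : ¬ M ≤ H := by
    intro h
    rw [Subgroup.relIndex_eq_one.mpr h] at hidx
    exact Nat.not_prime_one hidx
  have hcoH := isCoatom_of_prime_index M H hidx
  have hcl : ∀ g : G, (H ⊔ H.map (MulAut.conj g).toMonoidHom) ⊓ M = H := by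
    intro g
    set K := H ⊔ H.map (MulAut.conj g).toMonoidHom with hK
    by_contra hne
    have hHle : H ≤ K ⊓ M := le_inf le_sup_left hHM
    rcases eq_or_eq_of_coatom H M (K ⊓ M) hcoH hHle inf_le_right with h | h
    · exact hne h
    · have hMK : M ≤ K := inf_eq_right.mp h
      have hKM : K = M := by
        rcases lt_or_eq_of_le hMK with hlt | heq
        · exact absurd (hmaxM.2 _ hlt) (hno g)
        · exact heq.symm
      have hgM : H.map (MulAut.conj g).toMonoidHom ≤ M := by
        rw [← hKM]; exact le_sup_right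
      have h2 := no_arrow M H hmaxM hHM hHn hidx g hgM
      apply hHneM
      rw [← hKM, hK, h2, sup_idem]
  have h14 := Cfsg.Agent.S3014.result H M hHM hcl hcoH hmaxM
  rcases (Subgroup.normalClosure_normal (s := (H : Set G))).eq_bot_or_eq_top with h | h
  · have hHbot : H = ⊥ := le_bot_iff.mp (h ▸ Subgroup.subset_normalClosure)
    have hcard : Nat.card M = H.relIndex M := by rw [hHbot, Subgroup.relIndex_bot_left]
    exact herstein hG M hmaxM _ hidx hcard
  · rw [h, top_inf_eq] at h14
    exact hHneM h14.le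

end Cfsg.Agent.S3015
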