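-- Statement S3017 (Tong-Viet: extremely closed abelian 2-subgroups, `G = N_G(H) O(G)`).
-- Proof: Lib.Helper53.ExtClosed1-3: induction on the order, using the `Z*`-theorem (S0215) when
-- `H` has a unique involution and a coprime-generation closure argument otherwise.
import Cfsg.Statements.S3017
import Cfsg.Agent.S0215
import Cfsg.Agent.Lib.Helper53.ExtClosed3

set_option autoImplicit false
open Cfsg

namespace Cfsg.Agent.S3017

/-- Let G be a finite group and H an abelian 2-subgroup of G that is extremely closed (for every g, the subgroup generated by H and g H g⁻¹ meets N_G(H) exactly in H). Then G = N_G(H) O(G), where O(G) is the largest normal subgroup of odd order. For H of order 2 this is Glauberman's Z*-statement. -/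
theorem result {G : Type*} [Group G] [Finite G] (H : Subgroup G) (hH2 : IsPGroup 2 H) (hHab : IsMulCommutative H) (hcl : Cfsg.IsExtremelyClosed H) : Subgroup.normalizer (H : Set G) ⊔ Cfsg.oddCore G = ⊤ := by
  have hE : Cfsg.Agent.Lib.Helper53.ECHyp H := by
    refine ⟨hH2, ?_, hcl⟩
    intro x hx y hy
    have := mul_comm' (⟨x, hx⟩ : H) ⟨y, hy⟩
    exact congrArg Subtype.val this
  obtain ⟨Y, hYn, hYodd, hdec⟩ := Cfsg.Agent.Lib.Helper53.ec_main
    (fun G _ _ P t ht htP hiso => Cfsg.Agent.S0215.result P t ht htP hiso)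
    (Nat.card G) G H le_rfl hE
  rw [eq_top_iff]
  intro g _
  obtain ⟨m, hm, y, hy, rfl⟩ := hdec g
  have hYle : Y ≤ Cfsg.oddCore G := le_sSup ⟨hYn, hYodd⟩
  exact Subgroup.mul_mem_sup hm (hYle hy)

end Cfsg.Agent.S3017
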