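import Cfsg.Statements.S3020
import Cfsg.Agent.Lib.Helper50.Burnside
import Mathlib

set_option autoImplicit false
open Cfsg

namespace Cfsg.Agent.S3020

open Cfsg.Agent.Lib.Helper50

/-- Let G be a finite group, p a prime and H an abelian p-subgroup of G that is extremely closed (for every g, the subgroup generated by H and g H g⁻¹ meets N_G(H) exactly in H). Then for every g ∈ G, the subgroup T generated by H and g H g⁻¹ is the product of H with O_{p'}(T), and H meets O_{p'}(T) trivially; that is, O_{p'}(T) is a normal p-complement of H in T. -/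
theorem result {G : Type*} [Group G] [Finite G] {p : ℕ} [Fact p.Prime] (H : Subgroup G) (hHp : IsPGroup p H) (hHab : IsMulCommutative H) (hcl : Cfsg.IsExtremelyClosed H) (g : G) (T : Subgroup G) (hT : T = H ⊔ H.map (MulAut.conj g).toMonoidHom) : H ⊔ (Cfsg.pPrimeCore p ↥T).map T.subtype = T ∧ H ⊓ (Cfsg.pPrimeCore p ↥T).map T.subtype = ⊥ := by
  have hHT : H ≤ T := by rw [hT]; exact le_sup_left
  have hinf : T ⊓ Subgroup.normalizer (H : Set G) = H := by rw [hT]; exact hcl g
  have hnorm := normalizer_subgroupOf_eq_of_inf H T hHT hinf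
  have hp' : IsPGroup p (H.subgroupOf T) := hHp.comap_subtype
  have hab : ∀ a ∈ H.subgroupOf T, ∀ b ∈ H.subgroupOf T, a * b = b * a := by
    intro a ha b hb
    rw [Subgroup.mem_subgroupOf] at ha hb
    have h := mul_comm' (⟨(a : G), ha⟩ : H) ⟨(b : G), hb⟩
    apply Subtype.ext
    have h' : (a : G) * (b : G) = (b : G) * (a : G) := congrArg Subtype.val h
    simpa using h'
  have hc := pPrimeCore_isComplement'_of_selfNormalizing (H.subgroupOf T) hp' hab hnorm
  have hmapH : (H.subgroupOf T).map T.subtype = H := by
    rw [Subgroup.subgroupOf_map_subtype, inf_of_le_left hHT]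
  constructor
  · have h1 := hc.sup_eq_top
    have h2 := congrArg (Subgroup.map T.subtype) h1
    rw [Subgroup.map_sup, hmapH, ← MonoidHom.range_eq_map, Subgroup.range_subtype] at h2
    rw [sup_comm]; exact h2
  · have h1 := hc.disjoint.eq_bot
    have h2 := congrArg (Subgroup.map T.subtype) h1
    rw [Subgroup.map_inf _ _ _ T.subtype_injective, hmapH, Subgroup.map_bot] at h2
    rw [inf_comm]; exact h2

end Cfsg.Agent.S3020
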