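import Cfsg.Statements.S3021
import Mathlib

set_option autoImplicit false
open Cfsg

namespace Cfsg.Agent.S3021

/-- In a finite p-group `L`, a subgroup `H ≤ L` with `L ⊓ N(H) = H` is all of `L`. -/
theorem selfnorm_eq {G : Type*} [Group G] [Finite G] {p : ℕ} [Fact p.Prime] (H L : Subgroup G)
    (hL : IsPGroup p L) (hHL : H ≤ L) (h : L ⊓ Subgroup.normalizer (H : Set G) = H) : L ≤ H := by
  haveI : Group.IsNilpotent L := hL.isNilpotent
  have hnc : NormalizerCondition L := Group.normalizerCondition_of_isNilpotent
  rw [normalizerCondition_iff_only_full_group_self_normalizing] at hnc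
  have key : Subgroup.normalizer ((H.subgroupOf L : Subgroup L) : Set L) = H.subgroupOf L := by
    apply le_antisymm
    · intro x hx
      rw [Subgroup.mem_subgroupOf]
      have hxN : (x : G) ∈ Subgroup.normalizer (H : Set G) := by
        rw [Subgroup.mem_normalizer_iff]
        intro g
        constructor
        · intro hg
          have := (Subgroup.mem_normalizer_iff.mp hx ⟨g, hHL hg⟩).mp
            (by rw [Subgroup.mem_subgroupOf]; exact hg)
          rw [Subgroup.mem_subgroupOf] at this
          simpa using this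
        · intro hg
          have hgL : g ∈ L := by
            have h1 : (x : G) * g * (x : G)⁻¹ ∈ L := hHL hg
            have h2 : (x : G)⁻¹ * ((x : G) * g * (x : G)⁻¹) * (x : G) ∈ L :=
              L.mul_mem (L.mul_mem (L.inv_mem x.2) h1) x.2
            simpa [mul_assoc] using h2
          have := (Subgroup.mem_normalizer_iff.mp hx ⟨g, hgL⟩).mpr
            (by rw [Subgroup.mem_subgroupOf]; simpa using hg)
          rw [Subgroup.mem_subgroupOf] at this
          simpa using this
      have : (x : G) ∈ L ⊓ Subgroup.normalizer (H : Set G) := ⟨x.2, hxN⟩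
      rw [h] at this
      exact this
    · exact Subgroup.le_normalizer
  have htop := hnc _ key
  intro x hx
  have : (⟨x, hx⟩ : L) ∈ H.subgroupOf L := by rw [htop]; trivial
  rw [Subgroup.mem_subgroupOf] at this
  exact this

/-- Let G be a finite group, p a prime and H a p-subgroup of G that is extremely closed (for every g, the subgroup generated by H and g H g⁻¹ meets N_G(H) exactly in H). Then every p-subgroup Q of G containing H has N_G(Q) ≤ N_G(H); in particular every Sylow p-subgroup P of G containing H normalizes H, and H is strongly closed in P with respect to G. -/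
theorem result {G : Type*} [Group G] [Finite G] {p : ℕ} [Fact p.Prime] (H : Subgroup G) (hHp : IsPGroup p H) (hcl : Cfsg.IsExtremelyClosed H) : (∀ Q : Subgroup G, IsPGroup p Q → H ≤ Q → Subgroup.normalizer (Q : Set G) ≤ Subgroup.normalizer (H : Set G)) ∧ ∀ P : Sylow p G, H ≤ (P : Subgroup G) → (P : Subgroup G) ≤ Subgroup.normalizer (H : Set G) ∧ Cfsg.IsStronglyClosed H (P : Subgroup G) := by
  have part1 : ∀ Q : Subgroup G, IsPGroup p Q → H ≤ Q →
      Subgroup.normalizer (Q : Set G) ≤ Subgroup.normalizer (H : Set G) := by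
    intro Q hQ hHQ g hg
    have hconj : H.map (MulAut.conj g).toMonoidHom ≤ Q := by
      rintro _ ⟨h, hh, rfl⟩
      exact (Subgroup.mem_normalizer_iff.mp hg h).mp (hHQ hh)
    have hL : H ⊔ H.map (MulAut.conj g).toMonoidHom ≤ Q := sup_le hHQ hconj
    have hLp : IsPGroup p ↥(H ⊔ H.map (MulAut.conj g).toMonoidHom) := hQ.to_le hL
    have hle := selfnorm_eq H _ hLp le_sup_left (hcl g)
    have hle' : H.map (MulAut.conj g).toMonoidHom ≤ H := le_sup_right.trans hle
    have heq : H.map (MulAut.conj g).toMonoidHom = H := by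
      apply Subgroup.eq_of_le_of_card_ge hle'
      have : Nat.card ↥(H.map (MulAut.conj g).toMonoidHom) = Nat.card H :=
        Subgroup.card_map_of_injective (MulAut.conj g).injective
      rw [this]
    exact Subgroup.mem_normalizer_iff_map_conj_eq.mpr heq
  refine ⟨part1, ?_⟩
  intro P hHP
  have hPN : (P : Subgroup G) ≤ Subgroup.normalizer (H : Set G) :=
    Subgroup.le_normalizer.trans (part1 P P.isPGroup' hHP)
  refine ⟨hPN, hHP, ?_⟩
  intro x hx g hgP
  have h1 : g * x * g⁻¹ ∈ H ⊔ H.map (MulAut.conj g).toMonoidHom := by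
    apply (le_sup_right : H.map (MulAut.conj g).toMonoidHom ≤ _)
    exact ⟨x, hx, by simp⟩
  have h2 : g * x * g⁻¹ ∈ (H ⊔ H.map (MulAut.conj g).toMonoidHom) ⊓ Subgroup.normalizer (H : Set G) :=
    ⟨h1, hPN hgP⟩
  rw [hcl g] at h2
  exact h2

end Cfsg.Agent.S3021
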