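import Cfsg.Statements.S3025
import Cfsg.Agent.S0016

set_option autoImplicit false
open Cfsg

namespace Cfsg.Agent.S3025

open scoped IsMulCommutative in
theorem prime_card_of_simple_comm {N : Type*} [Group N] [Finite N] [IsSimpleGroup N]
    [IsMulCommutative N] : (Nat.card N).Prime :=
  IsSimpleGroup.prime_card

theorem isCyclic_mulAut_of_prime {N : Type*} [Group N] [Finite N] (hN : (Nat.card N).Prime) :
    IsCyclic (MulAut N) := by
  haveI : Fact (Nat.card N).Prime := ⟨hN⟩
  haveI : IsCyclic N := isCyclic_of_prime_card rfl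
  exact isCyclic_of_surjective (IsCyclic.mulAutMulEquiv N).symm.toMonoidHom
    (IsCyclic.mulAutMulEquiv N).symm.surjective

/-- Let F be a finite group and H a nontrivial subgroup of F that is contained in every nontrivial subgroup of F which H normalizes. Then F has a nontrivial normal subgroup N contained in every nontrivial normal subgroup of F (a unique minimal normal subgroup), N is simple, and one of the following holds: C_F(N) = 1; or H = N has prime order p, C_F(N) is cyclic of order a power of p, and F/C_F(N) is cyclic of order dividing p − 1; or H = N has order 2, N is central in F, and F is a generalized quaternion group. -/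
theorem result {F : Type*} [Group F] [Finite F] (H : Subgroup F) (hH : H ≠ ⊥)
    (hmin : ∀ R : Subgroup F, R ≠ ⊥ → H ≤ Subgroup.normalizer (R : Set F) → H ≤ R) :
    ∃ N : Subgroup F, N.Normal ∧ N ≠ ⊥ ∧ (∀ M : Subgroup F, M.Normal → M ≠ ⊥ → N ≤ M) ∧ IsSimpleGroup ↥N ∧
      (Subgroup.centralizer (N : Set F) = ⊥ ∨
       (H = N ∧ (Nat.card N).Prime ∧ IsCyclic ↥(Subgroup.centralizer (N : Set F)) ∧
          (∃ k : ℕ, 1 ≤ k ∧ Nat.card ↥(Subgroup.centralizer (N : Set F)) = Nat.card N ^ k) ∧
          (∃ g : F, Subgroup.centralizer (N : Set F) ⊔ Subgroup.zpowers g = ⊤) ∧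
          (Subgroup.centralizer (N : Set F)).index ∣ Nat.card N - 1) ∨
       (H = N ∧ Nat.card N = 2 ∧ Subgroup.centralizer (N : Set F) = ⊤ ∧
          ∃ k : ℕ, 1 ≤ k ∧ Nonempty (F ≃* QuaternionGroup (2 ^ k)))) := by
  classical
  set N : Subgroup F := Subgroup.normalClosure (H : Set F) with hNdef
  have hHN : H ≤ N := Subgroup.le_normalClosure
  have hNn : N.Normal := Subgroup.normalClosure_normal
  have hNbot : N ≠ ⊥ := fun h => hH (le_bot_iff.mp (h ▸ hHN))
  have hNmin : ∀ M : Subgroup F, M.Normal → M ≠ ⊥ → N ≤ M := by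
    intro M hM hMbot
    haveI := hM
    apply Subgroup.normalClosure_le_normal
    exact hmin M hMbot (by rw [Subgroup.normalizer_eq_top]; exact le_top)
  -- N is simple
  have hNsimple : IsSimpleGroup ↥N := by
    haveI : Nontrivial ↥N := (Subgroup.nontrivial_iff_ne_bot N).mpr hNbot
    refine ⟨fun K hK => ?_⟩
    by_cases hKbot : K = ⊥
    · left; exact hKbot
    right
    have hK'bot : K.map N.subtype ≠ ⊥ := by
      intro h
      apply hKbot
      rw [Subgroup.map_eq_bot_iff_of_injective _ (Subgroup.subtype_injective _)] at h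
      exact h
    have key : ∀ f : F, H ≤ (K.map N.subtype).map (MulAut.conj f).toMonoidHom := by
      intro f
      apply hmin
      · intro h
        apply hK'bot
        rw [Subgroup.map_eq_bot_iff_of_injective _ (MulAut.conj f).injective] at h
        exact h
      · -- H normalizes it
        have hfwd : ∀ h ∈ H, ∀ y ∈ (K.map N.subtype).map (MulAut.conj f).toMonoidHom,
            h * y * h⁻¹ ∈ (K.map N.subtype).map (MulAut.conj f).toMonoidHom := by
          intro h hh y hy
          obtain ⟨k, ⟨k₀, hk₀, rfl⟩, rfl⟩ := hy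
          have hn : f⁻¹ * h * f ∈ N := by
            have := hNn.conj_mem h (hHN hh) f⁻¹
            simpa using this
          refine ⟨(f⁻¹ * h * f) * (k₀ : F) * (f⁻¹ * h * f)⁻¹, ⟨⟨f⁻¹ * h * f, hn⟩ * k₀ * ⟨f⁻¹ * h * f, hn⟩⁻¹, hK.conj_mem k₀ hk₀ _, rfl⟩, ?_⟩
          simp only [MulEquiv.coe_toMonoidHom, MulAut.conj_apply, Subgroup.coe_subtype]
          group
        intro h hh
        rw [Subgroup.mem_normalizer_iff]
        intro y
        constructor
        · exact hfwd h hh y
        · intro hy
          have := hfwd h⁻¹ (H.inv_mem hh) _ hy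
          have e : h⁻¹ * (h * y * h⁻¹) * h⁻¹⁻¹ = y := by group
          rw [e] at this
          exact this
    have h2 : N ≤ K.map N.subtype := by
      have h3 : Subgroup.closure (Group.conjugatesOfSet (H : Set F)) ≤ K.map N.subtype := by
        rw [Subgroup.closure_le]
        intro a ha
        rw [Group.mem_conjugatesOfSet_iff] at ha
        obtain ⟨b, hb, hab⟩ := ha
        rw [isConj_iff] at hab
        obtain ⟨c, rfl⟩ := hab
        obtain ⟨k, hk, hkb⟩ := key c⁻¹ hb
        simp only [MulEquiv.coe_toMonoidHom, MulAut.conj_apply, inv_inv] at hkb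
        have e : c * b * c⁻¹ = k := by rw [← hkb]; group
        rw [SetLike.mem_coe, e]
        exact hk
      exact h3
    have h2' : N ≤ K.map N.subtype := by
      intro a ha
      exact h2 ha
    rw [eq_top_iff]
    intro n _
    obtain ⟨k, hk, hkn⟩ := h2 n.2
    have : k = n := Subtype.ext hkn
    rw [← this]; exact hk
  refine ⟨N, hNn, hNbot, hNmin, hNsimple, ?_⟩
  by_cases hC : Subgroup.centralizer (N : Set F) = ⊥
  · left; exact hC
  right
  haveI := hNn
  have hCn : (Subgroup.centralizer (N : Set F)).Normal := inferInstance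
  have hNC : N ≤ Subgroup.centralizer (N : Set F) := hNmin _ hCn hC
  haveI hNcomm : IsMulCommutative ↥N := Subgroup.le_centralizer_iff_isMulCommutative.mp hNC
  haveI := hNsimple
  have hprime : (Nat.card N).Prime := prime_card_of_simple_comm
  haveI hfact : Fact (Nat.card N).Prime := ⟨hprime⟩
  -- H = N
  have hHeq : H = N := by
    apply Subgroup.eq_of_le_of_card_ge hHN
    have h1 : Nat.card H ∣ Nat.card N := Subgroup.card_dvd_of_le hHN
    rcases (Nat.dvd_prime hprime).mp h1 with h | h
    · exact absurd (Subgroup.card_eq_one.mp h) hH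
    · rw [h]
  -- every nontrivial subgroup of C contains N
  have hsub : ∀ R : Subgroup F, R ≤ Subgroup.centralizer (N : Set F) → R ≠ ⊥ → N ≤ R := by
    intro R hR hRbot
    rw [← hHeq]
    apply hmin R hRbot
    rw [hHeq]
    intro n hn
    rw [Subgroup.mem_normalizer_iff]
    intro r
    constructor
    · intro hr
      have := Subgroup.mem_centralizer_iff.mp (hR hr) n hn
      have e : n * r * n⁻¹ = r := by rw [this]; group
      rw [e]; exact hr
    · intro hr
      have := Subgroup.mem_centralizer_iff.mp (hR hr) n hn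
      have e : r = n * r * n⁻¹ := by
        have e2 : n * r * n⁻¹ = n⁻¹ * (n * (n * r * n⁻¹)) := by group
        rw [e2, this]; group
      rw [e]; exact hr
  -- C is a p-group
  have hCcard : ∃ k, Nat.card ↥(Subgroup.centralizer (N : Set F)) = Nat.card N ^ k := by
    refine ⟨_, Nat.eq_prime_pow_of_unique_prime_dvd Nat.card_pos.ne' ?_⟩
    intro q hq hqdvd
    haveI : Fact q.Prime := ⟨hq⟩
    obtain ⟨c, hc⟩ := exists_prime_orderOf_dvd_card' q hqdvd
    have hc1 : Subgroup.zpowers (c : F) ≠ ⊥ := by
      rw [Ne, Subgroup.zpowers_eq_bot]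
      intro h
      have : orderOf (c : F) = 1 := by rw [h, orderOf_one]
      rw [Subgroup.orderOf_coe, hc] at this
      exact hq.one_lt.ne' this
    have h1 := hsub _ (Subgroup.zpowers_le.mpr c.2) hc1
    have h2 : Nat.card N ∣ Nat.card (Subgroup.zpowers (c : F)) := Subgroup.card_dvd_of_le h1
    rw [Nat.card_zpowers, Subgroup.orderOf_coe, hc] at h2
    exact ((Nat.prime_dvd_prime_iff_eq hprime hq).mp h2).symm
  have hCp : IsPGroup (Nat.card N) ↥(Subgroup.centralizer (N : Set F)) := by
    obtain ⟨k, hk⟩ := hCcard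
    exact IsPGroup.of_card hk
  have huniq : ∀ A B : Subgroup ↥(Subgroup.centralizer (N : Set F)),
      Nat.card A = Nat.card N → Nat.card B = Nat.card N → A = B := by
    have aux : ∀ A : Subgroup ↥(Subgroup.centralizer (N : Set F)), Nat.card A = Nat.card N →
        A.map (Subgroup.centralizer (N : Set F)).subtype = N := by
      intro A hA
      have hA1 : A.map (Subgroup.centralizer (N : Set F)).subtype ≠ ⊥ := by
        intro h
        rw [Subgroup.map_eq_bot_iff_of_injective _ (Subgroup.subtype_injective _)] at h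
        rw [h, Subgroup.card_bot] at hA
        exact hprime.one_lt.ne hA
      have h1 := hsub _ (Subgroup.map_subtype_le A) hA1
      symm
      apply Subgroup.eq_of_le_of_card_ge h1
      rw [Subgroup.card_map_of_injective (Subgroup.subtype_injective _), hA]
    intro A B hA hB
    exact Subgroup.map_injective (Subgroup.subtype_injective _) ((aux A hA).trans (aux B hB).symm)
  have h16 := Cfsg.Agent.S0016.result (G := ↥(Subgroup.centralizer (N : Set F))) (Nat.card N)
    hCp huniq
  -- the conjugation homomorphism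
  let φ : F →* MulAut ↥N := MulAut.conjNormal
  have hker : φ.ker = Subgroup.centralizer (N : Set F) := by
    ext f
    rw [MonoidHom.mem_ker, Subgroup.mem_centralizer_iff]
    constructor
    · intro h n hn
      have := congrArg (fun ψ : MulAut ↥N => ((ψ ⟨n, hn⟩ : ↥N) : F)) h
      simp only [φ, MulAut.conjNormal_apply, MulAut.one_apply] at this
      have e : n * f = (f * n * f⁻¹) * f := by rw [this]
      rw [e]; group
    · intro h
      ext n
      simp only [φ, MulAut.conjNormal_apply, MulAut.one_apply]
      have := h n n.2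
      rw [← this]; group
  have hidx : (Subgroup.centralizer (N : Set F)).index ∣ Nat.card N - 1 := by
    rw [← hker, Subgroup.index_ker]
    have h1 : Nat.card φ.range ∣ Nat.card (MulAut ↥N) := Subgroup.card_subgroup_dvd_card _
    haveI : IsCyclic ↥N := isCyclic_of_prime_card rfl
    rw [IsCyclic.card_mulAut, Nat.totient_prime hprime] at h1
    exact h1
  have hgen : ∃ g : F, Subgroup.centralizer (N : Set F) ⊔ Subgroup.zpowers g = ⊤ := by
    haveI : IsCyclic (MulAut ↥N) := isCyclic_mulAut_of_prime hprime
    obtain ⟨γ, hγ⟩ := (Subgroup.isCyclic_iff_exists_zpowers_eq_top φ.range).mp inferInstance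
    have hγr : γ ∈ φ.range := by rw [← hγ]; exact Subgroup.mem_zpowers γ
    obtain ⟨g, rfl⟩ := hγr
    refine ⟨g, ?_⟩
    rw [eq_top_iff]
    intro f _
    have hf : φ f ∈ Subgroup.zpowers (φ g) := by rw [hγ]; exact ⟨f, rfl⟩
    obtain ⟨k, hk⟩ := hf
    have h1 : f * (g ^ k)⁻¹ ∈ φ.ker := by
      have hk' : φ g ^ k = φ f := hk
      rw [MonoidHom.mem_ker, map_mul, map_inv, map_zpow, hk']
      simp
    rw [hker] at h1
    have e : f = (f * (g ^ k)⁻¹) * g ^ k := by group
    rw [e]
    exact Subgroup.mul_mem _ (Subgroup.mem_sup_left h1)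
      (Subgroup.mem_sup_right (Subgroup.zpow_mem_zpowers g k))
  have hk1 : ∃ k : ℕ, 1 ≤ k ∧ Nat.card ↥(Subgroup.centralizer (N : Set F)) = Nat.card N ^ k := by
    obtain ⟨k, hk⟩ := hCcard
    refine ⟨k, ?_, hk⟩
    by_contra h
    have hk0 : k = 0 := by omega
    rw [hk0, pow_zero] at hk
    exact hC (Subgroup.card_eq_one.mp hk)
  have caseA : IsCyclic ↥(Subgroup.centralizer (N : Set F)) →
      (H = N ∧ (Nat.card N).Prime ∧ IsCyclic ↥(Subgroup.centralizer (N : Set F)) ∧
          (∃ k : ℕ, 1 ≤ k ∧ Nat.card ↥(Subgroup.centralizer (N : Set F)) = Nat.card N ^ k) ∧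
          (∃ g : F, Subgroup.centralizer (N : Set F) ⊔ Subgroup.zpowers g = ⊤) ∧
          (Subgroup.centralizer (N : Set F)).index ∣ Nat.card N - 1) :=
    fun h => ⟨hHeq, hprime, h, hk1, hgen, hidx⟩
  rcases h16 with hcyc | ⟨hp2, n, ⟨e⟩⟩
  · left; exact caseA hcyc
  · by_cases hn : n = 0
    · left
      apply caseA
      rw [hn, pow_zero] at e
      haveI := QuaternionGroup.quaternionGroup_one_isCyclic
      exact isCyclic_of_surjective e.symm.toMonoidHom e.symm.surjective
    · right
      have hCtop : Subgroup.centralizer (N : Set F) = ⊤ := by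
        rw [hp2] at hidx
        exact Subgroup.index_eq_one.mp (Nat.dvd_one.mp hidx)
      refine ⟨hHeq, hp2, hCtop, n, Nat.one_le_iff_ne_zero.mpr hn, ⟨?_⟩⟩
      exact Subgroup.topEquiv.symm.trans ((MulEquiv.subgroupCongr hCtop.symm).trans e)

end Cfsg.Agent.S3025
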