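import Cfsg.Statements.S3027

set_option autoImplicit false
open Cfsg

namespace Cfsg.Agent.S3027

universe u v

lemma map_inf_eq_top {G : Type u} {Q : Type v} [Group G] [Group Q] (φ : G →* Q)
    (hQ : ⁅(⊤ : Subgroup Q), (⊤ : Subgroup Q)⁆ = ⊤)
    (N₁ N₂ : Subgroup G) [N₁.Normal] [N₂.Normal] (h₁ : N₁.map φ = ⊤) (h₂ : N₂.map φ = ⊤) :
    (N₁ ⊓ N₂).map φ = ⊤ := by
  rw [eq_top_iff]
  calc (⊤ : Subgroup Q) = ⁅(⊤ : Subgroup Q), (⊤ : Subgroup Q)⁆ := hQ.symm
    _ = ⁅N₁.map φ, N₂.map φ⁆ := by rw [h₁, h₂]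
    _ = ⁅N₁, N₂⁆.map φ := (Subgroup.map_commutator N₁ N₂ φ).symm
    _ ≤ (N₁ ⊓ N₂).map φ := Subgroup.map_mono (Subgroup.commutator_le_inf N₁ N₂)

lemma exists_least_normal {G : Type u} {Q : Type v} [Group G] [Finite G] [Group Q] (φ : G →* Q)
    (hφ : Function.Surjective φ)
    (hQ : ⁅(⊤ : Subgroup Q), (⊤ : Subgroup Q)⁆ = ⊤) :
    ∃ B : Subgroup G, B.Normal ∧ B.map φ = ⊤ ∧
      ∀ N : Subgroup G, N.Normal → N.map φ = ⊤ → B ≤ N := by
  obtain ⟨B, -, hB⟩ := exists_minimal_le_of_wellFoundedLT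
    (fun N : Subgroup G => N.Normal ∧ N.map φ = ⊤) ⊤
    ⟨inferInstance, Subgroup.map_top_of_surjective φ hφ⟩
  refine ⟨B, hB.prop.1, hB.prop.2, fun N hN hNφ => ?_⟩
  have := hB.prop.1
  have := hN
  have h := hB.le_of_le (y := B ⊓ N)
    ⟨inferInstance, map_inf_eq_top φ hQ B N hB.prop.2 hNφ⟩ inf_le_left
  exact (le_inf_iff.mp h).2

theorem main (n : ℕ) : ∀ {G : Type u} {Q : Type v} [Group G] [Finite G] [Group Q] (φ : G →* Q),
    Nat.card G ≤ n →
    ⁅(⊤ : Subgroup Q), (⊤ : Subgroup Q)⁆ = ⊤ →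
    ∀ B : Subgroup G, B.Normal → (∀ N : Subgroup G, N.Normal → N.map φ = ⊤ → B ≤ N) →
    ∀ B' : Subgroup G, B'.IsSubnormal → B'.map φ = ⊤ → B ≤ B' := by
  induction n with
  | zero =>
    intro G Q _ _ _ φ hn
    exact absurd hn (by have := Nat.card_pos (α := G); omega)
  | succ n ih =>
    intro G Q _ _ _ φ hn hQ B hBn hBmin B' hB' hB'φ
    by_cases htop : B' = ⊤
    · rw [htop]; exact le_top
    obtain ⟨M, hMn, hB'M, hMlt⟩ := hB'.exists_normal_and_le_and_lt_top_of_ne htop
    have := hMn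
    let ψ : M →* Q := φ.comp M.subtype
    have hψ : Function.Surjective ψ := by
      intro q
      have : q ∈ B'.map φ := by rw [hB'φ]; trivial
      obtain ⟨b, hb, rfl⟩ := this
      exact ⟨⟨b, hB'M hb⟩, rfl⟩
    have hcard : Nat.card M ≤ n := by
      have : Nat.card M < Nat.card G := by
        rcases lt_or_eq_of_le (Subgroup.card_le_card_group M) with h | h
        · exact h
        · exact absurd ((Subgroup.card_eq_iff_eq_top M).mp h) hMlt.ne
      omega
    obtain ⟨BM, hBMn, hBMφ, hBMmin⟩ := exists_least_normal ψ hψ hQ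
    have hsub : ((B'.subgroupOf M).map ψ) = ⊤ := by
      show (B'.subgroupOf M).map (φ.comp M.subtype) = ⊤
      rw [← Subgroup.map_map, Subgroup.map_subgroupOf_eq_of_le hB'M, hB'φ]
    have h1 : BM ≤ B'.subgroupOf M :=
      ih ψ hcard hQ BM hBMn hBMmin (B'.subgroupOf M) hB'.subgroupOf hsub
    have hNn : (BM.map M.subtype).Normal := by
      constructor
      intro x hx g
      obtain ⟨m, hm, rfl⟩ := hx
      have hle : BM ≤ BM.map (MulAut.conjNormal (H := M) g⁻¹).toMonoidHom := by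
        apply hBMmin
        · exact hBMn.map _ (MulEquiv.surjective _)
        · rw [Subgroup.map_map]
          have : ψ.comp (MulAut.conjNormal (H := M) g⁻¹).toMonoidHom
              = (MulAut.conj (φ g⁻¹)).toMonoidHom.comp ψ := by
            ext m; simp [ψ]
          rw [this, ← Subgroup.map_map, hBMφ]
          exact Subgroup.map_top_of_surjective _ (MulEquiv.surjective _)
      obtain ⟨m', hm', hmm'⟩ := hle hm
      refine ⟨m', hm', ?_⟩
      have h4 := congrArg (M.subtype) hmm'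
      simp only [MulEquiv.coe_toMonoidHom, Subgroup.coe_subtype, MulAut.conjNormal_apply] at h4
      simp only [Subgroup.coe_subtype]
      rw [← h4]
      simp [mul_assoc]
    have h2 : B ≤ BM.map M.subtype :=
      hBmin _ hNn (by rw [Subgroup.map_map]; exact hBMφ)
    have h3 : BM.map M.subtype ≤ B' := by
      calc BM.map M.subtype ≤ (B'.subgroupOf M).map M.subtype := Subgroup.map_mono h1
        _ = B' := Subgroup.map_subgroupOf_eq_of_le hB'M
    exact h2.trans h3

/-- Let G be a finite group and D a normal subgroup of G such that G/D is perfect (that is, G = G′D). Then among the subnormal subgroups B of G with BD = G there is a least one, and it is normal in G. -/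
theorem result {G : Type*} [Group G] [Finite G] (D : Subgroup G) [D.Normal] (hperf : ⁅(⊤ : Subgroup G), (⊤ : Subgroup G)⁆ ⊔ D = ⊤) :
    ∃ B : Subgroup G, B.Normal ∧ B ⊔ D = ⊤ ∧ ∀ B' : Subgroup G, B'.IsSubnormal → B' ⊔ D = ⊤ → B ≤ B' := by
  classical
  let φ := QuotientGroup.mk' D
  have hφ : Function.Surjective φ := QuotientGroup.mk'_surjective D
  have hDφ : D.map φ = ⊥ := by
    rw [eq_bot_iff, Subgroup.map_le_iff_le_comap]
    intro x hx
    rw [Subgroup.mem_comap, Subgroup.mem_bot]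
    exact (QuotientGroup.eq_one_iff x).mpr hx
  have hQ : ⁅(⊤ : Subgroup (G ⧸ D)), (⊤ : Subgroup (G ⧸ D))⁆ = ⊤ := by
    have := congrArg (Subgroup.map φ) hperf
    rw [Subgroup.map_sup, hDφ, sup_bot_eq, Subgroup.map_commutator,
      Subgroup.map_top_of_surjective φ hφ] at this
    exact this
  have key : ∀ B : Subgroup G, B ⊔ D = ⊤ ↔ B.map φ = ⊤ := by
    intro B
    constructor
    · intro h
      have := congrArg (Subgroup.map φ) h
      rwa [Subgroup.map_sup, hDφ, sup_bot_eq, Subgroup.map_top_of_surjective φ hφ] at this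
    · intro h
      have := Subgroup.comap_map_eq φ B
      rw [h, Subgroup.comap_top, QuotientGroup.ker_mk'] at this
      exact this.symm
  obtain ⟨B, hBn, hBφ, hBmin⟩ := exists_least_normal φ hφ hQ
  exact ⟨B, hBn, (key B).mpr hBφ, fun B' hB' hB'D =>
    main (Nat.card G) φ le_rfl hQ B hBn hBmin B' hB' ((key B').mp hB'D)⟩

end Cfsg.Agent.S3027
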