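import Mathlib
import Cfsg.Agent.Lib.Helper2.Class2
import Cfsg.Agent.Lib.Helper53.Basic
import Cfsg.Agent.Lib.Helper61.AbGen
import Cfsg.Agent.Lib.Helper61.Norm
import Cfsg.Agent.Lib.Helper61.CoprimeAb
import Cfsg.Statements.S3053

set_option autoImplicit false
open Cfsg

namespace Cfsg.Agent.S3053

open scoped commutatorElement

section abstract

variable {Q : Type*} [Group Q] [Finite Q] {p : ℕ} [Fact p.Prime]

/-- In an extraspecial group commutators are central. -/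
theorem comm_mem_center (hE : Cfsg.IsExtraspecial p Q) (x y : Q) :
    ⁅x, y⁆ ∈ Subgroup.center Q := by
  rw [← hE.1.2.2, commutator_def]
  exact Subgroup.commutator_mem_commutator (Subgroup.mem_top x) (Subgroup.mem_top y)

/-- Central elements have order dividing `p`. -/
theorem center_pow (hE : Cfsg.IsExtraspecial p Q) {z : Q} (hz : z ∈ Subgroup.center Q) :
    z ^ p = 1 := by
  have h := pow_card_eq_one' (G := Subgroup.center Q) (x := ⟨z, hz⟩)
  rw [hE.2] at h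
  exact congrArg Subtype.val h

/-- The `p`-th power map as a homomorphism (`p` odd). -/
noncomputable def pw (hp : p ≠ 2) (hE : Cfsg.IsExtraspecial p Q) : Q →* Q :=
  MonoidHom.mk' (fun x => x ^ p) (fun a b =>
    Cfsg.Agent.Lib.Helper2.mul_pow_prime_of_commutator_central Fact.out hp a b
      (comm_mem_center hE b a) (center_pow hE (comm_mem_center hE b a)))

theorem pw_apply (hp : p ≠ 2) (hE : Cfsg.IsExtraspecial p Q) (x : Q) : pw hp hE x = x ^ p := rfl

theorem mem_ker_pw (hp : p ≠ 2) (hE : Cfsg.IsExtraspecial p Q) (x : Q) :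
    x ∈ (pw hp hE).ker ↔ x ^ p = 1 := by
  rw [MonoidHom.mem_ker, pw_apply]

theorem pow_mem_center (hE : Cfsg.IsExtraspecial p Q) (x : Q) : x ^ p ∈ Subgroup.center Q := by
  rw [Subgroup.mem_center_iff]
  intro g
  have h1 := Cfsg.Agent.Lib.Helper2.commutatorElement_pow_left x g (comm_mem_center hE x g) p
  rw [center_pow hE (comm_mem_center hE x g)] at h1
  have h2 : Commute (x ^ p) g := commutatorElement_eq_one_iff_commute.mp h1
  exact h2.eq.symm

theorem center_le_ker (hp : p ≠ 2) (hE : Cfsg.IsExtraspecial p Q) :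
    Subgroup.center Q ≤ (pw hp hE).ker := by
  intro z hz
  rw [mem_ker_pw]
  exact center_pow hE hz

theorem card_ker_pw (hp : p ≠ 2) (hE : Cfsg.IsExtraspecial p Q) (hcard : Nat.card Q = p ^ 3)
    (hexp : Monoid.exponent Q = p ^ 2) : Nat.card (pw hp hE).ker = p ^ 2 := by
  have hpp : p.Prime := Fact.out
  have hrange : (pw hp hE).range ≤ Subgroup.center Q := by
    rintro _ ⟨x, rfl⟩
    exact pow_mem_center hE x
  have hne : (pw hp hE).range ≠ ⊥ := by
    intro hbot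
    have hall : ∀ x : Q, x ^ p = 1 := by
      intro x
      have : pw hp hE x ∈ (pw hp hE).range := ⟨x, rfl⟩
      rw [hbot, Subgroup.mem_bot] at this
      exact this
    have hdvd : Monoid.exponent Q ∣ p := Monoid.exponent_dvd_of_forall_pow_eq_one hall
    rw [hexp] at hdvd
    have hle := Nat.le_of_dvd hpp.pos hdvd
    have : p < p ^ 2 := by
      calc p = p ^ 1 := (pow_one p).symm
        _ < p ^ 2 := Nat.pow_lt_pow_right hpp.one_lt (by norm_num)
    omega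
  have hcr : Nat.card (pw hp hE).range = p := by
    have hdvd : Nat.card (pw hp hE).range ∣ p := by
      have := Subgroup.card_dvd_of_le hrange
      rwa [hE.2] at this
    rcases (Nat.dvd_prime hpp).mp hdvd with h | h
    · exact absurd (Subgroup.eq_bot_of_card_eq _ h) hne
    · exact h
  have hidx : (pw hp hE).ker.index = p := by rw [Subgroup.index_ker, hcr]
  have hmul := Subgroup.card_mul_index (pw hp hE).ker
  rw [hidx, hcard] at hmul
  have : Nat.card (pw hp hE).ker * p = p ^ 2 * p := by rw [hmul]; ring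
  exact Nat.eq_of_mul_eq_mul_right hpp.pos this

/-- Every central element is a commutator with a given noncentral element. -/
theorem exists_comm_eq (hE : Cfsg.IsExtraspecial p Q) (e : Q) (he : e ∉ Subgroup.center Q)
    (z' : Q) (hz' : z' ∈ Subgroup.center Q) : ∃ x : Q, x * e * x⁻¹ * e⁻¹ = z' := by
  have hpp : p.Prime := Fact.out
  let κ : Q →* Q := MonoidHom.mk' (fun x => ⁅x, e⁆) (fun a b => by
    have hc := comm_mem_center hE b e
    rw [Subgroup.mem_center_iff] at hc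
    calc ⁅a * b, e⁆ = a * ⁅b, e⁆ * a⁻¹ * ⁅a, e⁆ := by
          simp only [commutatorElement_def]; group
      _ = ⁅b, e⁆ * a * a⁻¹ * ⁅a, e⁆ := by rw [hc a]
      _ = ⁅b, e⁆ * ⁅a, e⁆ := by rw [mul_inv_cancel_right]
      _ = ⁅a, e⁆ * ⁅b, e⁆ := (hc _).symm)
  have hκ : ∀ x, κ x = ⁅x, e⁆ := fun x => rfl
  have hrange : κ.range ≤ Subgroup.center Q := by
    rintro _ ⟨x, rfl⟩
    rw [hκ]
    exact comm_mem_center hE x e
  have hne : κ.range ≠ ⊥ := by
    intro hbot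
    apply he
    rw [Subgroup.mem_center_iff]
    intro g
    have : κ g ∈ κ.range := ⟨g, rfl⟩
    rw [hbot, Subgroup.mem_bot, hκ] at this
    exact (commutatorElement_eq_one_iff_commute.mp this).eq
  have hcr : Nat.card κ.range = p := by
    have hdvd : Nat.card κ.range ∣ p := by
      have := Subgroup.card_dvd_of_le hrange
      rwa [hE.2] at this
    rcases (Nat.dvd_prime hpp).mp hdvd with h | h
    · exact absurd (Subgroup.eq_bot_of_card_eq _ h) hne
    · exact h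
  have heq : κ.range = Subgroup.center Q :=
    Subgroup.eq_of_le_of_card_ge hrange (by rw [hcr, hE.2])
  have hz'' : z' ∈ κ.range := heq ▸ hz'
  obtain ⟨x, hx⟩ := hz''
  refine ⟨x, ?_⟩
  rw [← hx, hκ, commutatorElement_def]

theorem ker_pw_comm (hp : p ≠ 2) (hE : Cfsg.IsExtraspecial p Q) (hcard : Nat.card Q = p ^ 3)
    (hexp : Monoid.exponent Q = p ^ 2) (a b : Q) (ha : a ∈ (pw hp hE).ker)
    (hb : b ∈ (pw hp hE).ker) : a * b = b * a := by
  have h := IsPGroup.commutative_of_card_eq_prime_sq (card_ker_pw hp hE hcard hexp)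
    (⟨a, ha⟩ : (pw hp hE).ker) ⟨b, hb⟩
  exact congrArg Subtype.val h

/-- The centralizer of a noncentral element of the kernel of the power map is that kernel. -/
theorem mem_ker_of_commute (hp : p ≠ 2) (hE : Cfsg.IsExtraspecial p Q)
    (hcard : Nat.card Q = p ^ 3) (hexp : Monoid.exponent Q = p ^ 2) {y : Q}
    (hy : y ∈ (pw hp hE).ker) (hyZ : y ∉ Subgroup.center Q) {x : Q} (hx : x * y = y * x) :
    x ∈ (pw hp hE).ker := by
  have hpp : p.Prime := Fact.out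
  have hle : (pw hp hE).ker ≤ Subgroup.centralizer ({y} : Set Q) := by
    intro a ha
    rw [Subgroup.mem_centralizer_iff]
    rintro _ rfl
    exact (ker_pw_comm hp hE hcard hexp a _ ha hy).symm
  have hne : Subgroup.centralizer ({y} : Set Q) ≠ ⊤ := by
    intro htop
    apply hyZ
    rw [Subgroup.mem_center_iff]
    intro g
    have : g ∈ Subgroup.centralizer ({y} : Set Q) := htop ▸ Subgroup.mem_top g
    rw [Subgroup.mem_centralizer_iff] at this
    exact (this y rfl).symm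
  have hcardC : Nat.card (Subgroup.centralizer ({y} : Set Q)) = p ^ 2 := by
    have hdvd : Nat.card (Subgroup.centralizer ({y} : Set Q)) ∣ p ^ 3 :=
      hcard ▸ Subgroup.card_subgroup_dvd_card _
    obtain ⟨i, hi, hCi⟩ := (Nat.dvd_prime_pow hpp).mp hdvd
    have h2 : p ^ 2 ∣ p ^ i := by
      rw [← hCi, ← card_ker_pw hp hE hcard hexp]
      exact Subgroup.card_dvd_of_le hle
    have hi2 : 2 ≤ i := (Nat.pow_dvd_pow_iff_le_right hpp.one_lt).mp h2
    have hi3 : i ≠ 3 := by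
      rintro rfl
      apply hne
      rw [← Subgroup.card_eq_iff_eq_top, hCi, hcard]
    have : i = 2 := by omega
    rw [hCi, this]
  have heq : (pw hp hE).ker = Subgroup.centralizer ({y} : Set Q) :=
    Subgroup.eq_of_le_of_card_ge hle (by rw [hcardC, card_ker_pw hp hE hcard hexp])
  rw [heq, Subgroup.mem_centralizer_iff]
  rintro _ rfl
  exact hx.symm

end abstract

/-- If conjugation by `g⁻¹` maps a subgroup of a finite group into itself, so does conjugation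
by `g`. -/
theorem conj_mem_of_inv_conj_mem {G : Type*} [Group G] [Finite G] (E : Subgroup G) (g : G)
    (h : ∀ e ∈ E, g⁻¹ * e * g ∈ E) : ∀ e ∈ E, g * e * g⁻¹ ∈ E := by
  have key : ∀ n : ℕ, ∀ e ∈ E, (g ^ n)⁻¹ * e * g ^ n ∈ E := by
    intro n
    induction n with
    | zero => intro e he; simpa using he
    | succ n ih =>
      intro e he
      have h1 := h _ (ih e he)
      have heq : (g ^ (n + 1))⁻¹ * e * g ^ (n + 1) = g⁻¹ * ((g ^ n)⁻¹ * e * g ^ n) * g := by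
        rw [pow_succ]; group
      rw [heq]; exact h1
  intro e he
  have hfin : g ^ orderOf g = 1 := pow_orderOf_eq_one g
  have hpos : 0 < orderOf g := orderOf_pos g
  have h1 := key (orderOf g - 1) e he
  have hg : g ^ (orderOf g - 1) = g⁻¹ := by
    rw [eq_inv_iff_mul_eq_one, ← pow_succ, Nat.sub_add_cancel hpos, hfin]
  rw [hg] at h1
  simpa using h1

/-- The main argument, in terms of subgroups of the ambient group. -/
theorem main {G : Type*} [Group G] [Finite G] {p : ℕ} [Fact p.Prime] (hp : p ≠ 2)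
    (P : Sylow p G) (Z E : Subgroup G) (h1 : Z ≤ E) (h2 : E ≤ (P : Subgroup G))
    (h3 : Nat.card Z = p) (h4 : Nat.card E = p ^ 2)
    (h5 : ∀ x ∈ (P : Subgroup G), x ^ p = 1 ↔ x ∈ E)
    (h6 : ∀ a ∈ E, ∀ b ∈ E, a * b = b * a)
    (h7 : ∀ z ∈ Z, ∀ x ∈ (P : Subgroup G), x * z = z * x)
    (h8 : ∀ e ∈ E, e ∉ Z → ∀ z' ∈ Z, ∃ x ∈ (P : Subgroup G), x * e * x⁻¹ * e⁻¹ = z')
    (h9 : ∀ y ∈ E, y ∉ Z → ∀ x ∈ (P : Subgroup G), x * y = y * x → x ∈ E)
    (h10 : ∀ x ∈ (P : Subgroup G), x ^ (p ^ 2) = 1) :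
    Cfsg.IsStronglyClosed Z (P : Subgroup G) := by
  have hpp : p.Prime := Fact.out
  refine ⟨h1.trans h2, ?_⟩
  intro z hz g hy
  by_contra hyZ
  set y := g * z * g⁻¹ with hydef
  have hz1 : z ≠ 1 := by
    intro h
    apply hyZ
    rw [hydef, h]
    simp
  have hzE : z ∈ E := h1 hz
  have hzp : z ^ p = 1 := (h5 z (h2 hzE)).mpr hzE
  have hyp : y ^ p = 1 := by rw [hydef, conj_pow, hzp]; simp
  have hyE : y ∈ E := (h5 y hy).mp hyp
  have hZz : Z = Subgroup.zpowers z :=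
    Cfsg.Agent.Lib.Helper61.eq_zpowers_of_prime_card hpp Z h3 hz hz1
  -- Step 2: adjust `g` so that it normalizes `E`
  obtain ⟨g', hg'z, hg'E⟩ : ∃ g' : G, g' * z * g'⁻¹ = y ∧ ∀ e ∈ E, g'⁻¹ * e * g' ∈ E := by
    have hQ : IsPGroup p (E.map (MulAut.conj g⁻¹).toMonoidHom) := (IsPGroup.of_card h4).map _
    have hQle : E.map (MulAut.conj g⁻¹).toMonoidHom ≤ Subgroup.centralizer ({z} : Set G) := by
      rintro _ ⟨e, he, rfl⟩
      rw [Subgroup.mem_centralizer_iff]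
      intro z₀ hz₀
      have hz₀' : z₀ = z := hz₀
      rw [hz₀']
      have h' : e * (g * z * g⁻¹) = (g * z * g⁻¹) * e := h6 e he y hyE
      simp only [MulEquiv.coe_toMonoidHom, MulAut.conj_apply, inv_inv]
      calc z * (g⁻¹ * e * g) = g⁻¹ * ((g * z * g⁻¹) * e) * g := by group
        _ = g⁻¹ * (e * (g * z * g⁻¹)) * g := by rw [h']
        _ = g⁻¹ * e * g * z := by group
    have hPle : (P : Subgroup G) ≤ Subgroup.centralizer ({z} : Set G) := by
      intro x hx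
      rw [Subgroup.mem_centralizer_iff]
      intro z₀ hz₀
      have hz₀' : z₀ = z := hz₀
      rw [hz₀']
      exact (h7 _ hz x hx).symm
    obtain ⟨n, hn, hnQ⟩ := Cfsg.Agent.Lib.Helper53.exists_conj_le_sylow_of_le P hPle hQle hQ
    have hnz : z * n = n * z := by
      rw [Subgroup.mem_centralizer_iff] at hn
      exact hn z rfl
    refine ⟨g * n⁻¹, ?_, ?_⟩
    · calc g * n⁻¹ * z * (g * n⁻¹)⁻¹ = g * (n⁻¹ * (z * n)) * g⁻¹ := by group
        _ = g * (n⁻¹ * (n * z)) * g⁻¹ := by rw [hnz]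
        _ = g * z * g⁻¹ := by group
    · intro e he
      have hmem : n * (g⁻¹ * e * g) * n⁻¹ ∈ (P : Subgroup G) :=
        hnQ _ ⟨e, he, by simp [MulAut.conj_apply]⟩
      have heq : (g * n⁻¹)⁻¹ * e * (g * n⁻¹) = n * (g⁻¹ * e * g) * n⁻¹ := by group
      rw [heq]
      apply (h5 _ hmem).mp
      have hep : e ^ p = 1 := (h5 e (h2 he)).mpr he
      have h' : (g⁻¹ * e * g) ^ p = 1 := by
        have h'' := conj_pow (a := g⁻¹) (b := e) (i := p)
        rw [inv_inv, hep] at h''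
        rw [h'']; group
      rw [conj_pow, h']; group
  have hg'E' : ∀ e ∈ E, g' * e * g'⁻¹ ∈ E := conj_mem_of_inv_conj_mem E g' hg'E
  -- `P` normalizes `E`
  have hPE : ∀ x ∈ (P : Subgroup G), ∀ e ∈ E, x * e * x⁻¹ ∈ E := by
    intro x hx e he
    have hmem : x * e * x⁻¹ ∈ (P : Subgroup G) := mul_mem (mul_mem hx (h2 he)) (inv_mem hx)
    apply (h5 _ hmem).mp
    rw [conj_pow, (h5 e (h2 he)).mpr he]; group
  have he'E : g'⁻¹ * z * g' ∈ E := hg'E z hzE
  have he'Z : g'⁻¹ * z * g' ∉ Z := by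
    intro hmem
    have he'1 : g'⁻¹ * z * g' ≠ 1 := by
      intro h
      apply hz1
      have h' : z = g' * (g'⁻¹ * z * g') * g'⁻¹ := by group
      rw [h', h]; group
    have hZe : Z = Subgroup.zpowers (g'⁻¹ * z * g') :=
      Cfsg.Agent.Lib.Helper61.eq_zpowers_of_prime_card hpp Z h3 hmem he'1
    have hz' : z ∈ Subgroup.zpowers (g'⁻¹ * z * g') := hZe ▸ hz
    obtain ⟨k, hk⟩ := Subgroup.mem_zpowers_iff.mp hz'
    apply hyZ
    have h3' : (g'⁻¹ * z * g') ^ k = g'⁻¹ * z ^ k * g' := by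
      have h'' := conj_zpow (a := g'⁻¹) (b := z) (i := k)
      rw [inv_inv] at h''
      exact h''
    rw [h3'] at hk
    have hyk : y = z ^ k := by
      rw [← hg'z]
      calc g' * z * g'⁻¹ = g' * (g'⁻¹ * z ^ k * g') * g'⁻¹ := by rw [hk]
        _ = z ^ k := by group
    rw [hyk]
    exact Z.zpow_mem hz k
  -- the two "transvections"
  obtain ⟨u, hu, huy⟩ := h8 y hyE hyZ z hz
  obtain ⟨r', hr', hr'e⟩ := h8 _ he'E he'Z z⁻¹ (inv_mem hz)
  have hu_z : u * z * u⁻¹ = z := by rw [h7 z hz u hu]; group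
  have hu_y : u * y * u⁻¹ = y * z := by
    have h' : u * y * u⁻¹ = z * y := by rw [← huy]; group
    rw [h', h6 z hzE y hyE]
  have hr_y : (g' * r' * g'⁻¹) * y * (g' * r' * g'⁻¹)⁻¹ = y := by
    have h' : r' * z = z * r' := h7 z hz r' hr'
    rw [← hg'z]
    calc g' * r' * g'⁻¹ * (g' * z * g'⁻¹) * (g' * r' * g'⁻¹)⁻¹
        = g' * (r' * z) * r'⁻¹ * g'⁻¹ := by group
      _ = g' * z * g'⁻¹ := by rw [h']; group
  have hr_z : (g' * r' * g'⁻¹) * z * (g' * r' * g'⁻¹)⁻¹ = z * y⁻¹ := by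
    have h' : r' * (g'⁻¹ * z * g') * r'⁻¹ = z⁻¹ * (g'⁻¹ * z * g') := by rw [← hr'e]; group
    calc (g' * r' * g'⁻¹) * z * (g' * r' * g'⁻¹)⁻¹
        = g' * (r' * (g'⁻¹ * z * g') * r'⁻¹) * g'⁻¹ := by group
      _ = g' * (z⁻¹ * (g'⁻¹ * z * g')) * g'⁻¹ := by rw [h']
      _ = (g' * z * g'⁻¹)⁻¹ * z := by group
      _ = y⁻¹ * z := by rw [hg'z]
      _ = z * y⁻¹ := h6 _ (inv_mem hyE) _ hzE
  obtain ⟨r, hr_y', hr_z'⟩ : ∃ r : G, r * y * r⁻¹ = y ∧ r * z * r⁻¹ = z * y⁻¹ :=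
    ⟨_, hr_y, hr_z⟩
  have hw_z : (u * r * u) * z * (u * r * u)⁻¹ = y⁻¹ := by
    calc (u * r * u) * z * (u * r * u)⁻¹ = u * (r * (u * z * u⁻¹) * r⁻¹) * u⁻¹ := by group
      _ = u * (z * y⁻¹) * u⁻¹ := by rw [hu_z, hr_z']
      _ = (u * z * u⁻¹) * (u * y * u⁻¹)⁻¹ := by group
      _ = z * (y * z)⁻¹ := by rw [hu_z, hu_y]
      _ = y⁻¹ := by group
  have hw_y : (u * r * u) * y * (u * r * u)⁻¹ = z := by
    calc (u * r * u) * y * (u * r * u)⁻¹ = u * (r * (u * y * u⁻¹) * r⁻¹) * u⁻¹ := by group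
      _ = u * (r * (y * z) * r⁻¹) * u⁻¹ := by rw [hu_y]
      _ = u * ((r * y * r⁻¹) * (r * z * r⁻¹)) * u⁻¹ := by group
      _ = u * (y * (z * y⁻¹)) * u⁻¹ := by rw [hr_y', hr_z']
      _ = u * (y * (y⁻¹ * z)) * u⁻¹ := by rw [h6 z hzE y⁻¹ (inv_mem hyE)]
      _ = u * z * u⁻¹ := by group
      _ = z := hu_z
  obtain ⟨w, hw_z', hw_y'⟩ : ∃ w : G, w * z * w⁻¹ = y⁻¹ ∧ w * y * w⁻¹ = z := ⟨_, hw_z, hw_y⟩
  have ht_z : (w * w) * z * (w * w)⁻¹ = z⁻¹ := by
    calc (w * w) * z * (w * w)⁻¹ = w * (w * z * w⁻¹) * w⁻¹ := by group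
      _ = w * y⁻¹ * w⁻¹ := by rw [hw_z']
      _ = (w * y * w⁻¹)⁻¹ := by group
      _ = z⁻¹ := by rw [hw_y']
  have ht_y : (w * w) * y * (w * w)⁻¹ = y⁻¹ := by
    calc (w * w) * y * (w * w)⁻¹ = w * (w * y * w⁻¹) * w⁻¹ := by group
      _ = w * z * w⁻¹ := by rw [hw_y']
      _ = y⁻¹ := hw_z'
  obtain ⟨t, ht_z', ht_y'⟩ : ∃ t : G, t * z * t⁻¹ = z⁻¹ ∧ t * y * t⁻¹ = y⁻¹ := ⟨_, ht_z, ht_y⟩
  -- `t` inverts `E`
  have htE : ∀ e ∈ E, t * e * t⁻¹ = e⁻¹ := by
    let K : Subgroup G :=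
      { carrier := {e | e ∈ E ∧ t * e * t⁻¹ = e⁻¹}
        one_mem' := ⟨E.one_mem, by simp⟩
        mul_mem' := by
          rintro a b ⟨ha, ha'⟩ ⟨hb, hb'⟩
          refine ⟨E.mul_mem ha hb, ?_⟩
          calc t * (a * b) * t⁻¹ = (t * a * t⁻¹) * (t * b * t⁻¹) := by group
            _ = a⁻¹ * b⁻¹ := by rw [ha', hb']
            _ = (a * b)⁻¹ := by rw [mul_inv_rev, h6 _ (inv_mem hb) _ (inv_mem ha)]
        inv_mem' := by
          rintro a ⟨ha, ha'⟩
          refine ⟨E.inv_mem ha, ?_⟩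
          calc t * a⁻¹ * t⁻¹ = (t * a * t⁻¹)⁻¹ := by group
            _ = a⁻¹⁻¹ := by rw [ha'] }
    have hKE : K ≤ E := fun e he => he.1
    have hZK : Z ≤ K := by
      rw [hZz, Subgroup.zpowers_le]
      exact ⟨hzE, ht_z'⟩
    have hyK : y ∈ K := ⟨hyE, ht_y'⟩
    have hZK' : Z ≠ K := fun h => hyZ (h ▸ hyK)
    have hcardK : Nat.card K = p ^ 2 := by
      have hdvd : Nat.card K ∣ p ^ 2 := h4 ▸ Subgroup.card_dvd_of_le hKE
      obtain ⟨i, hi, hKi⟩ := (Nat.dvd_prime_pow hpp).mp hdvd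
      have hlt : p < p ^ i := by
        rw [← hKi]
        by_contra hle
        push_neg at hle
        rw [← h3] at hle
        exact hZK' (Subgroup.eq_of_le_of_card_ge hZK hle)
      have hi2 : i = 2 := by
        interval_cases i
        · simp at hlt; have := hpp.pos; omega
        · simp at hlt
        · rfl
      rw [hKi, hi2]
    have hKeq : K = E := Subgroup.eq_of_le_of_card_ge hKE (by rw [hcardK, h4])
    intro e he
    have hmem : e ∈ K := hKeq ▸ he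
    exact hmem.2
  -- Step 3: modify `t` so that it normalizes `P`
  have hPN : (P : Subgroup G) ≤ Subgroup.normalizer (E : Set G) := by
    intro x hx
    rw [Subgroup.mem_normalizer_iff]
    intro e
    constructor
    · exact hPE x hx e
    · intro h
      have h' := hPE x⁻¹ (inv_mem hx) _ h
      have heq : x⁻¹ * (x * e * x⁻¹) * x⁻¹⁻¹ = e := by group
      rwa [heq] at h'
  have hPNC : (P : Subgroup G) ≤
      Subgroup.normalizer ((Subgroup.centralizer (E : Set G) : Subgroup G) : Set G) :=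
    hPN.trans (Cfsg.Agent.Lib.Helper61.normalizer_le_normalizer_centralizer E)
  have hQ : IsPGroup p ((P : Subgroup G).map (MulAut.conj t).toMonoidHom) := P.isPGroup'.map _
  have hQle : (P : Subgroup G).map (MulAut.conj t).toMonoidHom ≤
      Subgroup.centralizer (E : Set G) ⊔ (P : Subgroup G) := by
    rintro _ ⟨x, hx, rfl⟩
    simp only [MulEquiv.coe_toMonoidHom, MulAut.conj_apply]
    have hc : t * x * t⁻¹ * x⁻¹ ∈ Subgroup.centralizer (E : Set G) := by
      rw [Subgroup.mem_centralizer_iff]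
      intro e he
      have e1 : x⁻¹ * e * x ∈ E := by simpa using hPE x⁻¹ (inv_mem hx) e he
      have e3 : t⁻¹ * (x⁻¹ * e * x) * t = (x⁻¹ * e * x)⁻¹ := by
        have h' := htE _ (inv_mem e1)
        rw [inv_inv] at h'
        calc t⁻¹ * (x⁻¹ * e * x) * t = t⁻¹ * (t * (x⁻¹ * e * x)⁻¹ * t⁻¹) * t := by rw [h']
          _ = (x⁻¹ * e * x)⁻¹ := by group
      have e4 : t * e⁻¹ * t⁻¹ = e := by rw [htE _ (inv_mem he), inv_inv]
      calc e * (t * x * t⁻¹ * x⁻¹) = (t * e⁻¹ * t⁻¹) * (t * x * t⁻¹ * x⁻¹) := by rw [e4]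
        _ = t * x * (x⁻¹ * e * x)⁻¹ * t⁻¹ * x⁻¹ := by group
        _ = t * x * (t⁻¹ * (x⁻¹ * e * x) * t) * t⁻¹ * x⁻¹ := by rw [e3]
        _ = t * x * t⁻¹ * x⁻¹ * e := by group
    have heq : t * x * t⁻¹ = (t * x * t⁻¹ * x⁻¹) * x := by group
    rw [heq]
    exact Subgroup.mul_mem_sup hc hx
  obtain ⟨n, hn, hnQ⟩ := Cfsg.Agent.Lib.Helper53.exists_conj_le_sylow_of_le P le_sup_right hQle hQ
  obtain ⟨c, hc, x₀, hx₀, hnc⟩ :=
    Cfsg.Agent.Lib.Helper61.exists_mul_of_mem_sup_of_le_normalizer hPNC (inv_mem hn)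
  have hn' : n = x₀⁻¹ * c⁻¹ := by rw [← inv_inv n, hnc]; group
  have ht₁P : ∀ x ∈ (P : Subgroup G), (c⁻¹ * t) * x * (c⁻¹ * t)⁻¹ ∈ (P : Subgroup G) := by
    intro x hx
    have h := hnQ _ ⟨x, hx, rfl⟩
    simp only [MulEquiv.coe_toMonoidHom, MulAut.conj_apply] at h
    have heq : (c⁻¹ * t) * x * (c⁻¹ * t)⁻¹ = x₀ * (n * (t * x * t⁻¹) * n⁻¹) * x₀⁻¹ := by
      rw [hn']; group
    rw [heq]
    exact mul_mem (mul_mem hx₀ h) (inv_mem hx₀)
  have ht₁E : ∀ e ∈ E, (c⁻¹ * t) * e * (c⁻¹ * t)⁻¹ = e⁻¹ := by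
    intro e he
    have hc' : c⁻¹ ∈ Subgroup.centralizer (E : Set G) := inv_mem hc
    rw [Subgroup.mem_centralizer_iff] at hc'
    have h' := hc' e⁻¹ (inv_mem he)
    calc (c⁻¹ * t) * e * (c⁻¹ * t)⁻¹ = c⁻¹ * (t * e * t⁻¹) * c := by group
      _ = c⁻¹ * e⁻¹ * c := by rw [htE e he]
      _ = e⁻¹ * c⁻¹ * c := by rw [h']
      _ = e⁻¹ := by group
  obtain ⟨t₁, ht₁P', ht₁E'⟩ : ∃ t₁ : G, (∀ x ∈ (P : Subgroup G), t₁ * x * t₁⁻¹ ∈ (P : Subgroup G)) ∧
      ∀ e ∈ E, t₁ * e * t₁⁻¹ = e⁻¹ := ⟨_, ht₁P, ht₁E⟩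
  -- Step 4: an element of `P` outside `E` fixed by `t₁`
  have huE : u ∉ E := by
    intro huE
    have h' := h6 u huE y hyE
    have h'' : u * y * u⁻¹ * y⁻¹ = 1 := by rw [h']; group
    rw [huy] at h''
    exact hz1 h''
  obtain ⟨d, hd⟩ : ∃ d : G, d = u⁻¹ * (t₁ * u * t₁⁻¹) := ⟨_, rfl⟩
  have hdP : d ∈ (P : Subgroup G) := by rw [hd]; exact mul_mem (inv_mem hu) (ht₁P' u hu)
  have hdy : d * y = y * d := by
    have a1 : t₁⁻¹ * y * t₁ = y⁻¹ := by
      have h' := ht₁E' _ (inv_mem hyE)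
      rw [inv_inv] at h'
      calc t₁⁻¹ * y * t₁ = t₁⁻¹ * (t₁ * y⁻¹ * t₁⁻¹) * t₁ := by rw [h']
        _ = y⁻¹ := by group
    have a2 : u * y⁻¹ * u⁻¹ = (y * z)⁻¹ := by rw [← hu_y]; group
    have a3 : t₁ * (y * z)⁻¹ * t₁⁻¹ = y * z := by
      rw [ht₁E' _ (inv_mem (mul_mem hyE hzE)), inv_inv]
    have a4 : u⁻¹ * (y * z) * u = y := by rw [← hu_y]; group
    calc d * y = u⁻¹ * (t₁ * (u * (t₁⁻¹ * y * t₁) * u⁻¹) * t₁⁻¹) * u * d := by rw [hd]; group
      _ = u⁻¹ * (t₁ * (u * y⁻¹ * u⁻¹) * t₁⁻¹) * u * d := by rw [a1]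
      _ = u⁻¹ * (t₁ * (y * z)⁻¹ * t₁⁻¹) * u * d := by rw [a2]
      _ = u⁻¹ * (y * z) * u * d := by rw [a3]
      _ = y * d := by rw [a4]
  have hdE : d ∈ E := h9 y hyE hyZ d hdP hdy
  have hdp : d ^ p = 1 := (h5 d hdP).mpr hdE
  obtain ⟨m, hm⟩ : ∃ m, p + 1 = 2 * m := by
    obtain ⟨k, hk⟩ := hpp.odd_of_ne_two hp
    exact ⟨k + 1, by omega⟩
  have heE : d ^ m ∈ E := E.pow_mem hdE m
  have hee : d ^ m * d ^ m = d := by
    rw [← pow_add, ← two_mul, ← hm, pow_succ, hdp, one_mul]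
  have hud : t₁ * u * t₁⁻¹ = u * d := by rw [hd]; group
  have hxP : u * d ^ m ∈ (P : Subgroup G) := mul_mem hu (h2 heE)
  have hxE : u * d ^ m ∉ E := by
    intro h
    apply huE
    have h' : u = (u * d ^ m) * (d ^ m)⁻¹ := by group
    rw [h']
    exact mul_mem h (inv_mem heE)
  have htx : t₁ * (u * d ^ m) * t₁⁻¹ = u * d ^ m := by
    calc t₁ * (u * d ^ m) * t₁⁻¹ = (t₁ * u * t₁⁻¹) * (t₁ * d ^ m * t₁⁻¹) := by group
      _ = (u * d) * (d ^ m)⁻¹ := by rw [ht₁E' _ heE, hud]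
      _ = u * (d ^ m * d ^ m) * (d ^ m)⁻¹ := by rw [hee]
      _ = u * d ^ m := by group
  have hxp : (u * d ^ m) ^ p ∈ E := by
    apply (h5 _ (pow_mem hxP p)).mp
    rw [← pow_mul, ← sq]
    exact h10 _ hxP
  have h1' : t₁ * (u * d ^ m) ^ p * t₁⁻¹ = (u * d ^ m) ^ p := by rw [← conj_pow, htx]
  have h2' : t₁ * (u * d ^ m) ^ p * t₁⁻¹ = ((u * d ^ m) ^ p)⁻¹ := ht₁E' _ hxp
  have hsq : ((u * d ^ m) ^ p) ^ 2 = 1 := by
    have h' : (u * d ^ m) ^ p = ((u * d ^ m) ^ p)⁻¹ := h1'.symm.trans h2'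
    rw [sq]
    nth_rewrite 2 [h']
    exact mul_inv_cancel _
  have hpp' : ((u * d ^ m) ^ p) ^ p = 1 := (h5 _ (h2 hxp)).mpr hxp
  have hxp1 : (u * d ^ m) ^ p = 1 := by
    have ho2 : orderOf ((u * d ^ m) ^ p) ∣ 2 := orderOf_dvd_of_pow_eq_one hsq
    have hop : orderOf ((u * d ^ m) ^ p) ∣ p := orderOf_dvd_of_pow_eq_one hpp'
    have hcop : Nat.Coprime 2 p := (Nat.coprime_primes Nat.prime_two hpp).mpr (Ne.symm hp)
    exact orderOf_eq_one_iff.mp (Nat.eq_one_of_dvd_coprimes hcop ho2 hop)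
  exact hxE ((h5 _ hxP).mp hxp1)

/-- The statement with the coercions of `P` spelled through `Subgroup`. -/
theorem result' {G : Type*} [Group G] [Finite G]
    {p : ℕ} [Fact p.Prime] (hp : p ≠ 2) (P : Sylow p G)
    (hE : Cfsg.IsExtraspecial p ↥(P : Subgroup G))
    (hcard : Nat.card ↥(P : Subgroup G) = p ^ 3)
    (hexp : Monoid.exponent ↥(P : Subgroup G) = p ^ 2) :
    Cfsg.IsStronglyClosed ((Subgroup.center ↥(P : Subgroup G)).map (P : Subgroup G).subtype)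
      (P : Subgroup G) := by
  have hinj : Function.Injective (P : Subgroup G).subtype := Subgroup.subtype_injective _
  apply main hp P ((Subgroup.center ↥(P : Subgroup G)).map (P : Subgroup G).subtype)
    ((pw hp hE).ker.map (P : Subgroup G).subtype)
  · exact Subgroup.map_mono (center_le_ker hp hE)
  · rintro _ ⟨x, -, rfl⟩
    exact x.2
  · rw [Subgroup.card_map_of_injective hinj, hE.2]
  · rw [Subgroup.card_map_of_injective hinj, card_ker_pw hp hE hcard hexp]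
  · intro x hx
    constructor
    · intro h
      exact ⟨⟨x, hx⟩, (mem_ker_pw hp hE _).mpr (Subtype.ext h), rfl⟩
    · rintro ⟨x', hx', hxx⟩
      have hx'' := (mem_ker_pw hp hE _).mp hx'
      rw [← hxx]
      exact congrArg Subtype.val hx''
  · rintro _ ⟨a, ha, rfl⟩ _ ⟨b, hb, rfl⟩
    exact congrArg Subtype.val (ker_pw_comm hp hE hcard hexp a b ha hb)
  · rintro _ ⟨z, hz, rfl⟩ x hx
    exact congrArg Subtype.val (Subgroup.mem_center_iff.mp hz ⟨x, hx⟩)
  · rintro _ ⟨e, he, rfl⟩ heZ _ ⟨z', hz', rfl⟩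
    have heZ' : e ∉ Subgroup.center ↥(P : Subgroup G) := fun h => heZ ⟨e, h, rfl⟩
    obtain ⟨x, hx⟩ := exists_comm_eq hE e heZ' z' hz'
    exact ⟨x, x.2, congrArg Subtype.val hx⟩
  · rintro _ ⟨y, hy, rfl⟩ hyZ x hx hcomm
    have hyZ' : y ∉ Subgroup.center ↥(P : Subgroup G) := fun h => hyZ ⟨y, h, rfl⟩
    exact ⟨⟨x, hx⟩, mem_ker_of_commute hp hE hcard hexp hy hyZ' (x := ⟨x, hx⟩)
      (Subtype.ext hcomm), rfl⟩
  · intro x hx
    have h := Monoid.pow_exponent_eq_one (⟨x, hx⟩ : ↥(P : Subgroup G))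
    rw [hexp] at h
    exact congrArg Subtype.val h

/-- Let p be an odd prime and G a finite group with a Sylow p-subgroup P that is extraspecial of order p³ and exponent p². Then the centre of P is strongly closed in P with respect to G: a G-conjugate of an element of Z(P) that lies in P already lies in Z(P). In particular a nontrivial central element of P is conjugate in G to no noncentral element of P. -/
theorem result {G : Type*} [Group G] [Finite G]
    {p : ℕ} [Fact p.Prime] (hp : p ≠ 2) (P : Sylow p G) (hE : Cfsg.IsExtraspecial p ↥P)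
    (hcard : Nat.card P = p ^ 3) (hexp : Monoid.exponent ↥P = p ^ 2) :
    Cfsg.IsStronglyClosed ((Subgroup.center ↥P).map (P : Subgroup G).subtype) (P : Subgroup G) :=
  result' hp P hE hcard hexp

end Cfsg.Agent.S3053
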