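import Cfsg.Statements.S3057
import Cfsg.Agent.Lib.Helper51.SpeRank

set_option autoImplicit false
open Cfsg

namespace Cfsg.Agent.S3057

/-- Let p be a prime and G a finite p-solvable group of order divisible by p, with Sylow p-subgroup P. Then the Sylow p-subgroups of G fail to be chain-connected through nontrivial intersections (equivalently, G has a strongly p-embedded subgroup) if and only if O_p(G) = 1 and P is cyclic or, for p = 2, generalized quaternion. -/
theorem result {G : Type*} [Group G] [Finite G]
    (p : ℕ) [Fact p.Prime] (hdiv : p ∣ Nat.card G) (hsol : Cfsg.IsPSolvable p G) (P : Sylow p G) :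
    ¬ Cfsg.IsSylowChainConnected p G ↔
      Cfsg.pCore p G = ⊥ ∧ (IsCyclic ↥P ∨ (p = 2 ∧ ∃ n : ℕ, Nonempty (↥P ≃* QuaternionGroup (2 ^ n)))) := by
  rw [Cfsg.Agent.Lib.Helper51.isSylowChainConnected_iff]
  have hcore_le : ∀ S : Sylow p G, Cfsg.pCore p G ≤ (S : Subgroup G) := by
    intro S
    unfold Cfsg.pCore
    refine sSup_le ?_
    rintro N ⟨hN, hp⟩
    have := hN
    exact hp.le_sylow_of_normal S
  constructor
  · intro hG
    have hP : ∃ T : Sylow p G,
        ¬ Relation.ReflTransGen (Cfsg.Agent.Lib.Helper51.sylAdj p) P T := by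
      by_contra hcon
      push Not at hcon
      apply hG
      intro S T
      exact Relation.ReflTransGen.trans (Cfsg.Agent.Lib.Helper51.sylConn_symm (hcon S)) (hcon T)
    obtain ⟨T₁, hT₁⟩ := hP
    obtain ⟨H, hPH, hHtop, hpH, hse⟩ := Cfsg.Agent.Lib.Helper51.exists_spe_of_not_conn hT₁
    constructor
    · by_contra hne
      apply hG
      intro S T
      by_cases hST : S = T
      · rw [hST]
      · apply Relation.ReflTransGen.single
        refine ⟨hST, ?_⟩
        intro hbot
        apply hne
        rw [eq_bot_iff, ← hbot]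
        exact le_inf (hcore_le S) (hcore_le T)
    · apply Cfsg.Agent.S0016.result p P.isPGroup'
      apply Cfsg.Agent.Lib.Helper51.unique_card_prime_of_no_rank_two P.isPGroup'
      intro A' hA'
      have h1 := Cfsg.Agent.Lib.Helper51.no_rank_two_of_spe hsol hdiv P hse hPH hHtop
        (A'.map (P : Subgroup G).subtype) (Subgroup.map_subtype_le A')
        (Cfsg.Agent.Lib.Helper10.isElementaryAbelian_map _ hA')
      rwa [Subgroup.card_map_of_injective (Subgroup.subtype_injective _)] at h1
  · rintro ⟨hcore, hcq⟩
    apply Cfsg.Agent.Lib.Helper51.not_conn_of_unique_card_prime hdiv hcore P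
    rcases hcq with hc | ⟨rfl, n, ⟨e⟩⟩
    · exact Cfsg.Agent.Lib.Helper51.unique_card_prime_of_isCyclic p
    · intro H K hH hK
      have h1 := Cfsg.Agent.Lib.Helper51.unique_card_two_quaternionGroup (2 ^ n)
        (H.map e.toMonoidHom) (K.map e.toMonoidHom)
        (by rw [Subgroup.card_map_of_injective e.injective]; exact hH)
        (by rw [Subgroup.card_map_of_injective e.injective]; exact hK)
      exact Subgroup.map_injective e.injective h1

end Cfsg.Agent.S3057
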