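import Cfsg.Statements.S3059
import Cfsg.Agent.Lib.Helper51.Basic

set_option autoImplicit false
open Cfsg

namespace Cfsg.Agent.S3059

/-- Let p be a prime and H a strongly p-embedded subgroup of the finite group G in the classical sense: H is proper, p divides the order of H, and H ∩ gHg⁻¹ has order prime to p for every g outside H. Then for every normal subgroup N of G of order divisible by p, G = H · O^p(N), where O^p(N) is the subgroup generated by the elements of N of order prime to p. -/
theorem result {G : Type*} [Group G] [Finite G]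
    (p : ℕ) [Fact p.Prime] (H : Subgroup G) (hH : H ≠ ⊤) (hpH : p ∣ Nat.card H)
    (hse : ∀ g : G, g ∉ H → ¬ p ∣ Nat.card ↥(H ⊓ H.map (MulAut.conj g).toMonoidHom))
    (N : Subgroup G) [N.Normal] (hN : p ∣ Nat.card N) :
    H ⊔ Subgroup.closure {g : G | g ∈ N ∧ (orderOf g).Coprime p} = ⊤ := by
  obtain ⟨P, hPH⟩ := Cfsg.Agent.Lib.Helper51.spe_exists_sylow_le hpH hse
  have hX := Cfsg.Agent.Lib.Helper51.sylowInfNormal_map P N
  have hfr := Sylow.normalizer_sup_eq_top (Cfsg.Agent.Lib.Helper51.sylowInfNormal P N)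
  rw [hX] at hfr
  have hcard : p ∣ Nat.card ↥((P : Subgroup G) ⊓ N) := by
    rw [← hX]
    have e : Nat.card ((Cfsg.Agent.Lib.Helper51.sylowInfNormal P N : Subgroup N).map N.subtype) =
        Nat.card (Cfsg.Agent.Lib.Helper51.sylowInfNormal P N : Subgroup N) :=
      Nat.card_congr ((Cfsg.Agent.Lib.Helper51.sylowInfNormal P N : Subgroup N).equivMapOfInjective
        N.subtype N.subtype_injective).symm.toEquiv
    rw [e]
    exact (Cfsg.Agent.Lib.Helper51.sylowInfNormal P N).dvd_card_of_dvd_card hN
  have hnorm : Subgroup.normalizer (((P : Subgroup G) ⊓ N : Subgroup G) : Set G) ≤ H :=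
    Cfsg.Agent.Lib.Helper51.spe_normalizer_le hse (inf_le_left.trans hPH) hcard
  have hidx : ¬ p ∣ ((P : Subgroup G) ⊓ N).relIndex N := by
    rw [Subgroup.inf_relIndex_right]
    exact Cfsg.Agent.Lib.Helper51.not_dvd_relIndex_normal P N
  have hNR := Cfsg.Agent.Lib.Helper51.le_sup_pprimeClosure p N _ hidx
  rw [eq_top_iff, ← hfr]
  apply sup_le (hnorm.trans le_sup_left)
  exact hNR.trans (sup_le ((inf_le_left.trans hPH).trans le_sup_left) le_sup_right)

end Cfsg.Agent.S3059
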