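import Cfsg.Statements.S3069
import Cfsg.Agent.S1991

set_option autoImplicit false
open Cfsg

namespace Cfsg.Agent.S3069

/-- Let p ≥ 7 be a prime and S a nontrivial Sylow p-subgroup of the finite group G. If N_G(S)/C_G(S) is a p-group (every element of N_G(S) of order prime to p centralizes S), then O^p(G) < G, i.e. G has a nontrivial p-factor group. -/
theorem result {G : Type*} [Group G] [Finite G] {p : ℕ} [Fact p.Prime]
    (hp : 7 ≤ p) (S : Sylow p G) (hS : (S : Subgroup G) ≠ ⊥)
    (hN : ∀ g ∈ Subgroup.normalizer ((S : Subgroup G) : Set G), (orderOf g).Coprime p →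
      g ∈ Subgroup.centralizer ((S : Subgroup G) : Set G)) :
    Cfsg.pResidual p G ≠ ⊤ := by
  have hpp : p.Prime := Fact.out
  obtain ⟨N, hNn, hNi⟩ := Cfsg.Agent.S1991.result (by omega : 5 ≤ p) S hS hN
  intro htop
  have hle : Cfsg.pResidual p G ≤ N := by
    unfold Cfsg.pResidual
    rw [Subgroup.closure_le]
    intro g hg
    have hg' : (orderOf g).Coprime p := hg
    have h1 : orderOf (QuotientGroup.mk g : G ⧸ N) ∣ orderOf g :=
      orderOf_dvd_of_pow_eq_one (by rw [← QuotientGroup.mk_pow, pow_orderOf_eq_one]; rfl)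
    have h2 : orderOf (QuotientGroup.mk g : G ⧸ N) ∣ p := by
      have h3 := orderOf_dvd_natCard (QuotientGroup.mk g : G ⧸ N)
      rw [← Subgroup.index_eq_card, hNi] at h3
      exact h3
    have h4 : orderOf (QuotientGroup.mk g : G ⧸ N) = 1 :=
      Nat.eq_one_of_dvd_coprimes hg' h1 h2
    rw [orderOf_eq_one_iff, QuotientGroup.eq_one_iff] at h4
    exact h4
  rw [htop, top_le_iff] at hle
  rw [hle, Subgroup.index_top] at hNi
  exact hpp.one_lt.ne hNi

end Cfsg.Agent.S3069
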