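import Cfsg.Statements.S3075
import Cfsg.Agent.Lib.Helper51.CD

set_option autoImplicit false
open Cfsg

namespace Cfsg.Agent.S3075

/-- Conjugation by `n₁n₂` and by `n₂n₁` agree on an invariant subgroup of prime order. -/
theorem conj_comm_of_card_prime {N : Type*} [Group N] (K : Subgroup N) {p : ℕ} [Fact p.Prime]
    (hK : Nat.card K = p) (hinv : ∀ n : N, ∀ y ∈ K, n * y * n⁻¹ ∈ K) (n₁ n₂ : N) (y : N)
    (hy : y ∈ K) : n₁ * n₂ * y * (n₁ * n₂)⁻¹ = n₂ * n₁ * y * (n₂ * n₁)⁻¹ := by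
  have : IsCyclic K := isCyclic_of_prime_card hK
  obtain ⟨⟨k, hkK⟩, hk⟩ := IsCyclic.exists_generator (α := K)
  have hgen : ∀ y ∈ K, ∃ j : ℤ, k ^ j = y := by
    intro y hy
    have := hk ⟨y, hy⟩
    rw [Subgroup.mem_zpowers_iff] at this
    obtain ⟨j, hj⟩ := this
    exact ⟨j, by simpa using congrArg Subtype.val hj⟩
  obtain ⟨r₁, hr₁⟩ := hgen _ (hinv n₁ k hkK)
  obtain ⟨r₂, hr₂⟩ := hgen _ (hinv n₂ k hkK)
  obtain ⟨j, rfl⟩ := hgen y hy
  have e1 : ∀ n : N, ∀ x : N, ∀ i : ℤ, n * x ^ i * n⁻¹ = (n * x * n⁻¹) ^ i := by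
    intro n x i
    have := map_zpow (MulAut.conj n) x i
    simp only [MulAut.conj_apply] at this
    exact this
  calc n₁ * n₂ * k ^ j * (n₁ * n₂)⁻¹ = (n₁ * (n₂ * k * n₂⁻¹) * n₁⁻¹) ^ j := by
        rw [← e1, ← e1]; group
    _ = ((k ^ r₁) ^ r₂) ^ j := by rw [← hr₂, e1, ← hr₁]
    _ = ((k ^ r₂) ^ r₁) ^ j := by simp only [← zpow_mul]; congr 1; ring
    _ = (n₂ * (n₁ * k * n₁⁻¹) * n₂⁻¹) ^ j := by rw [← hr₁, e1, ← hr₂]
    _ = n₂ * n₁ * k ^ j * (n₂ * n₁)⁻¹ := by rw [← e1, ← e1]; group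

/-- The elements of `A` centralized by `t`. -/
def fixSub {N : Type*} [Group N] (A : Subgroup N) (t : N) : Subgroup N where
  carrier := {a | a ∈ A ∧ t * a * t⁻¹ = a}
  mul_mem' := by
    rintro a b ⟨ha, ha'⟩ ⟨hb, hb'⟩
    refine ⟨mul_mem ha hb, ?_⟩
    calc t * (a * b) * t⁻¹ = (t * a * t⁻¹) * (t * b * t⁻¹) := by group
      _ = a * b := by rw [ha', hb']
  one_mem' := ⟨one_mem _, by group⟩
  inv_mem' := by
    rintro a ⟨ha, ha'⟩
    refine ⟨inv_mem ha, ?_⟩
    calc t * a⁻¹ * t⁻¹ = (t * a * t⁻¹)⁻¹ := by group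
      _ = a⁻¹ := by rw [ha']

/-- The elements of the abelian subgroup `A` inverted by `t`. -/
def invSub {N : Type*} [Group N] (A : Subgroup N) (hAc : ∀ a ∈ A, ∀ b ∈ A, a * b = b * a)
    (t : N) : Subgroup N where
  carrier := {a | a ∈ A ∧ t * a * t⁻¹ = a⁻¹}
  mul_mem' := by
    rintro a b ⟨ha, ha'⟩ ⟨hb, hb'⟩
    refine ⟨mul_mem ha hb, ?_⟩
    calc t * (a * b) * t⁻¹ = (t * a * t⁻¹) * (t * b * t⁻¹) := by group
      _ = a⁻¹ * b⁻¹ := by rw [ha', hb']
      _ = (b * a)⁻¹ := by group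
      _ = (a * b)⁻¹ := by rw [hAc a ha b hb]
  one_mem' := ⟨one_mem _, by group⟩
  inv_mem' := by
    rintro a ⟨ha, ha'⟩
    refine ⟨inv_mem ha, ?_⟩
    calc t * a⁻¹ * t⁻¹ = (t * a * t⁻¹)⁻¹ := by group
      _ = a⁻¹⁻¹ := by rw [ha']

/-- The matrix `-1` of `SL₂(F)`. -/
def zM (F : Type*) [Field F] : Matrix.SpecialLinearGroup (Fin 2) F :=
  ⟨!![-1, 0; 0, -1], by simp [Matrix.det_fin_two]⟩

/-- An upper unitriangular matrix. -/
def uM (F : Type*) [Field F] : Matrix.SpecialLinearGroup (Fin 2) F :=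
  ⟨!![1, 1; 0, 1], by simp [Matrix.det_fin_two]⟩

/-- A lower unitriangular matrix. -/
def vM (F : Type*) [Field F] : Matrix.SpecialLinearGroup (Fin 2) F :=
  ⟨!![1, 0; 1, 1], by simp [Matrix.det_fin_two]⟩

theorem zM_coe {F : Type*} [Field F] : (zM F : Matrix (Fin 2) (Fin 2) F) = !![-1, 0; 0, -1] := rfl

theorem uM_coe {F : Type*} [Field F] : (uM F : Matrix (Fin 2) (Fin 2) F) = !![1, 1; 0, 1] := rfl

theorem vM_coe {F : Type*} [Field F] : (vM F : Matrix (Fin 2) (Fin 2) F) = !![1, 0; 1, 1] := rfl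

theorem zM_comm {F : Type*} [Field F] (g : Matrix.SpecialLinearGroup (Fin 2) F) :
    g * zM F = zM F * g := by
  apply Subtype.ext
  rw [Matrix.SpecialLinearGroup.coe_mul, Matrix.SpecialLinearGroup.coe_mul, zM_coe]
  ext i j
  fin_cases i <;> fin_cases j <;>
    simp [Matrix.mul_apply, Fin.sum_univ_two]

theorem zM_sq {F : Type*} [Field F] : zM F * zM F = 1 := by
  apply Subtype.ext
  rw [Matrix.SpecialLinearGroup.coe_mul, zM_coe]
  ext i j
  fin_cases i <;> fin_cases j <;>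
    simp [Matrix.mul_apply, Fin.sum_univ_two]

theorem zM_ne {F : Type*} [Field F] (h2 : (2 : F) ≠ 0) : zM F ≠ 1 := by
  intro h
  have h00 := congrArg
    (fun m : Matrix.SpecialLinearGroup (Fin 2) F => (m : Matrix (Fin 2) (Fin 2) F) 0 0) h
  simp only [zM_coe] at h00
  simp at h00
  apply h2
  linear_combination (-1 : F) * h00

theorem uM_vM_ne {F : Type*} [Field F] : uM F * vM F ≠ vM F * uM F := by
  intro huv
  have h00 := congrArg
    (fun m : Matrix.SpecialLinearGroup (Fin 2) F => (m : Matrix (Fin 2) (Fin 2) F) 0 0) huv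
  simp only [Matrix.SpecialLinearGroup.coe_mul, uM_coe, vM_coe] at h00
  simp [Matrix.mul_apply, Fin.sum_univ_two] at h00

/-- Let p be an odd prime and N a finite group with a normal elementary abelian subgroup A of order p² that is its own centralizer in N, such that N/A is isomorphic to SL₂(p) (over any field F with p elements). Then N splits over A: some subgroup U of N satisfies A ∩ U = 1 and AU = N. -/
theorem result {N : Type*} [Group N] [Finite N] {p : ℕ} [Fact p.Prime] (hp : p ≠ 2)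
    (A : Subgroup N) [A.Normal] (hAcomm : IsMulCommutative A) (hAcard : Nat.card A = p ^ 2) (hAexp : Monoid.exponent ↥A = p)
    (hAself : Subgroup.centralizer (A : Set N) = A)
    {F : Type*} [Field F] [Fintype F] (hF : Fintype.card F = p) (e : N ⧸ A ≃* Matrix.SpecialLinearGroup (Fin 2) F) :
    ∃ U : Subgroup N, A ⊓ U = ⊥ ∧ A ⊔ U = ⊤ := by
  classical
  have hpP : p.Prime := Fact.out
  have : CharP F p := charP_of_card_eq_prime hF
  obtain ⟨k, hk⟩ := hpP.odd_of_ne_two hp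
  have h2F : (2 : F) ≠ 0 := by
    intro h
    have h' : ((2 : ℕ) : F) = 0 := by exact_mod_cast h
    rw [CharP.cast_eq_zero_iff F p] at h'
    have h1 := Nat.le_of_dvd (by norm_num) h'
    have h2 := hpP.two_le
    omega
  set ψ : N →* Matrix.SpecialLinearGroup (Fin 2) F :=
    e.toMonoidHom.comp (QuotientGroup.mk' A) with hψ
  have hψsurj : Function.Surjective ψ := e.surjective.comp (QuotientGroup.mk'_surjective A)
  have hψker : ∀ n : N, ψ n = 1 ↔ n ∈ A := by
    intro n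
    simp only [hψ, MonoidHom.comp_apply, MulEquiv.coe_toMonoidHom, QuotientGroup.mk'_apply]
    rw [MulEquiv.map_eq_one_iff, QuotientGroup.eq_one_iff]
  have hAexp' : ∀ a ∈ A, a ^ p = 1 := by
    intro a ha
    have := Monoid.pow_exponent_eq_one (⟨a, ha⟩ : ↥A)
    rw [hAexp] at this
    simpa using congrArg Subtype.val this
  have hAc : ∀ a ∈ A, ∀ b ∈ A, a * b = b * a := fun a ha b hb => setLike_mul_comm ha hb
  set z : Matrix.SpecialLinearGroup (Fin 2) F := zM F with hz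
  have hzc : ∀ g : Matrix.SpecialLinearGroup (Fin 2) F, g * z = z * g := zM_comm
  have hz2 : z * z = 1 := zM_sq
  have hz1 : z ≠ 1 := zM_ne h2F
  obtain ⟨t₀, ht₀⟩ := hψsurj z
  have ht₀2 : t₀ * t₀ ∈ A := by rw [← hψker, map_mul, ht₀, hz2]
  set t := t₀ ^ p with ht
  have hψt : ψ t = z := by
    rw [ht, map_pow, ht₀, hk, pow_succ, pow_mul, pow_two, hz2, one_pow, one_mul]
  have htt : t * t = 1 := by
    have h1 : t * t = (t₀ * t₀) ^ p := ((Commute.refl t₀).mul_pow p).symm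
    rw [h1]; exact hAexp' _ ht₀2
  have htA : t ∉ A := fun h => hz1 (by rw [← hψt]; exact (hψker t).mpr h)
  have hcomm : ∀ n : N, t⁻¹ * n⁻¹ * t * n ∈ A := by
    intro n
    rw [← hψker]
    simp only [map_mul, map_inv, hψt]
    calc z⁻¹ * (ψ n)⁻¹ * z * ψ n = z⁻¹ * (ψ n)⁻¹ * (z * ψ n) := by group
      _ = z⁻¹ * (ψ n)⁻¹ * (ψ n * z) := by rw [hzc]
      _ = 1 := by group
  have hequiv : ∀ a ∈ A, ∀ n : N, t * (n * a * n⁻¹) * t⁻¹ = n * (t * a * t⁻¹) * n⁻¹ := by
    intro a ha n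
    have hca := hAc _ (hcomm n) a ha
    calc t * (n * a * n⁻¹) * t⁻¹
        = n * t * ((t⁻¹ * n⁻¹ * t * n) * a) * (t⁻¹ * n⁻¹ * t * n)⁻¹ * t⁻¹ * n⁻¹ := by group
      _ = n * t * (a * (t⁻¹ * n⁻¹ * t * n)) * (t⁻¹ * n⁻¹ * t * n)⁻¹ * t⁻¹ * n⁻¹ := by rw [hca]
      _ = n * (t * a * t⁻¹) * n⁻¹ := by group
  have hττ : ∀ a : N, t * (t * a * t⁻¹) * t⁻¹ = a := by
    intro a
    calc t * (t * a * t⁻¹) * t⁻¹ = (t * t) * a * (t * t)⁻¹ := by group
      _ = a := by rw [htt]; group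
  have hconjA : ∀ a ∈ A, t * a * t⁻¹ ∈ A :=
    fun a ha => (inferInstance : A.Normal).conj_mem a ha t
  have hApA : fixSub A t ≤ A := fun a ha => ha.1
  have hAmA : invSub A hAc t ≤ A := fun a ha => ha.1
  have hApinv : ∀ n : N, ∀ y ∈ fixSub A t, n * y * n⁻¹ ∈ fixSub A t := by
    rintro n y ⟨hy, hy'⟩
    exact ⟨(inferInstance : A.Normal).conj_mem y hy n, by rw [hequiv y hy n, hy']⟩
  have hAminv : ∀ n : N, ∀ y ∈ invSub A hAc t, n * y * n⁻¹ ∈ invSub A hAc t := by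
    rintro n y ⟨hy, hy'⟩
    refine ⟨(inferInstance : A.Normal).conj_mem y hy n, ?_⟩
    rw [hequiv y hy n, hy']; group
  have hp_mem : ∀ a ∈ A, a * (t * a * t⁻¹) ∈ fixSub A t := by
    intro a ha
    refine ⟨mul_mem ha (hconjA a ha), ?_⟩
    have hc := hAc a ha _ (hconjA a ha)
    calc t * (a * (t * a * t⁻¹)) * t⁻¹ = (t * a * t⁻¹) * (t * (t * a * t⁻¹) * t⁻¹) := by group
      _ = (t * a * t⁻¹) * a := by rw [hττ]
      _ = a * (t * a * t⁻¹) := hc.symm
  have hm_mem : ∀ a ∈ A, a * (t * a * t⁻¹)⁻¹ ∈ invSub A hAc t := by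
    intro a ha
    refine ⟨mul_mem ha (inv_mem (hconjA a ha)), ?_⟩
    calc t * (a * (t * a * t⁻¹)⁻¹) * t⁻¹
        = (t * a * t⁻¹) * (t * (t * a * t⁻¹) * t⁻¹)⁻¹ := by group
      _ = (t * a * t⁻¹) * a⁻¹ := by rw [hττ]
      _ = (a * (t * a * t⁻¹)⁻¹)⁻¹ := by group
  have hpow2 : ∀ a ∈ A, a * a = 1 → a = 1 := by
    intro a ha h2
    have h := hAexp' a ha
    rw [hk, pow_succ, pow_mul, pow_two, h2, one_pow, one_mul] at h
    exact h
  have hinfbot : fixSub A t ⊓ invSub A hAc t = ⊥ := by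
    rw [eq_bot_iff]
    rintro a ⟨⟨ha, h1⟩, ⟨_, h2⟩⟩
    rw [Subgroup.mem_bot]
    have h3 : a = a⁻¹ := h1.symm.trans h2
    exact hpow2 a ha (mul_eq_one_iff_eq_inv.mpr h3)
  have hinv : ∀ a ∈ A, t * a * t⁻¹ = a⁻¹ := by
    by_cases hpb : fixSub A t = ⊥
    · intro a ha
      have h1 := hp_mem a ha
      rw [hpb, Subgroup.mem_bot] at h1
      exact (eq_inv_of_mul_eq_one_right h1)
    · exfalso
      by_cases hmb : invSub A hAc t = ⊥
      · have hcent : t ∈ Subgroup.centralizer (A : Set N) := by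
          rw [Subgroup.mem_centralizer_iff]
          intro a ha
          have h1 := hm_mem a ha
          rw [hmb, Subgroup.mem_bot] at h1
          have h3 : a = t * a * t⁻¹ := by rwa [mul_inv_eq_one] at h1
          calc a * t = (t * a * t⁻¹) * t := by rw [← h3]
            _ = t * a := by group
        rw [hAself] at hcent
        exact htA hcent
      · obtain ⟨i, hi, hci⟩ := (Nat.dvd_prime_pow hpP).mp
          (hAcard ▸ Subgroup.card_dvd_of_le hApA)
        obtain ⟨j, hj, hcj⟩ := (Nat.dvd_prime_pow hpP).mp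
          (hAcard ▸ Subgroup.card_dvd_of_le hAmA)
        have hi0 : i ≠ 0 := by
          rintro rfl
          exact hpb (Subgroup.eq_bot_of_card_eq _ (by simpa using hci))
        have hj0 : j ≠ 0 := by
          rintro rfl
          exact hmb (Subgroup.eq_bot_of_card_eq _ (by simpa using hcj))
        have hle := Cfsg.Agent.Lib.Helper51.card_mul_card_le_card_sup_mul_card_inf
          (fixSub A t) (invSub A hAc t)
        rw [hinfbot, Subgroup.card_bot, mul_one, hci, hcj, ← pow_add] at hle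
        have hsupA : fixSub A t ⊔ invSub A hAc t ≤ A := sup_le hApA hAmA
        have hle2 : Nat.card ↥(fixSub A t ⊔ invSub A hAc t) ≤ p ^ 2 :=
          hAcard ▸ Subgroup.card_le_of_le hsupA
        have hij : i + j ≤ 2 := (Nat.pow_le_pow_iff_right hpP.one_lt).mp (hle.trans hle2)
        have hi1 : i = 1 := by omega
        have hj1 : j = 1 := by omega
        subst hi1
        subst hj1
        rw [pow_one] at hci hcj
        have hsupeq : fixSub A t ⊔ invSub A hAc t = A :=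
          Subgroup.eq_of_le_of_card_ge hsupA (by rw [hAcard]; exact hle)
        obtain ⟨n₁, hn₁⟩ := hψsurj (uM F)
        obtain ⟨n₂, hn₂⟩ := hψsurj (vM F)
        have hcent : (n₂ * n₁)⁻¹ * (n₁ * n₂) ∈ Subgroup.centralizer (A : Set N) := by
          rw [← hsupeq, Cfsg.Agent.Lib.Helper51.centralizer_sup_eq]
          refine Subgroup.mem_inf.mpr ⟨?_, ?_⟩
          · rw [Subgroup.mem_centralizer_iff]
            intro y hy
            have h1 := conj_comm_of_card_prime (fixSub A t) hci hApinv n₁ n₂ y hy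
            calc y * ((n₂ * n₁)⁻¹ * (n₁ * n₂))
                = (n₂ * n₁)⁻¹ * (n₂ * n₁ * y * (n₂ * n₁)⁻¹) * (n₁ * n₂) := by group
              _ = (n₂ * n₁)⁻¹ * (n₁ * n₂ * y * (n₁ * n₂)⁻¹) * (n₁ * n₂) := by rw [h1]
              _ = (n₂ * n₁)⁻¹ * (n₁ * n₂) * y := by group
          · rw [Subgroup.mem_centralizer_iff]
            intro y hy
            have h1 := conj_comm_of_card_prime (invSub A hAc t) hcj hAminv n₁ n₂ y hy
            calc y * ((n₂ * n₁)⁻¹ * (n₁ * n₂))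
                = (n₂ * n₁)⁻¹ * (n₂ * n₁ * y * (n₂ * n₁)⁻¹) * (n₁ * n₂) := by group
              _ = (n₂ * n₁)⁻¹ * (n₁ * n₂ * y * (n₁ * n₂)⁻¹) * (n₁ * n₂) := by rw [h1]
              _ = (n₂ * n₁)⁻¹ * (n₁ * n₂) * y := by group
        rw [hAself, ← hψker] at hcent
        simp only [map_mul, map_inv, hn₁, hn₂] at hcent
        have huv : uM F * vM F = vM F * uM F := by
          rw [inv_mul_eq_one] at hcent; exact hcent.symm
        exact uM_vM_ne huv
  refine ⟨Subgroup.centralizer ({t} : Set N), ?_, ?_⟩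
  · rw [eq_bot_iff]
    rintro a ⟨ha, hac⟩
    rw [Subgroup.mem_bot]
    have h1 : t * a = a * t := Subgroup.mem_centralizer_iff.mp hac t rfl
    have h2 := hinv a ha
    apply hpow2 a ha
    rw [mul_eq_one_iff_eq_inv, ← h2, h1]; group
  · rw [eq_top_iff]
    intro n _
    obtain ⟨d, hd, hdn⟩ : ∃ d ∈ A, n * t = d * t * n := by
      refine ⟨n * t * n⁻¹ * t⁻¹, ?_, by group⟩
      have h3 := (inferInstance : A.Normal).conj_mem _ (hcomm n⁻¹) t
      have h4 : t * (t⁻¹ * n⁻¹⁻¹ * t * n⁻¹) * t⁻¹ = n * t * n⁻¹ * t⁻¹ := by group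
      rw [h4] at h3
      exact h3
    obtain ⟨b, hbA, hb2⟩ : ∃ b ∈ A, b * b * d = 1 := by
      refine ⟨(d⁻¹) ^ (k + 1), pow_mem (inv_mem hd) _, ?_⟩
      have h4 : (d⁻¹) ^ (k + 1) * (d⁻¹) ^ (k + 1) = (d⁻¹) ^ p * d⁻¹ := by
        rw [← pow_add, ← pow_succ, hk]; congr 1; omega
      rw [h4, hAexp' _ (inv_mem hd), one_mul, inv_mul_cancel]
    have hbn : b * n ∈ Subgroup.centralizer ({t} : Set N) := by
      rw [Subgroup.mem_centralizer_iff]
      intro h hh
      rw [Set.mem_singleton_iff] at hh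
      rw [hh]
      calc t * (b * n) = (t * b * t⁻¹) * t * n := by group
        _ = b⁻¹ * t * n := by rw [hinv b hbA]
        _ = b⁻¹ * (b * b * d) * t * n := by rw [hb2, mul_one]
        _ = b * (d * t * n) := by group
        _ = b * (n * t) := by rw [hdn]
        _ = b * n * t := by group
    have h5 : n = b⁻¹ * (b * n) := by group
    rw [h5]
    exact Subgroup.mul_mem_sup (inv_mem hbA) hbn

end Cfsg.Agent.S3075
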