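import Mathlib
import Cfsg.Statements.S3087
-- import your own Cfsg.Agent.* helpers here

set_option autoImplicit false
open Cfsg

namespace Cfsg.Agent.S3087

/-- Let p be a prime, G a finite group acting linearly on a finite vector space V over the field with p elements, W a G-invariant subspace, and A a subgroup of G with |A|·|C_V(A)| ≥ |B|·|C_V(B)| for every subgroup B of A. Then |A|·|C_W(A)| ≥ |B|·|C_W(B)| for every subgroup B of A that contains C_A(W); that is, the image of A in the group induced on W satisfies the same maximality condition. -/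
theorem result {G V : Type*} [Group G] [Finite G] [AddCommGroup V] [Finite V] (p : ℕ) [Fact p.Prime] [Module (ZMod p) V]
    (ρ : Representation (ZMod p) G V) (W : Submodule (ZMod p) V) (hW : ∀ g : G, ∀ w ∈ W, ρ g w ∈ W)
    (A : Subgroup G)
    (hP : ∀ B : Subgroup G, B ≤ A →
      Nat.card ↥B * Nat.card {v : V // ∀ b ∈ B, ρ b v = v} ≤ Nat.card ↥A * Nat.card {v : V // ∀ a ∈ A, ρ a v = v})
    (B : Subgroup G) (hBA : B ≤ A) (hCB : ∀ a ∈ A, (∀ w ∈ W, ρ a w = w) → a ∈ B) :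
    Nat.card ↥B * Nat.card {w : W // ∀ b ∈ B, ρ b w = w} ≤ Nat.card ↥A * Nat.card {w : W // ∀ a ∈ A, ρ a w = w} := by
  classical
  have hzA : ∀ a ∈ A, ρ a (0 : V) = 0 := fun a _ => map_zero _
  have hzB : ∀ b ∈ B, ρ b (0 : V) = 0 := fun b _ => map_zero _
  have : Nonempty ({w : W // ∀ b ∈ B, ρ b w = w} × {v : V // ∀ a ∈ A, ρ a v = v}) :=
    ⟨(⟨0, fun b _ => by simp⟩, ⟨0, hzA⟩)⟩
  -- the sum map
  let S : ({w : W // ∀ b ∈ B, ρ b w = w} × {v : V // ∀ a ∈ A, ρ a v = v}) → V :=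
    fun x => (x.1.1 : V) + x.2.1
  let r : V → ({w : W // ∀ b ∈ B, ρ b w = w} × {v : V // ∀ a ∈ A, ρ a v = v}) := Function.invFun S
  have hr : ∀ x, S (r (S x)) = S x := fun x => Function.invFun_eq ⟨x, rfl⟩
  have key : Nat.card {w : W // ∀ b ∈ B, ρ b w = w} * Nat.card {v : V // ∀ a ∈ A, ρ a v = v} ≤
      Nat.card {v : V // ∀ b ∈ B, ρ b v = v} * Nat.card {w : W // ∀ a ∈ A, ρ a w = w} := by
    rw [← Nat.card_prod, ← Nat.card_prod]
    let g : ({w : W // ∀ b ∈ B, ρ b w = w} × {v : V // ∀ a ∈ A, ρ a v = v}) →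
        ({v : V // ∀ b ∈ B, ρ b v = v} × {w : W // ∀ a ∈ A, ρ a w = w}) := fun x =>
      (⟨S x, fun b hb => by
          show ρ b ((x.1.1 : V) + x.2.1) = (x.1.1 : V) + x.2.1
          rw [map_add, x.1.2 b hb, x.2.2 b (hBA hb)]⟩,
       ⟨x.1.1 - (r (S x)).1.1, fun a ha => by
          have h1 : ((r (S x)).1.1 : V) + (r (S x)).2.1 = (x.1.1 : V) + x.2.1 := hr x
          have h2 : ((x.1.1 - (r (S x)).1.1 : W) : V) = (r (S x)).2.1 - x.2.1 := by
            rw [Submodule.coe_sub, sub_eq_sub_iff_add_eq_add]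
            rw [add_comm ((r (S x)).2.1 : V)]
            exact h1.symm
          rw [h2, map_sub, (r (S x)).2.2 a ha, x.2.2 a ha]⟩)
    apply Nat.card_le_card_of_injective g
    intro x y hxy
    have h1 : S x = S y := congrArg (fun z => (z.1 : V)) hxy
    have h2 : x.1.1 - (r (S x)).1.1 = y.1.1 - (r (S y)).1.1 :=
      congrArg (fun z => (z.2.1 : W)) hxy
    rw [h1] at h2
    have h3 : x.1.1 = y.1.1 := sub_left_injective h2
    have h4 : x.1 = y.1 := Subtype.ext h3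
    have h5 : (x.2.1 : V) = y.2.1 := by
      have : (x.1.1 : V) + x.2.1 = (y.1.1 : V) + y.2.1 := h1
      rw [h3] at this
      exact add_left_cancel this
    exact Prod.ext h4 (Subtype.ext h5)
  have hpos : 0 < Nat.card {v : V // ∀ a ∈ A, ρ a v = v} := by
    have : Nonempty {v : V // ∀ a ∈ A, ρ a v = v} := ⟨⟨0, hzA⟩⟩
    exact Nat.card_pos
  have h1 := hP B hBA
  apply Nat.le_of_mul_le_mul_right _ hpos
  calc Nat.card ↥B * Nat.card {w : W // ∀ b ∈ B, ρ b w = w} * Nat.card {v : V // ∀ a ∈ A, ρ a v = v}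
      = Nat.card ↥B * (Nat.card {w : W // ∀ b ∈ B, ρ b w = w} * Nat.card {v : V // ∀ a ∈ A, ρ a v = v}) := by ring
    _ ≤ Nat.card ↥B * (Nat.card {v : V // ∀ b ∈ B, ρ b v = v} * Nat.card {w : W // ∀ a ∈ A, ρ a w = w}) :=
        Nat.mul_le_mul_left _ key
    _ = (Nat.card ↥B * Nat.card {v : V // ∀ b ∈ B, ρ b v = v}) * Nat.card {w : W // ∀ a ∈ A, ρ a w = w} := by ring
    _ ≤ (Nat.card ↥A * Nat.card {v : V // ∀ a ∈ A, ρ a v = v}) * Nat.card {w : W // ∀ a ∈ A, ρ a w = w} :=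
        Nat.mul_le_mul_right _ h1
    _ = Nat.card ↥A * Nat.card {w : W // ∀ a ∈ A, ρ a w = w} * Nat.card {v : V // ∀ a ∈ A, ρ a v = v} := by ring

end Cfsg.Agent.S3087
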