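import Mathlib
import Cfsg.Statements.S3155

set_option autoImplicit false
open Cfsg

namespace Cfsg.Agent.S3155

/-- Let B be the direct product of three cyclic groups of order 4. Then the automorphism of B inverting every element is not the square of any automorphism of B. -/
theorem result {B : Type*} [CommGroup B] [Finite B] (hB : Nonempty (B ≃* Multiplicative (ZMod 4 × ZMod 4 × ZMod 4)))
    (τ : B ≃* B) : τ.trans τ ≠ MulEquiv.inv B := by
  obtain ⟨e⟩ := hB
  intro h
  haveI : Fact (1 < 4) := ⟨by norm_num⟩
  -- the additive map induced by τ on (ZMod 4)^3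
  let f : (ZMod 4 × ZMod 4 × ZMod 4) →+ (ZMod 4 × ZMod 4 × ZMod 4) :=
    { toFun := fun m => Multiplicative.toAdd (e (τ (e.symm (Multiplicative.ofAdd m))))
      map_zero' := by simp
      map_add' := by
        intro a b
        simp [ofAdd_add, map_mul, toAdd_mul] }
  have hff : ∀ m, f (f m) = -m := by
    intro m
    have h1 : τ (τ (e.symm (Multiplicative.ofAdd m))) = (e.symm (Multiplicative.ofAdd m))⁻¹ := by
      have := congrArg (fun g : B ≃* B => g (e.symm (Multiplicative.ofAdd m))) h
      simpa using this
    change Multiplicative.toAdd (e (τ (e.symm (Multiplicative.ofAdd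
      (Multiplicative.toAdd (e (τ (e.symm (Multiplicative.ofAdd m))))))))) = -m
    simp only [ofAdd_toAdd, MulEquiv.symm_apply_apply, h1, map_inv, MulEquiv.apply_symm_apply]
    simp
  let g : (ZMod 4 × ZMod 4 × ZMod 4) →ₗ[ZMod 4] (ZMod 4 × ZMod 4 × ZMod 4) :=
    f.toZModLinearMap 4
  have hgg : g ∘ₗ g = (-1 : ZMod 4) • LinearMap.id := by
    refine LinearMap.ext fun m => ?_
    simp [g, hff]
  have hdet := congrArg LinearMap.det hgg
  rw [LinearMap.det_comp, LinearMap.det_smul, LinearMap.det_id] at hdet
  have hrank : Module.finrank (ZMod 4) (ZMod 4 × ZMod 4 × ZMod 4) = 3 := by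
    rw [Module.finrank_prod, Module.finrank_prod, Module.finrank_self]
  rw [hrank] at hdet
  revert hdet
  generalize LinearMap.det g = d
  revert d
  decide

end Cfsg.Agent.S3155
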