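import Cfsg.Statements.S3156
import Cfsg.Agent.Lib.Helper6.SuzCoord
import Cfsg.Agent.Lib.Helper6.SuzAut

set_option autoImplicit false
open Cfsg

namespace Cfsg.Agent.S3156

open Cfsg.Agent.Lib.Helper6 Cfsg.Agent.Lib.Helper45

/-- If a finite group T is isomorphic to a Sylow 2-subgroup of the projective special unitary group of dimension 3 with parameter 4 (realised over the field with 16 elements), then no subgroup of the automorphism group of T is isomorphic to the symmetric group of degree 3. -/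
theorem result {T : Type*} [Group T] [Finite T] (hT : (∃ (F : Type) (_ : Field F) (_ : Fintype F), Fintype.card F = 16 ∧ ∃ S : Sylow 2 (Cfsg.PSU 3 F 4), Nonempty (T ≃* ↥(S : Subgroup (Cfsg.PSU 3 F 4))))) (H : Subgroup (MulAut T)) : ¬ Nonempty (↥H ≃* Equiv.Perm (Fin 3)) := by
  rintro ⟨e⟩
  obtain ⟨F, iF, iFt, hF, S, ⟨φ⟩⟩ := hT
  have hF' : Fintype.card F = (2 ^ 2) ^ 2 := by rw [hF]; norm_num
  obtain ⟨c, hinj, hmul, hrange⟩ := SuzCoord.psu3_even_sylow_coords (n := 2) le_rfl hF' S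
  have hch : CharP F 2 := SuzCoord.charP_two_of_card le_rfl hF'
  have hmul' : ∀ x y : T, c (φ (x * y)) = ((c (φ x)).1 + (c (φ y)).1,
      (c (φ x)).2 + (c (φ y)).2 + (c (φ x)).1 ^ 4 * (c (φ y)).1) := by
    intro x y
    rw [map_mul, hmul]
    norm_num
  have hrange' : ∀ a b : F, (∃ x : T, c (φ x) = (a, b)) ↔ b + b ^ 4 = a ^ (4 + 1) := by
    intro a b
    have h : (∃ x, c x = (a, b)) ↔ b + b ^ 4 = a ^ (4 + 1) := hrange a b
    rw [← h]
    constructor
    · rintro ⟨x, hx⟩
      exact ⟨φ x, hx⟩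
    · rintro ⟨y, hy⟩
      exact ⟨φ.symm y, by rw [φ.apply_symm_apply]; exact hy⟩
  have hstruct := suzuki_coords_structure (q := 4) (by rw [hF]; norm_num) hch (by norm_num)
    ⟨2, by norm_num⟩ (fun x : T => c (φ x)) (hinj.comp φ.injective) hmul' hrange'
  exact SuzAut.no_S3 (fun x : T => c (φ x)) (hinj.comp φ.injective) hmul'
    (by rw [hstruct.1]; norm_num) hstruct.2.1 H e

end Cfsg.Agent.S3156
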