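import Cfsg.Statements.S3157
import Cfsg.Agent.Lib.Helper45.Heis64Abs
import Cfsg.Agent.Lib.Helper45.Heis64PSL

set_option autoImplicit false
open Cfsg

namespace Cfsg.Agent.S3157

/-- Let T be a non-abelian group of order 64 admitting automorphisms ρ of order 3 and x of order 2 with x ρ x⁻¹ = ρ⁻¹ (so they generate a symmetric group of degree 3), where ρ fixes only the identity. Then T is isomorphic to a Sylow 2-subgroup of the projective special linear group of dimension 3 over the field with 4 elements, and the subgroup of fixed points of x is dihedral of order 8 or quaternion of order 8. -/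
theorem result {T : Type*} [Group T] [Finite T] (hT : Nat.card T = 64) (hna : ¬ IsMulCommutative T) (ρ x : MulAut T) (hρ : orderOf ρ = 3) (hx : orderOf x = 2)
    (hxr : x * ρ * x⁻¹ = ρ⁻¹) (hfp : ∀ y : T, ρ y = y → y = 1) (C : Subgroup T) (hC : ∀ y : T, y ∈ C ↔ x y = y) :
    (∃ (F : Type) (_ : Field F) (_ : Fintype F), Fintype.card F = 4 ∧
        ∃ S : Sylow 2 (Matrix.ProjectiveSpecialLinearGroup (Fin 3) F), Nonempty (T ≃* ↥(S : Subgroup (Matrix.ProjectiveSpecialLinearGroup (Fin 3) F)))) ∧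
      (Nonempty (↥C ≃* DihedralGroup 4) ∨ Nonempty (↥C ≃* QuaternionGroup 2)) := by
  classical
  obtain ⟨⟨g₁, g₂, g₃, g₄, z₁, z₂, hd⟩, hC'⟩ :=
    Cfsg.Agent.Lib.Helper45.Heis64.main_abs hT hna ρ x hρ hx hxr hfp C hC
  haveI hFt : Fintype (GaloisField 2 2) := Fintype.ofFinite _
  have hF4 : Fintype.card (GaloisField 2 2) = 4 := by
    rw [← Nat.card_eq_fintype_card, GaloisField.card 2 2 (by norm_num)]
    norm_num
  obtain ⟨S, hS⟩ := Cfsg.Agent.Lib.Helper45.Heis64.psl34_iso (F := GaloisField 2 2) hF4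
  exact ⟨⟨GaloisField 2 2, inferInstance, hFt, hF4, S, hS T g₁ g₂ g₃ g₄ z₁ z₂ hd⟩, hC'⟩

end Cfsg.Agent.S3157
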