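import Cfsg.Statements.S3162
import Cfsg.Agent.Lib.Helper58.SuzA.Main
import Cfsg.Agent.Lib.Helper77.SuzA.Theta
import Cfsg.Agent.Lib.Helper77.SuzA.Coord
import Cfsg.Agent.Lib.Helper4.SuzA.Semi
import Cfsg.Agent.Lib.Helper29.SuzA.Image
import Cfsg.Agent.Lib.Helper66.SuzA.A
import Cfsg.Agent.Lib.Helper66.SuzA.KerComm
import Cfsg.Agent.Lib.Helper96.SuzA.O2
import Cfsg.Agent.Lib.Helper96.SuzA.Gamma
import Cfsg.Agent.Lib.Helper96.SuzA.KerCard

set_option autoImplicit false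
open Cfsg

namespace Cfsg.Agent.S3162

open Cfsg.Agent.Lib.Helper58.SuzA in
/-- Let S be a Sylow 2-subgroup of the special unitary group of dimension 3 with parameter q = 2^n (n ≥ 2; realised over the field with q² elements). Then the largest normal 2-subgroup of the automorphism group of S is elementary abelian of order 2^(2n²), and the automorphism group has order 2^(2n²) · 2n(q² − 1). -/
theorem result {S : Type*} [Group S] [Finite S] (n : ℕ) (hn : 2 ≤ n) {F : Type*} [Field F] [Fintype F] (hF : Fintype.card F = 4 ^ n)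
    (P : Sylow 2 ↥(Cfsg.SU 3 F (2 ^ n))) (hS : Nonempty (S ≃* ↥(P : Subgroup ↥(Cfsg.SU 3 F (2 ^ n))))) :
    Cfsg.IsElementaryAbelian 2 (Cfsg.pCore 2 (MulAut S)) ∧ Nat.card ↥(Cfsg.pCore 2 (MulAut S)) = 2 ^ (2 * n ^ 2) ∧
      Nat.card (MulAut S) = 2 ^ (2 * n ^ 2) * (2 * n * ((2 ^ n) ^ 2 - 1)) := by
  have hF' : Fintype.card F = (2 ^ n) ^ 2 := by
    rw [hF, ← pow_mul, mul_comm, pow_mul]; norm_num
  obtain ⟨e⟩ := hS
  obtain ⟨C⟩ := Cfsg.Agent.Lib.Helper77.SuzA.pkgCoord F n hn hF' P S e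
  have hTr := Cfsg.Agent.Lib.Helper29.SuzA.pkgTr
  exact main hTr (Cfsg.Agent.Lib.Helper77.SuzA.pkgTheta_of hTr)
    (Cfsg.Agent.Lib.Helper66.SuzA.pkgA hTr) Cfsg.Agent.Lib.Helper4.SuzA.pkgSemi
    (Cfsg.Agent.Lib.Helper66.SuzA.pkgKerComm hTr) Cfsg.Agent.Lib.Helper96.SuzA.pkgKerCard
    Cfsg.Agent.Lib.Helper29.SuzA.pkgImage Cfsg.Agent.Lib.Helper96.SuzA.pkgGamma
    Cfsg.Agent.Lib.Helper96.SuzA.pkgO2 n hn hF' C

end Cfsg.Agent.S3162
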