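import Cfsg.Statements.S3171
import Cfsg.Agent.Lib.Helper26.SylQuot

set_option autoImplicit false
open Cfsg

namespace Cfsg.Agent.S3171

/-- Let P be a Sylow 2-subgroup of the Mathieu group of degree 24 and S the quotient of P by its centre. Then the centre of every maximal subgroup of S has order at most 8; S has an elementary abelian subgroup of order 64; and S has only one abelian subgroup of order 64. -/
theorem result (P : Sylow 2 ↥Cfsg.M24) :
    (∀ M : Subgroup (↥(P : Subgroup ↥Cfsg.M24) ⧸ Subgroup.center ↥(P : Subgroup ↥Cfsg.M24)), IsCoatom M →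
        Nat.card ↥(Subgroup.center ↥M) ≤ 8) ∧
      (∃ A : Subgroup (↥(P : Subgroup ↥Cfsg.M24) ⧸ Subgroup.center ↥(P : Subgroup ↥Cfsg.M24)),
        Cfsg.IsElementaryAbelian 2 A ∧ Nat.card ↥A = 64) ∧
      ∀ A B : Subgroup (↥(P : Subgroup ↥Cfsg.M24) ⧸ Subgroup.center ↥(P : Subgroup ↥Cfsg.M24)),
        IsMulCommutative ↥A → Nat.card ↥A = 64 → IsMulCommutative ↥B → Nat.card ↥B = 64 → A = B := by
  have : Fact (Nat.Prime 2) := ⟨Nat.prime_two⟩
  have : Finite ↥Cfsg.M24 := Nat.finite_of_card_ne_zero (by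
    rw [Cfsg.Agent.Lib.Helper7.card_M24]
    norm_num)
  have hfac : (Nat.card ↥Cfsg.M24).factorization 2 = 10 := by
    rw [Cfsg.Agent.Lib.Helper7.card_M24]
    have h1 : (244823040 : ℕ) = 2 ^ 10 * 239085 := by norm_num
    have h2 : (239085 : ℕ).factorization 2 = 0 :=
      Nat.factorization_eq_zero_of_not_dvd (by norm_num)
    rw [h1, Nat.factorization_mul (by norm_num) (by norm_num),
      Nat.Prime.factorization_pow Nat.prime_two, Finsupp.add_apply, Finsupp.single_eq_same, h2]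
  have hc : Nat.card ↥(Cfsg.Agent.Lib.Helper26.sylP.subgroupOf Cfsg.M24)
      = 2 ^ (Nat.card ↥Cfsg.M24).factorization 2 := by
    rw [hfac, Nat.card_congr
      (Subgroup.subgroupOfEquivOfLe Cfsg.Agent.Lib.Helper26.sylP_le_M24).toEquiv,
      Cfsg.Agent.Lib.Helper26.sylP_table.2]
    norm_num
  let P0 : Sylow 2 ↥Cfsg.M24 :=
    Sylow.ofCard (Cfsg.Agent.Lib.Helper26.sylP.subgroupOf Cfsg.M24) hc
  let e1 : ↥Cfsg.Agent.Lib.Helper26.sylP ≃* ↥(P0 : Subgroup ↥Cfsg.M24) :=
    (Subgroup.subgroupOfEquivOfLe Cfsg.Agent.Lib.Helper26.sylP_le_M24).symm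
  let e2 : ↥(P0 : Subgroup ↥Cfsg.M24) ≃* ↥(P : Subgroup ↥Cfsg.M24) := Sylow.equiv P0 P
  let e : ↥Cfsg.Agent.Lib.Helper26.sylP ≃* ↥(P : Subgroup ↥Cfsg.M24) := e1.trans e2
  let f : ↥Cfsg.Agent.Lib.Helper26.sylP →*
      ↥(P : Subgroup ↥Cfsg.M24) ⧸ Subgroup.center ↥(P : Subgroup ↥Cfsg.M24) :=
    (QuotientGroup.mk' (Subgroup.center ↥(P : Subgroup ↥Cfsg.M24))).comp e.toMonoidHom
  have hf : Function.Surjective f :=
    (QuotientGroup.mk'_surjective _).comp e.surjective
  have hker : f.ker = Subgroup.center ↥Cfsg.Agent.Lib.Helper26.sylP := by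
    ext x
    rw [MonoidHom.mem_ker]
    show (QuotientGroup.mk' (Subgroup.center ↥(P : Subgroup ↥Cfsg.M24))) (e x) = 1 ↔ _
    rw [QuotientGroup.mk'_apply, QuotientGroup.eq_one_iff, Subgroup.mem_center_iff,
      Subgroup.mem_center_iff]
    constructor
    · intro h y
      have h1 := h (e y)
      rw [← map_mul, ← map_mul] at h1
      exact e.injective h1
    · intro h y
      obtain ⟨y', rfl⟩ := e.surjective y
      rw [← map_mul, ← map_mul, h y']
  exact Cfsg.Agent.Lib.Helper26.syl_main f hf hker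

end Cfsg.Agent.S3171
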