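import Cfsg.Statements.S3174
import Cfsg.Agent.Lib.Helper49.RUW.Main
import Cfsg.Agent.Lib.Helper32.RUW.StageA
import Cfsg.Agent.Lib.Helper86.RUW.Ucs
import Cfsg.Agent.Lib.Helper86.RUW.NormZ
import Cfsg.Agent.Lib.Helper57.RUW.Tower
import Cfsg.Agent.Lib.Helper16.RUW.Chain
import Cfsg.Agent.Lib.Helper20.RUW.FixStep
import Cfsg.Agent.Lib.Helper85.RUW.StageB
import Cfsg.Agent.Lib.Helper72.RUW.Elem
import Cfsg.Agent.Lib.Helper85.RUW.Center
import Cfsg.Agent.Lib.Helper72.RUW.NormCent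
import Cfsg.Agent.Lib.Helper85.RUW.ZFacts
import Cfsg.Agent.Lib.Helper94.RUW.CenK
import Cfsg.Agent.Lib.Helper20.RUW.SqG
import Cfsg.Agent.Lib.Helper72.RUW.Compl
import Cfsg.Agent.Lib.Helper6.RUW.Dih

set_option autoImplicit false
open Cfsg

namespace Cfsg.Agent.S3174

/-- Let T be a finite 2-group of order at least 2^14 in which the fourth term of the upper central series has order 16. Let W be the centralizer in T of the third term Z₃(T), and suppose the Frattini subgroup of W has order at most 8 and lies in every subgroup of W of index at most 16. Then T has order exactly 2^14; the derived subgroup of W and the Frattini subgroup of W both equal Z₃(T), which is elementary abelian of order 8; the centre of W has order 8; W is normal in T with quotient dihedral of order 8; and W modulo its derived subgroup is elementary abelian of order 2^8. -/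
theorem result {T : Type*} [Group T] [Finite T]
    (hT : IsPGroup 2 T) (ha : 2 ^ 14 ≤ Nat.card T) (hb : Nat.card ↥(Subgroup.upperCentralSeries T 4) = 16)
    (W : Subgroup T) (hW : W = Subgroup.centralizer ((Subgroup.upperCentralSeries T 3 : Subgroup T) : Set T))
    (hc : Nat.card ↥(frattini ↥W) ≤ 8) (hd : ∀ U : Subgroup ↥W, U.index ≤ 16 → frattini ↥W ≤ U) :
    Nat.card T = 2 ^ 14 ∧
      (commutator ↥W).map W.subtype = Subgroup.upperCentralSeries T 3 ∧
      (frattini ↥W).map W.subtype = Subgroup.upperCentralSeries T 3 ∧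
      Nat.card ↥(Subgroup.center ↥W) = 8 ∧
      Nat.card ↥(Subgroup.upperCentralSeries T 3) = 8 ∧ (∀ z ∈ Subgroup.upperCentralSeries T 3, z ^ 2 = 1) ∧
      (∃ (_ : W.Normal), Nonempty (T ⧸ W ≃* DihedralGroup 4)) ∧
      Nat.card (↥W ⧸ commutator ↥W) = 2 ^ 8 ∧ (∀ x : ↥W ⧸ commutator ↥W, x ^ 2 = 1) := by
  exact Cfsg.Agent.Lib.Helper49.RUW.s3174_of
    (Cfsg.Agent.Lib.Helper32.RUW.pkgStageA Cfsg.Agent.Lib.Helper86.RUW.pkgUcs
      Cfsg.Agent.Lib.Helper86.RUW.pkgNormZ Cfsg.Agent.Lib.Helper57.RUW.pkgTower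
      (Cfsg.Agent.Lib.Helper16.RUW.pkgChain Cfsg.Agent.Lib.Helper20.RUW.pkgFixStep))
    (Cfsg.Agent.Lib.Helper85.RUW.pkgStageB Cfsg.Agent.Lib.Helper72.RUW.pkgElem)
    (Cfsg.Agent.Lib.Helper85.RUW.pkgCenter Cfsg.Agent.Lib.Helper57.RUW.pkgTower
      (Cfsg.Agent.Lib.Helper16.RUW.pkgChain Cfsg.Agent.Lib.Helper20.RUW.pkgFixStep)
      Cfsg.Agent.Lib.Helper72.RUW.pkgNormCent Cfsg.Agent.Lib.Helper85.RUW.pkgZFacts
      (Cfsg.Agent.Lib.Helper94.RUW.pkgCenK Cfsg.Agent.Lib.Helper20.RUW.pkgSqG)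
      Cfsg.Agent.Lib.Helper72.RUW.pkgCompl)
    Cfsg.Agent.Lib.Helper6.RUW.pkgDih hT ha hb W hW hc hd

end Cfsg.Agent.S3174
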