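import Mathlib
import Cfsg.Statements.S3178
import Cfsg.Agent.Lib.Helper53.Basic

set_option autoImplicit false
open Cfsg

namespace Cfsg.Agent.S3178

open Cfsg.Agent.Lib.Helper53

/-- Groups with a modular Sylow 2-subgroup have a normal 2-complement. Let S, of order 2^(n+1) with n ≥ 3, be a Sylow 2-subgroup of a finite group G, and suppose S contains an element a of order 2^n and an involution b with b a b⁻¹ = a^(2^(n-1) + 1); so S is the non-abelian 2-group with a cyclic subgroup of index 2 that is neither dihedral, semidihedral nor generalized quaternion. Then G has a normal 2-complement. -/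
theorem result {G : Type*} [Group G] [Finite G]
    (S : Sylow 2 G) (n : ℕ) (hn : 3 ≤ n) (hS : Nat.card ↥(S : Subgroup G) = 2 ^ (n + 1))
    (a b : G) (ha : a ∈ (S : Subgroup G)) (hb : b ∈ (S : Subgroup G))
    (hao : orderOf a = 2 ^ n) (hbo : orderOf b = 2) (hrel : b * a * b⁻¹ = a ^ (2 ^ (n - 1) + 1)) :
    Cfsg.HasNormalPComplement 2 G := by
  have : Fact (Nat.Prime 2) := ⟨Nat.prime_two⟩
  obtain ⟨m, rfl⟩ : ∃ m, n = m + 3 := ⟨n - 3, by omega⟩
  have e1 : m + 3 - 1 = m + 2 := rfl
  rw [e1] at hrel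
  have hb2 : b ^ 2 = 1 := by rw [← hbo]; exact pow_orderOf_eq_one b
  have hb1 : b ≠ 1 := by
    intro h; rw [h, orderOf_one] at hbo; omega
  have ha2n : a ^ (2 ^ (m + 3)) = 1 := by rw [← hao]; exact pow_orderOf_eq_one a
  set z : G := a ^ (2 ^ (m + 2)) with hz
  have hz2 : z ^ 2 = 1 := by
    rw [hz, ← pow_mul, ← pow_succ]; exact ha2n
  have hz1 : z ≠ 1 := by
    intro h
    have h1 : orderOf a ∣ 2 ^ (m + 2) := orderOf_dvd_of_pow_eq_one h
    rw [hao] at h1
    have h2 := Nat.le_of_dvd (by positivity) h1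
    have h3 : 2 ^ (m + 2) < 2 ^ (m + 3) := Nat.pow_lt_pow_right (by norm_num) (by omega)
    omega
  set A : Subgroup G := Subgroup.zpowers a with hA
  have haA : a ∈ A := Subgroup.mem_zpowers a
  have hzA : z ∈ A := A.pow_mem haA _
  have hAS : A ≤ (S : Subgroup G) := by rw [hA, Subgroup.zpowers_le]; exact ha
  have hAcard : Nat.card A = 2 ^ (m + 3) := by rw [hA, Nat.card_zpowers, hao]
  have hAi : A.relIndex (S : Subgroup G) = 2 := by
    have h1 := card_mul_relIndex_eq hAS
    rw [hAcard, hS, pow_succ] at h1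
    exact Nat.eq_of_mul_eq_mul_left (by positivity) h1
  -- unique involution of A
  have huniq : ∀ y ∈ A, y ^ 2 = 1 → y ≠ 1 → y = z := by
    intro y hy hy2 hy1
    obtain ⟨k, rfl⟩ := Subgroup.mem_zpowers_iff.mp hy
    have h1 : (a ^ k) ^ 2 = a ^ (k * 2) := by
      rw [zpow_mul]; norm_cast
    rw [h1] at hy2
    have h2 : (orderOf a : ℤ) ∣ k * 2 := orderOf_dvd_iff_zpow_eq_one.mpr hy2
    rw [hao] at h2
    have h3 : ((2 : ℤ) ^ (m + 2)) ∣ k := by
      have h4 : ((2 ^ (m + 3) : ℕ) : ℤ) = 2 ^ (m + 2) * 2 := by push_cast; ring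
      rw [h4] at h2
      exact (mul_dvd_mul_iff_right (by norm_num)).mp h2
    obtain ⟨j, rfl⟩ := h3
    have h4 : a ^ ((2 : ℤ) ^ (m + 2) * j) = z ^ j := by
      rw [zpow_mul, hz]; norm_cast
    rw [h4] at hy1 ⊢
    rcases zpow_eq_one_or_self_of_sq_eq_one hz2 j with h | h
    · exact absurd h hy1
    · exact h
  -- A is normal in S
  have hN : (A.subgroupOf (S : Subgroup G)).Normal := Subgroup.normal_of_index_eq_two hAi
  have hAn : ∀ s ∈ (S : Subgroup G), ∀ x ∈ A, s * x * s⁻¹ ∈ A := by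
    intro s hs x hx
    have h1 := hN.conj_mem ⟨x, hAS hx⟩ (by simpa [Subgroup.mem_subgroupOf] using hx) ⟨s, hs⟩
    simpa [Subgroup.mem_subgroupOf] using h1
  have hsq : ∀ s ∈ (S : Subgroup G), s ^ 2 ∈ A := by
    intro s hs
    have h1 := Subgroup.sq_mem_of_index_two (H := A.subgroupOf (S : Subgroup G)) hAi ⟨s, hs⟩
    simpa [Subgroup.mem_subgroupOf] using h1
  -- z is central in S
  have hzc : ∀ s ∈ (S : Subgroup G), s * z * s⁻¹ = z := by
    intro s hs
    apply huniq _ (hAn s hs z hzA)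
    · rw [conj_pow, hz2]; simp
    · intro h
      apply hz1
      have h5 : z = s⁻¹ * (s * z * s⁻¹) * s := by group
      rw [h5, h]; group
  -- elements of order 2^(m+2) in S
  have hord : ∀ x ∈ (S : Subgroup G), orderOf x = 2 ^ (m + 2) → x ^ (2 ^ (m + 1)) = z := by
    intro x hx hxo
    apply huniq
    · have h5 : x ^ (2 ^ (m + 1)) = (x ^ 2) ^ (2 ^ m) := by rw [← pow_mul, ← pow_succ']
      rw [h5]; exact A.pow_mem (hsq x hx) _
    · rw [← pow_mul, ← pow_succ, ← hxo]; exact pow_orderOf_eq_one x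
    · intro h
      have h1 : orderOf x ∣ 2 ^ (m + 1) := orderOf_dvd_of_pow_eq_one h
      rw [hxo] at h1
      have h2 := Nat.le_of_dvd (by positivity) h1
      have h3 : 2 ^ (m + 1) < 2 ^ (m + 2) := Nat.pow_lt_pow_right (by norm_num) (by omega)
      omega
  have hbA : b ∉ A := by
    intro hbA
    obtain ⟨k, hk⟩ := Subgroup.mem_zpowers_iff.mp hbA
    have h1 : b * a * b⁻¹ = a := by
      have hc : Commute (a ^ k) a := (Commute.refl a).zpow_left k
      rw [← hk, hc.eq, mul_inv_cancel_right]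
    rw [h1] at hrel
    apply hz1
    have h2 : a ^ (2 ^ (m + 2) + 1) = z * a := by rw [pow_succ]
    rw [h2] at hrel
    simpa using hrel
  set c : G := a ^ 2 with hc
  have hbc : b * c * b⁻¹ = c := by
    rw [hc, ← conj_pow, hrel, ← pow_mul]
    have h5 : (2 ^ (m + 2) + 1) * 2 = 2 ^ (m + 3) + 2 := by ring
    rw [h5, pow_add, ha2n, one_mul]
  have hco : orderOf c = 2 ^ (m + 2) := by
    rw [hc, orderOf_pow' a two_ne_zero, hao]
    have h5 : Nat.gcd (2 ^ (m + 3)) 2 = 2 := Nat.gcd_eq_right (dvd_pow_self 2 (by omega))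
    rw [h5, pow_succ]; simp
  have hcz : c ^ (2 ^ (m + 1)) = z := by
    rw [hc, ← pow_mul, ← pow_succ']
  have hconj : ∀ g : G, g * b * g⁻¹ ∉ A := by
    intro g hg
    have hgb : g * b * g⁻¹ = z := by
      apply huniq _ hg
      · rw [conj_pow, hb2]; simp
      · intro h
        apply hb1
        have h5 : b = g⁻¹ * (g * b * g⁻¹) * g := by group
        rw [h5, h]; group
    set y := g * c * g⁻¹ with hy
    have hyz : y * z = z * y := by
      rw [← hgb, hy]
      have h1 : b * c = c * b := by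
        have h6 := hbc
        rw [mul_inv_eq_iff_eq_mul] at h6; exact h6
      calc g * c * g⁻¹ * (g * b * g⁻¹) = g * (c * b) * g⁻¹ := by group
        _ = g * (b * c) * g⁻¹ := by rw [h1]
        _ = g * b * g⁻¹ * (g * c * g⁻¹) := by group
    have hyo : orderOf y = 2 ^ (m + 2) := by
      rw [hy, orderOf_conj_eq, hco]
    have hSC : (S : Subgroup G) ≤ Subgroup.centralizer {z} := by
      intro s hs
      rw [Subgroup.mem_centralizer_singleton_iff]
      have h6 := hzc s hs
      rw [mul_inv_eq_iff_eq_mul] at h6; exact h6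
    have hyC : Subgroup.zpowers y ≤ Subgroup.centralizer {z} := by
      rw [Subgroup.zpowers_le, Subgroup.mem_centralizer_singleton_iff]; exact hyz
    have hyP : IsPGroup 2 (Subgroup.zpowers y) :=
      IsPGroup.of_card (n := m + 2) (by rw [Nat.card_zpowers, hyo])
    obtain ⟨k, hkC, hk⟩ := exists_conj_le_sylow_of_le S hSC hyC hyP
    have hx := hk y (Subgroup.mem_zpowers y)
    have hxo : orderOf (k * y * k⁻¹) = 2 ^ (m + 2) := by rw [orderOf_conj_eq, hyo]
    have h1 := hord _ hx hxo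
    have h2 : (k * y * k⁻¹) ^ (2 ^ (m + 1)) = (k * g) * z * (k * g)⁻¹ := by
      rw [conj_pow, hy, conj_pow, hcz]; group
    have hkz : k * z * k⁻¹ = z := by
      have h6 := Subgroup.mem_centralizer_singleton_iff.mp hkC
      rw [mul_inv_eq_iff_eq_mul]; exact h6
    have h3 : (k * g) * b * (k * g)⁻¹ = z := by
      calc (k * g) * b * (k * g)⁻¹ = k * (g * b * g⁻¹) * k⁻¹ := by group
        _ = z := by rw [hgb, hkz]
    have h4 : (k * g) * z * (k * g)⁻¹ = (k * g) * b * (k * g)⁻¹ := by rw [← h2, h1, h3]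
    have h5 : z = b := by simpa using h4
    exact hbA (h5 ▸ hzA)
  obtain ⟨M, hMn, hMi, hbM⟩ := thompson_transfer S A hAS hAi b hbo hconj
  -- an element of order 2^(m+3) in M
  have hcM : ∃ c' ∈ M, orderOf c' = 2 ^ (m + 3) := by
    by_cases haM : a ∈ M
    · exact ⟨a, haM, hao⟩
    · refine ⟨a * b, ?_, ?_⟩
      · rw [Subgroup.mul_mem_iff_of_index_two hMi]; tauto
      · have hab2 : (a * b) ^ 2 = a ^ (2 ^ (m + 2) + 2) := by
          have h1 : b * a = a ^ (2 ^ (m + 2) + 1) * b := by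
            rw [← hrel]; group
          calc (a * b) ^ 2 = a * (b * a) * b := by rw [sq]; group
            _ = a * (a ^ (2 ^ (m + 2) + 1) * b) * b := by rw [h1]
            _ = a ^ (2 ^ (m + 2) + 2) * (b ^ 2) := by
              rw [pow_succ' a (2 ^ (m + 2) + 1), sq, mul_assoc, mul_assoc, mul_assoc]
            _ = a ^ (2 ^ (m + 2) + 2) := by rw [hb2, mul_one]
        apply orderOf_eq_prime_pow
        · have h5 : (a * b) ^ (2 ^ (m + 2)) = z := by
            rw [pow_succ', pow_mul, hab2, ← pow_mul]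
            have e : (2 ^ (m + 2) + 2) * 2 ^ (m + 1) = 2 ^ (m + 3) * 2 ^ m + 2 ^ (m + 2) := by ring
            rw [e, pow_add, pow_mul, ha2n, one_pow, one_mul]
          rw [h5]; exact hz1
        · rw [pow_succ' 2 (m + 2), pow_mul, hab2, ← pow_mul]
          have e : (2 ^ (m + 2) + 2) * 2 ^ (m + 2) = 2 ^ (m + 3) * (2 ^ (m + 1) + 1) := by ring
          rw [e, pow_mul, ha2n, one_pow]
  obtain ⟨c', hc'M, hc'o⟩ := hcM
  have := hMn
  have hcP : IsPGroup 2 (Subgroup.zpowers (⟨c', hc'M⟩ : M)) :=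
    IsPGroup.of_card (n := m + 3) (by rw [Nat.card_zpowers, Subgroup.orderOf_mk, hc'o])
  obtain ⟨Q, hQ⟩ := hcP.exists_le_sylow
  have hGf : (Nat.card G).factorization 2 = m + 3 + 1 := by
    have h1 := S.card_eq_multiplicity
    rw [hS] at h1
    exact (Nat.pow_right_injective le_rfl h1).symm
  have hMG : Nat.card M * 2 = Nat.card G := by rw [← hMi]; exact M.card_mul_index
  have hMf : (Nat.card M).factorization 2 = m + 3 := by
    have h2 : (Nat.card M * 2).factorization 2 = (Nat.card M).factorization 2 + 1 := by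
      rw [Nat.factorization_mul Nat.card_pos.ne' two_ne_zero]
      simp [Nat.Prime.factorization_self Nat.prime_two]
    rw [hMG, hGf] at h2; omega
  have hQcard : Nat.card Q = 2 ^ (m + 3) := by rw [Q.card_eq_multiplicity, hMf]
  have hQcyc : IsCyclic Q := by
    apply isCyclic_of_orderOf_eq_card (⟨⟨c', hc'M⟩, hQ (Subgroup.mem_zpowers _)⟩ : Q)
    show orderOf _ = Nat.card (Q : Subgroup M)
    rw [hQcard, Subgroup.orderOf_mk, Subgroup.orderOf_mk, hc'o]
  obtain ⟨K₀, hK₀n, hK₀⟩ := exists_normal_complement_of_isCyclic_sylow_two Q hQcyc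
  obtain ⟨K, hKn, hK⟩ := exists_normal_complement_of_normal_subgroup M (k := 1)
    (by rw [hMi, pow_one]) Q K₀ hK₀ S
  exact ⟨S, K, hKn, hK⟩

end Cfsg.Agent.S3178
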