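import Cfsg.Statements.S3179
import Cfsg.Agent.Lib.Helper6.GL5
import Cfsg.Agent.Lib.Helper37.SzCount
import Cfsg.Agent.Lib.Helper37.SzLieC
import Cfsg.Agent.Lib.Helper37.SzGroup
import Cfsg.Agent.Lib.Helper45.SU3EvenSylow
import Cfsg.Agent.Lib.Helper45.HermSU
import Cfsg.Agent.Lib.Helper45.HermCenter

set_option autoImplicit false
open Cfsg

namespace Cfsg.Agent.S3179

theorem card_section_dvd {H : Subgroup (GL (Fin 5) (ZMod 2))} {K : Subgroup ↥H} [K.Normal] :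
    Nat.card (↥H ⧸ K) ∣ 9999360 := by
  rw [← Cfsg.Agent.Lib.Helper6.GL5.card_GL5]
  exact (Subgroup.card_quotient_dvd_card K).trans (Subgroup.card_subgroup_dvd_card H)

theorem psl_case {H : Subgroup (GL (Fin 5) (ZMod 2))} {K : Subgroup ↥H} [K.Normal]
    (n : ℕ) (F : Type) [Field F] [Fintype F] (hn : 2 ≤ n) (hF : Fintype.card F = 2 ^ n)
    (ψ : ↥H ⧸ K ≃* Matrix.ProjectiveSpecialLinearGroup (Fin 2) F) :
    ∃ (F : Type) (_ : Field F) (_ : Fintype F), Fintype.card F = 4 ∧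
      Nonempty (↥H ⧸ K ≃* Matrix.ProjectiveSpecialLinearGroup (Fin 2) F) := by
  classical
  have h2 : (2 : F) = 0 := Cfsg.Agent.Lib.Helper5.two_eq_zero_of_even_card
    (by rw [hF]; exact (Nat.even_pow.2 ⟨even_two, by omega⟩))
  have hc : Nat.card (Matrix.ProjectiveSpecialLinearGroup (Fin 2) F)
      = 2 ^ n * ((2 ^ n) ^ 2 - 1) := by
    have h := Cfsg.Agent.Lib.Helper5.card_PSL_mul_card_center (Fin 2) F
    rw [Cfsg.Agent.Lib.Helper5.center_SL2_eq_bot_of_two_eq_zero h2, Subgroup.card_bot, mul_one,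
      Cfsg.Agent.Lib.Helper5.card_SL2, hF] at h
    exact h
  have hd : 2 ^ n * ((2 ^ n) ^ 2 - 1) ∣ 9999360 := by
    rw [← hc, ← Nat.card_congr ψ.toEquiv]
    exact card_section_dvd
  have hn10 : n ≤ 10 := by
    by_contra hcon
    have h11 : 2 ^ 11 ∣ 2 ^ n := Nat.pow_dvd_pow 2 (by omega)
    have := (h11.trans (Dvd.intro _ rfl)).trans hd
    norm_num at this
  interval_cases n
  · exact ⟨F, _, _, by rw [hF]; norm_num, ⟨ψ⟩⟩
  · exfalso
    obtain ⟨y, hy9, hy3⟩ :=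
      Cfsg.Agent.Lib.Helper6.GL5.exists_order_nine (F := F) (by rw [hF]; norm_num)
    obtain ⟨h, hh⟩ := QuotientGroup.mk_surjective (ψ.symm y)
    obtain ⟨a, m, hm, hord⟩ := Nat.exists_eq_pow_mul_and_not_dvd
      (orderOf_pos (h : GL (Fin 5) (ZMod 2))).ne' 3 (by norm_num)
    have h1 : ((h : GL (Fin 5) (ZMod 2)) ^ m) ^ 3 ^ a = 1 := by
      rw [← pow_mul, mul_comm, ← hord]; exact pow_orderOf_eq_one _
    have h3 := Cfsg.Agent.Lib.Helper6.GL5.three_elt _ a h1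
    have h3' : h ^ (m * 3) = 1 := by
      apply Subtype.ext
      rw [Subgroup.coe_pow, pow_mul, h3, Subgroup.coe_one]
    have h4 : (ψ.symm y) ^ (m * 3) = 1 := by
      rw [← hh, ← QuotientGroup.mk_pow, h3', QuotientGroup.mk_one]
    have h5 : y ^ (m * 3) = 1 := by
      have := congrArg ψ h4
      rwa [map_pow, MulEquiv.apply_symm_apply, map_one] at this
    have h6 : y ^ (Nat.gcd (m * 3) 9) = 1 := pow_gcd_eq_one.2 ⟨h5, hy9⟩
    have h7 : Nat.gcd (m * 3) 9 = 3 := by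
      have e : Nat.gcd (m * 3) (3 * 3) = Nat.gcd m 3 * 3 := Nat.gcd_mul_right m 3 3
      have hcop : Nat.gcd m 3 = 1 := by
        rw [Nat.gcd_comm]
        exact (Nat.Prime.coprime_iff_not_dvd (by norm_num)).2 hm
      rw [show (9 : ℕ) = 3 * 3 by norm_num, e, hcop]
    rw [h7] at h6
    exact hy3 h6
  all_goals (exfalso; norm_num at hd)

theorem sz_case {H : Subgroup (GL (Fin 5) (ZMod 2))} {K : Subgroup ↥H} [K.Normal]
    (m : ℕ) (F : Type) [Field F] [Fintype F] (hm : 1 ≤ m)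
    (hF : Fintype.card F = 2 ^ (2 * m + 1))
    (ψ : ↥H ⧸ K ≃* ↥(Cfsg.Lie.Sz F (2 ^ (m + 1)))) : False := by
  classical
  have hc := Cfsg.Agent.Lib.Helper37.card_sz hm hF
  have e := Cfsg.Agent.Lib.Helper37.szLieEquiv (Cfsg.Agent.Lib.Helper37.szData_of_card hm hF)
  have hd : (2 ^ (2 * m + 1)) ^ 2 * ((2 ^ (2 * m + 1)) ^ 2 + 1) * (2 ^ (2 * m + 1) - 1)
      ∣ 9999360 := by
    rw [← hc, Nat.card_congr e.toEquiv, ← Nat.card_congr ψ.toEquiv]
    exact card_section_dvd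
  have hm2 : m ≤ 2 := by
    by_contra hcon
    have h14 : 2 ^ 14 ∣ (2 ^ (2 * m + 1)) ^ 2 := by
      rw [← pow_mul]; exact Nat.pow_dvd_pow 2 (by omega)
    have := ((h14.trans (Dvd.intro _ rfl)).trans (Dvd.intro _ rfl)).trans hd
    norm_num at this
  interval_cases m <;> norm_num at hd

theorem psu_case {H : Subgroup (GL (Fin 5) (ZMod 2))} {K : Subgroup ↥H} [K.Normal]
    (n : ℕ) (F : Type) [Field F] [Fintype F] (hn : 2 ≤ n) (hF : Fintype.card F = 4 ^ n)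
    (ψ : ↥H ⧸ K ≃* Cfsg.PSU 3 F (2 ^ n)) : False := by
  classical
  have hF' : Fintype.card F = (2 ^ n) ^ 2 := by
    rw [hF, ← pow_mul, mul_comm, pow_mul]; norm_num
  have hd : Nat.card (Cfsg.PSU 3 F (2 ^ n)) ∣ 9999360 := by
    rw [← Nat.card_congr ψ.toEquiv]; exact card_section_dvd
  have hn3 : n ≤ 3 := by
    by_contra hcon
    have : Fact (Nat.Prime 2) := ⟨Nat.prime_two⟩
    obtain ⟨S⟩ : Nonempty (Sylow 2 (Cfsg.PSU 3 F (2 ^ n))) := inferInstance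
    have hS := (Cfsg.Agent.Lib.Helper45.psu3_even_sylow_structure hn hF' S).1
    have h12 : 2 ^ 12 ∣ (2 ^ n) ^ 3 := by
      rw [← pow_mul]; exact Nat.pow_dvd_pow 2 (by omega)
    have := (h12.trans (by rw [← hS]; exact Subgroup.card_subgroup_dvd_card _)).trans hd
    norm_num at this
  have hsu := Cfsg.Agent.Lib.Helper45.card_SU hF' 3 (by norm_num)
  have hz := Cfsg.Agent.Lib.Helper45.card_center_SU hF' 3 (by norm_num)
  have hq := Subgroup.card_eq_card_quotient_mul_card_subgroup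
    (Subgroup.center (Cfsg.SU 3 F (2 ^ n)))
  rw [hz] at hq
  rw [hq] at hsu
  have hd' : Nat.card (↥(Cfsg.SU 3 F (2 ^ n)) ⧸ Subgroup.center ↥(Cfsg.SU 3 F (2 ^ n)))
      ∣ 9999360 := hd
  generalize Nat.card (↥(Cfsg.SU 3 F (2 ^ n)) ⧸ Subgroup.center ↥(Cfsg.SU 3 F (2 ^ n))) = N
    at hq hsu hd'
  interval_cases n
  · norm_num [Finset.prod_range_succ] at hsu
    have hN : N = 62400 := by omega
    rw [hN] at hd'
    norm_num at hd'
  · norm_num [Finset.prod_range_succ] at hsu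
    have hN : N = 5515776 := by omega
    rw [hN] at hd'
    norm_num at hd'

theorem result {H : Subgroup (GL (Fin 5) (ZMod 2))}
    {K : Subgroup ↥H} [K.Normal]
    (hX : (∃ (n : ℕ) (F : Type) (_ : Field F) (_ : Fintype F), 2 ≤ n ∧ Fintype.card F = 2 ^ n ∧
        Nonempty (↥H ⧸ K ≃* Matrix.ProjectiveSpecialLinearGroup (Fin 2) F)) ∨
      (∃ (m : ℕ) (F : Type) (_ : Field F) (_ : Fintype F), 1 ≤ m ∧ Fintype.card F = 2 ^ (2 * m + 1) ∧
        Nonempty (↥H ⧸ K ≃* ↥(Cfsg.Lie.Sz F (2 ^ (m + 1))))) ∨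
      (∃ (n : ℕ) (F : Type) (_ : Field F) (_ : Fintype F), 2 ≤ n ∧ Fintype.card F = 4 ^ n ∧
        Nonempty (↥H ⧸ K ≃* Cfsg.PSU 3 F (2 ^ n)))) :
    ∃ (F : Type) (_ : Field F) (_ : Fintype F), Fintype.card F = 4 ∧
      Nonempty (↥H ⧸ K ≃* Matrix.ProjectiveSpecialLinearGroup (Fin 2) F) := by
  rcases hX with ⟨n, F, _, _, hn, hF, ⟨ψ⟩⟩ | ⟨m, F, _, _, hm, hF, ⟨ψ⟩⟩ | ⟨n, F, _, _, hn, hF, ⟨ψ⟩⟩
  · exact psl_case n F hn hF ψ
  · exact (sz_case m F hm hF ψ).elim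
  · exact (psu_case n F hn hF ψ).elim

end Cfsg.Agent.S3179
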