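import Mathlib
import Cfsg.Statements.S3180

set_option autoImplicit false
open Cfsg

namespace Cfsg.Agent.S3180


/-- Let P be a Sylow p-subgroup of a finite group J and P₁ a subgroup of P that is weakly closed in P with respect to J. If J acts on a set and two points, each fixed by every element of P₁, lie in one J-orbit, then they lie in one orbit of the normalizer of P₁ in J. -/
theorem result {J : Type*} [Group J] [Finite J]
    {p : ℕ} [Fact p.Prime] (P : Sylow p J) (P₁ : Subgroup J) (hW : Cfsg.IsWeaklyClosed P₁ (P : Subgroup J))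
    {Ω : Type*} [MulAction J Ω] (x y : Ω) (hx : ∀ g ∈ P₁, g • x = x) (hy : ∀ g ∈ P₁, g • y = y)
    (hc : ∃ g : J, g • x = y) :
    ∃ g ∈ Subgroup.normalizer (P₁ : Set J), g • x = y := by
  obtain ⟨g, hg⟩ := hc
  obtain ⟨hP₁P, hwc⟩ := hW
  have hP₁ : IsPGroup p P₁ := P.isPGroup'.to_le hP₁P
  -- the stabilizer of y
  set H : Subgroup J := MulAction.stabilizer J y with hH
  have h1 : P₁ ≤ H := fun q hq => by simpa [hH, MulAction.mem_stabilizer_iff] using hy q hq
  -- the conjugate of P₁ by g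
  set P₂ : Subgroup J := P₁.map (MulAut.conj g).toMonoidHom with hP₂
  have h2 : P₂ ≤ H := by
    rintro _ ⟨q, hq, rfl⟩
    simp only [hH, MulAction.mem_stabilizer_iff, MulEquiv.coe_toMonoidHom, MulAut.conj_apply]
    rw [← hg, mul_smul, mul_smul, inv_smul_smul, hx q hq]
  have hP₂ : IsPGroup p P₂ := hP₁.map _
  -- Sylow subgroup Q of H containing P₁, as a subgroup of J
  obtain ⟨Q, hQ⟩ := (hP₁.comap_subtype (K := H)).exists_le_sylow
  set Q' : Subgroup J := (Q : Subgroup H).map H.subtype with hQ'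
  have hQ'p : IsPGroup p Q' := Q.isPGroup'.map _
  have hP₁Q' : P₁ ≤ Q' := by
    intro q hq
    exact ⟨⟨q, h1 hq⟩, hQ (by simpa [Subgroup.mem_subgroupOf] using hq), rfl⟩
  -- conjugate P₂ into Q by an element of H
  have hQ'H : Q' ≤ H := by
    rintro _ ⟨q, -, rfl⟩
    exact q.2
  -- Sylow subgroup of J containing Q'
  obtain ⟨R, hR⟩ := hQ'p.exists_le_sylow
  -- Q is a Sylow p-subgroup of H, so P₂ is H-conjugate into Q'
  obtain ⟨Q₂, hQ₂⟩ := (hP₂.comap_subtype (K := H)).exists_le_sylow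
  obtain ⟨h, hh⟩ := MulAction.exists_smul_eq H Q₂ Q
  have h3 : ∀ q ∈ P₂, (h : J) * q * (h : J)⁻¹ ∈ Q' := by
    intro q hq
    have ha : (⟨q, h2 hq⟩ : H) ∈ (Q₂ : Subgroup H) :=
      hQ₂ (by simpa [Subgroup.mem_subgroupOf] using hq)
    have hb : h * ⟨q, h2 hq⟩ * h⁻¹ ∈ ((h • Q₂ : Sylow p H) : Subgroup H) := by
      rw [Sylow.coe_subgroup_smul]
      exact ⟨_, ha, rfl⟩
    rw [hh] at hb
    exact ⟨_, hb, rfl⟩
  -- R is conjugate to P
  obtain ⟨k, hk⟩ := MulAction.exists_smul_eq J R P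
  have h4 : ∀ q ∈ (R : Subgroup J), k * q * k⁻¹ ∈ (P : Subgroup J) := by
    intro q hq
    have : k * q * k⁻¹ ∈ ((k • R : Sylow p J) : Subgroup J) := by
      rw [Sylow.coe_subgroup_smul]
      exact ⟨_, hq, rfl⟩
    rwa [hk] at this
  -- weak closure
  have h5 : P₁.map (MulAut.conj k).toMonoidHom = P₁ := by
    apply hwc
    rintro _ ⟨q, hq, rfl⟩
    exact h4 q (hR (hP₁Q' hq))
  have h6 : P₁.map (MulAut.conj (k * h * g)).toMonoidHom = P₁ := by
    apply hwc
    rintro _ ⟨q, hq, rfl⟩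
    have := h4 _ (hR (h3 _ ⟨q, hq, rfl⟩))
    simpa [mul_assoc] using this
  have hkN : k ∈ Subgroup.normalizer (P₁ : Set J) :=
    Subgroup.mem_normalizer_iff_map_conj_eq.mpr h5
  have hkhgN : k * h * g ∈ Subgroup.normalizer (P₁ : Set J) :=
    Subgroup.mem_normalizer_iff_map_conj_eq.mpr h6
  refine ⟨h * g, ?_, ?_⟩
  · have := (Subgroup.normalizer (P₁ : Set J)).mul_mem
      ((Subgroup.normalizer (P₁ : Set J)).inv_mem hkN) hkhgN
    simpa [mul_assoc] using this
  · rw [mul_smul, hg]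
    exact h.2

end Cfsg.Agent.S3180
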