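import Mathlib
import Cfsg.Statements.S3183
import Cfsg.Agent.Lib.Helper53.Basic

set_option autoImplicit false
open Cfsg

namespace Cfsg.Agent.S3183

open Cfsg.Agent.Lib.Helper53

theorem mem_sylow_smul {G : Type*} [Group G] {p : ℕ} (g x : G) (P : Sylow p G) :
    x ∈ ((g • P : Sylow p G) : Subgroup G) ↔ g⁻¹ * x * g ∈ (P : Subgroup G) := by
  rw [Sylow.coe_subgroup_smul, Subgroup.mem_pointwise_smul_iff_inv_smul_mem]
  simp [MulAut.smul_def]

/-- elements of `Z(U)` commute with `U` -/
theorem comm_of_mem_map_center {G : Type*} [Group G] {U : Subgroup G} {d : G}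
    (hd : d ∈ (Subgroup.center U).map U.subtype) : ∀ u ∈ U, u * d = d * u := by
  intro u hu
  obtain ⟨z, hz, rfl⟩ := hd
  have h1 := Subgroup.mem_center_iff.mp hz ⟨u, hu⟩
  exact congrArg Subtype.val h1

/-- the key lemma: intersections of distinct Sylow 2-subgroups are central -/
theorem key {G : Type*} [Group G] [Finite G]
    (hCI : ∀ S T : Sylow 2 G, S ≠ T → ∃ U : Sylow 2 G,
      (S : Subgroup G) ⊓ (T : Subgroup G) ≤ (Subgroup.center ↥(U : Subgroup G)).map (U : Subgroup G).subtype)
    (S T : Sylow 2 G) (hST : S ≠ T) (d : G) (hd : d ∈ (S : Subgroup G) ⊓ (T : Subgroup G)) :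
    ∀ s ∈ (S : Subgroup G), s * d = d * s := by
  have : Fact (Nat.Prime 2) := ⟨Nat.prime_two⟩
  by_contra hcon
  push Not at hcon
  obtain ⟨s₀, hs₀S, hs₀⟩ := hcon
  have hAS : (S : Subgroup G) ⊓ Subgroup.centralizer ({d} : Set G) < (S : Subgroup G) := by
    refine lt_of_le_of_ne inf_le_left ?_
    intro h
    have h1 : s₀ ∈ (S : Subgroup G) ⊓ Subgroup.centralizer ({d} : Set G) := by rw [h]; exact hs₀S
    exact hs₀ (Subgroup.mem_centralizer_singleton_iff.mp h1.2)
  obtain ⟨U₀, hU₀⟩ := hCI S T hST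
  have hU₀C : (U₀ : Subgroup G) ≤ Subgroup.centralizer ({d} : Set G) := by
    intro u hu
    rw [Subgroup.mem_centralizer_singleton_iff]
    exact comm_of_mem_map_center (hU₀ hd) u hu
  have hA2 : IsPGroup 2 ((S : Subgroup G) ⊓ Subgroup.centralizer ({d} : Set G) : Subgroup G) :=
    S.isPGroup'.to_le inf_le_left
  obtain ⟨n, hnC, hn⟩ := exists_conj_le_sylow_of_le U₀ hU₀C inf_le_right hA2
  have hnC' : n * d = d * n := Subgroup.mem_centralizer_singleton_iff.mp hnC
  -- U := n⁻¹ • U₀
  have hAU : (S : Subgroup G) ⊓ Subgroup.centralizer ({d} : Set G) ≤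
      ((n⁻¹ • U₀ : Sylow 2 G) : Subgroup G) := by
    intro q hq
    rw [mem_sylow_smul, inv_inv]
    exact hn q hq
  have hUC : ((n⁻¹ • U₀ : Sylow 2 G) : Subgroup G) ≤ Subgroup.centralizer ({d} : Set G) := by
    intro u hu
    rw [mem_sylow_smul, inv_inv] at hu
    have h1 := Subgroup.mem_centralizer_singleton_iff.mp (hU₀C hu)
    rw [Subgroup.mem_centralizer_singleton_iff]
    -- n u n⁻¹ d = d n u n⁻¹ and n d = d n
    have h2 : n * (u * d) * n⁻¹ = n * (d * u) * n⁻¹ := by
      calc n * (u * d) * n⁻¹ = n * u * n⁻¹ * (n * d) * n⁻¹ := by group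
        _ = n * u * n⁻¹ * d := by rw [hnC']; group
        _ = d * (n * u * n⁻¹) := h1
        _ = (d * n) * u * n⁻¹ := by group
        _ = n * (d * u) * n⁻¹ := by rw [← hnC']; group
    exact mul_left_cancel (mul_right_cancel h2)
  have hUS : S ≠ (n⁻¹ • U₀ : Sylow 2 G) := by
    intro h
    have h1 : s₀ ∈ ((n⁻¹ • U₀ : Sylow 2 G) : Subgroup G) := by rw [← h]; exact hs₀S
    exact hs₀ (Subgroup.mem_centralizer_singleton_iff.mp (hUC h1))
  obtain ⟨V, hV⟩ := hCI S _ hUS
  have hAV : ∀ a ∈ (S : Subgroup G) ⊓ Subgroup.centralizer ({d} : Set G),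
      ∀ v ∈ (V : Subgroup G), v * a = a * v := by
    intro a ha v hv
    exact comm_of_mem_map_center (hV ⟨ha.1, hAU ha⟩) v hv
  obtain ⟨s, hsS, hsA, hsN⟩ := exists_mem_normalizer_not_mem S.isPGroup' hAS
  have hVN : (V : Subgroup G) ≤ Subgroup.normalizer
      (((S : Subgroup G) ⊓ Subgroup.centralizer ({d} : Set G) : Subgroup G) : Set G) := by
    refine le_trans ?_ (Subgroup.centralizer_le_normalizer _)
    intro v hv
    rw [Subgroup.mem_centralizer_iff]
    intro a ha
    exact (hAV a ha v hv).symm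
  have hs2 : IsPGroup 2 (Subgroup.zpowers s) :=
    S.isPGroup'.to_le (Subgroup.zpowers_le.mpr hsS)
  obtain ⟨k, hkN, hk⟩ := exists_conj_le_sylow_of_le V hVN (Subgroup.zpowers_le.mpr hsN) hs2
  have hksV : k * s * k⁻¹ ∈ (V : Subgroup G) := hk s (Subgroup.mem_zpowers s)
  have hdA : d ∈ (S : Subgroup G) ⊓ Subgroup.centralizer ({d} : Set G) :=
    ⟨hd.1, Subgroup.mem_centralizer_singleton_iff.mpr rfl⟩
  have hkd : k * d * k⁻¹ ∈ (S : Subgroup G) ⊓ Subgroup.centralizer ({d} : Set G) :=
    (Subgroup.mem_normalizer_iff.mp hkN d).mp hdA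
  have h1 := hAV _ hkd _ hksV
  have h2 : s * d = d * s := by
    have h3 : k * (s * d) * k⁻¹ = k * (d * s) * k⁻¹ := by
      calc k * (s * d) * k⁻¹ = (k * s * k⁻¹) * (k * d * k⁻¹) := by group
        _ = (k * d * k⁻¹) * (k * s * k⁻¹) := h1
        _ = k * (d * s) * k⁻¹ := by group
    exact mul_left_cancel (mul_right_cancel h3)
  exact hsA ⟨hsS, Subgroup.mem_centralizer_singleton_iff.mpr h2⟩

/-- Let G be a finite group in which the intersection of any two distinct Sylow 2-subgroups is contained in the centre of some Sylow 2-subgroup, and let S be a Sylow 2-subgroup. Then for every x in S the centralizer of x in S is a Sylow 2-subgroup of the centralizer of x in G (no 2-subgroup centralizing x is larger), and for every other Sylow 2-subgroup T the intersection S ∩ T lies in both the centre of S and the centre of T. -/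
theorem result {G : Type*} [Group G] [Finite G]
    (hCI : ∀ S T : Sylow 2 G, S ≠ T → ∃ U : Sylow 2 G,
      (S : Subgroup G) ⊓ (T : Subgroup G) ≤ (Subgroup.center ↥(U : Subgroup G)).map (U : Subgroup G).subtype)
    (S : Sylow 2 G) :
    (∀ x ∈ (S : Subgroup G), ∀ P : Subgroup G, IsPGroup 2 ↥P → P ≤ Subgroup.centralizer ({x} : Set G) →
        Nat.card ↥P ≤ Nat.card ↥((S : Subgroup G) ⊓ Subgroup.centralizer ({x} : Set G))) ∧
    (∀ T : Sylow 2 G, T ≠ S →
        (S : Subgroup G) ⊓ (T : Subgroup G) ≤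
          (Subgroup.center ↥(S : Subgroup G)).map (S : Subgroup G).subtype ⊓
            (Subgroup.center ↥(T : Subgroup G)).map (T : Subgroup G).subtype) := by
  have : Fact (Nat.Prime 2) := ⟨Nat.prime_two⟩
  constructor
  · intro x hx P hP hPC
    by_cases hxZ : ∀ s ∈ (S : Subgroup G), s * x = x * s
    · have h1 : (S : Subgroup G) ⊓ Subgroup.centralizer ({x} : Set G) = S :=
        inf_eq_left.mpr (fun s hs => Subgroup.mem_centralizer_singleton_iff.mpr (hxZ s hs))
      rw [h1]
      obtain ⟨R, hR⟩ := hP.exists_le_sylow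
      calc Nat.card P ≤ Nat.card (R : Subgroup G) := Subgroup.card_le_of_le hR
        _ = Nat.card (S : Subgroup G) := by
          rw [Sylow.card_eq_multiplicity, Sylow.card_eq_multiplicity]
    · push Not at hxZ
      have hx2 : IsPGroup 2 (Subgroup.zpowers x) :=
        S.isPGroup'.to_le (Subgroup.zpowers_le.mpr hx)
      have hxN : Subgroup.zpowers x ≤ Subgroup.normalizer (P : Set G) := by
        rw [Subgroup.zpowers_le]
        apply Subgroup.centralizer_le_normalizer
        rw [Subgroup.mem_centralizer_iff]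
        intro p hp
        exact Subgroup.mem_centralizer_singleton_iff.mp (hPC hp)
      have hPx : IsPGroup 2 (P ⊔ Subgroup.zpowers x : Subgroup G) :=
        IsPGroup.to_sup_of_normal_left' hP hx2 hxN
      obtain ⟨T, hT⟩ := hPx.exists_le_sylow
      have hxT : x ∈ (T : Subgroup G) := hT (le_sup_right (α := Subgroup G) (Subgroup.mem_zpowers x))
      by_cases hTS : T = S
      · subst hTS
        exact Subgroup.card_le_of_le (le_inf (le_sup_left.trans hT) hPC)
      · exfalso
        obtain ⟨s, hs, hsx⟩ := hxZ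
        exact hsx (key hCI S T (Ne.symm hTS) x ⟨hx, hxT⟩ s hs)
  · intro T hTS x hx
    have hxS : x ∈ (S : Subgroup G) := hx.1
    have hxT : x ∈ (T : Subgroup G) := hx.2
    constructor
    · refine Subgroup.mem_map.mpr ⟨⟨x, hxS⟩, ?_, rfl⟩
      rw [Subgroup.mem_center_iff]
      intro g
      exact Subtype.ext (key hCI S T (Ne.symm hTS) x hx g g.2)
    · refine Subgroup.mem_map.mpr ⟨⟨x, hxT⟩, ?_, rfl⟩
      rw [Subgroup.mem_center_iff]
      intro g
      exact Subtype.ext (key hCI T S hTS x ⟨hxT, hxS⟩ g g.2)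

end Cfsg.Agent.S3183
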