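import Mathlib
import Cfsg.Statements.S3190
import Cfsg.Agent.Lib.Helper53.PGroups

set_option autoImplicit false
open Cfsg

namespace Cfsg.Agent.S3190

open Cfsg.Agent.Lib.Helper53

/-- Let p be an odd prime and, inside a finite group, let P be a p-subgroup normalized by a Klein four-group T. Let R be a subgroup of P, normal in P and normalized by T, such that P is the product of R with the centralizer of T in P. If T centralizes the centre of P, then T centralizes the centre of R. -/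
theorem result {X : Type*} [Group X] [Finite X]
    {p : ℕ} (hp : p.Prime) (hodd : Odd p) (P T R : Subgroup X) (hP : IsPGroup p ↥P) (hT : IsKleinFour ↥T)
    (hTP : T ≤ Subgroup.normalizer (P : Set X)) (hRP : R ≤ P) (hRn : (R.subgroupOf P).Normal)
    (hTR : T ≤ Subgroup.normalizer (R : Set X)) (hfac : R ⊔ (P ⊓ Subgroup.centralizer (T : Set X)) = P)
    (hZ : T ≤ Subgroup.centralizer (((Subgroup.center ↥P).map P.subtype : Subgroup X) : Set X)) :
    T ≤ Subgroup.centralizer (((Subgroup.center ↥R).map R.subtype : Subgroup X) : Set X) := by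
  have : Fact p.Prime := ⟨hp⟩
  intro t ht
  have ht2 : t * t = 1 := by
    have h1 := IsKleinFour.mul_self (⟨t, ht⟩ : T)
    exact congrArg Subtype.val h1
  have hZR : ∀ w, w ∈ (Subgroup.center R).map R.subtype ↔ w ∈ R ∧ ∀ r ∈ R, r * w = w * r :=
    fun w => mem_map_center_iff
  have htN := hTR ht
  have htZR : ∀ w ∈ (Subgroup.center R).map R.subtype,
      t * w * t⁻¹ ∈ (Subgroup.center R).map R.subtype := by
    intro w hw
    rw [hZR] at hw ⊢
    refine ⟨(Subgroup.mem_normalizer_iff.mp htN w).mp hw.1, ?_⟩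
    intro r hr
    have h1 : t⁻¹ * r * t ∈ R := by
      have h0 := (Subgroup.mem_normalizer_iff.mp (inv_mem htN) r).mp hr
      simpa using h0
    have h2 := hw.2 _ h1
    calc r * (t * w * t⁻¹) = t * ((t⁻¹ * r * t) * w) * t⁻¹ := by simp only [mul_assoc, mul_inv_rev, inv_inv, inv_mul_cancel_left, mul_inv_cancel_left, inv_mul_cancel, mul_inv_cancel, mul_one, one_mul, inv_one]
      _ = t * (w * (t⁻¹ * r * t)) * t⁻¹ := by rw [h2]
      _ = t * w * t⁻¹ * r := by simp only [mul_assoc, mul_inv_rev, inv_inv, inv_mul_cancel_left, mul_inv_cancel_left, inv_mul_cancel, mul_inv_cancel, mul_one, one_mul, inv_one]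
  have hZRc : ∀ w₁ ∈ (Subgroup.center R).map R.subtype,
      ∀ w₂ ∈ (Subgroup.center R).map R.subtype, w₁ * w₂ = w₂ * w₁ := by
    intro w₁ h1 w₂ h2
    exact ((hZR w₂).mp h2).2 w₁ ((hZR w₁).mp h1).1
  let M : Subgroup X :=
    { carrier := {w | w ∈ (Subgroup.center R).map R.subtype ∧ t * w * t⁻¹ = w⁻¹}
      mul_mem' := by
        rintro a b ⟨ha, ha'⟩ ⟨hb, hb'⟩
        refine ⟨mul_mem ha hb, ?_⟩
        calc t * (a * b) * t⁻¹ = (t * a * t⁻¹) * (t * b * t⁻¹) := by simp only [mul_assoc, mul_inv_rev, inv_inv, inv_mul_cancel_left, mul_inv_cancel_left, inv_mul_cancel, mul_inv_cancel, mul_one, one_mul, inv_one]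
          _ = a⁻¹ * b⁻¹ := by rw [ha', hb']
          _ = (b * a)⁻¹ := by simp only [mul_assoc, mul_inv_rev, inv_inv, inv_mul_cancel_left, mul_inv_cancel_left, inv_mul_cancel, mul_inv_cancel, mul_one, one_mul, inv_one]
          _ = (a * b)⁻¹ := by rw [hZRc b hb a ha]
      one_mem' := ⟨one_mem _, by simp⟩
      inv_mem' := by
        rintro a ⟨ha, ha'⟩
        refine ⟨inv_mem ha, ?_⟩
        calc t * a⁻¹ * t⁻¹ = (t * a * t⁻¹)⁻¹ := by simp only [mul_assoc, mul_inv_rev, inv_inv, inv_mul_cancel_left, mul_inv_cancel_left, inv_mul_cancel, mul_inv_cancel, mul_one, one_mul, inv_one]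
          _ = (a⁻¹)⁻¹ := by rw [ha'] }
  have hM : ∀ w, w ∈ M ↔ w ∈ (Subgroup.center R).map R.subtype ∧ t * w * t⁻¹ = w⁻¹ :=
    fun w => Iff.rfl
  rw [Subgroup.mem_centralizer_iff]
  intro w hw
  have hw' : w ∈ (Subgroup.center R).map R.subtype := hw
  have hu : w⁻¹ * (t * w * t⁻¹) ∈ M := by
    rw [hM]
    refine ⟨mul_mem (inv_mem hw') (htZR w hw'), ?_⟩
    calc t * (w⁻¹ * (t * w * t⁻¹)) * t⁻¹
        = (t * w * t⁻¹)⁻¹ * ((t * t) * w * (t * t)⁻¹) := by simp only [mul_assoc, mul_inv_rev, inv_inv, inv_mul_cancel_left, mul_inv_cancel_left, inv_mul_cancel, mul_inv_cancel, mul_one, one_mul, inv_one]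
      _ = (t * w * t⁻¹)⁻¹ * w := by rw [ht2]; simp
      _ = (w⁻¹ * (t * w * t⁻¹))⁻¹ := by simp only [mul_assoc, mul_inv_rev, inv_inv, inv_mul_cancel_left, mul_inv_cancel_left, inv_mul_cancel, mul_inv_cancel, mul_one, one_mul, inv_one]
  have hMbot : M = ⊥ := by
    by_contra hne
    have hMR : M ≤ R := fun w hw => ((hZR w).mp ((hM w).mp hw).1).1
    have hMP : M ≤ P := hMR.trans hRP
    have hRN : R ≤ Subgroup.normalizer (M : Set X) := le_normalizer_of_conj_mem (by
      intro r hr w hw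
      have h1 : r * w * r⁻¹ = w := by
        rw [((hZR w).mp ((hM w).mp hw).1).2 r hr, mul_inv_cancel_right]
      rw [h1]; exact hw)
    have hCN : P ⊓ Subgroup.centralizer (T : Set X) ≤ Subgroup.normalizer (M : Set X) :=
      le_normalizer_of_conj_mem (by
        rintro c ⟨hcP, hcT⟩ w hw
        rw [hM] at hw ⊢
        obtain ⟨hwZ, hwt⟩ := hw
        rw [hZR] at hwZ
        have hcR : ∀ r ∈ R, c * r * c⁻¹ ∈ R := by
          intro r hr
          have h0 := hRn.conj_mem ⟨r, hRP hr⟩ (by simpa [Subgroup.mem_subgroupOf] using hr) ⟨c, hcP⟩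
          simpa [Subgroup.mem_subgroupOf] using h0
        have hcR' : ∀ r ∈ R, c⁻¹ * r * c ∈ R := by
          intro r hr
          have h0 := hRn.conj_mem ⟨r, hRP hr⟩ (by simpa [Subgroup.mem_subgroupOf] using hr)
            (⟨c, hcP⟩⁻¹)
          simpa [Subgroup.mem_subgroupOf] using h0
        have hct : t * c = c * t := Subgroup.mem_centralizer_iff.mp hcT t ht
        refine ⟨?_, ?_⟩
        · rw [hZR]
          refine ⟨hcR w hwZ.1, ?_⟩
          intro r hr
          have h2 := hwZ.2 _ (hcR' r hr)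
          calc r * (c * w * c⁻¹) = c * ((c⁻¹ * r * c) * w) * c⁻¹ := by simp only [mul_assoc, mul_inv_rev, inv_inv, inv_mul_cancel_left, mul_inv_cancel_left, inv_mul_cancel, mul_inv_cancel, mul_one, one_mul, inv_one]
            _ = c * (w * (c⁻¹ * r * c)) * c⁻¹ := by rw [h2]
            _ = c * w * c⁻¹ * r := by simp only [mul_assoc, mul_inv_rev, inv_inv, inv_mul_cancel_left, mul_inv_cancel_left, inv_mul_cancel, mul_inv_cancel, mul_one, one_mul, inv_one]
        · have hct' : t * c * t⁻¹ = c := by rw [hct, mul_inv_cancel_right]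
          calc t * (c * w * c⁻¹) * t⁻¹ = (t * c * t⁻¹) * (t * w * t⁻¹) * (t * c * t⁻¹)⁻¹ := by simp only [mul_assoc, mul_inv_rev, inv_inv, inv_mul_cancel_left, mul_inv_cancel_left, inv_mul_cancel, mul_inv_cancel, mul_one, one_mul, inv_one]
            _ = c * w⁻¹ * c⁻¹ := by rw [hct', hwt]
            _ = (c * w * c⁻¹)⁻¹ := by simp only [mul_assoc, mul_inv_rev, inv_inv, inv_mul_cancel_left, mul_inv_cancel_left, inv_mul_cancel, mul_inv_cancel, mul_one, one_mul, inv_one])
    have hPN : P ≤ Subgroup.normalizer (M : Set X) :=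
      calc P = R ⊔ (P ⊓ Subgroup.centralizer (T : Set X)) := hfac.symm
        _ ≤ Subgroup.normalizer (M : Set X) := sup_le hRN hCN
    obtain ⟨z, hzM, hz1, hzc⟩ := exists_mem_center_of_normal_subgroup hP hMP hPN hne
    have hzZP : z ∈ (Subgroup.center P).map P.subtype := mem_map_center_iff.mpr ⟨hMP hzM, hzc⟩
    have h1 : z * t = t * z := Subgroup.mem_centralizer_iff.mp (hZ ht) z hzZP
    have h2 : t * z * t⁻¹ = z⁻¹ := ((hM z).mp hzM).2
    have h3 : z = z⁻¹ := by rw [← h2, ← h1, mul_inv_cancel_right]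
    have h4 : z ^ 2 = 1 := by rw [sq]; exact mul_eq_one_iff_eq_inv.mpr h3
    obtain ⟨k, hk⟩ := hP ⟨z, hMP hzM⟩
    have hk' : z ^ p ^ k = 1 := by
      have h0 := congrArg Subtype.val hk
      simpa using h0
    have h5 : orderOf z ∣ 2 := orderOf_dvd_of_pow_eq_one h4
    have h6 : orderOf z ∣ p ^ k := orderOf_dvd_of_pow_eq_one hk'
    have h7 : Nat.Coprime 2 (p ^ k) := Nat.Coprime.pow_right k (Nat.coprime_two_left.mpr hodd)
    have h8 : orderOf z = 1 := Nat.eq_one_of_dvd_coprimes h7 h5 h6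
    exact hz1 (orderOf_eq_one_iff.mp h8)
  have h1 : w⁻¹ * (t * w * t⁻¹) = 1 := by
    have h0 := hu
    rw [hMbot] at h0
    exact Subgroup.mem_bot.mp h0
  have h2 : t * w * t⁻¹ = w := (inv_mul_eq_one.mp h1).symm
  calc w * t = (t * w * t⁻¹) * t := by rw [h2]
    _ = t * w := by simp only [mul_assoc, mul_inv_rev, inv_inv, inv_mul_cancel_left, mul_inv_cancel_left, inv_mul_cancel, mul_inv_cancel, mul_one, one_mul, inv_one]

end Cfsg.Agent.S3190
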