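import Mathlib
import Cfsg.Statements.S3195
import Cfsg.Agent.Lib.Helper64.Dihedral

set_option autoImplicit false
open Cfsg

namespace Cfsg.Agent.S3195

open Cfsg.Agent.Lib.Helper64

/-- an element of odd order with `x ^ 2 ^ j = 1` is trivial -/
theorem eq_one_of_odd_of_pow {G : Type*} [Group G] {x : G} (ho : Odd (orderOf x)) (j : ℕ)
    (h : x ^ 2 ^ j = 1) : x = 1 := by
  have h1 : orderOf x ∣ 2 ^ j := orderOf_dvd_of_pow_eq_one h
  have h2 : (orderOf x).Coprime (2 ^ j) := Nat.Coprime.pow_right j (Nat.coprime_two_right.mpr ho)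
  have h3 : orderOf x = 1 := Nat.Coprime.eq_one_of_dvd h2 h1
  exact orderOf_eq_one_iff.mp h3

theorem eq_one_of_odd_of_sq {G : Type*} [Group G] {x : G} (ho : Odd (orderOf x))
    (h : x * x = 1) : x = 1 := by
  apply eq_one_of_odd_of_pow ho 1
  rw [pow_one, sq]; exact h

theorem eq_one_of_odd_of_four {G : Type*} [Group G] {x : G} (ho : Odd (orderOf x))
    (h : x * x * (x * x) = 1) : x = 1 := by
  apply eq_one_of_odd_of_pow ho 2
  rw [show (2 : ℕ) ^ 2 = 2 * 2 from rfl, pow_mul, sq, sq]; exact h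

theorem odd_orderOf_mul_self {G : Type*} [Group G] {x : G} (ho : Odd (orderOf x)) :
    Odd (orderOf (x * x)) := by
  have h5 : orderOf (x * x) ∣ orderOf x := by
    rw [← sq]; exact orderOf_pow_dvd 2
  exact ho.of_dvd_nat h5

/-- an element inverted by an element of odd order has square one -/
theorem sq_eq_one_of_inverted_by_odd {G : Type*} [Group G] {v u : G} (ho : Odd (orderOf v))
    (h : v * u * v⁻¹ = u⁻¹) : u * u = 1 := by
  have hinv : v * u⁻¹ * v⁻¹ = u := by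
    calc v * u⁻¹ * v⁻¹ = (v * u * v⁻¹)⁻¹ := by simp only [mul_assoc, mul_inv_rev, inv_inv, inv_mul_cancel_left, mul_inv_cancel_left, inv_mul_cancel, mul_inv_cancel, mul_one, one_mul, inv_one]
      _ = u := by rw [h, inv_inv]
  have h2 : Commute (v * v) u := by
    show v * v * u = u * (v * v)
    calc v * v * u = v * (v * u * v⁻¹) * v := by simp only [mul_assoc, mul_inv_rev, inv_inv, inv_mul_cancel_left, mul_inv_cancel_left, inv_mul_cancel, mul_inv_cancel, mul_one, one_mul, inv_one]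
      _ = (v * u⁻¹ * v⁻¹) * v * v := by rw [h]; simp only [mul_assoc, mul_inv_rev, inv_inv, inv_mul_cancel_left, mul_inv_cancel_left, inv_mul_cancel, mul_inv_cancel, mul_one, one_mul, inv_one]
      _ = u * (v * v) := by rw [hinv]; simp only [mul_assoc, mul_inv_rev, inv_inv, inv_mul_cancel_left, mul_inv_cancel_left, inv_mul_cancel, mul_inv_cancel, mul_one, one_mul, inv_one]
  obtain ⟨j, hj⟩ := ho
  have h3 : v ^ (2 * j + 1) = 1 := by rw [← hj]; exact pow_orderOf_eq_one v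
  have h4 : (v * v) ^ j * v = 1 := by rw [← sq, ← pow_mul, ← pow_succ]; exact h3
  have h5 : Commute v u := by
    have h6 : v = ((v * v) ^ j)⁻¹ := by
      rw [eq_inv_iff_mul_eq_one, ← h4]
      exact (((Commute.refl v).mul_right (Commute.refl v)).pow_right j).eq
    rw [h6]; exact (h2.pow_left j).inv_left
  have h6 : u = u⁻¹ := by
    have h7 := h
    rw [h5.eq, mul_inv_cancel_right] at h7
    exact h7
  rw [mul_eq_one_iff_eq_inv]
  exact h6

/-- the key computation -/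
theorem key {G : Type*} [Group G] {s₁ s₂ m n : G} (hs1 : s₁ * s₁ = 1) (hs2 : s₂ * s₂ = 1)
    (hcomm : s₁ * s₂ = s₂ * s₁)
    (h1n : s₁ * n * s₁⁻¹ = n⁻¹) (h1m : s₁ * m * s₁⁻¹ = m) (h2n : s₂ * n * s₂⁻¹ = n)
    (h2m : s₂ * m * s₂⁻¹ = m⁻¹) (hmo : Odd (orderOf m)) (hno : Odd (orderOf n))
    (H : ∀ g : G, ∃ e : G, (e = s₁ * s₂ ∨ e = s₁ ∨ e = s₂) ∧
      e * (g * (s₁ * s₂) * g⁻¹) = (g * (s₁ * s₂) * g⁻¹) * e) :
    m = 1 ∨ n = 1 := by
  have htm : (s₁ * s₂) * m * (s₁ * s₂)⁻¹ = m⁻¹ := by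
    calc (s₁ * s₂) * m * (s₁ * s₂)⁻¹ = s₁ * (s₂ * m * s₂⁻¹) * s₁⁻¹ := by simp only [mul_assoc, mul_inv_rev, inv_inv, inv_mul_cancel_left, mul_inv_cancel_left, inv_mul_cancel, mul_inv_cancel, mul_one, one_mul, inv_one]
      _ = (s₁ * m * s₁⁻¹)⁻¹ := by rw [h2m]; simp only [mul_assoc, mul_inv_rev, inv_inv, inv_mul_cancel_left, mul_inv_cancel_left, inv_mul_cancel, mul_inv_cancel, mul_one, one_mul, inv_one]
      _ = m⁻¹ := by rw [h1m]
  -- the general claim
  have claim : ∀ v : G, s₁ * v * s₁⁻¹ = v⁻¹ → s₂ * v * s₂⁻¹ = v → Odd (orderOf v) →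
      m = 1 ∨ v = 1 ∨ (v * v) * (m * m) * (v * v) = (m * m)⁻¹ := by
    intro v hv1 hv2 hvo
    have htv : (s₁ * s₂) * v * (s₁ * s₂)⁻¹ = v⁻¹ := by
      calc (s₁ * s₂) * v * (s₁ * s₂)⁻¹ = s₁ * (s₂ * v * s₂⁻¹) * s₁⁻¹ := by simp only [mul_assoc, mul_inv_rev, inv_inv, inv_mul_cancel_left, mul_inv_cancel_left, inv_mul_cancel, mul_inv_cancel, mul_one, one_mul, inv_one]
        _ = v⁻¹ := by rw [hv2, hv1]
    obtain ⟨e, he, hec⟩ := H (m⁻¹ * v⁻¹)
    have hy : (m⁻¹ * v⁻¹) * (s₁ * s₂) * (m⁻¹ * v⁻¹)⁻¹ = (m⁻¹ * v⁻¹ * v⁻¹ * m⁻¹) * (s₁ * s₂) := by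
      calc (m⁻¹ * v⁻¹) * (s₁ * s₂) * (m⁻¹ * v⁻¹)⁻¹
          = m⁻¹ * v⁻¹ * (((s₁ * s₂) * v * (s₁ * s₂)⁻¹) * ((s₁ * s₂) * m * (s₁ * s₂)⁻¹)) * (s₁ * s₂) := by
            simp only [mul_assoc, mul_inv_rev, inv_inv, inv_mul_cancel_left, mul_inv_cancel_left, inv_mul_cancel, mul_inv_cancel, mul_one, one_mul, inv_one]
        _ = (m⁻¹ * v⁻¹ * v⁻¹ * m⁻¹) * (s₁ * s₂) := by rw [htv, htm]; simp only [mul_assoc, mul_inv_rev, inv_inv, inv_mul_cancel_left, mul_inv_cancel_left, inv_mul_cancel, mul_inv_cancel, mul_one, one_mul, inv_one]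
    rw [hy] at hec
    -- `e` commutes with `t`
    have het : e * (s₁ * s₂) = (s₁ * s₂) * e := by
      rcases he with h0 | h0 | h0
      · rw [h0]
      · rw [h0, ← mul_assoc, hs1, one_mul, hcomm, mul_assoc, hs1, mul_one]
      · rw [h0, mul_assoc s₁, hs2, mul_one, hcomm, ← mul_assoc, hs2, one_mul]
    have hq : e * (m⁻¹ * v⁻¹ * v⁻¹ * m⁻¹) * e⁻¹ = m⁻¹ * v⁻¹ * v⁻¹ * m⁻¹ := by
      have h1 : e * (m⁻¹ * v⁻¹ * v⁻¹ * m⁻¹) * (s₁ * s₂) = (m⁻¹ * v⁻¹ * v⁻¹ * m⁻¹) * e * (s₁ * s₂) := by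
        rw [mul_assoc e, hec, mul_assoc _ (s₁ * s₂) e, ← het, ← mul_assoc]
      have h2 := mul_right_cancel h1
      rw [h2, mul_inv_cancel_right]
    have hexp : e * (m⁻¹ * v⁻¹ * v⁻¹ * m⁻¹) * e⁻¹ =
        (e * m * e⁻¹)⁻¹ * (e * v * e⁻¹)⁻¹ * (e * v * e⁻¹)⁻¹ * (e * m * e⁻¹)⁻¹ := by simp only [mul_assoc, mul_inv_rev, inv_inv, inv_mul_cancel_left, mul_inv_cancel_left, inv_mul_cancel, mul_inv_cancel, mul_one, one_mul, inv_one]
    rw [hexp] at hq
    rcases he with rfl | rfl | rfl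
    · -- e = t
      right; right
      rw [htm, htv, inv_inv, inv_inv] at hq
      -- hq : m * v * v * m = m⁻¹ * v⁻¹ * v⁻¹ * m⁻¹
      have h3 : v * v * (m * m) * (v * v) = m⁻¹ * (m * v * v * m) * m * (v * v) := by simp only [mul_assoc, mul_inv_rev, inv_inv, inv_mul_cancel_left, mul_inv_cancel_left, inv_mul_cancel, mul_inv_cancel, mul_one, one_mul, inv_one]
      rw [h3, hq]; simp only [mul_assoc, mul_inv_rev, inv_inv, inv_mul_cancel_left, mul_inv_cancel_left, inv_mul_cancel, mul_inv_cancel, mul_one, one_mul, inv_one]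
    · -- e = s₁
      right; left
      rw [h1m, hv1, inv_inv] at hq
      -- hq : m⁻¹ * v * v * m⁻¹ = m⁻¹ * v⁻¹ * v⁻¹ * m⁻¹
      have h3 : v * v = v⁻¹ * v⁻¹ := by
        have h4 := mul_right_cancel hq
        rw [mul_assoc, mul_assoc m⁻¹] at h4
        exact mul_left_cancel h4
      apply eq_one_of_odd_of_four hvo
      calc v * v * (v * v) = (v⁻¹ * v⁻¹) * (v * v) := by rw [← h3]
        _ = 1 := by simp only [mul_assoc, mul_inv_rev, inv_inv, inv_mul_cancel_left, mul_inv_cancel_left, inv_mul_cancel, mul_inv_cancel, mul_one, one_mul, inv_one]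
    · -- e = s₂
      left
      rw [h2m, hv2, inv_inv] at hq
      -- hq : m * v⁻¹ * v⁻¹ * m = m⁻¹ * v⁻¹ * v⁻¹ * m⁻¹
      have hvv : Odd (orderOf (v * v)⁻¹) := by
        rw [orderOf_inv]; exact odd_orderOf_mul_self hvo
      have h3 : (v * v)⁻¹ * (m * m) * ((v * v)⁻¹)⁻¹ = (m * m)⁻¹ := by
        calc (v * v)⁻¹ * (m * m) * ((v * v)⁻¹)⁻¹
            = m⁻¹ * (m * v⁻¹ * v⁻¹ * m) * m * (v * v) := by simp only [mul_assoc, mul_inv_rev, inv_inv, inv_mul_cancel_left, mul_inv_cancel_left, inv_mul_cancel, mul_inv_cancel, mul_one, one_mul, inv_one]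
          _ = m⁻¹ * (m⁻¹ * v⁻¹ * v⁻¹ * m⁻¹) * m * (v * v) := by rw [hq]
          _ = (m * m)⁻¹ := by simp only [mul_assoc, mul_inv_rev, inv_inv, inv_mul_cancel_left, mul_inv_cancel_left, inv_mul_cancel, mul_inv_cancel, mul_one, one_mul, inv_one]
      have h4 := sq_eq_one_of_inverted_by_odd hvv h3
      exact eq_one_of_odd_of_four hmo h4
  have hnn1 : s₁ * (n * n) * s₁⁻¹ = (n * n)⁻¹ := by
    calc s₁ * (n * n) * s₁⁻¹ = (s₁ * n * s₁⁻¹) * (s₁ * n * s₁⁻¹) := by simp only [mul_assoc, mul_inv_rev, inv_inv, inv_mul_cancel_left, mul_inv_cancel_left, inv_mul_cancel, mul_inv_cancel, mul_one, one_mul, inv_one]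
      _ = (n * n)⁻¹ := by rw [h1n]; simp only [mul_assoc, mul_inv_rev, inv_inv, inv_mul_cancel_left, mul_inv_cancel_left, inv_mul_cancel, mul_inv_cancel, mul_one, one_mul, inv_one]
  have hnn2 : s₂ * (n * n) * s₂⁻¹ = n * n := by
    calc s₂ * (n * n) * s₂⁻¹ = (s₂ * n * s₂⁻¹) * (s₂ * n * s₂⁻¹) := by simp only [mul_assoc, mul_inv_rev, inv_inv, inv_mul_cancel_left, mul_inv_cancel_left, inv_mul_cancel, mul_inv_cancel, mul_one, one_mul, inv_one]
      _ = n * n := by rw [h2n]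
  have hnno : Odd (orderOf (n * n)) := odd_orderOf_mul_self hno
  rcases claim n h1n h2n hno with h | h | hA
  · exact Or.inl h
  · exact Or.inr h
  rcases claim (n * n) hnn1 hnn2 hnno with h | h | hB
  · exact Or.inl h
  · right
    exact eq_one_of_odd_of_sq hno h
  -- hA : x * u * x = u⁻¹, hB : x*x * u * (x*x) = u⁻¹ with x = n * n, u = m * m
  left
  apply eq_one_of_odd_of_four hmo
  generalize m * m = u at hA hB ⊢
  generalize n * n = x at hA hB
  have h1 : x * u⁻¹ * x = u⁻¹ := by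
    calc x * u⁻¹ * x = x * (x * u * x) * x := by rw [hA]
      _ = (x * x) * u * (x * x) := by simp only [mul_assoc, mul_inv_rev, inv_inv, inv_mul_cancel_left, mul_inv_cancel_left, inv_mul_cancel, mul_inv_cancel, mul_one, one_mul, inv_one]
      _ = u⁻¹ := hB
  have h1' : u = x⁻¹ * u * x⁻¹ := by
    calc u = (u⁻¹)⁻¹ := (inv_inv u).symm
      _ = (x * u⁻¹ * x)⁻¹ := by rw [h1]
      _ = x⁻¹ * u * x⁻¹ := by simp only [mul_assoc, mul_inv_rev, inv_inv, inv_mul_cancel_left, mul_inv_cancel_left, inv_mul_cancel, mul_inv_cancel, mul_one, one_mul, inv_one]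
  have h2 : x * u * x = u := by
    calc x * u * x = x * (x⁻¹ * u * x⁻¹) * x := by rw [← h1']
      _ = u := by simp only [mul_assoc, mul_inv_rev, inv_inv, inv_mul_cancel_left, mul_inv_cancel_left, inv_mul_cancel, mul_inv_cancel, mul_one, one_mul, inv_one]
  have h3 : u = u⁻¹ := h2.symm.trans hA
  rw [mul_eq_one_iff_eq_inv]
  exact h3

/-- Let A be a Klein four-subgroup of a finite group G. If every G-conjugate of every involution of A commutes with some involution of A (its centralizer meets A nontrivially), then A meets the largest normal 2-subgroup O₂(G) nontrivially. -/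
theorem result {G : Type*} [Group G] [Finite G]
    (A : Subgroup G) (hA : IsKleinFour ↥A)
    (h : ∀ a ∈ A, a ≠ 1 → ∀ g : G, A ⊓ Subgroup.centralizer ({g * a * g⁻¹} : Set G) ≠ ⊥) :
    A ⊓ Cfsg.pCore 2 G ≠ ⊥ := by
  intro hbot
  have hsq : ∀ x ∈ A, x * x = 1 := by
    intro x hx
    have h1 := IsKleinFour.mul_self (⟨x, hx⟩ : A)
    exact congrArg Subtype.val h1
  have hcomm : ∀ x ∈ A, ∀ y ∈ A, x * y = y * x := by
    intro x hx y hy
    have h1 : (⟨x, hx⟩ : A) * ⟨y, hy⟩ = ⟨y, hy⟩ * ⟨x, hx⟩ :=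
      mul_comm_of_exponent_two IsKleinFour.exponent_two _ _
    exact congrArg Subtype.val h1
  have hnot : ∀ x ∈ A, x ≠ 1 → ∀ N : Subgroup G, N.Normal → IsPGroup 2 N → x ∉ N := by
    intro x hx hx1 N hN hN2 hxN
    have hle : N ≤ Cfsg.pCore 2 G := le_sSup ⟨hN, hN2⟩
    have h1 : x ∈ A ⊓ Cfsg.pCore 2 G := ⟨hx, hle hxN⟩
    rw [hbot] at h1
    exact hx1 (Subgroup.mem_bot.mp h1)
  have hP : ∀ x ∈ A, x ≠ 1 → ∃ n : G, ∃ x' ∈ A, n ≠ 1 ∧ Odd (orderOf n) ∧ x' ≠ 1 ∧ x' ≠ x ∧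
      x * n * x⁻¹ = n⁻¹ ∧ x' * n * x'⁻¹ = n := by
    intro x hx hx1
    obtain ⟨g, a, hne, hodd, hinv⟩ := exists_odd_inverted x (hsq x hx) (hnot x hx hx1)
    obtain ⟨e, he1⟩ := (Subgroup.ne_bot_iff_exists_ne_one).mp (h x hx hx1 g)
    have heA : (e : G) ∈ A := e.2.1
    have heC : (e : G) * (g * x * g⁻¹) = (g * x * g⁻¹) * e :=
      Subgroup.mem_centralizer_singleton_iff.mp e.2.2
    have he1' : (e : G) ≠ 1 := fun h0 => he1 (Subtype.ext h0)
    refine ⟨_, (e : G), heA, hne, hodd, he1', ?_, hinv, ?_⟩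
    · intro hex
      rw [hex] at heC
      apply hne
      apply eq_one_of_odd_of_sq hodd
      have hyy : (g * x * g⁻¹) * (g * x * g⁻¹) = 1 := by
        calc (g * x * g⁻¹) * (g * x * g⁻¹) = g * (x * x) * g⁻¹ := by simp only [mul_assoc, mul_inv_rev, inv_inv, inv_mul_cancel_left, mul_inv_cancel_left, inv_mul_cancel, mul_inv_cancel, mul_one, one_mul, inv_one]
          _ = 1 := by rw [hsq x hx]; simp only [mul_assoc, mul_inv_rev, inv_inv, inv_mul_cancel_left, mul_inv_cancel_left, inv_mul_cancel, mul_inv_cancel, mul_one, one_mul, inv_one]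
      have h2 : (x * (g * x * g⁻¹)) * (x * (g * x * g⁻¹)) = 1 := by
        calc (x * (g * x * g⁻¹)) * (x * (g * x * g⁻¹))
            = x * ((g * x * g⁻¹) * x) * (g * x * g⁻¹) := by simp only [mul_assoc]
          _ = x * (x * (g * x * g⁻¹)) * (g * x * g⁻¹) := by rw [heC]
          _ = (x * x) * ((g * x * g⁻¹) * (g * x * g⁻¹)) := by simp only [mul_assoc]
          _ = 1 := by rw [hsq x hx, hyy, one_mul]
      rw [← (Commute.refl _).mul_pow, h2, one_pow]
    · have hc1 : Commute (e : G) x := hcomm _ heA x hx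
      have hc2 : Commute (e : G) (g * x * g⁻¹) := heC
      have hc3 : Commute (e : G) ((x * (g * x * g⁻¹)) ^ 2 ^ a) := (hc1.mul_right hc2).pow_right _
      rw [hc3.eq, mul_inv_cancel_right]
  have hA4 : Nat.card A = 4 := IsKleinFour.card_four
  obtain ⟨x, hx, hx1⟩ : ∃ x ∈ A, x ≠ 1 := by
    by_contra hcon
    push Not at hcon
    have hAbot : A = ⊥ := (Subgroup.eq_bot_iff_forall A).mpr hcon
    rw [hAbot, Subgroup.card_bot] at hA4
    omega
  obtain ⟨n, y, hy, hn1, hno, hy1, hyx, hxn, hyn⟩ := hP x hx hx1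
  obtain ⟨m, y', hy', hm1, hmo, hy'1, hy'y, hym, hy'm⟩ := hP y hy hy1
  have henum : ∀ e ∈ A, e = 1 ∨ e = x ∨ e = y ∨ e = x * y := by
    intro e he
    by_cases h1 : e = 1
    · exact Or.inl h1
    by_cases h2 : e = x
    · exact Or.inr (Or.inl h2)
    by_cases h3 : e = y
    · exact Or.inr (Or.inr (Or.inl h3))
    right; right; right
    have h4 := IsKleinFour.eq_mul_of_ne_all (G := A) (x := ⟨x, hx⟩) (y := ⟨y, hy⟩) (z := ⟨e, he⟩)
      (fun h0 => hx1 (congrArg Subtype.val h0)) (fun h0 => hy1 (congrArg Subtype.val h0))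
      (fun h0 => hyx (congrArg Subtype.val h0).symm) (fun h0 => h1 (congrArg Subtype.val h0))
      (fun h0 => h2 (congrArg Subtype.val h0)) (fun h0 => h3 (congrArg Subtype.val h0))
    exact congrArg Subtype.val h4
  have hxy : x * y = y * x := hcomm x hx y hy
  have hxy1 : x * y ≠ 1 := by
    intro h0
    apply hyx
    calc y = (x * x) * y := by rw [hsq x hx, one_mul]
      _ = x * (x * y) := by rw [mul_assoc]
      _ = x := by rw [h0, mul_one]
  rcases henum y' hy' with h1 | h1 | h1 | h1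
  · exact hy'1 h1
  · -- y' = x
    subst h1
    have hkey := key (s₁ := y') (s₂ := y) (m := m) (n := n) (hsq y' hx) (hsq y hy) hxy hxn hy'm
      hyn hym hmo hno (by
        intro g
        obtain ⟨e, he1⟩ := (Subgroup.ne_bot_iff_exists_ne_one).mp
          (h (y' * y) (A.mul_mem hx hy) hxy1 g)
        have heA : (e : G) ∈ A := e.2.1
        have heC : (e : G) * (g * (y' * y) * g⁻¹) = (g * (y' * y) * g⁻¹) * e :=
          Subgroup.mem_centralizer_singleton_iff.mp e.2.2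
        have he1' : (e : G) ≠ 1 := fun h0 => he1 (Subtype.ext h0)
        refine ⟨e, ?_, heC⟩
        rcases henum e heA with h2 | h2 | h2 | h2
        · exact absurd h2 he1'
        · exact Or.inr (Or.inl h2)
        · exact Or.inr (Or.inr h2)
        · exact Or.inl h2)
    rcases hkey with h0 | h0
    · exact hm1 h0
    · exact hn1 h0
  · exact hy'y h1
  · -- y' = x * y
    subst h1
    have hxyy : x * y * y = x := by rw [mul_assoc, hsq y hy, mul_one]
    have hxyn : (x * y) * n * (x * y)⁻¹ = n⁻¹ := by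
      calc (x * y) * n * (x * y)⁻¹ = x * (y * n * y⁻¹) * x⁻¹ := by simp only [mul_assoc, mul_inv_rev, inv_inv, inv_mul_cancel_left, mul_inv_cancel_left, inv_mul_cancel, mul_inv_cancel, mul_one, one_mul, inv_one]
        _ = n⁻¹ := by rw [hyn, hxn]
    have hkey := key (s₁ := x * y) (s₂ := y) (m := m) (n := n) (hsq _ hy') (hsq y hy)
      (hcomm _ hy' y hy) hxyn hy'm hyn hym hmo hno (by
        intro g
        rw [hxyy]
        obtain ⟨e, he1⟩ := (Subgroup.ne_bot_iff_exists_ne_one).mp (h x hx hx1 g)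
        have heA : (e : G) ∈ A := e.2.1
        have heC : (e : G) * (g * x * g⁻¹) = (g * x * g⁻¹) * e :=
          Subgroup.mem_centralizer_singleton_iff.mp e.2.2
        have he1' : (e : G) ≠ 1 := fun h0 => he1 (Subtype.ext h0)
        refine ⟨e, ?_, heC⟩
        rcases henum e heA with h2 | h2 | h2 | h2
        · exact absurd h2 he1'
        · exact Or.inl h2
        · exact Or.inr (Or.inr h2)
        · exact Or.inr (Or.inl h2))
    rcases hkey with h0 | h0
    · exact hm1 h0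
    · exact hn1 h0

end Cfsg.Agent.S3195
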