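import Mathlib
import Cfsg.Statements.S3196

set_option autoImplicit false
open Cfsg

namespace Cfsg.Agent.S3196

variable {G : Type*} [Group G]

/-- elementwise commuting subgroups -/
def Comm (X Y : Subgroup G) : Prop := ∀ x ∈ X, ∀ y ∈ Y, x * y = y * x

theorem Comm.symm {X Y : Subgroup G} (h : Comm X Y) : Comm Y X :=
  fun y hy x hx => (h x hx y hy).symm

theorem eq_zpowers [Finite G] {p : ℕ} (hp : p.Prime) {X : Subgroup G} (hX : Nat.card X = p)
    {t : G} (ht : t ∈ X) (ht1 : t ≠ 1) : X = Subgroup.zpowers t := by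
  have h1 : Subgroup.zpowers t ≤ X := by simpa using ht
  have h2 : orderOf t ∣ p := hX ▸ Subgroup.orderOf_dvd_natCard X ht
  have h3 : orderOf t = p := by
    rcases (Nat.dvd_prime hp).mp h2 with h | h
    · exact absurd (orderOf_eq_one_iff.mp h) ht1
    · exact h
  symm
  apply Subgroup.eq_of_le_of_card_ge h1
  rw [hX, Nat.card_zpowers, h3]

theorem pow_eq_one_of_mem {p : ℕ} {X : Subgroup G} (hX : Nat.card X = p) {t : G}
    (ht : t ∈ X) : t ^ p = 1 := by
  have h2 : orderOf t ∣ p := hX ▸ Subgroup.orderOf_dvd_natCard X ht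
  exact orderOf_dvd_iff_pow_eq_one.mp h2

theorem card_zpowers_eq {p : ℕ} (hp : p.Prime) {t : G} (ht : t ^ p = 1) (ht1 : t ≠ 1) :
    Nat.card (Subgroup.zpowers t) = p := by
  haveI : Fact p.Prime := ⟨hp⟩
  rw [Nat.card_zpowers]
  exact orderOf_eq_prime ht ht1

theorem comm_zpowers_iff {t : G} {Y : Subgroup G} :
    Comm (Subgroup.zpowers t) Y ↔ ∀ y ∈ Y, t * y = y * t := by
  constructor
  · intro h y hy
    exact h t (Subgroup.mem_zpowers t) y hy
  · rintro h _ ⟨k, rfl⟩ y hy
    exact ((show Commute t y from h y hy).zpow_left k).eq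

theorem mem_sup_of_comm {X Y : Subgroup G} (h : Comm X Y) {t : G} (ht : t ∈ X ⊔ Y) :
    ∃ a ∈ X, ∃ b ∈ Y, t = a * b := by
  let P : Subgroup G :=
    { carrier := {t | ∃ a ∈ X, ∃ b ∈ Y, t = a * b}
      one_mem' := ⟨1, X.one_mem, 1, Y.one_mem, by simp⟩
      mul_mem' := by
        rintro _ _ ⟨a, ha, b, hb, rfl⟩ ⟨a', ha', b', hb', rfl⟩
        refine ⟨a * a', X.mul_mem ha ha', b * b', Y.mul_mem hb hb', ?_⟩
        have := h a' ha' b hb
        calc a * b * (a' * b') = a * (b * a') * b' := by group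
          _ = a * (a' * b) * b' := by rw [this]
          _ = a * a' * (b * b') := by group
      inv_mem' := by
        rintro _ ⟨a, ha, b, hb, rfl⟩
        refine ⟨a⁻¹, X.inv_mem ha, b⁻¹, Y.inv_mem hb, ?_⟩
        have := h a ha b hb
        rw [this]
        group }
  have hle : X ⊔ Y ≤ P :=
    sup_le (fun a ha => ⟨a, ha, 1, Y.one_mem, by simp⟩) (fun b hb => ⟨1, X.one_mem, b, hb, by simp⟩)
  exact hle ht

/-- Let p be a prime and K a set of subgroups of order p of a finite group G, closed under conjugation, such that at least two distinct members of K commute elementwise, and whenever two distinct members X, Y of K commute: every subgroup of order p of the group XY they generate belongs to K, and every member W of K has centralizer meeting XY nontrivially. Then some member V of K commutes elementwise with every member of K and lies in O_p(G); in particular G is not simple. -/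
theorem result {G : Type*} [Group G] [Finite G]
    {p : ℕ} (hp : p.Prime) (K : Set (Subgroup G)) (hK : ∀ X ∈ K, Nat.card ↥X = p)
    (hKc : ∀ X ∈ K, ∀ g : G, X.map (MulAut.conj g).toMonoidHom ∈ K)
    (hex : ∃ X ∈ K, ∃ Y ∈ K, X ≠ Y ∧ ∀ x ∈ X, ∀ y ∈ Y, x * y = y * x)
    (ha : ∀ X ∈ K, ∀ Y ∈ K, X ≠ Y → (∀ x ∈ X, ∀ y ∈ Y, x * y = y * x) →
      ∀ Z : Subgroup G, Z ≤ X ⊔ Y → Nat.card ↥Z = p → Z ∈ K)
    (hb : ∀ X ∈ K, ∀ Y ∈ K, X ≠ Y → (∀ x ∈ X, ∀ y ∈ Y, x * y = y * x) →
      ∀ W ∈ K, (X ⊔ Y) ⊓ Subgroup.centralizer (W : Set G) ≠ ⊥) :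
    (∃ V ∈ K, (∀ W ∈ K, ∀ v ∈ V, ∀ w ∈ W, v * w = w * v) ∧ V ≤ Cfsg.pCore p G) ∧ ¬ IsSimpleGroup G := by
  -- members of K are abelian
  have habel : ∀ X ∈ K, ∀ a ∈ X, ∀ b ∈ X, a * b = b * a := by
    intro X hX a haX b hbX
    by_cases ha1 : a = 1
    · subst ha1; simp
    · have := eq_zpowers hp (hK X hX) haX ha1
      rw [this] at hbX
      obtain ⟨k, rfl⟩ := hbX
      exact ((Commute.refl a).zpow_right k).eq
  have hne1 : ∀ X ∈ K, ∃ x ∈ X, x ≠ 1 := by
    intro X hX
    refine (Subgroup.bot_or_exists_ne_one X).resolve_left ?_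
    intro h
    have h1 := hK X hX
    rw [h, Subgroup.card_bot] at h1
    exact hp.one_lt.ne h1
  -- a point on a line commuting with a given point
  have hpoint : ∀ X ∈ K, ∀ Y ∈ K, X ≠ Y → Comm X Y → ∀ W ∈ K,
      ∃ a ∈ X, ∃ b ∈ Y, a * b ≠ 1 ∧ Subgroup.zpowers (a * b) ∈ K ∧
        ∀ w ∈ W, (a * b) * w = w * (a * b) := by
    intro X hX Y hY hXY hc W hW
    obtain ⟨t, ht, ht1⟩ :=
      (Subgroup.bot_or_exists_ne_one _).resolve_left (hb X hX Y hY hXY hc W hW)
    obtain ⟨a, haX, b, hbY, rfl⟩ := mem_sup_of_comm hc ht.1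
    refine ⟨a, haX, b, hbY, ht1, ?_, ?_⟩
    · apply ha X hX Y hY hXY hc
      · simpa using ht.1
      · apply card_zpowers_eq hp _ ht1
        rw [(show Commute a b from hc a haX b hbY).mul_pow, pow_eq_one_of_mem (hK X hX) haX,
          pow_eq_one_of_mem (hK Y hY) hbY, one_mul]
    · intro w hw
      exact (Subgroup.mem_centralizer_iff.mp ht.2 w hw).symm
  -- an element a * b with a ∈ X, b commuting with X commutes with X
  have hmulcomm : ∀ X ∈ K, ∀ a ∈ X, ∀ b : G, (∀ x ∈ X, x * b = b * x) →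
      ∀ x ∈ X, a * b * x = x * (a * b) := by
    intro X hX a haX b hb x hx
    have e1 := habel X hX a haX x hx
    have e2 := hb x hx
    calc a * b * x = a * (b * x) := by group
      _ = a * (x * b) := by rw [e2]
      _ = (a * x) * b := by group
      _ = (x * a) * b := by rw [e1]
      _ = x * (a * b) := by group
  -- any two points have a common neighbour
  have hdiam : ∀ X ∈ K, ∀ Y ∈ K, ¬ Comm X Y → ∃ Z ∈ K, Comm Z X ∧ Comm Z Y := by
    intro X hX Y hY hXY
    obtain ⟨X₀, hX₀, Y₀, hY₀, hne, hc₀⟩ := hex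
    have h1 : ∃ X₁ ∈ K, X₁ ≠ X ∧ Comm X X₁ := by
      obtain ⟨a, haX, b, hbY, hab1, habK, habc⟩ := hpoint X₀ hX₀ Y₀ hY₀ hne hc₀ X hX
      by_cases hZ : Subgroup.zpowers (a * b) = X
      · have hXz : X = Subgroup.zpowers (a * b) := hZ.symm
        have hcX₀ : Comm X X₀ := by
          rw [hXz, comm_zpowers_iff]
          exact hmulcomm X₀ hX₀ a haX b (fun x hx => hc₀ x hx b hbY)
        have hcY₀ : Comm X Y₀ := by
          rw [hXz, comm_zpowers_iff]
          intro y hy
          have e1 := habel Y₀ hY₀ b hbY y hy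
          have e2 := hc₀ a haX y hy
          calc a * b * y = a * (b * y) := by group
            _ = a * (y * b) := by rw [e1]
            _ = (a * y) * b := by group
            _ = (y * a) * b := by rw [e2]
            _ = y * (a * b) := by group
        by_cases hXX₀ : X₀ = X
        · refine ⟨Y₀, hY₀, ?_, hcY₀⟩
          intro h
          exact hne (hXX₀.trans h.symm)
        · exact ⟨X₀, hX₀, hXX₀, hcX₀⟩
      · exact ⟨_, habK, hZ, (comm_zpowers_iff.mpr habc).symm⟩
    obtain ⟨X₁, hX₁, hne₁, hc₁⟩ := h1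
    obtain ⟨a, haX, b, hbX₁, hab1, habK, habc⟩ :=
      hpoint X hX X₁ hX₁ (Ne.symm hne₁) hc₁ Y hY
    refine ⟨_, habK, ?_, comm_zpowers_iff.mpr habc⟩
    rw [comm_zpowers_iff]
    exact hmulcomm X hX a haX b (fun x hx => hc₁ x hx b hbX₁)
  -- the four-cycle lemma
  have hcyc : ∀ X ∈ K, ∀ Z ∈ K, ∀ Y ∈ K, ∀ U ∈ K, Comm X Z → Comm Z Y → Comm Y U → Comm U X →
      ¬ Comm X Y → ¬ Comm Z U → ∀ y ∈ Y, y ≠ 1 → ∀ u ∈ U, u ≠ 1 →
      ∃ x ∈ X, ∃ z ∈ Z, x ≠ 1 ∧ z ≠ 1 ∧ y⁻¹ * x * y * x⁻¹ = u * z * u⁻¹ * z⁻¹ := by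
    intro X hX Z hZ Y hY U hU hXZ hZY hYU hUX hnXY hnZU y hy hy1 u hu hu1
    have hYU' : Y ≠ U := by
      rintro rfl
      exact hnZU hZY
    have hXZ' : X ≠ Z := by
      rintro rfl
      exact hnXY hZY
    have hYz : Y = Subgroup.zpowers y := eq_zpowers hp (hK Y hY) hy hy1
    have hUz : U = Subgroup.zpowers u := eq_zpowers hp (hK U hU) hu hu1
    have hyu : y * u ≠ 1 := by
      intro h
      apply hYU'
      have h2 : u = y⁻¹ := eq_inv_of_mul_eq_one_right h
      have huY : u ∈ Y := h2 ▸ Y.inv_mem hy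
      rw [eq_zpowers hp (hK Y hY) huY hu1, ← hUz]
    have hP : Subgroup.zpowers (y * u) ∈ K := by
      apply ha Y hY U hU hYU' hYU
      · rw [Subgroup.zpowers_le]
        exact Subgroup.mul_mem _ (Subgroup.mem_sup_left hy) (Subgroup.mem_sup_right hu)
      · apply card_zpowers_eq hp _ hyu
        rw [(show Commute y u from hYU y hy u hu).mul_pow, pow_eq_one_of_mem (hK Y hY) hy,
          pow_eq_one_of_mem (hK U hU) hu, one_mul]
    obtain ⟨a, haX, b, hbZ, hab1, -, habc⟩ := hpoint X hX Z hZ hXZ' hXZ _ hP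
    have hcomm := habc (y * u) (Subgroup.mem_zpowers _)
    have e_by : b * y = y * b := hZY b hbZ y hy
    have e_ua : u * a = a * u := hUX u hu a haX
    have e_ab : a * b = b * a := hXZ a haX b hbZ
    have hkey : y⁻¹ * a * y * a⁻¹ = u * b * u⁻¹ * b⁻¹ := by
      have h1 : a * y * b * u = y * a * u * b := by
        calc a * y * b * u = a * (y * b) * u := by group
          _ = a * (b * y) * u := by rw [e_by]
          _ = a * b * (y * u) := by group
          _ = y * u * (a * b) := hcomm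
          _ = y * (u * a) * b := by group
          _ = y * (a * u) * b := by rw [e_ua]
          _ = y * a * u * b := by group
      have h2 : y⁻¹ * a * y = a * (u * b * u⁻¹ * b⁻¹) := by
        calc y⁻¹ * a * y = y⁻¹ * (a * y * b * u) * u⁻¹ * b⁻¹ := by group
          _ = y⁻¹ * (y * a * u * b) * u⁻¹ * b⁻¹ := by rw [h1]
          _ = a * (u * b * u⁻¹ * b⁻¹) := by group
      have ca_u : Commute a u := e_ua.symm
      have ca_b : Commute a b := e_ab
      have ca_w : Commute a (u * b * u⁻¹ * b⁻¹) :=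
        ((ca_u.mul_right ca_b).mul_right ca_u.inv_right).mul_right ca_b.inv_right
      calc y⁻¹ * a * y * a⁻¹ = a * (u * b * u⁻¹ * b⁻¹) * a⁻¹ := by rw [h2]
        _ = (u * b * u⁻¹ * b⁻¹) * a * a⁻¹ := by rw [ca_w.eq]
        _ = u * b * u⁻¹ * b⁻¹ := by group
    refine ⟨a, haX, b, hbZ, ?_, ?_, hkey⟩
    · intro ha1
      subst ha1
      apply hnZU
      have hb1 : b ≠ 1 := by simpa using hab1
      rw [eq_zpowers hp (hK Z hZ) hbZ hb1, comm_zpowers_iff]
      intro u' hu'
      have hbu : b * u = u * b := by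
        have h3 : u * b * u⁻¹ * b⁻¹ = 1 := by rw [← hkey]; group
        calc b * u = (u * b * u⁻¹ * b⁻¹)⁻¹ * (u * b) := by group
          _ = u * b := by rw [h3]; group
      rw [hUz] at hu'
      obtain ⟨k, rfl⟩ := hu'
      exact ((show Commute b u from hbu).zpow_right k).eq
    · intro hb1
      subst hb1
      apply hnXY
      have ha1 : a ≠ 1 := by simpa using hab1
      rw [eq_zpowers hp (hK X hX) haX ha1, comm_zpowers_iff]
      intro y' hy'
      have hay : a * y = y * a := by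
        have h3 : y⁻¹ * a * y * a⁻¹ = 1 := by rw [hkey]; group
        calc a * y = y * (y⁻¹ * a * y * a⁻¹) * a := by group
          _ = y * a := by rw [h3]; group
      rw [hYz] at hy'
      obtain ⟨k, rfl⟩ := hy'
      exact ((show Commute a y from hay).zpow_right k).eq
  -- consequences of a four-cycle
  have hcyc2 : ∀ X ∈ K, ∀ Z ∈ K, ∀ Y ∈ K, ∀ U ∈ K, Comm X Z → Comm Z Y → Comm Y U → Comm U X →
      ¬ Comm X Y → ¬ Comm Z U → ∀ y ∈ Y, y ≠ 1 →
      ∃ x ∈ X, x ≠ 1 ∧ y⁻¹ * x * y * x⁻¹ ≠ 1 ∧ Subgroup.zpowers (y⁻¹ * x * y * x⁻¹) ∈ K ∧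
        Commute (y⁻¹ * x * y * x⁻¹) x ∧ Commute (y⁻¹ * x * y * x⁻¹) y ∧
        (∀ u ∈ U, Commute (y⁻¹ * x * y * x⁻¹) u) := by
    intro X hX Z hZ Y hY U hU hXZ hZY hYU hUX hnXY hnZU y hy hy1
    obtain ⟨u, hu, hu1⟩ := hne1 U hU
    obtain ⟨x, hx, z, hz, hx1, hz1, hkey⟩ :=
      hcyc X hX Z hZ Y hY U hU hXZ hZY hYU hUX hnXY hnZU y hy hy1 u hu hu1
    have hXz : X = Subgroup.zpowers x := eq_zpowers hp (hK X hX) hx hx1
    have hYz : Y = Subgroup.zpowers y := eq_zpowers hp (hK Y hY) hy hy1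
    have hcx : Commute (y⁻¹ * x * y * x⁻¹) x := by
      rw [hkey]
      have cu : Commute u x := hUX u hu x hx
      have cz : Commute z x := (hXZ x hx z hz).symm
      exact ((cu.mul_left cz).mul_left cu.inv_left).mul_left cz.inv_left
    have hcy : Commute (y⁻¹ * x * y * x⁻¹) y := by
      rw [hkey]
      have cu : Commute u y := (hYU y hy u hu).symm
      have cz : Commute z y := hZY z hz y hy
      exact ((cu.mul_left cz).mul_left cu.inv_left).mul_left cz.inv_left
    have hcU : ∀ u' ∈ U, Commute (y⁻¹ * x * y * x⁻¹) u' := by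
      intro u' hu'
      have cy : Commute y u' := hYU y hy u' hu'
      have cx : Commute x u' := (hUX u' hu' x hx).symm
      exact ((cy.inv_left.mul_left cx).mul_left cy).mul_left cx.inv_left
    have hc1 : y⁻¹ * x * y * x⁻¹ ≠ 1 := by
      intro h3
      apply hnXY
      rw [hXz, comm_zpowers_iff]
      intro y' hy'
      have hxy : x * y = y * x := by
        calc x * y = y * (y⁻¹ * x * y * x⁻¹) * x := by group
          _ = y * x := by rw [h3]; group
      rw [hYz] at hy'
      obtain ⟨k, rfl⟩ := hy'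
      exact ((show Commute x y from hxy).zpow_right k).eq
    refine ⟨x, hx, hx1, hc1, ?_, hcx, hcy, hcU⟩
    -- the conjugate X' of X by y⁻¹
    set c := y⁻¹ * x * y * x⁻¹ with hc
    have hX' : X.map (MulAut.conj y⁻¹).toMonoidHom ∈ K := hKc X hX y⁻¹
    have hx' : c * x ∈ X.map (MulAut.conj y⁻¹).toMonoidHom := by
      refine ⟨x, hx, ?_⟩
      simp only [MulEquiv.coe_toMonoidHom, MulAut.conj_apply, inv_inv, hc]
      group
    have hcx1 : c * x ≠ 1 := by
      intro h3
      apply hx1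
      have : c * x = y⁻¹ * x * y := by rw [hc]; group
      rw [this] at h3
      calc x = y * (y⁻¹ * x * y) * y⁻¹ := by group
        _ = 1 := by rw [h3]; group
    have hXX' : X ≠ X.map (MulAut.conj y⁻¹).toMonoidHom := by
      intro h3
      apply hnXY
      have hcX : c ∈ X := by
        have h4 : c * x ∈ X := h3 ▸ hx'
        have h5 : c = c * x * x⁻¹ := by group
        rw [h5]
        exact X.mul_mem h4 (X.inv_mem hx)
      rw [eq_zpowers hp (hK X hX) hcX hc1, comm_zpowers_iff]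
      intro y' hy'
      rw [hYz] at hy'
      obtain ⟨k, rfl⟩ := hy'
      exact (hcy.zpow_right k).eq
    have hcomm' : Comm X (X.map (MulAut.conj y⁻¹).toMonoidHom) := by
      rw [eq_zpowers hp (hK _ hX') hx' hcx1]
      apply Comm.symm
      rw [comm_zpowers_iff]
      intro x' hx''
      rw [hXz] at hx''
      obtain ⟨k, rfl⟩ := hx''
      exact ((hcx.mul_left (Commute.refl x)).zpow_right k).eq
    apply ha X hX _ hX' hXX' hcomm'
    · rw [Subgroup.zpowers_le]
      have h5 : c = c * x * x⁻¹ := by group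
      rw [h5]
      exact Subgroup.mul_mem _ (Subgroup.mem_sup_right hx') (Subgroup.mem_sup_left (X.inv_mem hx))
    · apply card_zpowers_eq hp _ hc1
      have h5 : c = c * x * x⁻¹ := by group
      rw [h5, ((hcx.mul_left (Commute.refl x)).inv_right).mul_pow,
        pow_eq_one_of_mem (hK _ hX') hx', inv_pow, pow_eq_one_of_mem (hK X hX) hx]
      simp
  -- case B
  have hcaseB : ∀ X ∈ K, ∀ Y ∈ K, ¬ Comm X Y → ∀ Z ∈ K, Comm Z X → Comm Z Y →
      (∀ U ∈ K, Comm U X → Comm U Y → Comm Z U) → ∀ V ∈ K, Comm V X → Comm V Z := by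
    intro X hX Y hY hnXY Z hZ hZX hZY hgood V hV hVX
    by_cases hVX' : V = X
    · rw [hVX']; exact hZX.symm
    · obtain ⟨a, haX, b, hbV, hab1, habK, habc⟩ :=
        hpoint X hX V hV (Ne.symm hVX') hVX.symm Y hY
      have hUX : Comm (Subgroup.zpowers (a * b)) X := by
        rw [comm_zpowers_iff]
        exact hmulcomm X hX a haX b (fun x hx => (hVX b hbV x hx).symm)
      have hUY : Comm (Subgroup.zpowers (a * b)) Y := comm_zpowers_iff.mpr habc
      have hZU := hgood _ habK hUX hUY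
      have hb1 : b ≠ 1 := by
        intro hb1
        subst hb1
        apply hnXY
        have ha1 : a ≠ 1 := by simpa using hab1
        rw [eq_zpowers hp (hK X hX) haX ha1]
        simpa using hUY
      rw [eq_zpowers hp (hK V hV) hbV hb1, comm_zpowers_iff]
      intro z hz
      have e1 : z * (a * b) = (a * b) * z := hZU z hz _ (Subgroup.mem_zpowers _)
      have e2 : z * a = a * z := hZX z hz a haX
      calc b * z = a⁻¹ * ((a * b) * z) := by group
        _ = a⁻¹ * (z * (a * b)) := by rw [e1]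
        _ = a⁻¹ * (z * a) * b := by group
        _ = a⁻¹ * (a * z) * b := by rw [e2]
        _ = z * b := by group
  -- the main step
  have hstep : ∀ X ∈ K, ∀ Y ∈ K, ¬ Comm X Y →
      ∃ Z ∈ K, (∀ V ∈ K, Comm V X → Comm V Z) ∧ Comm Y Z := by
    intro X hX Y hY hnXY
    obtain ⟨Z₀, hZ₀, hZ₀X, hZ₀Y⟩ := hdiam X hX Y hY hnXY
    by_cases hbad : ∃ U ∈ K, Comm U X ∧ Comm U Y ∧ ¬ Comm Z₀ U
    · obtain ⟨U, hU, hUX, hUY, hnZU⟩ := hbad
      obtain ⟨y, hy, hy1⟩ := hne1 Y hY
      obtain ⟨x, hx, hx1, hc1, hcK, hcx, hcy, hcU⟩ :=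
        hcyc2 X hX Z₀ hZ₀ Y hY U hU hZ₀X.symm hZ₀Y hUY.symm hUX hnXY hnZU y hy hy1
      have hXz : X = Subgroup.zpowers x := eq_zpowers hp (hK X hX) hx hx1
      have hYz : Y = Subgroup.zpowers y := eq_zpowers hp (hK Y hY) hy hy1
      have hCX : Comm (Subgroup.zpowers (y⁻¹ * x * y * x⁻¹)) X := by
        rw [comm_zpowers_iff]
        intro x' hx'
        rw [hXz] at hx'
        obtain ⟨k, rfl⟩ := hx'
        exact (hcx.zpow_right k).eq
      have hCY : Comm (Subgroup.zpowers (y⁻¹ * x * y * x⁻¹)) Y := by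
        rw [comm_zpowers_iff]
        intro y' hy'
        rw [hYz] at hy'
        obtain ⟨k, rfl⟩ := hy'
        exact (hcy.zpow_right k).eq
      refine ⟨_, hcK, ?_, hCY.symm⟩
      apply hcaseB X hX Y hY hnXY _ hcK hCX hCY
      intro U' hU' hU'X hU'Y
      by_contra hnCU'
      obtain ⟨x₂, hx₂, hx₂1, hc'1, -, -, -, hc'U⟩ :=
        hcyc2 X hX _ hcK Y hY U' hU' hCX.symm hCY hU'Y.symm hU'X hnXY hnCU' y hy hy1
      rw [hXz] at hx₂
      obtain ⟨k, rfl⟩ := hx₂
      beta_reduce at hx₂1 hc'1 hc'U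
      have hc' : y⁻¹ * x ^ k * y * (x ^ k)⁻¹ = (y⁻¹ * x * y * x⁻¹) ^ k := by
        have h1 : y⁻¹ * x ^ k * y = (y⁻¹ * x * y) ^ k := by
          have := conj_zpow (a := y⁻¹) (b := x) (i := k)
          simp only [inv_inv] at this
          exact this.symm
        obtain ⟨c, hc⟩ : ∃ c, c = y⁻¹ * x * y * x⁻¹ := ⟨_, rfl⟩
        have h2 : y⁻¹ * x * y = c * x := by rw [hc]; group
        have hcx' : Commute c x := hc ▸ hcx
        rw [← hc, h1, h2, hcx'.mul_zpow, mul_inv_cancel_right]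
      rw [hc'] at hc'1 hc'U
      apply hnCU'
      rw [eq_zpowers hp (hK _ hcK) (Subgroup.zpow_mem_zpowers _ k) hc'1, comm_zpowers_iff]
      intro u hu
      exact (hc'U u hu).eq
    · push Not at hbad
      exact ⟨Z₀, hZ₀, hcaseB X hX Y hY hnXY Z₀ hZ₀ hZ₀X hZ₀Y
        (fun U hU hUX hUY => hbad U hU hUX hUY), hZ₀Y.symm⟩
  -- a point with maximal neighbourhood commutes with everything
  have hfin : K.Finite := Set.toFinite K
  have hKne : K.Nonempty := by
    obtain ⟨X, hX, -⟩ := hex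
    exact ⟨X, hX⟩
  obtain ⟨V, hV, hVmax⟩ :=
    Set.exists_max_image K (fun X => Set.ncard {W ∈ K | Comm W X}) hfin hKne
  have hVall : ∀ W ∈ K, Comm V W := by
    intro W hW
    by_contra hn
    obtain ⟨Z, hZ, hZsub, hWZ⟩ := hstep V hV W hW hn
    have hlt : Set.ncard {W' ∈ K | Comm W' V} < Set.ncard {W' ∈ K | Comm W' Z} := by
      apply Set.ncard_lt_ncard _ (hfin.subset (fun x hx => hx.1))
      constructor
      · intro W' hW'
        exact ⟨hW'.1, hZsub W' hW'.1 hW'.2⟩
      · intro hsub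
        have h3 : W ∈ {W' ∈ K | Comm W' V} := hsub ⟨hW, hWZ⟩
        exact hn h3.2.symm
    exact absurd (hVmax Z hZ) (not_le.mpr hlt)
  -- the normal closure of V
  have hgen : ∀ t ∈ Group.conjugatesOfSet (V : Set G), ∃ X ∈ K, t ∈ X ∧ ∀ W ∈ K, Comm X W := by
    intro t ht
    rw [Group.mem_conjugatesOfSet_iff] at ht
    obtain ⟨v, hv, hconj⟩ := ht
    rw [isConj_iff] at hconj
    obtain ⟨g, rfl⟩ := hconj
    refine ⟨V.map (MulAut.conj g).toMonoidHom, hKc V hV g, ⟨v, hv, by simp⟩, ?_⟩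
    intro W hW
    rintro _ ⟨v', hv', rfl⟩ w hw
    have h3 := hVall _ (hKc W hW g⁻¹) v' hv' (g⁻¹ * w * g) ⟨w, hw, by simp⟩
    simp only [MulEquiv.coe_toMonoidHom, MulAut.conj_apply]
    calc g * v' * g⁻¹ * w = g * (v' * (g⁻¹ * w * g)) * g⁻¹ := by group
      _ = g * ((g⁻¹ * w * g) * v') * g⁻¹ := by rw [h3]
      _ = w * (g * v' * g⁻¹) := by group
  have hNcomm : ∀ t ∈ Subgroup.normalClosure (V : Set G), ∀ W ∈ K, ∀ w ∈ W, t * w = w * t := by
    intro t ht W hW w hw
    have h3 : Subgroup.normalClosure (V : Set G) ≤ Subgroup.centralizer (W : Set G) := by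
      rw [Subgroup.normalClosure, Subgroup.closure_le]
      intro s hs
      obtain ⟨X, hX, hsX, hXc⟩ := hgen s hs
      rw [SetLike.mem_coe, Subgroup.mem_centralizer_iff]
      intro w' hw'
      exact (hXc W hW s hsX w' hw').symm
    exact ((Subgroup.mem_centralizer_iff.mp (h3 ht)) w hw).symm
  have hNabel : ∀ s ∈ Subgroup.normalClosure (V : Set G),
      ∀ t ∈ Subgroup.normalClosure (V : Set G), s * t = t * s := by
    intro s hs t ht
    have h3 : Subgroup.normalClosure (V : Set G) ≤ Subgroup.centralizer ({s} : Set G) := by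
      rw [Subgroup.normalClosure, Subgroup.closure_le]
      intro r hr
      obtain ⟨X, hX, hrX, -⟩ := hgen r hr
      rw [SetLike.mem_coe, Subgroup.mem_centralizer_iff]
      intro s' hs'
      rw [Set.mem_singleton_iff] at hs'
      subst hs'
      exact hNcomm s' hs X hX r hrX
    exact Subgroup.mem_centralizer_iff.mp (h3 ht) s rfl
  have hNpow : ∀ t ∈ Subgroup.normalClosure (V : Set G), t ^ p = 1 := by
    intro t ht
    refine Subgroup.closure_induction (p := fun t _ => t ^ p = 1) ?_ ?_ ?_ ?_ ht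
    · intro s hs
      obtain ⟨X, hX, hsX, -⟩ := hgen s hs
      exact pow_eq_one_of_mem (hK X hX) hsX
    · simp
    · intro s t hs ht ihs iht
      rw [(show Commute s t from hNabel s hs t ht).mul_pow, ihs, iht, one_mul]
    · intro s hs ihs
      rw [inv_pow, ihs, inv_one]
  have hNp : IsPGroup p (Subgroup.normalClosure (V : Set G)) := by
    intro t
    refine ⟨1, ?_⟩
    rw [pow_one]
    exact Subtype.ext (by simpa using hNpow t t.2)
  have hVN : V ≤ Subgroup.normalClosure (V : Set G) := Subgroup.le_normalClosure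
  have hNnormal : (Subgroup.normalClosure (V : Set G)).Normal := Subgroup.normalClosure_normal
  refine ⟨⟨V, hV, hVall, hVN.trans (le_sSup ⟨hNnormal, hNp⟩)⟩, ?_⟩
  intro hsimple
  have hNtop : Subgroup.normalClosure (V : Set G) = ⊤ := by
    rcases hNnormal.eq_bot_or_eq_top with h | h
    · exfalso
      obtain ⟨v, hv, hv1⟩ := hne1 V hV
      have h3 : v ∈ Subgroup.normalClosure (V : Set G) := hVN hv
      rw [h, Subgroup.mem_bot] at h3
      exact hv1 h3
    · exact h
  obtain ⟨X₀, hX₀, Y₀, hY₀, hne, -⟩ := hex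
  have hall : ∀ X ∈ K, X = ⊤ := by
    intro X hX
    have hXn : X.Normal := by
      constructor
      intro n hn g
      have h3 := hNabel g (by rw [hNtop]; trivial) n (by rw [hNtop]; trivial)
      rw [h3]
      simpa using hn
    rcases hXn.eq_bot_or_eq_top with h | h
    · exfalso
      obtain ⟨x, hx, hx1⟩ := hne1 X hX
      rw [h, Subgroup.mem_bot] at hx
      exact hx1 hx
    · exact h
  exact hne ((hall X₀ hX₀).trans (hall Y₀ hY₀).symm)

end Cfsg.Agent.S3196
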