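import Mathlib
import Cfsg.Statements.S3200
import Cfsg.Agent.S0143
import Cfsg.Agent.S0003
import Cfsg.Agent.S0004
import Cfsg.Agent.S0005
import Cfsg.Agent.Lib.Helper53.Basic
import Cfsg.Agent.Lib.Helper64.SylowMax

set_option autoImplicit false
open Cfsg

namespace Cfsg.Agent.S3200

open Cfsg.Agent.Lib.Helper53

universe u

/-- A finite group with an abelian subgroup of odd order and `2`-power index is solvable. -/
theorem solvable_aux : ∀ (n : ℕ) (H : Type u) [Group H] [Finite H], Nat.card H ≤ n →
    ∀ C : Subgroup H, (∀ x ∈ C, ∀ y ∈ C, x * y = y * x) → Odd (Nat.card C) →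
      (∃ k, C.index = 2 ^ k) → Group.IsSolvable H := by
  intro n
  induction n with
  | zero =>
    intro H _ _ hn
    have := Nat.card_pos (α := H)
    omega
  | succ n ih =>
    intro H _ _ hn C hCc hCo hCi
    have : Fact (Nat.Prime 2) := ⟨Nat.prime_two⟩
    obtain ⟨k, hk⟩ := hCi
    by_cases hsimple : IsSimpleGroup H
    · by_cases hCbot : C = ⊥
      · have h1 : Nat.card H = 2 ^ k := by
          rw [← hk, hCbot, Subgroup.index_bot]
        have h2 : IsPGroup 2 H := IsPGroup.of_card h1
        have h3 : Group.IsNilpotent H := h2.isNilpotent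
        infer_instance
      · obtain ⟨c, hcC, hc1⟩ : ∃ c ∈ C, c ≠ 1 := by
          by_contra hcon
          push Not at hcon
          exact hCbot ((Subgroup.eq_bot_iff_forall C).mpr hcon)
        have hle : C ≤ Subgroup.centralizer ({c} : Set H) := by
          intro x hx
          rw [Subgroup.mem_centralizer_singleton_iff]
          exact hCc x hx c hcC
        have hdvd : (Subgroup.centralizer ({c} : Set H)).index ∣ 2 ^ k := by
          rw [← hk]; exact Subgroup.index_dvd_of_le hle
        obtain ⟨j, -, hj⟩ := (Nat.dvd_prime_pow Nat.prime_two).mp hdvd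
        have hprime := Cfsg.Agent.S0143.result 2 j Nat.prime_two c hc1 hj
        have : Fact (Nat.card H).Prime := ⟨hprime⟩
        have h2 : IsPGroup (Nat.card H) H := IsPGroup.of_card (n := 1) (by rw [pow_one])
        have h3 : Group.IsNilpotent H := h2.isNilpotent
        infer_instance
    · by_cases hnt : Nontrivial H
      · obtain ⟨N, hNn, hNbot, hNtop⟩ : ∃ N : Subgroup H, N.Normal ∧ N ≠ ⊥ ∧ N ≠ ⊤ := by
          by_contra hcon
          push Not at hcon
          apply hsimple
          refine ⟨fun N hN => ?_⟩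
          by_contra h0
          push Not at h0
          exact h0.2 (hcon N hN h0.1)
        -- the normal subgroup
        have hNcard : Nat.card N < Nat.card H := by
          have h1 : Nat.card N ≤ Nat.card H := Subgroup.card_le_card_group N
          rcases Nat.lt_or_ge (Nat.card N) (Nat.card H) with h | h
          · exact h
          · exact absurd (Subgroup.card_eq_iff_eq_top N |>.mp (le_antisymm h1 h)) hNtop
        have hN1 : 1 < Nat.card N := by
          rcases Nat.lt_or_ge 1 (Nat.card N) with h | h
          · exact h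
          · have h1 : Nat.card N = 1 := le_antisymm h Nat.card_pos
            exact absurd (Subgroup.eq_bot_of_card_eq N h1) hNbot
        have hQcard : Nat.card (H ⧸ N) < Nat.card H := by
          have h1 := Subgroup.card_mul_index N
          rw [← Subgroup.index_eq_card]
          have hpos : 0 < N.index := Nat.pos_of_ne_zero Subgroup.index_ne_zero_of_finite
          nlinarith
        have hsN : Group.IsSolvable N := by
          apply ih N (by omega) (C.subgroupOf N)
          · intro x hx y hy
            apply Subtype.ext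
            exact hCc _ (Subgroup.mem_subgroupOf.mp hx) _ (Subgroup.mem_subgroupOf.mp hy)
          · have h1 : Nat.card (C.subgroupOf N) = Nat.card (C ⊓ N : Subgroup H) := by
              rw [← Subgroup.inf_subgroupOf_right]
              exact Nat.card_congr (Subgroup.subgroupOfEquivOfLe inf_le_right).toEquiv
            rw [h1]
            exact hCo.of_dvd_nat (Subgroup.card_dvd_of_le inf_le_left)
          · have h1 : (C.subgroupOf N).index ∣ 2 ^ k := by
              rw [← hk]
              exact Cfsg.Agent.Lib.Helper64.relIndex_dvd_index_of_normal_right C N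
            obtain ⟨j, -, hj⟩ := (Nat.dvd_prime_pow Nat.prime_two).mp h1
            exact ⟨j, hj⟩
        have hsQ : Group.IsSolvable (H ⧸ N) := by
          apply ih (H ⧸ N) (by omega) (C.map (QuotientGroup.mk' N))
          · rintro _ ⟨x, hx, rfl⟩ _ ⟨y, hy, rfl⟩
            rw [← map_mul, ← map_mul, hCc x hx y hy]
          · exact hCo.of_dvd_nat (Subgroup.card_map_dvd C (QuotientGroup.mk' N))
          · have h1 : (C.map (QuotientGroup.mk' N)).index ∣ 2 ^ k := by
              rw [← hk]
              exact Subgroup.index_map_dvd C (QuotientGroup.mk'_surjective N)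
            obtain ⟨j, -, hj⟩ := (Nat.dvd_prime_pow Nat.prime_two).mp h1
            exact ⟨j, hj⟩
        exact Group.isSolvable_of_ker_le_range N.subtype (QuotientGroup.mk' N) (by simp)
      · rw [not_nontrivial_iff_subsingleton] at hnt
        exact Group.isSolvable_of_comm (fun a b => Subsingleton.elim _ _)

/-- From an abelian subgroup of odd order and `2`-power index to an abelian complement of a
Sylow `2`-subgroup. -/
theorem complement_of_hall {L : Type*} [Group L] [Finite L] (D : Subgroup L)
    (hDc : ∀ x ∈ D, ∀ y ∈ D, x * y = y * x) (hDo : Odd (Nat.card D)) (hDi : ∃ k, D.index = 2 ^ k) :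
    ∃ (P : Sylow 2 L) (D : Subgroup L), IsMulCommutative ↥D ∧
      Subgroup.IsComplement' (P : Subgroup L) D := by
  have : Fact (Nat.Prime 2) := ⟨Nat.prime_two⟩
  obtain ⟨k, hk⟩ := hDi
  refine ⟨default, D, ⟨⟨fun x y => Subtype.ext (hDc _ x.2 _ y.2)⟩⟩, ?_⟩
  have h1 : ¬ 2 ∣ Nat.card D := by
    rw [← even_iff_two_dvd, Nat.not_even_iff_odd]; exact hDo
  exact (isComplement'_sylow_of_coprime_of_index D h1 hk default).symm

/-- Let H be a finite group in which a Sylow 2-subgroup has an abelian complement (an abelian subgroup meeting it trivially whose product with it is all of H). Then H is solvable, and every subgroup and every quotient group of H again has a Sylow 2-subgroup with an abelian complement. -/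
theorem result {H : Type*} [Group H] [Finite H]
    (S : Sylow 2 H) (C : Subgroup H) (hC : IsMulCommutative ↥C) (hSC : Subgroup.IsComplement' (S : Subgroup H) C) :
    Group.IsSolvable H ∧
    (∀ L : Subgroup H, ∃ (P : Sylow 2 ↥L) (D : Subgroup ↥L), IsMulCommutative ↥D ∧ Subgroup.IsComplement' (P : Subgroup ↥L) D) ∧
    (∀ (N : Subgroup H) [N.Normal], ∃ (P : Sylow 2 (H ⧸ N)) (D : Subgroup (H ⧸ N)),
      IsMulCommutative ↥D ∧ Subgroup.IsComplement' (P : Subgroup (H ⧸ N)) D) := by
  have : Fact (Nat.Prime 2) := ⟨Nat.prime_two⟩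
  have hCc : ∀ x ∈ C, ∀ y ∈ C, x * y = y * x := by
    intro x hx y hy
    have h1 := hC.is_comm.comm (⟨x, hx⟩ : C) ⟨y, hy⟩
    exact congrArg Subtype.val h1
  have hcard : Nat.card (S : Subgroup H) * Nat.card C = Nat.card H := hSC.card_mul_card
  obtain ⟨a, ha⟩ := (IsPGroup.iff_card).mp S.isPGroup'
  have hCi : C.index = 2 ^ a := by
    have h1 := Subgroup.card_mul_index C
    rw [← hcard, mul_comm] at h1
    rw [← ha]
    exact Nat.eq_of_mul_eq_mul_right Nat.card_pos h1
  have hCo : Odd (Nat.card C) := by
    have h1 := Subgroup.card_mul_index (S : Subgroup H)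
    rw [← hcard] at h1
    have h2 : (S : Subgroup H).index = Nat.card C := Nat.eq_of_mul_eq_mul_left Nat.card_pos h1
    rw [← h2, ← Nat.not_even_iff_odd, even_iff_two_dvd]
    exact S.not_dvd_index
  have hsolv : Group.IsSolvable H := solvable_aux (Nat.card H) H le_rfl C hCc hCo ⟨a, hCi⟩
  have hCcop : (Nat.card C).Coprime (2 ^ a) :=
    Nat.Coprime.pow_right a (Nat.coprime_two_right.mpr hCo)
  have hHcard : Nat.card H = Nat.card C * 2 ^ a := by
    rw [← hCi]; exact (Subgroup.card_mul_index C).symm
  refine ⟨hsolv, ?_, ?_⟩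
  · intro L
    obtain ⟨b, m, hm, hbm⟩ := Nat.exists_eq_two_pow_mul_odd (Nat.card_pos (α := L)).ne'
    have hmcop : m.Coprime (2 ^ b) := Nat.Coprime.pow_right b (Nat.coprime_two_right.mpr hm)
    obtain ⟨D, hD⟩ := Cfsg.Agent.S0003.result (G := L) m (2 ^ b) (by rw [hbm, mul_comm]) hmcop
    have hKcard : Nat.card (D.map L.subtype) = m := by
      rw [Subgroup.card_map_of_injective L.subtype_injective, hD]
    obtain ⟨C', hC'card, hKC'⟩ := Cfsg.Agent.S0005.result (G := H) (Nat.card C) (2 ^ a) hHcard hCcop
      (D.map L.subtype) (by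
        rw [hKcard]
        exact Nat.Coprime.pow_right a (Nat.coprime_two_right.mpr hm))
    obtain ⟨g, hg⟩ := Cfsg.Agent.S0004.result (G := H) (Nat.card C) (2 ^ a) hHcard hCcop C C' rfl
      hC'card
    have hC'c : ∀ x ∈ C', ∀ y ∈ C', x * y = y * x := by
      intro x hx y hy
      rw [← hg, Subgroup.mem_pointwise_smul_iff_inv_smul_mem] at hx hy
      simp only [MulAut.smul_def, MulAut.inv_apply, MulAut.conj_symm_apply] at hx hy
      have h1 := hCc _ hx _ hy
      calc x * y = g * ((g⁻¹ * x * g) * (g⁻¹ * y * g)) * g⁻¹ := by group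
        _ = g * ((g⁻¹ * y * g) * (g⁻¹ * x * g)) * g⁻¹ := by rw [h1]
        _ = y * x := by group
    apply complement_of_hall D
    · intro x hx y hy
      apply Subtype.ext
      exact hC'c _ (hKC' ⟨x, hx, rfl⟩) _ (hKC' ⟨y, hy, rfl⟩)
    · rw [hD]; exact hm
    · refine ⟨b, ?_⟩
      have h1 := Subgroup.card_mul_index D
      rw [hD, hbm, mul_comm] at h1
      exact Nat.eq_of_mul_eq_mul_right (Nat.pos_of_ne_zero (fun h0 => by simp [h0] at hm)) h1
  · intro N _
    apply complement_of_hall (C.map (QuotientGroup.mk' N))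
    · rintro _ ⟨x, hx, rfl⟩ _ ⟨y, hy, rfl⟩
      rw [← map_mul, ← map_mul, hCc x hx y hy]
    · exact hCo.of_dvd_nat (Subgroup.card_map_dvd C (QuotientGroup.mk' N))
    · have h1 : (C.map (QuotientGroup.mk' N)).index ∣ 2 ^ a := by
        rw [← hCi]
        exact Subgroup.index_map_dvd C (QuotientGroup.mk'_surjective N)
      obtain ⟨j, -, hj⟩ := (Nat.dvd_prime_pow Nat.prime_two).mp h1
      exact ⟨j, hj⟩

end Cfsg.Agent.S3200
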