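import Mathlib
import Cfsg.Statements.S3201
import Cfsg.Agent.Lib.Helper53.Quaternion
import Cfsg.Agent.Lib.Helper73.DihedralIso

set_option autoImplicit false
open Cfsg

namespace Cfsg.Agent.S3201

open Cfsg.Agent.Lib.Helper53
open Cfsg.Agent.Lib.Helper73

/-- squares of a commutative finite `2`-group lie in every maximal subgroup -/
theorem sq_mem_of_isCoatom {A : Type*} [Group A] (hc : ∀ x y : A, x * y = y * x)
    (hA : IsPGroup 2 A) (K : Subgroup A) (hK : IsCoatom K) (z : A) : z ^ 2 ∈ K := by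
  let Ω : Subgroup A :=
    { carrier := {z | z ^ 2 ∈ K}
      mul_mem' := by
        intro x y hx hy
        show (x * y) ^ 2 ∈ K
        have h1 : (x * y) ^ 2 = x ^ 2 * y ^ 2 := by
          rw [sq, sq, sq]
          calc x * y * (x * y) = x * (y * x) * y := by simp only [mul_assoc]
            _ = x * (x * y) * y := by rw [hc y x]
            _ = x * x * (y * y) := by simp only [mul_assoc]
        rw [h1]
        exact K.mul_mem hx hy
      one_mem' := by
        show (1 : A) ^ 2 ∈ K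
        rw [one_pow]; exact K.one_mem
      inv_mem' := by
        intro x hx
        show (x⁻¹) ^ 2 ∈ K
        rw [inv_pow]; exact K.inv_mem hx }
  have hΩ : ∀ w, w ∈ Ω ↔ w ^ 2 ∈ K := fun w => Iff.rfl
  have hKΩ : K ≤ Ω := fun w hw => (hΩ w).mpr (K.pow_mem hw 2)
  rcases hK.le_iff.mp hKΩ with h | h
  · have h1 : z ∈ Ω := by rw [h]; exact Subgroup.mem_top z
    exact (hΩ z).mp h1
  · exfalso
    apply hK.1
    have hstep : ∀ e : ℕ, ∀ w : A, w ^ 2 ^ e ∈ K → w ∈ K := by
      intro e
      induction e with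
      | zero => intro w hw; simpa using hw
      | succ e ih =>
        intro w hw
        apply ih
        have h1 : w ^ 2 ^ e ∈ Ω := by
          rw [hΩ, ← pow_mul, ← pow_succ]; exact hw
        rw [h] at h1
        exact h1
    rw [eq_top_iff]
    intro w _
    obtain ⟨e, he⟩ := hA w
    exact hstep e w (by rw [he]; exact K.one_mem)

/-- consequences of a unique involution in a quotient by a subgroup of an elementary abelian
subgroup `Z` -/
theorem lemAB {S : Type*} [Group S] (K : Subgroup S) [K.Normal] (Z : Subgroup S) (hKZ : K ≤ Z)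
    (hu : ∃! x : S ⧸ K, orderOf x = 2) (z₀ : S) (hz₀ : z₀ ∈ Z) (hz₀K : z₀ ∉ K)
    (hZ2 : ∀ z ∈ Z, z * z = 1) :
    (∀ g : S, g * g ∈ K → g ∈ Z) ∧
    (∀ z ∈ Z, ∀ w ∈ Z, z ∉ K → w ∉ K → z * w ∈ K) := by
  have : Fact (Nat.Prime 2) := ⟨Nat.prime_two⟩
  obtain ⟨t, ht, htu⟩ := hu
  have key : ∀ g : S, g * g ∈ K → g ∉ K → (g : S ⧸ K) = t := by
    intro g hg hgK
    apply htu
    apply orderOf_eq_prime
    · rw [sq, ← QuotientGroup.mk_mul]
      exact (QuotientGroup.eq_one_iff _).mpr hg
    · intro h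
      exact hgK ((QuotientGroup.eq_one_iff _).mp h)
  have hZK : ∀ z ∈ Z, z * z ∈ K := fun z hz => by rw [hZ2 z hz]; exact K.one_mem
  constructor
  · intro g hg
    by_cases hgK : g ∈ K
    · exact hKZ hgK
    · have h1 : (z₀ : S ⧸ K) = (g : S ⧸ K) := by
        rw [key g hg hgK, key z₀ (hZK z₀ hz₀) hz₀K]
      have h2 : z₀⁻¹ * g ∈ K := QuotientGroup.eq.mp h1
      have h3 : g = z₀ * (z₀⁻¹ * g) := by simp only [mul_assoc, mul_inv_rev, inv_inv, inv_mul_cancel_left, mul_inv_cancel_left, inv_mul_cancel, mul_inv_cancel, mul_one, one_mul, inv_one]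
      rw [h3]
      exact Z.mul_mem hz₀ (hKZ h2)
  · intro z hz w hw hzK hwK
    rw [← QuotientGroup.eq_one_iff, QuotientGroup.mk_mul, key z (hZK z hz) hzK,
      key w (hZK w hw) hwK, ← sq, ← ht]
    exact pow_orderOf_eq_one t

/-- the homomorphism from a generalized quaternion group defined by generators and relations -/
theorem exists_quaternion_hom {G : Type*} [Group G] (n : ℕ) [NeZero n] (a b : G)
    (ha : orderOf a = 2 * n) (hbb : b * b = a ^ n) (hba : b * a * b⁻¹ = a⁻¹) :
    ∃ f : QuaternionGroup n →* G, ∀ i : ZMod (2 * n),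
      f (QuaternionGroup.a i) = a ^ i.val ∧ f (QuaternionGroup.xa i) = b * a ^ i.val := by
  let f : QuaternionGroup n → G := fun x =>
    match x with
    | QuaternionGroup.a i => zmodPow (2 * n) a i
    | QuaternionGroup.xa i => b * zmodPow (2 * n) a i
  have hmul : ∀ x y : QuaternionGroup n, f (x * y) = f x * f y := by
    rintro (i | i) (j | j)
    · exact zmodPow_add ha i j
    · change b * zmodPow (2 * n) a (j - i) = zmodPow (2 * n) a i * (b * zmodPow (2 * n) a j)
      rw [zmodPow_sub ha, ← mul_assoc (zmodPow (2 * n) a i), zmodPow_mul_inverting hba i,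
        (zmodPow_commute (2 * n) a j i).inv_right.eq]
      group
    · change b * zmodPow (2 * n) a (i + j) = b * zmodPow (2 * n) a i * zmodPow (2 * n) a j
      rw [zmodPow_add ha, mul_assoc]
    · change zmodPow (2 * n) a ((n : ZMod (2 * n)) + j - i)
        = b * zmodPow (2 * n) a i * (b * zmodPow (2 * n) a j)
      rw [zmodPow_sub ha, zmodPow_add ha, zmodPow_natCast ha, mul_assoc b,
        ← mul_assoc (zmodPow (2 * n) a i), zmodPow_mul_inverting hba i, ← hbb,
        mul_assoc (b * b), (zmodPow_commute (2 * n) a j i).inv_right.eq]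
      group
  exact ⟨MonoidHom.mk' f hmul, fun i => ⟨rfl, rfl⟩⟩

/-- Let S be a finite 2-group whose centre Z(S) has n ≥ 2 distinct maximal subgroups C₁, …, Cₙ with trivial intersection such that each quotient S/Cᵢ is a non-abelian group with exactly one involution (a generalized quaternion group). Then S is the internal direct product of an elementary abelian subgroup and a non-abelian subgroup with exactly one involution. -/
theorem result {S : Type*} [Group S] [Finite S]
    (hS : IsPGroup 2 S) (n : ℕ) (hn : 2 ≤ n) (C : Fin n → Subgroup ↥(Subgroup.center S))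
    (hCmax : ∀ i, IsCoatom (C i)) (hCinj : Function.Injective C) (hCint : ⨅ i, C i = ⊥)
    (hCq : ∀ i, ∃ (_ : ((C i).map (Subgroup.center S).subtype).Normal),
      ¬ IsMulCommutative (S ⧸ (C i).map (Subgroup.center S).subtype) ∧
      ∃! x : S ⧸ (C i).map (Subgroup.center S).subtype, orderOf x = 2) :
    ∃ E Q : Subgroup S, Cfsg.IsInternalDirectProduct E Q ⊤ ∧ Cfsg.IsElementaryAbelian 2 E ∧
      ¬ IsMulCommutative ↥Q ∧ ∃! x : ↥Q, orderOf x = 2 := by
  have : Fact (Nat.Prime 2) := ⟨Nat.prime_two⟩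
  have hZc : ∀ x y : ↥(Subgroup.center S), x * y = y * x := by
    intro x y
    apply Subtype.ext
    exact Subgroup.mem_center_iff.mp y.2 x
  have hZP : IsPGroup 2 ↥(Subgroup.center S) := hS.to_subgroup _
  have hZ2 : ∀ z ∈ Subgroup.center S, z * z = 1 := by
    intro z hz
    have h1 : (⟨z, hz⟩ : Subgroup.center S) ^ 2 ∈ ⨅ i, C i := by
      rw [Subgroup.mem_iInf]
      intro i
      exact sq_mem_of_isCoatom hZc hZP (C i) (hCmax i) _
    rw [hCint, Subgroup.mem_bot] at h1
    have h2 := congrArg Subtype.val h1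
    simpa [sq] using h2
  have hmem : ∀ i, ∀ z (hz : z ∈ Subgroup.center S),
      z ∈ (C i).map (Subgroup.center S).subtype ↔ (⟨z, hz⟩ : Subgroup.center S) ∈ C i := by
    intro i z hz
    constructor
    · rintro ⟨y, hy, hyz⟩
      have h1 : y = ⟨z, hz⟩ := Subtype.ext hyz
      rw [← h1]; exact hy
    · intro h; exact ⟨⟨z, hz⟩, h, rfl⟩
  have hCZ : ∀ i, (C i).map (Subgroup.center S).subtype ≤ Subgroup.center S := by
    rintro i _ ⟨y, -, rfl⟩
    exact y.2
  have hbot : ∀ d ∈ Subgroup.center S,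
      (∀ i, d ∈ (C i).map (Subgroup.center S).subtype) → d = 1 := by
    intro d hd h
    have h1 : (⟨d, hd⟩ : Subgroup.center S) ∈ ⨅ i, C i := by
      rw [Subgroup.mem_iInf]
      intro i
      exact (hmem i d hd).mp (h i)
    rw [hCint, Subgroup.mem_bot] at h1
    exact congrArg Subtype.val h1
  have hAB : ∀ i, (∀ g : S, g * g ∈ (C i).map (Subgroup.center S).subtype → g ∈ Subgroup.center S) ∧
      (∀ z ∈ Subgroup.center S, ∀ w ∈ Subgroup.center S,
        z ∉ (C i).map (Subgroup.center S).subtype → w ∉ (C i).map (Subgroup.center S).subtype →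
        z * w ∈ (C i).map (Subgroup.center S).subtype) := by
    intro i
    obtain ⟨hnorm, -, hu⟩ := hCq i
    obtain ⟨z₀, hz₀⟩ : ∃ z₀ : Subgroup.center S, z₀ ∉ C i := by
      by_contra hcon
      push Not at hcon
      exact (hCmax i).1 (eq_top_iff.mpr (fun z _ => hcon z))
    exact lemAB ((C i).map (Subgroup.center S).subtype) (Subgroup.center S) (hCZ i) hu (z₀ : S)
      z₀.2 (fun h => hz₀ ((hmem i z₀ z₀.2).mp h)) hZ2
  obtain ⟨hn₀, hnc₀, hu₀⟩ := hCq ⟨0, by omega⟩
  have hAB₀ := hAB ⟨0, by omega⟩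
  have hCZ₀ := hCZ ⟨0, by omega⟩
  generalize (C ⟨0, by omega⟩).map (Subgroup.center S).subtype = K at hn₀ hnc₀ hu₀ hAB₀ hCZ₀
  have hQ2 : IsPGroup 2 (S ⧸ K) := hS.to_quotient K
  obtain ⟨N, x, y, hNpos, hcl, hrel, hxo, hyy⟩ := exists_quaternion_generators hQ2 hnc₀ hu₀
  obtain ⟨a, rfl⟩ := QuotientGroup.mk_surjective x
  obtain ⟨b, rfl⟩ := QuotientGroup.mk_surjective y
  have hCab : a * b ≠ b * a := by
    intro h
    apply hnc₀
    constructor; constructor
    intro u v
    refine mul_comm_of_closure_eq_top _ hcl ?_ u v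
    have h' : (a : S ⧸ K) * b = b * a := by
      rw [← QuotientGroup.mk_mul, h, QuotientGroup.mk_mul]
    rintro _ (rfl | rfl) _ (rfl | rfl)
    · rfl
    · exact h'
    · exact h'.symm
    · rfl
  have haZ : a ∉ Subgroup.center S := fun h => hCab (Subgroup.mem_center_iff.mp h b).symm
  have hbZ : b ∉ Subgroup.center S := fun h => hCab (Subgroup.mem_center_iff.mp h a)
  have habZ : a * b ∉ Subgroup.center S := by
    intro h
    have h1 := Subgroup.mem_center_iff.mp h a
    apply hCab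
    have h2 : a * (a * b) = a * (b * a) := by rw [h1, mul_assoc]
    exact mul_left_cancel h2
  obtain ⟨M, rfl⟩ : ∃ M, N = 2 * M := by
    obtain ⟨k, hk⟩ := (IsPGroup.iff_orderOf.mp hQ2) (a : S ⧸ K)
    rw [hxo] at hk
    rcases k with _ | _ | k
    · rw [pow_zero] at hk
      omega
    · exfalso
      have hN1 : N = 1 := by rw [zero_add, pow_one] at hk; omega
      have h1 : a * a ∈ K := by
        rw [← QuotientGroup.eq_one_iff, QuotientGroup.mk_mul, ← sq]
        have h0 := pow_orderOf_eq_one (a : S ⧸ K)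
        rw [hxo, hN1] at h0
        simpa using h0
      exact haZ (hAB₀.1 a h1)
    · refine ⟨2 ^ k, ?_⟩
      rw [pow_succ, pow_succ] at hk
      linarith
  have hx2N : (a : S ⧸ K) ^ (2 * (2 * M)) = 1 := by rw [← hxo]; exact pow_orderOf_eq_one _
  have hMpos : 0 < M := by omega
  have huZ : a ^ M ∉ Subgroup.center S := by
    intro h
    have h1 := hZ2 _ h
    have h2 : (a : S ⧸ K) ^ (2 * M) = 1 := by
      rw [← QuotientGroup.mk_pow, two_mul, pow_add, h1]; rfl
    have h3 := orderOf_dvd_of_pow_eq_one h2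
    rw [hxo] at h3
    have h4 := Nat.le_of_dvd (by omega) h3
    omega
  have haN : ∀ j, a ^ (2 * M) ∉ (C j).map (Subgroup.center S).subtype := by
    intro j h
    apply huZ
    apply (hAB j).1
    rw [← pow_add, ← two_mul]; exact h
  have haNZ : a ^ (2 * M) ∈ Subgroup.center S := by
    apply hAB₀.1
    rw [← pow_add, ← two_mul, ← QuotientGroup.eq_one_iff, QuotientGroup.mk_pow]
    exact hx2N
  have hd₂K : b * b * (a ^ (2 * M))⁻¹ ∈ K := by
    rw [← QuotientGroup.eq_one_iff]
    simp only [QuotientGroup.mk_mul, QuotientGroup.mk_inv, QuotientGroup.mk_pow]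
    rw [hyy, mul_inv_cancel]
  have hd₂ : b * b * (a ^ (2 * M))⁻¹ = 1 := by
    apply hbot _ (hCZ₀ hd₂K)
    intro j
    by_contra hj
    have h1 := (hAB j).2 _ (hCZ₀ hd₂K) _ haNZ hj (haN j)
    rw [inv_mul_cancel_right] at h1
    exact hbZ ((hAB j).1 b h1)
  have hbb : b * b = a ^ (2 * M) := by
    rw [mul_inv_eq_one] at hd₂; exact hd₂
  have hd₁K : a * b * a * b⁻¹ ∈ K := by
    rw [← QuotientGroup.eq_one_iff]
    simp only [QuotientGroup.mk_mul, QuotientGroup.mk_inv]
    rw [hrel, mul_inv_cancel]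
  have hd₁ : a * b * a * b⁻¹ = 1 := by
    apply hbot _ (hCZ₀ hd₁K)
    intro j
    by_contra hj
    have h1 := (hAB j).2 _ (hCZ₀ hd₁K) _ haNZ hj (haN j)
    rw [← hbb] at h1
    have h2 : a * b * a * b⁻¹ * (b * b) = (a * b) * (a * b) := by simp only [mul_assoc, mul_inv_rev, inv_inv, inv_mul_cancel_left, mul_inv_cancel_left, inv_mul_cancel, mul_inv_cancel, mul_one, one_mul, inv_one]
    rw [h2] at h1
    exact habZ ((hAB j).1 (a * b) h1)
  have hba : b * a * b⁻¹ = a⁻¹ := by
    calc b * a * b⁻¹ = a⁻¹ * (a * b * a * b⁻¹) := by simp only [mul_assoc, mul_inv_rev, inv_inv, inv_mul_cancel_left, mul_inv_cancel_left, inv_mul_cancel, mul_inv_cancel, mul_one, one_mul, inv_one]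
      _ = a⁻¹ := by rw [hd₁, mul_one]
  have hao : orderOf a = 2 * (2 * M) := by
    apply Nat.dvd_antisymm
    · apply orderOf_dvd_of_pow_eq_one
      rw [two_mul, pow_add]; exact hZ2 _ haNZ
    · rw [← hxo]; exact orderOf_map_dvd (QuotientGroup.mk' K) a
  have hM0 : NeZero (2 * M) := ⟨by omega⟩
  obtain ⟨f, hf⟩ := exists_quaternion_hom (2 * M) a b hao hbb hba
  have h1lt : Fact (1 < 2 * (2 * M)) := ⟨by omega⟩
  have haQ : a ∈ f.range := ⟨QuaternionGroup.a 1, by rw [(hf 1).1, ZMod.val_one, pow_one]⟩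
  have hbQ : b ∈ f.range :=
    ⟨QuaternionGroup.xa 0, by rw [(hf 0).2, ZMod.val_zero, pow_zero, mul_one]⟩
  have hgen : ∀ s : S, ∃ t ∈ f.range, ∃ d ∈ K, s = t * d := by
    intro s
    have h1 : (s : S ⧸ K) ∈ Subgroup.closure ({(a : S ⧸ K), (b : S ⧸ K)} : Set _) := by
      rw [hcl]; trivial
    have h2 : Subgroup.closure ({(a : S ⧸ K), (b : S ⧸ K)} : Set _)
        = (Subgroup.closure ({a, b} : Set S)).map (QuotientGroup.mk' K) := by
      rw [MonoidHom.map_closure]
      congr 1
      ext z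
      simp [eq_comm]
    rw [h2] at h1
    obtain ⟨t, ht, hts⟩ := h1
    have hcl' : Subgroup.closure ({a, b} : Set S) ≤ f.range := by
      rw [Subgroup.closure_le]
      rintro z (rfl | rfl)
      · exact haQ
      · exact hbQ
    refine ⟨t, hcl' ht, t⁻¹ * s, ?_, by simp only [mul_assoc, mul_inv_rev, inv_inv, inv_mul_cancel_left, mul_inv_cancel_left, inv_mul_cancel, mul_inv_cancel, mul_one, one_mul, inv_one]⟩
    exact QuotientGroup.eq.mp hts
  have hQK : ∀ q ∈ f.range, q ∈ K → q = 1 := by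
    rintro _ ⟨(i | i), rfl⟩ hq
    · rw [(hf i).1] at hq ⊢
      have h1 : (a : S ⧸ K) ^ i.val = 1 := by
        rw [← QuotientGroup.mk_pow]; exact (QuotientGroup.eq_one_iff _).mpr hq
      have h2 := orderOf_dvd_of_pow_eq_one h1
      rw [hxo] at h2
      have h3 : i.val < 2 * (2 * M) := ZMod.val_lt i
      have h4 : i.val = 0 := Nat.eq_zero_of_dvd_of_lt h2 h3
      rw [h4, pow_zero]
    · exfalso
      rw [(hf i).2] at hq
      have h1 := Subgroup.mem_center_iff.mp (hCZ₀ hq) a
      apply hCab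
      have h2 : (a * b) * a ^ i.val = (b * a) * a ^ i.val := by
        rw [mul_assoc, h1, mul_assoc, mul_assoc, ← pow_succ, ← pow_succ']
      exact mul_right_cancel h2
  refine ⟨K, f.range, ⟨le_top, le_top, ?_, ?_, ?_⟩, ⟨?_, ?_⟩, ?_, ?_⟩
  · intro d hd q _
    exact (Subgroup.mem_center_iff.mp (hCZ₀ hd) q).symm
  · rw [eq_bot_iff]
    rintro q ⟨hqK, hqQ⟩
    exact Subgroup.mem_bot.mpr (hQK q hqQ hqK)
  · rw [eq_top_iff]
    intro s _
    obtain ⟨t, ht, d, hd, rfl⟩ := hgen s
    exact mul_mem (Subgroup.mem_sup_right ht) (Subgroup.mem_sup_left hd)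
  · constructor; constructor
    intro u v
    apply Subtype.ext
    exact Subgroup.mem_center_iff.mp (hCZ₀ v.2) u
  · intro d hd
    rw [sq]; exact hZ2 d (hCZ₀ hd)
  · intro hc
    have h1 := hc.is_comm.comm (⟨a, haQ⟩ : f.range) ⟨b, hbQ⟩
    exact hCab (congrArg Subtype.val h1)
  · obtain ⟨t, ht, htu⟩ := hu₀
    have hinj : ∀ q ∈ f.range, ∀ q' ∈ f.range, (q : S ⧸ K) = q' → q = q' := by
      intro q hq q' hq' h
      have h1 : q⁻¹ * q' ∈ K := QuotientGroup.eq.mp h
      have h2 := hQK _ (mul_mem (inv_mem hq) hq') h1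
      exact inv_mul_eq_one.mp h2
    have hord : ∀ q ∈ f.range, orderOf (q : S ⧸ K) = orderOf q := by
      intro q hq
      rw [orderOf_eq_orderOf_iff]
      intro m
      rw [← QuotientGroup.mk_pow]
      constructor
      · intro h; exact hQK _ (pow_mem hq m) ((QuotientGroup.eq_one_iff _).mp h)
      · intro h; rw [h]; rfl
    obtain ⟨s, rfl⟩ := QuotientGroup.mk_surjective t
    obtain ⟨q, hq, d, hd, rfl⟩ := hgen s
    have hqt : ((q * d : S) : S ⧸ K) = (q : S ⧸ K) := by
      rw [QuotientGroup.mk_mul, (QuotientGroup.eq_one_iff d).mpr hd, mul_one]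
    rw [hqt] at ht htu
    refine ⟨⟨q, hq⟩, ?_, ?_⟩
    · show orderOf (⟨q, hq⟩ : f.range) = 2
      rw [Subgroup.orderOf_mk, ← hord q hq]; exact ht
    · rintro ⟨q', hq'⟩ ho
      apply Subtype.ext
      apply hinj q' hq' q hq
      apply htu
      rw [hord q' hq', ← Subgroup.orderOf_mk q' hq']; exact ho

end Cfsg.Agent.S3201
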