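import Mathlib
import Cfsg.Statements.S3202
import Cfsg.Agent.Lib.Helper53.Quaternion

set_option autoImplicit false
open Cfsg

namespace Cfsg.Agent.S3202

open Cfsg.Agent.Lib.Helper53
open scoped commutatorElement

theorem mem_normalizer_zpowers {S : Type*} [Group S] {g c : S}
    (h : g * c * g⁻¹ = c ∨ g * c * g⁻¹ = c⁻¹) :
    g ∈ Subgroup.normalizer ((Subgroup.zpowers c : Subgroup S) : Set S) := by
  have hfwd : ∀ g : S, (g * c * g⁻¹ = c ∨ g * c * g⁻¹ = c⁻¹) →
      ∀ x ∈ Subgroup.zpowers c, g * x * g⁻¹ ∈ Subgroup.zpowers c := by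
    intro g hg x hx
    obtain ⟨k, rfl⟩ := Subgroup.mem_zpowers_iff.mp hx
    rw [← conj_zpow]
    rcases hg with h | h <;> rw [h]
    · exact Subgroup.zpow_mem_zpowers c k
    · exact Subgroup.zpow_mem _ (Subgroup.inv_mem _ (Subgroup.mem_zpowers c)) k
  rw [Subgroup.mem_normalizer_iff]
  intro x
  refine ⟨hfwd g h x, fun hx => ?_⟩
  have hg' : g⁻¹ * c * g⁻¹⁻¹ = c ∨ g⁻¹ * c * g⁻¹⁻¹ = c⁻¹ := by
    rcases h with h | h
    · left
      calc g⁻¹ * c * g⁻¹⁻¹ = g⁻¹ * (g * c * g⁻¹) * g := by rw [h, inv_inv]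
        _ = c := by simp only [mul_assoc, mul_inv_rev, inv_inv, inv_mul_cancel_left, mul_inv_cancel_left, inv_mul_cancel, mul_inv_cancel, mul_one, one_mul, inv_one]
    · right
      calc g⁻¹ * c * g⁻¹⁻¹ = g⁻¹ * (c⁻¹)⁻¹ * g := by rw [inv_inv, inv_inv]
        _ = g⁻¹ * (g * c * g⁻¹)⁻¹ * g := by rw [h]
        _ = c⁻¹ := by simp only [mul_assoc, mul_inv_rev, inv_inv, inv_mul_cancel_left, mul_inv_cancel_left, inv_mul_cancel, mul_inv_cancel, mul_one, one_mul, inv_one]
  have h1 := hfwd g⁻¹ hg' _ hx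
  have e : g⁻¹ * (g * x * g⁻¹) * g⁻¹⁻¹ = x := by simp only [mul_assoc, mul_inv_rev, inv_inv, inv_mul_cancel_left, mul_inv_cancel_left, inv_mul_cancel, mul_inv_cancel, mul_one, one_mul, inv_one]
  rwa [e] at h1

/-- If `S` is generated by `a`, `b` and a central subgroup `D`, and `b` inverts `a` modulo `D`,
then the commutator subgroup of `S` is contained in the cyclic group generated by `[b, a]`. -/
theorem commutator_le_zpowers {S : Type*} [Group S] (D : Subgroup S)
    (hD : ∀ d ∈ D, ∀ s : S, d * s = s * d) (a b c : S)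
    (hgen : ∀ s : S, ∃ t ∈ Subgroup.closure ({a, b} : Set S), ∃ d ∈ D, s = t * d)
    (hinv : b * a * b⁻¹ * a ∈ D) (hc : c = b * a * b⁻¹ * a⁻¹) :
    commutator S ≤ Subgroup.zpowers c := by
  have hd₁c : ∀ s : S, (b * a * b⁻¹ * a) * s = s * (b * a * b⁻¹ * a) := hD _ hinv
  generalize hd₁ : b * a * b⁻¹ * a = d₁ at hd₁c
  have hc' : c = d₁ * a⁻¹ * a⁻¹ := by rw [hc, ← hd₁]; simp only [mul_assoc, mul_inv_rev, inv_inv, inv_mul_cancel_left, mul_inv_cancel_left, inv_mul_cancel, mul_inv_cancel, mul_one, one_mul, inv_one]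
  have hd₁i : ∀ s : S, d₁⁻¹ * s = s * d₁⁻¹ := by
    intro s
    calc d₁⁻¹ * s = d₁⁻¹ * (s * d₁) * d₁⁻¹ := by simp only [mul_assoc, mul_inv_rev, inv_inv, inv_mul_cancel_left, mul_inv_cancel_left, inv_mul_cancel, mul_inv_cancel, mul_one, one_mul, inv_one]
      _ = d₁⁻¹ * (d₁ * s) * d₁⁻¹ := by rw [hd₁c s]
      _ = s * d₁⁻¹ := by simp only [mul_assoc, mul_inv_rev, inv_inv, inv_mul_cancel_left, mul_inv_cancel_left, inv_mul_cancel, mul_inv_cancel, mul_one, one_mul, inv_one]
  have hac : a * c * a⁻¹ = c := by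
    rw [hc']
    calc a * (d₁ * a⁻¹ * a⁻¹) * a⁻¹ = (a * d₁) * a⁻¹ * a⁻¹ * a⁻¹ := by simp only [mul_assoc, mul_inv_rev, inv_inv, inv_mul_cancel_left, mul_inv_cancel_left, inv_mul_cancel, mul_inv_cancel, mul_one, one_mul, inv_one]
      _ = (d₁ * a) * a⁻¹ * a⁻¹ * a⁻¹ := by rw [hd₁c a]
      _ = d₁ * a⁻¹ * a⁻¹ := by simp only [mul_assoc, mul_inv_rev, inv_inv, inv_mul_cancel_left, mul_inv_cancel_left, inv_mul_cancel, mul_inv_cancel, mul_one, one_mul, inv_one]
  have hbc : b * c * b⁻¹ = c⁻¹ := by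
    have h1 : b * a * b⁻¹ = d₁ * a⁻¹ := by rw [← hd₁]; simp only [mul_assoc, mul_inv_rev, inv_inv, inv_mul_cancel_left, mul_inv_cancel_left, inv_mul_cancel, mul_inv_cancel, mul_one, one_mul, inv_one]
    have h2 : b * a⁻¹ * b⁻¹ = a * d₁⁻¹ := by
      calc b * a⁻¹ * b⁻¹ = (b * a * b⁻¹)⁻¹ := by simp only [mul_assoc, mul_inv_rev, inv_inv, inv_mul_cancel_left, mul_inv_cancel_left, inv_mul_cancel, mul_inv_cancel, mul_one, one_mul, inv_one]
        _ = a * d₁⁻¹ := by rw [h1]; simp only [mul_assoc, mul_inv_rev, inv_inv, inv_mul_cancel_left, mul_inv_cancel_left, inv_mul_cancel, mul_inv_cancel, mul_one, one_mul, inv_one]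
    have hd₁b : b * d₁ * b⁻¹ = d₁ := by rw [← hd₁c b, mul_inv_cancel_right]
    rw [hc']
    calc b * (d₁ * a⁻¹ * a⁻¹) * b⁻¹ = (b * d₁ * b⁻¹) * (b * a⁻¹ * b⁻¹) * (b * a⁻¹ * b⁻¹) := by simp only [mul_assoc, mul_inv_rev, inv_inv, inv_mul_cancel_left, mul_inv_cancel_left, inv_mul_cancel, mul_inv_cancel, mul_one, one_mul, inv_one]
      _ = d₁ * (a * d₁⁻¹) * (a * d₁⁻¹) := by rw [hd₁b, h2]
      _ = d₁ * a * (d₁⁻¹ * a) * d₁⁻¹ := by simp only [mul_assoc, mul_inv_rev, inv_inv, inv_mul_cancel_left, mul_inv_cancel_left, inv_mul_cancel, mul_inv_cancel, mul_one, one_mul, inv_one]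
      _ = d₁ * a * (a * d₁⁻¹) * d₁⁻¹ := by rw [hd₁i a]
      _ = (d₁ * (a * a)) * d₁⁻¹ * d₁⁻¹ := by simp only [mul_assoc, mul_inv_rev, inv_inv, inv_mul_cancel_left, mul_inv_cancel_left, inv_mul_cancel, mul_inv_cancel, mul_one, one_mul, inv_one]
      _ = ((a * a) * d₁) * d₁⁻¹ * d₁⁻¹ := by rw [hd₁c (a * a)]
      _ = (d₁ * a⁻¹ * a⁻¹)⁻¹ := by simp only [mul_assoc, mul_inv_rev, inv_inv, inv_mul_cancel_left, mul_inv_cancel_left, inv_mul_cancel, mul_inv_cancel, mul_one, one_mul, inv_one]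
  have hcl : Subgroup.closure ({a, b} : Set S) ≤
      Subgroup.normalizer ((Subgroup.zpowers c : Subgroup S) : Set S) := by
    rw [Subgroup.closure_le]
    rintro z (rfl | rfl)
    · exact mem_normalizer_zpowers (Or.inl hac)
    · exact mem_normalizer_zpowers (Or.inr hbc)
  have hN : (Subgroup.zpowers c).Normal := by
    rw [← Subgroup.normalizer_eq_top_iff, eq_top_iff]
    intro s _
    obtain ⟨t, ht, d, hd, rfl⟩ := hgen s
    apply Subgroup.mul_mem
    · exact hcl ht
    · apply mem_normalizer_zpowers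
      left
      rw [hD d hd c, mul_inv_cancel_right]
  have hab : (QuotientGroup.mk' (Subgroup.zpowers c)) b * (QuotientGroup.mk' (Subgroup.zpowers c)) a
      = (QuotientGroup.mk' (Subgroup.zpowers c)) a * (QuotientGroup.mk' (Subgroup.zpowers c)) b := by
    have h1 : (QuotientGroup.mk' (Subgroup.zpowers c)) ⁅b, a⁆ = 1 := by
      rw [commutatorElement_def, ← hc]
      exact (QuotientGroup.eq_one_iff _).mpr (Subgroup.mem_zpowers c)
    rw [map_commutatorElement, commutatorElement_eq_one_iff_mul_comm] at h1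
    exact h1
  have hDc : ∀ d ∈ D, ∀ s : S, (QuotientGroup.mk' (Subgroup.zpowers c)) d *
      (QuotientGroup.mk' (Subgroup.zpowers c)) s = (QuotientGroup.mk' (Subgroup.zpowers c)) s *
      (QuotientGroup.mk' (Subgroup.zpowers c)) d := by
    intro d hd s
    rw [← map_mul, ← map_mul, hD d hd s]
  have hcomm : ∀ x y : S ⧸ Subgroup.zpowers c, x * y = y * x := by
    apply mul_comm_of_closure_eq_top
      (k := (QuotientGroup.mk' (Subgroup.zpowers c)) '' (({a, b} : Set S) ∪ (D : Set S)))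
    · rw [← MonoidHom.map_closure]
      have h1 : Subgroup.closure (({a, b} : Set S) ∪ (D : Set S)) = ⊤ := by
        rw [eq_top_iff]
        intro s _
        obtain ⟨t, ht, d, hd, rfl⟩ := hgen s
        exact mul_mem (Subgroup.closure_mono Set.subset_union_left ht)
          (Subgroup.subset_closure (Or.inr hd))
      rw [h1, ← MonoidHom.range_eq_map, MonoidHom.range_eq_top]
      exact QuotientGroup.mk'_surjective _
    · rintro _ ⟨g, hg, rfl⟩ _ ⟨h, hh, rfl⟩
      rcases hg with (rfl | rfl) | hg <;> rcases hh with (rfl | rfl) | hh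
      · rfl
      · exact hab.symm
      · exact (hDc h hh _).symm
      · exact hab
      · rfl
      · exact (hDc h hh _).symm
      · exact hDc g hg _
      · exact hDc g hg _
      · exact hDc g hg _
  rw [commutator_def, Subgroup.commutator_le]
  intro g _ h _
  have h1 := hcomm ((QuotientGroup.mk' (Subgroup.zpowers c)) g) ((QuotientGroup.mk' (Subgroup.zpowers c)) h)
  rw [← commutatorElement_eq_one_iff_mul_comm, ← map_commutatorElement] at h1
  exact (QuotientGroup.eq_one_iff _).mp h1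

/-- Let S be a finite 2-group of 2-rank exactly 2 and D a maximal subgroup of the centre of S such that S/D is a non-abelian group with exactly one involution (a generalized quaternion group). Then S has a nontrivial cyclic characteristic subgroup. -/
theorem result {S : Type*} [Group S]
    [Finite S] (hS : IsPGroup 2 S) (hr2 : Cfsg.PRankLE 2 2 S) (hr1 : ¬ Cfsg.PRankLE 2 1 S)
    (D : Subgroup ↥(Subgroup.center S)) (hD : IsCoatom D)
    (hq : ∃ (_ : (D.map (Subgroup.center S).subtype).Normal),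
      ¬ IsMulCommutative (S ⧸ D.map (Subgroup.center S).subtype) ∧
      ∃! x : S ⧸ D.map (Subgroup.center S).subtype, orderOf x = 2) :
    ∃ C : Subgroup S, C ≠ ⊥ ∧ IsCyclic ↥C ∧ C.Characteristic := by
  obtain ⟨hDn, hnc, huniq⟩ := hq
  have hD'c : ∀ d ∈ D.map (Subgroup.center S).subtype, ∀ s : S, d * s = s * d := by
    rintro _ ⟨z, -, rfl⟩ s
    exact (Subgroup.mem_center_iff.mp z.2 s).symm
  have hQ2 : IsPGroup 2 (S ⧸ D.map (Subgroup.center S).subtype) := hS.to_quotient _
  obtain ⟨N, x, y, hN, hcl, hrel, -, -⟩ := exists_quaternion_generators hQ2 hnc huniq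
  obtain ⟨a, rfl⟩ := QuotientGroup.mk_surjective x
  obtain ⟨b, rfl⟩ := QuotientGroup.mk_surjective y
  have hinv : b * a * b⁻¹ * a ∈ D.map (Subgroup.center S).subtype := by
    rw [← QuotientGroup.eq_one_iff]
    simp only [QuotientGroup.mk_mul, QuotientGroup.mk_inv]
    calc (b : S ⧸ D.map (Subgroup.center S).subtype) * a * (b : S ⧸ D.map (Subgroup.center S).subtype)⁻¹ * a
        = b * a * ((a : S ⧸ D.map (Subgroup.center S).subtype) * b * a)⁻¹ * a := by rw [hrel]
      _ = 1 := by simp only [mul_assoc, mul_inv_rev, inv_inv, inv_mul_cancel_left, mul_inv_cancel_left, inv_mul_cancel, mul_inv_cancel, mul_one, one_mul, inv_one]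
  have hgen : ∀ s : S, ∃ t ∈ Subgroup.closure ({a, b} : Set S),
      ∃ d ∈ D.map (Subgroup.center S).subtype, s = t * d := by
    intro s
    have h1 : (s : S ⧸ D.map (Subgroup.center S).subtype) ∈
        Subgroup.closure ({(a : S ⧸ D.map (Subgroup.center S).subtype), (b : S ⧸ D.map (Subgroup.center S).subtype)} : Set _) := by
      rw [hcl]; trivial
    have h2 : Subgroup.closure ({(a : S ⧸ D.map (Subgroup.center S).subtype), (b : S ⧸ D.map (Subgroup.center S).subtype)} : Set _)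
        = (Subgroup.closure ({a, b} : Set S)).map (QuotientGroup.mk' (D.map (Subgroup.center S).subtype)) := by
      rw [MonoidHom.map_closure]
      congr 1
      ext z
      simp [eq_comm]
    rw [h2] at h1
    obtain ⟨t, ht, hts⟩ := h1
    refine ⟨t, ht, t⁻¹ * s, ?_, by simp only [mul_assoc, mul_inv_rev, inv_inv, inv_mul_cancel_left, mul_inv_cancel_left, inv_mul_cancel, mul_inv_cancel, mul_one, one_mul, inv_one]⟩
    exact QuotientGroup.eq.mp hts
  have hle := commutator_le_zpowers _ hD'c a b (b * a * b⁻¹ * a⁻¹) hgen hinv rfl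
  refine ⟨commutator S, ?_, ?_, inferInstance⟩
  · intro hbot
    apply hnc
    constructor; constructor
    intro u v
    obtain ⟨g, rfl⟩ := QuotientGroup.mk_surjective u
    obtain ⟨h, rfl⟩ := QuotientGroup.mk_surjective v
    have h1 : ⁅g, h⁆ ∈ commutator S := by
      rw [commutator_def]
      exact Subgroup.commutator_mem_commutator (Subgroup.mem_top g) (Subgroup.mem_top h)
    rw [hbot, Subgroup.mem_bot, commutatorElement_eq_one_iff_mul_comm] at h1
    rw [← QuotientGroup.mk_mul, ← QuotientGroup.mk_mul, h1]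
  · have h2 : IsCyclic ((commutator S).subgroupOf (Subgroup.zpowers (b * a * b⁻¹ * a⁻¹))) :=
      inferInstance
    exact (Subgroup.subgroupOfEquivOfLe hle).isCyclic.mp h2

end Cfsg.Agent.S3202
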