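import Mathlib
import Cfsg.Statements.S3208
import Cfsg.Agent.Lib.Helper53.Basic

set_option autoImplicit false
open Cfsg

namespace Cfsg.Agent.S3208

open Cfsg.Agent.Lib.Helper53

/-- Let j be an involution of a finite group G, H a subgroup of G, and T a Sylow 2-subgroup of H ∩ C_G(j) containing j such that ⟨j⟩ is a characteristic subgroup of T. Then T is a Sylow 2-subgroup of H. -/
theorem result {G : Type*} [Group G] [Finite G]
    (j : G) (hj : orderOf j = 2) (H T : Subgroup G) (hT : T ≤ H ⊓ Subgroup.centralizer ({j} : Set G)) (h2 : IsPGroup 2 ↥T)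
    (hSyl : ¬ 2 ∣ T.relIndex (H ⊓ Subgroup.centralizer ({j} : Set G))) (hjT : j ∈ T)
    (hchar : ((Subgroup.zpowers j).subgroupOf T).Characteristic) :
    ¬ 2 ∣ T.relIndex H := by
  haveI : Fact (Nat.Prime 2) := ⟨Nat.prime_two⟩
  intro hdvd
  have hTH : T ≤ H := hT.trans inf_le_left
  -- a Sylow 2-subgroup of H containing T
  obtain ⟨R, hR⟩ := (h2.comap_subtype (K := H)).exists_le_sylow
  set R' : Subgroup G := (R : Subgroup H).map H.subtype with hR'
  have hR'p : IsPGroup 2 R' := R.isPGroup'.map _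
  have hR'H : R' ≤ H := by
    rintro _ ⟨q, -, rfl⟩
    exact q.2
  have hTR' : T ≤ R' := fun t ht =>
    ⟨⟨t, hTH ht⟩, hR (by simpa [Subgroup.mem_subgroupOf] using ht), rfl⟩
  have hne : T ≠ R' := by
    intro h
    have h3 : T.subgroupOf H = (R : Subgroup H) := by
      rw [h, hR']
      ext x
      simp [Subgroup.mem_subgroupOf]
    have h4 : ¬ 2 ∣ (R : Subgroup H).index := R.not_dvd_index
    rw [← h3] at h4
    exact h4 hdvd
  have hlt : T < R' := lt_of_le_of_ne hTR' hne
  obtain ⟨x, hxR', hxT, hxN⟩ := exists_mem_normalizer_not_mem hR'p hlt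
  -- x centralizes j
  have hjmem : (⟨j, hjT⟩ : T) ∈ (Subgroup.zpowers j).subgroupOf T := by
    simp [Subgroup.mem_subgroupOf]
  obtain ⟨hxj, hxj'⟩ := conj_mem_of_characteristic hchar hxN hjT hjmem
  have hxj2 : x * j * x⁻¹ ∈ Subgroup.zpowers j := by
    simpa [Subgroup.mem_subgroupOf] using hxj'
  have hxc : x * j * x⁻¹ = j := by
    obtain ⟨k, hk⟩ := hxj2
    have hk' : j ^ k = x * j * x⁻¹ := hk
    have hj2' : j ^ 2 = 1 := by
      rw [← hj]
      exact pow_orderOf_eq_one j
    have hj2 : j ^ (2 : ℤ) = 1 := by exact_mod_cast hj2' 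
    have hj1 : j ≠ 1 := by
      intro h
      rw [h, orderOf_one] at hj
      norm_num at hj
    rcases Int.emod_two_eq_zero_or_one k with h0 | h1
    · exfalso
      have : j ^ k = 1 := by
        rw [← Int.mul_ediv_add_emod k 2, h0, add_zero, zpow_mul, hj2, one_zpow]
      rw [this] at hk'
      apply hj1
      have : x⁻¹ * (x * j * x⁻¹) * x = j := by group
      rw [← this, ← hk']
      group
    · have : j ^ k = j := by
        rw [← Int.mul_ediv_add_emod k 2, h1, zpow_add, zpow_mul, hj2, one_zpow, one_mul, zpow_one]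
      rw [← hk', this]
  have hxC : x ∈ Subgroup.centralizer ({j} : Set G) := by
    rw [Subgroup.mem_centralizer_iff]
    intro y hy
    rw [Set.mem_singleton_iff] at hy
    subst hy
    calc y * x = (x * y * x⁻¹) * x := by rw [hxc]
      _ = x * y := by group
  -- the bigger 2-subgroup
  set T₂ : Subgroup G := T ⊔ Subgroup.zpowers x with hT₂
  have hT₂R' : T₂ ≤ R' := sup_le hTR' (by simpa using hxR')
  have hT₂p : IsPGroup 2 T₂ := hR'p.to_le hT₂R'
  have hT₂le : T₂ ≤ H ⊓ Subgroup.centralizer ({j} : Set G) :=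
    sup_le hT (by simpa using ⟨hR'H hxR', hxC⟩)
  have hTT₂ : T < T₂ := by
    refine lt_of_le_of_ne le_sup_left ?_
    intro h
    apply hxT
    rw [h]
    exact (le_sup_right : Subgroup.zpowers x ≤ T₂) (Subgroup.mem_zpowers x)
  have h5 : 2 ∣ T.relIndex T₂ := dvd_relIndex_of_lt hT₂p hTT₂
  apply hSyl
  rw [← Subgroup.relIndex_mul_relIndex T T₂ _ hTT₂.le hT₂le]
  exact Dvd.dvd.mul_right h5 _

end Cfsg.Agent.S3208
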