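import Cfsg.Statements.S3213
import Mathlib

set_option autoImplicit false
open Cfsg

namespace Cfsg.Agent.S3213


open Matrix

section fieldThree

variable {F : Type*} [Field F] [Fintype F]

theorem three_eq_zero (hF : Fintype.card F = 3) : (3 : F) = 0 := by
  have := FiniteField.cast_card_eq_zero F
  rw [hF] at this
  exact_mod_cast this

theorem two_ne_zero' (hF : Fintype.card F = 3) : (2 : F) ≠ 0 := by
  intro h
  have h3 := three_eq_zero hF
  have : (1 : F) = 0 := by linear_combination h3 - h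
  exact one_ne_zero this

omit [Fintype F] in
theorem finrank_ker_comp_le {V : Type*} [AddCommGroup V] [Module F V] [FiniteDimensional F V]
    (f g : V →ₗ[F] V) :
    Module.finrank F (LinearMap.ker (f ∘ₗ g)) ≤
      Module.finrank F (LinearMap.ker f) + Module.finrank F (LinearMap.ker g) := by
  have hmaps : ∀ x ∈ LinearMap.ker (f ∘ₗ g), g x ∈ LinearMap.ker f := by
    intro x hx
    exact hx
  obtain ⟨φ, hφ⟩ : ∃ φ : ↥(LinearMap.ker (f ∘ₗ g)) →ₗ[F] ↥(LinearMap.ker f),
      ∀ y, ((φ y : ↥(LinearMap.ker f)) : V) = g (y : V) := ⟨g.restrict hmaps, fun y => rfl⟩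
  have h1 := LinearMap.finrank_range_add_finrank_ker φ
  have h2 : Module.finrank F (LinearMap.range φ) ≤ Module.finrank F (LinearMap.ker f) :=
    Submodule.finrank_le _
  have h3 : Module.finrank F (LinearMap.ker φ) ≤ Module.finrank F (LinearMap.ker g) := by
    have hι : ∀ y : ↥(LinearMap.ker φ), ((y : ↥(LinearMap.ker (f ∘ₗ g))) : V) ∈ LinearMap.ker g := by
      intro y
      have hy : φ (y : ↥(LinearMap.ker (f ∘ₗ g))) = 0 := y.2
      have := congrArg (Subtype.val) hy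
      rw [hφ] at this
      exact this
    let ι : ↥(LinearMap.ker φ) →ₗ[F] ↥(LinearMap.ker g) :=
      LinearMap.codRestrict (LinearMap.ker g)
        ((LinearMap.ker (f ∘ₗ g)).subtype ∘ₗ (LinearMap.ker φ).subtype) hι
    apply LinearMap.finrank_le_finrank_of_injective (f := ι)
    intro y₁ y₂ h
    have := congrArg (Subtype.val) h
    exact Subtype.ext (Subtype.ext this)
  omega

abbrev I4 := Fin 2 ⊕ Fin 2

/-- An operator of order dividing 5 fixes every vector of an invariant proper subspace. -/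
theorem fixed_of_pow_five (hF : Fintype.card F = 3) (T : Matrix I4 I4 F) (hT : T ^ 5 = 1)
    (W : Submodule F (I4 → F)) (hW : ∀ w ∈ W, T *ᵥ w ∈ W) (hlt : Module.finrank F W ≤ 3) :
    ∀ w ∈ W, T *ᵥ w = w := by
  classical
  obtain ⟨τ, hτ⟩ : ∃ τ : ↥W →ₗ[F] ↥W, ∀ w : ↥W, ((τ w : ↥W) : I4 → F) = T *ᵥ (w : I4 → F) :=
    ⟨(Matrix.toLin' T).restrict (by intro w hw; rw [Matrix.toLin'_apply]; exact hW w hw),
      fun w => by simp⟩
  have hT5 : T * (T * (T * (T * T))) = 1 := by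
    rw [← hT]; simp [pow_succ, mul_assoc]
  have hτ5 : ∀ w : ↥W, τ (τ (τ (τ (τ w)))) = w := by
    intro w
    apply Subtype.ext
    rw [hτ, hτ, hτ, hτ, hτ]
    simp only [Matrix.mulVec_mulVec]
    rw [hT5, Matrix.one_mulVec]
  obtain ⟨f, hf⟩ : ∃ f : Function.End ↥W, f = (τ : ↥W → ↥W) := ⟨_, rfl⟩
  have hf5 : f ^ 5 ^ 1 = 1 := by
    funext w
    rw [pow_one]
    show f (f (f (f (f w)))) = w
    rw [hf]
    exact hτ5 w
  haveI : Fact (Nat.Prime 5) := ⟨by norm_num⟩
  have hmod := Equiv.Perm.card_fixedPoints_modEq (f := f) (p := 5) (n := 1) hf5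
  obtain ⟨E, hE⟩ : ∃ E : Submodule F ↥W, E = LinearMap.ker (τ - LinearMap.id) := ⟨_, rfl⟩
  have hset : Function.fixedPoints f = (E : Set ↥W) := by
    ext w
    rw [hE, hf]
    simp [Function.IsFixedPt, Function.fixedPoints, sub_eq_zero]
  have hc1 : Nat.card ↥W = 3 ^ Module.finrank F ↥W := by
    rw [Module.natCard_eq_pow_finrank (K := F), Nat.card_eq_fintype_card, hF]
  have hc2 : Nat.card ↥(Function.fixedPoints f) = 3 ^ Module.finrank F ↥E := by
    rw [Nat.card_congr (Equiv.setCongr hset)]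
    show Nat.card ↥E = _
    rw [Module.natCard_eq_pow_finrank (K := F), Nat.card_eq_fintype_card, hF]
  have hmod2 : Nat.card ↥W ≡ Nat.card ↥(Function.fixedPoints f) [MOD 5] := by
    rw [Nat.card_eq_fintype_card, Nat.card_eq_fintype_card]
    convert hmod
  rw [hc1, hc2] at hmod2
  have hle : Module.finrank F ↥E ≤ Module.finrank F ↥W := Submodule.finrank_le E
  have heq : Module.finrank F ↥E = Module.finrank F ↥W := by
    have key : ∀ d j : ℕ, d ≤ 3 → j ≤ d → 3 ^ d ≡ 3 ^ j [MOD 5] → j = d := by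
      intro d j hd hj hm
      unfold Nat.ModEq at hm
      interval_cases d <;> interval_cases j <;> simp_all
    exact key _ _ hlt hle hmod2
  have htop : E = ⊤ := Submodule.eq_top_of_finrank_eq heq
  intro w hw
  have hmem : (⟨w, hw⟩ : ↥W) ∈ E := by rw [htop]; exact Submodule.mem_top
  rw [hE, LinearMap.mem_ker, LinearMap.sub_apply, LinearMap.id_apply, sub_eq_zero] at hmem
  have := congrArg (Subtype.val) hmem
  rw [hτ] at this
  exact this

/-- The alternating form. -/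
def Bf (v w : I4 → F) : F := v ⬝ᵥ (Matrix.J (Fin 2) F *ᵥ w)

omit [Fintype F] in
theorem Bf_inv {A : Matrix I4 I4 F} (hA : A ∈ Matrix.symplecticGroup (Fin 2) F) (v w : I4 → F) :
    Bf (A *ᵥ v) (A *ᵥ w) = Bf v w := by
  have h := SymplecticGroup.mem_iff'.mp hA
  unfold Bf
  rw [Matrix.mulVec_mulVec, ← Matrix.vecMul_transpose, ← Matrix.dotProduct_mulVec,
    Matrix.mulVec_mulVec, ← Matrix.mul_assoc, h]

omit [Fintype F] in
theorem Bf_add_left (v v' w : I4 → F) : Bf (v + v') w = Bf v w + Bf v' w := by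
  unfold Bf; rw [add_dotProduct]

omit [Fintype F] in
theorem Bf_sub_left (v v' w : I4 → F) : Bf (v - v') w = Bf v w - Bf v' w := by
  unfold Bf; rw [sub_dotProduct]

omit [Fintype F] in
theorem Bf_smul_left (c : F) (v w : I4 → F) : Bf (c • v) w = c * Bf v w := by
  unfold Bf; rw [smul_dotProduct, smul_eq_mul]

omit [Fintype F] in
theorem Bf_zero_left (w : I4 → F) : Bf 0 w = 0 := by
  unfold Bf; rw [zero_dotProduct]

omit [Fintype F] in
theorem Bf_skew (v w : I4 → F) : Bf v w = - Bf w v := by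
  unfold Bf
  rw [Matrix.dotProduct_mulVec, ← Matrix.mulVec_transpose, Matrix.J_transpose, Matrix.neg_mulVec,
    neg_dotProduct, dotProduct_comm]

omit [Fintype F] in
theorem mat_ext {A B : Matrix I4 I4 F} (h : ∀ v, A *ᵥ v = B *ᵥ v) : A = B := by
  apply Matrix.toLin'.injective
  apply LinearMap.ext
  intro v
  rw [Matrix.toLin'_apply, Matrix.toLin'_apply, h v]

theorem cube_sub_one (hF : Fintype.card F = 3) (N : Matrix I4 I4 F) (hN : N ^ 3 = 1) :
    (N - 1) * ((N - 1) * (N - 1)) = 0 := by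
  have e : (N - 1) * ((N - 1) * (N - 1)) = N * (N * N) - 1 - 3 • (N * N - N) := by
    simp only [sub_mul, mul_sub, mul_one, one_mul]
    abel
  have e3 : (3 : ℕ) • (N * N - N) = 0 := by
    rw [← Nat.cast_smul_eq_nsmul F]
    simp [three_eq_zero hF]
  have e1 : N * (N * N) = 1 := by
    rw [← hN, pow_succ, pow_two, mul_assoc]
  rw [e, e3, e1]
  simp

theorem two_le_finrank_fixed (hF : Fintype.card F = 3) (N : Matrix I4 I4 F) (hN : N ^ 3 = 1) :
    2 ≤ Module.finrank F (LinearMap.ker (Matrix.toLin' N - LinearMap.id)) := by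
  obtain ⟨n, hn⟩ : ∃ n : (I4 → F) →ₗ[F] (I4 → F), n = Matrix.toLin' N - LinearMap.id := ⟨_, rfl⟩
  rw [← hn]
  have hn' : n = Matrix.toLin' (N - 1) := by
    rw [hn, map_sub, Matrix.toLin'_one]
  have hm := cube_sub_one hF N hN
  have hn3 : n ∘ₗ (n ∘ₗ n) = 0 := by
    rw [hn', ← Matrix.toLin'_mul, ← Matrix.toLin'_mul, hm, map_zero]
  have h1 := finrank_ker_comp_le n (n ∘ₗ n)
  have h2 := finrank_ker_comp_le n n
  rw [hn3] at h1
  have h4 : Module.finrank F (LinearMap.ker (0 : (I4 → F) →ₗ[F] (I4 → F))) = 4 := by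
    rw [LinearMap.ker_zero, finrank_top, Module.finrank_fintype_fun_eq_card]
    rfl
  omega

theorem fixed_inf (hF : Fintype.card F = 3) {N N' : Matrix I4 I4 F} (h : (N * N') ^ 5 = -1)
    (w : I4 → F) (h1 : N *ᵥ w = w) (h2 : N' *ᵥ w = w) : w = 0 := by
  have hNN : (N * N') *ᵥ w = w := by rw [← Matrix.mulVec_mulVec, h2, h1]
  have h5 : ((N * N') ^ 5) *ᵥ w = w := by
    simp only [pow_succ, pow_zero, one_mul, ← Matrix.mulVec_mulVec, hNN]
  rw [h, Matrix.neg_mulVec, Matrix.one_mulVec] at h5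
  have : (2 : F) • w = 0 := by
    rw [two_smul]
    nth_rewrite 1 [← h5]
    simp
  exact (smul_eq_zero.mp this).resolve_left (two_ne_zero' hF)

theorem isotropic (hF : Fintype.card F = 3) {N : Matrix I4 I4 F}
    (hN : N ∈ Matrix.symplecticGroup (Fin 2) F) (hN3 : N ^ 3 = 1) (hN1 : N ≠ 1)
    (hdim : Module.finrank F (LinearMap.ker (Matrix.toLin' N - LinearMap.id)) = 2)
    (u₁ u₂ : I4 → F) (h1 : N *ᵥ u₁ = u₁) (h2 : N *ᵥ u₂ = u₂) : Bf u₁ u₂ = 0 := by
  by_contra hc
  have h2F := two_ne_zero' hF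
  have hself : ∀ v : I4 → F, Bf v v = 0 := by
    intro v
    have := Bf_skew v v
    have h' : (2 : F) * Bf v v = 0 := by linear_combination this
    rcases mul_eq_zero.mp h' with h | h
    · exact absurd h h2F
    · exact h
  obtain ⟨v, hv⟩ : ∃ v : I4 → F, N *ᵥ v ≠ v := by
    by_contra hcon
    apply hN1
    apply mat_ext
    intro v
    rw [Matrix.one_mulVec]
    by_contra hv
    exact hcon ⟨v, hv⟩
  obtain ⟨c, hcdef⟩ : ∃ c, c = Bf u₁ u₂ := ⟨_, rfl⟩
  rw [← hcdef] at hc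
  obtain ⟨w, hwdef⟩ : ∃ w, w = v - (Bf v u₂ / c) • u₁ + (Bf v u₁ / c) • u₂ := ⟨_, rfl⟩
  have hw1 : Bf w u₁ = 0 := by
    rw [hwdef, Bf_add_left, Bf_sub_left, Bf_smul_left, Bf_smul_left, hself u₁, Bf_skew u₂ u₁,
      ← hcdef]
    field_simp
    ring
  have hw2 : Bf w u₂ = 0 := by
    rw [hwdef, Bf_add_left, Bf_sub_left, Bf_smul_left, Bf_smul_left, hself u₂, ← hcdef]
    field_simp
    ring
  have hNw : N *ᵥ w - w = N *ᵥ v - v := by
    rw [hwdef]
    simp only [Matrix.mulVec_add, Matrix.mulVec_sub, Matrix.mulVec_smul, h1, h2]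
    abel
  have hP : ∀ y : I4 → F, Bf y u₁ = 0 → Bf y u₂ = 0 →
      Bf (N *ᵥ y - y) u₁ = 0 ∧ Bf (N *ᵥ y - y) u₂ = 0 := by
    intro y hy1 hy2
    constructor
    · rw [Bf_sub_left, hy1, sub_zero]
      have := Bf_inv hN y u₁
      rw [h1] at this
      rw [this, hy1]
    · rw [Bf_sub_left, hy2, sub_zero]
      have := Bf_inv hN y u₂
      rw [h2] at this
      rw [this, hy2]
  obtain ⟨y₁, hy₁⟩ : ∃ y₁, y₁ = N *ᵥ w - w := ⟨_, rfl⟩
  obtain ⟨y₂, hy₂⟩ : ∃ y₂, y₂ = N *ᵥ y₁ - y₁ := ⟨_, rfl⟩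
  have hy₁0 : y₁ ≠ 0 := by
    rw [hy₁, hNw]; exact sub_ne_zero.mpr hv
  have hy₃ : N *ᵥ y₂ - y₂ = 0 := by
    have hm := cube_sub_one hF N hN3
    have : N *ᵥ y₂ - y₂ = ((N - 1) * ((N - 1) * (N - 1))) *ᵥ w := by
      rw [hy₂, hy₁]
      simp only [← Matrix.mulVec_mulVec, Matrix.sub_mulVec, Matrix.one_mulVec, Matrix.mulVec_sub]
    rw [this, hm, Matrix.zero_mulVec]
  have hPy₁ := hP w hw1 hw2
  rw [← hy₁] at hPy₁
  have hPy₂ := hP y₁ hPy₁.1 hPy₁.2
  rw [← hy₂] at hPy₂
  obtain ⟨u, hu0, hufix, hu1, hu2⟩ :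
      ∃ u : I4 → F, u ≠ 0 ∧ N *ᵥ u = u ∧ Bf u u₁ = 0 ∧ Bf u u₂ = 0 := by
    by_cases hz : y₂ = 0
    · refine ⟨y₁, hy₁0, ?_, hPy₁.1, hPy₁.2⟩
      rw [hz] at hy₂
      exact (sub_eq_zero.mp hy₂.symm)
    · exact ⟨y₂, hz, sub_eq_zero.mp hy₃, hPy₂.1, hPy₂.2⟩
  obtain ⟨U, hU⟩ : ∃ U : Submodule F (I4 → F),
      U = LinearMap.ker (Matrix.toLin' N - LinearMap.id) := ⟨_, rfl⟩
  rw [← hU] at hdim
  have hmemU : ∀ y : I4 → F, N *ᵥ y = y → y ∈ U := by
    intro y hy
    rw [hU, LinearMap.mem_ker, LinearMap.sub_apply, Matrix.toLin'_apply, LinearMap.id_apply, hy,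
      sub_self]
  have hli : LinearIndependent F
      ![(⟨u, hmemU u hufix⟩ : ↥U), ⟨u₁, hmemU u₁ h1⟩, ⟨u₂, hmemU u₂ h2⟩] := by
    rw [Fintype.linearIndependent_iff]
    intro g hg
    rw [Fin.sum_univ_three] at hg
    have hg' : g 0 • u + g 1 • u₁ + g 2 • u₂ = 0 := by
      have := congrArg (Subtype.val) hg
      simpa using this
    have e2 := congrArg (fun y => Bf y u₂) hg'
    simp only [Bf_add_left, Bf_smul_left, hu2, hself u₂, ← hcdef, Bf_zero_left, mul_zero, zero_add,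
      add_zero] at e2
    have hg1 : g 1 = 0 := (mul_eq_zero.mp e2).resolve_right hc
    have e1 := congrArg (fun y => Bf y u₁) hg'
    simp only [Bf_add_left, Bf_smul_left, hu1, hself u₁, Bf_skew u₂ u₁, ← hcdef, Bf_zero_left,
      mul_zero, zero_add, add_zero, mul_neg, neg_eq_zero] at e1
    have hg2 : g 2 = 0 := (mul_eq_zero.mp e1).resolve_right hc
    rw [hg1, hg2, zero_smul, zero_smul, add_zero, add_zero] at hg'
    have hg0 : g 0 = 0 := (smul_eq_zero.mp hg').resolve_right hu0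
    intro i
    fin_cases i
    · exact hg0
    · exact hg1
    · exact hg2
  have := hli.fintype_card_le_finrank
  rw [hdim] at this
  simp at this

end fieldThree

section slTwo

variable {K : Type*} [Field K] [Fintype K]

theorem five_eq_zero (hK : Fintype.card K = 5) : (5 : K) = 0 := by
  have := FiniteField.cast_card_eq_zero K
  rw [hK] at this
  exact_mod_cast this

variable (K) in
/-- The central involution. -/
def negOne : Matrix.SpecialLinearGroup (Fin 2) K :=
  ⟨!![-1, 0; 0, -1], by simp [Matrix.det_fin_two_of]⟩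

variable (K) in
/-- An element of order 5. -/
def upper : Matrix.SpecialLinearGroup (Fin 2) K :=
  ⟨!![1, 1; 0, 1], by simp [Matrix.det_fin_two_of]⟩

omit [Fintype K] in
theorem negOne_mul_self : negOne K * negOne K = 1 := by
  apply Subtype.ext
  rw [Matrix.SpecialLinearGroup.coe_mul, Matrix.SpecialLinearGroup.coe_one]
  ext i j
  fin_cases i <;> fin_cases j <;> simp [negOne, Matrix.mul_fin_two]

omit [Fintype K] in
theorem negOne_comm : upper K * negOne K = negOne K * upper K := by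
  apply Subtype.ext
  rw [Matrix.SpecialLinearGroup.coe_mul, Matrix.SpecialLinearGroup.coe_mul]
  ext i j
  fin_cases i <;> fin_cases j <;> simp [negOne, upper, Matrix.mul_fin_two]

theorem negOne_ne_one (hK : Fintype.card K = 5) : negOne K ≠ 1 := by
  intro h
  have h1 := congrArg (fun m : Matrix.SpecialLinearGroup (Fin 2) K => (m : Matrix (Fin 2) (Fin 2) K) 0 0) h
  simp [negOne] at h1
  have h5 := five_eq_zero hK
  have : (1 : K) = 0 := by linear_combination h5 + 2 * h1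
  exact one_ne_zero this

omit [Fintype K] in
theorem upper_ne_one : upper K ≠ 1 := by
  intro h
  have h1 := congrArg (fun m : Matrix.SpecialLinearGroup (Fin 2) K => (m : Matrix (Fin 2) (Fin 2) K) 0 1) h
  simp [upper] at h1

theorem upper_pow_five (hK : Fintype.card K = 5) : upper K ^ 5 = 1 := by
  have h5 := five_eq_zero hK
  apply Subtype.ext
  rw [Matrix.SpecialLinearGroup.coe_pow, Matrix.SpecialLinearGroup.coe_one]
  ext i j
  fin_cases i <;> fin_cases j <;> simp [upper, pow_succ, Matrix.mul_fin_two] <;>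
    first | exact h5 | ring1 | linear_combination h5

omit [Fintype K] in
/-- A matrix of trace `-1` and determinant `1` has cube `1`. -/
theorem cube_of_trace (a b c : K) (h : a * (-1 - a) - b * c = 1) :
    (!![a, b; c, -1 - a] : Matrix (Fin 2) (Fin 2) K) ^ 3 = 1 := by
  ext i j
  fin_cases i <;> fin_cases j <;> simp [pow_succ, Matrix.mul_fin_two]
  · linear_combination (1 - a) * h
  · linear_combination (-b) * h
  · linear_combination (-c) * h
  · linear_combination (2 + a) * h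

theorem cube_root_one (hK : Fintype.card K = 5) (a : K) (h : a ^ 3 = 1) : a = 1 := by
  have ha : a ≠ 0 := by
    intro h0
    rw [h0] at h
    simp at h
  have h4 := FiniteField.pow_card_sub_one_eq_one a ha
  rw [hK] at h4
  have : a ^ 4 = a ^ 3 * a := by ring
  rw [this, h, one_mul] at h4
  exact h4

/-- Structure of elements of order 3 in `SL₂(5)`. -/
theorem sl2_order3 (hK : Fintype.card K = 5) (x : Matrix.SpecialLinearGroup (Fin 2) K)
    (hx3 : x ^ 3 = 1) (hx1 : x ≠ 1) :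
    ∃ p r : K, r ≠ 0 ∧
      (x : Matrix (Fin 2) (Fin 2) K) = !![p, -(p ^ 2 + p + 1) / r; r, -1 - p] := by
  have h5 := five_eq_zero hK
  obtain ⟨a, ha⟩ : ∃ a, a = (x : Matrix (Fin 2) (Fin 2) K) 0 0 := ⟨_, rfl⟩
  obtain ⟨b, hb⟩ : ∃ b, b = (x : Matrix (Fin 2) (Fin 2) K) 0 1 := ⟨_, rfl⟩
  obtain ⟨c, hc⟩ : ∃ c, c = (x : Matrix (Fin 2) (Fin 2) K) 1 0 := ⟨_, rfl⟩
  obtain ⟨d, hd⟩ : ∃ d, d = (x : Matrix (Fin 2) (Fin 2) K) 1 1 := ⟨_, rfl⟩
  have hxm : (x : Matrix (Fin 2) (Fin 2) K) = !![a, b; c, d] := by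
    rw [ha, hb, hc, hd]
    exact Matrix.eta_fin_two _
  have hdet : a * d - b * c = 1 := by
    have := x.2
    rw [hxm, Matrix.det_fin_two_of] at this
    exact this
  have hcube : (!![a, b; c, d] : Matrix (Fin 2) (Fin 2) K) ^ 3 = 1 := by
    rw [← hxm, ← Matrix.SpecialLinearGroup.coe_pow, hx3, Matrix.SpecialLinearGroup.coe_one]
  have e00 := congrFun (congrFun hcube 0) 0
  have e01 := congrFun (congrFun hcube 0) 1
  have e10 := congrFun (congrFun hcube 1) 0
  have e11 := congrFun (congrFun hcube 1) 1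
  simp [pow_succ, Matrix.mul_fin_two] at e00 e01 e10 e11
  have hne : ¬ (a = 1 ∧ b = 0 ∧ c = 0 ∧ d = 1) := by
    rintro ⟨h1, h2, h3, h4⟩
    apply hx1
    apply Subtype.ext
    rw [hxm, h1, h2, h3, h4, Matrix.SpecialLinearGroup.coe_one]
    exact Matrix.one_fin_two.symm
  obtain ⟨t, ht⟩ : ∃ t, t = a + d := ⟨_, rfl⟩
  have hb0 : b * (t ^ 2 - 1) = 0 := by
    rw [ht]; linear_combination e01 + b * hdet
  have hc0 : c * (t ^ 2 - 1) = 0 := by
    rw [ht]; linear_combination e10 + c * hdet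
  have ht2 : t ^ 2 = 1 := by
    by_contra hcon
    have hcon' : t ^ 2 - 1 ≠ 0 := sub_ne_zero.mpr hcon
    have hb' : b = 0 := (mul_eq_zero.mp hb0).resolve_right hcon'
    have hc' : c = 0 := (mul_eq_zero.mp hc0).resolve_right hcon'
    rw [hb', hc'] at e00 e11
    have ha3 : a ^ 3 = 1 := by linear_combination e00
    have hd3 : d ^ 3 = 1 := by linear_combination e11
    exact hne ⟨cube_root_one hK a ha3, hb', hc', cube_root_one hK d hd3⟩
  have htm : t = -1 := by
    have : (t - 1) * (t + 1) = 0 := by linear_combination ht2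
    rcases mul_eq_zero.mp this with h | h
    · exfalso
      have hd' : d = 1 - a := by rw [ht] at h; linear_combination h
      rw [hd'] at e00 hdet
      have : (2 : K) = 0 := by linear_combination (-1 : K) * e00 - (a + 1) * hdet
      have : (1 : K) = 0 := by linear_combination h5 - 2 * this
      exact one_ne_zero this
    · linear_combination h
  have hd' : d = -1 - a := by rw [ht] at htm; linear_combination htm
  rw [hd'] at hdet
  have hc0' : c ≠ 0 := by
    intro hc'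
    rw [hc'] at hdet
    have ha3 : a ^ 3 = 1 := by linear_combination (1 - a) * hdet
    have ha1 := cube_root_one hK a ha3
    rw [ha1] at hdet
    have : (3 : K) = 0 := by linear_combination (-1 : K) * hdet
    have : (1 : K) = 0 := by linear_combination 2 * this - h5
    exact one_ne_zero this
  refine ⟨a, c, hc0', ?_⟩
  rw [hxm, hd']
  have : b = -(a ^ 2 + a + 1) / c := by
    field_simp
    linear_combination (-1 : K) * hdet
  rw [this]

/-- Two elements of order 3 generating the centre. -/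
theorem sl2_gen (hK : Fintype.card K = 5) (x : Matrix.SpecialLinearGroup (Fin 2) K)
    (hx3 : x ^ 3 = 1) (hx1 : x ≠ 1) :
    ∃ y : Matrix.SpecialLinearGroup (Fin 2) K, y ^ 3 = 1 ∧ (x * y) ^ 5 = negOne K := by
  have h5 := five_eq_zero hK
  obtain ⟨p, r, hr, hx⟩ := sl2_order3 hK x hx3 hx1
  obtain ⟨q, hq⟩ : ∃ q : K, q = -(p ^ 2 + p + 1) / r - 2 * (p + 1) / r := ⟨_, rfl⟩
  have hdet : (p + 1) * (-1 - (p + 1)) - q * r = 1 := by
    rw [hq]
    field_simp
    ring
  have hdet' : (!![p + 1, q; r, -1 - (p + 1)] : Matrix (Fin 2) (Fin 2) K).det = 1 := by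
    rw [Matrix.det_fin_two_of]
    exact hdet
  obtain ⟨y, hy⟩ : ∃ y : Matrix.SpecialLinearGroup (Fin 2) K,
      (y : Matrix (Fin 2) (Fin 2) K) = !![p + 1, q; r, -1 - (p + 1)] := ⟨⟨_, hdet'⟩, rfl⟩
  refine ⟨y, ?_, ?_⟩
  · apply Subtype.ext
    rw [Matrix.SpecialLinearGroup.coe_pow, Matrix.SpecialLinearGroup.coe_one, hy]
    exact cube_of_trace (p + 1) q r hdet
  · have hxy : ((x * y : Matrix.SpecialLinearGroup (Fin 2) K) : Matrix (Fin 2) (Fin 2) K) =
        !![-1, 2 / r; 0, -1] := by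
      rw [Matrix.SpecialLinearGroup.coe_mul, hx, hy, hq]
      ext i j
      fin_cases i <;> fin_cases j <;> simp [Matrix.mul_fin_two] <;> field_simp <;> ring
    apply Subtype.ext
    rw [Matrix.SpecialLinearGroup.coe_pow, hxy]
    ext i j
    fin_cases i <;> fin_cases j <;> simp [negOne, pow_succ, Matrix.mul_fin_two] <;>
      first | ring1 | linear_combination (2 * r⁻¹) * h5 | linear_combination (2 / r) * h5

end slTwo

section mainPart

variable {F : Type*} [Field F] [Fintype F] {K : Type*} [Field K] [Fintype K]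

theorem psi_negOne (hF : Fintype.card F = 3) (hK : Fintype.card K = 5)
    (ψ : Matrix.SpecialLinearGroup (Fin 2) K →* Matrix I4 I4 F) (hinj : Function.Injective ψ) :
    ψ (negOne K) = -1 := by
  have h2F := two_ne_zero' hF
  obtain ⟨M, hM⟩ : ∃ M, M = ψ (negOne K) := ⟨_, rfl⟩
  obtain ⟨T, hT⟩ : ∃ T, T = ψ (upper K) := ⟨_, rfl⟩
  rw [← hM]
  have hMM : M * M = 1 := by rw [hM, ← map_mul, negOne_mul_self, map_one]
  have hT5 : T ^ 5 = 1 := by rw [hT, ← map_pow, upper_pow_five hK, map_one]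
  have hTM : T * M = M * T := by rw [hT, hM, ← map_mul, ← map_mul, negOne_comm]
  have hM1 : M ≠ 1 := by
    intro h
    rw [hM, ← map_one ψ] at h
    exact negOne_ne_one hK (hinj h)
  have hT1 : T ≠ 1 := by
    intro h
    rw [hT, ← map_one ψ] at h
    exact upper_ne_one (hinj h)
  by_contra hMn
  obtain ⟨Wp, hWp⟩ : ∃ Wp : Submodule F (I4 → F), Wp = LinearMap.ker (Matrix.toLin' (M - 1)) :=
    ⟨_, rfl⟩
  obtain ⟨Wm, hWm⟩ : ∃ Wm : Submodule F (I4 → F), Wm = LinearMap.ker (Matrix.toLin' (M + 1)) :=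
    ⟨_, rfl⟩
  have hmemp : ∀ w : I4 → F, w ∈ Wp ↔ M *ᵥ w = w := by
    intro w
    rw [hWp, LinearMap.mem_ker, Matrix.toLin'_apply, Matrix.sub_mulVec, Matrix.one_mulVec,
      sub_eq_zero]
  have hmemm : ∀ w : I4 → F, w ∈ Wm ↔ M *ᵥ w = -w := by
    intro w
    rw [hWm, LinearMap.mem_ker, Matrix.toLin'_apply, Matrix.add_mulVec, Matrix.one_mulVec,
      add_eq_zero_iff_eq_neg]
  have h4 : Module.finrank F (I4 → F) = 4 := by
    rw [Module.finrank_fintype_fun_eq_card]
    rfl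
  have hWp3 : Module.finrank F Wp ≤ 3 := by
    have hlt : Wp ≠ ⊤ := by
      intro htop
      apply hM1
      apply mat_ext
      intro v
      rw [Matrix.one_mulVec]
      exact (hmemp v).mp (by rw [htop]; exact Submodule.mem_top)
    have := Submodule.finrank_lt hlt
    omega
  have hWm3 : Module.finrank F Wm ≤ 3 := by
    have hlt : Wm ≠ ⊤ := by
      intro htop
      apply hMn
      apply mat_ext
      intro v
      rw [Matrix.neg_mulVec, Matrix.one_mulVec]
      exact (hmemm v).mp (by rw [htop]; exact Submodule.mem_top)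
    have := Submodule.finrank_lt hlt
    omega
  have hinvp : ∀ w ∈ Wp, T *ᵥ w ∈ Wp := by
    intro w hw
    rw [hmemp] at hw ⊢
    rw [Matrix.mulVec_mulVec, ← hTM, ← Matrix.mulVec_mulVec, hw]
  have hinvm : ∀ w ∈ Wm, T *ᵥ w ∈ Wm := by
    intro w hw
    rw [hmemm] at hw ⊢
    rw [Matrix.mulVec_mulVec, ← hTM, ← Matrix.mulVec_mulVec, hw, Matrix.mulVec_neg]
  have hfp := fixed_of_pow_five hF T hT5 Wp hinvp hWp3
  have hfm := fixed_of_pow_five hF T hT5 Wm hinvm hWm3
  apply hT1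
  apply mat_ext
  intro v
  rw [Matrix.one_mulVec]
  have hvp : v + M *ᵥ v ∈ Wp := by
    rw [hmemp, Matrix.mulVec_add, Matrix.mulVec_mulVec, hMM, Matrix.one_mulVec, add_comm]
  have hvm : v - M *ᵥ v ∈ Wm := by
    rw [hmemm, Matrix.mulVec_sub, Matrix.mulVec_mulVec, hMM, Matrix.one_mulVec, neg_sub]
  have e1 := hfp _ hvp
  have e2 := hfm _ hvm
  rw [Matrix.mulVec_add] at e1
  rw [Matrix.mulVec_sub] at e2
  have e3 : (2 : F) • (T *ᵥ v) = (2 : F) • v := by
    rw [two_smul, two_smul]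
    have e5 : (T *ᵥ v + T *ᵥ (M *ᵥ v)) + (T *ᵥ v - T *ᵥ (M *ᵥ v)) =
        (v + M *ᵥ v) + (v - M *ᵥ v) := by rw [e1, e2]
    rw [add_add_sub_cancel, add_add_sub_cancel] at e5
    exact e5
  have e4 : (2 : F) • (T *ᵥ v - v) = 0 := by rw [smul_sub, e3, sub_self]
  exact sub_eq_zero.mp ((smul_eq_zero.mp e4).resolve_left h2F)

theorem main_aux (hF : Fintype.card F = 3) (hK : Fintype.card K = 5)
    (ψ : Matrix.SpecialLinearGroup (Fin 2) K →* Matrix I4 I4 F) (hinj : Function.Injective ψ)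
    (hsp : ∀ g, ψ g ∈ Matrix.symplecticGroup (Fin 2) F)
    (x : Matrix.SpecialLinearGroup (Fin 2) K) (hx3 : x ^ 3 = 1) (hx1 : x ≠ 1) :
    Module.finrank F (LinearMap.ker (Matrix.toLin' (ψ x) - LinearMap.id)) = 2 ∧
      ∀ v w : I4 → F, ψ x *ᵥ v = v → ψ x *ᵥ w = w → Bf v w = 0 := by
  have hneg := psi_negOne hF hK ψ hinj
  obtain ⟨y, hy3, hxy⟩ := sl2_gen hK x hx3 hx1
  obtain ⟨N, hN⟩ : ∃ N, N = ψ x := ⟨_, rfl⟩
  obtain ⟨N', hN'⟩ : ∃ N', N' = ψ y := ⟨_, rfl⟩
  rw [← hN]
  have hN3 : N ^ 3 = 1 := by rw [hN, ← map_pow, hx3, map_one]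
  have hN'3 : N' ^ 3 = 1 := by rw [hN', ← map_pow, hy3, map_one]
  have hNN : (N * N') ^ 5 = -1 := by rw [hN, hN', ← map_mul, ← map_pow, hxy, hneg]
  have hN1 : N ≠ 1 := by
    intro h
    rw [hN, ← map_one ψ] at h
    exact hx1 (hinj h)
  obtain ⟨U, hU⟩ : ∃ U : Submodule F (I4 → F),
      U = LinearMap.ker (Matrix.toLin' N - LinearMap.id) := ⟨_, rfl⟩
  obtain ⟨U', hU'⟩ : ∃ U' : Submodule F (I4 → F),
      U' = LinearMap.ker (Matrix.toLin' N' - LinearMap.id) := ⟨_, rfl⟩
  have h2 : 2 ≤ Module.finrank F U := by rw [hU]; exact two_le_finrank_fixed hF N hN3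
  have h2' : 2 ≤ Module.finrank F U' := by rw [hU']; exact two_le_finrank_fixed hF N' hN'3
  have hmemU : ∀ w : I4 → F, w ∈ U ↔ N *ᵥ w = w := by
    intro w
    rw [hU, LinearMap.mem_ker, LinearMap.sub_apply, Matrix.toLin'_apply, LinearMap.id_apply,
      sub_eq_zero]
  have hmemU' : ∀ w : I4 → F, w ∈ U' ↔ N' *ᵥ w = w := by
    intro w
    rw [hU', LinearMap.mem_ker, LinearMap.sub_apply, Matrix.toLin'_apply, LinearMap.id_apply,
      sub_eq_zero]
  have hinf : U ⊓ U' = ⊥ := by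
    rw [eq_bot_iff]
    intro w hw
    rw [Submodule.mem_bot]
    exact fixed_inf hF hNN w ((hmemU w).mp hw.1) ((hmemU' w).mp hw.2)
  have hsum := Submodule.finrank_sup_add_finrank_inf_eq U U'
  rw [hinf, finrank_bot, add_zero] at hsum
  have h4 : Module.finrank F (I4 → F) = 4 := by
    rw [Module.finrank_fintype_fun_eq_card]
    rfl
  have hle : Module.finrank F ↥(U ⊔ U') ≤ 4 := by
    rw [← h4]; exact Submodule.finrank_le _
  have hdim : Module.finrank F U = 2 := by omega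
  rw [hU] at hdim
  refine ⟨hdim, ?_⟩
  intro v w hv hw
  exact isotropic hF (by rw [hN]; exact hsp x) hN3 hN1 hdim v w hv hw

end mainPart

/-- Let F be the field with 3 elements and K the field with 5 elements. For every injective homomorphism φ from SL₂(K) into the symplectic group Sp₄(F) (4 × 4 matrices g with g J gᵀ = J for the standard alternating matrix J) and every element x of order 3 of SL₂(K), the vectors of F⁴ fixed by φ(x) form a 2-dimensional subspace that is totally isotropic for the alternating form defined by J. -/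
theorem result {F : Type*} [Field F] [Fintype F] (hF : Fintype.card F = 3)
    {K : Type*} [Field K] [Fintype K] (hK : Fintype.card K = 5)
    (φ : Matrix.SpecialLinearGroup (Fin 2) K →* ↥(Matrix.symplecticGroup (Fin 2) F)) (hφ : Function.Injective φ)
    (x : Matrix.SpecialLinearGroup (Fin 2) K) (hx : orderOf x = 3) :
    Module.finrank F ↥(LinearMap.ker (Matrix.toLin' ((φ x : Matrix (Fin 2 ⊕ Fin 2) (Fin 2 ⊕ Fin 2) F)) - LinearMap.id)) = 2 ∧
      ∀ v w : Fin 2 ⊕ Fin 2 → F, (φ x : Matrix (Fin 2 ⊕ Fin 2) (Fin 2 ⊕ Fin 2) F).mulVec v = v →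
        (φ x : Matrix (Fin 2 ⊕ Fin 2) (Fin 2 ⊕ Fin 2) F).mulVec w = w →
          dotProduct v ((Matrix.J (Fin 2) F).mulVec w) = 0 := by
  have hx3 : x ^ 3 = 1 := by rw [← hx]; exact pow_orderOf_eq_one x
  have hx1 : x ≠ 1 := by
    intro h
    rw [h, orderOf_one] at hx
    norm_num at hx
  obtain ⟨ψ, hψ⟩ : ∃ ψ : Matrix.SpecialLinearGroup (Fin 2) K →* Matrix I4 I4 F,
      ψ = (Matrix.symplecticGroup (Fin 2) F).subtype.comp φ := ⟨_, rfl⟩
  have hinj : Function.Injective ψ := by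
    rw [hψ]
    exact (Subtype.val_injective).comp hφ
  have hsp : ∀ g, ψ g ∈ Matrix.symplecticGroup (Fin 2) F := by
    intro g
    rw [hψ]
    exact (φ g).2
  have key := main_aux hF hK ψ hinj hsp x hx3 hx1
  have hval : ψ x = (φ x : Matrix (Fin 2 ⊕ Fin 2) (Fin 2 ⊕ Fin 2) F) := by rw [hψ]; rfl
  rw [hval] at key
  exact key

end Cfsg.Agent.S3213
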