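-- Statement S3215 (helper1).
import Mathlib
import Cfsg.Statements.S3215
import Cfsg.Agent.S0022
import Cfsg.Agent.Lib.Helper1.FpfSylow
import Cfsg.Agent.Lib.Helper1.SZConjB
import Cfsg.Agent.Lib.Helper1.MinNormal
import Cfsg.Agent.Lib.Helper49.CharP
import Cfsg.Agent.Lib.Helper53.PGroups
import Cfsg.Agent.Lib.Helper55.Cores

set_option autoImplicit false
open Cfsg

namespace Cfsg.Agent.S3215

open Cfsg.Agent.Lib.Helper1

section aux

variable {H : Type*} [Group H] [Finite H]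

/-- An element of odd order in a 2-subgroup is trivial. -/
theorem eq_one_of_mem_two_odd {Y : Subgroup H} (hY2 : IsPGroup 2 Y) {x : H} (hx : x ∈ Y)
    (hodd : Odd (orderOf x)) : x = 1 := by
  obtain ⟨k, hk⟩ := hY2 ⟨x, hx⟩
  have h1 : x ^ 2 ^ k = 1 := by simpa using congrArg Subtype.val hk
  have h2 : orderOf x ∣ 2 ^ k := orderOf_dvd_of_pow_eq_one h1
  have h3 : (orderOf x).Coprime (2 ^ k) := Nat.Coprime.pow_right k hodd.coprime_two_right
  exact orderOf_eq_one_iff.mp (Nat.Coprime.eq_one_of_dvd h3 h2)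

theorem mem_normalizer_of_normal' (Y : Subgroup H) [hY : Y.Normal] (g : H) :
    g ∈ Subgroup.normalizer (Y : Set H) := by
  rw [Subgroup.mem_normalizer_iff]
  intro n
  constructor
  · intro h; exact hY.conj_mem n h g
  · intro h
    have h1 := hY.conj_mem _ h g⁻¹
    have h2 : g⁻¹ * (g * n * g⁻¹) * g⁻¹⁻¹ = n := by group
    rwa [h2] at h1

/-- Key lemma: if the centralizer of the involution `t` has a normal 2-complement, an odd-order
element centralizing `t` centralizes `C_Y(t)` for every normal 2-subgroup `Y`. -/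
theorem keyL
    (hI : ∀ t : H, orderOf t = 2 →
      Cfsg.HasNormalPComplement 2 ↥(Subgroup.centralizer ({t} : Set H)))
    (Y : Subgroup H) [hYn : Y.Normal] (hY2 : IsPGroup 2 Y)
    (t : H) (ht : orderOf t = 2) (x : H) (hx : Odd (orderOf x)) (hxt : x * t = t * x)
    (v : H) (hv : v ∈ Y) (hvt : v * t = t * v) : x * v = v * x := by
  have hF2 : Fact (Nat.Prime 2) := ⟨Nat.prime_two⟩
  obtain ⟨S, N, hNn, hNS⟩ := hI t ht
  have hxC : x ∈ Subgroup.centralizer ({t} : Set H) :=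
    Subgroup.mem_centralizer_singleton_iff.mpr hxt
  have hvC : v ∈ Subgroup.centralizer ({t} : Set H) :=
    Subgroup.mem_centralizer_singleton_iff.mpr hvt
  obtain ⟨m, hm⟩ := IsPGroup.iff_card.mp S.isPGroup'
  have hidx : N.index = 2 ^ m := by rw [hNS.symm.index_eq_card, hm]
  have hNodd : Odd (Nat.card N) := by
    have h1 : (S : Subgroup (Subgroup.centralizer ({t} : Set H))).index = Nat.card N :=
      hNS.index_eq_card
    have h2 : ¬ 2 ∣ (S : Subgroup (Subgroup.centralizer ({t} : Set H))).index :=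
      Sylow.not_dvd_index S
    rw [h1] at h2
    exact Nat.odd_iff.mpr (Nat.two_dvd_ne_zero.mp h2)
  have hxN : (⟨x, hxC⟩ : Subgroup.centralizer ({t} : Set H)) ∈ N := by
    apply mem_of_coprime_index
    rw [hidx, Subgroup.orderOf_mk]
    exact Nat.Coprime.pow_right m hx.coprime_two_right
  have hwC : v * x * v⁻¹ * x⁻¹ ∈ Subgroup.centralizer ({t} : Set H) :=
    Subgroup.mul_mem _ (Subgroup.mul_mem _ (Subgroup.mul_mem _ hvC hxC) (Subgroup.inv_mem _ hvC))
      (Subgroup.inv_mem _ hxC)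
  have hw : (⟨v * x * v⁻¹ * x⁻¹, hwC⟩ : Subgroup.centralizer ({t} : Set H)) ∈ N := by
    have h1 : (⟨v, hvC⟩ * ⟨x, hxC⟩ * ⟨v, hvC⟩⁻¹ * ⟨x, hxC⟩⁻¹ :
        Subgroup.centralizer ({t} : Set H)) ∈ N :=
      N.mul_mem (hNn.conj_mem _ hxN _) (N.inv_mem hxN)
    exact h1
  have hwY : v * x * v⁻¹ * x⁻¹ ∈ Y := by
    have h1 : v * (x * v⁻¹ * x⁻¹) ∈ Y := Y.mul_mem hv (hYn.conj_mem _ (Y.inv_mem hv) _)
    have h2 : v * (x * v⁻¹ * x⁻¹) = v * x * v⁻¹ * x⁻¹ := by group
    rwa [h2] at h1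
  have hwodd : Odd (orderOf (v * x * v⁻¹ * x⁻¹)) := by
    have h1 := Subgroup.orderOf_dvd_natCard N hw
    rw [Subgroup.orderOf_mk] at h1
    exact Odd.of_dvd_nat hNodd h1
  have hw1 := eq_one_of_mem_two_odd hY2 hwY hwodd
  have h3 : v * x = x * v := by
    calc v * x = (v * x * v⁻¹ * x⁻¹) * (x * v) := by group
      _ = x * v := by rw [hw1, one_mul]
  exact h3.symm

/-- No non-identity odd-order element commutes with a non-identity element of `Y`. -/
theorem step1
    (hI : ∀ t : H, orderOf t = 2 →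
      Cfsg.HasNormalPComplement 2 ↥(Subgroup.centralizer ({t} : Set H)))
    (Y : Subgroup H) [hYn : Y.Normal] (hY2 : IsPGroup 2 Y)
    (hCY : Subgroup.centralizer (Y : Set H) ≤ Y)
    (x : H) (hxodd : Odd (orderOf x)) (hx1 : x ≠ 1) (y : H) (hy : y ∈ Y) (hy1 : y ≠ 1) :
    x * y ≠ y * x := by
  intro hxy
  have hF2 : Fact (Nat.Prime 2) := ⟨Nat.prime_two⟩
  obtain ⟨k, hk⟩ := hY2 ⟨y, hy⟩
  have h1 : y ^ 2 ^ k = 1 := by simpa using congrArg Subtype.val hk
  have h2 : orderOf y ∣ 2 ^ k := orderOf_dvd_of_pow_eq_one h1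
  obtain ⟨j, -, hjo⟩ := (Nat.dvd_prime_pow Nat.prime_two).mp h2
  have hj0 : j ≠ 0 := by
    rintro rfl
    rw [pow_zero, orderOf_eq_one_iff] at hjo
    exact hy1 hjo
  have h2dvd : 2 ∣ orderOf y := by rw [hjo]; exact dvd_pow_self 2 hj0
  have ho0 : orderOf y ≠ 0 := by rw [hjo]; positivity
  obtain ⟨t, ht⟩ : ∃ t, t = y ^ (orderOf y / 2) := ⟨_, rfl⟩
  have ht2 : orderOf t = 2 := by rw [ht]; exact orderOf_pow_orderOf_div ho0 h2dvd
  have htY : t ∈ Y := by rw [ht]; exact Y.pow_mem hy _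
  have hxt : x * t = t * x := by
    rw [ht]; exact (Commute.pow_right (show Commute x y from hxy) _).eq
  have hB : IsPGroup 2 (Subgroup.zpowers t) :=
    IsPGroup.of_card (n := 1) (by rw [Nat.card_zpowers, ht2, pow_one])
  have hxB : ∀ b ∈ Subgroup.zpowers t, Commute x b := by
    intro b hb
    obtain ⟨n, rfl⟩ := Subgroup.mem_zpowers_iff.mp hb
    exact Commute.zpow_right (show Commute x t from hxt) n
  have hAB := Cfsg.Agent.Lib.Helper49.thompson_AxB (p := 2) Y (Subgroup.zpowers t) hY2 hB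
    (fun g _ => mem_normalizer_of_normal' Y g) x (mem_normalizer_of_normal' Y x)
    hxodd.coprime_two_right hxB
    (fun u hu hub => show Commute x u from
      keyL hI Y hY2 t ht2 x hxodd hxt u hu (hub t (Subgroup.mem_zpowers t)).eq)
  have hxc : x ∈ Subgroup.centralizer (Y : Set H) := by
    rw [Subgroup.mem_centralizer_iff]
    intro u hu
    exact (hAB u hu).eq.symm
  exact hx1 (eq_one_of_mem_two_odd hY2 (hCY hxc) hxodd)

/-- No involution commutes with a non-identity odd-order element (when `Y ≠ 1`). -/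
theorem stepA
    (hI : ∀ t : H, orderOf t = 2 →
      Cfsg.HasNormalPComplement 2 ↥(Subgroup.centralizer ({t} : Set H)))
    (Y : Subgroup H) [hYn : Y.Normal] (hY2 : IsPGroup 2 Y)
    (hCY : Subgroup.centralizer (Y : Set H) ≤ Y) (hYne : Y ≠ ⊥)
    (x : H) (hxodd : Odd (orderOf x)) (hx1 : x ≠ 1) (t : H) (ht : orderOf t = 2)
    (hxt : x * t = t * x) : False := by
  have hF2 : Fact (Nat.Prime 2) := ⟨Nat.prime_two⟩
  have hT : IsPGroup 2 (Y ⊔ Subgroup.zpowers t : Subgroup H) :=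
    IsPGroup.to_sup_of_normal_left hY2
      (IsPGroup.of_card (n := 1) (by rw [Nat.card_zpowers, ht, pow_one]))
  obtain ⟨v, hv, hv1, hvc⟩ := Cfsg.Agent.Lib.Helper53.exists_mem_center_of_normal_subgroup hT
    (le_sup_left : Y ≤ Y ⊔ Subgroup.zpowers t) (fun g _ => mem_normalizer_of_normal' Y g) hYne
  have hvt : v * t = t * v := (hvc t (Subgroup.mem_sup_right (Subgroup.mem_zpowers t))).symm
  exact step1 hI Y hY2 hCY x hxodd hx1 v hv hv1 (keyL hI Y hY2 t ht x hxodd hxt v hv hvt)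

/-- Lifting: an involution of `H ⧸ Y` commuting with the image of an odd-order `x` gives an
involution of `H` commuting with `x`. -/
theorem claimB (Y : Subgroup H) [hYn : Y.Normal] (hY2 : IsPGroup 2 Y)
    (x : H) (hxodd : Odd (orderOf x))
    (hinv : ∀ t : H, orderOf t = 2 → x * t = t * x → False)
    (tb : H ⧸ Y) (htb : orderOf tb = 2)
    (hcomm : tb * (QuotientGroup.mk' Y x) = (QuotientGroup.mk' Y x) * tb) : False := by
  have hF2 : Fact (Nat.Prime 2) := ⟨Nat.prime_two⟩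
  obtain ⟨π, hπ⟩ : ∃ π : H →* H ⧸ Y, π = QuotientGroup.mk' Y := ⟨_, rfl⟩
  have hker : π.ker = Y := by rw [hπ, QuotientGroup.ker_mk']
  have hπ1 : ∀ g : H, π g = 1 ↔ g ∈ Y := fun g => by
    rw [hπ]; exact QuotientGroup.eq_one_iff g
  rw [← hπ] at hcomm
  obtain ⟨t, rfl⟩ : ∃ t, π t = tb := by
    rw [hπ]; exact QuotientGroup.mk'_surjective Y tb
  obtain ⟨T, hT⟩ : ∃ T : Subgroup H, T = (Subgroup.zpowers (π t)).comap π := ⟨_, rfl⟩
  have hT2 : IsPGroup 2 T := by
    rw [hT]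
    apply IsPGroup.comap_of_ker_isPGroup
    · exact IsPGroup.of_card (n := 1) (by rw [Nat.card_zpowers, htb, pow_one])
    · rw [hker]; exact hY2
  have htT : t ∈ T := by rw [hT]; exact Subgroup.mem_comap.mpr (Subgroup.mem_zpowers _)
  have hYT : Y ≤ T := by
    rw [hT]; intro y hy
    rw [Subgroup.mem_comap, (hπ1 y).mpr hy]; exact Subgroup.one_mem _
  have hA : ∀ a ∈ Subgroup.zpowers x, Commute (π a) (π t) := by
    intro a ha
    obtain ⟨n, rfl⟩ := Subgroup.mem_zpowers_iff.mp ha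
    rw [map_zpow]
    exact Commute.zpow_left (show Commute (π x) (π t) from hcomm.symm) n
  have hAT : Subgroup.zpowers x ≤ Subgroup.normalizer (T : Set H) := by
    apply Cfsg.Agent.Lib.Helper53.le_normalizer_of_conj_mem
    intro a ha w hw
    rw [hT] at hw ⊢
    rw [Subgroup.mem_comap] at hw ⊢
    obtain ⟨n, hn⟩ := Subgroup.mem_zpowers_iff.mp hw
    have h1 : π (a * w * a⁻¹) = π w := by
      rw [map_mul, map_mul, map_inv, ← hn]
      have hc : Commute (π a) (π t ^ n) := Commute.zpow_right (hA a ha) n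
      rw [hc.eq, mul_inv_cancel_right]
    rw [h1]; exact hw
  have hcop : (Nat.card (Subgroup.zpowers x)).Coprime (Nat.card T) := by
    rw [Nat.card_zpowers]
    obtain ⟨n, hn⟩ := IsPGroup.iff_card.mp hT2
    rw [hn]
    exact Nat.Coprime.pow_right n hxodd.coprime_two_right
  have hTsol : Group.IsSolvable T := by
    have := hT2.isNilpotent
    infer_instance
  have hfix : ∀ a ∈ Subgroup.zpowers x, a * t * a⁻¹ * t⁻¹ ∈ Y := by
    intro a ha
    rw [← hπ1, map_mul, map_mul, map_mul, map_inv, map_inv, (hA a ha).eq, mul_inv_cancel_right,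
      mul_inv_cancel]
  obtain ⟨c, hc, hcN⟩ := Cfsg.Agent.S0022.result (Subgroup.zpowers x) T hAT hcop (Or.inr hTsol)
    Y hYT (fun g _ => mem_normalizer_of_normal' Y g) (fun g _ => mem_normalizer_of_normal' Y g)
    t htT hfix
  have hcx : x * c = c * x :=
    Subgroup.mem_centralizer_iff.mp (Subgroup.mem_inf.mp hc).2 x (Subgroup.mem_zpowers x)
  have hπc : π c = π t := by
    have h1 := (hπ1 _).mpr hcN
    rw [map_mul, map_inv, inv_mul_eq_one] at h1
    exact h1.symm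
  have h2c : 2 ∣ orderOf c := by
    have h1 := orderOf_map_dvd π c
    rwa [hπc, htb] at h1
  have hc0 : orderOf c ≠ 0 := (orderOf_pos c).ne'
  have hu : orderOf (c ^ (orderOf c / 2)) = 2 := orderOf_pow_orderOf_div hc0 h2c
  exact hinv _ hu (Commute.pow_right (show Commute x c from hcx) _).eq

/-- The quotient part. -/
theorem quot_part [Group.IsSolvable H]
    (Y : Subgroup H) [hYn : Y.Normal] (hY2 : IsPGroup 2 Y)
    (hYmax : ∀ N : Subgroup H, N.Normal → IsPGroup 2 N → N ≤ Y)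
    (X : Subgroup H) (hXodd : Odd (Nat.card X)) (hXidx : ∃ k : ℕ, X.index = 2 ^ k)
    (hZ : ∀ (p : ℕ) [Fact p.Prime] (P : Sylow p ↥X), IsCyclic ↥(P : Subgroup ↥X))
    (hinv : ∀ x ∈ X, x ≠ 1 → ∀ t : H, orderOf t = 2 → x * t = t * x → False) :
    (X ⊔ Y).Normal ∧ ∀ hN : (X ⊔ Y).Normal, IsCyclic (H ⧸ (X ⊔ Y)) ∧ IsPGroup 2 (H ⧸ (X ⊔ Y)) := by
  classical
  have hF2 : Fact (Nat.Prime 2) := ⟨Nat.prime_two⟩
  obtain ⟨k, hk⟩ := hXidx
  have hXo : ∀ x ∈ X, Odd (orderOf x) := fun x hx =>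
    Odd.of_dvd_nat hXodd (Subgroup.orderOf_dvd_natCard X hx)
  have h2grp : ∀ hN : (X ⊔ Y).Normal, IsPGroup 2 (H ⧸ (X ⊔ Y)) := by
    intro hN
    have h1 : (X ⊔ Y).index ∣ 2 ^ k := hk ▸ Subgroup.index_dvd_of_le le_sup_left
    obtain ⟨j, -, hj⟩ := (Nat.dvd_prime_pow Nat.prime_two).mp h1
    exact IsPGroup.of_card (n := j) (by rw [← Subgroup.index_eq_card, hj])
  by_cases htriv : Y = ⊤
  · have hKtop : X ⊔ Y = ⊤ := by rw [htriv]; simp
    refine ⟨by rw [hKtop]; infer_instance, fun hN => ⟨?_, h2grp hN⟩⟩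
    have hc : Nat.card (H ⧸ (X ⊔ Y)) = 1 := by
      rw [← Subgroup.index_eq_card, hKtop, Subgroup.index_top]
    have hss : Subsingleton (H ⧸ (X ⊔ Y)) := (Nat.card_eq_one_iff_unique.mp hc).1
    exact isCyclic_of_subsingleton
  · obtain ⟨π, hπ⟩ : ∃ π : H →* H ⧸ Y, π = QuotientGroup.mk' Y := ⟨_, rfl⟩
    have hker : π.ker = Y := by rw [hπ, QuotientGroup.ker_mk']
    have hπ1 : ∀ g : H, π g = 1 ↔ g ∈ Y := fun g => by
      rw [hπ]; exact QuotientGroup.eq_one_iff g
    have hπs : Function.Surjective π := by rw [hπ]; exact QuotientGroup.mk'_surjective Y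
    have hnt : Nontrivial (H ⧸ Y) := by
      by_contra hcon
      rw [not_nontrivial_iff_subsingleton] at hcon
      apply htriv
      rw [eq_top_iff]
      intro g _
      rw [← hπ1]
      exact Subsingleton.elim _ _
    obtain ⟨M, hMn, hMne, hMmin⟩ := exists_minNormal (H ⧸ Y)
    obtain ⟨hMc, p, hp, hMp⟩ := minNormal_elementary M inferInstance hMne hMmin
    have hpF : Fact p.Prime := ⟨hp⟩
    have hMpg : IsPGroup p M := fun ⟨x, hx⟩ => ⟨1, Subtype.ext (by simpa using hMp x hx)⟩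
    have hp2 : p ≠ 2 := by
      intro hp2
      rw [hp2] at hMpg
      have h1 : IsPGroup 2 (M.comap π) :=
        hMpg.comap_of_ker_isPGroup π (by rw [hker]; exact hY2)
      have h2 : M.comap π ≤ Y := hYmax _ (hMn.comap π) h1
      apply hMne
      rw [eq_bot_iff]
      intro m hm
      obtain ⟨h, rfl⟩ := hπs m
      exact Subgroup.mem_bot.mpr ((hπ1 h).mpr (h2 (Subgroup.mem_comap.mpr hm)))
    obtain ⟨Xb, hXb⟩ : ∃ Xb : Subgroup (H ⧸ Y), Xb = X.map π := ⟨_, rfl⟩
    have hcomap : Xb.comap π = X ⊔ Y := by rw [hXb, Subgroup.comap_map_eq, hker]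
    have hXbidx : Xb.index ∣ 2 ^ k := by
      have h1 : Xb.index = (X ⊔ Y).index := by
        rw [← hcomap]; exact (Subgroup.index_comap_of_surjective Xb hπs).symm
      rw [h1, ← hk]; exact Subgroup.index_dvd_of_le le_sup_left
    have hodd_le : ∀ N : Subgroup (H ⧸ Y), N.Normal → Odd (Nat.card N) → N ≤ Xb := by
      intro N hN hNo
      have := hN
      apply normal_le_of_coprime_index N Xb
      exact Nat.Coprime.coprime_dvd_right hXbidx (Nat.Coprime.pow_right k hNo.coprime_two_right)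
    have hModd : Odd (Nat.card M) := by
      obtain ⟨n, hn⟩ := IsPGroup.iff_card.mp hMpg
      rw [hn]; exact Odd.pow (hp.odd_of_ne_two hp2)
    have hMle : M ≤ Xb := hodd_le M hMn hModd
    -- M is cyclic of order p
    have hZX : IsZGroup X := ⟨fun q hq P => @hZ q ⟨hq⟩ P⟩
    have hZXb : IsZGroup Xb := by
      rw [hXb]
      exact IsZGroup.of_surjective (f := π.subgroupMap X) (π.subgroupMap_surjective X)
    have hZM : IsZGroup M :=
      IsZGroup.of_injective (f := Subgroup.inclusion hMle) (Subgroup.inclusion_injective hMle)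
    have hMcyc : IsCyclic M := by
      let _ : CommGroup M := { (inferInstance : Group M) with mul_comm := hMc.is_comm.comm }
      have : Group.IsNilpotent M := CommGroup.isNilpotent
      infer_instance
    have hMcard : Nat.card M = p := by
      obtain ⟨g, hg⟩ := IsCyclic.exists_generator (α := M)
      have h1 : orderOf g = Nat.card M := orderOf_eq_card_of_forall_mem_zpowers hg
      have h2 : g ^ p = 1 := Subtype.ext (by simpa using hMp g g.2)
      have h3 : Nat.card M ∣ p := h1 ▸ orderOf_dvd_of_pow_eq_one h2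
      rcases (Nat.dvd_prime hp).mp h3 with h4 | h4
      · exact absurd (Subgroup.card_eq_one.mp h4) hMne
      · exact h4
    have hpF' : Fact (Nat.card M).Prime := ⟨hMcard ▸ hp⟩
    have hAutcyc : IsCyclic (MulAut M) :=
      isCyclic_of_surjective (IsCyclic.mulAutMulEquiv M).symm (MulEquiv.surjective _)
    have hAutcomm : ∀ a b : MulAut M, a * b = b * a := by
      intro a b
      apply (IsCyclic.mulAutMulEquiv M).injective
      rw [map_mul, map_mul, mul_comm]
    -- a non-identity element of M, lifted to X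
    obtain ⟨m, hmM, hm1⟩ : ∃ m ∈ M, m ≠ 1 := by
      by_contra hcon
      push Not at hcon
      exact hMne ((Subgroup.eq_bot_iff_forall M).mpr hcon)
    obtain ⟨x, hxX, hxm⟩ : ∃ x ∈ X, π x = m := by
      have h1 : m ∈ X.map π := hXb ▸ hMle hmM
      exact Subgroup.mem_map.mp h1
    have hx1 : x ≠ 1 := by
      rintro rfl
      rw [map_one] at hxm
      exact hm1 hxm.symm
    -- the conjugation action on M
    obtain ⟨φ, hφ⟩ : ∃ φ : (H ⧸ Y) →* MulAut M, φ = MulAut.conjNormal := ⟨_, rfl⟩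
    have hφker : ∀ g : H ⧸ Y, φ g = 1 → g * m * g⁻¹ = m := by
      intro g hg
      have h4 : ((φ g ⟨m, hmM⟩ : M) : H ⧸ Y) = m := by rw [hg]; rfl
      rw [hφ, MulAut.conjNormal_apply] at h4
      exact h4
    have hLodd : Odd (Nat.card φ.ker) := by
      by_contra hne
      have h2 : 2 ∣ Nat.card φ.ker := by
        rwa [Nat.not_odd_iff_even, even_iff_two_dvd] at hne
      obtain ⟨tb, htb⟩ := exists_prime_orderOf_dvd_card' 2 h2
      have htb' : orderOf (tb : H ⧸ Y) = 2 := by rw [Subgroup.orderOf_coe]; exact htb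
      have hcomm : (tb : H ⧸ Y) * π x = π x * (tb : H ⧸ Y) := by
        have h3 : φ (tb : H ⧸ Y) = 1 := tb.2
        have h4 := hφker _ h3
        rw [hxm]
        calc (tb : H ⧸ Y) * m = ((tb : H ⧸ Y) * m * (tb : H ⧸ Y)⁻¹) * tb := by group
          _ = m * tb := by rw [h4]
      rw [hπ] at hcomm
      exact claimB Y hY2 x (hXo x hxX) (fun t ht hxt => hinv x hxX hx1 t ht hxt) tb htb' hcomm
    have hLle : φ.ker ≤ Xb := hodd_le _ inferInstance hLodd
    have hXbn : Xb.Normal := by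
      constructor
      intro n hn g
      have h1 : g * n * g⁻¹ * n⁻¹ ∈ φ.ker := by
        rw [MonoidHom.mem_ker, map_mul, map_mul, map_mul, map_inv, map_inv, hAutcomm (φ g) (φ n)]
        group
      have h2 := Xb.mul_mem (hLle h1) hn
      have h3 : g * n * g⁻¹ * n⁻¹ * n = g * n * g⁻¹ := by group
      rwa [h3] at h2
    have hKn : (X ⊔ Y).Normal := by rw [← hcomap]; exact hXbn.comap π
    refine ⟨hKn, fun hN => ⟨?_, h2grp hN⟩⟩
    obtain ⟨ψ, hψ⟩ : ∃ ψ : H →* MulAut M, ψ = φ.comp π := ⟨_, rfl⟩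
    have hψle : ψ.ker ≤ X ⊔ Y := by
      intro g hg
      rw [← hcomap, Subgroup.mem_comap]
      apply hLle
      rw [MonoidHom.mem_ker]
      rw [MonoidHom.mem_ker, hψ] at hg
      exact hg
    have hc1 : IsCyclic (H ⧸ ψ.ker) :=
      isCyclic_of_surjective (QuotientGroup.quotientKerEquivRange ψ).symm (MulEquiv.surjective _)
    have hle' : ψ.ker ≤ (X ⊔ Y).comap (MonoidHom.id H) := by
      rw [Subgroup.comap_id]; exact hψle
    refine isCyclic_of_surjective (QuotientGroup.map ψ.ker (X ⊔ Y) (MonoidHom.id H) hle') ?_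
    intro q
    obtain ⟨h, rfl⟩ := QuotientGroup.mk_surjective q
    exact ⟨(h : H ⧸ ψ.ker), rfl⟩

end aux

theorem result {H : Type*} [Group H] [Finite H] (hsol : Group.IsSolvable H)
    (hO : Cfsg.oddCore H = ⊥)
    (hI : ∀ t : H, orderOf t = 2 → Cfsg.HasNormalPComplement 2 ↥(Subgroup.centralizer ({t} : Set H)))
    (X : Subgroup H) (hXodd : Odd (Nat.card X)) (hXidx : ∃ k : ℕ, X.index = 2 ^ k) :
    (∀ x ∈ X, x ≠ 1 → ∀ y ∈ Cfsg.pCore 2 H, y ≠ 1 → x * y ≠ y * x) ∧
      (∀ (p : ℕ) [Fact p.Prime] (P : Sylow p ↥X), IsCyclic ↥(P : Subgroup ↥X)) ∧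
      (X ⊔ Cfsg.pCore 2 H).Normal ∧
      ∀ hN : (X ⊔ Cfsg.pCore 2 H).Normal, IsCyclic (H ⧸ (X ⊔ Cfsg.pCore 2 H)) ∧ IsPGroup 2 (H ⧸ (X ⊔ Cfsg.pCore 2 H)) := by
  classical
  have hF2 : Fact (Nat.Prime 2) := ⟨Nat.prime_two⟩
  have hYn : (Cfsg.pCore 2 H).Normal := Cfsg.pCore_normal 2 H
  have hY2 : IsPGroup 2 (Cfsg.pCore 2 H) := Cfsg.Agent.Lib.Helper55.pCore_isPGroup 2 H
  have hCY : Subgroup.centralizer (Cfsg.pCore 2 H : Set H) ≤ Cfsg.pCore 2 H := by
    apply Cfsg.Agent.Lib.Helper55.centralizer_pCore_le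
    intro N hN hc
    have h1 : N ≤ Cfsg.oddCore H := le_sSup ⟨hN, hc⟩
    rw [hO] at h1
    exact le_bot_iff.mp h1
  have hXo : ∀ x ∈ X, Odd (orderOf x) := fun x hx =>
    Odd.of_dvd_nat hXodd (Subgroup.orderOf_dvd_natCard X hx)
  have s1 : ∀ x ∈ X, x ≠ 1 → ∀ y ∈ Cfsg.pCore 2 H, y ≠ 1 → x * y ≠ y * x :=
    fun x hx hx1 y hy hy1 => step1 hI _ hY2 hCY x (hXo x hx) hx1 y hy hy1
  by_cases hYne : Cfsg.pCore 2 H = ⊥
  · have hsub : ∀ h : H, h = 1 := by
      intro h
      have h1 : h ∈ Subgroup.centralizer (Cfsg.pCore 2 H : Set H) := by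
        rw [Subgroup.mem_centralizer_iff]
        intro g hg
        have hg' : g ∈ Cfsg.pCore 2 H := hg
        rw [hYne, Subgroup.mem_bot] at hg'
        rw [hg', one_mul, mul_one]
      have h2 := hCY h1
      rw [hYne] at h2; exact Subgroup.mem_bot.mp h2
    have hss : Subsingleton H := ⟨fun a b => by rw [hsub a, hsub b]⟩
    refine ⟨s1, fun p _ P => isCyclic_of_subsingleton, ?_, fun hN => ⟨isCyclic_of_subsingleton, ?_⟩⟩
    · have h1 : X ⊔ Cfsg.pCore 2 H = ⊤ := Subsingleton.elim _ _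
      rw [h1]; infer_instance
    · exact IsPGroup.of_card (n := 0) (by rw [pow_zero]; exact Nat.card_unique)
  · have hZ : ∀ (p : ℕ) [Fact p.Prime] (P : Sylow p ↥X), IsCyclic ↥(P : Subgroup ↥X) := by
      intro p _ P
      exact sylow_cyclic_of_fpf_odd (Cfsg.pCore 2 H) X hYne
        (fun h hh h1 k hk hc => by
          by_contra hk1
          exact s1 h hh h1 k hk hk1 hc) hXodd p P
    have hq := quot_part (Cfsg.pCore 2 H) hY2
      (fun N hN hN2 => Cfsg.Agent.Lib.Helper55.le_pCore hN hN2) X hXodd hXidx hZ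
      (fun x hx hx1 t ht hxt => stepA hI _ hY2 hCY hYne x (hXo x hx) hx1 t ht hxt)
    exact ⟨s1, hZ, hq.1, hq.2⟩

end Cfsg.Agent.S3215
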