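import Mathlib
import Cfsg.Statements.S3225

set_option autoImplicit false
open Cfsg

namespace Cfsg.Agent.S3225

open scoped IsMulCommutative in
theorem aux {G : Type*} [Group G] [Finite G]
    (hG : ∀ H : Subgroup G, H.index ≠ 2) (S : Sylow 2 G) (M : Subgroup G)
    (hM : M.relIndex (S : Subgroup G) = 2)
    (n : ℕ) (hord : ∀ y ∈ (S : Subgroup G), y ∉ M → 2 ^ (n - 1) < orderOf y)
    (x : G) (hx : x ∈ (S : Subgroup G)) (hxn : orderOf x = 2 ^ n) :
    ∃ g : G, g * x * g⁻¹ ∈ M := by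
  classical
  by_contra hcon
  have hcon : ∀ g : G, g * x * g⁻¹ ∉ M := fun g hg => hcon ⟨g, hg⟩
  have hidx : (M.subgroupOf (S : Subgroup G)).index = 2 := hM
  have hnorm : (M.subgroupOf (S : Subgroup G)).Normal := Subgroup.normal_of_index_eq_two hidx
  have hcard2 : Nat.card ((S : Subgroup G) ⧸ M.subgroupOf (S : Subgroup G)) = 2 := hidx
  have : Fact (Nat.Prime 2) := ⟨Nat.prime_two⟩
  have hcyc : IsCyclic ((S : Subgroup G) ⧸ M.subgroupOf (S : Subgroup G)) :=
    isCyclic_of_prime_card hcard2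
  have hcomm : IsMulCommutative ((S : Subgroup G) ⧸ M.subgroupOf (S : Subgroup G)) :=
    ⟨⟨fun a b => (IsCyclic.commGroup).mul_comm a b⟩⟩
  let ϕ : (S : Subgroup G) →* ((S : Subgroup G) ⧸ M.subgroupOf (S : Subgroup G)) :=
    QuotientGroup.mk' (M.subgroupOf (S : Subgroup G))
  have hϕ1 : ∀ s : (S : Subgroup G), ϕ s = 1 ↔ (s : G) ∈ M := by
    intro s
    rw [QuotientGroup.mk'_apply, QuotientGroup.eq_one_iff, Subgroup.mem_subgroupOf]
  -- the element x as an element of S
  set xS : (S : Subgroup G) := ⟨x, hx⟩ with hxS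
  have hxM : x ∉ M := by simpa using hcon 1
  have hσ : ϕ xS ≠ 1 := by
    rw [Ne, hϕ1]; exact hxM
  have hσ2 : ϕ xS ^ 2 = 1 := by
    rw [← map_pow, hϕ1]
    exact Subgroup.mem_subgroupOf.mp (Subgroup.sq_mem_of_index_two hidx xS)
  have : Fintype (Quotient (MulAction.orbitRel (Subgroup.zpowers x) (G ⧸ (S : Subgroup G)))) :=
    Fintype.ofFinite _
  have hgen : ∀ (k : ℕ) (g : G) (hmem : g⁻¹ * x ^ k * g ∈ (S : Subgroup G)), k ∣ 2 ^ n →
      ϕ ⟨g⁻¹ * x ^ k * g, hmem⟩ = ϕ xS ^ k := by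
    intro k g hmem hdvd
    obtain ⟨j, hj, rfl⟩ := (Nat.dvd_prime_pow Nat.prime_two).mp hdvd
    rcases Nat.eq_zero_or_pos j with hj0 | hjpos
    · -- period 1
      subst hj0
      have hnotM : g⁻¹ * x ^ (2 ^ 0) * g ∉ M := by
        simpa using hcon g⁻¹
      have h2 : (ϕ xS)⁻¹ * ϕ ⟨g⁻¹ * x ^ (2 ^ 0) * g, hmem⟩ = 1 := by
        rw [← map_inv, ← map_mul, hϕ1]
        have := (Subgroup.mul_mem_iff_of_index_two hidx (a := xS⁻¹)
          (b := ⟨g⁻¹ * x ^ (2 ^ 0) * g, hmem⟩)).mpr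
          (by
            rw [inv_mem_iff, Subgroup.mem_subgroupOf, Subgroup.mem_subgroupOf]
            exact ⟨fun h => absurd h hxM, fun h => absurd h hnotM⟩)
        exact Subgroup.mem_subgroupOf.mp this
      have hp1 : ϕ xS ^ (2 ^ 0) = ϕ xS := by rw [pow_zero, pow_one]
      rw [hp1]
      exact (inv_mul_eq_one.mp h2).symm
    · -- period 2^j, j ≥ 1
      have hpow : ϕ xS ^ (2 ^ j) = 1 := by
        obtain ⟨i, rfl⟩ : ∃ i, j = i + 1 := ⟨j - 1, by omega⟩
        rw [pow_succ', pow_mul, hσ2, one_pow]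
      rw [hpow, hϕ1]
      by_contra hnotM
      have hlt := hord _ hmem hnotM
      have hord_eq : orderOf (g⁻¹ * x ^ (2 ^ j) * g) = orderOf (x ^ (2 ^ j)) := by
        have := MulEquiv.orderOf_eq (MulAut.conj g⁻¹) (x ^ (2 ^ j))
        simpa [MulAut.conj_apply] using this
      rw [hord_eq, orderOf_pow, hxn] at hlt
      have hgcd : Nat.gcd (2 ^ n) (2 ^ j) = 2 ^ j := Nat.gcd_eq_right (pow_dvd_pow 2 hj)
      rw [hgcd, Nat.pow_div hj (by norm_num)] at hlt
      have : 2 ^ (n - j) ≤ 2 ^ (n - 1) := Nat.pow_le_pow_right (by norm_num) (by omega)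
      omega
  have htr : MonoidHom.transfer ϕ x = ϕ xS ^ (S : Subgroup G).index := by
    rw [MonoidHom.transfer_eq_prod_quotient_orbitRel_zpowers_quot,
      Subgroup.index_eq_sum_minimalPeriod (S : Subgroup G) x, ← Finset.prod_pow_eq_pow_sum]
    refine Finset.prod_congr rfl (fun q _ => ?_)
    apply hgen
    rw [← hxn, ← MulAction.pow_smul_eq_iff_minimalPeriod_dvd, pow_orderOf_eq_one, one_smul]
  have hodd : Odd (S : Subgroup G).index := by
    rw [← Nat.not_even_iff_odd, even_iff_two_dvd]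
    exact S.not_dvd_index
  have htr' : MonoidHom.transfer ϕ x ≠ 1 := by
    rw [htr]
    obtain ⟨m, hm⟩ := hodd
    rw [hm, pow_succ, pow_mul, hσ2, one_pow, one_mul]
    exact hσ
  -- the kernel of the transfer has index 2
  apply hG (MonoidHom.transfer ϕ).ker
  rw [Subgroup.index_ker]
  have hdvd : Nat.card (MonoidHom.transfer ϕ).range ∣ 2 := by
    have := Subgroup.card_subgroup_dvd_card (MonoidHom.transfer ϕ).range
    rwa [hcard2] at this
  have hne1 : Nat.card (MonoidHom.transfer ϕ).range ≠ 1 := by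
    intro h1
    apply htr'
    have hbot : (MonoidHom.transfer ϕ).range = ⊥ := Subgroup.card_eq_one.mp h1
    have : MonoidHom.transfer ϕ x ∈ (MonoidHom.transfer ϕ).range := ⟨x, rfl⟩
    rw [hbot] at this
    exact Subgroup.mem_bot.mp this
  rcases (Nat.dvd_prime Nat.prime_two).mp hdvd with h | h
  · exact absurd h hne1
  · exact h

/-- Let G be a finite group of even order with no subgroup of index 2, S a Sylow 2-subgroup of G and M a subgroup of index 2 in S such that, for some n ≥ 1, every element of S outside M has order greater than 2^(n−1). Then every element of S of order 2ⁿ is conjugate in G to an element of M. -/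
theorem result {G : Type*} [Group G] [Finite G] (hev : Even (Nat.card G))
    (hG : ∀ H : Subgroup G, H.index ≠ 2) (S : Sylow 2 G) (M : Subgroup G) (hMS : M ≤ (S : Subgroup G)) (hM : M.relIndex (S : Subgroup G) = 2)
    (n : ℕ) (hn : 1 ≤ n) (hord : ∀ y ∈ (S : Subgroup G), y ∉ M → 2 ^ (n - 1) < orderOf y)
    (x : G) (hx : x ∈ (S : Subgroup G)) (hxn : orderOf x = 2 ^ n) :
    ∃ g : G, g * x * g⁻¹ ∈ M := by
  exact aux hG S M hM n hord x hx hxn

end Cfsg.Agent.S3225
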