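import Cfsg.Statements.S3246
import Cfsg.Agent.Lib.Helper23.CharTwo

set_option autoImplicit false
open Cfsg

namespace Cfsg.Agent.S3246

/-- Let G be a finite group whose Sylow 2-subgroup S has a self-centralizing normal subgroup of rank at least 3. Suppose that either every maximal 2-local subgroup of G is 2-constrained with no nontrivial normal subgroup of odd order, or the centralizer of every involution of G is 2-constrained with no nontrivial normal subgroup of odd order. Then S normalizes no nontrivial subgroup of G of odd order and every 2-local subgroup of G is 2-constrained. -/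
theorem result {G : Type*} [Group G] [Finite G]
    (S : Sylow 2 G) (A : Subgroup G) (hA : Cfsg.IsSCN (S : Subgroup G) A) (hA3 : ¬ Cfsg.PRankLE 2 2 ↥A)
    (h : (∀ M : Subgroup G, Cfsg.IsMaximalTwoLocal M → Cfsg.IsPConstrained 2 ↥M ∧ Cfsg.oddCore ↥M = ⊥) ∨
      (∀ t : G, orderOf t = 2 → Cfsg.IsPConstrained 2 ↥(Subgroup.centralizer ({t} : Set G)) ∧
        Cfsg.oddCore ↥(Subgroup.centralizer ({t} : Set G)) = ⊥)) :
    (∀ X : Subgroup G, Odd (Nat.card ↥X) → (S : Subgroup G) ≤ Subgroup.normalizer (X : Set G) → X = ⊥) ∧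
      (∀ T : Subgroup G, IsPGroup 2 ↥T → T ≠ ⊥ → Cfsg.IsPConstrained 2 ↥(Subgroup.normalizer (T : Set G))) := by
  have hcent : ∀ t : G, orderOf t = 2 →
      Cfsg.IsPConstrained 2 ↥(Subgroup.centralizer ({t} : Set G)) ∧
        Cfsg.oddCore ↥(Subgroup.centralizer ({t} : Set G)) = ⊥ := by
    rcases h with hi | hii
    · exact fun t ht => Cfsg.Agent.Lib.Helper23.cent_of_maxLocal hi t ht
    · exact hii
  have hrk : ¬ Cfsg.PRankLE 2 2 ↥(S : Subgroup G) := by
    obtain ⟨D, hD, hDA, hDcard⟩ := Cfsg.Agent.Lib.Helper23.exists_EA_of_not_pRankLE 2 hA3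
    exact Cfsg.Agent.Lib.Helper23.not_pRankLE_of_le 2 hD (hDA.trans hA.1) hDcard
  refine ⟨fun X hX hSX => ?_, fun T hT hT1 => ?_⟩
  · exact Cfsg.Agent.Lib.Helper23.eq_bot_of_sylow_normalizes S hrk
      (fun t ht => Cfsg.Agent.Lib.Helper23.exists_charp_core 2 _ (hcent t ht).1 (hcent t ht).2)
      X hX hSX
  · have hnt : Nontrivial ↥T := (Subgroup.nontrivial_iff_ne_bot T).mpr hT1
    have hcn : Nontrivial ↥(Subgroup.center ↥T) := hT.center_nontrivial
    have hcp : IsPGroup 2 ↥(Subgroup.center ↥T) := hT.to_subgroup _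
    have hdvd : 2 ∣ Nat.card ↥(Subgroup.center ↥T) := by
      rcases hcp.card_eq_or_dvd with h1 | h1
      · exfalso
        have := Finite.one_lt_card_iff_nontrivial.mpr hcn
        omega
      · exact h1
    obtain ⟨z, hz⟩ := exists_prime_orderOf_dvd_card' 2 hdvd
    have hxZ : ∀ t ∈ T, t * ((z : ↥T) : G) = ((z : ↥T) : G) * t := by
      intro t ht
      have h2 := Subgroup.mem_center_iff.mp z.2 ⟨t, ht⟩
      exact congrArg Subtype.val h2
    have hx : orderOf ((z : ↥T) : G) = 2 := by
      rw [Subgroup.orderOf_coe, Subgroup.orderOf_coe]; exact hz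
    exact Cfsg.Agent.Lib.Helper49.isPConstrained_normalizer_of_centralizer ((z : ↥T) : G) T hT
      (z : ↥T).2 hxZ (hcent _ hx).1

end Cfsg.Agent.S3246
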