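import Cfsg.Statements.S3247
import Mathlib
import Cfsg.Agent.Lib.Helper49.PConstr

set_option autoImplicit false
open Cfsg

namespace Cfsg.Agent.S3247

/-- Let G be a finite group and p a prime; here a p-local subgroup means the normalizer of a nontrivial p-subgroup, other than G itself. If every p-local subgroup of G that is maximal among p-local subgroups is p-constrained, or if the centralizer of every element of order p of G is p-constrained, then every p-local subgroup of G is p-constrained. -/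
theorem result {G : Type*} [Group G] [Finite G] (p : ℕ) [hp : Fact p.Prime]
    (h : (∀ M : Subgroup G, (∃ T : Subgroup G, IsPGroup p ↥T ∧ T ≠ ⊥ ∧ M = Subgroup.normalizer (T : Set G)) → M ≠ ⊤ →
        (∀ M' : Subgroup G, (∃ T' : Subgroup G, IsPGroup p ↥T' ∧ T' ≠ ⊥ ∧ M' = Subgroup.normalizer (T' : Set G)) → M' ≠ ⊤ → M ≤ M' → M = M') →
        Cfsg.IsPConstrained p ↥M) ∨
      (∀ x : G, orderOf x = p → Cfsg.IsPConstrained p ↥(Subgroup.centralizer ({x} : Set G))))
    (T : Subgroup G) (hT : IsPGroup p ↥T) (hT1 : T ≠ ⊥) (hTG : Subgroup.normalizer (T : Set G) ≠ ⊤) :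
    Cfsg.IsPConstrained p ↥(Subgroup.normalizer (T : Set G)) := by
  rcases h with hA | hB
  · obtain ⟨M, hNM, hMmax⟩ := Set.Finite.exists_le_maximal
      (s := {M' : Subgroup G | (∃ T' : Subgroup G, IsPGroup p ↥T' ∧ T' ≠ ⊥ ∧
        M' = Subgroup.normalizer (T' : Set G)) ∧ M' ≠ ⊤}) (Set.toFinite _)
      (a := Subgroup.normalizer (T : Set G)) ⟨⟨T, hT, hT1, rfl⟩, hTG⟩
    have hMc := hA M hMmax.prop.1 hMmax.prop.2
      (fun M' h1 h2 h3 => le_antisymm h3 (hMmax.le_of_ge ⟨h1, h2⟩ h3))
    exact Cfsg.Agent.Lib.Helper49.isPConstrained_normalizer_of_le M hMc T hT hNM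
  · have hnt : Nontrivial ↥T := (Subgroup.nontrivial_iff_ne_bot T).mpr hT1
    have hcn : Nontrivial ↥(Subgroup.center ↥T) := hT.center_nontrivial
    have hcp : IsPGroup p ↥(Subgroup.center ↥T) := hT.to_subgroup _
    have hdvd : p ∣ Nat.card ↥(Subgroup.center ↥T) := by
      rcases hcp.card_eq_or_dvd with h1 | h1
      · exfalso
        have := Finite.one_lt_card_iff_nontrivial.mpr hcn
        omega
      · exact h1
    obtain ⟨z, hz⟩ := exists_prime_orderOf_dvd_card' p hdvd
    have hxZ : ∀ t ∈ T, t * ((z : ↥T) : G) = ((z : ↥T) : G) * t := by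
      intro t ht
      have h2 := Subgroup.mem_center_iff.mp z.2 ⟨t, ht⟩
      exact congrArg Subtype.val h2
    have hx : orderOf ((z : ↥T) : G) = p := by
      rw [Subgroup.orderOf_coe, Subgroup.orderOf_coe]; exact hz
    exact Cfsg.Agent.Lib.Helper49.isPConstrained_normalizer_of_centralizer ((z : ↥T) : G) T hT
      (z : ↥T).2 hxZ (hB _ hx)

end Cfsg.Agent.S3247
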