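import Cfsg.Statements.S3265
import Cfsg.Agent.Lib.Helper93.OddF

set_option autoImplicit false
open Cfsg

namespace Cfsg.Agent.S3265

/-- Let n ≥ 5 and let X be a conjugacy class of involutions of the symmetric group of degree n. The graph on X joining two distinct involutions whose product has odd order is connected and has diameter exactly 2. -/
theorem result (n : ℕ) (hn : 5 ≤ n) (t : Equiv.Perm (Fin n)) (ht : orderOf t = 2) :
    (SimpleGraph.fromRel fun x y : {x : Equiv.Perm (Fin n) // IsConj t x} =>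
        Odd (orderOf (x.1 * y.1))).Connected ∧
      (SimpleGraph.fromRel fun x y : {x : Equiv.Perm (Fin n) // IsConj t x} =>
        Odd (orderOf (x.1 * y.1))).diam = 2 := by
  classical
  have htt : t * t = 1 := by rw [← pow_two, ← ht]; exact pow_orderOf_eq_one t
  have hadj : ∀ a b : {x : Equiv.Perm (Fin n) // IsConj t x},
      (SimpleGraph.fromRel fun x y : {x : Equiv.Perm (Fin n) // IsConj t x} =>
        Odd (orderOf (x.1 * y.1))).Adj a b ↔
      a ≠ b ∧ (Odd (orderOf (a.1 * b.1)) ∨ Odd (orderOf (b.1 * a.1))) := fun a b =>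
    SimpleGraph.fromRel_adj _ a b
  generalize (SimpleGraph.fromRel fun x y : {x : Equiv.Perm (Fin n) // IsConj t x} =>
        Odd (orderOf (x.1 * y.1))) = G at hadj ⊢
  have : Nonempty {x : Equiv.Perm (Fin n) // IsConj t x} := ⟨⟨t, IsConj.refl t⟩⟩
  -- any two vertices are at distance at most 2
  have h2 : ∀ a b : {x : Equiv.Perm (Fin n) // IsConj t x}, G.edist a b ≤ 2 := by
    intro a b
    obtain ⟨z, hz, h1, h2⟩ :=
      Cfsg.Agent.Lib.Helper93.OddG.exists_common_conj hn t ht a.1 b.1 a.2 b.2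
    have e1 : G.edist a ⟨z, hz⟩ ≤ 1 := by
      rw [SimpleGraph.edist_le_one_iff_adj_or_eq]
      by_cases h : a = ⟨z, hz⟩
      · exact Or.inr h
      · exact Or.inl ((hadj _ _).mpr ⟨h, Or.inl h1⟩)
    have e2 : G.edist ⟨z, hz⟩ b ≤ 1 := by
      rw [SimpleGraph.edist_le_one_iff_adj_or_eq]
      by_cases h : (⟨z, hz⟩ : {x : Equiv.Perm (Fin n) // IsConj t x}) = b
      · exact Or.inr h
      · exact Or.inl ((hadj _ _).mpr ⟨h, Or.inr h2⟩)
    calc G.edist a b ≤ G.edist a ⟨z, hz⟩ + G.edist ⟨z, hz⟩ b := SimpleGraph.edist_triangle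
      _ ≤ 1 + 1 := add_le_add e1 e2
      _ = 2 := one_add_one_eq_two
  have hd : G.ediam ≤ 2 := SimpleGraph.ediam_le_of_edist_le h2
  have hne : G.ediam ≠ ⊤ := fun h => by
    rw [h] at hd
    exact absurd hd (by decide)
  have hconn : G.Connected := SimpleGraph.connected_of_ediam_ne_top hne
  refine ⟨hconn, ?_⟩
  -- two distinct non-adjacent vertices
  obtain ⟨t', hc, hne', o1, o2⟩ := Cfsg.Agent.Lib.Helper93.OddG.exists_comm_conj hn t ht
  have hnadj : ¬ G.Adj ⟨t, IsConj.refl t⟩ ⟨t', hc⟩ := by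
    rw [hadj]
    rintro ⟨-, h | h⟩
    · rw [o1] at h; exact absurd h (by decide)
    · rw [o2] at h; exact absurd h (by decide)
  have hne2 : (⟨t, IsConj.refl t⟩ : {x : Equiv.Perm (Fin n) // IsConj t x}) ≠ ⟨t', hc⟩ := by
    intro h
    exact hne' (congrArg Subtype.val h).symm
  have hlow : 1 < G.dist ⟨t, IsConj.refl t⟩ ⟨t', hc⟩ :=
    hconn.one_lt_dist_of_ne_of_not_adj hne2 hnadj
  have hle : G.dist ⟨t, IsConj.refl t⟩ ⟨t', hc⟩ ≤ G.diam := SimpleGraph.dist_le_diam hne
  have hup : G.diam ≤ 2 := ENat.toNat_le_of_le_natCast (by exact_mod_cast hd)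
  omega

end Cfsg.Agent.S3265
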