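-- Statement S3276: commuting non-conjugate involutions, normal closure elementary abelian.
import Cfsg.Statements.S3276
import Mathlib

set_option autoImplicit false
open Cfsg

namespace Cfsg.Agent.S3276

/-- Let x and y be commuting, non-conjugate involutions of a finite group G, and suppose that for every involution u commuting with x, each conjugate of y that commutes with u also commutes with y. Then the normal closure of y is a proper, normal, elementary abelian 2-subgroup of G; and if y is the only involution of that normal closure commuting with x, it has order at most 4. -/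
theorem result {G : Type*} [Group G] [Finite G] (x y : G) (hx : orderOf x = 2) (hy : orderOf y = 2)
    (hxy : Commute x y) (hnc : ¬ IsConj x y)
    (hstar : ∀ u : G, orderOf u = 2 → Commute u x → ∀ g : G, Commute (g * y * g⁻¹) u → Commute (g * y * g⁻¹) y) :
    Subgroup.normalClosure ({y} : Set G) ≠ ⊤ ∧ Cfsg.IsElementaryAbelian 2 (Subgroup.normalClosure ({y} : Set G)) ∧
      ((∀ u ∈ Subgroup.normalClosure ({y} : Set G), orderOf u = 2 → Commute u x → u = y) →
        Nat.card ↥(Subgroup.normalClosure ({y} : Set G)) ≤ 4) := by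
  have hx2 : x * x = 1 := by
    have := pow_orderOf_eq_one x; rw [hx] at this; simpa [pow_two] using this
  have hy2 : y * y = 1 := by
    have := pow_orderOf_eq_one y; rw [hy] at this; simpa [pow_two] using this
  have hx1 : x ≠ 1 := by rintro rfl; simp at hx
  have hxinv : x⁻¹ = x := inv_eq_of_mul_eq_one_left hx2
  have hyinv : y⁻¹ = y := inv_eq_of_mul_eq_one_left hy2
  -- Step 1: every conjugate of y commutes with y
  have key : ∀ g : G, Commute (g * y * g⁻¹) y := by
    intro g
    obtain ⟨y', hy'⟩ : ∃ y', y' = g * y * g⁻¹ := ⟨_, rfl⟩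
    rw [← hy']
    have hy'2 : y' * y' = 1 := by
      rw [hy']
      calc g * y * g⁻¹ * (g * y * g⁻¹) = g * (y * y) * g⁻¹ := by group
        _ = 1 := by rw [hy2]; group
    have hy'inv : y'⁻¹ = y' := inv_eq_of_mul_eq_one_left hy'2
    obtain ⟨d, hd⟩ : ∃ d, d = x * y' := ⟨_, rfl⟩
    have hdinv : d⁻¹ = y' * x := by rw [hd, mul_inv_rev, hxinv, hy'inv]
    have hxd : x * d * x⁻¹ = d⁻¹ := by
      rw [hdinv, hd, hxinv]
      calc x * (x * y') * x = (x * x) * y' * x := by group
        _ = y' * x := by rw [hx2, one_mul]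
    have hyd : y' * d * y'⁻¹ = d⁻¹ := by
      rw [hdinv, hd, hy'inv]
      calc y' * (x * y') * y' = y' * x * (y' * y') := by group
        _ = y' * x := by rw [hy'2, mul_one]
    have hm : 0 < orderOf d := orderOf_pos d
    rcases Nat.even_or_odd (orderOf d) with hev | hodd
    · obtain ⟨k, hk⟩ := hev
      have hk0 : 0 < k := by omega
      obtain ⟨u, hu⟩ : ∃ u, u = d ^ k := ⟨_, rfl⟩
      have hu2 : u * u = 1 := by rw [hu, ← pow_add, ← hk, pow_orderOf_eq_one]
      have huinv : u⁻¹ = u := inv_eq_of_mul_eq_one_left hu2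
      have hu1 : u ≠ 1 := by
        intro h
        rw [hu] at h
        have h1 := orderOf_dvd_of_pow_eq_one h
        have h2 := Nat.le_of_dvd hk0 h1
        omega
      have huo : orderOf u = 2 := orderOf_eq_prime (by rw [pow_two]; exact hu2) hu1
      have hxu : x * u * x⁻¹ = u := by
        have h1 : x * u * x⁻¹ = (x * d * x⁻¹) ^ k := by rw [hu]; exact (conj_pow).symm
        rw [h1, hxd, inv_pow, ← hu, huinv]
      have hyu : y' * u * y'⁻¹ = u := by
        have h1 : y' * u * y'⁻¹ = (y' * d * y'⁻¹) ^ k := by rw [hu]; exact (conj_pow).symm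
        rw [h1, hyd, inv_pow, ← hu, huinv]
      have c1 : Commute u x := (mul_inv_eq_iff_eq_mul.mp hxu).symm
      have c2 : Commute y' u := mul_inv_eq_iff_eq_mul.mp hyu
      have := hstar u huo c1 g (hy' ▸ c2)
      rw [hy']; exact this
    · exfalso
      obtain ⟨k, hk⟩ := hodd
      obtain ⟨e, he⟩ : ∃ e, e = d ^ (k + 1) := ⟨_, rfl⟩
      have he2 : e * e = d := by
        rw [he, ← pow_add]
        have h1 : k + 1 + (k + 1) = orderOf d + 1 := by omega
        rw [h1, pow_succ, pow_orderOf_eq_one, one_mul]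
      have hxe : x * e * x⁻¹ = e⁻¹ := by
        rw [he, ← conj_pow, hxd, inv_pow]
      apply hnc
      have h1 : e⁻¹ * x * e = y' := by
        have h2 : x * e = e⁻¹ * x := by rw [← hxe]; group
        calc e⁻¹ * x * e = e⁻¹ * (x * e) := by group
          _ = e⁻¹ * (e⁻¹ * x) := by rw [h2]
          _ = (e * e)⁻¹ * x := by group
          _ = d⁻¹ * x := by rw [he2]
          _ = y' := by rw [hdinv, mul_assoc, hx2, mul_one]
      rw [isConj_iff]
      refine ⟨g⁻¹ * e⁻¹, ?_⟩
      calc g⁻¹ * e⁻¹ * x * (g⁻¹ * e⁻¹)⁻¹ = g⁻¹ * (e⁻¹ * x * e) * g := by group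
        _ = g⁻¹ * y' * g := by rw [h1]
        _ = y := by rw [hy']; group
  -- Step 2: the normal closure is commutative of exponent 2
  have hgen : ∀ a ∈ Group.conjugatesOfSet ({y} : Set G), ∃ g, a = g * y * g⁻¹ := by
    intro a ha
    rw [Group.mem_conjugatesOfSet_iff] at ha
    obtain ⟨b, hb, hab⟩ := ha
    rw [Set.mem_singleton_iff] at hb; subst hb
    rw [isConj_iff] at hab
    obtain ⟨c, hc⟩ := hab; exact ⟨c, hc.symm⟩
  have hgencomm : ∀ a ∈ Group.conjugatesOfSet ({y} : Set G),
      ∀ b ∈ Group.conjugatesOfSet ({y} : Set G), a * b = b * a := by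
    intro a ha b hb
    obtain ⟨g, rfl⟩ := hgen a ha
    obtain ⟨h, rfl⟩ := hgen b hb
    have h1 := (key (h⁻¹ * g)).eq
    calc g * y * g⁻¹ * (h * y * h⁻¹) = h * ((h⁻¹ * g) * y * (h⁻¹ * g)⁻¹ * y) * h⁻¹ := by group
      _ = h * (y * ((h⁻¹ * g) * y * (h⁻¹ * g)⁻¹)) * h⁻¹ := by rw [h1]
      _ = h * y * h⁻¹ * (g * y * g⁻¹) := by group
  obtain ⟨N, hN⟩ : ∃ N, N = Subgroup.normalClosure ({y} : Set G) := ⟨_, rfl⟩
  rw [← hN]
  have hNcl : N = Subgroup.closure (Group.conjugatesOfSet ({y} : Set G)) := hN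
  have hNcomm : ∀ a ∈ N, ∀ b ∈ N, a * b = b * a := by
    intro a ha b hb
    have h1 : Group.conjugatesOfSet ({y} : Set G) ⊆
        Subgroup.centralizer (Group.conjugatesOfSet ({y} : Set G)) := by
      intro a ha
      rw [SetLike.mem_coe, Subgroup.mem_centralizer_iff]
      intro b hb
      exact hgencomm b hb a ha
    have h2 : N ≤ Subgroup.centralizer (Group.conjugatesOfSet ({y} : Set G)) := by
      rw [hNcl]; exact (Subgroup.closure_le _).mpr h1
    have h3 : Group.conjugatesOfSet ({y} : Set G) ⊆ Subgroup.centralizer (N : Set G) := by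
      intro c hc
      rw [SetLike.mem_coe, Subgroup.mem_centralizer_iff]
      intro n hn
      have h := h2 hn
      rw [Subgroup.mem_centralizer_iff] at h
      exact (h c hc).symm
    have h4 : N ≤ Subgroup.centralizer (N : Set G) := by
      conv_lhs => rw [hNcl]
      exact (Subgroup.closure_le _).mpr h3
    have h := h4 hb
    rw [Subgroup.mem_centralizer_iff] at h
    exact h a ha
  have hNsq' : ∀ a ∈ Subgroup.closure (Group.conjugatesOfSet ({y} : Set G)), a ^ 2 = 1 := by
    intro a ha'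
    induction ha' using Subgroup.closure_induction with
    | mem c hc =>
      obtain ⟨g, rfl⟩ := hgen c hc
      rw [pow_two]
      calc g * y * g⁻¹ * (g * y * g⁻¹) = g * (y * y) * g⁻¹ := by group
        _ = 1 := by rw [hy2]; group
    | one => simp
    | mul c d hc hd ihc ihd =>
      have hcd : Commute c d := hNcomm c (hNcl ▸ hc) d (hNcl ▸ hd)
      rw [hcd.mul_pow, ihc, ihd, one_mul]
    | inv c hc ihc => rw [inv_pow, ihc, inv_one]
  have hNsq : ∀ a ∈ N, a ^ 2 = 1 := fun a ha => hNsq' a (hNcl ▸ ha)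
  -- Step 3: N is proper
  have hNtop : N ≠ ⊤ := by
    intro htop
    have hall : ∀ a b : G, a * b = b * a := fun a b =>
      hNcomm a (htop ▸ Subgroup.mem_top a) b (htop ▸ Subgroup.mem_top b)
    have hsub : Group.conjugatesOfSet ({y} : Set G) ⊆ ((Subgroup.zpowers y : Subgroup G) : Set G) := by
      intro a ha
      obtain ⟨g, rfl⟩ := hgen a ha
      have h : g * y * g⁻¹ = y := by rw [hall g y, mul_assoc, mul_inv_cancel, mul_one]
      rw [h]; exact Subgroup.mem_zpowers y
    have hle : N ≤ Subgroup.zpowers y := by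
      rw [hNcl]; exact (Subgroup.closure_le _).mpr hsub
    have hxN : x ∈ Subgroup.zpowers y := hle (htop ▸ Subgroup.mem_top x)
    obtain ⟨k, hk⟩ := Subgroup.mem_zpowers_iff.mp hxN
    rcases Int.emod_two_eq_zero_or_one k with h0 | h1
    · have h : y ^ k = 1 := by
        obtain ⟨j, rfl⟩ : ∃ j, k = 2 * j := ⟨k / 2, by omega⟩
        rw [zpow_mul, zpow_two, hy2, one_zpow]
      exact hx1 (hk ▸ h)
    · have h : y ^ k = y := by
        obtain ⟨j, rfl⟩ : ∃ j, k = 2 * j + 1 := ⟨k / 2, by omega⟩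
        rw [zpow_add, zpow_mul, zpow_two, hy2, one_zpow, one_mul, zpow_one]
      apply hnc
      rw [← hk, h]
  refine ⟨hNtop, ⟨⟨⟨fun a b => Subtype.ext (hNcomm a a.2 b b.2)⟩⟩, hNsq⟩, ?_⟩
  -- Step 4: the bound
  intro huniq
  have hNnormal : N.Normal := hN ▸ Subgroup.normalClosure_normal
  have hconjN : ∀ n ∈ N, x * n * x⁻¹ ∈ N := fun n hn => hNnormal.conj_mem n hn x
  have hinvN : ∀ n ∈ N, n⁻¹ = n := fun n hn => by
    have h := hNsq n hn
    rw [pow_two] at h
    exact inv_eq_of_mul_eq_one_left h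
  have hcx : ∀ n ∈ N, Commute n x → n = 1 ∨ n = y := by
    intro n hn hc
    by_cases h1 : n = 1
    · exact Or.inl h1
    · right; exact huniq n hn (orderOf_eq_prime (hNsq n hn) h1) hc
  obtain ⟨φ, hφ⟩ : ∃ φ : G → G, ∀ n, φ n = n * (x * n * x⁻¹) := ⟨fun n => n * (x * n * x⁻¹), fun _ => rfl⟩
  have hφN : ∀ n ∈ N, φ n ∈ N := fun n hn => by
    rw [hφ]; exact N.mul_mem hn (hconjN n hn)
  have hφx : ∀ n ∈ N, Commute (φ n) x := by
    intro n hn
    show φ n * x = x * φ n
    rw [hφ]
    have h1 : n * (x * n * x⁻¹) = (x * n * x⁻¹) * n := hNcomm n hn _ (hconjN n hn)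
    calc n * (x * n * x⁻¹) * x = (x * n * x⁻¹) * n * x := by rw [h1]
      _ = x * n * (x⁻¹ * n * x) := by group
      _ = x * n * (x * n * x⁻¹) := by rw [hxinv]
      _ = x * (n * (x * n * x⁻¹)) := by group
  have hφ1 : ∀ n ∈ N, φ n = 1 ∨ φ n = y := fun n hn => hcx _ (hφN n hn) (hφx n hn)
  have hφker : ∀ n ∈ N, φ n = 1 → n = 1 ∨ n = y := by
    intro n hn h
    apply hcx n hn
    rw [hφ] at h
    have h2 : x * n * x⁻¹ = n⁻¹ := eq_inv_of_mul_eq_one_right h
    rw [hinvN n hn] at h2
    exact (mul_inv_eq_iff_eq_mul.mp h2).symm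
  have hφmul : ∀ n ∈ N, ∀ m ∈ N, φ (n * m) = φ n * φ m := by
    intro n hn m hm
    rw [hφ, hφ, hφ]
    have h1 : m * (x * n * x⁻¹) = (x * n * x⁻¹) * m := hNcomm m hm _ (hconjN n hn)
    calc n * m * (x * (n * m) * x⁻¹) = n * (m * (x * n * x⁻¹)) * (x * m * x⁻¹) := by group
      _ = n * ((x * n * x⁻¹) * m) * (x * m * x⁻¹) := by rw [h1]
      _ = n * (x * n * x⁻¹) * (m * (x * m * x⁻¹)) := by group
  have hcard : Nat.card N = (N : Set G).ncard := Nat.card_coe_set_eq (N : Set G)
  rw [hcard]
  by_cases hex : ∃ n₀ ∈ N, φ n₀ = y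
  · obtain ⟨n₀, hn₀, hφn₀⟩ := hex
    have hsub : (N : Set G) ⊆ {1, y, n₀, y * n₀} := by
      intro n hn
      rcases hφ1 n hn with h | h
      · rcases hφker n hn h with h | h
        · simp [h]
        · simp [h]
      · have h2 : φ (n * n₀) = 1 := by rw [hφmul n hn n₀ hn₀, h, hφn₀, hy2]
        rcases hφker _ (N.mul_mem hn hn₀) h2 with h3 | h3
        · have h4 : n = n₀ := by rw [← hinvN n₀ hn₀]; exact eq_inv_of_mul_eq_one_left h3
          simp [h4]
        · have h4 : n = y * n₀ := by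
            rw [← hinvN n₀ hn₀, ← h3]; group
          simp [h4]
    have h1 := Set.ncard_insert_le (1 : G) {y, n₀, y * n₀}
    have h2 := Set.ncard_insert_le y {n₀, y * n₀}
    have h3 := Set.ncard_insert_le n₀ {y * n₀}
    have h4 := Set.ncard_singleton (y * n₀)
    have h5 := Set.ncard_le_ncard hsub (Set.toFinite _)
    omega
  · have hex' : ∀ n ∈ N, φ n ≠ y := fun n hn h => hex ⟨n, hn, h⟩
    have hsub : (N : Set G) ⊆ {1, y} := by
      intro n hn
      rcases hφ1 n hn with h | h
      · rcases hφker n hn h with h | h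
        · simp [h]
        · simp [h]
      · exact absurd h (hex' n hn)
    have h1 := Set.ncard_insert_le (1 : G) {y}
    have h2 := Set.ncard_singleton y
    have h5 := Set.ncard_le_ncard hsub (Set.toFinite _)
    omega

end Cfsg.Agent.S3276
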