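-- Statement S3305: cyclic Sylow 2-intersections pass to quotients.
import Cfsg.Statements.S3305
import Mathlib

set_option autoImplicit false
open Cfsg

namespace Cfsg.Agent.S3305

/-- If any two distinct Sylow 2-subgroups of the finite group G intersect in a cyclic group, then the same holds in every quotient group G/H, H a normal subgroup of G. -/
theorem result {G : Type*} [Group G] [Finite G]
    (hC : ∀ S T : Sylow 2 G, S ≠ T → IsCyclic ↥((S : Subgroup G) ⊓ (T : Subgroup G))) (H : Subgroup G) [H.Normal] :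
    ∀ S T : Sylow 2 (G ⧸ H), S ≠ T → IsCyclic ↥((S : Subgroup (G ⧸ H)) ⊓ (T : Subgroup (G ⧸ H))) := by
  intro S' T' hne
  have : Fact (Nat.Prime 2) := ⟨Nat.prime_two⟩
  have hsurj : Function.Surjective (QuotientGroup.mk' H) := QuotientGroup.mk'_surjective H
  obtain ⟨S, hS⟩ := Sylow.mapSurjective_surjective hsurj 2 S'
  obtain ⟨T, hT⟩ := Sylow.mapSurjective_surjective hsurj 2 T'
  have hS' : (S : Subgroup G).map (QuotientGroup.mk' H) = S' := by
    rw [← hS]; rfl
  have hT' : (T : Subgroup G).map (QuotientGroup.mk' H) = T' := by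
    rw [← hT]; rfl
  -- K = preimage of S'
  set K : Subgroup G := (S' : Subgroup (G ⧸ H)).comap (QuotientGroup.mk' H) with hK
  set B : Subgroup G := (T : Subgroup G) ⊓ K with hB
  have hSK : (S : Subgroup G) ≤ K := by
    rw [hK, ← Subgroup.map_le_iff_le_comap, hS']
  have hBK : B ≤ K := inf_le_right
  have hBT : B ≤ T := inf_le_left
  have hBp : IsPGroup 2 B := T.2.to_le hBT
  have hBp' : IsPGroup 2 (B.subgroupOf K) :=
    hBp.comap_of_injective K.subtype K.subtype_injective
  obtain ⟨Q, hQ⟩ := hBp'.exists_le_sylow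
  obtain ⟨g, hg⟩ := MulAction.exists_smul_eq K (S.subtype hSK) Q
  rw [Sylow.smul_subtype] at hg
  have hgdef : (g • S : Sylow 2 G) = (g : G) • S := rfl
  -- B ≤ g • S
  have hBgS : B ≤ (((g : G) • S : Sylow 2 G) : Subgroup G) := by
    intro b hb
    have h1 : (⟨b, hBK hb⟩ : K) ∈ B.subgroupOf K := by
      rw [Subgroup.mem_subgroupOf]; exact hb
    have h2 := hQ h1
    rw [← hg, Sylow.coe_subtype, Subgroup.mem_subgroupOf] at h2
    exact h2
  have hgS' : QuotientGroup.mk' H (g : G) ∈ (S' : Subgroup (G ⧸ H)) := g.2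
  have hne' : ((g : G) • S : Sylow 2 G) ≠ T := by
    intro heq
    apply hne
    symm
    have hle : (T' : Subgroup (G ⧸ H)) ≤ S' := by
      rw [← hT', Subgroup.map_le_iff_le_comap]
      intro t ht
      rw [← heq] at ht
      have ht' : t ∈ (((g : G) • S : Sylow 2 G) : Subgroup G) := ht
      rw [Sylow.coe_subgroup_smul] at ht'
      obtain ⟨s, hs, rfl⟩ := ht'
      show QuotientGroup.mk' H _ ∈ (S' : Subgroup (G ⧸ H))
      simp only [MulDistribMulAction.toMonoidEnd_apply, MulDistribMulAction.toMonoidHom_apply,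
        MulAut.smul_def, MulAut.conj_apply, map_mul, map_inv]
      have hs' : QuotientGroup.mk' H s ∈ (S' : Subgroup (G ⧸ H)) := by
        rw [← hS']; exact Subgroup.mem_map_of_mem _ hs
      exact mul_mem (mul_mem hgS' hs') (inv_mem hgS')
    exact Sylow.ext (T'.3 S'.2 hle).symm
  have hcyc := hC ((g : G) • S) T hne'
  have hBle : B ≤ (((g : G) • S : Sylow 2 G) : Subgroup G) ⊓ (T : Subgroup G) := le_inf hBgS hBT
  have hBc : IsCyclic B := by
    have e := Subgroup.subgroupOfEquivOfLe hBle
    exact isCyclic_of_surjective e e.surjective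
  -- the image of B is S' ⊓ T'
  have hmap : B.map (QuotientGroup.mk' H) = (S' : Subgroup (G ⧸ H)) ⊓ (T' : Subgroup (G ⧸ H)) := by
    apply le_antisymm
    · rw [Subgroup.map_le_iff_le_comap]
      intro b hb
      refine ⟨hBK hb, ?_⟩
      rw [← hT']
      exact Subgroup.mem_map_of_mem _ (hBT hb)
    · intro d hd
      have hd2 : d ∈ (T : Subgroup G).map (QuotientGroup.mk' H) := by rw [hT']; exact hd.2
      obtain ⟨t, ht, rfl⟩ := hd2
      exact Subgroup.mem_map_of_mem _ ⟨ht, hd.1⟩
  rw [← hmap]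
  exact isCyclic_of_surjective ((QuotientGroup.mk' H).subgroupMap B)
    ((QuotientGroup.mk' H).subgroupMap_surjective B)

end Cfsg.Agent.S3305
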