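-- Statement S3303: solvable groups with cyclic Sylow 2-intersections.
import Cfsg.Statements.S3303
import Cfsg.Agent.S3305
import Cfsg.Agent.Lib.Helper55.Cores

set_option autoImplicit false
open Cfsg

namespace Cfsg.Agent.S3303

/-- Let G be a finite solvable group in which the intersection of any two distinct Sylow 2-subgroups is cyclic. Then G/O(G) has a normal Sylow 2-subgroup, where O(G) is the largest normal subgroup of odd order. -/
theorem result {G : Type*} [Group G] [Finite G] (hs : Group.IsSolvable G)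
    (hC : ∀ S T : Sylow 2 G, S ≠ T → IsCyclic ↥((S : Subgroup G) ⊓ (T : Subgroup G))) :
    ∃ P : Sylow 2 (G ⧸ Cfsg.oddCore G), (P : Subgroup (G ⧸ Cfsg.oddCore G)).Normal := by
  have : Fact (Nat.Prime 2) := ⟨Nat.prime_two⟩
  have hC' := Cfsg.Agent.S3305.result hC (Cfsg.oddCore G)
  have hO : ∀ N : Subgroup (G ⧸ Cfsg.oddCore G), N.Normal → (Nat.card N).Coprime 2 → N = ⊥ :=
    Cfsg.Agent.Lib.Helper55.eq_bot_of_normal_coprime_quotient 2 G
  have hcent := Cfsg.Agent.Lib.Helper55.centralizer_pCore_le (p := 2) hO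
  by_cases hss : ∀ S T : Sylow 2 (G ⧸ Cfsg.oddCore G), S = T
  · obtain ⟨P⟩ : Nonempty (Sylow 2 (G ⧸ Cfsg.oddCore G)) := inferInstance
    have : Subsingleton (Sylow 2 (G ⧸ Cfsg.oddCore G)) := ⟨hss⟩
    exact ⟨P, Sylow.normal_of_subsingleton P⟩
  · exfalso
    apply hss
    intro S T
    by_contra hST
    have hcyc := hC' S T hST
    have hQle : Cfsg.pCore 2 (G ⧸ Cfsg.oddCore G) ≤
        (S : Subgroup (G ⧸ Cfsg.oddCore G)) ⊓ (T : Subgroup (G ⧸ Cfsg.oddCore G)) :=
      le_inf (Cfsg.Agent.Lib.Helper55.pCore_le_sylow S) (Cfsg.Agent.Lib.Helper55.pCore_le_sylow T)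
    have hQc : IsCyclic (Cfsg.pCore 2 (G ⧸ Cfsg.oddCore G)) := by
      have e := Subgroup.subgroupOfEquivOfLe hQle
      exact isCyclic_of_surjective e e.surjective
    have hX2 : IsPGroup 2 (G ⧸ Cfsg.oddCore G) :=
      Cfsg.Agent.Lib.Helper55.isPGroup_two_of_cyclic_self_centralizing
        (Cfsg.pCore 2 (G ⧸ Cfsg.oddCore G)) hQc
        (Cfsg.Agent.Lib.Helper55.pCore_isPGroup 2 (G ⧸ Cfsg.oddCore G)) hcent
    have hS : (⊤ : Subgroup (G ⧸ Cfsg.oddCore G)) = S := S.3 (hX2.to_subgroup ⊤) le_top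
    have hT : (⊤ : Subgroup (G ⧸ Cfsg.oddCore G)) = T := T.3 (hX2.to_subgroup ⊤) le_top
    exact hST (Sylow.ext (hS.symm.trans hT))

end Cfsg.Agent.S3303
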