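-- Statement S3309: Sylow 2-subgroups Z2 x D8 do not occur in non-abelian simple groups.
import Cfsg.Statements.S3309
import Cfsg.Agent.Lib.Helper55.Transfer

set_option autoImplicit false
open Cfsg

namespace Cfsg.Agent.S3309

theorem d8_center_sq : ∀ d : DihedralGroup 4, (∀ z : DihedralGroup 4, z * d = d * z) →
    ∃ y : DihedralGroup 4, d = y * y := by
  decide

theorem z2_sq : ∀ a : Multiplicative (ZMod 2), a * a = 1 := by decide

/-- A finite group whose Sylow 2-subgroups are isomorphic to the direct product of a group of order 2 and the dihedral group of order 8 is not a non-abelian simple group. -/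
theorem result {G : Type*} [Group G] [Finite G] (S : Sylow 2 G) (hS : Nonempty (↥(S : Subgroup G) ≃* Multiplicative (ZMod 2) × DihedralGroup 4))
    [IsSimpleGroup G] (hG : ¬ IsMulCommutative G) : False := by
  obtain ⟨e⟩ := hS
  -- the homomorphism to the first factor
  obtain ⟨φ, hφ⟩ : ∃ φ : ↥(S : Subgroup G) →* Multiplicative (ZMod 2), ∀ s, φ s = (e s).1 :=
    ⟨(MonoidHom.fst _ _).comp e.toMonoidHom, fun _ => rfl⟩
  -- the central involution
  obtain ⟨c', hc'⟩ : ∃ c' : ↥(S : Subgroup G), e c' = (Multiplicative.ofAdd 1, 1) :=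
    ⟨e.symm (Multiplicative.ofAdd 1, 1), e.apply_symm_apply _⟩
  have hc2' : c' * c' = 1 := by
    apply e.injective
    rw [e.map_mul, hc', e.map_one]
    exact Prod.ext (z2_sq _) (mul_one _)
  have hccent' : ∀ s : ↥(S : Subgroup G), s * c' = c' * s := by
    intro s
    apply e.injective
    rw [e.map_mul, e.map_mul, hc']
    exact Prod.ext (mul_comm _ _) ((mul_one _).trans (one_mul _).symm)
  have hφc : φ c' ≠ 1 := by
    rw [hφ, hc']; exact Cfsg.Agent.Lib.Helper55.mulZ2_gen_ne_one
  have hc2 : (c' : G) * (c' : G) = 1 := by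
    have h := congrArg Subtype.val hc2'
    exact h
  have hccent : ∀ p ∈ (S : Subgroup G), p * (c' : G) = (c' : G) * p := by
    intro p hp
    have h := congrArg Subtype.val (hccent' ⟨p, hp⟩)
    exact h
  have hT : MonoidHom.transfer φ (c' : G) ≠ 1 := by
    refine Cfsg.Agent.Lib.Helper55.transfer_ne_one_of_extremal S φ (S : Subgroup G) S.isPGroup'
      (c' : G) c'.2 hc2 hccent ?_
    intro x hx h hφv
    -- conjugation by x is onto S
    have hsurj : ∀ s ∈ (S : Subgroup G), ∃ p ∈ (S : Subgroup G), s = x⁻¹ * p * x := by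
      have hinj : Function.Injective (fun p : ↥(S : Subgroup G) =>
          (⟨x⁻¹ * (p : G) * x, hx p p.2⟩ : ↥(S : Subgroup G))) := by
        intro p q hpq
        have h1 : x⁻¹ * (p : G) * x = x⁻¹ * (q : G) * x := congrArg Subtype.val hpq
        apply Subtype.ext
        have h2 : (p : G) = x * (x⁻¹ * (p : G) * x) * x⁻¹ := by group
        rw [h2, h1]; group
      have hsur := Finite.surjective_of_injective hinj
      intro s hs
      obtain ⟨p, hp⟩ := hsur ⟨s, hs⟩
      exact ⟨p, p.2, (congrArg Subtype.val hp).symm⟩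
    have hback : ∀ s ∈ (S : Subgroup G), x * s * x⁻¹ ∈ (S : Subgroup G) := by
      intro s hs
      obtain ⟨p, hp, rfl⟩ := hsurj s hs
      have h1 : x * (x⁻¹ * p * x) * x⁻¹ = p := by group
      rw [h1]; exact hp
    -- v = x⁻¹ c x is central in S
    obtain ⟨v, hv⟩ : ∃ v : ↥(S : Subgroup G), v = ⟨x⁻¹ * (c' : G) * x, h⟩ := ⟨_, rfl⟩
    have hvcent : ∀ s : ↥(S : Subgroup G), s * v = v * s := by
      intro s
      apply Subtype.ext
      rw [hv]
      show (s : G) * (x⁻¹ * (c' : G) * x) = x⁻¹ * (c' : G) * x * (s : G)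
      obtain ⟨p, hp, hsp⟩ := hsurj s s.2
      rw [hsp]
      calc x⁻¹ * p * x * (x⁻¹ * (c' : G) * x) = x⁻¹ * (p * (c' : G)) * x := by group
        _ = x⁻¹ * ((c' : G) * p) * x := by rw [hccent p hp]
        _ = x⁻¹ * (c' : G) * x * (x⁻¹ * p * x) := by group
    -- e v = (1, d) with d central, so a square
    have hv1 : (e v).1 = 1 := by rw [← hφ, hv]; exact hφv
    have hdcent : ∀ z : DihedralGroup 4, z * (e v).2 = (e v).2 * z := by
      intro z
      have h1 := congrArg e (hvcent (e.symm (1, z)))
      rw [map_mul, map_mul, e.apply_symm_apply] at h1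
      have h2 := congrArg Prod.snd h1
      exact h2
    obtain ⟨y, hy⟩ := d8_center_sq (e v).2 hdcent
    obtain ⟨t, ht⟩ : ∃ t : ↥(S : Subgroup G), e t = (1, y) := ⟨e.symm (1, y), e.apply_symm_apply _⟩
    have hvt : v = t * t := by
      apply e.injective
      rw [map_mul, ht]
      ext
      · rw [hv1]; simp
      · rw [hy]; rfl
    -- so c is a square in S
    have hvt' : x⁻¹ * (c' : G) * x = (t : G) * (t : G) := by
      have h1 := congrArg Subtype.val hvt
      rw [hv] at h1
      exact h1
    obtain ⟨t', ht'⟩ : ∃ t' : ↥(S : Subgroup G), (t' : G) = x * (t : G) * x⁻¹ :=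
      ⟨⟨x * (t : G) * x⁻¹, hback t t.2⟩, rfl⟩
    have hct : c' = t' * t' := by
      apply Subtype.ext
      show (c' : G) = (t' : G) * (t' : G)
      rw [ht']
      calc (c' : G) = x * (x⁻¹ * (c' : G) * x) * x⁻¹ := by group
        _ = x * ((t : G) * (t : G)) * x⁻¹ := by rw [hvt']
        _ = x * (t : G) * x⁻¹ * (x * (t : G) * x⁻¹) := by group
    apply hφc
    rw [hct, map_mul]
    exact z2_sq _
  -- the kernel of the transfer is a proper nontrivial normal subgroup
  rcases (MonoidHom.transfer φ).normal_ker.eq_bot_or_eq_top with hbot | htop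
  · apply hG
    refine ⟨⟨fun a b => ?_⟩⟩
    have hinj : Function.Injective (MonoidHom.transfer φ) := (MonoidHom.ker_eq_bot_iff _).mp hbot
    apply hinj
    rw [map_mul, map_mul, mul_comm]
  · apply hT
    have h1 : (c' : G) ∈ (MonoidHom.transfer φ).ker := by rw [htop]; exact Subgroup.mem_top _
    exact MonoidHom.mem_ker.mp h1

end Cfsg.Agent.S3309
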