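import Mathlib
import Cfsg.Statements.S3349

set_option autoImplicit false
open Cfsg
open scoped commutatorElement

namespace Cfsg.Agent.S3349

/-- Let Q be a finite extraspecial p-group and α an automorphism of Q fixing every element of some maximal abelian subgroup of Q. Then the order of α is a power of p. -/
theorem result {Q : Type*} [Group Q] [Finite Q]
    (p : ℕ) [Fact p.Prime] (hQ : Cfsg.IsExtraspecial p Q) (α : MulAut Q)
    (A : Subgroup Q) (hA : IsMulCommutative A) (hmax : ∀ B : Subgroup Q, A ≤ B → IsMulCommutative B → B = A)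
    (hfix : ∀ a ∈ A, α a = a) :
    ∃ k : ℕ, orderOf α = p ^ k := by
  classical
  obtain ⟨⟨hpG, -, hcomm⟩, -⟩ := hQ
  have hAcomm : ∀ a ∈ A, ∀ b ∈ A, a * b = b * a := fun a ha b hb => setLike_mul_comm ha hb
  -- self-centralizing
  have hCA : ∀ c : Q, (∀ a ∈ A, c * a = a * c) → c ∈ A := by
    intro c hc
    have hB : IsMulCommutative (Subgroup.closure ((A : Set Q) ∪ {c})) := by
      apply Subgroup.isMulCommutative_closure
      intro x hx y hy
      rcases hx with hx | hx <;> rcases hy with hy | hy
      · exact hAcomm x hx y hy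
      · rw [Set.mem_singleton_iff] at hy; subst hy; exact (hc x hx).symm
      · rw [Set.mem_singleton_iff] at hx; subst hx; exact hc y hy
      · rw [Set.mem_singleton_iff] at hx hy; subst hx; subst hy; rfl
    have hle : A ≤ Subgroup.closure ((A : Set Q) ∪ {c}) := by
      intro a ha
      exact Subgroup.subset_closure (Or.inl ha)
    have := hmax _ hle hB
    rw [← this]
    exact Subgroup.subset_closure (Or.inr rfl)
  -- commutators are central, hence in A
  have hcommA : ∀ x y : Q, x * y * x⁻¹ * y⁻¹ ∈ A := by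
    intro x y
    have h1 : ⁅x, y⁆ ∈ commutator Q :=
      Subgroup.commutator_mem_commutator (Subgroup.mem_top x) (Subgroup.mem_top y)
    rw [hcomm, commutatorElement_def] at h1
    apply hCA
    intro a _
    exact (Subgroup.mem_center_iff.mp h1 a).symm
  -- x⁻¹ * α x lies in A
  have hdiff : ∀ x : Q, x⁻¹ * α x ∈ A := by
    intro x
    apply hCA
    intro a ha
    have h1 := hfix _ (hcommA x a)
    rw [map_mul, map_mul, map_mul, map_inv, map_inv, hfix a ha] at h1
    -- h1 : α x * a * (α x)⁻¹ * a⁻¹ = x * a * x⁻¹ * a⁻¹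
    have h2 : α x * a * (α x)⁻¹ = x * a * x⁻¹ := mul_right_cancel h1
    have h3 : α x * a = x * a * x⁻¹ * α x := by
      rw [← h2]; simp
    calc x⁻¹ * α x * a = x⁻¹ * (α x * a) := by rw [mul_assoc]
      _ = x⁻¹ * (x * a * x⁻¹ * α x) := by rw [h3]
      _ = a * (x⁻¹ * α x) := by simp [mul_assoc]
  -- powers of α
  have hpow : ∀ (n : ℕ) (x : Q), (α ^ n) x = x * (x⁻¹ * α x) ^ n := by
    intro n
    induction n with
    | zero => intro x; simp
    | succ n ih =>
      intro x
      rw [pow_succ', MulAut.mul_apply, ih, map_mul, map_pow, hfix _ (hdiff x), pow_succ']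
      simp [mul_assoc]
  have hαpow : α ^ Nat.card Q = 1 := by
    ext x
    rw [hpow, pow_card_eq_one']
    simp
  obtain ⟨n, hn⟩ := IsPGroup.iff_card.mp hpG
  have hdvd : orderOf α ∣ p ^ n := by
    rw [← hn]; exact orderOf_dvd_of_pow_eq_one hαpow
  obtain ⟨k, -, hk⟩ := (Nat.dvd_prime_pow (Fact.out : p.Prime)).mp hdvd
  exact ⟨k, hk⟩

end Cfsg.Agent.S3349
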