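import Cfsg.Statements.S3361
import Cfsg.Agent.Lib.Helper49.HUP.Main
import Cfsg.Agent.Lib.Helper34.HUP.LinFacts
import Cfsg.Agent.Lib.Helper56.HUP.SemiU
import Cfsg.Agent.Lib.Helper79.HUP.SemiD
import Cfsg.Agent.Lib.Helper32.HUP.SemiM
import Cfsg.Agent.Lib.Helper32.HUP.Meta2
import Cfsg.Agent.Lib.Helper80.HUP.Bridge
import Cfsg.Agent.Lib.Helper80.HUP.HH
import Cfsg.Agent.Lib.Helper90.HUP.Core16
import Cfsg.Agent.Lib.Helper90.HUP.Core8
import Cfsg.Agent.Lib.Helper92.HUP.OddQ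
import Cfsg.Agent.Lib.Helper92.HUP.SylQ
import Cfsg.Agent.Lib.Helper92.HUP.Split5
import Cfsg.Agent.Lib.Helper41.HUP.Exc

set_option autoImplicit false
open Cfsg

namespace Cfsg.Agent.S3361

/-- Let q be a prime and V a non-trivial finite vector space over the field with q elements, and let G be a finite solvable group acting faithfully and linearly on V and regularly on the non-zero vectors (transitively, with only the identity fixing a non-zero vector). Then either V can be identified with the additive group of a finite field F so that every element of G acts as x ↦ a·σ(x) (a ∈ F, σ a field automorphism), or V has 5^2, 7^2, 11^2 or 23^2 elements. Moreover, if q ≠ 2 then G has a normal subgroup of index 2, except that when V has 25 elements G may be isomorphic to SL(2,3) and when V has 121 elements G may be isomorphic to SL(2,3) × C₅. -/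
theorem result
    (q : ℕ) [Fact q.Prime] {V : Type*} [AddCommGroup V] [Module (ZMod q) V] [Finite V] [Nontrivial V]
    {G : Type*} [Group G] [Finite G] (hsol : Group.IsSolvable G)
    (ρ : G →* (V ≃ₗ[ZMod q] V)) (hρ : Function.Injective ρ)
    (htrans : ∀ v w : V, v ≠ 0 → w ≠ 0 → ∃ g : G, ρ g v = w)
    (hreg : ∀ v : V, v ≠ 0 → ∀ g : G, ρ g v = v → g = 1) :
    ((∃ (F : Type) (_ : Field F) (_ : Fintype F) (e : V ≃+ F),
        ∀ g : G, ∃ (a : F) (σ : F ≃+* F), ∀ v : V, e (ρ g v) = a * σ (e v)) ∨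
      Nat.card V ∈ ({25, 49, 121, 529} : Set ℕ)) ∧
    (q ≠ 2 → (∃ N : Subgroup G, N.Normal ∧ N.index = 2) ∨
      (Nat.card V = 25 ∧ Nonempty (G ≃* Matrix.SpecialLinearGroup (Fin 2) (ZMod 3))) ∨
      (Nat.card V = 121 ∧ Nonempty (G ≃* Matrix.SpecialLinearGroup (Fin 2) (ZMod 3) × Multiplicative (ZMod 5)))) := by
  exact Cfsg.Agent.Lib.Helper49.HUP.hup_main
    Cfsg.Agent.Lib.Helper34.HUP.pkgLinFacts
    Cfsg.Agent.Lib.Helper56.HUP.pkgSemiU
    Cfsg.Agent.Lib.Helper79.HUP.pkgSemiD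
    Cfsg.Agent.Lib.Helper32.HUP.pkgSemiM
    Cfsg.Agent.Lib.Helper32.HUP.pkgMeta2
    Cfsg.Agent.Lib.Helper80.HUP.pkgBridge
    (Cfsg.Agent.Lib.Helper41.HUP.pkgExc Cfsg.Agent.Lib.Helper92.HUP.pkgOddQ
      Cfsg.Agent.Lib.Helper92.HUP.pkgSylQ
      (Cfsg.Agent.Lib.Helper90.HUP.pkgCore16 Cfsg.Agent.Lib.Helper80.HUP.pkgHH)
      (Cfsg.Agent.Lib.Helper90.HUP.pkgCore8 Cfsg.Agent.Lib.Helper80.HUP.pkgHH)
      Cfsg.Agent.Lib.Helper92.HUP.pkgSplit5)
    q hsol ρ hρ htrans hreg

end Cfsg.Agent.S3361
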