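import Cfsg.Statements.S3366
import Cfsg.Agent.Lib.Helper45.X648Main
import Cfsg.Agent.Lib.Helper45.X648PSp
import Cfsg.Agent.Lib.Helper84.PCoreBasic

set_option autoImplicit false
open Cfsg

namespace Cfsg.Agent.S3366

/-- Let X be a finite group with O₃(X) extraspecial of order 27 and exponent 3, X/O₃(X) isomorphic to SL(2,3), O₂(X) = 1, and a Sylow 3-subgroup of X containing an elementary abelian subgroup of order 27. Then X is isomorphic to the centralizer in PSp(4,3) of a 3-central element of order 3 (an element of order 3 in the centre of a Sylow 3-subgroup). -/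
theorem result {X : Type*} [Group X] [Finite X]
    (hR : Cfsg.IsExtraspecial 3 (Cfsg.pCore 3 X)) (hRcard : Nat.card (Cfsg.pCore 3 X) = 27)
    (hRexp : ∀ r ∈ Cfsg.pCore 3 X, r ^ 3 = 1)
    (e : X ⧸ Cfsg.pCore 3 X ≃* Matrix.SpecialLinearGroup (Fin 2) (ZMod 3))
    (hO2 : Cfsg.pCore 2 X = ⊥)
    (hE : ∃ E : Subgroup X, IsMulCommutative E ∧ (∀ a ∈ E, a ^ 3 = 1) ∧ Nat.card E = 27)
    (F : Type*) [Field F] [Fintype F] (hF : Fintype.card F = 3) :
    ∃ (c : Cfsg.PSp 2 F) (S : Sylow 3 (Cfsg.PSp 2 F)), orderOf c = 3 ∧ c ∈ (S : Subgroup (Cfsg.PSp 2 F)) ∧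
      c ∈ Subgroup.centralizer ((S : Subgroup (Cfsg.PSp 2 F)) : Set (Cfsg.PSp 2 F)) ∧
      Nonempty (X ≃* Subgroup.centralizer ({c} : Set (Cfsg.PSp 2 F))) := by
  classical
  obtain ⟨E, hEcomm, hE3, hEcard⟩ := hE
  haveI : Fact (Nat.Prime 3) := ⟨Nat.prime_three⟩
  have hRn : (Cfsg.pCore 3 X).Normal := inferInstance
  obtain ⟨π, hπ⟩ : ∃ π : X →* Cfsg.Agent.Lib.Helper45.X648.SL23,
      ∀ g, π g = e (QuotientGroup.mk g) :=
    ⟨e.toMonoidHom.comp (QuotientGroup.mk' (Cfsg.pCore 3 X)), fun g => rfl⟩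
  obtain ⟨Z, hZd⟩ : ∃ Z : Subgroup X,
      Z = (Subgroup.center ↥(Cfsg.pCore 3 X)).map (Cfsg.pCore 3 X).subtype := ⟨_, rfl⟩
  have hAX : Cfsg.Agent.Lib.Helper45.X648.AX X (Cfsg.pCore 3 X) Z π := by
    refine ⟨?_, ?_, ?_, hRcard, hRexp, ?_, ?_, ?_, ?_, ?_, ?_⟩
    · intro g r hr
      exact hRn.conj_mem r hr g
    · intro g
      rw [hπ, map_eq_one_iff e e.injective, QuotientGroup.eq_one_iff]
    · intro M
      obtain ⟨x, hx⟩ := e.surjective M
      obtain ⟨g, rfl⟩ := QuotientGroup.mk_surjective x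
      exact ⟨g, by rw [hπ, hx]⟩
    · rw [hZd]
      exact Subgroup.map_subtype_le _
    · rw [hZd, Subgroup.card_map_of_injective (Subgroup.subtype_injective _)]
      exact hR.2
    · intro ζ hζ r hr
      rw [hZd] at hζ
      obtain ⟨ζ', hζ', rfl⟩ := Subgroup.mem_map.mp hζ
      have h1 := Subgroup.mem_center_iff.mp hζ' ⟨r, hr⟩
      exact (congrArg Subtype.val h1).symm
    · intro r hr hcomm
      rw [hZd]
      refine Subgroup.mem_map.mpr ⟨⟨r, hr⟩, ?_, rfl⟩
      rw [Subgroup.mem_center_iff]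
      intro s
      exact Subtype.ext (hcomm s.1 s.2).symm
    · intro r hr s hs
      rw [hZd]
      have hmem : (⟨r, hr⟩ * ⟨s, hs⟩ * ⟨r, hr⟩⁻¹ * ⟨s, hs⟩⁻¹ : ↥(Cfsg.pCore 3 X)) ∈
          Subgroup.center ↥(Cfsg.pCore 3 X) := by
        rw [← hR.1.2.2, _root_.commutator_def]
        exact Subgroup.commutator_mem_commutator (Subgroup.mem_top _) (Subgroup.mem_top _)
      exact Subgroup.mem_map.mpr ⟨_, hmem, rfl⟩
    · intro t ht2 hcen
      have hN : (Subgroup.zpowers t).Normal := by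
        refine ⟨fun n hn g => ?_⟩
        obtain ⟨k, rfl⟩ := Subgroup.mem_zpowers_iff.mp hn
        have h1 : g * t ^ k * g⁻¹ = t ^ k := by
          rw [← MulAut.conj_apply, map_zpow, MulAut.conj_apply, hcen g]
        rw [h1]
        exact Subgroup.zpow_mem_zpowers t k
      have hp : IsPGroup 2 (Subgroup.zpowers t) := by
        rintro ⟨g, hg⟩
        obtain ⟨k, rfl⟩ := Subgroup.mem_zpowers_iff.mp hg
        refine ⟨1, Subtype.ext ?_⟩
        show (t ^ k) ^ 2 ^ 1 = 1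
        rw [pow_one, pow_two, ← (Commute.refl t).mul_zpow k, ht2, one_zpow]
      have hle := Cfsg.Agent.Lib.Helper84.le_pCore hN hp
      rw [hO2] at hle
      exact Subgroup.mem_bot.mp (hle (Subgroup.mem_zpowers t))
  have hEc : ∀ x ∈ E, ∀ y ∈ E, x * y = y * x := by
    intro x hx y hy
    exact congrArg Subtype.val (hEcomm.is_comm.comm ⟨x, hx⟩ ⟨y, hy⟩)
  obtain ⟨z, a, b, i, j, c, hXR, hgen, hz1, hmin⟩ := hAX.main E hEc hE3 hEcard
  have hcard := hAX.card
  obtain ⟨z', a', b', i', j', c', hXR', hz'1, ha', hb', hi', hj', hc', hT⟩ :=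
    Cfsg.Agent.Lib.Helper45.X648.psp_side (F := F) hF
  have hP := Cfsg.Agent.Lib.Helper45.X648.card_PSp4_three (F := F) hF
  haveI : Finite (Cfsg.PSp 2 F) := Nat.finite_of_card_ne_zero (by rw [hP]; norm_num)
  obtain ⟨φ, hφz, hφa, hφb, hφi, hφj, hφc⟩ :=
    Cfsg.Agent.Lib.Helper45.X648.XR.hom hXR hXR' hgen hcard
  have hinj : Function.Injective φ := by
    rw [← MonoidHom.ker_eq_bot_iff]
    by_contra hne
    have h1 := hmin φ.ker inferInstance hne
    rw [MonoidHom.mem_ker, hφz] at h1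
    exact hz'1 h1
  have hzT : z' ∈ Subgroup.centralizer ({z'} : Set (Cfsg.PSp 2 F)) := by
    rw [Subgroup.mem_centralizer_iff]
    intro y hy
    rw [Set.mem_singleton_iff.mp hy]
  have himg : ∀ g : X, φ g ∈ Subgroup.centralizer ({z'} : Set (Cfsg.PSp 2 F)) := by
    have hle : (⊤ : Subgroup X) ≤
        (Subgroup.centralizer ({z'} : Set (Cfsg.PSp 2 F))).comap φ := by
      rw [← hgen, Subgroup.closure_le]
      intro x hx
      rw [SetLike.mem_coe, Subgroup.mem_comap]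
      rcases hx with h | h | h | h | h | h
      · rw [h, hφc]; exact hc'
      · rw [h, hφj]; exact hj'
      · rw [h, hφi]; exact hi'
      · rw [h, hφb]; exact hb'
      · rw [h, hφa]; exact ha'
      · rw [h, hφz]; exact hzT
    intro g
    exact hle (Subgroup.mem_top g)
  obtain ⟨ψ, hψ⟩ : ∃ ψ : X →* ↥(Subgroup.centralizer ({z'} : Set (Cfsg.PSp 2 F))),
      ∀ g, (ψ g : Cfsg.PSp 2 F) = φ g :=
    ⟨φ.codRestrict _ himg, fun g => rfl⟩
  have hψinj : Function.Injective ψ := by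
    intro x y hxy
    apply hinj
    rw [← hψ, ← hψ, hxy]
  have hψbij : Function.Bijective ψ :=
    hψinj.bijective_of_nat_card_le (by rw [hcard]; exact hT)
  have hTcard : Nat.card ↥(Subgroup.centralizer ({z'} : Set (Cfsg.PSp 2 F))) = 648 := by
    rw [← hcard]
    exact (Nat.card_congr (Equiv.ofBijective ψ hψbij)).symm
  have hoz : orderOf z' = 3 := orderOf_eq_prime hXR'.z3 hz'1
  -- a Sylow 3-subgroup of the centraliser containing `z'`
  have ho : orderOf (⟨z', hzT⟩ : ↥(Subgroup.centralizer ({z'} : Set (Cfsg.PSp 2 F)))) = 3 := by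
    rw [Subgroup.orderOf_mk]
    exact hoz
  have hpz : IsPGroup 3 (Subgroup.zpowers
      (⟨z', hzT⟩ : ↥(Subgroup.centralizer ({z'} : Set (Cfsg.PSp 2 F))))) :=
    IsPGroup.of_card (n := 1) (by rw [Nat.card_zpowers, ho, pow_one])
  obtain ⟨P₀, hP₀⟩ := hpz.exists_le_sylow
  have h81 : 3 ^ 4 ∣ Nat.card (P₀ : Subgroup ↥(Subgroup.centralizer ({z'} : Set (Cfsg.PSp 2 F)))) :=
    P₀.pow_dvd_card_of_pow_dvd_card (by rw [hTcard]; norm_num)
  obtain ⟨P', hP'd⟩ : ∃ P' : Subgroup (Cfsg.PSp 2 F),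
      P' = (P₀ : Subgroup ↥(Subgroup.centralizer ({z'} : Set (Cfsg.PSp 2 F)))).map
        (Subgroup.centralizer ({z'} : Set (Cfsg.PSp 2 F))).subtype := ⟨_, rfl⟩
  have hP'p : IsPGroup 3 P' := by
    rw [hP'd]
    exact P₀.isPGroup'.map _
  have hP'card : Nat.card P' =
      Nat.card (P₀ : Subgroup ↥(Subgroup.centralizer ({z'} : Set (Cfsg.PSp 2 F)))) := by
    rw [hP'd]
    exact Subgroup.card_map_of_injective (Subgroup.subtype_injective _)
  obtain ⟨S, hS⟩ := hP'p.exists_le_sylow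
  have hS81 : Nat.card (S : Subgroup (Cfsg.PSp 2 F)) ≤ 81 := by
    obtain ⟨k, hk⟩ := IsPGroup.iff_card.mp S.isPGroup'
    have hdvd : Nat.card (S : Subgroup (Cfsg.PSp 2 F)) ∣ 25920 := by
      rw [← hP]
      exact Subgroup.card_subgroup_dvd_card _
    rw [hk] at hdvd ⊢
    by_contra hlt
    push Not at hlt
    have hk5 : 5 ≤ k := by
      by_contra h5
      push Not at h5
      have h6 : 3 ^ k ≤ 3 ^ 4 := Nat.pow_le_pow_right (by norm_num) (by omega)
      norm_num at h6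
      omega
    have h35 : 3 ^ 5 ∣ 25920 := (pow_dvd_pow 3 hk5).trans hdvd
    norm_num at h35
  have hSP' : P' = (S : Subgroup (Cfsg.PSp 2 F)) := by
    apply Subgroup.eq_of_le_of_card_ge hS
    rw [hP'card]
    have h34 : (3 : ℕ) ^ 4 = 81 := by norm_num
    rw [h34] at h81
    exact hS81.trans (Nat.le_of_dvd Nat.card_pos h81)
  have hzP' : z' ∈ P' := by
    rw [hP'd]
    exact Subgroup.mem_map.mpr ⟨⟨z', hzT⟩, hP₀ (Subgroup.mem_zpowers _), rfl⟩
  refine ⟨z', S, hoz, ?_, ?_, ⟨MulEquiv.ofBijective ψ hψbij⟩⟩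
  · rw [← hSP']
    exact hzP'
  · rw [Subgroup.mem_centralizer_iff]
    intro y hy
    have hy' : y ∈ P' := by
      rw [hSP']
      exact hy
    rw [hP'd] at hy'
    obtain ⟨y', -, rfl⟩ := Subgroup.mem_map.mp hy'
    exact (Subgroup.mem_centralizer_iff.mp y'.2 z' (Set.mem_singleton z')).symm

end Cfsg.Agent.S3366
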