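import Mathlib
import Cfsg.Statements.S3376
import Cfsg.Agent.S0065

set_option autoImplicit false
open Cfsg

namespace Cfsg.Agent.S3376

section general

variable {G : Type*} [Group G]

/-- A nontrivial normal subgroup contained in a `p`-subgroup `S` contains a nontrivial element
centralizing `S`. -/
theorem exists_central [Finite G] {p : ℕ} [Fact p.Prime] (S : Subgroup G) (hS : IsPGroup p S)
    (N : Subgroup G) [N.Normal] (hNS : N ≤ S) (hN : N ≠ ⊥) :
    ∃ x ∈ N, x ≠ 1 ∧ x ∈ Subgroup.centralizer (S : Set G) := by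
  have : Group.IsNilpotent S := hS.isNilpotent
  have h := Cfsg.Agent.S0065.result (G := S) (N.subgroupOf S) (by
    intro hbot
    apply hN
    rw [Subgroup.subgroupOf_eq_bot] at hbot
    have := hbot.eq_bot
    rwa [inf_eq_left.mpr hNS] at this)
  obtain ⟨a, ha⟩ := (Subgroup.ne_bot_iff_exists_ne_one).mp h
  refine ⟨((a : S) : G), Subgroup.mem_subgroupOf.mp a.2.1, ?_, ?_⟩
  · intro h1
    apply ha
    apply Subtype.ext
    apply Subtype.ext
    exact h1
  · rw [Subgroup.mem_centralizer_iff]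
    intro s hs
    have := Subgroup.mem_center_iff.mp a.2.2 ⟨s, hs⟩
    exact congrArg Subtype.val this

theorem maximal_of_index_two {A : Subgroup G} (hAi : A.index = 2) {K : Subgroup G}
    (hAK : A ≤ K) {k : G} (hk : k ∈ K) (hkA : k ∉ A) : K = ⊤ := by
  have h1 := Subgroup.relIndex_mul_index hAK
  rw [hAi] at h1
  have h2 : K.index ∣ 2 := Dvd.intro_left _ h1
  rcases (Nat.dvd_prime Nat.prime_two).mp h2 with h | h
  · exact Subgroup.index_eq_one.mp h
  · exfalso
    rw [h] at h1
    have h3 : A.relIndex K = 1 := by omega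
    exact hkA (Subgroup.relIndex_eq_one.mp h3 hk)

/-- Maschke by hand. -/
theorem exists_invariant_complement' {A : Type*} [CommGroup A] [Finite A]
    (h3 : ∀ a : A, a ^ 3 = 1) (Z : Subgroup A) (τ : A →* A) (hτ2 : ∀ a, τ (τ a) = a) :
    ∃ X : Subgroup A, X ⊓ Z = ⊥ ∧ (∀ a ∈ X, τ a ∈ X) ∧ X ⊔ Z = ⊤ := by
  classical
  have hne : Nonempty {X : Subgroup A // X ⊓ Z = ⊥ ∧ ∀ a ∈ X, τ a ∈ X} :=
    ⟨⟨⊥, by simp, by
      intro a ha
      rw [Subgroup.mem_bot] at ha ⊢
      rw [ha, map_one]⟩⟩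
  obtain ⟨X, hXmax⟩ := Finite.exists_max
    (fun X : {X : Subgroup A // X ⊓ Z = ⊥ ∧ ∀ a ∈ X, τ a ∈ X} => Nat.card X.1)
  refine ⟨X.1, X.2.1, X.2.2, ?_⟩
  rw [Subgroup.eq_top_iff']
  intro a
  by_contra ha
  have hex : ∃ b : A, b ∉ X.1 ⊔ Z ∧ (τ b = b ∨ τ b = b⁻¹) := by
    by_cases h1 : a * τ a ∈ X.1 ⊔ Z
    · by_cases h2 : a * (τ a)⁻¹ ∈ X.1 ⊔ Z
      · exfalso
        apply ha
        have h4 : (a * τ a * (a * (τ a)⁻¹)) ^ 2 = a := by
          have e1 : a * τ a * (a * (τ a)⁻¹) = a ^ 2 := by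
            rw [mul_mul_mul_comm]; simp [sq]
          rw [e1, ← pow_mul]
          have e2 : a ^ (2 * 2) = a ^ 3 * a := pow_succ a 3
          rw [e2, h3, one_mul]
        rw [← h4]
        exact Subgroup.pow_mem _ (Subgroup.mul_mem _ h1 h2) 2
      · refine ⟨_, h2, Or.inr ?_⟩
        rw [map_mul, map_inv, hτ2, mul_inv_rev, inv_inv]
    · refine ⟨_, h1, Or.inl ?_⟩
      rw [map_mul, hτ2, mul_comm]
  obtain ⟨b, hbY, hτb⟩ := hex
  have hb1 : b ≠ 1 := by
    rintro rfl
    exact hbY (Subgroup.one_mem _)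
  have : Fact (Nat.Prime 3) := ⟨by norm_num⟩
  have hX'Z : (X.1 ⊔ Subgroup.zpowers b) ⊓ Z = ⊥ := by
    rw [eq_bot_iff]
    rintro g ⟨hg1, hg2⟩
    obtain ⟨x, hx, c, hc, rfl⟩ := Subgroup.mem_sup.mp hg1
    have hcY : c ∈ X.1 ⊔ Z := by
      have e : c = x⁻¹ * (x * c) := by group
      rw [e]
      exact Subgroup.mul_mem _ (Subgroup.mem_sup_left (X.1.inv_mem hx))
        (Subgroup.mem_sup_right hg2)
    have hc1 : c = 1 := by
      by_contra hc1
      apply hbY
      have hcard : Nat.card (Subgroup.zpowers c) = 3 := by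
        rw [Nat.card_zpowers]; exact orderOf_eq_prime (h3 c) hc1
      have hcardb : Nat.card (Subgroup.zpowers b) = 3 := by
        rw [Nat.card_zpowers]; exact orderOf_eq_prime (h3 b) hb1
      have heq : Subgroup.zpowers c = Subgroup.zpowers b :=
        Subgroup.eq_of_le_of_card_ge (Subgroup.zpowers_le.mpr hc) (by rw [hcard, hcardb])
      have hbc : b ∈ Subgroup.zpowers c := heq ▸ Subgroup.mem_zpowers b
      exact (Subgroup.zpowers_le.mpr hcY) hbc
    rw [hc1, mul_one] at hg2 ⊢
    have hxx : x ∈ X.1 ⊓ Z := ⟨hx, hg2⟩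
    rw [X.2.1] at hxx
    exact hxx
  have hX'τ : ∀ a ∈ X.1 ⊔ Subgroup.zpowers b, τ a ∈ X.1 ⊔ Subgroup.zpowers b := by
    intro g hg
    obtain ⟨x, hx, c, hc, rfl⟩ := Subgroup.mem_sup.mp hg
    rw [map_mul]
    apply Subgroup.mul_mem _ (Subgroup.mem_sup_left (X.2.2 x hx)) (Subgroup.mem_sup_right _)
    obtain ⟨i, rfl⟩ := Subgroup.mem_zpowers_iff.mp hc
    rw [map_zpow]
    rcases hτb with h | h
    · rw [h]; exact Subgroup.zpow_mem _ (Subgroup.mem_zpowers b) i
    · rw [h]; exact Subgroup.zpow_mem _ (Subgroup.inv_mem _ (Subgroup.mem_zpowers b)) i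
  have hle := hXmax ⟨X.1 ⊔ Subgroup.zpowers b, hX'Z, hX'τ⟩
  have heq : X.1 = X.1 ⊔ Subgroup.zpowers b := Subgroup.eq_of_le_of_card_ge le_sup_left hle
  apply hbY
  apply Subgroup.mem_sup_left
  rw [heq]
  exact Subgroup.mem_sup_right (Subgroup.mem_zpowers b)

theorem cycleType_of_order_three {α : Type*} [Fintype α] [DecidableEq α] (σ : Equiv.Perm α)
    (h3 : orderOf σ = 3) (hfpf : ∀ x, σ x ≠ x) (hcard : Fintype.card α = 9) :
    σ.cycleType = Multiset.replicate 3 3 := by
  obtain ⟨n, hn⟩ := Equiv.Perm.cycleType_prime_order (σ := σ) (by rw [h3]; norm_num)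
  rw [h3] at hn
  have hsum := Equiv.Perm.sum_cycleType σ
  have hsupp : σ.support = Finset.univ := by
    ext x
    simp [Equiv.Perm.mem_support, hfpf x]
  rw [hsupp, Finset.card_univ, hcard, hn, Multiset.sum_replicate, smul_eq_mul] at hsum
  have : n = 2 := by omega
  rw [hn, this]

theorem pow_81_of_sq {g : G} (h2 : g ^ 2 = 1) (h81 : g ^ 81 = 1) : g = 1 := by
  calc g = (g ^ 2) ^ 40 * g := by rw [h2, one_pow, one_mul]
    _ = g ^ 81 := by rw [← pow_mul, ← pow_succ]
    _ = 1 := h81

end general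

/-- Let G be a group of order 162 = 3⁴·2 with Sylow 3-subgroup S and Sylow 2-subgroup T, having an elementary abelian normal subgroup J of order 27, such that Z = Z(S) has order 3, Z centralizes T, and C_S(T) ≠ S. Then G is isomorphic to the centralizer in Sym(9) of a product of three disjoint 3-cycles. -/
theorem result {G : Type*} [Group G] [Finite G] (hG : Nat.card G = 162)
    (S : Sylow 3 G) (T : Sylow 2 G) (J : Subgroup G) [hJn : J.Normal] (hJcomm : IsMulCommutative J)
    (hJexp : ∀ a ∈ J, a ^ 3 = 1) (hJcard : Nat.card J = 27)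
    (Z : Subgroup G) (hZ : Z = (S : Subgroup G) ⊓ Subgroup.centralizer ((S : Subgroup G) : Set G)) (hZcard : Nat.card Z = 3)
    (hZT : Z ≤ Subgroup.centralizer ((T : Subgroup G) : Set G))
    (hST : (S : Subgroup G) ⊓ Subgroup.centralizer ((T : Subgroup G) : Set G) ≠ S) :
    Nonempty (G ≃* Subgroup.centralizer ({Equiv.swap (0 : Fin 9) 1 * Equiv.swap 1 2 * Equiv.swap 3 4 * Equiv.swap 4 5 * Equiv.swap 6 7 * Equiv.swap 7 8} : Set (Equiv.Perm (Fin 9)))) := by
  classical
  have hp3 : Fact (Nat.Prime 3) := ⟨by norm_num⟩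
  have hp2 : Fact (Nat.Prime 2) := ⟨by norm_num⟩
  have hScard : Nat.card (S : Subgroup G) = 81 := by
    have h1 := Sylow.card_eq_multiplicity S
    rw [hG] at h1
    have h2 : (162 : ℕ).factorization 3 = 4 := by
      rw [Nat.factorization_def _ (by norm_num : Nat.Prime 3)]
      have e : (162 : ℕ) = 3 ^ 4 * 2 := by norm_num
      rw [e, padicValNat.mul (by norm_num) (by norm_num), padicValNat.prime_pow]
      have e2 : padicValNat 3 2 = 0 := padicValNat.eq_zero_of_not_dvd (by norm_num)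
      rw [e2]
    rw [h1, h2]; norm_num
  have hTcard : Nat.card (T : Subgroup G) = 2 := by
    have h1 := Sylow.card_eq_multiplicity T
    rw [hG] at h1
    have h2 : (162 : ℕ).factorization 2 = 1 := by
      rw [Nat.factorization_def _ (by norm_num : Nat.Prime 2)]
      have e : (162 : ℕ) = 2 ^ 1 * 81 := by norm_num
      rw [e, padicValNat.mul (by norm_num) (by norm_num), padicValNat.prime_pow]
      have e2 : padicValNat 2 81 = 0 := padicValNat.eq_zero_of_not_dvd (by norm_num)
      rw [e2]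
    rw [h1, h2]; norm_num
  have hSidx : (S : Subgroup G).index = 2 := by
    have := Subgroup.card_mul_index (S : Subgroup G)
    rw [hScard, hG] at this
    omega
  have hSn : (S : Subgroup G).Normal := Subgroup.normal_of_index_eq_two hSidx
  have h81 : ∀ g ∈ (S : Subgroup G), g ^ 81 = 1 := by
    intro g hg
    have h := pow_card_eq_one' (G := (S : Subgroup G)) (x := ⟨g, hg⟩)
    rw [hScard] at h
    exact congrArg Subtype.val h
  -- the involution `t`
  obtain ⟨t, htT, ht1⟩ : ∃ t ∈ (T : Subgroup G), t ≠ 1 := by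
    have hne : (T : Subgroup G) ≠ ⊥ := by
      intro h
      rw [h] at hTcard
      simp at hTcard
    obtain ⟨a, ha⟩ := (Subgroup.ne_bot_iff_exists_ne_one).mp hne
    exact ⟨a.1, a.2, fun h => ha (Subtype.ext h)⟩
  have ht2 : t ^ 2 = 1 := by
    have h := orderOf_dvd_natCard (⟨t, htT⟩ : (T : Subgroup G))
    rw [hTcard] at h
    have h2 : (⟨t, htT⟩ : (T : Subgroup G)) ^ 2 = 1 := orderOf_dvd_iff_pow_eq_one.mp h
    exact congrArg Subtype.val h2
  have htinv : t⁻¹ = t := by
    rw [inv_eq_iff_mul_eq_one, ← sq]; exact ht2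
  have htS : t ∉ (S : Subgroup G) := fun h => ht1 (pow_81_of_sq ht2 (h81 t h))
  have hTz : (T : Subgroup G) = Subgroup.zpowers t := by
    symm
    apply Subgroup.eq_of_le_of_card_ge (Subgroup.zpowers_le.mpr htT)
    rw [hTcard, Nat.card_zpowers, orderOf_eq_prime ht2 ht1]
  -- the central element `z`
  obtain ⟨z, hzZ, hz1⟩ : ∃ z ∈ Z, z ≠ 1 := by
    have hne : Z ≠ ⊥ := by
      intro h
      rw [h] at hZcard
      simp at hZcard
    obtain ⟨a, ha⟩ := (Subgroup.ne_bot_iff_exists_ne_one).mp hne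
    exact ⟨a.1, a.2, fun h => ha (Subtype.ext h)⟩
  have hZmem : ∀ x, x ∈ Z ↔ x ∈ (S : Subgroup G) ∧
      x ∈ Subgroup.centralizer ((S : Subgroup G) : Set G) := by
    intro x; rw [hZ]; exact Iff.rfl
  have hzS : z ∈ (S : Subgroup G) := ((hZmem z).mp hzZ).1
  have hzCS : z ∈ Subgroup.centralizer ((S : Subgroup G) : Set G) := ((hZmem z).mp hzZ).2
  have hZtcomm : ∀ x ∈ Z, t * x = x * t := by
    intro x hx
    exact Subgroup.mem_centralizer_iff.mp (hZT hx) t htT
  have hzcent : ∀ g : G, g * z = z * g := by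
    have h1 : Subgroup.centralizer ({z} : Set G) = ⊤ := by
      apply maximal_of_index_two hSidx (k := t) _ _ htS
      · intro s hs
        rw [Subgroup.mem_centralizer_iff]
        intro h hh
        rw [Set.mem_singleton_iff] at hh
        rw [hh]
        exact (Subgroup.mem_centralizer_iff.mp hzCS s hs).symm
      · rw [Subgroup.mem_centralizer_iff]
        intro h hh
        rw [Set.mem_singleton_iff] at hh
        rw [hh]
        exact (hZtcomm z hzZ).symm
    intro g
    have hg : g ∈ Subgroup.centralizer ({z} : Set G) := by rw [h1]; trivial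
    exact (Subgroup.mem_centralizer_iff.mp hg z rfl).symm
  have hzord : orderOf z = 3 := by
    have h := orderOf_dvd_natCard (⟨z, hzZ⟩ : Z)
    rw [hZcard, Subgroup.orderOf_mk] at h
    rcases (Nat.dvd_prime (by norm_num : Nat.Prime 3)).mp h with h | h
    · exact absurd (orderOf_eq_one_iff.mp h) hz1
    · exact h
  have hZz : Z = Subgroup.zpowers z := by
    symm
    apply Subgroup.eq_of_le_of_card_ge (Subgroup.zpowers_le.mpr hzZ)
    rw [hZcard, Nat.card_zpowers, hzord]
  -- `J ≤ S`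
  have hJS : J ≤ (S : Subgroup G) := by
    have hJp : IsPGroup 3 J := IsPGroup.of_card (n := 3) (by rw [hJcard]; norm_num)
    obtain ⟨Q, hQ⟩ := hJp.exists_le_sylow
    have hQS : Q = S := by
      obtain ⟨g, rfl⟩ := MulAction.exists_smul_eq G S Q
      exact Sylow.smul_eq_of_normal
    rw [← hQS]; exact hQ
  -- `Z ≤ J`
  have hZJ : Z ≤ J := by
    have hJne : J ≠ ⊥ := by
      intro h
      rw [h] at hJcard
      simp at hJcard
    obtain ⟨x, hxJ, hx1, hxC⟩ := exists_central (S : Subgroup G) S.isPGroup' J hJS hJne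
    have hxZ : x ∈ Z := (hZmem x).mpr ⟨hJS hxJ, hxC⟩
    have hxord : orderOf x = 3 := by
      have h := orderOf_dvd_natCard (⟨x, hxZ⟩ : Z)
      rw [hZcard, Subgroup.orderOf_mk] at h
      rcases (Nat.dvd_prime (by norm_num : Nat.Prime 3)).mp h with h | h
      · exact absurd (orderOf_eq_one_iff.mp h) hx1
      · exact h
    have hZx : Subgroup.zpowers x = Z := by
      apply Subgroup.eq_of_le_of_card_ge (Subgroup.zpowers_le.mpr hxZ)
      rw [hZcard, Nat.card_zpowers, hxord]
    rw [← hZx]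
    exact Subgroup.zpowers_le.mpr hxJ
  -- a `t`-invariant complement to `Z` in `J`
  let _ : CommGroup J :=
    { (inferInstance : Group J) with mul_comm := fun a b => hJcomm.is_comm.comm a b }
  have hτ2 : ∀ a : J, (MulAut.conjNormal t : MulAut J).toMonoidHom
      ((MulAut.conjNormal t : MulAut J).toMonoidHom a) = a := by
    intro a
    apply Subtype.ext
    show ((MulAut.conjNormal t : MulAut J) ((MulAut.conjNormal t : MulAut J) a) : G) = a
    rw [MulAut.conjNormal_apply, MulAut.conjNormal_apply, htinv]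
    have e : t * (t * (a : G) * t) * t = t ^ 2 * a * t ^ 2 := by rw [sq]; group
    rw [e, ht2, one_mul, mul_one]
  obtain ⟨X, hXZ, hXτ, hXsup⟩ := exists_invariant_complement' (A := J)
    (fun a => Subtype.ext (hJexp a a.2)) (Z.subgroupOf J)
    (MulAut.conjNormal t : MulAut J).toMonoidHom hτ2
  obtain ⟨J0, hJ0⟩ : ∃ J0 : Subgroup G, J0 = X.map J.subtype := ⟨_, rfl⟩
  have hJ0J : J0 ≤ J := by rw [hJ0]; exact Subgroup.map_subtype_le X
  have hJ0card : Nat.card J0 = 9 := by
    have hcompl : Subgroup.IsComplement' X (Z.subgroupOf J) := by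
      apply Subgroup.isComplement'_of_disjoint_and_mul_eq_univ (disjoint_iff.mpr hXZ)
      rw [← Subgroup.normal_mul, hXsup]
      rfl
    have h1 := hcompl.card_mul_card
    have h2 : Nat.card (Z.subgroupOf J) = 3 := by
      rw [Nat.card_congr (Subgroup.subgroupOfEquivOfLe hZJ).toEquiv, hZcard]
    rw [h2, hJcard] at h1
    rw [hJ0, Subgroup.card_map_of_injective J.subtype_injective]
    omega
  have hJ0Z : ∀ x ∈ J0, x ∈ Z → x = 1 := by
    intro x hx hxZ
    rw [hJ0] at hx
    obtain ⟨x', hx', rfl⟩ := hx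
    have hmem : x' ∈ X ⊓ Z.subgroupOf J := ⟨hx', Subgroup.mem_subgroupOf.mpr hxZ⟩
    rw [hXZ, Subgroup.mem_bot] at hmem
    rw [hmem]; rfl
  have hJ0t : ∀ a ∈ J0, t * a * t⁻¹ ∈ J0 := by
    intro a ha
    rw [hJ0] at ha ⊢
    obtain ⟨a', ha', rfl⟩ := ha
    refine ⟨_, hXτ a' ha', ?_⟩
    show (((MulAut.conjNormal t : MulAut J) a' : J) : G) = _
    rw [MulAut.conjNormal_apply]; rfl
  have htJ0 : t ∉ J0 := fun h => htS (hJS (hJ0J h))
  -- the subgroup `K = J0 ⋊ ⟨t⟩`
  obtain ⟨K, hKmem⟩ : ∃ K : Subgroup G, ∀ g, g ∈ K ↔ (g ∈ J0 ∨ g * t ∈ J0) := by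
    refine ⟨{ carrier := {g | g ∈ J0 ∨ g * t ∈ J0}
              mul_mem' := ?_
              one_mem' := Or.inl J0.one_mem
              inv_mem' := ?_ }, fun g => Iff.rfl⟩
    · rintro a b (ha | ha) (hb | hb)
      · exact Or.inl (J0.mul_mem ha hb)
      · right
        have e : a * b * t = a * (b * t) := by group
        rw [e]; exact J0.mul_mem ha hb
      · right
        have e : a * b * t = (a * t) * (t * b * t⁻¹) := by
          rw [htinv]
          have : a * t * (t * b * t) = a * t ^ 2 * b * t := by rw [sq]; group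
          rw [this, ht2, mul_one]
        rw [e]; exact J0.mul_mem ha (hJ0t b hb)
      · left
        have e : a * b = (a * t) * (t * (b * t) * t⁻¹) := by
          rw [htinv]
          have : a * t * (t * (b * t) * t) = a * t ^ 2 * b * t ^ 2 := by rw [sq]; group
          rw [this, ht2, mul_one, mul_one]
        rw [e]; exact J0.mul_mem ha (hJ0t _ hb)
    · rintro a (ha | ha)
      · exact Or.inl (J0.inv_mem ha)
      · right
        have h1 := hJ0t _ (J0.inv_mem ha)
        have e : t * (a * t)⁻¹ * t⁻¹ = a⁻¹ * t := by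
          rw [htinv]
          have : t * (a * t)⁻¹ * t = t * t⁻¹ * a⁻¹ * t := by group
          rw [this, mul_inv_cancel, one_mul]
        rwa [e] at h1
  have hJ0K : J0 ≤ K := fun g hg => (hKmem g).mpr (Or.inl hg)
  have htK : t ∈ K := by
    rw [hKmem]; right
    rw [← sq, ht2]; exact J0.one_mem
  have hKcard : Nat.card K = 18 := by
    have hrel : J0.relIndex K = 2 := by
      rw [Subgroup.relIndex_eq_two_iff]
      refine ⟨t, htK, fun b hb => ?_⟩
      rcases (hKmem b).mp hb with h | h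
      · right
        refine ⟨h, fun h' => htJ0 ?_⟩
        have e : t = b⁻¹ * (b * t) := by group
        rw [e]; exact J0.mul_mem (J0.inv_mem h) h'
      · left
        refine ⟨h, fun h' => htJ0 ?_⟩
        have e : t = b⁻¹ * (b * t) := by group
        rw [e]; exact J0.mul_mem (J0.inv_mem h') h
    have h1 := Subgroup.card_mul_index (J0.subgroupOf K)
    have h2 : Nat.card (J0.subgroupOf K) = Nat.card J0 :=
      Nat.card_congr (Subgroup.subgroupOfEquivOfLe hJ0K).toEquiv
    have h3 : (J0.subgroupOf K).index = 2 := hrel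
    rw [h2, h3, hJ0card] at h1
    omega
  have hKidx : K.index = 9 := by
    have := Subgroup.card_mul_index K
    rw [hKcard, hG] at this
    omega
  have hKS : ∀ g ∈ K, g ∈ (S : Subgroup G) → g ∈ J0 := by
    intro g hg hgS
    rcases (hKmem g).mp hg with h | h
    · exact h
    · exfalso
      apply htS
      have e : t = g⁻¹ * (g * t) := by group
      rw [e]
      exact Subgroup.mul_mem _ (Subgroup.inv_mem _ hgS) (hJS (hJ0J h))
  have hzK : z ∉ K := fun h => hz1 (hJ0Z z (hKS z h hzS) hzZ)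
  -- the core of `K` is trivial
  have hcore : K.normalCore = ⊥ := by
    have hN3 : K.normalCore ⊓ (S : Subgroup G) = ⊥ := by
      by_contra hne
      obtain ⟨x, hxN, hx1, hxC⟩ := exists_central (S : Subgroup G) S.isPGroup'
        (K.normalCore ⊓ (S : Subgroup G)) inf_le_right hne
      have hxZ : x ∈ Z := (hZmem x).mpr ⟨hxN.2, hxC⟩
      exact hx1 (hJ0Z x (hKS x (Subgroup.normalCore_le K hxN.1) hxN.2) hxZ)
    rw [eq_bot_iff]
    intro n hn
    rw [Subgroup.mem_bot]
    by_contra hn1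
    have hnS : n ∉ (S : Subgroup G) := by
      intro h
      have : n ∈ K.normalCore ⊓ (S : Subgroup G) := ⟨hn, h⟩
      rw [hN3, Subgroup.mem_bot] at this
      exact hn1 this
    -- `n ^ 2 = 1`
    have hn2 : n ^ 2 = 1 := by
      have h1 : n * n ∈ (S : Subgroup G) := by
        rw [Subgroup.mul_mem_iff_of_index_two hSidx]
      have h2 : n * n ∈ K.normalCore ⊓ (S : Subgroup G) :=
        ⟨Subgroup.mul_mem _ hn hn, h1⟩
      rw [hN3, Subgroup.mem_bot] at h2
      rw [sq]; exact h2
    -- `n` is central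
    have hncent : ∀ g : G, g * n * g⁻¹ = n := by
      intro g
      have hc : g * n * g⁻¹ ∈ K.normalCore := (Subgroup.normalCore_normal K).conj_mem n hn g
      have hcS : g * n * g⁻¹ ∉ (S : Subgroup G) := by
        intro h
        apply hnS
        have := hSn.conj_mem _ h g⁻¹
        have e : g⁻¹ * (g * n * g⁻¹) * g⁻¹⁻¹ = n := by group
        rwa [e] at this
      have h1 : n⁻¹ * (g * n * g⁻¹) ∈ (S : Subgroup G) := by
        rw [Subgroup.mul_mem_iff_of_index_two hSidx, Subgroup.inv_mem_iff]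
        exact ⟨fun h => absurd h hnS, fun h => absurd h hcS⟩
      have h2 : n⁻¹ * (g * n * g⁻¹) ∈ K.normalCore ⊓ (S : Subgroup G) :=
        ⟨Subgroup.mul_mem _ (Subgroup.inv_mem _ hn) hc, h1⟩
      rw [hN3, Subgroup.mem_bot] at h2
      exact (inv_mul_eq_one.mp h2).symm
    -- `n = t`
    have hnt : n = t := by
      have h1 : n * t ∈ (S : Subgroup G) := by
        rw [Subgroup.mul_mem_iff_of_index_two hSidx]
        exact ⟨fun h => absurd h hnS, fun h => absurd h htS⟩
      have hcomm : t * n = n * t := mul_inv_eq_iff_eq_mul.mp (hncent t)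
      have h2 : (n * t) ^ 2 = 1 := by
        have e : (n * t) ^ 2 = n * (t * n) * t := by rw [sq]; group
        rw [e, hcomm]
        have e2 : n * (n * t) * t = n ^ 2 * t ^ 2 := by rw [sq, sq]; group
        rw [e2, hn2, ht2, one_mul]
      have h3 := pow_81_of_sq h2 (h81 _ h1)
      rw [← htinv]
      exact eq_inv_of_mul_eq_one_left h3
    -- contradiction
    apply hST
    apply inf_eq_left.mpr
    intro s _
    rw [Subgroup.mem_centralizer_iff]
    intro h hh
    have hh' : h ∈ (T : Subgroup G) := hh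
    rw [hTz] at hh'
    obtain ⟨i, rfl⟩ := Subgroup.mem_zpowers_iff.mp hh'
    have hcomm : Commute t s := by
      have := hncent s
      rw [hnt] at this
      have e : s * t = t * s := mul_inv_eq_iff_eq_mul.mp this
      exact e.symm
    exact (hcomm.zpow_left i).eq
  -- the permutation representation
  have hcardq : Nat.card (G ⧸ K) = 9 := by
    rw [← Subgroup.index_eq_card, hKidx]
  obtain ⟨e⟩ : Nonempty (G ⧸ K ≃ Fin 9) := ⟨Finite.equivFinOfCardEq hcardq⟩
  obtain ⟨φ1, hφ1⟩ : ∃ φ1 : G →* Equiv.Perm (Fin 9),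
      φ1 = e.permCongrHom.toMonoidHom.comp (MulAction.toPermHom G (G ⧸ K)) := ⟨_, rfl⟩
  have hφ1inj : Function.Injective φ1 := by
    rw [hφ1]
    apply Function.Injective.comp e.permCongrHom.injective
    rw [← MonoidHom.ker_eq_bot_iff, ← Subgroup.normalCore_eq_ker]
    exact hcore
  have hφ1apply : ∀ (g : G) (i : Fin 9), φ1 g i = e (g • e.symm i) := by
    intro g i
    rw [hφ1]
    rfl
  have hσord : orderOf (φ1 z) = 3 := by
    rw [orderOf_injective φ1 hφ1inj z, hzord]
  have hσfpf : ∀ i : Fin 9, φ1 z i ≠ i := by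
    intro i h
    rw [hφ1apply] at h
    have h1 : z • e.symm i = e.symm i := by
      apply e.injective
      rw [h, Equiv.apply_symm_apply]
    obtain ⟨g, hg⟩ := QuotientGroup.mk_surjective (e.symm i)
    rw [← hg] at h1
    have h2 : ((z * g : G) : G ⧸ K) = (g : G ⧸ K) := h1
    rw [QuotientGroup.eq] at h2
    apply hzK
    have e2 : (z * g)⁻¹ * g = z⁻¹ := by
      rw [← hzcent g]; group
    rw [e2] at h2
    exact (Subgroup.inv_mem_iff K).mp h2
  have hσct := cycleType_of_order_three (φ1 z) hσord hσfpf (by simp)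
  obtain ⟨c, hc⟩ : ∃ c : Equiv.Perm (Fin 9), c = Equiv.swap (0 : Fin 9) 1 * Equiv.swap 1 2 *
      Equiv.swap 3 4 * Equiv.swap 4 5 * Equiv.swap 6 7 * Equiv.swap 7 8 := ⟨_, rfl⟩
  rw [← hc]
  have hc3 : c ^ 3 = 1 := by rw [hc]; decide
  have hc1 : c ≠ 1 := by rw [hc]; decide
  have hcfpf : ∀ i : Fin 9, c i ≠ i := by rw [hc]; decide
  have hcct := cycleType_of_order_three c (orderOf_eq_prime hc3 hc1) hcfpf (by simp)
  have hconj : IsConj (φ1 z) c := by
    rw [Equiv.Perm.isConj_iff_cycleType_eq, hσct, hcct]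
  obtain ⟨τ', hτ'⟩ := isConj_iff.mp hconj
  obtain ⟨Φ, hΦ⟩ : ∃ Φ : G →* Equiv.Perm (Fin 9),
      Φ = (MulAut.conj τ').toMonoidHom.comp φ1 := ⟨_, rfl⟩
  have hΦinj : Function.Injective Φ := by
    rw [hΦ]
    intro a b hab
    apply hφ1inj
    exact (MulAut.conj τ').injective hab
  have hΦz : Φ z = c := by
    rw [hΦ]
    show τ' * φ1 z * τ'⁻¹ = c
    exact hτ'
  have hΦmem : ∀ g : G, Φ g ∈ Subgroup.centralizer ({c} : Set (Equiv.Perm (Fin 9))) := by
    intro g
    rw [Subgroup.mem_centralizer_iff]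
    intro h hh
    rw [Set.mem_singleton_iff] at hh
    rw [hh, ← hΦz, ← map_mul, ← map_mul, hzcent g]
  have hcentcard : Nat.card (Subgroup.centralizer ({c} : Set (Equiv.Perm (Fin 9)))) = 162 := by
    rw [Equiv.Perm.nat_card_centralizer, hcct]
    simp
    decide
  have hΨinj : Function.Injective (Φ.codRestrict _ hΦmem) := by
    intro a b hab
    apply hΦinj
    exact congrArg Subtype.val hab
  have hΨbij : Function.Bijective (Φ.codRestrict _ hΦmem) :=
    (Nat.bijective_iff_injective_and_card _).mpr ⟨hΨinj, by rw [hG, hcentcard]⟩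
  exact ⟨MulEquiv.ofBijective _ hΨbij⟩

end Cfsg.Agent.S3376
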