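import Cfsg.Statements.S3385
import Cfsg.Agent.Lib.Helper89.SimsB

set_option autoImplicit false
open Cfsg

namespace Cfsg.Agent.S3385

open Cfsg.Agent.Lib.Helper89

/-- Sims' Theorem on primitive groups with a suborbit of length 3. Let G be a finite group acting faithfully and primitively on a set Ω, and suppose the stabilizer of a point a has an orbit of length 3 on Ω. Then the stabilizer of a has order 2^k · 3 for some k ≤ 4. -/
theorem result {G : Type*} [Group G] [Finite G] {Ω : Type*} [MulAction G Ω] [FaithfulSMul G Ω]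
    (hprim : MulAction.IsPreprimitive G Ω) (a b : Ω)
    (h3 : Nat.card (MulAction.orbit (MulAction.stabilizer G a) b) = 3) :
    ∃ k : ℕ, k ≤ 4 ∧ Nat.card ↥(MulAction.stabilizer G a) = 2 ^ k * 3 := by
  classical
  have : MulAction.IsPretransitive G Ω := hprim.toIsPretransitive
  obtain ⟨s, hs⟩ := MulAction.exists_smul_eq G a b
  obtain ⟨P, hP⟩ : ∃ P : Subgroup G, P = MulAction.stabilizer G a := ⟨_, rfl⟩
  rw [← hP] at h3 ⊢
  have memP : ∀ g : G, g ∈ P ↔ g • a = a := by
    intro g; rw [hP, MulAction.mem_stabilizer_iff]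
  have hnt : Nontrivial Ω := by
    have hfin : Finite (MulAction.orbit P b) :=
      Nat.finite_of_card_ne_zero (by rw [h3]; norm_num)
    have h1 : Nontrivial (MulAction.orbit P b) := by
      rw [← Finite.one_lt_card_iff_nontrivial, h3]; norm_num
    obtain ⟨x, y, hxy⟩ := exists_pair_ne (MulAction.orbit P b)
    exact ⟨⟨x.1, y.1, fun h => hxy (Subtype.ext h)⟩⟩
  have hco : IsCoatom P := by
    rw [hP]
    have := hprim
    exact MulAction.IsPreprimitive.isCoatom_stabilizer_of_isPreprimitive G a
  have hconj : ∀ g : G, s⁻¹ * g * s ∈ P ↔ g • b = b := by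
    intro g
    rw [memP, mul_smul, mul_smul, hs, inv_smul_eq_iff, hs]
  have mem01 : ∀ g, g ∈ Sims3.St P s 0 1 ↔ g ∈ P ∧ g • b = b := by
    intro g
    have h := Sims3.mem_St_succ (P := P) (s := s) (i := 0) (g := g)
    rw [← hconj]
    simpa using h
  have mem11 : ∀ g, g ∈ Sims3.St P s 1 1 ↔ g • b = b := by
    intro g
    have h := Sims3.mem_St_self (P := P) (s := s) (i := 1) (g := g)
    rw [← hconj]
    simpa using h
  have hidx : Nat.card P = 3 * Nat.card (Sims3.St P s 0 1) := by
    have h1 : MulAction.stabilizer P b = (Sims3.St P s 0 1).subgroupOf P := by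
      ext g
      rw [MulAction.mem_stabilizer_iff, Subgroup.mem_subgroupOf, mem01]
      constructor
      · intro h; exact ⟨g.2, h⟩
      · intro h; exact h.2
    have h2 : (Sims3.St P s 0 1).relIndex P = 3 := by
      have h := MulAction.index_stabilizer P b
      rw [h1, ← Nat.card_coe_set_eq, h3] at h
      exact h
    have h4 : Sims3.St P s 0 1 ≤ P := fun g hg => ((mem01 g).1 hg).1
    have h5 := Sims3.card_mul_relIndex' h4
    rw [h2] at h5
    omega
  have htop : P ⊔ Sims3.St P s 1 1 = ⊤ := by
    apply hco.2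
    rw [left_lt_sup]
    intro hle
    have h1 : Sims3.St P s 1 1 ≤ Sims3.St P s 0 1 := by
      intro g hg
      exact (mem01 g).2 ⟨hle hg, (mem11 g).1 hg⟩
    have h2 : Nat.card (Sims3.St P s 1 1) = Nat.card P := by
      have h := Sims3.card_St_shift (P := P) (s := s) 0 0 1
      simp only [zero_add] at h
      rw [h, Sims3.St_zero]
    have h4 := Nat.le_of_dvd Nat.card_pos (Subgroup.card_dvd_of_le h1)
    rw [h2, hidx] at h4
    have h5 : 0 < Nat.card (Sims3.St P s 0 1) := Nat.card_pos
    omega
  have hcore : ∀ N : Subgroup G, N.Normal → N ≤ P → N = ⊥ := by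
    intro N hN hNP
    rw [eq_bot_iff]
    intro n hn
    rw [Subgroup.mem_bot]
    apply FaithfulSMul.eq_of_smul_eq_smul (α := Ω)
    intro x
    obtain ⟨g, rfl⟩ := MulAction.exists_smul_eq G a x
    have h1 : g⁻¹ * n * g ∈ N := by
      have h := hN.conj_mem n hn g⁻¹
      simpa using h
    have h2 : (g⁻¹ * n * g) • a = a := (memP _).1 (hNP h1)
    rw [one_smul, ← mul_smul]
    calc (n * g) • a = (g * (g⁻¹ * n * g)) • a := by congr 1; group
      _ = g • a := by rw [mul_smul, h2]
  rcases Sims3.exists_good_shift P s hidx htop hcore with h | ⟨s', hidx', htop', h3', hgood⟩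
  · exact ⟨0, by norm_num, by rw [h]; norm_num⟩
  · obtain ⟨t, hC⟩ := Sims3.chain_of_good_shift P s' hidx' htop' hcore h3' hgood
    have ht5 := hC.le_five
    have ht2 := hC.two_le
    have hc := hC.card_zero 0
    rw [Sims3.St_zero] at hc
    exact ⟨t - 1, by omega, by rw [hc, mul_comm]⟩

end Cfsg.Agent.S3385
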