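import Mathlib
import Cfsg.Statements.S3389

set_option autoImplicit false
open Cfsg

namespace Cfsg.Agent.S3389

section
variable {G : Type*} [Group G] {Ω : Type*} [MulAction G Ω]

theorem period_le_ncard (h : G) (S : Set Ω) (hS : S.Finite) (hmap : ∀ s ∈ S, h • s ∈ S)
    (s : Ω) (hs : s ∈ S) : MulAction.period h s ≤ S.ncard := by
  have hpow : ∀ n : ℕ, h ^ n • s ∈ S := by
    intro n
    induction n with
    | zero => simpa using hs
    | succ n ih => rw [pow_succ', mul_smul]; exact hmap _ ih
  have hinj : Set.InjOn (fun n : ℕ => h ^ n • s) (Finset.range (MulAction.period h s) : Set ℕ) := by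
    have key : ∀ i j : ℕ, i ≤ j → j < MulAction.period h s → h ^ i • s = h ^ j • s → i = j := by
      intro i j hij hj heq
      have h1 : h ^ j = h ^ i * h ^ (j - i) := by rw [← pow_add]; congr 1; omega
      rw [h1, mul_smul] at heq
      have h2 : h ^ (j - i) • s = s := (smul_left_cancel _ heq).symm
      have h3 := MulAction.pow_smul_eq_iff_period_dvd.mp h2
      have h4 : j - i = 0 := Nat.eq_zero_of_dvd_of_lt h3 (by omega)
      omega
    intro i hi j hj hij
    simp only [Finset.coe_range, Set.mem_Iio] at hi hj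
    rcases le_total i j with h' | h'
    · exact key i j h' hj hij
    · exact (key j i h' hi hij.symm).symm
  have := Set.ncard_le_ncard_of_injOn _ (fun n _ => hpow n) hinj hS
  simpa using this

theorem smul_eq_of_period (h : G) (S : Set Ω) (hS : S.Finite) (hmap : ∀ s ∈ S, h • s ∈ S)
    (hdvd : ∀ d : ℕ, d ∣ orderOf h → d ≤ S.ncard → d = 1) (s : Ω) (hs : s ∈ S) : h • s = s :=
  MulAction.period_eq_one_iff.mp
    (hdvd _ (MulAction.period_dvd_orderOf h s) (period_le_ncard h S hS hmap s hs))

/-- an element commuting with `x` maps the fixed points of `x` to fixed points of `x` -/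
theorem smul_mem_fixedBy_of_commute (x y : G) (hxy : x * y = y * x) (s : Ω)
    (hs : s ∈ MulAction.fixedBy Ω x) : y • s ∈ MulAction.fixedBy Ω x := by
  rw [MulAction.mem_fixedBy] at hs ⊢
  rw [← mul_smul, hxy, mul_smul, hs]

/-- a nontrivial Sylow subgroup has a nontrivial central element -/
theorem exists_central (p : ℕ) [Fact p.Prime] [Finite G] (P : Sylow p G) (x : G) (hx : x ∈ P) (hx1 : x ≠ 1) :
    ∃ z : G, z ∈ P ∧ z ≠ 1 ∧ ∀ y ∈ P, y * z = z * y := by
  have : Nontrivial (P : Subgroup G) := ⟨⟨⟨x, hx⟩, 1, fun h => hx1 (congrArg Subtype.val h)⟩⟩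
  have hc := IsPGroup.center_nontrivial (P.isPGroup')
  obtain ⟨z, hz⟩ := exists_ne (1 : Subgroup.center (P : Subgroup G))
  refine ⟨((z : (P : Subgroup G)) : G), (z : (P : Subgroup G)).2, ?_, ?_⟩
  · intro h
    apply hz
    apply Subtype.ext
    apply Subtype.ext
    exact h
  · intro y hy
    have := Subgroup.mem_center_iff.mp z.2 ⟨y, hy⟩
    exact congrArg Subtype.val this

theorem exists_pow_orderOf (p : ℕ) [Fact p.Prime] (P : Sylow p G) (y : G) (hy : y ∈ P) :
    ∃ j : ℕ, orderOf y = p ^ j := by
  obtain ⟨j, hj⟩ := (IsPGroup.iff_orderOf.mp P.isPGroup') ⟨y, hy⟩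
  refine ⟨j, ?_⟩
  rw [← hj]
  exact (Subgroup.orderOf_mk y hy).symm

end

/-- Let G be a finite group acting faithfully and transitively on a finite set Ω with fixity k ≥ 1: every non-identity element fixes at most k points and some non-identity element fixes exactly k points. Then |Z(G)| divides k; if k = 2 then |G| is even; and for every prime p > k dividing |G| and every point α, either p does not divide |G_α| or G_α contains a Sylow p-subgroup of G. -/
theorem result {G : Type*} [Group G] [Finite G] {Ω : Type*} [Fintype Ω] [MulAction G Ω] [FaithfulSMul G Ω]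
    (htr : MulAction.IsPretransitive G Ω) (k : ℕ) (hk : 1 ≤ k)
    (hfix : ∀ g : G, g ≠ 1 → Nat.card (MulAction.fixedBy Ω g) ≤ k) (hex : ∃ g : G, g ≠ 1 ∧ Nat.card (MulAction.fixedBy Ω g) = k) :
    Nat.card (Subgroup.center G) ∣ k ∧ (k = 2 → 2 ∣ Nat.card G) ∧
      ∀ (p : ℕ), p.Prime → k < p → p ∣ Nat.card G → ∀ α : Ω,
        ¬ p ∣ Nat.card (MulAction.stabilizer G α) ∨ ¬ p ∣ (MulAction.stabilizer G α).index := by
  classical
  have hfix' : ∀ g : G, g ≠ 1 → (MulAction.fixedBy Ω g).ncard ≤ k := by
    intro g hg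
    rw [← Nat.card_coe_set_eq]
    exact hfix g hg
  obtain ⟨g₀, hg₀1, hg₀k⟩ := hex
  rw [Nat.card_coe_set_eq] at hg₀k
  refine ⟨?_, ?_, ?_⟩
  · -- the centre acts freely on the fixed points of g₀
    let A : SubMulAction (Subgroup.center G) Ω :=
      { carrier := MulAction.fixedBy Ω g₀
        smul_mem' := by
          intro z ω hω
          have hz : g₀ * (z : G) = (z : G) * g₀ := Subgroup.mem_center_iff.mp z.2 g₀
          exact smul_mem_fixedBy_of_commute g₀ (z : G) hz ω hω }
    have hfree : ∀ a : A, MulAction.stabilizer (Subgroup.center G) a = ⊥ := by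
      intro a
      rw [eq_bot_iff]
      intro z hz
      rw [MulAction.mem_stabilizer_iff] at hz
      have hz' : (z : G) • (a : Ω) = (a : Ω) := congrArg Subtype.val hz
      rw [Subgroup.mem_bot]
      apply Subtype.ext
      apply FaithfulSMul.eq_of_smul_eq_smul (α := Ω)
      intro ω
      obtain ⟨h, rfl⟩ := MulAction.exists_smul_eq G (a : Ω) ω
      have hzc : h * (z : G) = (z : G) * h := Subgroup.mem_center_iff.mp z.2 h
      rw [Subgroup.coe_one, one_smul, ← mul_smul, ← hzc, mul_smul, hz']
    have e := MulAction.selfEquivOrbitsQuotientProd hfree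
    have hcard : Nat.card A = Nat.card (Quotient (MulAction.orbitRel (Subgroup.center G) A)) * Nat.card (Subgroup.center G) := by
      rw [Nat.card_congr e, Nat.card_prod]
    have hA : Nat.card A = k := by
      rw [← hg₀k, ← Nat.card_coe_set_eq]
      rfl
    rw [hA] at hcard
    exact Dvd.intro_left _ hcard.symm
  · -- k = 2
    intro hk2
    subst hk2
    by_contra h2
    have hodd : ∀ h : G, ¬ 2 ∣ orderOf h := fun h hh => h2 (hh.trans (orderOf_dvd_natCard h))
    obtain ⟨α, β, hαβ, hfixg⟩ := Set.ncard_eq_two.mp hg₀k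
    have hS2 : ({α, β} : Set Ω).ncard = 2 := Set.ncard_pair hαβ
    -- elements mapping {α, β} to itself fix both points
    have K2 : ∀ h : G, (∀ s ∈ ({α, β} : Set Ω), h • s ∈ ({α, β} : Set Ω)) → h • α = α ∧ h • β = β := by
      intro h hmap
      have hd : ∀ d : ℕ, d ∣ orderOf h → d ≤ ({α, β} : Set Ω).ncard → d = 1 := by
        intro d hd hle
        rw [hS2] at hle
        have hd0 : d ≠ 0 := by
          rintro rfl
          have := orderOf_pos h
          rw [zero_dvd_iff] at hd
          omega
        have hd2 : d ≠ 2 := by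
          rintro rfl
          exact hodd h hd
        omega
      exact ⟨smul_eq_of_period h _ (Set.toFinite _) hmap hd α (by simp),
        smul_eq_of_period h _ (Set.toFinite _) hmap hd β (by simp)⟩
    -- nonidentity elements fixing α and β have exactly these fixed points
    have K1 : ∀ h : G, h ≠ 1 → h • α = α → h • β = β → MulAction.fixedBy Ω h = {α, β} := by
      intro h hh ha hb
      symm
      refine Set.eq_of_subset_of_ncard_le ?_ ?_ (Set.toFinite _)
      · intro s hs
        rcases hs with rfl | rfl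
        · exact ha
        · exact hb
      · rw [hS2]; exact hfix' h hh
    have hgα : g₀ • α = α := by
      have : α ∈ MulAction.fixedBy Ω g₀ := by rw [hfixg]; simp
      exact this
    have hgβ : g₀ • β = β := by
      have : β ∈ MulAction.fixedBy Ω g₀ := by rw [hfixg]; simp
      exact this
    -- an element x of prime order fixing α and β
    have hord1 : orderOf g₀ ≠ 1 := fun h => hg₀1 (orderOf_eq_one_iff.mp h)
    obtain ⟨p, hp, hpd⟩ := Nat.exists_prime_and_dvd hord1
    have : Fact p.Prime := ⟨hp⟩
    set x := g₀ ^ (orderOf g₀ / p) with hx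
    have hxord : orderOf x = p := orderOf_pow_orderOf_div (orderOf_pos g₀).ne' hpd
    have hx1 : x ≠ 1 := by
      intro h
      rw [h, orderOf_one] at hxord
      exact hp.one_lt.ne hxord
    have hpowfix : ∀ (n : ℕ) (s : Ω), g₀ • s = s → g₀ ^ n • s = s := by
      intro n s hs
      induction n with
      | zero => simp
      | succ n ih => rw [pow_succ, mul_smul, hs, ih]
    have hxα : x • α = α := hpowfix _ α hgα
    have hxβ : x • β = β := hpowfix _ β hgβ
    have hFx : MulAction.fixedBy Ω x = {α, β} := K1 x hx1 hxα hxβ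
    -- a Sylow subgroup containing x
    have hxp : IsPGroup p (Subgroup.zpowers x) := IsPGroup.of_card (n := 1) (by rw [Nat.card_zpowers, hxord, pow_one])
    obtain ⟨P, hP⟩ := hxp.exists_le_sylow
    have hxP : x ∈ P := hP (Subgroup.mem_zpowers x)
    obtain ⟨z, hzP, hz1, hzc⟩ := exists_central p P x hxP hx1
    -- z fixes α and β
    have hzmap : ∀ s ∈ ({α, β} : Set Ω), z • s ∈ ({α, β} : Set Ω) := by
      intro s hs
      rw [← hFx] at hs ⊢
      exact smul_mem_fixedBy_of_commute x z (hzc x hxP) s hs
    obtain ⟨hzα, hzβ⟩ := K2 z hzmap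
    have hFz : MulAction.fixedBy Ω z = {α, β} := K1 z hz1 hzα hzβ
    -- P fixes α and β
    have hPfix : ∀ y ∈ P, y • α = α ∧ y • β = β := by
      intro y hy
      apply K2
      intro s hs
      rw [← hFz] at hs ⊢
      exact smul_mem_fixedBy_of_commute z y (hzc y hy).symm s hs
    -- conjugate
    obtain ⟨x₀, hx₀⟩ := MulAction.exists_smul_eq G α β
    have hP1 : (P : Subgroup G) ≤ MulAction.stabilizer G β := fun y hy => (hPfix y hy).2
    have hP2 : ((x₀ • P : Sylow p G) : Subgroup G) ≤ MulAction.stabilizer G β := by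
      intro y hy
      rw [Sylow.coe_subgroup_smul, Subgroup.mem_pointwise_smul_iff_inv_smul_mem] at hy
      have hy' : x₀⁻¹ * y * x₀ ∈ (P : Subgroup G) := by simpa [MulAut.smul_def] using hy
      have h3 := (hPfix _ hy').1
      rw [MulAction.mem_stabilizer_iff, ← hx₀]
      have : y * x₀ = x₀ * (x₀⁻¹ * y * x₀) := by group
      rw [← mul_smul, this, mul_smul, h3]
    obtain ⟨c, hc⟩ := MulAction.exists_smul_eq (MulAction.stabilizer G β) ((x₀ • P).subtype hP2) (P.subtype hP1)
    simp_rw [Sylow.smul_subtype, Subgroup.smul_def, smul_smul] at hc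
    have hn : (c : G) * x₀ ∈ Subgroup.normalizer (P : Set G) := Sylow.smul_eq_iff_mem_normalizer.mp (Sylow.subtype_injective hc)
    set n := (c : G) * x₀ with hn_def
    have hnα : n • α = β := by
      rw [hn_def, mul_smul, hx₀]
      exact c.2
    -- n maps β into {α, β}
    have hnβ : n • β ∈ ({α, β} : Set Ω) := by
      rw [← hFx, MulAction.mem_fixedBy]
      have h4 : n⁻¹ * x * n ∈ P := (Subgroup.mem_set_normalizer_iff''.mp hn x).mp hxP
      have h5 := (hPfix _ h4).2
      have h6 : x * n = n * (n⁻¹ * x * n) := by group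
      rw [← mul_smul, h6, mul_smul, h5]
    have hnmap : ∀ s ∈ ({α, β} : Set Ω), n • s ∈ ({α, β} : Set Ω) := by
      intro s hs
      rcases hs with rfl | rfl
      · rw [hnα]; simp
      · exact hnβ
    have h7 := (K2 n hnmap).1
    rw [hnα] at h7
    exact hαβ h7.symm
  · intro p hp hkp hpG α
    by_contra hcon
    push Not at hcon
    obtain ⟨hpa, hpi⟩ := hcon
    have : Fact p.Prime := ⟨hp⟩
    obtain ⟨x', hx'⟩ := exists_prime_orderOf_dvd_card' p hpa
    set x : G := (x' : G) with hxdef
    have hxord : orderOf x = p := by rw [hxdef, Subgroup.orderOf_coe]; exact hx'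
    have hx1 : x ≠ 1 := by
      intro h
      rw [h, orderOf_one] at hxord
      exact hp.one_lt.ne hxord
    have hxα : x • α = α := x'.2
    have hxp : IsPGroup p (Subgroup.zpowers x) :=
      IsPGroup.of_card (n := 1) (by rw [Nat.card_zpowers, hxord, pow_one])
    obtain ⟨P, hP⟩ := hxp.exists_le_sylow
    have hxP : x ∈ P := hP (Subgroup.mem_zpowers x)
    obtain ⟨z, hzP, hz1, hzc⟩ := exists_central p P x hxP hx1
    -- p-elements fix the points of small invariant sets
    have L2 : ∀ y ∈ P, ∀ S : Set Ω, S.ncard ≤ k → (∀ s ∈ S, y • s ∈ S) → ∀ s ∈ S, y • s = s := by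
      intro y hy S hS hmap s hs
      obtain ⟨j, hj⟩ := exists_pow_orderOf p P y hy
      apply smul_eq_of_period y S (Set.toFinite _) hmap _ s hs
      intro d hd hle
      rw [hj] at hd
      obtain ⟨m, -, rfl⟩ := (Nat.dvd_prime_pow hp).mp hd
      cases m with
      | zero => simp
      | succ m =>
        exfalso
        have := Nat.le_self_pow (n := m + 1) (by omega) p
        omega
    have hzα : z • α = α :=
      L2 z hzP (MulAction.fixedBy Ω x) (hfix' x hx1)
        (fun s hs => smul_mem_fixedBy_of_commute x z (hzc x hxP) s hs) α hxα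
    have hPα : (P : Subgroup G) ≤ MulAction.stabilizer G α := by
      intro y hy
      exact L2 y hy (MulAction.fixedBy Ω z) (hfix' z hz1)
        (fun s hs => smul_mem_fixedBy_of_commute z y (hzc y hy).symm s hs) α hzα
    have h1 : (MulAction.stabilizer G α).index ∣ (P : Subgroup G).index := Subgroup.index_dvd_of_le hPα
    exact P.not_dvd_index (hpi.trans h1)

end Cfsg.Agent.S3389
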