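import Cfsg.Statements.S3391
import Mathlib
import Cfsg.Agent.Lib.Helper37.SzFix
import Cfsg.Agent.Lib.Helper37.SzLieC


set_option autoImplicit false

open Cfsg

namespace Cfsg.Agent.S3391

open Cfsg.Agent.Lib.Helper37

/-- Let q = 2^{2m+1} ≥ 8 and let G be isomorphic to the Suzuki group Sz(q). If G acts faithfully and transitively on a finite set Ω with fixity 2 (every non-identity element fixes at most two points, and some fixes exactly two), then either |Ω| = q² + 1 and the action is 2-transitive, or |Ω| = q²(q² + 1) and the point stabilizers have order q − 1. -/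
theorem result {G : Type*} [Group G] [Finite G] (F : Type) [Field F] [Fintype F] (m : ℕ) (hm : 1 ≤ m) (hF : Fintype.card F = 2 ^ (2 * m + 1))
    (e : G ≃* ↥(Cfsg.Lie.Sz F (2 ^ (m + 1)))) {Ω : Type*} [Fintype Ω] [MulAction G Ω] [FaithfulSMul G Ω] (htr : MulAction.IsPretransitive G Ω)
    (hfix : ∀ g : G, g ≠ 1 → Nat.card (MulAction.fixedBy Ω g) ≤ 2) (hex : ∃ g : G, g ≠ 1 ∧ Nat.card (MulAction.fixedBy Ω g) = 2) :
    (Fintype.card Ω = Fintype.card F ^ 2 + 1 ∧ MulAction.IsMultiplyPretransitive G Ω 2) ∨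
    (Fintype.card Ω = Fintype.card F ^ 2 * (Fintype.card F ^ 2 + 1) ∧ ∀ α : Ω, Nat.card (MulAction.stabilizer G α) = Fintype.card F - 1) := by
  have h := szData_of_card hm hF
  let φ : G ≃* ↥(Cfsg.Sz F m) := e.trans (szLieEquiv h).symm
  let act : MulAction ↥(Cfsg.Sz F m) Ω := MulAction.compHom Ω φ.symm.toMonoidHom
  have hsmul : ∀ (g' : ↥(Cfsg.Sz F m)) (ω : Ω), g' • ω = φ.symm g' • ω := fun _ _ => rfl
  have htr' : MulAction.IsPretransitive ↥(Cfsg.Sz F m) Ω := by
    constructor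
    intro x y
    obtain ⟨g, hg⟩ := MulAction.exists_smul_eq G x y
    exact ⟨φ g, by rw [hsmul, MulEquiv.symm_apply_apply]; exact hg⟩
  have hne : ∀ g' : ↥(Cfsg.Sz F m), g' ≠ 1 → φ.symm g' ≠ 1 := by
    intro g' hg' hc
    apply hg'
    have h1 := congrArg φ hc
    rw [MulEquiv.apply_symm_apply, map_one] at h1
    exact h1
  have hfix' : ∀ g' : ↥(Cfsg.Sz F m), g' ≠ 1 → (MulAction.fixedBy Ω g').ncard ≤ 2 := by
    intro g' hg'
    have h1 := hfix (φ.symm g') (hne g' hg')
    rw [Nat.card_coe_set_eq] at h1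
    exact h1
  obtain ⟨g, hg1, hg2⟩ := hex
  rw [Nat.card_coe_set_eq] at hg2
  obtain ⟨ω, ω', hωω', hset⟩ := Set.ncard_eq_two.mp hg2
  have hωfix : g • ω = ω := by
    have h1 : ω ∈ MulAction.fixedBy Ω g := by
      rw [hset]
      exact Set.mem_insert _ _
    exact h1
  have hex' : ∃ g' : ↥(Cfsg.Sz F m), g' ≠ 1 ∧ ∃ ω : Ω, g' • ω = ω := by
    refine ⟨φ g, ?_, ω, ?_⟩
    · intro hc
      apply hg1
      have h1 := congrArg φ.symm hc
      rw [MulEquiv.symm_apply_apply, map_one] at h1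
      exact h1
    · rw [hsmul, MulEquiv.symm_apply_apply]
      exact hωfix
  have hcardG : Nat.card G = Nat.card ↥(Cfsg.Sz F m) := Nat.card_congr φ.toEquiv
  rcases sz_fixity hm hF htr' hfix' hex' ⟨ω, ω', hωω'⟩ with ⟨hc, h2t⟩ | hc
  · left
    refine ⟨?_, ?_⟩
    · rw [← Nat.card_eq_fintype_card, hc, hF]
    · rw [MulAction.is_two_pretransitive_iff]
      intro a b c d hab hcd
      obtain ⟨g', h1, h2⟩ := h2t a b c d hab hcd
      exact ⟨φ.symm g', h1, h2⟩
  · right
    refine ⟨?_, ?_⟩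
    · rw [← Nat.card_eq_fintype_card, hc, hF]
    · intro α
      have h1 := card_mul_stab (G := G) α
      rw [hcardG, card_sz hm hF, hc] at h1
      have hpos : 0 < (2 ^ (2 * m + 1)) ^ 2 * ((2 ^ (2 * m + 1)) ^ 2 + 1) := by positivity
      rw [hF]
      exact Nat.eq_of_mul_eq_mul_left hpos h1

end Cfsg.Agent.S3391
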