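import Cfsg.Statements.S3495

set_option autoImplicit false
open Cfsg

namespace Cfsg.Agent.S3495


/-- Let a finite group G act faithfully and primitively on a finite set Ω with non-trivial point stabilizers, each acting primitively on every one of its orbits (an extremely primitive group), and suppose G has an elementary abelian normal p-subgroup N acting regularly on Ω (affine type). Then every non-trivial subgroup M of a point stabilizer G_α that is normal in G_α has the same orbits on Ω as G_α, and normalizes no subgroup of N other than 1 and N. -/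
theorem result {G : Type*} [Group G] [Finite G] {Ω : Type*} [Fintype Ω] [MulAction G Ω] [FaithfulSMul G Ω] (hprim : MulAction.IsPreprimitive G Ω) (hH : ∀ α : Ω, MulAction.stabilizer G α ≠ ⊥) (hep : ∀ (α : Ω) (ω : Ω), MulAction.IsPreprimitive (MulAction.stabilizer G α) (MulAction.orbit (MulAction.stabilizer G α) ω))
    (N : Subgroup G) [N.Normal] (hNc : IsMulCommutative N) (p : ℕ) (hp : p.Prime) (hNp : ∀ n ∈ N, n ^ p = 1)
    (hNtr : MulAction.IsPretransitive N Ω) (hNreg : ∀ ω : Ω, MulAction.stabilizer N ω = ⊥) (α : Ω) (M : Subgroup G) (hM : M ≠ ⊥) (hMle : M ≤ MulAction.stabilizer G α)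
    (hMn : MulAction.stabilizer G α ≤ Subgroup.normalizer (M : Set G)) :
    (∀ ω : Ω, MulAction.orbit M ω = MulAction.orbit (MulAction.stabilizer G α) ω) ∧
    (∀ L : Subgroup G, L ≤ N → M ≤ Subgroup.normalizer (L : Set G) → L = ⊥ ∨ L = N) := by
  classical
  have := hprim
  have hNnorm : N.Normal := inferInstance
  have hNcomm : ∀ a ∈ N, ∀ b ∈ N, a * b = b * a := fun a ha b hb =>
    congrArg Subtype.val (hNc.is_comm.comm (⟨a, ha⟩ : N) ⟨b, hb⟩)
  have hreg : ∀ n ∈ N, ∀ ω : Ω, n • ω = ω → n = 1 := by
    intro n hn ω h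
    have : (⟨n, hn⟩ : N) ∈ MulAction.stabilizer N ω := by
      rw [MulAction.mem_stabilizer_iff]; exact h
    rw [hNreg ω, Subgroup.mem_bot] at this
    exact congrArg Subtype.val this
  have hdec : ∀ g : G, ∃ n ∈ N, n⁻¹ * g ∈ MulAction.stabilizer G α := by
    intro g
    obtain ⟨n, hn⟩ := MulAction.exists_smul_eq N α (g • α)
    refine ⟨n, n.2, ?_⟩
    rw [MulAction.mem_stabilizer_iff, mul_smul, ← hn]
    show (n : G)⁻¹ • (n : G) • α = α
    rw [inv_smul_smul]
  have hfaith : ∀ g : G, (∀ ω : Ω, g • ω = ω) → g = 1 := by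
    intro g hg
    apply FaithfulSMul.eq_of_smul_eq_smul (α := Ω)
    intro ω
    rw [hg ω, one_smul]
  have hC : ∀ L : Subgroup G, L ≤ N →
      (∀ h ∈ MulAction.stabilizer G α, ∀ l ∈ L, h * l * h⁻¹ ∈ L) → L = ⊥ ∨ L = N := by
    intro L hLN hinv
    have hLn : L.Normal := by
      refine ⟨fun l hl g => ?_⟩
      obtain ⟨n, hn, hng⟩ := hdec g
      have hl' := hinv _ hng l hl
      have heq : g * l * g⁻¹ = n * ((n⁻¹ * g) * l * (n⁻¹ * g)⁻¹) * n⁻¹ := by group
      rw [heq, hNcomm n hn _ (hLN hl'), mul_assoc, mul_inv_cancel, mul_one]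
      exact hl'
    by_cases hfix : MulAction.fixedPoints L Ω = Set.univ
    · left
      rw [eq_bot_iff]
      intro l hl
      rw [Subgroup.mem_bot]
      apply hfaith
      intro ω
      have : ω ∈ MulAction.fixedPoints L Ω := by rw [hfix]; trivial
      exact this ⟨l, hl⟩
    · right
      have := MulAction.IsQuasiPreprimitive.isPretransitive_of_normal (G := G) (X := Ω)
        (N := L) hfix
      apply le_antisymm hLN
      intro n hn
      obtain ⟨l, hl⟩ := MulAction.exists_smul_eq L α (n • α)
      have h1 : (l : G)⁻¹ * n = 1 := by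
        apply hreg _ (N.mul_mem (N.inv_mem (hLN l.2)) hn) α
        rw [mul_smul, ← hl]
        show (l : G)⁻¹ • (l : G) • α = α
        rw [inv_smul_smul]
      have h2 : n = l := by
        rw [inv_mul_eq_one] at h1
        exact h1.symm
      rw [h2]
      exact l.2
  have hMH : ∀ m ∈ M, ∀ h ∈ MulAction.stabilizer G α, h * m * h⁻¹ ∈ M := by
    intro m hm h hh
    exact (Subgroup.mem_normalizer_iff.mp (hMn hh) m).mp hm
  have hCinv : ∀ h ∈ MulAction.stabilizer G α, ∀ c ∈ N ⊓ Subgroup.centralizer (M : Set G),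
      h * c * h⁻¹ ∈ N ⊓ Subgroup.centralizer (M : Set G) := by
    intro h hh c hc
    refine ⟨hNnorm.conj_mem c hc.1 h, ?_⟩
    show h * c * h⁻¹ ∈ Subgroup.centralizer (M : Set G)
    rw [Subgroup.mem_centralizer_iff]
    intro m hm
    have hm' : h⁻¹ * m * h ∈ M := by
      have := hMH m hm h⁻¹ ((MulAction.stabilizer G α).inv_mem hh)
      simpa using this
    have hcm := Subgroup.mem_centralizer_iff.mp hc.2 _ hm'
    calc m * (h * c * h⁻¹) = h * ((h⁻¹ * m * h) * c) * h⁻¹ := by group
      _ = h * (c * (h⁻¹ * m * h)) * h⁻¹ := by rw [hcm]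
      _ = h * c * h⁻¹ * m := by group
  have hCbot : N ⊓ Subgroup.centralizer (M : Set G) = ⊥ := by
    rcases hC (N ⊓ Subgroup.centralizer (M : Set G)) inf_le_left hCinv with h | h
    · exact h
    · exfalso
      have hNcent : N ≤ Subgroup.centralizer (M : Set G) := inf_eq_left.mp h
      apply hM
      rw [eq_bot_iff]
      intro m hm
      rw [Subgroup.mem_bot]
      apply hfaith
      intro ω
      obtain ⟨n, hn⟩ := MulAction.exists_smul_eq N α ω
      rw [← hn]
      show m • ((n : G) • α) = (n : G) • α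
      have hcomm : m * (n : G) = n * m := Subgroup.mem_centralizer_iff.mp (hNcent n.2) m hm
      rw [← mul_smul, hcomm, mul_smul, MulAction.mem_stabilizer_iff.mp (hMle hm)]
  have hfixM : ∀ ω : Ω, (∀ m ∈ M, m • ω = ω) → ω = α := by
    intro ω hω
    obtain ⟨n, hn⟩ := MulAction.exists_smul_eq N α ω
    have hn' : (n : G) • α = ω := hn
    have hnC : (n : G) ∈ N ⊓ Subgroup.centralizer (M : Set G) := by
      refine ⟨n.2, ?_⟩
      show (n : G) ∈ Subgroup.centralizer (M : Set G)
      rw [Subgroup.mem_centralizer_iff]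
      intro m hm
      have hmα : m • α = α := MulAction.mem_stabilizer_iff.mp (hMle hm)
      have h1 : ((n : G)⁻¹ * (m * n * m⁻¹)) = 1 := by
        apply hreg _ (N.mul_mem (N.inv_mem n.2) (hNnorm.conj_mem n n.2 m)) α
        have hminv : m⁻¹ • α = α := by rw [inv_smul_eq_iff, hmα]
        rw [mul_smul, mul_smul, mul_smul, hminv, hn', hω m hm, ← hn', inv_smul_smul]
      have h2 : m * n * m⁻¹ = n := by
        rw [inv_mul_eq_one] at h1
        exact h1.symm
      calc m * (n : G) = (m * n * m⁻¹) * m := by group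
        _ = n * m := by rw [h2]
    rw [hCbot, Subgroup.mem_bot] at hnC
    rw [← hn', hnC, one_smul]
  have h1 : ∀ ω : Ω, MulAction.orbit M ω = MulAction.orbit (MulAction.stabilizer G α) ω := by
    intro ω
    apply Set.Subset.antisymm
    · rintro _ ⟨m, rfl⟩
      exact ⟨⟨m, hMle m.2⟩, rfl⟩
    · by_cases hωα : ω = α
      · rintro _ ⟨h, rfl⟩
        have hh : (h : G) • α = α := h.2
        show (h : G) • ω ∈ MulAction.orbit M ω
        rw [hωα, hh]
        exact MulAction.mem_orbit_self α
      · have := hep α ω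
        have hM'n : (M.subgroupOf (MulAction.stabilizer G α)).Normal :=
          Subgroup.normal_subgroupOf_of_le_normalizer hMn
        have hfix : MulAction.fixedPoints (M.subgroupOf (MulAction.stabilizer G α))
            (MulAction.orbit (MulAction.stabilizer G α) ω) ≠ Set.univ := by
          intro hfix
          apply hωα
          apply hfixM
          intro m hm
          have hmem : (⟨ω, MulAction.mem_orbit_self ω⟩ :
              MulAction.orbit (MulAction.stabilizer G α) ω) ∈
              MulAction.fixedPoints (M.subgroupOf (MulAction.stabilizer G α))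
                (MulAction.orbit (MulAction.stabilizer G α) ω) := by
            rw [hfix]; trivial
          have := hmem ⟨⟨m, hMle hm⟩, hm⟩
          exact congrArg Subtype.val this
        have := MulAction.IsQuasiPreprimitive.isPretransitive_of_normal
          (G := MulAction.stabilizer G α) (X := MulAction.orbit (MulAction.stabilizer G α) ω)
          (N := M.subgroupOf (MulAction.stabilizer G α)) hfix
        rintro _ ⟨h, rfl⟩
        obtain ⟨m, hm⟩ := MulAction.exists_smul_eq (M.subgroupOf (MulAction.stabilizer G α))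
          (⟨ω, MulAction.mem_orbit_self ω⟩ : MulAction.orbit (MulAction.stabilizer G α) ω)
          ⟨h • ω, MulAction.mem_orbit _ _⟩
        refine ⟨⟨((m : MulAction.stabilizer G α) : G), m.2⟩, ?_⟩
        exact congrArg Subtype.val hm
  refine ⟨h1, ?_⟩
  intro L hLN hML
  apply hC L hLN
  intro h hh l hl
  have hmem : h • (l • α) ∈ MulAction.orbit M (l • α) := by
    rw [h1]
    exact ⟨⟨h, hh⟩, rfl⟩
  obtain ⟨m, hm⟩ := hmem
  have hm' : (m : G) • l • α = h • l • α := hm
  have heq : h * l * h⁻¹ = m * l * (m : G)⁻¹ := by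
    have hN1 : h * l * h⁻¹ ∈ N := hNnorm.conj_mem l (hLN hl) h
    have hN2 : (m : G) * l * (m : G)⁻¹ ∈ N := hNnorm.conj_mem l (hLN hl) m
    have : (m * l * (m : G)⁻¹)⁻¹ * (h * l * h⁻¹) = 1 := by
      apply hreg _ (N.mul_mem (N.inv_mem hN2) hN1) α
      have hhα : h⁻¹ • α = α := by
        rw [inv_smul_eq_iff]
        exact (MulAction.mem_stabilizer_iff.mp hh).symm
      have hmα : (m : G)⁻¹ • α = α := by
        rw [inv_smul_eq_iff]
        exact (MulAction.mem_stabilizer_iff.mp (hMle m.2)).symm
      rw [mul_smul, inv_smul_eq_iff]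
      rw [mul_smul, mul_smul, mul_smul, mul_smul, hhα, hmα, hm']
    rw [inv_mul_eq_one] at this
    exact this.symm
  rw [heq]
  exact (Subgroup.mem_normalizer_iff.mp (hML m.2) l).mp hl

end Cfsg.Agent.S3495
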