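import Cfsg.Statements.S3498
import Cfsg.Agent.Lib.Helper50.PGroupAux

set_option autoImplicit false
open Cfsg

namespace Cfsg.Agent.S3498

open scoped Pointwise

theorem solvable_of_coatom_prime {G : Type*} [Group G] [Finite G] (H : Subgroup G)
    (hmax : IsCoatom H) (hp : (Nat.card H).Prime) : Group.IsSolvable G := by
  obtain ⟨p, hpdef⟩ : ∃ p, p = Nat.card H := ⟨_, rfl⟩
  rw [← hpdef] at hp
  have : Fact p.Prime := ⟨hp⟩
  have hHcyc : IsCyclic H := isCyclic_of_prime_card hpdef.symm
  have hHcomm : ∀ a b : H, a * b = b * a := fun a b =>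
    (IsCyclic.isMulCommutative (α := H)).is_comm.comm a b
  have : Group.IsSolvable H := Group.isSolvable_of_comm hHcomm
  by_cases hn : H.Normal
  · obtain ⟨g, hg⟩ : ∃ g, g ∉ H := by
      by_contra hcon
      push Not at hcon
      exact hmax.1 (eq_top_iff.mpr fun x _ => hcon x)
    have hsup : H ⊔ Subgroup.zpowers g = ⊤ := by
      apply hmax.2
      refine lt_of_le_of_ne le_sup_left ?_
      intro heq
      apply hg
      rw [heq]
      exact Subgroup.mem_sup_right (Subgroup.mem_zpowers g)
    have hcycQ : IsCyclic (G ⧸ H) := by
      refine ⟨⟨QuotientGroup.mk g, ?_⟩⟩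
      intro x
      obtain ⟨y, rfl⟩ := QuotientGroup.mk_surjective x
      have hy : y ∈ ((H ⊔ Subgroup.zpowers g : Subgroup G) : Set G) := by
        rw [hsup]; trivial
      rw [Subgroup.normal_mul] at hy
      obtain ⟨a, ha, b, hb, rfl⟩ := hy
      obtain ⟨k, rfl⟩ := hb
      refine ⟨k, ?_⟩
      show ((QuotientGroup.mk g : G ⧸ H)) ^ k = QuotientGroup.mk (a * g ^ k)
      rw [QuotientGroup.mk_mul, (QuotientGroup.eq_one_iff a).mpr ha, one_mul,
        QuotientGroup.mk_zpow]
    have : Group.IsSolvable (G ⧸ H) := Group.isSolvable_of_comm fun a b =>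
      (IsCyclic.isMulCommutative (α := G ⧸ H)).is_comm.comm a b
    exact Group.isSolvable_of_ker_le_range H.subtype (QuotientGroup.mk' H) (by simp)
  · have hN : Subgroup.normalizer (H : Set G) = H := by
      by_contra hne
      have hlt : H < Subgroup.normalizer (H : Set G) :=
        lt_of_le_of_ne Subgroup.le_normalizer (Ne.symm hne)
      exact hn (Subgroup.normalizer_eq_top_iff.mp (hmax.2 _ hlt))
    have hHp : IsPGroup p H := IsPGroup.of_card (n := 1) (by rw [pow_one]; exact hpdef.symm)
    obtain ⟨P, hPH⟩ := Cfsg.Agent.Lib.Helper50.exists_sylow_eq_of_normalizer_eq H hHp hN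
    have hP : Subgroup.normalizer ((P : Subgroup G) : Set G) ≤ Subgroup.centralizer (P : Set G) := by
      rw [hPH, hN]
      intro a ha
      rw [Subgroup.mem_centralizer_iff]
      intro b hb
      have hb' : b ∈ (P : Subgroup G) := hb
      rw [hPH] at hb'
      exact congrArg Subtype.val (hHcomm ⟨b, hb'⟩ ⟨a, ha⟩)
    obtain ⟨K, hKdef⟩ : ∃ K, K = (MonoidHom.transferSylow P hP).ker := ⟨_, rfl⟩
    have hcomp : K.IsComplement' H := by
      rw [hKdef, ← hPH]
      exact MonoidHom.ker_transferSylow_isComplement' P hP
    have hKn : K.Normal := by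
      rw [hKdef]; exact MonoidHom.normal_ker _
    have hpK : ¬ p ∣ Nat.card K := by
      rw [hKdef]; exact MonoidHom.not_dvd_card_ker_transferSylow P hP
    have hdisj : K ⊓ H = ⊥ := hcomp.disjoint.eq_bot
    have hKsolv : Group.IsSolvable K := by
      by_cases hK1 : Nat.card K = 1
      · have : Subsingleton K := (Nat.card_eq_one_iff_unique.mp hK1).1
        infer_instance
      · obtain ⟨q, hq, hqK⟩ := Nat.exists_prime_and_dvd hK1
        have : Fact q.Prime := ⟨hq⟩
        let φ : H →* MulAut K := (MulAut.conjNormal (H := K)).comp H.subtype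
        let _inst : MulAction H (Sylow q K) := MulAction.compHom (Sylow q K) φ
        have hnd : ¬ p ∣ Nat.card (Sylow q K) := by
          intro hdvd
          have Q : Sylow q K := default
          have h1 : Nat.card (Sylow q K) ∣ (Q : Subgroup K).index := Sylow.card_dvd_index Q
          have h2 : (Q : Subgroup K).index ∣ Nat.card K := Subgroup.index_dvd_card _
          exact hpK (hdvd.trans (h1.trans h2))
        obtain ⟨Q, hQ⟩ := IsPGroup.nonempty_fixed_point_of_prime_not_dvd_card hHp (Sylow q K) hnd
        have key : ∀ h (hh : h ∈ H) (k : K), k ∈ Q →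
            (MulAut.conjNormal h : MulAut K) k ∈ Q := by
          intro h hh k hk
          have h1 : (⟨h, hh⟩ : H) • Q = Q := hQ ⟨h, hh⟩
          have h3 : ((⟨h, hh⟩ : H) • Q : Sylow q K) = (MulAut.conjNormal h : MulAut K) • Q := rfl
          rw [h3] at h1
          have h2 : (MulAut.conjNormal h : MulAut K) • k ∈
              ((MulAut.conjNormal h : MulAut K) • (Q : Subgroup K)) :=
            Subgroup.smul_mem_pointwise_smul _ _ _ hk
          rw [← Sylow.pointwise_smul_def, h1] at h2
          exact h2
        let Q' : Subgroup G := (Q : Subgroup K).map K.subtype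
        have hQ'K : Q' ≤ K := by
          rintro _ ⟨x, _, rfl⟩
          exact x.2
        have key' : ∀ h, h ∈ H → ∀ x, x ∈ Q' → h * x * h⁻¹ ∈ Q' := by
          rintro h hh _ ⟨k, hk, rfl⟩
          refine ⟨(MulAut.conjNormal h : MulAut K) k, key h hh k hk, ?_⟩
          simp [MulAut.conjNormal_apply]
        have hHnorm : H ≤ Subgroup.normalizer (Q' : Set G) := by
          intro h hh
          rw [Subgroup.mem_normalizer_iff]
          intro x
          constructor
          · exact key' h hh x
          · intro hx
            have := key' h⁻¹ (H.inv_mem hh) _ hx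
            simpa [mul_assoc] using this
        have hQne : (Q : Subgroup K) ≠ ⊥ := Sylow.ne_bot_of_dvd_card Q hqK
        have hsup : Q' ⊔ H = ⊤ := by
          apply hmax.2
          refine lt_of_le_of_ne le_sup_right ?_
          intro heq
          have hQ'H : Q' ≤ H := by rw [heq]; exact le_sup_left
          apply hQne
          rw [eq_bot_iff]
          intro k hk
          have hkG : (k : G) ∈ K ⊓ H := ⟨k.2, hQ'H ⟨k, hk, rfl⟩⟩
          rw [hdisj, Subgroup.mem_bot] at hkG
          rw [Subgroup.mem_bot]
          exact Subtype.ext hkG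
        have hKQ : K ≤ Q' := by
          intro k hk
          have hk' : k ∈ ((Q' ⊔ H : Subgroup G) : Set G) := by rw [hsup]; trivial
          rw [Subgroup.coe_mul_of_right_le_normalizer_left Q' H hHnorm] at hk'
          obtain ⟨a, ha, b, hb, rfl⟩ := hk'
          have hbK : b ∈ K := by
            have : a⁻¹ * (a * b) ∈ K := K.mul_mem (K.inv_mem (hQ'K ha)) hk
            simpa using this
          have hb1 : b = 1 := by
            have : b ∈ K ⊓ H := ⟨hbK, hb⟩
            rw [hdisj, Subgroup.mem_bot] at this
            exact this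
          subst hb1
          show a * 1 ∈ Q'
          rw [mul_one]
          exact ha
        have hKq : IsPGroup q K := by
          intro k
          have hkQ : k ∈ (Q : Subgroup K) := by
            obtain ⟨x, hx, hxk⟩ := hKQ k.2
            have : x = k := Subtype.ext hxk
            rw [← this]
            exact hx
          obtain ⟨n, hn⟩ := Q.isPGroup' ⟨k, hkQ⟩
          exact ⟨n, by simpa using congrArg Subtype.val hn⟩
        have := hKq.isNilpotent
        infer_instance
    have : Group.IsSolvable (G ⧸ K) := by
      have hcard : Nat.card (G ⧸ K) = p := by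
        have h1 := hcomp.card_mul_card
        have h2 := Subgroup.card_mul_index K
        have h3 : Nat.card K * K.index = Nat.card K * p := by rw [h2, ← h1, hpdef]
        have hKpos : 0 < Nat.card K := Nat.card_pos
        rw [← Subgroup.index_eq_card]
        exact Nat.eq_of_mul_eq_mul_left hKpos h3
      have : IsCyclic (G ⧸ K) := isCyclic_of_prime_card hcard
      exact Group.isSolvable_of_comm fun a b =>
        (IsCyclic.isMulCommutative (α := G ⧸ K)).is_comm.comm a b
    exact Group.isSolvable_of_ker_le_range K.subtype (QuotientGroup.mk' K) (by simp)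

/-- A maximal subgroup of a finite almost simple group does not have prime order. Here G is almost simple in the sense that it has a non-abelian simple normal subgroup T with trivial centralizer. -/
theorem result {G : Type*} [Group G] [Finite G] (T : Subgroup G) [T.Normal] (hT : IsSimpleGroup T) (hTc : ¬ IsMulCommutative T)
    (hC : Subgroup.centralizer (T : Set G) = ⊥) (H : Subgroup G) (hmax : IsCoatom H) : ¬ (Nat.card H).Prime := by
  intro hp
  have := solvable_of_coatom_prime H hmax hp
  have : Group.IsSolvable T := inferInstance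
  apply hTc
  have hcomm := (IsSimpleGroup.comm_iff_isSolvable (G := T)).mpr inferInstance
  exact ⟨⟨hcomm⟩⟩

end Cfsg.Agent.S3498
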