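import Cfsg.Statements.S3504

set_option autoImplicit false
open Cfsg

namespace Cfsg.Agent.S3504

theorem cycleType_of_prime_derangement {n : ℕ} (g : Equiv.Perm (Fin n)) (p : ℕ)
    (hp : p.Prime) (hord : orderOf g = p) (hfix : ∀ i : Fin n, g i ≠ i) :
    g.cycleType = Multiset.replicate (n / p) p ∧ p ∣ n := by
  have hall : ∀ b ∈ g.cycleType, b = p := by
    intro b hb
    have h2 := Equiv.Perm.two_le_of_mem_cycleType hb
    have hd := Equiv.Perm.dvd_of_mem_cycleType hb
    rw [hord] at hd
    rcases (Nat.dvd_prime hp).mp hd with h | h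
    · omega
    · exact h
  have hrep : g.cycleType = Multiset.replicate (Multiset.card g.cycleType) p :=
    Multiset.eq_replicate.mpr ⟨rfl, hall⟩
  have hsupp : g.support = Finset.univ := by
    ext i
    simp [Equiv.Perm.mem_support, hfix i]
  have hsum : g.cycleType.sum = n := by
    rw [Equiv.Perm.sum_cycleType, hsupp, Finset.card_univ, Fintype.card_fin]
  have hsum' : Multiset.card g.cycleType * p = n := by
    rw [hrep, Multiset.sum_replicate, smul_eq_mul] at hsum
    simpa using hsum
  have hcard : Multiset.card g.cycleType = n / p :=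
    (Nat.div_eq_of_eq_mul_left hp.pos hsum'.symm).symm
  exact ⟨by rw [← hcard]; exact hrep, ⟨_, by rw [mul_comm]; exact hsum'.symm⟩⟩

theorem exists_prime_derangement {n : ℕ} (hn : 0 < n) (p : ℕ) (hp : p.Prime) (hpn : p ∣ n) :
    ∃ g : Equiv.Perm (Fin n), g.cycleType = Multiset.replicate (n / p) p ∧ orderOf g = p ∧
      ∀ i : Fin n, g i ≠ i := by
  have hk : 0 < n / p := Nat.div_pos (Nat.le_of_dvd hn hpn) hp.pos
  have hex : ∃ g : Equiv.Perm (Fin n), g.cycleType = Multiset.replicate (n / p) p := by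
    rw [Equiv.Perm.exists_with_cycleType_iff]
    constructor
    · rw [Multiset.sum_replicate, smul_eq_mul, Fintype.card_fin, Nat.div_mul_cancel hpn]
    · intro a ha
      rw [Multiset.eq_of_mem_replicate ha]
      exact hp.two_le
  obtain ⟨g, hg⟩ := hex
  refine ⟨g, hg, ?_, ?_⟩
  · rw [← Equiv.Perm.lcm_cycleType, hg]
    obtain ⟨k, hk'⟩ := Nat.exists_eq_succ_of_ne_zero hk.ne'
    rw [hk']
    clear hk' hk hg
    induction k with
    | zero => simp
    | succ k ih =>
      rw [Multiset.replicate_succ, Multiset.lcm_cons, ih]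
      simp
  · have hsupp : g.support = Finset.univ := by
      apply Finset.eq_univ_of_card
      rw [← Equiv.Perm.sum_cycleType, hg, Multiset.sum_replicate, smul_eq_mul, Fintype.card_fin,
        Nat.div_mul_cancel hpn]
    intro i
    have : i ∈ g.support := by rw [hsupp]; exact Finset.mem_univ i
    exact Equiv.Perm.mem_support.mp this


/-- For n ≥ 5, the fixed-point-free permutations of prime order in the symmetric group of degree n form a single conjugacy class if and only if n is a prime power. -/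
theorem result (n : ℕ) (hn : 5 ≤ n) :
    Nat.card {c : ConjClasses (Equiv.Perm (Fin n)) // ∃ g : Equiv.Perm (Fin n), ConjClasses.mk g = c ∧ (orderOf g).Prime ∧ ∀ i : Fin n, g i ≠ i} = 1 ↔ IsPrimePow n := by
  have hn0 : 0 < n := by omega
  rw [Nat.card_eq_one_iff_unique]
  constructor
  · rintro ⟨hsub, _⟩
    rw [isPrimePow_iff_unique_prime_dvd]
    obtain ⟨p, hp, hpn⟩ := Nat.exists_prime_and_dvd (show n ≠ 1 by omega)
    refine ⟨p, ⟨hp, hpn⟩, ?_⟩
    rintro q ⟨hq, hqn⟩
    obtain ⟨g, hg, hgo, hgf⟩ := exists_prime_derangement hn0 p hp hpn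
    obtain ⟨g', hg', hgo', hgf'⟩ := exists_prime_derangement hn0 q hq hqn
    have hmem : (⟨ConjClasses.mk g, g, rfl, by rw [hgo]; exact hp, hgf⟩ :
        {c : ConjClasses (Equiv.Perm (Fin n)) // ∃ g : Equiv.Perm (Fin n),
          ConjClasses.mk g = c ∧ (orderOf g).Prime ∧ ∀ i : Fin n, g i ≠ i}) =
        ⟨ConjClasses.mk g', g', rfl, by rw [hgo']; exact hq, hgf'⟩ := Subsingleton.elim _ _
    have hcl : ConjClasses.mk g = ConjClasses.mk g' := congrArg Subtype.val hmem
    rw [ConjClasses.mk_eq_mk_iff_isConj, Equiv.Perm.isConj_iff_cycleType_eq, hg, hg'] at hcl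
    have hk : 0 < n / q := Nat.div_pos (Nat.le_of_dvd hn0 hqn) hq.pos
    have hqmem : q ∈ Multiset.replicate (n / q) q := by
      rw [Multiset.mem_replicate]
      exact ⟨hk.ne', rfl⟩
    rw [← hcl] at hqmem
    exact Multiset.eq_of_mem_replicate hqmem
  · intro hpp
    rw [isPrimePow_iff_unique_prime_dvd] at hpp
    obtain ⟨p, ⟨hp, hpn⟩, huniq⟩ := hpp
    constructor
    · constructor
      rintro ⟨c, g, rfl, hgo, hgf⟩ ⟨c', g', rfl, hgo', hgf'⟩
      apply Subtype.ext
      show ConjClasses.mk g = ConjClasses.mk g'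
      obtain ⟨h1, h1n⟩ := cycleType_of_prime_derangement g (orderOf g) hgo rfl hgf
      obtain ⟨h2, h2n⟩ := cycleType_of_prime_derangement g' (orderOf g') hgo' rfl hgf'
      have e1 : orderOf g = p := huniq _ ⟨hgo, h1n⟩
      have e2 : orderOf g' = p := huniq _ ⟨hgo', h2n⟩
      rw [ConjClasses.mk_eq_mk_iff_isConj, Equiv.Perm.isConj_iff_cycleType_eq, h1, h2, e1, e2]
    · obtain ⟨g, hg, hgo, hgf⟩ := exists_prime_derangement hn0 p hp hpn
      exact ⟨⟨ConjClasses.mk g, g, rfl, by rw [hgo]; exact hp, hgf⟩⟩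

end Cfsg.Agent.S3504
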