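import Cfsg.Statements.S3508

set_option autoImplicit false
open Cfsg

namespace Cfsg.Agent.S3508

open scoped IsMulCommutative
open Polynomial in
theorem unipotent_pow {p : ℕ} [Fact p.Prime] {V : Type*} [AddCommGroup V] [Module (ZMod p) V]
    [Module.Finite (ZMod p) V] (φ : Module.End (ZMod p) V) (r : ℕ) (hφ : φ ^ (p ^ r) = 1)
    (k : ℕ) :
    (Module.finrank (ZMod p) V ≤ p ^ k → φ ^ (p ^ k) = 1) ∧
    (Module.finrank (ZMod p) V + 1 ≤ p ^ k → ∑ i ∈ Finset.range (p ^ k), φ ^ i = 0) := by
  have hpoly1 : ∀ k : ℕ, ((X : (ZMod p)[X]) - 1) ^ (p ^ k) = X ^ (p ^ k) - 1 := by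
    intro k
    rw [sub_pow_char_pow, one_pow]
  have hpoly2 : ∀ k : ℕ, ∑ i ∈ Finset.range (p ^ k), (X : (ZMod p)[X]) ^ i =
      (X - 1) ^ (p ^ k - 1) := by
    intro k
    have hne : (X : (ZMod p)[X]) - 1 ≠ 0 := by
      have := X_sub_C_ne_zero (1 : ZMod p)
      simpa using this
    apply mul_right_cancel₀ hne
    rw [geom_sum_mul, ← pow_succ,
      Nat.sub_add_cancel (Nat.one_le_pow _ _ (Fact.out : p.Prime).pos), hpoly1]
  have hD1 : ∀ k : ℕ, (φ - 1) ^ (p ^ k) = φ ^ (p ^ k) - 1 := by
    intro k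
    have := congrArg (aeval φ) (hpoly1 k)
    simpa using this
  have hD2 : ∀ k : ℕ, ∑ i ∈ Finset.range (p ^ k), φ ^ i = (φ - 1) ^ (p ^ k - 1) := by
    intro k
    have := congrArg (aeval φ) (hpoly2 k)
    simpa using this
  have hnil : IsNilpotent (φ - 1) := ⟨p ^ r, by rw [hD1, hφ, sub_self]⟩
  have hDd : (φ - 1) ^ (Module.finrank (ZMod p) V) = 0 := by
    have h1 := LinearMap.aeval_self_charpoly (φ - 1)
    rw [hnil.charpoly_eq_X_pow_finrank] at h1
    simpa using h1
  constructor
  · intro hk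
    have : (φ - 1) ^ (p ^ k) = 0 := pow_eq_zero_of_le hk hDd
    rw [hD1] at this
    exact sub_eq_zero.mp this
  · intro hk
    rw [hD2]
    exact pow_eq_zero_of_le (by omega) hDd

def conjL (p : ℕ) {A : Type*} [CommGroup A] [Module (ZMod p) (Additive A)] {Γ : Type*}
    [Group Γ] (c : Γ →* MulAut A) : Γ →* Module.End (ZMod p) (Additive A) where
  toFun x := (MonoidHom.toAdditive (c x).toMonoidHom).toZModLinearMap p
  map_one' := by
    refine LinearMap.ext fun v => ?_
    rw [map_one]
    rfl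
  map_mul' x y := by
    refine LinearMap.ext fun v => ?_
    rw [map_mul]
    rfl

theorem conjL_apply (p : ℕ) {A : Type*} [CommGroup A] [Module (ZMod p) (Additive A)]
    {Γ : Type*} [Group Γ] (c : Γ →* MulAut A) (x : Γ) (v : Additive A) :
    conjL p c x v = Additive.ofMul (c x (Additive.toMul v)) := rfl

theorem affine_pow_aux0 {p : ℕ} [Fact p.Prime] {A : Type*} [CommGroup A] [Finite A]
    [Module (ZMod p) (Additive A)] (m : ℕ) (hcard : Nat.card A = p ^ m) {Γ : Type*} [Group Γ]
    (c : Γ →* MulAut A) (g : Γ) (r : ℕ) (hg : g ^ (p ^ r) = 1) (b : A) (k : ℕ)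
    (hk : m + 1 ≤ p ^ k) :
    c (g ^ (p ^ k)) = 1 ∧ ∏ i ∈ Finset.range (p ^ k), c (g ^ i) b = 1 := by
  have : Finite (Additive A) := ‹Finite A›
  have : Module.Finite (ZMod p) (Additive A) := Module.Finite.of_finite
  have hfin : Module.finrank (ZMod p) (Additive A) = m := by
    have h1 := Module.natCard_eq_pow_finrank (K := ZMod p) (V := Additive A)
    rw [Nat.card_zmod] at h1
    have h2 : Nat.card (Additive A) = Nat.card A := rfl
    rw [h2, hcard] at h1
    exact (Nat.pow_right_injective (Fact.out : p.Prime).two_le h1).symm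
  have hφ : (conjL p c g) ^ (p ^ r) = 1 := by rw [← map_pow, hg, map_one]
  obtain ⟨h1, h2⟩ := unipotent_pow (conjL p c g) r hφ k
  rw [hfin] at h1 h2
  have h1' := h1 (by omega)
  have h2' := h2 hk
  constructor
  · ext a
    have := congrArg (fun f : Module.End (ZMod p) (Additive A) =>
      Additive.toMul (f (Additive.ofMul a))) h1'
    rw [← map_pow] at this
    exact this
  · have := congrArg (fun f : Module.End (ZMod p) (Additive A) =>
      Additive.toMul (f (Additive.ofMul b))) h2'
    simp only [LinearMap.sum_apply, ← map_pow, conjL_apply, toMul_sum] at this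
    exact this

theorem affine_pow_aux {p : ℕ} [Fact p.Prime] {A : Type*} [CommGroup A] [Finite A]
    (hA : ∀ a : A, a ^ p = 1) (m : ℕ) (hcard : Nat.card A = p ^ m) {Γ : Type*} [Group Γ]
    (c : Γ →* MulAut A) (g : Γ) (r : ℕ) (hg : g ^ (p ^ r) = 1) (b : A) (k : ℕ)
    (hk : m + 1 ≤ p ^ k) :
    c (g ^ (p ^ k)) = 1 ∧ ∏ i ∈ Finset.range (p ^ k), c (g ^ i) b = 1 :=
  @affine_pow_aux0 p _ A _ _ (AddCommGroup.zmodModule (fun v => by
    exact congrArg Additive.ofMul (hA (Additive.toMul v)))) m hcard Γ _ c g r hg b k hk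

/-- Let a finite group G act faithfully on a set Ω with p ^ m points (p prime) and have an elementary abelian normal p-subgroup N acting regularly on Ω (so G is a group of affine transformations of an m-dimensional space over the field with p elements). If G contains an element of order p ^ r with r ≥ 1, then p ^ (r − 1) ≤ m. In particular an element of order p ^ m forces m ≤ 2, and m ≤ 1 when p is odd. -/
theorem result {G : Type*} [Group G] [Finite G] {Ω : Type*} [Fintype Ω] [MulAction G Ω] [FaithfulSMul G Ω] (p m : ℕ) (hp : p.Prime) (hcard : Fintype.card Ω = p ^ m)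
    (N : Subgroup G) [N.Normal] (hNc : IsMulCommutative N) (hNp : ∀ n ∈ N, n ^ p = 1)
    (hNtr : MulAction.IsPretransitive N Ω) (hNreg : ∀ ω : Ω, MulAction.stabilizer N ω = ⊥)
    (g : G) (r : ℕ) (hr : 1 ≤ r) (hg : orderOf g = p ^ r) :
    p ^ (r - 1) ≤ m ∧ (r = m → m ≤ 2 ∧ (2 < p → m ≤ 1)) := by
  classical
  have : Fact p.Prime := ⟨hp⟩
  have := hNc
  have hpos : 0 < Fintype.card Ω := by
    rw [hcard]
    exact pow_pos hp.pos m
  obtain ⟨α⟩ := Fintype.card_pos_iff.mp hpos
  have hbij : Function.Bijective (fun n : N => n • α) := by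
    constructor
    · intro a b hab
      have hab' : a • α = b • α := hab
      have : a⁻¹ * b ∈ MulAction.stabilizer N α := by
        rw [MulAction.mem_stabilizer_iff, mul_smul, ← hab', inv_smul_smul]
      rw [hNreg α, Subgroup.mem_bot, inv_mul_eq_one] at this
      exact this
    · intro ω
      exact MulAction.exists_smul_eq N α ω
  have hNcard : Nat.card N = p ^ m := by
    rw [Nat.card_eq_of_bijective _ hbij, Nat.card_eq_fintype_card, hcard]
  have hfaith : ∀ x : G, (∀ ω : Ω, x • ω = ω) → x = 1 := by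
    intro x hx
    apply FaithfulSMul.eq_of_smul_eq_smul (α := Ω)
    intro ω
    rw [hx ω, one_smul]
  have key : p ^ (r - 1) ≤ m := by
    by_contra hcon
    push Not at hcon
    obtain ⟨b, hb⟩ := MulAction.exists_smul_eq N α (g • α)
    have hgr : g ^ (p ^ r) = 1 := by
      rw [← hg]
      exact pow_orderOf_eq_one g
    obtain ⟨h1, h2⟩ := affine_pow_aux (A := N) (fun a => Subtype.ext (hNp a a.2)) m hNcard
      (MulAut.conjNormal (H := N)) g r hgr b (r - 1) hcon
    have hT : ∀ j : ℕ, g ^ j • α =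
        (∏ i ∈ Finset.range j, (MulAut.conjNormal (g ^ i) : MulAut N) b : N) • α := by
      intro j
      induction j with
      | zero => simp
      | succ j ih =>
        rw [pow_succ, mul_smul, ← hb, Finset.prod_range_succ]
        have e1 : g ^ j • ((b : G) • α) =
            ((MulAut.conjNormal (g ^ j) : MulAut N) b : G) • (g ^ j • α) := by
          rw [MulAut.conjNormal_apply, ← mul_smul, ← mul_smul]
          congr 1
          group
        show g ^ j • ((b : G) • α) = _
        rw [e1, ih, mul_comm, mul_smul]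
        rfl
    have hgα : g ^ (p ^ (r - 1)) • α = α := by
      rw [hT, h2, one_smul]
    have hg1 : g ^ (p ^ (r - 1)) = 1 := by
      apply hfaith
      intro ω
      obtain ⟨n, rfl⟩ := MulAction.exists_smul_eq N α ω
      have e1 : g ^ (p ^ (r - 1)) • ((n : G) • α) =
          ((MulAut.conjNormal (g ^ (p ^ (r - 1))) : MulAut N) n : G) •
            (g ^ (p ^ (r - 1)) • α) := by
        rw [MulAut.conjNormal_apply, ← mul_smul, ← mul_smul]
        congr 1
        group
      show g ^ (p ^ (r - 1)) • ((n : G) • α) = (n : G) • α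
      rw [e1, hgα, h1]
      rfl
    have hdvd : p ^ r ∣ p ^ (r - 1) := by
      rw [← hg]
      exact orderOf_dvd_of_pow_eq_one hg1
    have := (Nat.pow_dvd_pow_iff_le_right hp.one_lt).mp hdvd
    omega
  refine ⟨key, ?_⟩
  intro hrm
  rw [hrm] at key hr
  constructor
  · by_contra hcon
    push Not at hcon
    obtain ⟨k, rfl⟩ : ∃ k, m = k + 3 := ⟨m - 3, by omega⟩
    have h1 : 2 ^ (k + 2) ≤ p ^ (k + 2) := Nat.pow_le_pow_left hp.two_le _
    have h2 : k < 2 ^ k := Nat.lt_two_pow_self
    have h3 : 2 ^ (k + 2) = 4 * 2 ^ k := by ring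
    have h4 : k + 3 - 1 = k + 2 := rfl
    rw [h4] at key
    omega
  · intro hp2
    by_contra hcon
    push Not at hcon
    obtain ⟨k, rfl⟩ : ∃ k, m = k + 2 := ⟨m - 2, by omega⟩
    have h1 : 3 ^ (k + 1) ≤ p ^ (k + 1) := Nat.pow_le_pow_left hp2 _
    have h2 : k < 3 ^ k := Nat.lt_pow_self (by norm_num)
    have h3 : 3 ^ (k + 1) = 3 * 3 ^ k := by ring
    have h4 : k + 2 - 1 = k + 1 := rfl
    rw [h4] at key
    omega

end Cfsg.Agent.S3508
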