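import Cfsg.Statements.S3511

set_option autoImplicit false
open Cfsg

namespace Cfsg.Agent.S3511

theorem aux {G : Type*} [Group G] [Finite G] {Ω : Type*} [MulAction G Ω]
    (h : ∀ g : G, Squarefree (orderOf g) → ∃ ω : Ω, MulAction.stabilizer (Subgroup.zpowers g) ω = ⊥) :
    ∀ n : ℕ, ∀ g : G, orderOf g = n → ∃ ω : Ω, MulAction.stabilizer (Subgroup.zpowers g) ω = ⊥ := by
  intro n
  induction n using Nat.strong_induction_on with
  | _ n ih =>
    intro g hg
    by_cases hsq : Squarefree n
    · exact h g (hg ▸ hsq)
    · rw [Nat.squarefree_iff_prime_squarefree] at hsq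
      push Not at hsq
      obtain ⟨p, hp, hpp⟩ := hsq
      have hnpos : 0 < n := hg ▸ orderOf_pos g
      have hpn : p ∣ n := dvd_trans (dvd_mul_right p p) hpp
      have hord : orderOf (g ^ p) = n / p := by
        rw [orderOf_pow, hg, Nat.gcd_eq_right hpn]
      have hlt : n / p < n := Nat.div_lt_self hnpos hp.one_lt
      obtain ⟨ω, hω⟩ := ih (n / p) hlt (g ^ p) hord
      refine ⟨ω, ?_⟩
      rw [Subgroup.eq_bot_iff_forall]
      intro x hx
      by_contra hx1
      have hdpos : 0 < orderOf x := orderOf_pos x
      have hd1 : orderOf x ≠ 1 := by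
        intro h1
        exact hx1 (orderOf_eq_one_iff.mp h1)
      obtain ⟨q, hq, hqd⟩ := Nat.exists_prime_and_dvd hd1
      set x' := x ^ (orderOf x / q) with hx'
      have hx'ord : orderOf x' = q := orderOf_pow_orderOf_div hdpos.ne' hqd
      have hx'stab : x' ∈ MulAction.stabilizer (Subgroup.zpowers g) ω := Subgroup.pow_mem _ hx _
      have hx'mem : (x' : G) ∈ Subgroup.zpowers g := x'.2
      rw [← mem_powers_iff_mem_zpowers] at hx'mem
      obtain ⟨j, hj⟩ := hx'mem
      have hx'q : (x' : G) ^ q = 1 := by
        have : x' ^ q = 1 := by rw [← hx'ord]; exact pow_orderOf_eq_one x'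
        have h2 := congrArg (fun y : Subgroup.zpowers g => (y : G)) this
        simpa using h2
      have hnjq : n ∣ j * q := by
        rw [← hg]
        apply orderOf_dvd_of_pow_eq_one
        rw [pow_mul]
        simp only at hj
        rw [hj]
        exact hx'q
      have hppjq : p * p ∣ j * q := dvd_trans hpp hnjq
      have hpj : p ∣ j := by
        by_contra hpj
        have hpq : p ∣ q := by
          have : p ∣ j * q := dvd_trans (dvd_mul_right p p) hppjq
          rcases (Nat.Prime.dvd_mul hp).mp this with h1 | h1
          · exact absurd h1 hpj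
          · exact h1
        have hpq' : p = q := (Nat.prime_dvd_prime_iff_eq hp hq).mp hpq
        subst hpq'
        rw [mul_comm j p] at hppjq
        exact hpj (Nat.dvd_of_mul_dvd_mul_left hp.pos hppjq)
      obtain ⟨j', rfl⟩ := hpj
      have hmem' : (x' : G) ∈ Subgroup.zpowers (g ^ p) := by
        rw [← mem_powers_iff_mem_zpowers]
        refine ⟨j', ?_⟩
        simp only at hj ⊢
        rw [← pow_mul]
        exact hj
      have hstab' : (⟨(x' : G), hmem'⟩ : Subgroup.zpowers (g ^ p)) ∈
          MulAction.stabilizer (Subgroup.zpowers (g ^ p)) ω := by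
        rw [MulAction.mem_stabilizer_iff]
        have := (MulAction.mem_stabilizer_iff).mp hx'stab
        exact this
      rw [hω, Subgroup.mem_bot] at hstab'
      have hx'1 : (x' : G) = 1 := by
        have := congrArg (fun y : Subgroup.zpowers (g ^ p) => (y : G)) hstab'
        simpa using this
      have hx'1' : x' = 1 := Subtype.ext hx'1
      rw [hx'1', orderOf_one] at hx'ord
      exact hq.one_lt.ne hx'ord


/-- Let a finite group G act faithfully on a set Ω. If every element of G of square-free order has a regular cycle (an orbit of the cyclic group it generates with trivial stabilizer), then every element of G has a regular cycle. -/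
theorem result {G : Type*} [Group G] [Finite G] {Ω : Type*} [MulAction G Ω] [FaithfulSMul G Ω]
    (h : ∀ g : G, Squarefree (orderOf g) → ∃ ω : Ω, MulAction.stabilizer (Subgroup.zpowers g) ω = ⊥) (g : G) :
    ∃ ω : Ω, MulAction.stabilizer (Subgroup.zpowers g) ω = ⊥ := by
  exact aux h (orderOf g) g rfl

end Cfsg.Agent.S3511
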