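import Cfsg.Statements.S3514

set_option autoImplicit false
open Cfsg

namespace Cfsg.Agent.S3514

theorem relIndex_sup_normal {G : Type*} [Group G] [Finite G] (H A : Subgroup G) [A.Normal] :
    H.relIndex (H ⊔ A) = H.relIndex A := by
  have a1 : (H ⊓ A).relIndex H * H.relIndex (H ⊔ A) = (H ⊓ A).relIndex (H ⊔ A) :=
    Subgroup.relIndex_mul_relIndex _ _ _ inf_le_left le_sup_left
  have a2 : (H ⊓ A).relIndex A * A.relIndex (H ⊔ A) = (H ⊓ A).relIndex (H ⊔ A) :=
    Subgroup.relIndex_mul_relIndex _ _ _ inf_le_right le_sup_right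
  rw [Subgroup.inf_relIndex_left] at a1
  rw [Subgroup.inf_relIndex_right, Subgroup.relIndex_sup_right] at a2
  have hne : A.relIndex H ≠ 0 := by
    have : (A.subgroupOf H).index ≠ 0 := Subgroup.index_ne_zero_of_finite
    exact this
  have : A.relIndex H * H.relIndex (H ⊔ A) = A.relIndex H * H.relIndex A := by
    rw [a1, ← a2, mul_comm]
  exact Nat.eq_of_mul_eq_mul_left (Nat.pos_of_ne_zero hne) this

theorem relIndex_dvd_index_normal' {G : Type*} [Group G] [Finite G] (H A : Subgroup G)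
    [A.Normal] : H.relIndex A ∣ H.index := by
  rw [← relIndex_sup_normal H A]
  exact Subgroup.relIndex_dvd_index_of_le le_sup_left

theorem relIndex_sup_dvd_card {G : Type*} [Group G] [Finite G] (H N : Subgroup G)
    (hHN : H ≤ Subgroup.normalizer (N : Set G)) : H.relIndex (N ⊔ H) ∣ Nat.card N := by
  have hX : N ⊔ H ≤ Subgroup.normalizer (N : Set G) := sup_le Subgroup.le_normalizer hHN
  haveI : (N.subgroupOf (N ⊔ H)).Normal := Subgroup.normal_subgroupOf_of_le_normalizer hX
  have h1 := relIndex_sup_normal (H.subgroupOf (N ⊔ H)) (N.subgroupOf (N ⊔ H))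
  have h2 : H.subgroupOf (N ⊔ H) ⊔ N.subgroupOf (N ⊔ H) = ⊤ := by
    rw [← Subgroup.subgroupOf_sup le_sup_right le_sup_left, Subgroup.subgroupOf_eq_top, sup_comm]
  rw [h2, Subgroup.relIndex_top_right] at h1
  have h3 : (H.subgroupOf (N ⊔ H)).index = H.relIndex (N ⊔ H) := rfl
  rw [← h3, h1]
  have h4 : Nat.card (N.subgroupOf (N ⊔ H)) = Nat.card N :=
    Nat.card_congr (Subgroup.subgroupOfEquivOfLe le_sup_left).toEquiv
  rw [← h4]
  exact Subgroup.relIndex_dvd_card _ _

theorem card_orbitSet (p : ℕ) [Fact p.Prime] {V : Type*} [AddCommGroup V] [Module (ZMod p) V]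
    (X : Subgroup (V ≃ₗ[ZMod p] V)) (v : V) :
    Nat.card {u : V | ∃ x ∈ X, x v = u}
      = (MulAction.stabilizer (V ≃ₗ[ZMod p] V) v).relIndex X := by
  have h1 : {u : V | ∃ x ∈ X, x v = u} = MulAction.orbit X v := by
    ext u
    constructor
    · rintro ⟨x, hx, rfl⟩
      exact ⟨⟨x, hx⟩, rfl⟩
    · rintro ⟨x, rfl⟩
      exact ⟨x, x.2, rfl⟩
  have h2 : MulAction.stabilizer X v
      = (MulAction.stabilizer (V ≃ₗ[ZMod p] V) v).subgroupOf X := by
    ext x
    rfl
  rw [h1, Nat.card_coe_set_eq, ← MulAction.index_stabilizer, h2]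
  rfl


/-- Let p be a prime, V a finite vector space over the field with p elements, and H a group of linear transformations of V all of whose orbits on V have size coprime to p. (i) Every normal subgroup K of H has all its orbits on V of size coprime to p. (ii) If N is a group of linear transformations of V of order coprime to p that is normalized by H, then the group generated by N and H has all its orbits on V of size coprime to p. -/
theorem result (p : ℕ) [Fact p.Prime] {V : Type*} [AddCommGroup V] [Module (ZMod p) V] [Finite V]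
    (H : Subgroup (V ≃ₗ[ZMod p] V)) (hH : ∀ v : V, ¬ p ∣ Nat.card {u : V | ∃ h ∈ H, h v = u}) :
    (∀ K : Subgroup (V ≃ₗ[ZMod p] V), K ≤ H → H ≤ Subgroup.normalizer (K : Set (V ≃ₗ[ZMod p] V)) →
        ∀ v : V, ¬ p ∣ Nat.card {u : V | ∃ k ∈ K, k v = u}) ∧
    (∀ N : Subgroup (V ≃ₗ[ZMod p] V), ¬ p ∣ Nat.card N → H ≤ Subgroup.normalizer (N : Set (V ≃ₗ[ZMod p] V)) →
        ∀ v : V, ¬ p ∣ Nat.card {u : V | ∃ x ∈ N ⊔ H, x v = u}) := by
  haveI : Finite (V ≃ₗ[ZMod p] V) :=
    Finite.of_injective (fun e : V ≃ₗ[ZMod p] V => (e : V → V)) DFunLike.coe_injective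
  refine ⟨?_, ?_⟩
  · intro K hKH hHK v hdvd
    apply hH v
    rw [card_orbitSet] at hdvd ⊢
    haveI : (K.subgroupOf H).Normal := Subgroup.normal_subgroupOf_of_le_normalizer hHK
    have h1 := relIndex_dvd_index_normal'
      ((MulAction.stabilizer (V ≃ₗ[ZMod p] V) v).subgroupOf H) (K.subgroupOf H)
    rw [Subgroup.relIndex_subgroupOf hKH] at h1
    exact hdvd.trans h1
  · intro N hN hHN v hdvd
    rw [card_orbitSet] at hdvd
    have hHv := hH v
    rw [card_orbitSet] at hHv
    set S := MulAction.stabilizer (V ≃ₗ[ZMod p] V) v with hS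
    have e1 : (S ⊓ H).relIndex (S ⊓ (N ⊔ H)) * (S ⊓ (N ⊔ H)).relIndex (N ⊔ H)
        = (S ⊓ H).relIndex (N ⊔ H) :=
      Subgroup.relIndex_mul_relIndex _ _ _ (inf_le_inf_left S le_sup_right) inf_le_right
    have e2 : (S ⊓ H).relIndex H * H.relIndex (N ⊔ H) = (S ⊓ H).relIndex (N ⊔ H) :=
      Subgroup.relIndex_mul_relIndex _ _ _ inf_le_right le_sup_right
    rw [Subgroup.inf_relIndex_right] at e1 e2
    have h3 : p ∣ S.relIndex H * H.relIndex (N ⊔ H) := by
      rw [e2, ← e1]
      exact Dvd.dvd.mul_left hdvd _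
    have hp := (Fact.out : p.Prime)
    rcases hp.dvd_mul.mp h3 with h4 | h4
    · exact hHv h4
    · exact hN (h4.trans (relIndex_sup_dvd_card H N hHN))

end Cfsg.Agent.S3514
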