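import Cfsg.Statements.S3515
import Cfsg.Agent.Lib.Helper58.AffineClosure

set_option autoImplicit false
open Cfsg

namespace Cfsg.Agent.S3515

open Cfsg.Agent.Lib.Helper58

theorem zmod2_cases (a : ZMod 2) : a = 0 ∨ a = 1 := by
  revert a
  decide

theorem four_points (y : Fin 2 → ZMod 2) :
    y = 0 ∨ y = Pi.single 0 1 ∨ y = Pi.single 1 1 ∨ y = Pi.single 0 1 + Pi.single 1 1 := by
  rcases zmod2_cases (y 0) with h0 | h0 <;> rcases zmod2_cases (y 1) with h1 | h1
  · left
    funext i
    fin_cases i <;> simp [h0, h1]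
  · right; right; left
    funext i
    fin_cases i <;> simp [h0, h1]
  · right; left
    funext i
    fin_cases i <;> simp [h0, h1]
  · right; right; right
    funext i
    fin_cases i <;> simp [h0, h1]

theorem perm_eq_one_of_fix (τ : Equiv.Perm (Fin 2 → ZMod 2)) (h0 : τ 0 = 0)
    (h1 : τ (Pi.single 0 1) = Pi.single 0 1) (h2 : τ (Pi.single 1 1) = Pi.single 1 1) :
    ∀ y, τ y = y := by
  have hw0 : (Pi.single 0 1 + Pi.single 1 1 : Fin 2 → ZMod 2) ≠ 0 := by
    intro h
    have := congrFun h 0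
    simp at this
  have hw1 : (Pi.single 0 1 + Pi.single 1 1 : Fin 2 → ZMod 2) ≠ Pi.single 0 1 := by
    intro h
    have := congrFun h 1
    simp at this
  have hw2 : (Pi.single 0 1 + Pi.single 1 1 : Fin 2 → ZMod 2) ≠ Pi.single 1 1 := by
    intro h
    have := congrFun h 0
    simp at this
  have hw : τ (Pi.single 0 1 + Pi.single 1 1) = Pi.single 0 1 + Pi.single 1 1 := by
    rcases four_points (τ (Pi.single 0 1 + Pi.single 1 1)) with h | h | h | h
    · exact absurd (τ.injective (h.trans h0.symm)) hw0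
    · exact absurd (τ.injective (h.trans h1.symm)) hw1
    · exact absurd (τ.injective (h.trans h2.symm)) hw2
    · exact h
  intro y
  rcases four_points y with rfl | rfl | rfl | rfl
  · exact h0
  · exact h1
  · exact h2
  · exact hw


/-- Every primitive affine permutation group of degree p² is 3-closed. Let p be a prime and G a group of permutations of the plane V = F_p² consisting of affine maps x ↦ Ax + b, containing all translations, and acting primitively on V. Then any permutation σ of V that agrees on every triple of points with some element of G (σ preserves every G-orbit on ordered triples) already lies in G. -/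
theorem result (p : ℕ) [Fact p.Prime] (G : Subgroup (Equiv.Perm (Fin 2 → ZMod p)))
    (haff : (G : Set (Equiv.Perm (Fin 2 → ZMod p))) ⊆ {τ : Equiv.Perm (Fin 2 → ZMod p) | ∃ (A : (Fin 2 → ZMod p) ≃ₗ[ZMod p] (Fin 2 → ZMod p)) (b : Fin 2 → ZMod p), ∀ x, τ x = A x + b})
    (htrans : ∀ b : Fin 2 → ZMod p, ∃ g ∈ G, ∀ x, g x = x + b) (hprim : MulAction.IsPreprimitive G (Fin 2 → ZMod p))
    (σ : Equiv.Perm (Fin 2 → ZMod p)) (hσ : (∀ t : Fin 3 → (Fin 2 → ZMod p), ∃ g ∈ G, ∀ i, σ (t i) = g (t i))) : σ ∈ G := by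
  obtain ⟨g, hg, hgt⟩ := hσ ![0, Pi.single 0 1, Pi.single 1 1]
  have e0 : σ 0 = g 0 := hgt 0
  have e1 : σ (Pi.single 0 1) = g (Pi.single 0 1) := hgt 1
  have e2 : σ (Pi.single 1 1) = g (Pi.single 1 1) := hgt 2
  suffices hsg : σ = g by rw [hsg]; exact hg
  by_cases hp : p = 2
  · subst hp
    have key := perm_eq_one_of_fix (g⁻¹ * σ)
      (by simp [Equiv.Perm.mul_apply, e0])
      (by simp [Equiv.Perm.mul_apply, e1])
      (by simp [Equiv.Perm.mul_apply, e2])
    ext1 y
    have := key y
    rw [Equiv.Perm.mul_apply, Equiv.Perm.inv_eq_iff_eq] at this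
    exact this
  · have haffσ : ∀ t : Fin 3 → (Fin 2 → ZMod p),
        ∃ (A : (Fin 2 → ZMod p) ≃ₗ[ZMod p] (Fin 2 → ZMod p)) (b : Fin 2 → ZMod p),
          ∀ i, σ (t i) = A (t i) + b := by
      intro t
      obtain ⟨g', hg', hgt'⟩ := hσ t
      obtain ⟨A, b, hAb⟩ := haff hg'
      exact ⟨A, b, fun i => by rw [hgt' i, hAb]⟩
    obtain ⟨L, hL⟩ := linear_of_triples hp (fun x => σ x) haffσ
    obtain ⟨A, b, hAb⟩ := haff hg
    have hb : σ 0 = b := by rw [e0, hAb, map_zero, zero_add]
    have hLA : L = (A : (Fin 2 → ZMod p) →ₗ[ZMod p] (Fin 2 → ZMod p)) := by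
      apply (Pi.basisFun (ZMod p) (Fin 2)).ext
      intro i
      rw [Pi.basisFun_apply]
      have h1 : σ (Pi.single i 1) = g (Pi.single i 1) := by
        fin_cases i
        · exact e1
        · exact e2
      have h2 : σ (Pi.single i 1) = L (Pi.single i 1) + σ 0 := hL (Pi.single i 1)
      rw [h1, hAb, hb] at h2
      exact (add_right_cancel h2).symm
    ext1 x
    have h3 : σ x = L x + σ 0 := hL x
    rw [h3, hLA, hb, hAb]
    rfl

end Cfsg.Agent.S3515
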