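import Cfsg.Statements.S3516
import Cfsg.Agent.Lib.Helper58.AffineClosure

set_option autoImplicit false
open Cfsg

namespace Cfsg.Agent.S3516


/-- Let p be an odd prime, d ≥ 3, and G a group of affine permutations x ↦ Ax + b of V = F_p^d containing all translations and all maps x ↦ Ax with A of determinant 1. Then the 3-closure of G is the full affine group: a permutation σ of V agrees on every triple of points with some element of G if and only if σ is an affine map. -/
theorem result (p : ℕ) [Fact p.Prime] (hp : p ≠ 2) (d : ℕ) (hd : 3 ≤ d) (G : Subgroup (Equiv.Perm (Fin d → ZMod p)))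
    (haff : (G : Set (Equiv.Perm (Fin d → ZMod p))) ⊆ {τ : Equiv.Perm (Fin d → ZMod p) | ∃ (A : (Fin d → ZMod p) ≃ₗ[ZMod p] (Fin d → ZMod p)) (b : Fin d → ZMod p), ∀ x, τ x = A x + b})
    (htrans : ∀ b : Fin d → ZMod p, ∃ g ∈ G, ∀ x, g x = x + b)
    (hsl : ∀ A : (Fin d → ZMod p) ≃ₗ[ZMod p] (Fin d → ZMod p), LinearMap.det (A : (Fin d → ZMod p) →ₗ[ZMod p] (Fin d → ZMod p)) = 1 → ∃ g ∈ G, ∀ x, g x = A x)
    (σ : Equiv.Perm (Fin d → ZMod p)) :
    (∀ t : Fin 3 → (Fin d → ZMod p), ∃ g ∈ G, ∀ i, σ (t i) = g (t i)) ↔ σ ∈ {τ : Equiv.Perm (Fin d → ZMod p) | ∃ (A : (Fin d → ZMod p) ≃ₗ[ZMod p] (Fin d → ZMod p)) (b : Fin d → ZMod p), ∀ x, τ x = A x + b} := by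
  constructor
  · intro h
    have haffσ : ∀ t : Fin 3 → (Fin d → ZMod p),
        ∃ (A : (Fin d → ZMod p) ≃ₗ[ZMod p] (Fin d → ZMod p)) (b : Fin d → ZMod p),
          ∀ i, σ (t i) = A (t i) + b := by
      intro t
      obtain ⟨g', hg', hgt'⟩ := h t
      obtain ⟨A, b, hAb⟩ := haff hg'
      exact ⟨A, b, fun i => by rw [hgt' i, hAb]⟩
    obtain ⟨L, hL⟩ := Cfsg.Agent.Lib.Helper58.linear_of_triples hp (fun x => σ x) haffσ
    have hL' : ∀ x, σ x = L x + σ 0 := hL
    have hinj : Function.Injective L := by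
      intro x y hxy
      apply σ.injective
      rw [hL' x, hL' y, hxy]
    have hsurj : Function.Surjective L := by
      intro y
      obtain ⟨x, hx⟩ := σ.surjective (y + σ 0)
      refine ⟨x, ?_⟩
      have h1 := hL' x
      rw [hx] at h1
      exact (add_right_cancel h1).symm
    exact ⟨LinearEquiv.ofBijective L ⟨hinj, hsurj⟩, σ 0, fun x => hL' x⟩
  · rintro ⟨A, b, hAb⟩ t
    set u := t 1 - t 0 with hu
    set w := t 2 - t 0 with hw
    have hW : Submodule.span (ZMod p) ((({u, w} : Finset (Fin d → ZMod p))) :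
        Set (Fin d → ZMod p)) < ⊤ := by
      rw [lt_top_iff_ne_top]
      intro htop
      have h1 := finrank_span_finset_le_card (R := ZMod p) ({u, w} : Finset (Fin d → ZMod p))
      have h2 : ({u, w} : Finset (Fin d → ZMod p)).card ≤ 2 := Finset.card_le_two
      have h3 : Set.finrank (ZMod p) ((({u, w} : Finset (Fin d → ZMod p))) :
          Set (Fin d → ZMod p)) = d := by
        show Module.finrank (ZMod p) (Submodule.span (ZMod p) ((({u, w} :
          Finset (Fin d → ZMod p))) : Set (Fin d → ZMod p))) = d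
        rw [htop, finrank_top, Module.finrank_fin_fun]
      omega
    obtain ⟨f, hf0, hfW⟩ := Submodule.exists_le_ker_of_lt_top _ hW
    obtain ⟨z0, hz0⟩ : ∃ z0, f z0 ≠ 0 := by
      by_contra hcon
      push Not at hcon
      exact hf0 (LinearMap.ext hcon)
    have hfu : f u = 0 := hfW (Submodule.subset_span (by simp))
    have hfw : f w = 0 := hfW (Submodule.subset_span (by simp))
    have hdetA : LinearMap.det (A : (Fin d → ZMod p) →ₗ[ZMod p] (Fin d → ZMod p)) ≠ 0 :=
      (LinearEquiv.isUnit_det' A).ne_zero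
    set δ : ZMod p := (LinearMap.det (A : (Fin d → ZMod p) →ₗ[ZMod p] (Fin d → ZMod p)))⁻¹
      with hδ
    have hδ0 : δ ≠ 0 := inv_ne_zero hdetA
    set v := ((δ - 1) * (f z0)⁻¹) • z0 with hv
    have hfv : f v = δ - 1 := by
      rw [hv, map_smul, smul_eq_mul, mul_assoc, inv_mul_cancel₀ hz0, mul_one]
    have hunit : IsUnit (1 + f v) := by
      rw [hfv]
      have : 1 + (δ - 1) = δ := by ring
      rw [this]
      exact isUnit_iff_ne_zero.mpr hδ0
    have hDu : LinearEquiv.dilatransvection hunit u = u := by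
      rw [LinearEquiv.dilatransvection.apply, hfu, zero_smul, add_zero]
    have hDw : LinearEquiv.dilatransvection hunit w = w := by
      rw [LinearEquiv.dilatransvection.apply, hfw, zero_smul, add_zero]
    have hdetD : LinearMap.det ((LinearEquiv.dilatransvection hunit :
        (Fin d → ZMod p) ≃ₗ[ZMod p] (Fin d → ZMod p)) :
        (Fin d → ZMod p) →ₗ[ZMod p] (Fin d → ZMod p)) = δ := by
      rw [LinearEquiv.dilatransvection.coe_toLinearMap, LinearMap.transvection.det, hfv]
      ring
    have hdetB : LinearMap.det (((LinearEquiv.dilatransvection hunit).trans A :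
        (Fin d → ZMod p) ≃ₗ[ZMod p] (Fin d → ZMod p)) :
        (Fin d → ZMod p) →ₗ[ZMod p] (Fin d → ZMod p)) = 1 := by
      rw [LinearEquiv.coe_trans, LinearMap.det_comp, hdetD, hδ]
      exact mul_inv_cancel₀ hdetA
    obtain ⟨g1, hg1, hg1x⟩ := hsl _ hdetB
    obtain ⟨g2, hg2, hg2x⟩ := htrans (A (t 0) + b - (LinearEquiv.dilatransvection hunit).trans A (t 0))
    refine ⟨g2 * g1, G.mul_mem hg2 hg1, fun i => ?_⟩
    rw [Equiv.Perm.mul_apply, hg1x, hg2x, hAb]
    have key : ∀ x : Fin d → ZMod p, LinearEquiv.dilatransvection hunit (x - t 0) = x - t 0 →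
        A x + b = (LinearEquiv.dilatransvection hunit).trans A x +
          (A (t 0) + b - (LinearEquiv.dilatransvection hunit).trans A (t 0)) := by
      intro x hx
      rw [LinearEquiv.trans_apply, LinearEquiv.trans_apply]
      have e : LinearEquiv.dilatransvection hunit x
          = (x - t 0) + LinearEquiv.dilatransvection hunit (t 0) := by
        rw [← hx, ← map_add, sub_add_cancel]
      rw [e, map_add, map_sub]
      abel
    fin_cases i
    · exact key _ (by simp)
    · exact key _ hDu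
    · exact key _ hDw

end Cfsg.Agent.S3516
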