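import Cfsg.Statements.S3517
import Cfsg.Agent.Lib.Helper58.AffineClosure

set_option autoImplicit false
open Cfsg

namespace Cfsg.Agent.S3517

open Cfsg.Agent.Lib.Helper58

theorem zmod2_cases (a : ZMod 2) : a = 0 ∨ a = 1 := by
  revert a
  decide

theorem exists_pair_map {V : Type*} [AddCommGroup V] [Module (ZMod 2) V] [FiniteDimensional (ZMod 2) V]
    (u w u' w' : V) (h1 : u = 0 ↔ u' = 0) (h2 : w = 0 ↔ w' = 0) (h3 : u = w ↔ u' = w') :
    ∃ A : V ≃ₗ[ZMod 2] V, A u = u' ∧ A w = w' := by
  by_cases hu : u = 0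
  · have hu' := h1.mp hu
    by_cases hw : w = 0
    · have hw' := h2.mp hw
      exact ⟨LinearEquiv.refl _ _, by simp [hu, hu'], by simp [hw, hw']⟩
    · have hw' : w' ≠ 0 := fun h => hw (h2.mpr h)
      obtain ⟨A, hA⟩ := exists_equiv_of_ne_zero (K := ZMod 2) w w' hw hw'
      exact ⟨A, by rw [hu, hu', map_zero], hA⟩
  · have hu' : u' ≠ 0 := fun h => hu (h1.mpr h)
    by_cases hw : w = 0
    · have hw' := h2.mp hw
      obtain ⟨A, hA⟩ := exists_equiv_of_ne_zero (K := ZMod 2) u u' hu hu'
      exact ⟨A, hA, by rw [hw, hw', map_zero]⟩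
    · have hw' : w' ≠ 0 := fun h => hw (h2.mpr h)
      by_cases huw : u = w
      · have huw' := h3.mp huw
        obtain ⟨A, hA⟩ := exists_equiv_of_ne_zero (K := ZMod 2) u u' hu hu'
        exact ⟨A, hA, by rw [← huw, ← huw', hA]⟩
      · have huw' : u' ≠ w' := fun h => huw (h3.mpr h)
        have hli : LinearIndependent (ZMod 2) ![u, w] := by
          rw [LinearIndependent.pair_iff' hu]
          intro a
          rcases zmod2_cases a with rfl | rfl
          · rw [zero_smul]; exact fun h => hw h.symm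
          · rw [one_smul]; exact huw
        have hli' : LinearIndependent (ZMod 2) ![u', w'] := by
          rw [LinearIndependent.pair_iff' hu']
          intro a
          rcases zmod2_cases a with rfl | rfl
          · rw [zero_smul]; exact fun h => hw' h.symm
          · rw [one_smul]; exact huw'
        obtain ⟨A, hA⟩ := exists_equiv_of_linIndep _ _ hli hli'
        exact ⟨A, hA 0, hA 1⟩


/-- For d ≥ 3, the 3-closure of the affine group AGL_d(2) acting on F_2^d is the full symmetric group: every permutation of F_2^d agrees on every ordered triple of points with some affine map (AGL_d(2) is 3-transitive). -/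
theorem result (d : ℕ) (hd : 3 ≤ d) (σ : Equiv.Perm (Fin d → ZMod 2)) (t : Fin 3 → (Fin d → ZMod 2)) :
    ∃ (A : (Fin d → ZMod 2) ≃ₗ[ZMod 2] (Fin d → ZMod 2)) (b : Fin d → ZMod 2), ∀ i, σ (t i) = A (t i) + b := by
  obtain ⟨A, hA1, hA2⟩ := exists_pair_map (t 1 - t 0) (t 2 - t 0) (σ (t 1) - σ (t 0))
    (σ (t 2) - σ (t 0))
    (by rw [sub_eq_zero, sub_eq_zero, σ.injective.eq_iff])
    (by rw [sub_eq_zero, sub_eq_zero, σ.injective.eq_iff])
    (by rw [sub_left_inj, sub_left_inj, σ.injective.eq_iff])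
  refine ⟨A, σ (t 0) - A (t 0), ?_⟩
  rw [map_sub] at hA1 hA2
  intro i
  fin_cases i
  · simp
  · show σ (t 1) = A (t 1) + (σ (t 0) - A (t 0))
    have : σ (t 1) = (A (t 1) - A (t 0)) + σ (t 0) := by rw [hA1]; abel
    rw [this]; abel
  · show σ (t 2) = A (t 2) + (σ (t 0) - A (t 0))
    have : σ (t 2) = (A (t 2) - A (t 0)) + σ (t 0) := by rw [hA2]; abel
    rw [this]; abel

end Cfsg.Agent.S3517
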