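import Cfsg.Statements.S3518

set_option autoImplicit false
open Cfsg

namespace Cfsg.Agent.S3518

open Polynomial in
theorem sum_pow_card_sub_one (p : ℕ) [Fact p.Prime] : ∑ y : ZMod p, y ^ (p - 1) = -1 := by
  have hp := (Fact.out : p.Prime)
  rw [← Finset.sum_erase_add _ _ (Finset.mem_univ (0 : ZMod p))]
  have h1 : ∑ y ∈ (Finset.univ : Finset (ZMod p)).erase 0, y ^ (p - 1)
      = ∑ y ∈ (Finset.univ : Finset (ZMod p)).erase 0, (1 : ZMod p) :=
    Finset.sum_congr rfl (fun y hy => ZMod.pow_card_sub_one_eq_one (Finset.ne_of_mem_erase hy))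
  have h2 : (0 : ZMod p) ^ (p - 1) = 0 := zero_pow (by have := hp.two_le; omega)
  rw [h1, Finset.sum_const, Finset.card_erase_of_mem (Finset.mem_univ _), Finset.card_univ,
    ZMod.card, h2, add_zero, nsmul_eq_mul, mul_one, Nat.cast_sub hp.one_le, Nat.cast_one,
    ZMod.natCast_self, zero_sub]

open Polynomial in
theorem sum_eval (p : ℕ) [Fact p.Prime] (hp3 : 3 ≤ p) (Q : (ZMod p)[X]) (hQ : Q.natDegree ≤ p) :
    ∑ y : ZMod p, Q.eval y = - Q.coeff (p - 1) := by
  have hpow : ∀ i ∈ Finset.range (p + 1),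
      ∑ y : ZMod p, y ^ i = if i = p - 1 then -1 else 0 := by
    intro i hi
    rw [Finset.mem_range] at hi
    by_cases h1 : i = p - 1
    · rw [if_pos h1, h1]
      exact sum_pow_card_sub_one p
    · rw [if_neg h1]
      by_cases h2 : i < p - 1
      · exact FiniteField.sum_pow_lt_card_sub_one (K := ZMod p) i (by rw [ZMod.card]; exact h2)
      · have hip : i = p := by omega
        rw [hip]
        have : ∀ y : ZMod p, y ^ p = y ^ 1 := fun y => by rw [ZMod.pow_card, pow_one]
        rw [Finset.sum_congr rfl (fun y _ => this y)]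
        exact FiniteField.sum_pow_lt_card_sub_one (K := ZMod p) 1 (by rw [ZMod.card]; omega)
  conv_lhs => rw [Q.as_sum_range' (p + 1) (by omega)]
  simp only [eval_finsetSum, eval_monomial]
  rw [Finset.sum_comm]
  simp only [← Finset.mul_sum]
  rw [Finset.sum_congr rfl (fun i hi => by rw [hpow i hi])]
  simp only [mul_ite, mul_neg, mul_one, mul_zero]
  rw [Finset.sum_ite_eq' (Finset.range (p + 1)) (p - 1) (fun i => - Q.coeff i)]
  rw [if_pos (Finset.mem_range.mpr (by omega))]

theorem natCast_ne_zero_of_lt (p : ℕ) [Fact p.Prime] (k : ℕ) (h0 : 0 < k) (hk : k < p) :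
    (k : ZMod p) ≠ 0 := by
  intro h
  rw [ZMod.natCast_eq_zero_iff] at h
  exact absurd (Nat.le_of_dvd h0 h) (by omega)

theorem choose_ne_zero_mod (p : ℕ) [Fact p.Prime] (m k : ℕ) (hm : m < p) (hk : k ≤ m) :
    ((m.choose k : ℕ) : ZMod p) ≠ 0 := by
  have hp := (Fact.out : p.Prime)
  intro h
  rw [ZMod.natCast_eq_zero_iff] at h
  have h1 : p ∣ m.factorial := by
    rw [← Nat.choose_mul_factorial_mul_factorial hk]
    exact Dvd.dvd.mul_right (Dvd.dvd.mul_right h _) _
  rw [hp.dvd_factorial] at h1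
  omega

open Polynomial in
theorem mcconnel (p : ℕ) [Fact p.Prime] (f : Equiv.Perm (ZMod p)) (m : ℕ) (hm1 : 1 ≤ m)
    (hm2 : 2 * m ≤ p - 1) (h : ∀ x y : ZMod p, (f x - f y) ^ m = (x - y) ^ m) :
    ∃ c d : ZMod p, c ≠ 0 ∧ ∀ x, x = c * f x + d := by
  have hp := (Fact.out : p.Prime)
  have hp3 : 3 ≤ p := by omega
  -- the polynomials R j
  set R : ℕ → (ZMod p)[X] := fun j => ∑ y : ZMod p, C (y ^ j) * (X - C (f y)) ^ m with hR
  have hRdeg : ∀ j, (R j).natDegree ≤ m := by
    intro j
    apply Polynomial.natDegree_sum_le_of_forall_le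
    intro y _
    calc (C (y ^ j) * (X - C (f y)) ^ m).natDegree ≤ ((X - C (f y)) ^ m).natDegree :=
          natDegree_C_mul_le _ _
      _ ≤ m := by rw [natDegree_pow, natDegree_X_sub_C, mul_one]
  have hReval : ∀ j x, (R j).eval (f x) = ∑ y : ZMod p, y ^ j * (x - y) ^ m := by
    intro j x
    simp only [hR, eval_finsetSum, eval_mul, eval_C, eval_pow, eval_sub, eval_X]
    exact Finset.sum_congr rfl (fun y _ => by rw [h x y])
  -- the auxiliary polynomials
  have hQdeg : ∀ (j : ℕ) (x : ZMod p), (X ^ j * (X - C x) ^ m : (ZMod p)[X]).natDegree = j + m := by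
    intro j x
    rw [natDegree_mul (pow_ne_zero _ X_ne_zero) (pow_ne_zero _ (X_sub_C_ne_zero x)),
      natDegree_X_pow, natDegree_pow, natDegree_X_sub_C, mul_one]
  have hQsum : ∀ (j : ℕ) (x : ZMod p), ∑ y : ZMod p, y ^ j * (x - y) ^ m
      = (-1) ^ m * ∑ y : ZMod p, (X ^ j * (X - C x) ^ m : (ZMod p)[X]).eval y := by
    intro j x
    rw [Finset.mul_sum]
    apply Finset.sum_congr rfl
    intro y _
    simp only [eval_mul, eval_pow, eval_X, eval_sub, eval_C]
    have : (x - y) ^ m = (-1) ^ m * (y - x) ^ m := by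
      rw [← mul_pow]; congr 1; ring
    rw [this]; ring
  have hsum_small : ∀ j, j + m < p - 1 → ∀ x : ZMod p,
      ∑ y : ZMod p, y ^ j * (x - y) ^ m = 0 := by
    intro j hj x
    rw [hQsum, sum_eval p hp3 _ (by rw [hQdeg]; omega),
      coeff_eq_zero_of_natDegree_lt (by rw [hQdeg]; exact hj), neg_zero, mul_zero]
  have hsum_big : ∀ x : ZMod p,
      ∑ y : ZMod p, y ^ (p - m) * (x - y) ^ m = (-1) ^ m * m * x := by
    intro x
    rw [hQsum, sum_eval p hp3 _ (by rw [hQdeg]; omega), coeff_X_pow_mul',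
      if_pos (by omega : p - m ≤ p - 1)]
    have e : p - 1 - (p - m) = m - 1 := by omega
    have e2 : (X - C x : (ZMod p)[X]) = X + C (-x) := by rw [C_neg]; ring
    rw [e, e2, coeff_X_add_C_pow]
    have e3 : m - (m - 1) = 1 := by omega
    have e4 : m.choose (m - 1) = m := by
      rw [Nat.choose_symm hm1, Nat.choose_one_right]
    rw [e3, e4, pow_one]
    ring
  set κ : ZMod p := (-1) ^ m * (m : ZMod p) with hκ
  have hκ0 : κ ≠ 0 :=
    mul_ne_zero (pow_ne_zero _ (neg_ne_zero.mpr one_ne_zero))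
      (natCast_ne_zero_of_lt p m (by omega) (by omega))
  set P : (ZMod p)[X] := C κ⁻¹ * R (p - m) with hP
  have hPeval : ∀ x, P.eval (f x) = x := by
    intro x
    rw [hP, eval_mul, eval_C, hReval, hsum_big, ← mul_assoc, inv_mul_cancel₀ hκ0, one_mul]
  have hPdeg : P.natDegree ≤ m := le_trans (natDegree_C_mul_le _ _) (hRdeg _)
  have hRzero : ∀ j, j + m < p - 1 → R j = 0 := by
    intro j hj
    apply Polynomial.eq_zero_of_natDegree_lt_card_of_eval_eq_zero (R j) f.injective
    · intro x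
      rw [hReval, hsum_small j hj]
    · rw [ZMod.card]
      have := hRdeg j
      omega
  have hT : ∀ j, j + m < p - 1 → ∀ a, a ≤ m → ∑ y : ZMod p, y ^ j * (f y) ^ a = 0 := by
    intro j hj a ha
    have h1 := congrArg (fun q : (ZMod p)[X] => q.coeff (m - a)) (hRzero j hj)
    simp only [hR, finsetSum_coeff, coeff_C_mul, coeff_zero] at h1
    have e2 : ∀ y : ZMod p, (X - C (f y) : (ZMod p)[X]) = X + C (-(f y)) := by
      intro y; rw [C_neg]; ring
    have h2 : ∀ y : ZMod p, y ^ j * ((X - C (f y) : (ZMod p)[X]) ^ m).coeff (m - a)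
        = ((-1) ^ a * (m.choose (m - a) : ZMod p)) * (y ^ j * (f y) ^ a) := by
      intro y
      rw [e2, coeff_X_add_C_pow, Nat.sub_sub_self ha, neg_pow]
      ring
    rw [Finset.sum_congr rfl (fun y _ => h2 y), ← Finset.mul_sum] at h1
    rcases mul_eq_zero.mp h1 with h3 | h3
    · exfalso
      rcases mul_eq_zero.mp h3 with h4 | h4
      · exact pow_ne_zero _ (neg_ne_zero.mpr one_ne_zero) h4
      · exact choose_ne_zero_mod p m (m - a) (by omega) (Nat.sub_le m a) h4
    · exact h3
  have hstar : ∀ j, j + m < p - 1 → ∀ a, a ≤ m →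
      ∑ z : ZMod p, z ^ a * (P.eval z) ^ j = 0 := by
    intro j hj a ha
    rw [← Equiv.sum_comp f (fun z => z ^ a * (P.eval z) ^ j)]
    rw [← hT j hj a ha]
    apply Finset.sum_congr rfl
    intro y _
    rw [hPeval]
    ring
  -- the degree of P
  have h01 : (0 : ZMod p) ≠ 1 := zero_ne_one
  have hD1 : 1 ≤ P.natDegree := by
    by_contra hD
    have hD0 : P.natDegree = 0 := by omega
    have hc := eq_C_of_natDegree_eq_zero hD0
    have e0 := hPeval 0
    have e1 := hPeval 1
    rw [hc, eval_C] at e0 e1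
    exact h01 (e0.symm.trans e1)
  have hPne : P ≠ 0 := by
    intro h0
    rw [h0, natDegree_zero] at hD1
    omega
  have hD2 : P.natDegree ≤ 1 := by
    by_contra hD
    have hD2 : 2 ≤ P.natDegree := by omega
    set D := P.natDegree with hDdef
    set j := (p - 1 - m + (D - 1)) / D with hj
    have hDpos : 0 < D := by omega
    have k1 : j * D ≤ p - 1 - m + (D - 1) := Nat.div_mul_le_self _ _
    have k2 : p - 1 - m + (D - 1) < j * D + D := Nat.lt_div_mul_add hDpos
    have k3 : j + m < p - 1 := by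
      by_contra hcon
      have hj' : p - 1 - m ≤ j := by omega
      have : (p - 1 - m) * 2 ≤ j * D := Nat.mul_le_mul hj' hD2
      omega
    have ha : p - 1 - j * D ≤ m := by omega
    have hsum0 := hstar j k3 (p - 1 - j * D) ha
    have hQd : (X ^ (p - 1 - j * D) * P ^ j : (ZMod p)[X]).natDegree = p - 1 := by
      rw [natDegree_mul (pow_ne_zero _ X_ne_zero) (pow_ne_zero _ hPne), natDegree_X_pow,
        natDegree_pow, ← hDdef]
      have : j * D ≤ p - 1 := by omega
      omega
    have hs := sum_eval p hp3 (X ^ (p - 1 - j * D) * P ^ j) (by rw [hQd]; omega)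
    simp only [eval_mul, eval_pow, eval_X] at hs
    rw [hsum0] at hs
    have hlc : (X ^ (p - 1 - j * D) * P ^ j : (ZMod p)[X]).coeff (p - 1) = P.leadingCoeff ^ j := by
      nth_rewrite 2 [← hQd]
      rw [coeff_natDegree, leadingCoeff_mul, leadingCoeff_X_pow, one_mul, leadingCoeff_pow]
    rw [hlc] at hs
    have : P.leadingCoeff ^ j = 0 := by
      have := neg_eq_zero.mp hs.symm
      exact this
    exact pow_ne_zero _ (leadingCoeff_ne_zero.mpr hPne) this
  have hD : P.natDegree = 1 := le_antisymm hD2 hD1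
  have hPform := Polynomial.eq_X_add_C_of_natDegree_le_one hD2
  refine ⟨P.coeff 1, P.coeff 0, ?_, fun x => ?_⟩
  · have : P.leadingCoeff = P.coeff 1 := by rw [leadingCoeff, hD]
    rw [← this]
    exact leadingCoeff_ne_zero.mpr hPne
  · have e := hPeval x
    rw [hPform] at e
    simp only [eval_add, eval_mul, eval_C, eval_X] at e
    exact e.symm


/-- Closures of subgroups of the one-dimensional affine group. Let p be a prime and G a group of permutations of F_p lying in the affine group AGL₁(p) = {x ↦ ax + b, a ≠ 0} and containing all translations. (1) If G is a proper subgroup of AGL₁(p), then G is 2-closed: a permutation of F_p agreeing on every ordered pair of points with some element of G lies in G. (2) Every permutation of F_p agrees on every ordered pair with some element of AGL₁(p) (the 2-closure of AGL₁(p) is the symmetric group). (3) AGL₁(p) is 3-closed: a permutation agreeing on every ordered triple with some affine map is affine. -/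
theorem result (p : ℕ) [Fact p.Prime] (G : Subgroup (Equiv.Perm (ZMod p))) (hG : G ≤ Cfsg.affineGroup (ZMod p))
    (htrans : ∀ b : ZMod p, ∃ g ∈ G, ∀ x, g x = x + b) :
    (G ≠ Cfsg.affineGroup (ZMod p) → ∀ σ : Equiv.Perm (ZMod p), (∀ t : Fin 2 → ZMod p, ∃ g ∈ G, ∀ i, σ (t i) = g (t i)) → σ ∈ G) ∧
    (∀ σ : Equiv.Perm (ZMod p), (∀ t : Fin 2 → ZMod p, ∃ g ∈ Cfsg.affineGroup (ZMod p), ∀ i, σ (t i) = g (t i))) ∧
    (∀ σ : Equiv.Perm (ZMod p), (∀ t : Fin 3 → ZMod p, ∃ g ∈ Cfsg.affineGroup (ZMod p), ∀ i, σ (t i) = g (t i)) → σ ∈ Cfsg.affineGroup (ZMod p)) := by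
  have hp := (Fact.out : p.Prime)
  have haff : ∀ (a : (ZMod p)ˣ) (b : ZMod p),
      ∃ g ∈ Cfsg.affineGroup (ZMod p), ∀ x, g x = (a : ZMod p) * x + b := by
    intro a b
    refine ⟨⟨fun x => (a : ZMod p) * x + b, fun x => ((a⁻¹ : (ZMod p)ˣ) : ZMod p) * (x - b), ?_, ?_⟩,
      ⟨a, b, fun x => rfl⟩, fun x => rfl⟩
    · intro x
      show ((a⁻¹ : (ZMod p)ˣ) : ZMod p) * ((a : ZMod p) * x + b - b) = x
      rw [add_sub_cancel_right, ← mul_assoc, Units.inv_mul, one_mul]
    · intro x
      show (a : ZMod p) * (((a⁻¹ : (ZMod p)ˣ) : ZMod p) * (x - b)) + b = x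
      rw [← mul_assoc, Units.mul_inv, one_mul, sub_add_cancel]
  refine ⟨?_, ?_, ?_⟩
  · intro hne σ hσ
    let H : Subgroup (ZMod p)ˣ :=
      { carrier := {a | ∃ g ∈ G, ∀ x, g x = (a : ZMod p) * x}
        one_mem' := ⟨1, G.one_mem, fun x => by simp⟩
        mul_mem' := by
          rintro a b ⟨g, hg, hgx⟩ ⟨k, hk, hkx⟩
          exact ⟨g * k, G.mul_mem hg hk, fun x => by
            rw [Equiv.Perm.mul_apply, hkx, hgx, Units.val_mul, mul_assoc]⟩
        inv_mem' := by
          rintro a ⟨g, hg, hgx⟩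
          refine ⟨g⁻¹, G.inv_mem hg, fun x => ?_⟩
          apply g.injective
          rw [Equiv.Perm.inv_def, Equiv.apply_symm_apply, hgx, ← mul_assoc, Units.mul_inv, one_mul] }
    have hHmem : ∀ a : (ZMod p)ˣ, a ∈ H ↔ ∃ g ∈ G, ∀ x, g x = (a : ZMod p) * x := fun a => Iff.rfl
    have hH1 : ∀ g ∈ G, ∀ (a : (ZMod p)ˣ) (b : ZMod p), (∀ x, g x = (a : ZMod p) * x + b) → a ∈ H := by
      intro g hg a b hgx
      obtain ⟨τ, hτ, hτx⟩ := htrans (-b)
      rw [hHmem]
      refine ⟨τ * g, G.mul_mem hτ hg, fun x => ?_⟩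
      rw [Equiv.Perm.mul_apply, hτx, hgx, add_neg_cancel_right]
    have hHne : H ≠ ⊤ := by
      intro htop
      apply hne
      apply le_antisymm hG
      rintro s ⟨a, b, hs⟩
      have ha : a ∈ H := by rw [htop]; exact Subgroup.mem_top a
      rw [hHmem] at ha
      obtain ⟨g, hg, hgx⟩ := ha
      obtain ⟨τ, hτ, hτx⟩ := htrans b
      have : s = τ * g := by
        ext x
        rw [Equiv.Perm.mul_apply, hτx, hgx, hs]
      rw [this]
      exact G.mul_mem hτ hg
    set m := Nat.card H with hm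
    have hm1 : 1 ≤ m := Nat.card_pos
    have hidx : 2 ≤ H.index := by
      have h1 : H.index ≠ 1 := fun h => hHne (Subgroup.index_eq_one.mp h)
      have h0 : H.index ≠ 0 := Subgroup.index_ne_zero_of_finite
      omega
    have hcard : m * H.index = p - 1 := by
      rw [hm, Subgroup.card_mul_index, Nat.card_eq_fintype_card, ZMod.card_units]
    have hm2 : 2 * m ≤ p - 1 := by
      rw [← hcard]
      calc 2 * m = m * 2 := by ring
        _ ≤ m * H.index := Nat.mul_le_mul_left m hidx
    have hHpow : ∀ a : (ZMod p)ˣ, a ∈ H → (a : ZMod p) ^ m = 1 := by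
      intro a ha
      have h1 : (⟨a, ha⟩ : H) ^ Nat.card H = 1 := pow_card_eq_one'
      have h2 : a ^ m = 1 := by
        have h3 : ((⟨a, ha⟩ : H) ^ Nat.card H : H).val = ((1 : H) : (ZMod p)ˣ) := by rw [h1]
        rw [Subgroup.coe_pow, Subgroup.coe_one] at h3
        exact h3
      rw [← Units.val_pow_eq_pow_val, h2, Units.val_one]
    have hσm : ∀ x y : ZMod p, (σ x - σ y) ^ m = (x - y) ^ m := by
      intro x y
      obtain ⟨g, hg, hgt⟩ := hσ ![x, y]
      obtain ⟨a, b, hab⟩ := hG hg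
      have e0 := hgt 0
      have e1 := hgt 1
      simp only [Matrix.cons_val_zero, Matrix.cons_val_one] at e0 e1
      rw [e0, e1, hab, hab]
      have : (a : ZMod p) * x + b - ((a : ZMod p) * y + b) = (a : ZMod p) * (x - y) := by ring
      rw [this, mul_pow, hHpow a (hH1 g hg a b hab), one_mul]
    obtain ⟨c, d, hc, hcd⟩ := mcconnel p σ m hm1 hm2 hσm
    obtain ⟨g, hg, hgt⟩ := hσ ![0, 1]
    obtain ⟨a, b, hab⟩ := hG hg
    have e0 := hgt 0
    have e1 := hgt 1
    simp only [Matrix.cons_val_zero, Matrix.cons_val_one] at e0 e1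
    rw [hab] at e0 e1
    have c0 := hcd 0
    have c1 := hcd 1
    rw [e0] at c0
    rw [e1] at c1
    have hca : c * (a : ZMod p) = 1 := by
      have : c * (a : ZMod p) = (c * ((a : ZMod p) * 1 + b) + d) - (c * ((a : ZMod p) * 0 + b) + d) := by ring
      rw [this, ← c0, ← c1, sub_zero]
    have hσg : σ = g := by
      ext x
      apply mul_left_cancel₀ hc
      have h1 := hcd x
      have h2 : c * g x = x - d := by
        rw [hab]
        have : c * ((a : ZMod p) * x + b) = (c * (a : ZMod p)) * x + (c * ((a : ZMod p) * 0 + b) + d) - d := by ring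
        rw [this, ← c0, hca]
        ring
      rw [h2]
      have : c * σ x = (c * σ x + d) - d := by ring
      rw [this, ← h1]
    rw [hσg]
    exact hg
  · intro σ t
    by_cases h01 : t 0 = t 1
    · obtain ⟨g, hg, hgx⟩ := haff 1 (σ (t 0) - t 0)
      refine ⟨g, hg, fun i => ?_⟩
      have e0 : σ (t 0) = g (t 0) := by rw [hgx]; simp
      fin_cases i
      · exact e0
      · show σ (t 1) = g (t 1)
        rw [← h01]
        exact e0
    · have hne : t 1 - t 0 ≠ 0 := sub_ne_zero.mpr (Ne.symm h01)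
      have hne2 : σ (t 1) - σ (t 0) ≠ 0 := sub_ne_zero.mpr (fun h => h01 (σ.injective h).symm)
      have ha : (σ (t 1) - σ (t 0)) / (t 1 - t 0) ≠ 0 := div_ne_zero hne2 hne
      obtain ⟨g, hg, hgx⟩ := haff (Units.mk0 _ ha) (σ (t 0) - (σ (t 1) - σ (t 0)) / (t 1 - t 0) * t 0)
      refine ⟨g, hg, fun i => ?_⟩
      fin_cases i
      · show σ (t 0) = g (t 0)
        rw [hgx, Units.val_mk0]
        ring
      · show σ (t 1) = g (t 1)
        rw [hgx, Units.val_mk0]
        field_simp
        ring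
  · intro σ hσ
    have h01 : σ 1 - σ 0 ≠ 0 := sub_ne_zero.mpr (fun h => one_ne_zero (σ.injective h))
    refine ⟨Units.mk0 _ h01, σ 0, fun x => ?_⟩
    obtain ⟨g, hg, hgt⟩ := hσ ![0, 1, x]
    obtain ⟨a, b, hab⟩ := hg
    have e0 := hgt 0
    have e1 := hgt 1
    have e2 := hgt 2
    simp only [Matrix.cons_val_zero, Matrix.cons_val_one, Matrix.cons_val_two, Matrix.head_cons,
      Matrix.tail_cons] at e0 e1 e2
    rw [hab] at e0 e1 e2
    rw [Units.val_mk0, e0, e1, e2]
    ring

end Cfsg.Agent.S3518
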