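import Cfsg.Statements.S3532
import Mathlib
import Cfsg.Agent.Lib.Helper59.PSL2Spec
import Cfsg.Agent.Lib.Helper59.AffGroup

set_option autoImplicit false
open Cfsg

namespace Cfsg.Agent.S3532

theorem dvd_two_mul_iff (N n : ℕ) : N ∣ 2 * n ↔ N / Nat.gcd N 2 ∣ n := by
  rcases Nat.even_or_odd N with ⟨k, hk⟩ | hodd
  · have hN : N = 2 * k := by omega
    subst hN
    have hg : Nat.gcd (2 * k) 2 = 2 := by simp
    rw [hg, Nat.mul_div_cancel_left k (by norm_num)]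
    exact Nat.mul_dvd_mul_iff_left (by norm_num)
  · have hcop : Nat.Coprime N 2 := Nat.coprime_two_right.mpr hodd
    have hg : Nat.gcd N 2 = 1 := hcop
    rw [hg, Nat.div_one]
    exact hcop.dvd_mul_left

theorem range_orderOf_prod (G₁ G₂ : Type*) [Group G₁] [Group G₂] :
    Set.range (orderOf : G₁ × G₂ → ℕ)
      = Set.image2 Nat.lcm (Set.range (orderOf : G₁ → ℕ)) (Set.range (orderOf : G₂ → ℕ)) := by
  ext n
  simp only [Set.mem_range, Set.mem_image2]
  constructor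
  · rintro ⟨⟨x, y⟩, rfl⟩
    exact ⟨_, ⟨x, rfl⟩, _, ⟨y, rfl⟩, Prod.orderOf_mk.symm⟩
  · rintro ⟨_, ⟨x, rfl⟩, _, ⟨y, rfl⟩, rfl⟩
    exact ⟨(x, y), Prod.orderOf_mk⟩

theorem image2_lcm_eq (p a b : ℕ) :
    Set.image2 Nat.lcm {n | n ∣ p ∨ n ∣ a} {n | n ∣ p ∨ n ∣ b}
      = Set.image2 Nat.lcm {n | n ∣ p ∨ n ∣ a ∨ n ∣ b} {n | n ∣ p ∨ n ∣ a ∨ n ∣ b} := by
  ext n
  simp only [Set.mem_image2, Set.mem_ofPred_eq]
  constructor
  · rintro ⟨x, hx, y, hy, rfl⟩
    exact ⟨x, by tauto, y, by tauto, rfl⟩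
  · rintro ⟨x, hx, y, hy, rfl⟩
    rcases hx with hx | hx | hx <;> rcases hy with hy | hy | hy
    · exact ⟨Nat.lcm x y, Or.inl (Nat.lcm_dvd hx hy), 1, Or.inl (one_dvd _), by simp⟩
    · exact ⟨y, Or.inr hy, x, Or.inl hx, Nat.lcm_comm _ _⟩
    · exact ⟨x, Or.inl hx, y, Or.inr hy, rfl⟩
    · exact ⟨x, Or.inr hx, y, Or.inl hy, rfl⟩
    · exact ⟨Nat.lcm x y, Or.inr (Nat.lcm_dvd hx hy), 1, Or.inl (one_dvd _), by simp⟩
    · exact ⟨x, Or.inr hx, y, Or.inr hy, rfl⟩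
    · exact ⟨y, Or.inl hy, x, Or.inr hx, Nat.lcm_comm _ _⟩
    · exact ⟨y, Or.inr hy, x, Or.inr hx, Nat.lcm_comm _ _⟩
    · exact ⟨1, Or.inl (one_dvd _), Nat.lcm x y, Or.inr (Nat.lcm_dvd hx hy), by simp⟩

/-- Let q ≥ 4 be a prime power and L = PSL(2,q). There is a finite solvable group with the same set of element orders as L × L (so L × L is not determined by its spectrum). -/
theorem result {F : Type*} [Field F] [Fintype F] (hF : 4 ≤ Fintype.card F) :
    ∃ (H : Type) (_ : Group H) (_ : Finite H), Group.IsSolvable H ∧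
      Set.range (orderOf : H → ℕ) = Set.range (orderOf : Matrix.ProjectiveSpecialLinearGroup (Fin 2) F × Matrix.ProjectiveSpecialLinearGroup (Fin 2) F → ℕ) := by
  classical
  obtain ⟨p, hp⟩ := CharP.exists F
  obtain ⟨f, hpr, hq⟩ := FiniteField.card F p
  have hfact : Fact p.Prime := ⟨hpr⟩
  have hq2 : 2 ≤ Fintype.card F := by omega
  have ha : ∀ n, (Fintype.card F - 1) ∣ 2 * n
      ↔ (Fintype.card F - 1) / Nat.gcd (Fintype.card F - 1) 2 ∣ n :=
    fun n => dvd_two_mul_iff _ n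
  have hb : ∀ n, (Fintype.card F + 1) ∣ 2 * n
      ↔ (Fintype.card F + 1) / Nat.gcd (Fintype.card F + 1) 2 ∣ n :=
    fun n => dvd_two_mul_iff _ n
  have hK : Nat.card (GaloisField p (2 * (f : ℕ))) = Fintype.card F * Fintype.card F := by
    rw [GaloisField.card p (2 * (f : ℕ)) (by have := f.pos; omega), hq, ← pow_add, two_mul]
  have hfac : (Fintype.card F - 1) * (Fintype.card F + 1)
      = Fintype.card F * Fintype.card F - 1 := by
    obtain ⟨r, hr⟩ : ∃ r, Fintype.card F = r + 1 := ⟨Fintype.card F - 1, by omega⟩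
    rw [hr]
    simp only [Nat.add_sub_cancel]
    have : (r + 1) * (r + 1) = r * (r + 1 + 1) + 1 := by ring
    omega
  have ha' : (Fintype.card F - 1) / Nat.gcd (Fintype.card F - 1) 2
      ∣ Nat.card (GaloisField p (2 * (f : ℕ))) - 1 := by
    rw [hK, ← hfac]
    exact (Nat.div_dvd_of_dvd (Nat.gcd_dvd_left _ _)).trans (Dvd.intro _ rfl)
  have hb' : (Fintype.card F + 1) / Nat.gcd (Fintype.card F + 1) 2
      ∣ Nat.card (GaloisField p (2 * (f : ℕ))) - 1 := by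
    rw [hK, ← hfac]
    exact (Nat.div_dvd_of_dvd (Nat.gcd_dvd_left _ _)).trans (Dvd.intro_left _ rfl)
  refine ⟨Cfsg.Agent.Lib.Helper59.Aff (GaloisField p (2 * (f : ℕ)))
      ((Fintype.card F - 1) / Nat.gcd (Fintype.card F - 1) 2)
    × Cfsg.Agent.Lib.Helper59.Aff (GaloisField p (2 * (f : ℕ)))
      ((Fintype.card F + 1) / Nat.gcd (Fintype.card F + 1) 2), inferInstance, inferInstance, ?_, ?_⟩
  · have h1 := Cfsg.Agent.Lib.Helper59.Aff.isSolvable (K := GaloisField p (2 * (f : ℕ)))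
      (m := (Fintype.card F - 1) / Nat.gcd (Fintype.card F - 1) 2)
    have h2 := Cfsg.Agent.Lib.Helper59.Aff.isSolvable (K := GaloisField p (2 * (f : ℕ)))
      (m := (Fintype.card F + 1) / Nat.gcd (Fintype.card F + 1) 2)
    infer_instance
  · rw [range_orderOf_prod, range_orderOf_prod,
      Cfsg.Agent.Lib.Helper59.Aff.spectrum p ha', Cfsg.Agent.Lib.Helper59.Aff.spectrum p hb',
      Cfsg.Agent.Lib.Helper59.psl2_spectrum p f hq _ _ ha hb]
    exact image2_lcm_eq _ _ _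

end Cfsg.Agent.S3532
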