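import Cfsg.Statements.S3548
import Cfsg.Agent.Lib.Helper59.Derange2

set_option autoImplicit false
open Cfsg

namespace Cfsg.Agent.S3548

/-- Let G act faithfully and transitively on a finite set with n ≥ 2 points and let D be the subgroup generated by the derangements. Then the index of D in G divides n − 1, and if it equals n − 1 then n is a prime power. -/
theorem result {G Ω : Type*} [Group G] [Finite G] [MulAction G Ω] [FaithfulSMul G Ω] [Finite Ω]
    (htrans : MulAction.IsPretransitive G Ω) (hΩ : 2 ≤ Nat.card Ω) :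
    (Subgroup.closure {g : G | ∀ ω : Ω, g • ω ≠ ω}).index ∣ Nat.card Ω - 1 ∧
    ((Subgroup.closure {g : G | ∀ ω : Ω, g • ω ≠ ω}).index = Nat.card Ω - 1 → IsPrimePow (Nat.card Ω)) := by
  have hne : Nonempty Ω := by
    by_contra h
    rw [not_nonempty_iff] at h
    rw [Nat.card_of_isEmpty] at hΩ
    omega
  obtain ⟨α⟩ := hne
  refine ⟨?_, fun hidx => ?_⟩
  · have h := Cfsg.Agent.Lib.Helper59.derSub_index_dvd_ncard G Ω α {α}ᶜ (by simp)
      (fun g hg ω hω => by
        simp only [Set.mem_compl_iff, Set.mem_singleton_iff] at hω ⊢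
        intro h
        apply hω
        have h2 : g⁻¹ • (g • ω) = g⁻¹ • α := by rw [h]
        rw [inv_smul_smul] at h2
        rw [h2]
        have h3 : g⁻¹ • (g • α) = g⁻¹ • α := by rw [hg]
        rw [inv_smul_smul] at h3
        exact h3.symm)
    rwa [Set.ncard_compl, Set.ncard_singleton] at h
  · obtain ⟨hreg, h2⟩ := Cfsg.Agent.Lib.Helper59.derSub_regular_of_index G Ω α hidx hΩ
    have := Cfsg.Agent.Lib.Helper59.derSub_normal G Ω
    refine Cfsg.Agent.Lib.Helper59.isPrimePow_of_regular_normal G Ω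
      (Cfsg.Agent.Lib.Helper59.derSub G Ω) α hΩ (fun ω => ?_) hreg h2
    obtain ⟨d, hd⟩ := (Cfsg.Agent.Lib.Helper59.der_main G Ω).1.exists_smul_eq α ω
    exact ⟨d, d.2, hd⟩

end Cfsg.Agent.S3548
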