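import Cfsg.Statements.S3549
import Cfsg.Agent.Lib.Helper59.Derange2

set_option autoImplicit false
open Cfsg

namespace Cfsg.Agent.S3549

open scoped Pointwise in
theorem block_inv {G Ω : Type*} [Group G] [MulAction G Ω] {B : Set Ω}
    (hB : MulAction.IsBlock G B) {α : Ω} (hα : α ∈ B) (g : G) (hg : g • α = α) (ω : Ω) :
    g • ω ∈ B ↔ ω ∈ B := by
  have h : g • B = B :=
    MulAction.isBlock_iff_smul_eq_of_mem.mp hB hα (by rw [hg]; exact hα)
  constructor
  · intro h1
    rw [← h] at h1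
    exact (Set.smul_mem_smul_set_iff).mp h1
  · intro h1
    rw [← h]
    exact Set.smul_mem_smul_set h1

/-- Let G act faithfully, transitively but imprimitively on a finite set with n points, and let D be the subgroup generated by the derangements. Then the index of D in G is at most √n − 1. -/
theorem result {G Ω : Type*} [Group G] [Finite G] [MulAction G Ω] [FaithfulSMul G Ω] [Finite Ω]
    (htrans : MulAction.IsPretransitive G Ω) (himp : ¬ MulAction.IsPreprimitive G Ω) :
    ((Subgroup.closure {g : G | ∀ ω : Ω, g • ω ≠ ω}).index : ℝ) ≤ Real.sqrt (Nat.card Ω) - 1 := by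
  classical
  have hex : ∃ B : Set Ω, MulAction.IsBlock G B ∧ ¬ MulAction.IsTrivialBlock B := by
    by_contra h
    push Not at h
    exact himp { toIsPretransitive := htrans, isTrivialBlock_of_isBlock := fun {B} hB => h B hB }
  obtain ⟨B, hB, hBt⟩ := hex
  rw [MulAction.IsTrivialBlock, not_or] at hBt
  obtain ⟨hBns, hBne⟩ := hBt
  obtain ⟨α, hα⟩ : B.Nonempty := by
    by_contra h
    rw [Set.not_nonempty_iff_eq_empty] at h
    exact hBns (h ▸ Set.subsingleton_empty)
  have hinv : ∀ g : G, g • α = α → ∀ ω, (g • ω ∈ B ↔ ω ∈ B) :=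
    fun g hg ω => block_inv hB hα g hg ω
  have hinj : ∀ g : G, g • α = α → ∀ ω, g • ω = α → ω = α := by
    intro g hg ω h
    have h2 : g⁻¹ • (g • ω) = g⁻¹ • α := by rw [h]
    rw [inv_smul_smul] at h2
    have h3 : g⁻¹ • (g • α) = g⁻¹ • α := by rw [hg]
    rw [inv_smul_smul] at h3
    rw [h2, ← h3]
  have h1 : (Cfsg.Agent.Lib.Helper59.derSub G Ω).index ∣ (B \ {α}).ncard :=
    Cfsg.Agent.Lib.Helper59.derSub_index_dvd_ncard G Ω α (B \ {α}) (by simp)
      (fun g hg ω hω => by
        simp only [Set.mem_sdiff, Set.mem_singleton_iff] at hω ⊢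
        exact ⟨(hinv g hg ω).mpr hω.1, fun h => hω.2 (hinj g hg ω h)⟩)
  have h2 : (Cfsg.Agent.Lib.Helper59.derSub G Ω).index ∣ (Bᶜ).ncard :=
    Cfsg.Agent.Lib.Helper59.derSub_index_dvd_ncard G Ω α Bᶜ (by simpa using hα)
      (fun g hg ω hω => by
        simp only [Set.mem_compl_iff] at hω ⊢
        exact fun h => hω ((hinv g hg ω).mp h))
  have hb1 : (B \ {α}).ncard = B.ncard - 1 := Set.ncard_sdiff_singleton_of_mem hα
  have hb2 : Bᶜ.ncard = Nat.card Ω - B.ncard := Set.ncard_compl B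
  have hdvd : B.ncard ∣ Nat.card Ω := hB.ncard_dvd_card ⟨α, hα⟩
  have hb_ge : 2 ≤ B.ncard := by
    by_contra h
    apply hBns
    have h' : B.ncard ≤ 1 := by omega
    have hfin : Finite B := Set.toFinite B
    exact Set.ncard_le_one_iff_subsingleton.mp h'
  have hb_lt : B.ncard < Nat.card Ω := Set.ncard_lt_card hBne
  rw [hb1] at h1
  rw [hb2] at h2
  -- arithmetic
  have key : ((Cfsg.Agent.Lib.Helper59.derSub G Ω).index + 1) ^ 2 ≤ Nat.card Ω := by
    generalize (Cfsg.Agent.Lib.Helper59.derSub G Ω).index = k at h1 h2 ⊢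
    generalize B.ncard = b at h1 h2 hdvd hb_ge hb_lt ⊢
    generalize Nat.card Ω = n at h2 hdvd hb_lt ⊢
    obtain ⟨m, rfl⟩ := hdvd
    have hm : 2 ≤ m := by
      by_contra h
      have : m ≤ 1 := by omega
      have : b * m ≤ b * 1 := Nat.mul_le_mul_left b this
      omega
    have e1 : b * m - b = b * (m - 1) := by
      rw [Nat.mul_sub, mul_one]
    rw [e1] at h2
    have h3 : k ∣ (b - 1) * (m - 1) := Dvd.dvd.mul_right h1 _
    have e2 : b * (m - 1) - (b - 1) * (m - 1) = m - 1 := by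
      obtain ⟨b', rfl⟩ : ∃ b', b = b' + 1 := ⟨b - 1, by omega⟩
      simp only [Nat.add_sub_cancel]
      rw [Nat.add_mul, one_mul, Nat.add_sub_cancel_left]
    have h4 : k ∣ m - 1 := by
      rw [← e2]; exact Nat.dvd_sub h2 h3
    have h5 : k ≤ b - 1 := Nat.le_of_dvd (by omega) h1
    have h6 : k ≤ m - 1 := Nat.le_of_dvd (by omega) h4
    have h7 : k + 1 ≤ b := by omega
    have h8 : k + 1 ≤ m := by omega
    calc (k + 1) ^ 2 = (k + 1) * (k + 1) := by ring
      _ ≤ b * m := Nat.mul_le_mul h7 h8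
  have key' : (((Cfsg.Agent.Lib.Helper59.derSub G Ω).index : ℝ) + 1) ^ 2 ≤ (Nat.card Ω : ℝ) := by
    exact_mod_cast key
  have hsq : ((Cfsg.Agent.Lib.Helper59.derSub G Ω).index : ℝ) + 1 ≤ Real.sqrt (Nat.card Ω) :=
    Real.le_sqrt_of_sq_le key'
  linarith

end Cfsg.Agent.S3549
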