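import Cfsg.Statements.S3560
import Cfsg.Agent.Lib.Helper59.HammingPrim

set_option autoImplicit false
open Cfsg

namespace Cfsg.Agent.S3560

/-- Let K be a finite group isomorphic to a direct product of r ≥ 2 groups all of the same order m ≥ 3. Then K is not a B-group: there is a primitive but not doubly transitive permutation group (on some finite set) containing a regular subgroup isomorphic to K. -/
theorem result {K : Type*} [Group K] [Finite K] {ι : Type*} [Fintype ι] (F : ι → Type*) [∀ i, Group (F i)]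
    (hr : 2 ≤ Fintype.card ι) (m : ℕ) (hm : 3 ≤ m) (hcard : ∀ i, Nat.card (F i) = m) (e : K ≃* (∀ i, F i)) :
    ∃ (n : ℕ) (G R : Subgroup (Equiv.Perm (Fin n))), R ≤ G ∧ Nonempty (↥R ≃* K) ∧
      MulAction.IsPretransitive ↥R (Fin n) ∧ (∀ a : Fin n, MulAction.stabilizer ↥R a = ⊥) ∧
      MulAction.IsPreprimitive ↥G (Fin n) ∧ ¬ MulAction.IsMultiplyPretransitive ↥G (Fin n) 2 := by
  classical
  have hfin : ∀ i, Finite (F i) := fun i => Nat.finite_of_card_ne_zero (by rw [hcard i]; omega)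
  let c : ∀ i, F i ≃ Fin m := fun i => Finite.equivFinOfCardEq (hcard i)
  obtain ⟨i, j, hij⟩ := Fintype.one_lt_card_iff.mp (show 1 < Fintype.card ι by omega)
  refine Cfsg.Agent.Lib.Helper59.transport_to_fin (Cfsg.Agent.Lib.Helper59.hamIso ι m)
    (Cfsg.Agent.Lib.Helper59.regHom F c).range ?_ ?_ ?_ ?_
    (Cfsg.Agent.Lib.Helper59.hamIso_preprimitive (by omega))
    (Cfsg.Agent.Lib.Helper59.hamIso_not_two (by omega) i j hij)
  · rintro _ ⟨g, rfl⟩
    exact Cfsg.Agent.Lib.Helper59.regHom_mem F c g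
  · exact ⟨(MonoidHom.ofInjective (Cfsg.Agent.Lib.Helper59.regHom_injective F c)).symm.trans
      e.symm⟩
  · intro x y
    obtain ⟨g, hg⟩ := Cfsg.Agent.Lib.Helper59.regHom_trans F c x y
    exact ⟨_, ⟨g, rfl⟩, hg⟩
  · rintro _ ⟨g, rfl⟩ x hx
    rw [Cfsg.Agent.Lib.Helper59.regHom_free F c g x hx, map_one]

end Cfsg.Agent.S3560
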