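import Cfsg.Statements.S3573
import Mathlib

set_option autoImplicit false
open Cfsg

namespace Cfsg.Agent.S3573

open Equiv

theorem image_eq_of_iff {α : Type*} [DecidableEq α] (σ : Perm α) (O : Finset α)
    (h : ∀ y, y ∈ O ↔ σ y ∈ O) : O.image σ = O := by
  ext y
  rw [Finset.mem_image]
  constructor
  · rintro ⟨z, hz, rfl⟩
    exact (h z).mp hz
  · intro hy
    refine ⟨σ⁻¹ y, ?_, by simp⟩
    rw [h]; simpa using hy

theorem iff_of_image_eq {α : Type*} [DecidableEq α] (σ : Perm α) (O : Finset α)
    (h : O.image σ = O) : ∀ y, y ∈ O ↔ σ y ∈ O := by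
  intro y
  constructor
  · intro hy
    rw [← h]
    exact Finset.mem_image_of_mem _ hy
  · intro hy
    rw [← h, Finset.mem_image] at hy
    obtain ⟨z, hz, hzy⟩ := hy
    rw [← σ.injective hzy]; exact hz

/-- invariant subsets of any admissible size exist -/
theorem exists_invariant_subset {α : Type*} [Fintype α] [DecidableEq α] (σ : Perm α) (r : ℕ)
    (hr : r.Prime) (hσ : σ ^ r = 1) :
    ∀ (c : ℕ) (X : Finset α), X.card = c → (∀ x, x ∈ X ↔ σ x ∈ X) → ∀ k ≤ c,
      k % r ≤ c % r → ∃ s ⊆ X, s.card = k ∧ s.image σ = s := by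
  intro c
  induction c using Nat.strong_induction_on with
  | _ c ih =>
    intro X hXc hinv k hk hmod
    by_cases hfix : ∀ x ∈ X, σ x = x
    · obtain ⟨s, hsX, hsc⟩ := Finset.exists_subset_card_eq (hXc ▸ hk)
      refine ⟨s, hsX, hsc, ?_⟩
      calc s.image σ = s.image id := Finset.image_congr (fun x hx => hfix x (hsX hx))
        _ = s := Finset.image_id
    · push Not at hfix
      obtain ⟨x, hxX, hx⟩ := hfix
      have hOmem : ∀ y, y ∈ (σ.cycleOf x).support ↔ σ.SameCycle x y :=
        fun y => Perm.mem_support_cycleOf_iff' hx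
      have hOcard : (σ.cycleOf x).support.card = r := by
        have h1 : (σ.cycleOf x).IsCycle := Perm.isCycle_cycleOf σ hx
        rw [← h1.orderOf]
        have h2 : orderOf (σ.cycleOf x) ∣ r :=
          (Perm.orderOf_cycleOf_dvd_orderOf σ x).trans (orderOf_dvd_of_pow_eq_one hσ)
        rcases (Nat.dvd_prime hr).mp h2 with h3 | h3
        · exact absurd (orderOf_eq_one_iff.mp h3) h1.ne_one
        · exact h3
      have hpow : ∀ i : ℕ, (σ ^ i) x ∈ X := by
        intro i
        induction i with
        | zero => simpa using hxX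
        | succ i ih2 =>
          rw [pow_succ', Perm.mul_apply]
          exact (hinv _).mp ih2
      have hOX : (σ.cycleOf x).support ⊆ X := by
        intro y hy
        obtain ⟨i, hi⟩ := ((hOmem y).mp hy).exists_nat_pow_eq
        rw [← hi]; exact hpow i
      have hOinv : ∀ y, y ∈ (σ.cycleOf x).support ↔ σ y ∈ (σ.cycleOf x).support := by
        intro y
        rw [hOmem, hOmem, Perm.sameCycle_apply_right]
      have hX'inv : ∀ y, y ∈ X \ (σ.cycleOf x).support ↔ σ y ∈ X \ (σ.cycleOf x).support := by
        intro y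
        rw [Finset.mem_sdiff, Finset.mem_sdiff, ← hinv y, ← hOinv y]
      have hX'card : (X \ (σ.cycleOf x).support).card = c - r := by
        rw [Finset.card_sdiff_of_subset hOX, hXc, hOcard]
      have hrc : r ≤ c := by
        rw [← hXc, ← hOcard]; exact Finset.card_le_card hOX
      have hrpos : 0 < r := hr.pos
      have hcmod : (c - r) % r = c % r := by
        conv_rhs => rw [← Nat.sub_add_cancel hrc]
        rw [Nat.add_mod_right]
      by_cases hk' : k ≤ c - r
      · obtain ⟨s, hs, hsc, hsi⟩ := ih (c - r) (by omega) _ hX'card hX'inv k hk'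
          (by rw [hcmod]; exact hmod)
        exact ⟨s, hs.trans Finset.sdiff_subset, hsc, hsi⟩
      · have hrk : r ≤ k := by
          by_contra hcon
          rw [not_le] at hcon
          rw [Nat.mod_eq_of_lt hcon, ← hcmod] at hmod
          have := Nat.mod_le (c - r) r
          omega
        have hkmod : (k - r) % r = k % r := by
          conv_rhs => rw [← Nat.sub_add_cancel hrk]
          rw [Nat.add_mod_right]
        obtain ⟨s, hs, hsc, hsi⟩ := ih (c - r) (by omega) _ hX'card hX'inv (k - r) (by omega)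
          (by rw [hcmod, hkmod]; exact hmod)
        refine ⟨s ∪ (σ.cycleOf x).support, ?_, ?_, ?_⟩
        · exact Finset.union_subset (hs.trans Finset.sdiff_subset) hOX
        · rw [Finset.card_union_of_disjoint
            (Finset.disjoint_of_subset_left hs Finset.sdiff_disjoint), hsc, hOcard]
          omega
        · rw [Finset.image_union, hsi, image_eq_of_iff σ _ hOinv]

/-- a permutation of order `r` of `Fin n` with at most `n % r` fixed points -/
theorem exists_perm (n r : ℕ) (hr : r.Prime) (hrn : r ≤ n) :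
    ∃ (σ : Perm (Fin n)) (T : Finset (Fin n)), orderOf σ = r ∧ T.card ≤ n % r ∧
      ∀ y, σ y = y → y ∈ T := by
  have : NeZero r := ⟨hr.ne_zero⟩
  have : Fact (1 < r) := ⟨hr.one_lt⟩
  have : Fact r.Prime := ⟨hr⟩
  have hcard : Fintype.card ((Fin (n / r) × ZMod r) ⊕ Fin (n % r)) = Fintype.card (Fin n) := by
    simp only [Fintype.card_sum, Fintype.card_prod, Fintype.card_fin, ZMod.card]
    exact Nat.div_add_mod' n r
  let e : ((Fin (n / r) × ZMod r) ⊕ Fin (n % r)) ≃ Fin n := Fintype.equivOfCardEq hcard
  let τ : Perm ((Fin (n / r) × ZMod r) ⊕ Fin (n % r)) :=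
    Equiv.sumCongr (Equiv.prodCongr (Equiv.refl _) (Equiv.addRight (1 : ZMod r))) (Equiv.refl _)
  have hτl : ∀ (j : ℕ) (a : Fin (n / r)) (z : ZMod r),
      (τ ^ j) (Sum.inl (a, z)) = Sum.inl (a, z + j) := by
    intro j
    induction j with
    | zero => intro a z; simp
    | succ j ih =>
      intro a z
      rw [pow_succ, Perm.mul_apply]
      show (τ ^ j) (Sum.inl (a, z + 1)) = _
      rw [ih]
      push_cast
      congr 2
      ring
  have hτr : ∀ (j : ℕ) (b : Fin (n % r)), (τ ^ j) (Sum.inr b) = Sum.inr b := by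
    intro j
    induction j with
    | zero => intro b; simp
    | succ j ih =>
      intro b
      rw [pow_succ, Perm.mul_apply]
      show (τ ^ j) (Sum.inr b) = _
      exact ih b
  have hτ : orderOf τ = r := by
    apply orderOf_eq_prime
    · ext w
      rcases w with ⟨a, z⟩ | b
      · rw [hτl]; simp
      · rw [hτr]; simp
    · intro h
      have hnr : 0 < n / r := Nat.div_pos hrn hr.pos
      have h1 := congrArg (fun f => f (Sum.inl ((⟨0, hnr⟩ : Fin (n / r)), (0 : ZMod r)))) h
      simp [τ] at h1
  refine ⟨e.permCongrHom τ, Finset.univ.image (fun b => e (Sum.inr b)), ?_, ?_, ?_⟩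
  · rw [MulEquiv.orderOf_eq, hτ]
  · exact Finset.card_image_le.trans (by simp)
  · intro y hy
    have h1 : τ (e.symm y) = e.symm y := by
      have h2 : e (τ (e.symm y)) = y := hy
      have h3 := congrArg e.symm h2
      simpa using h3
    rcases hw : e.symm y with ⟨a, z⟩ | b
    · rw [hw] at h1
      exfalso
      simp [τ] at h1
    · rw [Finset.mem_image]
      refine ⟨b, Finset.mem_univ _, ?_⟩
      rw [← hw]; simp

theorem mod_le_of_forall (n k r : ℕ) (hr : r.Prime) (hkn : k ≤ n)
    (H : ∀ σ : Perm (Fin n), orderOf σ = r →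
      ∃ s : Finset (Fin n), s.card = k ∧ s.image σ = s) :
    k % r ≤ n % r := by
  by_cases hrn : r ≤ n
  · obtain ⟨σ, T, hσ, hT, hfix⟩ := exists_perm n r hr hrn
    obtain ⟨s, hsk, hsi⟩ := H σ hσ
    have hs := iff_of_image_eq σ s hsi
    have : Fact r.Prime := ⟨hr⟩
    have hτ : (σ.subtypePerm (p := fun x => x ∈ s) (fun x => (hs x).symm)) ^ r ^ 1 = 1 := by
      rw [pow_one]
      ext z
      rw [Perm.subtypePerm_pow]
      have h0 : σ ^ r = 1 := by rw [← hσ]; exact pow_orderOf_eq_one σ
      simp [h0]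
    have h1 := Perm.card_compl_support_modEq hτ
    rw [Fintype.card_coe, hsk] at h1
    have h2 : ((σ.subtypePerm (p := fun x => x ∈ s) (fun x => (hs x).symm)).support)ᶜ.card
        ≤ T.card := by
      apply Finset.card_le_card_of_injOn (t := T) (fun z : {x // x ∈ s} => (z : Fin n))
      · intro z hz
        apply hfix
        simpa using hz
      · intro z _ z' _ h
        exact Subtype.ext h
    have h3 : ((σ.subtypePerm (p := fun x => x ∈ s) (fun x => (hs x).symm)).support)ᶜ.card < r :=
      lt_of_le_of_lt (h2.trans hT) (Nat.mod_lt _ hr.pos)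
    have h4 : k % r
        = ((σ.subtypePerm (p := fun x => x ∈ s) (fun x => (hs x).symm)).support)ᶜ.card := by
      have h6 : k % r = _ % r := h1.symm
      rw [h6, Nat.mod_eq_of_lt h3]
    rw [h4]
    exact h2.trans hT
  · rw [not_le] at hrn
    rw [Nat.mod_eq_of_lt (lt_of_le_of_lt hkn hrn), Nat.mod_eq_of_lt hrn]
    exact hkn

theorem main_iff (n k r : ℕ) (hr : r.Prime) (hkn : k ≤ n) :
    (∀ σ : Perm (Fin n), orderOf σ = r →
      ∃ s : Finset (Fin n), s.card = k ∧ s.image σ = s) ↔ k % r ≤ n % r := by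
  constructor
  · exact mod_le_of_forall n k r hr hkn
  · intro hmod σ hσ
    have hσr : σ ^ r = 1 := by rw [← hσ]; exact pow_orderOf_eq_one σ
    obtain ⟨s, -, hs⟩ := exists_invariant_subset σ r hr hσr n Finset.univ (by simp) (by simp)
      k hkn hmod
    exact ⟨s, hs⟩

theorem le_of_dvd_choose (n k r : ℕ) (hr : r.Prime) (hrd : r ∣ Nat.choose n k)
    (hmod : k % r ≤ n % r) : r ≤ k := by
  by_contra hcon
  rw [not_le] at hcon
  have : Fact r.Prime := ⟨hr⟩
  have h1 := Choose.choose_modEq_choose_mod_mul_choose_div_nat (n := n) (k := k) (p := r)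
  rw [Nat.mod_eq_of_lt hcon, Nat.div_eq_of_lt hcon, Nat.choose_zero_right, mul_one] at h1
  rw [Nat.mod_eq_of_lt hcon] at hmod
  have h2 : r ∣ Nat.choose (n % r) k :=
    (Nat.modEq_zero_iff_dvd).mp (h1.symm.trans ((Nat.modEq_zero_iff_dvd).mpr hrd))
  have h3 : r ∣ (n % r).factorial := by
    rw [← Nat.choose_mul_factorial_mul_factorial hmod]
    exact Dvd.dvd.mul_right (Dvd.dvd.mul_right h2 _) _
  have h4 := (hr.dvd_factorial).mp h3
  have := Nat.mod_lt n hr.pos
  omega

/-- Let 1 ≤ k with 2k < n and consider the symmetric group of degree n acting on the k-subsets of an n-set. Let r be a prime dividing the number C(n,k) of k-subsets. If r is odd, then every permutation of order r fixes some k-subset if and only if r ≤ k and the remainder of k modulo r is at most the remainder of n modulo r. If r = 2, then every involution fixes some k-subset if and only if k is even or n is odd. -/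
theorem result (n k : ℕ) (hk : 1 ≤ k) (hkn : 2 * k < n) (r : ℕ) (hr : r.Prime) (hrd : r ∣ Nat.choose n k) :
    (r ≠ 2 → ((∀ σ : Equiv.Perm (Fin n), orderOf σ = r → ∃ s : Finset (Fin n), s.card = k ∧ s.image σ = s) ↔
      (r ≤ k ∧ k % r ≤ n % r))) ∧
    (r = 2 → ((∀ σ : Equiv.Perm (Fin n), orderOf σ = 2 → ∃ s : Finset (Fin n), s.card = k ∧ s.image σ = s) ↔
      (Even k ∨ Odd n))) := by
  have hkn' : k ≤ n := by omega
  have hM := main_iff n k r hr hkn'
  refine ⟨fun _ => ?_, fun h2 => ?_⟩
  · rw [hM]
    exact ⟨fun h => ⟨le_of_dvd_choose n k r hr hrd h, h⟩, fun h => h.2⟩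
  · subst h2
    rw [hM, Nat.even_iff, Nat.odd_iff]
    omega

end Cfsg.Agent.S3573
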