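import Cfsg.Statements.S3592
import Cfsg.Agent.S0420
import Cfsg.Agent.Lib.Helper60.NseM11.Count
import Cfsg.Agent.Lib.Helper52.NseM11.Simple
import Cfsg.Agent.Lib.Helper80.NseM11.Cent
import Cfsg.Agent.Lib.Helper80.NseM11.Frob3

set_option autoImplicit false
open Cfsg

namespace Cfsg.Agent.S3592

open scoped Pointwise in
/-- the smallest Mathieu group as a stabiliser in the group of the code -/
def stabEquiv : ↥(MulAction.stabilizer M24 Spor.squareDodecad ⊓
    MulAction.stabilizer M24 (some 0 : GolayPt)) ≃* ↥Spor.M11 where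
  toFun g := ⟨g.1.1, Cfsg.Agent.Lib.Helper86.mem_M11_iff.2
    ⟨g.1.2, MulAction.mem_stabilizer_iff.1 g.2.1, MulAction.mem_stabilizer_iff.1 g.2.2⟩⟩
  invFun g := ⟨⟨g.1, (Cfsg.Agent.Lib.Helper86.mem_M11_iff.1 g.2).1⟩,
    ⟨MulAction.mem_stabilizer_iff.2 (Cfsg.Agent.Lib.Helper86.mem_M11_iff.1 g.2).2.1,
      MulAction.mem_stabilizer_iff.2 (Cfsg.Agent.Lib.Helper86.mem_M11_iff.1 g.2).2.2⟩⟩
  left_inv _ := rfl
  right_inv _ := rfl
  map_mul' _ _ := rfl

/-- Let M be the Mathieu group M₁₁ (order 7920). If a finite group G has the same order as M and the same set of values of the function 'number of elements of order n' (taken over the element orders n that occur), then G is isomorphic to M. -/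
theorem result {G : Type*} [Group G] [Finite G]
    (hcard : Nat.card G = Nat.card ↥Cfsg.Spor.M11)
    (hnse : {c : ℕ | 0 < c ∧ ∃ n : ℕ, c = Nat.card {g : G // orderOf g = n}} =
      {c : ℕ | 0 < c ∧ ∃ n : ℕ, c = Nat.card {g : ↥Cfsg.Spor.M11 // orderOf g = n}}) :
    Nonempty (G ≃* ↥Cfsg.Spor.M11) := by
  have hG : Nat.card G = 7920 := hcard.trans Cfsg.Agent.Lib.Helper86.card_M11
  have hL : ∀ n : ℕ, 0 < Nat.card {g : G // orderOf g = n} →
      Nat.card {g : G // orderOf g = n} ∈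
        ({1, 165, 440, 990, 1584, 1320, 1980, 1440} : Set ℕ) := by
    intro n hpos
    have hmem : Nat.card {g : G // orderOf g = n} ∈
        {c : ℕ | 0 < c ∧ ∃ n : ℕ, c = Nat.card {g : G // orderOf g = n}} := ⟨hpos, n, rfl⟩
    rw [hnse] at hmem
    obtain ⟨hp, m, hm⟩ := hmem
    rw [hm] at hp ⊢
    exact Cfsg.Agent.Lib.Helper60.NseM11.nse_M11 m hp
  have hsimp : IsSimpleGroup G :=
    Cfsg.Agent.Lib.Helper52.NseM11.pkgSimple Cfsg.Agent.Lib.Helper80.NseM11.pkgFrob3
      Cfsg.Agent.Lib.Helper80.NseM11.pkgCent hG hL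
  have hM : Cfsg.IsM11 G := ⟨hsimp, hG⟩
  obtain ⟨e⟩ := Cfsg.Agent.S0420.result hM Spor.squareDodecad
    Cfsg.Agent.Lib.Helper86.squareDodecad_mem (some 0)
    Cfsg.Agent.Lib.Helper86.zero_mem_squareDodecad
  exact ⟨e.trans stabEquiv⟩

end Cfsg.Agent.S3592
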