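import Cfsg.Statements.S3599
import Cfsg.Agent.Lib.Helper60.AffGrp
import Cfsg.Agent.Lib.Helper60.Critical

set_option autoImplicit false
open Cfsg

namespace Cfsg.Agent.S3599

open Cfsg.Agent.Lib.Helper60

/-- The Frobenius group with kernel the additive group of the field with `π ^ (κ - 1)` elements
and complement the group of `κ`-th roots of unity. -/
abbrev Frob (π κ : ℕ) (hπ : π.Prime) : Type :=
  AffGrp (@GaloisField π ⟨hπ⟩ (κ - 1)) (rootsU (@GaloisField π ⟨hπ⟩ (κ - 1)) κ)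

theorem frob_spec (π κ : ℕ) (hπ : π.Prime) (hκ : κ.Prime) (hne : π ≠ κ) :
    (∀ x : Frob π κ hπ, orderOf x = 1 ∨ orderOf x = π ∨ orderOf x = κ) ∧
    (∃ x : Frob π κ hπ, orderOf x = π) ∧ (∃ x : Frob π κ hπ, orderOf x = κ) ∧
    (∀ x y : Frob π κ hπ, (∃ k : ℕ, x ^ (π ^ k) = 1) → (∃ k : ℕ, y ^ (π ^ k) = 1) →
      (x * y) ^ π = 1) := by
  have : Fact π.Prime := ⟨hπ⟩
  obtain ⟨ζ, hζ, hζ1⟩ := exists_root_galois π κ hκ hne
  exact ⟨AffGrp.frob_order π κ hπ hκ, AffGrp.frob_exists_p π κ hπ,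
    AffGrp.frob_exists_q κ hκ ζ hζ hζ1, AffGrp.frob_mul_pow π κ hπ hκ hne⟩

/-- A finite group is critical with respect to a set Ω of natural numbers when its set of element orders is Ω while no proper section H/N (H a subgroup, N normal in H, (H, N) ≠ (whole group, 1)) has Ω as its set of element orders. Let s ≥ 1 and let p(j,0), p(j,1) (j < s) be 2s pairwise distinct primes, and let Ω be the set of all products c(0)·…·c(s−1) with each c(j) ∈ {1, p(j,0), p(j,1)}. Then there are 2^s pairwise non-isomorphic finite groups critical with respect to Ω. -/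
theorem result (s : ℕ) (hs : 1 ≤ s) (p : Fin s → Fin 2 → ℕ)
    (hp : ∀ j i, (p j i).Prime) (hinj : ∀ j i j' i', p j i = p j' i' → j = j' ∧ i = i') :
    ∃ (G : Fin (2 ^ s) → Type) (_ : ∀ a, Group (G a)) (_ : ∀ a, Fintype (G a)),
      (∀ a b, a ≠ b → ¬ Nonempty (G a ≃* G b)) ∧
      ∀ a, Set.range (orderOf : (G a) → ℕ) = {m : ℕ | ∃ c : Fin s → ℕ, (∀ j, c j = 1 ∨ c j = p j 0 ∨ c j = p j 1) ∧ m = ∏ j, c j} ∧
      ∀ (H : Subgroup (G a)) (N : Subgroup ↥H) [N.Normal], (H ≠ ⊤ ∨ N ≠ ⊥) → Set.range (orderOf : (↥H ⧸ N) → ℕ) ≠ {m : ℕ | ∃ c : Fin s → ℕ, (∀ j, c j = 1 ∨ c j = p j 0 ∨ c j = p j 1) ∧ m = ∏ j, c j} := by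
  classical
  obtain ⟨Ω, hΩ⟩ : ∃ Ω : Set ℕ, Ω = {m : ℕ | ∃ c : Fin s → ℕ,
      (∀ j, c j = 1 ∨ c j = p j 0 ∨ c j = p j 1) ∧ m = ∏ j, c j} := ⟨_, rfl⟩
  rw [← hΩ]
  have hmemΩ : ∀ m, m ∈ Ω ↔ ∃ c : Fin s → ℕ,
      (∀ j, c j = 1 ∨ c j = p j 0 ∨ c j = p j 1) ∧ m = ∏ j, c j := by
    intro m; rw [hΩ]; rfl
  have hrev : ∀ i : Fin 2, i.rev ≠ i := by decide
  have hpne : ∀ j (i : Fin 2), p j i ≠ p j i.rev :=
    fun j i h => hrev i ((hinj _ _ _ _ h).2).symm
  have hset : ∀ j (i : Fin 2) (c : ℕ),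
      (c = 1 ∨ c = p j i ∨ c = p j i.rev) ↔ (c = 1 ∨ c = p j 0 ∨ c = p j 1) := by
    intro j i c
    have h01 : (i = 0 ∧ i.rev = 1) ∨ (i = 1 ∧ i.rev = 0) := by
      revert i; decide
    rcases h01 with ⟨h0, h1⟩ | ⟨h0, h1⟩
    · rw [h0] at h1 ⊢; rw [h1]
    · rw [h0] at h1 ⊢; rw [h1]; tauto
  have main : ∀ ε : Fin s → Fin 2, ∃ (Y : Type) (_ : Group Y) (_ : Finite Y),
      (∀ j, PClosed (p j (ε j)) Y) ∧ Set.range (orderOf : Y → ℕ) = Ω ∧
        ∀ (H : Subgroup Y) (N : Subgroup H) [N.Normal], (H ≠ ⊤ ∨ N ≠ ⊥) →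
          Set.range (orderOf : (H ⧸ N) → ℕ) ≠ Ω := by
    intro ε
    have hF := fun j => frob_spec (p j (ε j)) (p j (ε j).rev) (hp j (ε j)) (hp j (ε j).rev)
      (hpne j (ε j))
    have hord : ∀ x : (∀ j : Fin s, Frob (p j (ε j)) (p j (ε j).rev) (hp j (ε j))),
        orderOf x = ∏ j, orderOf (x j) := by
      intro x
      rw [Pi.orderOf]
      apply Finset.lcm_eq_prod
      intro i _ j _ hij
      change Nat.Coprime (orderOf (x i)) (orderOf (x j))
      have hi := (hset i (ε i) _).mp ((hF i).1 (x i))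
      have hj := (hset j (ε j) _).mp ((hF j).1 (x j))
      have hcop : ∀ a b : Fin 2, Nat.Coprime (p i a) (p j b) := fun a b =>
        (Nat.coprime_primes (hp _ _) (hp _ _)).mpr (fun e => hij (hinj _ _ _ _ e).1)
      rcases hi with h | h | h <;> rcases hj with h' | h' | h' <;> rw [h, h'] <;>
        first | exact Nat.coprime_one_left _ | exact Nat.coprime_one_right _ | exact hcop _ _
    have hspecX : Set.range
        (orderOf : (∀ j : Fin s, Frob (p j (ε j)) (p j (ε j).rev) (hp j (ε j))) → ℕ) = Ω := by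
      ext m
      rw [hmemΩ]
      constructor
      · rintro ⟨x, rfl⟩
        exact ⟨fun j => orderOf (x j), fun j => (hset j (ε j) _).mp ((hF j).1 (x j)), hord x⟩
      · rintro ⟨c, hc, rfl⟩
        have hex : ∀ j, ∃ y : Frob (p j (ε j)) (p j (ε j).rev) (hp j (ε j)),
            orderOf y = c j := by
          intro j
          rcases (hset j (ε j) (c j)).mpr (hc j) with h | h | h
          · exact ⟨1, by rw [orderOf_one, h]⟩
          · obtain ⟨y, hy⟩ := (hF j).2.1; exact ⟨y, by rw [hy, h]⟩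
          · obtain ⟨y, hy⟩ := (hF j).2.2.1; exact ⟨y, by rw [hy, h]⟩
        choose y hy using hex
        refine ⟨y, ?_⟩
        rw [hord]
        exact Finset.prod_congr rfl (fun j _ => hy j)
    have hPX : ∀ j, PClosed (p j (ε j))
        (∀ j : Fin s, Frob (p j (ε j)) (p j (ε j).rev) (hp j (ε j))) := by
      rintro j x y ⟨k, hk⟩ ⟨l, hl⟩
      refine ⟨1, ?_⟩
      rw [pow_one]
      funext i
      change (x i * y i) ^ (p j (ε j)) = 1
      by_cases hij : i = j
      · subst hij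
        exact (hF i).2.2.2 (x i) (y i) ⟨k, congrFun hk i⟩ ⟨l, congrFun hl i⟩
      · have triv : ∀ z : (∀ j : Fin s, Frob (p j (ε j)) (p j (ε j).rev) (hp j (ε j))),
            ∀ k : ℕ, z ^ (p j (ε j) ^ k) = 1 → z i = 1 := by
          intro z k hz
          have h1 : (z i) ^ (p j (ε j) ^ k) = 1 := congrFun hz i
          have h2 := orderOf_dvd_of_pow_eq_one h1
          rcases (hset i (ε i) _).mp ((hF i).1 (z i)) with h | h | h
          · exact orderOf_eq_one_iff.mp h
          · exfalso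
            rw [h] at h2
            have h3 := (Nat.prime_dvd_prime_iff_eq (hp i 0) (hp j (ε j))).mp
              ((hp i 0).dvd_of_dvd_pow h2)
            exact hij (hinj _ _ _ _ h3).1
          · exfalso
            rw [h] at h2
            have h3 := (Nat.prime_dvd_prime_iff_eq (hp i 1) (hp j (ε j))).mp
              ((hp i 1).dvd_of_dvd_pow h2)
            exact hij (hinj _ _ _ _ h3).1
        rw [triv x k hk, triv y l hl, one_mul, one_pow]
    exact exists_critical Ω (fun Y _ => ∀ j, PClosed (p j (ε j)) Y)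
      (fun Y _ H h j => (h j).subgroup H)
      (fun Y _ _ N _ h j => (h j).quotient (hp j (ε j)) N)
      (Nat.card (∀ j : Fin s, Frob (p j (ε j)) (p j (ε j).rev) (hp j (ε j)))) _ le_rfl hPX hspecX
  choose Y hG hFin hP hspec hcrit using main
  let e : Fin (2 ^ s) ≃ (Fin s → Fin 2) := finFunctionFinEquiv.symm
  refine ⟨fun a => Y (e a), fun a => hG (e a), fun a => @Fintype.ofFinite _ (hFin (e a)), ?_, ?_⟩
  · rintro a b hab ⟨φ⟩
    have hne : e a ≠ e b := fun h => hab (e.injective h)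
    obtain ⟨j, hj⟩ : ∃ j, e a j ≠ e b j := Function.ne_iff.mp hne
    have h1 : @PClosed (p j (e a j)) (Y (e a)) (hG (e a)) := hP (e a) j
    have h2 : @PClosed (p j (e b j)) (Y (e a)) (hG (e a)) :=
      @PClosed.of_mulEquiv _ _ _ (hG (e b)) (hG (e a)) φ.symm (hP (e b) j)
    have hpne' : p j (e a j) ≠ p j (e b j) := fun h => hj (hinj _ _ _ _ h).2
    have hmem : ∀ i : Fin 2, p j i ∈ Ω := by
      intro i
      rw [hmemΩ]
      refine ⟨fun j' => if j' = j then p j i else 1, ?_, ?_⟩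
      · intro j'
        by_cases h : j' = j
        · subst h
          simp only [if_true]
          have h01 : i = 0 ∨ i = 1 := by revert i; decide
          rcases h01 with rfl | rfl
          · exact Or.inr (Or.inl rfl)
          · exact Or.inr (Or.inr rfl)
        · simp [h]
      · simp
    obtain ⟨x, hx⟩ : ∃ x : Y (e a), @orderOf _ (hG (e a)).toMonoid x = p j (e a j) := by
      have h3 := hmem (e a j)
      rw [← hspec (e a)] at h3
      exact h3
    obtain ⟨y, hy⟩ : ∃ y : Y (e a), @orderOf _ (hG (e a)).toMonoid y = p j (e b j) := by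
      have h3 := hmem (e b j)
      rw [← hspec (e a)] at h3
      exact h3
    have hxy := @orderOf_mul_of_PClosed _ _ (hp _ _) (hp _ _) hpne' _ (hG (e a)) h1 h2 x y hx hy
    have hin : p j (e a j) * p j (e b j) ∈ Ω := by
      rw [← hspec (e a)]
      exact ⟨_, hxy⟩
    rw [hmemΩ] at hin
    obtain ⟨c, hc, hprod⟩ := hin
    have key : ∀ i : Fin 2, p j i ∣ ∏ j', c j' → c j = p j i := by
      intro i hd
      obtain ⟨j', -, hj'⟩ := (Prime.dvd_finsetProd_iff (Nat.Prime.prime (hp j i)) _).mp hd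
      rcases hc j' with h | h | h
      · rw [h] at hj'
        exact absurd (Nat.dvd_one.mp hj') (hp j i).one_lt.ne'
      · rw [h] at hj'
        have h4 := (Nat.prime_dvd_prime_iff_eq (hp j i) (hp j' 0)).mp hj'
        obtain ⟨rfl, hi⟩ := hinj _ _ _ _ h4
        rw [h, hi]
      · rw [h] at hj'
        have h4 := (Nat.prime_dvd_prime_iff_eq (hp j i) (hp j' 1)).mp hj'
        obtain ⟨rfl, hi⟩ := hinj _ _ _ _ h4
        rw [h, hi]
    have k1 := key (e a j) (hprod ▸ Dvd.intro _ rfl)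
    have k2 := key (e b j) (hprod ▸ Dvd.intro_left _ rfl)
    exact hpne' (k1.symm.trans k2)
  · intro a
    exact ⟨hspec (e a), fun H N _ h => hcrit (e a) H N h⟩

end Cfsg.Agent.S3599
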