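import Cfsg.Statements.S3627
import Cfsg.Agent.Lib.Helper60.J1.Ord
import Cfsg.Agent.Lib.Helper60.AffGrp

set_option autoImplicit false
open Cfsg

namespace Cfsg.Agent.S3627

open Cfsg.Agent.Lib.Helper60 Cfsg.Agent.Lib.Helper60.J1

def L10 : List ℕ := [1, 2, 3, 5, 6, 7, 10, 11, 15, 19]

def lcm4 (a b c d : ℕ) : ℕ := Nat.lcm a (Nat.lcm b (Nat.lcm c d))
def lcm5 (a b c d e : ℕ) : ℕ := Nat.lcm a (Nat.lcm b (Nat.lcm c (Nat.lcm d e)))

/-- component of order 1, 2 or `q` for a target order `m` -/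
def wk (q m : ℕ) : ℕ := if Nat.mod m q = 0 then q else if Nat.mod m 2 = 0 then 2 else 1

theorem wk_mem (q m : ℕ) : wk q m ∈ [1, 2, q] := by
  unfold wk
  split_ifs <;> simp

def u1 (m : ℕ) : ℕ := if Nat.mod m 7 = 0 then 7 else Nat.gcd m 11
def u2 (m : ℕ) : ℕ :=
  if Nat.mod m 7 = 0 then (if Nat.mod m 11 = 0 then 11 else Nat.gcd m 19) else Nat.gcd m 19
def u3 (m : ℕ) : ℕ := if Nat.mod m 1463 = 0 then 19 else Nat.gcd m 6
def u4 (m : ℕ) : ℕ := if Nat.mod m 1463 = 0 then Nat.gcd m 30 else Nat.gcd m 5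

def memL (x : ℕ) : Bool := L10.any (Nat.beq x)

theorem memL_spec (x : ℕ) (h : memL x = true) : x ∈ L10 := by
  unfold memL at h
  rw [List.any_eq_true] at h
  obtain ⟨y, hy, hxy⟩ := h
  rw [Nat.eq_of_beq_eq_true hxy]
  exact hy

def chk4 : Bool :=
  L10.all fun a => L10.all fun b => L10.all fun c => L10.all fun d =>
    Nat.beq (lcm5 (wk 3 (lcm4 a b c d)) (wk 5 (lcm4 a b c d)) (wk 7 (lcm4 a b c d))
      (wk 11 (lcm4 a b c d)) (wk 19 (lcm4 a b c d))) (lcm4 a b c d)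

def chk5 : Bool :=
  [1, 2, 3].all fun a => [1, 2, 5].all fun b => [1, 2, 7].all fun c => [1, 2, 11].all fun d =>
    [1, 2, 19].all fun e =>
      memL (u1 (lcm5 a b c d e)) && memL (u2 (lcm5 a b c d e)) && memL (u3 (lcm5 a b c d e)) &&
        memL (u4 (lcm5 a b c d e)) &&
        Nat.beq (lcm4 (u1 (lcm5 a b c d e)) (u2 (lcm5 a b c d e)) (u3 (lcm5 a b c d e))
          (u4 (lcm5 a b c d e))) (lcm5 a b c d e)

theorem chk4_true : chk4 = true := by decide +kernel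
theorem chk5_true : chk5 = true := by decide +kernel

theorem lcm4_wit (a b c d : ℕ) (ha : a ∈ L10) (hb : b ∈ L10) (hc : c ∈ L10) (hd : d ∈ L10) :
    lcm5 (wk 3 (lcm4 a b c d)) (wk 5 (lcm4 a b c d)) (wk 7 (lcm4 a b c d))
      (wk 11 (lcm4 a b c d)) (wk 19 (lcm4 a b c d)) = lcm4 a b c d := by
  have h := chk4_true
  unfold chk4 at h
  simp only [List.all_eq_true] at h
  exact Nat.eq_of_beq_eq_true (h a ha b hb c hc d hd)

theorem lcm5_wit (a b c d e : ℕ) (ha : a ∈ [1, 2, 3]) (hb : b ∈ [1, 2, 5]) (hc : c ∈ [1, 2, 7])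
    (hd : d ∈ [1, 2, 11]) (he : e ∈ [1, 2, 19]) :
    u1 (lcm5 a b c d e) ∈ L10 ∧ u2 (lcm5 a b c d e) ∈ L10 ∧ u3 (lcm5 a b c d e) ∈ L10 ∧
      u4 (lcm5 a b c d e) ∈ L10 ∧
      lcm4 (u1 (lcm5 a b c d e)) (u2 (lcm5 a b c d e)) (u3 (lcm5 a b c d e))
          (u4 (lcm5 a b c d e)) = lcm5 a b c d e := by
  have h := chk5_true
  unfold chk5 at h
  simp only [List.all_eq_true] at h
  have h1 := h a ha b hb c hc d hd e he
  simp only [Bool.and_eq_true] at h1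
  obtain ⟨⟨⟨⟨h1, h2⟩, h3⟩, h4⟩, h5⟩ := h1
  exact ⟨memL_spec _ h1, memL_spec _ h2, memL_spec _ h3, memL_spec _ h4, Nat.eq_of_beq_eq_true h5⟩

theorem orderOf_J1_4 (y : ↥Cfsg.Spor.J1 × ↥Cfsg.Spor.J1 × ↥Cfsg.Spor.J1 × ↥Cfsg.Spor.J1) :
    orderOf y = lcm4 (orderOf y.1) (orderOf y.2.1) (orderOf y.2.2.1) (orderOf y.2.2.2) := by
  simp only [Prod.orderOf, lcm4]

section Solv

variable (K : Type) [Field K] [CharP K 2]

theorem frob_mem (q : ℕ) (hq : q.Prime) (x : AffGrp K (rootsU K q)) :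
    orderOf x ∈ [1, 2, q] := by
  rcases AffGrp.frob_order 2 q Nat.prime_two hq x with h | h | h <;> simp [h]

theorem frob_ex (q : ℕ) (hq : q.Prime) (hroot : ∃ ζ : Kˣ, ζ ^ q = 1 ∧ ζ ≠ 1) (c : ℕ)
    (hc : c ∈ [1, 2, q]) : ∃ x : AffGrp K (rootsU K q), orderOf x = c := by
  simp only [List.mem_cons, List.not_mem_nil, or_false] at hc
  rcases hc with rfl | rfl | rfl
  · exact ⟨1, orderOf_one⟩
  · exact AffGrp.frob_exists_p 2 q Nat.prime_two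
  · obtain ⟨ζ, hζ, hζ1⟩ := hroot
    exact AffGrp.frob_exists_q c hq ζ hζ hζ1

omit [CharP K 2] in
theorem orderOf_F (x : AffGrp K (rootsU K 3) × AffGrp K (rootsU K 5) × AffGrp K (rootsU K 7) ×
      AffGrp K (rootsU K 11) × AffGrp K (rootsU K 19)) :
    orderOf x = lcm5 (orderOf x.1) (orderOf x.2.1) (orderOf x.2.2.1) (orderOf x.2.2.2.1)
      (orderOf x.2.2.2.2) := by
  simp only [Prod.orderOf, lcm5]

theorem range_eq (h3 : ∃ ζ : Kˣ, ζ ^ 3 = 1 ∧ ζ ≠ 1) (h5 : ∃ ζ : Kˣ, ζ ^ 5 = 1 ∧ ζ ≠ 1)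
    (h7 : ∃ ζ : Kˣ, ζ ^ 7 = 1 ∧ ζ ≠ 1) (h11 : ∃ ζ : Kˣ, ζ ^ 11 = 1 ∧ ζ ≠ 1)
    (h19 : ∃ ζ : Kˣ, ζ ^ 19 = 1 ∧ ζ ≠ 1) :
    Set.range (orderOf : AffGrp K (rootsU K 3) × AffGrp K (rootsU K 5) × AffGrp K (rootsU K 7) ×
      AffGrp K (rootsU K 11) × AffGrp K (rootsU K 19) → ℕ) =
    Set.range (orderOf : ↥Cfsg.Spor.J1 × ↥Cfsg.Spor.J1 × ↥Cfsg.Spor.J1 × ↥Cfsg.Spor.J1 → ℕ) := by
  ext m
  constructor
  · rintro ⟨x, rfl⟩
    rw [orderOf_F]
    obtain ⟨m1, m2, m3, m4, e⟩ := lcm5_wit _ _ _ _ _ (frob_mem K 3 (by norm_num) x.1)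
      (frob_mem K 5 (by norm_num) x.2.1) (frob_mem K 7 (by norm_num) x.2.2.1)
      (frob_mem K 11 (by norm_num) x.2.2.2.1) (frob_mem K 19 (by norm_num) x.2.2.2.2)
    obtain ⟨ga, hga⟩ := exists_orderOf _ m1
    obtain ⟨gb, hgb⟩ := exists_orderOf _ m2
    obtain ⟨gc, hgc⟩ := exists_orderOf _ m3
    obtain ⟨gd, hgd⟩ := exists_orderOf _ m4
    refine ⟨(ga, gb, gc, gd), ?_⟩
    rw [orderOf_J1_4]
    simp only [hga, hgb, hgc, hgd]
    exact e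
  · rintro ⟨y, rfl⟩
    rw [orderOf_J1_4]
    have e := lcm4_wit _ _ _ _ (J1_orderOf_mem y.1) (J1_orderOf_mem y.2.1)
      (J1_orderOf_mem y.2.2.1) (J1_orderOf_mem y.2.2.2)
    generalize lcm4 (orderOf y.1) (orderOf y.2.1) (orderOf y.2.2.1) (orderOf y.2.2.2) = m at e
    obtain ⟨ga, hga⟩ := frob_ex K 3 (by norm_num) h3 _ (wk_mem 3 m)
    obtain ⟨gb, hgb⟩ := frob_ex K 5 (by norm_num) h5 _ (wk_mem 5 m)
    obtain ⟨gc, hgc⟩ := frob_ex K 7 (by norm_num) h7 _ (wk_mem 7 m)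
    obtain ⟨gd, hgd⟩ := frob_ex K 11 (by norm_num) h11 _ (wk_mem 11 m)
    obtain ⟨ge, hge⟩ := frob_ex K 19 (by norm_num) h19 _ (wk_mem 19 m)
    refine ⟨(ga, gb, gc, gd, ge), ?_⟩
    rw [orderOf_F]
    simp only [hga, hgb, hgc, hgd, hge]
    exact e

end Solv

theorem exists_root (q n : ℕ) (hq : q.Prime) (hn : n ≠ 0) (hd : q ∣ 2 ^ n - 1) :
    ∃ ζ : (GaloisField 2 n)ˣ, ζ ^ q = 1 ∧ ζ ≠ 1 := by
  have := Fact.mk hq
  have hcard : Nat.card (GaloisField 2 n)ˣ = 2 ^ n - 1 := by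
    rw [Nat.card_units, GaloisField.card 2 n hn]
  obtain ⟨ζ, hζ⟩ := exists_prime_orderOf_dvd_card' (G := (GaloisField 2 n)ˣ) q
    (by rw [hcard]; exact hd)
  have hζq : ζ ^ q = 1 := by
    have h := pow_orderOf_eq_one ζ
    rwa [hζ] at h
  refine ⟨ζ, hζq, ?_⟩
  rintro rfl
  rw [orderOf_one] at hζ
  exact hq.one_lt.ne hζ

theorem dvd_pow_sub (q : ℕ) (h : 2 ^ 180 % q = 1) (k : ℕ) : q ∣ 2 ^ (180 * k) - 1 := by
  have h1 : 2 ^ 180 ≡ 1 [MOD q] := by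
    have hq : 1 % q = 1 := by
      rcases Nat.lt_or_ge 1 q with h2 | h2
      · exact Nat.mod_eq_of_lt h2
      · interval_cases q <;> simp at h
    unfold Nat.ModEq
    rw [h, hq]
  have h2 : 2 ^ (180 * k) ≡ 1 [MOD q] := by
    rw [pow_mul]
    simpa using h1.pow k
  exact (Nat.modEq_iff_dvd' (Nat.one_le_pow _ _ (by norm_num))).mp h2.symm


/-- Let J be the first Janko group. Then there are finite groups of arbitrarily large order with exactly the same set of element orders as J × J × J × J. -/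
theorem result (N : ℕ) : ∃ (H : Type) (_ : Group H) (_ : Fintype H), N < Fintype.card H ∧
      Set.range (orderOf : H → ℕ) = Set.range (orderOf : ↥Cfsg.Spor.J1 × ↥Cfsg.Spor.J1 × ↥Cfsg.Spor.J1 × ↥Cfsg.Spor.J1 → ℕ) := by
  classical
  have hn : 180 * (N + 1) ≠ 0 := by omega
  let K : Type := GaloisField 2 (180 * (N + 1))
  have h3 : ∃ ζ : Kˣ, ζ ^ 3 = 1 ∧ ζ ≠ 1 :=
    exists_root 3 _ (by norm_num) hn (dvd_pow_sub 3 (by decide +kernel) _)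
  have h5 : ∃ ζ : Kˣ, ζ ^ 5 = 1 ∧ ζ ≠ 1 :=
    exists_root 5 _ (by norm_num) hn (dvd_pow_sub 5 (by decide +kernel) _)
  have h7 : ∃ ζ : Kˣ, ζ ^ 7 = 1 ∧ ζ ≠ 1 :=
    exists_root 7 _ (by norm_num) hn (dvd_pow_sub 7 (by decide +kernel) _)
  have h11 : ∃ ζ : Kˣ, ζ ^ 11 = 1 ∧ ζ ≠ 1 :=
    exists_root 11 _ (by norm_num) hn (dvd_pow_sub 11 (by decide +kernel) _)
  have h19 : ∃ ζ : Kˣ, ζ ^ 19 = 1 ∧ ζ ≠ 1 :=
    exists_root 19 _ (by norm_num) hn (dvd_pow_sub 19 (by decide +kernel) _)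
  refine ⟨AffGrp K (rootsU K 3) × AffGrp K (rootsU K 5) × AffGrp K (rootsU K 7) ×
      AffGrp K (rootsU K 11) × AffGrp K (rootsU K 19), inferInstance, Fintype.ofFinite _, ?_, ?_⟩
  · rw [Fintype.card_eq_nat_card]
    have hK : Nat.card K = 2 ^ (180 * (N + 1)) := GaloisField.card 2 _ hn
    have hinj : Function.Injective (fun b : K =>
        ((⟨1, b⟩, 1, 1, 1, 1) : AffGrp K (rootsU K 3) × AffGrp K (rootsU K 5) ×
          AffGrp K (rootsU K 7) × AffGrp K (rootsU K 11) × AffGrp K (rootsU K 19))) := by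
      intro b b' h
      have h1 := congrArg (fun z => z.1.b) h
      exact h1
    have hle := Nat.card_le_card_of_injective _ hinj
    have hN : N < 2 ^ (180 * (N + 1)) :=
      lt_of_lt_of_le (Nat.lt_two_pow_self)
        (Nat.pow_le_pow_right (by norm_num) (by omega))
    omega
  · exact range_eq K h3 h5 h7 h11 h19

end Cfsg.Agent.S3627
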