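import Mathlib
import Cfsg.Statements.S3660
import Cfsg.Agent.Lib.Helper61.SL2Char2

set_option autoImplicit false
open Cfsg

namespace Cfsg.Agent.S3660

/-- The prime graph of a finite group has the prime divisors of its order as vertices, two distinct primes p, q being joined when the group has an element of order pq; two groups have the same prime graph when they have the same prime divisors and the same joined pairs. Let F be a finite field of characteristic 2 with at least 4 elements. Then there are finite groups of arbitrarily large order with the same prime graph as PSL(2,F); in particular PSL(2,F) is not determined by its prime graph. -/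
theorem result {F : Type*} [Field F] [Fintype F] [CharP F 2] (hF : 4 ≤ Fintype.card F) (N : ℕ) :
    ∃ (H : Type) (_ : Group H) (_ : Finite H), N < Nat.card H ∧
      ((∀ p : ℕ, p.Prime → (p ∣ Nat.card (Matrix.ProjectiveSpecialLinearGroup (Fin 2) F) ↔ p ∣ Nat.card H)) ∧
      (∀ p q : ℕ, p.Prime → q.Prime → p ≠ q → ((∃ g : (Matrix.ProjectiveSpecialLinearGroup (Fin 2) F), orderOf g = p * q) ↔ (∃ g : H, orderOf g = p * q)))) := by
  obtain ⟨H₀, _, _, hcard, hord1, hord2⟩ := Cfsg.Agent.Lib.Helper61.exists_bigGroup (F := F) N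
  obtain ⟨H, _, _, ⟨e⟩⟩ := Cfsg.Agent.Lib.Helper61.exists_type0_copy H₀
  have hcardH : Nat.card H =
      Nat.card F ^ (2 * N) * Nat.card (Matrix.SpecialLinearGroup (Fin 2) F) :=
    (Nat.card_congr e.toEquiv).trans hcard
  have hcardP : Nat.card (Matrix.ProjectiveSpecialLinearGroup (Fin 2) F) =
      Nat.card (Matrix.SpecialLinearGroup (Fin 2) F) :=
    Nat.card_congr (Cfsg.Agent.Lib.Helper61.psl2Equiv (F := F)).toEquiv
  have hSLpos : 0 < Nat.card (Matrix.SpecialLinearGroup (Fin 2) F) := Nat.card_pos
  obtain ⟨n, -, hn⟩ := FiniteField.card F 2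
  have hq : Nat.card F = 2 ^ (n : ℕ) := by rw [Nat.card_eq_fintype_card, hn]
  have hq2 : 2 ≤ Nat.card F := by rw [Nat.card_eq_fintype_card]; omega
  refine ⟨H, inferInstance, inferInstance, ?_, ?_, ?_⟩
  · rw [hcardH]
    calc N < 2 ^ N := Nat.lt_two_pow_self
      _ ≤ Nat.card F ^ N := Nat.pow_le_pow_left hq2 N
      _ ≤ Nat.card F ^ (2 * N) := Nat.pow_le_pow_right (by omega) (by omega)
      _ ≤ Nat.card F ^ (2 * N) * Nat.card (Matrix.SpecialLinearGroup (Fin 2) F) :=
        Nat.le_mul_of_pos_right _ hSLpos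
  · intro p hp
    rw [hcardH, hcardP]
    constructor
    · intro h
      exact dvd_mul_of_dvd_right h _
    · intro h
      rcases (Nat.Prime.dvd_mul hp).mp h with h1 | h1
      · have h2 : p ∣ Nat.card F := hp.dvd_of_dvd_pow h1
        rw [hq] at h2
        have h3 : p ∣ 2 := hp.dvd_of_dvd_pow h2
        have h4 : p = 2 := (Nat.prime_dvd_prime_iff_eq hp Nat.prime_two).mp h3
        rw [h4]
        exact Cfsg.Agent.Lib.Helper61.two_dvd_card_sl2
      · exact h1
  · intro p q hp hq' hpq
    constructor
    · rintro ⟨g, hg⟩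
      obtain ⟨h, hh⟩ := hord2 (Cfsg.Agent.Lib.Helper61.psl2Equiv g)
      refine ⟨e.symm h, ?_⟩
      rw [MulEquiv.orderOf_eq, hh, MulEquiv.orderOf_eq, hg]
    · rintro ⟨h, hh⟩
      have hh' : orderOf (e h) = p * q := by rw [MulEquiv.orderOf_eq, hh]
      rcases hord1 (e h) with h4 | ⟨g, hg⟩
      · exfalso
        rw [hh'] at h4
        have hp2 : p = 2 := by
          have : p ∣ 2 ^ 2 := (dvd_mul_right p q).trans h4
          exact (Nat.prime_dvd_prime_iff_eq hp Nat.prime_two).mp (hp.dvd_of_dvd_pow this)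
        have hq2' : q = 2 := by
          have : q ∣ 2 ^ 2 := (dvd_mul_left q p).trans h4
          exact (Nat.prime_dvd_prime_iff_eq hq' Nat.prime_two).mp (hq'.dvd_of_dvd_pow this)
        exact hpq (hp2.trans hq2'.symm)
      · refine ⟨(Cfsg.Agent.Lib.Helper61.psl2Equiv (F := F)).symm g, ?_⟩
        rw [MulEquiv.orderOf_eq, hg, hh']

end Cfsg.Agent.S3660
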