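import Mathlib
import Cfsg.Statements.S3669
import Cfsg.Agent.S0494
import Cfsg.Agent.Lib.Helper82.Ito
import Cfsg.Agent.Lib.Helper64.Order60
import Cfsg.Agent.Lib.Helper64.A5Degrees

set_option autoImplicit false
open Cfsg

namespace Cfsg.Agent.S3669

/-- The character degree graph of a finite group has as vertices the primes dividing some irreducible complex character degree, two distinct primes being joined when their product divides some irreducible character degree; two groups have the same character degree graph when they have the same vertices and the same joined pairs. A finite group of order 60 with the same character degree graph as the alternating group A₅ (whose character degrees are 1, 3, 4, 5, so the graph has vertices 2, 3, 5 and no edges) is isomorphic to A₅. -/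
theorem result {G : Type*} [Group G] [Finite G] (hcard : Nat.card G = 60)
    (hΓ : Cfsg.degreePrimes G = Cfsg.degreePrimes (alternatingGroup (Fin 5)) ∧ Cfsg.degreeGraph G = Cfsg.degreeGraph (alternatingGroup (Fin 5))) : Nonempty (G ≃* alternatingGroup (Fin 5)) := by
  haveI : Fact (Nat.Prime 5) := ⟨by norm_num⟩
  have h5 : 5 ∈ Cfsg.degreePrimes G := by
    rw [hΓ.1]
    exact Cfsg.Agent.Lib.Helper64.A5Degrees.five_mem_degreePrimes
  obtain ⟨-, d, ⟨χ, hχ⟩, hd⟩ := h5
  have hsimple : IsSimpleGroup G := by
    by_contra hns
    obtain ⟨P⟩ := (Sylow.nonempty : Nonempty (Sylow 5 G))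
    haveI hPn : (P : Subgroup G).Normal :=
      Cfsg.Agent.Lib.Helper64.Order60.sylow_five_normal_of_not_simple hcard hns P
    have hP : Nat.card (P : Subgroup G) = 5 := by
      simpa using Cfsg.Agent.Lib.Helper17.card_sylow_eq_of_card_eq 5 1 12
        (by rw [hcard]; norm_num) (by norm_num) P
    haveI : Fact (Nat.card (P : Subgroup G)).Prime := ⟨by rw [hP]; norm_num⟩
    haveI : IsCyclic (P : Subgroup G) := isCyclic_of_prime_card (p := Nat.card (P : Subgroup G)) rfl
    have hab : ∀ a ∈ (P : Subgroup G), ∀ b ∈ (P : Subgroup G), a * b = b * a := by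
      intro a ha b hb
      have := IsCyclic.commGroup.mul_comm (⟨a, ha⟩ : (P : Subgroup G)) ⟨b, hb⟩
      exact congrArg Subtype.val this
    have hdvd := Cfsg.Agent.Lib.Helper82.ito_charDegree_dvd χ.2 (P : Subgroup G) hab
    have hidx : (P : Subgroup G).index = 12 := by
      have := (P : Subgroup G).card_mul_index
      rw [hP, hcard] at this
      omega
    rw [hχ, hidx] at hdvd
    have : 5 ∣ 12 := hd.trans hdvd
    omega
  exact Cfsg.Agent.S0494.result hcard

end Cfsg.Agent.S3669
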