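import Mathlib
import Cfsg.Statements.S3678
import Cfsg.Agent.Lib.Helper61.SL2Small

set_option autoImplicit false
open Cfsg

namespace Cfsg.Agent.S3678

open Cfsg.Agent.Lib.Helper61 in
/-- The prime graph of a finite group has the prime divisors of its order as vertices, two distinct primes p, q being joined when the group has an element of order pq; two groups have the same prime graph when they have the same prime divisors and the same joined pairs. Let F be the field with 7 elements. There are finite groups of arbitrarily large order with the same prime graph as PSL(2,F) (the graph on {2, 3, 7} with no edges, which is also the prime graph of PSL(2,8)). -/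
theorem result {F : Type*} [Field F] [Fintype F] (hF : Fintype.card F = 7) (N : ℕ) :
    ∃ (H : Type) (_ : Group H) (_ : Finite H), N < Nat.card H ∧
      ((∀ p : ℕ, p.Prime → (p ∣ Nat.card (Matrix.ProjectiveSpecialLinearGroup (Fin 2) F) ↔ p ∣ Nat.card H)) ∧
      (∀ p q : ℕ, p.Prime → q.Prime → p ≠ q → ((∃ g : (Matrix.ProjectiveSpecialLinearGroup (Fin 2) F), orderOf g = p * q) ↔ (∃ g : H, orderOf g = p * q)))) := by
  have : Fact (Nat.Prime 2) := ⟨Nat.prime_two⟩
  let _ : Fintype (GaloisField 2 3) := Fintype.ofFinite (GaloisField 2 3)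
  have hKn : Nat.card (GaloisField 2 3) = 8 := by
    rw [GaloisField.card 2 3 (by norm_num)]; norm_num
  have hK : Fintype.card (GaloisField 2 3) = 8 := by
    rw [← Nat.card_eq_fintype_card, hKn]
  obtain ⟨H, _, _, hcard, hord1, hord2⟩ := exists_bigGroup (F := GaloisField 2 3) N
  rw [hKn] at hcard
  have : Finite (Matrix.SpecialLinearGroup (Fin 2) (GaloisField 2 3)) := Subtype.finite
  have hSLpos : 0 < Nat.card (Matrix.SpecialLinearGroup (Fin 2) (GaloisField 2 3)) := Nat.card_pos
  have h7p : Nat.Prime 7 := by norm_num
  -- prime divisors of the order of `H`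
  have hprimesH : ∀ p : ℕ, p.Prime → (p ∣ Nat.card H ↔ p = 2 ∨ p = 3 ∨ p = 7) := by
    intro p hp
    rw [hcard]
    constructor
    · intro h
      rcases (Nat.Prime.dvd_mul hp).mp h with h1 | h1
      · have h2 : p ∣ 2 ^ 3 := hp.dvd_of_dvd_pow h1
        exact Or.inl ((Nat.prime_dvd_prime_iff_eq hp Nat.prime_two).mp (hp.dvd_of_dvd_pow h2))
      · have : Fact p.Prime := ⟨hp⟩
        obtain ⟨g, hg⟩ := exists_prime_orderOf_dvd_card'
          (G := Matrix.SpecialLinearGroup (Fin 2) (GaloisField 2 3)) p h1
        rcases sl2_F8_pow hK g with h2 | h7 | h9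
        · have := orderOf_dvd_of_pow_eq_one h2
          rw [hg] at this
          exact Or.inl ((Nat.prime_dvd_prime_iff_eq hp Nat.prime_two).mp this)
        · have := orderOf_dvd_of_pow_eq_one h7
          rw [hg] at this
          exact Or.inr (Or.inr ((Nat.prime_dvd_prime_iff_eq hp h7p).mp this))
        · have := orderOf_dvd_of_pow_eq_one h9
          rw [hg] at this
          exact Or.inr (Or.inl ((Nat.prime_dvd_prime_iff_eq hp Nat.prime_three).mp
            (hp.dvd_of_dvd_pow (show p ∣ 3 ^ 2 from this))))
    · rintro (rfl | rfl | rfl)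
      · exact dvd_mul_of_dvd_right two_dvd_card_sl2 _
      · exact dvd_mul_of_dvd_right three_dvd_card_sl2 _
      · exact dvd_mul_of_dvd_right (seven_dvd_card_sl2_F8 hK) _
  refine ⟨H, inferInstance, inferInstance, ?_, ?_, ?_⟩
  · rw [hcard]
    calc N < 2 ^ N := Nat.lt_two_pow_self
      _ ≤ 8 ^ N := Nat.pow_le_pow_left (by norm_num) N
      _ ≤ 8 ^ (2 * N) := Nat.pow_le_pow_right (by norm_num) (by omega)
      _ ≤ 8 ^ (2 * N) * Nat.card (Matrix.SpecialLinearGroup (Fin 2) (GaloisField 2 3)) :=
        Nat.le_mul_of_pos_right _ hSLpos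
  · intro p hp
    rw [hprimesH p hp, psl2_F7_prime_dvd hF p hp]
  · intro p q hp hq hpq
    constructor
    · rintro ⟨g, hg⟩
      exact absurd hg (psl2_F7_no_pq hF hp hq hpq g)
    · rintro ⟨h, hh⟩
      exfalso
      rcases hord1 h with h4 | ⟨g, hg⟩
      · rw [hh] at h4
        exact not_mul_dvd_prime_pow (k := 2) hp hq Nat.prime_two hpq h4
      · rw [hh] at hg
        rcases sl2_F8_pow hK g with h2 | h7 | h9
        · have := orderOf_dvd_of_pow_eq_one h2
          rw [hg] at this
          exact not_mul_dvd_prime_pow (k := 1) hp hq Nat.prime_two hpq (by simpa using this)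
        · have := orderOf_dvd_of_pow_eq_one h7
          rw [hg] at this
          exact not_mul_dvd_prime_pow (k := 1) hp hq h7p hpq (by simpa using this)
        · have := orderOf_dvd_of_pow_eq_one h9
          rw [hg] at this
          exact not_mul_dvd_prime_pow (k := 2) hp hq Nat.prime_three hpq this

end Cfsg.Agent.S3678
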