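import Mathlib
import Cfsg.Statements.S3680
import Cfsg.Agent.Lib.Helper61.MinNormal

set_option autoImplicit false
open Cfsg

namespace Cfsg.Agent.S3680

section Aux

variable {G Ω : Type*} [Group G] [MulAction G Ω] [FaithfulSMul G Ω]

theorem eq_one_of_fixes_all (g : G) (h : ∀ x : Ω, g • x = x) : g = 1 := by
  apply FaithfulSMul.eq_of_smul_eq_smul (α := Ω)
  intro x
  rw [h, one_smul]

/-- An element centralizing a transitive subgroup and fixing a point is trivial. -/
theorem eq_one_of_centralizes (V : Subgroup G) (htr : ∀ x y : Ω, ∃ v ∈ V, v • x = y) (c : G)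
    (hc : ∀ v ∈ V, Commute c v) (a : Ω) (ha : c • a = a) : c = 1 := by
  apply eq_one_of_fixes_all (Ω := Ω)
  intro x
  obtain ⟨v, hv, rfl⟩ := htr a x
  rw [← mul_smul, (hc v hv).eq, mul_smul, ha]

/-- Two elements of a subgroup centralizing a transitive subgroup that agree at a point are equal. -/
theorem eq_of_centralizes (V W : Subgroup G) (htr : ∀ x y : Ω, ∃ v ∈ V, v • x = y)
    (hc : ∀ w ∈ W, ∀ v ∈ V, Commute w v) (w w' : G) (hw : w ∈ W) (hw' : w' ∈ W) (a : Ω)
    (ha : w • a = w' • a) : w = w' := by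
  have h1 : w'⁻¹ * w = 1 := by
    apply eq_one_of_centralizes V htr (w'⁻¹ * w) _ a
    · rw [mul_smul, ha, inv_smul_smul]
    · intro v hv
      exact ((hc w' hw' v hv).inv_left).mul_left (hc w hw v hv)
  exact (inv_mul_eq_one.mp h1).symm

/-- Two regular subgroups centralizing each other are isomorphic. -/
theorem nonempty_mulEquiv_of_centralize (V W : Subgroup G)
    (hV : ∀ x y : Ω, ∃ v ∈ V, v • x = y) (hW : ∀ x y : Ω, ∃ w ∈ W, w • x = y)
    (hc : ∀ v ∈ V, ∀ w ∈ W, Commute v w) (a : Ω) : Nonempty (V ≃* W) := by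
  classical
  have hc' : ∀ w ∈ W, ∀ v ∈ V, Commute w v := fun w hw v hv => (hc v hv w hw).symm
  have hex : ∀ v : V, ∃ w : W, (w : G) • ((v : G) • a) = a := by
    intro v
    obtain ⟨w, hw, h⟩ := hW ((v : G) • a) a
    exact ⟨⟨w, hw⟩, h⟩
  choose ψ hψ using hex
  have huniq : ∀ (v : V) (w : W), (w : G) • ((v : G) • a) = a → w = ψ v := by
    intro v w h
    apply Subtype.ext
    exact eq_of_centralizes V W hV hc' w (ψ v) w.2 (ψ v).2 ((v : G) • a) (h.trans (hψ v).symm)
  have hmul : ∀ v₁ v₂ : V, ψ (v₁ * v₂) = ψ v₁ * ψ v₂ := by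
    intro v₁ v₂
    symm
    apply huniq
    have h1 : ((ψ v₂ : W) : G) * (v₁ : G) = (v₁ : G) * ((ψ v₂ : W) : G) :=
      (hc' _ (ψ v₂).2 _ v₁.2).eq
    calc ((ψ v₁ * ψ v₂ : W) : G) • (((v₁ * v₂ : V) : G) • a)
        = ((ψ v₁ : W) : G) • ((((ψ v₂ : W) : G) * (v₁ : G)) • ((v₂ : G) • a)) := by
          simp only [Subgroup.coe_mul, mul_smul]
      _ = ((ψ v₁ : W) : G) • ((v₁ : G) • (((ψ v₂ : W) : G) • ((v₂ : G) • a))) := by
          rw [h1, mul_smul]
      _ = a := by rw [hψ v₂, hψ v₁]
  let f : V →* W := MonoidHom.mk' ψ hmul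
  have hinj : Function.Injective f := by
    intro v v' h
    have h' : ψ v = ψ v' := h
    have h1 : (v : G) • a = (v' : G) • a := by
      have e1 := hψ v
      have e2 := hψ v'
      rw [h'] at e1
      exact smul_left_cancel _ (e1.trans e2.symm)
    apply Subtype.ext
    exact eq_of_centralizes W V hW hc v v' v.2 v'.2 a h1
  have hsurj : Function.Surjective f := by
    intro w
    obtain ⟨v, hv, h⟩ := hV a ((w : G)⁻¹ • a)
    refine ⟨⟨v, hv⟩, ?_⟩
    symm
    apply huniq
    show (w : G) • (v • a) = a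
    rw [h, smul_inv_smul]
  exact ⟨MulEquiv.ofBijective f ⟨hinj, hsurj⟩⟩

end Aux

/-- The multiplicative equivalence `(Fin m → T) × (Fin n → T) ≃* (Fin (m + n) → T)`. -/
def appendMulEquiv (T : Type*) [Group T] (m n : ℕ) :
    (Fin m → T) × (Fin n → T) ≃* (Fin (m + n) → T) :=
  { Fin.appendEquiv m n with
    map_mul' := by
      rintro ⟨a, b⟩ ⟨c, d⟩
      funext i
      refine Fin.addCases (fun j => ?_) (fun j => ?_) i
      · simp [Fin.appendEquiv]
      · simp [Fin.appendEquiv] }

/-- The socle of a finite primitive permutation group. Let a finite group G act faithfully and primitively on a set Ω, and let N be the subgroup generated by the minimal normal subgroups of G. Then either N is an elementary abelian p-group for some prime p and acts regularly on Ω (transitively with trivial point stabilizers), or N is isomorphic to a direct product of m ≥ 1 copies of a non-abelian simple group. -/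
theorem result {G Ω : Type*} [Group G] [Finite G] [MulAction G Ω] [FaithfulSMul G Ω] [Finite Ω]
    (hprim : MulAction.IsPreprimitive G Ω) (N : Subgroup G)
    (hN : N = sSup {V : Subgroup G | V.Normal ∧ V ≠ ⊥ ∧ ∀ M : Subgroup G, M.Normal → M ≤ V → M = ⊥ ∨ M = V}) :
    (∃ p : ℕ, p.Prime ∧ IsMulCommutative N ∧ (∀ x : N, x ^ p = 1) ∧
      MulAction.IsPretransitive N Ω ∧ ∀ ω : Ω, MulAction.stabilizer N ω = ⊥) ∨
    (∃ (T : Type) (_ : Group T) (m : ℕ), 1 ≤ m ∧ IsSimpleGroup T ∧ ¬ IsMulCommutative T ∧ Nonempty (N ≃* (Fin m → T))) := by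
  classical
  have := hprim
  -- nontrivial normal subgroups are transitive
  have htrans : ∀ V : Subgroup G, V.Normal → V ≠ ⊥ → ∀ x y : Ω, ∃ v ∈ V, v • x = y := by
    intro V hVn hVbot
    have := hVn
    have hpt : MulAction.IsPretransitive V Ω := by
      apply MulAction.IsQuasiPreprimitive.isPretransitive_of_normal (G := G)
      intro hfix
      apply hVbot
      rw [eq_bot_iff]
      intro v hv
      rw [Subgroup.mem_bot]
      apply eq_one_of_fixes_all (Ω := Ω)
      intro x
      have hx : x ∈ MulAction.fixedPoints V Ω := by rw [hfix]; exact Set.mem_univ x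
      exact hx ⟨v, hv⟩
    intro x y
    obtain ⟨v, hv⟩ := MulAction.exists_smul_eq V x y
    exact ⟨v, v.2, hv⟩
  -- every nontrivial normal subgroup contains a minimal normal subgroup
  have hexmin : ∀ K : Subgroup G, K.Normal → K ≠ ⊥ →
      ∃ V : Subgroup G, (V.Normal ∧ V ≠ ⊥ ∧ ∀ M : Subgroup G, M.Normal → M ≤ V → M = ⊥ ∨ M = V)
        ∧ V ≤ K := by
    intro K hKn hKbot
    obtain ⟨V, ⟨hVn, hVbot, hVK⟩, hVmin⟩ := Set.exists_min_image
      {V : Subgroup G | V.Normal ∧ V ≠ ⊥ ∧ V ≤ K} (fun V => Nat.card V) (Set.toFinite _)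
      ⟨K, hKn, hKbot, le_refl K⟩
    refine ⟨V, ⟨hVn, hVbot, fun M hMn hMV => ?_⟩, hVK⟩
    by_cases hM : M = ⊥
    · exact Or.inl hM
    · right
      exact Subgroup.eq_of_le_of_card_ge hMV (hVmin M ⟨hMn, hM, hMV.trans hVK⟩)
  by_cases hG : ∃ V : Subgroup G,
      V.Normal ∧ V ≠ ⊥ ∧ ∀ M : Subgroup G, M.Normal → M ≤ V → M = ⊥ ∨ M = V
  swap
  · -- no minimal normal subgroup: `G` is trivial
    left
    have hNbot : N = ⊥ := by
      rw [hN, eq_bot_iff]
      apply sSup_le
      intro V hV
      exact absurd ⟨V, hV⟩ hG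
    have hGtriv : ∀ g : G, g = 1 := by
      intro g
      by_contra hg
      have htop : (⊤ : Subgroup G) ≠ ⊥ := by
        intro h
        have : g ∈ (⊥ : Subgroup G) := h ▸ Subgroup.mem_top g
        exact hg (Subgroup.mem_bot.mp this)
      obtain ⟨V, hV, -⟩ := hexmin ⊤ inferInstance htop
      exact hG ⟨V, hV⟩
    subst hNbot
    refine ⟨2, Nat.prime_two, ⟨⟨fun a b => ?_⟩⟩, fun x => ?_, ⟨fun x y => ?_⟩, fun ω => ?_⟩
    · exact Subtype.ext (by rw [hGtriv (a * b : (⊥ : Subgroup G)), hGtriv (b * a : (⊥ : Subgroup G))])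
    · exact Subtype.ext (by rw [hGtriv (x ^ 2 : (⊥ : Subgroup G))]; rfl)
    · obtain ⟨g, hg⟩ := MulAction.exists_smul_eq G x y
      refine ⟨1, ?_⟩
      rw [hGtriv g, one_smul] at hg
      rw [one_smul, hg]
    · rw [eq_bot_iff]
      intro x _
      rw [Subgroup.mem_bot]
      exact Subtype.ext (by rw [hGtriv (x : G)]; rfl)
  obtain ⟨V, hVn, hVbot, hVmin⟩ := hG
  have := hVn
  have hVtr := htrans V hVn hVbot
  -- a point of Ω
  obtain ⟨a⟩ : Nonempty Ω := by
    by_contra hempty
    rw [not_nonempty_iff] at hempty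
    apply hVbot
    rw [eq_bot_iff]
    intro v _
    rw [Subgroup.mem_bot]
    exact eq_one_of_fixes_all (Ω := Ω) v (fun x => (hempty.false x).elim)
  obtain ⟨T, _, m, hTs, hm, ⟨e⟩⟩ := Cfsg.Agent.Lib.Helper61.minNormal_iso_pi V hVbot hVmin
  -- commutativity of `V` versus commutativity of `T`
  have hVcomm_of_T : IsMulCommutative T → ∀ x y : V, x * y = y * x := by
    intro hT x y
    apply e.injective
    rw [map_mul, map_mul]
    funext i
    exact mul_comm' _ _
  have hT_of_Vcomm : (∀ x y : V, x * y = y * x) → IsMulCommutative T := by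
    intro h
    refine ⟨⟨fun s t => ?_⟩⟩
    let i₀ : Fin m := ⟨0, hm⟩
    have h1 := h (e.symm (Pi.mulSingle i₀ s)) (e.symm (Pi.mulSingle i₀ t))
    rw [← map_mul, ← map_mul] at h1
    have h2 := congrFun (e.symm.injective h1) i₀
    simpa using h2
  by_cases hW : ∃ W : Subgroup G,
      (W.Normal ∧ W ≠ ⊥ ∧ ∀ M : Subgroup G, M.Normal → M ≤ W → M = ⊥ ∨ M = W) ∧ W ≠ V
  swap
  · -- `V` is the unique minimal normal subgroup
    have hNV : N = V := by
      rw [hN]
      apply le_antisymm
      · apply sSup_le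
        intro X hX
        by_contra hXV
        exact hW ⟨X, hX, fun h => hXV (h ▸ le_refl V)⟩
      · exact le_sSup ⟨hVn, hVbot, hVmin⟩
    subst hNV
    by_cases hTc : IsMulCommutative T
    · left
      have hcomm := hVcomm_of_T hTc
      have hp : (Nat.card T).Prime := by
        let _ : CommGroup T := { (inferInstance : Group T) with mul_comm := fun a b => mul_comm' a b }
        exact IsSimpleGroup.prime_card
      refine ⟨Nat.card T, hp, ⟨⟨hcomm⟩⟩, fun x => ?_, ⟨fun x y => ?_⟩, fun ω => ?_⟩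
      · apply e.injective
        rw [map_pow, map_one]
        funext i
        exact pow_card_eq_one'
      · obtain ⟨v, hv, h⟩ := hVtr x y
        exact ⟨⟨v, hv⟩, h⟩
      · rw [eq_bot_iff]
        intro v hv
        rw [Subgroup.mem_bot]
        apply Subtype.ext
        apply eq_one_of_centralizes N hVtr (v : G) _ ω hv
        intro u hu
        exact congrArg Subtype.val (hcomm v ⟨u, hu⟩)
    · right
      exact ⟨T, inferInstance, m, hm, hTs, hTc, ⟨e⟩⟩
  · -- two distinct minimal normal subgroups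
    right
    obtain ⟨W, ⟨hWn, hWbot, hWmin⟩, hWV⟩ := hW
    have := hWn
    have hWtr := htrans W hWn hWbot
    have hdisj_of : ∀ X Y : Subgroup G, X.Normal → Y.Normal →
        (∀ M : Subgroup G, M.Normal → M ≤ X → M = ⊥ ∨ M = X) →
        (∀ M : Subgroup G, M.Normal → M ≤ Y → M = ⊥ ∨ M = Y) → X ≠ ⊥ → X ≠ Y → Disjoint X Y := by
      intro X Y hXn hYn hXmin hYmin hXbot hXY
      have := hXn
      have := hYn
      rw [disjoint_iff]
      rcases hXmin (X ⊓ Y) (Subgroup.normal_inf_normal X Y) inf_le_left with h | h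
      · exact h
      · exfalso
        have hle : X ≤ Y := h ▸ inf_le_right
        rcases hYmin X hXn hle with h1 | h1
        · exact hXbot h1
        · exact hXY h1
    have hVWdisj : Disjoint V W := hdisj_of V W hVn hWn hVmin hWmin hVbot (Ne.symm hWV)
    have hcVW : ∀ v ∈ V, ∀ w ∈ W, Commute v w :=
      fun v hv w hw => Subgroup.commute_of_normal_of_disjoint V W hVn hWn hVWdisj v w hv hw
    -- anything centralizing `V` lies in `W`
    have hcent : ∀ x : G, (∀ v ∈ V, Commute x v) → x ∈ W := by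
      intro x hx
      obtain ⟨w, hw, h⟩ := hWtr a (x • a)
      have h1 : w⁻¹ * x = 1 := by
        apply eq_one_of_centralizes V hVtr (w⁻¹ * x) _ a
        · rw [mul_smul, ← h, inv_smul_smul]
        · intro v hv
          exact ((hcVW v hv w hw).symm.inv_left).mul_left (hx v hv)
      rw [inv_mul_eq_one] at h1
      rw [← h1]
      exact hw
    -- `V` is not commutative
    have hVnc : ¬ ∀ x y : V, x * y = y * x := by
      intro hcomm
      have hle : V ≤ W := by
        intro v hv
        apply hcent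
        intro u hu
        exact congrArg Subtype.val (hcomm ⟨v, hv⟩ ⟨u, hu⟩)
      rcases hWmin V hVn hle with h1 | h1
      · exact hVbot h1
      · exact hWV h1.symm
    have hTnc : ¬ IsMulCommutative T := fun h => hVnc (hVcomm_of_T h)
    -- the socle is `V ⊔ W`
    have hNVW : N = V ⊔ W := by
      rw [hN]
      apply le_antisymm
      · apply sSup_le
        rintro X ⟨hXn, hXbot, hXmin⟩
        by_cases hXV : X = V
        · rw [hXV]; exact le_sup_left
        · have hXVdisj : Disjoint X V := hdisj_of X V hXn hVn hXmin hVmin hXbot hXV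
          have hXW : X ≤ W := by
            intro x hx
            apply hcent
            intro v hv
            exact Subgroup.commute_of_normal_of_disjoint X V hXn hVn hXVdisj x v hx hv
          exact hXW.trans le_sup_right
      · exact sup_le (le_sSup ⟨hVn, hVbot, hVmin⟩) (le_sSup ⟨hWn, hWbot, hWmin⟩)
    obtain ⟨eVW⟩ := nonempty_mulEquiv_of_centralize V W hVtr hWtr hcVW a
    -- `V ⊔ W ≃* V × W`
    have hcomm' : ∀ (v : V) (w : W), Commute (V.subtype v) (W.subtype w) :=
      fun v w => hcVW v v.2 w w.2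
    let f : V × W →* G := MonoidHom.noncommCoprod V.subtype W.subtype hcomm'
    have hf : Function.Injective f := by
      rw [MonoidHom.noncommCoprod_injective]
      refine ⟨V.subtype_injective, W.subtype_injective, ?_⟩
      rw [Subgroup.range_subtype, Subgroup.range_subtype]
      exact hVWdisj
    have hrange : f.range = N := by
      rw [hNVW, MonoidHom.noncommCoprod_range, Subgroup.range_subtype, Subgroup.range_subtype]
    have e1 : V × W ≃* N := (MonoidHom.ofInjective hf).trans (MulEquiv.subgroupCongr hrange)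
    have e2 : V × W ≃* (Fin (m + m) → T) :=
      (MulEquiv.prodCongr e (eVW.symm.trans e)).trans (appendMulEquiv T m m)
    exact ⟨T, inferInstance, m + m, by omega, hTs, hTnc, ⟨e1.symm.trans e2⟩⟩

end Cfsg.Agent.S3680
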