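import Mathlib
import Cfsg.Statements.S3681

set_option autoImplicit false
open Cfsg

namespace Cfsg.Agent.S3681

/-- The commutator of two permutations whose supports meet in exactly one point is a 3-cycle. -/
theorem isThreeCycle_comm {Ω : Type*} [Fintype Ω] [DecidableEq Ω] (x y : Equiv.Perm Ω) (α : Ω)
    (hxα : x α ≠ α) (hyα : y α ≠ α) (hxy : ∀ z, x z ≠ z → y z ≠ z → z = α) :
    (x⁻¹ * y⁻¹ * x * y).IsThreeCycle := by
  rw [← card_support_eq_three_iff]
  have key : ∀ z, (x⁻¹ * y⁻¹ * x * y) z = z ↔ x (y z) = y (x z) := by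
    intro z
    simp only [Equiv.Perm.mul_apply]
    rw [Equiv.Perm.inv_eq_iff_eq, Equiv.Perm.inv_eq_iff_eq]
  have hx1 : x⁻¹ α ≠ α := by
    intro h
    rw [Equiv.Perm.inv_eq_iff_eq] at h
    exact hxα h.symm
  have hy1 : y⁻¹ α ≠ α := by
    intro h
    rw [Equiv.Perm.inv_eq_iff_eq] at h
    exact hyα h.symm
  -- a point moved by x, other than α, is fixed by y
  have hxfix : ∀ z, x z ≠ z → z ≠ α → y z = z := by
    intro z hz hne
    by_contra h
    exact hne (hxy z hz h)
  have hyfix : ∀ z, y z ≠ z → z ≠ α → x z = z := by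
    intro z hz hne
    by_contra h
    exact hne (hxy z h hz)
  have hxx : ∀ z, x z ≠ z → x (x z) ≠ x z := fun z hz h => hz (x.injective h)
  have hyy : ∀ z, y z ≠ z → y (y z) ≠ y z := fun z hz h => hz (y.injective h)
  have hxinv : x (x⁻¹ α) = α := by simp
  have hyinv : y (y⁻¹ α) = α := by simp
  have hx1m : x (x⁻¹ α) ≠ x⁻¹ α := by rw [hxinv]; exact fun h => hx1 h.symm
  have hy1m : y (y⁻¹ α) ≠ y⁻¹ α := by rw [hyinv]; exact fun h => hy1 h.symm
  have hne12 : x⁻¹ α ≠ y⁻¹ α := by
    intro h
    have : y (x⁻¹ α) = x⁻¹ α := hxfix _ hx1m hx1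
    rw [h] at this
    exact hy1m this
  have hsupp : (x⁻¹ * y⁻¹ * x * y).support = {α, x⁻¹ α, y⁻¹ α} := by
    ext z
    rw [Equiv.Perm.mem_support, Ne, key]
    simp only [Finset.mem_insert, Finset.mem_singleton]
    constructor
    · intro hz
      by_contra hcon
      push Not at hcon
      obtain ⟨h1, h2, h3⟩ := hcon
      apply hz
      by_cases hxz : x z = z
      · by_cases hyz : y z = z
        · rw [hyz, hxz, hyz]
        · rw [hxz]
          apply hyfix _ (hyy z hyz)
          intro h
          apply h3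
          rw [Equiv.Perm.eq_inv_iff_eq]
          exact h
      · have hyz : y z = z := hxfix z hxz h1
        rw [hyz]
        symm
        apply hxfix _ (hxx z hxz)
        intro h
        apply h2
        rw [Equiv.Perm.eq_inv_iff_eq]
        exact h
    · rintro (rfl | rfl | rfl)
      · -- z = α
        have h1 : x (y z) = y z := hyfix _ (hyy z hyα) hyα
        have h2 : y (x z) = x z := hxfix _ (hxx z hxα) hxα
        rw [h1, h2]
        intro h
        have : x (y z) ≠ y z := by
          rw [h]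
          exact hxx z hxα
        exact this h1
      · have h1 : y (x⁻¹ α) = x⁻¹ α := hxfix _ hx1m hx1
        rw [h1, hxinv]
        exact fun h => hyα h.symm
      · have h1 : x (y⁻¹ α) = y⁻¹ α := hyfix _ hy1m hy1
        rw [h1, hyinv]
        exact hxα
  rw [hsupp, Finset.card_eq_three]
  exact ⟨α, x⁻¹ α, y⁻¹ α, fun h => hx1 h.symm, fun h => hy1 h.symm, hne12, rfl⟩

/-- Bochert's bound for a primitive subgroup of the symmetric group. -/
theorem bochert_perm {Ω : Type*} [Fintype Ω] [DecidableEq Ω] (P : Subgroup (Equiv.Perm Ω))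
    (hprim : MulAction.IsPreprimitive P Ω) (hA : ¬ alternatingGroup Ω ≤ P) :
    Nat.card P * Nat.factorial ((Fintype.card Ω + 1) / 2) ≤ Nat.factorial (Fintype.card Ω) := by
  classical
  let IsBase : Finset Ω → Prop := fun Δ => ∀ g ∈ P, (∀ z ∈ Δ, g z = z) → g = 1
  have huniv : IsBase Finset.univ := by
    intro g _ hg
    ext z
    simpa using hg z (Finset.mem_univ z)
  obtain ⟨Δ, hΔ, hmin⟩ : ∃ Δ, IsBase Δ ∧ ∀ Δ', IsBase Δ' → Δ.card ≤ Δ'.card := by
    obtain ⟨Δ, hΔ, hmin⟩ := Finset.exists_min_image (Finset.univ.filter IsBase) Finset.card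
      ⟨Finset.univ, by simpa using huniv⟩
    refine ⟨Δ, by simpa using hΔ, fun Δ' h' => hmin Δ' (by simpa using h')⟩
  by_cases hcase : 2 * Δ.card ≤ Fintype.card Ω
  · -- the complement of Δ supports a symmetric group meeting P trivially
    let f : P × Equiv.Perm {z // z ∉ Δ} → Equiv.Perm Ω :=
      fun q => (q.1 : Equiv.Perm Ω) * Equiv.Perm.ofSubtype q.2
    have hf : Function.Injective f := by
      rintro ⟨g₁, σ₁⟩ ⟨g₂, σ₂⟩ h
      simp only [f] at h
      have h1 : (g₂ : Equiv.Perm Ω)⁻¹ * g₁ = Equiv.Perm.ofSubtype (σ₂ * σ₁⁻¹) := by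
        rw [map_mul, map_inv, eq_mul_inv_iff_mul_eq, mul_assoc, h, inv_mul_cancel_left]
      have h2 : (g₂ : Equiv.Perm Ω)⁻¹ * g₁ = 1 := by
        apply hΔ _ (P.mul_mem (P.inv_mem g₂.2) g₁.2)
        intro z hz
        rw [h1]
        exact Equiv.Perm.ofSubtype_apply_of_not_mem _ (fun hn => hn hz)
      have h3 : (g₁ : Equiv.Perm Ω) = g₂ := by
        rw [inv_mul_eq_one] at h2
        exact h2.symm
      have h4 : σ₁ = σ₂ := by
        apply Equiv.Perm.ofSubtype_injective
        rw [h3] at h
        exact mul_left_cancel h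
      exact Prod.ext (Subtype.ext h3) h4
    have hcard := Nat.card_le_card_of_injective f hf
    rw [Nat.card_prod, Nat.card_perm, Nat.card_perm, Nat.card_eq_fintype_card (α := Ω),
      Nat.card_eq_fintype_card (α := {z // z ∉ Δ})] at hcard
    have hsub : Fintype.card {z // z ∉ Δ} = Fintype.card Ω - Δ.card := by
      rw [Fintype.card_subtype_compl, Fintype.card_coe]
    rw [hsub] at hcard
    refine le_trans (Nat.mul_le_mul_left _ (Nat.factorial_le ?_)) hcard
    omega
  · exfalso
    apply hA
    have hnotbase : ∀ Δ' : Finset Ω, Δ'.card < Δ.card → ∃ g ∈ P, (∀ z ∈ Δ', g z = z) ∧ g ≠ 1 := by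
      intro Δ' hlt
      by_contra hcon
      push Not at hcon
      have : IsBase Δ' := fun g hg hfix => hcon g hg hfix
      exact absurd (hmin Δ' this) (not_le.mpr hlt)
    have hc : (Δᶜ).card < Δ.card := by
      rw [Finset.card_compl]
      omega
    obtain ⟨x, hxP, hxfix, hx1⟩ := hnotbase Δᶜ hc
    obtain ⟨α, hα⟩ : ∃ α, x α ≠ α := by
      by_contra hcon
      push Not at hcon
      exact hx1 (Equiv.Perm.ext hcon)
    have hαΔ : α ∈ Δ := by
      by_contra h
      exact hα (hxfix α (Finset.mem_compl.mpr h))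
    obtain ⟨y, hyP, hyfix, hy1⟩ := hnotbase (Δ.erase α) (Finset.card_erase_lt_of_mem hαΔ)
    have hyα : y α ≠ α := by
      intro h
      apply hy1
      apply hΔ y hyP
      intro z hz
      by_cases hzα : z = α
      · rw [hzα]; exact h
      · exact hyfix z (Finset.mem_erase.mpr ⟨hzα, hz⟩)
    have hxy : ∀ z, x z ≠ z → y z ≠ z → z = α := by
      intro z hxz hyz
      by_contra hzα
      have hzΔ : z ∈ Δ := by
        by_contra h
        exact hxz (hxfix z (Finset.mem_compl.mpr h))
      exact hyz (hyfix z (Finset.mem_erase.mpr ⟨hzα, hzΔ⟩))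
    have h3 := isThreeCycle_comm x y α hα hyα hxy
    have hmem : x⁻¹ * y⁻¹ * x * y ∈ P :=
      P.mul_mem (P.mul_mem (P.mul_mem (P.inv_mem hxP) (P.inv_mem hyP)) hxP) hyP
    exact Equiv.Perm.alternatingGroup_le_of_isPreprimitive_of_isThreeCycle_mem hprim h3 hmem

/-- Bochert's bound for primitive groups. Let a finite group G act faithfully and primitively on a finite set Ω with n elements, and suppose the image of G in the symmetric group of Ω does not contain the alternating group of Ω. Then |G| · ⌊(n + 1)/2⌋! ≤ n!, that is, the index of G in the symmetric group is at least ⌊(n + 1)/2⌋!. -/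
theorem result {G Ω : Type*} [Group G] [Finite G] [MulAction G Ω] [FaithfulSMul G Ω] [Fintype Ω] [DecidableEq Ω]
    (hprim : MulAction.IsPreprimitive G Ω) (hA : ¬ alternatingGroup Ω ≤ (MulAction.toPermHom G Ω).range) :
    Nat.card G * Nat.factorial ((Fintype.card Ω + 1) / 2) ≤ Nat.factorial (Fintype.card Ω) := by
  have hinj : Function.Injective (MulAction.toPermHom G Ω) := MulAction.toPerm_injective
  have hcard : Nat.card G = Nat.card (MulAction.toPermHom G Ω).range :=
    Nat.card_congr (MonoidHom.ofInjective hinj).toEquiv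
  rw [hcard]
  apply bochert_perm _ _ hA
  let φ : G → (MulAction.toPermHom G Ω).range := fun g => ⟨MulAction.toPermHom G Ω g, ⟨g, rfl⟩⟩
  let f : Ω →ₑ[φ] Ω := ⟨id, fun g z => rfl⟩
  have := hprim
  exact MulAction.IsPreprimitive.of_surjective (f := f) Function.surjective_id

end Cfsg.Agent.S3681
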