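import Mathlib
import Cfsg.Statements.S3683

set_option autoImplicit false
open Cfsg

namespace Cfsg.Agent.S3683

/-- Let a finite group G act faithfully and primitively on a set Ω, and suppose the stabilizer of a point a fixes a second point b ≠ a (a suborbit of length 1 other than {a}). Then the stabilizer of a is trivial and G is cyclic of prime order. -/
theorem result {G Ω : Type*} [Group G] [Finite G] [MulAction G Ω] [FaithfulSMul G Ω] [Finite Ω]
    (hprim : MulAction.IsPreprimitive G Ω) (a b : Ω) (hab : a ≠ b) (hfix : ∀ g : G, g • a = a → g • b = b) :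
    MulAction.stabilizer G a = ⊥ ∧ IsCyclic G ∧ (Nat.card G).Prime := by
  have : Nontrivial Ω := ⟨a, b, hab⟩
  have := hprim
  have : MulAction.IsPretransitive G Ω := hprim.toIsPretransitive
  have hmax : IsCoatom (MulAction.stabilizer G a) :=
    MulAction.IsPreprimitive.isCoatom_stabilizer_of_isPreprimitive G a
  have hmaxb : IsCoatom (MulAction.stabilizer G b) :=
    MulAction.IsPreprimitive.isCoatom_stabilizer_of_isPreprimitive G b
  have hle : MulAction.stabilizer G a ≤ MulAction.stabilizer G b := fun g hg => hfix g hg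
  have heq : MulAction.stabilizer G a = MulAction.stabilizer G b := by
    rcases eq_or_lt_of_le hle with h | h
    · exact h
    · exact absurd (hmax.2 _ h) hmaxb.1
  obtain ⟨g, hg⟩ := MulAction.exists_smul_eq G a b
  have hmem : ∀ h : G, h ∈ MulAction.stabilizer G a ↔ h • b = b := by
    intro h
    rw [heq]
    exact MulAction.mem_stabilizer_iff
  have hgn : g ∈ Subgroup.normalizer (MulAction.stabilizer G a : Set G) := by
    rw [Subgroup.mem_normalizer_iff]
    intro h
    constructor
    · intro hh
      rw [hmem, ← hg, mul_smul, mul_smul, inv_smul_smul]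
      rw [MulAction.mem_stabilizer_iff] at hh
      rw [hh]
    · intro hh
      rw [hmem, ← hg, mul_smul, mul_smul, inv_smul_smul] at hh
      rw [MulAction.mem_stabilizer_iff]
      exact smul_left_cancel g hh
  have hgs : g ∉ MulAction.stabilizer G a := by
    intro hh
    rw [MulAction.mem_stabilizer_iff] at hh
    exact hab (hh.symm.trans hg)
  have hnormalizer : Subgroup.normalizer (MulAction.stabilizer G a : Set G) = ⊤ := by
    apply hmax.2
    exact lt_of_le_of_ne Subgroup.le_normalizer (fun h => hgs (h ▸ hgn))
  have hnormal : (MulAction.stabilizer G a).Normal := Subgroup.normalizer_eq_top_iff.mp hnormalizer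
  have hbot : MulAction.stabilizer G a = ⊥ := by
    rw [eq_bot_iff]
    intro h hh
    rw [Subgroup.mem_bot]
    apply FaithfulSMul.eq_of_smul_eq_smul (α := Ω)
    intro c
    obtain ⟨x, hx⟩ := MulAction.exists_smul_eq G a c
    have h1 : x⁻¹ * h * x ∈ MulAction.stabilizer G a := by
      have := hnormal.conj_mem h hh x⁻¹
      simpa using this
    rw [MulAction.mem_stabilizer_iff, mul_smul, mul_smul, hx] at h1
    rw [one_smul]
    have := congrArg (fun y => x • y) h1
    simpa [hx] using this
  refine ⟨hbot, ?_⟩
  rw [hbot] at hmax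
  have hne : (⊥ : Subgroup G) ≠ ⊤ := hmax.1
  have hcard : Nat.card G ≠ 1 := by
    intro h1
    apply hne
    have : Subsingleton G := (Nat.card_eq_one_iff_unique.mp h1).1
    exact Subsingleton.elim _ _
  have hp : (Nat.card G).minFac.Prime := Nat.minFac_prime hcard
  have : Fact (Nat.card G).minFac.Prime := ⟨hp⟩
  obtain ⟨y, hy⟩ := exists_prime_orderOf_dvd_card' (G := G) (Nat.card G).minFac (Nat.minFac_dvd _)
  have hy1 : Subgroup.zpowers y ≠ ⊥ := by
    intro h
    rw [Subgroup.zpowers_eq_bot] at h
    rw [h, orderOf_one] at hy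
    exact hp.one_lt.ne hy
  have hytop : Subgroup.zpowers y = ⊤ := hmax.2 _ (bot_lt_iff_ne_bot.mpr hy1)
  refine ⟨isCyclic_iff_exists_zpowers_eq_top.mpr ⟨y, hytop⟩, ?_⟩
  have : Nat.card G = (Nat.card G).minFac := by
    rw [← hy, ← Nat.card_zpowers, hytop, Subgroup.card_top]
  rw [this]
  exact hp

end Cfsg.Agent.S3683
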