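import Mathlib
import Cfsg.Statements.S3684

set_option autoImplicit false
open Cfsg

namespace Cfsg.Agent.S3684

section Aux

variable {G Ω : Type*} [Group G] [Finite G] [MulAction G Ω] [FaithfulSMul G Ω]

omit [Finite G] in
/-- A normal subgroup contained in a point stabilizer of a transitive faithful action is trivial. -/
theorem normal_le_stabilizer_eq_bot [MulAction.IsPretransitive G Ω] (T : Subgroup G) (hT : T.Normal)
    (a : Ω) (hTa : T ≤ MulAction.stabilizer G a) : T = ⊥ := by
  rw [eq_bot_iff]
  intro h hh
  rw [Subgroup.mem_bot]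
  apply FaithfulSMul.eq_of_smul_eq_smul (α := Ω)
  intro c
  obtain ⟨x, hx⟩ := MulAction.exists_smul_eq G a c
  have h1 : x⁻¹ * h * x ∈ MulAction.stabilizer G a := by
    apply hTa
    have := hT.conj_mem h hh x⁻¹
    simpa using this
  rw [MulAction.mem_stabilizer_iff, mul_smul, mul_smul, hx] at h1
  rw [one_smul]
  have := congrArg (fun y => x • y) h1
  simpa [hx] using this

/-- The stabilizer of a point with a suborbit of length 2 in a primitive group has order 2. -/
theorem card_stabilizer_eq_two [Finite Ω] (hprim : MulAction.IsPreprimitive G Ω) (a b : Ω)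
    (h2 : Nat.card (MulAction.orbit (MulAction.stabilizer G a) b) = 2) :
    Nat.card (MulAction.stabilizer G a) = 2 := by
  have := hprim
  have : MulAction.IsPretransitive G Ω := hprim.toIsPretransitive
  have h2' : (MulAction.orbit (MulAction.stabilizer G a) b).ncard = 2 := by
    rw [← Nat.card_coe_set_eq]; exact h2
  obtain ⟨x, y, hxy, -⟩ := Set.ncard_eq_two.mp h2'
  have : Nontrivial Ω := ⟨x, y, hxy⟩
  set H := MulAction.stabilizer G a with hH
  set K := MulAction.stabilizer G b with hK
  have hmax : IsCoatom H := MulAction.IsPreprimitive.isCoatom_stabilizer_of_isPreprimitive G a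
  -- the stabilizer of `b` in `H`
  have hS₁ : MulAction.stabilizer H b = K.subgroupOf H := by
    ext h
    simp [Subgroup.mem_subgroupOf, hK, MulAction.mem_stabilizer_iff, Subgroup.smul_def]
  have hS₂ : MulAction.stabilizer K a = H.subgroupOf K := by
    ext h
    simp [Subgroup.mem_subgroupOf, hH, MulAction.mem_stabilizer_iff, Subgroup.smul_def]
  have hidx₁ : (K.subgroupOf H).index = 2 := by
    rw [← hS₁, MulAction.index_stabilizer]; exact h2'
  -- `H` and `K` have the same order
  have hcardHK : Nat.card H = Nat.card K := by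
    obtain ⟨g, hg⟩ := MulAction.exists_smul_eq G a b
    have : K = H.map (MulEquiv.toMonoidHom (MulAut.conj g)) := by
      rw [hK, ← hg, MulAction.stabilizer_smul_eq_stabilizer_map_conj]
    rw [this, Subgroup.card_map_of_injective (MulAut.conj g).injective]
  have hcard₁ : Nat.card (K.subgroupOf H) = Nat.card (H ⊓ K : Subgroup G) := by
    rw [← Subgroup.inf_subgroupOf_left]
    exact Nat.card_congr (Subgroup.subgroupOfEquivOfLe inf_le_left).toEquiv
  have hcard₂ : Nat.card (H.subgroupOf K) = Nat.card (H ⊓ K : Subgroup G) := by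
    rw [← Subgroup.inf_subgroupOf_right]
    exact Nat.card_congr (Subgroup.subgroupOfEquivOfLe inf_le_right).toEquiv
  have hidx₂ : (H.subgroupOf K).index = 2 := by
    have e1 := Subgroup.index_mul_card (K.subgroupOf H)
    have e2 := Subgroup.index_mul_card (H.subgroupOf K)
    rw [hidx₁, hcard₁] at e1
    rw [hcard₂, ← hcardHK, ← e1] at e2
    have hpos : 0 < Nat.card (H ⊓ K : Subgroup G) := Nat.card_pos
    exact Nat.eq_of_mul_eq_mul_right hpos e2
  have hn₁ : (K.subgroupOf H).Normal := Subgroup.normal_of_index_eq_two hidx₁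
  have hn₂ : (H.subgroupOf K).Normal := Subgroup.normal_of_index_eq_two hidx₂
  have hn₁' : ((H ⊓ K).subgroupOf H).Normal := by rwa [Subgroup.inf_subgroupOf_left]
  have hn₂' : ((H ⊓ K).subgroupOf K).Normal := by rwa [Subgroup.inf_subgroupOf_right]
  have hHle : H ≤ Subgroup.normalizer ((H ⊓ K : Subgroup G) : Set G) :=
    Subgroup.le_normalizer_of_normal_subgroupOf inf_le_left
  have hKle : K ≤ Subgroup.normalizer ((H ⊓ K : Subgroup G) : Set G) :=
    Subgroup.le_normalizer_of_normal_subgroupOf inf_le_right
  -- `K` is not contained in `H`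
  have hKH : ¬ K ≤ H := by
    intro hle
    have hidx : (K.subgroupOf H).index = 1 := by
      have : K.subgroupOf H = ⊤ := by
        have hKeq : K = H := Subgroup.eq_of_le_of_card_ge hle (le_of_eq hcardHK)
        rw [hKeq]; exact Subgroup.subgroupOf_self H
      rw [this, Subgroup.index_top]
    omega
  have htop : Subgroup.normalizer ((H ⊓ K : Subgroup G) : Set G) = ⊤ := by
    apply hmax.2
    apply lt_of_le_of_ne hHle
    intro h
    exact hKH (h ▸ hKle)
  have hnorm : (H ⊓ K : Subgroup G).Normal := Subgroup.normalizer_eq_top_iff.mp htop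
  have hbot : (H ⊓ K : Subgroup G) = ⊥ := normal_le_stabilizer_eq_bot _ hnorm a inf_le_left
  have e1 := Subgroup.index_mul_card (K.subgroupOf H)
  rw [hidx₁, hcard₁, hbot, Subgroup.card_bot] at e1
  omega

/-- A primitive group whose point stabilizers have order 2 is dihedral of order `2p`. -/
theorem exists_dihedral [Finite Ω] (hprim : MulAction.IsPreprimitive G Ω) (a : Ω)
    (hcard : Nat.card (MulAction.stabilizer G a) = 2) (hnt : Nontrivial Ω) :
    ∃ p : ℕ, p.Prime ∧ Nonempty (G ≃* DihedralGroup p) := by
  classical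
  have := hprim
  have : MulAction.IsPretransitive G Ω := hprim.toIsPretransitive
  have : Fact (Nat.Prime 2) := ⟨Nat.prime_two⟩
  set H := MulAction.stabilizer G a with hH
  have hmax : IsCoatom H := MulAction.IsPreprimitive.isCoatom_stabilizer_of_isPreprimitive G a
  -- `H` is not normal and is self-normalizing
  have hnotnormal : ¬ H.Normal := by
    intro hn
    have := normal_le_stabilizer_eq_bot H hn a (le_refl _)
    rw [this, Subgroup.card_bot] at hcard
    omega
  have hNH : Subgroup.normalizer (H : Set G) = H := by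
    by_contra hne
    have hlt : H < Subgroup.normalizer (H : Set G) :=
      lt_of_le_of_ne Subgroup.le_normalizer (Ne.symm hne)
    exact hnotnormal (Subgroup.normalizer_eq_top_iff.mp (hmax.2 _ hlt))
  -- the elements of `H`
  obtain ⟨t, htH, ht1, hHelts⟩ : ∃ t ∈ H, t ≠ 1 ∧ ∀ x ∈ H, x = 1 ∨ x = t := by
    obtain ⟨u, v, huv, huniv⟩ := Nat.card_eq_two_iff.mp hcard
    have hmem : ∀ z : H, z = u ∨ z = v := by
      intro z
      have : z ∈ ({u, v} : Set H) := by rw [huniv]; exact Set.mem_univ z
      simpa using this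
    by_cases hu : u = 1
    · refine ⟨v, v.2, ?_, ?_⟩
      · intro h
        apply huv
        rw [hu]
        exact Subtype.ext h.symm
      · intro x hx
        rcases hmem ⟨x, hx⟩ with h | h
        · left
          have := congrArg Subtype.val h
          rw [hu] at this
          exact this
        · right
          exact congrArg Subtype.val h
    · refine ⟨u, u.2, ?_, ?_⟩
      · intro h
        exact hu (Subtype.ext h)
      · intro x hx
        rcases hmem ⟨x, hx⟩ with h | h
        · right
          exact congrArg Subtype.val h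
        · left
          rcases hmem 1 with h1 | h1
          · exact absurd h1.symm hu
          · have := congrArg Subtype.val (h.trans h1.symm)
            exact this
  have htt : t * t = 1 := by
    rcases hHelts (t * t) (H.mul_mem htH htH) with h | h
    · exact h
    · exfalso
      apply ht1
      have : t * t = t * 1 := by rw [mul_one]; exact h
      exact mul_left_cancel this
  have htinv : t⁻¹ = t := inv_eq_of_mul_eq_one_left htt
  -- the fixed points of `H`
  have hfix : ∀ c : Ω, (∀ h ∈ H, h • c = c) → c = a := by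
    intro c hc
    obtain ⟨g, hg⟩ := MulAction.exists_smul_eq G a c
    have hgN : g ∈ Subgroup.normalizer (H : Set G) := by
      rw [Subgroup.mem_normalizer_iff]
      have key : ∀ h ∈ H, g⁻¹ * h * g ∈ H := by
        intro h hh
        rw [hH, MulAction.mem_stabilizer_iff, mul_smul, mul_smul, hg, hc h hh, ← hg,
          inv_smul_smul]
      have hinj : Function.Injective (fun h : H => (⟨g⁻¹ * h * g, key h h.2⟩ : H)) := by
        intro h h' hh
        have := congrArg Subtype.val hh
        simp only [mul_left_inj, mul_right_inj] at this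
        exact Subtype.ext this
      have hsurj := Finite.injective_iff_surjective.mp hinj
      intro h
      constructor
      · intro hh
        obtain ⟨h', hh'⟩ := hsurj ⟨h, hh⟩
        have := congrArg Subtype.val hh'
        simp only at this
        rw [← this]
        have : g * (g⁻¹ * ↑h' * g) * g⁻¹ = (h' : G) := by group
        rw [this]
        exact h'.2
      · intro hh
        have := key _ hh
        have e : g⁻¹ * (g * h * g⁻¹) * g = h := by group
        rwa [e] at this
    rw [hNH, hH, MulAction.mem_stabilizer_iff] at hgN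
    rw [← hg, hgN]
  have hfixcard : Nat.card (MulAction.fixedPoints H Ω) = 1 := by
    rw [Nat.card_eq_one_iff_unique]
    refine ⟨⟨fun x y => ?_⟩, ⟨⟨a, ?_⟩⟩⟩
    · apply Subtype.ext
      have hx := hfix x.1 (fun h hh => x.2 ⟨h, hh⟩)
      have hy := hfix y.1 (fun h hh => y.2 ⟨h, hh⟩)
      rw [hx, hy]
    · intro h
      exact h.2
  have hHp : IsPGroup 2 H := IsPGroup.of_card (n := 1) (by rw [hcard, pow_one])
  have hodd : Nat.card Ω % 2 = 1 := by
    have := hHp.card_modEq_card_fixedPoints Ω
    rw [hfixcard] at this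
    exact this
  have hcardG : Nat.card G = Nat.card Ω * 2 := by
    rw [← Subgroup.index_mul_card H, hcard, hH, MulAction.index_stabilizer_of_transitive]
  -- `H` is a Sylow 2-subgroup
  obtain ⟨P, hHP⟩ := hHp.exists_le_sylow
  have hPH : (P : Subgroup G) = H := by
    symm
    apply Subgroup.eq_of_le_of_card_ge hHP
    obtain ⟨k, hk⟩ := (IsPGroup.iff_card.mp P.2)
    have hdvd : Nat.card (P : Subgroup G) ∣ Nat.card G := Subgroup.card_subgroup_dvd_card _
    rw [hk, hcardG] at hdvd
    have hk1 : k ≤ 1 := by
      by_contra hk2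
      have h4 : 2 ^ 2 ∣ 2 ^ k := pow_dvd_pow 2 (by omega)
      have := h4.trans hdvd
      omega
    rw [hk, hcard]
    calc 2 ^ k ≤ 2 ^ 1 := Nat.pow_le_pow_right (by norm_num) hk1
      _ = 2 := by norm_num
  have hPnorm : Subgroup.normalizer ((P : Subgroup G) : Set G) ≤
      Subgroup.centralizer ((P : Subgroup G) : Set G) := by
    rw [hPH, hNH]
    intro g hg
    rw [Subgroup.mem_centralizer_iff]
    intro h hh
    rcases hHelts g hg with rfl | rfl <;> rcases hHelts h hh with rfl | rfl <;> simp
  have hcompl := MonoidHom.ker_transferSylow_isComplement' P hPnorm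
  set M := (MonoidHom.transferSylow P hPnorm).ker with hM
  have hMn : M.Normal := by rw [hM]; infer_instance
  rw [hPH] at hcompl
  have hMH : M ⊓ H = ⊥ := disjoint_iff.mp hcompl.disjoint
  have hcardM : Nat.card M = Nat.card Ω := by
    have := hcompl.card_mul_card
    rw [hcard, hcardG] at this
    exact Nat.eq_of_mul_eq_mul_right (by norm_num) this
  -- `t` centralizes nothing in `M`
  have hcent : ∀ u ∈ M, u * t = t * u → u = 1 := by
    intro u hu hut
    have huN : u ∈ Subgroup.normalizer (H : Set G) := by
      rw [Subgroup.mem_normalizer_iff]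
      have key : ∀ h ∈ H, u * h * u⁻¹ = h := by
        intro h hh
        rcases hHelts h hh with rfl | rfl
        · simp
        · rw [hut, mul_assoc, mul_inv_cancel, mul_one]
      intro h
      constructor
      · intro hh
        rw [key h hh]; exact hh
      · intro hh
        have := key _ hh
        have e : u * h * u⁻¹ = h := by
          have e2 : u * (u * h * u⁻¹) * u⁻¹ = u * h * u⁻¹ := this
          have : u * h * u⁻¹ = u⁻¹ * (u * (u * h * u⁻¹) * u⁻¹) * u := by group
          rw [e2] at this
          have e3 : u⁻¹ * (u * h * u⁻¹) * u = h := by group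
          rw [e3] at this
          exact this.symm ▸ rfl
        rw [e] at hh
        exact hh
    rw [hNH] at huN
    have : u ∈ M ⊓ H := ⟨hu, huN⟩
    rw [hMH, Subgroup.mem_bot] at this
    exact this
  -- `t` inverts `M`
  have hinv : ∀ m ∈ M, t * m * t⁻¹ = m⁻¹ := by
    have hmem : ∀ m ∈ M, m⁻¹ * (t * m * t⁻¹) ∈ M :=
      fun m hm => M.mul_mem (M.inv_mem hm) (hMn.conj_mem m hm t)
    have hinj : Function.Injective (fun m : M => (⟨(m : G)⁻¹ * (t * m * t⁻¹), hmem m m.2⟩ : M)) := by
      intro m m' hmm
      have h1 : (m : G)⁻¹ * (t * m * t⁻¹) = (m' : G)⁻¹ * (t * m' * t⁻¹) := congrArg Subtype.val hmm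
      have h2 : ((m' : G) * (m : G)⁻¹) * t = t * ((m' : G) * (m : G)⁻¹) := by
        have e1 : (m : G)⁻¹ * t * m = (m' : G)⁻¹ * t * m' := by
          have := congrArg (fun z => z * t) h1
          simpa [mul_assoc] using this
        calc ((m' : G) * (m : G)⁻¹) * t = (m' : G) * ((m : G)⁻¹ * t * m) * (m : G)⁻¹ := by group
          _ = (m' : G) * ((m' : G)⁻¹ * t * m') * (m : G)⁻¹ := by rw [e1]
          _ = t * ((m' : G) * (m : G)⁻¹) := by group
      have h3 := hcent _ (M.mul_mem m'.2 (M.inv_mem m.2)) h2
      apply Subtype.ext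
      exact (mul_inv_eq_one.mp h3).symm
    have hsurj := Finite.injective_iff_surjective.mp hinj
    intro m hm
    obtain ⟨m', hm'⟩ := hsurj ⟨m, hm⟩
    have h1 : (m' : G)⁻¹ * (t * m' * t⁻¹) = m := congrArg Subtype.val hm'
    rw [← h1, htinv]
    have : t * ((m' : G)⁻¹ * (t * ↑m' * t)) * t = ((m' : G)⁻¹ * (t * ↑m' * t))⁻¹ := by
      have e : ((m' : G)⁻¹ * (t * ↑m' * t))⁻¹ = t⁻¹ * (m' : G)⁻¹ * t⁻¹ * m' := by group
      rw [e, htinv]
      calc t * ((m' : G)⁻¹ * (t * ↑m' * t)) * t = t * (m' : G)⁻¹ * t * m' * (t * t) := by group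
        _ = t * (m' : G)⁻¹ * t * m' := by rw [htt, mul_one]
    exact this
  -- an element of prime order in `M`
  have hcardM1 : Nat.card M ≠ 1 := by
    rw [hcardM]
    intro h
    rw [Nat.card_eq_one_iff_unique] at h
    obtain ⟨x, y, hxy⟩ := hnt
    exact hxy (h.1.elim x y)
  have hp : (Nat.card M).minFac.Prime := Nat.minFac_prime hcardM1
  set p := (Nat.card M).minFac with hpdef
  have : Fact p.Prime := ⟨hp⟩
  obtain ⟨x', hx'⟩ := exists_prime_orderOf_dvd_card' (G := M) p (Nat.minFac_dvd _)
  set x : G := (x' : G) with hx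
  have hxM : x ∈ M := x'.2
  have hox : orderOf x = p := by rw [hx, Subgroup.orderOf_coe, hx']
  have hx1 : x ≠ 1 := by
    intro h
    rw [h, orderOf_one] at hox
    exact hp.one_lt.ne hox
  have hxH : x ∉ H := by
    intro h
    have : x ∈ M ⊓ H := ⟨hxM, h⟩
    rw [hMH, Subgroup.mem_bot] at this
    exact hx1 this
  -- `⟨x⟩` is normal in `G`
  have hLM : Subgroup.zpowers x ≤ M := by
    rw [Subgroup.zpowers_le]; exact hxM
  have htL : ∀ h ∈ Subgroup.zpowers x, t * h * t⁻¹ ∈ Subgroup.zpowers x := by
    intro h hh
    rw [hinv h (hLM hh)]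
    exact (Subgroup.zpowers x).inv_mem hh
  have htN : t ∈ Subgroup.normalizer (Subgroup.zpowers x : Set G) := by
    rw [Subgroup.mem_normalizer_iff]
    intro h
    constructor
    · exact htL h
    · intro hh
      have := htL _ hh
      have e : t * (t * h * t⁻¹) * t⁻¹ = h := by
        rw [htinv]
        calc t * (t * h * t) * t = (t * t) * h * (t * t) := by group
          _ = h := by rw [htt, one_mul, mul_one]
      rwa [e] at this
  have hHN : H ≤ Subgroup.normalizer (Subgroup.zpowers x : Set G) := by
    intro h hh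
    rcases hHelts h hh with rfl | rfl
    · exact Subgroup.one_mem _
    · exact htN
  have hLtop : Subgroup.normalizer (Subgroup.zpowers x : Set G) = ⊤ := by
    apply hmax.2
    apply lt_of_le_of_ne hHN
    intro h
    apply hxH
    rw [h]
    exact Subgroup.le_normalizer (Subgroup.mem_zpowers x)
  have hLn : (Subgroup.zpowers x).Normal := Subgroup.normalizer_eq_top_iff.mp hLtop
  -- `⟨x⟩` is transitive, hence `|Ω| = p`
  have hLtrans : MulAction.IsPretransitive (Subgroup.zpowers x) Ω := by
    apply MulAction.IsQuasiPreprimitive.isPretransitive_of_normal (G := G)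
    intro hfixall
    apply hx1
    apply FaithfulSMul.eq_of_smul_eq_smul (α := Ω)
    intro c
    have hc : c ∈ MulAction.fixedPoints (Subgroup.zpowers x) Ω := by
      rw [hfixall]; exact Set.mem_univ c
    rw [one_smul]
    exact hc ⟨x, Subgroup.mem_zpowers x⟩
  have hΩp : Nat.card Ω = p := by
    have h1 : (MulAction.stabilizer (Subgroup.zpowers x) a).index = Nat.card Ω :=
      MulAction.index_stabilizer_of_transitive (Subgroup.zpowers x) a
    have h2 : (MulAction.stabilizer (Subgroup.zpowers x) a).index ∣ Nat.card (Subgroup.zpowers x) :=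
      Subgroup.index_dvd_card _
    rw [h1, Nat.card_zpowers, hox] at h2
    rcases (Nat.dvd_prime hp).mp h2 with h | h
    · rw [hcardM] at hcardM1
      exact absurd h hcardM1
    · exact h
  have hcardG' : Nat.card G = 2 * p := by rw [hcardG, hΩp, mul_comm]
  -- the isomorphism
  have : NeZero p := ⟨hp.ne_zero⟩
  let ψ : ZMod p → G := fun i => x ^ i.val
  have hψadd : ∀ i j : ZMod p, ψ (i + j) = ψ i * ψ j := by
    intro i j
    show x ^ (i + j).val = x ^ i.val * x ^ j.val
    rw [ZMod.val_add, ← pow_add]
    have := pow_mod_orderOf x (i.val + j.val)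
    rwa [hox] at this
  have hψ0 : ψ 0 = 1 := by
    show x ^ (0 : ZMod p).val = 1
    rw [ZMod.val_zero, pow_zero]
  have hψneg : ∀ i : ZMod p, ψ (-i) = (ψ i)⁻¹ := by
    intro i
    apply eq_inv_of_mul_eq_one_left
    rw [← hψadd, neg_add_cancel, hψ0]
  have hψM : ∀ i : ZMod p, ψ i ∈ M := fun i => M.pow_mem hxM _
  have hψt : ∀ i : ZMod p, ψ i * t = t * (ψ i)⁻¹ := by
    intro i
    have h := hinv (ψ (-i)) (hψM (-i))
    rw [hψneg, inv_inv, htinv] at h
    -- h : t * (ψ i)⁻¹ * t = ψ i
    calc ψ i * t = (t * (ψ i)⁻¹ * t) * t := by rw [h]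
      _ = t * (ψ i)⁻¹ * (t * t) := by group
      _ = t * (ψ i)⁻¹ := by rw [htt, mul_one]
  have hψinj : ∀ i j : ZMod p, ψ i = ψ j → i = j := by
    intro i j h
    apply ZMod.val_injective p
    apply pow_injOn_Iio_orderOf (x := x)
    · rw [hox]; exact ZMod.val_lt i
    · rw [hox]; exact ZMod.val_lt j
    · exact h
  let f : DihedralGroup p → G := fun u =>
    match u with
    | DihedralGroup.r i => ψ i
    | DihedralGroup.sr i => t * ψ i
  have hmul : ∀ u v : DihedralGroup p, f (u * v) = f u * f v := by
    rintro (i | i) (j | j)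
    · show ψ (i + j) = ψ i * ψ j
      exact hψadd i j
    · show t * ψ (j - i) = ψ i * (t * ψ j)
      rw [← mul_assoc, hψt, mul_assoc, ← hψneg, ← hψadd, neg_add_eq_sub]
    · show t * ψ (i + j) = t * ψ i * ψ j
      rw [hψadd, mul_assoc]
    · show ψ (j - i) = t * ψ i * (t * ψ j)
      rw [mul_assoc t, ← mul_assoc (ψ i), hψt, ← mul_assoc, ← mul_assoc, htt, one_mul, ← hψneg,
        ← hψadd, neg_add_eq_sub]
  have htM : t ∉ M := by
    intro h
    have : t ∈ M ⊓ H := ⟨h, htH⟩
    rw [hMH, Subgroup.mem_bot] at this
    exact ht1 this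
  have hfinj : Function.Injective f := by
    rintro (i | i) (j | j) h
    · have h' : ψ i = ψ j := h
      rw [hψinj i j h']
    · exfalso
      have h' : ψ i = t * ψ j := h
      apply htM
      have : t = ψ i * (ψ j)⁻¹ := by rw [h', mul_assoc, mul_inv_cancel, mul_one]
      rw [this]
      exact M.mul_mem (hψM i) (M.inv_mem (hψM j))
    · exfalso
      have h' : t * ψ i = ψ j := h
      apply htM
      have : t = ψ j * (ψ i)⁻¹ := by rw [← h', mul_assoc, mul_inv_cancel, mul_one]
      rw [this]
      exact M.mul_mem (hψM j) (M.inv_mem (hψM i))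
    · have h' : t * ψ i = t * ψ j := h
      rw [hψinj i j (mul_left_cancel h')]
  have hbij : Function.Bijective f := by
    rw [Nat.bijective_iff_injective_and_card]
    exact ⟨hfinj, by rw [DihedralGroup.nat_card, hcardG']⟩
  exact ⟨p, hp, ⟨(MulEquiv.ofBijective (MonoidHom.mk' f hmul) hbij).symm⟩⟩

end Aux

/-- Let a finite group G act faithfully and primitively on a set Ω, and suppose the stabilizer of a point a has an orbit of length 2. Then the stabilizer of a has order 2 and G is isomorphic to the dihedral group of order 2p for some prime p. -/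
theorem result {G Ω : Type*} [Group G] [Finite G] [MulAction G Ω] [FaithfulSMul G Ω] [Finite Ω]
    (hprim : MulAction.IsPreprimitive G Ω) (a b : Ω) (h2 : Nat.card (MulAction.orbit (MulAction.stabilizer G a) b) = 2) :
    Nat.card (MulAction.stabilizer G a) = 2 ∧ ∃ p : ℕ, p.Prime ∧ Nonempty (G ≃* DihedralGroup p) := by
  have hc := card_stabilizer_eq_two hprim a b h2
  refine ⟨hc, exists_dihedral hprim a hc ?_⟩
  have h2' : (MulAction.orbit (MulAction.stabilizer G a) b).ncard = 2 := by
    rw [← Nat.card_coe_set_eq]; exact h2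
  obtain ⟨x, y, hxy, -⟩ := Set.ncard_eq_two.mp h2'
  exact ⟨x, y, hxy⟩

end Cfsg.Agent.S3684
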