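import Mathlib
import Cfsg.Statements.S3693
import Cfsg.Agent.Lib.Helper11.TW.Knapp

set_option autoImplicit false
open Cfsg

namespace Cfsg.Agent.S3693

/-- Let a finite group G act faithfully and primitively on a set Ω, let a and b be points such that the orbit Δ of b under the stabilizer H of a has length d ≥ 2, and consider the permutation group induced on Δ by the elements of H fixing b. If that induced group has trivial Fitting subgroup (no non-trivial nilpotent normal subgroup), then the two-point stabilizer of a and b has trivial Fitting subgroup and the order of H divides d! · ((d - 1)!)^d. -/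
theorem result {G Ω : Type*} [Group G] [Finite G] [MulAction G Ω] [FaithfulSMul G Ω] [Finite Ω]
    (hprim : MulAction.IsPreprimitive G Ω) (a b : Ω) (d : ℕ) (hd : Nat.card (MulAction.orbit (MulAction.stabilizer G a) b) = d) (h2 : 2 ≤ d)
    (hF : Cfsg.fittingSubgroup ↥(((MulAction.stabilizer G b).subgroupOf (MulAction.stabilizer G a)).map (MulAction.toPermHom (MulAction.stabilizer G a) (MulAction.orbit (MulAction.stabilizer G a) b))) = ⊥) :
    Cfsg.fittingSubgroup ↥(MulAction.stabilizer G a ⊓ MulAction.stabilizer G b) = ⊥ ∧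
      Nat.card (MulAction.stabilizer G a) ∣ Nat.factorial d * (Nat.factorial (d - 1)) ^ d := by
  obtain ⟨hcfg, hpc⟩ := Cfsg.Agent.Lib.Helper11.TW.setup hprim a b d hd h2
  have hall : ∀ p : ℕ, p.Prime →
      Cfsg.pCoreOf p (MulAction.stabilizer G a ⊓ MulAction.stabilizer G b) = ⊥ := by
    intro p hp
    haveI : Fact p.Prime := ⟨hp⟩
    exact Cfsg.Agent.Lib.Helper11.TW.knapp_pCore hcfg (hpc p hp)
      (Cfsg.Agent.Lib.Helper11.TW.pCoreOf_le_KK_of_fitting a b hF p)
  refine ⟨Cfsg.Agent.Lib.Helper11.TW.fitting_eq_bot_of_pCore _ (fun p hp => ?_), ?_⟩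
  · exact (Subgroup.map_eq_bot_iff_of_injective _ (Subgroup.subtype_injective _)).mp (hall p hp)
  · rcases Cfsg.Agent.Lib.Helper11.TW.bridge hprim a b d hd h2 with h | ⟨hidx, p, hp, hpg, -⟩
    · exact h
    · haveI : Fact p.Prime := ⟨hp⟩
      have hle : Cfsg.Agent.Lib.Helper11.TW.SS (MulAction.stabilizer G a)
          (MulAction.stabilizer G b) ≤ MulAction.stabilizer G a ⊓ MulAction.stabilizer G b :=
        (Cfsg.Agent.Lib.Helper11.TW.SS_le_KK _ _).trans (Cfsg.Agent.Lib.Helper11.TW.KK_le_inf _ _)
      have hS : Cfsg.Agent.Lib.Helper11.TW.SS (MulAction.stabilizer G a)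
          (MulAction.stabilizer G b) ≤
          Cfsg.pCoreOf p (MulAction.stabilizer G a ⊓ MulAction.stabilizer G b) :=
        Cfsg.Agent.Lib.Helper11.TW.le_pCoreOf_of_relSn hle
          (Cfsg.Agent.Lib.Helper11.TW.relSn_of_normal hle
            (inf_le_left.trans (Cfsg.Agent.Lib.Helper11.TW.SS_norm _ _))) hpg
      rw [hall p hp] at hS
      have h0 : Cfsg.Agent.Lib.Helper11.TW.SS (MulAction.stabilizer G a)
          (MulAction.stabilizer G b) = ⊥ := le_bot_iff.mp hS
      rw [h0, Subgroup.relIndex_bot_left] at hidx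
      exact hidx

end Cfsg.Agent.S3693
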