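-- S3696: abelian p-subgroup of Sym(n) of rank k has order at most (n/k)^k
import Mathlib
import Cfsg.Statements.S3696

set_option autoImplicit false

open Cfsg

namespace Cfsg.Agent.S3696

theorem amgm (x y : ℝ) (hx : 0 ≤ x) (hy : 0 ≤ y) (a b : ℕ) (hb : 1 ≤ b) :
    x ^ a * y ^ b * ((a : ℝ) + b) ^ (a + b) ≤ (x + y) ^ (a + b) * (a : ℝ) ^ a * (b : ℝ) ^ b := by
  rcases Nat.eq_zero_or_pos a with rfl | ha
  · simp only [pow_zero, one_mul, Nat.cast_zero, zero_add, mul_one]
    have : y ^ b ≤ (x + y) ^ b := pow_le_pow_left₀ hy (by linarith) b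
    exact mul_le_mul_of_nonneg_right this (by positivity)
  · have hapos : (0 : ℝ) < a := by exact_mod_cast ha
    have hbpos : (0 : ℝ) < b := by exact_mod_cast hb
    have hs : (0 : ℝ) < (a : ℝ) + b := by positivity
    have key := Real.geom_mean_le_arith_mean2_weighted (w₁ := (a : ℝ) / (a + b))
      (w₂ := (b : ℝ) / (a + b)) (p₁ := x / a) (p₂ := y / b) (by positivity) (by positivity)
      (by positivity) (by positivity) (by field_simp)
    have rhs : (a : ℝ) / (a + b) * (x / a) + (b : ℝ) / (a + b) * (y / b) = (x + y) / (a + b) := by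
      field_simp
    rw [rhs] at key
    have key2 := pow_le_pow_left₀ (by positivity) key (a + b)
    have e1 : ((x / a) ^ ((a : ℝ) / (a + b))) ^ (a + b) = (x / a) ^ a := by
      rw [← Real.rpow_natCast, ← Real.rpow_mul (by positivity)]
      have : (a : ℝ) / (a + b) * ((a + b : ℕ) : ℝ) = (a : ℕ) := by push_cast; field_simp
      rw [this, Real.rpow_natCast]
    have e2 : ((y / b) ^ ((b : ℝ) / (a + b))) ^ (a + b) = (y / b) ^ b := by
      rw [← Real.rpow_natCast, ← Real.rpow_mul (by positivity)]
      have : (b : ℝ) / (a + b) * ((a + b : ℕ) : ℝ) = (b : ℕ) := by push_cast; field_simp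
      rw [this, Real.rpow_natCast]
    rw [mul_pow, e1, e2, div_pow, div_pow, div_pow, div_mul_div_comm,
      div_le_div_iff₀ (by positivity) (by positivity)] at key2
    linarith [key2]

theorem arith (cK y x k' d : ℕ) (hd : 1 ≤ d) (hy : 2 ^ d ≤ y) (hK : cK * k' ^ k' ≤ x ^ k') :
    cK * y * (k' + d) ^ (k' + d) ≤ (x + y) ^ (k' + d) := by
  have h1 : y * d ^ d ≤ y ^ d := by
    have hd2 : d ≤ 2 ^ (d - 1) := by
      have := Nat.lt_two_pow_self (n := d - 1)
      omega
    calc y * d ^ d ≤ y * (2 ^ (d - 1)) ^ d := by gcongr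
      _ = y * (2 ^ d) ^ (d - 1) := by rw [← pow_mul, ← pow_mul, mul_comm (d - 1) d]
      _ ≤ y * y ^ (d - 1) := by gcongr
      _ = y ^ d := by
        rw [← pow_succ']
        congr 1
        omega
  have h2 : x ^ k' * y ^ d * (k' + d) ^ (k' + d) ≤ (x + y) ^ (k' + d) * k' ^ k' * d ^ d := by
    have := amgm (x : ℝ) (y : ℝ) (by positivity) (by positivity) k' d hd
    exact_mod_cast this
  have hpos : 0 < k' ^ k' * d ^ d := by
    apply Nat.mul_pos
    · rcases Nat.eq_zero_or_pos k' with h | h
      · rw [h]; simp
      · exact pow_pos h _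
    · exact pow_pos (by omega) _
  have h3 : cK * y * (k' + d) ^ (k' + d) * (k' ^ k' * d ^ d)
      ≤ (x + y) ^ (k' + d) * (k' ^ k' * d ^ d) := by
    calc cK * y * (k' + d) ^ (k' + d) * (k' ^ k' * d ^ d)
        = (cK * k' ^ k') * (y * d ^ d) * (k' + d) ^ (k' + d) := by ring
      _ ≤ x ^ k' * y ^ d * (k' + d) ^ (k' + d) := by gcongr
      _ ≤ (x + y) ^ (k' + d) * k' ^ k' * d ^ d := h2
      _ = (x + y) ^ (k' + d) * (k' ^ k' * d ^ d) := by ring
  exact Nat.le_of_mul_le_mul_right h3 hpos

/-- in a commutative `p`-group the elements with `a ^ p = 1` number a power of `p` -/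
theorem card_omega {K : Type*} [Group K] [Finite K] (p : ℕ) (hp : p.Prime)
    (hcomm : ∀ a b : K, a * b = b * a)
    (hpg : IsPGroup p K) : ∃ k' : ℕ, Nat.card {a : K // a ^ p = 1} = p ^ k' := by
  haveI : Fact p.Prime := ⟨hp⟩
  let Om : Subgroup K :=
    { carrier := {a | a ^ p = 1}
      mul_mem' := by
        intro a b ha hb
        show (a * b) ^ p = 1
        rw [(show Commute a b from hcomm a b).mul_pow, show a ^ p = 1 from ha,
          show b ^ p = 1 from hb, one_mul]
      one_mem' := one_pow p
      inv_mem' := by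
        intro a ha
        show a⁻¹ ^ p = 1
        rw [inv_pow, show a ^ p = 1 from ha, inv_one] }
  obtain ⟨k', hk'⟩ := IsPGroup.iff_card.mp (hpg.to_subgroup Om)
  refine ⟨k', ?_⟩
  rw [← hk']
  exact Nat.card_congr (Equiv.subtypeEquivRight (fun a => Iff.rfl))

theorem gen (p : ℕ) (hp : p.Prime) :
    ∀ (n : ℕ) (A : Type*) [Group A] [Finite A] (X : Type*) [MulAction A X] (X' : Finset X),
      Nat.card A = n → (∀ a b : A, a * b = b * a) → IsPGroup p A →
      (∀ a : A, ∀ x ∈ X', a • x ∈ X') → (∀ a : A, (∀ x ∈ X', a • x = x) → a = 1) →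
      ∀ k : ℕ, Nat.card {a : A // a ^ p = 1} = p ^ k → Nat.card A * k ^ k ≤ X'.card ^ k := by
  classical
  intro n
  induction n using Nat.strong_induction_on with
  | _ n ih =>
    intro A _ _ X _ X' hcard hcomm hpg hinv hfaith k hk
    haveI : Fact p.Prime := ⟨hp⟩
    by_cases htriv : ∀ a : A, a = 1
    · have hsub : Subsingleton A := ⟨fun a b => by rw [htriv a, htriv b]⟩
      have hc1 : Nat.card {a : A // a ^ p = 1} = 1 := by
        rw [Nat.card_eq_one_iff_unique]
        exact ⟨inferInstance, ⟨⟨1, one_pow _⟩⟩⟩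
      have hk0 : k = 0 := by
        rw [hc1] at hk
        by_contra hne
        have : 1 < p ^ k := Nat.one_lt_pow hne hp.one_lt
        omega
      subst hk0
      have : Nat.card A = 1 := by
        rw [Nat.card_eq_one_iff_unique]
        exact ⟨inferInstance, ⟨1⟩⟩
      rw [this]; simp
    · push_neg at htriv
      obtain ⟨a0, ha0⟩ := htriv
      haveI : Nontrivial A := ⟨⟨a0, 1, ha0⟩⟩
      obtain ⟨e, he⟩ : ∃ e : A, orderOf e = p := by
        have hdvd : p ∣ Nat.card A := by
          obtain ⟨m, hm⟩ := IsPGroup.iff_card.mp hpg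
          have hm0 : m ≠ 0 := by
            rintro rfl
            have := Finite.one_lt_card (α := A)
            rw [hm] at this
            simp at this
          rw [hm]
          exact dvd_pow_self p hm0
        exact exists_prime_orderOf_dvd_card' p hdvd
      have he1 : e ≠ 1 := by
        rintro rfl
        rw [orderOf_one] at he
        exact hp.one_lt.ne he
      have hep : e ^ p = 1 := by rw [← he]; exact pow_orderOf_eq_one e
      obtain ⟨x, hxX, hex⟩ : ∃ x ∈ X', e • x ≠ x := by
        by_contra hcon
        push Not at hcon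
        exact he1 (hfaith e hcon)
      -- the orbit and the stabilizer
      obtain ⟨K, hKdef⟩ : ∃ K : Subgroup A, K = MulAction.stabilizer A x := ⟨_, rfl⟩
      have hKmem : ∀ a : A, a ∈ K ↔ a • x = x := by
        intro a; rw [hKdef, MulAction.mem_stabilizer_iff]
      obtain ⟨O, hOdef⟩ : ∃ O : Finset X, O = X'.filter (fun z => z ∈ MulAction.orbit A x) :=
        ⟨_, rfl⟩
      have hOmem : ∀ z, z ∈ O ↔ z ∈ MulAction.orbit A x := by
        intro z
        rw [hOdef, Finset.mem_filter]
        constructor
        · exact fun h => h.2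
        · intro h
          refine ⟨?_, h⟩
          obtain ⟨a, rfl⟩ := h
          exact hinv a x hxX
      have hOsub : O ⊆ X' := by rw [hOdef]; exact Finset.filter_subset _ _
      have hOcard : (MulAction.orbit A x).ncard = O.card := by
        have : (MulAction.orbit A x) = (O : Set X) := by
          ext z; rw [Finset.mem_coe, hOmem]
        rw [this, Set.ncard_coe_finset]
      have hAK : Nat.card A = Nat.card K * O.card := by
        rw [← hOcard, ← MulAction.index_stabilizer, ← hKdef, Subgroup.card_mul_index]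
      -- K fixes O pointwise
      have hKO : ∀ a ∈ K, ∀ z ∈ O, a • z = z := by
        intro a ha z hz
        obtain ⟨b, rfl⟩ := (hOmem z).mp hz
        show a • b • x = b • x
        rw [smul_smul, hcomm a b, ← smul_smul, (hKmem a).mp ha]
      -- data for K
      have hKcomm : ∀ a b : K, a * b = b * a := fun a b => Subtype.ext (hcomm a b)
      have hKpg : IsPGroup p K := hpg.to_subgroup K
      have hKinv : ∀ a : K, ∀ z ∈ X' \ O, a • z ∈ X' \ O := by
        intro a z hz
        rw [Finset.mem_sdiff] at hz ⊢
        refine ⟨hinv (a : A) z hz.1, fun hmem => hz.2 ?_⟩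
        rw [hOmem] at hmem ⊢
        obtain ⟨b, hb⟩ := hmem
        have hb' : b • x = (a : A) • z := hb
        refine ⟨(a : A)⁻¹ * b, ?_⟩
        show ((a : A)⁻¹ * b) • x = z
        rw [← smul_smul, hb', inv_smul_smul]
      have hKfaith : ∀ a : K, (∀ z ∈ X' \ O, a • z = z) → a = 1 := by
        intro a ha
        apply Subtype.ext
        apply hfaith
        intro z hz
        by_cases hzO : z ∈ O
        · exact hKO a a.2 z hzO
        · exact ha z (Finset.mem_sdiff.mpr ⟨hz, hzO⟩)
      obtain ⟨k', hk'⟩ := card_omega p hp hKcomm hKpg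
      -- counting: p ^ k ≤ |O| * p ^ k'
      have hcount : p ^ k ≤ O.card * p ^ k' := by
        rw [← hk, ← hk', ← Nat.card_eq_finsetCard O, ← Nat.card_prod]
        have hr : ∀ z : X, ∃ r : A, (∃ a : A, a ^ p = 1 ∧ a • x = z) → (r ^ p = 1 ∧ r • x = z) := by
          intro z
          by_cases h : ∃ a : A, a ^ p = 1 ∧ a • x = z
          · obtain ⟨a, ha⟩ := h
            exact ⟨a, fun _ => ha⟩
          · exact ⟨1, fun h' => absurd h' h⟩
        choose r hr using hr
        have hrspec : ∀ a : {a : A // a ^ p = 1},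
            (r ((a : A) • x)) ^ p = 1 ∧ (r ((a : A) • x)) • x = (a : A) • x :=
          fun a => hr _ ⟨a, a.2, rfl⟩
        refine Nat.card_le_card_of_injective
          (fun a : {a : A // a ^ p = 1} =>
            ((⟨(a : A) • x, (hOmem _).mpr ⟨a, rfl⟩⟩ : O),
              (⟨⟨(r ((a : A) • x))⁻¹ * a, by
                rw [hKmem, ← smul_smul, inv_smul_eq_iff]
                exact (hrspec a).2.symm⟩, by
                apply Subtype.ext
                show ((r ((a : A) • x))⁻¹ * (a : A)) ^ p = 1
                rw [(show Commute (r ((a : A) • x))⁻¹ (a : A) from hcomm _ _).mul_pow, inv_pow,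
                  (hrspec a).1, a.2, inv_one, one_mul]⟩ : {b : K // b ^ p = 1}))) ?_
        intro a b hab
        rw [Prod.mk.injEq] at hab
        have h1 : (a : A) • x = (b : A) • x := congrArg (fun t : O => (t : X)) hab.1
        have h2 : (r ((a : A) • x))⁻¹ * (a : A) = (r ((b : A) • x))⁻¹ * (b : A) :=
          congrArg (fun t : {b : K // b ^ p = 1} => ((t : K) : A)) hab.2
        rw [h1] at h2
        exact Subtype.ext (mul_left_cancel h2)
      -- strictness: k' < k
      have hlt : k' < k := by
        have : p ^ k' < p ^ k := by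
          rw [← hk, ← hk']
          haveI : Fintype {a : A // a ^ p = 1} := Fintype.ofFinite _
          haveI : Fintype {b : K // b ^ p = 1} := Fintype.ofFinite _
          rw [Nat.card_eq_fintype_card, Nat.card_eq_fintype_card]
          refine Fintype.card_lt_of_injective_of_notMem (b := (⟨e, hep⟩ : {a : A // a ^ p = 1}))
            (fun b : {b : K // b ^ p = 1} => (⟨((b : K) : A), by
              have := congrArg (fun t : K => (t : A)) b.2
              simpa using this⟩ : {a : A // a ^ p = 1})) ?_ ?_
          · intro a b hab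
            apply Subtype.ext
            apply Subtype.ext
            exact congrArg (fun t : {a : A // a ^ p = 1} => (t : A)) hab
          · rintro ⟨b, hb⟩
            have : ((b : K) : A) = e := congrArg (fun t : {a : A // a ^ p = 1} => (t : A)) hb
            have hmem : e ∈ K := this ▸ (b : K).2
            exact hex ((hKmem e).mp hmem)
        exact (Nat.pow_lt_pow_iff_right hp.one_lt).mp this
      obtain ⟨d, rfl⟩ : ∃ d, k = k' + d := ⟨k - k', by omega⟩
      have hd : 1 ≤ d := by omega
      have hyd : p ^ d ≤ O.card := by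
        rw [pow_add, mul_comm] at hcount
        exact Nat.le_of_mul_le_mul_right hcount (pow_pos hp.pos _)
      have hy2 : 2 ^ d ≤ O.card := le_trans (Nat.pow_le_pow_left hp.two_le d) hyd
      have hKlt : Nat.card K < n := by
        rw [← hcard, hAK]
        have hKpos : 0 < Nat.card K := Nat.card_pos
        have : 2 ≤ O.card := le_trans (by
          calc 2 = 2 ^ 1 := by norm_num
            _ ≤ 2 ^ d := Nat.pow_le_pow_right (by norm_num) hd) hy2
        nlinarith
      have hIH := ih (Nat.card K) hKlt K X (X' \ O) rfl hKcomm hKpg hKinv hKfaith k' hk'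
      rw [Finset.card_sdiff_of_subset hOsub] at hIH
      have hfinal := arith (Nat.card K) O.card (X'.card - O.card) k' d hd hy2 hIH
      have hle : O.card ≤ X'.card := Finset.card_le_card hOsub
      rw [Nat.sub_add_cancel hle] at hfinal
      rw [hAK]
      exact hfinal

/-- Let p be a prime, Ω a finite set with n ≥ p elements, and A an abelian p-subgroup of the symmetric group on Ω whose elements of order dividing p number p^k (so k is the rank of A). Then |A| · k^k ≤ n^k, that is, |A| ≤ (n/k)^k. -/
theorem result {Ω : Type*} [Fintype Ω] [DecidableEq Ω]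
    (p : ℕ) (hp : p.Prime) (hn : p ≤ Fintype.card Ω) (A : Subgroup (Equiv.Perm Ω)) (hA : IsPGroup p A) (hab : IsMulCommutative A)
    (k : ℕ) (hk : Nat.card {x : A // x ^ p = 1} = p ^ k) :
    Nat.card A * k ^ k ≤ Fintype.card Ω ^ k := by
  classical
  have hcomm : ∀ a b : A, a * b = b * a := fun a b => hab.is_comm.comm a b
  have h := gen p hp (Nat.card A) A Ω (Finset.univ : Finset Ω) rfl hcomm hA
    (fun a x _ => Finset.mem_univ _)
    (fun a ha => by
      apply Subtype.ext
      ext x
      exact ha x (Finset.mem_univ x)) k hk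
  rwa [Finset.card_univ] at h

end Cfsg.Agent.S3696
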