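import Cfsg.Statements.S3703
import Cfsg.Agent.S3745
import Cfsg.Agent.Lib.Helper61.Coprime
import Cfsg.Agent.Lib.Helper21.AxB
import Cfsg.Agent.Lib.Helper30.Bender
import Cfsg.Agent.Lib.Helper91.Coprime2

set_option autoImplicit false
open Cfsg
open scoped Pointwise
open scoped commutatorElement

namespace Cfsg.Agent.S3703

/-! ### Part A: the trace lemma -/

/-- Trace lemma: a group `R` normalized by `x`, with no nontrivial element of `R` commuting with
a nontrivial power of `x`, acts trivially on an abelian group `V` (of order prime to `R`) on which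
the norm map of `⟨x⟩` vanishes. -/
theorem trace_lemma {B V : Type*} [Group B] [CommGroup V] (ψ : B →* MulAut V)
    (R : Subgroup B) [Finite R] (x : B) (hm0 : 0 < orderOf x)
    (hxR : ∀ f ∈ R, x⁻¹ * f * x ∈ R)
    (hfrob : ∀ f ∈ R, f ≠ 1 → ∀ j, 0 < j → j < orderOf x → f * x ^ j * f⁻¹ ≠ x ^ j)
    (hnorm : ∀ v : V, ∏ j ∈ Finset.range (orderOf x), ψ (x ^ j) v = 1)
    (hcop : ∀ w : V, w ^ Nat.card R = 1 → w = 1) :
    ∀ f ∈ R, ∀ v : V, ψ f v = v := by
  classical
  have : Fintype R := Fintype.ofFinite R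
  have hxn : ∀ j : ℕ, ∀ f ∈ R, (x ^ j)⁻¹ * f * x ^ j ∈ R := by
    intro j
    induction j with
    | zero => intro f hf; simpa using hf
    | succ j ih =>
      intro f hf
      have h1 := hxR _ (ih f hf)
      have e : (x ^ (j + 1))⁻¹ * f * x ^ (j + 1) = x⁻¹ * ((x ^ j)⁻¹ * f * x ^ j) * x := by
        rw [pow_succ]; group
      rw [e]; exact h1
  have key : ∀ j, 0 < j → j < orderOf x → ∀ v : V,
      ∏ f : R, ψ (x ^ j * f) v = ∏ f : R, ψ ((f : B) * x ^ j * (f : B)⁻¹) v := by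
    intro j hj0 hjm v
    let κ : R → R := fun f =>
      ⟨(x ^ j)⁻¹ * f * x ^ j * (f : B)⁻¹, R.mul_mem (hxn j f f.2) (R.inv_mem f.2)⟩
    have hinj : Function.Injective κ := by
      intro f₁ f₂ h
      have h' : (x ^ j)⁻¹ * f₁ * x ^ j * (f₁ : B)⁻¹ = (x ^ j)⁻¹ * f₂ * x ^ j * (f₂ : B)⁻¹ :=
        congrArg Subtype.val h
      by_contra hne
      have hf : (f₂ : B)⁻¹ * f₁ ∈ R := R.mul_mem (R.inv_mem f₂.2) f₁.2
      have hf1 : (f₂ : B)⁻¹ * f₁ ≠ 1 := by
        intro h1
        apply hne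
        apply Subtype.ext
        have := congrArg (fun z => (f₂ : B) * z) h1
        simpa using this
      apply hfrob _ hf hf1 j hj0 hjm
      have h2 : (f₁ : B) * x ^ j * (f₁ : B)⁻¹ = f₂ * x ^ j * (f₂ : B)⁻¹ := by
        have := congrArg (fun z => x ^ j * z) h'
        simpa [mul_assoc] using this
      calc (f₂ : B)⁻¹ * f₁ * x ^ j * ((f₂ : B)⁻¹ * f₁)⁻¹
          = (f₂ : B)⁻¹ * (f₁ * x ^ j * (f₁ : B)⁻¹) * f₂ := by group
        _ = x ^ j := by rw [h2]; group
    have hbij : Function.Bijective κ := Finite.injective_iff_bijective.mp hinj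
    rw [← Equiv.prod_comp (Equiv.ofBijective κ hbij) (fun f : R => ψ (x ^ j * f) v)]
    refine Finset.prod_congr rfl (fun f _ => ?_)
    show ψ (x ^ j * ((x ^ j)⁻¹ * f * x ^ j * (f : B)⁻¹)) v = _
    congr 2
    group
  intro g hg v
  have hT : ∏ j ∈ Finset.range (orderOf x), ψ (x ^ j) (∏ f : R, ψ (f : B) v) = 1 := hnorm _
  have h1 : ∀ j, ψ (x ^ j) (∏ f : R, ψ (f : B) v) = ∏ f : R, ψ (x ^ j * f) v := by
    intro j
    rw [map_prod]
    refine Finset.prod_congr rfl (fun f _ => ?_)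
    rw [map_mul]; rfl
  obtain ⟨m', hm'⟩ : ∃ m', orderOf x = m' + 1 := ⟨orderOf x - 1, by omega⟩
  rw [hm', Finset.prod_range_succ'] at hT
  have h2 : ∀ j ∈ Finset.range m', ψ (x ^ (j + 1)) (∏ f : R, ψ (f : B) v)
      = ∏ f : R, ψ ((f : B) * x ^ (j + 1) * (f : B)⁻¹) v := by
    intro j hj
    rw [h1]
    exact key (j + 1) (by omega) (by rw [Finset.mem_range] at hj; omega) v
  rw [Finset.prod_congr rfl h2, Finset.prod_comm] at hT
  have h3 : ∀ f : R, ∏ j ∈ Finset.range m', ψ ((f : B) * x ^ (j + 1) * (f : B)⁻¹) v = v⁻¹ := by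
    intro f
    have h4 := hnorm (ψ (f : B)⁻¹ v)
    rw [hm', Finset.prod_range_succ'] at h4
    have h5 : ∏ j ∈ Finset.range m', ψ (x ^ (j + 1)) (ψ (f : B)⁻¹ v) = (ψ (f : B)⁻¹ v)⁻¹ := by
      rw [pow_zero, map_one, MulAut.one_apply] at h4
      exact eq_inv_of_mul_eq_one_left h4
    calc ∏ j ∈ Finset.range m', ψ ((f : B) * x ^ (j + 1) * (f : B)⁻¹) v
        = ψ (f : B) (∏ j ∈ Finset.range m', ψ (x ^ (j + 1)) (ψ (f : B)⁻¹ v)) := by
          rw [map_prod]
          refine Finset.prod_congr rfl (fun j _ => ?_)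
          rw [map_mul, map_mul]; rfl
      _ = v⁻¹ := by
          rw [h5, map_inv, ← MulAut.mul_apply, ← map_mul, mul_inv_cancel, map_one,
            MulAut.one_apply]
  rw [Finset.prod_congr rfl (fun f _ => h3 f), Finset.prod_const, Finset.card_univ, pow_zero,
    map_one, MulAut.one_apply, inv_pow] at hT
  have hN : ∏ f : R, ψ (f : B) v = v ^ Fintype.card R := (inv_mul_eq_one.mp hT).symm
  have hinv : ψ g (∏ f : R, ψ (f : B) v) = ∏ f : R, ψ (f : B) v := by
    rw [map_prod, ← Equiv.prod_comp (Equiv.mulLeft (⟨g, hg⟩ : R)) (fun f : R => ψ (f : B) v)]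
    refine Finset.prod_congr rfl (fun f _ => ?_)
    show ψ g (ψ (f : B) v) = ψ (g * (f : B)) v
    rw [map_mul]; rfl
  rw [hN, map_pow] at hinv
  have h6 : (ψ g v * v⁻¹) ^ Nat.card R = 1 := by
    rw [Nat.card_eq_fintype_card, mul_pow, hinv, inv_pow, mul_inv_cancel]
  exact mul_inv_eq_one.mp (hcop _ h6)

/-! ### Part B: the conjugation action on the abelianization -/

section ConjAb

variable {G : Type*} [Group G]

/-- The action of the normalizer of `T` on the abelianization of `T`. -/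
noncomputable def conjAb (T : Subgroup G) :
    ↥(Subgroup.normalizer (T : Set G)) →* MulAut (Abelianization ↥T) :=
  MonoidHom.mk' (fun g => (Subgroup.normalizerMonoidHom T g).abelianizationCongr) (by
    intro a b
    apply MulEquiv.ext
    intro v
    obtain ⟨t, rfl⟩ := QuotientGroup.mk_surjective v
    show Abelianization.of (Subgroup.normalizerMonoidHom T (a * b) t) =
      Abelianization.of (Subgroup.normalizerMonoidHom T a (Subgroup.normalizerMonoidHom T b t))
    rw [map_mul]; rfl)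

theorem conjAb_of (T : Subgroup G) (g : ↥(Subgroup.normalizer (T : Set G))) (t : ↥T) :
    conjAb T g (Abelianization.of t) = Abelianization.of (Subgroup.normalizerMonoidHom T g t) :=
  rfl

theorem coe_normalizerMonoidHom (T : Subgroup G) (g : ↥(Subgroup.normalizer (T : Set G)))
    (t : ↥T) : ((Subgroup.normalizerMonoidHom T g t : ↥T) : G) = g * t * (g : G)⁻¹ := rfl

/-- The ordered product formula for `(t x)^k`. -/
theorem pow_mul_normalizer (T : Subgroup G) (x : ↥(Subgroup.normalizer (T : Set G))) (t : ↥T)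
    (k : ℕ) : ∃ p : ↥T, ((t : G) * x) ^ k = p * (x : G) ^ k ∧
      Abelianization.of p = ∏ j ∈ Finset.range k, conjAb T (x ^ j) (Abelianization.of t) := by
  induction k with
  | zero => exact ⟨1, by simp, by simp⟩
  | succ k ih =>
    obtain ⟨p, hp1, hp2⟩ := ih
    refine ⟨p * Subgroup.normalizerMonoidHom T (x ^ k) t, ?_, ?_⟩
    · rw [pow_succ, hp1, Subgroup.coe_mul, coe_normalizerMonoidHom, Subgroup.coe_pow, pow_succ]
      group
    · rw [map_mul, hp2, Finset.prod_range_succ, conjAb_of]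

end ConjAb

/-! ### Part C: Frobenius facts and the order claim -/

section Frob

variable {Q : Type*} [Group Q]

theorem frob_no_fix (Fb Hb : Subgroup Q) [hFn : Fb.Normal]
    (hHb : Cfsg.IsFrobeniusComplement Hb)
    (hker : Cfsg.frobeniusKernel Hb = (Fb : Set Q)) :
    ∀ y ∈ Fb, y ≠ 1 → ∀ g c : Q, g⁻¹ * c * g ∈ Hb → c ≠ 1 → y * c * y⁻¹ ≠ c := by
  intro y hy hy1 g c hc hc1 heq
  have hy' : g⁻¹ * y * g ∈ Fb := by
    have := hFn.conj_mem y hy g⁻¹
    simpa using this
  have hy'1 : g⁻¹ * y * g ≠ 1 := by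
    intro h
    apply hy1
    have : y = g * (g⁻¹ * y * g) * g⁻¹ := by group
    rw [this, h]; group
  have hyk : g⁻¹ * y * g ∈ Cfsg.frobeniusKernel Hb := by rw [hker]; exact hy'
  have hnot : ∀ g' : Q, g⁻¹ * y * g ∉ MulAut.conj g' • Hb := by
    rcases hyk with h | h
    · exact absurd h hy'1
    · exact h
  have hyH : g⁻¹ * y * g ∉ Hb := by
    intro h
    apply hnot 1
    rw [Cfsg.Agent.Lib.Helper1.mem_conj_smul]
    simpa using h
  have hbot := hHb.2.2 _ hyH
  have hmem : g⁻¹ * c * g ∈ Hb ⊓ (MulAut.conj (g⁻¹ * y * g) • Hb) := by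
    refine Subgroup.mem_inf.mpr ⟨hc, ?_⟩
    rw [Cfsg.Agent.Lib.Helper1.mem_conj_smul]
    have e : (g⁻¹ * y * g)⁻¹ * (g⁻¹ * c * g) * (g⁻¹ * y * g) = g⁻¹ * (y⁻¹ * c * y) * g := by
      group
    have e2 : y⁻¹ * c * y = c := by
      calc y⁻¹ * c * y = y⁻¹ * (y * c * y⁻¹) * y := by rw [heq]
        _ = c := by group
    rw [e, e2]; exact hc
  rw [hbot, Subgroup.mem_bot] at hmem
  apply hc1
  have : c = g * (g⁻¹ * c * g) * g⁻¹ := by group
  rw [this, hmem]; group

theorem frob_conj (Fb : Subgroup Q) [Finite Fb] [hFn : Fb.Normal] (hb : Q)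
    (hfix : ∀ y ∈ Fb, y ≠ 1 → y * hb * y⁻¹ ≠ hb) :
    ∀ u ∈ Fb, ∃ f ∈ Fb, u * hb = f * hb * f⁻¹ := by
  let φ : Fb → Fb := fun f => ⟨f * hb * (f : Q)⁻¹ * hb⁻¹, by
    have h1 : hb * (f : Q)⁻¹ * hb⁻¹ ∈ Fb := hFn.conj_mem _ (Fb.inv_mem f.2) hb
    have : (f : Q) * hb * (f : Q)⁻¹ * hb⁻¹ = f * (hb * (f : Q)⁻¹ * hb⁻¹) := by group
    rw [this]; exact Fb.mul_mem f.2 h1⟩
  have hinj : Function.Injective φ := by
    intro f₁ f₂ h
    have h' : (f₁ : Q) * hb * (f₁ : Q)⁻¹ * hb⁻¹ = f₂ * hb * (f₂ : Q)⁻¹ * hb⁻¹ :=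
      congrArg Subtype.val h
    by_contra hne
    have h2 : (f₁ : Q) * hb * (f₁ : Q)⁻¹ = f₂ * hb * (f₂ : Q)⁻¹ := by
      have := congrArg (fun z => z * hb) h'
      simpa using this
    apply hfix ((f₂ : Q)⁻¹ * f₁) (Fb.mul_mem (Fb.inv_mem f₂.2) f₁.2)
    · intro h1
      apply hne
      apply Subtype.ext
      have := congrArg (fun z => (f₂ : Q) * z) h1
      simpa using this
    · calc (f₂ : Q)⁻¹ * f₁ * hb * ((f₂ : Q)⁻¹ * f₁)⁻¹
          = (f₂ : Q)⁻¹ * (f₁ * hb * (f₁ : Q)⁻¹) * f₂ := by group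
        _ = hb := by rw [h2]; group
  have hsurj : Function.Surjective φ := (Finite.injective_iff_bijective.mp hinj).2
  intro u hu
  obtain ⟨f, hf⟩ := hsurj ⟨u, hu⟩
  refine ⟨f, f.2, ?_⟩
  have h' : (f : Q) * hb * (f : Q)⁻¹ * hb⁻¹ = u := congrArg Subtype.val hf
  rw [← h']; group

end Frob

theorem order_claim {G Q : Type*} [Group G] [Finite G] [Group Q] (q : G →* Q) (N : Subgroup G)
    (hqker : ∀ y : G, q y = 1 → y ∈ N) (m : ℕ) (hm : 0 < m)
    (hno : ∀ p : ℕ, p.Prime → p ∣ Nat.card N → ∀ g : G, orderOf g ≠ p * m)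
    (x : G) (hx : orderOf (q x) = m) : x ^ m = 1 := by
  by_contra hne
  have hxm : x ^ m ∈ N := by
    apply hqker
    rw [map_pow, ← hx, pow_orderOf_eq_one]
  have hk1 : orderOf (x ^ m) ≠ 1 := by
    intro h; exact hne (orderOf_eq_one_iff.mp h)
  have hkN : orderOf (x ^ m) ∣ Nat.card N := Subgroup.orderOf_dvd_natCard _ hxm
  obtain ⟨p, hp, hpk⟩ := Nat.exists_prime_and_dvd hk1
  obtain ⟨k', hk'⟩ := hpk
  have hmx : m ∣ orderOf x := by rw [← hx]; exact orderOf_map_dvd q x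
  have hox : orderOf x = m * orderOf (x ^ m) := by
    have h1 : orderOf (x ^ m) = orderOf x / Nat.gcd (orderOf x) m := orderOf_pow' x (by omega)
    rw [Nat.gcd_eq_right hmx] at h1
    rw [h1, Nat.mul_div_cancel' hmx]
  have hox0 : 0 < orderOf x := orderOf_pos x
  have hk'0 : k' ≠ 0 := by
    rintro rfl
    rw [hk', mul_zero, mul_zero] at hox
    omega
  have hox' : orderOf x = (p * m) * k' := by rw [hox, hk']; ring
  have h2 : orderOf (x ^ k') = orderOf x / k' :=
    orderOf_pow_of_dvd hk'0 (by rw [hox']; exact Dvd.intro_left _ rfl)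
  have h3 : orderOf (x ^ k') = p * m := by
    rw [h2, hox']; exact Nat.mul_div_cancel _ (by omega)
  exact hno p hp ((Dvd.intro _ hk'.symm).trans hkN) (x ^ k') h3

/-- Let N be a normal subgroup of the finite group G such that G/N is a Frobenius group with kernel F and cyclic complement H, where the order of F is coprime to that of N and F is not contained in the image of C_G(N) in G/N. Then G has an element of order p·#H for some prime p dividing the order of N. (A standard tool in recognising groups by their element orders.) -/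
theorem result {G : Type*} [Group G] [Finite G] (N : Subgroup G) [N.Normal]
    (Fb Hb : Subgroup (G ⧸ N)) [Fb.Normal] (hHb : Cfsg.IsFrobeniusComplement Hb) (hker : Cfsg.frobeniusKernel Hb = (Fb : Set (G ⧸ N)))
    (hcyc : IsCyclic Hb) (hcop : (Nat.card Fb).Coprime (Nat.card N))
    (hnot : ¬ Fb ≤ (Subgroup.centralizer (N : Set G)).map (QuotientGroup.mk' N)) :
    ∃ p : ℕ, p.Prime ∧ p ∣ Nat.card N ∧ ∃ g : G, orderOf g = p * Nat.card Hb := by
  classical
  by_contra hno
  push Not at hno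
  have hNn : N.Normal := inferInstance
  have hFbn : Fb.Normal := inferInstance
  set q : G →* G ⧸ N := QuotientGroup.mk' N with hq
  have hqs : Function.Surjective q := QuotientGroup.mk'_surjective N
  have hqker : ∀ y : G, q y = 1 ↔ y ∈ N := fun y => QuotientGroup.eq_one_iff y
  set m := Nat.card Hb with hm
  obtain ⟨hb0, hgen⟩ := hcyc.exists_generator
  set hb : G ⧸ N := (hb0 : G ⧸ N) with hhb
  have hbH : hb ∈ Hb := hb0.2
  have hord : orderOf hb = m := by
    rw [hhb, Subgroup.orderOf_coe]; exact orderOf_eq_card_of_forall_mem_zpowers hgen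
  have hm1 : 1 < m := by
    rw [hm]
    exact Finite.one_lt_card_iff_nontrivial.mpr ((Subgroup.nontrivial_iff_ne_bot Hb).mpr hHb.1)
  have hm0 : 0 < m := by omega
  have hb1 : hb ≠ 1 := by
    intro h
    rw [h, orderOf_one] at hord
    omega
  have hFA := frob_no_fix Fb Hb hHb hker
  have hFB : ∀ u ∈ Fb, ∃ f ∈ Fb, u * hb = f * hb * f⁻¹ :=
    frob_conj Fb hb (fun y hy hy1 => hFA y hy hy1 1 hb (by simpa using hbH) hb1)
  have hL : ∀ x : G, orderOf (q x) = m → x ^ m = 1 :=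
    fun x hx => order_claim q N (fun y hy => (hqker y).mp hy) m hm0 hno x hx
  -- Step 4
  set Ft : Subgroup G := Fb.comap q with hFt
  have hNFt : N ≤ Ft := fun y hy => by
    rw [hFt, Subgroup.mem_comap, (hqker y).mpr hy]; exact Fb.one_mem
  have hFtn : Ft.Normal := Subgroup.Normal.comap hFbn q
  set M₀ : Subgroup G := ((Subgroup.centralizer (N : Set G)).map q).comap q with hM₀
  have hCM : Subgroup.centralizer (N : Set G) ≤ M₀ := Subgroup.le_comap_map _ _
  have hNM : N ≤ M₀ := fun y hy => by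
    rw [hM₀, Subgroup.mem_comap, (hqker y).mpr hy]; exact Subgroup.one_mem _
  have hFM : ¬ Ft ≤ M₀ := by
    intro h
    apply hnot
    intro y hy
    obtain ⟨y', rfl⟩ := hqs y
    exact h hy
  obtain ⟨r, hr, R₀, hR₀⟩ : ∃ (r : ℕ) (_ : Fact r.Prime) (R₀ : Sylow r Ft),
      ¬ (R₀ : Subgroup Ft).map Ft.subtype ≤ M₀ := by
    by_contra hall
    push Not at hall
    have h1 : M₀.subgroupOf Ft = ⊤ :=
      Cfsg.Agent.Lib.Helper30.eq_top_of_forall_sylow_le _ (fun p hp P => by
        intro y hy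
        rw [Subgroup.mem_subgroupOf]
        exact hall p hp P ⟨y, hy, rfl⟩)
    rw [Subgroup.subgroupOf_eq_top] at h1
    exact hFM h1
  set R : Subgroup G := (R₀ : Subgroup Ft).map Ft.subtype with hR
  have hRFt : R ≤ Ft := Subgroup.map_subtype_le _
  have hRp : IsPGroup r R := R₀.isPGroup'.map _
  have hrN : ¬ r ∣ Nat.card N := by
    intro hrN
    apply hR₀
    have h1 : IsPGroup r (R.map q) := hRp.map q
    have h2 : Nat.card (R.map q) ∣ Nat.card Fb :=
      Subgroup.card_dvd_of_le (by rintro _ ⟨y, hy, rfl⟩; exact hRFt hy)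
    have h3 : R.map q = ⊥ := by
      obtain ⟨n, hn⟩ := IsPGroup.iff_card.mp h1
      rcases Nat.eq_zero_or_pos n with h0 | h0
      · rw [h0, pow_zero] at hn; exact Subgroup.card_eq_one.mp hn
      · exfalso
        have h4 : r ∣ Nat.card Fb := (dvd_pow_self r (by omega)).trans (hn ▸ h2)
        have h5 := Nat.dvd_gcd h4 hrN
        rw [Nat.Coprime.gcd_eq_one hcop] at h5
        exact hr.out.one_lt.ne' (Nat.dvd_one.mp h5)
    intro y hy
    apply hNM
    rw [← hqker]
    have : q y ∈ R.map q := ⟨y, hy, rfl⟩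
    rw [h3] at this
    exact this
  have hcopRN : (Nat.card R).Coprime (Nat.card N) := by
    obtain ⟨n, hn⟩ := IsPGroup.iff_card.mp hRp
    rw [hn]
    exact Nat.Coprime.pow_left _ ((Nat.Prime.coprime_iff_not_dvd hr.out).mpr hrN)
  have hRsolv : Group.IsSolvable R := by
    have : Group.IsNilpotent R := hRp.isNilpotent
    exact IsNilpotent.to_isSolvable
  have hRC : ¬ R ≤ Subgroup.centralizer (N : Set G) := fun h => hR₀ (h.trans hCM)
  have hRN : R ≤ Subgroup.normalizer (N : Set G) := by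
    rw [Subgroup.normalizer_eq_top]; exact le_top
  -- Step 5
  obtain ⟨s, hs, P₀, k₀, hk₀, hRS, hRSc⟩ : ∃ (s : ℕ) (_ : Fact s.Prime) (P₀ : Sylow s N) (k₀ : G),
      k₀ ∈ N ∧
      R ≤ Subgroup.normalizer
        ((MulAut.conj k₀ • (P₀ : Subgroup N).map N.subtype : Subgroup G) : Set G) ∧
      ¬ R ≤ Subgroup.centralizer
        ((MulAut.conj k₀ • (P₀ : Subgroup N).map N.subtype : Subgroup G) : Set G) := by
    by_contra hall
    push Not at hall
    apply hRC
    have hNC : N ⊓ Subgroup.centralizer (R : Set G) = N := by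
      apply Subgroup.eq_of_le_of_card_ge inf_le_left
      apply Nat.le_of_dvd Nat.card_pos
      rw [Nat.dvd_iff_prime_pow_dvd_dvd]
      intro p k hp hpk
      have hpf : Fact p.Prime := ⟨hp⟩
      obtain ⟨P₀⟩ : Nonempty (Sylow p N) := inferInstance
      obtain ⟨n, hn, hnorm⟩ := Cfsg.Agent.S3745.exists_invariant_conj R N hRN hcopRN
        (Or.inl hRsolv) ((P₀ : Subgroup N).map N.subtype)
        (fun a ha => Cfsg.Agent.Lib.Helper91.frattini_normalizer N p P₀ a (hRN ha))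
      have hcent := hall p hpf P₀ n hn hnorm
      have hle : MulAut.conj n • (P₀ : Subgroup N).map N.subtype ≤
          N ⊓ Subgroup.centralizer (R : Set G) := by
        refine le_inf ?_ ?_
        · exact Cfsg.Agent.S3745.conj_smul_le_of_mem hn (Subgroup.map_subtype_le _)
        · exact Subgroup.le_centralizer_iff.mp hcent
      have hcard : Nat.card (MulAut.conj n • (P₀ : Subgroup N).map N.subtype : Subgroup G) =
          Nat.card (P₀ : Subgroup N) := by
        rw [Cfsg.Agent.Lib.Helper1.card_conj_smul,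
          Subgroup.card_map_of_injective N.subtype_injective]
      have h1 := P₀.pow_dvd_card_of_pow_dvd_card hpk
      rw [← hcard] at h1
      exact h1.trans (Subgroup.card_dvd_of_le hle)
    intro a ha
    rw [Subgroup.mem_centralizer_iff]
    intro n hn
    have h1 : n ∈ N ⊓ Subgroup.centralizer (R : Set G) := by rw [hNC]; exact hn
    exact (Subgroup.mem_centralizer_iff.mp h1.2 a ha).symm
  -- Step 6
  set S : Subgroup G := MulAut.conj k₀ • (P₀ : Subgroup N).map N.subtype with hS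
  have hSN : S ≤ N := Cfsg.Agent.S3745.conj_smul_le_of_mem hk₀ (Subgroup.map_subtype_le _)
  have hSp : IsPGroup s S := by
    apply IsPGroup.of_card (n := (Nat.card N).factorization s)
    rw [hS, Cfsg.Agent.Lib.Helper1.card_conj_smul,
      Subgroup.card_map_of_injective N.subtype_injective]
    exact P₀.card_eq_multiplicity
  obtain ⟨h, hh⟩ := hqs hb
  have hhFt : h ∈ Subgroup.normalizer (Ft : Set G) := by
    rw [Subgroup.normalizer_eq_top]; trivial
  obtain ⟨k, hk, hx₀R⟩ := Cfsg.Agent.Lib.Helper91.frattini_normalizer Ft r R₀ h hhFt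
  obtain ⟨f₀, hf₀, hqx₀⟩ : ∃ f₀ ∈ Fb, q (k⁻¹ * h) = f₀ * hb * f₀⁻¹ := by
    obtain ⟨f, hf, e⟩ := hFB (q k)⁻¹ (Fb.inv_mem hk)
    exact ⟨f, hf, by rw [map_mul, map_inv, hh, e]⟩
  have hx₀N : k₀⁻¹ * (k⁻¹ * h) * k₀ ∈ Subgroup.normalizer (N : Set G) := by
    rw [Subgroup.normalizer_eq_top]; trivial
  obtain ⟨k', hk', hk'P⟩ :=
    Cfsg.Agent.Lib.Helper91.frattini_normalizer N s P₀ (k₀⁻¹ * (k⁻¹ * h) * k₀) hx₀N
  have hgN : k₀ * k' * k₀⁻¹ ∈ N := N.mul_mem (N.mul_mem hk₀ hk') (N.inv_mem hk₀)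
  have hgS : (k₀ * k' * k₀⁻¹)⁻¹ * (k⁻¹ * h) ∈ Subgroup.normalizer (S : Set G) := by
    apply Cfsg.Agent.Lib.Helper91.conj_mem_normalizer_conj_smul
    have e : k₀⁻¹ * ((k₀ * k' * k₀⁻¹)⁻¹ * (k⁻¹ * h)) * k₀ = k'⁻¹ * (k₀⁻¹ * (k⁻¹ * h) * k₀) := by
      group
    rw [e]; exact hk'P
  have hRD : R ≤ Subgroup.normalizer
      ((N ⊓ Subgroup.normalizer (S : Set G) : Subgroup G) : Set G) := by
    intro a ha
    rw [Subgroup.mem_normalizer_iff]
    intro y
    have e1 := Subgroup.mem_normalizer_iff.mp (hRN ha) y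
    have e2 : y ∈ Subgroup.normalizer (S : Set G) ↔
        a * y * a⁻¹ ∈ Subgroup.normalizer (S : Set G) := by
      have haN := hRS ha
      constructor
      · intro hy
        exact Subgroup.mul_mem _ (Subgroup.mul_mem _ haN hy) (Subgroup.inv_mem _ haN)
      · intro hy
        have : y = a⁻¹ * (a * y * a⁻¹) * a := by group
        rw [this]
        exact Subgroup.mul_mem _ (Subgroup.mul_mem _ (Subgroup.inv_mem _ haN) hy) haN
    exact and_congr e1 e2
  obtain ⟨d, hd, hgd⟩ := Cfsg.Agent.Lib.Helper91.exists_mem_centralizer_coset R N hRN hcopRN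
    (Or.inl hRsolv) (N ⊓ Subgroup.normalizer (S : Set G)) inf_le_left hRD (k₀ * k' * k₀⁻¹) hgN
    (by
      intro a ha
      refine Subgroup.mem_inf.mpr ⟨?_, ?_⟩
      · have h1 : a⁻¹ * (k₀ * k' * k₀⁻¹)⁻¹ * a ∈ N := by
          have := hNn.conj_mem _ (N.inv_mem hgN) a⁻¹
          simpa using this
        exact N.mul_mem h1 hgN
      · have e : a⁻¹ * (k₀ * k' * k₀⁻¹)⁻¹ * a * (k₀ * k' * k₀⁻¹) =
            a⁻¹ * (((k₀ * k' * k₀⁻¹)⁻¹ * (k⁻¹ * h)) * ((k⁻¹ * h)⁻¹ * a * (k⁻¹ * h)) *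
              ((k₀ * k' * k₀⁻¹)⁻¹ * (k⁻¹ * h))⁻¹) := by group
        rw [e]
        have h2 : (k⁻¹ * h)⁻¹ * a * (k⁻¹ * h) ∈ R := by
          have := (Subgroup.mem_normalizer_iff.mp (Subgroup.inv_mem _ hx₀R) a).mp ha
          rwa [inv_inv] at this
        exact Subgroup.mul_mem _ (Subgroup.inv_mem _ (hRS ha))
          (Subgroup.mul_mem _ (Subgroup.mul_mem _ hgS (hRS h2)) (Subgroup.inv_mem _ hgS)))
  obtain ⟨x, hxS, hxR, hqx⟩ : ∃ x : G, x ∈ Subgroup.normalizer (S : Set G) ∧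
      x ∈ Subgroup.normalizer (R : Set G) ∧ q x = f₀ * hb * f₀⁻¹ := by
    refine ⟨(k₀ * k' * k₀⁻¹ * d)⁻¹ * (k⁻¹ * h), ?_, ?_, ?_⟩
    · have e : (k₀ * k' * k₀⁻¹ * d)⁻¹ * (k⁻¹ * h) = d⁻¹ * ((k₀ * k' * k₀⁻¹)⁻¹ * (k⁻¹ * h)) := by
        group
      rw [e]; exact Subgroup.mul_mem _ (Subgroup.inv_mem _ (Subgroup.mem_inf.mp hd).2) hgS
    · exact Subgroup.mul_mem _
        (Subgroup.inv_mem _ (Subgroup.centralizer_le_normalizer _ hgd)) hx₀R
    · rw [map_mul, map_inv, (hqker _).mpr (N.mul_mem hgN (Subgroup.mem_inf.mp hd).1), inv_one,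
        one_mul, hqx₀]
  have hordqx : orderOf (q x) = m := by
    rw [hqx, ← hord]
    exact (MulAut.conj f₀).orderOf_eq hb
  have hxm : x ^ m = 1 := hL x hordqx
  have hordx : orderOf x = m := by
    apply Nat.dvd_antisymm (orderOf_dvd_of_pow_eq_one hxm)
    rw [← hordqx]; exact orderOf_map_dvd q x
  -- Step 7
  obtain ⟨T, hTle, hTmin⟩ := Finite.exists_le_minimal
    (p := fun T : Subgroup G => T ≤ S ∧ R ≤ Subgroup.normalizer (T : Set G) ∧
      x ∈ Subgroup.normalizer (T : Set G) ∧ ¬ R ≤ Subgroup.centralizer (T : Set G))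
    (a := S) ⟨le_rfl, hRS, hxS, hRSc⟩
  obtain ⟨⟨hTS, hRT, hxT, hRTc⟩, hTm⟩ := hTmin
  have hTp : IsPGroup s T := hSp.to_le hTS
  have hTbot : T ≠ ⊥ := by
    rintro rfl
    apply hRTc
    intro a _
    rw [Subgroup.mem_centralizer_iff]
    intro t ht
    have ht1 : t = 1 := Subgroup.mem_bot.mp ht
    rw [ht1, one_mul, mul_one]
  have hT' : ⁅T, T⁆ ≠ T := fun h =>
    hTbot (Cfsg.Agent.Lib.Helper21.eq_bot_of_perfect_of_isPGroup T h hTp)
  have hT'le : ⁅T, T⁆ ≤ T := Subgroup.commutator_le_self T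
  have hRT'c : R ≤ Subgroup.centralizer ((⁅T, T⁆ : Subgroup G) : Set G) := by
    by_contra hc
    apply hT'
    apply le_antisymm hT'le
    refine hTm ⟨hT'le.trans hTS, ?_, ?_, hc⟩ hT'le
    · exact fun a ha =>
        Cfsg.Agent.Lib.Helper61.normalizer_inf_le_normalizer_commutator T T ⟨hRT ha, hRT ha⟩
    · exact Cfsg.Agent.Lib.Helper61.normalizer_inf_le_normalizer_commutator T T ⟨hxT, hxT⟩
  have hTN : T ≤ N := hTS.trans hSN
  have hsN : s ∣ Nat.card N := by
    obtain ⟨n, hn⟩ := IsPGroup.iff_card.mp hTp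
    have hn0 : n ≠ 0 := by
      rintro rfl
      rw [pow_zero] at hn
      exact hTbot (Subgroup.card_eq_one.mp hn)
    exact ((dvd_pow_self s hn0).trans (hn ▸ dvd_rfl)).trans (Subgroup.card_dvd_of_le hTN)
  -- Step 8
  have hordxT : orderOf (⟨x, hxT⟩ : ↥(Subgroup.normalizer (T : Set G))) = m := by
    rw [← hordx]; exact Subgroup.orderOf_mk x hxT
  have hcardR : Nat.card (R.subgroupOf (Subgroup.normalizer (T : Set G))) = Nat.card R :=
    Cfsg.Agent.Lib.Helper1.card_subgroupOf_of_le hRT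
  have key := trace_lemma (conjAb T) (R.subgroupOf (Subgroup.normalizer (T : Set G)))
    ⟨x, hxT⟩ (by rw [hordxT]; exact hm0)
    (by
      intro f hf
      rw [Subgroup.mem_subgroupOf] at hf ⊢
      have := (Subgroup.mem_normalizer_iff.mp (Subgroup.inv_mem _ hxR) (f : G)).mp hf
      rwa [inv_inv] at this)
    (by
      intro f hf hf1 j hj0 hjm heq
      rw [Subgroup.mem_subgroupOf] at hf
      rw [hordxT] at hjm
      have heq' : (f : G) * x ^ j * (f : G)⁻¹ = x ^ j := congrArg Subtype.val heq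
      have hqf : q (f : G) ∈ Fb := hRFt hf
      have hqf1 : q (f : G) ≠ 1 := by
        intro h1
        apply hf1
        have hfN : (f : G) ∈ N := (hqker _).mp h1
        have h2 : (f : G) ∈ R ⊓ N := Subgroup.mem_inf.mpr ⟨hf, hfN⟩
        rw [(Subgroup.disjoint_of_coprime_natCard hcopRN).eq_bot, Subgroup.mem_bot] at h2
        exact Subtype.ext h2
      apply hFA (q f) hqf hqf1 f₀ ((q x) ^ j)
      · rw [hqx, conj_pow]
        have e : f₀⁻¹ * (f₀ * hb ^ j * f₀⁻¹) * f₀ = hb ^ j := by group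
        rw [e]; exact Hb.pow_mem hbH j
      · exact pow_ne_one_of_lt_orderOf hj0.ne' (by rw [hordqx]; exact hjm)
      · rw [← map_pow, ← map_mul, ← map_inv, ← map_mul, heq'])
    (by
      intro v
      obtain ⟨t, rfl⟩ := QuotientGroup.mk_surjective v
      rw [hordxT]
      obtain ⟨p, hp1, hp2⟩ := pow_mul_normalizer T ⟨x, hxT⟩ t m
      have h1 : ((t : G) * x) ^ m = 1 := by
        apply hL
        rw [map_mul, (hqker _).mpr (hTN t.2), one_mul]; exact hordqx
      have hp : p = 1 := by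
        apply Subtype.ext
        have h2 : ((t : G) * x) ^ m = p * x ^ m := hp1
        rw [h1, hxm, mul_one] at h2
        exact h2.symm
      have hp3 : Abelianization.of p = ∏ j ∈ Finset.range m,
          conjAb T ((⟨x, hxT⟩ : ↥(Subgroup.normalizer (T : Set G))) ^ j) (Abelianization.of t) :=
        hp2
      rw [hp, map_one] at hp3
      exact hp3.symm)
    (by
      intro w hw
      rw [hcardR] at hw
      have h1 : orderOf w ∣ Nat.card R := orderOf_dvd_of_pow_eq_one hw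
      have h2 : orderOf w ∣ Nat.card (Abelianization T) := orderOf_dvd_natCard w
      have h3 : Nat.card (Abelianization T) ∣ Nat.card T := Subgroup.card_quotient_dvd_card _
      have hcop2 : (Nat.card R).Coprime (Nat.card T) :=
        hcopRN.coprime_dvd_right (Subgroup.card_dvd_of_le hTN)
      exact orderOf_eq_one_iff.mp (Nat.eq_one_of_dvd_coprimes hcop2 h1 (h2.trans h3)))
  have hcomm : ⁅T, R⁆ ≤ ⁅T, T⁆ := by
    rw [Subgroup.commutator_le]
    intro t ht f hf
    have hfT : f ∈ Subgroup.normalizer (T : Set G) := hRT hf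
    have h1 := key ⟨f, hfT⟩ (by rw [Subgroup.mem_subgroupOf]; exact hf)
      (Abelianization.of ((⟨t, ht⟩ : T)⁻¹))
    rw [conjAb_of] at h1
    have h2 : (⟨t, ht⟩ : T) * (Subgroup.normalizerMonoidHom T ⟨f, hfT⟩ ((⟨t, ht⟩ : T)⁻¹)) ∈
        commutator T := by
      rw [← QuotientGroup.eq_one_iff]
      show Abelianization.of _ = 1
      rw [map_mul, h1, ← map_mul, mul_inv_cancel, map_one]
    have h3 : (((⟨t, ht⟩ : T) * (Subgroup.normalizerMonoidHom T ⟨f, hfT⟩ ((⟨t, ht⟩ : T)⁻¹)) : T) : G)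
        ∈ (commutator T).map T.subtype := ⟨_, h2, rfl⟩
    rw [Subgroup.map_subtype_commutator] at h3
    have e : ⁅t, f⁆ = (((⟨t, ht⟩ : T) *
        (Subgroup.normalizerMonoidHom T ⟨f, hfT⟩ ((⟨t, ht⟩ : T)⁻¹)) : T) : G) := by
      rw [commutatorElement_def, Subgroup.coe_mul, coe_normalizerMonoidHom]
      show t * f * t⁻¹ * f⁻¹ = t * (f * t⁻¹ * f⁻¹)
      group
    rw [e]; exact h3
  apply hRTc
  exact Cfsg.Agent.Lib.Helper61.le_centralizer_of_le_centralizer_commutator s R T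
    (hcopRN.coprime_dvd_right hsN) hTp hRT
    (hRT'c.trans (Subgroup.centralizer_le (SetLike.coe_subset_coe.mpr hcomm)))

end Cfsg.Agent.S3703
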