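import Mathlib
import Cfsg.Statements.S3799
import Cfsg.Agent.S3074

set_option autoImplicit false
open Cfsg

namespace Cfsg.Agent.S3799

/-- The Heisenberg group of degree `n` over a commutative ring. -/
@[ext]
structure Heis (n : ℕ) (F : Type*) where
  a : Fin n → F
  b : Fin n → F
  c : F

namespace Heis

variable {n : ℕ} {F : Type*} [CommRing F]

instance : Mul (Heis n F) := ⟨fun x y => ⟨x.a + y.a, x.b + y.b, x.c + y.c + ∑ i, x.a i * y.b i⟩⟩
instance : One (Heis n F) := ⟨⟨0, 0, 0⟩⟩
instance : Inv (Heis n F) := ⟨fun x => ⟨-x.a, -x.b, -x.c + ∑ i, x.a i * x.b i⟩⟩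

@[simp] theorem mul_a (x y : Heis n F) : (x * y).a = x.a + y.a := rfl
@[simp] theorem mul_b (x y : Heis n F) : (x * y).b = x.b + y.b := rfl
@[simp] theorem mul_c (x y : Heis n F) : (x * y).c = x.c + y.c + ∑ i, x.a i * y.b i := rfl
@[simp] theorem one_a : (1 : Heis n F).a = 0 := rfl
@[simp] theorem one_b : (1 : Heis n F).b = 0 := rfl
@[simp] theorem one_c : (1 : Heis n F).c = 0 := rfl
@[simp] theorem inv_a (x : Heis n F) : (x⁻¹).a = -x.a := rfl
@[simp] theorem inv_b (x : Heis n F) : (x⁻¹).b = -x.b := rfl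
@[simp] theorem inv_c (x : Heis n F) : (x⁻¹).c = -x.c + ∑ i, x.a i * x.b i := rfl

instance : Group (Heis n F) :=
  Group.ofLeftAxioms
    (by
      intro x y z
      ext1
      · simp [add_assoc]
      · simp [add_assoc]
      · simp only [mul_c, mul_a, mul_b, Pi.add_apply, add_mul, mul_add, Finset.sum_add_distrib]
        ring)
    (by
      intro x
      ext1 <;> simp)
    (by
      intro x
      ext1
      · simp
      · simp
      · simp only [mul_c, inv_c, inv_a, Pi.neg_apply, neg_mul, Finset.sum_neg_distrib, one_c]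
        ring)

theorem pow_a (x : Heis n F) (k : ℕ) : (x ^ k).a = k • x.a := by
  induction k with
  | zero => simp
  | succ k ih => rw [pow_succ, mul_a, ih, succ_nsmul]

theorem pow_b (x : Heis n F) (k : ℕ) : (x ^ k).b = k • x.b := by
  induction k with
  | zero => simp
  | succ k ih => rw [pow_succ, mul_b, ih, succ_nsmul]

theorem pow_c (x : Heis n F) (k : ℕ) :
    (x ^ k).c = k • x.c + (k.choose 2) • ∑ i, x.a i * x.b i := by
  induction k with
  | zero => simp
  | succ k ih =>
    rw [pow_succ, mul_c, ih, pow_a]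
    have h : (k + 1).choose 2 = k + k.choose 2 := by
      rw [Nat.choose_succ_succ, Nat.choose_one_right]
    rw [h]
    simp only [Pi.smul_apply, smul_mul_assoc, ← Finset.smul_sum, succ_nsmul, add_smul]
    ring

/-- the linear action on `F × (Fin n → F) × F` -/
def toEnd (x : Heis n F) : Module.End F (F × (Fin n → F) × F) where
  toFun w := (w.1 + ∑ i, x.a i * w.2.1 i + x.c * w.2.2, w.2.1 + w.2.2 • x.b, w.2.2)
  map_add' := by
    intro w w'
    ext
    · simp only [Prod.fst_add, Prod.snd_add, Pi.add_apply, mul_add, Finset.sum_add_distrib]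
      ring
    · simp [add_smul]; ring
    · simp
  map_smul' := by
    intro r w
    ext
    · simp only [Prod.smul_fst, Prod.smul_snd, Pi.smul_apply, smul_eq_mul, RingHom.id_apply,
        mul_add, Finset.mul_sum]
      congr 1
      · congr 1
        apply Finset.sum_congr rfl
        intro i _
        ring
      · ring
    · simp [mul_smul]
    · simp

theorem toEnd_apply (x : Heis n F) (w : F × (Fin n → F) × F) :
    toEnd x w = (w.1 + ∑ i, x.a i * w.2.1 i + x.c * w.2.2, w.2.1 + w.2.2 • x.b, w.2.2) := rfl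

/-- the action as a monoid hom -/
def toEndHom : Heis n F →* Module.End F (F × (Fin n → F) × F) where
  toFun := toEnd
  map_one' := by
    apply LinearMap.ext
    intro w
    rw [toEnd_apply]
    simp
  map_mul' := by
    intro x y
    apply LinearMap.ext
    intro w
    rw [Module.End.mul_apply, toEnd_apply, toEnd_apply, toEnd_apply]
    ext
    · simp only [mul_a, mul_c, Pi.add_apply, add_mul, Finset.sum_add_distrib, mul_add,
        Pi.smul_apply, smul_eq_mul]
      have : ∑ i, x.a i * (w.2.2 * y.b i) = (∑ i, x.a i * y.b i) * w.2.2 := by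
        rw [Finset.sum_mul]
        apply Finset.sum_congr rfl
        intro i _
        ring
      rw [this]
      ring
    · simp [smul_add]; ring
    · simp

theorem toEndHom_injective : Function.Injective (toEndHom (n := n) (F := F)) := by
  intro x y h
  have h1 : ∀ w, toEnd x w = toEnd y w := fun w => by
    have := congrArg (fun f => f w) h
    exact this
  ext1
  · funext i
    have := congrArg Prod.fst (h1 (0, Pi.single i 1, 0))
    simpa [toEnd_apply, Pi.single_apply] using this
  · have := congrArg (fun w => w.2.1) (h1 (0, 0, 1))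
    simpa [toEnd_apply] using this
  · have := congrArg Prod.fst (h1 (0, 0, 1))
    simpa [toEnd_apply] using this

end Heis

open Heis

variable {p : ℕ} [Fact p.Prime] {n : ℕ}

instance : Finite (Heis n (ZMod p)) :=
  Finite.of_injective (fun x : Heis n (ZMod p) => (x.a, x.b, x.c)) (by
    intro x y h
    simp only [Prod.mk.injEq] at h
    exact Heis.ext h.1 h.2.1 h.2.2)

theorem card_heis : Nat.card (Heis n (ZMod p)) = p ^ (1 + 2 * n) := by
  have e : Heis n (ZMod p) ≃ (Fin n → ZMod p) × (Fin n → ZMod p) × ZMod p :=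
    { toFun := fun x => (x.a, x.b, x.c)
      invFun := fun t => ⟨t.1, t.2.1, t.2.2⟩
      left_inv := fun _ => rfl
      right_inv := fun _ => rfl }
  rw [Nat.card_congr e, Nat.card_prod, Nat.card_prod, Nat.card_fun, Nat.card_zmod, Nat.card_fin]
  ring

theorem heis_pow (hp : p ≠ 2) (x : Heis n (ZMod p)) : x ^ p = 1 := by
  have hpp : p.Prime := Fact.out
  have h0 : ((p : ℕ) : ZMod p) = 0 := ZMod.natCast_self p
  have hc : ((p.choose 2 : ℕ) : ZMod p) = 0 := by
    rw [ZMod.natCast_eq_zero_iff]
    apply hpp.dvd_choose_self (by norm_num)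
    have := hpp.two_le
    omega
  ext1
  · rw [pow_a]
    funext i
    simp
  · rw [pow_b]
    funext i
    simp
  · rw [pow_c]
    simp [hc]

/-- the central element -/
def zel (n : ℕ) (p : ℕ) : Heis n (ZMod p) := ⟨0, 0, 1⟩

theorem zel_pow (k : ℕ) : (zel n p) ^ k = ⟨0, 0, (k : ZMod p)⟩ := by
  ext1
  · rw [pow_a]; simp [zel]
  · rw [pow_b]; simp [zel]
  · rw [pow_c]; simp [zel]

theorem mem_zpowers_zel (x : Heis n (ZMod p)) (ha : x.a = 0) (hb : x.b = 0) :
    x ∈ Subgroup.zpowers (zel n p) := by
  have : NeZero p := ⟨(Fact.out : p.Prime).ne_zero⟩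
  rw [Subgroup.mem_zpowers_iff]
  refine ⟨(x.c.val : ℤ), ?_⟩
  rw [zpow_natCast, zel_pow]
  ext1
  · exact ha.symm
  · exact hb.symm
  · simp

/-- the structure of any group isomorphic to the Heisenberg group -/
theorem heis_main (hp : p ≠ 2) (hn : 1 ≤ n) {P : Type*} [Group P] [Finite P]
    (e : P ≃* Heis n (ZMod p)) :
    Cfsg.IsExtraspecial p P ∧ Nat.card P = p ^ (1 + 2 * n) ∧ ∀ x : P, x ^ p = 1 := by
  have hpp : p.Prime := Fact.out
  have hcard : Nat.card P = p ^ (1 + 2 * n) := by rw [Nat.card_congr e.toEquiv, card_heis]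
  have hpow1 : ∀ x : P, x ^ p = 1 := by
    intro x
    apply e.injective
    rw [map_pow, map_one]
    exact heis_pow hp _
  let w : P := e.symm (zel n p)
  have hw : e w = zel n p := e.apply_symm_apply _
  have hmem : ∀ g : P, (e g).a = 0 → (e g).b = 0 → g ∈ Subgroup.zpowers w := by
    intro g ha hb
    obtain ⟨k, hk⟩ := Subgroup.mem_zpowers_iff.mp (mem_zpowers_zel (e g) ha hb)
    rw [Subgroup.mem_zpowers_iff]
    refine ⟨k, ?_⟩
    apply e.injective
    rw [map_zpow, hw]
    exact hk
  have hw1 : w ≠ 1 := by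
    intro h1
    have h2 : (e w).c = 0 := by rw [h1, map_one]; rfl
    rw [hw] at h2
    exact one_ne_zero h2
  have hP : IsPGroup p P := IsPGroup.of_card hcard
  have hZc : Subgroup.zpowers w ≤ Subgroup.center P := by
    rw [Subgroup.zpowers_le, Subgroup.mem_center_iff]
    intro g
    apply e.injective
    rw [map_mul, map_mul, hw]
    ext1
    · simp [zel]
    · simp [zel]
    · simp [zel, add_comm]
  have hZcard : Nat.card (Subgroup.zpowers w) = p := by
    rw [Nat.card_zpowers]
    exact orderOf_eq_prime (hpow1 w) hw1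
  have i0 : Fin n := ⟨0, hn⟩
  refine ⟨Cfsg.Agent.S3074.extraspecial_of p hP (Subgroup.zpowers w) hZc hZcard ?_ ?_ ?_ ?_,
    hcard, hpow1⟩
  · intro x
    rw [hpow1]; exact Subgroup.one_mem _
  · intro x y
    apply hmem
    · simp
    · simp
  · refine ⟨e.symm ⟨Pi.single i0 1, 0, 0⟩, e.symm ⟨0, Pi.single i0 1, 0⟩, ?_⟩
    intro h
    have h1 := congrArg (fun g => (e g).c) h
    simp only [map_mul, MulEquiv.apply_symm_apply, mul_c] at h1
    rw [Finset.sum_eq_single i0 (by intro j _ hj; simp [Pi.single_eq_of_ne hj]) (by simp)] at h1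
    simp at h1
  · intro g hg
    rw [Subgroup.mem_center_iff] at hg
    apply hmem
    · funext i
      have h1 := congrArg (fun g => (e g).c) (hg (e.symm ⟨0, Pi.single i 1, 0⟩))
      simp only [map_mul, MulEquiv.apply_symm_apply, mul_c] at h1
      simp [Pi.single_apply] at h1
      first | exact h1 | exact h1.symm
    · funext i
      have h1 := congrArg (fun g => (e g).c) (hg (e.symm ⟨Pi.single i 1, 0, 0⟩))
      simp only [map_mul, MulEquiv.apply_symm_apply, mul_c] at h1
      simp [Pi.single_apply] at h1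
      first | exact h1 | exact h1.symm

/-- Statement S3799. -/
theorem result (p : ℕ) [Fact p.Prime] (hp : p ≠ 2) (n : ℕ) (hn : 1 ≤ n) : ∃ E : Subgroup (Matrix.GeneralLinearGroup (Fin (n + 2)) (ZMod p)), Cfsg.IsExtraspecial p ↥E ∧ Nat.card E = p ^ (1 + 2 * n) ∧ ∀ x ∈ E, x ^ p = 1 := by
  have hfr : Module.finrank (ZMod p) (ZMod p × (Fin n → ZMod p) × ZMod p) = n + 2 := by
    simp [Module.finrank_prod]
    ring
  let B := Module.finBasisOfFinrankEq (ZMod p) (ZMod p × (Fin n → ZMod p) × ZMod p) hfr
  let ψ : Heis n (ZMod p) →* Matrix.GeneralLinearGroup (Fin (n + 2)) (ZMod p) :=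
    (Units.mapEquiv (LinearMap.toMatrixAlgEquiv B).toMulEquiv).toMonoidHom.comp
      (toEndHom (n := n) (F := ZMod p)).toHomUnits
  have hψ : Function.Injective ψ := by
    intro x y h
    have h1 : (toEndHom (n := n) (F := ZMod p)).toHomUnits x =
        (toEndHom (n := n) (F := ZMod p)).toHomUnits y :=
      (Units.mapEquiv (LinearMap.toMatrixAlgEquiv B).toMulEquiv).injective h
    apply toEndHom_injective
    have h2 := congrArg Units.val h1
    simpa using h2
  refine ⟨ψ.range, ?_⟩
  have e : ↥ψ.range ≃* Heis n (ZMod p) := (MonoidHom.ofInjective hψ).symm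
  obtain ⟨h1, h2, h3⟩ := heis_main hp hn e
  refine ⟨h1, h2, ?_⟩
  intro x hx
  have := h3 ⟨x, hx⟩
  have h4 := congrArg Subtype.val this
  simpa using h4


end Cfsg.Agent.S3799
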