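import Cfsg.Statements.S3805
import Cfsg.Agent.Lib.Helper9.S3805.Assembly
import Cfsg.Agent.Lib.Helper9.S3805.Exc
import Cfsg.Agent.Lib.Helper13.S3805.TI
import Cfsg.Agent.Lib.Helper13.S3805.CArith
import Cfsg.Agent.Lib.Helper13.S3805.Syl
import Cfsg.Agent.Lib.Helper80.S3805.CLin3
import Cfsg.Agent.Lib.Helper80.S3805.CTwist
import Cfsg.Agent.Lib.Helper93.S3805.TISum
import Cfsg.Agent.Lib.Helper10.S3805.CCong
import Cfsg.Agent.Lib.Helper87.S3805.SetupA
import Cfsg.Agent.Lib.Helper22.S3805.Ker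
import Cfsg.Agent.Lib.Helper62.S3805.SetupB
import Cfsg.Agent.Lib.Helper24.S3805.CLin2
import Cfsg.Agent.Lib.Helper85.S3805.End
import Cfsg.Agent.Lib.Helper11.S3805.CCount

set_option autoImplicit false
open Cfsg

namespace Cfsg.Agent.S3805

/-- Let G be a finite group whose Sylow 3-subgroup T is elementary abelian of order 9 and self-centralizing, with N_G(T)/T a Klein four-group, and suppose that the centralizer of every nonidentity element of T lies in N_G(T). Then T is normal in G. -/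
theorem result {G : Type*} [Group G] [Finite G]
    (T : Sylow 3 G) (hT : Cfsg.IsElementaryAbelian 3 (T : Subgroup G)) (hcard : Nat.card T = 9)
    (hC : Subgroup.centralizer ((T : Subgroup G) : Set G) = T)
    [hn : ((T : Subgroup G).subgroupOf (Subgroup.normalizer ((T : Subgroup G) : Set G))).Normal]
    (hK : IsKleinFour (↥(Subgroup.normalizer ((T : Subgroup G) : Set G)) ⧸
      (T : Subgroup G).subgroupOf (Subgroup.normalizer ((T : Subgroup G) : Set G))))
    (hloc : ∀ t ∈ (T : Subgroup G), t ≠ 1 →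
      Subgroup.centralizer ({t} : Set G) ≤ Subgroup.normalizer ((T : Subgroup G) : Set G)) :
    Subgroup.normalizer ((T : Subgroup G) : Set G) = ⊤ := by
  exact Cfsg.Agent.Lib.Helper9.S3805.main_of_pkgs
    Cfsg.Agent.Lib.Helper87.S3805.pkgSetupA Cfsg.Agent.Lib.Helper62.S3805.pkgSetupB
    Cfsg.Agent.Lib.Helper13.S3805.pkgTI Cfsg.Agent.Lib.Helper13.S3805.pkgTIA
    Cfsg.Agent.Lib.Helper9.S3805.pkgExc Cfsg.Agent.Lib.Helper22.S3805.pkgKer
    Cfsg.Agent.Lib.Helper13.S3805.pkgSyl Cfsg.Agent.Lib.Helper85.S3805.pkgEnd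
    Cfsg.Agent.Lib.Helper93.S3805.pkgTISum Cfsg.Agent.Lib.Helper11.S3805.pkgCCount
    Cfsg.Agent.Lib.Helper24.S3805.pkgCLin2
    (Cfsg.Agent.Lib.Helper80.S3805.pkgCLin3 Cfsg.Agent.Lib.Helper13.S3805.pkgTIA)
    (Cfsg.Agent.Lib.Helper80.S3805.pkgCTwist Cfsg.Agent.Lib.Helper13.S3805.pkgTIA)
    Cfsg.Agent.Lib.Helper10.S3805.pkgCCong Cfsg.Agent.Lib.Helper13.S3805.pkgCArith
    T hT hcard hC hK hloc

end Cfsg.Agent.S3805
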