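import Mathlib
import Cfsg.Statements.S3815

set_option autoImplicit false
open Cfsg

namespace Cfsg.Agent.S3815

/-- the set of good elements, as a subgroup -/
def goodSubgroup (G : Type*) [Group G] [Finite G] (p : ℕ) : Subgroup G where
  carrier := {d | ∀ g : G, (orderOf g).Coprime p → (orderOf (d * g)).Coprime p}
  one_mem' := by
    intro g hg
    simpa using hg
  mul_mem' := by
    intro a b ha hb g hg
    rw [mul_assoc]
    exact ha _ (hb g hg)
  inv_mem' := by
    intro a ha
    have hpow : ∀ n : ℕ, ∀ g : G, (orderOf g).Coprime p → (orderOf (a ^ n * g)).Coprime p := by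
      intro n
      induction n with
      | zero => intro g hg; simpa using hg
      | succ n ih =>
        intro g hg
        rw [pow_succ, mul_assoc]
        exact ih _ (ha g hg)
    have hinv : a⁻¹ = a ^ (orderOf a - 1) := by
      apply inv_eq_of_mul_eq_one_left
      rw [← pow_succ, Nat.sub_add_cancel (orderOf_pos a), pow_orderOf_eq_one]
    intro g hg
    rw [hinv]
    exact hpow _ g hg

theorem mem_goodSubgroup {G : Type*} [Group G] [Finite G] (p : ℕ) (d : G) :
    d ∈ goodSubgroup G p ↔ ∀ g : G, (orderOf g).Coprime p → (orderOf (d * g)).Coprime p := Iff.rfl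

theorem goodSubgroup_normal (G : Type*) [Group G] [Finite G] (p : ℕ) : (goodSubgroup G p).Normal := by
  constructor
  intro d hd x g hg
  have e : x * d * x⁻¹ * g = MulAut.conj x (d * (x⁻¹ * g * x)) := by
    simp only [MulAut.conj_apply]
    group
  rw [e, MulEquiv.orderOf_eq]
  apply hd
  have e2 : x⁻¹ * g * x = MulAut.conj x⁻¹ g := by
    simp [MulAut.conj_apply]
  rw [e2, MulEquiv.orderOf_eq]
  exact hg

theorem goodSubgroup_card (G : Type*) [Group G] [Finite G] (p : ℕ) [Fact p.Prime] :
    (Nat.card (goodSubgroup G p)).Coprime p := by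
  have hp : p.Prime := Fact.out
  rw [Nat.coprime_comm, Nat.Prime.coprime_iff_not_dvd hp]
  intro hdvd
  obtain ⟨x, hx⟩ := exists_prime_orderOf_dvd_card' p hdvd
  have h1 := x.2 1 (by simp)
  rw [mul_one, Subgroup.orderOf_coe, hx] at h1
  exact hp.one_lt.ne' ((Nat.coprime_self p).mp h1)

/-- Let G be a finite group, p a prime and d ∈ G an element of order prime to p. If dg has order prime to p for every element g ∈ G of order prime to p, then d ∈ O_{p'}(G). -/
theorem result {G : Type*} [Group G] [Finite G] {p : ℕ} [Fact p.Prime]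
    (d : G) (hd : (orderOf d).Coprime p)
    (h : ∀ g : G, (orderOf g).Coprime p → (orderOf (d * g)).Coprime p) :
    d ∈ Cfsg.pPrimeCore p G := by
  have hle : goodSubgroup G p ≤ Cfsg.pPrimeCore p G :=
    le_sSup ⟨goodSubgroup_normal G p, goodSubgroup_card G p⟩
  exact hle h

end Cfsg.Agent.S3815
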