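import Mathlib
import Cfsg.Agent.Lib.Helper61.CoresInt
import Cfsg.Agent.Lib.Helper61.Coprime
import Cfsg.Agent.Lib.Helper61.AbGen
import Cfsg.Agent.Lib.Helper91.Coprime2
import Cfsg.Agent.S0026
import Cfsg.Agent.S0028
import Cfsg.Statements.S3819

set_option autoImplicit false

namespace Cfsg.Agent.S3819

open scoped commutatorElement

/-- Lifting a fixed point of a `q`-element modulo a normal `q'`-subgroup. -/
theorem exists_mul_commute {G : Type*} [Group G] [Finite G] (q : ℕ) [Fact q.Prime]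
    (M : Subgroup G) [hMn : M.Normal] (hM : (Nat.card M).Coprime q) (z r : G)
    (hz : ∃ k : ℕ, orderOf z = q ^ k) (h : z * r * z⁻¹ * r⁻¹ ∈ M) :
    ∃ m ∈ M, Commute z (r * m) := by
  have hq : q.Prime := Fact.out
  let W : Subgroup G :=
    (Subgroup.centralizer ({QuotientGroup.mk' M r} : Set (G ⧸ M))).comap (QuotientGroup.mk' M)
  have hW : ∀ g ∈ W, r⁻¹ * g * r * g⁻¹ ∈ M := by
    intro g hg
    have h1 : QuotientGroup.mk' M g ∈
        Subgroup.centralizer ({QuotientGroup.mk' M r} : Set (G ⧸ M)) := hg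
    rw [Subgroup.mem_centralizer_iff] at h1
    have h1' := h1 _ (Set.mem_singleton _)
    have h2 : QuotientGroup.mk' M (r⁻¹ * g * r * g⁻¹) = 1 := by
      simp only [map_mul, map_inv]
      rw [mul_assoc (QuotientGroup.mk' M r)⁻¹, ← h1']
      group
    exact (QuotientGroup.eq_one_iff _).mp h2
  have hzW : z ∈ W := by
    show QuotientGroup.mk' M z ∈ Subgroup.centralizer ({QuotientGroup.mk' M r} : Set (G ⧸ M))
    rw [Subgroup.mem_centralizer_iff]
    intro x hx
    rw [Set.mem_singleton_iff] at hx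
    subst hx
    have h2 : QuotientGroup.mk' M (z * r * z⁻¹ * r⁻¹) = 1 := (QuotientGroup.eq_one_iff _).mpr h
    simp only [map_mul, map_inv] at h2
    have h3 := mul_inv_eq_one.mp h2
    have h4 := mul_inv_eq_iff_eq_mul.mp h3
    exact h4.symm
  have hzW' : Subgroup.zpowers z ≤ W := Subgroup.zpowers_le.mpr hzW
  letI : MulAction (Subgroup.zpowers z) M :=
    { smul := fun g m => ⟨r⁻¹ * (g : G) * r * (m : G) * (g : G)⁻¹, by
        have h1 := hW g (hzW' g.2)
        have h2 : (g : G) * m * (g : G)⁻¹ ∈ M := hMn.conj_mem _ m.2 _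
        have h3 : r⁻¹ * (g : G) * r * (m : G) * (g : G)⁻¹ =
            (r⁻¹ * g * r * (g : G)⁻¹) * (g * m * (g : G)⁻¹) := by group
        rw [h3]; exact M.mul_mem h1 h2⟩
      one_smul := fun m => by
        apply Subtype.ext
        show r⁻¹ * ((1 : Subgroup.zpowers z) : G) * r * (m : G) *
          ((1 : Subgroup.zpowers z) : G)⁻¹ = m
        simp
      mul_smul := fun g h m => by
        apply Subtype.ext
        show r⁻¹ * ((g * h : Subgroup.zpowers z) : G) * r * (m : G) *
            ((g * h : Subgroup.zpowers z) : G)⁻¹ =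
          r⁻¹ * (g : G) * r * (r⁻¹ * (h : G) * r * (m : G) * (h : G)⁻¹) * (g : G)⁻¹
        simp only [Subgroup.coe_mul]
        group }
  have hpg : IsPGroup q (Subgroup.zpowers z) := by
    obtain ⟨k, hk⟩ := hz
    exact IsPGroup.of_card (n := k) (by rw [Nat.card_zpowers, hk])
  have hnd : ¬ q ∣ Nat.card M := (Nat.Prime.coprime_iff_not_dvd hq).mp hM.symm
  obtain ⟨m, hm⟩ := hpg.nonempty_fixed_point_of_prime_not_dvd_card M hnd
  refine ⟨m, m.2, ?_⟩
  have h1 := hm ⟨z, Subgroup.mem_zpowers z⟩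
  have h2 : r⁻¹ * z * r * (m : G) * z⁻¹ = m := congrArg Subtype.val h1
  show z * (r * m) = r * m * z
  calc z * (r * m) = r * (r⁻¹ * z * r * m * z⁻¹) * z := by group
    _ = r * m * z := by rw [h2]

/-- A `q'`-subgroup `Y ≤ K` normalized by `K` lies in `O_{q'}(K)`. -/
theorem le_coreOf {X : Type*} [Group X] (q : ℕ) (K Y : Subgroup X) (hYK : Y ≤ K)
    (hKY : K ≤ Subgroup.normalizer (Y : Set X)) (hY : (Nat.card Y).Coprime q) :
    Y ≤ (Cfsg.pPrimeCore q ↥K).map K.subtype := by
  have hn : (Y.subgroupOf K).Normal := (Subgroup.normal_subgroupOf_iff_le_normalizer hYK).mpr hKY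
  have hc : (Nat.card (Y.subgroupOf K)).Coprime q := by
    rw [Nat.card_congr (Subgroup.subgroupOfEquivOfLe hYK).toEquiv]
    exact hY
  have h1 : Y.subgroupOf K ≤ Cfsg.pPrimeCore q ↥K := le_sSup ⟨hn, hc⟩
  have h2 := Subgroup.map_mono (f := K.subtype) h1
  rwa [Subgroup.map_subgroupOf_eq_of_le hYK] at h2

/-- `H` normalizes `[H, K]`. -/
theorem left_le_normalizer_commutator {X : Type*} [Group X] (H K : Subgroup X) :
    H ≤ Subgroup.normalizer ((⁅H, K⁆ : Subgroup X) : Set X) := by
  rw [Subgroup.le_normalizer_iff]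
  intro x hx y hy
  have hm : (⁅H, K⁆).map (MulAut.conj x).toMonoidHom ≤ ⁅H, K⁆ := by
    rw [Subgroup.commutator_def, MonoidHom.map_closure, Subgroup.closure_le]
    rintro _ ⟨_, ⟨h, hh, k, hk, rfl⟩, rfl⟩
    have e : (MulAut.conj x).toMonoidHom ⁅h, k⁆ = ⁅x * h, k⁆ * ⁅x, k⁆⁻¹ := by
      simp only [MulEquiv.toMonoidHom_eq_coe, MonoidHom.coe_coe, MulAut.conj_apply,
        commutatorElement_def]
      group
    rw [SetLike.mem_coe, e, ← Subgroup.commutator_def]
    exact Subgroup.mul_mem _ (Subgroup.commutator_mem_commutator (H.mul_mem hx hh) hk)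
      (Subgroup.inv_mem _ (Subgroup.commutator_mem_commutator hx hk))
  exact hm ⟨y, hy, by simp [MulAut.conj_apply]⟩

theorem mem_normalizer_inf {X : Type*} [Group X] {A B : Subgroup X} {g : X}
    (hA : g ∈ Subgroup.normalizer (A : Set X)) (hB : g ∈ Subgroup.normalizer (B : Set X)) :
    g ∈ Subgroup.normalizer ((A ⊓ B : Subgroup X) : Set X) := by
  rw [Subgroup.mem_normalizer_iff] at hA hB ⊢
  intro h
  rw [Subgroup.mem_inf, Subgroup.mem_inf, hA h, hB h]

theorem mem_normalizer_sup {X : Type*} [Group X] {A B : Subgroup X} {g : X}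
    (hA : g ∈ Subgroup.normalizer (A : Set X)) (hB : g ∈ Subgroup.normalizer (B : Set X)) :
    g ∈ Subgroup.normalizer ((A ⊔ B : Subgroup X) : Set X) := by
  rw [sup_eq_iSup]
  refine Cfsg.Agent.Lib.Helper61.mem_normalizer_iSup _ g ?_
  intro b
  cases b
  · exact hB
  · exact hA

open Cfsg.Agent.Lib.Helper61 in
theorem result {G : Type*} [Group G] [Finite G] {p : ℕ} [Fact p.Prime]
    (P : Sylow p G) (hPH : Cfsg.pPrimeCore p G ⊔ (P : Subgroup G) = ⊤)
    (hsol : Group.IsSolvable ↥⁅Cfsg.pPrimeCore p G, (P : Subgroup G)⁆)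
    {q : ℕ} [Fact q.Prime] (z : G) (hzH : z ∈ Cfsg.pPrimeCore p G) (hzP : z ∈ Subgroup.centralizer ((P : Subgroup G) : Set G))
    (hz : ∃ k : ℕ, orderOf z = q ^ k) :
    ((Cfsg.pPrimeCore q ↥(Cfsg.pPrimeCore p G ⊓ Subgroup.centralizer ({z} : Set G))).map
        (Cfsg.pPrimeCore p G ⊓ Subgroup.centralizer ({z} : Set G)).subtype ⊓
      (Cfsg.pPrimeCore q ↥(Cfsg.pPrimeCore p G ⊓ Subgroup.centralizer ((P : Subgroup G) : Set G))).map
        (Cfsg.pPrimeCore p G ⊓ Subgroup.centralizer ((P : Subgroup G) : Set G)).subtype) ⊔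
    ⁅(Cfsg.pPrimeCore q ↥(Cfsg.pPrimeCore p G ⊓ Subgroup.centralizer ({z} : Set G))).map
        (Cfsg.pPrimeCore p G ⊓ Subgroup.centralizer ({z} : Set G)).subtype, (P : Subgroup G)⁆ ≤
    (Cfsg.pPrimeCore q ↥(Cfsg.pPrimeCore p G)).map (Cfsg.pPrimeCore p G).subtype := by
  have hp : p.Prime := Fact.out
  have hq : q.Prime := Fact.out
  set Hc : Subgroup G := Cfsg.pPrimeCore p G with hHc
  have hHn : Hc.Normal := by
    haveI := Cfsg.Agent.Lib.Helper23.pPrimeCore_characteristic p G
    infer_instance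
  have hHcop : (Nat.card Hc).Coprime p := Cfsg.Agent.Lib.Helper55.pPrimeCore_coprime p G
  set S : Subgroup G := ⁅Hc, (P : Subgroup G)⁆ with hS
  haveI : Group.IsSolvable ↥S := hsol
  have hSH : S ≤ Hc := Subgroup.commutator_le_left Hc _
  have hSn : S.Normal := by
    rw [← Subgroup.normalizer_eq_top_iff, eq_top_iff, ← hPH]
    refine sup_le (left_le_normalizer_commutator Hc _) ?_
    refine le_trans (le_inf ?_ Subgroup.le_normalizer)
      (normalizer_inf_le_normalizer_commutator Hc (P : Subgroup G))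
    rw [Subgroup.normalizer_eq_top]; exact le_top
  set M : Subgroup G := (Cfsg.pPrimeCore q ↥S).map S.subtype with hMdef
  set R : Subgroup G := (Cfsg.pPrimePCore q ↥S).map S.subtype with hRdef
  have hMn : M.Normal := by
    rw [← Subgroup.normalizer_eq_top_iff, eq_top_iff]
    refine le_trans ?_ (normalizer_le_normalizer_map_of_characteristic S _
      (Cfsg.Agent.Lib.Helper23.pPrimeCore_characteristic q ↥S))
    rw [Subgroup.normalizer_eq_top]
  have hRn : R.Normal := by
    rw [← Subgroup.normalizer_eq_top_iff, eq_top_iff]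
    refine le_trans ?_ (normalizer_le_normalizer_map_of_characteristic S _
      (Cfsg.Agent.Lib.Helper23.pPrimePCore_characteristic q ↥S))
    rw [Subgroup.normalizer_eq_top]
  have hMS : M ≤ S := Subgroup.map_subtype_le _
  have hRS : R ≤ S := Subgroup.map_subtype_le _
  have hMR : M ≤ R := by
    refine Subgroup.map_mono ?_
    intro x hx
    show QuotientGroup.mk' (Cfsg.pPrimeCore q ↥S) x ∈ Cfsg.pCore q (↥S ⧸ Cfsg.pPrimeCore q ↥S)
    have h1 : QuotientGroup.mk' (Cfsg.pPrimeCore q ↥S) x = 1 := (QuotientGroup.eq_one_iff x).mpr hx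
    rw [h1]
    exact Subgroup.one_mem _
  have hMq : (Nat.card M).Coprime q := by
    rw [hMdef, Subgroup.card_map_of_injective S.subtype_injective]
    exact Cfsg.Agent.Lib.Helper55.pPrimeCore_coprime q ↥S
  have hHH : ∀ x ∈ S, (∀ y ∈ R, ⁅x, y⁆ ∈ M) → x ∈ R := fun x hx hc =>
    mem_pPrimePCore_of_commutator_mem q S hx hc
  have hRM : ∀ x ∈ R, (orderOf x).Coprime q → x ∈ M := fun x hx hc =>
    mem_pPrimeCore_of_mem_pPrimePCore_of_coprime q S hx hc
  have hRpow : ∀ x ∈ R, ∃ k : ℕ, x ^ (q ^ k) ∈ M := fun x hx =>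
    exists_pow_mem_pPrimeCore_of_mem_pPrimePCore q S hx
  set CHz : Subgroup G := Hc ⊓ Subgroup.centralizer ({z} : Set G) with hCHz
  set CHP : Subgroup G := Hc ⊓ Subgroup.centralizer ((P : Subgroup G) : Set G) with hCHP
  set D : Subgroup G := (Cfsg.pPrimeCore q ↥CHz).map CHz.subtype with hD
  set E0 : Subgroup G := (Cfsg.pPrimeCore q ↥CHP).map CHP.subtype with hE0
  have hDCHz : D ≤ CHz := Subgroup.map_subtype_le _
  have hE0CHP : E0 ≤ CHP := Subgroup.map_subtype_le _
  have hDq : (Nat.card D).Coprime q := by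
    rw [hD, Subgroup.card_map_of_injective CHz.subtype_injective]
    exact Cfsg.Agent.Lib.Helper55.pPrimeCore_coprime q ↥CHz
  have hE0q : (Nat.card E0).Coprime q := by
    rw [hE0, Subgroup.card_map_of_injective CHP.subtype_injective]
    exact Cfsg.Agent.Lib.Helper55.pPrimeCore_coprime q ↥CHP
  have hDn : CHz ≤ Subgroup.normalizer (D : Set G) :=
    le_normalizer_map_of_normal CHz _ (by
      haveI := Cfsg.Agent.Lib.Helper23.pPrimeCore_characteristic q ↥CHz
      infer_instance)
  have hE0n : CHP ≤ Subgroup.normalizer (E0 : Set G) :=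
    le_normalizer_map_of_normal CHP _ (by
      haveI := Cfsg.Agent.Lib.Helper23.pPrimeCore_characteristic q ↥CHP
      infer_instance)
  have hPCHz : (P : Subgroup G) ≤ Subgroup.normalizer (CHz : Set G) := by
    rw [Subgroup.le_normalizer_iff]
    intro g hg x hx
    refine ⟨hHn.conj_mem x hx.1 g, ?_⟩
    have hgz : g * z = z * g := (Subgroup.mem_centralizer_iff.mp hzP) g hg
    have hxz : z * x = x * z := (Subgroup.mem_centralizer_iff.mp hx.2) z (Set.mem_singleton z)
    show g * x * g⁻¹ ∈ Subgroup.centralizer ({z} : Set G)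
    rw [Subgroup.mem_centralizer_iff]
    intro h hh
    rw [Set.mem_singleton_iff] at hh
    subst hh
    have hgz' : g⁻¹ * h = h * g⁻¹ := by
      calc g⁻¹ * h = g⁻¹ * (h * g) * g⁻¹ := by group
        _ = g⁻¹ * (g * h) * g⁻¹ := by rw [hgz]
        _ = h * g⁻¹ := by group
    calc h * (g * x * g⁻¹) = (h * g) * x * g⁻¹ := by group
      _ = (g * h) * x * g⁻¹ := by rw [hgz]
      _ = g * (h * x) * g⁻¹ := by group
      _ = g * (x * h) * g⁻¹ := by rw [hxz]
      _ = g * x * (h * g⁻¹) := by group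
      _ = g * x * (g⁻¹ * h) := by rw [hgz']
      _ = g * x * g⁻¹ * h := by group
  have hPD : (P : Subgroup G) ≤ Subgroup.normalizer (D : Set G) :=
    hPCHz.trans (normalizer_le_normalizer_map_of_characteristic CHz _
      (Cfsg.Agent.Lib.Helper23.pPrimeCore_characteristic q ↥CHz))
  have hDord : ∀ d ∈ D, (orderOf d).Coprime q := by
    intro d hd
    have h1 : orderOf (⟨d, hd⟩ : D) ∣ Nat.card D := orderOf_dvd_natCard _
    rw [Subgroup.orderOf_mk] at h1
    exact Nat.Coprime.coprime_dvd_left h1 hDq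
  -- Step 1: D centralizes R modulo M
  have step1 : D.map (QuotientGroup.mk' M) ≤ Subgroup.centralizer
      ((R.map (QuotientGroup.mk' M) : Subgroup (G ⧸ M)) : Set (G ⧸ M)) := by
    haveI hRbn : (R.map (QuotientGroup.mk' M)).Normal :=
      Subgroup.Normal.map hRn _ (QuotientGroup.mk'_surjective M)
    refine Cfsg.Agent.S0028.result q (Subgroup.zpowers (QuotientGroup.mk' M z))
      (D.map (QuotientGroup.mk' M)) (R.map (QuotientGroup.mk' M)) ?_ ?_ ?_ ?_ ?_ ?_ ?_
    · obtain ⟨k, hk⟩ := hz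
      have h1 : orderOf (QuotientGroup.mk' M z) ∣ q ^ k := by
        rw [← hk]; exact orderOf_map_dvd _ z
      obtain ⟨j, -, hj⟩ := (Nat.dvd_prime_pow hq).mp h1
      exact IsPGroup.of_card (n := j) (by rw [Nat.card_zpowers, hj])
    · exact Nat.Coprime.coprime_dvd_left (Subgroup.card_map_dvd D _) hDq
    · rintro ⟨_, ⟨r, hr, rfl⟩⟩
      obtain ⟨k, hk⟩ := hRpow r hr
      refine ⟨k, Subtype.ext ?_⟩
      show (QuotientGroup.mk' M r) ^ (q ^ k) = 1
      rw [← map_pow]; exact (QuotientGroup.eq_one_iff _).mpr hk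
    · rw [Subgroup.zpowers_le, Subgroup.mem_centralizer_iff]
      rintro _ ⟨d, hd, rfl⟩
      have hdz : z * d = d * z :=
        (Subgroup.mem_centralizer_iff.mp (hDCHz hd).2) z (Set.mem_singleton z)
      show QuotientGroup.mk' M d * QuotientGroup.mk' M z =
        QuotientGroup.mk' M z * QuotientGroup.mk' M d
      rw [← map_mul, ← map_mul, hdz]
    · rw [Subgroup.normalizer_eq_top]; exact le_top
    · rw [Subgroup.normalizer_eq_top]; exact le_top
    · rintro _ ⟨⟨r, hr, rfl⟩, hu2⟩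
      have hcomm : QuotientGroup.mk' M z * QuotientGroup.mk' M r =
          QuotientGroup.mk' M r * QuotientGroup.mk' M z :=
        (Subgroup.mem_centralizer_iff.mp hu2) _ (Subgroup.mem_zpowers _)
      have hzr : z * r * z⁻¹ * r⁻¹ ∈ M := by
        have h2 : QuotientGroup.mk' M (z * r * z⁻¹ * r⁻¹) = 1 := by
          simp only [map_mul, map_inv]
          rw [hcomm]
          group
        exact (QuotientGroup.eq_one_iff _).mp h2
      obtain ⟨m, hm, hcm⟩ := exists_mul_commute q M hMq z r hz hzr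
      have hr' : r * m ∈ R := R.mul_mem hr (hMR hm)
      have hr'z : r * m ∈ CHz := by
        refine ⟨hSH (hRS hr'), ?_⟩
        show r * m ∈ Subgroup.centralizer ({z} : Set G)
        rw [Subgroup.mem_centralizer_iff]
        intro h hh
        rw [Set.mem_singleton_iff] at hh
        subst hh
        exact hcm.eq
      rw [Subgroup.mem_centralizer_iff]
      rintro _ ⟨d, hd, rfl⟩
      have hw1 : ⁅d, r * m⁆ ∈ D := by
        have h3 := (Subgroup.le_normalizer_iff.mp hDn) (r * m) hr'z d⁻¹ (D.inv_mem hd)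
        have e : ⁅d, r * m⁆ = d * ((r * m) * d⁻¹ * (r * m)⁻¹) := by
          simp [commutatorElement_def, mul_assoc]
        rw [e]; exact D.mul_mem hd h3
      have hw2 : ⁅d, r * m⁆ ∈ R := by
        have h3 := hRn.conj_mem (r * m) hr' d
        have e : ⁅d, r * m⁆ = (d * (r * m) * d⁻¹) * (r * m)⁻¹ := by
          simp [commutatorElement_def]
        rw [e]; exact R.mul_mem h3 (R.inv_mem hr')
      have hw3 : ⁅d, r * m⁆ ∈ M := hRM _ hw2 (hDord _ hw1)
      have h5 : QuotientGroup.mk' M ⁅d, r * m⁆ = 1 := (QuotientGroup.eq_one_iff _).mpr hw3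
      have h6 : QuotientGroup.mk' M m = 1 := (QuotientGroup.eq_one_iff _).mpr hm
      rw [map_commutatorElement, map_mul, h6, mul_one] at h5
      exact (commutatorElement_eq_one_iff_commute.mp h5).eq
  have step1' : ∀ d ∈ D, ∀ r ∈ R, ⁅d, r⁆ ∈ M := by
    intro d hd r hr
    have h1 := step1 ⟨d, hd, rfl⟩
    rw [Subgroup.mem_centralizer_iff] at h1
    have h2 := h1 _ ⟨r, hr, rfl⟩
    have h3 : QuotientGroup.mk' M ⁅d, r⁆ = 1 := by
      rw [map_commutatorElement, commutatorElement_eq_one_iff_commute]; exact h2.symm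
    exact (QuotientGroup.eq_one_iff _).mp h3
  have step2 : D ⊓ S ≤ M := by
    intro x hx
    have h1 : x ∈ R := hHH x hx.2 (fun y hy => step1' x hx.1 y hy)
    exact hRM x h1 (hDord x hx.1)
  have step3 : ⁅D, (P : Subgroup G)⁆ ≤ M := by
    refine le_trans ?_ step2
    rw [Subgroup.commutator_le]
    intro d hd g hg
    refine ⟨?_, Subgroup.commutator_mem_commutator (hDCHz hd).1 hg⟩
    have h3 := (Subgroup.le_normalizer_iff.mp hPD) g hg d⁻¹ (D.inv_mem hd)
    have e : ⁅d, g⁆ = d * (g * d⁻¹ * g⁻¹) := by simp [commutatorElement_def, mul_assoc]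
    rw [e]; exact D.mul_mem hd h3
  have hMT : M ≤ (Cfsg.pPrimeCore q ↥Hc).map Hc.subtype :=
    le_coreOf q Hc M (hMS.trans hSH) (by rw [Subgroup.normalizer_eq_top]; exact le_top) hMq
  -- Step 5
  set CC : Subgroup G := (Subgroup.centralizer
    ((R.map (QuotientGroup.mk' M) : Subgroup (G ⧸ M)) : Set (G ⧸ M))).comap
      (QuotientGroup.mk' M) with hCC
  have hCCn : CC.Normal := by
    haveI : (R.map (QuotientGroup.mk' M)).Normal :=
      Subgroup.Normal.map hRn _ (QuotientGroup.mk'_surjective M)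
    exact Subgroup.Normal.comap inferInstance _
  set C : Subgroup G := Hc ⊓ CC with hC
  have hCn : C.Normal := Subgroup.normal_inf_normal Hc CC
  have hDCC : D ≤ CC := Subgroup.map_le_iff_le_comap.mp step1
  have hCCmem : ∀ x ∈ CC, ∀ r ∈ R, ⁅x, r⁆ ∈ M := by
    intro x hx r hr
    have h1 : QuotientGroup.mk' M x ∈ Subgroup.centralizer
      ((R.map (QuotientGroup.mk' M) : Subgroup (G ⧸ M)) : Set (G ⧸ M)) := hx
    rw [Subgroup.mem_centralizer_iff] at h1
    have h2 := h1 _ ⟨r, hr, rfl⟩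
    have h3 : QuotientGroup.mk' M ⁅x, r⁆ = 1 := by
      rw [map_commutatorElement, commutatorElement_eq_one_iff_commute]; exact h2.symm
    exact (QuotientGroup.eq_one_iff _).mp h3
  have hCS : C ⊓ S ≤ R := fun x hx => hHH x hx.2 (hCCmem x hx.1.2)
  have hMCC : M ≤ CC := by
    intro m hm
    show QuotientGroup.mk' M m ∈ Subgroup.centralizer
      ((R.map (QuotientGroup.mk' M) : Subgroup (G ⧸ M)) : Set (G ⧸ M))
    have h1 : QuotientGroup.mk' M m = 1 := (QuotientGroup.eq_one_iff m).mpr hm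
    rw [h1]; exact Subgroup.one_mem _
  have hMC : M ≤ C := le_inf (hMS.trans hSH) hMCC
  set Y : Subgroup G := (E0 ⊓ C) ⊔ M with hY
  have hYC : Y ≤ C := sup_le inf_le_right hMC
  have hYq : (Nat.card Y).Coprime q := by
    have h1 := Cfsg.Agent.Lib.Helper91.card_sup_mul_card_inf_of_le_normalizer M (E0 ⊓ C)
      (by rw [Subgroup.normalizer_eq_top]; exact le_top)
    have h2 : Nat.card Y ∣ Nat.card M * Nat.card (E0 ⊓ C : Subgroup G) := by
      rw [hY, sup_comm, ← h1]; exact dvd_mul_right _ _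
    have h3 : (Nat.card (E0 ⊓ C : Subgroup G)).Coprime q :=
      Nat.Coprime.coprime_dvd_left (Subgroup.card_dvd_of_le inf_le_left) hE0q
    exact Nat.Coprime.coprime_dvd_left h2 (Nat.Coprime.mul_left hMq h3)
  have hCY : C ≤ Subgroup.normalizer (Y : Set G) := by
    have hPsolv : Group.IsSolvable (P : Subgroup G) := by
      haveI : Group.IsNilpotent (P : Subgroup G) := P.isPGroup'.isNilpotent
      infer_instance
    have hdec := Cfsg.Agent.S0026.result (P : Subgroup G) C
      (by rw [Subgroup.normalizer_eq_top]; exact le_top)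
      (by
        have h1 : (Nat.card C).Coprime p :=
          Nat.Coprime.coprime_dvd_left (Subgroup.card_dvd_of_le inf_le_left) hHcop
        obtain ⟨n, hn⟩ := P.isPGroup'.exists_card_eq
        rw [hn]; exact Nat.Coprime.pow_left n h1.symm)
      (Or.inl hPsolv)
    rw [← hdec]
    refine sup_le ?_ ?_
    · have h1 : ⁅C, (P : Subgroup G)⁆ ≤ R ⊓ C := by
        have ha : ⁅C, (P : Subgroup G)⁆ ≤ C := Subgroup.commutator_le_left C _
        have hb : ⁅C, (P : Subgroup G)⁆ ≤ S := Subgroup.commutator_mono inf_le_left le_rfl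
        exact le_inf (fun x hx => hCS ⟨ha hx, hb hx⟩) ha
      refine h1.trans ?_
      rw [Subgroup.le_normalizer_iff]
      rintro r ⟨hrR, hrC⟩ y hy
      rw [hY] at hy
      obtain ⟨e, he, m, hm, rfl⟩ := Subgroup.mem_sup_of_normal_right.mp hy
      have hcomm : ⁅r, e⁆ ∈ M := by
        have h3 := hCCmem e he.2.2 r hrR
        have e' : ⁅r, e⁆ = ⁅e, r⁆⁻¹ := (commutatorElement_inv e r).symm
        rw [e']; exact M.inv_mem h3
      have e2 : r * (e * m) * r⁻¹ = ⁅r, e⁆ * e * (r * m * r⁻¹) := by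
        simp [commutatorElement_def, mul_assoc]
      rw [e2]
      exact Y.mul_mem (Y.mul_mem (le_sup_right (a := E0 ⊓ C) hcomm) (le_sup_left (b := M) he))
        (le_sup_right (a := E0 ⊓ C) (hMn.conj_mem m hm r))
    · intro g hg
      have hgCHP : g ∈ CHP := ⟨hg.1.1, hg.2⟩
      have h1 : g ∈ Subgroup.normalizer ((E0 ⊓ C : Subgroup G) : Set G) :=
        mem_normalizer_inf (hE0n hgCHP) (by rw [Subgroup.normalizer_eq_top]; exact Subgroup.mem_top g)
      have h2 : g ∈ Subgroup.normalizer (M : Set G) := by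
        rw [Subgroup.normalizer_eq_top]; exact Subgroup.mem_top g
      exact mem_normalizer_sup h1 h2
  have hYO : Y ≤ (Cfsg.pPrimeCore q ↥C).map C.subtype := le_coreOf q C Y hYC hCY hYq
  have hOCT : (Cfsg.pPrimeCore q ↥C).map C.subtype ≤ (Cfsg.pPrimeCore q ↥Hc).map Hc.subtype := by
    refine le_coreOf q Hc _ ((Subgroup.map_subtype_le _).trans inf_le_left) ?_ ?_
    · refine le_trans ?_ (normalizer_le_normalizer_map_of_characteristic C _
        (Cfsg.Agent.Lib.Helper23.pPrimeCore_characteristic q ↥C))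
      rw [Subgroup.normalizer_eq_top]; exact le_top
    · rw [Subgroup.card_map_of_injective C.subtype_injective]
      exact Cfsg.Agent.Lib.Helper55.pPrimeCore_coprime q ↥C
  refine sup_le ?_ (step3.trans hMT)
  intro x hx
  have hxD : x ∈ D := hx.1
  have hxE : x ∈ E0 := hx.2
  exact hOCT (hYO (le_sup_left (b := M) ⟨hxE, (hDCHz hxD).1, hDCC hxD⟩))

end Cfsg.Agent.S3819
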