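import Mathlib
import Cfsg.Statements.S3821

set_option autoImplicit false
open Cfsg

namespace Cfsg.Agent.S3821

theorem map_conj_mul {G : Type*} [Group G] (H : Subgroup G) (a b : G) :
    H.map (MulAut.conj (a * b)).toMonoidHom =
      (H.map (MulAut.conj b).toMonoidHom).map (MulAut.conj a).toMonoidHom := by
  rw [Subgroup.map_map]
  congr 1
  ext y
  simp [mul_assoc]

theorem map_conj_le {G : Type*} [Group G] (H J : Subgroup G) (a : G) (ha : a ∈ J) (hH : H ≤ J) :
    H.map (MulAut.conj a).toMonoidHom ≤ J := by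
  rintro y ⟨h, hh, rfl⟩
  simp only [MulEquiv.toMonoidHom_eq_coe, MonoidHom.coe_coe, MulAut.conj_apply]
  exact J.mul_mem (J.mul_mem ha (hH hh)) (J.inv_mem ha)

theorem map_conj_le_normal {G : Type*} [Group G] (H A : Subgroup G) [A.Normal] (g : G) (hH : H ≤ A) :
    H.map (MulAut.conj g).toMonoidHom ≤ A := by
  rintro y ⟨h, hh, rfl⟩
  simp only [MulEquiv.toMonoidHom_eq_coe, MonoidHom.coe_coe, MulAut.conj_apply]
  exact Subgroup.Normal.conj_mem inferInstance h (hH hh) g

theorem map_conj_one {G : Type*} [Group G] (H : Subgroup G) :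
    H.map (MulAut.conj (1 : G)).toMonoidHom = H := by
  ext y
  simp

theorem mem_normalizer_of_map_eq {G : Type*} [Group G] (H : Subgroup G) (g x : G)
    (h : H.map (MulAut.conj g).toMonoidHom = H.map (MulAut.conj x).toMonoidHom) :
    x⁻¹ * g ∈ Subgroup.normalizer (H : Set G) := by
  rw [Subgroup.mem_normalizer_iff_map_conj_eq]
  have := map_conj_mul H x⁻¹ g
  rw [h, ← map_conj_mul, inv_mul_cancel, map_conj_one] at this
  exact this

theorem map_conj_of_mem_normalizer {G : Type*} [Group G] (H : Subgroup G) (n : G)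
    (h : n ∈ Subgroup.normalizer (H : Set G)) :
    H.map (MulAut.conj n).toMonoidHom = H := by
  rw [Subgroup.mem_normalizer_iff_map_conj_eq] at h
  exact h

theorem subgroupOf_map_conj {G : Type*} [Group G] (H A : Subgroup G) (a : A) :
    (H.subgroupOf A).map (MulAut.conj a).toMonoidHom =
      (H.map (MulAut.conj (a : G)).toMonoidHom).subgroupOf A := by
  ext y
  simp only [Subgroup.mem_map, Subgroup.mem_subgroupOf, MulEquiv.toMonoidHom_eq_coe,
    MonoidHom.coe_coe, MulAut.conj_apply]
  constructor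
  · rintro ⟨h, hh, rfl⟩
    exact ⟨(h : G), hh, by simp⟩
  · rintro ⟨h, hh, hy⟩
    refine ⟨a⁻¹ * y * a, ?_, ?_⟩
    · have : ((a⁻¹ * y * a : A) : G) = h := by
        simp only [Subgroup.coe_mul, Subgroup.coe_inv, ← hy]
        group
      rw [this]
      exact hh
    · group

/-- Let A be a normal subgroup of the finite group G and H a subgroup of A. Then H is pronormal in G (H and gHg⁻¹ conjugate inside ⟨H, gHg⁻¹⟩ for every g ∈ G) if and only if H is pronormal in A and G = A · N_G(H). -/
theorem result {G : Type*} [Group G] [Finite G] (A H : Subgroup G) [A.Normal] (hHA : H ≤ A) :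
    Cfsg.IsPronormal H ↔ (Cfsg.IsPronormal (H.subgroupOf A) ∧ A ⊔ Subgroup.normalizer (H : Set G) = ⊤) := by
  constructor
  · intro h
    constructor
    · intro a
      obtain ⟨x, hx, hxH⟩ := h (a : G)
      have hle : H.map (MulAut.conj (a : G)).toMonoidHom ≤ A := map_conj_le_normal H A _ hHA
      have hxA : x ∈ A := (sup_le hHA hle) hx
      refine ⟨⟨x, hxA⟩, ?_, ?_⟩
      · rw [subgroupOf_map_conj, ← Subgroup.subgroupOf_sup hHA hle]
        exact hx
      · rw [subgroupOf_map_conj, subgroupOf_map_conj, hxH]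
    · rw [eq_top_iff]
      intro g _
      obtain ⟨x, hx, hxH⟩ := h g
      have hle : H.map (MulAut.conj g).toMonoidHom ≤ A := map_conj_le_normal H A _ hHA
      have hxA : x ∈ A := (sup_le hHA hle) hx
      have hn := mem_normalizer_of_map_eq H g x hxH
      have : g = x * (x⁻¹ * g) := by group
      rw [this]
      exact Subgroup.mul_mem _ (Subgroup.mem_sup_left hxA) (Subgroup.mem_sup_right hn)
  · rintro ⟨h1, h2⟩ g
    have hg : g ∈ A ⊔ Subgroup.normalizer (H : Set G) := by rw [h2]; trivial
    rw [← SetLike.mem_coe, Subgroup.normal_mul, Set.mem_mul] at hg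
    obtain ⟨a, ha, n, hn, rfl⟩ := hg
    obtain ⟨x, hx, hxH⟩ := h1 ⟨a, ha⟩
    have hle : H.map (MulAut.conj a).toMonoidHom ≤ A := map_conj_le_normal H A _ hHA
    have hle' : H.map (MulAut.conj (x : G)).toMonoidHom ≤ A := map_conj_le_normal H A _ hHA
    rw [subgroupOf_map_conj, ← Subgroup.subgroupOf_sup hHA hle] at hx
    rw [subgroupOf_map_conj, subgroupOf_map_conj, Subgroup.subgroupOf_inj,
      inf_of_le_left hle, inf_of_le_left hle'] at hxH
    have e : H.map (MulAut.conj (a * n)).toMonoidHom = H.map (MulAut.conj a).toMonoidHom := by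
      rw [map_conj_mul, map_conj_of_mem_normalizer H n hn]
    refine ⟨(x : G), ?_, ?_⟩
    · rw [e]; exact hx
    · rw [e]; exact hxH

end Cfsg.Agent.S3821
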