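-- Statement S3825: an involution with two fixed points on a normalized subgroup.
import Mathlib
import Cfsg.Statements.S3825

set_option autoImplicit false
open Cfsg

namespace Cfsg.Agent.S3825

/-- Let U be a subgroup of a finite group H and w an involution of H normalizing U and commuting with exactly two elements of U, the identity and y. If V is a non-cyclic elementary abelian 2-subgroup of U containing y which is normal in U and invariant under w, then V is a Sylow 2-subgroup of U, V has order 4, and U/V is abelian. -/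
theorem result {H : Type*} [Group H] [Finite H] (U : Subgroup H) (w : H) (hw : orderOf w = 2)
    (hwU : w ∈ Subgroup.normalizer (U : Set H)) (y : H) (hy : y ≠ 1) (hyU : y ∈ U)
    (hfix : ∀ u ∈ U, w * u * w⁻¹ = u ↔ (u = 1 ∨ u = y))
    (V : Subgroup H) (hVU : V ≤ U) (hVn : (V.subgroupOf U).Normal) (hVw : ∀ v ∈ V, w * v * w⁻¹ ∈ V)
    (hVe : Cfsg.IsElementaryAbelian 2 V) (hVc : ¬ IsCyclic ↥V) (hyV : y ∈ V) :
    ¬ 2 ∣ V.relIndex U ∧ Nat.card ↥V = 4 ∧ ⁅U, U⁆ ≤ V := by
  classical
  obtain ⟨hVcomm, hVsq⟩ := hVe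
  have comm : ∀ a ∈ V, ∀ b ∈ V, a * b = b * a := fun a ha b hb => setLike_mul_comm ha hb
  have hinv : ∀ v ∈ V, v⁻¹ = v := by
    intro v hv
    have := hVsq v hv
    rw [pow_two] at this
    exact inv_eq_of_mul_eq_one_left this
  have hw2 : w * w = 1 := by
    have := pow_orderOf_eq_one w
    rwa [hw, pow_two] at this
  have hwinv : w⁻¹ = w := inv_eq_of_mul_eq_one_left hw2
  -- conjugation by w
  have hcU : ∀ u ∈ U, w * u * w⁻¹ ∈ U := fun u hu =>
    ((Subgroup.mem_normalizer_iff.1 hwU) u).1 hu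
  have hcc : ∀ u : H, w * (w * u * w⁻¹) * w⁻¹ = u := by
    intro u
    rw [hwinv]
    calc w * (w * u * w) * w = (w * w) * u * (w * w) := by group
      _ = u := by rw [hw2]; group
  have hcmul : ∀ a b : H, w * (a * b) * w⁻¹ = (w * a * w⁻¹) * (w * b * w⁻¹) := by
    intro a b; group
  have hy2 : y * y = 1 := by
    have := hVsq y hyV
    rwa [pow_two] at this
  have hyfix : w * y * w⁻¹ = y := (hfix y hyU).2 (Or.inr rfl)
  -- Step 1: on V, conjugation by w is `v ↦ v` or `v ↦ v * y`
  have hstep1 : ∀ v ∈ V, v ≠ 1 → v ≠ y → w * v * w⁻¹ = v * y := by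
    intro v hv hv1 hvy
    have hcv : w * v * w⁻¹ ∈ V := hVw v hv
    have hfixed : w * (v * (w * v * w⁻¹)) * w⁻¹ = v * (w * v * w⁻¹) := by
      rw [hcmul, hcc, comm _ hcv _ hv]
    have hmemU : v * (w * v * w⁻¹) ∈ U := hVU (V.mul_mem hv hcv)
    rcases (hfix _ hmemU).1 hfixed with h | h
    · exfalso
      have h1 : w * v * w⁻¹ = v := by
        have := eq_inv_of_mul_eq_one_right h
        rw [this, hinv v hv]
      rcases (hfix v (hVU hv)).1 h1 with h2 | h2
      · exact hv1 h2
      · exact hvy h2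
    · have : w * v * w⁻¹ = v⁻¹ * y := by
        rw [← h]; group
      rw [this, hinv v hv]
  -- Step 2: an element of V outside {1, y}
  have hex : ∃ a ∈ V, a ≠ 1 ∧ a ≠ y := by
    by_contra hcon
    push Not at hcon
    apply hVc
    refine ⟨⟨⟨y, hyV⟩, ?_⟩⟩
    rintro ⟨v, hv⟩
    by_cases h1 : v = 1
    · subst h1
      exact ⟨0, Subtype.ext (by simp)⟩
    · have := hcon v hv h1
      subst this
      exact ⟨1, Subtype.ext (by simp)⟩
  obtain ⟨a, haV, ha1, hay⟩ := hex
  have hca : w * a * w⁻¹ = a * y := hstep1 a haV ha1 hay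
  -- Step 3: the order of V is 4
  have hsub : (V : Set H) ⊆ (({1, y, a, a * y} : Finset H) : Set H) := by
    intro v hv
    have hv' : v ∈ V := hv
    simp only [Finset.coe_insert, Finset.coe_singleton, Set.mem_insert_iff, Set.mem_singleton_iff]
    by_cases h1 : v = 1
    · exact Or.inl h1
    by_cases h2 : v = y
    · exact Or.inr (Or.inl h2)
    have hcv := hstep1 v hv' h1 h2
    have hfixed : w * (v * a) * w⁻¹ = v * a := by
      rw [hcmul, hcv, hca]
      calc v * y * (a * y) = v * (y * a) * y := by group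
        _ = v * (a * y) * y := by rw [comm y hyV a haV]
        _ = v * a * (y * y) := by group
        _ = v * a := by rw [hy2, mul_one]
    rcases (hfix _ (hVU (V.mul_mem hv' haV))).1 hfixed with h | h
    · right; right; left
      have := eq_inv_of_mul_eq_one_left h
      rw [this, hinv a haV]
    · right; right; right
      have : v = y * a⁻¹ := by rw [← h]; group
      rw [this, hinv a haV, comm y hyV a haV]
  have hle4 : Nat.card V ≤ 4 := by
    have hVcard : Nat.card V = (V : Set H).ncard := Nat.card_coe_set_eq (V : Set H)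
    rw [hVcard]
    calc (V : Set H).ncard ≤ ((({1, y, a, a * y} : Finset H) : Set H)).ncard :=
          Set.ncard_le_ncard hsub (Finset.finite_toSet _)
      _ = ({1, y, a, a * y} : Finset H).card := Set.ncard_coe_finset _
      _ ≤ 4 := Finset.card_le_four
  have hVp : IsPGroup 2 V := by
    intro v
    refine ⟨1, ?_⟩
    apply Subtype.ext
    simpa using hVsq v v.2
  have hfact2 : Fact (Nat.Prime 2) := ⟨Nat.prime_two⟩
  obtain ⟨n, hn⟩ := (IsPGroup.iff_card (p := 2) (G := V)).1 hVp
  have hcard4 : Nat.card V = 4 := by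
    have hn2 : 2 ≤ n := by
      by_contra hlt
      push Not at hlt
      interval_cases n
      · apply hVc
        have : Subsingleton V := (Nat.card_eq_one_iff_unique.1 (by simpa using hn)).1
        exact isCyclic_of_subsingleton
      · apply hVc
        exact isCyclic_of_prime_card (p := 2) (by simpa using hn)
    have h4 : 2 ^ 2 ≤ 2 ^ n := Nat.pow_le_pow_right (by norm_num) hn2
    omega
  -- Step 4: no fixed cosets outside V
  have hstep4 : ∀ u ∈ U, u⁻¹ * (w * u * w⁻¹) ∈ V → u ∈ V := by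
    intro u hu hmem
    set v₀ := u⁻¹ * (w * u * w⁻¹) with hv₀
    have hcu : w * u * w⁻¹ = u * v₀ := by rw [hv₀]; group
    have h1 : u * v₀ * (w * v₀ * w⁻¹) = u := by
      have := hcc u
      rw [hcu, hcmul, hcu] at this
      exact this
    have h2 : v₀ * (w * v₀ * w⁻¹) = 1 := by
      have : u * (v₀ * (w * v₀ * w⁻¹)) = u * 1 := by rw [mul_one, ← mul_assoc, h1]
      exact mul_left_cancel this
    have h3 : w * v₀ * w⁻¹ = v₀ := by
      have := eq_inv_of_mul_eq_one_right h2
      rw [this, hinv v₀ hmem]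
    rcases (hfix v₀ (hVU hmem)).1 h3 with h | h
    · have h4 : w * u * w⁻¹ = u := by rw [hcu, h, mul_one]
      rcases (hfix u hu).1 h4 with h5 | h5
      · rw [h5]; exact V.one_mem
      · rw [h5]; exact hyV
    · have hfixed : w * (u * a) * w⁻¹ = u * a := by
        rw [hcmul, hcu, hca, h]
        calc u * y * (a * y) = u * (y * a) * y := by group
          _ = u * (a * y) * y := by rw [comm y hyV a haV]
          _ = u * a * (y * y) := by group
          _ = u * a := by rw [hy2, mul_one]
      have huaU : u * a ∈ U := U.mul_mem hu (hVU haV)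
      have huaV : u * a ∈ V := by
        rcases (hfix _ huaU).1 hfixed with h5 | h5
        · rw [h5]; exact V.one_mem
        · rw [h5]; exact hyV
      have : u = (u * a) * a⁻¹ := by group
      rw [this]
      exact V.mul_mem huaV (V.inv_mem haV)
  -- Step 5: the quotient U / V
  let N : Subgroup U := V.subgroupOf U
  have hNn : N.Normal := hVn
  let φ : U →* U :=
    { toFun := fun u => ⟨w * (u : H) * w⁻¹, hcU u u.2⟩
      map_one' := by
        apply Subtype.ext
        simp
      map_mul' := fun a b => by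
        apply Subtype.ext
        simp only [Subgroup.coe_mul]
        exact hcmul a b }
  have hφ : ∀ u : U, ((φ u : U) : H) = w * (u : H) * w⁻¹ := fun _ => rfl
  have hφφ : ∀ u : U, φ (φ u) = u := by
    intro u
    apply Subtype.ext
    rw [hφ, hφ, hcc]
  have hNle : N ≤ N.comap φ := by
    intro u hu
    rw [Subgroup.mem_comap, Subgroup.mem_subgroupOf, hφ]
    exact hVw _ (Subgroup.mem_subgroupOf.1 hu)
  let ψ : U ⧸ N →* U ⧸ N := QuotientGroup.map N N φ hNle
  have hψmk : ∀ u : U, ψ (QuotientGroup.mk u) = QuotientGroup.mk (φ u) :=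
    fun u => QuotientGroup.map_mk N N φ hNle u
  have hψψ : ∀ q : U ⧸ N, ψ (ψ q) = q := by
    intro q
    obtain ⟨u, rfl⟩ := QuotientGroup.mk_surjective q
    rw [hψmk, hψmk, hφφ]
  have hψfix : ∀ q : U ⧸ N, ψ q = q → q = 1 := by
    intro q hq
    obtain ⟨u, rfl⟩ := QuotientGroup.mk_surjective q
    rw [hψmk] at hq
    have h1 : u⁻¹ * φ u ∈ N := QuotientGroup.eq.1 hq.symm
    rw [Subgroup.mem_subgroupOf] at h1
    have h2 : (u : H) ∈ V := by
      apply hstep4 u u.2
      simpa [hφ] using h1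
    exact (QuotientGroup.eq_one_iff u).2 (Subgroup.mem_subgroupOf.2 h2)
  have hinj : Function.Injective (fun q : U ⧸ N => q⁻¹ * ψ q) := by
    intro q q' h
    simp only at h
    have h1 : ψ (q' * q⁻¹) = q' * q⁻¹ := by
      rw [map_mul, map_inv]
      have : ψ q' = q' * (q⁻¹ * ψ q) := by rw [h]; group
      rw [this]; group
    have h2 := hψfix _ h1
    exact (mul_inv_eq_one.1 h2).symm
  have hsurj : Function.Surjective (fun q : U ⧸ N => q⁻¹ * ψ q) :=
    Finite.injective_iff_surjective.1 hinj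
  have hψinv : ∀ q : U ⧸ N, ψ q = q⁻¹ := by
    intro q
    obtain ⟨r, rfl⟩ := hsurj q
    simp only
    rw [map_mul, map_inv, hψψ]
    group
  have hQcomm : ∀ q₁ q₂ : U ⧸ N, q₁ * q₂ = q₂ * q₁ := by
    intro q₁ q₂
    have h1 : ψ (q₁ * q₂) = (q₁ * q₂)⁻¹ := hψinv _
    rw [map_mul, hψinv, hψinv] at h1
    have h2 : (q₁ * q₂)⁻¹ = (q₂ * q₁)⁻¹ := by rw [← h1]; group
    exact inv_injective h2
  refine ⟨?_, hcard4, ?_⟩
  · intro hdvd
    have hdvd' : 2 ∣ Nat.card (U ⧸ N) := hdvd
    obtain ⟨q, hq⟩ := exists_prime_orderOf_dvd_card' (G := U ⧸ N) 2 hdvd'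
    have hq2 : q * q = 1 := by
      have := pow_orderOf_eq_one q
      rwa [hq, pow_two] at this
    have hqinv : q⁻¹ = q := inv_eq_of_mul_eq_one_left hq2
    have hq1 : q = 1 := hψfix q (by rw [hψinv, hqinv])
    rw [hq1, orderOf_one] at hq
    exact absurd hq (by norm_num)
  · rw [Subgroup.commutator_le]
    intro g₁ hg₁ g₂ hg₂
    have h1 : (QuotientGroup.mk ((⟨g₁, hg₁⟩ : U) * ⟨g₂, hg₂⟩ * (⟨g₁, hg₁⟩ : U)⁻¹ * (⟨g₂, hg₂⟩ : U)⁻¹) :
        U ⧸ N) = 1 := by
      simp only [QuotientGroup.mk_mul, QuotientGroup.mk_inv]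
      rw [hQcomm (QuotientGroup.mk ⟨g₁, hg₁⟩) (QuotientGroup.mk ⟨g₂, hg₂⟩)]
      group
    have h2 := (QuotientGroup.eq_one_iff _).1 h1
    rw [Subgroup.mem_subgroupOf] at h2
    simpa [commutatorElement_def] using h2

end Cfsg.Agent.S3825
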