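import Cfsg.Statements.S3835
-- import your own Cfsg.Agent.* helpers here

import Mathlib
import Cfsg.Agent.Lib.Helper37.QdAlt

set_option autoImplicit false
open Cfsg

namespace Cfsg.Agent.S3835

open Cfsg.Agent.Lib.Helper37

/-- Let p be an odd prime and n a natural number. The alternating group of degree n has a subgroup isomorphic to Qd(p) (the natural semidirect product of an elementary abelian group of order p² by SL₂(p)) if and only if n ≥ p²; and if n < p² then Qd(p) is not even involved in it. -/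
theorem result {p : ℕ} [Fact p.Prime] (hp : p ≠ 2) (n : ℕ) : ((∃ H : Subgroup (alternatingGroup (Fin n)), Nonempty (↥H ≃* ↥(Cfsg.qd p))) ↔ p ^ 2 ≤ n) ∧ (n < p ^ 2 → ¬ Cfsg.Involves ↥(Cfsg.qd p) ↥(alternatingGroup (Fin n))) := by
  have key : n < p ^ 2 → ¬ Cfsg.Involves ↥(Cfsg.qd p) ↥(alternatingGroup (Fin n)) := by
    intro hn
    obtain ⟨U, hU, x, hx, y, hy, hxy⟩ := qd_noncomm_pgroup (p := p)
    refine not_involves_of_comm' (p := p) ?_ U hU x y hx hy hxy
    intro P hP a ha b hb
    have h := perm_pgroup_comm hn (P.map (alternatingGroup (Fin n)).subtype) (hP.map _)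
      (a : Equiv.Perm (Fin n)) (b : Equiv.Perm (Fin n)) ⟨a, ha, rfl⟩ ⟨b, hb, rfl⟩
    exact Subtype.ext h
  refine ⟨⟨?_, exists_qd_in_alt hp n⟩, key⟩
  rintro ⟨H, ⟨e⟩⟩
  by_contra hcon
  exact key (by omega) (involves_of_span' H.subtype H.subtype_injective e.toMonoidHom e.surjective)

end Cfsg.Agent.S3835
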