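import Mathlib
import Cfsg.Statements.S3838
import Cfsg.Agent.Lib.Helper55.Tate
import Cfsg.Agent.Lib.Helper53.Basic

set_option autoImplicit false
open Cfsg

namespace Cfsg.Agent.S3838

/-- abstract form: `Q` normal in `X`, `Q ≤ Φ(P)`, and `P/Q` central in `N_X(P)/Q` -/
theorem hasNormalPComplement_of_frattini {X : Type*} [Group X] [Finite X] {p : ℕ} [Fact p.Prime]
    (P : Sylow p X) (Q : Subgroup X) [hQn : Q.Normal] (hQP : Q ≤ P)
    (ha : ∀ y ∈ Subgroup.normalizer ((P : Subgroup X) : Set X), ∀ u ∈ P, y * u * y⁻¹ * u⁻¹ ∈ Q)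
    (hb : Q ≤ (frattini ↥(P : Subgroup X)).map (P : Subgroup X).subtype) :
    Cfsg.HasNormalPComplement p X := by
  have hsurj := QuotientGroup.mk'_surjective Q
  obtain ⟨Pb, hPb⟩ : ∃ Pb : Sylow p (X ⧸ Q),
      (Pb : Subgroup (X ⧸ Q)) = (P : Subgroup X).map (QuotientGroup.mk' Q) :=
    ⟨P.mapSurjective hsurj, Sylow.coe_mapSurjective hsurj P⟩
  have hNC : Subgroup.normalizer ((Pb : Subgroup (X ⧸ Q)) : Set (X ⧸ Q)) ≤
      Subgroup.centralizer ((Pb : Subgroup (X ⧸ Q)) : Set (X ⧸ Q)) := by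
    intro yb hyb
    obtain ⟨y, rfl⟩ := hsurj yb
    have hy : y ∈ Subgroup.normalizer ((P : Subgroup X) : Set X) := by
      have h1 : y ∈ (Subgroup.normalizer ((Pb : Subgroup (X ⧸ Q)) : Set (X ⧸ Q))).comap
          (QuotientGroup.mk' Q) := hyb
      rw [Subgroup.comap_normalizer_eq_of_surjective _ hsurj] at h1
      have h2 : (Pb : Subgroup (X ⧸ Q)).comap (QuotientGroup.mk' Q) = P := by
        rw [hPb, Subgroup.comap_map_eq, QuotientGroup.ker_mk', sup_eq_left]
        exact hQP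
      rw [h2] at h1
      exact h1
    rw [Subgroup.mem_centralizer_iff]
    intro ub hub
    have hub' : ub ∈ (Pb : Subgroup (X ⧸ Q)) := hub
    rw [hPb] at hub'
    obtain ⟨u, hu, rfl⟩ := hub'
    have h3 := ha y hy u hu
    have h4 : (QuotientGroup.mk' Q) (y * u * y⁻¹ * u⁻¹) = 1 :=
      (QuotientGroup.eq_one_iff _).mpr h3
    simp only [map_mul, map_inv] at h4
    have h5 := mul_inv_eq_one.mp h4
    have h6 := mul_inv_eq_iff_eq_mul.mp h5
    exact h6.symm
  have hcompl := MonoidHom.ker_transferSylow_isComplement' Pb hNC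
  obtain ⟨Kb, hKb⟩ : ∃ Kb : Subgroup (X ⧸ Q), Kb = (MonoidHom.transferSylow Pb hNC).ker :=
    ⟨_, rfl⟩
  rw [← hKb] at hcompl
  have hKbn : Kb.Normal := by rw [hKb]; infer_instance
  obtain ⟨K, hK⟩ : ∃ K : Subgroup X, K = Kb.comap (QuotientGroup.mk' Q) := ⟨_, rfl⟩
  have hKn : K.Normal := by rw [hK]; infer_instance
  obtain ⟨k, hk⟩ := IsPGroup.iff_card.mp Pb.2
  have hKidx : K.index = p ^ k := by
    rw [hK, Subgroup.index_comap_of_surjective _ hsurj, hcompl.symm.index_eq_card]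
    exact hk
  have hKP : K ⊓ (P : Subgroup X) ≤ (frattini ↥(P : Subgroup X)).map (P : Subgroup X).subtype := by
    refine le_trans ?_ hb
    intro x hx
    obtain ⟨hxK, hxP⟩ := Subgroup.mem_inf.mp hx
    have h1 : (QuotientGroup.mk' Q x) ∈ Kb ⊓ (Pb : Subgroup (X ⧸ Q)) := by
      refine Subgroup.mem_inf.mpr ⟨?_, ?_⟩
      · rw [hK] at hxK
        exact hxK
      · rw [hPb]
        exact ⟨x, hxP, rfl⟩
    rw [hcompl.disjoint.eq_bot, Subgroup.mem_bot] at h1
    exact (QuotientGroup.eq_one_iff x).mp h1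
  obtain ⟨S, L, hLn, hLS⟩ := Cfsg.Agent.Lib.Helper55.tate_normal_pComplement P K hKP
  obtain ⟨K', hK'n, hK'c⟩ :=
    Cfsg.Agent.Lib.Helper53.exists_normal_complement_of_normal_subgroup K hKidx S L hLS P
  exact ⟨P, K', hK'n, hK'c⟩

/-- if `N_G(P)` has a normal `p`-complement then `N_G(P)` acts on `P` like `P` does, modulo
the derived subgroup of `P` -/
theorem comm_mem_of_hasNormalPComplement {G : Type*} [Group G] [Finite G] {p : ℕ} [Fact p.Prime]
    (P : Sylow p G)
    (hN : Cfsg.HasNormalPComplement p ↥(Subgroup.normalizer ((P : Subgroup G) : Set G)))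
    (n : G) (hn : n ∈ Subgroup.normalizer ((P : Subgroup G) : Set G)) (u : G) (hu : u ∈ P) :
    n * u * n⁻¹ * u⁻¹ ∈ (commutator ↥(P : Subgroup G)).map (P : Subgroup G).subtype := by
  obtain ⟨S, T, hTn, hTS⟩ := hN
  have hnorm : ((P.subtype Subgroup.le_normalizer :
      Sylow p ↥(Subgroup.normalizer ((P : Subgroup G) : Set G))) :
      Subgroup ↥(Subgroup.normalizer ((P : Subgroup G) : Set G))).Normal := by
    rw [Sylow.coe_subtype]
    exact Subgroup.normal_in_normalizer
  have huniq := Sylow.unique_of_normal _ hnorm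
  have hS : S = P.subtype Subgroup.le_normalizer := Subsingleton.elim _ _
  subst hS
  obtain ⟨⟨t, s⟩, hts, -⟩ := Subgroup.IsComplement.existsUnique hTS ⟨n, hn⟩
  have hts' : ((t : ↥(Subgroup.normalizer ((P : Subgroup G) : Set G))) : G) *
      ((s : ↥(Subgroup.normalizer ((P : Subgroup G) : Set G))) : G) = n :=
    congrArg Subtype.val hts
  have hsP : ((s : ↥(Subgroup.normalizer ((P : Subgroup G) : Set G))) : G) ∈ (P : Subgroup G) :=
    s.2
  -- `t` centralizes `P`
  have htc : ∀ v ∈ (P : Subgroup G),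
      ((t : ↥(Subgroup.normalizer ((P : Subgroup G) : Set G))) : G) * v *
        ((t : ↥(Subgroup.normalizer ((P : Subgroup G) : Set G))) : G)⁻¹ = v := by
    intro v hv
    set v' : ↥(Subgroup.normalizer ((P : Subgroup G) : Set G)) :=
      ⟨v, Subgroup.le_normalizer hv⟩ with hv'
    have hv'S : v' ∈ ((P.subtype Subgroup.le_normalizer :
        Sylow p ↥(Subgroup.normalizer ((P : Subgroup G) : Set G))) :
        Subgroup ↥(Subgroup.normalizer ((P : Subgroup G) : Set G))) := hv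
    have hc1 : (t : ↥(Subgroup.normalizer ((P : Subgroup G) : Set G))) * v' *
        (t : ↥(Subgroup.normalizer ((P : Subgroup G) : Set G)))⁻¹ * v'⁻¹ ∈ T := by
      have h3 := hTn.conj_mem _ (T.inv_mem t.2) v'
      have h4 := T.mul_mem t.2 h3
      have h5 : (t : ↥(Subgroup.normalizer ((P : Subgroup G) : Set G))) * v' *
          (t : ↥(Subgroup.normalizer ((P : Subgroup G) : Set G)))⁻¹ * v'⁻¹ =
          (t : ↥(Subgroup.normalizer ((P : Subgroup G) : Set G))) *
            (v' * (t : ↥(Subgroup.normalizer ((P : Subgroup G) : Set G)))⁻¹ * v'⁻¹) := by group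
      rw [h5]
      exact h4
    have hc2 : (t : ↥(Subgroup.normalizer ((P : Subgroup G) : Set G))) * v' *
        (t : ↥(Subgroup.normalizer ((P : Subgroup G) : Set G)))⁻¹ * v'⁻¹ ∈
        ((P.subtype Subgroup.le_normalizer :
          Sylow p ↥(Subgroup.normalizer ((P : Subgroup G) : Set G))) :
          Subgroup ↥(Subgroup.normalizer ((P : Subgroup G) : Set G))) :=
      Subgroup.mul_mem _ (hnorm.conj_mem _ hv'S _) (Subgroup.inv_mem _ hv'S)
    have hc3 : (t : ↥(Subgroup.normalizer ((P : Subgroup G) : Set G))) * v' *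
        (t : ↥(Subgroup.normalizer ((P : Subgroup G) : Set G)))⁻¹ * v'⁻¹ ∈
        T ⊓ ((P.subtype Subgroup.le_normalizer :
          Sylow p ↥(Subgroup.normalizer ((P : Subgroup G) : Set G))) :
          Subgroup ↥(Subgroup.normalizer ((P : Subgroup G) : Set G))) :=
      Subgroup.mem_inf.mpr ⟨hc1, hc2⟩
    rw [hTS.disjoint.eq_bot, Subgroup.mem_bot] at hc3
    have hc4 := congrArg Subtype.val hc3
    have hc5 : ((t : ↥(Subgroup.normalizer ((P : Subgroup G) : Set G))) : G) * v *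
        ((t : ↥(Subgroup.normalizer ((P : Subgroup G) : Set G))) : G)⁻¹ * v⁻¹ = 1 := by
      simpa [hv'] using hc4
    exact mul_inv_eq_one.mp hc5
  set t₀ : G := ((t : ↥(Subgroup.normalizer ((P : Subgroup G) : Set G))) : G) with ht₀
  set s₀ : G := ((s : ↥(Subgroup.normalizer ((P : Subgroup G) : Set G))) : G) with hs₀
  have h6 : n * u * n⁻¹ * u⁻¹ = s₀ * u * s₀⁻¹ * u⁻¹ := by
    rw [← hts']
    have h7 := htc (s₀ * u * s₀⁻¹)
      (Subgroup.mul_mem _ (Subgroup.mul_mem _ hsP hu) (Subgroup.inv_mem _ hsP))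
    calc t₀ * s₀ * u * (t₀ * s₀)⁻¹ * u⁻¹ = (t₀ * (s₀ * u * s₀⁻¹) * t₀⁻¹) * u⁻¹ := by group
      _ = s₀ * u * s₀⁻¹ * u⁻¹ := by rw [h7]
  rw [h6]
  refine ⟨(⟨s₀, hsP⟩ : ↥(P : Subgroup G)) * (⟨u, hu⟩ : ↥(P : Subgroup G)) *
    (⟨s₀, hsP⟩ : ↥(P : Subgroup G))⁻¹ * (⟨u, hu⟩ : ↥(P : Subgroup G))⁻¹, ?_, ?_⟩
  · rw [commutator_def]
    have h8 := Subgroup.commutator_mem_commutator
      (Subgroup.mem_top (⟨s₀, hsP⟩ : ↥(P : Subgroup G)))
      (Subgroup.mem_top (⟨u, hu⟩ : ↥(P : Subgroup G)))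
    rw [commutatorElement_def] at h8
    exact h8
  · rfl

/-- Let G be a finite group with Sylow p-subgroup P such that N_G(P) has a normal p-complement. Then N_G(Q) has a normal p-complement for every subgroup Q with [P, P] ≤ Q ≤ Φ(P). -/
theorem result {G : Type*} [Group G] [Finite G] {p : ℕ} [Fact p.Prime] (P : Sylow p G) (hN : Cfsg.HasNormalPComplement p ↥(Subgroup.normalizer ((P : Subgroup G) : Set G))) (Q : Subgroup G) (h1 : (commutator ↥(P : Subgroup G)).map (P : Subgroup G).subtype ≤ Q) (h2 : Q ≤ (frattini ↥(P : Subgroup G)).map (P : Subgroup G).subtype) : Cfsg.HasNormalPComplement p ↥(Subgroup.normalizer (Q : Set G)) := by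
  have hQP : Q ≤ (P : Subgroup G) := h2.trans (Subgroup.map_subtype_le _)
  have key : ∀ v ∈ (P : Subgroup G), ∀ c ∈ Q, v * c * v⁻¹ ∈ Q := by
    intro v hv c hc
    have hcP := hQP hc
    have h3 : v * c * v⁻¹ * c⁻¹ ∈
        (commutator ↥(P : Subgroup G)).map (P : Subgroup G).subtype := by
      refine ⟨(⟨v, hv⟩ : ↥(P : Subgroup G)) * (⟨c, hcP⟩ : ↥(P : Subgroup G)) *
        (⟨v, hv⟩ : ↥(P : Subgroup G))⁻¹ * (⟨c, hcP⟩ : ↥(P : Subgroup G))⁻¹, ?_, ?_⟩
      · rw [commutator_def]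
        have h8 := Subgroup.commutator_mem_commutator
          (Subgroup.mem_top (⟨v, hv⟩ : ↥(P : Subgroup G)))
          (Subgroup.mem_top (⟨c, hcP⟩ : ↥(P : Subgroup G)))
        rw [commutatorElement_def] at h8
        exact h8
      · rfl
    have h4 := Q.mul_mem (h1 h3) hc
    simpa using h4
  have hPH : (P : Subgroup G) ≤ Subgroup.normalizer (Q : Set G) := by
    intro u hu
    rw [Subgroup.mem_normalizer_iff]
    intro c
    refine ⟨key u hu c, fun hc => ?_⟩
    have h3 := key u⁻¹ (Subgroup.inv_mem _ hu) _ hc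
    simpa [mul_assoc] using h3
  have hQn : (Q.subgroupOf (Subgroup.normalizer (Q : Set G))).Normal :=
    Subgroup.normal_in_normalizer
  refine hasNormalPComplement_of_frattini (P.subtype hPH)
    (Q.subgroupOf (Subgroup.normalizer (Q : Set G))) ?_ ?_ ?_
  · intro x hx
    exact hQP hx
  · -- the normalizer condition
    have hnorm : ∀ z : ↥(Subgroup.normalizer (Q : Set G)),
        z ∈ Subgroup.normalizer
          (((P.subtype hPH : Sylow p ↥(Subgroup.normalizer (Q : Set G))) :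
            Subgroup ↥(Subgroup.normalizer (Q : Set G))) : Set ↥(Subgroup.normalizer (Q : Set G))) →
        ∀ g ∈ (P : Subgroup G), (z : G) * g * (z : G)⁻¹ ∈ (P : Subgroup G) := by
      intro z hz g hg
      have h3 := (Subgroup.mem_normalizer_iff.mp hz ⟨g, hPH hg⟩).mp hg
      exact h3
    intro y hy u hu
    have hyN : (y : G) ∈ Subgroup.normalizer ((P : Subgroup G) : Set G) := by
      rw [Subgroup.mem_normalizer_iff]
      intro g
      refine ⟨hnorm y hy g, fun hg => ?_⟩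
      have h3 := hnorm y⁻¹ (Subgroup.inv_mem _ hy) _ hg
      simpa [mul_assoc] using h3
    have h4 := comm_mem_of_hasNormalPComplement P hN (y : G) hyN (u : G) hu
    exact h1 h4
  · -- the Frattini condition
    intro x hx
    obtain ⟨f, hf, hfx⟩ := h2 hx
    have hsurj : Function.Surjective
        ((Subgroup.subgroupOfEquivOfLe hPH).symm.toMonoidHom) :=
      (Subgroup.subgroupOfEquivOfLe hPH).symm.surjective
    have h3 := frattini_le_comap_frattini_of_surjective hsurj hf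
    refine ⟨(Subgroup.subgroupOfEquivOfLe hPH).symm f, h3, ?_⟩
    apply Subtype.ext
    exact hfx

end Cfsg.Agent.S3838
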