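import Mathlib
import Cfsg.Statements.S3839
import Cfsg.Agent.Lib.Helper54.Frobenius
import Cfsg.Agent.Lib.Helper54.OmegaAut

set_option autoImplicit false
open Cfsg

namespace Cfsg.Agent.S3839

open Cfsg.Agent.Lib.Helper54

variable {G : Type*} [Group G]

/-- Frattini argument, elementwise: an element normalizing `K` is the product of an element of
`K` and an element normalizing a given Sylow subgroup of `K`. -/
theorem frattini_elt [Finite G] {p : ℕ} [Fact p.Prime] (K : Subgroup G) (P : Sylow p K) {g : G}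
    (hg : g ∈ Subgroup.normalizer (K : Set G)) :
    ∃ k ∈ K, k⁻¹ * g ∈
      Subgroup.normalizer ((((P : Subgroup K).map K.subtype : Subgroup G)) : Set G) := by
  set φ : MulAut K := K.normalizerMonoidHom ⟨g, hg⟩ with hφ
  obtain ⟨k, hk⟩ := MulAction.exists_smul_eq K P (φ • P)
  have hmem1 : ∀ z : K, z ∈ ((k • P : Sylow p K) : Subgroup K) ↔ k⁻¹ * z * k ∈ (P : Subgroup K) :=
    fun z => mem_sylow_smul_iff
  have hmem2 : ∀ z : K, z ∈ ((φ • P : Sylow p K) : Subgroup K) ↔ φ⁻¹ z ∈ (P : Subgroup K) := by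
    intro z
    rw [Sylow.pointwise_smul_def, Subgroup.mem_pointwise_smul_iff_inv_smul_mem]
    rfl
  have hφinv : ∀ z : K, ((φ⁻¹ z : K) : G) = g⁻¹ * z * g := by
    intro z
    have : φ⁻¹ = K.normalizerMonoidHom (⟨g, hg⟩⁻¹) := by rw [hφ, map_inv]
    rw [this, Subgroup.normalizerMonoidHom_apply_apply_coe]
    simp
  have hφ' : ∀ z : K, ((φ z : K) : G) = g * z * g⁻¹ := by
    intro z
    rw [hφ, Subgroup.normalizerMonoidHom_apply_apply_coe]
  refine ⟨k, k.2, ?_⟩
  rw [Subgroup.mem_normalizer_iff]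
  intro w
  constructor
  · rintro ⟨z, hz, rfl⟩
    have h1 : φ z ∈ ((φ • P : Sylow p K) : Subgroup K) := by
      rw [hmem2]
      have : φ⁻¹ (φ z) = z := by simp
      rw [this]; exact hz
    rw [← hk, hmem1] at h1
    refine ⟨_, h1, ?_⟩
    simp only [Subgroup.subtype_apply, Subgroup.coe_mul, Subgroup.coe_inv, hφ']
    group
  · rintro ⟨u, hu, hu'⟩
    have h1 : k * u * k⁻¹ ∈ ((k • P : Sylow p K) : Subgroup K) := by
      rw [hmem1]
      have : k⁻¹ * (k * u * k⁻¹) * k = u := by group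
      rw [this]; exact hu
    rw [hk, hmem2] at h1
    refine ⟨_, h1, ?_⟩
    simp only [Subgroup.subtype_apply, hφinv, Subgroup.coe_mul, Subgroup.coe_inv]
    simp only [Subgroup.subtype_apply] at hu'
    rw [hu']
    group

theorem mem_normalizer_sup {A B : Subgroup G} {x : G}
    (hA : x ∈ Subgroup.normalizer (A : Set G)) (hB : x ∈ Subgroup.normalizer (B : Set G)) :
    x ∈ Subgroup.normalizer ((A ⊔ B : Subgroup G) : Set G) := by
  have key : ∀ y : G, y ∈ Subgroup.normalizer (A : Set G) → y ∈ Subgroup.normalizer (B : Set G) →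
      ∀ h ∈ A ⊔ B, y * h * y⁻¹ ∈ A ⊔ B := by
    intro y hyA hyB
    have : A ⊔ B ≤ (A ⊔ B).comap (MulAut.conj y).toMonoidHom := by
      apply sup_le
      · intro a ha
        rw [Subgroup.mem_comap]
        exact Subgroup.mem_sup_left ((Subgroup.mem_normalizer_iff.mp hyA a).mp ha)
      · intro b hb
        rw [Subgroup.mem_comap]
        exact Subgroup.mem_sup_right ((Subgroup.mem_normalizer_iff.mp hyB b).mp hb)
    intro h hh
    exact this hh
  rw [Subgroup.mem_normalizer_iff]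
  intro h
  constructor
  · exact key x hA hB h
  · intro hh
    have := key x⁻¹ (Subgroup.inv_mem _ hA) (Subgroup.inv_mem _ hB) _ hh
    simpa [mul_assoc] using this

theorem normalizerMonoidHom_eq_one_iff {T : Subgroup G} {x : G}
    (hx : x ∈ Subgroup.normalizer (T : Set G)) :
    T.normalizerMonoidHom ⟨x, hx⟩ = 1 ↔ x ∈ Subgroup.centralizer (T : Set G) := by
  rw [Subgroup.mem_centralizer_iff]
  constructor
  · intro h t ht
    have h2 := congrArg (fun a : MulAut T => ((a ⟨t, ht⟩ : T) : G)) h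
    simp only [Subgroup.normalizerMonoidHom_apply_apply_coe, MulAut.one_apply] at h2
    have h3 := congrArg (fun y => y * x) h2
    simpa using h3.symm
  · intro h
    ext t
    rw [Subgroup.normalizerMonoidHom_apply_apply_coe, MulAut.one_apply]
    have := h t t.2
    rw [← this]; group

/-- The inductive step: `R` is a normal subgroup of `N_G(T)` acting on `T` as a `p`-group, with a
Sylow `p`-subgroup not contained in `T`. -/
theorem step [Finite G] {p : ℕ} [Fact p.Prime] {T : Subgroup G} (hT : IsPGroup p T)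
    (R : Subgroup G) (hRN : R ≤ Subgroup.normalizer (T : Set G))
    (hNR : Subgroup.normalizer (T : Set G) ≤ Subgroup.normalizer (R : Set G))
    (hRp : ∀ r (hr : r ∈ Subgroup.normalizer (T : Set G)), r ∈ R →
      ∃ a : ℕ, (T.normalizerMonoidHom ⟨r, hr⟩) ^ p ^ a = 1)
    (R₀ : Sylow p R) (hR₀ : ¬ ((R₀ : Subgroup R).map R.subtype ≤ T))
    (ih : ∀ T₁ : Subgroup G, IsPGroup p T₁ → Nat.card T < Nat.card T₁ →
      ∀ g ∈ Subgroup.normalizer (T₁ : Set G), (orderOf g).Coprime p →
        g ∈ Subgroup.centralizer (T₁ : Set G))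
    {g : G} (hg : g ∈ Subgroup.normalizer (T : Set G)) (hgp : (orderOf g).Coprime p) :
    g ∈ Subgroup.centralizer (T : Set G) := by
  have hp : p.Prime := Fact.out
  set R₁ : Subgroup G := (R₀ : Subgroup R).map R.subtype with hR₁
  have hR₁R : R₁ ≤ R := by
    rintro _ ⟨z, -, rfl⟩; exact z.2
  have hR₁p : IsPGroup p R₁ := R₀.2.map _
  have hR₁N : R₁ ≤ Subgroup.normalizer (T : Set G) := hR₁R.trans hRN
  set T₁ : Subgroup G := T ⊔ R₁ with hT₁
  have hT₁p : IsPGroup p T₁ := IsPGroup.to_sup_of_normal_left' hT hR₁p hR₁N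
  have hlt : T < T₁ := by
    refine lt_of_le_of_ne le_sup_left ?_
    intro h
    apply hR₀
    rw [h]; exact le_sup_right
  have hcard : Nat.card T < Nat.card T₁ := card_lt_card_of_lt hlt
  obtain ⟨k, hkR, hm⟩ := frattini_elt R R₀ (hNR hg)
  set m : G := k⁻¹ * g with hmdef
  have hkN : k ∈ Subgroup.normalizer (T : Set G) := hRN hkR
  have hmN : m ∈ Subgroup.normalizer (T : Set G) :=
    Subgroup.mul_mem _ (Subgroup.inv_mem _ hkN) hg
  have hcent : ∀ j : ℕ, (orderOf (m ^ j)).Coprime p → m ^ j ∈ Subgroup.centralizer (T : Set G) := by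
    intro j hj
    have h1 : m ^ j ∈ Subgroup.normalizer (T₁ : Set G) :=
      mem_normalizer_sup (Subgroup.pow_mem _ hmN j) (Subgroup.pow_mem _ hm j)
    have h2 := ih T₁ hT₁p hcard _ h1 hj
    exact Subgroup.centralizer_le (by exact_mod_cast (le_sup_left : T ≤ T₁)) h2
  -- the image of `m` is a `p`-element
  obtain ⟨a, k', hk', hord⟩ := Nat.exists_eq_pow_mul_and_not_dvd (orderOf_pos m).ne' p hp.ne_one
  have hma : (T.normalizerMonoidHom ⟨m, hmN⟩) ^ p ^ a = 1 := by
    have h1 : (orderOf (m ^ p ^ a)).Coprime p := by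
      have h2 : orderOf (m ^ p ^ a) ∣ k' := by
        apply orderOf_dvd_of_pow_eq_one
        rw [← pow_mul, ← hord, pow_orderOf_eq_one]
      exact Nat.Coprime.coprime_dvd_left h2 ((Nat.Prime.coprime_iff_not_dvd hp).mpr hk').symm
    have h3 := hcent _ h1
    have h4 := (normalizerMonoidHom_eq_one_iff (Subgroup.pow_mem _ hmN _)).mpr h3
    rw [← map_pow]
    exact h4
  set N : Subgroup G := Subgroup.normalizer (T : Set G) with hN
  set φ : N →* MulAut T := T.normalizerMonoidHom with hφ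
  have hnormal : (R.subgroupOf N).Normal :=
    (Subgroup.normal_subgroupOf_iff_le_normalizer hRN).mpr hNR
  set KR : Subgroup (MulAut T) := (R.subgroupOf N).map φ with hKR
  have hKRp : IsPGroup p KR := by
    rintro ⟨α, hα⟩
    obtain ⟨r, hr, rfl⟩ := hα
    obtain ⟨b, hb⟩ := hRp r.1 r.2 (Subgroup.mem_subgroupOf.mp hr)
    exact ⟨b, Subtype.ext hb⟩
  set Hm : Subgroup (MulAut T) := Subgroup.zpowers (φ ⟨m, hmN⟩) with hHm
  have hHmp : IsPGroup p Hm := by
    rintro ⟨β, hβ⟩
    obtain ⟨i, rfl⟩ := Subgroup.mem_zpowers_iff.mp hβ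
    refine ⟨a, Subtype.ext ?_⟩
    show ((φ ⟨m, hmN⟩) ^ i) ^ p ^ a = 1
    rw [← zpow_natCast, ← zpow_mul, mul_comm, zpow_mul, zpow_natCast, hma, one_zpow]
  have hnorm : Hm ≤ Subgroup.normalizer (KR : Set (MulAut T)) := by
    rw [hHm, Subgroup.zpowers_le]
    apply Subgroup.le_normalizer_map φ
    rw [Subgroup.normalizer_eq_top]
    exact ⟨_, Subgroup.mem_top _, rfl⟩
  have hsup : IsPGroup p (KR ⊔ Hm : Subgroup (MulAut T)) :=
    IsPGroup.to_sup_of_normal_left' hKRp hHmp hnorm
  have hgeq : (⟨g, hg⟩ : N) = ⟨k, hkN⟩ * ⟨m, hmN⟩ := by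
    apply Subtype.ext
    show g = k * (k⁻¹ * g)
    group
  have hgmem : φ ⟨g, hg⟩ ∈ KR ⊔ Hm := by
    rw [hgeq, map_mul]
    exact Subgroup.mul_mem _
      (Subgroup.mem_sup_left ⟨_, Subgroup.mem_subgroupOf.mpr hkR, rfl⟩)
      (Subgroup.mem_sup_right (Subgroup.mem_zpowers _))
  obtain ⟨b, hb⟩ := hsup ⟨_, hgmem⟩
  have hb' : (φ ⟨g, hg⟩) ^ p ^ b = 1 := congrArg Subtype.val hb
  have hb2 : (φ ⟨g, hg⟩) ^ orderOf g = 1 := by
    rw [← map_pow]
    have : (⟨g, hg⟩ : N) ^ orderOf g = 1 := by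
      apply Subtype.ext
      simp [pow_orderOf_eq_one]
    rw [this, map_one]
  have h1 : orderOf (φ ⟨g, hg⟩) = 1 :=
    Nat.eq_one_of_dvd_coprimes (Nat.Coprime.pow_right b hgp) (orderOf_dvd_of_pow_eq_one hb2)
      (orderOf_dvd_of_pow_eq_one hb')
  exact (normalizerMonoidHom_eq_one_iff hg).mp (orderOf_eq_one_iff.mp h1)

theorem conj_mem_centralizer {V : Subgroup G} {n x : G}
    (hn : ∀ v ∈ V, n⁻¹ * v * n ∈ V) (hx : x ∈ Subgroup.centralizer (V : Set G)) :
    n * x * n⁻¹ ∈ Subgroup.centralizer (V : Set G) := by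
  rw [Subgroup.mem_centralizer_iff] at hx ⊢
  intro v hv
  have h1 := hx _ (hn v hv)
  have h2 : v * (n * x * n⁻¹) = n * ((n⁻¹ * v * n) * x) * n⁻¹ := by group
  rw [h2, h1]; group

/-- The stability subgroup of the chain `1 ≤ V ≤ T` inside `N_G(T)`. -/
def stab (T V : Subgroup G) : Subgroup G where
  carrier := {x | x ∈ Subgroup.normalizer (T : Set G) ∧ x ∈ Subgroup.centralizer (V : Set G) ∧
    ∀ t ∈ T, x * t * x⁻¹ * t⁻¹ ∈ V}
  one_mem' := by
    refine ⟨Subgroup.one_mem _, Subgroup.one_mem _, ?_⟩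
    intro t _
    simp
  mul_mem' := by
    rintro x y ⟨hx1, hx2, hx3⟩ ⟨hy1, hy2, hy3⟩
    refine ⟨Subgroup.mul_mem _ hx1 hy1, Subgroup.mul_mem _ hx2 hy2, ?_⟩
    intro t ht
    have h1 := hy3 t ht
    have h2 := hx3 t ht
    have h3 : x * (y * t * y⁻¹ * t⁻¹) * x⁻¹ = y * t * y⁻¹ * t⁻¹ := by
      have := (Subgroup.mem_centralizer_iff.mp hx2) _ h1
      rw [← this]; group
    have h4 : x * y * t * (x * y)⁻¹ * t⁻¹ = (x * (y * t * y⁻¹ * t⁻¹) * x⁻¹) * (x * t * x⁻¹ * t⁻¹) := by
      group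
    rw [h4, h3]
    exact Subgroup.mul_mem _ h1 h2
  inv_mem' := by
    rintro x ⟨hx1, hx2, hx3⟩
    refine ⟨Subgroup.inv_mem _ hx1, Subgroup.inv_mem _ hx2, ?_⟩
    intro t ht
    have ht' : x⁻¹ * t * x ∈ T := by
      have := (Subgroup.mem_normalizer_iff.mp (Subgroup.inv_mem _ hx1) t).mp ht
      simpa using this
    have h1 := hx3 _ ht'
    have h2 : x⁻¹ * t * x⁻¹⁻¹ * t⁻¹ = (x * (x⁻¹ * t * x) * x⁻¹ * (x⁻¹ * t * x)⁻¹)⁻¹ := by group
    rw [h2]
    exact Subgroup.inv_mem _ h1

theorem mem_stab {T V : Subgroup G} {x : G} :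
    x ∈ stab T V ↔ x ∈ Subgroup.normalizer (T : Set G) ∧ x ∈ Subgroup.centralizer (V : Set G) ∧
      ∀ t ∈ T, x * t * x⁻¹ * t⁻¹ ∈ V := Iff.rfl

theorem in_sylow_case [Finite G] {p : ℕ} [Fact p.Prime] (S : Sylow p G) (D : Subgroup G)
    (hD : Cfsg.IsStronglyClosed D (S : Subgroup G))
    (hB : ∀ U : Subgroup G, U ≤ D → D ⊓ Subgroup.centralizer (U : Set G) ≤ U →
      Cfsg.HasNormalPComplement p ↥(Subgroup.normalizer (U : Set G)))
    {T : Subgroup G} (hTS : T ≤ (S : Subgroup G))
    (ih : ∀ T₁ : Subgroup G, IsPGroup p T₁ → Nat.card T < Nat.card T₁ →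
      ∀ g ∈ Subgroup.normalizer (T₁ : Set G), (orderOf g).Coprime p →
        g ∈ Subgroup.centralizer (T₁ : Set G))
    {g : G} (hg : g ∈ Subgroup.normalizer (T : Set G)) (hgp : (orderOf g).Coprime p) :
    g ∈ Subgroup.centralizer (T : Set G) := by
  have hT : IsPGroup p T := S.2.to_le hTS
  obtain ⟨hDS, hDcl⟩ := hD
  set V : Subgroup G := T ⊓ D with hV
  have hVp : IsPGroup p V := hT.to_le inf_le_left
  -- `V` is normalized by `N(T)`
  have hVN : ∀ n ∈ Subgroup.normalizer (T : Set G), ∀ v ∈ V, n * v * n⁻¹ ∈ V := by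
    intro n hn v hv
    have h1 : n * v * n⁻¹ ∈ T := (Subgroup.mem_normalizer_iff.mp hn v).mp hv.1
    exact ⟨h1, hDcl v hv.2 n (hTS h1)⟩
  have hVN' : ∀ n ∈ Subgroup.normalizer (T : Set G), ∀ v ∈ V, n⁻¹ * v * n ∈ V := by
    intro n hn v hv
    have := hVN n⁻¹ (Subgroup.inv_mem _ hn) v hv
    simpa using this
  have hTN : T ≤ Subgroup.normalizer (T : Set G) := Subgroup.le_normalizer
  by_cases hc : D ⊓ Subgroup.centralizer (V : Set G) ≤ V
  · -- `V` is `D`-centric: use the hypothesis on `N_G(V)`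
    have hF : FrobeniusCondition p (Subgroup.normalizer (V : Set G)) :=
      hasNormalPComplement_iff_frobeniusCondition.mp (hB V inf_le_right hc)
    have hNV : ∀ n ∈ Subgroup.normalizer (T : Set G), n ∈ Subgroup.normalizer (V : Set G) := by
      intro n hn
      rw [Subgroup.mem_normalizer_iff]
      intro v
      constructor
      · exact hVN n hn v
      · intro h
        have := hVN' n hn _ h
        simpa [mul_assoc] using this
    set NV : Subgroup G := Subgroup.normalizer (V : Set G) with hNVdef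
    have hgNV : g ∈ NV := hNV g hg
    have h1 := hF (T.subgroupOf NV) (hT.comap_subtype) ⟨g, hgNV⟩ ?_ ?_
    · rw [Subgroup.mem_centralizer_iff] at h1 ⊢
      intro t ht
      have h2 := h1 ⟨t, hNV t (hTN ht)⟩ (Subgroup.mem_subgroupOf.mpr ht)
      exact congrArg Subtype.val h2
    · rw [Subgroup.mem_normalizer_iff]
      intro h
      rw [Subgroup.mem_subgroupOf, Subgroup.mem_subgroupOf]
      exact Subgroup.mem_normalizer_iff.mp hg h
    · rw [Subgroup.orderOf_mk]; exact hgp
  · -- otherwise the stability group of `1 ≤ V ≤ T` is not contained in `T`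
    set C : Subgroup G := D ⊓ Subgroup.centralizer (V : Set G) with hC
    have hCT : ¬ C ≤ T := fun h => hc (le_inf h inf_le_left)
    have hconj : ∀ t ∈ T, ∀ c ∈ C, t * c * t⁻¹ ∈ C := by
      intro t ht c hcC
      refine ⟨hDcl c hcC.1 t ?_, conj_mem_centralizer (hVN' t (hTN ht)) hcC.2⟩
      exact Subgroup.mul_mem _ (Subgroup.mul_mem _ (hTS ht) (hDS hcC.1))
        (Subgroup.inv_mem _ (hTS ht))
    have hTC : T ≤ Subgroup.normalizer (C : Set G) := by
      intro t ht
      rw [Subgroup.mem_normalizer_iff]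
      intro c
      constructor
      · exact hconj t ht c
      · intro h
        have := hconj t⁻¹ (Subgroup.inv_mem _ ht) _ h
        simpa [mul_assoc] using this
    have hEp : IsPGroup p (T ⊔ C : Subgroup G) :=
      S.2.to_le (sup_le hTS (inf_le_left.trans hDS))
    have hlt : T < T ⊔ C := by
      refine lt_of_le_of_ne le_sup_left ?_
      intro h
      apply hCT
      rw [h]; exact le_sup_right
    obtain ⟨y, hyE, hyN, hyT⟩ := exists_mem_normalizer_not_mem hEp hlt
    have hyE' : y ∈ ((T ⊔ C : Subgroup G) : Set G) := hyE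
    rw [Subgroup.coe_mul_of_left_le_normalizer_right T C hTC] at hyE'
    obtain ⟨t, ht, d, hdC, rfl⟩ := hyE'
    have ht' : t ∈ T := ht
    have hdC' : d ∈ C := hdC
    have hdN : d ∈ Subgroup.normalizer (T : Set G) := by
      have := Subgroup.mul_mem _ (Subgroup.inv_mem _ (hTN ht')) hyN
      simpa using this
    have hdT : d ∉ T := fun h => hyT (Subgroup.mul_mem _ ht' h)
    have hdS : d ∈ (S : Subgroup G) := hDS hdC'.1
    set R : Subgroup G := stab T V with hR
    have hdR : d ∈ R := by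
      refine ⟨hdN, hdC'.2, ?_⟩
      intro u hu
      constructor
      · exact Subgroup.mul_mem _ ((Subgroup.mem_normalizer_iff.mp hdN u).mp hu)
          (Subgroup.inv_mem _ hu)
      · have h1 : u * d⁻¹ * u⁻¹ ∈ D := by
          apply hDcl _ (Subgroup.inv_mem _ hdC'.1) u
          exact Subgroup.mul_mem _ (Subgroup.mul_mem _ (hTS hu) (Subgroup.inv_mem _ hdS))
            (Subgroup.inv_mem _ (hTS hu))
        have h2 : d * u * d⁻¹ * u⁻¹ = d * (u * d⁻¹ * u⁻¹) := by group
        rw [h2]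
        exact Subgroup.mul_mem _ hdC'.1 h1
    have hRN : R ≤ Subgroup.normalizer (T : Set G) := fun x hx => hx.1
    have hRconj : ∀ n ∈ Subgroup.normalizer (T : Set G), ∀ x ∈ R, n * x * n⁻¹ ∈ R := by
      intro n hn x hx
      refine ⟨Subgroup.mul_mem _ (Subgroup.mul_mem _ hn hx.1) (Subgroup.inv_mem _ hn),
        conj_mem_centralizer (hVN' n hn) hx.2.1, ?_⟩
      intro u hu
      have hu' : n⁻¹ * u * n ∈ T := by
        have := (Subgroup.mem_normalizer_iff.mp (Subgroup.inv_mem _ hn) u).mp hu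
        simpa using this
      have h1 := hVN n hn _ (hx.2.2 _ hu')
      have h2 : n * x * n⁻¹ * u * (n * x * n⁻¹)⁻¹ * u⁻¹ =
          n * (x * (n⁻¹ * u * n) * x⁻¹ * (n⁻¹ * u * n)⁻¹) * n⁻¹ := by group
      rw [h2]; exact h1
    have hNR : Subgroup.normalizer (T : Set G) ≤ Subgroup.normalizer (R : Set G) := by
      intro n hn
      rw [Subgroup.mem_normalizer_iff]
      intro x
      constructor
      · exact hRconj n hn x
      · intro h
        have := hRconj n⁻¹ (Subgroup.inv_mem _ hn) _ h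
        simpa [mul_assoc] using this
    have hRp : ∀ r (hr : r ∈ Subgroup.normalizer (T : Set G)), r ∈ R →
        ∃ a : ℕ, (T.normalizerMonoidHom ⟨r, hr⟩) ^ p ^ a = 1 := by
      intro r hr hrR
      obtain ⟨a, ha⟩ := IsPGroup.iff_card.mp hVp
      refine ⟨a, ?_⟩
      ext u
      have hzV : (u : G)⁻¹ * (r * u * r⁻¹) ∈ V := by
        have h1 := hVN' (u : G) (hTN u.2) _ (hrR.2.2 u u.2)
        have h2 : (u : G)⁻¹ * (r * u * r⁻¹) = (u : G)⁻¹ * (r * u * r⁻¹ * (u : G)⁻¹) * u := by group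
        rw [h2]; exact h1
      set z : T := ⟨(u : G)⁻¹ * (r * u * r⁻¹), hzV.1⟩ with hz
      have e1 : T.normalizerMonoidHom ⟨r, hr⟩ u = u * z := by
        apply Subtype.ext
        rw [Subgroup.normalizerMonoidHom_apply_apply_coe]
        simp [hz]
      have e2 : T.normalizerMonoidHom ⟨r, hr⟩ z = z := by
        apply Subtype.ext
        rw [Subgroup.normalizerMonoidHom_apply_apply_coe]
        have := (Subgroup.mem_centralizer_iff.mp hrR.2.1) _ hzV
        show r * ((u : G)⁻¹ * (r * u * r⁻¹)) * r⁻¹ = (u : G)⁻¹ * (r * u * r⁻¹)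
        rw [← this]; group
      have e3 := aut_pow_apply_eq e1 e2 (p ^ a)
      have e4 : z ^ p ^ a = 1 := by
        have h1 : (⟨(z : G), hzV⟩ : V) ^ Nat.card V = 1 := pow_card_eq_one'
        rw [ha] at h1
        have h2 := congrArg Subtype.val h1
        apply Subtype.ext
        simpa using h2
      rw [e3, e4, mul_one]
      rfl
    have hzp : IsPGroup p ((Subgroup.zpowers d).subgroupOf R) :=
      (S.2.to_le (Subgroup.zpowers_le.mpr hdS)).comap_subtype
    obtain ⟨R₀, hR₀⟩ := hzp.exists_le_sylow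
    have hdR₀ : d ∈ (R₀ : Subgroup R).map R.subtype :=
      ⟨⟨d, hdR⟩, hR₀ (Subgroup.mem_subgroupOf.mpr (Subgroup.mem_zpowers d)), rfl⟩
    exact step hT R hRN hNR hRp R₀ (fun h => hdT (h hdR₀)) ih hg hgp

theorem main_aux [Finite G] {p : ℕ} [Fact p.Prime] (S : Sylow p G) (D : Subgroup G)
    (hD : Cfsg.IsStronglyClosed D (S : Subgroup G))
    (hB : ∀ U : Subgroup G, U ≤ D → D ⊓ Subgroup.centralizer (U : Set G) ≤ U →
      Cfsg.HasNormalPComplement p ↥(Subgroup.normalizer (U : Set G))) :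
    ∀ (n : ℕ) (T : Subgroup G), IsPGroup p T → Nat.card G - Nat.card T = n →
      ∀ g ∈ Subgroup.normalizer (T : Set G), (orderOf g).Coprime p →
        g ∈ Subgroup.centralizer (T : Set G) := by
  intro n
  induction n using Nat.strong_induction_on with
  | _ n ih =>
  intro T hT hn g hg hgp
  obtain ⟨P, hTP⟩ := hT.exists_le_sylow
  obtain ⟨x, hx⟩ := MulAction.exists_smul_eq G P S
  set f : G →* G := (MulAut.conj x).toMonoidHom with hf
  have hfinj : Function.Injective f := (MulAut.conj x).injective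
  set T' : Subgroup G := T.map f with hT'
  have hT'S : T' ≤ (S : Subgroup G) := by
    rintro _ ⟨t, ht, rfl⟩
    rw [← hx, mem_sylow_smul_iff]
    have : x⁻¹ * f t * x = t := by simp [hf, MulAut.conj_apply]; group
    rw [this]; exact hTP ht
  have hcard : Nat.card T' = Nat.card T :=
    (Nat.card_congr (T.equivMapOfInjective f hfinj).toEquiv).symm
  have ih' : ∀ T₁ : Subgroup G, IsPGroup p T₁ → Nat.card T' < Nat.card T₁ →
      ∀ g ∈ Subgroup.normalizer (T₁ : Set G), (orderOf g).Coprime p →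
        g ∈ Subgroup.centralizer (T₁ : Set G) := by
    intro T₁ hT₁ hlt
    have h1 := Subgroup.card_le_card_group T₁
    exact ih (Nat.card G - Nat.card T₁) (by omega) T₁ hT₁ rfl
  have h1 : x * g * x⁻¹ ∈ Subgroup.normalizer (T' : Set G) := by
    rw [Subgroup.mem_normalizer_iff]
    intro y
    constructor
    · rintro ⟨t, ht, rfl⟩
      refine ⟨g * t * g⁻¹, (Subgroup.mem_normalizer_iff.mp hg t).mp ht, ?_⟩
      simp [hf, MulAut.conj_apply]; group
    · rintro ⟨t, ht, ht2⟩
      refine ⟨g⁻¹ * t * g, ?_, ?_⟩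
      · have := (Subgroup.mem_normalizer_iff.mp (Subgroup.inv_mem _ hg) t).mp ht
        simpa using this
      · simp only [hf, MulEquiv.coe_toMonoidHom, MulAut.conj_apply] at ht2 ⊢
        have : y = (x * g * x⁻¹)⁻¹ * (x * t * x⁻¹) * (x * g * x⁻¹) := by rw [ht2]; group
        rw [this]; group
  have h2 : orderOf (x * g * x⁻¹) = orderOf g := by
    have := orderOf_injective f hfinj g
    simpa [hf, MulAut.conj_apply] using this
  have h3 := in_sylow_case S D hD hB hT'S ih' h1 (h2 ▸ hgp)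
  rw [Subgroup.mem_centralizer_iff] at h3 ⊢
  intro t ht
  have h4 := h3 (f t) ⟨t, ht, rfl⟩
  simp only [hf, MulEquiv.coe_toMonoidHom, MulAut.conj_apply] at h4
  have h5 : t * g = x⁻¹ * (x * t * x⁻¹ * (x * g * x⁻¹)) * x := by group
  rw [h5, h4]; group

theorem main [Finite G] {p : ℕ} [Fact p.Prime] (S : Sylow p G) (D : Subgroup G)
    (hD : Cfsg.IsStronglyClosed D (S : Subgroup G)) :
    Cfsg.HasNormalPComplement p G ↔ ∀ U : Subgroup G, U ≤ D →
      D ⊓ Subgroup.centralizer (U : Set G) ≤ U →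
        Cfsg.HasNormalPComplement p ↥(Subgroup.normalizer (U : Set G)) := by
  constructor
  · intro h U _ _
    obtain ⟨N, hN⟩ := hasNormalPComplement_iff.mp h
    exact hasNormalPComplement_iff.mpr ⟨_, hN.subgroupOf _⟩
  · intro hB
    rw [hasNormalPComplement_iff_frobeniusCondition]
    intro Q hQ g hg hgp
    exact main_aux S D hD hB _ Q hQ rfl g hg hgp

/-- A Frobenius normal p-complement criterion relative to a strongly closed subgroup. Let G be a finite group, S a Sylow p-subgroup and D a subgroup of S strongly closed in S with respect to G. Then G has a normal p-complement if and only if N_G(U) has a normal p-complement for every subgroup U of D with C_D(U) ≤ U. -/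
theorem result {G : Type*} [Group G] [Finite G] {p : ℕ} [Fact p.Prime] (S : Sylow p G) (D : Subgroup G) (hD : Cfsg.IsStronglyClosed D (S : Subgroup G)) : Cfsg.HasNormalPComplement p G ↔ ∀ U : Subgroup G, U ≤ D → D ⊓ Subgroup.centralizer (U : Set G) ≤ U → Cfsg.HasNormalPComplement p ↥(Subgroup.normalizer (U : Set G)) := by
  exact main S D hD

end Cfsg.Agent.S3839
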