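-- Statement S3858: unique maximal overgroup of a Sylow subgroup vs one class of maximal subgroups of index prime to r.
import Mathlib
import Cfsg.Statements.S3858
import Cfsg.Agent.Lib.Helper64.SylowMax

set_option autoImplicit false
open Cfsg
open Cfsg.Agent.Lib.Helper64

namespace Cfsg.Agent.S3858

/-- Let G be a finite group with a normal non-abelian simple subgroup T whose centralizer is trivial (G almost simple with socle T), r a prime and R a Sylow r-subgroup of G meeting T nontrivially. Then R lies in exactly one maximal subgroup of G if and only if G has exactly one conjugacy class of maximal subgroups whose index is prime to r. -/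
theorem result {G : Type*} [Group G] [Finite G] (T : Subgroup G) [T.Normal] (hT : IsSimpleGroup T) (hna : ¬ IsMulCommutative T)
    (hC : Subgroup.centralizer (T : Set G) = ⊥) {r : ℕ} [Fact r.Prime] (R : Sylow r G) (hR0 : (R : Subgroup G) ⊓ T ≠ ⊥) :
    (∃! M : Subgroup G, IsCoatom M ∧ (R : Subgroup G) ≤ M) ↔
      ((∃ M : Subgroup G, IsCoatom M ∧ ¬ r ∣ M.index) ∧
        ∀ M₁ M₂ : Subgroup G, IsCoatom M₁ → ¬ r ∣ M₁.index → IsCoatom M₂ → ¬ r ∣ M₂.index → ∃ g : G, M₂ = M₁.map (MulAut.conj g).toMonoidHom) := by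
  have hTn : T.Normal := inferInstance
  have hidx : ∀ M : Subgroup G, (R : Subgroup G) ≤ M → ¬ r ∣ M.index :=
    fun M hM hd => R.not_dvd_index (hd.trans (Subgroup.index_dvd_of_le hM))
  constructor
  · rintro ⟨M₀, ⟨hM₀c, hRM₀⟩, hM₀u⟩
    refine ⟨⟨M₀, hM₀c, hidx M₀ hRM₀⟩, ?_⟩
    intro M₁ M₂ hM₁ h₁ hM₂ h₂
    obtain ⟨g₁, hg₁⟩ := exists_le_map_conj_of_not_dvd_index R.isPGroup' h₁
    obtain ⟨g₂, hg₂⟩ := exists_le_map_conj_of_not_dvd_index R.isPGroup' h₂
    have e₁ := hM₀u _ ⟨isCoatom_map_conj hM₁ g₁, hg₁⟩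
    have e₂ := hM₀u _ ⟨isCoatom_map_conj hM₂ g₂, hg₂⟩
    refine ⟨g₂⁻¹ * g₁, ?_⟩
    rw [← map_conj_map_conj, e₁, ← e₂, map_conj_map_conj, inv_mul_cancel]
    ext x
    rw [mem_map_conj]
    simp
  · rintro ⟨-, hconj⟩
    -- the normalizer of R is proper
    have hNR : Subgroup.normalizer ((R : Subgroup G) : Set G) ≠ ⊤ := by
      intro htop
      have hRn : (R : Subgroup G).Normal := Subgroup.normalizer_eq_top_iff.1 htop
      have hDp : IsPGroup r ((R : Subgroup G) ⊓ T : Subgroup G) := R.isPGroup'.to_le inf_le_left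
      have hND := normalizer_ne_top_of_le_simple T hT hna hDp inf_le_right hR0
      apply hND
      have hn : ((R : Subgroup G) ⊓ T).Normal := inferInstance
      exact Subgroup.normalizer_eq_top_iff.2 hn
    obtain ⟨M', hM'c, hNM'⟩ := exists_coatom_ge hNR
    have hRM' : (R : Subgroup G) ≤ M' := Subgroup.le_normalizer.trans hNM'
    refine ⟨M', ⟨hM'c, hRM'⟩, ?_⟩
    rintro M ⟨hMc, hRM⟩
    obtain ⟨g, hg⟩ := hconj M M' hMc (hidx M hRM) hM'c (hidx M' hRM')
    -- R and its conjugate by g are Sylow subgroups of M'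
    have hgR : ((g • R : Sylow r G) : Subgroup G) ≤ M' := by
      rw [hg]
      intro x hx
      rw [Sylow.coe_subgroup_smul] at hx
      obtain ⟨y, hy, rfl⟩ := hx
      exact ⟨y, hRM hy, rfl⟩
    obtain ⟨m, hm⟩ := MulAction.exists_smul_eq M' ((g • R).subtype hgR) (R.subtype hRM')
    rw [Sylow.smul_subtype] at hm
    have hm' : (m : G) • (g • R) = R := Sylow.subtype_injective hm
    rw [← mul_smul, Sylow.smul_eq_iff_mem_normalizer] at hm'
    have hmg : (m : G) * g ∈ M' := hNM' hm'
    have hgM' : g ∈ M' := by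
      have e : g = (m : G)⁻¹ * ((m : G) * g) := by group
      rw [e]
      exact M'.mul_mem (M'.inv_mem m.2) hmg
    -- M = conj by g⁻¹ of M' = M'
    have e1 : M = M'.map (MulAut.conj g⁻¹).toMonoidHom := by
      rw [hg, map_conj_map_conj, inv_mul_cancel]
      ext x
      rw [mem_map_conj]
      simp
    rw [e1, map_conj_of_mem M' (M'.inv_mem hgM')]

end Cfsg.Agent.S3858
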