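-- Statement S3859: unique maximal overgroup of a Sylow subgroup forces G/T to be an r-group.
import Mathlib
import Cfsg.Statements.S3859
import Cfsg.Agent.Lib.Helper64.SylowMax

set_option autoImplicit false
open Cfsg
open Cfsg.Agent.Lib.Helper64

namespace Cfsg.Agent.S3859

/-- Let G be a finite group with a normal non-abelian simple subgroup T whose centralizer is trivial (G almost simple with socle T), r a prime and R a Sylow r-subgroup of G meeting T nontrivially. If R lies in exactly one maximal subgroup of G, then G/T is an r-group. -/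
theorem result {G : Type*} [Group G] [Finite G] (T : Subgroup G) [T.Normal] (hT : IsSimpleGroup T) (hna : ¬ IsMulCommutative T)
    (hC : Subgroup.centralizer (T : Set G) = ⊥) {r : ℕ} [Fact r.Prime] (R : Sylow r G) (hR0 : (R : Subgroup G) ⊓ T ≠ ⊥)
    (huniq : ∃! M : Subgroup G, IsCoatom M ∧ (R : Subgroup G) ≤ M) : IsPGroup r (G ⧸ T) := by
  have hTn : T.Normal := inferInstance
  obtain ⟨M₀, ⟨hM₀c, hRM₀⟩, hM₀u⟩ := huniq
  set D : Subgroup G := (R : Subgroup G) ⊓ T with hD
  have hDp : IsPGroup r D := R.isPGroup'.to_le inf_le_left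
  have hND : Subgroup.normalizer (D : Set G) ≠ ⊤ :=
    normalizer_ne_top_of_le_simple T hT hna hDp inf_le_right hR0
  -- R normalizes D
  have hRN : (R : Subgroup G) ≤ Subgroup.normalizer (D : Set G) := by
    intro x hx
    rw [Subgroup.mem_normalizer_iff]
    intro h
    constructor
    · rintro ⟨h1, h2⟩
      exact ⟨(R : Subgroup G).mul_mem ((R : Subgroup G).mul_mem hx h1) ((R : Subgroup G).inv_mem hx),
        hTn.conj_mem h h2 x⟩
    · rintro ⟨h1, h2⟩
      have e : h = x⁻¹ * (x * h * x⁻¹) * x := by group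
      rw [e]
      exact ⟨(R : Subgroup G).mul_mem ((R : Subgroup G).mul_mem ((R : Subgroup G).inv_mem hx) h1) hx,
        hTn.conj_mem' _ h2 x⟩
  obtain ⟨M, hMc, hNM⟩ := exists_coatom_ge hND
  have hMM₀ : M = M₀ := hM₀u M ⟨hMc, hRN.trans hNM⟩
  -- Frattini argument
  have hnd : ¬ r ∣ (D.subgroupOf T).index := by
    intro hdvd
    have h1 : (D.subgroupOf T).index = (R : Subgroup G).relIndex T := by
      show D.relIndex T = _
      rw [hD, Subgroup.inf_relIndex_right]
    rw [h1] at hdvd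
    exact R.not_dvd_index (hdvd.trans (relIndex_dvd_index_of_normal_right _ T))
  have hDp' : IsPGroup r (D.subgroupOf T) := hDp.comap_of_injective _ T.subtype_injective
  have hfr := Sylow.normalizer_sup_eq_top (hDp'.toSylow hnd)
  have hmap : ((hDp'.toSylow hnd : Sylow r T) : Subgroup T).map T.subtype = D := by
    rw [IsPGroup.toSylow_coe, Subgroup.subgroupOf_map_subtype, inf_of_le_left inf_le_right]
  have hfr' : Subgroup.normalizer (D : Set G) ⊔ T = ⊤ := by
    rw [← hmap]; exact hfr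
  have hTM₀ : ¬ T ≤ M₀ := by
    intro hle
    apply hM₀c.1
    rw [eq_top_iff, ← hfr']
    exact sup_le (hMM₀ ▸ hNM) hle
  have hRT : (R : Subgroup G) ⊔ T = ⊤ := by
    by_contra hne
    obtain ⟨M', hM'c, hM'⟩ := exists_coatom_ge hne
    have hM'M₀ : M' = M₀ := hM₀u M' ⟨hM'c, le_sup_left.trans hM'⟩
    exact hTM₀ (hM'M₀ ▸ le_sup_right.trans hM')
  intro q
  obtain ⟨g, rfl⟩ := QuotientGroup.mk_surjective q
  have hg : g ∈ (R : Subgroup G) ⊔ T := hRT ▸ Subgroup.mem_top g
  rw [Subgroup.mem_sup_of_normal_right] at hg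
  obtain ⟨x, hx, y, hy, rfl⟩ := hg
  obtain ⟨k, hk⟩ := R.isPGroup' ⟨x, hx⟩
  refine ⟨k, ?_⟩
  have hy1 : ((y : G) : G ⧸ T) = 1 := (QuotientGroup.eq_one_iff y).2 hy
  rw [QuotientGroup.mk_mul, hy1, mul_one, ← QuotientGroup.mk_pow]
  have hk' : x ^ r ^ k = 1 := by
    have := congrArg Subtype.val hk
    simpa using this
  rw [hk']
  rfl

end Cfsg.Agent.S3859
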