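-- Statement S3863: real elements (conjugate to their inverse).
import Mathlib
import Cfsg.Statements.S3863

set_option autoImplicit false
open Cfsg

namespace Cfsg.Agent.S3863

/-- some `2`-element inverts a real element -/
theorem exists_two_elt {G : Type*} [Group G] [Finite G] (x : G) (hx : IsConj x x⁻¹) :
    ∃ t : G, (∃ j : ℕ, orderOf t = 2 ^ j) ∧ t * x * t⁻¹ = x⁻¹ := by
  obtain ⟨g, hg⟩ := isConj_iff.1 hx
  have hpos : orderOf g ≠ 0 := (orderOf_pos g).ne'
  obtain ⟨j, m, hm, hjm⟩ := Nat.exists_eq_two_pow_mul_odd hpos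
  have hm0 : m ≠ 0 := by
    rintro rfl
    simp at hm
  refine ⟨g ^ m, ⟨j, ?_⟩, ?_⟩
  · rw [orderOf_pow_of_dvd hm0 (hjm ▸ Dvd.intro_left _ rfl), hjm]
    exact Nat.mul_div_cancel _ (Nat.pos_of_ne_zero hm0)
  · -- g ^ 2 commutes with x
    have h2 : Commute (g ^ 2) x := by
      unfold Commute SemiconjBy
      have h0 : g * x⁻¹ * g⁻¹ = x := by
        have e : g * x⁻¹ * g⁻¹ = (g * x * g⁻¹)⁻¹ := by group
        rw [e, hg, inv_inv]
      rw [pow_two]
      calc g * g * x = g * (g * x * g⁻¹) * g⁻¹ * (g * g) := by group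
        _ = g * x⁻¹ * g⁻¹ * (g * g) := by rw [hg]
        _ = x * (g * g) := by rw [h0]
    obtain ⟨k, rfl⟩ := hm
    have h3 : Commute (g ^ (2 * k)) x := by
      rw [pow_mul]; exact h2.pow_left k
    have h4 : Commute (g ^ (2 * k)) x⁻¹ := h3.inv_right
    calc g ^ (2 * k + 1) * x * (g ^ (2 * k + 1))⁻¹
        = g ^ (2 * k) * (g * x * g⁻¹) * (g ^ (2 * k))⁻¹ := by
          rw [pow_succ]; group
      _ = g ^ (2 * k) * x⁻¹ * (g ^ (2 * k))⁻¹ := by rw [hg]
      _ = x⁻¹ := by rw [h4.eq]; group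

/-- Let x be an element of the finite group G that is conjugate to its inverse. Then some 2-element conjugates x to its inverse; if the conjugacy class of x has odd size then x ^ 2 = 1; and x lies in, and is conjugate to its inverse inside, every normal subgroup of odd index. -/
theorem result {G : Type*} [Group G] [Finite G] (x : G) (hx : IsConj x x⁻¹) : (∃ t : G, (∃ j : ℕ, orderOf t = 2 ^ j) ∧ t * x * t⁻¹ = x⁻¹) ∧ (Odd (Subgroup.centralizer ({x} : Set G)).index → x ^ 2 = 1) ∧ ∀ (N : Subgroup G) [N.Normal], Odd N.index → ∃ hxN : x ∈ N, IsConj (⟨x, hxN⟩ : N) (⟨x, hxN⟩ : N)⁻¹ := by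
  obtain ⟨t, ⟨j, htj⟩, htx⟩ := exists_two_elt x hx
  refine ⟨⟨t, ⟨j, htj⟩, htx⟩, ?_, ?_⟩
  · intro hodd
    classical
    -- the conjugacy class of x as an orbit
    let α := ↥(MulAction.orbit (ConjAct G) x)
    let _ : Fintype α := Fintype.ofFinite α
    have hidx : (Subgroup.centralizer ({x} : Set G)).index
        = (MulAction.stabilizer (ConjAct G) x).index := by
      rw [Subgroup.centralizer_eq_comap_stabilizer]
      exact Subgroup.index_comap_of_surjective _
        (MulEquiv.surjective ConjAct.toConjAct :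
          Function.Surjective (ConjAct.toConjAct.toMonoidHom : G →* ConjAct G))
    have hcard : Fintype.card α = (Subgroup.centralizer ({x} : Set G)).index := by
      rw [hidx, ← Nat.card_eq_fintype_card, Nat.card_coe_set_eq, ← MulAction.index_stabilizer]
    have hmem : ∀ y : G, y ∈ MulAction.orbit (ConjAct G) x → y⁻¹ ∈ MulAction.orbit (ConjAct G) x := by
      intro y hy
      rw [ConjAct.mem_orbit_conjAct] at hy ⊢
      obtain ⟨c, hc⟩ := isConj_iff.1 hy
      have h1 : IsConj y⁻¹ x⁻¹ := isConj_iff.2 ⟨c, by rw [← hc]; group⟩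
      exact h1.trans hx.symm
    let f : α → α := fun y => ⟨(y : G)⁻¹, hmem y y.2⟩
    have hf : Function.Involutive f := by
      intro y
      apply Subtype.ext
      simp [f]
    let σ : Equiv.Perm α := hf.toPerm f
    have hσ : σ ^ 2 ^ 1 = 1 := by
      ext y
      simp [σ, pow_two, hf y]
    have hα : ¬ 2 ∣ Fintype.card α := by
      rw [hcard]
      exact hodd.not_two_dvd_nat
    obtain ⟨y, hy⟩ := Equiv.Perm.exists_fixed_point_of_prime (p := 2) (n := 1) hα hσ
    have hy' : (y : G)⁻¹ = (y : G) := congrArg Subtype.val hy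
    have hy2 : (y : G) ^ 2 = 1 := by
      rw [pow_two]
      nth_rewrite 1 [← hy']
      exact inv_mul_cancel _
    have hyx := y.2
    rw [ConjAct.mem_orbit_conjAct] at hyx
    obtain ⟨c, hc⟩ := isConj_iff.1 hyx
    rw [← hc]
    rw [conj_pow, hy2, mul_one, mul_inv_cancel]
  · intro N _ hodd
    have hcardQ : Nat.card (G ⧸ N) = N.index := rfl
    have hone : ∀ q : G ⧸ N, (∃ i : ℕ, q ^ 2 ^ i = 1) → q = 1 := by
      rintro q ⟨i, hq⟩
      have h1 : orderOf q ∣ 2 ^ i := orderOf_dvd_of_pow_eq_one hq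
      have h2 : orderOf q ∣ Nat.card (G ⧸ N) := orderOf_dvd_natCard q
      rw [hcardQ] at h2
      have hcop : Nat.Coprime (2 ^ i) N.index :=
        Nat.Coprime.pow_left i (Nat.coprime_two_left.2 hodd)
      have h3 : orderOf q = 1 := Nat.eq_one_of_dvd_coprimes hcop h1 h2
      exact orderOf_eq_one_iff.1 h3
    have htN : t ∈ N := by
      rw [← QuotientGroup.eq_one_iff]
      apply hone
      refine ⟨j, ?_⟩
      rw [← QuotientGroup.mk_pow, ← htj, pow_orderOf_eq_one]
      rfl
    have hxN : x ∈ N := by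
      rw [← QuotientGroup.eq_one_iff]
      apply hone
      refine ⟨1, ?_⟩
      have h1 : ((t : G) : G ⧸ N) = 1 := (QuotientGroup.eq_one_iff t).2 htN
      have h2 : ((t * x * t⁻¹ : G) : G ⧸ N) = ((x⁻¹ : G) : G ⧸ N) := by rw [htx]
      rw [QuotientGroup.mk_mul, QuotientGroup.mk_mul, QuotientGroup.mk_inv, h1,
        QuotientGroup.mk_inv] at h2
      simp only [one_mul, inv_one, mul_one] at h2
      rw [pow_one, pow_two]
      nth_rewrite 1 [h2]
      exact inv_mul_cancel _
    refine ⟨hxN, ?_⟩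
    rw [isConj_iff]
    refine ⟨⟨t, htN⟩, ?_⟩
    apply Subtype.ext
    simp [htx]

end Cfsg.Agent.S3863
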