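-- Statement S3861: no nontrivial real elements of odd order iff the Sylow 2-subgroup is normal.
import Mathlib
import Cfsg.Statements.S3861
import Cfsg.Agent.Lib.Helper64.Dihedral
import Cfsg.Agent.S3863

set_option autoImplicit false
open Cfsg
open Cfsg.Agent.Lib.Helper64

namespace Cfsg.Agent.S3861

universe u

/-- an element of odd prime order inverted modulo a normal `2`-subgroup is inverted -/
theorem lift_real_prime {G : Type*} [Group G] [Finite G] (N : Subgroup G) [hNn : N.Normal]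
    (hN : IsPGroup 2 N) (r : ℕ) (hr : r.Prime) (hr2 : r ≠ 2) (t u : G) (hu : orderOf u = r)
    (hinv : t * u * t⁻¹ * u ∈ N) : ∃ s : G, s * u * s⁻¹ = u⁻¹ := by
  classical
  have hfact : Fact r.Prime := ⟨hr⟩
  set L : Subgroup G := N ⊔ Subgroup.zpowers u with hL
  have huL : u ∈ L := Subgroup.mem_sup_right (Subgroup.mem_zpowers u)
  have hNL : N ≤ L := le_sup_left
  have hvL : t * u * t⁻¹ ∈ L := by
    have e : t * u * t⁻¹ = (t * u * t⁻¹ * u) * u⁻¹ := by group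
    rw [e]
    exact L.mul_mem (hNL hinv) (L.inv_mem huL)
  have hordv : orderOf (t * u * t⁻¹) = r := by
    have := MulEquiv.orderOf_eq (MulAut.conj t) u
    rw [MulAut.conj_apply] at this
    rw [this, hu]
  have hQ₁ : IsPGroup r (Subgroup.zpowers (⟨u, huL⟩ : L)) :=
    IsPGroup.of_card (n := 1) (by rw [Nat.card_zpowers, Subgroup.orderOf_mk, hu, pow_one])
  have hQ₂ : IsPGroup r (Subgroup.zpowers (⟨t * u * t⁻¹, hvL⟩ : L)) :=
    IsPGroup.of_card (n := 1) (by rw [Nat.card_zpowers, Subgroup.orderOf_mk, hordv, pow_one])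
  obtain ⟨R₁, hR₁⟩ := hQ₁.exists_le_sylow
  obtain ⟨R₂, hR₂⟩ := hQ₂.exists_le_sylow
  obtain ⟨l, hl⟩ := MulAction.exists_smul_eq L R₂ R₁
  have hmem1 : (⟨u, huL⟩ : L) ∈ (R₁ : Subgroup L) := hR₁ (Subgroup.mem_zpowers _)
  have hmem2 : l * (⟨t * u * t⁻¹, hvL⟩ : L) * l⁻¹ ∈ (R₁ : Subgroup L) := by
    have hv2 : (⟨t * u * t⁻¹, hvL⟩ : L) ∈ (R₂ : Subgroup L) := hR₂ (Subgroup.mem_zpowers _)
    have h3 := Subgroup.smul_mem_pointwise_smul _ (MulAut.conj l) (R₂ : Subgroup L) hv2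
    rw [← Sylow.coe_subgroup_smul, hl] at h3
    simpa [MulAut.smul_def] using h3
  have hmem3 := (R₁ : Subgroup L).mul_mem hmem2 hmem1
  obtain ⟨k, hk⟩ := (isPGroup_iff_mem.1 R₁.isPGroup') _ hmem3
  have hk' : ((l : G) * (t * u * t⁻¹) * (l : G)⁻¹ * u) ^ r ^ k = 1 := by
    have := congrArg (Subtype.val) hk
    simpa using this
  -- the element lies in N
  have hwN : (l : G) * (t * u * t⁻¹) * (l : G)⁻¹ * u ∈ N := by
    have hlL : (l : G) ∈ N ⊔ Subgroup.zpowers u := l.2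
    rw [Subgroup.mem_sup_of_normal_left] at hlL
    obtain ⟨n, hn, y, hy, hny⟩ := hlL
    obtain ⟨i, rfl⟩ := Subgroup.mem_zpowers_iff.1 hy
    rw [← hny]
    have h1 : u ^ i * (t * u * t⁻¹ * u) * (u ^ i)⁻¹ ∈ N := hNn.conj_mem _ hinv _
    have h2 : u⁻¹ * n⁻¹ * u ∈ N := by
      have := hNn.conj_mem _ (N.inv_mem hn) u⁻¹
      simpa using this
    have e : n * u ^ i * (t * u * t⁻¹) * (n * u ^ i)⁻¹ * u
        = n * (u ^ i * (t * u * t⁻¹ * u) * (u ^ i)⁻¹) * (u ^ i * u⁻¹ * (u ^ i)⁻¹ * u)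
          * (u⁻¹ * n⁻¹ * u) := by group
    have e2 : u ^ i * u⁻¹ * (u ^ i)⁻¹ * u = 1 := by
      have hc : Commute (u ^ i) u⁻¹ := ((Commute.refl u).zpow_left i).inv_right
      rw [hc.eq]; group
    rw [e, e2, mul_one]
    exact N.mul_mem (N.mul_mem hn h1) h2
  obtain ⟨a, ha⟩ := (isPGroup_iff_mem.1 hN) _ hwN
  have hw1 : (l : G) * (t * u * t⁻¹) * (l : G)⁻¹ * u = 1 := by
    have h1 : orderOf ((l : G) * (t * u * t⁻¹) * (l : G)⁻¹ * u) ∣ r ^ k :=
      orderOf_dvd_of_pow_eq_one hk'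
    have h2 : orderOf ((l : G) * (t * u * t⁻¹) * (l : G)⁻¹ * u) ∣ 2 ^ a :=
      orderOf_dvd_of_pow_eq_one ha
    have hcop : Nat.Coprime (r ^ k) (2 ^ a) :=
      Nat.Coprime.pow k a ((Nat.coprime_primes hr Nat.prime_two).2 hr2)
    exact orderOf_eq_one_iff.1 (Nat.eq_one_of_dvd_coprimes hcop h1 h2)
  refine ⟨(l : G) * t, ?_⟩
  have e : (l : G) * t * u * ((l : G) * t)⁻¹ = ((l : G) * (t * u * t⁻¹) * (l : G)⁻¹ * u) * u⁻¹ := by
    group
  rw [e, hw1, one_mul]

/-- a real element of odd order in a quotient by a normal `2`-subgroup lifts -/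
theorem lift_real {G : Type*} [Group G] [Finite G] (N : Subgroup G) [hNn : N.Normal]
    (hN : IsPGroup 2 N) (tb ub : G ⧸ N) (hub1 : ub ≠ 1) (hodd : Odd (orderOf ub))
    (hinv : tb * ub * tb⁻¹ = ub⁻¹) : ∃ x : G, x ≠ 1 ∧ Odd (orderOf x) ∧ IsConj x x⁻¹ := by
  have hfact2 : Fact (Nat.Prime 2) := ⟨Nat.prime_two⟩
  -- Step A: prime order
  have hm1 : orderOf ub ≠ 1 := fun e => hub1 (orderOf_eq_one_iff.1 e)
  have hr := Nat.minFac_prime hm1
  have hrm : (orderOf ub).minFac ∣ orderOf ub := Nat.minFac_dvd _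
  have hr2 : (orderOf ub).minFac ≠ 2 := by
    intro e
    rw [e] at hrm
    exact (Nat.not_even_iff_odd.2 hodd) (even_iff_two_dvd.2 hrm)
  have hm0 : orderOf ub ≠ 0 := (orderOf_pos ub).ne'
  have hdp : orderOf ub / (orderOf ub).minFac ≠ 0 :=
    (Nat.div_pos (Nat.le_of_dvd (Nat.pos_of_ne_zero hm0) hrm) hr.pos).ne'
  have hord1 : orderOf (ub ^ (orderOf ub / (orderOf ub).minFac)) = (orderOf ub).minFac := by
    rw [orderOf_pow_of_dvd hdp (Nat.div_dvd_of_dvd hrm), Nat.div_div_self hrm hm0]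
  have hinv1 : tb * ub ^ (orderOf ub / (orderOf ub).minFac) * tb⁻¹
      = (ub ^ (orderOf ub / (orderOf ub).minFac))⁻¹ := by
    rw [← conj_pow, hinv, inv_pow]
  generalize ub ^ (orderOf ub / (orderOf ub).minFac) = ub₁ at hord1 hinv1
  generalize (orderOf ub).minFac = r at hr hr2 hord1
  -- Step B: lift to an element of order r
  obtain ⟨b, hb⟩ := (IsPGroup.iff_card).1 hN
  have hcop : (orderOf ub₁).Coprime (2 ^ b) := by
    rw [hord1]
    exact Nat.Coprime.pow_right b ((Nat.coprime_primes hr Nat.prime_two).2 hr2)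
  have hord2 : orderOf (ub₁ ^ 2 ^ b) = r := by rw [hcop.orderOf_pow, hord1]
  have hinv2 : tb * ub₁ ^ 2 ^ b * tb⁻¹ = (ub₁ ^ 2 ^ b)⁻¹ := by
    rw [← conj_pow, hinv1, inv_pow]
  obtain ⟨t, rfl⟩ := QuotientGroup.mk_surjective tb
  obtain ⟨u₀, rfl⟩ := QuotientGroup.mk_surjective ub₁
  have hu₀r : u₀ ^ r ∈ N := by
    rw [← QuotientGroup.eq_one_iff, QuotientGroup.mk_pow, ← hord1]
    exact pow_orderOf_eq_one _
  have hur : (u₀ ^ 2 ^ b) ^ r = 1 := by
    rw [← pow_mul, mul_comm, pow_mul]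
    have := pow_card_eq_one' (G := N) (x := ⟨u₀ ^ r, hu₀r⟩)
    rw [hb] at this
    have := congrArg Subtype.val this
    simpa using this
  have hu1 : u₀ ^ 2 ^ b ≠ 1 := by
    intro e
    have : ((u₀ ^ 2 ^ b : G) : G ⧸ N) = 1 := by rw [e]; rfl
    rw [QuotientGroup.mk_pow] at this
    rw [this, orderOf_one] at hord2
    exact hr.one_lt.ne hord2
  have hfact : Fact r.Prime := ⟨hr⟩
  have hordu : orderOf (u₀ ^ 2 ^ b) = r := orderOf_eq_prime hur hu1
  have hinvN : t * u₀ ^ 2 ^ b * t⁻¹ * u₀ ^ 2 ^ b ∈ N := by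
    rw [← QuotientGroup.eq_one_iff]
    simp only [QuotientGroup.mk_mul, QuotientGroup.mk_inv, QuotientGroup.mk_pow]
    rw [hinv2, inv_mul_cancel]
  obtain ⟨s, hs⟩ := lift_real_prime N hN r hr hr2 t (u₀ ^ 2 ^ b) hordu hinvN
  refine ⟨u₀ ^ 2 ^ b, hu1, ?_, isConj_iff.2 ⟨s, hs⟩⟩
  rw [hordu]
  exact hr.odd_of_ne_two hr2

/-- forward direction -/
theorem forward {G : Type u} [Group G] [Finite G] (P : Sylow 2 G)
    (h : ∀ x : G, x ≠ 1 → Odd (orderOf x) → ¬ IsConj x x⁻¹) : (P : Subgroup G).Normal := by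
  have hfact : Fact (Nat.Prime 2) := ⟨Nat.prime_two⟩
  obtain ⟨N, -, hNmax⟩ := Finite.exists_le_maximal
    (p := fun N : Subgroup G => N.Normal ∧ IsPGroup 2 N) (a := ⊥)
    ⟨Subgroup.normal_bot, IsPGroup.of_bot⟩
  obtain ⟨hNn, hN2⟩ := hNmax.prop
  have hodd : ¬ 2 ∣ N.index := by
    intro hdvd
    have hdvd' : 2 ∣ Nat.card (G ⧸ N) := by rwa [← Subgroup.index_eq_card]
    obtain ⟨tb, htb⟩ := exists_prime_orderOf_dvd_card' (G := G ⧸ N) 2 hdvd'
    have htb2 : tb * tb = 1 := by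
      have := pow_orderOf_eq_one tb
      rwa [htb, pow_two] at this
    have hO : ∀ M : Subgroup (G ⧸ N), M.Normal → IsPGroup 2 M → tb ∉ M := by
      intro M hMn hM2 htM
      have hc2 : IsPGroup 2 (M.comap (QuotientGroup.mk' N)) :=
        hM2.comap_of_ker_isPGroup _ (by rw [QuotientGroup.ker_mk']; exact hN2)
      have hcn : (M.comap (QuotientGroup.mk' N)).Normal := hMn.comap _
      have hle : N ≤ M.comap (QuotientGroup.mk' N) := by
        intro n hn
        rw [Subgroup.mem_comap]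
        have e : QuotientGroup.mk' N n = 1 := (QuotientGroup.eq_one_iff n).2 hn
        rw [e]; exact M.one_mem
      have heq : M.comap (QuotientGroup.mk' N) ≤ N := hNmax.le_of_ge ⟨hcn, hc2⟩ hle
      obtain ⟨t, rfl⟩ := QuotientGroup.mk'_surjective N tb
      have htN : t ∈ N := heq htM
      have e : (QuotientGroup.mk' N t) = 1 := (QuotientGroup.eq_one_iff t).2 htN
      rw [e, orderOf_one] at htb
      exact absurd htb (by norm_num)
    obtain ⟨g, a, h1, h2, h3⟩ := exists_odd_inverted tb htb2 hO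
    obtain ⟨x, hx1, hxodd, hxc⟩ := lift_real N hN2 tb _ h1 h2 h3
    exact h x hx1 hxodd hxc
  have hNs : ((hN2.toSylow hodd : Sylow 2 G) : Subgroup G) = N := IsPGroup.toSylow_coe hN2 hodd
  have hnorm : ((hN2.toSylow hodd : Sylow 2 G) : Subgroup G).Normal := by rw [hNs]; exact hNn
  obtain ⟨g, hg⟩ := MulAction.exists_smul_eq G (hN2.toSylow hodd : Sylow 2 G) P
  rw [Sylow.smul_eq_of_normal] at hg
  rw [← hg]
  exact hnorm

/-- A finite group G has no non-identity element of odd order that is conjugate to its inverse if and only if the Sylow 2-subgroups of G are normal. -/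
theorem result {G : Type*} [Group G] [Finite G] (P : Sylow 2 G) : (∀ x : G, x ≠ 1 → Odd (orderOf x) → ¬ IsConj x x⁻¹) ↔ (P : Subgroup G).Normal := by
  constructor
  · exact forward P
  · intro hP x hx1 hodd hconj
    have hfact : Fact (Nat.Prime 2) := ⟨Nat.prime_two⟩
    obtain ⟨t, ⟨j, htj⟩, htx⟩ := Cfsg.Agent.S3863.exists_two_elt x hconj
    -- t lies in P
    have htP : t ∈ (P : Subgroup G) := by
      have hT : IsPGroup 2 (Subgroup.zpowers t) :=
        IsPGroup.of_card (n := j) (by rw [Nat.card_zpowers, htj])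
      obtain ⟨Q, hQ⟩ := hT.exists_le_sylow
      obtain ⟨g, hg⟩ := MulAction.exists_smul_eq G P Q
      have hPn : (P : Subgroup G).Normal := hP
      rw [Sylow.smul_eq_of_normal] at hg
      rw [hg]
      exact hQ (Subgroup.mem_zpowers t)
    have h1 : x⁻¹ * t⁻¹ * x ∈ (P : Subgroup G) := by
      have := hP.conj_mem _ ((P : Subgroup G).inv_mem htP) x⁻¹
      simpa using this
    have h2 : x⁻¹ * t⁻¹ * x * t ∈ (P : Subgroup G) := (P : Subgroup G).mul_mem h1 htP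
    have e : x⁻¹ * t⁻¹ * x * t = (x ^ 2)⁻¹ := by
      have e1 : t⁻¹ * x * t = x⁻¹ := by
        have e0 : x = t⁻¹ * x⁻¹ * t := by rw [← htx]; group
        calc t⁻¹ * x * t = (t⁻¹ * x⁻¹ * t)⁻¹ := by group
          _ = x⁻¹ := by rw [← e0]
      calc x⁻¹ * t⁻¹ * x * t = x⁻¹ * (t⁻¹ * x * t) := by group
        _ = x⁻¹ * x⁻¹ := by rw [e1]
        _ = (x ^ 2)⁻¹ := by rw [pow_two, mul_inv_rev]
    rw [e] at h2
    have h3 : x ^ 2 ∈ (P : Subgroup G) := by
      have := (P : Subgroup G).inv_mem h2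
      simpa using this
    obtain ⟨k, hk⟩ := (isPGroup_iff_mem.1 P.isPGroup') _ h3
    have hk' : x ^ 2 ^ (k + 1) = 1 := by
      rw [pow_succ, mul_comm, pow_mul]; exact hk
    have hd1 : orderOf x ∣ 2 ^ (k + 1) := orderOf_dvd_of_pow_eq_one hk'
    have hcop : Nat.Coprime (orderOf x) (2 ^ (k + 1)) :=
      Nat.Coprime.pow_right _ (Nat.Coprime.symm (Nat.coprime_two_left.2 hodd))
    have h4 : orderOf x = 1 := Nat.eq_one_of_dvd_coprimes hcop dvd_rfl hd1
    exact hx1 (orderOf_eq_one_iff.1 h4)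

end Cfsg.Agent.S3861
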