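import Mathlib
import Cfsg.Statements.S3862
import Cfsg.Agent.S0071

set_option autoImplicit false
open Cfsg

namespace Cfsg.Agent.S3862

/-- if `g` of odd order commutes with `a ^ 2` and `a⁻¹ * (g a g⁻¹)` is a `2`-element,
then `g` commutes with `a` (the element `a⁻¹ * (g a g⁻¹)` is inverted by `a`) -/
theorem comm_of_sq {G : Type*} [Group G]
    (h : ∀ x : G, (∃ j : ℕ, orderOf x = 2 ^ j) → IsConj x x⁻¹ → x ∈ Subgroup.center G)
    (g a : G) (hg : (orderOf g).Coprime 2)
    (hx : ∃ j : ℕ, orderOf (a⁻¹ * (g * a * g⁻¹)) = 2 ^ j)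
    (hsq : g * a ^ 2 = a ^ 2 * g) : g * a = a * g := by
  set b := g * a * g⁻¹ with hb
  set x := a⁻¹ * b with hxdef
  have hb2 : b ^ 2 = a ^ 2 := by
    rw [hb, conj_pow, hsq]; group
  have hconj : IsConj x x⁻¹ := by
    rw [isConj_iff]
    refine ⟨a, ?_⟩
    have h2 : b * a⁻¹ = b⁻¹ * a := by
      have h1 : b * a⁻¹ = b⁻¹ * (b ^ 2) * a⁻¹ := by group
      rw [h1, hb2]; group
    rw [hxdef]
    calc a * (a⁻¹ * b) * a⁻¹ = b * a⁻¹ := by group
      _ = b⁻¹ * a := h2
      _ = (a⁻¹ * b)⁻¹ := by group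
  have hcen := h x hx hconj
  have hbx : b = a * x := by rw [hxdef]; group
  have hpow : ∀ k : ℕ, g ^ k * a * (g ^ k)⁻¹ = a * x ^ k := by
    intro k
    induction k with
    | zero => simp
    | succ k ih =>
      have h1 : g ^ (k + 1) * a * (g ^ (k + 1))⁻¹ = g * (g ^ k * a * (g ^ k)⁻¹) * g⁻¹ := by
        rw [pow_succ']; group
      rw [h1, ih]
      have hxk : x ^ k * g = g * x ^ k :=
        (Subgroup.mem_center_iff.mp (Subgroup.pow_mem _ hcen k) g).symm
      calc g * (a * x ^ k) * g⁻¹ = (g * a * g⁻¹) * ((g * x ^ k) * g⁻¹) := by group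
        _ = (a * x) * (x ^ k) := by rw [← hb, hbx, ← hxk]; group
        _ = a * x ^ (k + 1) := by rw [pow_succ']; group
  have h1 := hpow (orderOf g)
  rw [pow_orderOf_eq_one] at h1
  have h1' : x ^ orderOf g = 1 := by simpa using h1.symm
  have hx1 : x = 1 := by
    obtain ⟨j, hj⟩ := hx
    have hdvd : orderOf x ∣ orderOf g := orderOf_dvd_of_pow_eq_one h1'
    have hcop : (orderOf x).Coprime (orderOf g) := by
      rw [hj]; exact Nat.Coprime.pow_left j hg.symm
    exact orderOf_eq_one_iff.mp (Nat.Coprime.eq_one_of_dvd hcop hdvd)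
  rw [hx1, mul_one] at hbx
  calc g * a = (g * a * g⁻¹) * g := by group
    _ = a * g := by rw [← hb, hbx]

/-- If every 2-element of the finite group G that is conjugate to its inverse lies in the centre of G, then G has a normal 2-complement. -/
theorem result {G : Type*} [Group G] [Finite G] (h : ∀ x : G, (∃ j : ℕ, orderOf x = 2 ^ j) → IsConj x x⁻¹ → x ∈ Subgroup.center G) : Cfsg.HasNormalPComplement 2 G := by
  obtain ⟨P⟩ : Nonempty (Sylow 2 G) := inferInstance
  refine ⟨P, (Cfsg.Agent.S0071.result P).mpr ?_⟩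
  intro Q hQ g hg hcop
  have claim : ∀ n : ℕ, ∀ a ∈ Q, a ^ (2 ^ n) = 1 → g * a = a * g := by
    intro n
    induction n with
    | zero =>
      intro a _ ha
      have ha' : a = 1 := by simpa using ha
      rw [ha']; simp
    | succ n ih =>
      intro a ha hpow
      have ha2 : a ^ 2 ∈ Q := Q.pow_mem ha 2
      have hsq := ih (a ^ 2) ha2 (by rw [← pow_mul, ← pow_succ']; exact hpow)
      apply comm_of_sq h g a hcop ?_ hsq
      have hmem : a⁻¹ * (g * a * g⁻¹) ∈ Q :=
        Q.mul_mem (Q.inv_mem ha) ((Subgroup.mem_normalizer_iff.mp hg a).mp ha)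
      obtain ⟨k, hk⟩ := (IsPGroup.iff_orderOf.mp P.2) ⟨_, hQ hmem⟩
      exact ⟨k, by rw [← hk, Subgroup.orderOf_mk]⟩
  rw [Subgroup.mem_centralizer_iff]
  intro a ha
  obtain ⟨n, hn⟩ := P.2 ⟨a, hQ ha⟩
  have hn' : a ^ 2 ^ n = 1 := by
    have := congrArg Subtype.val hn
    simpa using this
  exact (claim n a ha hn').symm

end Cfsg.Agent.S3862
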