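import Mathlib
import Cfsg.Statements.S3864
import Cfsg.Agent.Lib.Helper53.Basic

set_option autoImplicit false
open Cfsg

namespace Cfsg.Agent.S3864

/-- a Sylow 2-subgroup covers every quotient of 2-power order -/
theorem dvd_relIndex_sylow {G : Type*} [Group G] [Finite G] (P : Sylow 2 G) (N : Subgroup G)
    (k : ℕ) (hN : N.index = 2 ^ k) : 2 ^ k ∣ N.relIndex (P : Subgroup G) := by
  have : Fact (Nat.Prime 2) := ⟨Nat.prime_two⟩
  have h1 : (N ⊓ (P : Subgroup G)).relIndex (P : Subgroup G) * (P : Subgroup G).index =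
      (N ⊓ (P : Subgroup G)).index := Subgroup.relIndex_mul_index inf_le_right
  have h2 : (N ⊓ (P : Subgroup G)).relIndex N * N.index = (N ⊓ (P : Subgroup G)).index :=
    Subgroup.relIndex_mul_index inf_le_left
  rw [Subgroup.inf_relIndex_right] at h1
  have h3 : N.index ∣ N.relIndex (P : Subgroup G) * (P : Subgroup G).index := by
    rw [h1, ← h2]; exact dvd_mul_left _ _
  have hodd : ¬ 2 ∣ (P : Subgroup G).index := P.not_dvd_index
  have hcop : Nat.Coprime N.index (P : Subgroup G).index := by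
    rw [hN]
    exact Nat.Coprime.pow_left k ((Nat.Prime.coprime_iff_not_dvd Nat.prime_two).mpr hodd)
  rw [← hN]
  exact hcop.dvd_of_dvd_mul_right h3

/-- if the central involution is fused to a reflection, no normal subgroup has index 4 -/
theorem no_index_four {G : Type*} [Group G] [Finite G] (P : Sylow 2 G) (r s z : G)
    (hr : r ∈ (P : Subgroup G)) (hs : s ∈ (P : Subgroup G))
    (hgen : ∀ x ∈ (P : Subgroup G), ∃ i : ℤ, x = r ^ i ∨ x = s * r ^ i)
    (hrel : s * r * s⁻¹ = r⁻¹) (hz : ∃ j : ℕ, z = (r ^ 2) ^ j) (hzs : IsConj z s)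
    (N : Subgroup G) (hNn : N.Normal) (hidx : N.index = 4) : False := by
  have : Fact (Nat.Prime 2) := ⟨Nat.prime_two⟩
  have hcard : Nat.card (G ⧸ N) = 2 ^ 2 := by rw [← Subgroup.index_eq_card, hidx]; norm_num
  have hcomm : ∀ a b : G ⧸ N, a * b = b * a :=
    (IsPGroup.isMulCommutative_of_card_eq_prime_sq hcard).is_comm.comm
  have hr2 : r ^ 2 ∈ N := by
    have h1 : (QuotientGroup.mk' N) (r * s * r⁻¹ * s⁻¹) = 1 := by
      simp only [map_mul, map_inv]
      rw [hcomm (QuotientGroup.mk' N r) (QuotientGroup.mk' N s)]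
      group
    have h2 : r * s * r⁻¹ * s⁻¹ = r ^ 2 := by
      have h3 : s * r⁻¹ * s⁻¹ = r := by
        have h4 := congrArg (·⁻¹) hrel
        simpa [mul_assoc] using h4
      calc r * s * r⁻¹ * s⁻¹ = r * (s * r⁻¹ * s⁻¹) := by group
        _ = r ^ 2 := by rw [h3, sq]
    rw [h2] at h1
    exact (QuotientGroup.eq_one_iff _).mp h1
  have hzN : z ∈ N := by
    obtain ⟨j, rfl⟩ := hz
    exact N.pow_mem hr2 j
  have hsN : s ∈ N := by
    obtain ⟨c, hc⟩ := isConj_iff.mp hzs
    rw [← hc]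
    exact hNn.conj_mem z hzN c
  have h4 : 2 ^ 2 ∣ N.relIndex (P : Subgroup G) :=
    dvd_relIndex_sylow P N 2 (by rw [hidx]; norm_num)
  have hn' : (N.subgroupOf (P : Subgroup G)).Normal := inferInstance
  obtain ⟨g, hg⟩ : ∃ g : ↥(P : Subgroup G) ⧸ N.subgroupOf (P : Subgroup G),
      g = QuotientGroup.mk ⟨r, hr⟩ := ⟨_, rfl⟩
  have hs1 : (QuotientGroup.mk ⟨s, hs⟩ : ↥(P : Subgroup G) ⧸ N.subgroupOf (P : Subgroup G)) = 1 := by
    rw [QuotientGroup.eq_one_iff, Subgroup.mem_subgroupOf]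
    exact hsN
  have hall : ∀ q : ↥(P : Subgroup G) ⧸ N.subgroupOf (P : Subgroup G),
      q ∈ Subgroup.zpowers g := by
    intro q
    induction q using QuotientGroup.induction_on with
    | H x =>
      obtain ⟨i, hi | hi⟩ := hgen x x.2
      · have hx : x = (⟨r, hr⟩ : ↥(P : Subgroup G)) ^ i := Subtype.ext (by rw [hi]; simp)
        rw [hx]
        exact ⟨i, by rw [hg]; simp⟩
      · have hx : x = (⟨s, hs⟩ : ↥(P : Subgroup G)) * (⟨r, hr⟩ : ↥(P : Subgroup G)) ^ i :=
          Subtype.ext (by rw [hi]; simp)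
        rw [hx, QuotientGroup.mk_mul, hs1, one_mul]
        exact ⟨i, by rw [hg]; simp⟩
  have h5 := orderOf_eq_card_of_forall_mem_zpowers hall
  have h6 : orderOf g ∣ 2 := by
    apply orderOf_dvd_of_pow_eq_one
    rw [hg, ← QuotientGroup.mk_pow, QuotientGroup.eq_one_iff, Subgroup.mem_subgroupOf]
    simpa using hr2
  have h7 : N.relIndex (P : Subgroup G) ∣ 2 := by
    rw [Subgroup.relIndex, Subgroup.index_eq_card, ← h5]; exact h6
  have h8 := Nat.le_of_dvd (by norm_num) (h4.trans h7)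
  omega

/-- a normal subgroup of 2-power index meeting `P` in a cyclic group gives a normal 2-complement -/
theorem normal_compl_of_inf_le {G : Type*} [Group G] [Finite G] (P : Sylow 2 G) (M : Subgroup G)
    [hMn : M.Normal] (k : ℕ) (hMi : M.index = 2 ^ k) (r : G)
    (hPM : (P : Subgroup G) ⊓ M ≤ Subgroup.zpowers r) :
    ∃ K : Subgroup G, K.Normal ∧ K.IsComplement' (P : Subgroup G) := by
  have : Fact (Nat.Prime 2) := ⟨Nat.prime_two⟩
  obtain ⟨S⟩ : Nonempty (Sylow 2 ↥M) := inferInstance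
  have hS' : IsPGroup 2 ((S : Subgroup ↥M).map M.subtype) := S.2.map _
  obtain ⟨a, ha⟩ := Cfsg.Agent.Lib.Helper53.exists_conj_le_sylow P hS'
  have hmem : ∀ x : ↥(S : Subgroup ↥M),
      (((MulAut.conj a).toMonoidHom.comp M.subtype).comp (S : Subgroup ↥M).subtype) x ∈
        Subgroup.zpowers r := by
    intro x
    apply hPM
    refine Subgroup.mem_inf.mpr ⟨?_, ?_⟩
    · exact ha _ ⟨(x : ↥M), x.2, rfl⟩
    · exact hMn.conj_mem _ (x : ↥M).2 a
  obtain ⟨f, hf⟩ : ∃ f : ↥(S : Subgroup ↥M) →* ↥(Subgroup.zpowers r),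
      ∀ x, ((f x : ↥(Subgroup.zpowers r)) : G) = a * ((x : ↥M) : G) * a⁻¹ :=
    ⟨MonoidHom.codRestrict
      (((MulAut.conj a).toMonoidHom.comp M.subtype).comp (S : Subgroup ↥M).subtype) _ hmem,
      fun x => rfl⟩
  have hfi : Function.Injective f := by
    intro x y hxy
    have h1 := congrArg Subtype.val hxy
    rw [hf, hf] at h1
    have h3 : ((x : ↥M) : G) = ((y : ↥M) : G) := by simpa using h1
    exact Subtype.ext (Subtype.ext h3)
  have hcyc : IsCyclic ↥(S : Subgroup ↥M) := isCyclic_of_injective f hfi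
  obtain ⟨K₀, hK₀n, hK₀⟩ :=
    Cfsg.Agent.Lib.Helper53.exists_normal_complement_of_isCyclic_sylow_two S hcyc
  exact Cfsg.Agent.Lib.Helper53.exists_normal_complement_of_normal_subgroup M hMi S K₀ hK₀ P

/-- a complemented Sylow subgroup controls its own fusion -/
theorem conj_in_sylow_of_compl {G : Type*} [Group G] (P K : Subgroup G) (hKn : K.Normal)
    (hc : K.IsComplement' P) (u v : G) (hu : u ∈ P) (hv : v ∈ P) (huv : IsConj u v) :
    ∃ x ∈ P, x * u * x⁻¹ = v := by
  obtain ⟨g, hg⟩ := isConj_iff.mp huv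
  obtain ⟨⟨k, x⟩, hkx, -⟩ := Subgroup.IsComplement.existsUnique hc g
  have hkx' : (k : G) * (x : G) = g := hkx
  refine ⟨x, x.2, ?_⟩
  obtain ⟨w, hw⟩ : ∃ w : G, w = (x : G) * u * (x : G)⁻¹ := ⟨_, rfl⟩
  have hwP : w ∈ P := by rw [hw]; exact P.mul_mem (P.mul_mem x.2 hu) (P.inv_mem x.2)
  have h1 : v = (k : G) * w * (k : G)⁻¹ := by rw [← hg, ← hkx', hw]; group
  have h2 : v * w⁻¹ ∈ K := by
    rw [h1]
    have h3 := K.mul_mem k.2 (hKn.conj_mem _ (K.inv_mem k.2) w)
    have h4 : (k : G) * w * (k : G)⁻¹ * w⁻¹ = (k : G) * (w * (k : G)⁻¹ * w⁻¹) := by group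
    rw [h4]; exact h3
  have h3 : v * w⁻¹ ∈ P := P.mul_mem hv (P.inv_mem hwP)
  have h4 : v * w⁻¹ ∈ K ⊓ P := Subgroup.mem_inf.mpr ⟨h2, h3⟩
  rw [hc.disjoint.eq_bot, Subgroup.mem_bot] at h4
  rw [← hw]
  exact (mul_inv_eq_one.mp h4).symm

/-- Thompson transfer with the cyclic maximal subgroup -/
theorem transfer_of_not_conj {G : Type*} [Group G] [Finite G] (P : Sylow 2 G) (r z u : G)
    (hr : r ∈ (P : Subgroup G)) (hidx : (Subgroup.zpowers r).relIndex (P : Subgroup G) = 2)
    (huniq : ∀ x ∈ Subgroup.zpowers r, orderOf x = 2 → x = z) (hu : orderOf u = 2)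
    (hnc : ¬ IsConj z u) : ∃ M : Subgroup G, M.Normal ∧ M.index = 2 ∧ u ∉ M := by
  refine Cfsg.Agent.Lib.Helper53.thompson_transfer P (Subgroup.zpowers r)
    (by rw [Subgroup.zpowers_le]; exact hr) hidx u hu ?_
  intro g hg
  apply hnc
  have h1 := huniq _ hg (by rw [Cfsg.Agent.Lib.Helper53.orderOf_conj_eq]; exact hu)
  exact (isConj_iff.mpr ⟨g, h1⟩).symm

/-- two reflections of different parity are not conjugate in a dihedral group of even degree -/
theorem dihedral_parity {m : ℕ} (hm : 2 ∣ m) (y : DihedralGroup m) :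
    y * DihedralGroup.sr 0 * y⁻¹ ≠ DihedralGroup.sr 1 := by
  have key : ∀ j : ZMod m, j + j ≠ 1 := by
    intro j hj
    have h1 := congrArg (ZMod.castHom hm (ZMod 2)) hj
    rw [map_add, map_one] at h1
    have h2 : (ZMod.castHom hm (ZMod 2)) j + (ZMod.castHom hm (ZMod 2)) j = 0 :=
      CharTwo.add_self_eq_zero _
    rw [h2] at h1
    exact absurd h1 (by decide)
  rcases y with j | j
  · rw [DihedralGroup.inv_r, DihedralGroup.r_mul_sr, DihedralGroup.sr_mul_r]
    intro h
    injection h with h'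
    apply key (-j)
    rw [← h']; ring
  · rw [DihedralGroup.inv_sr, DihedralGroup.sr_mul_sr, DihedralGroup.r_mul_sr]
    intro h
    injection h with h'
    apply key j
    rw [← h']; ring

/-- the trichotomy for an abstract dihedral configuration -/
theorem core {G : Type*} [Group G] [Finite G] (P : Sylow 2 G) (r s : G) (h : ℕ) (hh : 0 < h)
    (hr : r ∈ (P : Subgroup G)) (hs : s ∈ (P : Subgroup G))
    (hord : orderOf r = 4 * h) (hso : orderOf s = 2) (hto : orderOf (s * r) = 2)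
    (hrel : s * r * s⁻¹ = r⁻¹)
    (hgen : ∀ x ∈ (P : Subgroup G), ∃ i : ℤ, x = r ^ i ∨ x = s * r ^ i)
    (hidx : (Subgroup.zpowers r).relIndex (P : Subgroup G) = 2)
    (hst : ∀ x ∈ (P : Subgroup G), x * s * x⁻¹ ≠ s * r) :
    (Nat.card {C : ConjClasses G // ∃ g : G, ConjClasses.mk g = C ∧ orderOf g = 2} = 1 ∧ ∀ N : Subgroup G, N.Normal → N.index ≠ 2) ∨ (Nat.card {C : ConjClasses G // ∃ g : G, ConjClasses.mk g = C ∧ orderOf g = 2} = 2 ∧ (∃ N : Subgroup G, N.Normal ∧ N.index = 2) ∧ ∀ N : Subgroup G, N.Normal → N.index ≠ 4) ∨ (Nat.card {C : ConjClasses G // ∃ g : G, ConjClasses.mk g = C ∧ orderOf g = 2} = 3 ∧ Cfsg.HasNormalPComplement 2 G) := by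
  have : Fact (Nat.Prime 2) := ⟨Nat.prime_two⟩
  obtain ⟨t, ht⟩ : ∃ t : G, t = s * r := ⟨_, rfl⟩
  obtain ⟨z, hz⟩ : ∃ z : G, z = r ^ (2 * h) := ⟨_, rfl⟩
  rw [← ht] at hto
  have htP : t ∈ (P : Subgroup G) := by rw [ht]; exact Subgroup.mul_mem _ hs hr
  have hz2 : z ^ 2 = 1 := by
    rw [hz, ← pow_mul, show 2 * h * 2 = 4 * h by ring, ← hord, pow_orderOf_eq_one]
  have hz1 : z ≠ 1 := by
    rw [hz]
    apply pow_ne_one_of_lt_orderOf (by omega)
    rw [hord]; omega
  have hzo : orderOf z = 2 := orderOf_eq_prime hz2 hz1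
  have hzr : ∃ j : ℕ, z = (r ^ 2) ^ j := ⟨h, by rw [hz, pow_mul]⟩
  -- unique involution of ⟨r⟩
  have huniq : ∀ x ∈ Subgroup.zpowers r, orderOf x = 2 → x = z := by
    intro x hx hxo
    obtain ⟨k, rfl⟩ := Subgroup.mem_zpowers_iff.mp hx
    have h1 : (r ^ k) ^ 2 = 1 := by rw [← hxo, pow_orderOf_eq_one]
    have h2 : r ^ (k * 2) = 1 := by rw [zpow_mul]; exact_mod_cast h1
    have h3 : ((orderOf r : ℕ) : ℤ) ∣ k * 2 := orderOf_dvd_iff_zpow_eq_one.mpr h2
    rw [hord] at h3
    have h4 : ((2 * h : ℕ) : ℤ) ∣ k := by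
      push_cast at h3 ⊢
      have h5 : (2 * (h : ℤ)) * 2 ∣ k * 2 := by
        have h6 : (2 * (h : ℤ)) * 2 = 4 * (h : ℤ) := by ring
        rw [h6]; exact h3
      exact (mul_dvd_mul_iff_right (by norm_num : (2 : ℤ) ≠ 0)).mp h5
    obtain ⟨j, rfl⟩ := h4
    have h5 : r ^ (((2 * h : ℕ) : ℤ) * j) = z ^ j := by rw [zpow_mul, zpow_natCast, hz]
    rw [h5] at hxo ⊢
    rcases Cfsg.Agent.Lib.Helper53.zpow_eq_one_or_self_of_sq_eq_one hz2 j with h6 | h6
    · rw [h6, orderOf_one] at hxo; omega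
    · exact h6
  -- conjugation by powers of r
  have hrs : ∀ j : ℤ, r ^ j * s = s * (r ^ j)⁻¹ := by
    intro j
    have h1 : s * r ^ j * s⁻¹ = (r ^ j)⁻¹ := by
      rw [← conj_zpow, hrel, inv_zpow]
    have h2 : s * (r ^ j)⁻¹ * s⁻¹ = r ^ j := by
      have h3 := congrArg (·⁻¹) h1
      simpa [mul_assoc] using h3
    calc r ^ j * s = (s * (r ^ j)⁻¹ * s⁻¹) * s := by rw [h2]
      _ = s * (r ^ j)⁻¹ := by group
  -- every involution is conjugate to z, s or t
  have hF1 : ∀ g : G, orderOf g = 2 → IsConj z g ∨ IsConj s g ∨ IsConj t g := by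
    intro g hg
    have hpg : IsPGroup 2 (Subgroup.zpowers g) := by
      apply IsPGroup.of_card (n := 1)
      rw [Nat.card_zpowers, hg, pow_one]
    obtain ⟨a, ha⟩ := Cfsg.Agent.Lib.Helper53.exists_conj_le_sylow P hpg
    have hxP := ha g (Subgroup.mem_zpowers g)
    have hxo : orderOf (a * g * a⁻¹) = 2 := by
      rw [Cfsg.Agent.Lib.Helper53.orderOf_conj_eq]; exact hg
    have hgx : IsConj g (a * g * a⁻¹) := isConj_iff.mpr ⟨a, rfl⟩
    obtain ⟨i, hi | hi⟩ := hgen _ hxP
    · left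
      have h1 := huniq (a * g * a⁻¹) (by rw [hi]; exact Subgroup.zpow_mem_zpowers r i) hxo
      rw [h1] at hgx
      exact hgx.symm
    · right
      obtain ⟨j, rfl | rfl⟩ := Int.even_or_odd' i
      · left
        have h1 : r ^ j * (s * r ^ (2 * j)) * (r ^ j)⁻¹ = s := by
          rw [← mul_assoc, hrs j, two_mul, zpow_add]; group
        have h2 : IsConj (a * g * a⁻¹) s := isConj_iff.mpr ⟨r ^ j, by rw [hi]; exact h1⟩
        exact (hgx.trans h2).symm
      · right
        have h1 : r ^ j * (s * r ^ (2 * j + 1)) * (r ^ j)⁻¹ = t := by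
          rw [← mul_assoc, hrs j, zpow_add, two_mul, zpow_add, zpow_one, ht]; group
        have h2 : IsConj (a * g * a⁻¹) t := isConj_iff.mpr ⟨r ^ j, by rw [hi]; exact h1⟩
        exact (hgx.trans h2).symm
  -- the set of classes
  have hset : {C : ConjClasses G | ∃ g : G, ConjClasses.mk g = C ∧ orderOf g = 2} =
      {ConjClasses.mk z, ConjClasses.mk s, ConjClasses.mk t} := by
    ext C
    simp only [Set.mem_ofPred_eq, Set.mem_insert_iff, Set.mem_singleton_iff]
    constructor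
    · rintro ⟨g, rfl, hg⟩
      rcases hF1 g hg with h1 | h1 | h1
      · left; exact (ConjClasses.mk_eq_mk_iff_isConj.mpr h1).symm
      · right; left; exact (ConjClasses.mk_eq_mk_iff_isConj.mpr h1).symm
      · right; right; exact (ConjClasses.mk_eq_mk_iff_isConj.mpr h1).symm
    · rintro (rfl | rfl | rfl)
      · exact ⟨z, rfl, hzo⟩
      · exact ⟨s, rfl, hso⟩
      · exact ⟨t, rfl, hto⟩
  have hcard : Nat.card {C : ConjClasses G // ∃ g : G, ConjClasses.mk g = C ∧ orderOf g = 2} =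
      Set.ncard ({ConjClasses.mk z, ConjClasses.mk s, ConjClasses.mk t} : Set (ConjClasses G)) := by
    rw [← hset]
    exact Nat.card_coe_set_eq _
  rw [hcard]
  -- index-two normal subgroups
  have hM2 : ∀ M : Subgroup G, M.index = 2 → ∀ j : ℤ, r ^ (2 * j) ∈ M := by
    intro M hM j
    rw [two_mul, zpow_add]
    exact Subgroup.mul_self_mem_of_index_two hM _
  have hzM : ∀ M : Subgroup G, M.index = 2 → z ∈ M := by
    intro M hM
    have h1 := hM2 M hM (h : ℤ)
    have h2 : r ^ (2 * (h : ℤ)) = r ^ (2 * h) := by exact_mod_cast zpow_natCast r (2 * h)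
    rw [hz, ← h2]; exact h1
  -- the configuration for t
  have hrelt : t * r * t⁻¹ = r⁻¹ := by
    rw [ht, ← hrel]; group
  have hgent : ∀ x ∈ (P : Subgroup G), ∃ i : ℤ, x = r ^ i ∨ x = t * r ^ i := by
    intro x hx
    obtain ⟨i, hi | hi⟩ := hgen x hx
    · exact ⟨i, Or.inl hi⟩
    · refine ⟨i - 1, Or.inr ?_⟩
      rw [hi, ht, zpow_sub_one]; group
  by_cases hzs : IsConj z s
  · by_cases hzt : IsConj z t
    · -- one class
      left
      constructor
      · rw [← ConjClasses.mk_eq_mk_iff_isConj.mpr hzs, ← ConjClasses.mk_eq_mk_iff_isConj.mpr hzt]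
        simp
      · intro M hMn hM
        have h1 := hzM M hM
        have hsM : s ∈ M := by
          obtain ⟨c, hc⟩ := isConj_iff.mp hzs
          rw [← hc]; exact hMn.conj_mem z h1 c
        have htM : t ∈ M := by
          obtain ⟨c, hc⟩ := isConj_iff.mp hzt
          rw [← hc]; exact hMn.conj_mem z h1 c
        have hrM : r ∈ M := by
          have h2 : r = s⁻¹ * t := by rw [ht]; group
          rw [h2]; exact M.mul_mem (M.inv_mem hsM) htM
        have hPM : (P : Subgroup G) ≤ M := by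
          intro x hx
          obtain ⟨i, hi | hi⟩ := hgen x hx
          · rw [hi]; exact M.zpow_mem hrM i
          · rw [hi]; exact M.mul_mem hsM (M.zpow_mem hrM i)
        have h2 : M.index ∣ (P : Subgroup G).index := Subgroup.index_dvd_of_le hPM
        rw [hM] at h2
        exact P.not_dvd_index h2
    · -- two classes: {z, s}, {t}
      right; left
      refine ⟨?_, ?_, ?_⟩
      · rw [← ConjClasses.mk_eq_mk_iff_isConj.mpr hzs]
        have hne : ConjClasses.mk z ≠ ConjClasses.mk t :=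
          fun h => hzt (ConjClasses.mk_eq_mk_iff_isConj.mp h)
        rw [Set.insert_eq_of_mem (Set.mem_insert _ _)]
        exact Set.ncard_pair hne
      · obtain ⟨M, hMn, hM, -⟩ := transfer_of_not_conj P r z t hr hidx huniq hto hzt
        exact ⟨M, hMn, hM⟩
      · intro N hNn hN
        exact no_index_four P r s z hr hs hgen hrel hzr hzs N hNn hN
  · by_cases hzt : IsConj z t
    · -- two classes: {z, t}, {s}
      right; left
      refine ⟨?_, ?_, ?_⟩
      · rw [← ConjClasses.mk_eq_mk_iff_isConj.mpr hzt]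
        have hne : ConjClasses.mk z ≠ ConjClasses.mk s :=
          fun h => hzs (ConjClasses.mk_eq_mk_iff_isConj.mp h)
        have h1 : ({ConjClasses.mk z, ConjClasses.mk s, ConjClasses.mk z} : Set (ConjClasses G)) =
            {ConjClasses.mk z, ConjClasses.mk s} := by
          ext C
          simp only [Set.mem_insert_iff, Set.mem_singleton_iff]
          tauto
        rw [h1]
        exact Set.ncard_pair hne
      · obtain ⟨M, hMn, hM, -⟩ := transfer_of_not_conj P r z s hr hidx huniq hso hzs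
        exact ⟨M, hMn, hM⟩
      · intro N hNn hN
        exact no_index_four P r t z hr htP hgent hrelt hzr hzt N hNn hN
    · -- three classes
      right; right
      obtain ⟨M₂, hM₂n, hM₂, hsM₂⟩ := transfer_of_not_conj P r z s hr hidx huniq hso hzs
      obtain ⟨M₁, hM₁n, hM₁, htM₁⟩ := transfer_of_not_conj P r z t hr hidx huniq hto hzt
      have hMn : (M₁ ⊓ M₂).Normal := Subgroup.normal_inf_normal M₁ M₂
      have hMi : ∃ k : ℕ, (M₁ ⊓ M₂).index = 2 ^ k := by
        have h1 : (M₁ ⊓ M₂).relIndex M₁ * M₁.index = (M₁ ⊓ M₂).index :=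
          Subgroup.relIndex_mul_index inf_le_left
        rw [Subgroup.inf_relIndex_left, hM₁] at h1
        have h2 : M₂.relIndex M₁ ∣ M₂.index := Subgroup.relIndex_dvd_index_of_normal M₂ M₁
        rw [hM₂] at h2
        rcases (Nat.dvd_prime Nat.prime_two).mp h2 with h3 | h3
        · exact ⟨1, by rw [← h1, h3]; norm_num⟩
        · exact ⟨2, by rw [← h1, h3]; norm_num⟩
      obtain ⟨k, hk⟩ := hMi
      have hPM : (P : Subgroup G) ⊓ (M₁ ⊓ M₂) ≤ Subgroup.zpowers r := by
        intro x hx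
        obtain ⟨hxP, hxM⟩ := Subgroup.mem_inf.mp hx
        obtain ⟨hx1, hx2⟩ := Subgroup.mem_inf.mp hxM
        obtain ⟨i, hi | hi⟩ := hgen x hxP
        · rw [hi]; exact Subgroup.zpow_mem_zpowers r i
        · exfalso
          rw [hi] at hx1 hx2
          have h1 : r ^ i ∉ M₂ :=
            fun h => hsM₂ (((Subgroup.mul_mem_iff_of_index_two hM₂).mp hx2).mpr h)
          obtain ⟨j, rfl | rfl⟩ := Int.even_or_odd' i
          · exact h1 (hM2 M₂ hM₂ j)
          · have h2 : s * r ^ (2 * j + 1) = t * r ^ (2 * j) := by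
              rw [ht, zpow_add, zpow_one]; group
            rw [h2] at hx1
            exact htM₁ (((Subgroup.mul_mem_iff_of_index_two hM₁).mp hx1).mpr (hM2 M₁ hM₁ j))
      obtain ⟨K, hKn, hKc⟩ := normal_compl_of_inf_le P (M₁ ⊓ M₂) k hk r hPM
      refine ⟨?_, ⟨P, K, hKn, hKc⟩⟩
      have hst' : ¬ IsConj s t := by
        intro hc
        obtain ⟨x, hx, hx'⟩ := conj_in_sylow_of_compl (P : Subgroup G) K hKn hKc s t hs htP hc
        rw [ht] at hx'
        exact hst x hx hx'
      rw [Set.ncard_eq_three]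
      exact ⟨_, _, _, fun h => hzs (ConjClasses.mk_eq_mk_iff_isConj.mp h),
        fun h => hzt (ConjClasses.mk_eq_mk_iff_isConj.mp h),
        fun h => hst' (ConjClasses.mk_eq_mk_iff_isConj.mp h), rfl⟩

/-- Let G be a finite group whose Sylow 2-subgroups are dihedral of order 2 ^ n with n ≥ 3, and count the conjugacy classes of involutions of G. Then exactly one of the following holds: there is one class of involutions and no normal subgroup of index 2; there are two classes of involutions, a normal subgroup of index 2 and none of index 4; there are three classes of involutions and G has a normal 2-complement. -/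
theorem result {G : Type*} [Group G] [Finite G] (P : Sylow 2 G) (n : ℕ) (hn : 3 ≤ n) (hdih : Nonempty (↥(P : Subgroup G) ≃* DihedralGroup (2 ^ (n - 1)))) : (Nat.card {C : ConjClasses G // ∃ g : G, ConjClasses.mk g = C ∧ orderOf g = 2} = 1 ∧ ∀ N : Subgroup G, N.Normal → N.index ≠ 2) ∨ (Nat.card {C : ConjClasses G // ∃ g : G, ConjClasses.mk g = C ∧ orderOf g = 2} = 2 ∧ (∃ N : Subgroup G, N.Normal ∧ N.index = 2) ∧ ∀ N : Subgroup G, N.Normal → N.index ≠ 4) ∨ (Nat.card {C : ConjClasses G // ∃ g : G, ConjClasses.mk g = C ∧ orderOf g = 2} = 3 ∧ Cfsg.HasNormalPComplement 2 G) := by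
  obtain ⟨e⟩ := hdih
  obtain ⟨h, hh, hm⟩ : ∃ h : ℕ, 0 < h ∧ 2 ^ (n - 1) = 4 * h :=
    ⟨2 ^ (n - 3), by positivity, by
      rw [show n - 1 = 2 + (n - 3) by omega, pow_add]; norm_num⟩
  have hne : NeZero (2 ^ (n - 1)) := ⟨by positivity⟩
  have h2m : 2 ∣ 2 ^ (n - 1) := by rw [hm]; exact ⟨2 * h, by ring⟩
  obtain ⟨ρ, hρ⟩ : ∃ ρ : ↥(P : Subgroup G), ρ = e.symm (DihedralGroup.r 1) := ⟨_, rfl⟩
  obtain ⟨σ, hσ⟩ : ∃ σ : ↥(P : Subgroup G), σ = e.symm (DihedralGroup.sr 0) := ⟨_, rfl⟩
  have hρo : orderOf (ρ : G) = 2 ^ (n - 1) := by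
    rw [Subgroup.orderOf_coe, hρ, MulEquiv.orderOf_eq, DihedralGroup.orderOf_r_one]
  refine core P (ρ : G) (σ : G) h hh ρ.2 σ.2 ?_ ?_ ?_ ?_ ?_ ?_ ?_
  · rw [hρo, hm]
  · rw [Subgroup.orderOf_coe, hσ, MulEquiv.orderOf_eq, DihedralGroup.orderOf_sr]
  · have h1 : (σ : G) * (ρ : G) = ((σ * ρ : ↥(P : Subgroup G)) : G) := rfl
    rw [h1, Subgroup.orderOf_coe, hσ, hρ, ← map_mul, MulEquiv.orderOf_eq,
      DihedralGroup.sr_mul_r, DihedralGroup.orderOf_sr]
  · have h1 : σ * ρ * σ⁻¹ = ρ⁻¹ := by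
      rw [hσ, hρ, ← map_inv, ← map_inv, ← map_mul, ← map_mul]
      congr 1
      rw [DihedralGroup.inv_sr, DihedralGroup.inv_r, DihedralGroup.sr_mul_r,
        DihedralGroup.sr_mul_sr]
      congr 1
      ring
    exact congrArg Subtype.val h1
  · intro x hx
    have hx' : (⟨x, hx⟩ : ↥(P : Subgroup G)) = e.symm (e ⟨x, hx⟩) := (e.symm_apply_apply _).symm
    rcases hy : e ⟨x, hx⟩ with i | i
    · refine ⟨((i.val : ℕ) : ℤ), Or.inl ?_⟩
      have h1 : (DihedralGroup.r i : DihedralGroup (2 ^ (n - 1))) = (DihedralGroup.r 1) ^ i.val := by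
        rw [DihedralGroup.r_one_pow, ZMod.natCast_zmod_val]
      rw [hy, h1, map_pow, ← hρ] at hx'
      have h2 := congrArg Subtype.val hx'
      rw [zpow_natCast]
      simpa using h2
    · refine ⟨((i.val : ℕ) : ℤ), Or.inr ?_⟩
      have h1 : (DihedralGroup.sr i : DihedralGroup (2 ^ (n - 1))) =
          DihedralGroup.sr 0 * (DihedralGroup.r 1) ^ i.val := by
        rw [DihedralGroup.r_one_pow, ZMod.natCast_zmod_val, DihedralGroup.sr_mul_r, zero_add]
      rw [hy, h1, map_mul, map_pow, ← hρ, ← hσ] at hx'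
      have h2 := congrArg Subtype.val hx'
      rw [zpow_natCast]
      simpa using h2
  · have hle : Subgroup.zpowers (ρ : G) ≤ (P : Subgroup G) := by
      rw [Subgroup.zpowers_le]; exact ρ.2
    have h1 := Cfsg.Agent.Lib.Helper53.card_mul_relIndex_eq hle
    rw [Nat.card_zpowers, hρo, Nat.card_congr e.toEquiv, DihedralGroup.nat_card] at h1
    have h2 : 2 ^ (n - 1) * (Subgroup.zpowers (ρ : G)).relIndex (P : Subgroup G) =
        2 ^ (n - 1) * 2 := by rw [h1]; ring
    exact Nat.eq_of_mul_eq_mul_left (by positivity) h2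
  · intro x hx hxe
    have h1 : (⟨x, hx⟩ : ↥(P : Subgroup G)) * σ * (⟨x, hx⟩ : ↥(P : Subgroup G))⁻¹ = σ * ρ :=
      Subtype.ext hxe
    have h2 := congrArg e h1
    rw [map_mul, map_mul, map_mul, map_inv, hσ, hρ, e.apply_symm_apply, e.apply_symm_apply,
      DihedralGroup.sr_mul_r, zero_add] at h2
    exact dihedral_parity h2m _ h2

end Cfsg.Agent.S3864
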