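import Mathlib
import Cfsg.Statements.S3867

set_option autoImplicit false
open Cfsg

namespace Cfsg.Agent.S3867

section
variable {G : Type*} [Group G] [Finite G] {p : ℕ} [Fact p.Prime]

omit [Finite G] in
/-- the normalizer of `P` normalizes `P ⊔ K` for normal `K` -/
theorem sup_normalizer_le (P K : Subgroup G) [K.Normal] :
    K ⊔ Subgroup.normalizer (P : Set G) ≤ Subgroup.normalizer ((P ⊔ K : Subgroup G) : Set G) := by
  refine sup_le ((le_sup_right).trans Subgroup.le_normalizer) ?_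
  intro g hg
  rw [Subgroup.mem_normalizer_iff_map_conj_eq] at hg ⊢
  rw [Subgroup.map_sup, hg]
  congr 1
  have : g ∈ Subgroup.normalizer (K : Set G) := by
    rw [Subgroup.normalizer_eq_top_iff.mpr inferInstance]; trivial
  exact Subgroup.mem_normalizer_iff_map_conj_eq.mp this

/-- Frattini argument -/
theorem normalizer_sup_le (P : Sylow p G) (K : Subgroup G) [K.Normal] :
    Subgroup.normalizer (((P : Subgroup G) ⊔ K : Subgroup G) : Set G) ≤
      K ⊔ Subgroup.normalizer ((P : Subgroup G) : Set G) := by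
  intro g hg
  have h1 : (P : Subgroup G) ≤ (P : Subgroup G) ⊔ K := le_sup_left
  have h2 : ((g • P : Sylow p G) : Subgroup G) ≤ (P : Subgroup G) ⊔ K := by
    intro x hx
    rw [Sylow.coe_subgroup_smul, Subgroup.mem_pointwise_smul_iff_inv_smul_mem] at hx
    have hx' : g⁻¹ * x * g ∈ (P : Subgroup G) := by simpa using hx
    have := ((Subgroup.mem_normalizer_iff.mp hg) (g⁻¹ * x * g)).mp (h1 hx')
    simpa [mul_assoc] using this
  obtain ⟨h, hh⟩ := MulAction.exists_smul_eq ((P : Subgroup G) ⊔ K : Subgroup G) ((g • P).subtype h2) (P.subtype h1)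
  simp_rw [Sylow.smul_subtype, Subgroup.smul_def, smul_smul] at hh
  have hmem : (h : G) * g ∈ Subgroup.normalizer ((P : Subgroup G) : Set G) :=
    Sylow.smul_eq_iff_mem_normalizer.mp (Sylow.subtype_injective hh)
  have hg' : g = (h : G)⁻¹ * ((h : G) * g) := by group
  rw [hg']
  refine Subgroup.mul_mem _ ?_ (Subgroup.mem_sup_right hmem)
  refine Subgroup.inv_mem _ ?_
  have hle : (P : Subgroup G) ⊔ K ≤ K ⊔ Subgroup.normalizer ((P : Subgroup G) : Set G) :=
    sup_le (Subgroup.le_normalizer.trans le_sup_right) le_sup_left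
  exact hle h.2

/-- the number of Sylow subgroups of a quotient -/
theorem card_sylow_quotient (P : Sylow p G) (K : Subgroup G) [K.Normal] :
    Nat.card (Sylow p (G ⧸ K)) = (K ⊔ Subgroup.normalizer ((P : Subgroup G) : Set G)).index := by
  have hsurj := QuotientGroup.mk'_surjective K
  have e1 := Sylow.card_eq_index_normalizer (P.mapSurjective hsurj)
  have e2 := Subgroup.index_comap_of_surjective
    (Subgroup.normalizer (((P.mapSurjective hsurj : Sylow p (G ⧸ K)) : Subgroup (G ⧸ K)) : Set (G ⧸ K))) hsurj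
  have e3 := Subgroup.comap_normalizer_eq_of_surjective
    ((P.mapSurjective hsurj : Sylow p (G ⧸ K)) : Subgroup (G ⧸ K)) hsurj
  have e4 : ((P.mapSurjective hsurj : Sylow p (G ⧸ K)) : Subgroup (G ⧸ K)).comap (QuotientGroup.mk' K)
      = (P : Subgroup G) ⊔ K := by
    rw [Sylow.coe_mapSurjective, Subgroup.comap_map_eq, QuotientGroup.ker_mk']
  rw [e4] at e3
  rw [e3] at e2
  refine e1.trans (e2.symm.trans ?_)
  congr 1
  exact le_antisymm (normalizer_sup_le P K) (sup_normalizer_le (P : Subgroup G) K)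

/-- `M ⊓ PN ≤ P` when `M ⊓ N = ⊥` -/
theorem inf_sup_le (P : Sylow p G) (M N : Subgroup G) [M.Normal] [N.Normal] (hMN : M ⊓ N = ⊥) :
    M ⊓ ((P : Subgroup G) ⊔ N) ≤ P := by
  set D := M ⊓ ((P : Subgroup G) ⊔ N) with hD
  have hDp : IsPGroup p D := by
    rintro ⟨d, hd⟩
    obtain ⟨u, hu, n, hn, hun⟩ := Subgroup.mem_sup_of_normal_right.mp hd.2
    obtain ⟨k, hk⟩ := P.2 ⟨u, hu⟩
    refine ⟨k, ?_⟩
    have hk' : u ^ p ^ k = 1 := by
      have := congrArg Subtype.val hk
      simpa using this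
    have h1 : d ^ p ^ k ∈ N := by
      rw [← QuotientGroup.eq_one_iff, QuotientGroup.mk_pow]
      have : (d : G ⧸ N) = (u : G ⧸ N) := by
        rw [← hun, QuotientGroup.mk_mul, (QuotientGroup.eq_one_iff n).mpr hn, mul_one]
      rw [this, ← QuotientGroup.mk_pow, hk']
      rfl
    have h2 : d ^ p ^ k ∈ M := M.pow_mem hd.1 _
    have h3 : d ^ p ^ k ∈ M ⊓ N := ⟨h2, h1⟩
    rw [hMN, Subgroup.mem_bot] at h3
    exact Subtype.ext h3
  have hnorm : (P : Subgroup G) ≤ Subgroup.normalizer (D : Set G) := by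
    intro u hu
    have key : ∀ v ∈ (P : Subgroup G), ∀ d ∈ D, v * d * v⁻¹ ∈ D := by
      intro v hv d hd
      refine ⟨‹M.Normal›.conj_mem d hd.1 v, ?_⟩
      exact Subgroup.mul_mem _ (Subgroup.mul_mem _ (Subgroup.mem_sup_left hv) hd.2)
        (Subgroup.inv_mem _ (Subgroup.mem_sup_left hv))
    rw [Subgroup.mem_normalizer_iff]
    intro d
    refine ⟨key u hu d, fun h => ?_⟩
    have := key u⁻¹ (Subgroup.inv_mem _ hu) _ h
    simpa [mul_assoc] using this
  have hsup : IsPGroup p ((P : Subgroup G) ⊔ D : Subgroup G) := P.2.to_sup_of_normal_right' hDp hnorm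
  have := P.3 hsup le_sup_left
  rw [← this]
  exact le_sup_right

/-- `PM ⊓ PN ≤ P` when `M ⊓ N = ⊥` -/
theorem sup_inf_sup_le (P : Sylow p G) (M N : Subgroup G) [M.Normal] [N.Normal] (hMN : M ⊓ N = ⊥) :
    ((P : Subgroup G) ⊔ M) ⊓ ((P : Subgroup G) ⊔ N) ≤ P := by
  rintro x ⟨hx1, hx2⟩
  obtain ⟨u, hu, m, hm, rfl⟩ := Subgroup.mem_sup_of_normal_right.mp hx1
  have hm' : m ∈ (P : Subgroup G) ⊔ N := by
    have : m = u⁻¹ * (u * m) := by group
    rw [this]
    exact Subgroup.mul_mem _ (Subgroup.inv_mem _ (Subgroup.mem_sup_left hu)) hx2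
  exact Subgroup.mul_mem _ hu (inf_sup_le P M N hMN ⟨hm, hm'⟩)

/-- `M ⊓ N N_G(P) ≤ N_G(P)` -/
theorem inf_le_normalizer (P : Sylow p G) (M N : Subgroup G) [M.Normal] [N.Normal] (hMN : M ⊓ N = ⊥) :
    M ⊓ (N ⊔ Subgroup.normalizer ((P : Subgroup G) : Set G)) ≤
      Subgroup.normalizer ((P : Subgroup G) : Set G) := by
  have key : ∀ m ∈ M ⊓ (N ⊔ Subgroup.normalizer ((P : Subgroup G) : Set G)),
      ∀ u ∈ (P : Subgroup G), m * u * m⁻¹ ∈ (P : Subgroup G) := by
    rintro m ⟨hm1, hm2⟩ u hu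
    apply sup_inf_sup_le P M N hMN
    refine ⟨?_, ?_⟩
    · exact Subgroup.mul_mem _ (Subgroup.mul_mem _ (Subgroup.mem_sup_right hm1)
        (Subgroup.mem_sup_left hu)) (Subgroup.inv_mem _ (Subgroup.mem_sup_right hm1))
    · have hm3 := sup_normalizer_le (P : Subgroup G) N hm2
      exact ((Subgroup.mem_normalizer_iff.mp hm3) u).mp (Subgroup.mem_sup_left hu)
  intro m hm
  rw [Subgroup.mem_normalizer_iff]
  intro u
  refine ⟨key m hm u, fun h => ?_⟩
  have := key m⁻¹ (Subgroup.inv_mem _ hm) _ h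
  simpa [mul_assoc] using this

omit [Finite G] in
theorem card_eq_inf_mul (M A : Subgroup G) :
    Nat.card A = Nat.card ↥(M ⊓ A) * M.relIndex A := by
  have h1 := Subgroup.relIndex_mul_relIndex (⊥ : Subgroup G) (M ⊓ A) A bot_le inf_le_right
  rw [Subgroup.relIndex_bot_left, Subgroup.relIndex_bot_left, Subgroup.inf_relIndex_right] at h1
  exact h1.symm

omit [Finite G] in
theorem card_sup_eq_mul (M A : Subgroup G) [M.Normal] :
    Nat.card ↥(M ⊔ A) = Nat.card M * M.relIndex A := by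
  have h1 := Subgroup.relIndex_mul_relIndex (⊥ : Subgroup G) M (M ⊔ A) bot_le le_sup_left
  rw [Subgroup.relIndex_bot_left, Subgroup.relIndex_bot_left, Subgroup.relIndex_sup_left] at h1
  exact h1.symm

end

/-- Let M and N be nontrivial normal subgroups of the finite group G with M ⊓ N trivial, and let p be a prime. Writing n(X) for the number of Sylow p-subgroups of a group X, one has n(G) · n(G/MN) = n(G/M) · n(G/N). -/
theorem result {G : Type*} [Group G] [Finite G] (p : ℕ) [Fact p.Prime] (M N : Subgroup G) [M.Normal] [N.Normal] (hM : M ≠ ⊥) (hN : N ≠ ⊥) (hMN : M ⊓ N = ⊥) : Nat.card (Sylow p G) * Nat.card (Sylow p (G ⧸ (M ⊔ N))) = Nat.card (Sylow p (G ⧸ M)) * Nat.card (Sylow p (G ⧸ N)) := by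
  obtain ⟨P⟩ : Nonempty (Sylow p G) := inferInstance
  set A := Subgroup.normalizer ((P : Subgroup G) : Set G) with hA
  rw [card_sylow_quotient P (M ⊔ N), card_sylow_quotient P M, card_sylow_quotient P N,
    Sylow.card_eq_index_normalizer P]
  change A.index * (M ⊔ N ⊔ A).index = (M ⊔ A).index * (N ⊔ A).index
  rw [sup_assoc]
  set B := N ⊔ A with hB
  have hinf : M ⊓ B = M ⊓ A :=
    le_antisymm (le_inf inf_le_left (inf_le_normalizer P M N hMN)) (inf_le_inf_left M le_sup_right)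
  have c1 := card_eq_inf_mul M A
  have c2 := card_sup_eq_mul M A
  have c3 := card_eq_inf_mul M B
  have c4 := card_sup_eq_mul M B
  rw [hinf] at c3
  have h5 : Nat.card A * Nat.card ↥(M ⊔ B) = Nat.card ↥(M ⊔ A) * Nat.card B := by
    rw [c1, c2, c3, c4]; ring
  have h1 := Subgroup.card_mul_index A
  have h2 := Subgroup.card_mul_index (M ⊔ B)
  have h3 := Subgroup.card_mul_index (M ⊔ A)
  have h4 := Subgroup.card_mul_index B
  have hpos : 0 < Nat.card A * Nat.card ↥(M ⊔ B) := Nat.mul_pos Nat.card_pos Nat.card_pos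
  apply Nat.eq_of_mul_eq_mul_left hpos
  calc Nat.card A * Nat.card ↥(M ⊔ B) * (A.index * (M ⊔ B).index)
      = (Nat.card A * A.index) * (Nat.card ↥(M ⊔ B) * (M ⊔ B).index) := by ring
    _ = (Nat.card ↥(M ⊔ A) * (M ⊔ A).index) * (Nat.card B * B.index) := by rw [h1, h2, h3, h4]
    _ = Nat.card ↥(M ⊔ A) * Nat.card B * ((M ⊔ A).index * B.index) := by ring
    _ = Nat.card A * Nat.card ↥(M ⊔ B) * ((M ⊔ A).index * B.index) := by rw [h5]

end Cfsg.Agent.S3867
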