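-- Statement S3878: Hall properties E_pi / D_pi hold for all finite groups iff pi is trivial.
import Cfsg.Statements.S3878
import Cfsg.Agent.Lib.Helper46.HallUniv

set_option autoImplicit false
open Cfsg

namespace Cfsg.Agent.S3878

open Cfsg.Agent.Lib.Helper46.HallUniv in
/-- For a set of primes π the following are equivalent: every finite group has a Hall π-subgroup; in every finite group the maximal π-subgroups are pairwise conjugate; π contains at most one prime or contains every prime. -/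
theorem result (π : Set ℕ) :
    ((∀ (G : Type) [Group G] [Finite G], Cfsg.IsEPiGroup π G) ↔
      ((∀ p q : ℕ, p.Prime → q.Prime → p ∈ π → q ∈ π → p = q) ∨ ∀ p : ℕ, p.Prime → p ∈ π)) ∧
    ((∀ (G : Type) [Group G] [Finite G], Cfsg.IsDPiGroup π G) ↔
      ((∀ p q : ℕ, p.Prime → q.Prime → p ∈ π → q ∈ π → p = q) ∨ ∀ p : ℕ, p.Prime → p ∈ π)) := by
  have hbad : ¬ ((∀ p q : ℕ, p.Prime → q.Prime → p ∈ π → q ∈ π → p = q) ∨
      ∀ p : ℕ, p.Prime → p ∈ π) →
      ∃ (G : Type) (_ : Group G) (_ : Finite G), ¬ IsEPiGroup π G := by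
    intro h
    rw [not_or] at h
    obtain ⟨h1, h2⟩ := h
    push Not at h1 h2
    obtain ⟨p, q, hp, hq, hpπ, hqπ, hpq⟩ := h1
    obtain ⟨r, hr, hrπ⟩ := h2
    exact exists_not_isEPi hp hq hpπ hqπ hpq hr hrπ
  refine ⟨⟨fun hE => ?_, fun h G _ _ => ?_⟩, ⟨fun hD => ?_, fun h G _ _ => ?_⟩⟩
  · by_contra hcon
    obtain ⟨G, _, _, hG⟩ := hbad hcon
    exact hG (hE G)
  · rcases h with h | h
    · exact isEPi_of_one h
    · exact isEPi_of_all h
  · by_contra hcon
    obtain ⟨G, _, _, hG⟩ := hbad hcon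
    exact hG (isEPi_of_isDPi (hD G))
  · rcases h with h | h
    · exact isDPi_of_one h
    · exact isDPi_of_all h

end Cfsg.Agent.S3878
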