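import Cfsg.Statements.S3895
import Cfsg.Agent.Lib.Helper65.TwoClasses

set_option autoImplicit false
open Cfsg

namespace Cfsg.Agent.S3895

open Cfsg.Agent.Lib.Helper65 Cfsg.Agent.Lib.Helper2

/-- Let G be a finite group with Sylow 2-subgroup P, and write k₂(G) for the number of conjugacy classes of G consisting of 2-elements (elements of 2-power order, the identity included). Then k₂(G) > |P|/2 if and only if G has a normal 2-complement and P has more than |P|/2 conjugacy classes. -/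
theorem result {G : Type*} [Group G] [Finite G] (P : Sylow 2 G) :
    Nat.card ↥(P : Subgroup G) < 2 * Nat.card {c : ConjClasses G // ∀ x ∈ c.carrier, ∃ k : ℕ, orderOf x = 2 ^ k} ↔
      Cfsg.HasNormalPComplement 2 G ∧ Nat.card ↥(P : Subgroup G) < 2 * Nat.card (ConjClasses ↥(P : Subgroup G)) := by
  have : Fact (Nat.Prime 2) := ⟨Nat.prime_two⟩
  have hprop : ∀ c : ConjClasses ↥(P : Subgroup G),
      ∀ z ∈ (ConjClasses.map (P : Subgroup G).subtype c).carrier, ∃ k : ℕ, orderOf z = 2 ^ k := by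
    intro c
    obtain ⟨g, rfl⟩ := ConjClasses.exists_rep c
    exact pClass_mk_prop _ (orderOf_eq_pow_of_mem_sylow P g.2)
  let φ : ConjClasses ↥(P : Subgroup G) → PClass 2 G := fun c =>
    ⟨ConjClasses.map (P : Subgroup G).subtype c, hprop c⟩
  have hφ : Function.Surjective φ := by
    intro c
    obtain ⟨x, hx, hxc⟩ := pClass_exists_rep P c
    exact ⟨ConjClasses.mk (⟨x, hx⟩ : ↥(P : Subgroup G)), Subtype.ext hxc⟩
  have hle : Nat.card (PClass 2 G) ≤ Nat.card (ConjClasses ↥(P : Subgroup G)) :=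
    Nat.card_le_card_of_surjective φ hφ
  constructor
  · intro h
    have hG : Cfsg.HasNormalPComplement 2 G := by
      by_contra hG
      have := two_card_pClass_le hG P
      have e : Nat.card (PClass 2 G) =
        Nat.card {c : ConjClasses G // ∀ x ∈ c.carrier, ∃ k : ℕ, orderOf x = 2 ^ k} := rfl
      omega
    refine ⟨hG, ?_⟩
    have e : Nat.card (PClass 2 G) =
        Nat.card {c : ConjClasses G // ∀ x ∈ c.carrier, ∃ k : ℕ, orderOf x = 2 ^ k} := rfl
    omega
  · rintro ⟨hG, h⟩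
    obtain ⟨N, hNn, hNc⟩ := (hasNormalPComplement_iff P).mp hG
    have hinj : Function.Injective φ := by
      intro c c' hcc
      obtain ⟨x, rfl⟩ := ConjClasses.exists_rep c
      obtain ⟨y, rfl⟩ := ConjClasses.exists_rep c'
      have h1 : ConjClasses.mk (x : G) = ConjClasses.mk (y : G) := congrArg Subtype.val hcc
      rw [ConjClasses.mk_eq_mk_iff_isConj, isConj_iff] at h1
      obtain ⟨g, hg⟩ := h1
      obtain ⟨⟨⟨n, hn⟩, ⟨u, hu⟩⟩, hnu, -⟩ := (Subgroup.isComplement_iff_existsUnique.mp hNc) g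
      have hnu' : n * u = g := hnu
      have hx' : u * (x : G) * u⁻¹ ∈ (P : Subgroup G) :=
        Subgroup.mul_mem _ (Subgroup.mul_mem _ hu x.2) (Subgroup.inv_mem _ hu)
      have h2 : (y : G) * (u * (x : G) * u⁻¹)⁻¹ ∈ N := by
        have e : (y : G) * (u * (x : G) * u⁻¹)⁻¹
            = n * ((u * (x : G) * u⁻¹) * n⁻¹ * (u * (x : G) * u⁻¹)⁻¹) := by
          rw [← hg, ← hnu']; group
        rw [e]
        exact Subgroup.mul_mem _ hn (hNn.conj_mem _ (Subgroup.inv_mem _ hn) _)
      have h3 : (y : G) * (u * (x : G) * u⁻¹)⁻¹ ∈ (P : Subgroup G) :=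
        Subgroup.mul_mem _ y.2 (Subgroup.inv_mem _ hx')
      have h4 : (y : G) * (u * (x : G) * u⁻¹)⁻¹ = 1 := by
        have h5 : (y : G) * (u * (x : G) * u⁻¹)⁻¹ ∈ N ⊓ (P : Subgroup G) := ⟨h2, h3⟩
        rw [hNc.disjoint.eq_bot] at h5
        exact Subgroup.mem_bot.mp h5
      rw [ConjClasses.mk_eq_mk_iff_isConj, isConj_iff]
      refine ⟨⟨u, hu⟩, ?_⟩
      apply Subtype.ext
      show u * (x : G) * u⁻¹ = (y : G)
      exact (mul_inv_eq_one.mp h4).symm
    have hge : Nat.card (ConjClasses ↥(P : Subgroup G)) ≤ Nat.card (PClass 2 G) :=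
      Nat.card_le_card_of_injective φ hinj
    have e : Nat.card (PClass 2 G) =
        Nat.card {c : ConjClasses G // ∀ x ∈ c.carrier, ∃ k : ℕ, orderOf x = 2 ^ k} := rfl
    omega

end Cfsg.Agent.S3895
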