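import Cfsg.Statements.S3897
import Cfsg.Agent.Lib.Helper65.PClasses

set_option autoImplicit false
open Cfsg

namespace Cfsg.Agent.S3897

open Cfsg.Agent.Lib.Helper65 MulAction

/-- If there are more than `(p+1)|P|/(2p)` classes of `p`-elements, then `N_G(P) ≤ C_G(P)`. -/
theorem normalizer_le_centralizer_of_many {G : Type*} [Group G] [Finite G] {p : ℕ} [Fact p.Prime]
    (P : Sylow p G)
    (hlt : (p + 1) * Nat.card ↥(P : Subgroup G) < 2 * p * Nat.card (PClass p G)) :
    Subgroup.normalizer ((P : Subgroup G) : Set G) ≤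
      Subgroup.centralizer ((P : Subgroup G) : Set G) := by
  by_contra hcon
  let N : Subgroup G := Subgroup.normalizer ((P : Subgroup G) : Set G)
  let Q : Subgroup N := (P : Subgroup G).subgroupOf N
  have hPN : (P : Subgroup G) ≤ N := Subgroup.le_normalizer
  have hQn : Q.Normal := Subgroup.normal_in_normalizer
  have hQP : Nat.card Q = Nat.card (P : Subgroup G) :=
    Nat.card_congr (Subgroup.subgroupOfEquivOfLe hPN).toEquiv
  have hQ : IsPGroup p Q := P.isPGroup'.comap_of_injective N.subtype N.subtype_injective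
  have hnc : ¬ (Q ≤ Subgroup.center N) := by
    intro hle
    apply hcon
    intro g hg
    rw [Subgroup.mem_centralizer_iff]
    intro x hx
    have h1 : (⟨x, hPN hx⟩ : N) ∈ Q := Subgroup.mem_subgroupOf.2 hx
    have h2 := Subgroup.mem_center_iff.1 (hle h1) ⟨g, hg⟩
    exact (congrArg Subtype.val h2).symm
  have hbound := orbit_bound Q hQ hnc
  let f0 : Q → PClass p G := fun x =>
    ⟨ConjClasses.mk ((x : N) : G),
      pClass_mk_prop _ (orderOf_eq_pow_of_mem_sylow P (Subgroup.mem_subgroupOf.1 x.2))⟩
  have hf0 : ∀ a b : Q, (orbitRel (ConjAct N) Q) a b → f0 a = f0 b := by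
    intro a b hab
    obtain ⟨g, hg⟩ := hab
    apply Subtype.ext
    show ConjClasses.mk ((a : N) : G) = ConjClasses.mk ((b : N) : G)
    rw [ConjClasses.mk_eq_mk_iff_isConj, isConj_comm, isConj_iff]
    refine ⟨((ConjAct.ofConjAct g : N) : G), ?_⟩
    have h1 : ((g • b : Q) : N) = a := congrArg Subtype.val hg
    rw [ConjAct.Subgroup.val_conj_smul, ConjAct.smul_def] at h1
    have h2 := congrArg Subtype.val h1
    simpa using h2
  let f : orbitRel.Quotient (ConjAct N) Q → PClass p G := Quotient.lift f0 hf0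
  have hf : Function.Surjective f := by
    intro c
    obtain ⟨x, hx, hxc⟩ := pClass_exists_rep P c
    refine ⟨Quotient.mk'' ⟨⟨x, hPN hx⟩, Subgroup.mem_subgroupOf.2 hx⟩, ?_⟩
    apply Subtype.ext
    exact hxc
  have hle : Nat.card (PClass p G) ≤ Nat.card (orbitRel.Quotient (ConjAct N) Q) :=
    Nat.card_le_card_of_surjective f hf
  rw [hQP] at hbound
  have h3 : 2 * p * Nat.card (PClass p G) ≤ 2 * p * Nat.card (orbitRel.Quotient (ConjAct N) Q) :=
    Nat.mul_le_mul_left _ hle
  omega

/-- In a `p`-nilpotent group with abelian Sylow `p`-subgroup `P`, the classes of `p`-elements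
are in bijection with `P`. -/
theorem card_pClass_eq {G : Type*} [Group G] [Finite G] {p : ℕ} [Fact p.Prime] (P : Sylow p G)
    (hnpc : Cfsg.HasNormalPComplement p G) (hab : IsMulCommutative ↥(P : Subgroup G)) :
    Nat.card (PClass p G) = Nat.card ↥(P : Subgroup G) := by
  obtain ⟨P₀, N, hN, hcomp⟩ := hnpc
  have hp : p.Prime := Fact.out
  have hcompP : N.IsComplement' (P : Subgroup G) := by
    apply Subgroup.isComplement'_of_coprime
    · rw [← hcomp.card_mul_card, Sylow.card_eq_multiplicity P, Sylow.card_eq_multiplicity P₀]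
    · rw [← hcomp.index_eq_card, Sylow.card_eq_multiplicity P]
      exact Nat.Coprime.pow_right _ ((Nat.Prime.coprime_iff_not_dvd hp).2 P₀.not_dvd_index).symm
  have hdisj := hcompP.disjoint
  let f : ↥(P : Subgroup G) → PClass p G := fun x =>
    ⟨ConjClasses.mk (x : G), pClass_mk_prop _ (orderOf_eq_pow_of_mem_sylow P x.2)⟩
  have hf : Function.Bijective f := by
    constructor
    · intro x y hxy
      have h1 : ConjClasses.mk (x : G) = ConjClasses.mk (y : G) := congrArg Subtype.val hxy
      rw [ConjClasses.mk_eq_mk_iff_isConj, isConj_iff] at h1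
      obtain ⟨g, hg⟩ := h1
      obtain ⟨⟨⟨n, hn⟩, ⟨u, hu⟩⟩, hnu, -⟩ := (Subgroup.isComplement_iff_existsUnique.1 hcompP) g
      simp only at hnu
      have hux : u * (x : G) = (x : G) * u := setLike_mul_comm hu x.2
      have hy : (y : G) = n * (x : G) * n⁻¹ := by
        rw [← hg, ← hnu]
        calc n * u * (x : G) * (n * u)⁻¹ = n * (u * (x : G)) * u⁻¹ * n⁻¹ := by group
          _ = n * ((x : G) * u) * u⁻¹ * n⁻¹ := by rw [hux]
          _ = n * (x : G) * n⁻¹ := by group
      have hyx : (y : G) * (x : G)⁻¹ = 1 := by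
        apply Subgroup.disjoint_def.1 hdisj
        · rw [hy]
          have : n * (x : G) * n⁻¹ * (x : G)⁻¹ = n * ((x : G) * n⁻¹ * (x : G)⁻¹) := by group
          rw [this]
          exact N.mul_mem hn (hN.conj_mem _ (N.inv_mem hn) _)
        · exact Subgroup.mul_mem _ y.2 (Subgroup.inv_mem _ x.2)
      apply Subtype.ext
      exact (mul_inv_eq_one.1 hyx).symm
    · intro c
      obtain ⟨x, hx, hxc⟩ := pClass_exists_rep P c
      exact ⟨⟨x, hx⟩, Subtype.ext hxc⟩
  exact (Nat.card_congr (Equiv.ofBijective f hf)).symm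

/-- Let p be an odd prime and G a finite group with Sylow p-subgroup P, and write k_p(G) for the number of conjugacy classes of G consisting of p-elements (elements of p-power order, the identity included). Then k_p(G) > (p + 1)|P|/(2p) if and only if G has a normal p-complement and P is abelian. -/
theorem result {G : Type*} [Group G] [Finite G] {p : ℕ} [Fact p.Prime] (hp : p ≠ 2) (P : Sylow p G) :
    (p + 1) * Nat.card ↥(P : Subgroup G) < 2 * p * Nat.card {c : ConjClasses G // ∀ x ∈ c.carrier, ∃ k : ℕ, orderOf x = p ^ k} ↔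
      Cfsg.HasNormalPComplement p G ∧ IsMulCommutative ↥(P : Subgroup G) := by
  have hpp : p.Prime := Fact.out
  constructor
  · intro hlt
    have hNC := normalizer_le_centralizer_of_many P hlt
    refine ⟨⟨P, (MonoidHom.transferSylow P hNC).ker, inferInstance,
      MonoidHom.ker_transferSylow_isComplement' P hNC⟩, ?_⟩
    exact ⟨⟨fun a b => Subtype.ext (hNC (Subgroup.le_normalizer b.2) a a.2)⟩⟩
  · rintro ⟨hnpc, hab⟩
    have h1 : Nat.card {c : ConjClasses G // ∀ x ∈ c.carrier, ∃ k : ℕ, orderOf x = p ^ k} =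
        Nat.card ↥(P : Subgroup G) := card_pClass_eq P hnpc hab
    rw [h1]
    have hpos : 0 < Nat.card ↥(P : Subgroup G) := Nat.card_pos
    have h2 := hpp.two_le
    nlinarith

end Cfsg.Agent.S3897
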