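import Cfsg.Statements.S3898
import Cfsg.Agent.Lib.Helper65.TwoPiClasses

set_option autoImplicit false
open Cfsg

namespace Cfsg.Agent.S3898

open Cfsg.Agent.Lib.Helper65 Cfsg.Agent.Lib.Helper54
open scoped commutatorElement

/-- Let π be a finite set of primes containing 2 and G a finite group. Write k_π(G) for the number of conjugacy classes of G consisting of π-elements (elements all of whose order's prime divisors lie in π) and |G|_π for the π-part of the order of G. If k_π(G) > |G|_π/2, then G has a normal π-complement (a normal subgroup of order prime to π whose index is a π-number) and an abelian Hall subgroup for the set of odd primes in π. -/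
theorem result {G : Type*} [Group G] [Finite G] (π : Finset ℕ) (hπ : ∀ r ∈ π, r.Prime) (h2 : 2 ∈ π)
    (hk : π.prod (fun r => r ^ (Nat.card G).factorization r) < 2 * Nat.card {c : ConjClasses G // ∀ x ∈ c.carrier, ∀ r : ℕ, r.Prime → r ∣ orderOf x → r ∈ π}) :
    (∃ N : Subgroup G, N.Normal ∧ (∀ r : ℕ, r.Prime → r ∣ Nat.card ↥N → r ∉ π) ∧ ∀ r : ℕ, r.Prime → r ∣ N.index → r ∈ π) ∧ ∃ H : Subgroup G, Cfsg.IsPiHall ((↑π : Set ℕ) \ {2}) H ∧ IsMulCommutative ↥H := by
  classical
  have : Fact (Nat.Prime 2) := ⟨Nat.prime_two⟩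
  -- many classes of `q`-elements for each `q ∈ π`
  have key₁ : ∀ q ∈ π, q ^ (Nat.card G).factorization q < 2 * Nat.card (PClass q G) := by
    intro q hq
    have hqp : q.Prime := hπ q hq
    have : Fact q.Prime := ⟨hqp⟩
    set E := (π.erase q).prod (fun r => r ^ (Nat.card G).factorization r) with hE
    have hσ' : ∀ r ∈ π.erase q, r.Prime := fun r hr => hπ r (Finset.mem_of_mem_erase hr)
    have h1 : Nat.card (PiClass π G) ≤ Nat.card (PClass q G) * E := by
      have hB : ∀ y : G, Nat.card (PiClass (π.erase q) ↥(Subgroup.centralizer ({y} : Set G))) ≤ E := by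
        intro y
        refine (card_piClass_le (π.erase q) hσ' _).trans ?_
        apply Finset.prod_le_prod (fun r _ => Nat.zero_le _)
        intro r hr
        apply Nat.pow_le_pow_right (hσ' r hr).pos
        exact (Nat.factorization_le_iff_dvd Nat.card_pos.ne' Nat.card_pos.ne').2
          (Subgroup.card_subgroup_dvd_card _) r
      have := card_piClass_insert_le (H := G) q (π.erase q) E hB
      rwa [Finset.insert_erase hq] at this
    have h2' : π.prod (fun r => r ^ (Nat.card G).factorization r) =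
        q ^ (Nat.card G).factorization q * E := (Finset.mul_prod_erase π _ hq).symm
    have hk' : q ^ (Nat.card G).factorization q * E < 2 * Nat.card (PClass q G) * E := by
      rw [← h2', mul_assoc]
      exact lt_of_lt_of_le hk (Nat.mul_le_mul_left _ h1)
    exact Nat.lt_of_mul_lt_mul_right hk'
  -- `G` has a normal `2`-complement `K`
  have hG2 : Cfsg.HasNormalPComplement 2 G := by
    by_contra hG
    let P₂ : Sylow 2 G := default
    have h1 := two_card_pClass_le hG P₂
    have h3 := key₁ 2 h2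
    rw [Sylow.card_eq_multiplicity] at h1
    omega
  obtain ⟨K, hK⟩ := hasNormalPComplement_iff.mp hG2
  have hKn : K.Normal := hK.1
  obtain ⟨kk, hKi⟩ := hK.2.2
  have hKodd : Odd (Nat.card K) := Nat.coprime_two_right.mp hK.2.1
  have hcardK : Nat.card K * 2 ^ kk = Nat.card G := by rw [← hKi]; exact K.card_mul_index
  have hfact : ∀ q : ℕ, q.Prime → q ≠ 2 →
      (Nat.card K).factorization q = (Nat.card G).factorization q := by
    intro q hq hq2
    have hnd : ¬ q ∣ 2 ^ kk := fun h =>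
      hq2 ((Nat.prime_dvd_prime_iff_eq hq Nat.prime_two).1 (hq.dvd_of_dvd_pow h))
    rw [← hcardK, Nat.factorization_mul Nat.card_pos.ne' (by positivity), Finsupp.add_apply,
      Nat.factorization_eq_zero_of_not_dvd hnd, add_zero]
  set σ : Finset ℕ := π.erase 2 with hσ
  -- normal `q`-complements of `K` for the odd primes of `π`
  have key : ∀ q ∈ σ, ∃ N : Subgroup K, N.Normal ∧ ¬ q ∣ Nat.card N ∧
      (∀ s : ℕ, s.Prime → s ∣ N.index → s = q) ∧ commutator K ≤ N := by
    intro q hq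
    have hqπ : q ∈ π := Finset.mem_of_mem_erase hq
    have hq2 : q ≠ 2 := Finset.ne_of_mem_erase hq
    have hqp : q.Prime := hπ q hqπ
    have : Fact q.Prime := ⟨hqp⟩
    apply exists_normal_q_complement_of_odd hKodd q hq2
    rw [hfact q hqp hq2]
    refine lt_of_lt_of_le (key₁ q hqπ) (Nat.mul_le_mul_left _ ?_)
    have hprop : ∀ c : PClass q ↥K, ∀ z ∈ (ConjClasses.map K.subtype c.1).carrier,
        ∃ j : ℕ, orderOf z = q ^ j := by
      rintro ⟨c, hc⟩
      obtain ⟨g, rfl⟩ := ConjClasses.exists_rep c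
      obtain ⟨j, hj⟩ := hc g ConjClasses.mem_carrier_mk
      exact pClass_mk_prop _ ⟨j, by rw [← hj]; exact Subgroup.orderOf_coe g⟩
    let ψ : PClass q ↥K → PClass q G := fun c => ⟨ConjClasses.map K.subtype c.1, hprop c⟩
    apply Nat.card_le_card_of_surjective ψ
    rintro ⟨c, hc⟩
    obtain ⟨x, rfl⟩ := ConjClasses.exists_rep c
    obtain ⟨j, hj⟩ := hc x ConjClasses.mem_carrier_mk
    have hxK : x ∈ K := by
      apply hK.mem_of_coprime
      rw [hj]
      exact Nat.Coprime.pow_left j ((Nat.coprime_primes hqp Nat.prime_two).2 hq2)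
    refine ⟨⟨ConjClasses.mk (⟨x, hxK⟩ : ↥K), pClass_mk_prop _ ⟨j, ?_⟩⟩, ?_⟩
    · rw [← hj, ← Subgroup.orderOf_coe]
    · apply Subtype.ext
      rfl
  obtain ⟨N₀, hN₀n, hN₀1, hN₀2, hN₀3⟩ := exists_normal_pi_complement_aux σ key
  have hcop : Nat.Coprime (Nat.card N₀) N₀.index :=
    Nat.coprime_of_dvd (fun k hk hk1 hk2 => hN₀1 k (hN₀2 k hk hk2) hk1)
  have hcardN : Nat.card (N₀.map K.subtype) = Nat.card N₀ :=
    Subgroup.card_map_of_injective K.subtype_injective
  have hNnormal : (N₀.map K.subtype).Normal := by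
    constructor
    intro n hn g
    obtain ⟨n₀, hn₀, rfl⟩ := hn
    have hmem : g * (n₀ : G) * g⁻¹ ∈ K := hKn.conj_mem _ n₀.2 g
    refine ⟨⟨_, hmem⟩, ?_, rfl⟩
    apply mem_of_orderOf_coprime_index
    have h1 : orderOf (⟨g * (n₀ : G) * g⁻¹, hmem⟩ : ↥K) = orderOf n₀ := by
      rw [← Subgroup.orderOf_coe, ← Subgroup.orderOf_coe]
      exact (MulAut.conj g).orderOf_eq (n₀ : G)
    rw [h1]
    exact Nat.Coprime.coprime_dvd_left (Subgroup.orderOf_dvd_natCard N₀ hn₀) hcop
  have hpow2 : ∀ r : ℕ, r.Prime → r ∣ 2 ^ kk → r = 2 := fun r hr h =>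
    (Nat.prime_dvd_prime_iff_eq hr Nat.prime_two).1 (hr.dvd_of_dvd_pow h)
  refine ⟨⟨N₀.map K.subtype, hNnormal, ?_, ?_⟩, ?_⟩
  · intro r hr hdvd hrπ
    rw [hcardN] at hdvd
    by_cases hr2 : r = 2
    · subst hr2
      have h1 : 2 ∣ Nat.card K := hdvd.trans (Subgroup.card_subgroup_dvd_card N₀)
      exact (Nat.not_even_iff_odd.2 hKodd) (even_iff_two_dvd.2 h1)
    · exact hN₀1 r (Finset.mem_erase.2 ⟨hr2, hrπ⟩) hdvd
  · intro r hr hdvd
    rw [Subgroup.index_map_subtype, hKi] at hdvd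
    rcases (Nat.Prime.dvd_mul hr).1 hdvd with h | h
    · exact Finset.mem_of_mem_erase (hN₀2 r hr h)
    · rw [hpow2 r hr h]; exact h2
  · obtain ⟨H₀, hH⟩ := Subgroup.exists_right_complement'_of_coprime hcop
    refine ⟨H₀.map K.subtype, ⟨?_, ?_⟩, ?_⟩
    · intro r hr hdvd
      rw [Subgroup.card_map_of_injective K.subtype_injective, ← hH.symm.index_eq_card] at hdvd
      have h1 := hN₀2 r hr hdvd
      exact ⟨Finset.mem_coe.2 (Finset.mem_of_mem_erase h1), fun h => Finset.ne_of_mem_erase h1 h⟩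
    · intro r hr hmem hdvd
      rw [Subgroup.index_map_subtype, hH.index_eq_card, hKi] at hdvd
      have hrπ : r ∈ π := Finset.mem_coe.1 hmem.1
      have hr2 : r ≠ 2 := fun h => hmem.2 h
      rcases (Nat.Prime.dvd_mul hr).1 hdvd with h | h
      · exact hN₀1 r (Finset.mem_erase.2 ⟨hr2, hrπ⟩) h
      · exact hr2 (hpow2 r hr h)
    · refine ⟨⟨fun a b => ?_⟩⟩
      obtain ⟨a, ha⟩ := a
      obtain ⟨b, hb⟩ := b
      obtain ⟨a₀, ha₀, rfl⟩ := ha
      obtain ⟨b₀, hb₀, rfl⟩ := hb
      have h1 : ⁅a₀, b₀⁆ ∈ N₀ :=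
        hN₀3 ((Subgroup.commutator_le.1 (le_of_eq (commutator_def ↥K).symm))
          a₀ (Subgroup.mem_top _) b₀ (Subgroup.mem_top _))
      have h2 : ⁅a₀, b₀⁆ ∈ H₀ := by
        rw [commutatorElement_def]
        exact H₀.mul_mem (H₀.mul_mem (H₀.mul_mem ha₀ hb₀) (H₀.inv_mem ha₀)) (H₀.inv_mem hb₀)
      have h3 := Subgroup.disjoint_def.1 hH.disjoint h1 h2
      have h4 : a₀ * b₀ = b₀ * a₀ := commutatorElement_eq_one_iff_mul_comm.1 h3
      apply Subtype.ext
      show K.subtype a₀ * K.subtype b₀ = K.subtype b₀ * K.subtype a₀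
      rw [← map_mul, ← map_mul, h4]

end Cfsg.Agent.S3898
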