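import Cfsg.Statements.S3899
import Cfsg.Agent.Lib.Helper65.PiClasses
import Cfsg.Agent.S3897

set_option autoImplicit false
open Cfsg

namespace Cfsg.Agent.S3899

open Cfsg.Agent.Lib.Helper65
open scoped commutatorElement

/-- If there are many classes of `q`-elements (`q` odd), then `G` has a normal subgroup of
`q`-power index and order prime to `q` containing the commutator subgroup. -/
theorem exists_normal_q_complement {G : Type*} [Group G] [Finite G] (q : ℕ) [Fact q.Prime]
    (hq2 : q ≠ 2)
    (h4 : (q + 1) * q ^ (Nat.card G).factorization q < 2 * q * Nat.card (PClass q G)) :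
    ∃ N : Subgroup G, N.Normal ∧ ¬ q ∣ Nat.card N ∧
      (∀ s : ℕ, s.Prime → s ∣ N.index → s = q) ∧ commutator G ≤ N := by
  have hqp : q.Prime := Fact.out
  let P : Sylow q G := default
  have h5 := (Cfsg.Agent.S3897.result hq2 P).1 (by rw [Sylow.card_eq_multiplicity P]; exact h4)
  obtain ⟨⟨P₀, N, hN, hcomp⟩, -⟩ := h5
  have h6 := (Cfsg.Agent.S3897.result hq2 P₀).1 (by rw [Sylow.card_eq_multiplicity P₀]; exact h4)
  have hab : IsMulCommutative ↥(P₀ : Subgroup G) := h6.2
  refine ⟨N, hN, ?_, ?_, ?_⟩
  · rw [← hcomp.index_eq_card]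
    exact P₀.not_dvd_index
  · intro s hs hdvd
    have h7 : N.index = Nat.card (P₀ : Subgroup G) := hcomp.symm.index_eq_card
    rw [h7, Sylow.card_eq_multiplicity] at hdvd
    exact (Nat.prime_dvd_prime_iff_eq hs hqp).1 (hs.dvd_of_dvd_pow hdvd)
  · rw [commutator_def, Subgroup.commutator_le]
    intro a _ b _
    obtain ⟨⟨⟨n₁, hn₁⟩, ⟨u₁, hu₁⟩⟩, h1, -⟩ := (Subgroup.isComplement_iff_existsUnique.1 hcomp) a
    obtain ⟨⟨⟨n₂, hn₂⟩, ⟨u₂, hu₂⟩⟩, h2, -⟩ := (Subgroup.isComplement_iff_existsUnique.1 hcomp) b
    simp only at h1 h2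
    have hu : u₁ * u₂ = u₂ * u₁ := setLike_mul_comm hu₁ hu₂
    have ha : (QuotientGroup.mk a : G ⧸ N) = QuotientGroup.mk u₁ := by
      rw [← h1, QuotientGroup.mk_mul, (QuotientGroup.eq_one_iff n₁).2 hn₁, one_mul]
    have hb : (QuotientGroup.mk b : G ⧸ N) = QuotientGroup.mk u₂ := by
      rw [← h2, QuotientGroup.mk_mul, (QuotientGroup.eq_one_iff n₂).2 hn₂, one_mul]
    rw [← QuotientGroup.eq_one_iff (N := N)]
    rw [commutatorElement_def]
    simp only [QuotientGroup.mk_mul, QuotientGroup.mk_inv, ha, hb]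
    rw [← QuotientGroup.mk_mul, hu, QuotientGroup.mk_mul]
    group

/-- Let π be a finite non-empty set of odd primes with smallest member p and G a finite group. Write k_π(G) for the number of conjugacy classes of G consisting of π-elements (elements all of whose order's prime divisors lie in π) and |G|_π for the π-part of the order of G. If k_π(G) > (p + 1)|G|_π/(2p), then G has a normal π-complement (a normal subgroup of order prime to π whose index is a π-number) and an abelian Hall π-subgroup. -/
theorem result {G : Type*} [Group G] [Finite G] (π : Finset ℕ) (hπ : ∀ r ∈ π, r.Prime) (h2 : 2 ∉ π) (p : ℕ) (hp : p ∈ π)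
    (hmin : ∀ r ∈ π, p ≤ r) (hk : (p + 1) * π.prod (fun r => r ^ (Nat.card G).factorization r) < 2 * p * Nat.card {c : ConjClasses G // ∀ x ∈ c.carrier, ∀ r : ℕ, r.Prime → r ∣ orderOf x → r ∈ π}) :
    (∃ N : Subgroup G, N.Normal ∧ (∀ r : ℕ, r.Prime → r ∣ Nat.card ↥N → r ∉ π) ∧ ∀ r : ℕ, r.Prime → r ∣ N.index → r ∈ π) ∧ ∃ H : Subgroup G, Cfsg.IsPiHall (↑π : Set ℕ) H ∧ IsMulCommutative ↥H := by
  classical
  have hpp : p.Prime := hπ p hp
  have key : ∀ q ∈ π, ∃ N : Subgroup G, N.Normal ∧ ¬ q ∣ Nat.card N ∧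
      (∀ s : ℕ, s.Prime → s ∣ N.index → s = q) ∧ commutator G ≤ N := by
    intro q hq
    have hqp : q.Prime := hπ q hq
    have : Fact q.Prime := ⟨hqp⟩
    have hq2 : q ≠ 2 := fun h => h2 (h ▸ hq)
    have hpq : p ≤ q := hmin q hq
    set E := (π.erase q).prod (fun r => r ^ (Nat.card G).factorization r) with hE
    have hσ' : ∀ r ∈ π.erase q, r.Prime := fun r hr => hπ r (Finset.mem_of_mem_erase hr)
    have h1 : Nat.card (PiClass π G) ≤ Nat.card (PClass q G) * E := by
      have hB : ∀ y : G, Nat.card (PiClass (π.erase q) ↥(Subgroup.centralizer ({y} : Set G))) ≤ E := by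
        intro y
        refine (card_piClass_le (π.erase q) hσ' _).trans ?_
        apply Finset.prod_le_prod (fun r _ => Nat.zero_le _)
        intro r hr
        apply Nat.pow_le_pow_right (hσ' r hr).pos
        exact (Nat.factorization_le_iff_dvd Nat.card_pos.ne' Nat.card_pos.ne').2
          (Subgroup.card_subgroup_dvd_card _) r
      have := card_piClass_insert_le (H := G) q (π.erase q) E hB
      rwa [Finset.insert_erase hq] at this
    have h2' : π.prod (fun r => r ^ (Nat.card G).factorization r) =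
        q ^ (Nat.card G).factorization q * E := (Finset.mul_prod_erase π _ hq).symm
    have hEpos : 0 < E := Finset.prod_pos (fun r hr => pow_pos (hσ' r hr).pos _)
    have hk' : (p + 1) * (q ^ (Nat.card G).factorization q * E) <
        2 * p * (Nat.card (PClass q G) * E) := by
      rw [← h2']
      exact lt_of_lt_of_le hk (Nat.mul_le_mul_left _ h1)
    have h3 : (p + 1) * q ^ (Nat.card G).factorization q < 2 * p * Nat.card (PClass q G) := by
      have : (p + 1) * q ^ (Nat.card G).factorization q * E <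
          2 * p * Nat.card (PClass q G) * E := by
        calc (p + 1) * q ^ (Nat.card G).factorization q * E
            = (p + 1) * (q ^ (Nat.card G).factorization q * E) := by ring
          _ < 2 * p * (Nat.card (PClass q G) * E) := hk'
          _ = 2 * p * Nat.card (PClass q G) * E := by ring
      exact Nat.lt_of_mul_lt_mul_right this
    have h4 : (q + 1) * q ^ (Nat.card G).factorization q < 2 * q * Nat.card (PClass q G) := by
      have : p * ((q + 1) * q ^ (Nat.card G).factorization q) <
          p * (2 * q * Nat.card (PClass q G)) := by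
        have hle : p * (q + 1) ≤ q * (p + 1) := by nlinarith
        calc p * ((q + 1) * q ^ (Nat.card G).factorization q)
            = (p * (q + 1)) * q ^ (Nat.card G).factorization q := by ring
          _ ≤ (q * (p + 1)) * q ^ (Nat.card G).factorization q := Nat.mul_le_mul_right _ hle
          _ = q * ((p + 1) * q ^ (Nat.card G).factorization q) := by ring
          _ < q * (2 * p * Nat.card (PClass q G)) := Nat.mul_lt_mul_of_pos_left h3 hqp.pos
          _ = p * (2 * q * Nat.card (PClass q G)) := by ring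
      exact Nat.lt_of_mul_lt_mul_left this
    exact exists_normal_q_complement q hq2 h4
  obtain ⟨N, hN, hN1, hN2, hN3⟩ := exists_normal_pi_complement_aux π key
  have hN1' : ∀ r : ℕ, r.Prime → r ∣ Nat.card ↥N → r ∉ π := fun r _ hdvd hr => hN1 r hr hdvd
  refine ⟨⟨N, hN, hN1', hN2⟩, ?_⟩
  have hcop : Nat.Coprime (Nat.card N) N.index :=
    Nat.coprime_of_dvd (fun k hk hk1 hk2 => hN1' k hk hk1 (hN2 k hk hk2))
  obtain ⟨H, hH⟩ := Subgroup.exists_right_complement'_of_coprime hcop
  refine ⟨H, ⟨?_, ?_⟩, ?_⟩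
  · intro r hr hdvd
    rw [← hH.symm.index_eq_card] at hdvd
    exact Finset.mem_coe.2 (hN2 r hr hdvd)
  · intro r hr hmem hdvd
    rw [hH.index_eq_card] at hdvd
    exact hN1' r hr hdvd (Finset.mem_coe.1 hmem)
  · refine ⟨⟨fun a b => ?_⟩⟩
    have h1 : ⁅(a : G), (b : G)⁆ ∈ N :=
      hN3 ((Subgroup.commutator_le.1 (le_of_eq (commutator_def G).symm))
        a (Subgroup.mem_top _) b (Subgroup.mem_top _))
    have h2 : ⁅(a : G), (b : G)⁆ ∈ H := by
      rw [commutatorElement_def]
      exact H.mul_mem (H.mul_mem (H.mul_mem a.2 b.2) (H.inv_mem a.2)) (H.inv_mem b.2)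
    have h3 := Subgroup.disjoint_def.1 hH.disjoint h1 h2
    apply Subtype.ext
    exact commutatorElement_eq_one_iff_mul_comm.1 h3

end Cfsg.Agent.S3899
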