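import Cfsg.Statements.S3910

set_option autoImplicit false
open Cfsg

namespace Cfsg.Agent.S3910

universe u

/-- A finite commutative-by-proof group in which cyclic subgroups of equal order coincide up to
conjugacy is cyclic. -/
theorem cyclic_of_comm {G : Type u} [Group G] [Finite G] (hcomm : ∀ a b : G, a * b = b * a)
    (hC : ∀ a b : G, orderOf a = orderOf b →
      ∃ g : G, Subgroup.zpowers b = (Subgroup.zpowers a).map (MulAut.conj g).toMonoidHom) :
    IsCyclic G := by
  let _ : CommGroup G := { ‹Group G› with mul_comm := hcomm }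
  obtain ⟨t, ht⟩ := Monoid.exists_orderOf_eq_exponent (G := G) Monoid.ExponentExists.of_finite
  rw [isCyclic_iff_exists_zpowers_eq_top]
  refine ⟨t, (Subgroup.eq_top_iff' _).mpr ?_⟩
  intro a
  have hdvd : orderOf a ∣ orderOf t := by
    rw [ht]; exact Monoid.order_dvd_exponent a
  have hord : orderOf (t ^ (orderOf t / orderOf a)) = orderOf a :=
    orderOf_pow_orderOf_div (orderOf_pos t).ne' hdvd
  obtain ⟨g, hg⟩ := hC _ a hord
  have ha : a ∈ Subgroup.zpowers a := Subgroup.mem_zpowers a
  rw [hg, Subgroup.mem_map] at ha
  obtain ⟨x, hx, rfl⟩ := ha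
  have hx' : x ∈ Subgroup.zpowers t :=
    (Subgroup.zpowers_le.mpr (Subgroup.pow_mem _ (Subgroup.mem_zpowers t) _)) hx
  have : (MulAut.conj g).toMonoidHom x = x := by
    simp only [MulEquiv.toMonoidHom_eq_coe, MonoidHom.coe_coe, MulAut.conj_apply]
    rw [hcomm g x, mul_inv_cancel_right]
  rw [this]
  exact hx'

theorem aux (n : ℕ) : ∀ (G : Type u) [Group G] [Finite G], Nat.card G = n → Group.IsNilpotent G →
    (∀ a b : G, orderOf a = orderOf b →
      ∃ g : G, Subgroup.zpowers b = (Subgroup.zpowers a).map (MulAut.conj g).toMonoidHom) →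
    IsCyclic G := by
  induction n using Nat.strong_induction_on with
  | _ n ih =>
    intro G _ _ hcard hnil hC
    by_cases htriv : Subsingleton G
    · exact isCyclic_of_subsingleton
    rw [not_subsingleton_iff_nontrivial] at htriv
    have hZ : Subgroup.center G ≠ ⊥ := Group.IsNilpotent.center_ne_bot G
    have hZcard : Nat.card (Subgroup.center G) ≠ 1 := by
      intro h
      exact hZ ((Subgroup.card_eq_one).mp h)
    obtain ⟨p, hp, hpdvd⟩ := Nat.exists_prime_and_dvd hZcard
    have : Fact p.Prime := ⟨hp⟩
    obtain ⟨z', hz'⟩ := exists_prime_orderOf_dvd_card' p hpdvd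
    set z : G := (z' : G) with hzdef
    have hzord : orderOf z = p := by rw [hzdef, Subgroup.orderOf_coe, hz']
    have hzc : ∀ g : G, g * z = z * g := fun g => (Subgroup.mem_center_iff.mp z'.2 g)
    set N : Subgroup G := Subgroup.zpowers z with hN
    have hNle : N ≤ Subgroup.center G := Subgroup.zpowers_le.mpr z'.2
    have hNnormal : N.Normal := by
      constructor
      intro x hx g
      have hxc : x ∈ Subgroup.center G := hNle hx
      have : g * x * g⁻¹ = x := by
        rw [Subgroup.mem_center_iff.mp hxc g, mul_inv_cancel_right]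
      rw [this]; exact hx
    have hNcard : Nat.card N = p := by rw [hN, Nat.card_zpowers, hzord]
    -- Fact U: elements of order p lie in N
    have hU : ∀ u : G, orderOf u = p → u ∈ N := by
      intro u hu
      obtain ⟨g, hg⟩ := hC z u (by rw [hzord, hu])
      have hu' : u ∈ Subgroup.zpowers u := Subgroup.mem_zpowers u
      rw [hg, Subgroup.mem_map] at hu'
      obtain ⟨x, hx, rfl⟩ := hu'
      simp only [MulEquiv.toMonoidHom_eq_coe, MonoidHom.coe_coe, MulAut.conj_apply]
      exact hNnormal.conj_mem x hx g
    have hNpow : ∀ x ∈ N, x ^ p = 1 := by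
      intro x hx
      obtain ⟨k, rfl⟩ := Subgroup.mem_zpowers_iff.mp hx
      rw [← zpow_natCast, ← zpow_mul, mul_comm, zpow_mul, zpow_natCast, ← hzord,
        pow_orderOf_eq_one, one_zpow]
    -- lifting lemma
    have hlift : ∀ a : G, ∃ a' : G, (QuotientGroup.mk' N a' = QuotientGroup.mk' N a) ∧
        orderOf a' = orderOf (QuotientGroup.mk' N a) * p := by
      intro a
      set m := orderOf (QuotientGroup.mk' N a) with hm
      have hmpos : 0 < m := orderOf_pos _
      have h1 : m ∣ orderOf a := orderOf_map_dvd (QuotientGroup.mk' N) a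
      have h2 : a ^ m ∈ N := by
        rw [← QuotientGroup.eq_one_iff]
        have : QuotientGroup.mk' N (a ^ m) = 1 := by
          rw [map_pow, hm, pow_orderOf_eq_one]
        exact this
      have h3 : a ^ (m * p) = 1 := by
        rw [pow_mul]; exact hNpow _ h2
      have h4 : orderOf a ∣ m * p := orderOf_dvd_of_pow_eq_one h3
      by_cases h5 : orderOf a = m * p
      · exact ⟨a, rfl, h5⟩
      · have h6 : orderOf a = m := by
          obtain ⟨j, hj⟩ := h1
          rw [hj] at h4 h5 ⊢
          have hjp : j ∣ p := Nat.dvd_of_mul_dvd_mul_left hmpos h4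
          rcases (Nat.dvd_prime hp).mp hjp with h | h
          · rw [h, mul_one]
          · exact absurd (by rw [h]) h5
        have h7 : ¬ p ∣ m := by
          intro hpm
          have hu := orderOf_pow_orderOf_div (x := a) (orderOf_pos a).ne' (h6 ▸ hpm)
          have huN := hU _ hu
          rw [h6] at huN
          have : (QuotientGroup.mk' N a) ^ (m / p) = 1 := by
            rw [← map_pow]
            exact (QuotientGroup.eq_one_iff _).mpr huN
          have hdiv : m ∣ m / p := by
            rw [hm]; exact orderOf_dvd_of_pow_eq_one this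
          have hpos : 0 < m / p := Nat.div_pos (Nat.le_of_dvd hmpos hpm) hp.pos
          have hle := Nat.le_of_dvd hpos hdiv
          have hlt : m / p < m := Nat.div_lt_self hmpos hp.one_lt
          omega
        refine ⟨a * z, ?_, ?_⟩
        · rw [map_mul]
          have : QuotientGroup.mk' N z = 1 := (QuotientGroup.eq_one_iff z).mpr (Subgroup.mem_zpowers z)
          rw [this, mul_one]
        · have hcomm : Commute a z := hzc a
          have hcop : (orderOf a).Coprime (orderOf z) := by
            rw [h6, hzord]
            exact ((Nat.Prime.coprime_iff_not_dvd hp).mpr h7).symm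
          rw [hcomm.orderOf_mul_eq_mul_orderOf_of_coprime hcop, h6, hzord]
    -- the quotient satisfies the hypothesis
    have hCq : ∀ a b : G ⧸ N, orderOf a = orderOf b →
        ∃ g : G ⧸ N, Subgroup.zpowers b = (Subgroup.zpowers a).map (MulAut.conj g).toMonoidHom := by
      intro a b hab
      obtain ⟨a, rfl⟩ := QuotientGroup.mk'_surjective N a
      obtain ⟨b, rfl⟩ := QuotientGroup.mk'_surjective N b
      obtain ⟨a', ha', hoa⟩ := hlift a
      obtain ⟨b', hb', hob⟩ := hlift b
      obtain ⟨g, hg⟩ := hC a' b' (by rw [hoa, hob, hab])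
      refine ⟨QuotientGroup.mk' N g, ?_⟩
      rw [← ha', ← hb', ← MonoidHom.map_zpowers, ← MonoidHom.map_zpowers, hg, Subgroup.map_map,
        Subgroup.map_map]
      congr 1
    have hcardq : Nat.card (G ⧸ N) < n := by
      have h := Subgroup.card_eq_card_quotient_mul_card_subgroup N
      rw [hcard, hNcard] at h
      have hqpos : 0 < Nat.card (G ⧸ N) := Nat.card_pos
      have := hp.two_le
      nlinarith
    have hcycq : IsCyclic (G ⧸ N) := ih _ hcardq (G ⧸ N) rfl inferInstance hCq
    have hcomm : ∀ a b : G, a * b = b * a := fun a b =>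
      ((QuotientGroup.mk' N).isMulCommutative_of_isCyclic_of_ker_le_center
        (by rw [QuotientGroup.ker_mk']; exact hNle)).is_comm.comm a b
    exact cyclic_of_comm hcomm hC

/-- A finite nilpotent group in which any two abelian subgroups of the same order are conjugate is cyclic. -/
theorem result {G : Type*} [Group G] [Finite G] (hB : ∀ A B : Subgroup G, IsMulCommutative ↥A → IsMulCommutative ↥B → Nat.card ↥A = Nat.card ↥B → ∃ g : G, B = A.map (MulAut.conj g).toMonoidHom) (hnil : Group.IsNilpotent G) : IsCyclic G := by
  apply aux (Nat.card G) G rfl hnil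
  intro a b hab
  exact hB (Subgroup.zpowers a) (Subgroup.zpowers b) inferInstance inferInstance
    (by rw [Nat.card_zpowers, Nat.card_zpowers, hab])

end Cfsg.Agent.S3910
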