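import Cfsg.Statements.S3917

set_option autoImplicit false
open Cfsg

namespace Cfsg.Agent.S3917

/-- In a finite commutative group, if `x ^ p = 1` has at most `p` solutions for every prime `p`
then `x ^ n = 1` has at most `n` solutions for every positive `n`. -/
theorem card_pow_eq_one_le {G : Type*} [CommGroup G] [Fintype G] [DecidableEq G]
    (h : ∀ p : ℕ, p.Prime → (Finset.univ.filter (fun a : G => a ^ p = 1)).card ≤ p) :
    ∀ n : ℕ, 0 < n → (Finset.univ.filter (fun a : G => a ^ n = 1)).card ≤ n := by
  intro n
  induction n using Nat.strong_induction_on with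
  | _ n ih =>
    intro hn
    rcases Nat.lt_or_ge 1 n with h1 | h1
    · obtain ⟨m, hm⟩ := Nat.minFac_dvd n
      have hp : (Nat.minFac n).Prime := Nat.minFac_prime (by omega)
      set p := Nat.minFac n with hpdef
      have hmpos : 0 < m := by
        rcases Nat.eq_zero_or_pos m with h0 | h0
        · rw [h0, mul_zero] at hm; omega
        · exact h0
      have hmlt : m < n := by
        rw [hm]
        have := hp.two_le
        nlinarith
      have ihm := ih m hmlt hmpos
      have himg : (Finset.univ.filter (fun a : G => a ^ n = 1)).image (fun x => x ^ p) ⊆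
          Finset.univ.filter (fun a : G => a ^ m = 1) := by
        intro y hy
        simp only [Finset.mem_image, Finset.mem_filter, Finset.mem_univ, true_and] at hy ⊢
        obtain ⟨x, hx, rfl⟩ := hy
        rw [← pow_mul, ← hm]; exact hx
      have hfib : ∀ a ∈ (Finset.univ.filter (fun a : G => a ^ n = 1)).image (fun x => x ^ p),
          ((Finset.univ.filter (fun a : G => a ^ n = 1)).filter (fun x => x ^ p = a)).card ≤ p := by
        intro a ha
        obtain ⟨x0, hx0, rfl⟩ := Finset.mem_image.mp ha
        refine le_trans ?_ (h p hp)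
        apply Finset.card_le_card_of_injOn (fun x => x * x0⁻¹)
        · intro x hx
          simp only [Finset.coe_filter, Finset.mem_filter, Finset.mem_univ, true_and,
            Set.mem_ofPred_eq] at hx ⊢
          rw [mul_pow, hx.2, inv_pow, mul_inv_cancel]
        · intro x _ y _ hxy
          exact mul_right_cancel hxy
      calc (Finset.univ.filter (fun a : G => a ^ n = 1)).card
          ≤ p * ((Finset.univ.filter (fun a : G => a ^ n = 1)).image (fun x => x ^ p)).card :=
            Finset.card_le_mul_card_image _ p hfib
        _ ≤ p * m := Nat.mul_le_mul_left p (le_trans (Finset.card_le_card himg) ihm)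
        _ = n := hm.symm
    · have : n = 1 := by omega
      subst this
      simp [Finset.filter_eq']

/-- Say that a group has self-centralizing non-cyclic subgroups when every non-cyclic subgroup H satisfies C_G(H) ≤ H. A finite abelian group with self-centralizing non-cyclic subgroups is cyclic or elementary abelian of order p² for a prime p. -/
theorem result {G : Type*} [CommGroup G] [Finite G] (hX : (∀ H : Subgroup G, ¬ IsCyclic ↥H → Subgroup.centralizer (H : Set G) ≤ H)) :
    IsCyclic G ∨ ∃ p : ℕ, p.Prime ∧ Nat.card G = p ^ 2 ∧ Monoid.exponent G = p := by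
  classical
  -- every non-cyclic subgroup is the whole group
  have hX' : ∀ H : Subgroup G, ¬ IsCyclic ↥H → H = ⊤ := by
    intro H hH
    rw [eq_top_iff]
    intro x _
    apply hX H hH
    rw [Subgroup.mem_centralizer_iff]
    intro h _
    exact mul_comm h x
  by_cases hcyc : IsCyclic G
  · exact Or.inl hcyc
  right
  have : Fintype G := Fintype.ofFinite G
  -- some prime p has more than p solutions of x ^ p = 1
  have hex : ∃ p : ℕ, p.Prime ∧ p < (Finset.univ.filter (fun a : G => a ^ p = 1)).card := by
    by_contra hcon
    push Not at hcon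
    exact hcyc (isCyclic_of_card_pow_eq_one_le (card_pow_eq_one_le hcon))
  obtain ⟨p, hp, hlt⟩ := hex
  have : Fact p.Prime := ⟨hp⟩
  refine ⟨p, hp, ?_⟩
  -- the p-torsion subgroup
  set T : Subgroup G := (powMonoidHom p : G →* G).ker with hT
  have hTmem : ∀ x : G, x ∈ T ↔ x ^ p = 1 := by
    intro x
    rw [hT, MonoidHom.mem_ker, powMonoidHom_apply]
  have hTcard : Nat.card T = (Finset.univ.filter (fun a : G => a ^ p = 1)).card := by
    rw [Nat.card_eq_fintype_card, Fintype.card_subtype]
    congr 1
    ext x
    simp only [Finset.mem_filter, Finset.mem_univ, true_and]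
    exact hTmem x
  have hTnc : ¬ IsCyclic T := by
    intro hc
    have h1 : Monoid.exponent T = Nat.card T := IsCyclic.exponent_eq_card
    have h2 : Monoid.exponent T ∣ p := by
      apply Monoid.exponent_dvd_of_forall_pow_eq_one
      intro ⟨x, hx⟩
      apply Subtype.ext
      simpa using (hTmem x).mp hx
    have h3 := Nat.le_of_dvd hp.pos h2
    rw [h1, hTcard] at h3
    omega
  have hTtop : T = ⊤ := hX' T hTnc
  have hall : ∀ x : G, x ^ p = 1 := by
    intro x
    rw [← hTmem, hTtop]
    exact Subgroup.mem_top x
  have hGcard : p < Nat.card G := by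
    have : Nat.card T = Nat.card G := by
      rw [hTtop]; exact Subgroup.card_top
    rw [← this, hTcard]; exact hlt
  -- exponent
  have hexp : Monoid.exponent G = p := by
    have h2 : Monoid.exponent G ∣ p := Monoid.exponent_dvd_of_forall_pow_eq_one hall
    rcases (Nat.dvd_prime hp).mp h2 with h | h
    · exfalso
      have hsub : Subsingleton G := Monoid.exp_eq_one_iff.mp h
      have : Nat.card G ≤ 1 := Finite.card_le_one_iff_subsingleton.mpr hsub
      have := hp.two_le
      omega
    · exact h
  refine ⟨?_, hexp⟩
  -- G is a p-group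
  have hpg : IsPGroup p G := fun g => ⟨1, by rw [pow_one]; exact hall g⟩
  obtain ⟨k, hk⟩ := IsPGroup.iff_card.mp hpg
  -- pick x ≠ 1
  obtain ⟨x, hx1⟩ : ∃ x : G, x ≠ 1 := by
    by_contra hcon
    push Not at hcon
    have hsub : Subsingleton G := ⟨fun a b => by rw [hcon a, hcon b]⟩
    have : Nat.card G ≤ 1 := Finite.card_le_one_iff_subsingleton.mpr hsub
    have := hp.two_le
    omega
  have hxord : orderOf x = p := by
    rcases (Nat.dvd_prime hp).mp (orderOf_dvd_of_pow_eq_one (hall x)) with h | h
    · exact absurd (orderOf_eq_one_iff.mp h) hx1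
    · exact h
  have hHcard : Nat.card (Subgroup.zpowers x) = p := by rw [Nat.card_zpowers, hxord]
  -- pick y outside zpowers x
  obtain ⟨y, hy⟩ : ∃ y : G, y ∉ Subgroup.zpowers x := by
    by_contra hcon
    push Not at hcon
    have : Subgroup.zpowers x = ⊤ := (Subgroup.eq_top_iff' _).mpr hcon
    rw [this, Subgroup.card_top] at hHcard
    omega
  set K : Subgroup G := Subgroup.zpowers x ⊔ Subgroup.zpowers y with hK
  have hKnc : ¬ IsCyclic K := by
    intro hc
    have h1 : Monoid.exponent K = Nat.card K := IsCyclic.exponent_eq_card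
    have h2 : Monoid.exponent K ∣ p := by
      apply Monoid.exponent_dvd_of_forall_pow_eq_one
      intro ⟨z, hz⟩
      apply Subtype.ext
      simpa using hall z
    have h3 := Nat.le_of_dvd hp.pos h2
    rw [h1] at h3
    have hle : Subgroup.zpowers x ≤ K := le_sup_left
    have h4 : Subgroup.zpowers x = K := by
      apply Subgroup.eq_of_le_of_card_ge hle
      rw [hHcard]; exact h3
    apply hy
    rw [h4]
    exact (le_sup_right : Subgroup.zpowers y ≤ K) (Subgroup.mem_zpowers y)
  have hKtop : K = ⊤ := hX' K hKnc
  have hyord : orderOf y ∣ p := orderOf_dvd_of_pow_eq_one (hall y)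
  have hKcard : Nat.card G ≤ p * p := by
    have hsurj : Function.Surjective
        (fun q : Subgroup.zpowers x × Subgroup.zpowers y => (q.1 : G) * (q.2 : G)) := by
      intro g
      have hg : g ∈ K := by rw [hKtop]; exact Subgroup.mem_top g
      rw [hK, Subgroup.mem_sup] at hg
      obtain ⟨a, ha, b, hb, hab⟩ := hg
      exact ⟨(⟨a, ha⟩, ⟨b, hb⟩), hab⟩
    have h1 := Nat.card_le_card_of_surjective _ hsurj
    rw [Nat.card_prod, hHcard, Nat.card_zpowers] at h1
    calc Nat.card G ≤ p * orderOf y := h1
      _ ≤ p * p := Nat.mul_le_mul_left p (Nat.le_of_dvd hp.pos hyord)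
  rw [hk] at hGcard hKcard ⊢
  have hk2 : 1 < k := by
    by_contra hle
    have : k ≤ 1 := by omega
    have := Nat.pow_le_pow_right hp.pos this
    rw [pow_one] at this
    omega
  have hk3 : k ≤ 2 := by
    by_contra hgt
    have : 3 ≤ k := by omega
    have h3 := Nat.pow_le_pow_right hp.pos this
    have h2 := hp.two_le
    have : p * p * 2 ≤ p ^ 3 := by
      have : p ^ 3 = p * p * p := by ring
      rw [this]
      exact Nat.mul_le_mul_left _ h2
    nlinarith
  have : k = 2 := by omega
  rw [this]

end Cfsg.Agent.S3917
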