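import Mathlib
import Cfsg.Statements.S3918
import Cfsg.Agent.S0016
import Cfsg.Agent.S0130
import Cfsg.Agent.Lib.Helper38.PChain
import Cfsg.Agent.Lib.Helper24.ElemAb

set_option autoImplicit false
open Cfsg

namespace Cfsg.Agent.S3918

open Cfsg.Agent.Lib.Helper24

/-- Say that a group has self-centralizing non-cyclic subgroups when every non-cyclic subgroup H satisfies C_G(H) ≤ H. For an odd prime p, a finite non-abelian p-group has self-centralizing non-cyclic subgroups if and only if it has order p³. -/
theorem result {G : Type*} [Group G] [Finite G] {p : ℕ} [Fact p.Prime] (hp : p ≠ 2) (hG : IsPGroup p G) (hna : ¬ IsMulCommutative G) :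
    (∀ H : Subgroup G, ¬ IsCyclic ↥H → Subgroup.centralizer (H : Set G) ≤ H) ↔ Nat.card G = p ^ 3 := by
  classical
  have hp' : p.Prime := Fact.out
  constructor
  · intro hsc
    have hGnt : Nontrivial G := by
      by_contra hcon
      rw [not_nontrivial_iff_subsingleton] at hcon
      exact hna ⟨⟨fun a b => Subsingleton.elim _ _⟩⟩
    have hcn : Nontrivial (Subgroup.center G) := hG.center_nontrivial
    have hpc : IsPGroup p (Subgroup.center G) := hG.to_subgroup _
    have hdvdc : p ∣ Nat.card (Subgroup.center G) := by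
      rcases hpc.card_eq_or_dvd with h | h
      · have := Finite.one_lt_card (α := Subgroup.center G)
        omega
      · exact h
    obtain ⟨z, hz⟩ := exists_prime_orderOf_dvd_card' p hdvdc
    have hzo : orderOf (z : G) = p := by rw [Subgroup.orderOf_coe]; exact hz
    have hZ₀card : Nat.card (Subgroup.zpowers (z : G)) = p := by rw [Nat.card_zpowers, hzo]
    have hZ₀cent : Subgroup.zpowers (z : G) ≤ Subgroup.center G := by
      rw [Subgroup.zpowers_le]; exact z.2
    have hZ₀n : (Subgroup.zpowers (z : G)).Normal := by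
      refine ⟨fun x hx g => ?_⟩
      have h1 := Subgroup.mem_center_iff.mp (hZ₀cent hx) g
      rw [h1, mul_inv_cancel_right]
      exact hx
    have hZ₀c : ∀ x ∈ Subgroup.zpowers (z : G), ∀ y ∈ Subgroup.zpowers (z : G), x * y = y * x :=
      fun x hx y hy => Subgroup.mem_center_iff.mp (hZ₀cent hy) x
    have hZ₀e : ∀ x ∈ Subgroup.zpowers (z : G), x ^ p = 1 := by
      intro x hx
      obtain ⟨k, rfl⟩ := Subgroup.mem_zpowers_iff.mp hx
      rw [← zpow_natCast, ← zpow_mul, mul_comm, zpow_mul, zpow_natCast, ← hzo, pow_orderOf_eq_one,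
        one_zpow]
    let S : Type _ := {B : Subgroup G // B.Normal ∧ (∀ x ∈ B, ∀ y ∈ B, x * y = y * x) ∧
      (∀ b ∈ B, b ^ p = 1) ∧ Subgroup.zpowers (z : G) ≤ B}
    have hne : Nonempty S := ⟨⟨_, hZ₀n, hZ₀c, hZ₀e, le_rfl⟩⟩
    obtain ⟨⟨B, hBn, hBc, hBe, hZB⟩, hmax⟩ :=
      Finite.exists_max (fun B : S => Nat.card (B.1 : Subgroup G))
    have hB130 : ∀ x ∈ Subgroup.centralizer (B : Set G), x ^ p = 1 → x ∈ B := by
      intro x hx hxp
      refine Cfsg.Agent.S0130.result hG 1 (by rw [pow_one]; exact hp) B
        ⟨⟨fun u v => Subtype.ext (hBc u u.2 v v.2)⟩⟩ (fun b hb => by rw [pow_one]; exact hBe b hb)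
        ?_ x hx (by rw [pow_one]; exact hxp)
      intro B' hB'n hB'c hB'e hBB'
      have hcB' : ∀ x ∈ B', ∀ y ∈ B', x * y = y * x := fun x hx y hy =>
        congrArg Subtype.val (hB'c.is_comm.comm ⟨x, hx⟩ ⟨y, hy⟩)
      have h2 := hmax ⟨B', hB'n, hcB', fun b hb => by simpa using hB'e b hb, hZB.trans hBB'⟩
      exact (Subgroup.eq_of_le_of_card_ge hBB' h2).symm
    have hBcard : p ^ 2 ≤ Nat.card B := by
      by_contra hcon
      obtain ⟨j, hj⟩ := (hG.to_subgroup B).exists_card_eq
      have hj1 : j ≤ 1 := by
        by_contra h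
        exact hcon (by rw [hj]; exact Nat.pow_le_pow_right hp'.pos (by omega))
      have hBZ : Subgroup.zpowers (z : G) = B := Subgroup.eq_of_le_of_card_ge hZB (by
        rw [hj, hZ₀card]
        calc p ^ j ≤ p ^ 1 := Nat.pow_le_pow_right hp'.pos hj1
          _ = p := pow_one p)
      have hall : ∀ x : G, x ^ p = 1 → x ∈ Subgroup.zpowers (z : G) := by
        intro x hxp
        rw [hBZ]
        apply hB130 x _ hxp
        rw [← hBZ, Subgroup.mem_centralizer_iff]
        intro y hy
        exact (Subgroup.mem_center_iff.mp (hZ₀cent hy) x).symm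
      have key : ∀ H : Subgroup G, Nat.card H = p → H = Subgroup.zpowers (z : G) := by
        intro H hH
        apply Subgroup.eq_of_le_of_card_ge
        · intro x hx
          apply hall
          have h1 : (⟨x, hx⟩ : ↥H) ^ Nat.card H = 1 := pow_card_eq_one'
          rw [hH] at h1
          exact congrArg Subtype.val h1
        · rw [hH, hZ₀card]
      have huniq : ∀ H K : Subgroup G, Nat.card H = p → Nat.card K = p → H = K := by
        intro H K hH hK
        rw [key H hH, key K hK]
      rcases Cfsg.Agent.S0016.result p hG huniq with hc | ⟨h2, -⟩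
      · exact hna (@IsCyclic.isMulCommutative _ _ hc)
      · exact hp h2
    obtain ⟨E, hEn, hEB, hEcard, hEidx⟩ :=
      Cfsg.Agent.Lib.Helper38.exists_normal_card_centralizer hG B 2 hBcard
    have hEnc : ¬ IsCyclic ↥E := by
      intro hcyc
      obtain ⟨g, hg⟩ := hcyc.exists_generator
      have ho : orderOf g = Nat.card E := orderOf_eq_card_of_forall_mem_zpowers hg
      have hgp : g ^ p = 1 := Subtype.ext (by simpa using hBe g.1 (hEB g.2))
      have h1 := orderOf_dvd_of_pow_eq_one hgp
      rw [ho, hEcard] at h1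
      have h2 := Nat.le_of_dvd hp'.pos h1
      have := hp'.one_lt
      nlinarith
    have hCE := hsc E hEnc
    have hcard : Nat.card G ≤ p ^ 3 := by
      have h1 := Subgroup.card_mul_index (Subgroup.centralizer (E : Set G))
      have h2 : Nat.card (Subgroup.centralizer (E : Set G)) ≤ p ^ 2 := by
        rw [← hEcard]; exact Subgroup.card_le_of_le hCE
      have h3 : (Subgroup.centralizer (E : Set G)).index ≤ p := by simpa using hEidx
      calc Nat.card G = Nat.card (Subgroup.centralizer (E : Set G)) *
            (Subgroup.centralizer (E : Set G)).index := h1.symm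
        _ ≤ p ^ 2 * p := Nat.mul_le_mul h2 h3
        _ = p ^ 3 := by ring
    obtain ⟨n, hn⟩ := hG.exists_card_eq
    have hn3 : 3 ≤ n := by
      by_contra hcon
      have hn2 : n ≤ 2 := by omega
      interval_cases n
      · have hsub : Subsingleton G := (Nat.card_eq_one_iff_unique.mp (by simpa using hn)).1
        exact hna ⟨⟨fun a b => Subsingleton.elim _ _⟩⟩
      · have hc : IsCyclic G := isCyclic_of_prime_card (p := p) (by simpa using hn)
        exact hna (@IsCyclic.isMulCommutative _ _ hc)
      · exact hna (IsPGroup.isMulCommutative_of_card_eq_prime_sq hn)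
    rw [hn] at hcard ⊢
    have h3 : n ≤ 3 := (Nat.pow_le_pow_iff_right hp'.one_lt).mp hcard
    have h4 : n = 3 := by omega
    rw [h4]
  · intro hcard H hH
    have hdvd : Nat.card H ∣ p ^ 3 := by
      rw [← hcard]; exact Subgroup.card_subgroup_dvd_card H
    obtain ⟨i, hi, hci⟩ := (Nat.dvd_prime_pow hp').mp hdvd
    have hi2 : 2 ≤ i := by
      by_contra hcon
      have h01 : i = 0 ∨ i = 1 := by omega
      rcases h01 with rfl | rfl
      · rw [pow_zero] at hci
        have hsub : Subsingleton ↥H := (Nat.card_eq_one_iff_unique.mp hci).1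
        exact hH inferInstance
      · rw [pow_one] at hci
        exact hH (isCyclic_of_prime_card (p := p) hci)
    by_cases hi3 : i = 3
    · have htop : H = ⊤ := Subgroup.eq_top_of_card_eq H (by rw [hci, hi3, hcard])
      rw [htop]
      exact le_top
    · have hi2' : i = 2 := by omega
      rw [hi2'] at hci
      have hHc : ∀ x ∈ H, ∀ y ∈ H, x * y = y * x := by
        have hcomm : IsMulCommutative ↥H := IsPGroup.isMulCommutative_of_card_eq_prime_sq hci
        intro x hx y hy
        exact congrArg Subtype.val (hcomm.is_comm.comm ⟨x, hx⟩ ⟨y, hy⟩)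
      have hHC : H ≤ Subgroup.centralizer (H : Set G) := fun x hx => by
        rw [Subgroup.mem_centralizer_iff]
        intro y hy
        exact hHc y hy x hx
      have hCne : Subgroup.centralizer (H : Set G) ≠ ⊤ := by
        intro htop
        obtain ⟨x, hx⟩ : ∃ x : G, x ∉ H := by
          by_contra hcon
          push Not at hcon
          have h1 : H = ⊤ := eq_top_iff.mpr (fun x _ => hcon x)
          rw [h1, Subgroup.card_top, hcard] at hci
          have := Nat.pow_right_injective hp'.two_le hci
          omega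
        have hxc : ∀ e ∈ H, x * e = e * x := by
          intro e he
          have h1 : x ∈ Subgroup.centralizer (H : Set G) := by rw [htop]; trivial
          exact ((Subgroup.mem_centralizer_iff.mp h1) e he).symm
        have hcomm := sup_zpowers_comm H x hHc hxc
        have hlt : H < H ⊔ Subgroup.zpowers x :=
          lt_of_le_of_ne le_sup_left (fun h => hx (by
            rw [h]; exact le_sup_right (a := H) (Subgroup.mem_zpowers x)))
        have hc1 := Cfsg.Agent.Lib.Helper1.card_lt_card_of_lt hlt
        have hd1 : Nat.card (H ⊔ Subgroup.zpowers x : Subgroup G) ∣ p ^ 3 := by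
          rw [← hcard]; exact Subgroup.card_subgroup_dvd_card _
        obtain ⟨j, hj, hcj⟩ := (Nat.dvd_prime_pow hp').mp hd1
        have hj3 : j = 3 := by
          rw [hci, hcj] at hc1
          have := (Nat.pow_lt_pow_iff_right hp'.one_lt).mp hc1
          omega
        have htop2 : H ⊔ Subgroup.zpowers x = ⊤ :=
          Subgroup.eq_top_of_card_eq _ (by rw [hcj, hj3, hcard])
        exact hna ⟨⟨fun a b => hcomm a (by rw [htop2]; trivial) b (by rw [htop2]; trivial)⟩⟩
      have hd2 : Nat.card (Subgroup.centralizer (H : Set G)) ∣ p ^ 3 := by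
        rw [← hcard]; exact Subgroup.card_subgroup_dvd_card _
      obtain ⟨j, hj, hcj⟩ := (Nat.dvd_prime_pow hp').mp hd2
      have hj3 : j ≠ 3 := fun h => hCne (Subgroup.eq_top_of_card_eq _ (by rw [hcj, h, hcard]))
      have hle : Nat.card (Subgroup.centralizer (H : Set G)) ≤ Nat.card H := by
        rw [hcj, hci]
        exact Nat.pow_le_pow_right hp'.pos (by omega)
      exact (Subgroup.eq_of_le_of_card_ge hHC hle).ge

end Cfsg.Agent.S3918
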