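import Cfsg.Statements.S3920

set_option autoImplicit false
open Cfsg

namespace Cfsg.Agent.S3920

open DihedralGroup

/-- In `ZMod n`, a nonzero element with `x + x = 0` has `2 * x.val = n`. -/
theorem two_val_eq {n : ℕ} [NeZero n] (x : ZMod n) (hx : x ≠ 0) (h2 : x + x = 0) :
    2 * x.val = n := by
  have h1 : ((2 * x.val : ℕ) : ZMod n) = 0 := by
    push_cast
    rw [ZMod.natCast_zmod_val, two_mul]
    exact h2
  rw [ZMod.natCast_eq_zero_iff] at h1
  have hlt : x.val < n := ZMod.val_lt x
  have hne : x.val ≠ 0 := fun h => hx ((ZMod.val_eq_zero x).1 h)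
  obtain ⟨q, hq⟩ := h1
  have hq1 : q = 1 := by
    rcases Nat.lt_or_ge q 1 with h | h
    · have : q = 0 := by omega
      subst this
      omega
    · rcases Nat.lt_or_ge q 2 with h' | h'
      · omega
      · nlinarith
  subst hq1
  omega

/-- The subgroup of the dihedral group made of the `r x` and `sr x` with `x ∈ K`. -/
def subK {n : ℕ} (K : AddSubgroup (ZMod n)) : Subgroup (DihedralGroup n) where
  carrier := {g | ∃ x ∈ K, g = r x ∨ g = sr x}
  mul_mem' := by
    rintro _ _ ⟨x, hx, rfl | rfl⟩ ⟨y, hy, rfl | rfl⟩
    · exact ⟨x + y, K.add_mem hx hy, Or.inl (r_mul_r x y)⟩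
    · exact ⟨y - x, K.sub_mem hy hx, Or.inr (r_mul_sr x y)⟩
    · exact ⟨x + y, K.add_mem hx hy, Or.inr (sr_mul_r x y)⟩
    · exact ⟨y - x, K.sub_mem hy hx, Or.inl (sr_mul_sr x y)⟩
  one_mem' := ⟨0, K.zero_mem, Or.inl rfl⟩
  inv_mem' := by
    rintro _ ⟨x, hx, rfl | rfl⟩
    · exact ⟨-x, K.neg_mem hx, Or.inl (inv_r x)⟩
    · exact ⟨x, hx, Or.inr (inv_sr x)⟩

theorem r_mem_subK {n : ℕ} (K : AddSubgroup (ZMod n)) (a : ZMod n) :
    r a ∈ subK K ↔ a ∈ K := by
  constructor
  · rintro ⟨x, hx, h | h⟩
    · cases h; exact hx
    · cases h
  · intro h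
    exact ⟨a, h, Or.inl rfl⟩

theorem sr_mem_subK {n : ℕ} (K : AddSubgroup (ZMod n)) (a : ZMod n) :
    sr a ∈ subK K ↔ a ∈ K := by
  constructor
  · rintro ⟨x, hx, h | h⟩
    · cases h
    · cases h; exact hx
  · intro h
    exact ⟨a, h, Or.inr rfl⟩

/-- Say that a group has self-centralizing non-cyclic subgroups when every non-cyclic subgroup H satisfies C_G(H) ≤ H. For n ≥ 3, the dihedral group of order 2n has self-centralizing non-cyclic subgroups if and only if n is odd or a power of 2. -/
theorem result (n : ℕ) (hn : 3 ≤ n) : (∀ H : Subgroup (DihedralGroup n), ¬ IsCyclic ↥H → Subgroup.centralizer (H : Set (DihedralGroup n)) ≤ H) ↔ (Odd n ∨ ∃ k : ℕ, n = 2 ^ k) := by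
  have : NeZero n := ⟨by omega⟩
  constructor
  · intro h
    by_contra hcon
    push Not at hcon
    obtain ⟨hodd, hpow⟩ := hcon
    obtain ⟨e, m, hm, hnm⟩ := Nat.exists_eq_two_pow_mul_odd (show n ≠ 0 by omega)
    have he : e ≠ 0 := by
      rintro rfl
      apply hodd
      simpa [hnm] using hm
    have hm1 : m ≠ 1 := by
      rintro rfl
      exact hpow e (by simpa using hnm)
    have hm3 : 3 ≤ m := by
      obtain ⟨t, rfl⟩ := hm
      omega
    obtain ⟨e', rfl⟩ : ∃ e', e = e' + 1 := ⟨e - 1, by omega⟩
    have hdvd : 2 ^ (e' + 1) ∣ n := ⟨m, hnm⟩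
    let φ : ZMod n →+ ZMod (2 ^ (e' + 1)) := (ZMod.castHom hdvd (ZMod (2 ^ (e' + 1)))).toAddMonoidHom
    have hφ : ∀ t : ℕ, φ (t : ZMod n) = (t : ZMod (2 ^ (e' + 1))) := by
      intro t
      simp [φ]
    let K : AddSubgroup (ZMod n) := φ.ker
    have hK : ∀ x, x ∈ K ↔ φ x = 0 := fun x => AddMonoidHom.mem_ker
    let a : ZMod n := ((2 ^ e' * m : ℕ) : ZMod n)
    have haa : a + a = 0 := by
      have : a + a = ((2 ^ (e' + 1) * m : ℕ) : ZMod n) := by
        simp only [a]
        push_cast
        ring
      rw [this, ← hnm, ZMod.natCast_self]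
    have hacent : r a ∈ Subgroup.centralizer ((subK K : Subgroup (DihedralGroup n)) : Set (DihedralGroup n)) := by
      rw [Subgroup.mem_centralizer_iff]
      rintro g -
      cases g with
      | r x => rw [r_mul_r, r_mul_r, add_comm]
      | sr x =>
        rw [r_mul_sr, sr_mul_r]
        congr 1
        linear_combination haa
    have hanot : r a ∉ subK K := by
      rw [r_mem_subK, hK, hφ, ZMod.natCast_eq_zero_iff]
      rintro ⟨q, hq⟩
      obtain ⟨t, rfl⟩ := hm
      have h2 : 2 ^ e' * (2 * t + 1) = 2 ^ e' * (2 * q) := by
        rw [hq, pow_succ]; ring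
      have h3 := Nat.eq_of_mul_eq_mul_left (by positivity) h2
      omega
    have hnc : ¬ IsCyclic ↥(subK K) := by
      intro hc
      have h1 : r ((2 ^ (e' + 1) : ℕ) : ZMod n) ∈ subK K := by
        rw [r_mem_subK, hK, hφ, ZMod.natCast_self]
      have h2 : sr (0 : ZMod n) ∈ subK K := by
        rw [sr_mem_subK]
        exact K.zero_mem
      have hcomm := (IsCyclic.commGroup (α := ↥(subK K))).mul_comm ⟨_, h1⟩ ⟨_, h2⟩
      have hcomm' : r ((2 ^ (e' + 1) : ℕ) : ZMod n) * sr (0 : ZMod n) = sr 0 * r ((2 ^ (e' + 1) : ℕ) : ZMod n) :=
        congrArg Subtype.val hcomm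
      rw [r_mul_sr, sr_mul_r] at hcomm'
      have h3 : (0 : ZMod n) - ((2 ^ (e' + 1) : ℕ) : ZMod n) = 0 + ((2 ^ (e' + 1) : ℕ) : ZMod n) := by
        injection hcomm'
      have h4 : ((2 ^ (e' + 1) * 2 : ℕ) : ZMod n) = 0 := by
        push_cast
        push_cast at h3
        linear_combination -h3
      rw [ZMod.natCast_eq_zero_iff, hnm] at h4
      have h5 := Nat.dvd_of_mul_dvd_mul_left (by positivity) h4
      have := Nat.le_of_dvd (by norm_num) h5
      omega
    exact hanot (h _ hnc hacent)
  · intro hn2 H hH
    -- H contains a reflection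
    have hsr : ∃ j, sr j ∈ H := by
      by_contra hcon
      push Not at hcon
      apply hH
      have hle : H ≤ Subgroup.zpowers (r (1 : ZMod n)) := by
        intro g hg
        cases g with
        | r x =>
          rw [Subgroup.mem_zpowers_iff]
          refine ⟨(x.val : ℤ), ?_⟩
          rw [zpow_natCast, r_one_pow, ZMod.natCast_zmod_val]
        | sr x => exact absurd hg (hcon x)
      exact isCyclic_of_injective (Subgroup.inclusion hle) (Subgroup.inclusion_injective hle)
    obtain ⟨j, hj⟩ := hsr
    -- H contains a nontrivial rotation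
    have hr : ∃ i, i ≠ 0 ∧ r i ∈ H := by
      by_contra hcon
      push Not at hcon
      apply hH
      have hle : H ≤ Subgroup.zpowers (sr j) := by
        intro g hg
        cases g with
        | r x =>
          have : x = 0 := by
            by_contra hx
            exact hcon x hx hg
          subst this
          rw [r_zero]
          exact Subgroup.one_mem _
        | sr x =>
          have h1 : sr j * sr x ∈ H := H.mul_mem hj hg
          rw [sr_mul_sr] at h1
          have : x - j = 0 := by
            by_contra hx
            exact hcon _ hx h1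
          have hxj : x = j := sub_eq_zero.1 this
          subst hxj
          exact Subgroup.mem_zpowers _
      exact isCyclic_of_injective (Subgroup.inclusion hle) (Subgroup.inclusion_injective hle)
    obtain ⟨i, hi0, hi⟩ := hr
    intro g hg
    rw [Subgroup.mem_centralizer_iff] at hg
    have hg1 := hg _ hj
    have hg2 := hg _ hi
    cases g with
    | r a =>
      rw [sr_mul_r, r_mul_sr] at hg1
      have haa : a + a = 0 := by
        have : j + a = j - a := by injection hg1
        linear_combination this
      by_cases ha0 : a = 0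
      · subst ha0
        rw [r_zero]
        exact H.one_mem
      · have hval := two_val_eq a ha0 haa
        rcases hn2 with hodd | ⟨k, hk⟩
        · exfalso
          obtain ⟨t, ht⟩ := hodd
          omega
        · -- some multiple of i is the involution
          have hord : addOrderOf i ∣ 2 ^ k := by
            have := addOrderOf_dvd_card (x := i)
            rw [ZMod.card] at this
            exact hk ▸ this
          obtain ⟨e, -, he⟩ := (Nat.dvd_prime_pow Nat.prime_two).1 hord
          have he0 : e ≠ 0 := by
            rintro rfl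
            rw [pow_zero, AddMonoid.addOrderOf_eq_one_iff] at he
            exact hi0 he
          obtain ⟨e', rfl⟩ : ∃ e', e = e' + 1 := ⟨e - 1, by omega⟩
          set c : ZMod n := (2 ^ e') • i with hc
          have hcc : c + c = 0 := by
            have : c + c = (2 ^ (e' + 1)) • i := by
              rw [hc, pow_succ, mul_nsmul, two_nsmul]
            rw [this, ← he, addOrderOf_nsmul_eq_zero]
          have hc0 : c ≠ 0 := by
            intro h0
            have := addOrderOf_dvd_of_nsmul_eq_zero h0
            rw [he] at this
            have := Nat.le_of_dvd (by positivity) this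
            rw [pow_succ] at this
            have : 0 < 2 ^ e' := by positivity
            omega
          have hvalc := two_val_eq c hc0 hcc
          have hac : a = c := by
            apply ZMod.val_injective
            omega
          rw [hac, hc]
          have : r ((2 ^ e') • i) = (r i) ^ (2 ^ e') := by
            rw [r_pow]
            congr 1
            rw [nsmul_eq_mul, mul_comm]
          rw [this]
          exact H.pow_mem hi _
    | sr b =>
      rw [sr_mul_sr, sr_mul_sr] at hg1
      rw [r_mul_sr, sr_mul_r] at hg2
      have hii : i + i = 0 := by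
        have : b - i = b + i := by injection hg2
        linear_combination -this
      have hjb : (j - b) + (j - b) = 0 := by
        have : b - j = j - b := by injection hg1
        linear_combination -this
      have hvali := two_val_eq i hi0 hii
      by_cases hjb0 : j - b = 0
      · have : j = b := sub_eq_zero.1 hjb0
        subst this
        exact hj
      · have hvaljb := two_val_eq (j - b) hjb0 hjb
        have hjbi : j - b = i := by
          apply ZMod.val_injective
          omega
        have : sr b = r i * sr j := by
          rw [r_mul_sr]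
          congr 1
          rw [← hjbi]
          ring
        rw [this]
        exact H.mul_mem hi hj
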