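import Cfsg.Statements.S3927
import Mathlib
import Cfsg.Agent.Lib.Helper48.IterComm

set_option autoImplicit false
open Cfsg

namespace Cfsg.Agent.S3927
open scoped commutatorElement

open Cfsg.Agent.Lib.Helper48.IterComm

section aux
variable {G : Type*} [Group G]

/-- the semidirect product of `G` with the cyclic group generated by `α`. -/
abbrev Gam (α : MulAut G) := G ⋊[(Subgroup.zpowers α).subtype] (Subgroup.zpowers α)

/-- the element of `Gam α` acting as `α`. -/
def aElt (α : MulAut G) : Gam α := SemidirectProduct.inr ⟨α, Subgroup.mem_zpowers α⟩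

/-- the commutator map. -/
def cmap (α : MulAut G) (g : G) : G := g * (α g)⁻¹

theorem zp_comm (α : MulAut G) (z : Subgroup.zpowers α) (g : G) :
    α ((z : MulAut G) g) = (z : MulAut G) (α g) := by
  obtain ⟨i, hi⟩ := Subgroup.mem_zpowers_iff.mp z.2
  have h1 : α * (z : MulAut G) = (z : MulAut G) * α := by
    rw [← hi]
    exact ((Commute.refl α).zpow_right i).eq
  have h2 := congrArg (fun f : MulAut G => f g) h1
  simpa [MulAut.mul_apply] using h2

theorem tau_eq (α : MulAut G) (x : Gam α) :
    tau (aElt α) x = SemidirectProduct.inl (cmap α x.left) * aElt α := by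
  have h1 : x.right * (⟨α, Subgroup.mem_zpowers α⟩ : Subgroup.zpowers α) * x.right⁻¹
      = ⟨α, Subgroup.mem_zpowers α⟩ := by
    obtain ⟨i, hi⟩ := Subgroup.mem_zpowers_iff.mp x.right.2
    apply Subtype.ext
    simp only [Subgroup.coe_mul, Subgroup.coe_inv]
    rw [← hi]
    have := ((Commute.refl α).zpow_left i).eq
    rw [this, mul_inv_cancel_right]
  apply SemidirectProduct.ext
  · simp only [tau, aElt, SemidirectProduct.mul_left, SemidirectProduct.inv_left,
      SemidirectProduct.left_inr, SemidirectProduct.right_inr, SemidirectProduct.mul_right,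
      SemidirectProduct.left_inl, SemidirectProduct.right_inl, map_one, mul_one, cmap]
    have h2 : ∀ y : G, ((Subgroup.zpowers α).subtype
        (x.right * (⟨α, Subgroup.mem_zpowers α⟩ : Subgroup.zpowers α)))
        (((Subgroup.zpowers α).subtype x.right⁻¹) y) = α y := by
      intro y
      rw [← MulAut.mul_apply, ← map_mul, h1]
      rfl
    rw [h2, map_inv]
  · simp only [tau, aElt, SemidirectProduct.mul_right, SemidirectProduct.inv_right,
      SemidirectProduct.right_inr, SemidirectProduct.right_inl, one_mul]
    exact h1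

theorem tau_iter_eq (α : MulAut G) (j : ℕ) (x : Gam α) :
    (tau (aElt α))^[j + 1] x = SemidirectProduct.inl ((cmap α)^[j + 1] x.left) * aElt α := by
  induction j with
  | zero => simpa using tau_eq α x
  | succ j ih =>
    rw [Function.iterate_succ_apply', ih, tau_eq, Function.iterate_succ_apply' (cmap α) (j + 1)]
    simp [aElt]

theorem cmap_comm (α : MulAut G) (z : Subgroup.zpowers α) (g : G) :
    cmap α ((z : MulAut G) g) = (z : MulAut G) (cmap α g) := by
  simp only [cmap, map_mul, map_inv, zp_comm]

theorem cmap_iter_comm (α : MulAut G) (z : Subgroup.zpowers α) (k : ℕ) (g : G) :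
    (cmap α)^[k] ((z : MulAut G) g) = (z : MulAut G) ((cmap α)^[k] g) := by
  induction k generalizing g with
  | zero => rfl
  | succ k ih =>
    rw [Function.iterate_succ_apply, Function.iterate_succ_apply, cmap_comm, ih]

end aux

/-- Let G be a finite group and α an automorphism of G with [G, α] = G, that is, the elements g·α(g)⁻¹ generate G. Then for every k ≥ 1 the iterated commutators [g, α, …, α] with k entries α — the values of the k-th iterate of the map c ↦ c·α(c)⁻¹ — also generate G. -/
theorem result {G : Type*} [Group G] [Finite G] (α : MulAut G) (hG : Subgroup.closure (Set.range (fun c : G => c * (α c)⁻¹)) = ⊤) (k : ℕ) (hk : 1 ≤ k) :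
    Subgroup.closure (Set.range ((fun c : G => c * (α c)⁻¹)^[k])) = ⊤ := by
  classical
  obtain ⟨j, rfl⟩ : ∃ j, k = j + 1 := ⟨k - 1, by omega⟩
  have hc : (fun c : G => c * (α c)⁻¹) = cmap α := rfl
  rw [hc] at hG ⊢
  haveI : Finite (Gam α) := Finite.of_equiv _ SemidirectProduct.equivProd.symm
  -- the conjugates of `aElt α` generate
  have hcl : Subgroup.normalClosure ((Subgroup.zpowers (aElt α) : Subgroup (Gam α)) : Set (Gam α)) = ⊤ := by
    rw [eq_top_iff]
    have haN : aElt α ∈ Subgroup.normalClosure ((Subgroup.zpowers (aElt α) : Subgroup (Gam α)) : Set (Gam α)) :=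
      Subgroup.subset_normalClosure (Subgroup.mem_zpowers _)
    have hinl : ∀ g : G, (SemidirectProduct.inl g : Gam α) ∈
        Subgroup.normalClosure ((Subgroup.zpowers (aElt α) : Subgroup (Gam α)) : Set (Gam α)) := by
      have h1 : (Subgroup.closure (Set.range (cmap α))).map (SemidirectProduct.inl : G →* Gam α) ≤
          Subgroup.normalClosure ((Subgroup.zpowers (aElt α) : Subgroup (Gam α)) : Set (Gam α)) := by
        rw [MonoidHom.map_closure, Subgroup.closure_le]
        rintro _ ⟨_, ⟨g, rfl⟩, rfl⟩
        have h2 : (SemidirectProduct.inl (cmap α g) : Gam α) = tau (aElt α) (SemidirectProduct.inl g) * (aElt α)⁻¹ := by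
          rw [tau_eq]; simp
        rw [SetLike.mem_coe, h2]
        exact mul_mem (Subgroup.normalClosure_normal.conj_mem _ haN _) (inv_mem haN)
      intro g
      apply h1
      rw [hG]
      exact ⟨g, Subgroup.mem_top g, rfl⟩
    intro x _
    rw [← SemidirectProduct.inl_left_mul_inr_right x]
    refine mul_mem (hinl _) ?_
    obtain ⟨i, hi⟩ := Subgroup.mem_zpowers_iff.mp x.right.2
    have h3 : x.right = (⟨α, Subgroup.mem_zpowers α⟩ : Subgroup.zpowers α) ^ i := by
      apply Subtype.ext
      simp [hi]
    rw [h3, map_zpow]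
    exact zpow_mem haN i
  have hgen := engel_gen (aElt α) hcl (j + 1)
  -- invariance of the target under the cyclic group
  have hinv : ∀ z : Subgroup.zpowers α, ∀ d ∈ Subgroup.closure (Set.range ((cmap α)^[j + 1])),
      (z : MulAut G) d ∈ Subgroup.closure (Set.range ((cmap α)^[j + 1])) := by
    intro z d hd
    refine Subgroup.closure_induction (p := fun d _ => (z : MulAut G) d ∈ Subgroup.closure (Set.range ((cmap α)^[j + 1]))) ?_ ?_ ?_ ?_ hd
    · rintro _ ⟨g, rfl⟩
      rw [← cmap_iter_comm]
      exact Subgroup.subset_closure ⟨_, rfl⟩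
    · rw [map_one]; exact one_mem _
    · intro x y _ _ hx hy
      rw [map_mul]; exact mul_mem hx hy
    · intro x _ hx
      rw [map_inv]; exact inv_mem hx
  have hleft : ∀ x : Gam α, x ∈ Subgroup.closure (Set.range ((tau (aElt α))^[j + 1])) →
      x.left ∈ Subgroup.closure (Set.range ((cmap α)^[j + 1])) := by
    intro x hx
    refine Subgroup.closure_induction (p := fun x _ => x.left ∈ Subgroup.closure (Set.range ((cmap α)^[j + 1]))) ?_ ?_ ?_ ?_ hx
    · rintro _ ⟨y, rfl⟩
      rw [tau_iter_eq]
      simp only [aElt, SemidirectProduct.mul_left, SemidirectProduct.left_inl, SemidirectProduct.right_inl,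
        SemidirectProduct.left_inr, map_one, mul_one]
      exact Subgroup.subset_closure ⟨_, rfl⟩
    · exact one_mem _
    · intro x y _ _ hx hy
      rw [SemidirectProduct.mul_left]
      exact mul_mem hx (hinv x.right _ hy)
    · intro x _ hx
      rw [SemidirectProduct.inv_left]
      exact hinv x.right⁻¹ _ (inv_mem hx)
  rw [eq_top_iff]
  intro g _
  have := hleft (SemidirectProduct.inl g) (by rw [hgen]; trivial)
  simpa using this

end Cfsg.Agent.S3927
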