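-- Statement S3937: Baer's characterization of the Fitting subgroup by left Engel elements.
import Cfsg.Statements.S3937
import Cfsg.Agent.S0066
import Cfsg.Agent.Lib.Helper21.Fit
import Cfsg.Agent.Lib.Helper71.Fitting
import Cfsg.Agent.Lib.Helper1.Basic

set_option autoImplicit false
open Cfsg

namespace Cfsg.Agent.S3937

open Pointwise
open Cfsg.Agent.S0066
open scoped IsMulCommutative

/-- One more commutation with `g` at the start of the Engel chain. -/
theorem engel_succ {G : Type*} [Group G] (g x : G) (n : ℕ) :
    (List.replicate (n + 1) g).foldl (fun a b => a * b * a⁻¹ * b⁻¹) x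
      = (List.replicate n g).foldl (fun a b => a * b * a⁻¹ * b⁻¹) (x * g * x⁻¹ * g⁻¹) := by
  rw [List.replicate_succ, List.foldl_cons]

/-- A left Engel element generates a subgroup which is subnormal in every subgroup
containing it. -/
theorem engel_relSN {G : Type*} [Group G] [Finite G] (g : G)
    (hg : ∀ x : G, ∃ n : ℕ, (List.replicate n g).foldl (fun a b => a * b * a⁻¹ * b⁻¹) x = 1) :
    ∀ (n : ℕ) (H : Subgroup G), Nat.card H = n → g ∈ H → RelSN (Subgroup.zpowers g) H := by
  intro n
  induction n using Nat.strong_induction_on with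
  | _ n ih =>
    intro H hn hgH
    have hAH : Subgroup.zpowers g ≤ H := by
      rw [Subgroup.zpowers_le]; exact hgH
    by_contra hnot
    have hprop : ∀ K, Subgroup.zpowers g ≤ K → K < H → RelSN (Subgroup.zpowers g) K :=
      fun K hAK hKH => ih (Nat.card K) (by rw [← hn]; exact card_lt_of_lt hKH) K rfl
        (hAK (Subgroup.mem_zpowers g))
    obtain ⟨M, hMH, hM⟩ := zipper H _ (Subgroup.zpowers g) rfl hAH hprop hnot
    have hAltH : Subgroup.zpowers g < H := by
      refine lt_of_le_of_ne hAH ?_
      intro heq
      apply hnot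
      rw [heq]
      exact relSN_refl H
    have hAM : Subgroup.zpowers g ≤ M := hM _ le_rfl hAltH
    have hgM : g ∈ M := hAM (Subgroup.mem_zpowers g)
    -- `M` is not normal in `H`
    have hMnn : ¬ H ≤ Subgroup.normalizer (M : Set G) := by
      intro hHn
      exact hnot (relSN_trans (hprop M hAM hMH) (relSN_step hMH.le hHn (relSN_refl H)))
    -- the key property of `M`
    have hkey : ∀ u ∈ H, u * g * u⁻¹ ∈ M → u ∈ M := by
      intro u hu hug
      -- `g ∈ u⁻¹ M u`
      have hA' : Subgroup.zpowers g ≤ MulAut.conj u⁻¹ • M := by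
        rw [Subgroup.zpowers_le, Cfsg.Agent.Lib.Helper1.mem_conj_smul, inv_inv]
        exact hug
      have hH' : MulAut.conj u⁻¹ • H = H := by
        apply Subgroup.eq_of_le_of_card_ge
        · intro y hy
          rw [Cfsg.Agent.Lib.Helper1.mem_conj_smul, inv_inv] at hy
          have : y = u⁻¹ * (u * y * u⁻¹) * u := by group
          rw [this]
          exact H.mul_mem (H.mul_mem (H.inv_mem hu) hy) hu
        · exact (Nat.card_congr (Subgroup.equivSMul (MulAut.conj u⁻¹) H).toEquiv).le
      have hM'H : MulAut.conj u⁻¹ • M < H := by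
        rw [← hH']
        exact lt_of_le_of_ne (Subgroup.pointwise_smul_le_pointwise_smul_iff.mpr hMH.le)
          (fun h => hMH.ne (smul_left_cancel _ h))
      have hM'M : MulAut.conj u⁻¹ • M ≤ M := hM _ hA' hM'H
      have huN : u⁻¹ ∈ Subgroup.normalizer (M : Set G) := mem_normalizer_of_conj_le hM'M
      have huN' : u ∈ Subgroup.normalizer (M : Set G) := by
        have := Subgroup.inv_mem _ huN
        rwa [inv_inv] at this
      -- the normalizer of `M` in `H` is `M`
      have hNlt : Subgroup.normalizer (M : Set G) ⊓ H < H := by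
        refine lt_of_le_of_ne inf_le_right ?_
        intro heq
        apply hMnn
        rw [← heq]
        exact inf_le_left
      have hAN : Subgroup.zpowers g ≤ Subgroup.normalizer (M : Set G) ⊓ H :=
        le_inf (hAM.trans Subgroup.le_normalizer) hAH
      exact hM _ hAN hNlt (Subgroup.mem_inf.mpr ⟨huN', hu⟩)
    -- the Engel chain pulls every element of `H` into `M`
    have hchain : ∀ (k : ℕ) (x : G), x ∈ H →
        (List.replicate k g).foldl (fun a b => a * b * a⁻¹ * b⁻¹) x ∈ M → x ∈ M := by
      intro k
      induction k with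
      | zero =>
        intro x _ hx
        simpa using hx
      | succ k ihk =>
        intro x hxH hx
        rw [engel_succ] at hx
        have h1 : x * g * x⁻¹ * g⁻¹ ∈ H :=
          H.mul_mem (H.mul_mem (H.mul_mem hxH hgH) (H.inv_mem hxH)) (H.inv_mem hgH)
        have h2 := ihk _ h1 hx
        have h3 : x * g * x⁻¹ ∈ M := by
          have : x * g * x⁻¹ = x * g * x⁻¹ * g⁻¹ * g := by group
          rw [this]
          exact M.mul_mem h2 hgM
        exact hkey x hxH h3
    have hHM : H ≤ M := by
      intro x hx
      obtain ⟨k, hk⟩ := hg x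
      exact hchain k x hx (hk ▸ M.one_mem)
    exact absurd hHM (not_le_of_gt hMH)

/-- Baer's characterization of the Fitting subgroup: in a finite group G, an element g lies in the Fitting subgroup if and only if g is a left Engel element, that is, for every x there is n with [x, g, g, …, g] = 1 (n entries g, [a, b] = aba⁻¹b⁻¹). -/
theorem result {G : Type*} [Group G] [Finite G] (g : G) :
    g ∈ Cfsg.fittingSubgroup G ↔ ∀ x : G, ∃ n : ℕ, (List.replicate n g).foldl (fun a b => a * b * a⁻¹ * b⁻¹) x = 1 := by
  constructor
  · intro hgF x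
    have hnil : Group.IsNilpotent (Cfsg.fittingSubgroup G) :=
      Cfsg.Agent.Lib.Helper71.fittingSubgroup_isNilpotent
    have hnorm : (Cfsg.fittingSubgroup G).Normal := Cfsg.Agent.Lib.Helper71.fittingSubgroup_normal
    obtain ⟨c, hc⟩ := (Subgroup.isNilpotent_iff_lowerCentralSeries (Cfsg.fittingSubgroup G)).mp hnil
    have hstep : ∀ (n k : ℕ) (y : G), y ∈ (Cfsg.fittingSubgroup G).lowerCentralSeries k →
        (List.replicate n g).foldl (fun a b => a * b * a⁻¹ * b⁻¹) y
          ∈ (Cfsg.fittingSubgroup G).lowerCentralSeries (k + n) := by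
      intro n
      induction n with
      | zero =>
        intro k y hy
        simpa using hy
      | succ n ihn =>
        intro k y hy
        rw [engel_succ]
        have h1 : y * g * y⁻¹ * g⁻¹ ∈ (Cfsg.fittingSubgroup G).lowerCentralSeries (k + 1) := by
          rw [Subgroup.lowerCentralSeries_succ]
          have := Subgroup.commutator_mem_commutator hy hgF
          rwa [commutatorElement_def] at this
        have h2 := ihn (k + 1) _ h1
        have h3 : k + 1 + n = k + (n + 1) := by omega
        rwa [h3] at h2
    refine ⟨c + 1, ?_⟩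
    rw [engel_succ]
    have h1 : x * g * x⁻¹ * g⁻¹ ∈ (Cfsg.fittingSubgroup G).lowerCentralSeries 0 := by
      rw [Subgroup.lowerCentralSeries_zero]
      exact Subgroup.mul_mem _ (hnorm.conj_mem g hgF x) (Subgroup.inv_mem _ hgF)
    have h2 := hstep c 0 _ h1
    rw [zero_add, hc, Subgroup.mem_bot] at h2
    exact h2
  · intro hg
    have h1 := engel_relSN g hg _ ⊤ rfl (Subgroup.mem_top g)
    have hsn : (Subgroup.zpowers g).IsSubnormal :=
      Subgroup.IsSubnormal.trans le_top h1.2 Subgroup.IsSubnormal.top
    have hnil : Group.IsNilpotent (Subgroup.zpowers g) := inferInstance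
    exact Cfsg.Agent.Lib.Helper21.subnormal_nilpotent_le_fittingSubgroup hsn hnil
      (Subgroup.mem_zpowers g)

end Cfsg.Agent.S3937
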