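import Cfsg.Statements.S3939

set_option autoImplicit false
open Cfsg

namespace Cfsg.Agent.S3939

universe u

open scoped commutatorElement

/-- In a nilpotent group, elements of coprime orders commute. -/
theorem commute_of_coprime_of_nilpotent (K : Type u) [Group K] [Group.IsNilpotent K] :
    ∀ a b : K, (orderOf a).Coprime (orderOf b) → a * b = b * a := by
  refine Group.nilpotent_center_quotient_ind
    (P := fun K _ _ => ∀ a b : K, (orderOf a).Coprime (orderOf b) → a * b = b * a) K ?_ ?_
  · intro K _ _ a b _
    exact Subsingleton.elim _ _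
  · intro K _ _ ih a b hab
    have h1 : (orderOf (QuotientGroup.mk' (Subgroup.center K) a)).Coprime
        (orderOf (QuotientGroup.mk' (Subgroup.center K) b)) :=
      Nat.Coprime.coprime_dvd_left (orderOf_map_dvd _ a)
        (Nat.Coprime.coprime_dvd_right (orderOf_map_dvd _ b) hab)
    have h2 := ih _ _ h1
    -- the commutator is central
    set c : K := a * b * a⁻¹ * b⁻¹ with hc
    have hcZ : c ∈ Subgroup.center K := by
      rw [← QuotientGroup.ker_mk' (Subgroup.center K), MonoidHom.mem_ker, hc]
      simp only [map_mul, map_inv]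
      rw [h2]
      group
    have hcc : ∀ x : K, x * c = c * x := fun x => Subgroup.mem_center_iff.mp hcZ x
    -- a b a⁻¹ = c b
    have e1 : a * b * a⁻¹ = c * b := by rw [hc]; group
    have e2 : c ^ orderOf b = 1 := by
      have : (c * b) ^ orderOf b = 1 := by
        rw [← e1, conj_pow, pow_orderOf_eq_one]; group
      have hcb : Commute c b := (hcc b).symm
      rw [hcb.mul_pow, pow_orderOf_eq_one, mul_one] at this
      exact this
    -- b a⁻¹ b⁻¹ = a⁻¹ c
    have e3 : b * a⁻¹ * b⁻¹ = a⁻¹ * c := by rw [hc]; group
    have e4 : c ^ orderOf a = 1 := by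
      have : (a⁻¹ * c) ^ orderOf a = 1 := by
        rw [← e3, conj_pow, inv_pow, pow_orderOf_eq_one]; group
      have hac : Commute a⁻¹ c := hcc a⁻¹
      rw [hac.mul_pow, inv_pow, pow_orderOf_eq_one, inv_one, one_mul] at this
      exact this
    have e5 : orderOf c ∣ Nat.gcd (orderOf a) (orderOf b) :=
      Nat.dvd_gcd (orderOf_dvd_of_pow_eq_one e4) (orderOf_dvd_of_pow_eq_one e2)
    rw [Nat.Coprime] at hab
    rw [hab, Nat.dvd_one, orderOf_eq_one_iff] at e5
    have : a * b * a⁻¹ * b⁻¹ = 1 := e5
    calc a * b = (a * b * a⁻¹ * b⁻¹) * (b * a) := by group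
      _ = b * a := by rw [this, one_mul]

/-- Centerless case: an element generating a nilpotent subgroup with every element is trivial. -/
theorem eq_one_of_center_eq_bot {G : Type u} [Group G] [Finite G] (hZ : Subgroup.center G = ⊥)
    (g : G) (hg : ∀ x : G, Group.IsNilpotent ↥(Subgroup.closure ({x, g} : Set G))) : g = 1 := by
  by_contra hg1
  have hord1 : orderOf g ≠ 1 := by rwa [Ne, orderOf_eq_one_iff]
  obtain ⟨p, hp, hpdvd⟩ := Nat.exists_prime_and_dvd hord1
  have : Fact p.Prime := ⟨hp⟩
  set h : G := g ^ (orderOf g / p) with hh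
  have hhord : orderOf h = p := orderOf_pow_orderOf_div (orderOf_pos g).ne' hpdvd
  have hh1 : h ≠ 1 := by
    intro h1
    rw [h1, orderOf_one] at hhord
    exact hp.one_lt.ne hhord
  -- h commutes with all elements of order coprime to p
  set S : Set G := {x : G | (orderOf x).Coprime p} with hS
  have hcomm : ∀ x ∈ S, x * h = h * x := by
    intro x hx
    have hnil := hg x
    have hxK : x ∈ Subgroup.closure ({x, g} : Set G) := Subgroup.subset_closure (by simp)
    have hgK : g ∈ Subgroup.closure ({x, g} : Set G) := Subgroup.subset_closure (by simp)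
    have hhK : h ∈ Subgroup.closure ({x, g} : Set G) := Subgroup.pow_mem _ hgK _
    have := commute_of_coprime_of_nilpotent ↥(Subgroup.closure ({x, g} : Set G)) ⟨x, hxK⟩ ⟨h, hhK⟩
      (by rw [Subgroup.orderOf_mk, Subgroup.orderOf_mk, hhord]; exact hx)
    exact congrArg Subtype.val this
  -- the centralizer of S
  set C : Subgroup G := Subgroup.centralizer S with hC
  have hhC : h ∈ C := by
    rw [hC, Subgroup.mem_centralizer_iff]
    exact hcomm
  have hSconj : ∀ (u x : G), x ∈ S → u * x * u⁻¹ ∈ S := by
    intro u x hx
    have : orderOf (u * x * u⁻¹) = orderOf x := by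
      have := MulEquiv.orderOf_eq (MulAut.conj u) x
      simpa using this
    show (orderOf (u * x * u⁻¹)).Coprime p
    rw [this]; exact hx
  have hCconj : ∀ (u c : G), c ∈ C → u * c * u⁻¹ ∈ C := by
    intro u c hc
    rw [hC, Subgroup.mem_centralizer_iff] at hc ⊢
    intro x hx
    have := hc (u⁻¹ * x * u) (by simpa using hSconj u⁻¹ x hx)
    calc x * (u * c * u⁻¹) = u * ((u⁻¹ * x * u) * c) * u⁻¹ := by group
      _ = u * (c * (u⁻¹ * x * u)) * u⁻¹ := by rw [this]
      _ = u * c * u⁻¹ * x := by group
  -- a Sylow p-subgroup acts on C by conjugation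
  let P : Sylow p G := default
  let act : MulAction (P : Subgroup G) C :=
    { smul := fun u c => ⟨(u : G) * c * (u : G)⁻¹, hCconj u c c.2⟩
      one_smul := fun c => by
        apply Subtype.ext
        show ((1 : (P : Subgroup G)) : G) * c * ((1 : (P : Subgroup G)) : G)⁻¹ = c
        simp
      mul_smul := fun u v c => by
        apply Subtype.ext
        show ((u * v : (P : Subgroup G)) : G) * c * ((u * v : (P : Subgroup G)) : G)⁻¹ =
          (u : G) * ((v : G) * c * (v : G)⁻¹) * (u : G)⁻¹
        simp only [Subgroup.coe_mul]
        group }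
  have hpC : p ∣ Nat.card C := by
    have h1 : orderOf (⟨h, hhC⟩ : C) = p := by rw [Subgroup.orderOf_mk, hhord]
    rw [← h1]
    exact orderOf_dvd_natCard _
  have hfix1 : (1 : C) ∈ MulAction.fixedPoints (P : Subgroup G) C := by
    intro u
    apply Subtype.ext
    show (u : G) * ((1 : C) : G) * (u : G)⁻¹ = ((1 : C) : G)
    simp
  obtain ⟨z, hzfix, hz1⟩ := P.isPGroup'.exists_fixed_point_of_prime_dvd_card_of_fixed_point C hpC hfix1
  -- z is central in G
  have hzP : ∀ u ∈ (P : Subgroup G), u * (z : G) = (z : G) * u := by
    intro u hu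
    have := hzfix ⟨u, hu⟩
    have h2 : u * (z : G) * u⁻¹ = (z : G) := congrArg Subtype.val this
    calc u * (z : G) = (u * (z : G) * u⁻¹) * u := by group
      _ = (z : G) * u := by rw [h2]
  have hzS : ∀ x ∈ S, x * (z : G) = (z : G) * x :=
    Subgroup.mem_centralizer_iff.mp z.2
  set H : Subgroup G := Subgroup.centralizer ({(z : G)} : Set G) with hH
  have hmemH : ∀ x : G, x ∈ H ↔ x * (z : G) = (z : G) * x := by
    intro x
    rw [hH, Subgroup.mem_centralizer_iff]
    constructor
    · intro hx; exact (hx _ rfl).symm
    · intro hx y hy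
      rw [Set.mem_singleton_iff] at hy
      rw [hy]; exact hx.symm
  have hPH : (P : Subgroup G) ≤ H := fun u hu => (hmemH u).mpr (hzP u hu)
  have hindex : H.index = 1 := by
    by_contra hne
    obtain ⟨q, hq, hqdvd⟩ := Nat.exists_prime_and_dvd hne
    have : Fact q.Prime := ⟨hq⟩
    by_cases hqp : q = p
    · subst hqp
      exact P.not_dvd_index (hqdvd.trans (Subgroup.index_dvd_of_le hPH))
    · let Q : Sylow q G := default
      have hQH : (Q : Subgroup G) ≤ H := by
        intro x hx
        apply (hmemH x).mpr
        apply hzS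
        obtain ⟨k, hk⟩ := Q.isPGroup' ⟨x, hx⟩
        have hk' : x ^ q ^ k = 1 := by
          have := congrArg Subtype.val hk
          simpa using this
        have hdvd : orderOf x ∣ q ^ k := orderOf_dvd_of_pow_eq_one hk'
        show (orderOf x).Coprime p
        apply Nat.Coprime.coprime_dvd_left hdvd
        apply Nat.Coprime.pow_left
        exact (Nat.coprime_primes hq hp).mpr hqp
      exact Q.not_dvd_index (hqdvd.trans (Subgroup.index_dvd_of_le hQH))
  have hHtop : H = ⊤ := Subgroup.index_eq_one.mp hindex
  have hzZ : (z : G) ∈ Subgroup.center G := by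
    rw [Subgroup.mem_center_iff]
    intro x
    have : x ∈ H := by rw [hHtop]; exact Subgroup.mem_top x
    exact (hmemH x).mp this
  rw [hZ, Subgroup.mem_bot] at hzZ
  apply hz1
  apply Subtype.ext
  rw [hzZ]; rfl

theorem forward (n : ℕ) : ∀ (G : Type u) [Group G] [Finite G], Nat.card G = n → ∀ g : G,
    (∀ x : G, Group.IsNilpotent ↥(Subgroup.closure ({x, g} : Set G))) →
    g ∈ ⨆ n : ℕ, Subgroup.upperCentralSeries G n := by
  induction n using Nat.strong_induction_on with
  | _ n ih =>
    intro G _ _ hcard g hg
    have hdir : Directed (· ≤ ·) (Subgroup.upperCentralSeries G) :=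
      (Subgroup.upperCentralSeries_mono G).directed_le
    by_cases hZ : Subgroup.center G = ⊥
    · rw [eq_one_of_center_eq_bot hZ g hg]
      exact Subgroup.one_mem _
    · -- pass to the quotient by the center
      have hcardq : Nat.card (G ⧸ Subgroup.center G) < n := by
        have h := Subgroup.card_eq_card_quotient_mul_card_subgroup (Subgroup.center G)
        rw [hcard] at h
        have hqpos : 0 < Nat.card (G ⧸ Subgroup.center G) := Nat.card_pos
        have h1 : 1 < Nat.card (Subgroup.center G) := by
          rw [Subgroup.one_lt_card_iff_ne_bot]; exact hZ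
        nlinarith
      have hgq : ∀ x : G ⧸ Subgroup.center G, Group.IsNilpotent
          ↥(Subgroup.closure ({x, (QuotientGroup.mk' (Subgroup.center G) g)} :
            Set (G ⧸ Subgroup.center G))) := by
        intro x
        obtain ⟨x, rfl⟩ := QuotientGroup.mk'_surjective (Subgroup.center G) x
        have hmap : Subgroup.closure ({QuotientGroup.mk' (Subgroup.center G) x,
            QuotientGroup.mk' (Subgroup.center G) g} : Set (G ⧸ Subgroup.center G)) =
            (Subgroup.closure ({x, g} : Set G)).map (QuotientGroup.mk' (Subgroup.center G)) := by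
          rw [MonoidHom.map_closure]
          congr 1
          simp [Set.image_pair]
        rw [hmap]
        have := hg x
        exact Group.nilpotent_of_surjective
          ((QuotientGroup.mk' (Subgroup.center G)).subgroupMap (Subgroup.closure ({x, g} : Set G)))
          (MonoidHom.subgroupMap_surjective _ _)
      have := ih _ hcardq (G ⧸ Subgroup.center G) rfl _ hgq
      have hdirq : Directed (· ≤ ·) (Subgroup.upperCentralSeries (G ⧸ Subgroup.center G)) :=
        (Subgroup.upperCentralSeries_mono (G ⧸ Subgroup.center G)).directed_le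
      rw [Subgroup.mem_iSup_of_directed hdirq] at this
      obtain ⟨i, hi⟩ := this
      rw [Subgroup.mem_iSup_of_directed hdir]
      refine ⟨i + 1, ?_⟩
      rw [← Subgroup.comap_upperCentralSeries_quotient_center]
      exact hi

theorem backward {G : Type u} [Group G] (g : G) (n : ℕ)
    (hg : g ∈ Subgroup.upperCentralSeries G n) (x : G) :
    Group.IsNilpotent ↥(Subgroup.closure ({x, g} : Set G)) := by
  set K : Subgroup G := Subgroup.closure ({x, g} : Set G) with hK
  rw [Subgroup.nilpotent_iff_finite_ascending_central_series]
  refine ⟨n + 1, fun i => if i ≤ n then (Subgroup.upperCentralSeries G i).subgroupOf K else ⊤,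
    ⟨?_, ?_⟩, ?_⟩
  · simp
  · intro a i ha b
    by_cases hi : i + 1 ≤ n
    · have hi' : i ≤ n := by omega
      simp only [hi, hi', if_true] at ha ⊢
      rw [Subgroup.mem_subgroupOf] at ha ⊢
      exact Subgroup.mem_upperCentralSeries_succ_iff.mp ha b
    · by_cases hi' : i ≤ n
      · have hin : i = n := by omega
        subst hin
        simp only [le_refl, if_true]
        rw [Subgroup.mem_subgroupOf]
        -- the image of K modulo the i-th centre is cyclic
        set φ := QuotientGroup.mk' (Subgroup.upperCentralSeries G i) with hφ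
        have hle : K ≤ (Subgroup.zpowers (φ x)).comap φ := by
          rw [hK, Subgroup.closure_le]
          intro y hy
          rcases hy with rfl | rfl
          · exact Subgroup.mem_zpowers _
          · show φ y ∈ Subgroup.zpowers (φ x)
            have : φ y = 1 := (QuotientGroup.eq_one_iff y).mpr hg
            rw [this]; exact Subgroup.one_mem _
        have ha' : φ a ∈ Subgroup.zpowers (φ x) := hle a.2
        have hb' : φ b ∈ Subgroup.zpowers (φ x) := hle b.2
        have hcomm : φ a * φ b = φ b * φ a := setLike_mul_comm ha' hb'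
        have key : φ ((⁅a, b⁆ : ↥K) : G) = 1 := by
          rw [commutatorElement_def]
          simp only [Subgroup.coe_mul, Subgroup.coe_inv, map_mul, map_inv]
          rw [hcomm]; group
        exact (QuotientGroup.eq_one_iff _).mp key
      · simp only [hi', if_false]
        exact Subgroup.mem_top _
  · simp

/-- In a finite group G the set of elements g such that the subgroup generated by g and x is nilpotent for every x ∈ G is exactly the hypercenter of G (the last term of the upper central series). -/
theorem result {G : Type*} [Group G] [Finite G] (g : G) :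
    (∀ x : G, Group.IsNilpotent ↥(Subgroup.closure ({x, g} : Set G))) ↔ g ∈ ⨆ n : ℕ, Subgroup.upperCentralSeries G n := by
  constructor
  · intro h
    exact forward (Nat.card G) G rfl g h
  · intro h x
    have hdir : Directed (· ≤ ·) (Subgroup.upperCentralSeries G) :=
      (Subgroup.upperCentralSeries_mono G).directed_le
    rw [Subgroup.mem_iSup_of_directed hdir] at h
    obtain ⟨n, hn⟩ := h
    exact backward g n hn x

end Cfsg.Agent.S3939
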