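import Cfsg.Statements.S3941
import Cfsg.Agent.Lib.Helper65.Cover

set_option autoImplicit false
open Cfsg

namespace Cfsg.Agent.S3941

open Cfsg.Agent.Lib.Helper65 Equiv Nat

theorem caseBig (n p : ℕ) (hn : 6 ≤ n) [Fact p.Prime] (hp : p ≠ 2) (hpn : p < n)
    (h : ∀ H : Subgroup ↥(alternatingGroup (Fin n)), H ≠ ⊤ → p ∣ Nat.card ↥H →
      Cfsg.IsPClosed p ↥H) : False := by
  have hpp : p.Prime := Fact.out
  let s : Finset (Fin n) := Finset.univ.erase ⟨n - 1, by omega⟩
  have hs : s.card = n - 1 := by simp [s]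
  have hcard_s : Nat.card s = n - 1 := by
    rw [Nat.card_eq_fintype_card, Fintype.card_coe, hs]
  have : Nontrivial s := by
    rw [← Finite.one_lt_card_iff_nontrivial, hcard_s]
    omega
  have : Nontrivial (Fin n) := ⟨⟨⟨0, by omega⟩, ⟨1, by omega⟩, by simp [Fin.ext_iff]⟩⟩
  let H : Subgroup (alternatingGroup (Fin n)) := (alternatingGroup.ofSubtype s).range
  let e : alternatingGroup s ≃* H := MonoidHom.ofInjective alternatingGroup.ofSubtype_injective
  have h2H : 2 * Nat.card H = (n - 1)! := by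
    rw [← Nat.card_congr e.toEquiv, two_mul_nat_card_alternatingGroup, Nat.card_perm, hcard_s]
  have h2G : 2 * Nat.card (alternatingGroup (Fin n)) = n ! := by
    rw [two_mul_nat_card_alternatingGroup, Nat.card_perm, Nat.card_fin]
  have hHtop : H ≠ ⊤ := by
    intro htop
    have h1 : Nat.card H = Nat.card (alternatingGroup (Fin n)) := by
      rw [htop]
      exact Subgroup.card_top
    have h2 : (n - 1)! = n ! := by omega
    obtain ⟨m, rfl⟩ : ∃ m, n = m + 1 := ⟨n - 1, by omega⟩
    rw [Nat.factorial_succ] at h2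
    simp only [Nat.add_sub_cancel] at h2
    have hpos : 0 < m ! := Nat.factorial_pos m
    nlinarith
  have hpH : p ∣ Nat.card H := by
    have h1 : p ∣ (n - 1)! := hpp.dvd_factorial.2 (by omega)
    rw [← h2H] at h1
    have hcop : Nat.Coprime p 2 := (Nat.coprime_primes hpp Nat.prime_two).2 hp
    exact hcop.dvd_of_dvd_mul_left h1
  have hclosed := h H hHtop hpH
  have hsimp : IsSimpleGroup (alternatingGroup s) :=
    alternatingGroup.isSimpleGroup (by rw [hcard_s]; omega)
  have hsimpH : IsSimpleGroup H := e.isSimpleGroup_congr.1 hsimp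
  let P : Sylow p H := default
  have hPn := hclosed P
  rcases hPn.eq_bot_or_eq_top with hb | ht
  · exact P.ne_bot_of_dvd_card hpH hb
  · have hPG : IsPGroup p H := by
      intro g
      have hg : g ∈ (P : Subgroup H) := by rw [ht]; exact Subgroup.mem_top g
      obtain ⟨k, hk⟩ := P.isPGroup' ⟨g, hg⟩
      exact ⟨k, by simpa [Subtype.ext_iff] using hk⟩
    obtain ⟨k, hk⟩ := IsPGroup.iff_card.1 hPG
    rw [hk] at h2H
    have h4 : 4 ∣ (n - 1)! := by
      have : (4 : ℕ) ∣ 4 ! := by decide
      exact this.trans (Nat.factorial_dvd_factorial (by omega))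
    rw [← h2H] at h4
    have h2 : 2 ∣ p ^ k := by
      obtain ⟨q, hq⟩ := h4
      exact ⟨q, by omega⟩
    have := (Nat.prime_dvd_prime_iff_eq Nat.prime_two hpp).1 (Nat.prime_two.dvd_of_dvd_pow h2)
    exact hp this.symm

set_option maxRecDepth 1000000 in
theorem case5 (h : ∀ H : Subgroup ↥(alternatingGroup (Fin 5)), H ≠ ⊤ → 3 ∣ Nat.card ↥H →
    Cfsg.IsPClosed 3 ↥H) : False := by
  have : Fact (Nat.Prime 3) := ⟨Nat.prime_three⟩
  let H : Subgroup (alternatingGroup (Fin 5)) :=
    (MulAction.stabilizer (Perm (Fin 5)) (4 : Fin 5)).subgroupOf (alternatingGroup (Fin 5))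
  have hmem : ∀ g : alternatingGroup (Fin 5), g ∈ H ↔ (g : Perm (Fin 5)) 4 = 4 := by
    intro g
    simp only [H, Subgroup.mem_subgroupOf, MulAction.mem_stabilizer_iff, Perm.smul_def]
  let x0 : Perm (Fin 5) := swap 0 1 * swap 0 2
  let y0 : Perm (Fin 5) := swap 1 2 * swap 1 3
  let z0 : Perm (Fin 5) := swap 2 3 * swap 2 4
  have hx0 : x0 ∈ alternatingGroup (Fin 5) :=
    (Perm.isThreeCycle_swap_mul_swap_same (by decide) (by decide) (by decide)).mem_alternatingGroup
  have hy0 : y0 ∈ alternatingGroup (Fin 5) :=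
    (Perm.isThreeCycle_swap_mul_swap_same (by decide) (by decide) (by decide)).mem_alternatingGroup
  have hz0 : z0 ∈ alternatingGroup (Fin 5) :=
    (Perm.isThreeCycle_swap_mul_swap_same (by decide) (by decide) (by decide)).mem_alternatingGroup
  have hxH : (⟨x0, hx0⟩ : alternatingGroup (Fin 5)) ∈ H := by
    rw [hmem]
    show x0 4 = 4
    decide
  have hyH : (⟨y0, hy0⟩ : alternatingGroup (Fin 5)) ∈ H := by
    rw [hmem]
    show y0 4 = 4
    decide
  have hHtop : H ≠ ⊤ := by
    intro htop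
    have : (⟨z0, hz0⟩ : alternatingGroup (Fin 5)) ∈ H := by rw [htop]; exact Subgroup.mem_top _
    rw [hmem] at this
    have h4 : z0 4 ≠ 4 := by decide
    exact h4 this
  let x : H := ⟨⟨x0, hx0⟩, hxH⟩
  let y : H := ⟨⟨y0, hy0⟩, hyH⟩
  have hx3 : x ^ 3 = 1 := by
    apply Subtype.ext; apply Subtype.ext
    show x0 ^ 3 = 1
    decide
  have hy3 : y ^ 3 = 1 := by
    apply Subtype.ext; apply Subtype.ext
    show y0 ^ 3 = 1
    decide
  have hx1 : x ≠ 1 := by
    intro h1
    have : x0 = 1 := congrArg (fun t : H => ((t : alternatingGroup (Fin 5)) : Perm (Fin 5))) h1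
    revert this
    decide
  have hy1 : y ≠ 1 := by
    intro h1
    have : y0 = 1 := congrArg (fun t : H => ((t : alternatingGroup (Fin 5)) : Perm (Fin 5))) h1
    revert this
    decide
  have hxy2 : (x * y) ^ 2 = 1 := by
    apply Subtype.ext; apply Subtype.ext
    show (x0 * y0) ^ 2 = 1
    decide
  have hxy1 : x * y ≠ 1 := by
    intro h1
    have : x0 * y0 = 1 := congrArg (fun t : H => ((t : alternatingGroup (Fin 5)) : Perm (Fin 5))) h1
    revert this
    decide
  have hox : orderOf x = 3 ^ 1 := by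
    rw [pow_one]; exact orderOf_eq_prime hx3 hx1
  have hoy : orderOf y = 3 ^ 1 := by
    rw [pow_one]; exact orderOf_eq_prime hy3 hy1
  have h3H : 3 ∣ Nat.card H := by
    have := orderOf_dvd_natCard x
    rwa [hox, pow_one] at this
  have hclosed := h H hHtop h3H
  let P : Sylow 3 H := default
  have hPn : (P : Subgroup H).Normal := hclosed P
  have hxP := mem_sylow_of_normal P x 1 hox
  have hyP := mem_sylow_of_normal P y 1 hoy
  have hxyP : x * y ∈ (P : Subgroup H) := Subgroup.mul_mem _ hxP hyP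
  obtain ⟨k, hk⟩ := P.isPGroup' ⟨x * y, hxyP⟩
  have hk' : (x * y) ^ 3 ^ k = 1 := by simpa [Subtype.ext_iff] using hk
  have hd1 : orderOf (x * y) ∣ 3 ^ k := orderOf_dvd_of_pow_eq_one hk'
  have hd2 : orderOf (x * y) ∣ 2 := orderOf_dvd_of_pow_eq_one hxy2
  have hcop : Nat.Coprime (3 ^ k) 2 := Nat.Coprime.pow_left k (by decide)
  have : orderOf (x * y) = 1 := Nat.eq_one_of_dvd_coprimes hcop hd1 hd2
  exact hxy1 (orderOf_eq_one_iff.1 this)

/-- Let n ≥ 5 and p an odd prime with p ≤ n, and suppose that every proper subgroup of the alternating group of degree n whose order is divisible by p has a normal Sylow p-subgroup. Then n = p. -/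
theorem result (n p : ℕ) (hn : 5 ≤ n) [Fact p.Prime] (hp : p ≠ 2) (hpn : p ≤ n)
    (h : ∀ H : Subgroup ↥(alternatingGroup (Fin n)), H ≠ ⊤ → p ∣ Nat.card ↥H → Cfsg.IsPClosed p ↥H) : n = p := by
  by_contra hne
  have hlt : p < n := lt_of_le_of_ne hpn (Ne.symm hne)
  have hpp : p.Prime := Fact.out
  rcases Nat.lt_or_ge n 6 with h6 | h6
  · obtain rfl : n = 5 := by omega
    obtain rfl : p = 3 := by
      have h4 : p ≠ 4 := by
        rintro rfl
        exact absurd hpp (by decide)
      have := hpp.two_le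
      omega
    exact case5 h
  · exact caseBig n p h6 hp hlt h

end Cfsg.Agent.S3941
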