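import Cfsg.Statements.S3947
import Mathlib
import Cfsg.Agent.Lib.Helper48.GenZipper

set_option autoImplicit false
open Cfsg

namespace Cfsg.Agent.S3947
open scoped commutatorElement

open Cfsg.Agent.Lib.Helper48.GenZipper

/-- Let G be a finite group and A a proper subgroup of G whose normal closure is G. Let Y be the join of all proper subgroups H of G that contain A and are generated by their own conjugates of A (the normal closure of A in H is H). Then either Y = G, or A is contained in exactly one maximal subgroup of G. -/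
theorem result {G : Type*} [Group G] [Finite G] (A : Subgroup G) (hA : Subgroup.normalClosure (A : Set G) = ⊤) (hAG : A ≠ ⊤) :
    sSup {H : Subgroup G | A ≤ H ∧ H ≠ ⊤ ∧ Subgroup.normalClosure ((A.subgroupOf H : Subgroup ↥H) : Set ↥H) = ⊤} = ⊤ ∨
      ∃! M : Subgroup G, IsCoatom M ∧ A ≤ M := by
  by_cases h : sSup {H : Subgroup G | A ≤ H ∧ H ≠ ⊤ ∧ Subgroup.normalClosure ((A.subgroupOf H : Subgroup ↥H) : Set ↥H) = ⊤} = ⊤
  · exact Or.inl h
  · right
    have hset : {H : Subgroup G | A ≤ H ∧ H ≠ ⊤ ∧ Subgroup.normalClosure ((A.subgroupOf H : Subgroup ↥H) : Set ↥H) = ⊤}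
        = {H : Subgroup G | H ≠ ⊤ ∧ Full A H} := by
      ext H
      constructor
      · rintro ⟨h1, h2, h3⟩
        exact ⟨h2, (full_iff_normalClosure h1).mp h3⟩
      · rintro ⟨h2, h3⟩
        exact ⟨h3.1, h2, (full_iff_normalClosure h3.1).mpr h3⟩
    have hY : Yof A ≠ ⊤ := by
      unfold Yof
      rw [← hset]
      exact h
    obtain ⟨M, hM, hAM⟩ := (eq_top_or_exists_le_coatom A).resolve_left hAG
    exact ⟨M, ⟨hM, hAM⟩, fun K hK => unique_coatom hAG hA hY K M hK.1 hM hK.2 hAM⟩

end Cfsg.Agent.S3947
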