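import Mathlib
import Cfsg.Statements.S3949

set_option autoImplicit false
open Cfsg

namespace Cfsg.Agent.S3949

theorem iter_inverted {G : Type*} [Group G] (α : MulAut G) (k : ℕ) :
    ∀ g : G, α g = g⁻¹ → ((fun c : G => c * (α c)⁻¹)^[k]) g = g ^ (2 ^ k) := by
  induction k with
  | zero => intro g _; simp
  | succ k ih =>
    intro g hg
    rw [Function.iterate_succ_apply]
    have h1 : g * (α g)⁻¹ = g ^ 2 := by rw [hg, inv_inv, pow_two]
    have h2 : α (g ^ 2) = (g ^ 2)⁻¹ := by rw [map_pow, hg, inv_pow]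
    show ((fun c : G => c * (α c)⁻¹)^[k]) (g * (α g)⁻¹) = g ^ (2 ^ (k + 1))
    rw [h1, ih _ h2, ← pow_mul, pow_succ, mul_comm]

/-- Let G be a finite group and α an automorphism of G of order 2 such that the elements g·α(g)⁻¹ generate G. Let j be a positive integer such that 2^j divides the order of no element inverted by α. Then the set of values of the j-th iterate of the map c ↦ c·α(c)⁻¹ is exactly the set of elements of odd order inverted by α. -/
theorem result {G : Type*} [Group G] [Finite G] (α : MulAut G) (hα : orderOf α = 2) (hG : Subgroup.closure (Set.range (fun c : G => c * (α c)⁻¹)) = ⊤)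
    (j : ℕ) (hj : ∀ g : G, α g = g⁻¹ → ¬ 2 ^ j ∣ orderOf g) :
    Set.range ((fun c : G => c * (α c)⁻¹)^[j]) = {g : G | Odd (orderOf g) ∧ α g = g⁻¹} := by
  have hαα : ∀ g : G, α (α g) = g := by
    intro g
    have h : α ^ 2 = 1 := by rw [← hα]; exact pow_orderOf_eq_one α
    have : (α ^ 2) g = g := by rw [h]; rfl
    simpa [pow_two] using this
  have hinv : ∀ c : G, α (c * (α c)⁻¹) = (c * (α c)⁻¹)⁻¹ := by
    intro c
    rw [map_mul, map_inv, hαα, mul_inv_rev, inv_inv]
  have hj0 : j ≠ 0 := by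
    rintro rfl
    exact hj 1 (by simp) (by simp)
  obtain ⟨k, rfl⟩ := Nat.exists_eq_succ_of_ne_zero hj0
  ext g
  simp only [Set.mem_range, Set.mem_ofPred_eq]
  constructor
  · rintro ⟨c, rfl⟩
    rw [Function.iterate_succ_apply]
    set h := c * (α c)⁻¹ with hh
    have hh' : α h = h⁻¹ := hinv c
    rw [iter_inverted α k h hh']
    refine ⟨?_, by rw [map_pow, hh', inv_pow]⟩
    have hn : 0 < orderOf h := orderOf_pos h
    rw [orderOf_pow' h (by positivity : 2 ^ k ≠ 0)]
    have hnot := hj h hh'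
    by_contra hodd
    rw [Nat.not_odd_iff_even] at hodd
    obtain ⟨a, ha, hd⟩ := (Nat.dvd_prime_pow Nat.prime_two).mp (Nat.gcd_dvd_right (orderOf h) (2 ^ k))
    have hdvd : orderOf h / Nat.gcd (orderOf h) (2 ^ k) * Nat.gcd (orderOf h) (2 ^ k) = orderOf h :=
      Nat.div_mul_cancel (Nat.gcd_dvd_left _ _)
    have h2 : 2 ∣ orderOf h / Nat.gcd (orderOf h) (2 ^ k) := even_iff_two_dvd.mp hodd
    have h3 : 2 ^ (a + 1) ∣ orderOf h := by
      have h6 : 2 * Nat.gcd (orderOf h) (2 ^ k) ∣ orderOf h / Nat.gcd (orderOf h) (2 ^ k) * Nat.gcd (orderOf h) (2 ^ k) :=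
        Nat.mul_dvd_mul_right h2 _
      rw [hdvd, hd] at h6
      rw [pow_succ, mul_comm]
      exact h6
    rcases Nat.lt_or_ge a k with hlt | hge
    · have h4 : 2 ^ (a + 1) ∣ 2 ^ k := pow_dvd_pow 2 hlt
      have h5 : 2 ^ (a + 1) ∣ Nat.gcd (orderOf h) (2 ^ k) := Nat.dvd_gcd h3 h4
      rw [hd] at h5
      have := Nat.le_of_dvd (by positivity) h5
      have : 2 ^ a < 2 ^ (a + 1) := Nat.pow_lt_pow_right (by norm_num) (Nat.lt_succ_self a)
      omega
    · have hak : a = k := le_antisymm ha hge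
      subst hak
      exact hnot h3
  · rintro ⟨hodd, hg⟩
    have hcop : Nat.Coprime (2 ^ (k + 1)) (orderOf g) :=
      Nat.Coprime.pow_left _ (Nat.coprime_two_left.mpr hodd)
    obtain ⟨m, hm⟩ := exists_pow_eq_self_of_coprime hcop
    refine ⟨g ^ m, ?_⟩
    have h1 : α (g ^ m) = (g ^ m)⁻¹ := by rw [map_pow, hg, inv_pow]
    rw [iter_inverted α (k + 1) (g ^ m) h1, ← pow_mul, mul_comm, pow_mul, hm]

end Cfsg.Agent.S3949
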