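import Mathlib
import Cfsg.Statements.S3983

set_option autoImplicit false
open Cfsg
open scoped Pointwise

namespace Cfsg.Agent.S3983

theorem mem_conj_smul_iff {G : Type*} [Group G] (S : Subgroup G) (g x : G) :
    x ∈ MulAut.conj g • S ↔ g⁻¹ * x * g ∈ S := by
  rw [Subgroup.mem_pointwise_smul_iff_inv_smul_mem]
  simp

theorem mem_smul_sylow_iff {G : Type*} [Group G] {p : ℕ} (P : Sylow p G) (g x : G) :
    x ∈ ((g • P : Sylow p G) : Subgroup G) ↔ g⁻¹ * x * g ∈ (P : Subgroup G) := by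
  rw [Sylow.coe_subgroup_smul]
  exact mem_conj_smul_iff _ g x

/-- elementwise form of the TI property, for any conjugate of `P` -/
theorem ti_conj {G : Type*} [Group G] [Finite G] (p : ℕ) [Fact p.Prime] (P : Sylow p G)
    (hTI : ∀ g : G, g ∉ Subgroup.normalizer ((P : Subgroup G) : Set G) → (P : Subgroup G) ⊓ (MulAut.conj g • (P : Subgroup G)) = ⊥)
    (g x y : G) (hy : y ∈ ((g • P : Sylow p G) : Subgroup G)) (hxy : x⁻¹ * y * x ∈ ((g • P : Sylow p G) : Subgroup G))
    (hy1 : y ≠ 1) : x • (g • P : Sylow p G) = g • P := by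
  rw [mem_smul_sylow_iff] at hy hxy
  have hn : g⁻¹ * x * g ∈ Subgroup.normalizer ((P : Subgroup G) : Set G) := by
    by_contra hcon
    have hbot := hTI _ hcon
    have hmem : g⁻¹ * y * g ∈ (P : Subgroup G) ⊓ (MulAut.conj (g⁻¹ * x * g) • (P : Subgroup G)) := by
      refine Subgroup.mem_inf.mpr ⟨hy, ?_⟩
      rw [mem_conj_smul_iff]
      have : (g⁻¹ * x * g)⁻¹ * (g⁻¹ * y * g) * (g⁻¹ * x * g) = g⁻¹ * (x⁻¹ * y * x) * g := by group
      rw [this]
      exact hxy
    rw [hbot, Subgroup.mem_bot] at hmem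
    apply hy1
    have : y = g * (g⁻¹ * y * g) * g⁻¹ := by group
    rw [this, hmem]; simp
  have hn' : (g⁻¹ * x * g) • P = P := Sylow.smul_eq_iff_mem_normalizer.mpr hn
  rw [← mul_smul]
  have : x * g = g * (g⁻¹ * x * g) := by group
  rw [this, mul_smul, hn']

/-- Let P be a Sylow p-subgroup of the finite group G that meets each conjugate g P g⁻¹ with g outside N_G(P) trivially, and let U be a subgroup of G of order divisible by p. Then a Sylow p-subgroup Q of U has the same property inside U: Q meets each conjugate u Q u⁻¹ with u ∈ U outside N_U(Q) trivially. -/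
theorem result {G : Type*} [Group G] [Finite G] (p : ℕ) [Fact p.Prime] (P : Sylow p G) (hTI : ∀ g : G, g ∉ Subgroup.normalizer ((P : Subgroup G) : Set G) → (P : Subgroup G) ⊓ (MulAut.conj g • (P : Subgroup G)) = ⊥) (U : Subgroup G) (hU : p ∣ Nat.card ↥U) (Q : Sylow p ↥U) : ∀ u : ↥U, u ∉ Subgroup.normalizer ((Q : Subgroup ↥U) : Set ↥U) → (Q : Subgroup ↥U) ⊓ (MulAut.conj u • (Q : Subgroup ↥U)) = ⊥ := by
  intro u hu
  rw [eq_bot_iff]
  intro y hy
  rw [Subgroup.mem_bot]
  by_contra hy1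
  apply hu
  obtain ⟨hyQ, hyuQ⟩ := Subgroup.mem_inf.mp hy
  rw [mem_conj_smul_iff] at hyuQ
  -- Q ≤ P₁ = g • P
  have hQp : IsPGroup p ((Q : Subgroup U).map U.subtype) := Q.isPGroup'.map _
  obtain ⟨P₁, hP₁⟩ := hQp.exists_le_sylow
  obtain ⟨g, hg⟩ := MulAction.exists_smul_eq G P P₁
  -- Q = P₁ ∩ U
  have hQeq : ((P₁ : Subgroup G).subgroupOf U) = (Q : Subgroup U) := by
    apply Q.is_maximal' (P₁.isPGroup'.comap_subtype)
    intro q hq
    exact Subgroup.mem_comap.mpr (hP₁ (Subgroup.mem_map_of_mem _ hq))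
  have hmemQ : ∀ q : U, q ∈ (Q : Subgroup U) ↔ (q : G) ∈ (P₁ : Subgroup G) := by
    intro q
    rw [← hQeq, Subgroup.mem_subgroupOf]
  have h1 : (y : G) ∈ ((g • P : Sylow p G) : Subgroup G) := by
    rw [hg]; exact (hmemQ y).mp hyQ
  have h2 : (u : G)⁻¹ * (y : G) * (u : G) ∈ ((g • P : Sylow p G) : Subgroup G) := by
    rw [hg]
    have := (hmemQ _).mp hyuQ
    simpa using this
  have hy1' : (y : G) ≠ 1 := fun h => hy1 (Subtype.ext h)
  have h3 := ti_conj p P hTI g (u : G) (y : G) h1 h2 hy1'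
  rw [hg, Sylow.smul_eq_iff_mem_normalizer] at h3
  -- u normalizes P₁, hence Q
  rw [Subgroup.mem_normalizer_iff]
  intro q
  rw [hmemQ, hmemQ]
  have := (Subgroup.mem_normalizer_iff.mp h3) (q : G)
  simpa using this

end Cfsg.Agent.S3983
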