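import Mathlib
import Cfsg.Statements.S3984
import Cfsg.Agent.Lib.Helper66.SylowTI

set_option autoImplicit false
open Cfsg

namespace Cfsg.Agent.S3984

open Cfsg.Agent.Lib.Helper66
open scoped Pointwise

/-- Let P be a Sylow p-subgroup of the finite group G that meets each conjugate g P g⁻¹ with g outside N_G(P) trivially, and let N be a normal subgroup of G of order prime to p. Then every Sylow p-subgroup Q of G ⧸ N meets each conjugate x Q x⁻¹ with x outside its normalizer trivially. -/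
theorem result {G : Type*} [Group G] [Finite G] (p : ℕ) [Fact p.Prime] (P : Sylow p G) (hTI : ∀ g : G, g ∉ Subgroup.normalizer ((P : Subgroup G) : Set G) → (P : Subgroup G) ⊓ (MulAut.conj g • (P : Subgroup G)) = ⊥) (N : Subgroup G) [N.Normal] (hN : (Nat.card ↥N).Coprime p) (Q : Sylow p (G ⧸ N)) : ∀ x : G ⧸ N, x ∉ Subgroup.normalizer ((Q : Subgroup (G ⧸ N)) : Set (G ⧸ N)) → (Q : Subgroup (G ⧸ N)) ⊓ (MulAut.conj x • (Q : Subgroup (G ⧸ N))) = ⊥ := by
  have h1 : ElTI (P : Subgroup G) := (sylTI_iff_elTI _).mp hTI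
  have h2 := ElTI.map_mk p P h1 N
  have hsurj : Function.Surjective (QuotientGroup.mk' N) := QuotientGroup.mk'_surjective N
  obtain ⟨x₀, hx₀⟩ := MulAction.exists_smul_eq (G ⧸ N) (P.mapSurjective hsurj) Q
  have h3 : (Q : Subgroup (G ⧸ N)) =
      MulAut.conj x₀ • ((P : Subgroup G).map (QuotientGroup.mk' N)) := by
    rw [← hx₀]
    rfl
  have h4 : ElTI (Q : Subgroup (G ⧸ N)) := by
    rw [h3]
    exact h2.conj x₀
  exact (sylTI_iff_elTI _).mpr h4

end Cfsg.Agent.S3984
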