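import Mathlib
import Cfsg.Statements.S3985
import Cfsg.Agent.Lib.Helper66.SylowTI

set_option autoImplicit false
open Cfsg

namespace Cfsg.Agent.S3985

open Cfsg.Agent.Lib.Helper66
open scoped Pointwise

/-- in a finite group, an element with two coprime powers in a subgroup lies in it -/
theorem mem_of_pow_mem_of_coprime {G : Type*} [Group G] (C : Subgroup G) (g : G) (a b : ℕ)
    (hab : Nat.Coprime a b) (ha : g ^ a ∈ C) (hb : g ^ b ∈ C) : g ∈ C := by
  have h1 := Nat.gcd_eq_gcd_ab a b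
  rw [hab] at h1
  have h2 : g = (g ^ a) ^ (Nat.gcdA a b) * (g ^ b) ^ (Nat.gcdB a b) := by
    rw [← zpow_natCast, ← zpow_natCast, ← zpow_mul, ← zpow_mul, ← zpow_add, ← h1]
    simp
  rw [h2]
  exact Subgroup.mul_mem _ (Subgroup.zpow_mem _ ha _) (Subgroup.zpow_mem _ hb _)

/-- a generator of a cyclic Sylow subgroup, as an element of `G` -/
theorem exists_gen {G : Type*} [Group G] [Finite G] (p : ℕ) [Fact p.Prime] (P : Sylow p G)
    (hcyc : IsCyclic ↥(P : Subgroup G)) :
    ∃ (c : G) (n : ℕ), c ∈ (P : Subgroup G) ∧ orderOf c = p ^ n ∧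
      ∀ z ∈ (P : Subgroup G), ∃ j : ℕ, c ^ j = z := by
  obtain ⟨c, hc⟩ := hcyc.exists_generator
  obtain ⟨n, hn⟩ := IsPGroup.iff_card.mp P.isPGroup'
  refine ⟨(c : G), n, c.2, ?_, ?_⟩
  · rw [Subgroup.orderOf_coe, orderOf_eq_card_of_forall_mem_zpowers hc, hn]
  · intro z hz
    have h1 := hc ⟨z, hz⟩
    rw [← mem_powers_iff_mem_zpowers, Submonoid.mem_powers_iff] at h1
    obtain ⟨j, hj⟩ := h1
    refine ⟨j, ?_⟩
    have := congrArg Subtype.val hj
    rwa [Subgroup.coe_pow] at this

/-- an element normalizing a cyclic Sylow `p`-subgroup `P` and centralizing a non-identity element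
of `P` centralizes `P` -/
theorem mem_centralizer_of_cyclic_sylow {G : Type*} [Group G] [Finite G] (p : ℕ) [Fact p.Prime]
    (P : Sylow p G) (hcyc : IsCyclic ↥(P : Subgroup G)) (g : G)
    (hg : g ∈ Subgroup.normalizer ((P : Subgroup G) : Set G)) (x : G) (hx : x ∈ (P : Subgroup G))
    (hx1 : x ≠ 1) (hgx : g * x = x * g) :
    g ∈ Subgroup.centralizer ((P : Subgroup G) : Set G) := by
  have hp : p.Prime := Fact.out
  obtain ⟨c, n, hcP, hcn, hgen⟩ := exists_gen p P hcyc
  have hcomm : ∀ a ∈ (P : Subgroup G), ∀ b ∈ (P : Subgroup G), a * b = b * a := by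
    intro a ha b hb
    obtain ⟨i, rfl⟩ := hgen a ha
    obtain ⟨j, rfl⟩ := hgen b hb
    exact (Commute.refl c).pow_pow i j
  have hgc : g * c * g⁻¹ ∈ (P : Subgroup G) := (Subgroup.mem_normalizer_iff.mp hg c).mp hcP
  obtain ⟨u, hu⟩ := hgen _ hgc
  obtain ⟨j, hj⟩ := hgen x hx
  -- `u * j ≡ j` modulo `p ^ n`
  have h1 : c ^ (u * j) = c ^ j := by
    rw [pow_mul, hu, conj_pow, hj, hgx]
    group
  rw [pow_eq_pow_iff_modEq, hcn] at h1
  have h2 : ¬ p ^ n ∣ j := by
    intro h
    apply hx1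
    rw [← hj, ← orderOf_dvd_iff_pow_eq_one, hcn]
    exact h
  have h3 : (p : ℤ) ∣ (u : ℤ) - 1 := by
    by_contra hnd
    have hcop : IsCoprime ((p : ℤ) ^ n) ((u : ℤ) - 1) :=
      IsCoprime.pow_left ((Nat.prime_iff_prime_int.mp hp).coprime_iff_not_dvd.mpr hnd)
    have h4 := (Nat.modEq_iff_dvd.mp h1)
    have h5 : ((p : ℤ) ^ n) ∣ (j : ℤ) * ((u : ℤ) - 1) := by
      have : (j : ℤ) * ((u : ℤ) - 1) = -(((j : ℕ) : ℤ) - ((u * j : ℕ) : ℤ)) := by
        push_cast; ring
      rw [this, dvd_neg]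
      exact_mod_cast h4
    have h6 := hcop.dvd_of_dvd_mul_right h5
    apply h2
    exact_mod_cast h6
  obtain ⟨k, rfl⟩ : ∃ k, n = k + 1 := by
    rcases n with _ | k
    · exact absurd (by simp) h2
    · exact ⟨k, rfl⟩
  have h7 : u ^ p ^ k ≡ 1 [MOD p ^ (k + 1)] := by
    have := dvd_sub_pow_of_dvd_sub h3 k
    rw [one_pow] at this
    apply Nat.ModEq.symm
    rw [Nat.modEq_iff_dvd]
    exact_mod_cast this
  have h8 : ∀ m : ℕ, g ^ m * c * (g ^ m)⁻¹ = c ^ (u ^ m) := by
    intro m
    induction m with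
    | zero => simp
    | succ m ih =>
      have : g ^ (m + 1) * c * (g ^ (m + 1))⁻¹ = g * (g ^ m * c * (g ^ m)⁻¹) * g⁻¹ := by
        rw [pow_succ']; group
      rw [this, ih, ← conj_pow, ← hu, ← pow_mul, pow_succ, mul_comm]
  have h9 : g ^ (p ^ k) * c * (g ^ (p ^ k))⁻¹ = c := by
    rw [h8]
    have : c ^ u ^ p ^ k = c ^ 1 := by
      rw [pow_eq_pow_iff_modEq, hcn]
      exact h7
    rw [this, pow_one]
  have h10 : g ^ (p ^ k) ∈ Subgroup.centralizer ((P : Subgroup G) : Set G) := by
    rw [Subgroup.mem_centralizer_iff]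
    intro z hz
    obtain ⟨i, rfl⟩ := hgen z hz
    have hc1 : Commute (g ^ (p ^ k)) c := by
      show g ^ (p ^ k) * c = c * g ^ (p ^ k)
      nth_rewrite 2 [← h9]
      group
    exact (hc1.pow_right i).symm
  have hPC : (P : Subgroup G) ≤ Subgroup.centralizer ((P : Subgroup G) : Set G) := by
    intro a ha
    rw [Subgroup.mem_centralizer_iff]
    intro b hb
    exact hcomm b hb a ha
  have hCN : Subgroup.centralizer ((P : Subgroup G) : Set G) ≤
      Subgroup.normalizer ((P : Subgroup G) : Set G) := Subgroup.centralizer_le_normalizer _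
  have h11 : g ^ ((Subgroup.centralizer ((P : Subgroup G) : Set G)).relIndex
      (Subgroup.normalizer ((P : Subgroup G) : Set G))) ∈
      Subgroup.centralizer ((P : Subgroup G) : Set G) := by
    have hnorm : ((Subgroup.centralizer ((P : Subgroup G) : Set G)).subgroupOf
        (Subgroup.normalizer ((P : Subgroup G) : Set G))).Normal := inferInstance
    have := Subgroup.pow_index_mem ((Subgroup.centralizer ((P : Subgroup G) : Set G)).subgroupOf
        (Subgroup.normalizer ((P : Subgroup G) : Set G))) ⟨g, hg⟩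
    rw [Subgroup.mem_subgroupOf] at this
    exact this
  have h12 : Nat.Coprime (p ^ k) ((Subgroup.centralizer ((P : Subgroup G) : Set G)).relIndex
      (Subgroup.normalizer ((P : Subgroup G) : Set G))) := by
    apply Nat.Coprime.pow_left
    rw [Nat.Prime.coprime_iff_not_dvd hp]
    intro hd
    exact P.not_dvd_index (dvd_trans hd (dvd_trans (Subgroup.relIndex_dvd_index_of_le hCN)
      (Subgroup.index_dvd_of_le hPC)))
  exact mem_of_pow_mem_of_coprime _ g _ _ h12 h10 h11

/-- Let P be a cyclic Sylow p-subgroup of the finite group G. Then P meets each conjugate g P g⁻¹ with g outside N_G(P) trivially if and only if P is weakly self-centralizing: C_G(x) = C_G(P) for every non-identity x ∈ P. -/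
theorem result {G : Type*} [Group G] [Finite G] (p : ℕ) [Fact p.Prime] (P : Sylow p G) (hcyc : IsCyclic ↥(P : Subgroup G)) : (∀ g : G, g ∉ Subgroup.normalizer ((P : Subgroup G) : Set G) → (P : Subgroup G) ⊓ (MulAut.conj g • (P : Subgroup G)) = ⊥) ↔ ∀ x : G, x ∈ (P : Subgroup G) → x ≠ 1 → Subgroup.centralizer ({x} : Set G) = Subgroup.centralizer ((P : Subgroup G) : Set G) := by
  have hiff := sylTI_iff_elTI (P : Subgroup G)
  unfold SylTI at hiff
  rw [hiff]
  obtain ⟨c, n, hcP, hcn, hgen⟩ := exists_gen p P hcyc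
  have hcomm : ∀ a ∈ (P : Subgroup G), ∀ b ∈ (P : Subgroup G), a * b = b * a := by
    intro a ha b hb
    obtain ⟨i, rfl⟩ := hgen a ha
    obtain ⟨j, rfl⟩ := hgen b hb
    exact (Commute.refl c).pow_pow i j
  constructor
  · intro hTI x hx hx1
    apply le_antisymm
    · intro g hg
      rw [Subgroup.mem_centralizer_singleton_iff] at hg
      have hgN : g ∈ Subgroup.normalizer ((P : Subgroup G) : Set G) := by
        apply hTI g x hx hx1
        have : g⁻¹ * x * g = x := by rw [mul_assoc, ← hg]; group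
        rw [this]; exact hx
      exact mem_centralizer_of_cyclic_sylow p P hcyc g hgN x hx hx1 hg
    · exact Subgroup.centralizer_le (Set.singleton_subset_iff.mpr hx)
  · intro h g u hu hu1 hgu
    have hgu1 : g⁻¹ * u * g ≠ 1 := by
      intro h1
      apply hu1
      have : u = g * (g⁻¹ * u * g) * g⁻¹ := by group
      rw [this, h1]; group
    have hC := h _ hgu hgu1
    -- the conjugate of `P` by `g⁻¹` centralizes `P`
    have hQ : MulAut.conj g⁻¹ • (P : Subgroup G) ≤
        Subgroup.centralizer ((P : Subgroup G) : Set G) := by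
      intro v hv
      rw [mem_conj_smul_iff, inv_inv] at hv
      rw [← hC, Subgroup.mem_centralizer_singleton_iff]
      have h1 := hcomm _ hv u hu
      have h2 : v * (g⁻¹ * u * g) = g⁻¹ * (g * v * g⁻¹ * u) * g := by group
      have h3 : g⁻¹ * u * g * v = g⁻¹ * (u * (g * v * g⁻¹)) * g := by group
      rw [h2, h3, h1]
    have hQN : MulAut.conj g⁻¹ • (P : Subgroup G) ≤
        Subgroup.normalizer ((P : Subgroup G) : Set G) :=
      le_trans hQ (Subgroup.centralizer_le_normalizer _)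
    have hQp : IsPGroup p ↥(MulAut.conj g⁻¹ • (P : Subgroup G)) := (g⁻¹ • P).isPGroup'
    have hsup : IsPGroup p ↥(MulAut.conj g⁻¹ • (P : Subgroup G) ⊔ (P : Subgroup G)) :=
      IsPGroup.to_sup_of_normal_right' hQp P.isPGroup' hQN
    have h4 : MulAut.conj g⁻¹ • (P : Subgroup G) ⊔ (P : Subgroup G) = (P : Subgroup G) :=
      P.is_maximal' (Q := MulAut.conj g⁻¹ • (P : Subgroup G) ⊔ (P : Subgroup G)) hsup le_sup_right
    have h5 : MulAut.conj g⁻¹ • (P : Subgroup G) ≤ (P : Subgroup G) :=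
      le_sup_left.trans h4.le
    have h5' : ((g⁻¹ • P : Sylow p G) : Subgroup G) ≤ (P : Subgroup G) := h5
    have h6 : ((g⁻¹ • P : Sylow p G) : Subgroup G) = (P : Subgroup G) :=
      ((g⁻¹ • P).is_maximal' (Q := (P : Subgroup G)) P.isPGroup' h5').symm
    have h7 : g⁻¹ • P = P := Sylow.ext h6
    rw [Sylow.smul_eq_iff_mem_normalizer] at h7
    exact (Subgroup.inv_mem_iff _).mp h7

end Cfsg.Agent.S3985
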