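import Mathlib
import Cfsg.Statements.S3986

set_option autoImplicit false
open Cfsg

namespace Cfsg.Agent.S3986

/-- an element whose order is coprime to the index of a normal subgroup lies in it -/
theorem mem_of_coprime_index {G : Type*} [Group G] [Finite G] (N : Subgroup G) [N.Normal] (y : G)
    (h : (orderOf y).Coprime N.index) : y ∈ N := by
  rw [← QuotientGroup.eq_one_iff]
  have h1 : orderOf (QuotientGroup.mk y : G ⧸ N) ∣ orderOf y := by
    apply orderOf_dvd_of_pow_eq_one
    rw [← QuotientGroup.mk_pow, pow_orderOf_eq_one]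
    rfl
  have h2 : orderOf (QuotientGroup.mk y : G ⧸ N) ∣ N.index := by
    rw [Subgroup.index_eq_card]
    exact orderOf_dvd_natCard _
  exact orderOf_eq_one_iff.mp (Nat.eq_one_of_dvd_coprimes h h1 h2)

/-- a subgroup containing a Sylow `q`-subgroup for every prime `q ≠ p` has `p`-power index -/
theorem index_eq_pow_of_sylow_le {G : Type*} [Group G] [Finite G] (p : ℕ) (H : Subgroup G)
    (h : ∀ q : ℕ, q.Prime → q ≠ p → ∃ Q : Subgroup G, Q ≤ H ∧ ¬ q ∣ Q.index) :
    ∃ k : ℕ, H.index = p ^ k := by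
  refine ⟨_, Nat.eq_prime_pow_of_unique_prime_dvd (Subgroup.index_ne_zero_of_finite) ?_⟩
  intro q hq hqd
  by_contra hne
  obtain ⟨Q, hQ, hQi⟩ := h q hq hne
  exact hQi (dvd_trans hqd (Subgroup.index_dvd_of_le hQ))

/-- the commuting hypothesis -/
def Comm (p : ℕ) (G : Type*) [Group G] : Prop :=
  ∀ x y : G, (∃ a : ℕ, orderOf x = p ^ a) → (∃ q b : ℕ, q.Prime ∧ q ≠ p ∧ orderOf y = q ^ b) →
    x * y = y * x

/-- under the commuting hypothesis the centralizer of a `p`-element has `p`-power index -/
theorem index_centralizer_eq_pow {G : Type*} [Group G] [Finite G] (p : ℕ)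
    (h : Comm p G) (S : Set G) (hS : ∀ x ∈ S, ∃ a : ℕ, orderOf x = p ^ a) :
    ∃ k : ℕ, (Subgroup.centralizer S).index = p ^ k := by
  apply index_eq_pow_of_sylow_le
  intro q hq hqp
  have : Fact q.Prime := ⟨hq⟩
  obtain ⟨Q⟩ : Nonempty (Sylow q G) := inferInstance
  refine ⟨Q, ?_, Q.not_dvd_index⟩
  intro y hy
  rw [Subgroup.mem_centralizer_iff]
  intro x hx
  obtain ⟨b, hb⟩ := (IsPGroup.iff_orderOf.mp Q.isPGroup') ⟨y, hy⟩
  have hb' : orderOf y = q ^ b := by
    rw [← hb, Subgroup.orderOf_mk]
  exact h x y (hS x hx) ⟨q, b, hq, hqp, hb'⟩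

/-- under the commuting hypothesis the centralizer of a `q`-element, `q ≠ p`, has index prime to `p` -/
theorem not_dvd_index_centralizer {G : Type*} [Group G] [Finite G] (p : ℕ) [Fact p.Prime]
    (h : Comm p G) (y : G) (hy : ∃ q b : ℕ, q.Prime ∧ q ≠ p ∧ orderOf y = q ^ b) :
    ¬ p ∣ (Subgroup.centralizer ({y} : Set G)).index := by
  obtain ⟨P⟩ : Nonempty (Sylow p G) := inferInstance
  intro hd
  apply P.not_dvd_index
  refine dvd_trans hd (Subgroup.index_dvd_of_le ?_)
  intro x hx
  rw [Subgroup.mem_centralizer_iff]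
  intro z hz
  rw [Set.mem_singleton_iff] at hz
  subst hz
  obtain ⟨a, ha⟩ := (IsPGroup.iff_orderOf.mp P.isPGroup') ⟨x, hx⟩
  have ha' : orderOf x = p ^ a := by
    rw [← ha, Subgroup.orderOf_mk]
  exact (h x z ⟨a, ha'⟩ hy).symm

theorem forward {G : Type*} [Group G] [Finite G] (p : ℕ) [Fact p.Prime]
    (h : ∃ (P : Sylow p G) (K : Subgroup G), (P : Subgroup G).Normal ∧ K.Normal ∧
      (P : Subgroup G) ⊓ K = ⊥ ∧ (P : Subgroup G) ⊔ K = ⊤) : Comm p G := by
  obtain ⟨P, K, hPn, hKn, hdis, hsup⟩ := h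
  intro x y ⟨a, ha⟩ ⟨q, b, hq, hqp, hb⟩
  have hp : p.Prime := Fact.out
  have hx : x ∈ (P : Subgroup G) := by
    have hxp : IsPGroup p (Subgroup.zpowers x) := by
      rw [IsPGroup.iff_card, Nat.card_zpowers]
      exact ⟨a, ha⟩
    obtain ⟨P', hP'⟩ := hxp.exists_le_sylow
    have hu : Unique (Sylow p G) := Sylow.unique_of_normal P hPn
    rw [Subsingleton.elim P P']
    exact hP' (Subgroup.mem_zpowers x)
  have hKi : K.index = Nat.card (P : Subgroup G) := by
    have hc : Subgroup.IsComplement' (P : Subgroup G) K := by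
      apply Subgroup.isComplement'_of_disjoint_and_mul_eq_univ (disjoint_iff.mpr hdis)
      rw [← Subgroup.normal_mul, hsup, Subgroup.coe_top]
    exact hc.index_eq_card
  have hy : y ∈ K := by
    apply mem_of_coprime_index
    rw [hKi, hb]
    obtain ⟨n, hn⟩ := IsPGroup.iff_card.mp P.isPGroup'
    rw [hn]
    apply Nat.Coprime.pow
    exact (Nat.coprime_primes hq hp).mpr hqp
  exact Subgroup.commute_of_normal_of_disjoint _ _ hPn hKn (disjoint_iff.mpr hdis) x y hx hy

theorem backward {G : Type*} [Group G] [Finite G] (p : ℕ) [Fact p.Prime] (h : Comm p G) :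
    ∃ (P : Sylow p G) (K : Subgroup G), (P : Subgroup G).Normal ∧ K.Normal ∧
      (P : Subgroup G) ⊓ K = ⊥ ∧ (P : Subgroup G) ⊔ K = ⊤ := by
  have hp : p.Prime := Fact.out
  obtain ⟨P⟩ : Nonempty (Sylow p G) := inferInstance
  have hPel : ∀ x ∈ ((P : Subgroup G) : Set G), ∃ a : ℕ, orderOf x = p ^ a := by
    intro x hx
    obtain ⟨a, ha⟩ := (IsPGroup.iff_orderOf.mp P.isPGroup') ⟨x, hx⟩
    exact ⟨a, by rw [← ha, Subgroup.orderOf_mk]⟩
  obtain ⟨k, hk⟩ := index_centralizer_eq_pow p h ((P : Subgroup G) : Set G) hPel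
  -- `P` is normal
  have hPn : (P : Subgroup G).Normal := by
    rw [← Subgroup.normalizer_eq_top_iff, ← Subgroup.index_eq_one]
    have h1 : (Subgroup.normalizer ((P : Subgroup G) : Set G)).index ∣ p ^ k := by
      rw [← hk]
      apply Subgroup.index_dvd_of_le
      intro g hg
      rw [Subgroup.mem_centralizer_iff] at hg
      rw [Subgroup.mem_normalizer_iff]
      intro x
      constructor
      · intro hx
        have : g * x * g⁻¹ = x := by rw [← hg x hx]; group
        rw [this]; exact hx
      · intro hx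
        have hc := hg _ hx
        have : x = g * x * g⁻¹ := by
          have h2 : g * x = g * x * g⁻¹ * g := by group
          have h3 : g * (g * x * g⁻¹) = g * x := by rw [← hc]; group
          exact mul_left_cancel h3.symm
        rw [this]; exact hx
    have h2 : (Subgroup.normalizer ((P : Subgroup G) : Set G)).index ∣ (P : Subgroup G).index :=
      Subgroup.index_dvd_of_le Subgroup.le_normalizer
    have h3 : Nat.Coprime (p ^ k) (P : Subgroup G).index :=
      Nat.Coprime.pow_left k ((Nat.Prime.coprime_iff_not_dvd hp).mpr P.not_dvd_index)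
    exact Nat.eq_one_of_dvd_coprimes h3 h1 h2
  have hcop : Nat.Coprime (Nat.card (P : Subgroup G)) (P : Subgroup G).index := by
    obtain ⟨n, hn⟩ := IsPGroup.iff_card.mp P.isPGroup'
    rw [hn]
    exact Nat.Coprime.pow_left n ((Nat.Prime.coprime_iff_not_dvd hp).mpr P.not_dvd_index)
  obtain ⟨K, hK⟩ := Subgroup.exists_right_complement'_of_coprime hcop
  have hKc : K ≤ Subgroup.centralizer ((P : Subgroup G) : Set G) := by
    intro y hy
    apply mem_of_coprime_index
    rw [hk]
    apply Nat.Coprime.pow_right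
    have h1 : orderOf y ∣ Nat.card K := by
      have := orderOf_dvd_natCard (⟨y, hy⟩ : K)
      rwa [Subgroup.orderOf_mk] at this
    have h2 : Nat.card K = (P : Subgroup G).index := by
      rw [← hK.symm.index_eq_card]
    rw [h2] at h1
    exact Nat.Coprime.coprime_dvd_left h1
      (Nat.Coprime.symm ((Nat.Prime.coprime_iff_not_dvd hp).mpr P.not_dvd_index))
  have hKn : K.Normal := by
    rw [← Subgroup.normalizer_eq_top_iff, eq_top_iff, ← hK.sup_eq_top, sup_le_iff]
    refine ⟨?_, Subgroup.le_normalizer⟩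
    intro g hg
    rw [Subgroup.mem_normalizer_iff]
    intro x
    constructor
    · intro hx
      have hc := (Subgroup.mem_centralizer_iff.mp (hKc hx)) g hg
      have : g * x * g⁻¹ = x := by rw [hc]; group
      rw [this]; exact hx
    · intro hx
      have hc := (Subgroup.mem_centralizer_iff.mp (hKc hx)) g hg
      have : x = g * x * g⁻¹ := by
        have h3 : g * (g * x * g⁻¹) = g * x := by rw [hc]; group
        exact (mul_left_cancel h3).symm
      rw [this]; exact hx
  exact ⟨P, K, hPn, hKn, disjoint_iff.mp hK.disjoint, hK.sup_eq_top⟩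

/-- Let p be a prime and G a finite group. Then some Sylow p-subgroup of G is a direct factor of G (it is normal and has a normal complement) if and only if every element of p-power order commutes with every element whose order is a power of a prime other than p. -/
theorem result {G : Type*} [Group G] [Finite G] (p : ℕ) [Fact p.Prime] : (∃ (P : Sylow p G) (K : Subgroup G), (P : Subgroup G).Normal ∧ K.Normal ∧ (P : Subgroup G) ⊓ K = ⊥ ∧ (P : Subgroup G) ⊔ K = ⊤) ↔ ∀ x y : G, (∃ a : ℕ, orderOf x = p ^ a) → (∃ q b : ℕ, q.Prime ∧ q ≠ p ∧ orderOf y = q ^ b) → x * y = y * x := by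
  exact ⟨forward p, backward p⟩

end Cfsg.Agent.S3986
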