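import Mathlib
import Cfsg.Statements.S3987
import Cfsg.Agent.S3986

set_option autoImplicit false
open Cfsg

namespace Cfsg.Agent.S3987

open Cfsg.Agent.S3986

theorem index_inf_of_coprime {G : Type*} [Group G] [Finite G] (H K : Subgroup G)
    (h : Nat.Coprime H.index K.index) : (H ⊓ K).index = H.index * K.index := by
  apply Nat.le_antisymm (Subgroup.index_inf_le)
  apply Nat.le_of_dvd (Nat.pos_of_ne_zero Subgroup.index_ne_zero_of_finite)
  exact Nat.Coprime.mul_dvd_of_dvd_of_dvd h (Subgroup.index_dvd_of_le inf_le_left)
    (Subgroup.index_dvd_of_le inf_le_right)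

theorem inf_le_centralizer_mul {G : Type*} [Group G] (x y : G) :
    Subgroup.centralizer ({x} : Set G) ⊓ Subgroup.centralizer ({y} : Set G) ≤
      Subgroup.centralizer ({x * y} : Set G) := by
  intro g hg
  rw [Subgroup.mem_inf, Subgroup.mem_centralizer_singleton_iff,
    Subgroup.mem_centralizer_singleton_iff] at hg
  rw [Subgroup.mem_centralizer_singleton_iff]
  obtain ⟨h1, h2⟩ := hg
  calc g * (x * y) = (g * x) * y := by group
    _ = x * (g * y) := by rw [h1]; group
    _ = x * y * g := by rw [h2]; group

theorem centralizer_mul_of_coprime {G : Type*} [Group G] [Finite G] (x y : G) (hc : x * y = y * x)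
    (hcop : Nat.Coprime (orderOf x) (orderOf y)) :
    Subgroup.centralizer ({x * y} : Set G) =
      Subgroup.centralizer ({x} : Set G) ⊓ Subgroup.centralizer ({y} : Set G) := by
  apply le_antisymm _ (inf_le_centralizer_mul x y)
  intro g hg
  rw [Subgroup.mem_centralizer_singleton_iff] at hg
  have hpow : ∀ n : ℕ, g * (x * y) ^ n = (x * y) ^ n * g := by
    intro n
    exact (Commute.pow_right (show Commute g (x * y) from hg) n)
  have hcomm : Commute x y := hc
  rw [Subgroup.mem_inf, Subgroup.mem_centralizer_singleton_iff,
    Subgroup.mem_centralizer_singleton_iff]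
  constructor
  · obtain ⟨k, hk1, hk2⟩ := Nat.chineseRemainder hcop 1 0
    have h1 : x ^ k = x := by
      have := (pow_eq_pow_iff_modEq (x := x)).mpr hk1
      rwa [pow_one] at this
    have h2 : y ^ k = 1 := by
      have := (pow_eq_pow_iff_modEq (x := y)).mpr hk2
      rwa [pow_zero] at this
    have := hpow k
    rwa [hcomm.mul_pow, h1, h2, mul_one] at this
  · obtain ⟨k, hk1, hk2⟩ := Nat.chineseRemainder hcop 0 1
    have h1 : x ^ k = 1 := by
      have := (pow_eq_pow_iff_modEq (x := x)).mpr hk1
      rwa [pow_zero] at this
    have h2 : y ^ k = y := by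
      have := (pow_eq_pow_iff_modEq (x := y)).mpr hk2
      rwa [pow_one] at this
    have := hpow k
    rwa [hcomm.mul_pow, h1, h2, one_mul] at this

/-- Let p be a prime and G a finite group. Then some Sylow p-subgroup of G is a direct factor of G (normal with a normal complement) if and only if for every element x of p-power order and every element y whose order is a power of a prime other than p, the conjugacy class of x y has as many elements as the product of the sizes of the classes of x and of y. -/
theorem result {G : Type*} [Group G] [Finite G] (p : ℕ) [Fact p.Prime] : (∃ (P : Sylow p G) (K : Subgroup G), (P : Subgroup G).Normal ∧ K.Normal ∧ (P : Subgroup G) ⊓ K = ⊥ ∧ (P : Subgroup G) ⊔ K = ⊤) ↔ ∀ x y : G, (∃ a : ℕ, orderOf x = p ^ a) → (∃ q b : ℕ, q.Prime ∧ q ≠ p ∧ orderOf y = q ^ b) → (Subgroup.centralizer ({x * y} : Set G)).index = (Subgroup.centralizer ({x} : Set G)).index * (Subgroup.centralizer ({y} : Set G)).index := by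
  have hp : p.Prime := Fact.out
  constructor
  · intro h x y hx hy
    have hC : Comm p G := forward p h
    have hxy := hC x y hx hy
    obtain ⟨a, ha⟩ := hx
    obtain ⟨q, b, hq, hqp, hb⟩ := hy
    have hcop : Nat.Coprime (orderOf x) (orderOf y) := by
      rw [ha, hb]
      exact Nat.Coprime.pow _ _ ((Nat.coprime_primes hp hq).mpr (Ne.symm hqp))
    rw [centralizer_mul_of_coprime x y hxy hcop]
    apply index_inf_of_coprime
    obtain ⟨k, hk⟩ := index_centralizer_eq_pow p hC ({x} : Set G) (by
      intro z hz
      rw [Set.mem_singleton_iff] at hz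
      subst hz
      exact ⟨a, ha⟩)
    rw [hk]
    apply Nat.Coprime.pow_left
    exact (Nat.Prime.coprime_iff_not_dvd hp).mpr
      (not_dvd_index_centralizer p hC y ⟨q, b, hq, hqp, hb⟩)
  · intro h
    apply backward p
    intro x y hx hy
    have h1 := h x y hx hy
    have hle := inf_le_centralizer_mul x y
    have h2 : (Subgroup.centralizer ({x} : Set G) ⊓ Subgroup.centralizer ({y} : Set G)).index =
        (Subgroup.centralizer ({x * y} : Set G)).index := by
      apply Nat.le_antisymm
      · rw [h1]; exact Subgroup.index_inf_le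
      · exact Nat.le_of_dvd (Nat.pos_of_ne_zero Subgroup.index_ne_zero_of_finite)
          (Subgroup.index_dvd_of_le hle)
    have h3 := Subgroup.relIndex_mul_index hle
    rw [h2] at h3
    have h4 : (Subgroup.centralizer ({x} : Set G) ⊓ Subgroup.centralizer ({y} : Set G)).relIndex
        (Subgroup.centralizer ({x * y} : Set G)) = 1 := by
      have hpos : 0 < (Subgroup.centralizer ({x * y} : Set G)).index :=
        Nat.pos_of_ne_zero Subgroup.index_ne_zero_of_finite
      exact Nat.eq_of_mul_eq_mul_right hpos (by rw [h3, one_mul])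
    rw [Subgroup.relIndex_eq_one] at h4
    have h5 : x * y ∈ Subgroup.centralizer ({x * y} : Set G) := by
      rw [Subgroup.mem_centralizer_singleton_iff]
    have h6 : x * y ∈ Subgroup.centralizer ({x} : Set G) := (Subgroup.mem_inf.mp (h4 h5)).1
    rw [Subgroup.mem_centralizer_singleton_iff] at h6
    have h7 : x * (x * y) = x * (y * x) := by rw [← h6]; group
    exact mul_left_cancel h7

end Cfsg.Agent.S3987
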