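import Cfsg.Statements.S4010
import Cfsg.Agent.Lib.Helper58.LinPGroup

set_option autoImplicit false
open Cfsg

namespace Cfsg.Agent.S4010


/-- Let F be a field, n ≥ 1, and P a finite p-group (p a prime) admitting an injective homomorphism into the general linear group of degree n over F. Then the derived length of P is at most ⌊log₂ n⌋ + 1: that term of the derived series of P is trivial. -/
theorem result {P : Type*} [Group P] [Finite P] (p : ℕ) [Fact p.Prime] (hP : IsPGroup p P) (F : Type*) [Field F] (n : ℕ) (hn : 1 ≤ n) (ρ : P →* Matrix.GeneralLinearGroup (Fin n) F) (hρ : Function.Injective ρ) : derivedSeries P (Nat.log 2 n + 1) = ⊥ := by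
  classical
  let K := AlgebraicClosure F
  let j₁ : Matrix.GeneralLinearGroup (Fin n) F →* Matrix.GeneralLinearGroup (Fin n) K :=
    Matrix.GeneralLinearGroup.map (algebraMap F K)
  have hj₁ : Function.Injective j₁ := by
    intro A B h
    apply Units.ext
    ext i j
    have h1 := congrArg (fun g : Matrix.GeneralLinearGroup (Fin n) K => (g : Matrix (Fin n) (Fin n) K) i j) h
    have h2 : algebraMap F K ((A : Matrix (Fin n) (Fin n) F) i j)
        = algebraMap F K ((B : Matrix (Fin n) (Fin n) F) i j) := h1
    exact (algebraMap F K).injective h2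
  let j₂ : Matrix.GeneralLinearGroup (Fin n) K ≃* (Module.End K (Fin n → K))ˣ :=
    Matrix.GeneralLinearGroup.toLin
  let ι : P →* (Module.End K (Fin n → K))ˣ := j₂.toMonoidHom.comp (j₁.comp ρ)
  have hι : Function.Injective ι := j₂.injective.comp (hj₁.comp hρ)
  haveI : Finite ι.range := Finite.of_surjective _ ι.rangeRestrict_surjective
  have hR : IsPGroup p ι.range := hP.of_surjective ι.rangeRestrict ι.rangeRestrict_surjective
  have hfin : Module.finrank K (Fin n → K) ≤ n := by simp
  have key : derivedSeries ι.range (Nat.log 2 n + 1) = ⊥ := by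
    by_cases hpK : (p : K) = 0
    · have h1 := Cfsg.Agent.Lib.Helper58.LinPGroup.derived_bot_of_char p K hpK n (Fin n → K) hfin
        ι.range hR
      rw [eq_bot_iff, ← h1]
      apply derivedSeries_antitone
      exact Nat.clog_le_of_le_pow (Nat.lt_pow_succ_log_self (by norm_num) n).le
    · exact Cfsg.Agent.Lib.Helper58.LinPGroup.derived_bot_of_ne p K hpK n (Fin n → K) hfin
        ι.range hR
  have h2 := Cfsg.Agent.Lib.Helper58.LinPGroup.derived_le_ker_of_range ι _ key
  rw [(MonoidHom.ker_eq_bot_iff ι).mpr hι] at h2
  exact eq_bot_iff.mpr h2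

end Cfsg.Agent.S4010
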