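import Mathlib
import Cfsg.Statements.S4013

set_option autoImplicit false
open Cfsg

namespace Cfsg.Agent.S4013

/-- Let G be a finite p-group (p prime) and N < M normal subgroups of G such that for some g ∈ M ∖ N the conjugacy class of g is exactly M ∖ N. Then p = 2 and N has index 2 in M. -/
theorem result {G : Type*} [Group G] [Finite G] (p : ℕ) [Fact p.Prime] (hG : IsPGroup p G) (N M : Subgroup G) [N.Normal] [M.Normal] (hNM : N < M) (g : G) (hgM : g ∈ M) (hgN : g ∉ N) (hcl : {h : G | IsConj g h} = (M : Set G) \ (N : Set G)) : p = 2 ∧ N.relIndex M = 2 := by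
  have hp : p.Prime := Fact.out
  -- the class is an orbit of the conjugation action
  have horb : MulAction.orbit (ConjAct G) g = {h : G | IsConj g h} := by
    ext h
    rw [ConjAct.mem_orbit_conjAct]
    exact isConj_comm
  have hG' : IsPGroup p (ConjAct G) := hG
  obtain ⟨c, hc⟩ := hG'.card_orbit g
  rw [horb, hcl] at hc
  obtain ⟨a, ha⟩ := (hG.to_subgroup M).exists_card_eq
  obtain ⟨b, hb⟩ := (hG.to_subgroup N).exists_card_eq
  have hsub : (N : Set G) ⊆ (M : Set G) := hNM.le
  have hdiff : ((M : Set G) \ (N : Set G)).ncard = (M : Set G).ncard - (N : Set G).ncard :=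
    Set.ncard_sdiff hsub
  have hMc : (M : Set G).ncard = p ^ a := by
    rw [← ha]; rfl
  have hNc : (N : Set G).ncard = p ^ b := by
    rw [← hb]; rfl
  have hc' : p ^ a - p ^ b = p ^ c := by
    rw [← hMc, ← hNc, ← hdiff, ← hc]; rfl
  have hlt : p ^ b < p ^ a := by
    rw [← hMc, ← hNc]
    exact Set.ncard_lt_ncard (SetLike.coe_ssubset_coe.mpr hNM) (Set.toFinite _)
  have hba : b < a := (Nat.pow_lt_pow_iff_right hp.one_lt).mp hlt
  obtain ⟨d, rfl⟩ : ∃ d, a = b + (d + 1) := ⟨a - b - 1, by omega⟩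
  -- p^b * (p^(d+1) - 1) = p^c
  have h1 : p ^ b * (p ^ (d + 1) - 1) = p ^ c := by
    rw [← hc', Nat.mul_sub, mul_one, ← pow_add]
  have hpos : 0 < p ^ (d + 1) - 1 := by
    have : 1 < p ^ (d + 1) := Nat.one_lt_pow (by omega) hp.one_lt
    omega
  have hdvd : (p ^ (d + 1) - 1) ∣ p ^ c := Dvd.intro_left _ h1
  obtain ⟨e, -, he⟩ := (Nat.dvd_prime_pow hp).mp hdvd
  have he0 : e = 0 := by
    by_contra hne
    have hpd : p ∣ p ^ (d + 1) - 1 := by
      rw [he]; exact dvd_pow_self p hne
    have hpd' : p ∣ p ^ (d + 1) := dvd_pow_self p (by omega)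
    have h1le : 1 ≤ p ^ (d + 1) := Nat.one_le_pow _ _ hp.pos
    have : p ∣ 1 := by
      have := Nat.dvd_sub hpd' hpd
      rwa [Nat.sub_sub_self h1le] at this
    exact hp.one_lt.ne' (Nat.dvd_one.mp this)
  rw [he0, pow_zero] at he
  have hpd2 : p ^ (d + 1) = 2 := by omega
  have hd0 : d = 0 := by
    by_contra hne
    have h2 : 2 ≤ p := hp.two_le
    have : p ^ 2 ≤ p ^ (d + 1) := Nat.pow_le_pow_right hp.pos (by omega)
    nlinarith
  subst hd0
  have hp2 : p = 2 := by simpa using hpd2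
  refine ⟨hp2, ?_⟩
  have hrel : N.relIndex M * Nat.card N = Nat.card M := by
    have := Subgroup.relIndex_mul_relIndex ⊥ N M bot_le hNM.le
    rwa [Subgroup.relIndex_bot_left, Subgroup.relIndex_bot_left, mul_comm] at this
  rw [ha, hb, pow_add, hp2] at hrel
  have h2b : 0 < 2 ^ b := by positivity
  have : N.relIndex M * 2 ^ b = 2 * 2 ^ b := by rw [hrel]; ring
  exact Nat.eq_of_mul_eq_mul_right h2b this

end Cfsg.Agent.S4013
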