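import Mathlib
import Cfsg.Statements.S4027
import Cfsg.Agent.Lib.Helper67.Basic
import Cfsg.Agent.Lib.Helper67.TwoClosed
import Cfsg.Agent.Lib.Helper67.Lift
import Cfsg.Agent.Lib.Helper67.SZConj

set_option autoImplicit false

namespace Cfsg.Agent.S4027

open Cfsg.Agent.Lib.Helper67

theorem bad_of_subgroup {G : Type*} [Group G] [Finite G] (M : Subgroup G)
    (h : ∃ x g : M, Odd (orderOf x) ∧ g * x * g⁻¹ ∈ Subgroup.zpowers x ∧ g * x * g⁻¹ ≠ x) :
    ∃ x g : G, Odd (orderOf x) ∧ g * x * g⁻¹ ∈ Subgroup.zpowers x ∧ g * x * g⁻¹ ≠ x := by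
  obtain ⟨x, g, hodd, hmem, hne⟩ := h
  refine ⟨(x : G), (g : G), ?_, ?_, ?_⟩
  · rwa [Subgroup.orderOf_coe]
  · obtain ⟨k, hk⟩ := Subgroup.mem_zpowers_iff.mp hmem
    refine Subgroup.mem_zpowers_iff.mpr ⟨k, ?_⟩
    have := congrArg (Subtype.val) hk
    simpa using this
  · intro h
    apply hne
    apply Subtype.ext
    simpa using h

theorem bad_of_invol {G : Type*} [Group G] [Finite G] (t x : G) (hx1 : x ≠ 1)
    (hodd : Odd (orderOf x)) (hconj : t * x * t⁻¹ = x⁻¹) :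
    ∃ x g : G, Odd (orderOf x) ∧ g * x * g⁻¹ ∈ Subgroup.zpowers x ∧ g * x * g⁻¹ ≠ x := by
  refine ⟨x, t, hodd, ?_, ?_⟩
  · rw [hconj]; exact Subgroup.inv_mem _ (Subgroup.mem_zpowers x)
  · rw [hconj]
    intro h
    apply hx1
    have h2 : x ^ 2 = 1 := by
      rw [pow_two]
      nth_rewrite 1 [← h]
      exact inv_mul_cancel x
    have hd : orderOf x ∣ 2 := orderOf_dvd_of_pow_eq_one h2
    have : orderOf x = 1 := by
      rcases (Nat.dvd_prime Nat.prime_two).mp hd with h1 | h1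
      · exact h1
      · rw [h1] at hodd; exact absurd hodd (by decide)
    exact orderOf_eq_one_iff.mp this

theorem bad_of_quot {G : Type*} [Group G] [Finite G] (D : Subgroup G) [D.Normal]
    (hD : IsPGroup 2 D)
    (h : ∃ x g : G ⧸ D, Odd (orderOf x) ∧ g * x * g⁻¹ ∈ Subgroup.zpowers x ∧ g * x * g⁻¹ ≠ x) :
    ∃ x g : G, Odd (orderOf x) ∧ g * x * g⁻¹ ∈ Subgroup.zpowers x ∧ g * x * g⁻¹ ≠ x := by
  obtain ⟨y, h', hodd, hmem, hne⟩ := h
  have : Fact (Nat.Prime 2) := ⟨Nat.prime_two⟩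
  obtain ⟨k, hk⟩ := IsPGroup.iff_card.mp hD
  have hcop : (Nat.card D).Coprime (orderOf y) := by
    rw [hk]
    exact Nat.Coprime.pow_left _ hodd.coprime_two_left
  obtain ⟨x, hx, hxd⟩ := exists_lift_orderOf_dvd D y hcop
  have hxodd : Odd (orderOf x) := Odd.of_dvd_nat hodd hxd
  obtain ⟨g, hg⟩ := QuotientGroup.mk_surjective h'
  set π := QuotientGroup.mk' D with hπ
  have hπx : π x = y := hx
  have hπg : π g = h' := hg
  set H₁ : Subgroup G := Subgroup.zpowers x with hH₁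
  set H₂ : Subgroup G := H₁.map (MulAut.conj g).toMonoidHom with hH₂
  have hker : π.ker = D := QuotientGroup.ker_mk' D
  have hm1 : H₁.map π = Subgroup.zpowers y := by
    rw [hH₁, MonoidHom.map_zpowers, hπx]
  have hm2 : H₂.map π = Subgroup.zpowers y := by
    rw [hH₂, hH₁, MonoidHom.map_zpowers, MonoidHom.map_zpowers]
    have e : π ((MulAut.conj g).toMonoidHom x) = h' * y * h'⁻¹ := by
      simp [hπx, hπg]
    rw [e]
    apply Subgroup.eq_of_le_of_card_ge
    · rw [Subgroup.zpowers_le]; exact hmem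
    · rw [Nat.card_zpowers, Nat.card_zpowers]
      have : orderOf (h' * y * h'⁻¹) = orderOf y := (MulAut.conj h').orderOf_eq y
      rw [this]
  have hsup : H₁ ⊔ D = H₂ ⊔ D := by
    have e1 : (H₁.map π).comap π = H₁ ⊔ D := by rw [Subgroup.comap_map_eq, hker]
    have e2 : (H₂.map π).comap π = H₂ ⊔ D := by rw [Subgroup.comap_map_eq, hker]
    rw [← e1, ← e2, hm1, hm2]
  have hc1 : ¬ 2 ∣ Nat.card H₁ := by
    rw [hH₁, Nat.card_zpowers]
    exact hxodd.not_two_dvd_nat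
  have hc2 : ¬ 2 ∣ Nat.card H₂ := by
    rw [hH₂, Subgroup.card_map_of_injective (MulAut.conj g).injective]
    exact hc1
  obtain ⟨u, huD, hu⟩ := sz_conj_pgroup D hD H₁ H₂ hc1 hc2 hsup
  have hgx : g * x * g⁻¹ ∈ H₂ := by
    rw [hH₂]
    exact Subgroup.mem_map.mpr ⟨x, Subgroup.mem_zpowers x, by simp⟩
  rw [hu] at hgx
  obtain ⟨z, hz, hzu⟩ := Subgroup.mem_map.mp hgx
  have hzu' : u * z * u⁻¹ = g * x * g⁻¹ := by simpa using hzu
  refine ⟨x, u⁻¹ * g, hxodd, ?_, ?_⟩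
  · have e : u⁻¹ * g * x * (u⁻¹ * g)⁻¹ = z := by
      calc u⁻¹ * g * x * (u⁻¹ * g)⁻¹ = u⁻¹ * (g * x * g⁻¹) * u := by group
        _ = u⁻¹ * (u * z * u⁻¹) * u := by rw [hzu']
        _ = z := by group
    rw [e]; exact hz
  · intro hcontra
    apply hne
    have hπu : π u = 1 := (QuotientGroup.eq_one_iff u).mpr huD
    have := congrArg π hcontra
    simp only [map_mul, map_inv, hπu, hπx, hπg, inv_one, one_mul] at this
    exact this

theorem result {G : Type*} [Group G] [Finite G]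
    (hirr : ∀ x : G, (∀ r : ℕ, r.Prime → r ∣ orderOf x → r ≠ 2) →
      Subgroup.normalizer ((Subgroup.zpowers x : Subgroup G) : Set G) ≤ Subgroup.centralizer {x}) (P : Sylow 2 G) :
    (P : Subgroup G).Normal := by
  refine two_closed_of_inherited
    (fun (G : Type _) [Group G] => ∃ x g : G, Odd (orderOf x) ∧ g * x * g⁻¹ ∈ Subgroup.zpowers x ∧ g * x * g⁻¹ ≠ x)
    (fun G _ _ M h => bad_of_subgroup M h)
    (fun G _ _ D _ hD h => bad_of_quot D hD h)
    (fun G _ _ t x _ hx1 hodd hconj => bad_of_invol t x hx1 hodd hconj)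
    (Nat.card G) G rfl ?_ P
  rintro ⟨x, g, hodd, hmem, hne⟩
  apply hne
  have h1 := hirr x (fun r hr hrd h2 => by
    rw [h2] at hrd
    exact hodd.not_two_dvd_nat hrd)
  have h2 : g ∈ Subgroup.centralizer {x} := h1 ((mem_normalizer_zpowers_iff x g).mpr hmem)
  rw [Subgroup.mem_centralizer_singleton_iff] at h2
  rw [h2]; group

end Cfsg.Agent.S4027
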