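import Mathlib
import Cfsg.Statements.S4028
import Cfsg.Agent.Lib.Helper67.Basic

set_option autoImplicit false
open Cfsg

namespace Cfsg.Agent.S4028

open Cfsg.Agent.Lib.Helper67

/-- Let G be a finite group with Sylow 2-subgroup P. Then N_G(⟨x⟩) = C_G(x) holds for every 2-element x of G if and only if N_P(⟨y⟩) = C_P(y) holds for every y ∈ P (computed inside P). -/
theorem result {G : Type*} [Group G] [Finite G] (P : Sylow 2 G) :
    (∀ x : G, (∀ r : ℕ, r.Prime → r ∣ orderOf x → r = 2) →
      Subgroup.normalizer ((Subgroup.zpowers x : Subgroup G) : Set G) ≤ Subgroup.centralizer {x}) ↔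
    (∀ y : ↥(P : Subgroup G), Subgroup.normalizer ((Subgroup.zpowers y : Subgroup ↥(P : Subgroup G)) : Set ↥(P : Subgroup G)) ≤
        Subgroup.centralizer {y}) := by
  constructor
  · intro h y s hs
    rw [mem_normalizer_zpowers_iff] at hs
    rw [Subgroup.mem_centralizer_singleton_iff]
    have h2 : ∀ r : ℕ, r.Prime → r ∣ orderOf (y : G) → r = 2 := by
      intro r hr hdvd
      rw [Subgroup.orderOf_coe] at hdvd
      obtain ⟨k, hk⟩ := P.isPGroup' y
      have := hdvd.trans (orderOf_dvd_of_pow_eq_one hk)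
      exact (Nat.prime_dvd_prime_iff_eq hr Nat.prime_two).mp (hr.dvd_of_dvd_pow this)
    have hs' : (s : G) ∈ Subgroup.normalizer ((Subgroup.zpowers (y : G) : Subgroup G) : Set G) := by
      rw [mem_normalizer_zpowers_iff]
      obtain ⟨k, hk⟩ := hs
      refine ⟨k, ?_⟩
      have := congrArg Subtype.val hk
      simpa using this
    have := h (y : G) h2 hs'
    rw [Subgroup.mem_centralizer_singleton_iff] at this
    exact Subtype.ext this
  · intro hP x hx g hg
    obtain ⟨a, ha⟩ := orderOf_eq_prime_pow_of_forall_prime x 2 hx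
    obtain ⟨b, m, hm, hbm⟩ := Nat.exists_eq_two_pow_mul_odd (orderOf_pos g).ne'
    set N := Subgroup.normalizer ((Subgroup.zpowers x : Subgroup G) : Set G) with hN
    set C := Subgroup.centralizer ({x} : Set G) with hC
    -- the odd part
    have hw : g ^ (2 ^ b) ∈ C := by
      have hwN : g ^ (2 ^ b) ∈ N := N.pow_mem hg _
      have hwo : Odd (orderOf (g ^ (2 ^ b))) := by
        have : (g ^ (2 ^ b)) ^ m = 1 := by rw [← pow_mul, ← hbm, pow_orderOf_eq_one]
        exact Odd.of_dvd_nat hm (orderOf_dvd_of_pow_eq_one this)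
      have := conj_eq_self_of_odd_of_two_pow x (g ^ (2 ^ b)) a ha hwo
        ((mem_normalizer_zpowers_iff x _).mp hwN)
      rw [hC, Subgroup.mem_centralizer_singleton_iff]
      calc g ^ 2 ^ b * x = (g ^ 2 ^ b * x * (g ^ 2 ^ b)⁻¹) * g ^ 2 ^ b := by group
        _ = x * g ^ 2 ^ b := by rw [this]
    -- the 2-part
    have ht : g ^ m ∈ C := by
      set t := g ^ m with ht
      have htN : t ∈ N := N.pow_mem hg _
      have hto : ∃ j, orderOf t = 2 ^ j := by
        have : t ^ (2 ^ b) = 1 := by rw [ht, ← pow_mul, mul_comm, ← hbm, pow_orderOf_eq_one]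
        obtain ⟨j, -, hj⟩ := (Nat.dvd_prime_pow Nat.prime_two).mp (orderOf_dvd_of_pow_eq_one this)
        exact ⟨j, hj⟩
      obtain ⟨j, hj⟩ := hto
      have hpx : IsPGroup 2 (Subgroup.zpowers x) :=
        IsPGroup.of_card (n := a) (by rw [Nat.card_zpowers, ha])
      have hpt : IsPGroup 2 (Subgroup.zpowers t) :=
        IsPGroup.of_card (n := j) (by rw [Nat.card_zpowers, hj])
      have hle : Subgroup.zpowers t ≤ Subgroup.normalizer ((Subgroup.zpowers x : Subgroup G) : Set G) :=
        (Subgroup.zpowers_le).mpr htN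
      have hsup : IsPGroup 2 ↥(Subgroup.zpowers t ⊔ Subgroup.zpowers x) :=
        hpt.to_sup_of_normal_right' hpx hle
      obtain ⟨Q, hQ⟩ := hsup.exists_le_sylow
      obtain ⟨c, hc⟩ := MulAction.exists_smul_eq G Q P
      have hxQ : x ∈ (Q : Subgroup G) := hQ (Subgroup.mem_sup_right (Subgroup.mem_zpowers x))
      have htQ : t ∈ (Q : Subgroup G) := hQ (Subgroup.mem_sup_left (Subgroup.mem_zpowers t))
      have hmemP : ∀ z ∈ (Q : Subgroup G), c * z * c⁻¹ ∈ (P : Subgroup G) := by
        intro z hz
        rw [← hc, Sylow.coe_subgroup_smul]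
        have := Subgroup.smul_mem_pointwise_smul z (MulAut.conj c) (Q : Subgroup G) hz
        simpa [MulAut.smul_def] using this
      let y : (P : Subgroup G) := ⟨c * x * c⁻¹, hmemP x hxQ⟩
      let s : (P : Subgroup G) := ⟨c * t * c⁻¹, hmemP t htQ⟩
      have hsy : s ∈ Subgroup.normalizer ((Subgroup.zpowers y : Subgroup (P : Subgroup G)) : Set (P : Subgroup G)) := by
        rw [mem_normalizer_zpowers_iff]
        obtain ⟨k, hk⟩ := (mem_normalizer_zpowers_iff x t).mp htN
        refine ⟨k, ?_⟩
        apply Subtype.ext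
        have hk' : x ^ k = t * x * t⁻¹ := hk
        show ((y ^ k : (P : Subgroup G)) : G) = ((s * y * s⁻¹ : (P : Subgroup G)) : G)
        simp only [Subgroup.coe_zpow, Subgroup.coe_mul, Subgroup.coe_inv, y, s]
        rw [conj_zpow, hk']
        group
      have := hP y hsy
      rw [Subgroup.mem_centralizer_singleton_iff] at this
      have h3 : (c * t * c⁻¹) * (c * x * c⁻¹) = (c * x * c⁻¹) * (c * t * c⁻¹) := by
        have := congrArg Subtype.val this
        simpa [y, s] using this
      rw [hC, Subgroup.mem_centralizer_singleton_iff]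
      calc t * x = c⁻¹ * ((c * t * c⁻¹) * (c * x * c⁻¹)) * c := by group
        _ = c⁻¹ * ((c * x * c⁻¹) * (c * t * c⁻¹)) * c := by rw [h3]
        _ = x * t := by group
    have hcop : Nat.Coprime m (2 ^ b) := Nat.Coprime.pow_right _ hm.coprime_two_right
    exact mem_of_pow_mem_of_coprime C g m (2 ^ b) hcop ht hw

end Cfsg.Agent.S4028
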