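import Mathlib
import Cfsg.Statements.S4032
import Cfsg.Agent.Lib.Helper67.Basic
import Cfsg.Agent.Lib.Helper67.Lift
import Cfsg.Agent.Lib.Helper1.SZInternal

set_option autoImplicit false

namespace Cfsg.Agent.S4032

open Cfsg.Agent.Lib.Helper67 Pointwise

theorem result {G : Type*} [Group G] [Finite G] (π : Set ℕ)
    (hirr : ∀ x : G, (∀ r : ℕ, r.Prime → r ∣ orderOf x → r ∈ π) →
      Subgroup.normalizer ((Subgroup.zpowers x : Subgroup G) : Set G) ≤ Subgroup.centralizer {x})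
    (N : Subgroup G) [N.Normal] (hN : ∀ r : ℕ, r.Prime → r ∣ Nat.card N → r ∉ π) :
    ∀ y : G ⧸ N, (∀ r : ℕ, r.Prime → r ∣ orderOf y → r ∈ π) →
      Subgroup.normalizer ((Subgroup.zpowers y : Subgroup (G ⧸ N)) : Set (G ⧸ N)) ≤ Subgroup.centralizer {y} := by
  intro y hy h' hh'
  rw [Subgroup.mem_centralizer_singleton_iff]
  have hcop : (Nat.card N).Coprime (orderOf y) :=
    Nat.coprime_of_dvd (fun k hk hkN hky => hN k hk hkN (hy k hk hky))
  obtain ⟨x, hx, hxd⟩ := exists_lift_orderOf_dvd N y hcop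
  have hxπ : ∀ r : ℕ, r.Prime → r ∣ orderOf x → r ∈ π := fun r hr hrx => hy r hr (hrx.trans hxd)
  obtain ⟨g, hg⟩ := QuotientGroup.mk_surjective h'
  set ρ := QuotientGroup.mk' N with hρ
  have hρx : ρ x = y := hx
  have hρg : ρ g = h' := hg
  have hker : ρ.ker = N := QuotientGroup.ker_mk' N
  set A : Subgroup G := Subgroup.zpowers x with hA
  set A₁ : Subgroup G := Subgroup.zpowers (g * x * g⁻¹) with hA₁
  have hconjy : h' * y * h'⁻¹ ∈ Subgroup.zpowers y :=
    (Subgroup.mem_normalizer_iff.mp hh' y).mp (Subgroup.mem_zpowers y)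
  have hA₁le : A₁ ≤ N ⊔ A := by
    rw [hA₁, Subgroup.zpowers_le]
    have h1 : ρ (g * x * g⁻¹) ∈ A.map ρ := by
      rw [hA, MonoidHom.map_zpowers, hρx, map_mul, map_mul, map_inv, hρx, hρg]
      exact hconjy
    obtain ⟨a, ha, hae⟩ := Subgroup.mem_map.mp h1
    have h2 : a⁻¹ * (g * x * g⁻¹) ∈ N := by
      rw [← hker, MonoidHom.mem_ker, map_mul, map_inv, hae, inv_mul_cancel]
    have h3 : g * x * g⁻¹ = a * (a⁻¹ * (g * x * g⁻¹)) := by group
    rw [h3]
    exact Subgroup.mul_mem _ (Subgroup.mem_sup_right ha) (Subgroup.mem_sup_left h2)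
  have hcard : Nat.card A₁ = Nat.card A := by
    rw [hA₁, hA, Nat.card_zpowers, Nat.card_zpowers]
    exact (MulAut.conj g).orderOf_eq x
  have hAN : A ≤ Subgroup.normalizer (N : Set G) := by
    rw [Subgroup.normalizer_eq_top]; exact le_top
  have hcopA : (Nat.card A).Coprime (Nat.card N) := by
    rw [hA, Nat.card_zpowers]
    exact (hcop.symm).coprime_dvd_left hxd
  have hsolvA : Group.IsSolvable A := by
    have : IsCyclic A := by rw [hA]; infer_instance
    have hc : ∀ a b : A, a * b = b * a := fun a b => by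
      obtain ⟨c, hc⟩ := IsCyclic.exists_generator (α := A)
      obtain ⟨i, rfl⟩ := Subgroup.mem_zpowers_iff.mp (hc a)
      obtain ⟨j, rfl⟩ := Subgroup.mem_zpowers_iff.mp (hc b)
      rw [← zpow_add, ← zpow_add, add_comm]
    exact Group.isSolvable_of_comm hc
  obtain ⟨n, hnN, hn⟩ := Cfsg.Agent.Lib.Helper1.sz_conj_internal N A A₁ hAN hcopA (Or.inl hsolvA)
    hA₁le hcard
  have hnorm : n * g ∈ Subgroup.normalizer ((Subgroup.zpowers x : Subgroup G) : Set G) := by
    rw [mem_normalizer_zpowers_iff]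
    show n * g * x * (n * g)⁻¹ ∈ A
    rw [← hn, Cfsg.Agent.Lib.Helper1.mem_conj_smul, hA₁]
    have e : n⁻¹ * (n * g * x * (n * g)⁻¹) * n = g * x * g⁻¹ := by group
    rw [e]
    exact Subgroup.mem_zpowers _
  have hcent := hirr x hxπ hnorm
  rw [Subgroup.mem_centralizer_singleton_iff] at hcent
  have hρn : ρ n = 1 := (QuotientGroup.eq_one_iff n).mpr hnN
  have := congrArg ρ hcent
  simp only [map_mul, hρn, hρx, hρg, one_mul] at this
  exact this

end Cfsg.Agent.S4032
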