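import Mathlib
import Cfsg.Statements.S4036

set_option autoImplicit false
open Cfsg

namespace Cfsg.Agent.S4036

/-- Let P be a finite abelian p-group and K a group of automorphisms of P (a subgroup of Aut P) whose order is divisible by p. If all non-identity elements of K have the same fixed-point subgroup on P, then K has no non-trivial normal subgroup of order prime to p. -/
theorem result {P : Type*} [CommGroup P] [Finite P] {p : ℕ}
    [Fact p.Prime] (hP : IsPGroup p P) (K : Subgroup (MulAut P)) (hK : p ∣ Nat.card K)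
    (hfix : ∀ x y : MulAut P, x ∈ K → y ∈ K → x ≠ 1 → y ≠ 1 → ∀ v : P, x v = v ↔ y v = v) :
    ∀ N : Subgroup ↥K, N.Normal → ¬ p ∣ Nat.card N → N = ⊥ := by
  classical
  intro N hN hpN
  by_contra hne
  obtain ⟨⟨n, hnN⟩, hn1⟩ := Subgroup.ne_bot_iff_exists_ne_one.mp hne
  have hn1' : n ≠ 1 := fun h => hn1 (Subtype.ext h)
  have hn1'' : (n : MulAut P) ≠ 1 := fun h => hn1' (Subtype.ext h)
  obtain ⟨k, hk⟩ := exists_prime_orderOf_dvd_card' p hK
  have hp : p.Prime := Fact.out
  have hk1 : k ≠ 1 := by
    intro h
    rw [h, orderOf_one] at hk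
    exact hp.one_lt.ne hk
  have hk1' : (k : MulAut P) ≠ 1 := fun h => hk1 (Subtype.ext h)
  have : Fintype N := Fintype.ofFinite N
  -- the norm map
  let τ : P →* P :=
    { toFun := fun v => ∏ m : N, ((m : K) : MulAut P) v
      map_one' := by simp
      map_mul' := by intro a b; simp [Finset.prod_mul_distrib] }
  have hτ : ∀ v, τ v = ∏ m : N, ((m : K) : MulAut P) v := fun v => rfl
  -- (a) τ (m₀ v) = τ v
  have ha : ∀ (m₀ : N) (v : P), τ (((m₀ : K) : MulAut P) v) = τ v := by
    intro m₀ v
    rw [hτ, hτ]
    rw [← Equiv.prod_comp (Equiv.mulRight m₀) (fun m : N => ((m : K) : MulAut P) v)]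
    apply Finset.prod_congr rfl
    intro m _
    simp [MulAut.mul_apply]
  -- (c) τ commutes with k
  have hc : ∀ v : P, τ ((k : MulAut P) v) = (k : MulAut P) (τ v) := by
    intro v
    rw [hτ, hτ, map_prod]
    rw [← Equiv.prod_comp (MulAut.conjNormal (H := N) k⁻¹).toEquiv
      (fun m : N => (k : MulAut P) (((m : K) : MulAut P) v))]
    apply Finset.prod_congr rfl
    intro m _
    simp [MulAut.mul_apply]
  -- (d) on common fixed points τ is a power map
  have hd : ∀ v : P, (∀ m : N, ((m : K) : MulAut P) v = v) → τ v = v ^ Fintype.card N := by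
    intro v hv
    rw [hτ, Finset.prod_congr rfl (fun m _ => hv m), Finset.prod_const, Finset.card_univ]
  -- fixed points of k in the kernel of τ are trivial
  have hkfix : ∀ u : P, τ u = 1 → (k : MulAut P) u = u → u = 1 := by
    intro u hu hku
    have hall : ∀ m : N, ((m : K) : MulAut P) u = u := by
      intro m
      by_cases hm : ((m : K) : MulAut P) = 1
      · rw [hm]; rfl
      · exact (hfix _ _ (m : K).2 k.2 hm hk1' u).mpr hku
    have h1 : u ^ Fintype.card N = 1 := by rw [← hd u hall, hu]
    obtain ⟨j, hj⟩ := hP u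
    have h2 : orderOf u ∣ Fintype.card N := orderOf_dvd_of_pow_eq_one h1
    have h3 : orderOf u ∣ p ^ j := orderOf_dvd_of_pow_eq_one hj
    have hcop : Nat.Coprime (Fintype.card N) (p ^ j) := by
      apply Nat.Coprime.pow_right
      rw [Nat.coprime_comm]
      apply (Nat.Prime.coprime_iff_not_dvd hp).mpr
      rwa [← Nat.card_eq_fintype_card]
    exact orderOf_eq_one_iff.mp (Nat.eq_one_of_dvd_coprimes hcop h2 h3)
  -- the kernel of τ is trivial
  have hker : τ.ker = ⊥ := by
    by_contra hL
    have hLp : IsPGroup p τ.ker := hP.to_subgroup _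
    have hcard : p ∣ Nat.card τ.ker := by
      rcases hLp.card_eq_or_dvd with h | h
      · exact absurd (Subgroup.card_eq_one.mp h) hL
      · exact h
    have : Fintype τ.ker := Fintype.ofFinite _
    rw [Nat.card_eq_fintype_card] at hcard
    let f : Equiv.Perm P := MulAut.toPerm P (k : MulAut P)
    have hf : ∀ x, (f x ∈ τ.ker) ↔ x ∈ τ.ker := by
      intro x
      rw [MonoidHom.mem_ker, MonoidHom.mem_ker]
      show τ ((k : MulAut P) x) = 1 ↔ τ x = 1
      rw [hc]
      exact EmbeddingLike.map_eq_one_iff
    let σ : Equiv.Perm τ.ker := f.subtypePerm hf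
    have hσ : σ ^ p ^ 1 = 1 := by
      rw [pow_one]
      have hfp : f ^ p = 1 := by
        show (MulAut.toPerm P (k : MulAut P)) ^ p = 1
        rw [← map_pow]
        have : (k : MulAut P) ^ p = 1 := by
          have := pow_orderOf_eq_one k
          rw [hk] at this
          have h2 := congrArg (Subtype.val) this
          simpa using h2
        rw [this, map_one]
      show (f.subtypePerm hf) ^ p = 1
      rw [Equiv.Perm.subtypePerm_pow]
      ext x
      simp [hfp]
    have h1 : σ 1 = 1 := by
      apply Subtype.ext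
      show (k : MulAut P) 1 = 1
      exact map_one _
    obtain ⟨b, hb1, hb2⟩ := Equiv.Perm.exists_fixed_point_of_prime' hcard hσ h1
    apply hb2
    apply Subtype.ext
    apply hkfix b.1 (MonoidHom.mem_ker.mp b.2)
    have := congrArg Subtype.val hb1
    exact this
  have hinj : Function.Injective τ := (MonoidHom.ker_eq_bot_iff τ).mp hker
  apply hn1''
  ext v
  have := ha ⟨⟨n, _⟩, hnN⟩ v
  exact hinj this

end Cfsg.Agent.S4036
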