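import Mathlib
import Cfsg.Statements.S4043
import Cfsg.Agent.Lib.Helper67.SZConj
import Cfsg.Agent.Lib.Helper67.PGroupAct

set_option autoImplicit false
open Cfsg

namespace Cfsg.Agent.S4043

open Cfsg.Agent.Lib.Helper67

/-- a complement `B` of the normal `p`-group `N` with normal `p`-complement `K` and `C_N(B) = 1`
is the normalizer of `K`. -/
theorem normalizer_eq {G : Type*} [Group G] [Finite G] {p : ℕ} [Fact p.Prime]
    (N : Subgroup G) [N.Normal] (hN : IsPGroup p N) (B : Subgroup G) (hB : B.IsComplement' N)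
    (K : Subgroup B) [K.Normal] (S : Sylow p B) (hKS : K.IsComplement' (S : Subgroup B))
    (hC : ∀ n : G, n ∈ N → (∀ b : G, b ∈ B → b * n * b⁻¹ = n) → n = 1) :
    Subgroup.normalizer ((K.map B.subtype : Subgroup G) : Set G) = B := by
  set K' : Subgroup G := K.map B.subtype with hK'
  have hK'B : K' ≤ B := Subgroup.map_subtype_le K
  have hBnorm : B ≤ Subgroup.normalizer (K' : Set G) := by
    rw [← Subgroup.normal_subgroupOf_iff_le_normalizer hK'B, hK']
    have : (K.map B.subtype).subgroupOf B = K :=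
      Subgroup.comap_map_eq_self_of_injective (Subgroup.subtype_injective B) K
    rw [this]
    infer_instance
  have hBN : B ⊓ N = ⊥ := hB.disjoint.eq_bot
  set C₀ : Subgroup G := N ⊓ Subgroup.normalizer (K' : Set G) with hC₀
  -- C₀ centralizes K'
  have hcent : ∀ n ∈ C₀, ∀ k ∈ K', n * k = k * n := by
    intro n hn k hk
    have h1 : n * k * n⁻¹ * k⁻¹ ∈ N := by
      have : n * k * n⁻¹ * k⁻¹ = n * (k * n⁻¹ * k⁻¹) := by group
      rw [this]
      exact N.mul_mem hn.1 (Subgroup.Normal.conj_mem inferInstance _ (N.inv_mem hn.1) k)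
    have h2 : n * k * n⁻¹ * k⁻¹ ∈ K' :=
      K'.mul_mem ((Subgroup.mem_normalizer_iff.mp hn.2 k).mp hk) (K'.inv_mem hk)
    have h3 : n * k * n⁻¹ * k⁻¹ ∈ B ⊓ N := ⟨hK'B h2, h1⟩
    rw [hBN, Subgroup.mem_bot] at h3
    calc n * k = (n * k * n⁻¹ * k⁻¹) * (k * n) := by group
      _ = k * n := by rw [h3, one_mul]
  have hC₀bot : C₀ = ⊥ := by
    by_contra hne
    set S' : Subgroup G := (S : Subgroup B).map B.subtype with hS'
    have hS'B : S' ≤ B := Subgroup.map_subtype_le _
    have hS'p : IsPGroup p S' := S.isPGroup'.map _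
    have hC₀p : IsPGroup p C₀ := hN.to_le inf_le_left
    have hS'norm : S' ≤ Subgroup.normalizer (C₀ : Set G) := by
      intro s hs
      have hsM : s ∈ Subgroup.normalizer (K' : Set G) := hBnorm (hS'B hs)
      rw [Subgroup.mem_normalizer_iff]
      intro c
      constructor
      · intro hc
        exact ⟨Subgroup.Normal.conj_mem inferInstance _ hc.1 s,
          Subgroup.mul_mem _ (Subgroup.mul_mem _ hsM hc.2) (Subgroup.inv_mem _ hsM)⟩
      · intro hc
        have e : c = s⁻¹ * (s * c * s⁻¹) * s⁻¹⁻¹ := by group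
        rw [e]
        exact ⟨Subgroup.Normal.conj_mem inferInstance _ hc.1 s⁻¹,
          Subgroup.mul_mem _ (Subgroup.mul_mem _ (Subgroup.inv_mem _ hsM) hc.2)
            (Subgroup.inv_mem _ (Subgroup.inv_mem _ hsM))⟩
    obtain ⟨n, hnC, hn1, hfix⟩ := exists_fixed_of_pgroup_normalizes S' C₀ hS'p hC₀p hS'norm hne
    apply hn1
    apply hC n hnC.1
    intro b hb
    -- b = k * s
    have hb' : (⟨b, hb⟩ : B) ∈ K ⊔ (S : Subgroup B) := by
      rw [hKS.sup_eq_top]; exact Subgroup.mem_top _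
    obtain ⟨k, hk, s, hs, hks⟩ := Subgroup.mem_sup_of_normal_left.mp hb'
    have hbe : b = (k : G) * (s : G) := by
      have := congrArg Subtype.val hks
      simpa using this.symm
    have hkK' : (k : G) ∈ K' := Subgroup.mem_map.mpr ⟨k, hk, rfl⟩
    have hsS' : (s : G) ∈ S' := Subgroup.mem_map.mpr ⟨s, hs, rfl⟩
    have h1 : (s : G) * n * (s : G)⁻¹ = n := hfix _ hsS'
    have h2 : n * (k : G) = (k : G) * n := hcent n hnC _ hkK'
    rw [hbe]
    calc (k : G) * (s : G) * n * ((k : G) * (s : G))⁻¹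
        = (k : G) * ((s : G) * n * (s : G)⁻¹) * (k : G)⁻¹ := by group
      _ = (k : G) * n * (k : G)⁻¹ := by rw [h1]
      _ = n := by rw [← h2]; group
  apply le_antisymm
  · intro g hg
    have hg' : g ∈ B ⊔ N := by rw [hB.sup_eq_top]; exact Subgroup.mem_top _
    obtain ⟨b, hb, n, hn, rfl⟩ := Subgroup.mem_sup_of_normal_right.mp hg'
    have hnM : n ∈ Subgroup.normalizer (K' : Set G) := by
      have : n = b⁻¹ * (b * n) := by group
      rw [this]
      exact Subgroup.mul_mem _ (Subgroup.inv_mem _ (hBnorm hb)) hg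
    have hn0 : n ∈ C₀ := ⟨hn, hnM⟩
    rw [hC₀bot, Subgroup.mem_bot] at hn0
    rw [hn0, mul_one]
    exact hb
  · exact hBnorm

/-- every element of order prime to `p` lies in `K' ⊔ N` -/
theorem mem_sup_of_not_dvd {G : Type*} [Group G] [Finite G] {p : ℕ} [Fact p.Prime]
    (N : Subgroup G) [N.Normal] (B : Subgroup G) (hB : B.IsComplement' N)
    (K : Subgroup B) [K.Normal] (S : Sylow p B) (hKS : K.IsComplement' (S : Subgroup B))
    (x : G) (hx : ¬ p ∣ orderOf x) : x ∈ (K.map B.subtype : Subgroup G) ⊔ N := by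
  have hx' : x ∈ B ⊔ N := by rw [hB.sup_eq_top]; exact Subgroup.mem_top _
  obtain ⟨b, hb, n, hn, rfl⟩ := Subgroup.mem_sup_of_normal_right.mp hx'
  have hBN : B ⊓ N = ⊥ := hB.disjoint.eq_bot
  -- b ^ orderOf (b * n) = 1
  have h1 : b ^ orderOf (b * n) = 1 := by
    have h2 : b ^ orderOf (b * n) ∈ N := by
      rw [← QuotientGroup.eq_one_iff, QuotientGroup.mk_pow]
      have : (QuotientGroup.mk b : G ⧸ N) = QuotientGroup.mk (b * n) := by
        rw [QuotientGroup.mk_mul, (QuotientGroup.eq_one_iff n).mpr hn, mul_one]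
      rw [this, ← QuotientGroup.mk_pow, pow_orderOf_eq_one]
      rfl
    have h3 : b ^ orderOf (b * n) ∈ B ⊓ N := ⟨B.pow_mem hb _, h2⟩
    rwa [hBN, Subgroup.mem_bot] at h3
  have h4 : ¬ p ∣ orderOf (⟨b, hb⟩ : B) := by
    intro h
    apply hx
    rw [Subgroup.orderOf_mk] at h
    exact h.trans (orderOf_dvd_of_pow_eq_one h1)
  have h5 := mem_normal_complement_of_not_dvd K S hKS ⟨b, hb⟩ h4
  exact Subgroup.mul_mem_sup (Subgroup.mem_map.mpr ⟨⟨b, hb⟩, h5, rfl⟩) hn

/-- Let G be a finite group that is the semidirect product of a normal p-subgroup N by a subgroup A, and also of N by a subgroup A₁, where p is a prime and A and A₁ both have normal p-complements. If C_N(A) = C_N(A₁) = 1, then A₁ is conjugate to A by an element of N. -/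
theorem result {G : Type*} [Group G] [Finite G] {p : ℕ}
    [Fact p.Prime] (N : Subgroup G) [N.Normal] (hN : IsPGroup p N) (A A₁ : Subgroup G)
    (hA : A.IsComplement' N) (hA₁ : A₁.IsComplement' N)
    (hAp : Cfsg.HasNormalPComplement p A) (hA₁p : Cfsg.HasNormalPComplement p A₁)
    (hC : ∀ n : G, n ∈ N → (∀ a : G, a ∈ A → a * n * a⁻¹ = n) → n = 1)
    (hC₁ : ∀ n : G, n ∈ N → (∀ a : G, a ∈ A₁ → a * n * a⁻¹ = n) → n = 1) :
    ∃ n : G, n ∈ N ∧ A₁ = A.map (MulAut.conj n).toMonoidHom := by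
  obtain ⟨S, K, hKn, hKS⟩ := hAp
  obtain ⟨S₁, K₁, hK₁n, hK₁S⟩ := hA₁p
  have hK : ¬ p ∣ Nat.card (K.map A.subtype : Subgroup G) := by
    rw [Subgroup.card_map_of_injective (Subgroup.subtype_injective A)]
    exact not_dvd_card_normal_complement K S hKS
  have hK₁ : ¬ p ∣ Nat.card (K₁.map A₁.subtype : Subgroup G) := by
    rw [Subgroup.card_map_of_injective (Subgroup.subtype_injective A₁)]
    exact not_dvd_card_normal_complement K₁ S₁ hK₁S
  have hle : ∀ (B B' : Subgroup G) (hB : B.IsComplement' N) (L : Subgroup B) [L.Normal]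
      (T : Sylow p B) (hLT : L.IsComplement' (T : Subgroup B)) (L' : Subgroup B'),
      ¬ p ∣ Nat.card (L'.map B'.subtype : Subgroup G) →
      (L'.map B'.subtype : Subgroup G) ≤ (L.map B.subtype : Subgroup G) ⊔ N := by
    intro B B' hB L _ T hLT L' hL' x hx
    apply mem_sup_of_not_dvd N B hB L T hLT
    intro h
    apply hL'
    have : orderOf x ∣ Nat.card (L'.map B'.subtype : Subgroup G) := by
      have := orderOf_dvd_natCard (⟨x, hx⟩ : (L'.map B'.subtype : Subgroup G))
      rwa [Subgroup.orderOf_mk] at this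
    exact h.trans this
  have hsup : (K.map A.subtype : Subgroup G) ⊔ N = (K₁.map A₁.subtype : Subgroup G) ⊔ N := by
    apply le_antisymm
    · exact sup_le (hle A₁ A hA₁ K₁ S₁ hK₁S K hK) le_sup_right
    · exact sup_le (hle A A₁ hA K S hKS K₁ hK₁) le_sup_right
  obtain ⟨g, hgN, hg⟩ := sz_conj_pgroup N hN _ _ hK hK₁ hsup
  refine ⟨g, hgN, ?_⟩
  have h1 := normalizer_eq N hN A hA K S hKS hC
  have h2 := normalizer_eq N hN A₁ hA₁ K₁ S₁ hK₁S hC₁
  calc A₁ = Subgroup.normalizer ((K₁.map A₁.subtype : Subgroup G) : Set G) := h2.symm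
    _ = Subgroup.normalizer
          (((K.map A.subtype : Subgroup G).map (MulAut.conj g).toMonoidHom : Subgroup G) : Set G) := by
        rw [hg]
    _ = (Subgroup.normalizer ((K.map A.subtype : Subgroup G) : Set G)).map
          (MulAut.conj g).toMonoidHom :=
        (Subgroup.map_equiv_normalizer_eq _ (MulAut.conj g)).symm
    _ = A.map (MulAut.conj g).toMonoidHom := by rw [h1]

end Cfsg.Agent.S4043
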