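import Mathlib
import Cfsg.Statements.S4049
import Cfsg.Agent.Lib.Helper67.Basic
import Cfsg.Agent.Lib.Helper67.TwoClosed
import Cfsg.Agent.Lib.Helper67.Lift
import Cfsg.Agent.Lib.Helper67.SZConj

set_option autoImplicit false

namespace Cfsg.Agent.S4049

open Cfsg.Agent.Lib.Helper67

/-- an element of the normalizer outside the centralizer whose square centralizes gives
even index of the centralizer in the normalizer -/
theorem two_dvd_relIndex {G : Type*} [Group G] [Finite G] (H : Subgroup G) (g : G)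
    (hgN : g ∈ Subgroup.normalizer (H : Set G)) (hgC : g ∉ Subgroup.centralizer (H : Set G))
    (hg2 : g * g ∈ Subgroup.centralizer (H : Set G)) :
    2 ∣ (Subgroup.centralizer (H : Set G)).relIndex (Subgroup.normalizer (H : Set G)) := by
  set N := Subgroup.normalizer (H : Set G) with hN
  set C := Subgroup.centralizer (H : Set G) with hC
  have hnorm : (C.subgroupOf N).Normal := Subgroup.normal_subgroupOf_centralizer_normalizer _
  rw [Subgroup.relIndex, Subgroup.index_eq_card]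
  set q : N ⧸ C.subgroupOf N := QuotientGroup.mk (⟨g, hgN⟩ : N) with hq
  have hq1 : q ≠ 1 := by
    intro h
    rw [hq, QuotientGroup.eq_one_iff, Subgroup.mem_subgroupOf] at h
    exact hgC h
  have hq2 : q ^ 2 = 1 := by
    rw [hq, ← QuotientGroup.mk_pow, QuotientGroup.eq_one_iff, Subgroup.mem_subgroupOf, pow_two]
    exact hg2
  have ho : orderOf q = 2 := orderOf_eq_prime hq2 hq1
  rw [← ho]
  exact orderOf_dvd_natCard q

theorem bad_of_subgroup {G : Type*} [Group G] [Finite G] (M : Subgroup G)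
    (h : ∃ H : Subgroup M, H ≠ ⊥ ∧ ¬ 2 ∣ Nat.card H ∧ ∃ g : M,
      g ∈ Subgroup.normalizer (H : Set M) ∧ g ∉ Subgroup.centralizer (H : Set M) ∧
        g * g ∈ Subgroup.centralizer (H : Set M)) :
    ∃ H : Subgroup G, H ≠ ⊥ ∧ ¬ 2 ∣ Nat.card H ∧ ∃ g : G,
      g ∈ Subgroup.normalizer (H : Set G) ∧ g ∉ Subgroup.centralizer (H : Set G) ∧
        g * g ∈ Subgroup.centralizer (H : Set G) := by
  obtain ⟨H, hH, hodd, g, hgN, hgC, hg2⟩ := h
  refine ⟨H.map M.subtype, ?_, ?_, (g : G), ?_, ?_, ?_⟩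
  · intro h
    apply hH
    rwa [Subgroup.map_eq_bot_iff_of_injective _ (Subgroup.subtype_injective M)] at h
  · rwa [Subgroup.card_map_of_injective (Subgroup.subtype_injective M)]
  · rw [Subgroup.mem_normalizer_iff]
    intro y
    constructor
    · intro hy
      obtain ⟨z, hz, rfl⟩ := Subgroup.mem_map.mp hy
      have := (Subgroup.mem_normalizer_iff.mp hgN z).mp hz
      exact Subgroup.mem_map.mpr ⟨_, this, by simp⟩
    · intro hy
      obtain ⟨z, hz, hzy⟩ := Subgroup.mem_map.mp hy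
      have hz' : g⁻¹ * z * g ∈ H := by
        have := (Subgroup.mem_normalizer_iff.mp hgN (g⁻¹ * z * g)).mpr (by
          have e : g * (g⁻¹ * z * g) * g⁻¹ = z := by group
          rw [e]; exact hz)
        exact this
      refine Subgroup.mem_map.mpr ⟨_, hz', ?_⟩
      simp only [Subgroup.coe_subtype, Subgroup.coe_mul, Subgroup.coe_inv] at hzy ⊢
      rw [hzy]; group
  · intro h
    apply hgC
    rw [Subgroup.mem_centralizer_iff] at h ⊢
    intro z hz
    apply Subtype.ext
    have := h (z : G) (Subgroup.mem_map.mpr ⟨z, hz, rfl⟩)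
    simpa using this
  · rw [Subgroup.mem_centralizer_iff] at hg2 ⊢
    intro y hy
    obtain ⟨z, hz, rfl⟩ := Subgroup.mem_map.mp hy
    have := congrArg Subtype.val (hg2 z hz)
    simpa using this

theorem bad_of_invol {G : Type*} [Group G] [Finite G] (t x : G) (ht : orderOf t = 2) (hx1 : x ≠ 1)
    (hodd : Odd (orderOf x)) (hconj : t * x * t⁻¹ = x⁻¹) :
    ∃ H : Subgroup G, H ≠ ⊥ ∧ ¬ 2 ∣ Nat.card H ∧ ∃ g : G,
      g ∈ Subgroup.normalizer (H : Set G) ∧ g ∉ Subgroup.centralizer (H : Set G) ∧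
        g * g ∈ Subgroup.centralizer (H : Set G) := by
  refine ⟨Subgroup.zpowers x, ?_, ?_, t, ?_, ?_, ?_⟩
  · intro h
    apply hx1
    have := Subgroup.mem_zpowers x
    rwa [h, Subgroup.mem_bot] at this
  · rw [Nat.card_zpowers]; exact hodd.not_two_dvd_nat
  · rw [mem_normalizer_zpowers_iff, hconj]
    exact Subgroup.inv_mem _ (Subgroup.mem_zpowers x)
  · intro h
    rw [Subgroup.mem_centralizer_iff] at h
    have h1 := h x (Subgroup.mem_zpowers x)
    have h2 : x⁻¹ = x := by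
      rw [← hconj, ← h1]; group
    apply hx1
    have h3 : x ^ 2 = 1 := by
      rw [pow_two]
      nth_rewrite 1 [← h2]
      exact inv_mul_cancel x
    have hd : orderOf x ∣ 2 := orderOf_dvd_of_pow_eq_one h3
    have : orderOf x = 1 := by
      rcases (Nat.dvd_prime Nat.prime_two).mp hd with h1 | h1
      · exact h1
      · rw [h1] at hodd; exact absurd hodd (by decide)
    exact orderOf_eq_one_iff.mp this
  · have : t * t = 1 := by
      have h2 : t ^ 2 = 1 := by
        have := pow_orderOf_eq_one t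
        rwa [ht] at this
      rwa [pow_two] at h2
    rw [this]; exact Subgroup.one_mem _

theorem bad_of_quot {G : Type*} [Group G] [Finite G] (D : Subgroup G) [D.Normal]
    (hD : IsPGroup 2 D)
    (h : ∃ H : Subgroup (G ⧸ D), H ≠ ⊥ ∧ ¬ 2 ∣ Nat.card H ∧ ∃ g : G ⧸ D,
      g ∈ Subgroup.normalizer (H : Set (G ⧸ D)) ∧ g ∉ Subgroup.centralizer (H : Set (G ⧸ D)) ∧
        g * g ∈ Subgroup.centralizer (H : Set (G ⧸ D))) :
    ∃ H : Subgroup G, H ≠ ⊥ ∧ ¬ 2 ∣ Nat.card H ∧ ∃ g : G,
      g ∈ Subgroup.normalizer (H : Set G) ∧ g ∉ Subgroup.centralizer (H : Set G) ∧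
        g * g ∈ Subgroup.centralizer (H : Set G) := by
  obtain ⟨H', hH', hodd, h', hN', hC', h2'⟩ := h
  have : Fact (Nat.Prime 2) := ⟨Nat.prime_two⟩
  obtain ⟨k, hk⟩ := IsPGroup.iff_card.mp hD
  have hcop : (Nat.card D).Coprime (Nat.card H') := by
    rw [hk]
    exact Nat.Coprime.pow_left _ ((Nat.Prime.coprime_iff_not_dvd Nat.prime_two).mpr hodd)
  obtain ⟨H, hHmap, hHcard⟩ := exists_lift_subgroup D H' hcop
  obtain ⟨g, hg⟩ := QuotientGroup.mk_surjective h'
  set π := QuotientGroup.mk' D with hπ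
  have hπg : π g = h' := hg
  have hker : π.ker = D := QuotientGroup.ker_mk' D
  set H₂ : Subgroup G := H.map (MulAut.conj g).toMonoidHom with hH₂
  have hm2 : H₂.map π = H' := by
    rw [hH₂, Subgroup.map_map]
    have e : π.comp (MulAut.conj g).toMonoidHom = (MulAut.conj h').toMonoidHom.comp π := by
      ext y
      simp [hπg]
    rw [e, ← Subgroup.map_map, hHmap]
    exact Subgroup.mem_normalizer_iff_map_conj_eq.mp hN'
  have hsup : H ⊔ D = H₂ ⊔ D := by
    have e1 : (H.map π).comap π = H ⊔ D := by rw [Subgroup.comap_map_eq, hker]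
    have e2 : (H₂.map π).comap π = H₂ ⊔ D := by rw [Subgroup.comap_map_eq, hker]
    rw [← e1, ← e2, hHmap, hm2]
  have hc1 : ¬ 2 ∣ Nat.card H := by rw [hHcard]; exact hodd
  have hc2 : ¬ 2 ∣ Nat.card H₂ := by
    rw [hH₂, Subgroup.card_map_of_injective (MulAut.conj g).injective]
    exact hc1
  obtain ⟨u, huD, hu⟩ := sz_conj_pgroup D hD H H₂ hc1 hc2 hsup
  have hπu : π u = 1 := (QuotientGroup.eq_one_iff u).mpr huD
  have hdisj : H ⊓ D = ⊥ := by
    apply (Subgroup.disjoint_of_coprime_natCard _).eq_bot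
    rw [hHcard]; exact hcop.symm
  -- g' = u⁻¹ * g normalizes H
  have hnorm : u⁻¹ * g ∈ Subgroup.normalizer (H : Set G) := by
    rw [Subgroup.mem_normalizer_iff_map_conj_eq]
    show H.map (MulAut.conj (u⁻¹ * g)).toMonoidHom = H
    rw [← map_conj_map_conj, ← hH₂, hu, map_conj_map_conj, inv_mul_cancel]
    ext y
    simp
  have hπg' : π (u⁻¹ * g) = h' := by
    rw [map_mul, map_inv, hπu, inv_one, one_mul, hπg]
  refine ⟨H, ?_, hc1, u⁻¹ * g, hnorm, ?_, ?_⟩
  · intro h
    apply hH'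
    rw [← hHmap, h, Subgroup.map_bot]
  · intro h
    apply hC'
    rw [Subgroup.mem_centralizer_iff] at h ⊢
    intro y' hy'
    rw [← hHmap] at hy'
    obtain ⟨y, hy, rfl⟩ := Subgroup.mem_map.mp hy'
    have e1 : π (y * (u⁻¹ * g)) = π y * h' := by rw [map_mul, hπg']
    have e2 : π (u⁻¹ * g * y) = h' * π y := by rw [map_mul, hπg']
    rw [← e1, ← e2, h y hy]
  · rw [Subgroup.mem_centralizer_iff]
    intro y hy
    set g' := u⁻¹ * g with hg'
    have h1 : g' * g' ∈ Subgroup.normalizer (H : Set G) := Subgroup.mul_mem _ hnorm hnorm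
    have h3 : (g' * g') * y * (g' * g')⁻¹ ∈ H := (Subgroup.mem_normalizer_iff.mp h1 y).mp hy
    have h4 : (g' * g') * y * (g' * g')⁻¹ * y⁻¹ ∈ H := H.mul_mem h3 (H.inv_mem hy)
    have h5 : (g' * g') * y * (g' * g')⁻¹ * y⁻¹ ∈ D := by
      rw [← hker, MonoidHom.mem_ker]
      have hy' : π y ∈ H' := by rw [← hHmap]; exact Subgroup.mem_map_of_mem _ hy
      have h6 := (Subgroup.mem_centralizer_iff.mp h2') (π y) hy'
      simp only [map_mul, map_inv, hπg']
      rw [← h6]; group
    have h7 : (g' * g') * y * (g' * g')⁻¹ * y⁻¹ ∈ H ⊓ D := ⟨h4, h5⟩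
    rw [hdisj, Subgroup.mem_bot] at h7
    have h8 : (g' * g') * y * (g' * g')⁻¹ = y := by
      rwa [mul_inv_eq_one] at h7
    nth_rewrite 1 [← h8]
    group

theorem result {G : Type*} [Group G] [Finite G]
    (hhom : ∀ H : Subgroup G, H ≠ ⊥ → ¬ 2 ∣ Nat.card ↥H →
        ¬ 2 ∣ (Subgroup.centralizer (H : Set G)).relIndex (Subgroup.normalizer (H : Set G))) (P : Sylow 2 G) :
    (P : Subgroup G).Normal := by
  refine two_closed_of_inherited
    (fun (G : Type _) [Group G] => ∃ H : Subgroup G, H ≠ ⊥ ∧ ¬ 2 ∣ Nat.card H ∧ ∃ g : G,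
      g ∈ Subgroup.normalizer (H : Set G) ∧ g ∉ Subgroup.centralizer (H : Set G) ∧
        g * g ∈ Subgroup.centralizer (H : Set G))
    (fun G _ _ M h => bad_of_subgroup M h)
    (fun G _ _ D _ hD h => bad_of_quot D hD h)
    (fun G _ _ t x ht hx1 hodd hconj => bad_of_invol t x ht hx1 hodd hconj)
    (Nat.card G) G rfl ?_ P
  rintro ⟨H, hH, hodd, g, hgN, hgC, hg2⟩
  exact hhom H hH hodd (two_dvd_relIndex H g hgN hgC hg2)

end Cfsg.Agent.S4049
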