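import Mathlib
import Cfsg.Statements.S4050
import Cfsg.Agent.Lib.Helper67.PiClosed

set_option autoImplicit false

namespace Cfsg.Agent.S4050

open Cfsg.Agent.Lib.Helper67

/-- `PiHom` passes to subgroups. -/
theorem piHom_subgroup {G : Type*} [Group G] [Finite G] (π : Set ℕ) (hpow : PiHom π G)
    (M : Subgroup G) : PiHom π M := by
  intro H hH hcard g hgN
  have hne : H.map M.subtype ≠ ⊥ := by
    intro h
    apply hH
    rwa [Subgroup.map_eq_bot_iff_of_injective _ (Subgroup.subtype_injective M)] at h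
  have hcard' : IsPiNum πᶜ (Nat.card (H.map M.subtype)) := by
    rwa [Subgroup.card_map_of_injective (Subgroup.subtype_injective M)]
  have hnorm : (g : G) ∈ Subgroup.normalizer ((H.map M.subtype : Subgroup G) : Set G) := by
    rw [Subgroup.mem_normalizer_iff]
    intro y
    constructor
    · intro hy
      obtain ⟨z, hz, rfl⟩ := Subgroup.mem_map.mp hy
      have := (Subgroup.mem_normalizer_iff.mp hgN z).mp hz
      exact Subgroup.mem_map.mpr ⟨_, this, by simp⟩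
    · intro hy
      obtain ⟨z, hz, hzy⟩ := Subgroup.mem_map.mp hy
      have hz' : g⁻¹ * z * g ∈ H := by
        have := (Subgroup.mem_normalizer_iff.mp hgN (g⁻¹ * z * g)).mpr (by
          have e : g * (g⁻¹ * z * g) * g⁻¹ = z := by group
          rw [e]; exact hz)
        exact this
      refine Subgroup.mem_map.mpr ⟨_, hz', ?_⟩
      simp only [Subgroup.coe_subtype, Subgroup.coe_mul, Subgroup.coe_inv] at hzy ⊢
      rw [hzy]; group
  obtain ⟨c, hc, hgc⟩ := hpow (H.map M.subtype) hne hcard' (g : G) hnorm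
  refine ⟨c, hc, ?_⟩
  rw [Subgroup.mem_centralizer_iff] at hgc ⊢
  intro h hh
  apply Subtype.ext
  have := hgc (h : G) (Subgroup.mem_map.mpr ⟨h, hh, rfl⟩)
  simpa using this

/-- One step up a normal chain. -/
theorem isPiElt_mul_of_le {G : Type*} [Group G] [Finite G] (π : Set ℕ) (hpow : PiHom π G)
    (K₀ M : Subgroup G) [K₀.Normal]
    (hK₀ : ∀ x ∈ K₀, ∀ y ∈ K₀, IsPiElt π x → IsPiElt π y → IsPiElt π (x * y))
    (hfac : IsPiNum π (K₀.relIndex M) ∨ IsPiNum πᶜ (K₀.relIndex M)) :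
    ∀ x ∈ M, ∀ y ∈ M, IsPiElt π x → IsPiElt π y → IsPiElt π (x * y) := by
  have hcardQ : Nat.card (M ⧸ K₀.subgroupOf M) = K₀.relIndex M := by
    rw [Subgroup.relIndex, Subgroup.index_eq_card]
  have key := isPiElt_mul_of_normal π (K₀.subgroupOf M) (piHom_subgroup π hpow M)
    (by
      intro x hx y hy hxπ hyπ
      rw [Subgroup.mem_subgroupOf] at hx hy
      have := hK₀ _ hx _ hy ((isPiElt_coe_iff x).mpr hxπ) ((isPiElt_coe_iff y).mpr hyπ)
      exact (isPiElt_coe_iff (x * y)).mp this)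
    (by
      intro x y hxπ hyπ
      rcases hfac with h | h
      · exact isPiElt_of_isPiNum_card (hcardQ ▸ h) _
      · have hx1 : x = 1 := eq_one_of_isPiElt_of_isPiNum_compl hxπ (hcardQ ▸ h) (pow_card_eq_one')
        have hy1 : y = 1 := eq_one_of_isPiElt_of_isPiNum_compl hyπ (hcardQ ▸ h) (pow_card_eq_one')
        rw [hx1, hy1, one_mul]
        exact isPiElt_one π)
  intro x hx y hy hxπ hyπ
  have := key ⟨x, hx⟩ ⟨y, hy⟩ ((isPiElt_coe_iff (⟨x, hx⟩ : M)).mp hxπ)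
    ((isPiElt_coe_iff (⟨y, hy⟩ : M)).mp hyπ)
  exact (isPiElt_coe_iff ((⟨x, hx⟩ : M) * ⟨y, hy⟩)).mpr this

theorem backward {G : Type*} [Group G] [Finite G] (π : Set ℕ)
    (n : ℕ) (H : Fin (n + 1) → Subgroup G) (h0 : H 0 = ⊥) (hlast : H (Fin.last n) = ⊤)
    (hnorm : ∀ i, (H i).Normal)
    (hfac : ∀ i : Fin n, (∀ q : ℕ, q.Prime → q ∣ (H i.castSucc).relIndex (H i.succ) → q ∈ π) ∨
        (∀ q : ℕ, q.Prime → q ∣ (H i.castSucc).relIndex (H i.succ) → q ∉ π))
    (hRC : ∀ H : Subgroup G, H ≠ ⊥ → (∀ p : ℕ, p.Prime → p ∣ Nat.card ↥H → p ∉ π) →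
        ∀ p : ℕ, p.Prime → p ∣ (Subgroup.centralizer (H : Set G)).relIndex
          (Subgroup.normalizer (H : Set G)) → p ∉ π) :
    ∀ x y : G, IsPiElt π x → IsPiElt π y → IsPiElt π (x * y) := by
  have hpow : PiHom π G := piHom_of_relIndex π hRC
  have key : ∀ i : ℕ, ∀ hi : i < n + 1, ∀ x ∈ H ⟨i, hi⟩, ∀ y ∈ H ⟨i, hi⟩,
      IsPiElt π x → IsPiElt π y → IsPiElt π (x * y) := by
    intro i
    induction i with
    | zero =>
      intro hi x hx y hy _ _
      have e : (⟨0, hi⟩ : Fin (n + 1)) = 0 := rfl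
      rw [e, h0, Subgroup.mem_bot] at hx hy
      rw [hx, hy, one_mul]
      exact isPiElt_one π
    | succ i ih =>
      intro hi
      have hi' : i < n := by omega
      have := hnorm (Fin.castSucc ⟨i, hi'⟩)
      exact isPiElt_mul_of_le π hpow (H (Fin.castSucc ⟨i, hi'⟩)) (H (Fin.succ ⟨i, hi'⟩))
        (ih (by omega)) (hfac ⟨i, hi'⟩)
  intro x y hx hy
  have h1 := key n (by omega) x (by
    have e : (⟨n, by omega⟩ : Fin (n + 1)) = Fin.last n := rfl
    rw [e, hlast]; exact Subgroup.mem_top x) y (by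
    have e : (⟨n, by omega⟩ : Fin (n + 1)) = Fin.last n := rfl
    rw [e, hlast]; exact Subgroup.mem_top y)
  exact h1 hx hy

theorem forward_chain {G : Type*} [Group G] [Finite G] (π : Set ℕ) (K : Subgroup G)
    (hK : ∀ x : G, x ∈ K ↔ ∀ p : ℕ, p.Prime → p ∣ orderOf x → p ∈ π) :
    ∃ (n : ℕ) (H : Fin (n + 1) → Subgroup G), H 0 = ⊥ ∧ H (Fin.last n) = ⊤ ∧ Monotone H ∧
      (∀ i, (H i).Normal) ∧
      ∀ i : Fin n, (∀ q : ℕ, q.Prime → q ∣ (H i.castSucc).relIndex (H i.succ) → q ∈ π) ∨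
        (∀ q : ℕ, q.Prime → q ∣ (H i.castSucc).relIndex (H i.succ) → q ∉ π) := by
  have hKn : K.Normal := ⟨fun k hk g => (hK _).mpr (isPiElt_conj ((hK k).mp hk) g)⟩
  refine ⟨2, ![⊥, K, ⊤], rfl, rfl, ?_, ?_, ?_⟩
  · rw [Fin.monotone_iff_le_succ]
    intro i
    fin_cases i
    · exact bot_le
    · exact le_top
  · intro i
    fin_cases i
    · exact Subgroup.normal_bot
    · exact hKn
    · exact Subgroup.normal_top
  · intro i
    fin_cases i
    · left
      intro q hq hdvd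
      have e : (![⊥, K, ⊤] : Fin 3 → Subgroup G) (Fin.castSucc (0 : Fin 2)) = ⊥ := rfl
      have e' : (![⊥, K, ⊤] : Fin 3 → Subgroup G) (Fin.succ (0 : Fin 2)) = K := rfl
      simp only [Fin.zero_eta] at hdvd
      rw [e, e', Subgroup.relIndex_bot_left] at hdvd
      exact isPiNum_card_of_forall_isPiElt
        (fun k : K => (isPiElt_coe_iff k).mp ((hK k).mp k.2)) q hq hdvd
    · right
      intro q hq hdvd hqπ
      have e : (![⊥, K, ⊤] : Fin 3 → Subgroup G) (Fin.castSucc (1 : Fin 2)) = K := rfl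
      have e' : (![⊥, K, ⊤] : Fin 3 → Subgroup G) (Fin.succ (1 : Fin 2)) = ⊤ := rfl
      simp only [Fin.mk_one] at hdvd
      rw [e, e', Subgroup.relIndex_top_right] at hdvd
      obtain ⟨g, hg, a, hga⟩ := exists_pElt_not_mem_of_prime_dvd_index K q hq hdvd
      exact hg ((hK g).mpr (isPiElt_of_pow_eq_one (isPiNum_prime_pow hq hqπ a) hga))

theorem forward_hom {G : Type*} [Group G] [Finite G] (π : Set ℕ) (K : Subgroup G)
    (hK : ∀ x : G, x ∈ K ↔ ∀ p : ℕ, p.Prime → p ∣ orderOf x → p ∈ π) :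
    ∀ H : Subgroup G, H ≠ ⊥ → (∀ p : ℕ, p.Prime → p ∣ Nat.card ↥H → p ∉ π) →
        ∀ p : ℕ, p.Prime → p ∣ (Subgroup.centralizer (H : Set G)).relIndex
          (Subgroup.normalizer (H : Set G)) → p ∉ π := by
  have hKn : K.Normal := ⟨fun k hk g => (hK _).mpr (isPiElt_conj ((hK k).mp hk) g)⟩
  intro H _ hHpi p hp hdvd hpπ
  have hn : ((Subgroup.centralizer (H : Set G)).subgroupOf (Subgroup.normalizer (H : Set G))).Normal :=
    Subgroup.normal_subgroupOf_centralizer_normalizer _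
  rw [Subgroup.relIndex] at hdvd
  obtain ⟨g, hg, a, hga⟩ := exists_pElt_not_mem_of_prime_dvd_index _ p hp hdvd
  apply hg
  rw [Subgroup.mem_subgroupOf, Subgroup.mem_centralizer_iff]
  have hgK : (g : G) ∈ K := by
    apply (hK _).mpr
    apply isPiElt_of_pow_eq_one (isPiNum_prime_pow hp hpπ a)
    have := congrArg Subtype.val hga
    simpa using this
  intro h hh
  set z : G := (g : G) * h * (g : G)⁻¹ * h⁻¹ with hz
  have hzK : z ∈ K := by
    have h1 : h * (g : G)⁻¹ * h⁻¹ ∈ K := hKn.conj_mem _ (K.inv_mem hgK) h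
    have e : z = (g : G) * (h * (g : G)⁻¹ * h⁻¹) := by rw [hz]; group
    rw [e]
    exact K.mul_mem hgK h1
  have hzH : z ∈ H := by
    have h1 : (g : G) * h * (g : G)⁻¹ ∈ H := (Subgroup.mem_normalizer_iff.mp g.2 h).mp hh
    exact H.mul_mem h1 (H.inv_mem hh)
  have hzπ : IsPiElt π z := (hK z).mp hzK
  have hzpow : z ^ Nat.card H = 1 := by
    have h1 : orderOf (⟨z, hzH⟩ : H) ∣ Nat.card H := orderOf_dvd_natCard _
    rw [Subgroup.orderOf_mk] at h1
    exact orderOf_dvd_iff_pow_eq_one.mp h1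
  have hz1 : z = 1 := eq_one_of_isPiElt_of_isPiNum_compl hzπ hHpi hzpow
  rw [hz, mul_inv_eq_one, mul_inv_eq_iff_eq_mul] at hz1
  exact hz1.symm

theorem result {G : Type*} [Group G] [Finite G] (π : Set ℕ)
    (hπ : ∀ p ∈ π, p.Prime) :
    (∃ K : Subgroup G, ∀ x : G, x ∈ K ↔ ∀ p : ℕ, p.Prime → p ∣ orderOf x → p ∈ π) ↔
    ((∃ (n : ℕ) (H : Fin (n + 1) → Subgroup G), H 0 = ⊥ ∧ H (Fin.last n) = ⊤ ∧ Monotone H ∧ (∀ i, (H i).Normal) ∧
      ∀ i : Fin n, (∀ q : ℕ, q.Prime → q ∣ (H i.castSucc).relIndex (H i.succ) → q ∈ π) ∨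
        (∀ q : ℕ, q.Prime → q ∣ (H i.castSucc).relIndex (H i.succ) → q ∉ π)) ∧
     (∀ H : Subgroup G, H ≠ ⊥ → (∀ p : ℕ, p.Prime → p ∣ Nat.card ↥H → p ∉ π) →
        ∀ p : ℕ, p.Prime → p ∣ (Subgroup.centralizer (H : Set G)).relIndex (Subgroup.normalizer (H : Set G)) → p ∉ π)) := by
  constructor
  · rintro ⟨K, hK⟩
    exact ⟨forward_chain π K hK, forward_hom π K hK⟩
  · rintro ⟨⟨n, H, h0, hlast, _, hnorm, hfac⟩, hRC⟩
    rw [exists_subgroup_iff_mul]
    exact backward π n H h0 hlast hnorm hfac hRC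

end Cfsg.Agent.S4050
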