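import Mathlib
import Cfsg.Statements.S4051
import Cfsg.Agent.Lib.Helper67.PiClosed

set_option autoImplicit false

namespace Cfsg.Agent.S4051

open Cfsg.Agent.Lib.Helper67

theorem result {G : Type*} [Group G] [Finite G] (π : Set ℕ)
    (hπ : ∀ p ∈ π, p.Prime) (hhom : (∀ H : Subgroup G, H ≠ ⊥ → (∀ p : ℕ, p.Prime → p ∣ Nat.card ↥H → p ∉ π) →
        ∀ p : ℕ, p.Prime → p ∣ (Subgroup.centralizer (H : Set G)).relIndex (Subgroup.normalizer (H : Set G)) → p ∉ π))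
    (K : Subgroup G) [K.Normal]
    (hK : ∃ L : Subgroup ↥K, ∀ x : ↥K, x ∈ L ↔ ∀ p : ℕ, p.Prime → p ∣ orderOf x → p ∈ π)
    (hQ : ∃ L : Subgroup (G ⧸ K), ∀ x : G ⧸ K, x ∈ L ↔ ∀ p : ℕ, p.Prime → p ∣ orderOf x → p ∈ π) :
    (∃ K : Subgroup G, ∀ x : G, x ∈ K ↔ ∀ p : ℕ, p.Prime → p ∣ orderOf x → p ∈ π) := by
  have hK' := (exists_subgroup_iff_mul π).mp hK
  have hQ' := (exists_subgroup_iff_mul π).mp hQ
  rw [exists_subgroup_iff_mul]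
  apply isPiElt_mul_of_normal π K (piHom_of_relIndex π hhom) _ hQ'
  intro x hx y hy hxπ hyπ
  have := hK' ⟨x, hx⟩ ⟨y, hy⟩ ((isPiElt_coe_iff (⟨x, hx⟩ : K)).mp hxπ)
    ((isPiElt_coe_iff (⟨y, hy⟩ : K)).mp hyπ)
  exact (isPiElt_coe_iff ((⟨x, hx⟩ : K) * ⟨y, hy⟩)).mpr this

end Cfsg.Agent.S4051
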