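import Cfsg.Statements.S4065
import Cfsg.Agent.Lib.Helper59.PSL2Char2

set_option autoImplicit false
open Cfsg

namespace Cfsg.Agent.S4065

/-- Let F be a finite field with 2ⁿ elements, n ≥ 2. In PSL₂(F) the centralizer of every element meets each of its conjugates by elements outside its normalizer trivially. -/
theorem result (n : ℕ) (hn : 2 ≤ n)
    (x : Matrix.ProjectiveSpecialLinearGroup (Fin 2) (GaloisField 2 n)) :
    Cfsg.IsTISubset (Subgroup.centralizer ({x} : Set (Matrix.ProjectiveSpecialLinearGroup (Fin 2) (GaloisField 2 n))) :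
      Set (Matrix.ProjectiveSpecialLinearGroup (Fin 2) (GaloisField 2 n))) := by
  haveI : CharP (GaloisField 2 n) 2 := inferInstance
  exact Cfsg.Agent.Lib.Helper59.psl2_char2_centralizer_ti x

end Cfsg.Agent.S4065
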