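import Mathlib
import Cfsg.Statements.S4066

set_option autoImplicit false
open Cfsg
open scoped Pointwise

namespace Cfsg.Agent.S4066

/-- The closure of a set of pairwise commuting `p`-elements is a `p`-group. -/
theorem isPGroup_closure_of_commute {G : Type*} [Group G] (p : ℕ) (S : Set G)
    (hcomm : ∀ a ∈ S, ∀ b ∈ S, Commute a b) (hp : ∀ a ∈ S, ∃ n : ℕ, a ^ p ^ n = 1) :
    IsPGroup p (Subgroup.closure S) := by
  have h1 : ∀ k ∈ Subgroup.closure S, ∀ s ∈ S, Commute k s := by
    intro k hk s hs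
    induction hk using Subgroup.closure_induction with
    | mem x hx => exact hcomm x hx s hs
    | one => exact Commute.one_left s
    | mul x y _ _ hx hy => exact hx.mul_left hy
    | inv x _ hx => exact hx.inv_left
  have h2 : ∀ k ∈ Subgroup.closure S, ∀ k' ∈ Subgroup.closure S, Commute k k' := by
    intro k hk k' hk'
    induction hk' using Subgroup.closure_induction with
    | mem x hx => exact h1 k hk x hx
    | one => exact Commute.one_right k
    | mul x y _ _ hx hy => exact hx.mul_right hy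
    | inv x _ hx => exact hx.inv_right
  have h3 : ∀ k ∈ Subgroup.closure S, ∃ n : ℕ, k ^ p ^ n = 1 := by
    intro k hk
    induction hk using Subgroup.closure_induction with
    | mem x hx => exact hp x hx
    | one => exact ⟨0, one_pow _⟩
    | mul x y hx hy ihx ihy =>
      obtain ⟨n, hn⟩ := ihx
      obtain ⟨m, hm⟩ := ihy
      refine ⟨n + m, ?_⟩
      rw [(h2 x hx y hy).mul_pow, pow_add, pow_mul, hn, one_pow, mul_comm (p ^ n), pow_mul, hm,
        one_pow, one_mul]
    | inv x _ ihx =>
      obtain ⟨n, hn⟩ := ihx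
      exact ⟨n, by rw [inv_pow, hn, inv_one]⟩
  intro k
  obtain ⟨n, hn⟩ := h3 k k.2
  exact ⟨n, Subtype.ext (by simpa using hn)⟩

/-- Let G be a finite group in which the centralizer of every element meets each of its conjugates by elements outside its normalizer trivially. Then any two distinct Sylow p-subgroups of G, for any prime p, intersect trivially. -/
theorem result {G : Type*} [Group G] [Finite G] (hTI : ∀ x : G, Cfsg.IsTISubset (Subgroup.centralizer ({x} : Set G) : Set G))
    {p : ℕ} [Fact p.Prime] (P Q : Sylow p G) (hPQ : P ≠ Q) : (P : Subgroup G) ⊓ (Q : Subgroup G) = ⊥ := by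
  by_contra hne
  obtain ⟨y, hy, hy1⟩ : ∃ y ∈ (P : Subgroup G) ⊓ (Q : Subgroup G), y ≠ 1 := by
    by_contra hcon
    push Not at hcon
    exact hne ((Subgroup.eq_bot_iff_forall _).mpr hcon)
  obtain ⟨hyP, hyQ⟩ := Subgroup.mem_inf.mp hy
  -- a nontrivial central element of P
  have : Nontrivial (P : Subgroup G) :=
    ⟨⟨⟨y, hyP⟩, 1, fun h => hy1 (congrArg Subtype.val h)⟩⟩
  have := P.isPGroup'.center_nontrivial
  obtain ⟨z', hz'⟩ := exists_ne (1 : Subgroup.center (P : Subgroup G))
  set z : G := ((z' : (P : Subgroup G)) : G) with hz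
  have hz1 : z ≠ 1 := by
    intro h
    apply hz'
    apply Subtype.ext
    apply Subtype.ext
    exact h
  have hzP : ∀ x ∈ (P : Subgroup G), x * z = z * x := by
    intro x hx
    have := (Subgroup.mem_center_iff.mp z'.2) ⟨x, hx⟩
    exact congrArg Subtype.val this
  set C := Subgroup.centralizer ({z} : Set G) with hC
  have hPC : (P : Subgroup G) ≤ C := by
    intro x hx
    rw [hC, Subgroup.mem_centralizer_singleton_iff]
    exact hzP x hx
  -- conjugacy of Sylow subgroups
  obtain ⟨g, hg⟩ := MulAction.exists_smul_eq G P Q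
  have hQ : ∀ x : G, x ∈ (Q : Subgroup G) ↔ g⁻¹ * x * g ∈ (P : Subgroup G) := by
    intro x
    rw [← hg, Sylow.coe_subgroup_smul, Subgroup.mem_pointwise_smul_iff_inv_smul_mem]
    simp [MulAut.smul_def]
  -- g normalizes C
  have hgN : g⁻¹ ∈ Subgroup.normalizer (C : Set G) := by
    by_contra hnot
    apply hy1
    apply hTI z g⁻¹ hnot y (hPC hyP)
    have := hPC ((hQ y).mp hyQ)
    simpa using this
  have hQC : (Q : Subgroup G) ≤ C := by
    intro x hx
    have h1 := hPC ((hQ x).mp hx)
    have h2 := (Subgroup.mem_normalizer_iff.mp hgN x).mpr (by simpa using h1)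
    exact h2
  -- every x ∈ P commutes with its C-conjugates
  have hconj : ∀ x ∈ (P : Subgroup G), ∀ h ∈ C, Commute (h * x * h⁻¹) x := by
    intro x hx h hh
    have hzx : z ∈ Subgroup.centralizer ({x} : Set G) := by
      rw [Subgroup.mem_centralizer_singleton_iff]
      exact (hzP x hx).symm
    have hhN : h ∈ Subgroup.normalizer ((Subgroup.centralizer ({x} : Set G)) : Set G) := by
      by_contra hnot
      apply hz1
      apply hTI x h hnot z hzx
      have : h * z * h⁻¹ = z := by
        have := Subgroup.mem_centralizer_singleton_iff.mp hh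
        rw [this]; group
      rw [this]; exact hzx
    have hxx : x ∈ Subgroup.centralizer ({x} : Set G) :=
      Subgroup.mem_centralizer_singleton_iff.mpr rfl
    have := (Subgroup.mem_normalizer_iff.mp hhN x).mp hxx
    exact (Subgroup.mem_centralizer_singleton_iff.mp this)
  -- P ≤ Q
  have hPQle : (P : Subgroup G) ≤ (Q : Subgroup G) := by
    intro x hx
    set S : Set G := {w | ∃ h ∈ (Q : Subgroup G), w = h * x * h⁻¹} with hS
    have hScomm : ∀ a ∈ S, ∀ b ∈ S, Commute a b := by
      rintro a ⟨h₁, hh₁, rfl⟩ b ⟨h₂, hh₂, rfl⟩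
      have h3 : Commute ((h₁⁻¹ * h₂) * x * (h₁⁻¹ * h₂)⁻¹) x :=
        hconj x hx _ (hQC (Q.mul_mem (Q.inv_mem hh₁) hh₂))
      have h4 : h₁ * x * h₁⁻¹ * (h₂ * x * h₂⁻¹) =
          h₁ * (x * ((h₁⁻¹ * h₂) * x * (h₁⁻¹ * h₂)⁻¹)) * h₁⁻¹ := by group
      have h5 : h₂ * x * h₂⁻¹ * (h₁ * x * h₁⁻¹) =
          h₁ * (((h₁⁻¹ * h₂) * x * (h₁⁻¹ * h₂)⁻¹) * x) * h₁⁻¹ := by group
      show h₁ * x * h₁⁻¹ * (h₂ * x * h₂⁻¹) = h₂ * x * h₂⁻¹ * (h₁ * x * h₁⁻¹)
      rw [h4, h5, h3.eq]
    have hSp : ∀ a ∈ S, ∃ n : ℕ, a ^ p ^ n = 1 := by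
      rintro a ⟨h, hh, rfl⟩
      obtain ⟨n, hn⟩ := P.isPGroup' ⟨x, hx⟩
      have hn' : x ^ p ^ n = 1 := by
        have := congrArg Subtype.val hn
        simpa using this
      refine ⟨n, ?_⟩
      rw [conj_pow, hn']; group
    have hKp : IsPGroup p (Subgroup.closure S) := isPGroup_closure_of_commute p S hScomm hSp
    have hQN : (Q : Subgroup G) ≤ Subgroup.normalizer (Subgroup.closure S : Set G) := by
      rw [Subgroup.le_normalizer_closure_iff]
      rintro h hh w ⟨h', hh', rfl⟩
      apply Subgroup.subset_closure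
      exact ⟨h * h', Q.mul_mem hh hh', by group⟩
    have hsup : IsPGroup p (Subgroup.closure S ⊔ (Q : Subgroup G) : Subgroup G) :=
      hKp.to_sup_of_normal_left' Q.isPGroup' hQN
    have heq := Q.is_maximal' hsup le_sup_right
    have hxS : x ∈ Subgroup.closure S :=
      Subgroup.subset_closure ⟨1, Q.one_mem, by group⟩
    have : x ∈ Subgroup.closure S ⊔ (Q : Subgroup G) := Subgroup.mem_sup_left hxS
    rw [heq] at this
    exact this
  have := P.is_maximal' Q.isPGroup' hPQle
  exact hPQ (Sylow.ext this.symm)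

end Cfsg.Agent.S4066
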