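import Mathlib
import Cfsg.Statements.S4071

set_option autoImplicit false
open Cfsg

namespace Cfsg.Agent.S4071

open scoped Pointwise

theorem backward {G : Type*} [Group G] [Finite G]
    (x : G) (A : Subgroup G) (p : ℕ) (hp : p.Prime) (hAn : A.Normal) (hAc : IsMulCommutative A)
    (hxo : ∃ k : ℕ, orderOf x = p ^ k)
    (hcompl : (Subgroup.zpowers x).IsComplement' A) (hxp : x ^ p ∈ Subgroup.center G)
    (hfpf : ∀ a : G, a ∈ A → a ≠ 1 → x * a * x⁻¹ ≠ a) :
    ∀ H : Subgroup G, ¬ IsMulCommutative H → Subgroup.normalizer (H : Set G) = H := by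
  intro H hH
  have hAcomm : ∀ a ∈ A, ∀ b ∈ A, a * b = b * a := fun a ha b hb =>
    congrArg Subtype.val (hAc.is_comm.comm ⟨a, ha⟩ ⟨b, hb⟩)
  have hdec : ∀ g : G, ∃ i : ℕ, ∃ a ∈ A, g = x ^ i * a := by
    intro g
    obtain ⟨⟨z, a⟩, hza⟩ := hcompl.2 g
    obtain ⟨i, hi⟩ := (mem_powers_iff_mem_zpowers.2 z.2)
    refine ⟨i, a, a.2, ?_⟩
    rw [← hza]
    simp only
    rw [← hi]
  have hex : ∃ h₁ ∈ H, ∃ h₂ ∈ H, h₁ * h₂ ≠ h₂ * h₁ := by
    by_contra hcon
    push Not at hcon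
    exact hH ⟨⟨fun a b => Subtype.ext (hcon a a.2 b b.2)⟩⟩
  have hg : ∃ g ∈ H, ∃ i : ℕ, ∃ a ∈ A, g = x ^ i * a ∧ ¬ p ∣ i := by
    obtain ⟨h₁, hh₁, h₂, hh₂, hne⟩ := hex
    obtain ⟨i₁, a₁, ha₁, rfl⟩ := hdec h₁
    obtain ⟨i₂, a₂, ha₂, rfl⟩ := hdec h₂
    by_cases hp1 : p ∣ i₁
    · by_cases hp2 : p ∣ i₂
      · exfalso
        apply hne
        obtain ⟨j₁, rfl⟩ := hp1
        obtain ⟨j₂, rfl⟩ := hp2
        have hc1 : ∀ g : G, g * x ^ (p * j₁) = x ^ (p * j₁) * g := by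
          intro g
          rw [pow_mul]
          exact Subgroup.mem_center_iff.1 (Subgroup.pow_mem _ hxp j₁) g
        have hc2 : ∀ g : G, g * x ^ (p * j₂) = x ^ (p * j₂) * g := by
          intro g
          rw [pow_mul]
          exact Subgroup.mem_center_iff.1 (Subgroup.pow_mem _ hxp j₂) g
        calc x ^ (p * j₁) * a₁ * (x ^ (p * j₂) * a₂)
            = x ^ (p * j₁) * (a₁ * x ^ (p * j₂)) * a₂ := by group
          _ = x ^ (p * j₁) * (x ^ (p * j₂) * a₁) * a₂ := by rw [hc2 a₁]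
          _ = (x ^ (p * j₁) * x ^ (p * j₂)) * (a₁ * a₂) := by group
          _ = (x ^ (p * j₂) * x ^ (p * j₁)) * (a₂ * a₁) := by
              rw [hAcomm a₁ ha₁ a₂ ha₂, ← pow_add, ← pow_add, add_comm]
          _ = x ^ (p * j₂) * (x ^ (p * j₁) * a₂) * a₁ := by group
          _ = x ^ (p * j₂) * (a₂ * x ^ (p * j₁)) * a₁ := by rw [hc1 a₂]
          _ = x ^ (p * j₂) * a₂ * (x ^ (p * j₁) * a₁) := by group
      · exact ⟨_, hh₂, i₂, a₂, ha₂, rfl, hp2⟩
    · exact ⟨_, hh₁, i₁, a₁, ha₁, rfl, hp1⟩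
  obtain ⟨g, hgH, i, a, ha, hgia, hpi⟩ := hg
  obtain ⟨k, hk⟩ := hxo
  have hcop : Nat.Coprime i (orderOf x) := by
    rw [hk]
    exact Nat.Coprime.pow_right k (Nat.Coprime.symm ((Nat.Prime.coprime_iff_not_dvd hp).2 hpi))
  obtain ⟨j, hj⟩ := exists_pow_eq_self_of_coprime hcop
  have hgconj : ∀ b ∈ A, g * b * g⁻¹ = x ^ i * b * (x ^ i)⁻¹ := by
    intro b hb
    rw [hgia]
    have := hAcomm a ha b hb
    calc x ^ i * a * b * (x ^ i * a)⁻¹ = x ^ i * (a * b) * a⁻¹ * (x ^ i)⁻¹ := by group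
      _ = x ^ i * (b * a) * a⁻¹ * (x ^ i)⁻¹ := by rw [this]
      _ = x ^ i * b * (x ^ i)⁻¹ := by group
  have hgfpf : ∀ b ∈ A, g * b * g⁻¹ = b → b = 1 := by
    intro b hb hgb
    rw [hgconj b hb] at hgb
    by_contra hb1
    apply hfpf b hb hb1
    have h1 : Commute (x ^ i) b := by
      have : x ^ i * b = b * x ^ i := by
        calc x ^ i * b = (x ^ i * b * (x ^ i)⁻¹) * x ^ i := by group
          _ = b * x ^ i := by rw [hgb]
      exact this
    have h2 : Commute x b := by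
      have := h1.pow_left j
      rwa [hj] at this
    calc x * b * x⁻¹ = b * x * x⁻¹ := by rw [h2.eq]
      _ = b := by group
  let π := QuotientGroup.mk' A
  have hπa : ∀ a ∈ A, π a = 1 := fun a ha => (QuotientGroup.eq_one_iff a).2 ha
  have hπg : π g ^ j = π x := by
    rw [hgia, map_mul, hπa a ha, mul_one, ← map_pow, hj]
  have hgen : ∀ n : G, ∃ m : ℕ, ∃ c ∈ A, n = c * g ^ m := by
    intro n
    obtain ⟨l, b, hb, rfl⟩ := hdec n
    refine ⟨j * l, x ^ l * b * (g ^ (j * l))⁻¹, ?_, by group⟩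
    have : π (x ^ l * b * (g ^ (j * l))⁻¹) = 1 := by
      simp only [map_mul, map_pow, map_inv, hπa b hb, mul_one, pow_mul, hπg, mul_inv_cancel]
    exact (QuotientGroup.eq_one_iff _).1 this
  apply le_antisymm _ Subgroup.le_normalizer
  intro n hn
  obtain ⟨m, c, hc, rfl⟩ := hgen n
  have hgm : g ^ m ∈ H := H.pow_mem hgH m
  have hcN : c ∈ Subgroup.normalizer (H : Set G) := by
    have : c = c * g ^ m * (g ^ m)⁻¹ := by group
    rw [this]
    exact Subgroup.mul_mem _ hn (Subgroup.inv_mem _ (Subgroup.le_normalizer hgm))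
  suffices hcH : c ∈ H from H.mul_mem hcH hgm
  have hφH : c * g * c⁻¹ * g⁻¹ ∈ H :=
    H.mul_mem ((Subgroup.mem_normalizer_iff.1 hcN g).1 hgH) (H.inv_mem hgH)
  have hφA : ∀ c ∈ A, c * g * c⁻¹ * g⁻¹ ∈ A := by
    intro c hc
    have : c * g * c⁻¹ * g⁻¹ = c * (g * c⁻¹ * g⁻¹) := by group
    rw [this]
    exact A.mul_mem hc (hAn.conj_mem _ (A.inv_mem hc) g)
  have hφinj : ∀ c ∈ A, ∀ c' ∈ A, c * g * c⁻¹ * g⁻¹ = c' * g * c'⁻¹ * g⁻¹ → c = c' := by
    intro c hc c' hc' h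
    have h1 : c * g * c⁻¹ = c' * g * c'⁻¹ := mul_right_cancel h
    have h3 : c'⁻¹ * c * g = g * (c'⁻¹ * c) := by
      calc c'⁻¹ * c * g = c'⁻¹ * (c * g * c⁻¹) * c := by group
        _ = c'⁻¹ * (c' * g * c'⁻¹) * c := by rw [h1]
        _ = g * (c'⁻¹ * c) := by group
    have h2 : g * (c'⁻¹ * c) * g⁻¹ = c'⁻¹ * c := by
      rw [← h3]
      group
    have h4 := hgfpf (c'⁻¹ * c) (A.mul_mem (A.inv_mem hc') hc) h2
    exact (inv_mul_eq_one.1 h4).symm
  classical
  have : Fintype G := Fintype.ofFinite G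
  let S : Finset G := Finset.univ.filter (fun c => c ∈ H ∧ c ∈ A)
  have hSmem : ∀ c, c ∈ S ↔ c ∈ H ∧ c ∈ A := by
    intro c
    simp [S]
  have hmaps : Set.MapsTo (fun c => c * g * c⁻¹ * g⁻¹) S S := by
    intro c hc
    have hc' := (hSmem c).1 hc
    exact (hSmem _).2 ⟨H.mul_mem (H.mul_mem (H.mul_mem hc'.1 hgH) (H.inv_mem hc'.1))
      (H.inv_mem hgH), hφA c hc'.2⟩
  have hinjS : Set.InjOn (fun c => c * g * c⁻¹ * g⁻¹) S := by
    intro c hc c' hc' h
    exact hφinj c ((hSmem c).1 hc).2 c' ((hSmem c').1 hc').2 h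
  have hsurj : Set.SurjOn (fun c => c * g * c⁻¹ * g⁻¹) S S :=
    Finset.surjOn_of_injOn_of_card_le _ hmaps hinjS le_rfl
  have hφS : c * g * c⁻¹ * g⁻¹ ∈ (S : Set G) := (hSmem _).2 ⟨hφH, hφA c hc⟩
  obtain ⟨c', hc', hcc'⟩ := hsurj hφS
  have hc'2 : c' ∈ H ∧ c' ∈ A := (hSmem c').1 hc'
  have : c' = c := hφinj c' hc'2.2 c hc hcc'
  rw [← this]
  exact hc'2.1

/-- If `x` (a `p`-element) commutes with `[a, x]` for `a` in a normal abelian `p'`-subgroup,
then `[a, x] = 1`. -/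
theorem comm_eq_one {G : Type*} [Group G] [Finite G] (A : Subgroup G) (hAn : A.Normal)
    (p : ℕ) (hp : p.Prime) (hpA : ¬ p ∣ Nat.card A)
    (x : G) (k : ℕ) (hxo : orderOf x = p ^ k) (a : G) (ha : a ∈ A)
    (hcomm : x * (a * x * a⁻¹ * x⁻¹) = (a * x * a⁻¹ * x⁻¹) * x) : a * x * a⁻¹ * x⁻¹ = 1 := by
  set c := a * x * a⁻¹ * x⁻¹ with hc
  have hcA : c ∈ A := by
    have : c = a * (x * a⁻¹ * x⁻¹) := by rw [hc]; group
    rw [this]
    exact A.mul_mem ha (hAn.conj_mem _ (A.inv_mem ha) x)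
  have h1 : x * a * x⁻¹ = c⁻¹ * a := by rw [hc]; group
  have hxc : ∀ n : ℕ, x * (c ^ n)⁻¹ = (c ^ n)⁻¹ * x := by
    intro n
    have : Commute x c := hcomm
    exact ((this.pow_right n).inv_right).eq
  have h2 : ∀ j : ℕ, x ^ j * a * (x ^ j)⁻¹ = (c ^ j)⁻¹ * a := by
    intro j
    induction j with
    | zero => simp
    | succ j ih =>
      calc x ^ (j + 1) * a * (x ^ (j + 1))⁻¹ = x * (x ^ j * a * (x ^ j)⁻¹) * x⁻¹ := by
            rw [pow_succ']; group
        _ = x * ((c ^ j)⁻¹ * a) * x⁻¹ := by rw [ih]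
        _ = (x * (c ^ j)⁻¹) * a * x⁻¹ := by group
        _ = (c ^ j)⁻¹ * x * a * x⁻¹ := by rw [hxc]
        _ = (c ^ j)⁻¹ * (x * a * x⁻¹) := by group
        _ = (c ^ j)⁻¹ * (c⁻¹ * a) := by rw [h1]
        _ = (c ^ (j + 1))⁻¹ * a := by rw [pow_succ]; group
  have h3 := h2 (orderOf x)
  rw [pow_orderOf_eq_one] at h3
  have h4 : c ^ orderOf x = 1 := by
    have h5 : (c ^ orderOf x)⁻¹ * a = 1 * a := by
      rw [one_mul, ← h3]
      group
    exact inv_eq_one.1 (mul_right_cancel h5)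
  have h5 : orderOf c ∣ p ^ k := by
    rw [← hxo]
    exact orderOf_dvd_of_pow_eq_one h4
  have h6 : orderOf c ∣ Nat.card A := Subgroup.orderOf_dvd_natCard A hcA
  obtain ⟨e, _, he⟩ := (Nat.dvd_prime_pow hp).1 h5
  rcases Nat.eq_zero_or_pos e with rfl | hepos
  · rw [pow_zero, orderOf_eq_one_iff] at he
    exact he
  · exfalso
    apply hpA
    rw [he] at h6
    exact (dvd_pow_self p hepos.ne').trans h6

theorem forward {G : Type*} [Group G] [Finite G] [Group.IsSolvable G]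
    (hnn : ¬ Group.IsNilpotent G)
    (hS : ∀ H : Subgroup G, ¬ IsMulCommutative H → Subgroup.normalizer (H : Set G) = H) :
    ∃ (x : G) (A : Subgroup G) (p : ℕ), p.Prime ∧ A.Normal ∧ IsMulCommutative A ∧
      (∃ k : ℕ, orderOf x = p ^ k) ∧
      ¬ p ∣ Nat.card A ∧ (Subgroup.zpowers x).IsComplement' A ∧ x ^ p ∈ Subgroup.center G ∧
      ∀ a : G, a ∈ A → a ≠ 1 → x * a * x⁻¹ ≠ a := by
  classical
  -- 1. proper normal subgroups are commutative
  have hN : ∀ N : Subgroup G, N.Normal → N ≠ ⊤ → ∀ a ∈ N, ∀ b ∈ N, a * b = b * a := by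
    intro N hNn hNt a ha b hb
    by_contra hab
    have h1 := hS N (fun hc => hab (congrArg Subtype.val (hc.is_comm.comm ⟨a, ha⟩ ⟨b, hb⟩)))
    rw [Subgroup.normalizer_eq_top] at h1
    exact hNt h1.symm
  have hSN : ∀ H : Subgroup G, ∀ a ∈ H, ∀ b ∈ H, a * b ≠ b * a →
      Subgroup.normalizer (H : Set G) = H := by
    intro H a ha b hb hab
    apply hS
    intro hc
    exact hab (congrArg Subtype.val (hc.is_comm.comm ⟨a, ha⟩ ⟨b, hb⟩))
  -- 2. nontrivial
  have hnt : Nontrivial G := by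
    by_contra h
    rw [not_nontrivial_iff_subsingleton] at h
    exact hnn inferInstance
  have hcomm_ne : commutator G ≠ ⊤ :=
    (Group.IsSolvable.commutator_lt_top_of_nontrivial (G := G)).ne
  -- 3. a normal subgroup of prime index
  obtain ⟨M, hMco, hGM⟩ := (eq_top_or_exists_le_coatom (commutator G)).resolve_left hcomm_ne
  have hMn : M.Normal := by
    refine ⟨fun m hm g => ?_⟩
    have h1 : g * m * g⁻¹ * m⁻¹ ∈ commutator G := by
      rw [commutator_def, ← commutatorElement_def]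
      exact Subgroup.commutator_mem_commutator (Subgroup.mem_top g) (Subgroup.mem_top m)
    have h2 : g * m * g⁻¹ = (g * m * g⁻¹ * m⁻¹) * m := by group
    rw [h2]
    exact M.mul_mem (hGM h1) hm
  have hMt : M ≠ ⊤ := hMco.1
  have hidx : M.index ≠ 1 := fun h => hMt (Subgroup.index_eq_one.1 h)
  obtain ⟨p, hp, hpd⟩ := Nat.exists_prime_and_dvd hidx
  have : Fact p.Prime := ⟨hp⟩
  have hMp : M.index = p := by
    rw [Subgroup.index] at hpd
    obtain ⟨yb, hyb⟩ := exists_prime_orderOf_dvd_card' p hpd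
    obtain ⟨y, rfl⟩ := QuotientGroup.mk_surjective yb
    set K := (Subgroup.zpowers (QuotientGroup.mk y : G ⧸ M)).comap (QuotientGroup.mk' M) with hK
    have hMK : M ≤ K := by
      intro m hm
      rw [hK, Subgroup.mem_comap]
      have : QuotientGroup.mk' M m = 1 := (QuotientGroup.eq_one_iff m).2 hm
      rw [this]
      exact Subgroup.one_mem _
    have hyK : y ∈ K := by
      rw [hK, Subgroup.mem_comap]
      exact Subgroup.mem_zpowers _
    have hyM : y ∉ M := by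
      intro h
      have : (QuotientGroup.mk y : G ⧸ M) = 1 := (QuotientGroup.eq_one_iff y).2 h
      rw [this, orderOf_one] at hyb
      exact hp.one_lt.ne hyb
    have hKt : K = ⊤ := hMco.2 K (lt_of_le_of_ne hMK (fun h => hyM (by rw [h]; exact hyK)))
    have hzt : Subgroup.zpowers (QuotientGroup.mk y : G ⧸ M) = ⊤ := by
      apply Subgroup.comap_injective (QuotientGroup.mk'_surjective M)
      rw [← hK, hKt, Subgroup.comap_top]
    have h3 := Nat.card_zpowers (QuotientGroup.mk y : G ⧸ M)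
    rw [hzt, hyb, Subgroup.card_top] at h3
    rw [Subgroup.index]
    exact h3
  have hMcomm := hN M hMn hMt
  -- 4. the p'-part of M
  let A : Subgroup G :=
    { carrier := {m | m ∈ M ∧ ¬ p ∣ orderOf m}
      one_mem' := ⟨M.one_mem, by
        rw [orderOf_one]
        exact fun h => hp.one_lt.ne' (Nat.dvd_one.1 h)⟩
      mul_mem' := by
        rintro a b ⟨ha, hpa⟩ ⟨hb, hpb⟩
        refine ⟨M.mul_mem ha hb, fun h => ?_⟩
        have hc : Commute a b := hMcomm a ha b hb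
        have h1 := h.trans hc.orderOf_mul_dvd_lcm
        have h2 := h1.trans (Nat.lcm_dvd_mul _ _)
        rcases (Nat.Prime.dvd_mul hp).1 h2 with h3 | h3
        · exact hpa h3
        · exact hpb h3
      inv_mem' := by
        rintro a ⟨ha, hpa⟩
        exact ⟨M.inv_mem ha, by rwa [orderOf_inv]⟩ }
  have hAmem : ∀ m, m ∈ A ↔ m ∈ M ∧ ¬ p ∣ orderOf m := fun m => Iff.rfl
  have hAM : A ≤ M := fun m hm => hm.1
  have hAn : A.Normal := by
    refine ⟨fun m hm g => ?_⟩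
    rw [hAmem] at hm ⊢
    refine ⟨hMn.conj_mem m hm.1 g, ?_⟩
    have h2 := MulEquiv.orderOf_eq (MulAut.conj g) m
    rw [MulAut.conj_apply] at h2
    rw [h2]
    exact hm.2
  have hAcomm : ∀ a ∈ A, ∀ b ∈ A, a * b = b * a :=
    fun a ha b hb => hMcomm a (hAM ha) b (hAM hb)
  have hAc : IsMulCommutative A := ⟨⟨fun a b => Subtype.ext (hAcomm a a.2 b b.2)⟩⟩
  have hpA : ¬ p ∣ Nat.card A := by
    intro h
    obtain ⟨a, ha⟩ := exists_prime_orderOf_dvd_card' p h
    have h1 : orderOf (a : G) = p := by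
      rw [Subgroup.orderOf_coe]
      exact ha
    apply ((hAmem _).1 a.2).2
    rw [h1]
  -- 5. G / A is a p-group
  have hpow : ∀ g : G, ∃ k : ℕ, g ^ p ^ k ∈ A := by
    intro g
    have h1 : g ^ p ∈ M := by
      have := M.pow_index_mem g
      rwa [hMp] at this
    obtain ⟨e, n', hn', hgn⟩ :=
      Nat.exists_eq_pow_mul_and_not_dvd (orderOf_pos (g ^ p)).ne' p hp.ne_one
    refine ⟨e + 1, ?_⟩
    rw [pow_succ', pow_mul, hAmem]
    refine ⟨M.pow_mem h1 _, ?_⟩
    have hdvd : p ^ e ∣ orderOf (g ^ p) := by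
      rw [hgn]
      exact dvd_mul_right _ _
    rw [orderOf_pow_of_dvd (pow_ne_zero e hp.ne_zero) hdvd, hgn,
      Nat.mul_div_cancel_left n' (pow_pos hp.pos e)]
    exact hn'
  have hQp : IsPGroup p (G ⧸ A) := by
    intro gb
    obtain ⟨g, rfl⟩ := QuotientGroup.mk_surjective gb
    obtain ⟨k, hk⟩ := hpow g
    exact ⟨k, by rw [← QuotientGroup.mk_pow]; exact (QuotientGroup.eq_one_iff _).2 hk⟩
  -- a Sylow p-subgroup supplements A
  obtain ⟨P⟩ : Nonempty (Sylow p G) := inferInstance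
  have hAP : A ⊔ (P : Subgroup G) = ⊤ := by
    rw [← Subgroup.index_eq_one]
    have h1 : (A ⊔ (P : Subgroup G)).index ∣ A.index := Subgroup.index_dvd_of_le le_sup_left
    have h2 : (A ⊔ (P : Subgroup G)).index ∣ (P : Subgroup G).index :=
      Subgroup.index_dvd_of_le le_sup_right
    obtain ⟨j, hj⟩ := IsPGroup.iff_card.1 hQp
    have h3 : A.index = p ^ j := hj
    rw [h3] at h1
    obtain ⟨e, _, he⟩ := (Nat.dvd_prime_pow hp).1 h1
    rcases Nat.eq_zero_or_pos e with rfl | hepos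
    · rw [he, pow_zero]
    · exfalso
      rw [he] at h2
      exact P.not_dvd_index ((dvd_pow_self p hepos.ne').trans h2)
  -- 6. a p-element not centralizing A
  have hx : ∃ x ∈ (P : Subgroup G), ∃ a ∈ A, x * a ≠ a * x := by
    by_contra hcon
    push Not at hcon
    apply hnn
    have hAZ : A ≤ Subgroup.center G := by
      intro a ha
      rw [Subgroup.mem_center_iff]
      intro g
      have hg : g ∈ A ⊔ (P : Subgroup G) := by
        rw [hAP]
        exact Subgroup.mem_top g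
      obtain ⟨a', ha', y, hy, rfl⟩ := Subgroup.mem_sup_of_normal_left.1 hg
      calc a' * y * a = a' * (y * a) := by group
        _ = a' * (a * y) := by rw [hcon y hy a ha]
        _ = (a' * a) * y := by group
        _ = (a * a') * y := by rw [hAcomm a' ha' a ha]
        _ = a * (a' * y) := by group
    have : Group.IsNilpotent (G ⧸ A) := hQp.isNilpotent
    exact Subgroup.isNilpotent_of_ker_le_center (QuotientGroup.mk' A)
      (by rw [QuotientGroup.ker_mk']; exact hAZ)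
  obtain ⟨x, hxP, a₁, ha₁, hxa₁⟩ := hx
  have hxo : ∃ k : ℕ, orderOf x = p ^ k := by
    obtain ⟨k, hk⟩ := P.2 ⟨x, hxP⟩
    have h1 : x ^ p ^ k = 1 := congrArg Subtype.val hk
    obtain ⟨j, _, hj⟩ := (Nat.dvd_prime_pow hp).1 (orderOf_dvd_of_pow_eq_one h1)
    exact ⟨j, hj⟩
  obtain ⟨k, hk⟩ := hxo
  -- 7. A⟨x⟩ = G
  set T := Subgroup.zpowers x ⊔ A with hT
  have hxT : x ∈ T := (le_sup_left : Subgroup.zpowers x ≤ T) (Subgroup.mem_zpowers x)
  have hAT : A ≤ T := le_sup_right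
  have hTn : Subgroup.normalizer (T : Set G) = T := hSN T x hxT a₁ (hAT ha₁) hxa₁
  have hTtop : T = ⊤ := by
    have hnil : Group.IsNilpotent (G ⧸ A) := hQp.isNilpotent
    have hnc : NormalizerCondition (G ⧸ A) := Group.normalizerCondition_of_isNilpotent
    rw [normalizerCondition_iff_only_full_group_self_normalizing] at hnc
    have hcm : (T.map (QuotientGroup.mk' A)).comap (QuotientGroup.mk' A) = T := by
      rw [Subgroup.comap_map_eq, QuotientGroup.ker_mk', sup_eq_left]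
      exact hAT
    have h1 : Subgroup.normalizer
        ((T.map (QuotientGroup.mk' A) : Subgroup (G ⧸ A)) : Set (G ⧸ A))
          = T.map (QuotientGroup.mk' A) := by
      apply Subgroup.comap_injective (QuotientGroup.mk'_surjective A)
      rw [Subgroup.comap_normalizer_eq_of_surjective _ (QuotientGroup.mk'_surjective A), hcm]
      exact hTn
    have h2 := hnc _ h1
    rw [← hcm, h2, Subgroup.comap_top]
  -- 8. complement
  have hdisj : Disjoint (Subgroup.zpowers x) A := by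
    rw [Subgroup.disjoint_def]
    intro g hg1 hg2
    have h1 : orderOf g ∣ p ^ k := by
      rw [← hk]
      exact orderOf_dvd_of_mem_zpowers hg1
    have h2 : orderOf g ∣ Nat.card A := Subgroup.orderOf_dvd_natCard A hg2
    obtain ⟨e, _, he⟩ := (Nat.dvd_prime_pow hp).1 h1
    rcases Nat.eq_zero_or_pos e with rfl | hepos
    · rw [pow_zero, orderOf_eq_one_iff] at he
      exact he
    · rw [he] at h2
      exact absurd ((dvd_pow_self p hepos.ne').trans h2) hpA
  have hmul : (↑(Subgroup.zpowers x) : Set G) * (↑A : Set G) = Set.univ := by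
    rw [← Subgroup.mul_normal, ← hT, hTtop, Subgroup.coe_top]
  have hcompl : (Subgroup.zpowers x).IsComplement' A :=
    Subgroup.isComplement'_of_disjoint_and_mul_eq_univ hdisj hmul
  have hdec : ∀ g : G, ∃ z ∈ Subgroup.zpowers x, ∃ a ∈ A, g = z * a := by
    intro g
    have : g ∈ (↑(Subgroup.zpowers x) : Set G) * (↑A : Set G) := by
      rw [hmul]
      exact Set.mem_univ g
    obtain ⟨z, hz, a, ha, rfl⟩ := Set.mem_mul.1 this
    exact ⟨z, hz, a, ha, rfl⟩
  -- 9. x ^ p is central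
  have hxpM : x ^ p ∈ M := by
    have := M.pow_index_mem x
    rwa [hMp] at this
  have hxpc : x ^ p ∈ Subgroup.center G := by
    rw [Subgroup.mem_center_iff]
    intro g
    obtain ⟨z, hz, a, ha, rfl⟩ := hdec g
    obtain ⟨i, rfl⟩ := Subgroup.mem_zpowers_iff.1 hz
    have h1 : x ^ i * x ^ p = x ^ p * x ^ i :=
      (((Commute.refl x).zpow_left i).pow_right p).eq
    have h2 : a * x ^ p = x ^ p * a := hMcomm a (hAM ha) _ hxpM
    calc x ^ i * a * x ^ p = x ^ i * (a * x ^ p) := by group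
      _ = x ^ i * (x ^ p * a) := by rw [h2]
      _ = (x ^ i * x ^ p) * a := by group
      _ = x ^ p * x ^ i * a := by rw [h1]
      _ = x ^ p * (x ^ i * a) := by group
  refine ⟨x, A, p, hp, hAn, hAc, ⟨k, hk⟩, hpA, hcompl, hxpc, ?_⟩
  -- 10. fixed-point-freeness
  intro a₀ ha₀ ha₀1 hxa₀
  have hconjA : ∀ a ∈ A, x * a * x⁻¹ ∈ A := fun a ha => hAn.conj_mem a ha x
  have hconjA' : ∀ a ∈ A, x⁻¹ * a * x ∈ A := by
    intro a ha
    have := hAn.conj_mem a ha x⁻¹
    rwa [inv_inv] at this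
  let B : Subgroup G :=
    { carrier := {c | ∃ a ∈ A, c = a * x * a⁻¹ * x⁻¹}
      one_mem' := ⟨1, A.one_mem, by group⟩
      mul_mem' := by
        rintro _ _ ⟨a₁, ha₁, rfl⟩ ⟨a₂, ha₂, rfl⟩
        refine ⟨a₁ * a₂, A.mul_mem ha₁ ha₂, ?_⟩
        have hu : x * a₁⁻¹ * x⁻¹ ∈ A := hconjA _ (A.inv_mem ha₁)
        calc a₁ * x * a₁⁻¹ * x⁻¹ * (a₂ * x * a₂⁻¹ * x⁻¹)
            = a₁ * ((x * a₁⁻¹ * x⁻¹) * a₂) * (x * a₂⁻¹ * x⁻¹) := by group
          _ = a₁ * (a₂ * (x * a₁⁻¹ * x⁻¹)) * (x * a₂⁻¹ * x⁻¹) := by rw [hAcomm _ hu a₂ ha₂]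
          _ = a₁ * a₂ * x * (a₁⁻¹ * a₂⁻¹) * x⁻¹ := by group
          _ = a₁ * a₂ * x * (a₂⁻¹ * a₁⁻¹) * x⁻¹ := by
              rw [hAcomm _ (A.inv_mem ha₁) _ (A.inv_mem ha₂)]
          _ = a₁ * a₂ * x * (a₁ * a₂)⁻¹ * x⁻¹ := by group
      inv_mem' := by
        rintro _ ⟨a, ha, rfl⟩
        refine ⟨a⁻¹, A.inv_mem ha, ?_⟩
        have hu : x * a * x⁻¹ ∈ A := hconjA _ ha
        calc (a * x * a⁻¹ * x⁻¹)⁻¹ = (x * a * x⁻¹) * a⁻¹ := by group
          _ = a⁻¹ * (x * a * x⁻¹) := hAcomm _ hu _ (A.inv_mem ha)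
          _ = a⁻¹ * x * a⁻¹⁻¹ * x⁻¹ := by group }
  have hBmem : ∀ c, c ∈ B ↔ ∃ a ∈ A, c = a * x * a⁻¹ * x⁻¹ := fun c => Iff.rfl
  have hBA : B ≤ A := by
    rintro _ ⟨a, ha, rfl⟩
    have : a * x * a⁻¹ * x⁻¹ = a * (x * a⁻¹ * x⁻¹) := by group
    rw [this]
    exact A.mul_mem ha (hconjA _ (A.inv_mem ha))
  have hxB : x ∈ Subgroup.normalizer (B : Set G) := by
    rw [Subgroup.mem_normalizer_iff]
    intro h
    constructor
    · rintro ⟨a, ha, rfl⟩
      exact ⟨x * a * x⁻¹, hconjA a ha, by group⟩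
    · rintro ⟨a, ha, hh⟩
      refine ⟨x⁻¹ * a * x, hconjA' a ha, ?_⟩
      have : h = x⁻¹ * (x * h * x⁻¹) * x := by group
      rw [this, hh]
      group
  have hLE : Subgroup.zpowers x ≤ Subgroup.normalizer (B : Set G) :=
    (Subgroup.zpowers_le).2 hxB
  set H := Subgroup.zpowers x ⊔ B with hH
  have hHcoe : (↑H : Set G) = (↑(Subgroup.zpowers x) : Set G) * (↑B : Set G) :=
    Subgroup.coe_mul_of_left_le_normalizer_right _ _ hLE
  have hxH : x ∈ H := (le_sup_left : Subgroup.zpowers x ≤ H) (Subgroup.mem_zpowers x)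
  have hBH : B ≤ H := le_sup_right
  -- H is not commutative
  set c₁ := a₁ * x * a₁⁻¹ * x⁻¹ with hc₁
  have hc₁B : c₁ ∈ B := ⟨a₁, ha₁, rfl⟩
  have hxc₁ : x * c₁ ≠ c₁ * x := by
    intro h
    have h1 := comm_eq_one A hAn p hp hpA x k hk a₁ ha₁ h
    apply hxa₁
    have : a₁ * x = (a₁ * x * a₁⁻¹ * x⁻¹) * (x * a₁) := by group
    rw [this, h1, one_mul]
  have hHn : Subgroup.normalizer (H : Set G) = H := hSN H x hxH c₁ (hBH hc₁B) hxc₁
  -- a₀ centralizes H
  have ha₀x : a₀ * x = x * a₀ := by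
    calc a₀ * x = (x * a₀ * x⁻¹) * x := by rw [hxa₀]
      _ = x * a₀ := by group
  have hHcent : H ≤ Subgroup.centralizer ({a₀} : Set G) := by
    apply sup_le
    · rw [Subgroup.zpowers_le, Subgroup.mem_centralizer_iff]
      intro y hy
      rw [Set.mem_singleton_iff] at hy
      rw [hy]
      exact ha₀x
    · intro b hb
      rw [Subgroup.mem_centralizer_iff]
      intro y hy
      rw [Set.mem_singleton_iff] at hy
      rw [hy]
      exact hAcomm a₀ ha₀ b (hBA hb)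
  have ha₀N : a₀ ∈ Subgroup.normalizer (H : Set G) := by
    apply Subgroup.centralizer_le_normalizer
    rw [Subgroup.mem_centralizer_iff]
    intro h hh
    have h1 := hHcent hh
    rw [Subgroup.mem_centralizer_iff] at h1
    exact (h1 a₀ rfl).symm
  rw [hHn] at ha₀N
  have ha₀' : a₀ ∈ (↑H : Set G) := ha₀N
  rw [hHcoe] at ha₀'
  obtain ⟨z, hz, b, hb, hzb⟩ := Set.mem_mul.1 ha₀'
  have hzA : z ∈ A := by
    have : z = a₀ * b⁻¹ := by rw [← hzb]; group
    rw [this]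
    exact A.mul_mem ha₀ (A.inv_mem (hBA hb))
  have hz1 : z = 1 := by
    have : z ∈ Subgroup.zpowers x ⊓ A := ⟨hz, hzA⟩
    rw [hdisj.eq_bot, Subgroup.mem_bot] at this
    exact this
  rw [hz1, one_mul] at hzb
  rw [← hzb] at ha₀1 ha₀x
  obtain ⟨a, ha, rfl⟩ := (hBmem b).1 hb
  exact ha₀1 (comm_eq_one A hAn p hp hpA x k hk a ha ha₀x.symm)

/-- Let G be a finite solvable non-nilpotent group. Every non-abelian subgroup of G is self-normalizing if and only if G is a semidirect product ⟨x⟩ ⋉ A in which ⟨x⟩ is a p-group for some prime p, A is a normal abelian subgroup of order prime to p, x^p is central in G, and x acts fixed-point-freely on A (no non-identity element of A commutes with x). -/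
theorem result {G : Type*} [Group G] [Finite G]
    [Group.IsSolvable G] (hnn : ¬ Group.IsNilpotent G) :
    (∀ H : Subgroup G, ¬ IsMulCommutative H → Subgroup.normalizer (H : Set G) = H) ↔
    ∃ (x : G) (A : Subgroup G) (p : ℕ), p.Prime ∧ A.Normal ∧ IsMulCommutative A ∧ (∃ k : ℕ, orderOf x = p ^ k) ∧
      ¬ p ∣ Nat.card A ∧ (Subgroup.zpowers x).IsComplement' A ∧ x ^ p ∈ Subgroup.center G ∧
      ∀ a : G, a ∈ A → a ≠ 1 → x * a * x⁻¹ ≠ a := by
  constructor
  · exact forward hnn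
  · rintro ⟨x, A, p, hp, hAn, hAc, hxo, _, hcompl, hxp, hfpf⟩
    exact backward x A p hp hAn hAc hxo hcompl hxp hfpf

end Cfsg.Agent.S4071
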