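import Mathlib
import Cfsg.Statements.S4072

set_option autoImplicit false
open Cfsg

namespace Cfsg.Agent.S4072

open scoped Pointwise

/-- A homomorphism from a perfect group to a group with commuting elements is trivial. -/
theorem hom_trivial_of_perfect {G A : Type*} [Group G] [Group A]
    (hperf : commutator G = ⊤) (f : G →* A) (hA : ∀ a b : A, a * b = b * a) (x : G) :
    f x = 1 := by
  have h1 : commutator G ≤ f.ker := by
    rw [commutator_def, Subgroup.commutator_le]
    intro a _ b _
    rw [MonoidHom.mem_ker, map_commutatorElement, commutatorElement_def, hA (f a) (f b)]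
    group
  have : x ∈ f.ker := h1 (hperf ▸ Subgroup.mem_top x)
  exact this

/-- Quotients of perfect groups are perfect. -/
theorem perfect_quotient {G : Type*} [Group G] (hperf : commutator G = ⊤) (N : Subgroup G)
    [N.Normal] : commutator (G ⧸ N) = ⊤ := by
  rw [commutator_def] at hperf ⊢
  have h1 : (⊤ : Subgroup (G ⧸ N)) = Subgroup.map (QuotientGroup.mk' N) ⊤ :=
    (Subgroup.map_top_of_surjective _ (QuotientGroup.mk'_surjective N)).symm
  rw [h1, ← Subgroup.map_commutator, hperf]

/-- Burnside: in a perfect finite group, a Sylow subgroup central in its normalizer is trivial. -/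
theorem sylow_eq_bot_of_perfect {G : Type*} [Group G] [Finite G] (hperf : commutator G = ⊤)
    {p : ℕ} [Fact p.Prime] (P : Sylow p G)
    (hP : Subgroup.normalizer (P : Set G) ≤ Subgroup.centralizer (P : Set G)) :
    (P : Subgroup G) = ⊥ := by
  have h1 := MonoidHom.ker_transferSylow_isComplement' P hP
  have h2 : (MonoidHom.transferSylow P hP).ker = ⊤ := by
    rw [eq_top_iff]
    intro x _
    rw [MonoidHom.mem_ker]
    apply hom_trivial_of_perfect hperf
    intro a b
    exact Subtype.ext (hP (Subgroup.le_normalizer b.2) a a.2)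
  rw [h2] at h1
  exact Subgroup.isComplement'_top_left.1 h1

/-- A self-normalizing subgroup of a `p`-subgroup is the whole `p`-subgroup. -/
theorem eq_of_normalizer_eq {G : Type*} [Group G] [Finite G] {p : ℕ} [Fact p.Prime]
    (P : Subgroup G) (hP : IsPGroup p P) (Q : Subgroup G) (hQP : Q ≤ P)
    (hQ : Subgroup.normalizer (Q : Set G) = Q) : Q = P := by
  by_contra hne
  have hnil : Group.IsNilpotent P := hP.isNilpotent
  have hnc : NormalizerCondition P := Group.normalizerCondition_of_isNilpotent
  have h1 : Q.subgroupOf P < ⊤ := by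
    rw [lt_top_iff_ne_top, Ne, Subgroup.subgroupOf_eq_top]
    intro h
    exact hne (le_antisymm hQP h)
  have h2 := hnc _ h1
  rw [← Subgroup.subgroupOf_normalizer_eq hQP, hQ] at h2
  exact lt_irrefl _ h2

/-- Transfer into an abelian section kills central elements of a perfect group. -/
theorem transfer_lemma {G : Type*} [Group G] [Finite G] (hperf : commutator G = ⊤)
    (H K : Subgroup G) (hKH : K ≤ H) (hcomm : ∀ a ∈ H, ∀ b ∈ H, a * b * a⁻¹ * b⁻¹ ∈ K)
    (z : G) (hz : z ∈ Subgroup.center G) (hzH : z ∈ H) : z ^ H.index ∈ K := by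
  have hN : (K.subgroupOf H).Normal := by
    refine ⟨fun n hn g => ?_⟩
    rw [Subgroup.mem_subgroupOf] at hn ⊢
    have h1 := hcomm g g.2 n n.2
    have h2 : ((g * n * g⁻¹ : H) : G) = ((g : G) * n * (g : G)⁻¹ * (n : G)⁻¹) * n := by
      simp
    rw [h2]
    exact K.mul_mem h1 hn
  let A := H ⧸ K.subgroupOf H
  have hAcomm : ∀ x y : A, x * y = y * x := by
    intro x y
    induction x using QuotientGroup.induction_on with
    | H a =>
      induction y using QuotientGroup.induction_on with
      | H b =>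
        rw [← QuotientGroup.mk_mul, ← QuotientGroup.mk_mul, QuotientGroup.eq,
          Subgroup.mem_subgroupOf]
        have h1 := hcomm _ (H.inv_mem b.2) _ (H.inv_mem a.2)
        have h2 : (((a * b)⁻¹ * (b * a) : H) : G)
            = (b : G)⁻¹ * (a : G)⁻¹ * ((b : G)⁻¹)⁻¹ * ((a : G)⁻¹)⁻¹ := by
          simp [mul_assoc]
        rw [h2]
        exact h1
  let _ : CommGroup A := { (inferInstance : Group A) with mul_comm := hAcomm }
  let ϕ : H →* A := QuotientGroup.mk' (K.subgroupOf H)
  have key : ∀ (k : ℕ) (g₀ : G), g₀⁻¹ * z ^ k * g₀ ∈ H → g₀⁻¹ * z ^ k * g₀ = z ^ k := by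
    intro k g₀ _
    have h1 : z ^ k ∈ Subgroup.center G := Subgroup.pow_mem _ hz k
    rw [Subgroup.mem_center_iff] at h1
    rw [mul_assoc, ← h1 g₀, inv_mul_cancel_left]
  have h1 := MonoidHom.transfer_eq_pow ϕ z key
  have h2 : MonoidHom.transfer ϕ z = 1 :=
    hom_trivial_of_perfect hperf _ (fun a b => mul_comm a b) z
  rw [h2] at h1
  have h3 := h1.symm
  rw [QuotientGroup.mk'_apply, QuotientGroup.eq_one_iff, Subgroup.mem_subgroupOf] at h3
  exact h3

/-- Structure of a minimal non-abelian `p`-group: the derived subgroup is central of order `p`. -/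
theorem minimal_nonabelian {Q : Type*} [Group Q] [Finite Q] {p : ℕ} [Fact p.Prime]
    (hQ : IsPGroup p Q) (hnc : ¬ ∀ a b : Q, a * b = b * a)
    (hmin : ∀ H : Subgroup Q, H ≠ ⊤ → ∀ a ∈ H, ∀ b ∈ H, a * b = b * a) :
    ∃ c : Q, c ∈ Subgroup.center Q ∧ c ≠ 1 ∧ c ^ p = 1 ∧
      ∀ x y : Q, x * y * x⁻¹ * y⁻¹ ∈ Subgroup.zpowers c := by
  classical
  have hp : p.Prime := Fact.out
  -- a subgroup containing a non-commuting pair is everything
  have htop : ∀ H : Subgroup Q, ∀ a ∈ H, ∀ b ∈ H, a * b ≠ b * a → H = ⊤ := by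
    intro H a ha b hb hab
    by_contra hH
    exact hab (hmin H hH a ha b hb)
  -- choose a non-commuting pair with `orderOf a` minimal
  have hex : ∃ n : ℕ, ∃ a b : Q, a * b ≠ b * a ∧ orderOf a = n := by
    push Not at hnc
    obtain ⟨a, b, hab⟩ := hnc
    exact ⟨_, a, b, hab, rfl⟩
  obtain ⟨a, b, hab, hn⟩ := Nat.find_spec hex
  have hminord : ∀ a' b' : Q, a' * b' ≠ b' * a' → orderOf a ≤ orderOf a' := by
    intro a' b' h
    rw [hn]
    exact Nat.find_min' hex ⟨a', b', h, rfl⟩
  -- `a ^ p` is central
  have hane : a ≠ 1 := by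
    rintro rfl
    simp at hab
  have hpa : p ∣ orderOf a := by
    obtain ⟨k, hk⟩ := hQ a
    have h1 : orderOf a ∣ p ^ k := orderOf_dvd_of_pow_eq_one hk
    obtain ⟨j, hj, hj2⟩ := (Nat.dvd_prime_pow hp).1 h1
    rcases Nat.eq_zero_or_pos j with rfl | hjpos
    · rw [pow_zero, orderOf_eq_one_iff] at hj2
      exact absurd hj2 hane
    · rw [hj2]
      exact dvd_pow_self p hjpos.ne'
  have hapc : ∀ y : Q, a ^ p * y = y * a ^ p := by
    intro y
    by_contra h
    have h1 := hminord (a ^ p) y h
    have h2 : orderOf (a ^ p) = orderOf a / p := orderOf_pow_of_dvd hp.ne_zero hpa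
    have h3 : 0 < orderOf a := orderOf_pos a
    have h4 : orderOf a / p < orderOf a := Nat.div_lt_self h3 hp.one_lt
    omega
  -- maximal subgroups containing `a` and `b`
  have hnil : Group.IsNilpotent Q := hQ.isNilpotent
  have hncond : NormalizerCondition Q := Group.normalizerCondition_of_isNilpotent
  have hza : Subgroup.zpowers a ≠ ⊤ := by
    intro h
    apply hab
    have h1 : b ∈ Subgroup.zpowers a := h ▸ Subgroup.mem_top b
    obtain ⟨k, rfl⟩ := Subgroup.mem_zpowers_iff.1 h1
    exact ((Commute.refl a).zpow_right k).eq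
  have hzb : Subgroup.zpowers b ≠ ⊤ := by
    intro h
    apply hab
    have h1 : a ∈ Subgroup.zpowers b := h ▸ Subgroup.mem_top a
    obtain ⟨k, rfl⟩ := Subgroup.mem_zpowers_iff.1 h1
    exact ((Commute.refl b).zpow_left k).eq
  obtain ⟨Ma, hMa, haMa⟩ := (eq_top_or_exists_le_coatom (Subgroup.zpowers a)).resolve_left hza
  obtain ⟨Mb, hMb, hbMb⟩ := (eq_top_or_exists_le_coatom (Subgroup.zpowers b)).resolve_left hzb
  have hMan : Ma.Normal := Subgroup.NormalizerCondition.normal_of_coatom _ hncond hMa
  have hMbn : Mb.Normal := Subgroup.NormalizerCondition.normal_of_coatom _ hncond hMb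
  have haM : a ∈ Ma := haMa (Subgroup.mem_zpowers a)
  have hbM : b ∈ Mb := hbMb (Subgroup.mem_zpowers b)
  set c : Q := a * b * a⁻¹ * b⁻¹ with hc
  have hcMa : c ∈ Ma := by
    have h1 : b * a⁻¹ * b⁻¹ ∈ Ma := hMan.conj_mem _ (Ma.inv_mem haM) b
    have h2 : c = a * (b * a⁻¹ * b⁻¹) := by rw [hc]; group
    rw [h2]
    exact Ma.mul_mem haM h1
  have hcMb : c ∈ Mb := by
    have h1 : a * b * a⁻¹ ∈ Mb := hMbn.conj_mem _ hbM a
    exact Mb.mul_mem h1 (Mb.inv_mem hbM)
  have hca : c * a = a * c := hmin Ma hMa.1 c hcMa a haM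
  have hcb : c * b = b * c := hmin Mb hMb.1 c hcMb b hbM
  have hcne : c ≠ 1 := by
    intro h
    apply hab
    have : a * b = c * (b * a) := by rw [hc]; group
    rw [this, h, one_mul]
  have hccent : c ∈ Subgroup.center Q := by
    have h1 : Subgroup.centralizer ({c} : Set Q) = ⊤ := by
      apply htop _ a _ b _ hab
      · rw [Subgroup.mem_centralizer_iff]
        intro x hx
        rw [Set.mem_singleton_iff] at hx
        rw [hx, hca]
      · rw [Subgroup.mem_centralizer_iff]
        intro x hx
        rw [Set.mem_singleton_iff] at hx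
        rw [hx, hcb]
    rw [Subgroup.mem_center_iff]
    intro g
    have h2 : g ∈ Subgroup.centralizer ({c} : Set Q) := h1 ▸ Subgroup.mem_top g
    rw [Subgroup.mem_centralizer_iff] at h2
    exact (h2 c rfl).symm
  have hcc : ∀ g : Q, g * c = c * g := fun g => (Subgroup.mem_center_iff.1 hccent g)
  -- `c ^ p = 1`
  have hpow : ∀ k : ℕ, a ^ k * b = c ^ k * b * a ^ k := by
    intro k
    induction k with
    | zero => simp
    | succ k ih =>
      have h1 : a * b = c * b * a := by rw [hc]; group
      have h2 : a * c ^ k = c ^ k * a := by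
        have : Commute a (c ^ k) := (Commute.pow_right (hcc a) k)
        exact this.eq
      calc a ^ (k + 1) * b = a * (a ^ k * b) := by rw [pow_succ']; group
        _ = a * (c ^ k * b * a ^ k) := by rw [ih]
        _ = (a * c ^ k) * b * a ^ k := by group
        _ = c ^ k * (a * b) * a ^ k := by rw [h2]; group
        _ = c ^ k * (c * b * a) * a ^ k := by rw [h1]
        _ = c ^ (k + 1) * b * a ^ (k + 1) := by rw [pow_succ, pow_succ']; group
  have hcp : c ^ p = 1 := by
    have h1 := hpow p
    rw [hapc b] at h1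
    have h2 : c ^ p * (b * a ^ p) = 1 * (b * a ^ p) := by
      rw [one_mul, ← mul_assoc]
      exact h1.symm
    exact mul_right_cancel h2
  refine ⟨c, hccent, hcne, hcp, ?_⟩
  -- the quotient by `⟨c⟩` is commutative
  have hZn : (Subgroup.zpowers c).Normal := by
    refine ⟨fun n hn g => ?_⟩
    obtain ⟨k, rfl⟩ := Subgroup.mem_zpowers_iff.1 hn
    have h1 : g * c ^ k * g⁻¹ = c ^ k := by
      have : Commute g (c ^ k) := (Commute.zpow_right (hcc g) k)
      rw [this.eq]; group
    rw [h1]
    exact Subgroup.zpow_mem_zpowers c k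
  let π := QuotientGroup.mk' (Subgroup.zpowers c)
  have hπab : π a * π b = π b * π a := by
    rw [← map_mul, ← map_mul]
    change (QuotientGroup.mk (a * b) : Q ⧸ Subgroup.zpowers c) = QuotientGroup.mk (b * a)
    rw [QuotientGroup.eq]
    have : (a * b)⁻¹ * (b * a) = c⁻¹ := by
      have h1 : a * b = c * (b * a) := by rw [hc]; group
      apply eq_inv_of_mul_eq_one_left
      rw [mul_assoc, hcc (b * a), ← h1, inv_mul_cancel]
    rw [this]
    exact Subgroup.inv_mem _ (Subgroup.mem_zpowers c)
  have h1 : (Subgroup.centralizer ({π a} : Set (Q ⧸ Subgroup.zpowers c))).comap π = ⊤ := by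
    apply htop _ a _ b _ hab
    · rw [Subgroup.mem_comap, Subgroup.mem_centralizer_iff]
      intro x hx
      rw [Set.mem_singleton_iff] at hx
      rw [hx]
    · rw [Subgroup.mem_comap, Subgroup.mem_centralizer_iff]
      intro x hx
      rw [Set.mem_singleton_iff] at hx
      rw [hx, hπab]
  have h2 : (Subgroup.centralizer ({π b} : Set (Q ⧸ Subgroup.zpowers c))).comap π = ⊤ := by
    apply htop _ a _ b _ hab
    · rw [Subgroup.mem_comap, Subgroup.mem_centralizer_iff]
      intro x hx
      rw [Set.mem_singleton_iff] at hx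
      rw [hx, hπab]
    · rw [Subgroup.mem_comap, Subgroup.mem_centralizer_iff]
      intro x hx
      rw [Set.mem_singleton_iff] at hx
      rw [hx]
  have h3 : ∀ y : Q, (Subgroup.centralizer ({π y} : Set (Q ⧸ Subgroup.zpowers c))).comap π = ⊤ := by
    intro y
    apply htop _ a _ b _ hab
    · rw [Subgroup.mem_comap, Subgroup.mem_centralizer_iff]
      intro x hx
      rw [Set.mem_singleton_iff] at hx
      rw [hx]
      have h4 : y ∈ (Subgroup.centralizer ({π a} : Set (Q ⧸ Subgroup.zpowers c))).comap π :=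
        h1 ▸ Subgroup.mem_top y
      rw [Subgroup.mem_comap, Subgroup.mem_centralizer_iff] at h4
      exact (h4 _ rfl).symm
    · rw [Subgroup.mem_comap, Subgroup.mem_centralizer_iff]
      intro x hx
      rw [Set.mem_singleton_iff] at hx
      rw [hx]
      have h4 : y ∈ (Subgroup.centralizer ({π b} : Set (Q ⧸ Subgroup.zpowers c))).comap π :=
        h2 ▸ Subgroup.mem_top y
      rw [Subgroup.mem_comap, Subgroup.mem_centralizer_iff] at h4
      exact (h4 _ rfl).symm
  intro x y
  have h4 : x ∈ (Subgroup.centralizer ({π y} : Set (Q ⧸ Subgroup.zpowers c))).comap π :=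
    h3 y ▸ Subgroup.mem_top x
  rw [Subgroup.mem_comap, Subgroup.mem_centralizer_iff] at h4
  have h5 := h4 _ rfl
  have h6 : π (x * y * x⁻¹ * y⁻¹) = 1 := by
    rw [map_mul, map_mul, map_mul, map_inv, map_inv, ← h5]
    group
  exact (QuotientGroup.eq_one_iff _).1 h6

/-- A finite group in which every non-abelian subgroup is self-normalizing is solvable or simple. -/
theorem result {G : Type*} [Group G] [Finite G] (hS : ∀ H : Subgroup G, ¬ IsMulCommutative H → Subgroup.normalizer (H : Set G) = H) :
    Group.IsSolvable G ∨ IsSimpleGroup G := by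
  classical
  by_contra hcon
  push Not at hcon
  obtain ⟨hsolv, hsimp⟩ := hcon
  -- 1. proper normal subgroups are commutative
  have hN : ∀ N : Subgroup G, N.Normal → N ≠ ⊤ → IsMulCommutative N := by
    intro N hNn hNt
    by_contra h
    have h1 := hS N h
    rw [Subgroup.normalizer_eq_top] at h1
    exact hNt h1.symm
  -- 2. perfect
  have hperf : commutator G = ⊤ := by
    by_contra h
    have h1 : IsMulCommutative (commutator G) := hN _ inferInstance h
    apply hsolv
    rw [Group.isSolvable_def]
    refine ⟨2, ?_⟩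
    rw [derivedSeries_succ, derivedSeries_succ, derivedSeries_zero, ← commutator_def,
      Subgroup.commutator_self_eq_bot_iff]
    exact h1
  -- subgroups containing a non-commuting pair are self-normalizing
  have hSN : ∀ H : Subgroup G, ∀ a ∈ H, ∀ b ∈ H, a * b ≠ b * a →
      Subgroup.normalizer (H : Set G) = H := by
    intro H a ha b hb hab
    apply hS
    intro hc
    apply hab
    have := hc.is_comm.comm ⟨a, ha⟩ ⟨b, hb⟩
    exact congrArg Subtype.val this
  -- 4. proper normal subgroups are central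
  have hcent : ∀ N : Subgroup G, N.Normal → N ≠ ⊤ → N ≤ Subgroup.center G := by
    intro N hNn hNt
    have hNc := hN N hNn hNt
    set C := Subgroup.centralizer (N : Set G) with hC
    have hCn : C.Normal := Subgroup.normal_centralizer
    by_cases hCt : C = ⊤
    · intro n hn
      rw [Subgroup.mem_center_iff]
      intro g
      have : g ∈ C := hCt ▸ Subgroup.mem_top g
      rw [hC, Subgroup.mem_centralizer_iff] at this
      exact (this n hn).symm
    · exfalso
      have hNC : N ≤ C := Subgroup.le_centralizer_iff_isMulCommutative.2 hNc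
      have hcard : Nat.card (G ⧸ C) ≠ 1 := by
        intro h
        apply hCt
        rw [← Subgroup.index_eq_one]
        exact h
      obtain ⟨p, hp, hpd⟩ := Nat.exists_prime_and_dvd hcard
      have : Fact p.Prime := ⟨hp⟩
      obtain ⟨xb, hxb⟩ := exists_prime_orderOf_dvd_card' p hpd
      obtain ⟨x, rfl⟩ := QuotientGroup.mk_surjective xb
      set Qb : Subgroup (G ⧸ C) := Subgroup.zpowers (QuotientGroup.mk x : G ⧸ C) with hQb
      have hxC : x ∉ C := by
        intro h
        have : (QuotientGroup.mk x : G ⧸ C) = 1 := (QuotientGroup.eq_one_iff x).2 h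
        rw [this, orderOf_one] at hxb
        exact hp.one_lt.ne hxb
      have : ∃ n ∈ N, n * x ≠ x * n := by
        by_contra h
        push Not at h
        apply hxC
        rw [hC, Subgroup.mem_centralizer_iff]
        exact h
      obtain ⟨n, hn, hnx⟩ := this
      set T := Qb.comap (QuotientGroup.mk' C) with hT
      have hxT : x ∈ T := by
        rw [hT, Subgroup.mem_comap]
        exact Subgroup.mem_zpowers _
      have hnT : n ∈ T := by
        rw [hT, Subgroup.mem_comap]
        have : QuotientGroup.mk' C n = 1 := (QuotientGroup.eq_one_iff n).2 (hNC hn)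
        rw [this]
        exact Subgroup.one_mem _
      have hTn := hSN T n hnT x hxT hnx
      have hQn : Subgroup.normalizer (Qb : Set (G ⧸ C)) = Qb := by
        apply Subgroup.comap_injective (QuotientGroup.mk'_surjective C)
        rw [Subgroup.comap_normalizer_eq_of_surjective _ (QuotientGroup.mk'_surjective C)]
        exact hTn
      have hQp : IsPGroup p Qb := by
        apply IsPGroup.of_card (n := 1)
        rw [Nat.card_zpowers, hxb, pow_one]
      obtain ⟨P, hQP⟩ := hQp.exists_le_sylow
      have hPQ : (P : Subgroup (G ⧸ C)) = Qb := (eq_of_normalizer_eq P P.2 Qb hQP hQn).symm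
      have hPb : (P : Subgroup (G ⧸ C)) = ⊥ := by
        apply sylow_eq_bot_of_perfect (perfect_quotient hperf C) P
        change Subgroup.normalizer ((P : Subgroup (G ⧸ C)) : Set (G ⧸ C)) ≤
          Subgroup.centralizer ((P : Subgroup (G ⧸ C)) : Set (G ⧸ C))
        rw [hPQ, hQn]
        exact Subgroup.le_centralizer_iff_isMulCommutative.2 inferInstance
      have : (QuotientGroup.mk x : G ⧸ C) ∈ (P : Subgroup (G ⧸ C)) :=
        hPQ ▸ Subgroup.mem_zpowers _
      rw [hPb, Subgroup.mem_bot] at this
      exact hxC ((QuotientGroup.eq_one_iff x).1 this)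
  -- 5. the center is nontrivial
  have hnontriv : Nontrivial G := by
    by_contra h
    rw [not_nontrivial_iff_subsingleton] at h
    exact hsolv inferInstance
  have : ∃ N : Subgroup G, N.Normal ∧ N ≠ ⊥ ∧ N ≠ ⊤ := by
    by_contra h
    push Not at h
    apply hsimp
    refine ⟨fun N hN => ?_⟩
    by_cases hb : N = ⊥
    · exact Or.inl hb
    · exact Or.inr (h N hN hb)
  obtain ⟨N, hNn, hNb, hNt⟩ := this
  have hZb : Subgroup.center G ≠ ⊥ := fun h => hNb (le_bot_iff.1 (h ▸ hcent N hNn hNt))
  have hZcard : Nat.card (Subgroup.center G) ≠ 1 := by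
    rw [Ne, Subgroup.card_eq_one]
    exact hZb
  obtain ⟨p, hp, hpd⟩ := Nat.exists_prime_and_dvd hZcard
  have : Fact p.Prime := ⟨hp⟩
  obtain ⟨z', hz'⟩ := exists_prime_orderOf_dvd_card' p hpd
  set z : G := (z' : G) with hzdef
  have hzZ : z ∈ Subgroup.center G := z'.2
  have hzo : orderOf z = p := by
    rw [hzdef, Subgroup.orderOf_coe]
    exact hz'
  have hzp : IsPGroup p (Subgroup.zpowers z) :=
    IsPGroup.of_card (n := 1) (by rw [Nat.card_zpowers, hzo, pow_one])
  obtain ⟨P, hzP'⟩ := hzp.exists_le_sylow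
  have hzP : z ∈ (P : Subgroup G) := hzP' (Subgroup.mem_zpowers z)
  have hpi : ¬ p ∣ (P : Subgroup G).index := P.not_dvd_index
  -- 7. P is not commutative
  have hPnc : ¬ ∀ a ∈ (P : Subgroup G), ∀ b ∈ (P : Subgroup G), a * b = b * a := by
    intro h
    have h1 := transfer_lemma hperf P ⊥ bot_le (fun a ha b hb => by
      rw [Subgroup.mem_bot, h a ha b hb]; group) z hzZ hzP
    rw [Subgroup.mem_bot] at h1
    have h2 := orderOf_dvd_of_pow_eq_one h1
    rw [hzo] at h2
    exact hpi h2
  -- 8. P is minimal non-abelian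
  have hPself : ∀ H : Subgroup G, H ≤ P → (∃ a ∈ H, ∃ b ∈ H, a * b ≠ b * a) → H = P := by
    rintro H hHP ⟨a, ha, b, hb, hab⟩
    exact eq_of_normalizer_eq P P.2 H hHP (hSN H a ha b hb hab)
  have hP' : IsPGroup p (P : Subgroup G) := P.2
  obtain ⟨c, hcc, hcne, hcp, hcomm⟩ := minimal_nonabelian (Q := (P : Subgroup G)) (p := p) hP'
    (by
      intro h
      apply hPnc
      intro a ha b hb
      exact congrArg Subtype.val (h ⟨a, ha⟩ ⟨b, hb⟩))
    (by
      intro H hH a ha b hb
      by_contra hab
      apply hH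
      have h1 := hPself (H.map (P : Subgroup G).subtype) (Subgroup.map_subtype_le H)
        ⟨a, Subgroup.mem_map_of_mem _ ha, b, Subgroup.mem_map_of_mem _ hb,
          fun h => hab (Subtype.ext h)⟩
      rw [eq_top_iff]
      intro x _
      have : (x : G) ∈ H.map (P : Subgroup G).subtype := by
        rw [h1]
        exact x.2
      obtain ⟨y, hy, hyx⟩ := Subgroup.mem_map.1 this
      have : y = x := Subtype.ext hyx
      exact this ▸ hy)
  -- 10. the commutator generator is central in G
  set cG : G := (c : G) with hcG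
  have hcGP : cG ∈ (P : Subgroup G) := c.2
  have hcGo : orderOf cG = p := by
    rw [hcG, Subgroup.orderOf_coe]
    exact orderOf_eq_prime hcp hcne
  have hcommG : ∀ a ∈ (P : Subgroup G), ∀ b ∈ (P : Subgroup G),
      a * b * a⁻¹ * b⁻¹ ∈ Subgroup.zpowers cG := by
    intro a ha b hb
    have h1 := hcomm ⟨a, ha⟩ ⟨b, hb⟩
    obtain ⟨k, hk⟩ := Subgroup.mem_zpowers_iff.1 h1
    rw [Subgroup.mem_zpowers_iff]
    refine ⟨k, ?_⟩
    have := congrArg Subtype.val hk
    simpa using this
  have hzc : z ∈ Subgroup.zpowers cG := by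
    have h1 := transfer_lemma hperf P (Subgroup.zpowers cG)
      (by rw [Subgroup.zpowers_le]; exact hcGP) hcommG z hzZ hzP
    have hcop : ((P : Subgroup G).index).Coprime (orderOf z) := by
      rw [hzo]
      exact (Nat.Coprime.symm ((Nat.Prime.coprime_iff_not_dvd hp).2 hpi))
    obtain ⟨m, hm⟩ := exists_pow_eq_self_of_coprime hcop
    rw [← hm]
    exact Subgroup.pow_mem _ h1 m
  have hcz : cG ∈ Subgroup.zpowers z := by
    have h1 : Subgroup.zpowers z ≤ Subgroup.zpowers cG := by
      rw [Subgroup.zpowers_le]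
      exact hzc
    have h2 : Subgroup.zpowers z = Subgroup.zpowers cG := by
      apply Subgroup.eq_of_le_of_card_ge h1
      rw [Nat.card_zpowers, Nat.card_zpowers, hzo, hcGo]
    rw [h2]
    exact Subgroup.mem_zpowers cG
  have hcZ : cG ∈ Subgroup.center G := by
    have : Subgroup.zpowers z ≤ Subgroup.center G := by
      rw [Subgroup.zpowers_le]
      exact hzZ
    exact this hcz
  have hcommZ : ∀ a ∈ (P : Subgroup G), ∀ b ∈ (P : Subgroup G),
      a * b * a⁻¹ * b⁻¹ ∈ Subgroup.center G := by
    intro a ha b hb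
    have : Subgroup.zpowers cG ≤ Subgroup.center G := by
      rw [Subgroup.zpowers_le]
      exact hcZ
    exact this (hcommG a ha b hb)
  -- 11. pass to the quotient by the center
  set Z := Subgroup.center G with hZ
  let π := QuotientGroup.mk' Z
  have hπs : Function.Surjective π := QuotientGroup.mk'_surjective Z
  let Pb : Sylow p (G ⧸ Z) := P.mapSurjective hπs
  have hPb : (Pb : Subgroup (G ⧸ Z)) = (P : Subgroup G).map π := Sylow.coe_mapSurjective hπs P
  obtain ⟨a, ha, b, hb, hab⟩ :
      ∃ a ∈ (P : Subgroup G), ∃ b ∈ (P : Subgroup G), a * b ≠ b * a := by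
    by_contra h
    push Not at h
    exact hPnc h
  have hTn : Subgroup.normalizer ((((P : Subgroup G).map π).comap π : Subgroup G) : Set G)
      = ((P : Subgroup G).map π).comap π :=
    hSN _ a (Subgroup.le_comap_map π _ ha) b (Subgroup.le_comap_map π _ hb) hab
  have hPbn : Subgroup.normalizer ((Pb : Subgroup (G ⧸ Z)) : Set (G ⧸ Z)) = Pb := by
    rw [hPb]
    apply Subgroup.comap_injective hπs
    rw [Subgroup.comap_normalizer_eq_of_surjective _ hπs]
    exact hTn
  have hPbc : (Pb : Subgroup (G ⧸ Z)) ≤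
      Subgroup.centralizer ((Pb : Subgroup (G ⧸ Z)) : Set (G ⧸ Z)) := by
    rw [hPb]
    rintro _ ⟨x, hx, rfl⟩
    rw [Subgroup.mem_centralizer_iff]
    rintro _ ⟨y, hy, rfl⟩
    have h1 := hcommZ y hy x hx
    have h2 : π (y * x * y⁻¹ * x⁻¹) = 1 := (QuotientGroup.eq_one_iff _).2 h1
    rw [map_mul, map_mul, map_mul, map_inv, map_inv] at h2
    have h3 : π y * π x = (π y * π x * (π y)⁻¹ * (π x)⁻¹) * (π x * π y) := by group
    rw [h3, h2, one_mul]
  have hPbbot : (Pb : Subgroup (G ⧸ Z)) = ⊥ := by
    apply sylow_eq_bot_of_perfect (perfect_quotient hperf Z) Pb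
    change Subgroup.normalizer ((Pb : Subgroup (G ⧸ Z)) : Set (G ⧸ Z)) ≤
      Subgroup.centralizer ((Pb : Subgroup (G ⧸ Z)) : Set (G ⧸ Z))
    rw [hPbn]
    exact hPbc
  have haZ : a ∈ Z := by
    have : π a ∈ (Pb : Subgroup (G ⧸ Z)) := by
      rw [hPb]
      exact Subgroup.mem_map_of_mem π ha
    rw [hPbbot, Subgroup.mem_bot] at this
    exact (QuotientGroup.eq_one_iff a).1 this
  rw [hZ, Subgroup.mem_center_iff] at haZ
  exact hab (haZ b).symm

end Cfsg.Agent.S4072
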