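import Mathlib
import Cfsg.Statements.S4074

set_option autoImplicit false
open Cfsg

namespace Cfsg.Agent.S4074

open DihedralGroup

/-- parity homomorphism on the dihedral group of even degree -/
noncomputable def parityHom (n : ℕ) (h2 : 2 ∣ n) : DihedralGroup n →* Multiplicative (ZMod 2) :=
  MonoidHom.mk' (fun x => match x with
    | r i => Multiplicative.ofAdd (ZMod.castHom h2 (ZMod 2) i)
    | sr i => Multiplicative.ofAdd (ZMod.castHom h2 (ZMod 2) i)) (by
      have key : ∀ a b : ZMod 2, b - a = a + b := by decide
      rintro (i | i) (j | j)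
      · simp only [r_mul_r, map_add, ofAdd_add]
      · simp only [r_mul_sr, map_sub, ← ofAdd_add]; rw [key]
      · simp only [sr_mul_r, map_add, ofAdd_add]
      · simp only [sr_mul_sr, map_sub, ← ofAdd_add]; rw [key])

theorem parityHom_r (n : ℕ) (h2 : 2 ∣ n) (i : ZMod n) :
    parityHom n h2 (r i) = Multiplicative.ofAdd (ZMod.castHom h2 (ZMod 2) i) := rfl

theorem parityHom_sr (n : ℕ) (h2 : 2 ∣ n) (i : ZMod n) :
    parityHom n h2 (sr i) = Multiplicative.ofAdd (ZMod.castHom h2 (ZMod 2) i) := rfl

/-- a non-commutative subgroup contains a reflection and if it is a "rotation with reflection"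
non-commuting pair we get the data. -/
theorem exists_noncomm {n : ℕ} (H : Subgroup (DihedralGroup n)) (hH : ¬ IsMulCommutative H) :
    ∃ i j : ZMod n, r i ∈ H ∧ sr j ∈ H ∧ i + i ≠ 0 := by
  have : ∃ a b : DihedralGroup n, a ∈ H ∧ b ∈ H ∧ a * b ≠ b * a := by
    by_contra hcon
    push Not at hcon
    apply hH
    rw [isMulCommutative_iff]
    rintro ⟨a, ha⟩ ⟨b, hb⟩
    exact Subtype.ext (hcon a b ha hb)
  obtain ⟨a, b, ha, hb, hab⟩ := this
  rcases a with i | i <;> rcases b with j | j
  · exfalso; apply hab; rw [r_mul_r, r_mul_r, add_comm]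
  · refine ⟨i, j, ha, hb, ?_⟩
    intro h0
    apply hab
    rw [r_mul_sr, sr_mul_r]
    congr 1
    linear_combination -h0
  · refine ⟨j, i, hb, ha, ?_⟩
    intro h0
    apply hab
    rw [r_mul_sr, sr_mul_r]
    congr 1
    linear_combination h0
  · refine ⟨j - i, i, ?_, ha, ?_⟩
    · have := H.mul_mem ha hb
      rwa [sr_mul_sr] at this
    · intro h0
      apply hab
      rw [sr_mul_sr, sr_mul_sr]
      congr 1
      linear_combination h0

/-- For n > 2, every non-abelian subgroup of the dihedral group of order 2n is self-normalizing if and only if n = 4 or n is odd. -/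
theorem result (n : ℕ) (hn : 2 < n) :
    (∀ H : Subgroup (DihedralGroup n), ¬ IsMulCommutative H → Subgroup.normalizer (H : Set (DihedralGroup n)) = H) ↔
    (n = 4 ∨ Odd n) := by
  constructor
  · intro hS
    by_contra hcon
    push Not at hcon
    obtain ⟨hn4, hodd⟩ := hcon
    have heven : Even n := Nat.not_odd_iff_even.mp hodd
    have h2 : 2 ∣ n := heven.two_dvd
    have hn6 : 6 ≤ n := by
      obtain ⟨k, rfl⟩ := h2
      omega
    set H := (parityHom n h2).ker with hHdef
    have hr2 : r (2 : ZMod n) ∈ H := by
      rw [hHdef, MonoidHom.mem_ker, parityHom_r]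
      have : (ZMod.castHom h2 (ZMod 2)) (2 : ZMod n) = 0 := by
        rw [map_ofNat]; decide
      rw [this]; rfl
    have hsr0 : sr (0 : ZMod n) ∈ H := by
      rw [hHdef, MonoidHom.mem_ker, parityHom_sr, map_zero]; rfl
    have hnc : ¬ IsMulCommutative H := by
      intro hc
      have h1 := (isMulCommutative_iff.mp hc) ⟨r 2, hr2⟩ ⟨sr 0, hsr0⟩
      have h3 : r (2 : ZMod n) * sr 0 = sr 0 * r 2 := congrArg Subtype.val h1
      rw [r_mul_sr, sr_mul_r] at h3
      have h4 : (0 - 2 : ZMod n) = 0 + 2 := by
        injection h3
      have h5 : ((4 : ℕ) : ZMod n) = 0 := by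
        push_cast
        linear_combination -h4
      have h6 := (ZMod.natCast_eq_zero_iff 4 n).mp h5
      have := Nat.le_of_dvd (by norm_num) h6
      omega
    have h1 := hS H hnc
    rw [Subgroup.normalizer_eq_top H] at h1
    have hr1 : r (1 : ZMod n) ∈ H := by rw [← h1]; exact Subgroup.mem_top _
    rw [hHdef, MonoidHom.mem_ker, parityHom_r, map_one] at hr1
    have : (1 : ZMod 2) = 0 := Multiplicative.ofAdd.injective hr1
    exact absurd this (by decide)
  · rintro (rfl | hodd) H hH
    · -- n = 4
      obtain ⟨i, j, hi, hj, hij⟩ := exists_noncomm H hH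
      have key : ∀ i : ZMod 4, i + i ≠ 0 → i * i = 1 := by decide
      have hii := key i hij
      have hr : ∀ k : ZMod 4, r k ∈ H := by
        intro k
        have h1 : (r i) ^ ((i * k).val) ∈ H := H.pow_mem hi _
        rw [r_pow, ZMod.natCast_zmod_val] at h1
        have : i * (i * k) = k := by rw [← mul_assoc, hii, one_mul]
        rwa [this] at h1
      have hs : ∀ k : ZMod 4, sr k ∈ H := by
        intro k
        have := H.mul_mem hj (hr (k - j))
        rw [sr_mul_r] at this
        have e : j + (k - j) = k := by ring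
        rwa [e] at this
      have hHtop : H = ⊤ := by
        rw [eq_top_iff]
        rintro (k | k) -
        · exact hr k
        · exact hs k
      subst hHtop
      exact Subgroup.normalizer_eq_top ⊤
    · -- n odd
      obtain ⟨i₀, i, -, hi, -⟩ := exists_noncomm H hH
      obtain ⟨t, ht⟩ := hodd
      have h2t : (2 * t : ZMod n) = -1 := by
        have h1 : ((2 * t + 1 : ℕ) : ZMod n) = 0 := by rw [← ht]; exact ZMod.natCast_self n
        push_cast at h1
        linear_combination h1
      apply le_antisymm _ Subgroup.le_normalizer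
      intro g hg
      rw [Subgroup.mem_normalizer_iff] at hg
      rcases g with j | j
      · have h1 := (hg (sr i)).mp hi
        rw [r_mul_sr, inv_r, sr_mul_r] at h1
        have h2 := H.mul_mem hi h1
        rw [sr_mul_sr] at h2
        have h3 := H.pow_mem h2 t
        rw [r_pow] at h3
        have e : (i - j + -j - i) * (t : ZMod n) = j := by
          linear_combination (-j) * h2t
        rwa [e] at h3
      · have h1 := (hg (sr i)).mp hi
        rw [sr_mul_sr, inv_sr, r_mul_sr] at h1
        have h2 := H.mul_mem hi h1
        rw [sr_mul_sr] at h2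
        have h3 := H.pow_mem h2 t
        rw [r_pow] at h3
        have e : (j - (i - j) - i) * (t : ZMod n) = i - j := by
          linear_combination (j - i) * h2t
        rw [e] at h3
        have h4 := H.inv_mem h3
        rw [inv_r] at h4
        have h5 := H.mul_mem hi h4
        rw [sr_mul_r] at h5
        have e2 : i + -(i - j) = j := by ring
        rwa [e2] at h5

end Cfsg.Agent.S4074
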