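import Mathlib
import Cfsg.Statements.S4075

set_option autoImplicit false
open Cfsg

namespace Cfsg.Agent.S4075

/-- Let G be a finite nilpotent group. Every non-abelian subgroup of G is self-normalizing if and only if G is abelian or G is a minimal non-abelian p-group for some prime p (non-abelian of prime-power order with every proper subgroup abelian). -/
theorem result {G : Type*} [Group G] [Finite G]
    [Group.IsNilpotent G] :
    (∀ H : Subgroup G, ¬ IsMulCommutative H → Subgroup.normalizer (H : Set G) = H) ↔
    (IsMulCommutative G ∨ (IsPrimePow (Nat.card G) ∧ ¬ IsMulCommutative G ∧ ∀ H : Subgroup G, H ≠ ⊤ → IsMulCommutative H)) := by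
  constructor
  · intro hS
    by_cases hG : IsMulCommutative G
    · exact Or.inl hG
    · right
      have hmin : ∀ H : Subgroup G, H ≠ ⊤ → IsMulCommutative H := by
        intro H hH
        by_contra hc
        have h1 := hS H hc
        have h2 : H < Subgroup.normalizer (H : Set G) :=
          Group.normalizerCondition_of_isNilpotent H (lt_top_iff_ne_top.mpr hH)
        rw [h1] at h2
        exact lt_irrefl _ h2
      refine ⟨?_, hG, hmin⟩
      -- some Sylow subgroup is everything
      have hex : ∃ (p : ℕ) (_ : Fact p.Prime) (P : Sylow p G), (P : Subgroup G) = ⊤ := by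
        by_contra hcon
        push Not at hcon
        obtain ⟨e⟩ := (Group.isNilpotent_of_finite_tfae (G := G)).out 0 4 |>.mp ‹Group.IsNilpotent G›
        have hfac : ∀ (p : (Nat.card G).primeFactors) (P : Sylow p G),
            IsMulCommutative (↑P : Subgroup G) := by
          intro p P
          have : Fact (Nat.Prime (p : ℕ)) := ⟨Nat.prime_of_mem_primeFactors p.2⟩
          exact hmin _ (hcon p this P)
        apply hG
        rw [isMulCommutative_iff]
        intro a b
        apply e.symm.injective
        rw [map_mul, map_mul]
        funext p P
        exact (isMulCommutative_iff.mp (hfac p P)) _ _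
      obtain ⟨p, hp, P, hP⟩ := hex
      obtain ⟨k, hk⟩ := IsPGroup.iff_card.mp P.isPGroup'
      have hcard : Nat.card G = p ^ k := by
        rw [← hk, hP, Subgroup.card_top]
      rw [hcard]
      have hk0 : k ≠ 0 := by
        rintro rfl
        rw [pow_zero] at hcard
        have : Subsingleton G := (Nat.card_eq_one_iff_unique.mp hcard).1
        apply hG
        rw [isMulCommutative_iff]
        intro a b
        exact Subsingleton.elim _ _
      exact (isPrimePow_nat_iff _).mpr ⟨p, k, hp.out, Nat.pos_of_ne_zero hk0, rfl⟩
  · rintro (hG | ⟨-, hna, hmin⟩) H hH
    · exact absurd (inferInstance : IsMulCommutative H) hH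
    · have hHtop : H = ⊤ := by
        by_contra hne
        exact hH (hmin H hne)
      subst hHtop
      exact Subgroup.normalizer_eq_top ⊤

end Cfsg.Agent.S4075
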