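import Mathlib
import Cfsg.Statements.S4080

set_option autoImplicit false
open Cfsg

namespace Cfsg.Agent.S4080

/-- A nilpotent `2 × 2` matrix over a field squares to zero. -/
theorem sq_eq_zero_of_pow_eq_zero {F : Type*} [Field F] (B : Matrix (Fin 2) (Fin 2) F) (n : ℕ)
    (h : B ^ n = 0) : B * B = 0 := by
  have hd : B.det = 0 := by
    have h1 : B.det ^ n = 0 := by
      rw [← Matrix.det_pow, h, Matrix.det_zero]
    have hn : n ≠ 0 := by
      rintro rfl
      simp at h1
    exact (pow_eq_zero_iff hn).1 h1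
  rw [Matrix.det_fin_two] at hd
  have hCH : B * B = (B 0 0 + B 1 1) • B := by
    ext i j
    fin_cases i <;> fin_cases j
    · simp [Matrix.mul_apply, Fin.sum_univ_two]
      linear_combination -hd
    · simp [Matrix.mul_apply, Fin.sum_univ_two]
      ring
    · simp [Matrix.mul_apply, Fin.sum_univ_two]
      ring
    · simp [Matrix.mul_apply, Fin.sum_univ_two]
      linear_combination -hd
  have hpow : ∀ k : ℕ, B ^ (k + 1) = (B 0 0 + B 1 1) ^ k • B := by
    intro k
    induction k with
    | zero => simp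
    | succ k ih =>
      rw [pow_succ, ih, Matrix.smul_mul, hCH, smul_smul, pow_succ]
  rcases Nat.eq_zero_or_pos n with rfl | hn
  · rw [pow_zero] at h
    exact absurd h one_ne_zero
  · obtain ⟨k, rfl⟩ := Nat.exists_eq_succ_of_ne_zero hn.ne'
    rw [Nat.succ_eq_add_one, hpow] at h
    by_cases ht : B 0 0 + B 1 1 = 0
    · rw [hCH, ht, zero_smul]
    · have : B = 0 := by
        rcases smul_eq_zero.1 h with h | h
        · have hk : k ≠ 0 := by
            rintro rfl
            simp at h
          exact absurd ((pow_eq_zero_iff hk).1 h) ht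
        · exact h
      rw [this, mul_zero]

theorem ker_cast {p : ℕ} [Fact p.Prime] (r : ZMod (p ^ 2))
    (h : (ZMod.castHom (dvd_pow_self p two_ne_zero) (ZMod p)) r = 0) :
    ∃ c : ZMod (p ^ 2), r = (p : ZMod (p ^ 2)) * c := by
  have hp : p.Prime := Fact.out
  have : NeZero (p ^ 2) := ⟨pow_ne_zero 2 hp.ne_zero⟩
  have h1 : r = ((r.val : ℕ) : ZMod (p ^ 2)) := (ZMod.natCast_zmod_val r).symm
  rw [h1, map_natCast, ZMod.natCast_eq_zero_iff] at h
  obtain ⟨c, hc⟩ := h
  refine ⟨(c : ZMod (p ^ 2)), ?_⟩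
  rw [h1, hc, Nat.cast_mul]

theorem key_matrix {p : ℕ} [Fact p.Prime] (hp3 : 3 < p)
    (A : Matrix (Fin 2) (Fin 2) (ZMod (p ^ 2))) (hA : A ^ p = 1) :
    ∀ i j, (p : ZMod (p ^ 2)) * (A - 1) i j = 0 := by
  have hp : p.Prime := Fact.out
  set N := A - 1 with hN
  let φ := ZMod.castHom (dvd_pow_self p two_ne_zero) (ZMod p)
  have hB : (φ.mapMatrix N) ^ p = 0 := by
    have h1 : φ.mapMatrix N = φ.mapMatrix A - 1 := by rw [hN, map_sub, map_one]
    rw [h1, sub_pow_char_of_commute _ (Commute.one_right _), one_pow, ← map_pow, hA, map_one,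
      sub_self]
  have hB2 := sq_eq_zero_of_pow_eq_zero _ _ hB
  rw [← map_mul] at hB2
  have hker : ∀ i j, ∃ c : ZMod (p ^ 2), (N * N) i j = (p : ZMod (p ^ 2)) * c := by
    intro i j
    apply ker_cast
    exact congrFun (congrFun hB2 i) j
  choose C hC using hker
  have hNN : N * N = (p : ZMod (p ^ 2)) • (Matrix.of C) := by
    ext i j
    rw [hC, Matrix.smul_apply, Matrix.of_apply, smul_eq_mul]
  have hpp : (p : ZMod (p ^ 2)) * (p : ZMod (p ^ 2)) = 0 := by
    rw [← Nat.cast_mul, ← sq]
    exact ZMod.natCast_self (p ^ 2)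
  have hN4 : N * N * (N * N) = 0 := by
    rw [hNN, Matrix.smul_mul, Matrix.mul_smul, smul_smul, hpp, zero_smul]
  have hpNN : N * N * (p : Matrix (Fin 2) (Fin 2) (ZMod (p ^ 2))) = 0 := by
    rw [← nsmul_eq_mul', hNN, ← Nat.cast_smul_eq_nsmul (ZMod (p ^ 2)), smul_smul, hpp, zero_smul]
  have hexp : A ^ p = ∑ m ∈ Finset.range (p + 1),
      N ^ m * 1 ^ (p - m) * (p.choose m : Matrix (Fin 2) (Fin 2) (ZMod (p ^ 2))) := by
    have : A = N + 1 := by rw [hN, sub_add_cancel]
    rw [this]
    exact Commute.add_pow (Commute.one_right N) p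
  have hsum : ∑ m ∈ Finset.range (p + 1),
      N ^ m * 1 ^ (p - m) * (p.choose m : Matrix (Fin 2) (Fin 2) (ZMod (p ^ 2)))
        = 1 + N * (p : Matrix (Fin 2) (Fin 2) (ZMod (p ^ 2))) := by
    rw [Finset.sum_eq_add 0 1 (by norm_num)]
    · simp
    · intro m hm hm01
      rw [Finset.mem_range] at hm
      obtain ⟨q, rfl⟩ : ∃ q, m = q + 2 := ⟨m - 2, by omega⟩
      rw [one_pow, mul_one, pow_add N, pow_two N]
      by_cases hmp : q + 2 < p
      · obtain ⟨c, hc⟩ := hp.dvd_choose_self (by omega) hmp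
        rw [hc, Nat.cast_mul, ← mul_assoc, mul_assoc (N ^ q), hpNN, mul_zero, zero_mul]
      · obtain ⟨q', rfl⟩ : ∃ q', q = q' + 2 := ⟨q - 2, by omega⟩
        rw [pow_add N, pow_two N, mul_assoc (N ^ q'), hN4, mul_zero, zero_mul]
    · intro h
      exact absurd (Finset.mem_range.2 (by omega)) h
    · intro h
      exact absurd (Finset.mem_range.2 (by omega)) h
  rw [hexp, hsum] at hA
  have hNp : N * (p : Matrix (Fin 2) (Fin 2) (ZMod (p ^ 2))) = 0 := by
    have := hA
    rwa [add_eq_left] at this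
  intro i j
  have := congrFun (congrFun hNp i) j
  rw [← nsmul_eq_mul', Matrix.smul_apply, nsmul_eq_mul] at this
  simpa using this

/-- The action of a `2 × 2` matrix on pairs. -/
def act {R : Type*} [CommRing R] (B : Matrix (Fin 2) (Fin 2) R) (v : R × R) : R × R :=
  (B 0 0 * v.1 + B 0 1 * v.2, B 1 0 * v.1 + B 1 1 * v.2)

theorem act_mul {R : Type*} [CommRing R] (B C : Matrix (Fin 2) (Fin 2) R) (v : R × R) :
    act (B * C) v = act B (act C v) := by
  simp only [act, Matrix.mul_apply, Fin.sum_univ_two]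
  ext <;> simp <;> ring

theorem act_one {R : Type*} [CommRing R] (v : R × R) :
    act (1 : Matrix (Fin 2) (Fin 2) R) v = v := by
  simp [act]

theorem act_pow {R : Type*} [CommRing R] (B : Matrix (Fin 2) (Fin 2) R) (k : ℕ) (v : R × R) :
    act (B ^ k) v = (act B)^[k] v := by
  induction k generalizing v with
  | zero => simp [act_one]
  | succ k ih => rw [pow_succ', act_mul, ih, Function.iterate_succ_apply']

/-- Let p > 3 be a prime and L the direct product of two cyclic groups of order p². Every automorphism of L of order p fixes every element of order p of L. -/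
theorem result {p : ℕ} [Fact p.Prime] (hp : 3 < p)
    (a : MulAut (Multiplicative (ZMod (p ^ 2) × ZMod (p ^ 2)))) (ha : orderOf a = p)
    (x : Multiplicative (ZMod (p ^ 2) × ZMod (p ^ 2))) (hx : orderOf x = p) : a x = x := by
  have hpp : p.Prime := Fact.out
  have : NeZero (p ^ 2) := ⟨pow_ne_zero 2 hpp.ne_zero⟩
  let g : ZMod (p ^ 2) × ZMod (p ^ 2) → ZMod (p ^ 2) × ZMod (p ^ 2) :=
    fun v => Multiplicative.toAdd (a (Multiplicative.ofAdd v))
  have hadd : ∀ v w, g (v + w) = g v + g w := by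
    intro v w
    simp only [g, ofAdd_add, map_mul, toAdd_mul]
  have hnsmul : ∀ (n : ℕ) v, g (n • v) = n • g v := by
    intro n v
    induction n with
    | zero => simp [g]
    | succ n ih => rw [succ_nsmul, hadd, ih, succ_nsmul]
  let A : Matrix (Fin 2) (Fin 2) (ZMod (p ^ 2)) :=
    !![(g (1, 0)).1, (g (0, 1)).1; (g (1, 0)).2, (g (0, 1)).2]
  have hgA : ∀ v, g v = act A v := by
    rintro ⟨u, w⟩
    have h1 : ((u, w) : ZMod (p ^ 2) × ZMod (p ^ 2)) = u.val • (1, 0) + w.val • (0, 1) := by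
      ext <;> simp
    rw [h1, hadd, hnsmul, hnsmul]
    ext <;> simp [act, A, mul_comm]
  have hApow : A ^ p = 1 := by
    have h1 : ∀ v, act (A ^ p) v = v := by
      intro v
      rw [act_pow]
      have h2 : ∀ k v, (act A)^[k] v = Multiplicative.toAdd ((a ^ k) (Multiplicative.ofAdd v)) := by
        intro k
        induction k with
        | zero => intro v; simp
        | succ k ih =>
          intro v
          rw [Function.iterate_succ_apply', ih, ← hgA, pow_succ' a k, MulAut.mul_apply]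
          rfl
      have hap : a ^ p = 1 := by
        have := pow_orderOf_eq_one a
        rwa [ha] at this
      rw [h2, hap]
      rfl
    ext i j
    have e1 := h1 (1, 0)
    have e2 := h1 (0, 1)
    simp only [act, mul_one, mul_zero, add_zero, zero_add, Prod.mk.injEq] at e1 e2
    fin_cases i <;> fin_cases j <;> simp [e1.1, e1.2, e2.1, e2.2]
  have hkey := key_matrix hp A hApow
  obtain ⟨⟨u, w⟩, rfl⟩ : ∃ v, x = Multiplicative.ofAdd v := ⟨Multiplicative.toAdd x, rfl⟩
  have hxp : (Multiplicative.ofAdd (u, w)) ^ p = 1 := by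
    have := pow_orderOf_eq_one (Multiplicative.ofAdd (u, w))
    rwa [hx] at this
  have hpu : (p : ZMod (p ^ 2)) * u = 0 ∧ (p : ZMod (p ^ 2)) * w = 0 := by
    rw [← ofAdd_nsmul, ofAdd_eq_one, Prod.ext_iff] at hxp
    simpa using hxp
  have hdiv : ∀ r : ZMod (p ^ 2), (p : ZMod (p ^ 2)) * r = 0 →
      ∃ c, r = (p : ZMod (p ^ 2)) * c := by
    intro r hr
    apply ker_cast
    have h1 : r = ((r.val : ℕ) : ZMod (p ^ 2)) := (ZMod.natCast_zmod_val r).symm
    rw [h1, ← Nat.cast_mul, ZMod.natCast_eq_zero_iff] at hr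
    have h2 : p ∣ r.val :=
      (Nat.mul_dvd_mul_iff_left hpp.pos).1 ((dvd_of_eq (pow_two p).symm).trans hr)
    rw [h1, map_natCast, ZMod.natCast_eq_zero_iff]
    exact h2
  obtain ⟨u', rfl⟩ := hdiv u hpu.1
  obtain ⟨w', rfl⟩ := hdiv w hpu.2
  change Multiplicative.ofAdd (g (_, _)) = _
  rw [hgA]
  congr 1
  have h00 := hkey 0 0
  have h01 := hkey 0 1
  have h10 := hkey 1 0
  have h11 := hkey 1 1
  simp only [Matrix.sub_apply, Matrix.one_apply_eq, ne_eq, zero_ne_one, one_ne_zero,
    not_false_eq_true, Matrix.one_apply_ne, sub_zero] at h00 h01 h10 h11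
  ext
  · simp only [act]
    linear_combination u' * h00 + w' * h01
  · simp only [act]
    linear_combination u' * h10 + w' * h11

end Cfsg.Agent.S4080
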