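import Mathlib
import Cfsg.Statements.S4081
import Cfsg.Agent.S0144
import Cfsg.Agent.Lib.Helper95.FrobCompl
import Cfsg.Agent.Lib.Helper68.AutOrbitGrp

set_option autoImplicit false
open Cfsg

namespace Cfsg.Agent.S4081

open Cfsg.Agent.Lib.Helper68.AutOrbit
open scoped commutatorElement

/-- no element of order `p q` -/
theorem no_pq {G : Type*} [Group G] {p q : ℕ} (hp : p.Prime) (hq : q.Prime) (hpq : p ≠ q)
    (hF1 : ∀ g : G, orderOf g = 1 ∨ orderOf g = p ∨ orderOf g = q)
    (e k : G) (he : orderOf e = q) (hk : orderOf k = p) (hc : Commute e k) : False := by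
  have h1 := hc.orderOf_mul_eq_mul_orderOf_of_coprime (by
    rw [he, hk]
    exact (Nat.coprime_primes hq hp).mpr (Ne.symm hpq))
  rw [he, hk] at h1
  have hp2 := hp.two_le
  have hq2 := hq.two_le
  rcases hF1 (e * k) with h | h | h
  · rw [h] at h1
    have := Nat.eq_one_of_mul_eq_one_right h1.symm
    omega
  · rw [h] at h1
    have : q * p = 1 * p := by rw [one_mul]; exact h1.symm
    have := Nat.eq_of_mul_eq_mul_right hp.pos this
    omega
  · rw [h] at h1
    have : q * p = q * 1 := by rw [mul_one]; exact h1.symm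
    have := Nat.eq_of_mul_eq_mul_left hq.pos this
    omega

/-- the forward direction once the prime with `G' = Ω_p` has been identified -/
theorem fwd {G : Type*} [Group G] [Finite G] {p q : ℕ} [Fact p.Prime] [Fact q.Prime] (hpq : p ≠ q)
    (hF1 : ∀ g : G, orderOf g = 1 ∨ orderOf g = p ∨ orderOf g = q)
    (hF2 : ∀ g g' : G, orderOf g = orderOf g' → ∃ Φ : MulAut G, Φ g = g')
    (g₀ : G) (hg₀ : g₀ ∈ commutator G) (hg₀p : orderOf g₀ = p) (hne : commutator G ≠ ⊤)
    (y₀ : G) (hy₀ : orderOf y₀ = q) :
    ∃ n : ℕ, 1 ≤ n ∧ Nat.card G = p ^ n * q ∧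
      (∀ P : Sylow p G, (P : Subgroup G).Normal ∧ Cfsg.IsElementaryAbelian p (P : Subgroup G)) ∧
      orderOf (p : ZMod q) = q - 1 ∧
      ∀ x y : G, orderOf x = q → orderOf y = p → x * y * x⁻¹ ≠ y := by
  classical
  have hp : p.Prime := Fact.out
  have hq : q.Prime := Fact.out
  have hp2 := hp.two_le
  have hq2 := hq.two_le
  set P : Subgroup G := commutator G with hPdef
  have hPn : P.Normal := inferInstance
  have hchar : ∀ (Φ : MulAut G) (g : G), Φ g ∈ P ↔ g ∈ P := by
    intro Φ g
    have h1 := (inferInstance : (commutator G).Characteristic).fixed Φ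
    conv_rhs => rw [hPdef, ← h1]
    rfl
  have hnopq := no_pq hp hq hpq hF1
  have hg₀1 : g₀ ≠ 1 := by
    rintro rfl
    rw [orderOf_one] at hg₀p
    omega
  have hy₀1 : y₀ ≠ 1 := by
    rintro rfl
    rw [orderOf_one] at hy₀
    omega
  -- elements of order p lie in P
  have hpP : ∀ g : G, orderOf g = p → g ∈ P := by
    intro g hg
    obtain ⟨Φ, rfl⟩ := hF2 g₀ g (hg₀p.trans hg.symm)
    exact (hchar Φ g₀).mpr hg₀
  -- no element of order q lies in P
  have hqP : ∀ g : G, orderOf g = q → g ∉ P := by
    intro g hg hgP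
    apply hne
    rw [eq_top_iff]
    intro z _
    rcases hF1 z with h | h | h
    · rw [orderOf_eq_one_iff.mp h]
      exact P.one_mem
    · exact hpP z h
    · obtain ⟨Φ, rfl⟩ := hF2 g z (hg.trans h.symm)
      exact (hchar Φ g).mpr hgP
  have hmem : ∀ g : G, g ∈ P ↔ g ^ p = 1 := by
    intro g
    constructor
    · intro hg
      rcases hF1 g with h | h | h
      · rw [orderOf_eq_one_iff.mp h, one_pow]
      · rw [← h]
        exact pow_orderOf_eq_one g
      · exact absurd hg (hqP g h)
    · intro hg
      by_cases h1 : g = 1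
      · rw [h1]
        exact P.one_mem
      · exact hpP g (orderOf_eq_prime hg h1)
  have hPbot : P ≠ ⊥ := by
    intro h
    rw [h, Subgroup.mem_bot] at hg₀
    exact hg₀1 hg₀
  -- P is abelian
  have hPp : IsPGroup p P := by
    intro g
    exact ⟨1, by
      rw [pow_one]
      exact Subtype.ext ((hmem g).mp g.2)⟩
  have hPnt : Nontrivial P := (Subgroup.nontrivial_iff_ne_bot P).mpr hPbot
  have hcomm : ∀ a ∈ P, ∀ b ∈ P, a * b = b * a := by
    have hcn := hPp.center_nontrivial
    obtain ⟨⟨z, hz⟩, hz1⟩ := exists_ne (1 : Subgroup.center P)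
    have hz1' : (z : G) ≠ 1 := by
      intro h
      apply hz1
      apply Subtype.ext
      apply Subtype.ext
      exact h
    have hzc : ∀ w ∈ P, w * (z : G) = (z : G) * w := by
      intro w hw
      have := Subgroup.mem_center_iff.mp hz ⟨w, hw⟩
      exact congrArg Subtype.val this
    intro a ha b hb
    by_cases ha1 : a = 1
    · rw [ha1, one_mul, mul_one]
    · have hzo : orderOf (z : G) = p := orderOf_eq_prime ((hmem _).mp z.2) hz1'
      have hao : orderOf a = p := orderOf_eq_prime ((hmem _).mp ha) ha1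
      obtain ⟨Φ, rfl⟩ := hF2 (z : G) a (hzo.trans hao.symm)
      have hb' : Φ.symm b ∈ P := (hchar Φ _).mp (by rw [MulEquiv.apply_symm_apply]; exact hb)
      have h3 := hzc _ hb'
      have h4 := congrArg Φ h3
      rw [map_mul, map_mul, MulEquiv.apply_symm_apply] at h4
      exact h4.symm
  -- Sylow subgroups
  have hSyl : ∀ S : Sylow p G, (S : Subgroup G) = P := by
    intro S
    have hle : (S : Subgroup G) ≤ P := by
      intro s hs
      obtain ⟨k, hk⟩ := (IsPGroup.iff_orderOf.mp S.isPGroup') ⟨s, hs⟩
      rw [Subgroup.orderOf_mk] at hk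
      rcases hF1 s with h | h | h
      · rw [orderOf_eq_one_iff.mp h]
        exact P.one_mem
      · exact hpP s h
      · exfalso
        rw [h] at hk
        have hd : q ∣ p ^ k := by rw [← hk]
        have := (Nat.prime_dvd_prime_iff_eq hq hp).mp (hq.dvd_of_dvd_pow hd)
        exact hpq this.symm
    exact (S.is_maximal' hPp hle).symm
  have hidx_p : ¬ p ∣ P.index := by
    obtain ⟨S⟩ : Nonempty (Sylow p G) := inferInstance
    rw [← hSyl S]
    exact S.not_dvd_index
  obtain ⟨n, hn⟩ := IsPGroup.iff_card.mp hPp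
  have hn1 : 1 ≤ n := by
    by_contra h0
    have : n = 0 := by omega
    rw [this, pow_zero] at hn
    exact hPbot (Subgroup.card_eq_one.mp hn)
  have hcardG : Nat.card G = P.index * p ^ n := by
    rw [← hn]
    exact (Subgroup.index_mul_card P).symm
  have hidx0 : P.index ≠ 0 := Subgroup.index_ne_zero_of_finite
  have hidx_q : P.index = q ^ (P.index).primeFactorsList.length := by
    apply Nat.eq_prime_pow_of_unique_prime_dvd hidx0
    intro r hr hrd
    have : Fact r.Prime := ⟨hr⟩
    have hrG : r ∣ Nat.card G := by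
      rw [hcardG]
      exact Dvd.dvd.mul_right hrd _
    obtain ⟨w, hw⟩ := exists_prime_orderOf_dvd_card' r hrG
    rcases hF1 w with h | h | h
    · rw [h] at hw
      exact absurd hw.symm hr.one_lt.ne'
    · rw [h] at hw
      rw [← hw] at hrd
      exact absurd hrd hidx_p
    · rw [h] at hw
      exact hw.symm
  set b := (P.index).primeFactorsList.length with hb
  have hb1 : b = 1 := by
    by_contra hb1
    have hb2 : 2 ≤ b := by
      by_contra hlt
      have hb0 : b = 0 := by omega
      rw [hb0, pow_zero] at hidx_q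
      have h1 : P = ⊤ := Subgroup.index_eq_one.mp hidx_q
      exact hqP y₀ hy₀ (h1 ▸ Subgroup.mem_top y₀)
    have hdvd : q ^ 2 ∣ Nat.card G := by
      rw [hcardG, hidx_q]
      exact Dvd.dvd.mul_right (pow_dvd_pow q hb2) _
    obtain ⟨E, hE⟩ := Sylow.exists_subgroup_card_pow_prime q hdvd
    have hEc' := IsPGroup.isMulCommutative_of_card_eq_prime_sq hE
    have hEc : ∀ a b : E, a * b = b * a := fun a b => hEc'.is_comm.comm a b
    have hEq : ∀ e ∈ E, e ^ q = 1 := by
      intro e he
      have h1 : orderOf e ∣ q ^ 2 := by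
        rw [← hE]
        have := orderOf_dvd_natCard (⟨e, he⟩ : E)
        rwa [Subgroup.orderOf_mk] at this
      rcases hF1 e with h | h | h
      · rw [orderOf_eq_one_iff.mp h, one_pow]
      · exfalso
        rw [h] at h1
        have := (Nat.prime_dvd_prime_iff_eq hp hq).mp (hp.dvd_of_dvd_pow h1)
        exact hpq this
      · rw [← h]
        exact pow_orderOf_eq_one e
    have hEnt : Nontrivial E := by
      rw [← Finite.one_lt_card_iff_nontrivial, hE]
      nlinarith
    obtain ⟨⟨a, ha⟩, ha1⟩ := exists_ne (1 : E)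
    have ha1' : a ≠ 1 := fun h => ha1 (Subtype.ext h)
    have hao : orderOf a = q := orderOf_eq_prime (hEq a ha) ha1'
    obtain ⟨c, hcE, hca⟩ : ∃ c ∈ E, c ∉ Subgroup.zpowers a := by
      by_contra hall
      push Not at hall
      have hle : E ≤ Subgroup.zpowers a := hall
      have h1 := Subgroup.card_le_of_le hle
      rw [hE, Nat.card_zpowers, hao] at h1
      nlinarith
    have hac : a * c = c * a := congrArg Subtype.val (hEc ⟨a, ha⟩ ⟨c, hcE⟩)
    refine Cfsg.Agent.Lib.Helper95.FrobCompl.no_rank_two P hPbot q a c hac (hEq a ha) (hEq c hcE) ?_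
    intro i j hij k hk hcomm'
    by_contra hk1
    have hko : orderOf k = p := orderOf_eq_prime ((hmem k).mp hk) hk1
    have he1 : a ^ i * c ^ j ≠ 1 := by
      intro h1
      have hcj : c ^ j ∈ Subgroup.zpowers a := by
        have : c ^ j = (a ^ i)⁻¹ := eq_inv_of_mul_eq_one_right h1
        rw [this]
        exact (Subgroup.zpowers a).inv_mem (Subgroup.npow_mem_zpowers a i)
      have hqj : q ∣ j := by
        by_contra hqj
        apply hca
        have hcop : Nat.Coprime j q :=
          (Nat.Coprime.symm ((Nat.Prime.coprime_iff_not_dvd hq).mpr hqj))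
        obtain ⟨m, -, hm⟩ := Nat.exists_mul_mod_eq_one_of_coprime hcop hq.one_lt
        have h2 : c ^ (j * m) = c := by
          conv_lhs => rw [← Nat.div_add_mod (j * m) q, hm, pow_add, pow_mul, hEq c hcE, one_pow,
            one_mul, pow_one]
        rw [← h2, pow_mul]
        exact (Subgroup.zpowers a).pow_mem hcj m
      have hcj1 : c ^ j = 1 := by
        obtain ⟨t, rfl⟩ := hqj
        rw [pow_mul, hEq c hcE, one_pow]
      rw [hcj1, mul_one] at h1
      have hqi : q ∣ i := by
        rw [← hao]
        exact orderOf_dvd_of_pow_eq_one h1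
      exact hij ⟨hqi, hqj⟩
    have heo : orderOf (a ^ i * c ^ j) = q := by
      apply orderOf_eq_prime _ he1
      have hcm : Commute (a ^ i) (c ^ j) := (Commute.pow_pow (show Commute a c from hac) i j)
      rw [hcm.mul_pow, ← pow_mul, ← pow_mul, mul_comm i q, mul_comm j q, pow_mul, pow_mul,
        hEq a ha, hEq c hcE, one_pow, one_pow, one_mul]
    exact hnopq _ k heo hko hcomm'
  rw [hb1, pow_one] at hidx_q
  have hcardG' : Nat.card G = p ^ n * q := by
    rw [hcardG, hidx_q, mul_comm]
  -- the Frobenius structure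
  have hcop : (p ^ n).Coprime q := Nat.Coprime.pow_left n ((Nat.coprime_primes hp hq).mpr hpq)
  have hFrob : Frob G P y₀ p q :=
    { normal := hPn
      comm := hcomm
      mem_iff := hmem
      hx := hy₀
      compl := by
        apply Subgroup.isComplement'_of_coprime
        · rw [hn, Nat.card_zpowers, hy₀, hcardG']
        · rw [hn, Nat.card_zpowers, hy₀]
          exact hcop
      fpf := by
        intro i hi u hu hcomm'
        by_contra hu1
        have huo : orderOf u = p := orderOf_eq_prime ((hmem u).mp hu) hu1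
        have hxo : orderOf (y₀ ^ i) = q := by
          apply orderOf_eq_prime
          · rw [← pow_mul, mul_comm, pow_mul, ← hy₀, pow_orderOf_eq_one, one_pow]
          · intro h1
            rw [← hy₀] at hi
            exact hi (orderOf_dvd_of_pow_eq_one h1)
        exact hnopq _ u hxo huo hcomm' }
  refine ⟨n, hn1, hcardG', ?_, hFrob.primitive_root hpq hPbot hF2, ?_⟩
  · intro S
    rw [hSyl S]
    refine ⟨hPn, ⟨⟨fun a b => Subtype.ext (hcomm a a.2 b b.2)⟩⟩, fun a ha => (hmem a).mp ha⟩
  · intro x y hx hy hxy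
    apply hnopq x y hx hy
    exact mul_inv_eq_iff_eq_mul.mp hxy

/-- the backward direction -/
theorem bwd {G : Type*} [Group G] [Finite G] {p q n : ℕ} [Fact p.Prime] [Fact q.Prime] (hpq : p ≠ q)
    (hn : 1 ≤ n) (hcard : Nat.card G = p ^ n * q)
    (hSyl : ∀ P : Sylow p G, (P : Subgroup G).Normal ∧ Cfsg.IsElementaryAbelian p (P : Subgroup G))
    (hord : orderOf (p : ZMod q) = q - 1)
    (hfpf : ∀ x y : G, orderOf x = q → orderOf y = p → x * y * x⁻¹ ≠ y) :
    Nat.card (MulAction.orbitRel.Quotient (MulAut G) G) = 3 := by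
  classical
  have hp : p.Prime := Fact.out
  have hq : q.Prime := Fact.out
  have hp2 := hp.two_le
  have hq2 := hq.two_le
  obtain ⟨S⟩ : Nonempty (Sylow p G) := inferInstance
  obtain ⟨hSn, hSc, hSe⟩ := hSyl S
  set P : Subgroup G := (S : Subgroup G) with hPdef
  have hqnp : ¬ p ∣ q := fun h => hpq ((Nat.prime_dvd_prime_iff_eq hp hq).mp h)
  have hcardP : Nat.card P = p ^ n := by
    rw [hPdef, Sylow.card_eq_multiplicity, hcard, Nat.factorization_mul (pow_ne_zero n hp.ne_zero)
      hq.ne_zero, Nat.factorization_pow, Finsupp.add_apply, Finsupp.smul_apply,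
      Nat.Prime.factorization_self hp, Nat.factorization_eq_zero_of_not_dvd hqnp]
    simp
  -- p-elements lie in P
  have hPall : ∀ g : G, g ^ p = 1 → g ∈ P := by
    intro g hg
    have h1 : IsPGroup p (Subgroup.zpowers g) := by
      rintro ⟨y, hy⟩
      refine ⟨1, ?_⟩
      obtain ⟨m, rfl⟩ := Subgroup.mem_zpowers_iff.mp hy
      apply Subtype.ext
      show (g ^ m) ^ p ^ 1 = 1
      rw [pow_one, ← zpow_natCast, ← zpow_mul, mul_comm, zpow_mul, zpow_natCast, hg, one_zpow]
    obtain ⟨Q, hQ⟩ := h1.exists_le_sylow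
    obtain ⟨c, hc⟩ := MulAction.exists_smul_eq G S Q
    have h2 : c • S = S := Sylow.smul_eq_of_normal
    rw [h2] at hc
    rw [hPdef, hc]
    exact hQ (Subgroup.mem_zpowers g)
  have hmem : ∀ g : G, g ∈ P ↔ g ^ p = 1 := fun g => ⟨fun hg => hSe g hg, hPall g⟩
  obtain ⟨x, hx⟩ := exists_prime_orderOf_dvd_card' (G := G) q (by rw [hcard]; exact dvd_mul_left q _)
  have hcop : (p ^ n).Coprime q := Nat.Coprime.pow_left n ((Nat.coprime_primes hp hq).mpr hpq)
  have hcomm : ∀ a ∈ P, ∀ b ∈ P, a * b = b * a := by
    intro a ha b hb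
    exact congrArg Subtype.val (hSc.is_comm.comm ⟨a, ha⟩ ⟨b, hb⟩)
  have hFrob : Frob G P x p q :=
    { normal := hSn
      comm := hcomm
      mem_iff := hmem
      hx := hx
      compl := by
        apply Subgroup.isComplement'_of_coprime
        · rw [hcardP, Nat.card_zpowers, hx, hcard]
        · rw [hcardP, Nat.card_zpowers, hx]
          exact hcop
      fpf := by
        intro i hi u hu hcomm'
        by_contra hu1
        have huo : orderOf u = p := orderOf_eq_prime ((hmem u).mp hu) hu1
        have hxo : orderOf (x ^ i) = q := by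
          apply orderOf_eq_prime
          · rw [← pow_mul, mul_comm, pow_mul, ← hx, pow_orderOf_eq_one, one_pow]
          · intro h1
            rw [← hx] at hi
            exact hi (orderOf_dvd_of_pow_eq_one h1)
        exact hfpf _ u hxo huo (mul_inv_eq_iff_eq_mul.mpr hcomm') }
  obtain ⟨hTP, -⟩ := hFrob.exists_auts hpq hord
  have hTQ := hFrob.trans_compl hpq hord
  -- orders
  have hordP : ∀ g : G, g ∈ P → g ≠ 1 → orderOf g = p := fun g hg hg1 =>
    orderOf_eq_prime ((hmem g).mp hg) hg1
  have hordQ : ∀ g : G, g ∉ P → orderOf g = q := by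
    intro g hg
    have hm0 : orderOf g ≠ 0 := (orderOf_pos g).ne'
    have hmd : orderOf g ∣ p ^ n * q := by
      rw [← hcard]
      exact orderOf_dvd_natCard g
    have hqm : q ∣ orderOf g := by
      by_contra hqm
      have h1 : (orderOf g).Coprime q :=
        (Nat.Coprime.symm ((Nat.Prime.coprime_iff_not_dvd hq).mpr hqm))
      have h2 : orderOf g ∣ p ^ n := h1.dvd_of_dvd_mul_right hmd
      obtain ⟨k, -, hk⟩ := (Nat.dvd_prime_pow hp).mp h2
      apply hg
      have h3 : IsPGroup p (Subgroup.zpowers g) := by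
        apply IsPGroup.of_card (n := k)
        rw [Nat.card_zpowers, hk]
      obtain ⟨Q, hQ⟩ := h3.exists_le_sylow
      obtain ⟨c, hc⟩ := MulAction.exists_smul_eq G S Q
      have h4 : c • S = S := Sylow.smul_eq_of_normal
      rw [h4] at hc
      rw [hPdef, hc]
      exact hQ (Subgroup.mem_zpowers g)
    have hpm : ¬ p ∣ orderOf g := by
      intro hpm
      have h1 := orderOf_pow_orderOf_div hm0 hqm
      have h2 := orderOf_pow_orderOf_div hm0 hpm
      apply hfpf _ _ h1 h2
      rw [mul_inv_eq_iff_eq_mul]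
      exact (Commute.pow_pow (Commute.refl g) _ _).eq
    have h3 : (orderOf g).Coprime (p ^ n) :=
      Nat.Coprime.pow_right n (Nat.Coprime.symm ((Nat.Prime.coprime_iff_not_dvd hp).mpr hpm))
    have h4 : orderOf g ∣ q := h3.dvd_of_dvd_mul_left hmd
    exact Nat.dvd_antisymm h4 hqm
  have hPbot : P ≠ ⊥ := by
    intro h
    rw [h, Subgroup.card_bot] at hcardP
    have : 1 < p ^ n := Nat.one_lt_pow (by omega) hp.one_lt
    omega
  obtain ⟨⟨u₁, hu₁⟩, hu₁1'⟩ := (Subgroup.ne_bot_iff_exists_ne_one.mp hPbot)
  have hu₁1 : u₁ ≠ 1 := fun h => hu₁1' (Subtype.ext h)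
  have hxP : x ∉ P := by
    intro h
    have h1 := (hmem x).mp h
    have h2 : q ∣ p := by
      rw [← hx]
      exact orderOf_dvd_of_pow_eq_one h1
    exact hpq ((Nat.prime_dvd_prime_iff_eq hq hp).mp h2).symm
  -- the order function on orbits
  let F : MulAction.orbitRel.Quotient (MulAut G) G → ℕ :=
    Quotient.lift (fun g : G => orderOf g) (by
      intro a b hab
      have h1 : a ∈ MulAction.orbit (MulAut G) b := MulAction.orbitRel_apply.mp hab
      obtain ⟨Φ, rfl⟩ := h1
      show orderOf (Φ • b) = orderOf b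
      rw [MulAut.smul_def]
      exact Φ.orderOf_eq b)
  have hFmk : ∀ g : G, F (Quotient.mk'' g) = orderOf g := fun g => rfl
  have hFinj : Function.Injective F := by
    intro c₁ c₂
    induction c₁ using Quotient.inductionOn' with
    | h g =>
      induction c₂ using Quotient.inductionOn' with
      | h g' =>
        intro h
        have h' : orderOf g = orderOf g' := h
        apply Quotient.sound'
        show MulAction.orbitRel (MulAut G) G g g'
        rw [MulAction.orbitRel_apply]
        by_cases hg : g ∈ P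
        · by_cases hg1 : g = 1
          · rw [hg1, orderOf_one] at h'
            rw [hg1, orderOf_eq_one_iff.mp h'.symm]
            exact MulAction.mem_orbit_self 1
          · have hgo := hordP g hg hg1
            rw [hgo] at h'
            have hg'P : g' ∈ P := by
              apply hPall
              rw [h']
              exact pow_orderOf_eq_one g'
            have hg'1 : g' ≠ 1 := by
              rintro rfl
              rw [orderOf_one] at h'
              omega
            obtain ⟨Φ, hΦ⟩ := hTP g' hg'P g hg hg'1 hg1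
            exact ⟨Φ, hΦ⟩
        · have hgo := hordQ g hg
          rw [hgo] at h'
          have hg'P : g' ∉ P := by
            intro hg'P
            by_cases hg'1 : g' = 1
            · rw [hg'1, orderOf_one] at h'
              omega
            · rw [hordP g' hg'P hg'1] at h'
              exact hpq h'.symm
          obtain ⟨Φ, hΦ⟩ := hTQ g' g hg'P hg
          exact ⟨Φ, hΦ⟩
  have hrange : Set.range F = {1, p, q} := by
    ext m
    constructor
    · rintro ⟨c, rfl⟩
      induction c using Quotient.inductionOn' with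
      | h g =>
        rw [hFmk]
        by_cases hg : g ∈ P
        · by_cases hg1 : g = 1
          · left
            rw [hg1, orderOf_one]
          · right; left
            exact hordP g hg hg1
        · right; right
          exact hordQ g hg
    · rintro (rfl | rfl | rfl)
      · exact ⟨Quotient.mk'' 1, by rw [hFmk, orderOf_one]⟩
      · exact ⟨Quotient.mk'' u₁, by rw [hFmk, hordP u₁ hu₁ hu₁1]⟩
      · exact ⟨Quotient.mk'' x, by rw [hFmk, hx]⟩
  rw [← Nat.card_range_of_injective hFinj, hrange, Nat.card_coe_set_eq]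
  exact Set.ncard_eq_three.mpr ⟨1, p, q, by omega, by omega, hpq, rfl⟩

/-- Let G be a finite group whose order is not a prime power. Then the automorphism group of G has exactly three orbits on G if and only if there are distinct primes p, q with #G = pⁿ·q (n ≥ 1) such that G has a normal elementary abelian Sylow p-subgroup P, p is a primitive root modulo q (the multiplicative order of p mod q is q − 1), and every element of order q of G acts on P without non-identity fixed points. -/
theorem result {G : Type*} [Group G] [Finite G] (hnpp : ¬ IsPrimePow (Nat.card G)) (hnt : Nat.card G ≠ 1) :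
    Nat.card (MulAction.orbitRel.Quotient (MulAut G) G) = 3 ↔
    ∃ (p q n : ℕ) (_ : Fact p.Prime) (_ : Fact q.Prime), p ≠ q ∧ 1 ≤ n ∧ Nat.card G = p ^ n * q ∧
      (∀ P : Sylow p G, (P : Subgroup G).Normal ∧ Cfsg.IsElementaryAbelian p (P : Subgroup G)) ∧
      orderOf (p : ZMod q) = q - 1 ∧
      ∀ x y : G, orderOf x = q → orderOf y = p → x * y * x⁻¹ ≠ y := by
  constructor
  · intro h3
    classical
    have hcard0 : Nat.card G ≠ 0 := Nat.card_pos.ne'
    obtain ⟨p, hp, hpd⟩ := Nat.exists_prime_and_dvd hnt
    obtain ⟨q, hq, hqd, hqp⟩ : ∃ q, q.Prime ∧ q ∣ Nat.card G ∧ q ≠ p := by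
      by_contra hall
      push Not at hall
      apply hnpp
      have h1 := Nat.eq_prime_pow_of_unique_prime_dvd hcard0 (fun {d} hd hdd => hall d hd hdd)
      rw [h1]
      refine hp.isPrimePow.pow ?_
      intro h0
      rw [h0, pow_zero] at h1
      exact hnt h1
    have hpq : p ≠ q := Ne.symm hqp
    have hp2 := hp.two_le
    have hq2 := hq.two_le
    have hFp : Fact p.Prime := ⟨hp⟩
    have hFq : Fact q.Prime := ⟨hq⟩
    obtain ⟨gp, hgp⟩ := exists_prime_orderOf_dvd_card' (G := G) p hpd
    obtain ⟨gq, hgq⟩ := exists_prime_orderOf_dvd_card' (G := G) q hqd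
    have horb : ∀ a b : G,
        (Quotient.mk'' a : MulAction.orbitRel.Quotient (MulAut G) G) = Quotient.mk'' b →
        ∃ Φ : MulAut G, Φ b = a := by
      intro a b hab
      have h1 : MulAction.orbitRel (MulAut G) G a b := Quotient.exact' hab
      rw [MulAction.orbitRel_apply] at h1
      obtain ⟨Φ, hΦ⟩ := h1
      exact ⟨Φ, hΦ⟩
    have hneq : ∀ a b : G, orderOf a ≠ orderOf b →
        (Quotient.mk'' a : MulAction.orbitRel.Quotient (MulAut G) G) ≠ Quotient.mk'' b := by
      intro a b hne hab
      obtain ⟨Φ, rfl⟩ := horb a b hab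
      exact hne (Φ.orderOf_eq b)
    have hall : ∀ c : MulAction.orbitRel.Quotient (MulAut G) G,
        c = Quotient.mk'' 1 ∨ c = Quotient.mk'' gp ∨ c = Quotient.mk'' gq := by
      have hs : ({Quotient.mk'' 1, Quotient.mk'' gp, Quotient.mk'' gq} :
          Set (MulAction.orbitRel.Quotient (MulAut G) G)).ncard = 3 := by
        refine Set.ncard_eq_three.mpr ⟨_, _, _, ?_, ?_, ?_, rfl⟩
        · apply hneq
          rw [orderOf_one, hgp]
          omega
        · apply hneq
          rw [orderOf_one, hgq]
          omega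
        · apply hneq
          rw [hgp, hgq]
          exact hpq
      have huniv : ({Quotient.mk'' 1, Quotient.mk'' gp, Quotient.mk'' gq} :
          Set (MulAction.orbitRel.Quotient (MulAut G) G)) = Set.univ := by
        apply Set.eq_of_subset_of_ncard_le (Set.subset_univ _) _ Set.finite_univ
        rw [Set.ncard_univ, h3, hs]
      intro c
      have hc : c ∈ (Set.univ : Set (MulAction.orbitRel.Quotient (MulAut G) G)) := Set.mem_univ c
      rw [← huniv] at hc
      exact hc
    have hK : ∀ g : G, (∃ Φ : MulAut G, Φ 1 = g) ∨ (∃ Φ : MulAut G, Φ gp = g) ∨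
        (∃ Φ : MulAut G, Φ gq = g) := by
      intro g
      rcases hall (Quotient.mk'' g) with h | h | h
      · exact Or.inl (horb _ _ h)
      · exact Or.inr (Or.inl (horb _ _ h))
      · exact Or.inr (Or.inr (horb _ _ h))
    have hF1 : ∀ g : G, orderOf g = 1 ∨ orderOf g = p ∨ orderOf g = q := by
      intro g
      rcases hK g with ⟨Φ, rfl⟩ | ⟨Φ, rfl⟩ | ⟨Φ, rfl⟩
      · left
        rw [map_one, orderOf_one]
      · right; left
        rw [Φ.orderOf_eq, hgp]
      · right; right
        rw [Φ.orderOf_eq, hgq]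
    have hF2 : ∀ g g' : G, orderOf g = orderOf g' → ∃ Φ : MulAut G, Φ g = g' := by
      intro g g' hgg
      rcases hK g with ⟨Φ, rfl⟩ | ⟨Φ, rfl⟩ | ⟨Φ, rfl⟩ <;>
      rcases hK g' with ⟨Φ', rfl⟩ | ⟨Φ', rfl⟩ | ⟨Φ', rfl⟩ <;>
      simp only [MulEquiv.orderOf_eq, map_one, orderOf_one, hgp, hgq] at hgg <;>
      first
      | omega
      | exact ⟨Φ' * Φ⁻¹, by rw [MulAut.mul_apply, MulAut.inv_apply_self]⟩
    -- solvability
    have hsolv : Group.IsSolvable G := by
      have hM0 : Nat.card G / p ^ (Nat.card G).factorization p ≠ 0 :=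
        (Nat.ordCompl_pos p hcard0).ne'
      have hM := Nat.eq_prime_pow_of_unique_prime_dvd (p := q) hM0 (by
        intro d hd hdd
        have hFd : Fact d.Prime := ⟨hd⟩
        have hdG : d ∣ Nat.card G := hdd.trans (Nat.ordCompl_dvd _ p)
        obtain ⟨w, hw⟩ := exists_prime_orderOf_dvd_card' (G := G) d hdG
        rcases hF1 w with h | h | h
        · rw [h] at hw
          exact absurd hw.symm hd.one_lt.ne'
        · rw [h] at hw
          rw [← hw] at hdd
          exact absurd hdd (Nat.not_dvd_ordCompl hp hcard0)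
        · rw [h] at hw
          exact hw.symm)
      have hcardpq : Nat.card G = p ^ (Nat.card G).factorization p *
          q ^ (Nat.card G / p ^ (Nat.card G).factorization p).primeFactorsList.length := by
        rw [← hM]
        exact (Nat.ordProj_mul_ordCompl_eq_self _ p).symm
      exact Cfsg.Agent.S0144.result p q _ _ hp hq hcardpq
    have hGnt : Nontrivial G := by
      rw [← Finite.one_lt_card_iff_nontrivial]
      omega
    have hne : commutator G ≠ ⊤ := (Group.IsSolvable.commutator_lt_top_of_nontrivial G).ne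
    have hbot : commutator G ≠ ⊥ := by
      intro hb
      have hc : Commute gq gp := by
        rw [← commutatorElement_eq_one_iff_commute]
        have h1 : ⁅gq, gp⁆ ∈ commutator G := by
          rw [commutator_def]
          exact Subgroup.commutator_mem_commutator (Subgroup.mem_top _) (Subgroup.mem_top _)
        rw [hb, Subgroup.mem_bot] at h1
        exact h1
      exact no_pq hp hq hpq hF1 gq gp hgq hgp hc
    obtain ⟨⟨g₀, hg₀⟩, hg₀1'⟩ := Subgroup.ne_bot_iff_exists_ne_one.mp hbot
    have hg₀1 : g₀ ≠ 1 := fun h => hg₀1' (Subtype.ext h)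
    rcases hF1 g₀ with h | h | h
    · exact absurd (orderOf_eq_one_iff.mp h) hg₀1
    · obtain ⟨n, hn, hcard, hSyl, hord, hfpf⟩ := fwd hpq hF1 hF2 g₀ hg₀ h hne gq hgq
      exact ⟨p, q, n, hFp, hFq, hpq, hn, hcard, hSyl, hord, hfpf⟩
    · have hF1' : ∀ g : G, orderOf g = 1 ∨ orderOf g = q ∨ orderOf g = p := by
        intro g
        rcases hF1 g with h | h | h
        · exact Or.inl h
        · exact Or.inr (Or.inr h)
        · exact Or.inr (Or.inl h)
      obtain ⟨n, hn, hcard, hSyl, hord, hfpf⟩ := fwd hqp hF1' hF2 g₀ hg₀ h hne gp hgp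
      exact ⟨q, p, n, hFq, hFp, hqp, hn, hcard, hSyl, hord, hfpf⟩
  · rintro ⟨p, q, n, hFp, hFq, hpq, hn, hcard, hSyl, hord, hfpf⟩
    exact bwd hpq hn hcard hSyl hord hfpf

end Cfsg.Agent.S4081
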