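import Cfsg.Statements.S4083
import Cfsg.Agent.Lib.Helper52.TwoByCyclic
import Mathlib

set_option autoImplicit false
open Cfsg

namespace Cfsg.Agent.S4083

/-- Let G be a finite group with Sylow 2-subgroup P. Every subgroup H of G whose Sylow 2-subgroup is normal in H with cyclic quotient is cyclic, dihedral of 2-power order, or isomorphic to the alternating group of degree 4, if and only if either P is cyclic, or P is dihedral (of order at least 4) and every elementary abelian subgroup K of order 4 of P satisfies C_G(K) = K. -/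
theorem result {G : Type*} [Group G] [Finite G] (P : Sylow 2 G) :
    (∀ H : Subgroup G, (∀ S : Sylow 2 ↥H, (S : Subgroup ↥H).Normal) →
        (∀ (S : Sylow 2 ↥H) [(S : Subgroup ↥H).Normal], IsCyclic (↥H ⧸ (S : Subgroup ↥H))) →
        IsCyclic H ∨ (∃ n : ℕ, Nonempty (H ≃* DihedralGroup (2 ^ n))) ∨ Nonempty (H ≃* alternatingGroup (Fin 4))) ↔
    (IsCyclic P ∨
      ((∃ n : ℕ, 1 ≤ n ∧ Nonempty ((P : Subgroup G) ≃* DihedralGroup (2 ^ n))) ∧
        ∀ K : Subgroup G, K ≤ P → Nat.card K = 4 → (∀ k ∈ K, k ^ 2 = 1) → Subgroup.centralizer (K : Set G) = K)) := by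
  constructor
  · intro hyp
    exact Cfsg.Agent.Lib.Helper52.two_by_cyclic_converse P hyp
  · intro hR H hS1 hS2
    have : Fact (Nat.Prime 2) := ⟨Nat.prime_two⟩
    have hd : (∀ A : Subgroup G, IsPGroup 2 A → ∃ ρ : G,
        (∀ s ∈ A, s ∉ Subgroup.zpowers ρ → s * s = 1) ∧
        (∀ s1 ∈ A, ∀ s2 ∈ A, s1 ∉ Subgroup.zpowers ρ → s2 ∉ Subgroup.zpowers ρ →
          s1 * s2 ∈ Subgroup.zpowers ρ)) ∧
        (∀ K : Subgroup G, Nat.card K = 4 → (∀ k ∈ K, k * k = 1) →
          Subgroup.centralizer (K : Set G) = K) := by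
      rcases hR with hc | ⟨⟨n, hn, ⟨e⟩⟩, hK⟩
      · exact Cfsg.Agent.Lib.Helper52.two_by_cyclic_data_of_cyclic P hc
      · exact Cfsg.Agent.Lib.Helper52.two_by_cyclic_data_of_dihedral P n e hK
    obtain ⟨hdata, hcent⟩ := hd
    obtain ⟨S⟩ : Nonempty (Sylow 2 H) := inferInstance
    have := hS1 S
    exact Cfsg.Agent.Lib.Helper52.two_by_cyclic_structure hdata hcent H S (hS2 S)

end Cfsg.Agent.S4083
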