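import Mathlib
import Cfsg.Statements.S4084

set_option autoImplicit false
open Cfsg

namespace Cfsg.Agent.S4084

theorem one_dir {G H : Type*} [Group G] [Finite G] [Group H] [Finite H] (e : G ≃ H)
    (he : ∀ x y : G, Commute x y ↔ Commute (e x) (e y))
    {p q : ℕ} (hp : p.Prime) (hq : q.Prime) (hpq : p ≠ q) :
    (∃ g : G, orderOf g = p * q) → (∃ h : H, orderOf h = p * q) := by
  rintro ⟨g, hg⟩
  set A := Subgroup.centralizer (Subgroup.centralizer ({g} : Set G) : Set G) with hA
  set B := Subgroup.centralizer (Subgroup.centralizer ({e g} : Set H) : Set H) with hB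
  have hgA : g ∈ A := by
    rw [hA, Subgroup.mem_centralizer_iff]
    intro w hw
    exact (Subgroup.mem_centralizer_singleton_iff.mp hw)
  have hAB : ∀ y : G, y ∈ A ↔ e y ∈ B := by
    intro y
    rw [hA, hB, Subgroup.mem_centralizer_iff, Subgroup.mem_centralizer_iff]
    constructor
    · intro h w' hw'
      obtain ⟨w, rfl⟩ := e.surjective w'
      have h1 : Commute (e w) (e g) := Subgroup.mem_centralizer_singleton_iff.mp hw'
      have h2 : Commute w g := (he w g).mpr h1
      have h3 : w * y = y * w := h w (Subgroup.mem_centralizer_singleton_iff.mpr h2)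
      have h4 : Commute w y := h3
      exact (he w y).mp h4
    · intro h w hw
      have h1 : Commute w g := Subgroup.mem_centralizer_singleton_iff.mp hw
      have h2 : Commute (e w) (e g) := (he w g).mp h1
      have h3 : e w * e y = e y * e w := h (e w) (Subgroup.mem_centralizer_singleton_iff.mpr h2)
      have h4 : Commute (e w) (e y) := h3
      exact (he w y).mpr h4
  have hcard : Nat.card A = Nat.card B := Nat.card_congr (e.subtypeEquiv hAB)
  have hdvd : p * q ∣ Nat.card B := by
    rw [← hcard, ← hg]
    exact Subgroup.orderOf_dvd_natCard A hgA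
  have : Fact p.Prime := ⟨hp⟩
  have : Fact q.Prime := ⟨hq⟩
  obtain ⟨b₁, hb₁⟩ := exists_prime_orderOf_dvd_card' p ((Dvd.intro _ rfl).trans hdvd)
  obtain ⟨b₂, hb₂⟩ := exists_prime_orderOf_dvd_card' q ((Dvd.intro_left _ rfl).trans hdvd)
  have hegB : e g ∈ Subgroup.centralizer ({e g} : Set H) :=
    Subgroup.mem_centralizer_singleton_iff.mpr rfl
  have hb₂c : (b₂ : H) ∈ Subgroup.centralizer ({e g} : Set H) := by
    rw [Subgroup.mem_centralizer_singleton_iff]
    have := (Subgroup.mem_centralizer_iff.mp b₂.2) (e g) hegB
    exact this.symm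
  have hcomm : Commute (b₁ : H) (b₂ : H) := by
    have := (Subgroup.mem_centralizer_iff.mp b₁.2) (b₂ : H) hb₂c
    exact this.symm
  refine ⟨(b₁ : H) * (b₂ : H), ?_⟩
  have h1 : orderOf (b₁ : H) = p := by rw [Subgroup.orderOf_coe, hb₁]
  have h2 : orderOf (b₂ : H) = q := by rw [Subgroup.orderOf_coe, hb₂]
  have hco : (orderOf (b₁ : H)).Coprime (orderOf (b₂ : H)) := by
    rw [h1, h2]; exact (Nat.coprime_primes hp hq).mpr hpq
  rw [hcomm.orderOf_mul_eq_mul_orderOf_of_coprime hco, h1, h2]

/-- Let G and H be finite groups whose commuting graphs are isomorphic: there is a bijection e : G → H with x, y commuting exactly when e(x), e(y) commute. Then G and H have the same prime graph: for distinct primes p, q, G has an element of order pq if and only if H does (and #G = #H, so the prime divisors agree). -/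
theorem result {G H : Type*} [Group G] [Finite G] [Group H] [Finite H] (e : G ≃ H)
    (he : ∀ x y : G, Commute x y ↔ Commute (e x) (e y))
    {p q : ℕ} (hp : p.Prime) (hq : q.Prime) (hpq : p ≠ q) :
    (∃ g : G, orderOf g = p * q) ↔ (∃ h : H, orderOf h = p * q) := by
  constructor
  · exact one_dir e he hp hq hpq
  · apply one_dir e.symm _ hp hq hpq
    intro x y
    have := he (e.symm x) (e.symm y)
    simp only [Equiv.apply_symm_apply] at this
    exact this.symm

end Cfsg.Agent.S4084
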