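import Mathlib
import Cfsg.Statements.S4086

set_option autoImplicit false
open Cfsg

namespace Cfsg.Agent.S4086

theorem pow_mem_zpowers_pow {G : Type*} [Group G] (g : G) (i j : ℕ)
    (h : Nat.gcd j (orderOf g) ∣ i) : g ^ i ∈ Subgroup.zpowers (g ^ j) := by
  obtain ⟨c, rfl⟩ := h
  have h1 : g ^ (Nat.gcd j (orderOf g)) = (g ^ j) ^ (Nat.gcdA j (orderOf g)) := by
    have h2 := Nat.gcd_eq_gcd_ab j (orderOf g)
    have h3 : g ^ ((Nat.gcd j (orderOf g) : ℕ) : ℤ) =
        g ^ ((j : ℤ) * Nat.gcdA j (orderOf g) + (orderOf g : ℤ) * Nat.gcdB j (orderOf g)) := by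
      rw [h2]
    rw [zpow_natCast, zpow_add, zpow_mul, zpow_mul, zpow_natCast, zpow_natCast,
      pow_orderOf_eq_one, one_zpow, mul_one] at h3
    exact h3
  rw [pow_mul, h1]
  exact Subgroup.pow_mem _ (Subgroup.zpow_mem_zpowers _ _) _

theorem comparable_of_prime_pow {G : Type*} [Group G] [Finite G] (g : G) (p k : ℕ) (hp : p.Prime)
    (hpk : orderOf g = p ^ k) (x y : G) (hx : x ∈ Subgroup.zpowers g) (hy : y ∈ Subgroup.zpowers g) :
    x ∈ Subgroup.zpowers y ∨ y ∈ Subgroup.zpowers x := by
  obtain ⟨i, rfl⟩ := (mem_powers_iff_mem_zpowers.mpr hx)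
  obtain ⟨j, rfl⟩ := (mem_powers_iff_mem_zpowers.mpr hy)
  obtain ⟨a, -, ha⟩ := (Nat.dvd_prime_pow hp).mp (hpk ▸ Nat.gcd_dvd_right i (orderOf g))
  obtain ⟨b, -, hb⟩ := (Nat.dvd_prime_pow hp).mp (hpk ▸ Nat.gcd_dvd_right j (orderOf g))
  rcases le_total a b with hab | hab
  · -- gcd i n ∣ gcd j n ∣ j
    right
    apply pow_mem_zpowers_pow
    rw [hpk, ha]
    exact (pow_dvd_pow p hab).trans (hb ▸ Nat.gcd_dvd_left j (p ^ k))
  · left
    apply pow_mem_zpowers_pow
    rw [hpk, hb]
    exact (pow_dvd_pow p hab).trans (ha ▸ Nat.gcd_dvd_left i (p ^ k))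

/-- For a finite group G the following are equivalent: every non-identity element has prime-power order; whenever two elements generate a cyclic subgroup, one of them is a power of the other (the enhanced power graph of G coincides with its power graph). -/
theorem result {G : Type*} [Group G] [Finite G] :
    (∀ g : G, g ≠ 1 → IsPrimePow (orderOf g)) ↔
    (∀ x y : G, IsCyclic ↥(Subgroup.closure ({x, y} : Set G)) → (x ∈ Subgroup.zpowers y ∨ y ∈ Subgroup.zpowers x)) := by
  constructor
  · intro h x y hcyc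
    obtain ⟨c, hc⟩ := hcyc.exists_generator
    set g : G := (c : G) with hg
    have hmem : ∀ z : G, z ∈ Subgroup.closure ({x, y} : Set G) → z ∈ Subgroup.zpowers g := by
      intro z hz
      obtain ⟨k, hk⟩ := Subgroup.mem_zpowers_iff.mp (hc ⟨z, hz⟩)
      refine Subgroup.mem_zpowers_iff.mpr ⟨k, ?_⟩
      have := congrArg Subtype.val hk
      simpa using this
    have hx : x ∈ Subgroup.zpowers g := hmem x (Subgroup.subset_closure (by simp))
    have hy : y ∈ Subgroup.zpowers g := hmem y (Subgroup.subset_closure (by simp))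
    by_cases hg1 : g = 1
    · left
      rw [hg1, Subgroup.zpowers_one_eq_bot, Subgroup.mem_bot] at hx
      rw [hx]; exact Subgroup.one_mem _
    · obtain ⟨p, k, hp, hk, hpk⟩ := (isPrimePow_nat_iff _).mp (h g hg1)
      exact comparable_of_prime_pow g p k hp hpk.symm x y hx hy
  · intro h g hg1
    by_contra hnot
    have hord0 : orderOf g ≠ 0 := (orderOf_pos g).ne'
    have hord1 : orderOf g ≠ 1 := fun h1 => hg1 (orderOf_eq_one_iff.mp h1)
    set p := (orderOf g).minFac with hp
    have hpp : p.Prime := Nat.minFac_prime hord1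
    have hpd : p ∣ orderOf g := Nat.minFac_dvd _
    obtain ⟨a, r, hr, hn⟩ := Nat.exists_eq_pow_mul_and_not_dvd hord0 p hpp.ne_one
    have ha : a ≠ 0 := by
      rintro rfl
      rw [pow_zero, one_mul] at hn
      exact hr (hn ▸ hpd)
    have hr1 : r ≠ 1 := by
      rintro rfl
      rw [mul_one] at hn
      exact hnot ((isPrimePow_nat_iff _).mpr ⟨p, a, hpp, Nat.pos_of_ne_zero ha, hn.symm⟩)
    have hpapos : 0 < p ^ a := pow_pos hpp.pos a
    have hrpos : 0 < r := by
      rcases Nat.eq_zero_or_pos r with h0 | h0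
      · rw [h0, mul_zero] at hn; exact absurd hn hord0
      · exact h0
    -- x = g ^ (p ^ a) has order r, y = g ^ r has order p ^ a
    have hx : orderOf (g ^ (p ^ a)) = r := by
      have h1 := orderOf_pow_orderOf_div hord0 (Dvd.intro_left (p ^ a) hn.symm : r ∣ orderOf g)
      have h2 : orderOf g / r = p ^ a := by rw [hn]; exact Nat.mul_div_cancel _ hrpos
      rwa [h2] at h1
    have hy : orderOf (g ^ r) = p ^ a := by
      have h1 := orderOf_pow_orderOf_div hord0 (Dvd.intro r hn.symm : p ^ a ∣ orderOf g)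
      have h2 : orderOf g / p ^ a = r := by rw [hn]; exact Nat.mul_div_cancel_left _ hpapos
      rwa [h2] at h1
    have hle : Subgroup.closure ({g ^ (p ^ a), g ^ r} : Set G) ≤ Subgroup.zpowers g := by
      rw [Subgroup.closure_le]
      intro z hz
      rcases hz with rfl | rfl
      · exact Subgroup.pow_mem _ (Subgroup.mem_zpowers g) _
      · exact Subgroup.pow_mem _ (Subgroup.mem_zpowers g) _
    have hcyc : IsCyclic ↥(Subgroup.closure ({g ^ (p ^ a), g ^ r} : Set G)) :=
      isCyclic_of_surjective (Subgroup.subgroupOfEquivOfLe hle) (Subgroup.subgroupOfEquivOfLe hle).surjective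
    rcases h _ _ hcyc with h1 | h1
    · have h2 := orderOf_dvd_of_mem_zpowers h1
      rw [hx, hy] at h2
      -- r ∣ p ^ a, r ≠ 1
      obtain ⟨b, -, hb⟩ := (Nat.dvd_prime_pow hpp).mp h2
      have hb0 : b ≠ 0 := by
        rintro rfl
        exact hr1 (by simpa using hb)
      exact hr (hb ▸ dvd_pow_self p hb0)
    · have h2 := orderOf_dvd_of_mem_zpowers h1
      rw [hx, hy] at h2
      exact hr ((dvd_pow_self p ha).trans h2)

end Cfsg.Agent.S4086
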