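import Cfsg.Statements.S4091
import Cfsg.Agent.S4090
import Cfsg.Agent.Lib.Helper57.GheriB

set_option autoImplicit false
set_option linter.unusedSectionVars false
set_option linter.style.haveILetI false
set_option linter.unusedVariables false
open scoped BigOperators
open Cfsg

namespace Cfsg.Agent.S4091

open Cfsg.Agent.Lib.Helper57.Gheri

universe u

/-- AM-GM in power form. -/
theorem amgm {ι : Type*} [Fintype ι] (z : ι → ℝ) (hz : ∀ i, 0 ≤ z i)
    (hM : 0 < Fintype.card ι) :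
    (Fintype.card ι : ℝ) ^ (Fintype.card ι) * ∏ i, z i ≤ (∑ i, z i) ^ (Fintype.card ι) := by
  obtain ⟨M, hMdef⟩ : ∃ M : ℕ, M = Fintype.card ι := ⟨_, rfl⟩
  rw [← hMdef] at hM ⊢
  have hM0 : (M : ℝ) ≠ 0 := by exact_mod_cast hM.ne'
  have h1 := Real.geom_mean_le_arith_mean_weighted Finset.univ (fun _ : ι => (M : ℝ)⁻¹) z
    (fun i _ => by positivity)
    (by rw [Finset.sum_const, Finset.card_univ, ← hMdef, nsmul_eq_mul, mul_inv_cancel₀ hM0])
    (fun i _ => hz i)
  rw [← Finset.mul_sum] at h1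
  have h2 : ∏ i, z i = (∏ i, z i ^ ((M : ℝ)⁻¹)) ^ M := by
    rw [← Finset.prod_pow]
    exact Finset.prod_congr rfl (fun i _ => (Real.rpow_inv_natCast_pow (hz i) hM.ne').symm)
  have h3 : (∏ i, z i ^ ((M : ℝ)⁻¹)) ^ M ≤ ((M : ℝ)⁻¹ * ∑ i, z i) ^ M :=
    pow_le_pow_left₀ (Finset.prod_nonneg (fun i _ => Real.rpow_nonneg (hz i) _)) h1 M
  rw [h2]
  calc (M : ℝ) ^ M * (∏ i, z i ^ ((M : ℝ)⁻¹)) ^ M
      ≤ (M : ℝ) ^ M * ((M : ℝ)⁻¹ * ∑ i, z i) ^ M :=
        mul_le_mul_of_nonneg_left h3 (by positivity)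
    _ = (∑ i, z i) ^ M := by
        rw [← mul_pow, ← mul_assoc, mul_inv_cancel₀ hM0, one_mul]

section grp

variable {G : Type u} [Group G] [Finite G] (p : ℕ) [Fact p.Prime]

/-- number of conjugating elements `g` with `x ∈ g • P`. -/
noncomputable def tt (P : Sylow p G) (x : G) : ℕ :=
  Nat.card {g : G // x ∈ ((g • P : Sylow p G) : Subgroup G)}

theorem tt_def (P : Sylow p G) (x : G) :
    tt p P x = Nat.card {g : G // x ∈ ((g • P : Sylow p G) : Subgroup G)} := rfl

theorem tt_conj (P : Sylow p G) (g x : G) : tt p P (g * x * g⁻¹) = tt p P x := by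
  apply Nat.card_congr
  refine (Equiv.mulLeft g⁻¹).subtypeEquiv ?_
  intro h
  simp only [Equiv.coe_mulLeft]
  rw [Cfsg.Agent.S4090.mem_sylow_smul, Cfsg.Agent.S4090.mem_sylow_smul]
  have : (g⁻¹ * h)⁻¹ * x * (g⁻¹ * h) = h⁻¹ * (g * x * g⁻¹) * h := by group
  rw [this]

theorem tt_ne_zero_iff (P : Sylow p G) (x : G) :
    tt p P x ≠ 0 ↔ ∃ k : ℕ, orderOf x = p ^ k := by
  constructor
  · intro h
    have hne : Nonempty {g : G // x ∈ ((g • P : Sylow p G) : Subgroup G)} := by
      by_contra hc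
      rw [not_nonempty_iff] at hc
      exact h Nat.card_of_isEmpty
    obtain ⟨g, hg⟩ := hne
    obtain ⟨k, hk⟩ := (IsPGroup.iff_orderOf.1 (g • P : Sylow p G).2) ⟨x, hg⟩
    exact ⟨k, by rw [← hk, Subgroup.orderOf_mk]⟩
  · rintro ⟨k, hk⟩
    have hz : IsPGroup p (Subgroup.zpowers x) := IsPGroup.of_card (n := k) (by
      rw [Nat.card_zpowers, hk])
    obtain ⟨Q, hQ⟩ := hz.exists_le_sylow
    obtain ⟨g, rfl⟩ := MulAction.exists_smul_eq G P Q
    haveI : Nonempty {g : G // x ∈ ((g • P : Sylow p G) : Subgroup G)} :=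
      ⟨⟨g, hQ (Subgroup.mem_zpowers x)⟩⟩
    exact Nat.card_pos.ne'

/-- the double count: `|G| * ∑_{y ∈ P} 1 / tt y = u`. -/
theorem sum_inv_tt [Fintype G] (P : Sylow p G) [Fintype (P : Subgroup G)] :
    (Nat.card G : ℝ) * ∑ y : (P : Subgroup G), ((tt p P (y : G) : ℕ) : ℝ)⁻¹ =
      (Nat.card {g : G // ∃ k : ℕ, orderOf g = p ^ k} : ℝ) := by
  classical
  have hS1 : ∀ x : G, ∑ g : G, (if x ∈ ((g • P : Sylow p G) : Subgroup G) then
      ((tt p P x : ℕ) : ℝ)⁻¹ else 0) = if tt p P x ≠ 0 then 1 else 0 := by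
    intro x
    rw [← Finset.sum_filter, Finset.sum_const, nsmul_eq_mul]
    have hcard : (Finset.univ.filter
        (fun g : G => x ∈ ((g • P : Sylow p G) : Subgroup G))).card = tt p P x := by
      rw [tt_def, Nat.card_eq_fintype_card, Fintype.card_subtype]
    rw [hcard]
    split_ifs with h
    · exact mul_inv_cancel₀ (by exact_mod_cast h)
    · push Not at h
      rw [h]; simp
  have hS2 : ∀ g : G, ∑ x : G, (if x ∈ ((g • P : Sylow p G) : Subgroup G) then
      ((tt p P x : ℕ) : ℝ)⁻¹ else 0) = ∑ y : (P : Subgroup G), ((tt p P (y : G) : ℕ) : ℝ)⁻¹ := by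
    intro g
    rw [← Equiv.sum_comp (MulAut.conj g).toEquiv]
    have h1 : ∀ x : G, (if (MulAut.conj g).toEquiv x ∈ ((g • P : Sylow p G) : Subgroup G) then
        ((tt p P ((MulAut.conj g).toEquiv x) : ℕ) : ℝ)⁻¹ else 0) =
        if x ∈ (P : Subgroup G) then ((tt p P x : ℕ) : ℝ)⁻¹ else 0 := by
      intro x
      have e1 : (MulAut.conj g).toEquiv x = g * x * g⁻¹ := rfl
      rw [e1, tt_conj, Cfsg.Agent.S4090.mem_sylow_smul]
      have : g⁻¹ * (g * x * g⁻¹) * g = x := by group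
      rw [this]
    rw [Finset.sum_congr rfl (fun x _ => h1 x), ← Finset.sum_filter]
    exact Finset.sum_subtype (Finset.univ.filter (fun x : G => x ∈ (P : Subgroup G)))
      (fun x => by simp) (fun x => ((tt p P x : ℕ) : ℝ)⁻¹)
  have hdouble : ∑ x : G, ∑ g : G, (if x ∈ ((g • P : Sylow p G) : Subgroup G) then
      ((tt p P x : ℕ) : ℝ)⁻¹ else 0) = ∑ g : G, ∑ x : G,
      (if x ∈ ((g • P : Sylow p G) : Subgroup G) then ((tt p P x : ℕ) : ℝ)⁻¹ else 0) :=
    Finset.sum_comm
  rw [Finset.sum_congr rfl (fun x _ => hS1 x), Finset.sum_congr rfl (fun g _ => hS2 g),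
    Finset.sum_const, Finset.card_univ, nsmul_eq_mul] at hdouble
  rw [Nat.card_eq_fintype_card, ← hdouble, Finset.sum_boole]
  congr 1
  rw [Nat.card_eq_fintype_card, Fintype.card_subtype]
  congr 1
  ext x
  simp [tt_ne_zero_iff]

theorem partA (P : Sylow p G) [Fintype (P : Subgroup G)] :
    (Fintype.card (P : Subgroup G) * Nat.card G) ^ Fintype.card (P : Subgroup G) ≤
      Nat.card {g : G // ∃ k : ℕ, orderOf g = p ^ k} ^ Fintype.card (P : Subgroup G) *
        ∏ y : (P : Subgroup G), tt p P (y : G) := by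
  classical
  letI : Fintype G := Fintype.ofFinite G
  have hpos : ∀ y : (P : Subgroup G), 0 < tt p P (y : G) := by
    intro y
    apply Nat.pos_of_ne_zero
    rw [tt_ne_zero_iff]
    exact (IsPGroup.iff_orderOf.1 P.2 y).imp (fun k hk => by rw [← hk, Subgroup.orderOf_coe])
  have hM : 0 < Fintype.card (P : Subgroup G) := Fintype.card_pos
  have h1 := amgm (fun y : (P : Subgroup G) => ((tt p P (y : G) : ℕ) : ℝ)⁻¹)
    (fun y => by positivity) hM
  have h2 := sum_inv_tt p P
  have hG0 : (0 : ℝ) < Nat.card G := by exact_mod_cast Nat.card_pos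
  have h3 : ∑ y : (P : Subgroup G), ((tt p P (y : G) : ℕ) : ℝ)⁻¹ =
      (Nat.card {g : G // ∃ k : ℕ, orderOf g = p ^ k} : ℝ) / Nat.card G := by
    rw [← h2]; field_simp
  rw [h3, Finset.prod_inv_distrib, div_pow] at h1
  have hT : (0 : ℝ) < ∏ y : (P : Subgroup G), ((tt p P (y : G) : ℕ) : ℝ) :=
    Finset.prod_pos (fun y _ => by exact_mod_cast hpos y)
  have h4 : ((Fintype.card (P : Subgroup G) : ℝ) * Nat.card G) ^ Fintype.card (P : Subgroup G) ≤
      (Nat.card {g : G // ∃ k : ℕ, orderOf g = p ^ k} : ℝ) ^ Fintype.card (P : Subgroup G) *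
        ∏ y : (P : Subgroup G), ((tt p P (y : G) : ℕ) : ℝ) := by
    rw [mul_pow]
    have h5 := mul_le_mul_of_nonneg_right h1
      (mul_pos (pow_pos hG0 (Fintype.card (P : Subgroup G))) hT).le
    calc _ = (Fintype.card (P : Subgroup G) : ℝ) ^ Fintype.card (P : Subgroup G) *
          (∏ y : (P : Subgroup G), ((tt p P (y : G) : ℕ) : ℝ))⁻¹ *
          ((Nat.card G : ℝ) ^ Fintype.card (P : Subgroup G) *
            ∏ y : (P : Subgroup G), ((tt p P (y : G) : ℕ) : ℝ)) := by field_simp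
      _ ≤ _ := h5
      _ = _ := by field_simp
  exact_mod_cast h4

theorem cz_bot {Γ : Type*} [Group Γ] (K : Subgroup Γ) : cz K ⊥ = Nat.card K := by
  have h : K ⊓ Subgroup.centralizer ((⊥ : Subgroup Γ) : Set Γ) = K := by
    rw [inf_eq_left]
    intro x _
    rw [Subgroup.mem_centralizer_iff]
    intro h hh
    rw [SetLike.mem_coe, Subgroup.mem_bot] at hh
    rw [hh, one_mul, mul_one]
  show Nat.card ↥(K ⊓ Subgroup.centralizer ((⊥ : Subgroup Γ) : Set Γ)) = Nat.card K
  rw [h]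

theorem fac_eq (N B H : Subgroup G) [N.Normal] (hNB : N ≤ B) :
    Nat.card {u : G // u ∈ B ∧ ∀ h ∈ H, h * u * h⁻¹ * u⁻¹ ∈ N} / Nat.card N =
      cz (B.map (QuotientGroup.mk' N)) (H.map (QuotientGroup.mk' N)) := by
  rw [Cfsg.Agent.S4090.card_cent_mk_mul N H N B le_rfl hNB, Nat.mul_div_cancel _ Nat.card_pos]
  apply Nat.card_congr
  refine Equiv.subtypeEquivRight (fun v => ?_)
  rw [Subgroup.mem_inf, Subgroup.mem_centralizer_iff, QuotientGroup.map_mk'_self]
  refine and_congr_right (fun _ => forall₂_congr (fun k _ => ?_))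
  rw [Subgroup.mem_bot, mul_inv_eq_one, mul_inv_eq_iff_eq_mul]

theorem factor_le (P : Sylow p G) [Fintype (P : Subgroup G)] (N B : Subgroup G) [N.Normal]
    [B.Normal] (hNB : N ≤ B) (hcop : (N.relIndex B).Coprime p) :
    (∏ y : (P : Subgroup G), Nat.card {u : G // u ∈ B ∧
        ∀ h ∈ Subgroup.zpowers (y : G), h * u * h⁻¹ * u⁻¹ ∈ N} / Nat.card N) ^ p ≤
      (Nat.card {u : G // u ∈ B ∧ ∀ h ∈ (⊥ : Subgroup G), h * u * h⁻¹ * u⁻¹ ∈ N} /
          Nat.card N) ^ Fintype.card (P : Subgroup G) *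
        (Nat.card {u : G // u ∈ B ∧ ∀ h ∈ (P : Subgroup G), h * u * h⁻¹ * u⁻¹ ∈ N} /
          Nat.card N) ^ ((p - 1) * Fintype.card (P : Subgroup G)) := by
  rw [Finset.prod_congr rfl
      (fun (y : (P : Subgroup G)) _ => fac_eq N B (Subgroup.zpowers (y : G)) hNB),
    fac_eq N B ⊥ hNB, fac_eq N B (P : Subgroup G) hNB]
  obtain ⟨K, hKdef⟩ : ∃ K : Subgroup (G ⧸ N), K = B.map (QuotientGroup.mk' N) := ⟨_, rfl⟩
  rw [← hKdef]
  haveI : K.Normal := by
    rw [hKdef]; exact Subgroup.Normal.map inferInstance _ (QuotientGroup.mk'_surjective N)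
  have hK : (Nat.card K).Coprime p := by
    have e1 := Cfsg.Agent.S4090.card_map_mk_mul N B hNB
    have e2 := Subgroup.relIndex_mul_relIndex ⊥ N B (bot_le : (⊥ : Subgroup G) ≤ N) hNB
    rw [Subgroup.relIndex_bot_left, Subgroup.relIndex_bot_left] at e2
    have : Nat.card K = N.relIndex B := by
      have hN0 : 0 < Nat.card N := Nat.card_pos
      apply Nat.eq_of_mul_eq_mul_right hN0
      rw [hKdef, ← e1, ← e2, mul_comm]
    rw [this]; exact hcop
  obtain ⟨φ, hφ⟩ : ∃ φ : (P : Subgroup G) →* G ⧸ N,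
      φ = (QuotientGroup.mk' N).comp (P : Subgroup G).subtype := ⟨_, rfl⟩
  have h := core p P.2 K hK φ
  have e1 : ∀ y : (P : Subgroup G), (Subgroup.zpowers (y : G)).map (QuotientGroup.mk' N) =
      Subgroup.zpowers (φ y) := fun y => by rw [MonoidHom.map_zpowers, hφ]; rfl
  have e2 : (P : Subgroup G).map (QuotientGroup.mk' N) = φ.range := by
    rw [hφ, MonoidHom.range_comp, Subgroup.range_subtype]
  have e3 : cz K ((⊥ : Subgroup G).map (QuotientGroup.mk' N)) = Nat.card K := by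
    rw [Subgroup.map_bot]; exact cz_bot K
  rw [Finset.prod_congr rfl (fun y _ => by rw [e1 y]), e2, e3]
  exact h

theorem partB (n : ℕ) (P : Sylow p G) [Fintype (P : Subgroup G)]
    (M : Fin (n + 1) → Subgroup G) (h0 : M 0 = ⊥) (hn : M (Fin.last n) = ⊤) (hmono : Monotone M)
    (hnormal : ∀ i, (M i).Normal)
    (hfac : ∀ i : Fin n, (∃ m : ℕ, (M i.castSucc).relIndex (M i.succ) = p ^ m) ∨
      ((M i.castSucc).relIndex (M i.succ)).Coprime p) :
    (∏ y : (P : Subgroup G), tt p P (y : G)) ^ p ≤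
      Nat.card G ^ Fintype.card (P : Subgroup G) *
        Nat.card (Subgroup.normalizer ((P : Subgroup G) : Set G)) ^
          ((p - 1) * Fintype.card (P : Subgroup G)) := by
  have hp : p.Prime := Fact.out
  obtain ⟨c, hc⟩ : ∃ c : ℕ, c = p ^ (Nat.card G).factorization p := ⟨_, rfl⟩
  obtain ⟨F, hF⟩ : ∃ F : Fin n → Subgroup G → ℕ, F = fun i H =>
      (if ((M i.castSucc).relIndex (M i.succ)).Coprime p then
        Nat.card {u : G // u ∈ M i.succ ∧ ∀ h ∈ H, h * u * h⁻¹ * u⁻¹ ∈ M i.castSucc} /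
          Nat.card (M i.castSucc) else 1) := ⟨_, rfl⟩
  have hmain : ∀ H : Subgroup G, IsPGroup p H →
      Nat.card {g : G // H ≤ ((g • P : Sylow p G) : Subgroup G)} = c * ∏ i, F i H := by
    intro H hH
    rw [hc, hF]
    exact Cfsg.Agent.S4090.main p n G H hH P M h0 hn hmono hnormal hfac
  have h1 : ∀ y : (P : Subgroup G),
      tt p P (y : G) = c * ∏ i, F i (Subgroup.zpowers (y : G)) := by
    intro y
    rw [← hmain _ (P.2.to_le (by rw [Subgroup.zpowers_le]; exact y.2))]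
    exact Nat.card_congr (Equiv.subtypeEquivRight (fun g => Subgroup.zpowers_le.symm))
  have h2 : Nat.card G = c * ∏ i, F i ⊥ := by
    rw [← hmain ⊥ IsPGroup.of_bot]
    exact (Nat.card_congr (Equiv.subtypeUnivEquiv (fun g => bot_le))).symm
  have h3 : Nat.card (Subgroup.normalizer ((P : Subgroup G) : Set G)) =
      c * ∏ i, F i (P : Subgroup G) := by
    rw [← hmain _ P.2]
    apply Nat.card_congr
    refine Equiv.subtypeEquivRight (fun g => ?_)
    refine (Sylow.smul_eq_iff_mem_normalizer (g := g) (P := P)).symm.trans ?_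
    constructor
    · intro h; rw [h]
    · intro h
      symm
      apply Sylow.ext
      apply Subgroup.eq_of_le_of_card_ge h
      rw [Sylow.card_eq_multiplicity, Sylow.card_eq_multiplicity]
  have hfactor : ∀ i : Fin n, (∏ y : (P : Subgroup G), F i (Subgroup.zpowers (y : G))) ^ p ≤
      F i ⊥ ^ Fintype.card (P : Subgroup G) *
        F i (P : Subgroup G) ^ ((p - 1) * Fintype.card (P : Subgroup G)) := by
    intro i
    rw [hF]
    by_cases hcop : ((M i.castSucc).relIndex (M i.succ)).Coprime p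
    · simp only [if_pos hcop]
      haveI := hnormal i.castSucc
      haveI := hnormal i.succ
      exact factor_le p P (M i.castSucc) (M i.succ) (hmono (Fin.castSucc_le_succ i)) hcop
    · simp only [if_neg hcop]; simp
  rw [Finset.prod_congr rfl (fun y _ => h1 y), h2, h3, Finset.prod_mul_distrib, Finset.prod_const,
    Finset.card_univ, Finset.prod_comm, mul_pow, mul_pow, mul_pow, ← Finset.prod_pow,
    ← Finset.prod_pow, ← Finset.prod_pow]
  have hcM : (c ^ Fintype.card (P : Subgroup G)) ^ p = c ^ Fintype.card (P : Subgroup G) *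
      c ^ ((p - 1) * Fintype.card (P : Subgroup G)) := by
    rw [← pow_mul, ← pow_add]; congr 1
    obtain ⟨q, rfl⟩ : ∃ q, p = q + 1 := ⟨p - 1, by have := hp.one_lt; omega⟩
    simp only [Nat.add_sub_cancel]; ring
  rw [hcM]
  calc _ ≤ c ^ Fintype.card (P : Subgroup G) * c ^ ((p - 1) * Fintype.card (P : Subgroup G)) *
        ∏ i, (F i ⊥ ^ Fintype.card (P : Subgroup G) *
          F i (P : Subgroup G) ^ ((p - 1) * Fintype.card (P : Subgroup G))) :=
        Nat.mul_le_mul_left _ (Finset.prod_le_prod' (fun i _ => hfactor i))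
    _ = _ := by rw [Finset.prod_mul_distrib]; ring

end grp

/-- Let G be a finite p-solvable group, P a Sylow p-subgroup of G, u the number of p-elements of G (elements of p-power order, the identity included) and n the number of Sylow p-subgroups of G. Then u/#P ≥ n^((p−1)/p), stated as u^p ≥ #P^p · n^(p−1). -/
theorem result {G : Type*} [Group G] [Finite G] (p : ℕ) [Fact p.Prime]
    (hG : Cfsg.IsPSolvable p G) (P : Sylow p G) :
    Nat.card (P : Subgroup G) ^ p * Nat.card (Sylow p G) ^ (p - 1) ≤ Nat.card {g : G // ∃ k : ℕ, orderOf g = p ^ k} ^ p := by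
  classical
  obtain ⟨n, M, h0, hn, hmono, hnormal, hfac⟩ := hG
  letI : Fintype (P : Subgroup G) := Fintype.ofFinite _
  have hA := partA p P
  have hB := partB p n P M h0 hn hmono hnormal hfac
  have hp : p.Prime := Fact.out
  have hmc : Nat.card (P : Subgroup G) = Fintype.card (P : Subgroup G) := Nat.card_eq_fintype_card
  have hm0 : Fintype.card (P : Subgroup G) ≠ 0 := Fintype.card_ne_zero
  have hsN : Nat.card (Sylow p G) * Nat.card (Subgroup.normalizer ((P : Subgroup G) : Set G)) =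
      Nat.card G := by
    rw [Sylow.card_eq_index_normalizer P, mul_comm]; exact Subgroup.card_mul_index _
  have hNn0 : 0 < Nat.card (Subgroup.normalizer ((P : Subgroup G) : Set G)) := Nat.card_pos
  have hG0 : 0 < Nat.card G := Nat.card_pos
  rw [hmc]
  generalize Fintype.card (P : Subgroup G) = m at *
  generalize Nat.card {g : G // ∃ k : ℕ, orderOf g = p ^ k} = u at *
  generalize (∏ y : (P : Subgroup G), tt p P (y : G)) = T at *
  generalize Nat.card (Subgroup.normalizer ((P : Subgroup G) : Set G)) = Nn at *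
  generalize Nat.card (Sylow p G) = s at *
  generalize Nat.card G = g at *
  have h1 : (m * g) ^ (m * p) ≤ u ^ (m * p) * (g ^ m * Nn ^ ((p - 1) * m)) := by
    calc (m * g) ^ (m * p) = ((m * g) ^ m) ^ p := by rw [pow_mul]
      _ ≤ (u ^ m * T) ^ p := Nat.pow_le_pow_left hA p
      _ = u ^ (m * p) * T ^ p := by rw [mul_pow, ← pow_mul]
      _ ≤ _ := Nat.mul_le_mul_left _ hB
  have h2 : (m * g) ^ (m * p) = (m ^ p * s ^ (p - 1)) ^ m * (g ^ m * Nn ^ ((p - 1) * m)) := by
    obtain ⟨q, rfl⟩ : ∃ q, p = q + 1 := ⟨p - 1, by have := hp.one_lt; omega⟩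
    simp only [Nat.add_sub_cancel]
    rw [← hsN]; ring
  rw [h2] at h1
  have h3 : (m ^ p * s ^ (p - 1)) ^ m ≤ u ^ (m * p) :=
    Nat.le_of_mul_le_mul_right h1 (by positivity)
  rw [mul_comm m p, pow_mul] at h3
  exact (Nat.pow_le_pow_iff_left hm0).1 h3

end Cfsg.Agent.S4091
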