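import Mathlib
import Cfsg.Statements.S4092

set_option autoImplicit false
open Cfsg

namespace Cfsg.Agent.S4092

open scoped Pointwise

/-- Normalizer condition inside a `p`-subgroup. -/
theorem exists_normalizing {G : Type*} [Group G] [Finite G] {p : ℕ} [Fact p.Prime]
    (Q : Subgroup G) (hQ : IsPGroup p Q) (D : Subgroup G) (hDQ : D ≤ Q) (hne : D ≠ Q) :
    ∃ s ∈ Q, s ∉ D ∧ s ∈ Subgroup.normalizer (D : Set G) := by
  have hnil : Group.IsNilpotent Q := hQ.isNilpotent
  have hnc : NormalizerCondition Q := Group.normalizerCondition_of_isNilpotent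
  have h1 : D.subgroupOf Q < ⊤ := by
    rw [lt_top_iff_ne_top, Ne, Subgroup.subgroupOf_eq_top]
    intro h
    exact hne (le_antisymm hDQ h)
  have h2 := hnc _ h1
  rw [← Subgroup.subgroupOf_normalizer_eq hDQ] at h2
  obtain ⟨s, hs1, hs2⟩ := SetLike.exists_of_lt h2
  exact ⟨s, s.2, fun h => hs2 (Subgroup.mem_subgroupOf.2 h), Subgroup.mem_subgroupOf.1 hs1⟩

/-- Let G be a finite group, p a prime and P a Sylow p-subgroup of G that is not normal in G. Then G has at least p·#P elements of p-power order (the identity included). -/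
theorem result {G : Type*} [Group G] [Finite G] (p : ℕ) [Fact p.Prime]
    (P : Sylow p G) (hP : ¬ (P : Subgroup G).Normal) :
    p * Nat.card (P : Subgroup G) ≤ Nat.card {g : G // ∃ k : ℕ, orderOf g = p ^ k} := by
  classical
  have hp : p.Prime := Fact.out
  have : Fintype G := Fintype.ofFinite G
  have : Fintype (Sylow p G) := Fintype.ofFinite _
  -- another Sylow subgroup
  have hex : ∃ Q : Sylow p G, Q ≠ P := by
    by_contra h
    push Not at h
    apply hP
    refine ⟨fun n hn g => ?_⟩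
    have h1 := h (g • P)
    have : g * n * g⁻¹ ∈ ((g • P : Sylow p G) : Subgroup G) := by
      rw [Sylow.coe_subgroup_smul, Subgroup.mem_smul_pointwise_iff_exists]
      exact ⟨n, hn, by rw [MulAut.smul_def, MulAut.conj_apply]⟩
    rw [h1] at this
    exact this
  obtain ⟨Q, hQmem, hQmax⟩ := Finset.exists_max_image
    (Finset.univ.filter (fun Q : Sylow p G => Q ≠ P))
    (fun Q => Nat.card ((P : Subgroup G) ⊓ (Q : Subgroup G) : Subgroup G))
    (by obtain ⟨Q, hQ⟩ := hex; exact ⟨Q, by simp [hQ]⟩)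
  have hQP : Q ≠ P := (Finset.mem_filter.1 hQmem).2
  have hmax : ∀ R : Sylow p G, R ≠ P →
      Nat.card ((P : Subgroup G) ⊓ (R : Subgroup G) : Subgroup G) ≤
        Nat.card ((P : Subgroup G) ⊓ (Q : Subgroup G) : Subgroup G) :=
    fun R hR => hQmax R (by simp [hR])
  set D : Subgroup G := (P : Subgroup G) ⊓ (Q : Subgroup G) with hD
  have hDP : D ≤ P := inf_le_left
  have hDQ : D ≤ Q := inf_le_right
  have hDneQ : D ≠ Q := by
    intro h
    apply hQP
    have h1 : (Q : Subgroup G) ≤ P := h ▸ hDP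
    exact Sylow.ext (Q.is_maximal' P.2 h1).symm
  have hDneP : D ≠ P := by
    intro h
    apply hQP
    have h1 : (P : Subgroup G) ≤ Q := h ▸ hDQ
    exact Sylow.ext (P.is_maximal' Q.2 h1)
  obtain ⟨s₀, hs₀Q, hs₀D, hs₀N⟩ := exists_normalizing (Q : Subgroup G) Q.2 D hDQ hDneQ
  have hex2 : ∃ k : ℕ, s₀ ^ p ^ k ∈ D := by
    obtain ⟨k, hk⟩ := Q.2 ⟨s₀, hs₀Q⟩
    refine ⟨k, ?_⟩
    have : s₀ ^ p ^ k = 1 := congrArg Subtype.val hk
    rw [this]
    exact D.one_mem
  have hk0 : Nat.find hex2 ≠ 0 := by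
    intro h
    have := Nat.find_spec hex2
    rw [h, pow_zero, pow_one] at this
    exact hs₀D this
  obtain ⟨k, hk⟩ := Nat.exists_eq_succ_of_ne_zero hk0
  set s := s₀ ^ p ^ k with hs
  have hsQ : s ∈ (Q : Subgroup G) := Subgroup.pow_mem _ hs₀Q _
  have hsN : s ∈ Subgroup.normalizer (D : Set G) := Subgroup.pow_mem _ hs₀N _
  have hsD : s ∉ D := Nat.find_min hex2 (by omega : k < Nat.find hex2)
  have hspD : s ^ p ∈ D := by
    have := Nat.find_spec hex2
    rw [hk, pow_succ, pow_mul] at this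
    exact this
  have hpowD : ∀ j : ℕ, 0 < j → j < p → s ^ j ∉ D := by
    intro j hj0 hjp hmem
    have hcop : Nat.Coprime j p :=
      (Nat.Coprime.symm ((Nat.Prime.coprime_iff_not_dvd hp).2
        (fun h => by have := Nat.le_of_dvd hj0 h; omega)))
    obtain ⟨a, b, hab⟩ := Nat.isCoprime_iff_coprime.2 hcop
    have : s = (s ^ j) ^ a * (s ^ p) ^ b := by
      rw [← zpow_natCast, ← zpow_natCast, ← zpow_mul, ← zpow_mul, ← zpow_add]
      have : (j : ℤ) * a + (p : ℤ) * b = 1 := by rw [← hab]; ring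
      rw [this, zpow_one]
    apply hsD
    rw [this]
    exact D.mul_mem (D.zpow_mem hmem a) (D.zpow_mem hspD b)
  -- key claim
  have hkey : ∀ t : G, t ∈ (Q : Subgroup G) → t ∉ D → t ∈ Subgroup.normalizer (D : Set G) →
      ∀ u ∈ (P : Subgroup G), t * u * t⁻¹ ∈ (P : Subgroup G) → t * u * t⁻¹ ∈ D := by
    intro t htQ htD htN u hu hv
    have htP : t ∉ Subgroup.normalizer (P : Set G) := by
      intro h
      apply htD
      have h1 := IsPGroup.inf_normalizer_sylow Q.2 P
      have h2 : t ∈ (Q : Subgroup G) ⊓ Subgroup.normalizer (P : Set G) := ⟨htQ, h⟩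
      rw [h1] at h2
      exact ⟨h2.2, h2.1⟩
    have hR : t • P ≠ P := fun h => htP (Sylow.smul_eq_iff_mem_normalizer.1 h)
    have hDR : D ≤ ((t • P : Sylow p G) : Subgroup G) := by
      intro d hd
      rw [Sylow.coe_subgroup_smul, Subgroup.mem_smul_pointwise_iff_exists]
      refine ⟨t⁻¹ * d * t, ?_, ?_⟩
      · apply hDP
        have h3 := (Subgroup.mem_normalizer_iff.1 htN (t⁻¹ * d * t))
        apply h3.2
        have : t * (t⁻¹ * d * t) * t⁻¹ = d := by group
        rw [this]
        exact hd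
      · rw [MulAut.smul_def, MulAut.conj_apply]
        group
    have hle : D ≤ (P : Subgroup G) ⊓ ((t • P : Sylow p G) : Subgroup G) := le_inf hDP hDR
    have heq : D = (P : Subgroup G) ⊓ ((t • P : Sylow p G) : Subgroup G) :=
      Subgroup.eq_of_le_of_card_ge hle (hmax _ hR)
    have hvR : t * u * t⁻¹ ∈ ((t • P : Sylow p G) : Subgroup G) := by
      rw [Sylow.coe_subgroup_smul, Subgroup.mem_smul_pointwise_iff_exists]
      exact ⟨u, hu, by rw [MulAut.smul_def, MulAut.conj_apply]⟩
    rw [heq]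
    exact ⟨hv, hvR⟩
  -- finsets
  let Pf : Finset G := Finset.univ.filter (· ∈ (P : Subgroup G))
  let Df : Finset G := Finset.univ.filter (· ∈ D)
  let Qf : Finset G := Finset.univ.filter (· ∈ (Q : Subgroup G))
  let U : Finset G := Pf \ Df
  let A : ℕ → Finset G := fun i => U.image (fun u => s ^ i * u * (s ^ i)⁻¹)
  let X : Finset G := Finset.univ.filter (fun g => ∃ k : ℕ, orderOf g = p ^ k)
  have hXcard : Nat.card {g : G // ∃ k : ℕ, orderOf g = p ^ k} = X.card :=
    Nat.subtype_card X (fun x => by simp [X])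
  have hPcard : Nat.card (P : Subgroup G) = Pf.card :=
    Nat.subtype_card Pf (fun x => by simp [Pf])
  have hQcard : Nat.card (Q : Subgroup G) = Qf.card :=
    Nat.subtype_card Qf (fun x => by simp [Qf])
  have hDcard : Nat.card D = Df.card :=
    Nat.subtype_card Df (fun x => by simp [Df])
  have hUcard : U.card = Pf.card - Df.card := by
    apply Finset.card_sdiff_of_subset
    intro x hx
    simp only [Df, Pf, Finset.mem_filter, Finset.mem_univ, true_and] at hx ⊢
    exact hDP hx
  have hUmem : ∀ u, u ∈ U ↔ u ∈ (P : Subgroup G) ∧ u ∉ D := by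
    intro u
    simp [U, Pf, Df]
  have hAcard : ∀ i, (A i).card = U.card := by
    intro i
    apply Finset.card_image_of_injective
    intro a b h
    simpa using h
  have hAlt : ∀ i j : ℕ, i < j → j < p → Disjoint (A i) (A j) := by
    intro i j hij hjp
    rw [Finset.disjoint_left]
    intro g hgi hgj
    obtain ⟨u, hu, rfl⟩ := Finset.mem_image.1 hgi
    obtain ⟨v, hv, hvu⟩ := Finset.mem_image.1 hgj
    rw [hUmem] at hu hv
    have h1 : s ^ (j - i) * v * (s ^ (j - i))⁻¹ = u := by
      have hji : s ^ j = s ^ i * s ^ (j - i) := by rw [← pow_add]; congr 1; omega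
      rw [hji] at hvu
      have : s ^ (j - i) * v * (s ^ (j - i))⁻¹
          = (s ^ i)⁻¹ * (s ^ i * s ^ (j - i) * v * (s ^ i * s ^ (j - i))⁻¹) * s ^ i := by group
      rw [this, hvu]
      group
    have h2 := hkey (s ^ (j - i)) (Subgroup.pow_mem _ hsQ _) (hpowD _ (by omega) (by omega))
      (Subgroup.pow_mem _ hsN _) v hv.1 (h1 ▸ hu.1)
    rw [h1] at h2
    exact hu.2 h2
  have hAdisj : ∀ i ∈ Finset.range p, ∀ j ∈ Finset.range p, i ≠ j → Disjoint (A i) (A j) := by
    intro i hi j hj hij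
    rw [Finset.mem_range] at hi hj
    rcases lt_or_gt_of_ne hij with h | h
    · exact hAlt i j h hj
    · exact (hAlt j i h hi).symm
  have hAQ : Disjoint ((Finset.range p).biUnion A) Qf := by
    rw [Finset.disjoint_left]
    intro g hg hgQ
    obtain ⟨i, _, hgi⟩ := Finset.mem_biUnion.1 hg
    obtain ⟨u, hu, rfl⟩ := Finset.mem_image.1 hgi
    rw [hUmem] at hu
    simp only [Qf, Finset.mem_filter, Finset.mem_univ, true_and] at hgQ
    have h1 : u ∈ (Q : Subgroup G) := by
      have : u = (s ^ i)⁻¹ * (s ^ i * u * (s ^ i)⁻¹) * s ^ i := by group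
      rw [this]
      exact Subgroup.mul_mem _ (Subgroup.mul_mem _ (Subgroup.inv_mem _ (Subgroup.pow_mem _ hsQ _))
        hgQ) (Subgroup.pow_mem _ hsQ _)
    exact hu.2 ⟨hu.1, h1⟩
  have hPel : ∀ (R : Sylow p G), ∀ x ∈ (R : Subgroup G), ∃ k : ℕ, orderOf x = p ^ k := by
    intro R x hx
    obtain ⟨k, hk⟩ := R.2 ⟨x, hx⟩
    have h1 : x ^ p ^ k = 1 := congrArg Subtype.val hk
    obtain ⟨j, _, hj⟩ := (Nat.dvd_prime_pow hp).1 (orderOf_dvd_of_pow_eq_one h1)
    exact ⟨j, hj⟩
  have hsub : (Finset.range p).biUnion A ∪ Qf ⊆ X := by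
    intro g hg
    simp only [X, Finset.mem_filter, Finset.mem_univ, true_and]
    rcases Finset.mem_union.1 hg with hg | hg
    · obtain ⟨i, _, hgi⟩ := Finset.mem_biUnion.1 hg
      obtain ⟨u, hu, rfl⟩ := Finset.mem_image.1 hgi
      rw [hUmem] at hu
      obtain ⟨k, hk⟩ := hPel P u hu.1
      refine ⟨k, ?_⟩
      have h2 := MulEquiv.orderOf_eq (MulAut.conj (s ^ i)) u
      rw [MulAut.conj_apply] at h2
      rw [h2, hk]
    · simp only [Qf, Finset.mem_filter, Finset.mem_univ, true_and] at hg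
      exact hPel Q g hg
  have hcard1 := Finset.card_le_card hsub
  rw [Finset.card_union_of_disjoint hAQ, Finset.card_biUnion hAdisj] at hcard1
  simp only [hAcard, Finset.sum_const, Finset.card_range, smul_eq_mul] at hcard1
  -- arithmetic
  have hPQ : Nat.card (P : Subgroup G) = Nat.card (Q : Subgroup G) := by
    rw [Sylow.card_eq_multiplicity, Sylow.card_eq_multiplicity]
  have hpD : p * Nat.card D ≤ Nat.card (P : Subgroup G) := by
    obtain ⟨m, hm⟩ := Subgroup.card_dvd_of_le hDP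
    obtain ⟨n, hn⟩ := IsPGroup.iff_card.1 P.2
    have hm1 : m ≠ 1 := by
      intro h
      rw [h, mul_one] at hm
      exact hDneP (Subgroup.eq_of_le_of_card_ge hDP hm.le)
    have hmdvd : m ∣ p ^ n := by
      rw [← hn, hm]
      exact dvd_mul_left m _
    obtain ⟨j, _, hj⟩ := (Nat.dvd_prime_pow hp).1 hmdvd
    have hj0 : j ≠ 0 := by
      rintro rfl
      exact hm1 (by rw [hj, pow_zero])
    have hpm : p ≤ m := by
      rw [hj]
      calc p = p ^ 1 := (pow_one p).symm
        _ ≤ p ^ j := Nat.pow_le_pow_right hp.pos (Nat.one_le_iff_ne_zero.2 hj0)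
    rw [hm, mul_comm]
    exact Nat.mul_le_mul_left _ hpm
  rw [hXcard]
  rw [hUcard, ← hPcard, ← hDcard, ← hQcard, ← hPQ] at hcard1
  have h5 : p * (Nat.card (P : Subgroup G) - Nat.card D)
      = p * Nat.card (P : Subgroup G) - p * Nat.card D := Nat.mul_sub _ _ _
  have h6 : p * Nat.card D ≤ p * Nat.card (P : Subgroup G) :=
    Nat.mul_le_mul_left _ (Nat.card_le_card_of_injective (Subgroup.inclusion hDP)
      (Subgroup.inclusion_injective hDP))
  omega

end Cfsg.Agent.S4092
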