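import Mathlib
import Cfsg.Statements.S4093

set_option autoImplicit false
open Cfsg

namespace Cfsg.Agent.S4093

open scoped Pointwise

/-- Orbit-stabilizer for conjugation by a subgroup. -/
theorem card_conj_orbit {G : Type*} [Group G] [Finite G] (N : Subgroup G) (x : G) :
    Nat.card {g : G // ∃ m ∈ N, g = m * x * m⁻¹} *
      Nat.card ↥(N ⊓ Subgroup.centralizer ({x} : Set G)) = Nat.card N := by
  let inst : MulAction N G :=
    MulAction.compHom G ((MulAut.conj : G →* MulAut G).comp N.subtype)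
  have h1 := Nat.card_congr (@MulAction.orbitProdStabilizerEquivGroup N G _ inst x)
  rw [Nat.card_prod] at h1
  have h2 : Nat.card (@MulAction.orbit N G inst.toSMul x) =
      Nat.card {g : G // ∃ m ∈ N, g = m * x * m⁻¹} := by
    apply Nat.card_congr
    apply Equiv.subtypeEquivRight
    intro g
    constructor
    · rintro ⟨m, hm⟩
      exact ⟨m, m.2, hm.symm⟩
    · rintro ⟨m, hm, rfl⟩
      exact ⟨⟨m, hm⟩, rfl⟩
  have h3 : Nat.card (@MulAction.stabilizer N G _ inst x) =
      Nat.card ↥(N ⊓ Subgroup.centralizer ({x} : Set G)) := by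
    apply Nat.card_congr
    refine ⟨fun m => ⟨((m : N) : G), ⟨(m : N).2, ?_⟩⟩, fun g => ⟨⟨g, g.2.1⟩, ?_⟩,
      fun m => rfl, fun g => rfl⟩
    · change ((m : N) : G) ∈ Subgroup.centralizer ({x} : Set G)
      rw [Subgroup.mem_centralizer_iff]
      intro h hh
      rw [Set.mem_singleton_iff] at hh
      subst hh
      have h4 : ((m : N) : G) * h * ((m : N) : G)⁻¹ = h := m.2
      calc h * ((m : N) : G) = (((m : N) : G) * h * ((m : N) : G)⁻¹) * ((m : N) : G) := by rw [h4]
        _ = ((m : N) : G) * h := by group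
    · have h4 : (g : G) ∈ Subgroup.centralizer ({x} : Set G) := g.2.2
      rw [Subgroup.mem_centralizer_iff] at h4
      have h5 := h4 x rfl
      change (g : G) * x * (g : G)⁻¹ = x
      rw [← h5]
      group
  rw [← h2, ← h3]
  exact h1

/-- Let G be a finite group with a normal subgroup N complementing a Sylow p-subgroup P (a normal p-complement). Then the number of elements of G of p-power order equals the sum over x ∈ P of the index of C_N(x) in N. -/
theorem result {G : Type*} [Group G] [Finite G] (p : ℕ) [Fact p.Prime]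
    (P : Sylow p G) (N : Subgroup G) [N.Normal] (hNP : N.IsComplement' (P : Subgroup G)) :
    Nat.card {g : G // ∃ k : ℕ, orderOf g = p ^ k} =
      ∑ᶠ x : (P : Subgroup G), Nat.card N / Nat.card ↥(N ⊓ Subgroup.centralizer ({(x : G)} : Set G)) := by
  classical
  have hp : p.Prime := Fact.out
  have hNn : N.Normal := inferInstance
  let T : ↥(P : Subgroup G) → Type _ := fun x => {g : G // ∃ m ∈ N, g = m * (x : G) * m⁻¹}
  have hPel : ∀ x ∈ (P : Subgroup G), ∃ k : ℕ, orderOf x = p ^ k := by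
    intro x hx
    obtain ⟨k, hk⟩ := P.2 ⟨x, hx⟩
    have h1 : x ^ p ^ k = 1 := congrArg Subtype.val hk
    obtain ⟨j, _, hj⟩ := (Nat.dvd_prime_pow hp).1 (orderOf_dvd_of_pow_eq_one h1)
    exact ⟨j, hj⟩
  have hdisj : Disjoint N (P : Subgroup G) := hNP.disjoint
  let Φ : (Σ x : (P : Subgroup G), T x) → {g : G // ∃ k : ℕ, orderOf g = p ^ k} := fun y =>
    ⟨y.2.1, by
      obtain ⟨m, hm, h⟩ := y.2.2
      obtain ⟨k, hk⟩ := hPel y.1 y.1.2
      refine ⟨k, ?_⟩
      have h2 := MulEquiv.orderOf_eq (MulAut.conj m) (y.1 : G)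
      rw [MulAut.conj_apply] at h2
      rw [h, h2, hk]⟩
  have hinj : Function.Injective Φ := by
    rintro ⟨x, g, m, hm, hg⟩ ⟨x', g', m', hm', hg'⟩ h
    have hgg : g = g' := congrArg Subtype.val h
    subst hgg
    have h1 : g * (x : G)⁻¹ ∈ N := by
      have : g * (x : G)⁻¹ = m * ((x : G) * m⁻¹ * (x : G)⁻¹) := by rw [hg]; group
      rw [this]
      exact N.mul_mem hm (hNn.conj_mem _ (N.inv_mem hm) _)
    have h2 : g * (x' : G)⁻¹ ∈ N := by
      have : g * (x' : G)⁻¹ = m' * ((x' : G) * m'⁻¹ * (x' : G)⁻¹) := by rw [hg']; group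
      rw [this]
      exact N.mul_mem hm' (hNn.conj_mem _ (N.inv_mem hm') _)
    have h3 : (x : G) * (x' : G)⁻¹ ∈ N := by
      have : (x : G) * (x' : G)⁻¹ = (g * (x : G)⁻¹)⁻¹ * (g * (x' : G)⁻¹) := by group
      rw [this]
      exact N.mul_mem (N.inv_mem h1) h2
    have h4 : (x : G) * (x' : G)⁻¹ ∈ (P : Subgroup G) :=
      Subgroup.mul_mem _ x.2 (Subgroup.inv_mem _ x'.2)
    have h5 : (x : G) * (x' : G)⁻¹ = 1 := by
      have : (x : G) * (x' : G)⁻¹ ∈ N ⊓ (P : Subgroup G) := ⟨h3, h4⟩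
      rw [hdisj.eq_bot, Subgroup.mem_bot] at this
      exact this
    have h6 : x = x' := Subtype.ext (mul_inv_eq_one.1 h5)
    subst h6
    rfl
  have hsurj : Function.Surjective Φ := by
    rintro ⟨g, k, hk⟩
    have hgp : IsPGroup p (Subgroup.zpowers g) :=
      IsPGroup.of_card (n := k) (by rw [Nat.card_zpowers, hk])
    obtain ⟨Q, hQ⟩ := hgp.exists_le_sylow
    obtain ⟨h, hh⟩ := MulAction.exists_smul_eq G P Q
    have hgQ : g ∈ (Q : Subgroup G) := hQ (Subgroup.mem_zpowers g)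
    rw [← hh, Sylow.coe_subgroup_smul, Subgroup.mem_smul_pointwise_iff_exists] at hgQ
    obtain ⟨s, hs, hsg⟩ := hgQ
    rw [MulAut.smul_def, MulAut.conj_apply] at hsg
    obtain ⟨⟨n, y⟩, hny⟩ := hNP.2 h
    simp only at hny
    have hx : (y : G) * s * (y : G)⁻¹ ∈ (P : Subgroup G) :=
      Subgroup.mul_mem _ (Subgroup.mul_mem _ y.2 hs) (Subgroup.inv_mem _ y.2)
    refine ⟨⟨⟨_, hx⟩, ⟨g, n, n.2, ?_⟩⟩, rfl⟩
    rw [← hsg, ← hny]
    simp only
    group
  have h1 : Nat.card {g : G // ∃ k : ℕ, orderOf g = p ^ k} = Nat.card (Σ x : (P : Subgroup G), T x) :=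
    (Nat.card_congr (Equiv.ofBijective Φ ⟨hinj, hsurj⟩)).symm
  have : Fintype (P : Subgroup G) := Fintype.ofFinite _
  rw [h1, Nat.card_sigma, finsum_eq_sum_of_fintype]
  apply Finset.sum_congr rfl
  intro x _
  have h2 := card_conj_orbit N (x : G)
  have h3 : Nat.card ↥(N ⊓ Subgroup.centralizer ({(x : G)} : Set G)) ≠ 0 := Nat.card_pos.ne'
  exact Nat.eq_div_of_mul_eq_left h3 h2

end Cfsg.Agent.S4093
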