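import Mathlib
import Cfsg.Statements.S4106

set_option autoImplicit false
open Cfsg
open scoped Pointwise

namespace Cfsg.Agent.S4106

universe u

/-- A conjugacy class all of whose elements have order divisible only by primes in `S`. -/
def IsPiClass {X : Type*} [Group X] (S : Set ℕ) (C : ConjClasses X) : Prop :=
  ∀ q : ℕ, q.Prime → (∃ g : X, ConjClasses.mk g = C ∧ q ∣ orderOf g) → q ∈ S

theorem orderOf_conj_eq {X : Type*} [Group X] (c g : X) : orderOf (c * g * c⁻¹) = orderOf g := by
  have := MulEquiv.orderOf_eq (MulAut.conj c) g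
  simpa [MulAut.conj_apply] using this

theorem isPiClass_mk_iff {X : Type*} [Group X] (S : Set ℕ) (g : X) :
    IsPiClass S (ConjClasses.mk g) ↔ ∀ q : ℕ, q.Prime → q ∣ orderOf g → q ∈ S := by
  constructor
  · intro h q hq hqd
    exact h q hq ⟨g, rfl, hqd⟩
  · rintro h q hq ⟨g', hg', hqd⟩
    obtain ⟨c, hc⟩ := isConj_iff.mp (ConjClasses.mk_eq_mk_iff_isConj.mp hg')
    rw [← hc, orderOf_conj_eq] at h
    exact h q hq hqd

theorem exists_conj_mem_sylow {X : Type*} [Group X] [Finite X] {p : ℕ} [Fact p.Prime]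
    (P : Sylow p X) (x : X) (k : ℕ) (hx : orderOf x = p ^ k) :
    ∃ h : X, h * x * h⁻¹ ∈ (P : Subgroup X) := by
  have hzp : IsPGroup p (Subgroup.zpowers x) := by
    apply IsPGroup.of_card (n := k)
    rw [Nat.card_zpowers, hx]
  obtain ⟨Q, hQ⟩ := hzp.exists_le_sylow
  obtain ⟨h, hh⟩ := MulAction.exists_smul_eq X Q P
  refine ⟨h, ?_⟩
  have hxQ : x ∈ (Q : Subgroup X) := hQ (Subgroup.mem_zpowers x)
  have h1 : MulAut.conj h • x ∈ MulAut.conj h • (Q : Subgroup X) :=
    Subgroup.smul_mem_pointwise_smul x (MulAut.conj h) (Q : Subgroup X) hxQ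
  have h2 : MulAut.conj h • (Q : Subgroup X) = (P : Subgroup X) := by
    rw [← Sylow.coe_subgroup_smul, hh]
  rw [h2] at h1
  simpa [MulAut.smul_def] using h1

theorem exists_split {X : Type*} [Group X] [Finite X] (p : ℕ) (hp : p.Prime) (g : X) :
    ∃ a b : X, g = a * b ∧ Commute a b ∧ (∃ k, orderOf a = p ^ k) ∧ ¬ p ∣ orderOf b ∧
      orderOf b ∣ orderOf g := by
  have hord0 : orderOf g ≠ 0 := (orderOf_pos g).ne'
  obtain ⟨k, r, hr, hgr⟩ := Nat.exists_eq_pow_mul_and_not_dvd hord0 p hp.ne_one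
  have hcop : Nat.Coprime (p ^ k) r := Nat.Coprime.pow_left k ((Nat.Prime.coprime_iff_not_dvd hp).mpr hr)
  obtain ⟨x, y, hxy⟩ := (Nat.isCoprime_iff_coprime.mpr hcop)
  refine ⟨g ^ (y * (r : ℤ)), g ^ (x * ((p ^ k : ℕ) : ℤ)), ?_, ?_, ?_, ?_, ?_⟩
  · rw [← zpow_add, add_comm, hxy, zpow_one]
  · exact (Commute.refl g).zpow_zpow _ _
  · have h1 : (g ^ (y * (r : ℤ))) ^ (p ^ k) = 1 := by
      rw [← zpow_natCast, ← zpow_mul]
      have : y * (r : ℤ) * ((p ^ k : ℕ) : ℤ) = ((orderOf g : ℕ) : ℤ) * y := by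
        rw [hgr]; push_cast; ring
      rw [this, zpow_mul, zpow_natCast, pow_orderOf_eq_one, one_zpow]
    obtain ⟨j, -, hj⟩ := (Nat.dvd_prime_pow hp).mp (orderOf_dvd_of_pow_eq_one h1)
    exact ⟨j, hj⟩
  · have h1 : (g ^ (x * ((p ^ k : ℕ) : ℤ))) ^ r = 1 := by
      rw [← zpow_natCast, ← zpow_mul]
      have : x * ((p ^ k : ℕ) : ℤ) * (r : ℤ) = ((orderOf g : ℕ) : ℤ) * x := by
        rw [hgr]; push_cast; ring
      rw [this, zpow_mul, zpow_natCast, pow_orderOf_eq_one, one_zpow]
    intro hpd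
    exact hr (hpd.trans (orderOf_dvd_of_pow_eq_one h1))
  · exact orderOf_dvd_of_mem_zpowers (Subgroup.zpow_mem_zpowers g _)

/-- arithmetic: passing to a subgroup of order `c`. -/
theorem arith_sub {n m c q : ℕ} (hn : n ≠ 0) (hm : m ∣ n) (hc : c ∣ n) (hq : ¬ q ∣ n / m) :
    ¬ q ∣ c / Nat.gcd m c := by
  intro hqd
  apply hq
  refine hqd.trans ?_
  obtain ⟨r, rfl⟩ := hm
  have hm0 : m ≠ 0 := fun h => hn (by simp [h])
  have hmpos : 0 < m := Nat.pos_of_ne_zero hm0
  rw [Nat.mul_div_cancel_left r hmpos]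
  have hgpos : 0 < Nat.gcd m c := Nat.gcd_pos_of_pos_left c hmpos
  have hcop : Nat.Coprime (c / Nat.gcd m c) (m / Nat.gcd m c) :=
    (Nat.coprime_div_gcd_div_gcd hgpos).symm
  apply hcop.dvd_of_dvd_mul_left
  -- c / g ∣ (m / g) * r
  have h1 : Nat.gcd m c * (c / Nat.gcd m c) ∣ Nat.gcd m c * ((m / Nat.gcd m c) * r) := by
    rw [Nat.mul_div_cancel' (Nat.gcd_dvd_right m c), ← mul_assoc,
      Nat.mul_div_cancel' (Nat.gcd_dvd_left m c)]
    exact hc
  exact (Nat.mul_dvd_mul_iff_left hgpos).mp h1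

theorem classes_bound (σ : Finset ℕ) : (∀ q ∈ σ, q.Prime) →
    ∀ (X : Type u) [Group X] [Finite X] (m : ℕ), m ∣ Nat.card X →
      (∀ q ∈ σ, ¬ q ∣ Nat.card X / m) →
      Nat.card {C : ConjClasses X // IsPiClass (↑σ : Set ℕ) C} ≤ m := by
  classical
  induction σ using Finset.induction_on with
  | empty =>
    intro _ X _ _ m hm _
    have hmpos : 0 < m := Nat.pos_of_dvd_of_pos hm Nat.card_pos
    have : Subsingleton {C : ConjClasses X // IsPiClass (↑(∅ : Finset ℕ) : Set ℕ) C} := by
      constructor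
      rintro ⟨C₁, h₁⟩ ⟨C₂, h₂⟩
      apply Subtype.ext
      have key : ∀ C : ConjClasses X, IsPiClass (↑(∅ : Finset ℕ) : Set ℕ) C → C = ConjClasses.mk 1 := by
        intro C hC
        obtain ⟨g, rfl⟩ := ConjClasses.exists_rep C
        rw [isPiClass_mk_iff] at hC
        have : orderOf g = 1 := by
          by_contra hne
          have := hC _ (Nat.minFac_prime hne) (Nat.minFac_dvd _)
          simp at this
        rw [orderOf_eq_one_iff.mp this]
      exact (key C₁ h₁).trans (key C₂ h₂).symm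
    exact (Finite.card_le_one_iff_subsingleton.mpr this).trans hmpos
  | insert p σ' hpσ' ih =>
    intro hprimes X _ _ m hm hq
    have hpp : p.Prime := hprimes p (Finset.mem_insert_self p σ')
    have : Fact p.Prime := ⟨hpp⟩
    have hprimes' : ∀ q ∈ σ', q.Prime := fun q hq' => hprimes q (Finset.mem_insert_of_mem hq')
    set n := Nat.card X with hn
    have hn0 : n ≠ 0 := Nat.card_pos.ne'
    obtain ⟨P⟩ : Nonempty (Sylow p X) := inferInstance
    obtain ⟨a, ha⟩ := IsPGroup.iff_card.mp P.isPGroup'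
    -- p ^ a ∣ m
    have hPn : p ^ a ∣ n := by rw [← ha]; exact Subgroup.card_subgroup_dvd_card _
    obtain ⟨r, hr⟩ := hm
    have hm0 : m ≠ 0 := fun h => hn0 (by rw [hr, h, zero_mul])
    have hmpos : 0 < m := Nat.pos_of_ne_zero hm0
    have hnm : n / m = r := by rw [hr]; exact Nat.mul_div_cancel_left r hmpos
    have hpr : ¬ p ∣ r := by
      have := hq p (Finset.mem_insert_self p σ')
      rwa [hnm] at this
    have hpam : p ^ a ∣ m := by
      have hcop : Nat.Coprime (p ^ a) r :=
        Nat.Coprime.pow_left a ((Nat.Prime.coprime_iff_not_dvd hpp).mpr hpr)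
      apply hcop.dvd_of_dvd_mul_right
      rw [← hr]; exact hPn
    obtain ⟨m', hm'⟩ := hpam
    have hm'0 : m' ≠ 0 := fun h => hm0 (by rw [hm', h, mul_zero])
    have hm'pos : 0 < m' := Nat.pos_of_ne_zero hm'0
    have hm'n : m' ∣ n := by
      exact ⟨p ^ a * r, by rw [hr, hm']; ring⟩
    have hnm' : n / m' = p ^ a * r := by
      rw [hr, hm']
      have : p ^ a * m' * r = m' * (p ^ a * r) := by ring
      rw [this]; exact Nat.mul_div_cancel_left _ hm'pos
    have hq' : ∀ q ∈ σ', ¬ q ∣ n / m' := by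
      intro q hqσ' hqd
      rw [hnm'] at hqd
      have hqq : q.Prime := hprimes' q hqσ'
      rcases (Nat.Prime.dvd_mul hqq).mp hqd with h | h
      · have := (Nat.prime_dvd_prime_iff_eq hqq hpp).mp (hqq.dvd_of_dvd_pow h)
        rw [this] at hqσ'
        exact hpσ' hqσ'
      · have := hq q (Finset.mem_insert_of_mem hqσ')
        rw [hnm] at this
        exact this h
    -- the bound for centralizers
    have hcent : ∀ u : X, Nat.card {D : ConjClasses (Subgroup.centralizer ({u} : Set X)) //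
        IsPiClass (↑σ' : Set ℕ) D} ≤ m' := by
      intro u
      set c := Nat.card (Subgroup.centralizer ({u} : Set X)) with hc
      have hcn : c ∣ n := Subgroup.card_subgroup_dvd_card _
      have h1 := ih hprimes' (Subgroup.centralizer ({u} : Set X)) (Nat.gcd m' c)
        (Nat.gcd_dvd_right m' c) (fun q hqσ' => arith_sub hn0 hm'n hcn (hq' q hqσ'))
      exact h1.trans (Nat.le_of_dvd hm'pos (Nat.gcd_dvd_left m' c))
    -- the surjection
    let T := Σ u : (P : Subgroup X), {D : ConjClasses (Subgroup.centralizer ({(u : X)} : Set X)) //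
        IsPiClass (↑σ' : Set ℕ) D}
    have hval : ∀ t : T, IsPiClass (↑(insert p σ') : Set ℕ)
        (ConjClasses.mk ((t.1 : X) * ((Quotient.out t.2.1 : Subgroup.centralizer ({(t.1 : X)} : Set X)) : X))) := by
      rintro ⟨u, D, hD⟩
      rw [isPiClass_mk_iff]
      intro q hqq hqd
      set v := (Quotient.out D : Subgroup.centralizer ({(u : X)} : Set X)) with hv
      have hcomm : Commute (u : X) (v : X) := by
        have := Subgroup.mem_centralizer_singleton_iff.mp v.2
        exact this.symm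
      have h1 : q ∣ orderOf (u : X) * orderOf (v : X) :=
        hqd.trans ((hcomm.orderOf_mul_dvd_lcm).trans (Nat.lcm_dvd_mul _ _))
      rcases (Nat.Prime.dvd_mul hqq).mp h1 with h | h
      · obtain ⟨j, hj⟩ := (IsPGroup.iff_orderOf.mp P.isPGroup') u
        rw [Subgroup.orderOf_coe, hj] at h
        have := (Nat.prime_dvd_prime_iff_eq hqq hpp).mp (hqq.dvd_of_dvd_pow h)
        rw [this]
        exact Finset.mem_coe.mpr (Finset.mem_insert_self p σ')
      · have h2 : q ∈ (↑σ' : Set ℕ) := by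
          apply hD q hqq
          refine ⟨v, Quotient.out_eq D, ?_⟩
          rw [← Subgroup.orderOf_coe]; exact h
        exact Finset.mem_coe.mpr (Finset.mem_insert_of_mem (Finset.mem_coe.mp h2))
    let f : T → {C : ConjClasses X // IsPiClass (↑(insert p σ') : Set ℕ) C} :=
      fun t => ⟨_, hval t⟩
    have hsurj : Function.Surjective f := by
      rintro ⟨C, hC⟩
      obtain ⟨g, rfl⟩ := ConjClasses.exists_rep C
      rw [isPiClass_mk_iff] at hC
      obtain ⟨x, y, hgxy, hcomm, ⟨k, hxk⟩, hpy, hyg⟩ := exists_split p hpp g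
      obtain ⟨h, hh⟩ := exists_conj_mem_sylow P x k hxk
      set u : (P : Subgroup X) := ⟨h * x * h⁻¹, hh⟩ with hu
      have hv₀ : h * y * h⁻¹ ∈ Subgroup.centralizer ({(u : X)} : Set X) := by
        rw [Subgroup.mem_centralizer_singleton_iff]
        show h * y * h⁻¹ * (h * x * h⁻¹) = h * x * h⁻¹ * (h * y * h⁻¹)
        have : y * x = x * y := hcomm.eq.symm
        calc h * y * h⁻¹ * (h * x * h⁻¹) = h * (y * x) * h⁻¹ := by group
          _ = h * (x * y) * h⁻¹ := by rw [this]
          _ = h * x * h⁻¹ * (h * y * h⁻¹) := by group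
      set v₀ : Subgroup.centralizer ({(u : X)} : Set X) := ⟨h * y * h⁻¹, hv₀⟩ with hv₀def
      have hD₀ : IsPiClass (↑σ' : Set ℕ) (ConjClasses.mk v₀) := by
        rw [isPiClass_mk_iff]
        intro q hqq hqd
        have h1 : orderOf v₀ = orderOf y := by
          rw [← Subgroup.orderOf_coe]
          exact orderOf_conj_eq h y
        rw [h1] at hqd
        have h2 : q ∈ (↑(insert p σ') : Set ℕ) := hC q hqq (hqd.trans hyg)
        rcases Finset.mem_insert.mp (Finset.mem_coe.mp h2) with h3 | h3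
        · exact absurd (h3 ▸ hqd) hpy
        · exact Finset.mem_coe.mpr h3
      refine ⟨⟨u, ConjClasses.mk v₀, hD₀⟩, ?_⟩
      apply Subtype.ext
      show ConjClasses.mk ((u : X) * ((Quotient.out (ConjClasses.mk v₀) :
        Subgroup.centralizer ({(u : X)} : Set X)) : X)) = ConjClasses.mk g
      set w := (Quotient.out (ConjClasses.mk v₀) : Subgroup.centralizer ({(u : X)} : Set X)) with hw
      have hwv : ConjClasses.mk w = ConjClasses.mk v₀ := Quotient.out_eq _
      obtain ⟨c, hc⟩ := isConj_iff.mp (ConjClasses.mk_eq_mk_iff_isConj.mp hwv)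
      -- c * w * c⁻¹ = v₀ in the centralizer
      have hc' : (c : X) * (w : X) * (c : X)⁻¹ = h * y * h⁻¹ := by
        have := congrArg Subtype.val hc
        simpa using this
      have hcu : (c : X) * (u : X) = (u : X) * (c : X) := by
        have := Subgroup.mem_centralizer_singleton_iff.mp c.2
        exact this
      rw [ConjClasses.mk_eq_mk_iff_isConj, isConj_iff]
      refine ⟨h⁻¹ * (c : X), ?_⟩
      have hu' : (u : X) = h * x * h⁻¹ := rfl
      have e1 : (c : X) * ((u : X) * (w : X)) * (c : X)⁻¹ = (u : X) * ((c : X) * (w : X) * (c : X)⁻¹) := by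
        calc (c : X) * ((u : X) * (w : X)) * (c : X)⁻¹ = ((c : X) * (u : X)) * (w : X) * (c : X)⁻¹ := by group
          _ = ((u : X) * (c : X)) * (w : X) * (c : X)⁻¹ := by rw [hcu]
          _ = (u : X) * ((c : X) * (w : X) * (c : X)⁻¹) := by group
      calc h⁻¹ * (c : X) * ((u : X) * (w : X)) * (h⁻¹ * (c : X))⁻¹
          = h⁻¹ * ((c : X) * ((u : X) * (w : X)) * (c : X)⁻¹) * h := by group
        _ = h⁻¹ * ((u : X) * ((c : X) * (w : X) * (c : X)⁻¹)) * h := by rw [e1]
        _ = h⁻¹ * ((h * x * h⁻¹) * (h * y * h⁻¹)) * h := by rw [hc', hu']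
        _ = x * y := by group
        _ = g := hgxy.symm
    have hfin : Finite T := inferInstance
    have hcard := Nat.card_le_card_of_surjective f hsurj
    refine hcard.trans ?_
    have := Fintype.ofFinite (P : Subgroup X)
    rw [Nat.card_sigma]
    calc ∑ u : (P : Subgroup X), Nat.card {D : ConjClasses (Subgroup.centralizer ({(u : X)} : Set X)) //
          IsPiClass (↑σ' : Set ℕ) D}
        ≤ ∑ _u : (P : Subgroup X), m' := Finset.sum_le_sum (fun u _ => hcent (u : X))
      _ = Nat.card (P : Subgroup X) * m' := by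
          simp [Finset.sum_const, Finset.card_univ, Nat.card_eq_fintype_card]
      _ = m := by rw [ha, hm']

/-- Let G be a finite group, π a set of primes and m the π-part of the order of G. Then the number of conjugacy classes of G consisting of π-elements (elements whose order is divisible only by primes in π) is at most m. -/
theorem result {G : Type*} [Group G] [Finite G]
    (π : Set ℕ) (hπ : ∀ q ∈ π, q.Prime)
    (m : ℕ) (hm : m ∣ Nat.card G) (hmπ : ∀ q : ℕ, q.Prime → q ∣ m → q ∈ π)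
    (hm' : ∀ q ∈ π, ¬ q ∣ Nat.card G / m) :
    Nat.card {C : ConjClasses G // ∀ q : ℕ, q.Prime → (∃ g : G, ConjClasses.mk g = C ∧ q ∣ orderOf g) → q ∈ π} ≤ m := by
  classical
  set σ : Finset ℕ := (Nat.card G).primeFactors.filter (· ∈ π) with hσ
  have hσprime : ∀ q ∈ σ, q.Prime := fun q hq => hπ q (Finset.mem_filter.mp hq).2
  have hσq : ∀ q ∈ σ, ¬ q ∣ Nat.card G / m := fun q hq => hm' q (Finset.mem_filter.mp hq).2
  have hbound := classes_bound σ hσprime G m hm hσq
  have hequiv : ∀ C : ConjClasses G,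
      (∀ q : ℕ, q.Prime → (∃ g : G, ConjClasses.mk g = C ∧ q ∣ orderOf g) → q ∈ π) ↔
        IsPiClass (↑σ : Set ℕ) C := by
    intro C
    obtain ⟨g, rfl⟩ := ConjClasses.exists_rep C
    have h1 := isPiClass_mk_iff π g
    have h2 := isPiClass_mk_iff (↑σ : Set ℕ) g
    unfold IsPiClass at h1
    rw [h1, h2]
    constructor
    · intro h q hq hqd
      refine Finset.mem_coe.mpr (Finset.mem_filter.mpr ⟨?_, h q hq hqd⟩)
      exact Nat.mem_primeFactors.mpr ⟨hq, hqd.trans (orderOf_dvd_natCard g), Nat.card_pos.ne'⟩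
    · intro h q hq hqd
      exact (Finset.mem_filter.mp (Finset.mem_coe.mp (h q hq hqd))).2
  rw [Nat.card_congr (Equiv.subtypeEquivRight hequiv)]
  exact hbound

end Cfsg.Agent.S4106
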