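import Mathlib
import Cfsg.Statements.S4107

set_option autoImplicit false
open Cfsg

namespace Cfsg.Agent.S4107

/-- If a `p`-element `x` of a normal nilpotent subgroup `K` lies outside `N`, and all elements of the
coset `xN` have the order of `x`, then `N` is a `p`-group. -/
theorem pgroup_of_outside {G : Type*} [Group G] [Finite G] (N : Subgroup G)
    (heq : ∀ x : G, x ∉ N → ∀ n ∈ N, orderOf (x * n) = orderOf x)
    (K : Subgroup G) (hKn : K.Normal) (hKnil : Group.IsNilpotent K)
    (p : ℕ) [Fact p.Prime] (x : G) (hxK : x ∈ K) (hxN : x ∉ N) (k : ℕ) (hx : orderOf x = p ^ k) :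
    IsPGroup p N := by
  have hzp : IsPGroup p (Subgroup.zpowers (⟨x, hxK⟩ : K)) := by
    apply IsPGroup.of_card (n := k)
    rw [Nat.card_zpowers, Subgroup.orderOf_mk, hx]
  obtain ⟨P, hP⟩ := hzp.exists_le_sylow
  have hPn : (P : Subgroup K).Normal := inferInstance
  have hPc : (P : Subgroup K).Characteristic := P.characteristic_of_normal hPn
  have hR : ((P : Subgroup K).map K.subtype).Normal := ConjAct.normal_of_characteristic_of_normal
  set R := (P : Subgroup K).map K.subtype with hRdef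
  have hxR : x ∈ R := ⟨⟨x, hxK⟩, hP (Subgroup.mem_zpowers _), rfl⟩
  have hRp : IsPGroup p R := P.2.map K.subtype
  intro n
  have h1 : (x * (n : G)) ^ (p ^ k) = 1 := by
    rw [← hx, ← heq x hxN n n.2]; exact pow_orderOf_eq_one _
  have h2 : ((n : G)) ^ (p ^ k) ∈ R := by
    have h4 : (QuotientGroup.mk (x * (n : G)) : G ⧸ R) = QuotientGroup.mk (n : G) := by
      rw [QuotientGroup.mk_mul, (QuotientGroup.eq_one_iff x).mpr hxR, one_mul]
    have h3 : (QuotientGroup.mk ((n : G) ^ (p ^ k)) : G ⧸ R) = 1 := by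
      rw [QuotientGroup.mk_pow, ← h4, ← QuotientGroup.mk_pow, h1, QuotientGroup.mk_one]
    exact (QuotientGroup.eq_one_iff _).mp h3
  obtain ⟨j, hj⟩ := hRp ⟨_, h2⟩
  refine ⟨k + j, ?_⟩
  have hj' : ((n : G) ^ (p ^ k)) ^ (p ^ j) = 1 := by
    have := congrArg Subtype.val hj
    simpa using this
  apply Subtype.ext
  rw [Subgroup.coe_pow, Subgroup.coe_one, pow_add, pow_mul]
  exact hj'

/-- A normal nilpotent subgroup not contained in `N` has an element of prime power order outside `N`. -/
theorem exists_primePow_outside {G : Type*} [Group G] [Finite G] (N : Subgroup G) [N.Normal]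
    (K : Subgroup G) (hKN : ¬ K ≤ N) :
    ∃ (p : ℕ) (_ : Fact p.Prime) (x : G) (k : ℕ), x ∈ K ∧ x ∉ N ∧ orderOf x = p ^ k := by
  obtain ⟨y, hyK, hyN⟩ := Set.not_subset.mp hKN
  have hy1 : (QuotientGroup.mk y : G ⧸ N) ≠ 1 := fun h => hyN ((QuotientGroup.eq_one_iff y).mp h)
  have hord1 : orderOf (QuotientGroup.mk y : G ⧸ N) ≠ 1 := fun h => hy1 (orderOf_eq_one_iff.mp h)
  set p := (orderOf (QuotientGroup.mk y : G ⧸ N)).minFac with hp
  have hpp : p.Prime := Nat.minFac_prime hord1
  have hpd : p ∣ orderOf (QuotientGroup.mk y : G ⧸ N) := Nat.minFac_dvd _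
  have hord0 : orderOf y ≠ 0 := (orderOf_pos y).ne'
  obtain ⟨a, m, hm, hym⟩ := Nat.exists_eq_pow_mul_and_not_dvd hord0 p hpp.ne_one
  refine ⟨p, ⟨hpp⟩, y ^ m, a, K.pow_mem hyK m, ?_, ?_⟩
  · intro hmem
    have h1 : (QuotientGroup.mk y : G ⧸ N) ^ m = 1 := by
      rw [← QuotientGroup.mk_pow]; exact (QuotientGroup.eq_one_iff _).mpr hmem
    exact hm (hpd.trans (orderOf_dvd_of_pow_eq_one h1))
  · have h2 : orderOf y / p ^ a = m := by
      rw [hym]; exact Nat.mul_div_cancel_left m (pow_pos hpp.pos a)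
    have h3 := orderOf_pow_orderOf_div hord0 (Dvd.intro m hym.symm : p ^ a ∣ orderOf y)
    rw [h2] at h3
    exact h3

/-- Let G be a finite group and N a proper non-trivial normal subgroup such that for every x outside N all elements of the coset xN have the same order as x. Then N ≤ F(G) or F(G) ≤ N, where F(G) is the Fitting subgroup; and if N is properly contained in F(G) then F(G) has prime-power order. -/
theorem result {G : Type*} [Group G] [Finite G] (N : Subgroup G) [N.Normal] (hN1 : N ≠ ⊥) (hN2 : N ≠ ⊤)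
    (heq : ∀ x : G, x ∉ N → ∀ n ∈ N, orderOf (x * n) = orderOf x) :
    (N ≤ Cfsg.fittingSubgroup G ∨ Cfsg.fittingSubgroup G ≤ N) ∧
    (N < Cfsg.fittingSubgroup G → IsPrimePow (Nat.card (Cfsg.fittingSubgroup G))) := by
  -- main consequence of `F(G)` not being inside `N`
  have hmain : ¬ Cfsg.fittingSubgroup G ≤ N →
      ∃ (p : ℕ) (_ : Fact p.Prime), IsPGroup p N := by
    intro hF
    have : ∃ K : Subgroup G, (K.Normal ∧ Group.IsNilpotent K) ∧ ¬ K ≤ N := by
      by_contra hcon
      push Not at hcon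
      exact hF (sSup_le fun K hK => hcon K hK)
    obtain ⟨K, ⟨hKn, hKnil⟩, hKN⟩ := this
    obtain ⟨p, hp, x, k, hxK, hxN, hx⟩ := exists_primePow_outside N K hKN
    exact ⟨p, hp, pgroup_of_outside N heq K hKn hKnil p x hxK hxN k hx⟩
  constructor
  · by_cases hF : Cfsg.fittingSubgroup G ≤ N
    · exact Or.inr hF
    · left
      obtain ⟨p, hp, hNp⟩ := hmain hF
      exact le_sSup ⟨inferInstance, hNp.isNilpotent⟩
  · intro hlt
    have hF : ¬ Cfsg.fittingSubgroup G ≤ N := not_le_of_gt hlt
    obtain ⟨p, hp, hNp⟩ := hmain hF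
    -- a nonidentity element of N
    obtain ⟨n, hnN, hn1⟩ := (Subgroup.ne_bot_iff_exists_ne_one.mp hN1 |> fun ⟨a, ha⟩ =>
      (⟨(a : G), a.2, fun h => ha (Subtype.ext h)⟩ : ∃ n : G, n ∈ N ∧ n ≠ 1))
    -- every normal nilpotent subgroup is a p-group
    have hall : ∀ K : Subgroup G, K.Normal → Group.IsNilpotent K → IsPGroup p K := by
      intro K hKn hKnil
      by_contra hnot
      -- some element of K is not a p-element
      have : ∃ y : K, ¬ ∃ k : ℕ, y ^ p ^ k = 1 := by
        by_contra hcon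
        push Not at hcon
        exact hnot hcon
      obtain ⟨y, hy⟩ := this
      have hyo : ¬ ∃ k : ℕ, orderOf (y : G) = p ^ k := by
        rintro ⟨k, hk⟩
        apply hy
        refine ⟨k, ?_⟩
        apply Subtype.ext
        rw [Subgroup.coe_pow, Subgroup.coe_one, ← hk]
        exact pow_orderOf_eq_one _
      have hord0 : orderOf (y : G) ≠ 0 := (orderOf_pos _).ne'
      -- a prime q ≠ p dividing the order of y
      have : ∃ q : ℕ, q.Prime ∧ q ∣ orderOf (y : G) ∧ q ≠ p := by
        by_contra hcon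
        push Not at hcon
        apply hyo
        exact ⟨_, Nat.eq_prime_pow_of_unique_prime_dvd hord0 (fun {q} hq hqd => hcon q hq hqd)⟩
      obtain ⟨q, hq, hqd, hqp⟩ := this
      have : Fact q.Prime := ⟨hq⟩
      set y' := (y : G) ^ (orderOf (y : G) / q) with hy'
      have hy'ord : orderOf y' = q := orderOf_pow_orderOf_div hord0 hqd
      have hy'K : y' ∈ K := K.pow_mem y.2 _
      have hy'N : y' ∉ N := by
        intro hmem
        obtain ⟨j, hj⟩ := hNp ⟨y', hmem⟩
        have hj' : y' ^ p ^ j = 1 := by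
          have := congrArg Subtype.val hj
          simpa using this
        have h1 : q ∣ p ^ j := by
          rw [← hy'ord]; exact orderOf_dvd_of_pow_eq_one hj'
        have h2 : q ∣ p := hq.dvd_of_dvd_pow h1
        exact hqp ((Nat.prime_dvd_prime_iff_eq hq hp.out).mp h2)
      have hNq : IsPGroup q N :=
        pgroup_of_outside N heq K hKn hKnil q y' hy'K hy'N 1 (by rw [hy'ord, pow_one])
      obtain ⟨j₁, hj₁⟩ := hNp ⟨n, hnN⟩
      obtain ⟨j₂, hj₂⟩ := hNq ⟨n, hnN⟩
      have hj₁' : n ^ p ^ j₁ = 1 := by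
        have := congrArg Subtype.val hj₁
        simpa using this
      have hj₂' : n ^ q ^ j₂ = 1 := by
        have := congrArg Subtype.val hj₂
        simpa using this
      have hd1 : orderOf n ∣ p ^ j₁ := orderOf_dvd_of_pow_eq_one hj₁'
      have hd2 : orderOf n ∣ q ^ j₂ := orderOf_dvd_of_pow_eq_one hj₂'
      have hcop : Nat.Coprime (p ^ j₁) (q ^ j₂) :=
        Nat.Coprime.pow _ _ ((Nat.coprime_primes hp.out hq).mpr (Ne.symm hqp))
      have : orderOf n = 1 := Nat.eq_one_of_dvd_coprimes hcop hd1 hd2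
      exact hn1 (orderOf_eq_one_iff.mp this)
    -- hence F(G) lies in a Sylow p-subgroup
    obtain ⟨P⟩ : Nonempty (Sylow p G) := inferInstance
    have hFP : Cfsg.fittingSubgroup G ≤ P := by
      apply sSup_le
      rintro K ⟨hKn, hKnil⟩
      have := hKn
      exact (hall K hKn hKnil).le_sylow_of_normal P
    have hFp : IsPGroup p (Cfsg.fittingSubgroup G) := P.2.to_le hFP
    obtain ⟨j, hj⟩ := IsPGroup.iff_card.mp hFp
    rw [hj]
    have hj0 : j ≠ 0 := by
      rintro rfl
      rw [pow_zero] at hj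
      have hbot : Cfsg.fittingSubgroup G = ⊥ := Subgroup.card_eq_one.mp hj
      rw [hbot] at hlt
      exact not_lt_bot hlt
    exact ⟨p, j, hp.out.prime, Nat.pos_of_ne_zero hj0, rfl⟩

end Cfsg.Agent.S4107
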