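import Mathlib
import Cfsg.Statements.S4108

set_option autoImplicit false
open Cfsg
open scoped Pointwise

namespace Cfsg.Agent.S4108

/-- Let G be a finite group, p a prime and N a proper non-trivial normal p-subgroup such that for every x outside N all elements of the coset xN have the same order as x. Then every non-trivial subgroup H of G of order prime to p acts fixed-point-freely on N: NH is a Frobenius group with complement H and kernel N. -/
theorem result {G : Type*} [Group G] [Finite G] (N : Subgroup G) [N.Normal] (hN1 : N ≠ ⊥) (hN2 : N ≠ ⊤)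
    (heq : ∀ x : G, x ∉ N → ∀ n ∈ N, orderOf (x * n) = orderOf x)
    (p : ℕ) [Fact p.Prime] (hNp : IsPGroup p N) :
    ∀ H : Subgroup G, H ≠ ⊥ → (Nat.card H).Coprime p →
      Cfsg.IsFrobeniusComplement (H.subgroupOf (N ⊔ H)) ∧ Cfsg.frobeniusKernel (H.subgroupOf (N ⊔ H)) = (N.subgroupOf (N ⊔ H) : Set ↥(N ⊔ H)) := by
  intro H hH1 hcop
  -- orders
  have hNord : ∀ n ∈ N, ∃ k : ℕ, orderOf n = p ^ k := by
    intro n hn
    obtain ⟨k, hk⟩ := (IsPGroup.iff_orderOf.mp hNp) ⟨n, hn⟩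
    exact ⟨k, by rw [← hk, Subgroup.orderOf_mk]⟩
  have hHord : ∀ h ∈ H, (orderOf h).Coprime p := by
    intro h hh
    have : orderOf h ∣ Nat.card H := Subgroup.orderOf_dvd_natCard H hh
    exact hcop.coprime_dvd_left this
  -- (a)
  have hNH : ∀ x : G, x ∈ N → x ∈ H → x = 1 := by
    intro x hxN hxH
    obtain ⟨k, hk⟩ := hNord x hxN
    have h1 := hHord x hxH
    rw [hk] at h1
    rw [← orderOf_eq_one_iff, hk]
    rcases Nat.eq_zero_or_pos k with h0 | h0
    · rw [h0, pow_zero]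
    · exfalso
      have h2 : Nat.Coprime p p := Nat.Coprime.coprime_dvd_left (dvd_pow_self p h0.ne') h1
      exact (Fact.out : p.Prime).one_lt.ne' ((Nat.coprime_self p).mp h2)
  -- (b)
  have hfix : ∀ h ∈ H, h ≠ 1 → ∀ n ∈ N, h * n = n * h → n = 1 := by
    intro h hh hh1 n hn hcomm
    have hhN : h ∉ N := fun hhN => hh1 (hNH h hhN hh)
    have h1 := heq h hhN n hn
    obtain ⟨k, hk⟩ := hNord n hn
    have hco : (orderOf h).Coprime (orderOf n) := by
      rw [hk]; exact Nat.Coprime.pow_right k (hHord h hh)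
    have h2 := (show Commute h n from hcomm).orderOf_mul_eq_mul_orderOf_of_coprime hco
    rw [h1] at h2
    have hpos : 0 < orderOf h := orderOf_pos h
    have h3 : orderOf n = 1 := by
      have : orderOf h * 1 = orderOf h * orderOf n := by rw [mul_one]; exact h2
      exact (Nat.eq_of_mul_eq_mul_left hpos this).symm
    exact orderOf_eq_one_iff.mp h3
  -- (c)
  have hdec : ∀ g : ↥(N ⊔ H), ∃ n ∈ N, ∃ h ∈ H, n * h = (g : G) := fun g =>
    Subgroup.mem_sup_of_normal_left.mp g.2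
  have hNle : N ≤ N ⊔ H := le_sup_left
  have hHle : H ≤ N ⊔ H := le_sup_right
  have hsmul : ∀ (g x : ↥(N ⊔ H)),
      x ∈ MulAut.conj g • (H.subgroupOf (N ⊔ H)) ↔ (g : G)⁻¹ * (x : G) * (g : G) ∈ H := by
    intro g x
    rw [Subgroup.mem_pointwise_smul_iff_inv_smul_mem, Subgroup.mem_subgroupOf]
    simp [MulAut.smul_def]
  -- surjectivity of the commutator map
  have hsurj : ∀ h ∈ H, h ≠ 1 → ∀ n ∈ N, ∃ m ∈ N, n * h = m * h * m⁻¹ := by
    intro h hh hh1 n hn
    let φ : N → N := fun m => ⟨(m : G) * h * (m : G)⁻¹ * h⁻¹, by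
      have : (m : G) * h * (m : G)⁻¹ * h⁻¹ = (m : G) * (h * (m : G)⁻¹ * h⁻¹) := by group
      rw [this]
      exact N.mul_mem m.2 (‹N.Normal›.conj_mem _ (N.inv_mem m.2) _)⟩
    have hinj : Function.Injective φ := by
      intro m₁ m₂ h12
      have h12' : (m₁ : G) * h * (m₁ : G)⁻¹ * h⁻¹ = (m₂ : G) * h * (m₂ : G)⁻¹ * h⁻¹ :=
        congrArg Subtype.val h12
      have h6 : (m₁ : G) * h * (m₁ : G)⁻¹ = (m₂ : G) * h * (m₂ : G)⁻¹ := by
        simpa using h12'
      have h5 : h * ((m₂ : G)⁻¹ * m₁) = ((m₂ : G)⁻¹ * m₁) * h := by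
        calc h * ((m₂ : G)⁻¹ * m₁) = (m₂ : G)⁻¹ * ((m₂ : G) * h * (m₂ : G)⁻¹) * m₁ := by group
          _ = (m₂ : G)⁻¹ * ((m₁ : G) * h * (m₁ : G)⁻¹) * m₁ := by rw [h6]
          _ = ((m₂ : G)⁻¹ * m₁) * h := by group
      have h7 := hfix h hh hh1 _ (N.mul_mem (N.inv_mem m₂.2) m₁.2) h5
      apply Subtype.ext
      exact (inv_mul_eq_one.mp h7).symm
    obtain ⟨m, hm⟩ := (Finite.injective_iff_surjective.mp hinj) ⟨n, hn⟩
    have hm' : (m : G) * h * (m : G)⁻¹ * h⁻¹ = n := congrArg Subtype.val hm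
    exact ⟨m, m.2, by rw [← hm']; group⟩
  refine ⟨⟨?_, ?_, ?_⟩, ?_⟩
  · -- H' ≠ ⊥
    intro hbot
    apply hH1
    rw [Subgroup.eq_bot_iff_forall]
    intro h hh
    have : (⟨h, hHle hh⟩ : ↥(N ⊔ H)) ∈ H.subgroupOf (N ⊔ H) := Subgroup.mem_subgroupOf.mpr hh
    rw [hbot, Subgroup.mem_bot] at this
    exact congrArg Subtype.val this
  · -- H' ≠ ⊤
    intro htop
    apply hN1
    rw [Subgroup.eq_bot_iff_forall]
    intro n hn
    have : (⟨n, hNle hn⟩ : ↥(N ⊔ H)) ∈ H.subgroupOf (N ⊔ H) := by rw [htop]; exact Subgroup.mem_top _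
    exact hNH n hn (Subgroup.mem_subgroupOf.mp this)
  · -- TI
    intro g hg
    rw [Subgroup.eq_bot_iff_forall]
    intro x hx
    obtain ⟨hxH, hxc⟩ := Subgroup.mem_inf.mp hx
    rw [Subgroup.mem_subgroupOf] at hxH
    rw [hsmul] at hxc
    obtain ⟨n, hn, h₀, hh₀, hnh⟩ := hdec g
    have hn1 : n ≠ 1 := by
      rintro rfl
      apply hg
      rw [Subgroup.mem_subgroupOf, ← hnh, one_mul]
      exact hh₀
    rw [← hnh] at hxc
    -- n⁻¹ x n ∈ H
    have h1 : n⁻¹ * (x : G) * n ∈ H := by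
      have := H.mul_mem (H.mul_mem hh₀ hxc) (H.inv_mem hh₀)
      have e : h₀ * ((n * h₀)⁻¹ * (x : G) * (n * h₀)) * h₀⁻¹ = n⁻¹ * (x : G) * n := by group
      rwa [e] at this
    have h2 : (x : G)⁻¹ * (n⁻¹ * (x : G) * n) = 1 := by
      apply hNH
      · have e : (x : G)⁻¹ * (n⁻¹ * (x : G) * n) = ((x : G)⁻¹ * n⁻¹ * (x : G)) * n := by group
        rw [e]
        refine N.mul_mem ?_ hn
        have := ‹N.Normal›.conj_mem _ (N.inv_mem hn) (x : G)⁻¹
        simpa using this
      · exact H.mul_mem (H.inv_mem hxH) h1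
    have h3 : (x : G) * n = n * (x : G) := by
      have : n⁻¹ * (x : G) * n = (x : G) := by
        have := inv_mul_eq_one.mp h2
        exact this.symm
      calc (x : G) * n = n * (n⁻¹ * (x : G) * n) := by group
        _ = n * (x : G) := by rw [this]
    by_contra hx1
    have hx1' : (x : G) ≠ 1 := fun h => hx1 (Subtype.ext h)
    exact hn1 (hfix (x : G) hxH hx1' n hn h3)
  · -- kernel
    ext x
    simp only [Cfsg.frobeniusKernel, Set.mem_ofPred_eq, SetLike.mem_coe, Subgroup.mem_subgroupOf]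
    constructor
    · rintro (rfl | hx)
      · simp
      · by_contra hxN
        obtain ⟨n, hn, h, hh, hnh⟩ := hdec x
        have hh1 : h ≠ 1 := by
          rintro rfl
          apply hxN
          rw [← hnh, mul_one]; exact hn
        obtain ⟨m, hm, hmh⟩ := hsurj h hh hh1 n hn
        apply hx ⟨m, hNle hm⟩
        rw [hsmul]
        show m⁻¹ * (x : G) * m ∈ H
        rw [← hnh, hmh]
        have e : m⁻¹ * (m * h * m⁻¹) * m = h := by group
        rw [e]; exact hh
    · intro hxN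
      by_cases hx1 : x = 1
      · exact Or.inl hx1
      · right
        intro g hg
        rw [hsmul] at hg
        apply hx1
        apply Subtype.ext
        have h1 : (g : G)⁻¹ * (x : G) * (g : G) ∈ N := by
          have := ‹N.Normal›.conj_mem _ hxN (g : G)⁻¹
          simpa using this
        have h2 := hNH _ h1 hg
        have e : (x : G) = (g : G) * ((g : G)⁻¹ * (x : G) * (g : G)) * (g : G)⁻¹ := by group
        rw [e, h2]; simp

end Cfsg.Agent.S4108
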