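import Mathlib
import Cfsg.Statements.S4112

set_option autoImplicit false
open Cfsg

namespace Cfsg.Agent.S4112

open scoped Pointwise

/-- Bezout for membership. -/
theorem mem_of_pow_mem {G : Type*} [Group G] (N : Subgroup G) (g : G) (a b : ℕ)
    (hab : Nat.Coprime a b) (ha : g ^ a ∈ N) (hb : g ^ b ∈ N) : g ∈ N := by
  obtain ⟨u, v, huv⟩ := Nat.isCoprime_iff_coprime.2 hab
  have : g = (g ^ a) ^ u * (g ^ b) ^ v := by
    rw [← zpow_natCast, ← zpow_natCast, ← zpow_mul, ← zpow_mul, ← zpow_add]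
    have : (a : ℤ) * u + (b : ℤ) * v = 1 := by rw [← huv]; ring
    rw [this, zpow_one]
  rw [this]
  exact N.mul_mem (N.zpow_mem ha u) (N.zpow_mem hb v)

/-- A normal subgroup whose index misses a prime divisor of the group order has a proper
supplement. -/
theorem exists_proper_supplement {H : Type*} [Group H] [Finite H] (N : Subgroup H) [N.Normal]
    (q : ℕ) [Fact q.Prime] (hq : q ∣ Nat.card H) (hqN : ¬ q ∣ N.index) :
    ∃ K : Subgroup H, K ≠ ⊤ ∧ K ⊔ N = ⊤ := by
  have hqp : q.Prime := Fact.out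
  obtain ⟨S⟩ : Nonempty (Sylow q H) := inferInstance
  have hSN : (S : Subgroup H) ≤ N := by
    intro s hs
    obtain ⟨k, hk⟩ := S.2 ⟨s, hs⟩
    have h1 : s ^ q ^ k = 1 := congrArg Subtype.val hk
    apply mem_of_pow_mem N s (q ^ k) N.index
    · exact Nat.Coprime.pow_left k ((Nat.Prime.coprime_iff_not_dvd hqp).2 hqN)
    · rw [h1]
      exact N.one_mem
    · exact N.pow_index_mem s
  by_cases hSn : (S : Subgroup H).Normal
  · have hcop : Nat.Coprime (Nat.card (S : Subgroup H)) (S : Subgroup H).index := by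
      obtain ⟨k, hk⟩ := IsPGroup.iff_card.1 S.2
      rw [hk]
      exact Nat.Coprime.pow_left k ((Nat.Prime.coprime_iff_not_dvd hqp).2 S.not_dvd_index)
    obtain ⟨K, hK⟩ := Subgroup.exists_right_complement'_of_coprime hcop
    refine ⟨K, ?_, ?_⟩
    · rintro rfl
      exact S.ne_bot_of_dvd_card hq (Subgroup.isComplement'_top_right.1 hK)
    · have h1 := hK.sup_eq_top
      rw [eq_top_iff, ← h1, sup_comm]
      exact sup_le_sup_left hSN K
  · refine ⟨Subgroup.normalizer ((S : Subgroup H) : Set H), ?_, ?_⟩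
    · intro h
      exact hSn (Subgroup.normalizer_eq_top_iff.1 h)
    · exact Sylow.normalizer_sup_eq_top' S hSN

theorem part1 {G : Type*} [Group G] [Finite G] (N M : Subgroup G) [N.Normal] [M.Normal]
    (h1 : ∀ x ∈ M, x ≠ 1 → Subgroup.centralizer ({x} : Set G) ≤ N) :
    N.index.Coprime (Nat.card M) := by
  by_contra hnc
  obtain ⟨q, hq, hqN, hqM⟩ := Nat.Prime.not_coprime_iff_dvd.1 hnc
  have : Fact q.Prime := ⟨hq⟩
  obtain ⟨Q⟩ : Nonempty (Sylow q G) := inferInstance
  have hQN : ¬ (Q : Subgroup G) ≤ N := by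
    intro h
    exact Q.not_dvd_index (hqN.trans (Subgroup.index_dvd_of_le h))
  letI inst : MulAction (Q : Subgroup G) M :=
    MulAction.compHom M ((MulAut.conjNormal (H := M)).comp (Q : Subgroup G).subtype)
  have hfix : (1 : M) ∈ MulAction.fixedPoints (Q : Subgroup G) M := by
    intro g
    change MulAut.conjNormal (g : G) (1 : M) = 1
    exact map_one _
  obtain ⟨b, hb, hb1⟩ :=
    (Q.2).exists_fixed_point_of_prime_dvd_card_of_fixed_point (α := M) hqM hfix
  apply hQN
  intro g hg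
  apply h1 (b : G) b.2 (fun h => hb1 (Subtype.ext h).symm)
  rw [Subgroup.mem_centralizer_iff]
  intro y hy
  rw [Set.mem_singleton_iff] at hy
  subst hy
  have h2 : MulAut.conjNormal (g : G) b = b := hb ⟨g, hg⟩
  have h3 : g * (b : G) * g⁻¹ = b := by
    have := congrArg Subtype.val h2
    rwa [MulAut.conjNormal_apply] at this
  calc (b : G) * g = (g * (b : G) * g⁻¹) * g := by rw [h3]
    _ = g * b := by group

theorem part2 {G : Type*} [Group G] [Finite G] (N M : Subgroup G) [N.Normal] [M.Normal]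
    (hcam : ∀ g : G, g ∉ N → ∀ m ∈ M, ∃ x : G, x * g * x⁻¹ = g * m)
    (hcop : N.index.Coprime (Nat.card M)) :
    ∀ x ∈ M, x ≠ 1 → Subgroup.centralizer ({x} : Set G) ≤ N := by
  intro x hxM hx1 g hg
  by_contra hgN
  rw [Subgroup.mem_centralizer_iff] at hg
  have hgx : x * g = g * x := hg x rfl
  have hox : orderOf x ≠ 1 := fun h => hx1 (orderOf_eq_one_iff.1 h)
  obtain ⟨q, hq, hqx⟩ := Nat.exists_prime_and_dvd hox
  have hox0 : orderOf x ≠ 0 := (orderOf_pos x).ne'
  set y := x ^ (orderOf x / q) with hy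
  have hyo : orderOf y = q := orderOf_pow_orderOf_div hox0 hqx
  have hyM : y ∈ M := M.pow_mem hxM _
  have hqM : q ∣ Nat.card M := by
    rw [← hyo]
    exact Subgroup.orderOf_dvd_natCard M hyM
  have hqN : ¬ q ∣ N.index := by
    intro h
    have h2 := Nat.dvd_gcd h hqM
    rw [hcop.gcd_eq_one] at h2
    exact hq.one_lt.ne' (Nat.dvd_one.1 h2)
  obtain ⟨e, m, hm, hgm⟩ := Nat.exists_eq_pow_mul_and_not_dvd (orderOf_pos g).ne' q hq.ne_one
  set g' := g ^ (q ^ e) with hg'
  have hdvd : q ^ e ∣ orderOf g := by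
    rw [hgm]
    exact dvd_mul_right _ _
  have hg'o : orderOf g' = m := by
    rw [hg', orderOf_pow_of_dvd (pow_ne_zero e hq.ne_zero) hdvd, hgm]
    exact Nat.mul_div_cancel_left m (pow_pos hq.pos e)
  have hg'N : g' ∉ N := by
    intro h
    apply hgN
    apply mem_of_pow_mem N g (q ^ e) N.index
    · exact Nat.Coprime.pow_left e ((Nat.Prime.coprime_iff_not_dvd hq).2 hqN)
    · exact h
    · exact N.pow_index_mem g
  have hcomm : Commute g' y := by
    have h1 : Commute g x := hgx.symm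
    exact (h1.pow_left _).pow_right _
  have hord : orderOf (g' * y) = orderOf g' * orderOf y :=
    hcomm.orderOf_mul_eq_mul_orderOf_of_coprime (by
      rw [hg'o, hyo]
      exact ((Nat.Prime.coprime_iff_not_dvd hq).2 hm).symm)
  obtain ⟨c, hc⟩ := hcam g' hg'N y hyM
  have hord2 : orderOf (g' * y) = orderOf g' := by
    rw [← hc]
    have := MulEquiv.orderOf_eq (MulAut.conj c) g'
    rwa [MulAut.conj_apply] at this
  rw [hord2, hyo] at hord
  have hpos : 0 < orderOf g' := orderOf_pos g'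
  have : q = 1 := by nlinarith
  exact hq.ne_one this

theorem part3 {G : Type*} [Group G] [Finite G] (N M : Subgroup G) [N.Normal] [M.Normal]
    (hcop : N.index.Coprime (Nat.card M)) :
    ∃ H : Subgroup G, H ⊔ N = ⊤ ∧ H ⊓ M = ⊥ := by
  classical
  have hex : ∃ n : ℕ, ∃ H : Subgroup G, H ⊔ N = ⊤ ∧ Nat.card H = n :=
    ⟨_, ⊤, top_sup_eq _, rfl⟩
  obtain ⟨H, hHN, hHcard⟩ := Nat.find_spec hex
  have hmin : ∀ K : Subgroup G, K ⊔ N = ⊤ → Nat.card H ≤ Nat.card K := by
    intro K hK
    rw [hHcard]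
    exact Nat.find_min' hex ⟨K, hK, rfl⟩
  refine ⟨H, hHN, ?_⟩
  by_contra hne
  have hcard : Nat.card (H ⊓ M : Subgroup G) ≠ 1 := by
    rw [Ne, Subgroup.card_eq_one]
    exact hne
  obtain ⟨q, hq, hqd⟩ := Nat.exists_prime_and_dvd hcard
  have : Fact q.Prime := ⟨hq⟩
  have hqH : q ∣ Nat.card H := hqd.trans (Subgroup.card_dvd_of_le inf_le_left)
  have hqM : q ∣ Nat.card M := hqd.trans (Subgroup.card_dvd_of_le inf_le_right)
  have hqN : ¬ q ∣ N.index := by
    intro h
    have h2 := Nat.dvd_gcd h hqM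
    rw [hcop.gcd_eq_one] at h2
    exact hq.one_lt.ne' (Nat.dvd_one.1 h2)
  have hqN' : ¬ q ∣ (N.subgroupOf H).index :=
    fun h => hqN (h.trans (Subgroup.relIndex_dvd_index_of_normal N H))
  obtain ⟨K', hK'top, hK'sup⟩ := exists_proper_supplement (N.subgroupOf H) q hqH hqN'
  let K := K'.map H.subtype
  have hKH : K ≤ H := Subgroup.map_subtype_le K'
  have hKN : K ⊔ N = ⊤ := by
    have h1 : K ⊔ (H ⊓ N) = H := by
      have := congrArg (Subgroup.map H.subtype) hK'sup
      rw [Subgroup.map_sup, Subgroup.subgroupOf_map_subtype, ← MonoidHom.range_eq_map,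
        Subgroup.range_subtype] at this
      rw [inf_comm]
      exact this
    rw [eq_top_iff, ← hHN]
    apply sup_le _ le_sup_right
    calc H = K ⊔ (H ⊓ N) := h1.symm
      _ ≤ K ⊔ N := sup_le_sup_left inf_le_right K
  have hKne : K ≠ H := by
    intro h
    apply hK'top
    rw [eq_top_iff]
    intro x _
    have : (x : G) ∈ K := by
      rw [h]
      exact x.2
    obtain ⟨y, hy, hyx⟩ := Subgroup.mem_map.1 this
    have : y = x := Subtype.ext hyx
    exact this ▸ hy
  exact hKne (Subgroup.eq_of_le_of_card_ge hKH (hmin K hKN))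

/-- Let G be a finite group and M ≤ N non-trivial proper normal subgroups such that for every g outside N the conjugacy class of g is a union of cosets of M (equivalently gm is conjugate to g for every m ∈ M). Then (1) and (2) below are equivalent, and they imply (3): (1) every g outside N acts fixed-point-freely on M, that is C_G(x) ≤ N for every x ∈ M, x ≠ 1; (2) the index of N in G is coprime to the order of M; (3) there is a subgroup H of G with HN = G and H ∩ M = 1. -/
theorem result {G : Type*} [Group G] [Finite G] (N M : Subgroup G) [N.Normal] [M.Normal] (hMN : M ≤ N) (hM1 : M ≠ ⊥) (hN2 : N ≠ ⊤)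
    (hcam : ∀ g : G, g ∉ N → ∀ m ∈ M, ∃ x : G, x * g * x⁻¹ = g * m) :
    ((∀ x ∈ M, x ≠ 1 → Subgroup.centralizer ({x} : Set G) ≤ N) ↔ N.index.Coprime (Nat.card M)) ∧
    ((∀ x ∈ M, x ≠ 1 → Subgroup.centralizer ({x} : Set G) ≤ N) → ∃ H : Subgroup G, H ⊔ N = ⊤ ∧ H ⊓ M = ⊥) := by
  exact ⟨⟨part1 N M, part2 N M hcam⟩, fun h => part3 N M (part1 N M h)⟩

end Cfsg.Agent.S4112
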