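import Mathlib
import Cfsg.Statements.S4117
import Cfsg.Agent.Lib.Helper32.ZCoprime
import Cfsg.Agent.Lib.Helper32.Tight
-- import your own Cfsg.Agent.* helpers here

set_option autoImplicit false
open Cfsg
open scoped commutatorElement

namespace Cfsg.Agent.S4117

/-- Let A be a finite group acting on the finite group G by automorphisms with the orders of A and G coprime, and suppose every Sylow subgroup of G is cyclic. Then the fixed-point subgroup C_G(A) is a Hall subgroup of G (its order is coprime to its index), the subgroup [G, A] generated by the elements g⁻¹·a(g) is cyclic and normal with [G, A] ∩ C_G(A) = 1 and [G, A]·C_G(A) = G. -/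
theorem result {G A : Type*} [Group G] [Finite G] [Group A] [Finite A]
    [MulDistribMulAction A G] (hcop : (Nat.card A).Coprime (Nat.card G))
    (hcyc : ∀ (p : ℕ) [Fact p.Prime] (P : Sylow p G), IsCyclic (P : Subgroup G)) :
    (Nat.card (MulAction.fixedPoints A G : Set G)).Coprime (Nat.card G / Nat.card (MulAction.fixedPoints A G : Set G)) ∧
    IsCyclic (Subgroup.closure {y : G | ∃ (a : A) (g : G), y = g⁻¹ * a • g}) ∧
    (Subgroup.closure {y : G | ∃ (a : A) (g : G), y = g⁻¹ * a • g}).Normal ∧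
    (Subgroup.closure {y : G | ∃ (a : A) (g : G), y = g⁻¹ * a • g} : Set G) ∩ MulAction.fixedPoints A G = {1} ∧
    Subgroup.closure {y : G | ∃ (a : A) (g : G), y = g⁻¹ * a • g} ⊔ Subgroup.closure (MulAction.fixedPoints A G) = ⊤ := by
  classical
  have hZ : IsZGroup G := ⟨fun p hp P => by have := Fact.mk hp; exact hcyc p P⟩
  -- the semidirect product
  let φ : A →* MulAut G := MulDistribMulAction.toMulAut A G
  let ι : G →* G ⋊[φ] A := SemidirectProduct.inl
  let ρ : A →* G ⋊[φ] A := SemidirectProduct.inr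
  have hι : Function.Injective ι := SemidirectProduct.inl_injective
  have hρ : Function.Injective ρ := SemidirectProduct.inr_injective
  have hfin : Finite (G ⋊[φ] A) := Finite.of_equiv _ SemidirectProduct.equivProd.symm
  have hconj : ∀ (a : A) (g : G), ρ a * ι g * (ρ a)⁻¹ = ι (a • g) := by
    intro a g
    rw [← map_inv]
    exact (SemidirectProduct.inl_aut (φ := φ) a g).symm
  set Gi : Subgroup (G ⋊[φ] A) := ι.range with hGi
  set Ai : Subgroup (G ⋊[φ] A) := ρ.range with hAi
  have hGin : Gi.Normal := by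
    rw [hGi]
    have : ι.range = (SemidirectProduct.rightHom (φ := φ)).ker :=
      SemidirectProduct.range_inl_eq_ker_rightHom
    rw [this]
    infer_instance
  have hAG : Ai ≤ Subgroup.normalizer (Gi : Set (G ⋊[φ] A)) := by
    rw [Subgroup.normalizer_eq_top]; exact le_top
  have hcardA : Nat.card Ai = Nat.card A :=
    (Nat.card_congr (MonoidHom.ofInjective hρ).toEquiv).symm
  have hcardG : Nat.card Gi = Nat.card G :=
    (Nat.card_congr (MonoidHom.ofInjective hι).toEquiv).symm
  have hcop' : (Nat.card Ai).Coprime (Nat.card Gi) := by rw [hcardA, hcardG]; exact hcop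
  have hZi : IsZGroup Gi :=
    IsZGroup.of_injective (f := (MonoidHom.ofInjective hι).symm.toMonoidHom)
      (MonoidHom.ofInjective hι).symm.injective
  obtain ⟨hKG, hGK, hKcyc, hinf, hsup, hcopKC⟩ :=
    Cfsg.Agent.Lib.Helper32.zgroup_coprime Ai Gi hAG hcop'
  -- external objects
  set S : Set G := {y : G | ∃ (a : A) (g : G), y = g⁻¹ * a • g} with hS
  set Ke : Subgroup G := Subgroup.closure S with hKe
  set Fe : Subgroup G := FixedPoints.subgroup A G with hFe
  have hFcoe : (Fe : Set G) = MulAction.fixedPoints A G := rfl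
  -- (T1)
  have hT1 : Ke.map ι = ⁅Gi, Ai⁆ := by
    apply le_antisymm
    · rw [Subgroup.map_le_iff_le_comap, hKe, Subgroup.closure_le]
      rintro y ⟨a, g, rfl⟩
      show ι (g⁻¹ * a • g) ∈ ⁅Gi, Ai⁆
      have h1 : ι (g⁻¹ * a • g) = ⁅ι g⁻¹, ρ a⁆ := by
        rw [commutatorElement_def, map_mul, ← hconj]
        simp only [map_inv, inv_inv]
        group
      rw [h1]
      exact Subgroup.commutator_mem_commutator ⟨g⁻¹, rfl⟩ ⟨a, rfl⟩
    · rw [Subgroup.commutator_le]
      rintro _ ⟨g, rfl⟩ _ ⟨a, rfl⟩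
      have h1 : ⁅ι g, ρ a⁆ = ι ((g⁻¹)⁻¹ * a • g⁻¹) := by
        rw [commutatorElement_def, map_mul, ← hconj]
        simp only [map_inv, inv_inv]
        group
      rw [h1]
      exact ⟨_, Subgroup.subset_closure ⟨a, g⁻¹, rfl⟩, rfl⟩
  -- (T2)
  have hT2 : Fe.map ι = Gi ⊓ Subgroup.centralizer (Ai : Set (G ⋊[φ] A)) := by
    apply le_antisymm
    · rintro _ ⟨g, hg, rfl⟩
      refine Subgroup.mem_inf.mpr ⟨⟨g, rfl⟩, ?_⟩
      rw [Subgroup.mem_centralizer_iff]
      rintro _ ⟨a, rfl⟩
      have h1 := hconj a g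
      have hg' : a • g = g := hg a
      rw [hg'] at h1
      calc ρ a * ι g = ρ a * ι g * (ρ a)⁻¹ * ρ a := by group
        _ = ι g * ρ a := by rw [h1]
    · intro x hx0
      obtain ⟨⟨g, rfl⟩, hx⟩ := Subgroup.mem_inf.mp hx0
      refine ⟨g, ?_, rfl⟩
      show ∀ m : A, m • g = g
      intro a
      apply hι
      rw [← hconj]
      have h1 := (Subgroup.mem_centralizer_iff.mp hx) (ρ a) ⟨a, rfl⟩
      calc ρ a * ι g * (ρ a)⁻¹ = ι g * ρ a * (ρ a)⁻¹ := by rw [h1]
        _ = ι g := by group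
  -- cardinalities
  have hcK : Nat.card Ke = Nat.card (⁅Gi, Ai⁆ : Subgroup (G ⋊[φ] A)) := by
    rw [← hT1]
    exact Nat.card_congr (Subgroup.equivMapOfInjective Ke ι hι).toEquiv
  have hcF : Nat.card Fe =
      Nat.card (Gi ⊓ Subgroup.centralizer (Ai : Set (G ⋊[φ] A)) : Subgroup (G ⋊[φ] A)) := by
    rw [← hT2]
    exact Nat.card_congr (Subgroup.equivMapOfInjective Fe ι hι).toEquiv
  have hcardprod : Nat.card G = Nat.card Ke * Nat.card Fe := by
    rw [← hcardG, hcK, hcF]
    have h1 := Cfsg.Agent.Lib.Helper32.card_sup_of_le_normalizer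
      (A := (⁅Gi, Ai⁆ : Subgroup (G ⋊[φ] A)))
      (T := Gi ⊓ Subgroup.centralizer (Ai : Set (G ⋊[φ] A)))
      (inf_le_left.trans hGK) (by
        rw [← inf_assoc, inf_eq_left.mpr hKG]; exact hinf)
    rw [hsup] at h1
    exact h1
  have hFpos : 0 < Nat.card Fe := Nat.card_pos
  refine ⟨?_, ?_, ?_, ?_, ?_⟩
  · -- Hall
    have h1 : Nat.card (MulAction.fixedPoints A G : Set G) = Nat.card Fe := rfl
    rw [h1, hcardprod, Nat.mul_div_cancel _ hFpos, hcK, hcF]
    exact hcopKC.symm
  · -- cyclic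
    have f := Subgroup.equivMapOfInjective Ke ι hι
    rw [hT1] at f
    exact isCyclic_of_surjective f.symm f.symm.surjective
  · -- normal
    refine ⟨fun n hn g => ?_⟩
    rw [← Subgroup.mem_map_iff_mem hι, hT1, map_mul, map_mul, map_inv]
    have hn' : ι n ∈ ⁅Gi, Ai⁆ := by rw [← hT1]; exact ⟨n, hn, rfl⟩
    exact (Subgroup.mem_normalizer_iff.mp (hGK ⟨g, rfl⟩) (ι n)).1 hn'
  · -- trivial intersection
    ext x
    simp only [Set.mem_inter_iff, Set.mem_singleton_iff, SetLike.mem_coe]
    constructor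
    · rintro ⟨hx1, hx2⟩
      have h1 : ι x ∈ (⁅Gi, Ai⁆ : Subgroup (G ⋊[φ] A)) ⊓
          Subgroup.centralizer (Ai : Set (G ⋊[φ] A)) := by
        refine ⟨by rw [← hT1]; exact ⟨x, hx1, rfl⟩, ?_⟩
        have h2 : ι x ∈ Fe.map ι := ⟨x, hx2, rfl⟩
        rw [hT2] at h2
        exact h2.2
      rw [hinf, Subgroup.mem_bot] at h1
      exact hι (by rw [h1, map_one])
    · rintro rfl
      exact ⟨Ke.one_mem, Fe.one_mem⟩
  · -- join
    have h1 : Subgroup.closure (MulAction.fixedPoints A G : Set G) = Fe := by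
      rw [← hFcoe]; exact Subgroup.closure_eq Fe
    rw [h1]
    apply Subgroup.map_injective hι
    rw [Subgroup.map_sup, hT1, hT2, hsup, ← MonoidHom.range_eq_map]

end Cfsg.Agent.S4117
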