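import Mathlib
import Cfsg.Agent.Lib.Helper54.OmegaComplement
import Cfsg.Agent.Lib.Helper24.ClassTwo
import Cfsg.Agent.S0101
import Cfsg.Agent.S0094

set_option autoImplicit false
open Cfsg

namespace Cfsg.Agent.S4126

open scoped commutatorElement

/-- `G = P * C` when `C` has `p`-power index and `P` is a Sylow `p`-subgroup. -/
theorem exists_mul_of_index_pow {G : Type*} [Group G] [Finite G] {p : ℕ} [Fact p.Prime]
    (C : Subgroup G) {a : ℕ} (hC : C.index = p ^ a) (P : Sylow p G) (g : G) :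
    ∃ u ∈ (P : Subgroup G), ∃ c ∈ C, g = u * c := by
  have hp : p.Prime := Fact.out
  have h1 : (C ⊓ (P : Subgroup G)).relIndex C * C.index =
      (C ⊓ (P : Subgroup G)).relIndex P * (P : Subgroup G).index := by
    rw [Subgroup.relIndex_mul_index inf_le_left, Subgroup.relIndex_mul_index inf_le_right]
  rw [Subgroup.inf_relIndex_right, hC] at h1
  have hcop : (p ^ a).Coprime (P : Subgroup G).index :=
    Nat.Coprime.pow_left a ((Nat.Prime.coprime_iff_not_dvd hp).mpr P.not_dvd_index)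
  have h2 : p ^ a ∣ C.relIndex (P : Subgroup G) :=
    hcop.dvd_of_dvd_mul_right (Dvd.intro_left _ h1)
  have h3 : C.relIndex (P : Subgroup G) ≤ C.index := by
    have := Subgroup.relIndex_le_of_le_right (H := C) (le_top : (P : Subgroup G) ≤ ⊤)
      (by rw [Subgroup.relIndex_top_right]; exact Subgroup.index_ne_zero_of_finite)
    rwa [Subgroup.relIndex_top_right] at this
  have h4 : Nat.card (G ⧸ C) ≤ Nat.card (↥(P : Subgroup G) ⧸ C.subgroupOf (P : Subgroup G)) := by
    have e1 : C.relIndex (P : Subgroup G) = p ^ a :=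
      le_antisymm (hC ▸ h3) (Nat.le_of_dvd (Nat.pos_of_ne_zero (fun h0 => by
        rw [h0, zero_mul] at h1
        have h6 := (mul_eq_zero.mp h1).resolve_right (pow_pos hp.pos a).ne'
        have h7 : (C ⊓ (P : Subgroup G)).relIndex C ≠ 0 := by
          rw [Subgroup.inf_relIndex_left]
          exact Subgroup.index_ne_zero_of_finite
        exact h7 h6)) h2)
    have e2 : Nat.card (G ⧸ C) = p ^ a := hC
    have e3 : Nat.card (↥(P : Subgroup G) ⧸ C.subgroupOf (P : Subgroup G)) = p ^ a := e1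
    rw [e2, e3]
  let f : (↥(P : Subgroup G) ⧸ C.subgroupOf (P : Subgroup G)) → G ⧸ C :=
    Quotient.map' (fun u => (u : G)) (by
      intro x y h
      rw [QuotientGroup.leftRel_apply] at h ⊢
      exact h)
  have hf : Function.Injective f := by
    intro x y
    refine Quotient.inductionOn₂' x y ?_
    intro u v h
    have h' : ((u : G) : G ⧸ C) = ((v : G) : G ⧸ C) := h
    rw [QuotientGroup.eq] at h'
    exact QuotientGroup.eq.mpr h'
  have hb := hf.bijective_of_nat_card_le h4
  obtain ⟨q, hq⟩ := hb.2 (g : G ⧸ C)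
  obtain ⟨u, rfl⟩ := QuotientGroup.mk_surjective q
  have hq' : ((u : G) : G ⧸ C) = (g : G ⧸ C) := hq
  rw [QuotientGroup.eq] at hq'
  exact ⟨u, u.2, _, hq', by group⟩

/-- Wielandt: a `p`-element with `p`-power class size has a `p`-group as normal closure. -/
theorem normalClosure_le_sylow {G : Type*} [Group G] [Finite G] {p : ℕ} [Fact p.Prime]
    (x : G) {a : ℕ} (hx : (Subgroup.centralizer ({x} : Set G)).index = p ^ a) (P : Sylow p G)
    (hxP : x ∈ (P : Subgroup G)) : Subgroup.normalClosure ({x} : Set G) ≤ P := by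
  rw [Subgroup.normalClosure, Subgroup.closure_le]
  intro y hy
  rw [Group.mem_conjugatesOfSet_iff] at hy
  obtain ⟨z, hz, hzy⟩ := hy
  rw [Set.mem_singleton_iff] at hz
  subst hz
  obtain ⟨g, rfl⟩ := isConj_iff.mp hzy
  obtain ⟨u, hu, c, hc, rfl⟩ := exists_mul_of_index_pow _ hx P g
  have hcz : c * z = z * c := by
    rw [Subgroup.mem_centralizer_iff] at hc
    exact (hc z rfl).symm
  have e : u * c * z * (u * c)⁻¹ = u * z * u⁻¹ := by
    rw [mul_assoc u c z, hcz]; group
  rw [SetLike.mem_coe, e]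
  exact (P : Subgroup G).mul_mem ((P : Subgroup G).mul_mem hu hxP) ((P : Subgroup G).inv_mem hu)

/-- The stability step. -/
theorem conj_eq_of_comm {G : Type*} [Group G] {p : ℕ} {D : Subgroup G} (hD : IsPGroup p D)
    [hDn : D.Normal] {y d : G} (hy : (orderOf y).Coprime p) (hd : d ∈ D)
    (hcomm : y * (d⁻¹ * (y * d * y⁻¹)) * y⁻¹ = d⁻¹ * (y * d * y⁻¹)) : y * d * y⁻¹ = d := by
  have hzD : d⁻¹ * (y * d * y⁻¹) ∈ D := D.mul_mem (D.inv_mem hd) (hDn.conj_mem d hd y)
  obtain ⟨k, hk⟩ := hD ⟨_, hzD⟩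
  have hk' : (d⁻¹ * (y * d * y⁻¹)) ^ p ^ k = 1 := by
    have := congrArg Subtype.val hk
    simpa using this
  have e1 : y * d * y⁻¹ = d * (d⁻¹ * (y * d * y⁻¹)) := by group
  have e2 : y * (d⁻¹ * (y * d * y⁻¹)) = (d⁻¹ * (y * d * y⁻¹)) * y :=
    mul_inv_eq_iff_eq_mul.mp hcomm
  have hz1 := Cfsg.Agent.Lib.Helper54.eq_one_of_conj_eq_mul e1 e2 hk' (Nat.Coprime.pow_right k hy)
  rw [e1, hz1, mul_one]

/-- A normal `p`-subgroup all of whose elements have `p`-power class size is centralized by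
all `p'`-elements. -/
theorem conj_eq_of_index_pow {G : Type*} [Group G] [Finite G] {p : ℕ} [Fact p.Prime]
    (D : Subgroup G) [hDn : D.Normal] (hD : IsPGroup p D)
    (h : ∀ d ∈ D, ∃ a : ℕ, (Subgroup.centralizer ({d} : Set G)).index = p ^ a) :
    ∀ y : G, (orderOf y).Coprime p → ∀ d ∈ D, y * d * y⁻¹ = d := by
  obtain ⟨P, hDP⟩ := hD.exists_le_sylow
  have hnil : Group.IsNilpotent (P : Subgroup G) := P.2.isNilpotent
  obtain ⟨n, hn⟩ := hnil.nilpotent
  have key : ∀ i : ℕ, ∀ d (hd : d ∈ D), (⟨d, hDP hd⟩ : (P : Subgroup G)) ∈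
      Subgroup.upperCentralSeries (P : Subgroup G) i →
      ∀ y : G, (orderOf y).Coprime p → y * d * y⁻¹ = d := by
    intro i
    induction i with
    | zero =>
      intro d hd hmem y hy
      rw [Subgroup.upperCentralSeries_zero, Subgroup.mem_bot] at hmem
      have hd1 : d = 1 := congrArg Subtype.val hmem
      subst hd1
      simp
    | succ i ih =>
      intro d hd hmem y hy
      obtain ⟨a, ha⟩ := h d hd
      obtain ⟨u, hu, c, hc, hyuc⟩ := exists_mul_of_index_pow _ ha P y
      have hcd : c * d = d * c := by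
        rw [Subgroup.mem_centralizer_iff] at hc
        exact (hc d rfl).symm
      have hconj : y * d * y⁻¹ = u * d * u⁻¹ := by
        rw [hyuc, mul_assoc u c d, hcd]; group
      have hzD : d⁻¹ * (y * d * y⁻¹) ∈ D := D.mul_mem (D.inv_mem hd) (hDn.conj_mem d hd y)
      have hzZ : (⟨d⁻¹ * (y * d * y⁻¹), hDP hzD⟩ : (P : Subgroup G)) ∈
          Subgroup.upperCentralSeries (P : Subgroup G) i := by
        have hinv := (Subgroup.upperCentralSeries (P : Subgroup G) (i + 1)).inv_mem hmem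
        rw [Subgroup.mem_upperCentralSeries_succ_iff] at hinv
        have h5 := hinv ⟨u, hu⟩
        rw [commutatorElement_def] at h5
        have e : (⟨d⁻¹ * (y * d * y⁻¹), hDP hzD⟩ : (P : Subgroup G)) =
            (⟨d, hDP hd⟩ : (P : Subgroup G))⁻¹ * ⟨u, hu⟩ *
              ((⟨d, hDP hd⟩ : (P : Subgroup G))⁻¹)⁻¹ * (⟨u, hu⟩ : (P : Subgroup G))⁻¹ := by
          apply Subtype.ext
          simp only [Subgroup.coe_mul, Subgroup.coe_inv, inv_inv]
          rw [hconj]; group
        rw [e]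
        exact h5
      apply conj_eq_of_comm hD hy hd
      exact ih _ hzD hzZ y hy
  intro y hy d hd
  exact key n d hd (by rw [hn]; trivial) y hy

/-- The main induction: `p'`-elements centralize every normal `p`-subgroup. -/
theorem conj_eq_of_normal {G : Type*} [Group G] [Finite G] (p : ℕ) [Fact p.Prime]
    (j : ℕ) (hj : 1 ≤ j) (he : p ∣ p ^ j * (p ^ j - 1) / 2)
    (h : ∀ x : G, x ^ p ^ j = 1 →
      ∃ a : ℕ, (Subgroup.centralizer ({x} : Set G)).index = p ^ a) :
    ∀ (n : ℕ) (D : Subgroup G), D.Normal → IsPGroup p D → Nat.card D = n →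
      ∀ y : G, (orderOf y).Coprime p → ∀ d ∈ D, y * d * y⁻¹ = d := by
  intro n
  induction n using Nat.strong_induction_on with
  | _ n ih =>
  intro D hDn hD hcard
  have hp : p.Prime := Fact.out
  have ih' : ∀ D0 : Subgroup G, D0.Normal → D0 ≤ D → D0 ≠ D →
      ∀ y : G, (orderOf y).Coprime p → ∀ d ∈ D0, y * d * y⁻¹ = d := by
    intro D0 hD0n hle hne
    have hlt : D0 < D := lt_of_le_of_ne hle hne
    have hc : Nat.card D0 < n := by
      rw [← hcard]; exact Cfsg.Agent.Lib.Helper54.card_lt_card_of_lt hlt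
    exact ih _ hc D0 hD0n (hD.to_le hle) rfl
  by_cases hbot : D = ⊥
  · intro y hy d hd
    rw [hbot, Subgroup.mem_bot] at hd
    subst hd
    simp
  let K : Subgroup G := Subgroup.normalClosure {y : G | (orderOf y).Coprime p}
  have hKmem : ∀ y : G, (orderOf y).Coprime p → y ∈ K := fun y hy =>
    Subgroup.subset_normalClosure hy
  have hKn : K.Normal := Subgroup.normalClosure_normal
  -- Step (a)
  by_cases hT : ⁅D, K⁆ = D
  swap
  · intro y hy d hd
    have hTn : (⁅D, K⁆ : Subgroup G).Normal := inferInstance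
    have hTle : ⁅D, K⁆ ≤ D := Subgroup.commutator_le_left D K
    have hcent := ih' _ hTn hTle hT
    apply conj_eq_of_comm hD hy hd
    apply hcent y hy
    have hm : ⁅d⁻¹, y⁆ ∈ ⁅D, K⁆ :=
      Subgroup.commutator_mem_commutator (D.inv_mem hd) (hKmem y hy)
    have e : d⁻¹ * (y * d * y⁻¹) = ⁅d⁻¹, y⁆ := by
      rw [commutatorElement_def]; group
    rw [e]; exact hm
  -- Step (b)
  have hD' : IsPGroup p (↥D) := hD
  let F : Subgroup G := (frattini ↥D).map D.subtype
  have hFn : F.Normal := ConjAct.normal_of_characteristic_of_normal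
  have hFle : F ≤ D := Subgroup.map_subtype_le _
  have hFne : F ≠ D := by
    intro hFD
    have hnt : Nontrivial ↥D := (Subgroup.nontrivial_iff_ne_bot D).mpr hbot
    rcases eq_top_or_exists_le_coatom (⊥ : Subgroup ↥D) with h0 | ⟨M, hM, -⟩
    · exact bot_ne_top h0
    · have hle : frattini ↥D ≤ M := frattini_le_coatom hM
      apply hM.1
      rw [eq_top_iff]
      intro w _
      have hw : (w : G) ∈ F := by rw [hFD]; exact w.2
      obtain ⟨w', hw', hww⟩ := hw
      have : w' = w := Subtype.ext hww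
      rw [← this]; exact hle hw'
  have hFcent := ih' F hFn hFle hFne
  have hKF : ⁅K, F⁆ = ⊥ := by
    rw [Subgroup.commutator_eq_bot_iff_le_centralizer]
    apply Subgroup.normalClosure_le_normal
    intro y hy
    rw [SetLike.mem_coe, Subgroup.mem_centralizer_iff]
    intro f hf
    have := hFcent y hy f hf
    calc f * y = (y * f * y⁻¹) * y := by rw [this]
      _ = y * f := by group
  have hDF : ⁅D, F⁆ = ⊥ := by
    have h1 : ⁅⁅K, F⁆, D⁆ = ⊥ := by rw [hKF]; exact Subgroup.commutator_bot_left D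
    have h2 : ⁅⁅F, D⁆, K⁆ = ⊥ := by
      have hle : ⁅⁅F, D⁆, K⁆ ≤ ⁅F, K⁆ :=
        Subgroup.commutator_mono (Subgroup.commutator_le_left F D) le_rfl
      rw [Subgroup.commutator_comm F K, hKF] at hle
      exact le_bot_iff.mp hle
    have h3 := Subgroup.commutator_commutator_eq_bot_of_rotate h1 h2
    rwa [hT] at h3
  have hcommDF : ∀ d ∈ D, ∀ f ∈ F, Commute d f := by
    intro d hd f hf
    have hm : ⁅d, f⁆ ∈ ⁅D, F⁆ := Subgroup.commutator_mem_commutator hd hf
    rw [hDF, Subgroup.mem_bot] at hm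
    exact commutatorElement_eq_one_iff_commute.mp hm
  have hcommF : ∀ a ∈ D, ∀ b ∈ D, ⁅a, b⁆ ∈ F := by
    intro a ha b hb
    have hm : ⁅(⟨a, ha⟩ : ↥D), ⟨b, hb⟩⁆ ∈ commutator ↥D := by
      rw [commutator_def]
      exact Subgroup.commutator_mem_commutator (Subgroup.mem_top _) (Subgroup.mem_top _)
    exact ⟨_, Cfsg.Agent.S0101.commutator_le_frattini hD' hm, by simp [commutatorElement_def]⟩
  have hpowF : ∀ a ∈ D, a ^ p ∈ F := by
    intro a ha
    exact ⟨_, Cfsg.Agent.S0094.pow_mem_frattini hD' ⟨a, ha⟩, by simp⟩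
  have hpowjF : ∀ a ∈ D, a ^ p ^ j ∈ F := by
    intro a ha
    obtain ⟨j', rfl⟩ : ∃ j', j = j' + 1 := ⟨j - 1, by omega⟩
    rw [pow_succ', pow_mul]
    exact F.pow_mem (hpowF a ha) _
  -- Step (c): the power formula
  have hmulpow : ∀ a ∈ D, ∀ b ∈ D, (a * b) ^ p ^ j = a ^ p ^ j * b ^ p ^ j := by
    intro a ha b hb
    have hcF : ⁅b⁻¹, a⁻¹⁆ ∈ F := hcommF _ (D.inv_mem hb) _ (D.inv_mem ha)
    have hc : b * a = a * b * ⁅b⁻¹, a⁻¹⁆ := by
      rw [commutatorElement_def]; group
    have hca : Commute ⁅b⁻¹, a⁻¹⁆ a := (hcommDF a ha _ hcF).symm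
    have hcb : Commute ⁅b⁻¹, a⁻¹⁆ b := (hcommDF b hb _ hcF).symm
    have hcp : ⁅b⁻¹, a⁻¹⁆ ^ p = 1 := by
      have hcb' : Commute ⁅b⁻¹, a⁻¹⁆ b⁻¹ := (hcommDF _ (D.inv_mem hb) _ hcF).symm
      rw [← Cfsg.Agent.Lib.Helper24.commutatorElement_pow_left_of_commute _ _ hcb' p]
      rw [commutatorElement_eq_one_iff_commute]
      exact (hcommDF _ (D.inv_mem ha) _ (hpowF _ (D.inv_mem hb))).symm
    have h5 := Cfsg.Agent.Lib.Helper24.mul_pow_of_central a b _ hc hca hcb (p ^ j)
    obtain ⟨t, ht⟩ := he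
    rw [h5, ht, pow_mul, hcp, one_pow, mul_one]
  let E : Subgroup G :=
    { carrier := {d | d ∈ D ∧ d ^ p ^ j = 1}
      mul_mem' := by
        intro a b ha hb
        refine ⟨D.mul_mem ha.1 hb.1, ?_⟩
        rw [hmulpow a ha.1 b hb.1, ha.2, hb.2, mul_one]
      one_mem' := ⟨D.one_mem, one_pow _⟩
      inv_mem' := by
        intro a ha
        refine ⟨D.inv_mem ha.1, ?_⟩
        rw [inv_pow, ha.2, inv_one] }
  have hEmem : ∀ d, d ∈ E ↔ d ∈ D ∧ d ^ p ^ j = 1 := fun d => Iff.rfl
  have hEn : E.Normal := by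
    constructor
    intro d hd g
    rw [hEmem] at hd ⊢
    refine ⟨hDn.conj_mem d hd.1 g, ?_⟩
    rw [conj_pow, hd.2]; group
  have hEle : E ≤ D := fun d hd => hd.1
  by_cases hE : E = D
  · -- all elements of `D` have small order
    have hall : ∀ d ∈ D, ∃ a : ℕ, (Subgroup.centralizer ({d} : Set G)).index = p ^ a := by
      intro d hd
      have hdE : d ∈ E := by rw [hE]; exact hd
      exact h d hdE.2
    exact conj_eq_of_index_pow D hD hall
  · intro y hy d hd
    have hcent := ih' E hEn hEle hE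
    apply conj_eq_of_comm hD hy hd
    apply hcent y hy
    rw [hEmem]
    have hyd : y * d * y⁻¹ ∈ D := hDn.conj_mem d hd y
    refine ⟨D.mul_mem (D.inv_mem hd) hyd, ?_⟩
    rw [hmulpow _ (D.inv_mem hd) _ hyd, conj_pow, hFcent y hy _ (hpowjF d hd), inv_pow,
      inv_mul_cancel]

/-- Let G be a finite group and p a prime. Suppose every element of order p, and when p = 2 also every element of order 4, has a conjugacy class of p-power size. Then G has a normal p-complement. -/
theorem result {G : Type*} [Group G] [Finite G] (p : ℕ) [Fact p.Prime]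
    (h : ∀ x : G, (orderOf x = p ∨ (p = 2 ∧ orderOf x = 4)) → ∃ a : ℕ, (Subgroup.centralizer ({x} : Set G)).index = p ^ a) :
    Cfsg.HasNormalPComplement p G := by
  have hp : p.Prime := Fact.out
  obtain ⟨j, hj, he, hord⟩ : ∃ j : ℕ, 1 ≤ j ∧ p ∣ p ^ j * (p ^ j - 1) / 2 ∧
      ∀ x : G, x ^ p ^ j = 1 → x ≠ 1 → (orderOf x = p ∨ (p = 2 ∧ orderOf x = 4)) := by
    by_cases hp2 : p = 2
    · refine ⟨2, by norm_num, ?_, ?_⟩
      · rw [hp2]; exact Cfsg.Agent.Lib.Helper54.omega_exponent_two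
      · intro x hx hx1
        have hdvd := orderOf_dvd_of_pow_eq_one hx
        obtain ⟨k, hk, hk2⟩ := (Nat.dvd_prime_pow hp).mp hdvd
        have hk0 : k ≠ 0 := by
          intro h0
          rw [h0, pow_zero, orderOf_eq_one_iff] at hk2
          exact hx1 hk2
        have hk12 : k = 1 ∨ k = 2 := by omega
        rcases hk12 with rfl | rfl
        · left; rw [hk2, pow_one]
        · right; exact ⟨hp2, by rw [hk2, hp2]; norm_num⟩
    · refine ⟨1, le_rfl, Cfsg.Agent.Lib.Helper54.omega_exponent_odd hp hp2, ?_⟩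
      intro x hx hx1
      left
      rw [pow_one] at hx
      exact orderOf_eq_prime hx hx1
  have h' : ∀ x : G, x ^ p ^ j = 1 →
      ∃ a : ℕ, (Subgroup.centralizer ({x} : Set G)).index = p ^ a := by
    intro x hx
    by_cases hx1 : x = 1
    · refine ⟨0, ?_⟩
      subst hx1
      rw [pow_zero, Subgroup.index_eq_one, eq_top_iff]
      intro g _
      rw [Subgroup.mem_centralizer_iff]
      intro z hz
      rw [Set.mem_singleton_iff] at hz
      subst hz
      simp
    · exact h x (hord x hx hx1)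
  rw [Cfsg.Agent.Lib.Helper54.hasNormalPComplement_iff_frobeniusCondition]
  apply Cfsg.Agent.Lib.Helper54.frobeniusCondition_of_fix_omega j hj he
  intro Q hQ g _ hg x hxQ hx
  obtain ⟨a, ha⟩ := h' x hx
  obtain ⟨P, hQP⟩ := hQ.exists_le_sylow
  have hle := normalClosure_le_sylow x ha P (hQP hxQ)
  have hNp : IsPGroup p (Subgroup.normalClosure ({x} : Set G)) := P.2.to_le hle
  exact conj_eq_of_normal p j hj he h' _ _ Subgroup.normalClosure_normal hNp rfl g hg x
    (Subgroup.subset_normalClosure rfl)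

end Cfsg.Agent.S4126
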