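import Cfsg.Statements.S4142
import Cfsg.Agent.Lib.Helper69.SmallClasses

set_option autoImplicit false
open Cfsg

namespace Cfsg.Agent.S4142

open Cfsg.Agent.Lib.Helper69 Subgroup

/-- The conjugacy class of `g`, as the range of conjugation, has `[G : C_G(g)]` elements. -/
theorem class_card {G : Type*} [Group G] [Finite G] (g : G) :
    Nat.card (Set.range (fun x : G => x * g * x⁻¹)) = (centralizer ({g} : Set G)).index := by
  apply le_antisymm
  · apply card_le_index_of_map (centralizer ({g} : Set G))
      (fun u : Set.range (fun x : G => x * g * x⁻¹) => u.2.choose)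
    intro a b hab
    have ha := a.2.choose_spec
    have hb := b.2.choose_spec
    rw [mem_centralizer_singleton_iff] at hab
    apply Subtype.ext
    rw [← ha, ← hb]
    simp only at ha hb ⊢
    set x := a.2.choose
    set y := b.2.choose
    calc x * g * x⁻¹ = x * (g * (x⁻¹ * y)) * y⁻¹ := by group
      _ = x * ((x⁻¹ * y) * g) * y⁻¹ := by rw [hab]
      _ = y * g * y⁻¹ := by group
  · apply index_le_card_of_map (centralizer ({g} : Set G))
      (fun x : G => (⟨x * g * x⁻¹, x, rfl⟩ : Set.range (fun x : G => x * g * x⁻¹)))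
    intro a b hab
    have h1 : a * g * a⁻¹ = b * g * b⁻¹ := congrArg Subtype.val hab
    rw [mem_centralizer_singleton_iff]
    calc a⁻¹ * b * g = a⁻¹ * (b * g * b⁻¹) * b := by group
      _ = a⁻¹ * (a * g * a⁻¹) * b := by rw [h1]
      _ = g * (a⁻¹ * b) := by group

theorem camina_iff {G : Type*} [Group G] [Finite G] (N : Subgroup G) [hN : N.Normal] (g : G) :
    (∀ n ∈ N, ∃ x : G, x * g * x⁻¹ = g * n) ↔
      Nat.card (centralizer ({g} : Set G)) =
        Nat.card (centralizer ({(QuotientGroup.mk g : G ⧸ N)} : Set (G ⧸ N))) := by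
  classical
  let A : Set G := Set.range (fun x : G => x * g * x⁻¹)
  let Abar : Set (G ⧸ N) :=
    Set.range (fun x : G ⧸ N => x * (QuotientGroup.mk g : G ⧸ N) * x⁻¹)
  let B : Set G := QuotientGroup.mk ⁻¹' Abar
  have hAB : A ⊆ B := by
    rintro _ ⟨x, rfl⟩
    exact ⟨QuotientGroup.mk x, by simp⟩
  have hA : Nat.card A = (centralizer ({g} : Set G)).index := class_card g
  have hAbar : Nat.card Abar =
      (centralizer ({(QuotientGroup.mk g : G ⧸ N)} : Set (G ⧸ N))).index := class_card _
  have hB : Nat.card B = Nat.card N * Nat.card Abar := QuotientGroup.card_preimage_mk N Abar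
  have e1 : Nat.card (centralizer ({g} : Set G)) * Nat.card A = Nat.card G := by
    rw [hA]; exact card_mul_index _
  have e2 : Nat.card (centralizer ({(QuotientGroup.mk g : G ⧸ N)} : Set (G ⧸ N))) * Nat.card B
      = Nat.card G := by
    have h3 : Nat.card (centralizer ({(QuotientGroup.mk g : G ⧸ N)} : Set (G ⧸ N))) *
        (centralizer ({(QuotientGroup.mk g : G ⧸ N)} : Set (G ⧸ N))).index = Nat.card (G ⧸ N) :=
      card_mul_index _
    have h4 : Nat.card N * N.index = Nat.card G := N.card_mul_index
    have h5 : N.index = Nat.card (G ⧸ N) := Subgroup.index_eq_card N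
    rw [hB, hAbar, ← h4, h5, ← h3]
    ring
  have hgB : g ∈ B := hAB ⟨1, by simp⟩
  have hBpos : 0 < Nat.card B := by
    have : Nonempty B := ⟨⟨g, hgB⟩⟩
    exact Nat.card_pos
  constructor
  · intro h
    have hBA : B ⊆ A := by
      intro y hy
      obtain ⟨xbar, hx⟩ := hy
      obtain ⟨x, rfl⟩ := QuotientGroup.mk_surjective xbar
      have h1 : (x * g * x⁻¹)⁻¹ * y ∈ N := QuotientGroup.eq.mp (by simpa using hx)
      have h2 : x⁻¹ * ((x * g * x⁻¹)⁻¹ * y) * x ∈ N := by
        have := hN.conj_mem _ h1 x⁻¹
        simpa using this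
      obtain ⟨z, hz⟩ := h _ h2
      refine ⟨x * z, ?_⟩
      calc x * z * g * (x * z)⁻¹ = x * (z * g * z⁻¹) * x⁻¹ := by group
        _ = x * (g * (x⁻¹ * ((x * g * x⁻¹)⁻¹ * y) * x)) * x⁻¹ := by rw [hz]
        _ = y := by group
    have hEq : A = B := Set.Subset.antisymm hAB hBA
    rw [hEq] at e1
    exact Nat.eq_of_mul_eq_mul_right hBpos (e1.trans e2.symm)
  · intro h n hn
    rw [h] at e1
    have hcard : Nat.card A = Nat.card B :=
      Nat.eq_of_mul_eq_mul_left Nat.card_pos (e1.trans e2.symm)
    have hEq : A = B := by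
      apply Set.eq_of_subset_of_ncard_le hAB _ (Set.toFinite B)
      rw [← Nat.card_coe_set_eq, ← Nat.card_coe_set_eq, hcard]
    have hgn : g * n ∈ B := by
      refine ⟨1, ?_⟩
      simp only [one_mul, inv_one, mul_one]
      exact QuotientGroup.eq.mpr (by simpa using hn)
    rw [← hEq] at hgn
    obtain ⟨x, hx⟩ := hgn
    exact ⟨x, hx⟩

/-- Let G be a finite group and N a normal subgroup. Then the conjugacy class of every element g outside N is a union of cosets of N (gn is conjugate to g for all n ∈ N) if and only if for every g outside N the centralizer of g in G has the same order as the centralizer of gN in G/N. -/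
theorem result {G : Type*} [Group G] [Finite G] (N : Subgroup G) [N.Normal] :
    (∀ g : G, g ∉ N → ∀ n ∈ N, ∃ x : G, x * g * x⁻¹ = g * n) ↔
      ∀ g : G, g ∉ N → Nat.card (Subgroup.centralizer ({g} : Set G)) =
        Nat.card (Subgroup.centralizer ({(QuotientGroup.mk g : G ⧸ N)} : Set (G ⧸ N))) := by
  constructor
  · intro h g hg
    exact (camina_iff N g).mp (h g hg)
  · intro h g hg
    exact (camina_iff N g).mpr (h g hg)

end Cfsg.Agent.S4142
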