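import Mathlib
import Cfsg.Statements.S4145
import Cfsg.Agent.S0082
import Cfsg.Agent.S0086
import Cfsg.Agent.S0104
import Cfsg.Agent.Lib.Helper24.CyclicP

set_option autoImplicit false
open Cfsg
open scoped commutatorElement

namespace Cfsg.Agent.S4145

open Cfsg.Agent.S0104 Cfsg.Agent.Lib.Helper24

/-- Replace an element of `N_H(Q)` by an element of `H ∩ N_G(P₁)` with the same action on `Q`. -/
theorem step3 {G : Type*} [Group G] [Finite G] {p : ℕ} [Fact p.Prime] (P₁ : Sylow p G)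
    (hP₁c : IsMulCommutative (P₁ : Subgroup G)) (H : Subgroup G) [hHn : H.Normal] (Q : Subgroup G)
    (hQP : Q ≤ P₁) (x : G) (hxH : x ∈ H) (hxQ : x ∈ Subgroup.normalizer (Q : Set G)) :
    ∃ n ∈ H, n ∈ Subgroup.normalizer ((P₁ : Subgroup G) : Set G) ∧
      ∀ q ∈ Q, n * q * n⁻¹ = x * q * x⁻¹ := by
  have hcomm : ∀ a ∈ (P₁ : Subgroup G), ∀ b ∈ (P₁ : Subgroup G), a * b = b * a := by
    intro a ha b hb
    have := hP₁c.is_comm.comm (⟨a, ha⟩ : (P₁ : Subgroup G)) ⟨b, hb⟩
    exact congrArg Subtype.val this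
  have hP₁D : (P₁ : Subgroup G) ≤ (H ⊔ (P₁ : Subgroup G)) ⊓ Subgroup.centralizer (Q : Set G) := by
    intro u hu
    refine Subgroup.mem_inf.mpr ⟨Subgroup.mem_sup_right hu, ?_⟩
    rw [Subgroup.mem_centralizer_iff]
    intro q hq
    exact hcomm q (hQP hq) u hu
  have hxP₁D : ((x • P₁ : Sylow p G) : Subgroup G) ≤ (H ⊔ (P₁ : Subgroup G)) ⊓ Subgroup.centralizer (Q : Set G) := by
    intro y hy
    rw [mem_smul_sylow_iff] at hy
    refine Subgroup.mem_inf.mpr ⟨?_, ?_⟩
    · have e : y = (x * ((x⁻¹ * y * x) * x⁻¹ * (x⁻¹ * y * x)⁻¹)) * (x⁻¹ * y * x) := by group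
      rw [e]
      exact Subgroup.mul_mem _ (Subgroup.mem_sup_left (H.mul_mem hxH (hHn.conj_mem x⁻¹ (H.inv_mem hxH) _)))
        (Subgroup.mem_sup_right hy)
    · rw [Subgroup.mem_centralizer_iff]
      intro q hq
      have hq' : x⁻¹ * q * x ∈ Q := by
        have := (Subgroup.mem_normalizer_iff.mp (Subgroup.inv_mem _ hxQ) q).mp hq
        simpa using this
      have h := hcomm _ (hQP hq') _ hy
      calc q * y = x * ((x⁻¹ * q * x) * (x⁻¹ * y * x)) * x⁻¹ := by group
        _ = x * ((x⁻¹ * y * x) * (x⁻¹ * q * x)) * x⁻¹ := by rw [h]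
        _ = y * q := by group
  obtain ⟨d, hd, hdP⟩ := sylow_conj_in_subgroup P₁ (x • P₁) _ hP₁D hxP₁D
  obtain ⟨hd1, hd2⟩ := Subgroup.mem_inf.mp hd
  obtain ⟨h, hh, u, hu, rfl⟩ := Subgroup.mem_sup_of_normal_left.mp hd1
  have huP : u • P₁ = P₁ := Sylow.smul_eq_iff_mem_normalizer.mpr (Subgroup.le_normalizer hu)
  rw [mul_smul, huP] at hdP
  have hhC : h ∈ Subgroup.centralizer (Q : Set G) := by
    have e : h = (h * u) * u⁻¹ := by group
    rw [e]
    exact Subgroup.mul_mem _ hd2 (Subgroup.inv_mem _ (Subgroup.mem_inf.mp (hP₁D hu)).2)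
  refine ⟨h⁻¹ * x, H.mul_mem (H.inv_mem hh) hxH, ?_, ?_⟩
  · refine Sylow.smul_eq_iff_mem_normalizer.mp ?_
    rw [mul_smul, ← hdP, ← mul_smul, inv_mul_cancel, one_smul]
  · intro q hq
    have hq' : x * q * x⁻¹ ∈ Q := (Subgroup.mem_normalizer_iff.mp hxQ q).mp hq
    have h1 := (Subgroup.mem_centralizer_iff.mp hhC) _ hq'
    calc h⁻¹ * x * q * (h⁻¹ * x)⁻¹ = h⁻¹ * ((x * q * x⁻¹) * h) := by group
      _ = h⁻¹ * (h * (x * q * x⁻¹)) := by rw [h1]
      _ = x * q * x⁻¹ := by group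

/-- First half: `H` has a normal `p`-complement. -/
theorem part1 {G : Type*} [Group G] [Finite G] (p : ℕ) [Fact p.Prime]
    (P : Sylow p G) (hP : IsCyclic (P : Subgroup G)) (H : Subgroup G) [hHn : H.Normal]
    (h1 : p ∣ Nat.card H) (h2 : p ∣ H.index) : Cfsg.HasNormalPComplement p H := by
  have hp : p.Prime := Fact.out
  obtain ⟨Q'⟩ : Nonempty (Sylow p H) := inferInstance
  have hQ'ne : (Q' : Subgroup H) ≠ ⊥ := Q'.ne_bot_of_dvd_card h1
  have hQp : IsPGroup p ((Q' : Subgroup H).map H.subtype) := Q'.isPGroup'.map _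
  obtain ⟨P₁, hQP₁⟩ := hQp.exists_le_sylow
  have hP₁cyc : IsCyclic (P₁ : Subgroup G) := (MulEquiv.isCyclic (Sylow.equiv P P₁)).mp hP
  have hP₁c : IsMulCommutative (P₁ : Subgroup G) := IsCyclic.isMulCommutative
  have hQ'cyc : IsCyclic (Q' : Subgroup H) := by
    have e1 : (Q' : Subgroup H) ≃* ((Q' : Subgroup H).map H.subtype) :=
      Subgroup.equivMapOfInjective _ _ H.subtype_injective
    have e2 : (((Q' : Subgroup H).map H.subtype).subgroupOf (P₁ : Subgroup G)) ≃* ((Q' : Subgroup H).map H.subtype) :=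
      Subgroup.subgroupOfEquivOfLe hQP₁
    have h3 : IsCyclic (((Q' : Subgroup H).map H.subtype).subgroupOf (P₁ : Subgroup G)) := inferInstance
    exact (MulEquiv.isCyclic (e1.trans e2.symm)).mpr h3
  rcases Cfsg.Agent.S0082.result Q' hQ'cyc with h | h
  · exact h
  · exfalso
    have hQ'c : IsMulCommutative (Q' : Subgroup H) := IsCyclic.isMulCommutative
    have h75 := Cfsg.Agent.S0075.result Q' hQ'c
    rw [h, inf_top_eq] at h75
    have hP₁M₂ : (P₁ : Subgroup G) ≤ (H ⊔ (P₁ : Subgroup G)) ⊓ Subgroup.normalizer ((P₁ : Subgroup G) : Set G) :=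
      le_inf le_sup_right Subgroup.le_normalizer
    have hkey : (Q' : Subgroup H) ≤ (⁅(P₁ : Subgroup G),
        (H ⊔ (P₁ : Subgroup G)) ⊓ Subgroup.normalizer ((P₁ : Subgroup G) : Set G)⁆).subgroupOf H := by
      refine le_trans (le_of_eq h75) ?_
      rw [Subgroup.commutator_le]
      intro q' hq' x' hx'
      rw [Subgroup.mem_subgroupOf]
      have hxQ : (x' : G) ∈ Subgroup.normalizer (((Q' : Subgroup H).map H.subtype : Subgroup G) : Set G) := by
        rw [Subgroup.mem_normalizer_iff]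
        intro y
        constructor
        · rintro ⟨y', hy', rfl⟩
          exact ⟨x' * y' * x'⁻¹, (Subgroup.mem_normalizer_iff.mp hx' y').mp hy', rfl⟩
        · rintro ⟨z', hz', hz⟩
          have hyH : y ∈ H := by
            have e : y = (x' : G)⁻¹ * ((x' : G) * y * (x' : G)⁻¹) * (x' : G) := by group
            rw [e, ← hz]
            exact H.mul_mem (H.mul_mem (H.inv_mem x'.2) z'.2) x'.2
          refine ⟨⟨y, hyH⟩, ?_, rfl⟩
          apply (Subgroup.mem_normalizer_iff.mp hx' ⟨y, hyH⟩).mpr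
          have e : x' * ⟨y, hyH⟩ * x'⁻¹ = z' := by
            ext
            simpa using hz.symm
          rw [e]; exact hz'
      obtain ⟨n, hnH, hnN, hn⟩ := step3 P₁ hP₁c H _ hQP₁ (x' : G) x'.2 hxQ
      have e : ((⁅q', x'⁆ : H) : G) = ⁅(q' : G), n⁆ := by
        have h5 := hn (q' : G) ⟨q', hq', rfl⟩
        rw [commutatorElement_def, commutatorElement_def]
        simp only [Subgroup.coe_mul, Subgroup.coe_inv]
        calc (q' : G) * (x' : G) * (q' : G)⁻¹ * (x' : G)⁻¹
            = (q' : G) * ((x' : G) * (q' : G) * (x' : G)⁻¹)⁻¹ := by group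
          _ = (q' : G) * (n * (q' : G) * n⁻¹)⁻¹ := by rw [h5]
          _ = (q' : G) * n * (q' : G)⁻¹ * n⁻¹ := by group
      rw [e]
      exact Subgroup.commutator_mem_commutator (hQP₁ ⟨q', hq', rfl⟩)
        (Subgroup.mem_inf.mpr ⟨Subgroup.mem_sup_left hnH, hnN⟩)
    have hAn : ((P₁ : Subgroup G).subgroupOf
        ((H ⊔ (P₁ : Subgroup G)) ⊓ Subgroup.normalizer ((P₁ : Subgroup G) : Set G))).Normal :=
      (Subgroup.normal_subgroupOf_iff_le_normalizer hP₁M₂).mpr inf_le_right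
    have hAc : IsMulCommutative ((P₁ : Subgroup G).subgroupOf
        ((H ⊔ (P₁ : Subgroup G)) ⊓ Subgroup.normalizer ((P₁ : Subgroup G) : Set G))) := inferInstance
    have hAcyc : IsCyclic ((P₁ : Subgroup G).subgroupOf
        ((H ⊔ (P₁ : Subgroup G)) ⊓ Subgroup.normalizer ((P₁ : Subgroup G) : Set G))) :=
      (MulEquiv.isCyclic (Subgroup.subgroupOfEquivOfLe hP₁M₂)).mpr hP₁cyc
    have hAp : IsPGroup p ((P₁ : Subgroup G).subgroupOf
        ((H ⊔ (P₁ : Subgroup G)) ⊓ Subgroup.normalizer ((P₁ : Subgroup G) : Set G))) :=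
      P₁.isPGroup'.comap_subtype
    have hHall : Nat.Coprime (Nat.card ((P₁ : Subgroup G).subgroupOf
        ((H ⊔ (P₁ : Subgroup G)) ⊓ Subgroup.normalizer ((P₁ : Subgroup G) : Set G))))
        ((P₁ : Subgroup G).subgroupOf
        ((H ⊔ (P₁ : Subgroup G)) ⊓ Subgroup.normalizer ((P₁ : Subgroup G) : Set G))).index := by
      obtain ⟨k, hk⟩ := hAp.exists_card_eq
      rw [hk]
      apply Nat.Coprime.pow_left
      rw [hp.coprime_iff_not_dvd]
      intro hdvd
      have h3 : ((P₁ : Subgroup G).subgroupOf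
          ((H ⊔ (P₁ : Subgroup G)) ⊓ Subgroup.normalizer ((P₁ : Subgroup G) : Set G))).index ∣ (P₁ : Subgroup G).index :=
        Dvd.intro _ (Subgroup.relIndex_mul_index hP₁M₂)
      exact P₁.not_dvd_index (hdvd.trans h3)
    obtain ⟨e1, e2, e3⟩ := Cfsg.Agent.S0090.result _ hAc hHall
    have hmap : ∀ W : Subgroup ((H ⊔ (P₁ : Subgroup G)) ⊓ Subgroup.normalizer ((P₁ : Subgroup G) : Set G) : Subgroup G),
        ⁅(P₁ : Subgroup G).subgroupOf
          ((H ⊔ (P₁ : Subgroup G)) ⊓ Subgroup.normalizer ((P₁ : Subgroup G) : Set G)), ⊤⁆ = W →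
        ⁅(P₁ : Subgroup G), (H ⊔ (P₁ : Subgroup G)) ⊓ Subgroup.normalizer ((P₁ : Subgroup G) : Set G)⁆
          = W.map (Subgroup.subtype _) := by
      intro W hW
      have h6 := congrArg (Subgroup.map (Subgroup.subtype _)) hW
      rw [Subgroup.map_commutator, Subgroup.subgroupOf_map_subtype, inf_of_le_left hP₁M₂,
        ← MonoidHom.range_eq_map, Subgroup.range_subtype] at h6
      exact h6
    rcases eq_bot_or_eq_bot_of_inf_eq_bot_of_isCyclic _ hAp _ _ inf_le_right inf_le_right e2 with hA | hB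
    · have h5 := hmap ⊥ (e1.trans hA)
      rw [Subgroup.map_bot] at h5
      rw [h5] at hkey
      apply hQ'ne
      rw [eq_bot_iff]
      intro y hy
      have h6 := hkey hy
      rw [Subgroup.mem_subgroupOf, Subgroup.mem_bot] at h6
      rw [Subgroup.mem_bot]
      exact Subtype.ext h6
    · have h4 : ⁅(P₁ : Subgroup G).subgroupOf
          ((H ⊔ (P₁ : Subgroup G)) ⊓ Subgroup.normalizer ((P₁ : Subgroup G) : Set G)), ⊤⁆
          = (P₁ : Subgroup G).subgroupOf
          ((H ⊔ (P₁ : Subgroup G)) ⊓ Subgroup.normalizer ((P₁ : Subgroup G) : Set G)) := by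
        rw [e1]; rw [hB, sup_bot_eq] at e3; exact e3
      have h5 := hmap _ h4
      rw [Subgroup.subgroupOf_map_subtype, inf_of_le_left hP₁M₂] at h5
      have h6 : ⁅(P₁ : Subgroup G), (H ⊔ (P₁ : Subgroup G)) ⊓ Subgroup.normalizer ((P₁ : Subgroup G) : Set G)⁆ ≤ H := by
        rw [Subgroup.commutator_le]
        intro u hu m hm
        obtain ⟨h, hh, u', hu', rfl⟩ := Subgroup.mem_sup_of_normal_left.mp (Subgroup.mem_inf.mp hm).1
        have hc : u' * u = u * u' := by
          have := hP₁c.is_comm.comm (⟨u', hu'⟩ : (P₁ : Subgroup G)) ⟨u, hu⟩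
          exact congrArg Subtype.val this
        have hc' : u' * u⁻¹ * u'⁻¹ = u⁻¹ := by
          have h7 : u' * u⁻¹ = u⁻¹ * u' := (Commute.inv_right (show Commute u' u from hc)).eq
          rw [h7]; group
        have e : ⁅u, h * u'⁆ = u * h * u⁻¹ * h⁻¹ := by
          rw [commutatorElement_def]
          calc u * (h * u') * u⁻¹ * (h * u')⁻¹ = u * h * (u' * u⁻¹ * u'⁻¹) * h⁻¹ := by group
            _ = u * h * u⁻¹ * h⁻¹ := by rw [hc']
        rw [e]
        exact H.mul_mem (hHn.conj_mem h hh u) (H.inv_mem hh)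
      have h7 : (P₁ : Subgroup G) ≤ H := by
        rw [h5] at h6; exact h6
      have h8 : H.index ∣ (P₁ : Subgroup G).index := Subgroup.index_dvd_of_le h7
      exact P₁.not_dvd_index (h2.trans h8)

/-- If `Q ≠ ⊥` is a subgroup of a cyclic Sylow `p`-subgroup `P₁`, then the derived subgroup of
`C_G(Q)` has order prime to `p`. -/
theorem card_commutator_centralizer_coprime {G : Type*} [Group G] [Finite G] {p : ℕ} [Fact p.Prime]
    (P₁ : Sylow p G) (hP₁cyc : IsCyclic (P₁ : Subgroup G)) (Q : Subgroup G) (hQP : Q ≤ P₁)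
    (hQ : Q ≠ ⊥) :
    Nat.Coprime (Nat.card (⁅Subgroup.centralizer (Q : Set G), Subgroup.centralizer (Q : Set G)⁆ : Subgroup G)) p := by
  have hp : p.Prime := Fact.out
  have hP₁c : IsMulCommutative (P₁ : Subgroup G) := IsCyclic.isMulCommutative
  have hcomm : ∀ a ∈ (P₁ : Subgroup G), ∀ b ∈ (P₁ : Subgroup G), a * b = b * a := by
    intro a ha b hb
    have := hP₁c.is_comm.comm (⟨a, ha⟩ : (P₁ : Subgroup G)) ⟨b, hb⟩
    exact congrArg Subtype.val this
  have hP₁C : (P₁ : Subgroup G) ≤ Subgroup.centralizer (Q : Set G) := by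
    intro u hu
    rw [Subgroup.mem_centralizer_iff]
    intro q hq
    exact hcomm q (hQP hq) u hu
  have hQC : Q ≤ Subgroup.centralizer (Q : Set G) := hQP.trans hP₁C
  have hAc : IsMulCommutative ((P₁ : Subgroup G).subgroupOf (Subgroup.centralizer (Q : Set G))) :=
    inferInstance
  have hAcyc : IsCyclic ((P₁ : Subgroup G).subgroupOf (Subgroup.centralizer (Q : Set G))) :=
    (MulEquiv.isCyclic (Subgroup.subgroupOfEquivOfLe hP₁C)).mpr hP₁cyc
  have hAp : IsPGroup p ((P₁ : Subgroup G).subgroupOf (Subgroup.centralizer (Q : Set G))) :=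
    P₁.isPGroup'.comap_subtype
  have hHall : Nat.Coprime (Nat.card ((P₁ : Subgroup G).subgroupOf (Subgroup.centralizer (Q : Set G))))
      ((P₁ : Subgroup G).subgroupOf (Subgroup.centralizer (Q : Set G))).index := by
    obtain ⟨k, hk⟩ := hAp.exists_card_eq
    rw [hk]
    apply Nat.Coprime.pow_left
    rw [hp.coprime_iff_not_dvd]
    intro hdvd
    have h3 : ((P₁ : Subgroup G).subgroupOf (Subgroup.centralizer (Q : Set G))).index ∣ (P₁ : Subgroup G).index :=
      Dvd.intro _ (Subgroup.relIndex_mul_index hP₁C)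
    exact P₁.not_dvd_index (hdvd.trans h3)
  have h88 := Cfsg.Agent.S0088.result _ hAc hHall
  have hXY : Q.subgroupOf (Subgroup.centralizer (Q : Set G)) ⊓
      (commutator (Subgroup.centralizer (Q : Set G)) ⊓
        (P₁ : Subgroup G).subgroupOf (Subgroup.centralizer (Q : Set G))) = ⊥ := by
    rw [eq_bot_iff, ← h88]
    intro x hx
    obtain ⟨hx1, hx2⟩ := Subgroup.mem_inf.mp hx
    obtain ⟨hx2a, hx2b⟩ := Subgroup.mem_inf.mp hx2
    refine Subgroup.mem_inf.mpr ⟨Subgroup.mem_inf.mpr ⟨hx2b, hx2a⟩, ?_⟩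
    rw [Subgroup.mem_center_iff]
    intro g
    ext
    have := (Subgroup.mem_centralizer_iff.mp g.2) (x : G) (Subgroup.mem_subgroupOf.mp hx1)
    simpa using this.symm
  have hXne : Q.subgroupOf (Subgroup.centralizer (Q : Set G)) ≠ ⊥ := by
    intro h
    apply hQ
    rw [eq_bot_iff]
    intro q hq
    have h1 : (⟨q, hQC hq⟩ : Subgroup.centralizer (Q : Set G)) ∈ Q.subgroupOf (Subgroup.centralizer (Q : Set G)) :=
      Subgroup.mem_subgroupOf.mpr hq
    rw [h, Subgroup.mem_bot] at h1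
    rw [Subgroup.mem_bot]
    exact congrArg Subtype.val h1
  have hY : commutator (Subgroup.centralizer (Q : Set G)) ⊓
        (P₁ : Subgroup G).subgroupOf (Subgroup.centralizer (Q : Set G)) = ⊥ := by
    rcases eq_bot_or_eq_bot_of_inf_eq_bot_of_isCyclic _ hAp _ _
      (fun x hx => hQP (Subgroup.mem_subgroupOf.mp hx)) inf_le_right hXY with h | h
    · exact absurd h hXne
    · exact h
  have hnd : ¬ p ∣ Nat.card (commutator (Subgroup.centralizer (Q : Set G))) := by
    intro hdvd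
    obtain ⟨y, hy⟩ := exists_prime_orderOf_dvd_card' p hdvd
    have hyo : orderOf (y : Subgroup.centralizer (Q : Set G)) = p := by
      rw [Subgroup.orderOf_coe]; exact hy
    have hpg : IsPGroup p (Subgroup.zpowers (y : Subgroup.centralizer (Q : Set G))) := by
      apply IsPGroup.of_card (n := 1)
      rw [Nat.card_zpowers, hyo, pow_one]
    obtain ⟨R, hR⟩ := hpg.exists_le_sylow
    obtain ⟨c, hc⟩ := MulAction.exists_smul_eq (Subgroup.centralizer (Q : Set G)) R (P₁.subtype hP₁C)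
    have h1 : c * (y : Subgroup.centralizer (Q : Set G)) * c⁻¹ ∈
        ((P₁.subtype hP₁C : Sylow p (Subgroup.centralizer (Q : Set G))) : Subgroup _) := by
      rw [← hc, mem_smul_sylow_iff]
      have e : c⁻¹ * (c * (y : Subgroup.centralizer (Q : Set G)) * c⁻¹) * c = y := by group
      rw [e]
      exact hR (Subgroup.mem_zpowers _)
    rw [Sylow.coe_subtype] at h1
    have h2 : c * (y : Subgroup.centralizer (Q : Set G)) * c⁻¹ ∈ commutator (Subgroup.centralizer (Q : Set G)) :=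
      (inferInstance : (commutator (Subgroup.centralizer (Q : Set G))).Normal).conj_mem _ y.2 c
    have h3 : c * (y : Subgroup.centralizer (Q : Set G)) * c⁻¹ ∈ commutator (Subgroup.centralizer (Q : Set G)) ⊓
        (P₁ : Subgroup G).subgroupOf (Subgroup.centralizer (Q : Set G)) := Subgroup.mem_inf.mpr ⟨h2, h1⟩
    rw [hY, Subgroup.mem_bot] at h3
    have h4 : (y : Subgroup.centralizer (Q : Set G)) = 1 := by
      have e : (y : Subgroup.centralizer (Q : Set G)) = c⁻¹ * (c * (y : Subgroup.centralizer (Q : Set G)) * c⁻¹) * c := by group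
      rw [e, h3]; group
    rw [h4, orderOf_one] at hyo
    exact hp.one_lt.ne hyo
  rw [← Subgroup.map_subtype_commutator, Subgroup.card_map_of_injective (Subgroup.subtype_injective _)]
  exact (hp.coprime_iff_not_dvd.mpr hnd).symm

/-- Second half: `G` is `p`-solvable. -/
theorem part2 {G : Type*} [Group G] [Finite G] (p : ℕ) [Fact p.Prime]
    (P : Sylow p G) (hP : IsCyclic (P : Subgroup G)) (H : Subgroup G) [hHn : H.Normal]
    (h1 : p ∣ Nat.card H) (hH : Cfsg.HasNormalPComplement p H) : Cfsg.IsPSolvable p G := by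
  have hp : p.Prime := Fact.out
  obtain ⟨Q', K', hK'n, hK'⟩ := hH
  have hQ'ne : (Q' : Subgroup H) ≠ ⊥ := Q'.ne_bot_of_dvd_card h1
  obtain ⟨Q, hQdef⟩ : ∃ Q : Subgroup G, Q = (Q' : Subgroup H).map H.subtype := ⟨_, rfl⟩
  obtain ⟨K, hKdef⟩ : ∃ K : Subgroup G, K = K'.map H.subtype := ⟨_, rfl⟩
  have hQp : IsPGroup p Q := by rw [hQdef]; exact Q'.isPGroup'.map _
  obtain ⟨P₁, hQP₁⟩ := hQp.exists_le_sylow
  have hP₁cyc : IsCyclic (P₁ : Subgroup G) := (MulEquiv.isCyclic (Sylow.equiv P P₁)).mp hP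
  have hP₁c : IsMulCommutative (P₁ : Subgroup G) := IsCyclic.isMulCommutative
  have hQne : Q ≠ ⊥ := by
    intro h
    apply hQ'ne
    rw [eq_bot_iff]
    intro y hy
    have h3 : (y : G) ∈ Q := by rw [hQdef]; exact ⟨y, hy, rfl⟩
    rw [h, Subgroup.mem_bot] at h3
    rw [Subgroup.mem_bot]; exact Subtype.ext h3
  have hKmem : ∀ x : G, x ∈ K ↔ x ∈ H ∧ Nat.Coprime (orderOf x) p := by
    intro x
    rw [hKdef]
    constructor
    · rintro ⟨y, hy, rfl⟩
      refine ⟨y.2, ?_⟩
      have h3 := (Cfsg.Agent.S0086.result Q' K' hK' y).mp hy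
      rw [← Subgroup.orderOf_coe] at h3
      exact h3
    · rintro ⟨hxH, hx⟩
      refine ⟨⟨x, hxH⟩, ?_, rfl⟩
      apply (Cfsg.Agent.S0086.result Q' K' hK' ⟨x, hxH⟩).mpr
      rw [Subgroup.orderOf_mk]
      exact hx
  have hKn : K.Normal := by
    constructor
    intro x hx g
    rw [hKmem] at hx ⊢
    refine ⟨hHn.conj_mem x hx.1 g, ?_⟩
    rw [Cfsg.Agent.Lib.Helper2.orderOf_conj_eq]
    exact hx.2
  have hKcard : Nat.Coprime (Nat.card K) p := by
    rw [hKdef, Subgroup.card_map_of_injective H.subtype_injective, ← hK'.index_eq_card]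
    exact (hp.coprime_iff_not_dvd.mpr Q'.not_dvd_index).symm
  have hKQ : K ⊔ Q = H := by
    rw [hKdef, hQdef, ← Subgroup.map_sup, hK'.sup_eq_top, ← MonoidHom.range_eq_map, Subgroup.range_subtype]
  have hFr : Subgroup.normalizer (Q : Set G) ⊔ K = ⊤ := by
    have h3 : Subgroup.normalizer (Q : Set G) ⊔ H = ⊤ := by
      rw [hQdef]; exact Sylow.normalizer_sup_eq_top Q'
    rw [← hKQ, ← sup_assoc] at h3
    have hQN : Q ≤ Subgroup.normalizer (Q : Set G) ⊔ K := Subgroup.le_normalizer.trans le_sup_left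
    rw [sup_of_le_left hQN] at h3
    exact h3
  have hcop := card_commutator_centralizer_coprime P₁ hP₁cyc Q hQP₁ hQne
  have hP₁C : (P₁ : Subgroup G) ≤ Subgroup.centralizer (Q : Set G) := by
    intro u hu
    rw [Subgroup.mem_centralizer_iff]
    intro q hq
    have := hP₁c.is_comm.comm (⟨q, hQP₁ hq⟩ : (P₁ : Subgroup G)) ⟨u, hu⟩
    exact congrArg Subtype.val this
  have hNC : ∀ n ∈ Subgroup.normalizer (Q : Set G), ∀ c ∈ Subgroup.centralizer (Q : Set G),
      n * c * n⁻¹ ∈ Subgroup.centralizer (Q : Set G) := by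
    intro n hn c hc
    rw [Subgroup.mem_centralizer_iff] at hc ⊢
    intro q hq
    have hq' : n⁻¹ * q * n ∈ Q := by
      have := (Subgroup.mem_normalizer_iff.mp (Subgroup.inv_mem _ hn) q).mp hq
      simpa using this
    have h := hc _ hq'
    calc q * (n * c * n⁻¹) = n * ((n⁻¹ * q * n) * c) * n⁻¹ := by group
      _ = n * (c * (n⁻¹ * q * n)) * n⁻¹ := by rw [h]
      _ = n * c * n⁻¹ * q := by group
  have hNC₂ : ∀ n ∈ Subgroup.normalizer (Q : Set G),
      ∀ c ∈ ⁅Subgroup.centralizer (Q : Set G), Subgroup.centralizer (Q : Set G)⁆,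
      n * c * n⁻¹ ∈ ⁅Subgroup.centralizer (Q : Set G), Subgroup.centralizer (Q : Set G)⁆ := by
    intro n hn c hc
    have h3 : (⁅Subgroup.centralizer (Q : Set G), Subgroup.centralizer (Q : Set G)⁆).map (MulAut.conj n).toMonoidHom
        ≤ ⁅Subgroup.centralizer (Q : Set G), Subgroup.centralizer (Q : Set G)⁆ := by
      rw [Subgroup.map_commutator]
      apply Subgroup.commutator_mono
      · rintro _ ⟨c, hc, rfl⟩
        exact hNC n hn c hc
      · rintro _ ⟨c, hc, rfl⟩
        exact hNC n hn c hc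
    exact h3 ⟨c, hc, rfl⟩
  have hgdec : ∀ g : G, ∃ k ∈ K, ∃ n ∈ Subgroup.normalizer (Q : Set G), g = k * n := by
    intro g
    have hg : g ∈ K ⊔ Subgroup.normalizer (Q : Set G) := by
      rw [sup_comm, hFr]; exact Subgroup.mem_top g
    obtain ⟨k, hk, n, hn, rfl⟩ := Subgroup.mem_sup_of_normal_left.mp hg
    exact ⟨k, hk, n, hn, rfl⟩
  obtain ⟨T, hTdef⟩ : ∃ T : Subgroup G, T = K ⊔ ⁅Subgroup.centralizer (Q : Set G), Subgroup.centralizer (Q : Set G)⁆ := ⟨_, rfl⟩
  have hKT : K ≤ T := by rw [hTdef]; exact le_sup_left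
  have hTn : T.Normal := by
    constructor
    intro x hx g
    obtain ⟨k, hk, n, hn, rfl⟩ := hgdec g
    rw [hTdef] at hx
    obtain ⟨k', hk', c, hc, rfl⟩ := Subgroup.mem_sup_of_normal_left.mp hx
    have e : k * n * (k' * c) * (k * n)⁻¹ = k * ((n * k' * n⁻¹) * (n * c * n⁻¹)) * k⁻¹ := by group
    rw [e]
    have hkT : k ∈ T := hKT hk
    refine T.mul_mem (T.mul_mem hkT (T.mul_mem (hKT (hKn.conj_mem k' hk' n)) ?_)) (T.inv_mem hkT)
    rw [hTdef]
    exact Subgroup.mem_sup_right (hNC₂ n hn c hc)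
  have hTP : (T ⊔ (P₁ : Subgroup G)).Normal := by
    constructor
    intro x hx g
    obtain ⟨k, hk, n, hn, rfl⟩ := hgdec g
    obtain ⟨t, ht, u, hu, rfl⟩ := Subgroup.mem_sup_of_normal_left.mp hx
    have e : k * n * (t * u) * (k * n)⁻¹ = k * ((n * t * n⁻¹) * (n * u * n⁻¹)) * k⁻¹ := by group
    rw [e]
    have hkT : k ∈ T ⊔ (P₁ : Subgroup G) := Subgroup.mem_sup_left (hKT hk)
    have hnu : n * u * n⁻¹ ∈ T ⊔ (P₁ : Subgroup G) := by
      have hnP₁C : ((n • P₁ : Sylow p G) : Subgroup G) ≤ Subgroup.centralizer (Q : Set G) := by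
        intro y hy
        rw [mem_smul_sylow_iff] at hy
        have h3 := hNC n hn _ (hP₁C hy)
        have e2 : n * (n⁻¹ * y * n) * n⁻¹ = y := by group
        rwa [e2] at h3
      obtain ⟨c, hc, hcP⟩ := sylow_conj_in_subgroup P₁ (n • P₁) _ hP₁C hnP₁C
      have h3 : n * u * n⁻¹ ∈ ((c • P₁ : Sylow p G) : Subgroup G) := by
        rw [hcP, mem_smul_sylow_iff]
        have e2 : n⁻¹ * (n * u * n⁻¹) * n = u := by group
        rw [e2]; exact hu
      rw [mem_smul_sylow_iff] at h3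
      have e2 : n * u * n⁻¹ = ⁅c, c⁻¹ * (n * u * n⁻¹) * c⁆ * (c⁻¹ * (n * u * n⁻¹) * c) := by
        rw [commutatorElement_def]; group
      rw [e2]
      refine Subgroup.mul_mem _ (Subgroup.mem_sup_left ?_) (Subgroup.mem_sup_right h3)
      rw [hTdef]
      exact Subgroup.mem_sup_right (Subgroup.commutator_mem_commutator hc (hP₁C h3))
    exact Subgroup.mul_mem _ (Subgroup.mul_mem _ hkT
      (Subgroup.mul_mem _ (Subgroup.mem_sup_left (hTn.conj_mem t ht n)) hnu)) (Subgroup.inv_mem _ hkT)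
  refine ⟨3, ![⊥, T, T ⊔ (P₁ : Subgroup G), ⊤], rfl, rfl, ?_, ?_, ?_⟩
  · apply Fin.monotone_iff_le_succ.mpr
    intro i
    fin_cases i
    · exact bot_le
    · exact le_sup_left
    · exact le_top
  · intro i
    fin_cases i
    · exact Subgroup.normal_bot
    · exact hTn
    · exact hTP
    · exact Subgroup.normal_top
  · intro i
    fin_cases i
    · right
      show Nat.Coprime ((⊥ : Subgroup G).relIndex T) p
      rw [← Subgroup.relIndex_mul_relIndex (⊥ : Subgroup G) K T bot_le hKT, Subgroup.relIndex_bot_left, hTdef,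
        Subgroup.relIndex_sup_left]
      exact Nat.Coprime.mul_left hKcard (Nat.Coprime.coprime_dvd_left (Subgroup.relIndex_dvd_card _ _) hcop)
    · left
      show ∃ m : ℕ, T.relIndex (T ⊔ (P₁ : Subgroup G)) = p ^ m
      rw [Subgroup.relIndex_sup_left]
      have h3 : T.relIndex (P₁ : Subgroup G) ∣ Nat.card (P₁ : Subgroup G) := Subgroup.relIndex_dvd_card _ _
      obtain ⟨a, ha⟩ := P₁.isPGroup'.exists_card_eq
      rw [ha] at h3
      obtain ⟨m, -, hm⟩ := (Nat.dvd_prime_pow hp).mp h3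
      exact ⟨m, hm⟩
    · right
      show Nat.Coprime ((T ⊔ (P₁ : Subgroup G)).relIndex ⊤) p
      rw [Subgroup.relIndex_top_right]
      have h3 : (T ⊔ (P₁ : Subgroup G)).index ∣ (P₁ : Subgroup G).index := Subgroup.index_dvd_of_le le_sup_right
      exact Nat.Coprime.coprime_dvd_left h3 (hp.coprime_iff_not_dvd.mpr P₁.not_dvd_index).symm

/-- Let G be a finite group with a cyclic Sylow p-subgroup and H a normal subgroup such that p divides both the order of H and the index of H. Then H has a normal p-complement and G is p-solvable. -/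
theorem result {G : Type*} [Group G] [Finite G] (p : ℕ) [Fact p.Prime]
    (P : Sylow p G) (hP : IsCyclic (P : Subgroup G)) (H : Subgroup G) [H.Normal] (h1 : p ∣ Nat.card H) (h2 : p ∣ H.index) :
    Cfsg.HasNormalPComplement p H ∧ Cfsg.IsPSolvable p G := by
  have h := part1 p P hP H h1 h2
  exact ⟨h, part2 p P hP H h1 h⟩

end Cfsg.Agent.S4145
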