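-- Statement S4151 (row 4151): proof assembled from the TIQ packages (project of helper4) and the TIH packages (helper51).
import Cfsg.Statements.S4151
import Cfsg.Agent.Lib.Helper4.TIQ.Asm
import Cfsg.Agent.Lib.Helper4.TIQ.Cop
import Cfsg.Agent.Lib.Helper93.TIH.O
import Cfsg.Agent.Lib.Helper93.TIH.F
import Cfsg.Agent.Lib.Helper45.TIH.Hall
import Cfsg.Agent.Lib.Helper25.TIH.ON
import Cfsg.Agent.Lib.Helper25.TIH.Act
import Cfsg.Agent.Lib.Helper62.TIQ.Rank
import Cfsg.Agent.Lib.Helper62.TIQ.Z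
import Cfsg.Agent.Lib.Helper45.TIQ.Prod
import Cfsg.Agent.Lib.Helper25.TIQ.CLeQ
import Cfsg.Agent.Lib.Helper10.TIQ.NormN
import Cfsg.Agent.Lib.Helper10.TIQ.KFacts

set_option autoImplicit false
open Cfsg

namespace Cfsg.Agent.S4151

/-- Let G be a finite group and H a non-normal subgroup meeting each of its conjugates by elements outside N_G(H) trivially, with the order of H coprime to its index in N_G(H), such that G is π-separable for π the set of primes dividing the order of H (G has a chain of normal subgroups from 1 to G each of whose factors has order divisible only by primes dividing the order of H or coprime to it). Suppose a Sylow 2-subgroup of H is abelian and Q is a complement of H in N_G(H). Then C_H(Q), the subgroup of elements of H commuting with Q, has order coprime to its index in G and has a normal complement in G. -/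
theorem result {G : Type*} [Group G] [Finite G] (H : Subgroup G)
    (hTI : Cfsg.IsTISubset (H : Set G)) (hnn : ¬ H.Normal)
    (hHall : (Nat.card H).Coprime (H.subgroupOf (Subgroup.normalizer (H : Set G))).index)
    (hsep : ∃ (n : ℕ) (M : Fin (n + 1) → Subgroup G), M 0 = ⊥ ∧ M (Fin.last n) = ⊤ ∧ Monotone M ∧ (∀ i, (M i).Normal) ∧
      ∀ i : Fin n, (∀ q : ℕ, q.Prime → q ∣ (M i.castSucc).relIndex (M i.succ) → q ∣ Nat.card H) ∨
        ((M i.castSucc).relIndex (M i.succ)).Coprime (Nat.card H))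
    (h2 : ∀ P : Sylow 2 H, IsMulCommutative (P : Subgroup H))
    (Q : Subgroup G) (hQ : Q ≤ Subgroup.normalizer (H : Set G)) (hQH : Q ⊓ H = ⊥) (hQH' : Q ⊔ H = Subgroup.normalizer (H : Set G)) :
    (Nat.card ↥(H ⊓ Subgroup.centralizer (Q : Set G))).Coprime (H ⊓ Subgroup.centralizer (Q : Set G)).index ∧
    ∃ N : Subgroup G, N.Normal ∧ N.IsComplement' (H ⊓ Subgroup.centralizer (Q : Set G)) :=
  Cfsg.Agent.Lib.Helper4.TIQ.s4151_of Cfsg.Agent.Lib.Helper93.TIH.pkgO
    Cfsg.Agent.Lib.Helper45.TIH.pkgHall Cfsg.Agent.Lib.Helper93.TIH.pkgF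
    Cfsg.Agent.Lib.Helper25.TIH.pkgON Cfsg.Agent.Lib.Helper25.TIH.pkgAct
    Cfsg.Agent.Lib.Helper62.TIQ.pkgRank Cfsg.Agent.Lib.Helper62.TIQ.pkgZ
    Cfsg.Agent.Lib.Helper45.TIQ.pkgProd Cfsg.Agent.Lib.Helper45.TIQ.pkgSupInf
    Cfsg.Agent.Lib.Helper45.TIQ.pkgQC Cfsg.Agent.Lib.Helper4.TIQ.pkgCopA
    Cfsg.Agent.Lib.Helper4.TIQ.pkgCopB Cfsg.Agent.Lib.Helper25.TIQ.pkgCLeQ
    Cfsg.Agent.Lib.Helper10.TIQ.pkgNormN Cfsg.Agent.Lib.Helper10.TIQ.pkgKFacts
    H hTI hnn hHall hsep h2 Q hQ hQH hQH'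

end Cfsg.Agent.S4151
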