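import Cfsg.Statements.S4152

set_option autoImplicit false
open Cfsg

namespace Cfsg.Agent.S4152

/-- `x` is a `π`-element. -/
def IsPi (π : Set ℕ) {X : Type*} [Monoid X] (x : X) : Prop :=
  ∀ q : ℕ, q.Prime → q ∣ orderOf x → q ∈ π

/-- `x` is a `π'`-element. -/
def IsPi' (π : Set ℕ) {X : Type*} [Monoid X] (x : X) : Prop :=
  ∀ q : ℕ, q.Prime → q ∣ orderOf x → q ∉ π

theorem exists_split (π : Set ℕ) (M : ℕ) (hM : M ≠ 0) :
    ∃ a b : ℕ, M = a * b ∧ (∀ q : ℕ, q.Prime → q ∣ a → q ∈ π) ∧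
      (∀ q : ℕ, q.Prime → q ∣ b → q ∉ π) := by
  classical
  induction M using Nat.recOnMul with
  | zero => exact absurd rfl hM
  | one =>
    exact ⟨1, 1, rfl, fun q hq h => absurd (Nat.dvd_one.mp h) hq.ne_one,
      fun q hq h => absurd (Nat.dvd_one.mp h) hq.ne_one⟩
  | prime p hp =>
    by_cases hpπ : p ∈ π
    · refine ⟨p, 1, (mul_one p).symm, fun q hq h => ?_, fun q hq h => absurd (Nat.dvd_one.mp h) hq.ne_one⟩
      rw [(Nat.prime_dvd_prime_iff_eq hq hp).mp h]; exact hpπ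
    · refine ⟨1, p, (one_mul p).symm, fun q hq h => absurd (Nat.dvd_one.mp h) hq.ne_one, fun q hq h => ?_⟩
      rw [(Nat.prime_dvd_prime_iff_eq hq hp).mp h]; exact hpπ
  | mul a b iha ihb =>
    have ha : a ≠ 0 := fun h => hM (by rw [h, zero_mul])
    have hb : b ≠ 0 := fun h => hM (by rw [h, mul_zero])
    obtain ⟨a1, a2, rfl, h1, h2⟩ := iha ha
    obtain ⟨b1, b2, rfl, h3, h4⟩ := ihb hb
    refine ⟨a1 * b1, a2 * b2, by ring, fun q hq h => ?_, fun q hq h => ?_⟩
    · rcases (Nat.Prime.dvd_mul hq).mp h with h | h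
      · exact h1 q hq h
      · exact h3 q hq h
    · rcases (Nat.Prime.dvd_mul hq).mp h with h | h
      · exact h2 q hq h
      · exact h4 q hq h

theorem exists_exponents (π : Set ℕ) (G : Type*) [Group G] [Finite G] :
    ∃ e e' : ℕ, (∀ x : G, IsPi π (x ^ e)) ∧ (∀ x : G, IsPi' π (x ^ e')) ∧
      (∀ x : G, x ^ e * x ^ e' = x) ∧
      (∀ s t : G, Commute s t → IsPi π s → IsPi' π t → (s * t) ^ e = s ∧ (s * t) ^ e' = t) := by
  obtain ⟨a, b, hM, ha, hb⟩ := exists_split π (Nat.card G) Nat.card_pos.ne'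
  have hcop : Nat.Coprime a b := Nat.coprime_of_dvd fun k hk h1 h2 => hb k hk h2 (ha k hk h1)
  obtain ⟨e, he1, he2⟩ := Nat.chineseRemainder hcop 1 0
  obtain ⟨e', he1', he2'⟩ := Nat.chineseRemainder hcop 0 1
  have hbe : b ∣ e := (Nat.modEq_zero_iff_dvd).mp he2
  have hae' : a ∣ e' := (Nat.modEq_zero_iff_dvd).mp he1'
  have hpowM : ∀ x : G, x ^ (a * b) = 1 := fun x => hM ▸ pow_card_eq_one'
  have hordM : ∀ x : G, orderOf x ∣ a * b := fun x => orderOf_dvd_of_pow_eq_one (hpowM x)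
  -- orders of π-elements divide a, of π'-elements divide b
  have hordπ : ∀ s : G, IsPi π s → orderOf s ∣ a := by
    intro s hs
    have hc : Nat.Coprime (orderOf s) b := Nat.coprime_of_dvd fun k hk h1 h2 => hb k hk h2 (hs k hk h1)
    exact hc.dvd_of_dvd_mul_right (hordM s)
  have hordπ' : ∀ t : G, IsPi' π t → orderOf t ∣ b := by
    intro t ht
    have hc : Nat.Coprime (orderOf t) a := Nat.coprime_of_dvd fun k hk h1 h2 => ht k hk h1 (ha k hk h2)
    exact hc.dvd_of_dvd_mul_left (hordM t)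
  refine ⟨e, e', ?_, ?_, ?_, ?_⟩
  · intro x q hq hqd
    apply ha q hq
    refine dvd_trans hqd (orderOf_dvd_of_pow_eq_one ?_)
    obtain ⟨c, rfl⟩ := hbe
    rw [← pow_mul, show b * c * a = (a * b) * c by ring, pow_mul, hpowM, one_pow]
  · intro x q hq hqd
    apply hb q hq
    refine dvd_trans hqd (orderOf_dvd_of_pow_eq_one ?_)
    obtain ⟨c, rfl⟩ := hae'
    rw [← pow_mul, show a * c * b = (a * b) * c by ring, pow_mul, hpowM, one_pow]
  · intro x
    rw [← pow_add]
    have h1 : e + e' ≡ 1 [MOD a] := by simpa using he1.add he1'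
    have h2 : e + e' ≡ 1 [MOD b] := by simpa using he2.add he2'
    have h3 : e + e' ≡ 1 [MOD a * b] := (Nat.modEq_and_modEq_iff_modEq_mul hcop).mp ⟨h1, h2⟩
    have h4 : e + e' ≡ 1 [MOD orderOf x] := h3.of_dvd (hordM x)
    have := pow_eq_pow_iff_modEq.mpr h4
    simpa using this
  · intro s t hst hs ht
    have hs1 : s ^ e = s := by
      have h4 : e ≡ 1 [MOD orderOf s] := he1.of_dvd (hordπ s hs)
      simpa using pow_eq_pow_iff_modEq.mpr h4
    have ht1 : t ^ e = 1 := orderOf_dvd_iff_pow_eq_one.mp (dvd_trans (hordπ' t ht) hbe)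
    have hs2 : s ^ e' = 1 := orderOf_dvd_iff_pow_eq_one.mp (dvd_trans (hordπ s hs) hae')
    have ht2 : t ^ e' = t := by
      have h4 : e' ≡ 1 [MOD orderOf t] := he2'.of_dvd (hordπ' t ht)
      simpa using pow_eq_pow_iff_modEq.mpr h4
    constructor
    · rw [hst.mul_pow, hs1, ht1, mul_one]
    · rw [hst.mul_pow, hs2, ht2, one_mul]

/-- Counting commuting pairs whose first entry satisfies a class-invariant predicate. -/
theorem card_comm_pred (X : Type*) [Group X] [Finite X] (P : X → Prop)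
    (hP : ∀ a g : X, P g → P (a * g * a⁻¹)) :
    Nat.card {p : X × X // P p.1 ∧ Commute p.1 p.2} =
      Nat.card {C : ConjClasses X // ∀ g : X, ConjClasses.mk g = C → P g} * Nat.card X := by
  classical
  have := Fintype.ofFinite X
  let Y := {g : X // P g}
  let _inst : MulAction (ConjAct X) Y :=
    { smul := fun a y => ⟨ConjAct.ofConjAct a * y.1 * (ConjAct.ofConjAct a)⁻¹, hP _ _ y.2⟩
      one_smul := fun y => Subtype.ext (by show ConjAct.ofConjAct (1 : ConjAct X) * y.1 * (ConjAct.ofConjAct (1 : ConjAct X))⁻¹ = y.1; simp)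
      mul_smul := fun a b y => Subtype.ext (by
        show ConjAct.ofConjAct (a * b) * y.1 * (ConjAct.ofConjAct (a * b))⁻¹ =
          ConjAct.ofConjAct a * (ConjAct.ofConjAct b * y.1 * (ConjAct.ofConjAct b)⁻¹) * (ConjAct.ofConjAct a)⁻¹
        simp [mul_assoc]) }
  have hsmul : ∀ (a : ConjAct X) (y : Y), ((a • y : Y) : X) = ConjAct.ofConjAct a * y.1 * (ConjAct.ofConjAct a)⁻¹ :=
    fun _ _ => rfl
  have hB := MulAction.sum_card_fixedBy_eq_card_orbits_mul_card_group (ConjAct X) Y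
  -- left side
  have hL : Nat.card {p : X × X // P p.1 ∧ Commute p.1 p.2} =
      ∑ a : ConjAct X, Fintype.card (MulAction.fixedBy Y a) := by
    rw [← Fintype.card_sigma, Nat.card_eq_fintype_card]
    apply Fintype.card_congr
    refine
      { toFun := fun p => ⟨ConjAct.toConjAct p.1.2, ⟨⟨p.1.1, p.2.1⟩, ?_⟩⟩
        invFun := fun q => ⟨(q.2.1.1, ConjAct.ofConjAct q.1), q.2.1.2, ?_⟩
        left_inv := fun p => by simp
        right_inv := fun q => by simp }
    · rw [MulAction.mem_fixedBy]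
      apply Subtype.ext
      rw [hsmul]
      simp only [ConjAct.ofConjAct_toConjAct]
      have h1 : p.1.1 * p.1.2 = p.1.2 * p.1.1 := p.2.2
      rw [← h1]; group
    · have h1 := q.2.2
      rw [MulAction.mem_fixedBy] at h1
      have h2 := congrArg Subtype.val h1
      rw [hsmul] at h2
      show q.2.1.1 * ConjAct.ofConjAct q.1 = ConjAct.ofConjAct q.1 * q.2.1.1
      calc q.2.1.1 * ConjAct.ofConjAct q.1
          = (ConjAct.ofConjAct q.1 * q.2.1.1 * (ConjAct.ofConjAct q.1)⁻¹) * ConjAct.ofConjAct q.1 := by rw [h2]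
        _ = ConjAct.ofConjAct q.1 * q.2.1.1 := by group
  -- right side
  have hR : Fintype.card (MulAction.orbitRel.Quotient (ConjAct X) Y) =
      Nat.card {C : ConjClasses X // ∀ g : X, ConjClasses.mk g = C → P g} := by
    rw [← Nat.card_eq_fintype_card]
    have hpc : ∀ y : Y, ∀ g : X, ConjClasses.mk g = ConjClasses.mk y.1 → P g := by
      intro y g hg
      obtain ⟨c, hc⟩ := isConj_iff.mp (ConjClasses.mk_eq_mk_iff_isConj.mp hg.symm)
      rw [← hc]; exact hP c y.1 y.2
    let f : MulAction.orbitRel.Quotient (ConjAct X) Y → {C : ConjClasses X // ∀ g : X, ConjClasses.mk g = C → P g} :=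
      Quotient.lift (fun y : Y => ⟨ConjClasses.mk y.1, hpc y⟩) (by
        intro y y' hyy
        apply Subtype.ext
        show ConjClasses.mk y.1 = ConjClasses.mk y'.1
        have h1 : y ∈ MulAction.orbit (ConjAct X) y' := MulAction.orbitRel_apply.mp hyy
        obtain ⟨a, ha⟩ := MulAction.mem_orbit_iff.mp h1
        have h2 := congrArg Subtype.val ha
        rw [hsmul] at h2
        rw [ConjClasses.mk_eq_mk_iff_isConj, isConj_comm, isConj_iff]
        exact ⟨_, h2⟩)
    apply Nat.card_congr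
    apply Equiv.ofBijective f
    constructor
    · intro q q'
      induction q using Quotient.inductionOn with
      | _ y =>
      induction q' using Quotient.inductionOn with
      | _ y' =>
      intro h
      have h1 : ConjClasses.mk y.1 = ConjClasses.mk y'.1 := congrArg Subtype.val h
      obtain ⟨c, hc⟩ := isConj_iff.mp (ConjClasses.mk_eq_mk_iff_isConj.mp h1)
      apply Quotient.sound
      show MulAction.orbitRel (ConjAct X) Y y y'
      rw [MulAction.orbitRel_apply, MulAction.mem_orbit_iff]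
      refine ⟨ConjAct.toConjAct c⁻¹, Subtype.ext ?_⟩
      rw [hsmul]
      simp only [ConjAct.ofConjAct_toConjAct]
      rw [← hc]; group
    · rintro ⟨C, hC⟩
      obtain ⟨g, rfl⟩ := ConjClasses.mk_surjective C
      exact ⟨Quotient.mk _ ⟨g, hC g rfl⟩, rfl⟩
  rw [hL, hB, hR, Nat.card_eq_fintype_card (α := X)]
  rfl


theorem card_le_mul_of_fiber {α β : Type*} [Finite α] [Finite β] (f : α → β) (c : ℕ)
    (h : ∀ b, Nat.card {a // f a = b} ≤ c) : Nat.card α ≤ Nat.card β * c := by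
  have := Fintype.ofFinite β
  rw [← Nat.card_congr (Equiv.sigmaFiberEquiv f), Nat.card_sigma]
  calc ∑ b, Nat.card {a // f a = b} ≤ ∑ _b : β, c := Finset.sum_le_sum fun b _ => h b
    _ = Nat.card β * c := by simp [Nat.card_eq_fintype_card]

/-- Elements of a coset commuting with `y` are at most as many as elements of `N` commuting with `y`. -/
theorem coset_inj {G : Type*} [Group G] [Finite G] (N : Subgroup G) [N.Normal] (Q : G → Prop)
    (xb : G ⧸ N) :
    Nat.card {p : G × G // Q p.1 ∧ (QuotientGroup.mk p.2 : G ⧸ N) = xb ∧ Commute p.1 p.2} ≤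
      Nat.card {p : G × N // Q p.1 ∧ Commute p.1 (p.2 : G)} := by
  classical
  let r : G → G := fun y =>
    if h : ∃ h' : G, (QuotientGroup.mk h' : G ⧸ N) = xb ∧ Commute y h' then h.choose else 1
  have hr : ∀ y h', (QuotientGroup.mk h' : G ⧸ N) = xb → Commute y h' →
      (QuotientGroup.mk (r y) : G ⧸ N) = xb ∧ Commute y (r y) := by
    intro y h' h1 h2
    have hex : ∃ h' : G, (QuotientGroup.mk h' : G ⧸ N) = xb ∧ Commute y h' := ⟨h', h1, h2⟩
    have : r y = hex.choose := dif_pos hex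
    rw [this]
    exact hex.choose_spec
  refine Nat.card_le_card_of_injective
    (fun p => ⟨(p.1.1, ⟨(r p.1.1)⁻¹ * p.1.2, ?_⟩), p.2.1, ?_⟩) ?_
  · have h1 := hr p.1.1 p.1.2 p.2.2.1 p.2.2.2
    exact QuotientGroup.eq.mp (h1.1.trans p.2.2.1.symm)
  · have h1 := hr p.1.1 p.1.2 p.2.2.1 p.2.2.2
    exact (h1.2.inv_right).mul_right p.2.2.2
  · rintro ⟨⟨y, h⟩, hp⟩ ⟨⟨y', h'⟩, hp'⟩ heq
    have h1 : y = y' := congrArg (fun q => q.1.1) heq
    subst h1
    have h2 : (r y)⁻¹ * h = (r y)⁻¹ * h' := congrArg (fun q => ((q.1.2 : N) : G)) heq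
    have h3 : h = h' := mul_left_cancel h2
    subst h3
    rfl

theorem isPi_conj (π : Set ℕ) {X : Type*} [Group X] (a g : X) (h : IsPi π g) : IsPi π (a * g * a⁻¹) := by
  intro q hq hqd
  have h1 : orderOf (a * g * a⁻¹) = orderOf g := (MulAut.conj a).orderOf_eq g
  rw [h1] at hqd
  exact h q hq hqd

/-- The main counting inequality for commuting pairs with `π`-first entry. -/
theorem card_pairs_le {G : Type*} [Group G] [Finite G] (N : Subgroup G) [N.Normal] (π : Set ℕ) :
    Nat.card {p : G × G // IsPi π p.1 ∧ Commute p.1 p.2} ≤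
      Nat.card {p : (G ⧸ N) × (G ⧸ N) // IsPi π p.1 ∧ Commute p.1 p.2} *
        Nat.card {p : N × N // IsPi π p.1 ∧ Commute p.1 p.2} := by
  classical
  obtain ⟨e, e', he, he', hee, huniq⟩ := exists_exponents π G
  let Φ : {p : G × G // IsPi π p.1 ∧ Commute p.1 p.2} →
      {p : (G ⧸ N) × (G ⧸ N) // IsPi π p.1 ∧ Commute p.1 p.2} := fun p =>
    ⟨((QuotientGroup.mk p.1.1 : G ⧸ N), (QuotientGroup.mk p.1.2 : G ⧸ N)), by
      constructor
      · intro q hq hqd
        exact p.2.1 q hq (dvd_trans hqd (orderOf_map_dvd (QuotientGroup.mk' N) p.1.1))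
      · exact p.2.2.map (QuotientGroup.mk' N)⟩
  apply card_le_mul_of_fiber Φ
  intro t
  -- step 0: the fibre embeds in F
  have h0 : Nat.card {a // Φ a = t} ≤
      Nat.card {p : G × G // ((QuotientGroup.mk p.1 : G ⧸ N) = t.1.1 ∧ IsPi π p.1) ∧
        (QuotientGroup.mk p.2 : G ⧸ N) = t.1.2 ∧ Commute p.1 p.2} := by
    refine Nat.card_le_card_of_injective (fun a => ⟨a.1.1, ⟨?_, a.1.2.1⟩, ?_, a.1.2.2⟩) ?_
    · exact congrArg (fun s => s.1.1) a.2
    · exact congrArg (fun s => s.1.2) a.2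
    · intro a a' haa
      apply Subtype.ext
      apply Subtype.ext
      have h9 := congrArg Subtype.val haa
      exact h9
  -- step 1
  have h1 := coset_inj N (fun g => (QuotientGroup.mk g : G ⧸ N) = t.1.1 ∧ IsPi π g) t.1.2
  -- step 2
  have h2 : Nat.card {p : G × N // ((QuotientGroup.mk p.1 : G ⧸ N) = t.1.1 ∧ IsPi π p.1) ∧
        Commute p.1 (p.2 : G)} ≤
      Nat.card {p : G × G // (p.1 ∈ N ∧ IsPi π p.1) ∧
        (QuotientGroup.mk p.2 : G ⧸ N) = t.1.1 ∧ Commute p.1 p.2} := by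
    refine Nat.card_le_card_of_injective
      (fun p => ⟨((p.1.2 : G) ^ e, p.1.1 * (p.1.2 : G) ^ e'), ⟨N.pow_mem p.1.2.2 e, he _⟩, ?_, ?_⟩) ?_
    · have h3 : ((p.1.2 : G) ^ e') ∈ N := N.pow_mem p.1.2.2 e'
      rw [QuotientGroup.mk_mul, (QuotientGroup.eq_one_iff _).mpr h3, mul_one]
      exact p.2.1.1
    · have hc : Commute p.1.1 (p.1.2 : G) := p.2.2
      exact ((hc.pow_right e).symm).mul_right ((Commute.refl (p.1.2 : G)).pow_pow e e')
    · rintro ⟨⟨g, n⟩, ⟨hg1, hg2⟩, hc⟩ ⟨⟨g1, n1⟩, ⟨hg1', hg2'⟩, hc'⟩ heq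
      have ha : (n : G) ^ e = (n1 : G) ^ e := congrArg (fun q => q.1.1) heq
      have hb : g * (n : G) ^ e' = g1 * (n1 : G) ^ e' := congrArg (fun q => q.1.2) heq
      have hc1 : Commute g ((n : G) ^ e') := Commute.pow_right hc e'
      have hc2 : Commute g1 ((n1 : G) ^ e') := Commute.pow_right hc' e'
      have u1 := huniq g ((n : G) ^ e') hc1 hg2 (he' _)
      have u2 := huniq g1 ((n1 : G) ^ e') hc2 hg2' (he' _)
      have hgg : g = g1 := by rw [← u1.1, ← u2.1, hb]
      have hnn' : (n : G) ^ e' = (n1 : G) ^ e' := by rw [← u1.2, ← u2.2, hb]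
      have hn : (n : G) = (n1 : G) := by rw [← hee (n : G), ← hee (n1 : G), ha, hnn']
      have hn' : n = n1 := Subtype.ext hn
      subst hgg; subst hn'
      rfl
  -- step 3
  have h3 := coset_inj N (fun n => n ∈ N ∧ IsPi π n) t.1.1
  -- step 4
  have h4 : Nat.card {p : G × N // (p.1 ∈ N ∧ IsPi π p.1) ∧ Commute p.1 (p.2 : G)} ≤
      Nat.card {p : N × N // IsPi π p.1 ∧ Commute p.1 p.2} := by
    refine Nat.card_le_card_of_injective
      (fun p => ⟨(⟨p.1.1, p.2.1.1⟩, p.1.2), ?_, ?_⟩) ?_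
    · intro q hq hqd
      have h5 : orderOf (⟨p.1.1, p.2.1.1⟩ : N) = orderOf p.1.1 :=
        (Subgroup.orderOf_coe (⟨p.1.1, p.2.1.1⟩ : N)).symm
      rw [h5] at hqd
      exact p.2.1.2 q hq hqd
    · exact Subtype.ext p.2.2
    · rintro ⟨⟨n, m⟩, hp⟩ ⟨⟨n', m'⟩, hp'⟩ heq
      have h5 : n = n' := congrArg (fun q => ((q.1.1 : N) : G)) heq
      have h6 : m = m' := congrArg (fun q => q.1.2) heq
      subst h5; subst h6
      rfl
  exact h0.trans (h1.trans (h2.trans (h3.trans h4)))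

theorem pred_iff (π : Set ℕ) {X : Type*} [Group X] (C : ConjClasses X) :
    (∀ g : X, ConjClasses.mk g = C → IsPi π g) ↔
      (∀ q : ℕ, q.Prime → (∃ g : X, ConjClasses.mk g = C ∧ q ∣ orderOf g) → q ∈ π) := by
  constructor
  · rintro h q hq ⟨g, hg, hqd⟩
    exact h g hg q hq hqd
  · intro h g hg q hq hqd
    exact h q hq ⟨g, hg, hqd⟩

theorem card_pairs_eq (π : Set ℕ) (X : Type*) [Group X] [Finite X] :
    Nat.card {p : X × X // IsPi π p.1 ∧ Commute p.1 p.2} =
      Nat.card {C : ConjClasses X // ∀ q : ℕ, q.Prime → (∃ g : X, ConjClasses.mk g = C ∧ q ∣ orderOf g) → q ∈ π} *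
        Nat.card X := by
  rw [card_comm_pred X (IsPi π) (fun a g h => isPi_conj π a g h)]
  congr 1
  exact Nat.card_congr (Equiv.subtypeEquivRight (pred_iff π))

/-- Let G be a finite group, N a normal subgroup and π a set of primes. Then the number of conjugacy classes of π-elements of G (elements whose order is divisible only by primes in π) is at most the number of conjugacy classes of π-elements of N (under conjugation by N) times the number of conjugacy classes of π-elements of G/N. -/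
theorem result {G : Type*} [Group G] [Finite G] (N : Subgroup G) [N.Normal] (π : Set ℕ) :
    Nat.card {C : ConjClasses G // ∀ q : ℕ, q.Prime → (∃ g : G, ConjClasses.mk g = C ∧ q ∣ orderOf g) → q ∈ π} ≤ Nat.card {C : ConjClasses N // ∀ q : ℕ, q.Prime → (∃ g : N, ConjClasses.mk g = C ∧ q ∣ orderOf g) → q ∈ π} * Nat.card {C : ConjClasses (G ⧸ N) // ∀ q : ℕ, q.Prime → (∃ g : (G ⧸ N), ConjClasses.mk g = C ∧ q ∣ orderOf g) → q ∈ π} := by
  have hM := card_pairs_le N π
  rw [card_pairs_eq π G, card_pairs_eq π (G ⧸ N), card_pairs_eq π N] at hM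
  have hcard : Nat.card G = Nat.card (G ⧸ N) * Nat.card N := Subgroup.card_eq_card_quotient_mul_card_subgroup N
  have hpos : 0 < Nat.card G := Nat.card_pos
  set kG := Nat.card {C : ConjClasses G // ∀ q : ℕ, q.Prime → (∃ g : G, ConjClasses.mk g = C ∧ q ∣ orderOf g) → q ∈ π}
  set kN := Nat.card {C : ConjClasses N // ∀ q : ℕ, q.Prime → (∃ g : N, ConjClasses.mk g = C ∧ q ∣ orderOf g) → q ∈ π}
  set kQ := Nat.card {C : ConjClasses (G ⧸ N) // ∀ q : ℕ, q.Prime → (∃ g : (G ⧸ N), ConjClasses.mk g = C ∧ q ∣ orderOf g) → q ∈ π}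
  have h1 : kG * Nat.card G ≤ (kN * kQ) * Nat.card G := by
    calc kG * Nat.card G ≤ kQ * Nat.card (G ⧸ N) * (kN * Nat.card N) := hM
      _ = (kN * kQ) * (Nat.card (G ⧸ N) * Nat.card N) := by ring
      _ = (kN * kQ) * Nat.card G := by rw [← hcard]
  exact Nat.le_of_mul_le_mul_right h1 hpos

end Cfsg.Agent.S4152
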