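import Cfsg.Statements.S4153
import Cfsg.Agent.Lib.Helper69.CyclicSylow

set_option autoImplicit false
open Cfsg

namespace Cfsg.Agent.S4153

open Cfsg.Agent.Lib.Helper69 Subgroup

theorem mul_card_le_of_fiber {α β : Type*} [Finite α] [Finite β] (f : α → β) (c : ℕ)
    (h : ∀ b, c ≤ Nat.card {a // f a = b}) : Nat.card β * c ≤ Nat.card α := by
  have := Fintype.ofFinite β
  rw [← Nat.card_congr (Equiv.sigmaFiberEquiv f), Nat.card_sigma]
  calc Nat.card β * c = ∑ _b : β, c := by simp [Nat.card_eq_fintype_card]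
    _ ≤ ∑ b, Nat.card {a // f a = b} := Finset.sum_le_sum fun b _ => h b

theorem card_le_mul_of_fiber' {α β : Type*} [Finite α] [Finite β] (f : α → β) (c : ℕ)
    (h : ∀ b, Nat.card {a // f a = b} ≤ c) : Nat.card α ≤ Nat.card β * c := by
  have := Fintype.ofFinite β
  rw [← Nat.card_congr (Equiv.sigmaFiberEquiv f), Nat.card_sigma]
  calc ∑ b, Nat.card {a // f a = b} ≤ ∑ _b : β, c := Finset.sum_le_sum fun b _ => h b
    _ = Nat.card β * c := by simp [Nat.card_eq_fintype_card]

/-- Let G be a finite group, p a prime, N a normal subgroup, P a Sylow p-subgroup of G and P̄ a Sylow p-subgroup of G/N. Count the elements of p-power order, the identity included. Then (number of such elements of G/N)/#P̄ ≤ (number of such elements of G)/#P, stated as a cross-multiplied inequality, with equality when N is central. -/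
theorem result {G : Type*} [Group G] [Finite G] (p : ℕ) [Fact p.Prime] (N : Subgroup G) [N.Normal]
    (P : Sylow p G) (Pbar : Sylow p (G ⧸ N)) :
    Nat.card {g : (G ⧸ N) // ∃ k : ℕ, orderOf g = p ^ k} * Nat.card (P : Subgroup G) ≤ Nat.card {g : G // ∃ k : ℕ, orderOf g = p ^ k} * Nat.card (Pbar : Subgroup (G ⧸ N)) ∧
    (N ≤ Subgroup.center G → Nat.card {g : (G ⧸ N) // ∃ k : ℕ, orderOf g = p ^ k} * Nat.card (P : Subgroup G) = Nat.card {g : G // ∃ k : ℕ, orderOf g = p ^ k} * Nat.card (Pbar : Subgroup (G ⧸ N))) := by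
  classical
  have hp : p.Prime := Fact.out
  have hNn : N.Normal := inferInstance
  let Q' : Sylow p N := default
  have hcard : Nat.card (P : Subgroup G) = Nat.card Q' * Nat.card (Pbar : Subgroup (G ⧸ N)) := by
    have h1 : Nat.card G = Nat.card N * Nat.card (G ⧸ N) := by
      rw [← N.card_mul_index, Subgroup.index_eq_card]
    have e1 := P.card_eq_multiplicity
    have e2 := Q'.card_eq_multiplicity
    have e3 := Pbar.card_eq_multiplicity
    rw [e1, e2, e3, ← pow_add, h1, Nat.factorization_mul Nat.card_pos.ne' Nat.card_pos.ne']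
    rfl
  have hφ : ∀ g : G, (∃ k : ℕ, orderOf g = p ^ k) →
      ∃ k : ℕ, orderOf (QuotientGroup.mk g : G ⧸ N) = p ^ k := by
    rintro g ⟨k, hk⟩
    have h1 : orderOf (QuotientGroup.mk g : G ⧸ N) ∣ p ^ k :=
      hk ▸ orderOf_map_dvd (QuotientGroup.mk' N) g
    obtain ⟨j, -, hj⟩ := (Nat.dvd_prime_pow hp).mp h1
    exact ⟨j, hj⟩
  let φ : {g : G // ∃ k : ℕ, orderOf g = p ^ k} → {g : (G ⧸ N) // ∃ k : ℕ, orderOf g = p ^ k} :=
    fun g => ⟨QuotientGroup.mk g.1, hφ g.1 g.2⟩
  have hQ'p : IsPGroup p ((Q' : Subgroup N).map N.subtype) := Q'.isPGroup'.map _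
  obtain ⟨P', hP'⟩ := hQ'p.exists_le_sylow
  obtain ⟨e, e', he1, he2, he3, -⟩ := exists_pExponents p G
  have hlower : ∀ y : {g : (G ⧸ N) // ∃ k : ℕ, orderOf g = p ^ k},
      Nat.card Q' ≤ Nat.card {g : {g : G // ∃ k : ℕ, orderOf g = p ^ k} // φ g = y} := by
    rintro ⟨y, hy⟩
    obtain ⟨x, rfl⟩ := QuotientGroup.mk_surjective y
    have hsp : ∃ k, orderOf (x ^ e) = p ^ k := he1 x
    have hπs : (QuotientGroup.mk (x ^ e) : G ⧸ N) = QuotientGroup.mk x := by
      have h1 : (QuotientGroup.mk (x ^ e') : G ⧸ N) = 1 := by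
        have hd1 : orderOf (QuotientGroup.mk (x ^ e') : G ⧸ N) ∣ orderOf (x ^ e') :=
          orderOf_map_dvd (QuotientGroup.mk' N) _
        have hd2 : orderOf (QuotientGroup.mk (x ^ e') : G ⧸ N) ∣
            orderOf (QuotientGroup.mk x : G ⧸ N) := by
          rw [QuotientGroup.mk_pow]; exact orderOf_pow_dvd e'
        obtain ⟨k, hk⟩ := hy
        rw [hk] at hd2
        have h2 : orderOf (QuotientGroup.mk (x ^ e') : G ⧸ N) = 1 :=
          Nat.eq_one_of_dvd_coprimes (Nat.Coprime.pow_right k (he2 x)) hd1 hd2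
        exact orderOf_eq_one_iff.mp h2
      calc (QuotientGroup.mk (x ^ e) : G ⧸ N)
          = QuotientGroup.mk (x ^ e) * QuotientGroup.mk (x ^ e') := by rw [h1, mul_one]
        _ = QuotientGroup.mk (x ^ e * x ^ e') := (QuotientGroup.mk_mul N _ _).symm
        _ = QuotientGroup.mk x := by rw [he3]
    have hzp : IsPGroup p (zpowers (x ^ e)) := by
      obtain ⟨k, hk⟩ := hsp
      exact IsPGroup.of_card (n := k) (by rw [Nat.card_zpowers, hk])
    obtain ⟨c, -, hc⟩ := exists_conj_le_sylow_in P' (N := ⊤) le_top le_top hzp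
    have hcs : c * x ^ e * c⁻¹ ∈ (P' : Subgroup G) := hc _ (mem_zpowers _)
    have hmem : ∀ q : Q', ∃ k : ℕ, orderOf (x ^ e * (c⁻¹ * ((q : N) : G) * c)) = p ^ k := by
      intro q
      have h1 : c * (x ^ e * (c⁻¹ * ((q : N) : G) * c)) * c⁻¹ ∈ (P' : Subgroup G) := by
        have h2 : c * (x ^ e * (c⁻¹ * ((q : N) : G) * c)) * c⁻¹
            = (c * x ^ e * c⁻¹) * ((q : N) : G) := by group
        rw [h2]
        exact mul_mem hcs (hP' ⟨(q : N), q.2, rfl⟩)
      obtain ⟨k, hk⟩ := P'.isPGroup' ⟨_, h1⟩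
      have h2 : (c * (x ^ e * (c⁻¹ * ((q : N) : G) * c)) * c⁻¹) ^ p ^ k = 1 := by
        simpa using congrArg Subtype.val hk
      have h3 : orderOf (x ^ e * (c⁻¹ * ((q : N) : G) * c))
          = orderOf (c * (x ^ e * (c⁻¹ * ((q : N) : G) * c)) * c⁻¹) :=
        SemiconjBy.orderOf_eq c (by unfold SemiconjBy; group)
      obtain ⟨j, -, hj⟩ := (Nat.dvd_prime_pow hp).mp (orderOf_dvd_of_pow_eq_one h2)
      exact ⟨j, by rw [h3, hj]⟩
    have hfib : ∀ q : Q', φ ⟨x ^ e * (c⁻¹ * ((q : N) : G) * c), hmem q⟩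
        = ⟨QuotientGroup.mk x, hy⟩ := by
      intro q
      apply Subtype.ext
      show (QuotientGroup.mk (x ^ e * (c⁻¹ * ((q : N) : G) * c)) : G ⧸ N) = QuotientGroup.mk x
      rw [QuotientGroup.mk_mul, hπs]
      have h1 : (QuotientGroup.mk (c⁻¹ * ((q : N) : G) * c) : G ⧸ N) = 1 := by
        rw [QuotientGroup.eq_one_iff]
        have := hNn.conj_mem _ (q : N).2 c⁻¹
        simpa using this
      rw [h1, mul_one]
    apply Nat.card_le_card_of_injective
      (fun q : Q' => (⟨⟨x ^ e * (c⁻¹ * ((q : N) : G) * c), hmem q⟩, hfib q⟩ :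
        {g : {g : G // ∃ k : ℕ, orderOf g = p ^ k} // φ g = ⟨QuotientGroup.mk x, hy⟩}))
    intro q q' hqq
    have h1 : x ^ e * (c⁻¹ * ((q : N) : G) * c) = x ^ e * (c⁻¹ * ((q' : N) : G) * c) :=
      congrArg (fun z => (z.1.1 : G)) hqq
    have h2 : ((q : N) : G) = ((q' : N) : G) := by
      have h3 := mul_left_cancel h1
      have h4 : c * (c⁻¹ * ((q : N) : G) * c) * c⁻¹ = c * (c⁻¹ * ((q' : N) : G) * c) * c⁻¹ := by
        rw [h3]
      simpa [mul_assoc] using h4
    exact Subtype.ext (Subtype.ext h2)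
  have hL := mul_card_le_of_fiber φ _ hlower
  constructor
  · calc Nat.card {g : (G ⧸ N) // ∃ k : ℕ, orderOf g = p ^ k} * Nat.card (P : Subgroup G)
        = (Nat.card {g : (G ⧸ N) // ∃ k : ℕ, orderOf g = p ^ k} * Nat.card Q') *
            Nat.card (Pbar : Subgroup (G ⧸ N)) := by rw [hcard]; ring
      _ ≤ Nat.card {g : G // ∃ k : ℕ, orderOf g = p ^ k} * Nat.card (Pbar : Subgroup (G ⧸ N)) :=
        Nat.mul_le_mul_right _ hL
  · intro hcen
    have hQn : (Q' : Subgroup N).Normal := by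
      constructor
      intro a ha b
      have h1 : b * a * b⁻¹ = a := by
        have hb : (b : G) ∈ center G := hcen b.2
        apply Subtype.ext
        have h2 := (mem_center_iff.mp hb) (a : G)
        show (b : G) * (a : G) * (b : G)⁻¹ = (a : G)
        rw [← h2]; group
      rw [h1]; exact ha
    have huniq := Sylow.unique_of_normal Q' hQn
    have hupper : ∀ y : {g : (G ⧸ N) // ∃ k : ℕ, orderOf g = p ^ k},
        Nat.card {g : {g : G // ∃ k : ℕ, orderOf g = p ^ k} // φ g = y} ≤ Nat.card Q' := by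
      intro y
      by_cases hne : Nonempty {g : {g : G // ∃ k : ℕ, orderOf g = p ^ k} // φ g = y}
      · obtain ⟨⟨⟨s, hsp⟩, hsy⟩⟩ := hne
        have hkey : ∀ g : {g : {g : G // ∃ k : ℕ, orderOf g = p ^ k} // φ g = y},
            ∃ h : s⁻¹ * (g.1.1 : G) ∈ N, (⟨s⁻¹ * g.1.1, h⟩ : N) ∈ (Q' : Subgroup N) := by
          intro g
          have h1 : s⁻¹ * (g.1.1 : G) ∈ N := by
            apply QuotientGroup.eq.mp
            exact congrArg Subtype.val (hsy.trans g.2.symm)
          refine ⟨h1, ?_⟩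
          have hnc : s⁻¹ * (g.1.1 : G) ∈ center G := hcen h1
          have hcomm : Commute s⁻¹ (g.1.1 : G) := by
            have h2 := (mem_center_iff.mp hnc) s
            -- s * (s⁻¹ * g) = (s⁻¹ * g) * s
            have h3 : (g.1.1 : G) * s = s * (g.1.1 : G) := by
              calc (g.1.1 : G) * s = s * ((s⁻¹ * (g.1.1 : G)) * s) := by group
                _ = s * (s * (s⁻¹ * (g.1.1 : G))) := by rw [h2]
                _ = s * (g.1.1 : G) := by group
            exact (Commute.inv_left (show Commute s (g.1.1 : G) from h3.symm))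
          obtain ⟨ks, hks⟩ := hsp
          obtain ⟨kg, hkg⟩ := g.1.2
          have hpow : (s⁻¹ * (g.1.1 : G)) ^ (p ^ ks * p ^ kg) = 1 := by
            rw [hcomm.mul_pow, inv_pow, pow_mul, ← hks, pow_orderOf_eq_one, one_pow, inv_one,
              one_mul, mul_comm, pow_mul, ← hkg, pow_orderOf_eq_one, one_pow]
          have hnp : IsPGroup p (zpowers (⟨s⁻¹ * g.1.1, h1⟩ : N)) := by
            have h4 : (⟨s⁻¹ * g.1.1, h1⟩ : N) ^ (p ^ (ks + kg)) = 1 := by
              apply Subtype.ext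
              rw [pow_add]
              simpa using hpow
            obtain ⟨j, -, hj⟩ := (Nat.dvd_prime_pow hp).mp (orderOf_dvd_of_pow_eq_one h4)
            exact IsPGroup.of_card (n := j) (by rw [Nat.card_zpowers, hj])
          obtain ⟨Q'', hQ''⟩ := hnp.exists_le_sylow
          have hQQ : Q'' = Q' := Subsingleton.elim _ _
          rw [← hQQ]
          exact hQ'' (mem_zpowers _)
        apply Nat.card_le_card_of_injective
          (fun g => (⟨⟨s⁻¹ * g.1.1, (hkey g).choose⟩, (hkey g).choose_spec⟩ : Q'))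
        intro g g' hgg
        have h5 : s⁻¹ * (g.1.1 : G) = s⁻¹ * (g'.1.1 : G) :=
          congrArg (fun z : Q' => ((z : N) : G)) hgg
        exact Subtype.ext (Subtype.ext (mul_left_cancel h5))
      · rw [not_nonempty_iff] at hne
        simp
    have hU := card_le_mul_of_fiber' φ _ hupper
    have hE := le_antisymm hU hL
    rw [hE, hcard]; ring

end Cfsg.Agent.S4153
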