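import Cfsg.Statements.S4154

set_option autoImplicit false
open Cfsg

namespace Cfsg.Agent.S4154

/-- Let G be a finite group and α an automorphism of G such that every element of G is the product of an element fixed by α and an element of the form g⁻¹α(g). If N is a normal α-invariant subgroup, then the automorphism ᾱ induced on G/N has the same property, and every coset fixed by ᾱ contains an element fixed by α (so the fixed points of ᾱ are the images of the fixed points of α). -/
theorem result {G : Type*} [Group G] [Finite G] (α : MulAut G)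
    (hccp : ∀ x : G, ∃ c g : G, α c = c ∧ x = c * (g⁻¹ * α g))
    (N : Subgroup G) [N.Normal] (hN : ∀ n ∈ N, α n ∈ N) :
    (∀ x : G, ∃ c g : G, c⁻¹ * α c ∈ N ∧ x⁻¹ * (c * (g⁻¹ * α g)) ∈ N) ∧
    (∀ x : G, x⁻¹ * α x ∈ N → ∃ c : G, α c = c ∧ c⁻¹ * x ∈ N) := by
  constructor
  · intro x
    obtain ⟨c, g, hc, hx⟩ := hccp x
    refine ⟨c, g, ?_, ?_⟩
    · rw [hc, inv_mul_cancel]; exact N.one_mem
    · rw [← hx, inv_mul_cancel]; exact N.one_mem
  · let lam : G → G ⧸ N := fun g => (QuotientGroup.mk (g⁻¹ * α g) : G ⧸ N)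
    have hlam_def : ∀ g, lam g = (QuotientGroup.mk g : G ⧸ N)⁻¹ * QuotientGroup.mk (α g) := fun g => rfl
    have hmkN : ∀ n ∈ N, (QuotientGroup.mk n : G ⧸ N) = 1 := fun n hn => (QuotientGroup.eq_one_iff n).mpr hn
    have hlamN : ∀ g n, n ∈ N → lam (g * n) = lam g := by
      intro g n hn
      rw [hlam_def, hlam_def, map_mul, QuotientGroup.mk_mul, QuotientGroup.mk_mul, hmkN n hn,
        hmkN _ (hN n hn), mul_one, mul_one]
    have hlamD : ∀ d y, lam d = 1 → lam (d * y) = lam y := by
      intro d y hd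
      rw [hlam_def] at hd
      rw [hlam_def, hlam_def, map_mul, QuotientGroup.mk_mul, QuotientGroup.mk_mul, mul_inv_rev]
      calc (QuotientGroup.mk y : G ⧸ N)⁻¹ * (QuotientGroup.mk d)⁻¹ * (QuotientGroup.mk (α d) * QuotientGroup.mk (α y))
          = (QuotientGroup.mk y : G ⧸ N)⁻¹ * ((QuotientGroup.mk d)⁻¹ * QuotientGroup.mk (α d)) * QuotientGroup.mk (α y) := by group
        _ = (QuotientGroup.mk y : G ⧸ N)⁻¹ * QuotientGroup.mk (α y) := by rw [hd, mul_one]
    let lamb : G ⧸ N → G ⧸ N := fun q => lam q.out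
    have hlamb : ∀ g, lamb (QuotientGroup.mk g) = lam g := by
      intro g
      obtain ⟨n, hout⟩ := QuotientGroup.mk_out_eq_mul N g
      show lam (QuotientGroup.mk g : G ⧸ N).out = lam g
      rw [hout]
      exact hlamN g n n.2
    have hfix : ∀ c, α c = c → lam c = 1 := by
      intro c hc
      show (QuotientGroup.mk (c⁻¹ * α c) : G ⧸ N) = 1
      rw [hc, inv_mul_cancel]; rfl
    let I : Set (G ⧸ N) := Set.range lam
    let f : I → I := fun q => ⟨lamb q.1, by
      obtain ⟨g, hg⟩ := q.2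
      exact ⟨g⁻¹ * α g, by rw [← hg]; exact (hlamb _).symm⟩⟩
    have hfsurj : Function.Surjective f := by
      rintro ⟨q, h, rfl⟩
      obtain ⟨c, g, hc, hh⟩ := hccp h
      refine ⟨⟨lam g, g, rfl⟩, Subtype.ext ?_⟩
      show lamb (lam g) = lam h
      rw [show lam g = QuotientGroup.mk (g⁻¹ * α g) from rfl, hlamb, hh, hlamD c _ (hfix c hc)]
    have hfinj : Function.Injective f := Finite.injective_iff_surjective.mpr hfsurj
    intro x hx
    have hx1 : lam x = 1 := (QuotientGroup.eq_one_iff _).mpr hx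
    obtain ⟨c, g, hc, hxc⟩ := hccp x
    refine ⟨c, hc, ?_⟩
    have hk : lam (g⁻¹ * α g) = 1 := by
      rw [← hlamD c _ (hfix c hc), ← hxc]; exact hx1
    have h1 : f ⟨lam g, g, rfl⟩ = f ⟨1, 1, hfix 1 (map_one α)⟩ := by
      apply Subtype.ext
      show lamb (lam g) = lamb 1
      rw [show lam g = QuotientGroup.mk (g⁻¹ * α g) from rfl, hlamb, hk]
      have : lamb ((QuotientGroup.mk (1 : G) : G ⧸ N)) = lam 1 := hlamb 1
      rw [hfix 1 (map_one α)] at this
      exact this.symm
    have h2 := congrArg Subtype.val (hfinj h1)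
    have h3 : g⁻¹ * α g ∈ N := (QuotientGroup.eq_one_iff _).mp h2
    rw [hxc, ← mul_assoc, inv_mul_cancel, one_mul]
    exact h3

end Cfsg.Agent.S4154
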