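import Cfsg.Statements.S4156

set_option autoImplicit false
open Cfsg

namespace Cfsg.Agent.S4156

open Equiv Matrix

/-- Matrix of a permutation of `Fin (n+1)` acting on the sum-zero vectors, in the basis
`e_i - e_n` (`i < n`). -/
def delMat (n : ℕ) (F : Type*) [Field F] (σ : Perm (Fin (n + 1))) : Matrix (Fin n) (Fin n) F :=
  Matrix.of fun j i => (if σ i.castSucc = j.castSucc then (1 : F) else 0) -
    (if σ (Fin.last n) = j.castSucc then 1 else 0)

theorem sum_castSucc {n : ℕ} {F : Type*} [Field F] (x : Fin (n + 1)) (g : Fin (n + 1) → F) :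
    ∑ k : Fin n, (if x = k.castSucc then g k.castSucc else 0)
      = if x = Fin.last n then 0 else g x := by
  by_cases hx : x = Fin.last n
  · rw [if_pos hx]
    apply Finset.sum_eq_zero
    intro k _
    rw [if_neg]
    rw [hx]
    exact (Fin.castSucc_lt_last k).ne'
  · rw [if_neg hx]
    obtain ⟨k₀, rfl⟩ := Fin.exists_castSucc_eq.mpr hx
    simp [Fin.castSucc_inj]

theorem delMat_apply (n : ℕ) (F : Type*) [Field F] (σ : Perm (Fin (n + 1))) (j i : Fin n) :
    delMat n F σ j i = (if σ i.castSucc = j.castSucc then (1 : F) else 0) -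
      (if σ (Fin.last n) = j.castSucc then 1 else 0) := rfl

theorem delMat_one (n : ℕ) (F : Type*) [Field F] : delMat n F 1 = 1 := by
  ext j i
  have h0 : Fin.last n ≠ j.castSucc := (Fin.castSucc_lt_last j).ne'
  rw [delMat_apply, Perm.one_apply, Perm.one_apply, if_neg h0, sub_zero, Matrix.one_apply]
  by_cases h : j = i
  · subst h
    rw [if_pos rfl, if_pos rfl]
  · have h' : i.castSucc ≠ j.castSucc := fun hh => h (Fin.castSucc_inj.mp hh).symm
    rw [if_neg h', if_neg h]

theorem delMat_mul (n : ℕ) (F : Type*) [Field F] (σ τ : Perm (Fin (n + 1))) :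
    delMat n F (σ * τ) = delMat n F σ * delMat n F τ := by
  ext j i
  rw [delMat_apply, Matrix.mul_apply, Perm.mul_apply, Perm.mul_apply]
  let g : Fin (n + 1) → F := fun y => (if σ y = j.castSucc then (1 : F) else 0) -
    (if σ (Fin.last n) = j.castSucc then 1 else 0)
  have h1 : ∀ k : Fin n, delMat n F σ j k * delMat n F τ k i
      = (if τ i.castSucc = k.castSucc then g k.castSucc else 0)
        - (if τ (Fin.last n) = k.castSucc then g k.castSucc else 0) := by
    intro k
    rw [delMat_apply, delMat_apply]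
    show _ = (if τ i.castSucc = k.castSucc then ((if σ k.castSucc = j.castSucc then (1 : F) else 0) -
        (if σ (Fin.last n) = j.castSucc then 1 else 0)) else 0) -
      (if τ (Fin.last n) = k.castSucc then ((if σ k.castSucc = j.castSucc then (1 : F) else 0) -
        (if σ (Fin.last n) = j.castSucc then 1 else 0)) else 0)
    split_ifs <;> ring
  rw [Finset.sum_congr rfl (fun k _ => h1 k), Finset.sum_sub_distrib,
    sum_castSucc (τ i.castSucc) g, sum_castSucc (τ (Fin.last n)) g]
  show _ = (if τ i.castSucc = Fin.last n then 0 else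
      ((if σ (τ i.castSucc) = j.castSucc then (1 : F) else 0) -
        (if σ (Fin.last n) = j.castSucc then 1 else 0))) -
    (if τ (Fin.last n) = Fin.last n then 0 else
      ((if σ (τ (Fin.last n)) = j.castSucc then (1 : F) else 0) -
        (if σ (Fin.last n) = j.castSucc then 1 else 0)))
  by_cases h2 : τ i.castSucc = Fin.last n <;> by_cases h3 : τ (Fin.last n) = Fin.last n
  · exact absurd (τ.injective (h2.trans h3.symm)) (Fin.castSucc_lt_last i).ne
  · rw [if_pos h2, if_neg h3, h2]; ring
  · rw [if_neg h2, if_pos h3, h3]; ring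
  · rw [if_neg h2, if_neg h3]; ring

/-- The deleted permutation representation as a monoid homomorphism into matrices. -/
def delHom (n : ℕ) (F : Type*) [Field F] : Perm (Fin (n + 1)) →* Matrix (Fin n) (Fin n) F where
  toFun := delMat n F
  map_one' := delMat_one n F
  map_mul' := delMat_mul n F

theorem det_delMat (n : ℕ) (F : Type*) [Field F] (hn : 5 ≤ n + 1) (σ : Perm (Fin (n + 1)))
    (hσ : σ ∈ alternatingGroup (Fin (n + 1))) : (delMat n F σ).det = 1 := by
  let d : Perm (Fin (n + 1)) →* F := (Matrix.detMonoidHom).comp (delHom n F)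
  show d σ = 1
  rw [← Equiv.Perm.closure_three_cycles_eq_alternating] at hσ
  induction hσ using Subgroup.closure_induction with
  | mem c hc =>
    have hc' : Perm.IsThreeCycle c := hc
    have h1 : IsConj (⟨c, hc'.mem_alternatingGroup⟩ : alternatingGroup (Fin (n + 1)))
        ⟨c * c, hc'.isThreeCycle_sq.mem_alternatingGroup⟩ :=
      alternatingGroup.isThreeCycle_isConj (by simpa using hn) hc' hc'.isThreeCycle_sq
    obtain ⟨g, hg⟩ := isConj_iff.mp h1
    have h2 : (g : Perm (Fin (n + 1))) * c * (g : Perm (Fin (n + 1)))⁻¹ = c * c :=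
      congrArg Subtype.val hg
    have h3 : d (g : Perm (Fin (n + 1))) * d ((g : Perm (Fin (n + 1)))⁻¹) = 1 := by
      rw [← map_mul, mul_inv_cancel, map_one]
    have h4 : d c * d c = d c := by
      rw [← map_mul, ← h2, map_mul, map_mul, mul_comm (d g) (d c), mul_assoc, h3, mul_one]
    have h5 : d c * d c⁻¹ = 1 := by rw [← map_mul, mul_inv_cancel, map_one]
    calc d c = d c * (d c * d c⁻¹) := by rw [h5, mul_one]
      _ = (d c * d c) * d c⁻¹ := by ring
      _ = 1 := by rw [h4, h5]
  | one => exact map_one d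
  | mul a b _ _ ha hb => rw [map_mul, ha, hb, mul_one]
  | inv a _ ha =>
    have h5 : d a * d a⁻¹ = 1 := by rw [← map_mul, mul_inv_cancel, map_one]
    rw [ha, one_mul] at h5
    exact h5

/-- The alternating group maps to the special linear group. -/
def slHom (n : ℕ) (F : Type*) [Field F] (hn : 5 ≤ n + 1) :
    alternatingGroup (Fin (n + 1)) →* Matrix.SpecialLinearGroup (Fin n) F where
  toFun σ := ⟨delMat n F σ, det_delMat n F hn σ σ.2⟩
  map_one' := Subtype.ext (delMat_one n F)
  map_mul' σ τ := Subtype.ext (delMat_mul n F σ τ)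

/-- Let n ≥ 5 and F a finite field. Then the projective special linear group PSL_n(F) contains a subgroup isomorphic to the alternating group of degree n + 1. -/
theorem result (n : ℕ) (hn : 5 ≤ n) (F : Type*) [Field F] [Finite F] :
    ∃ f : alternatingGroup (Fin (n + 1)) →* Matrix.ProjectiveSpecialLinearGroup (Fin n) F, Function.Injective f := by
  refine ⟨(QuotientGroup.mk' _).comp (slHom n F (by omega)), ?_⟩
  rw [injective_iff_map_eq_one]
  intro σ hσ
  have h1 : slHom n F (by omega) σ ∈ Subgroup.center (Matrix.SpecialLinearGroup (Fin n) F) :=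
    (QuotientGroup.eq_one_iff _).mp hσ
  rw [Matrix.SpecialLinearGroup.mem_center_iff] at h1
  obtain ⟨r, -, hr⟩ := h1
  have hoff : ∀ i j : Fin n, i ≠ j → delMat n F (σ : Perm (Fin (n + 1))) j i = 0 := by
    intro i j hij
    have h2 := congrArg (fun A : Matrix (Fin n) (Fin n) F => A j i) hr
    simp only [Matrix.scalar_apply, Matrix.diagonal_apply_ne _ hij.symm] at h2
    exact h2.symm
  have hkey : ∀ i j : Fin n, i ≠ j →
      (σ.1 i.castSucc = j.castSucc ↔ σ.1 (Fin.last n) = j.castSucc) := by
    intro i j hij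
    have h2 := hoff i j hij
    simp only [delMat, Matrix.of_apply] at h2
    by_cases ha : σ.1 i.castSucc = j.castSucc <;> by_cases hb : σ.1 (Fin.last n) = j.castSucc <;>
      simp [ha, hb] at h2 ⊢
  have hlast : σ.1 (Fin.last n) = Fin.last n := by
    by_contra hne
    obtain ⟨j, hj⟩ := Fin.exists_castSucc_eq.mpr hne
    obtain ⟨i, hi⟩ : ∃ i : Fin n, i ≠ j := by
      by_cases h0 : j = ⟨0, by omega⟩
      · exact ⟨⟨1, by omega⟩, by rw [h0]; simp [Fin.ext_iff]⟩
      · exact ⟨⟨0, by omega⟩, fun h => h0 h.symm⟩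
    have h2 := (hkey i j hi).mpr hj.symm
    have h3 : i.castSucc = Fin.last n := σ.1.injective (h2.trans hj)
    exact (Fin.castSucc_lt_last i).ne h3
  have hfix : ∀ i : Fin n, σ.1 i.castSucc = i.castSucc := by
    intro i
    by_contra hne
    have h2 : σ.1 i.castSucc ≠ Fin.last n := by
      intro h
      have h3 := σ.1.injective (h.trans hlast.symm)
      exact (Fin.castSucc_lt_last i).ne h3
    obtain ⟨j, hj⟩ := Fin.exists_castSucc_eq.mpr h2
    have hij : i ≠ j := by
      rintro rfl
      exact hne hj.symm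
    have h3 := (hkey i j hij).mp hj.symm
    rw [hlast] at h3
    exact (Fin.castSucc_lt_last j).ne h3.symm
  apply Subtype.ext
  ext x
  rcases Fin.eq_castSucc_or_eq_last x with ⟨i, rfl⟩ | rfl
  · simp [hfix i]
  · simp [hlast]

end Cfsg.Agent.S4156
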