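import Cfsg.Statements.S4160
-- import your own Cfsg.Agent.* helpers here
import Mathlib

set_option autoImplicit false
open Cfsg

namespace Cfsg.Agent.S4160

open Subgroup in
theorem exists_sylow_centralizing {G : Type*} [Group G] [Finite G] (p : ℕ) [Fact p.Prime] (x : G)
    (hx : ¬ p ∣ (centralizer ({x} : Set G)).index) :
    ∃ P : Sylow p G, x ∈ centralizer (P : Set G) := by
  obtain ⟨P₀⟩ : Nonempty (Sylow p (centralizer ({x} : Set G))) := inferInstance
  have hcard : Nat.card ((P₀ : Subgroup (centralizer ({x} : Set G))).map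
      (centralizer ({x} : Set G)).subtype) = p ^ (Nat.card G).factorization p := by
    rw [Subgroup.card_map_of_injective (Subgroup.subtype_injective _), P₀.card_eq_multiplicity,
      ← Subgroup.index_mul_card (centralizer ({x} : Set G)),
      Nat.factorization_mul (Subgroup.index_ne_zero_of_finite) (Nat.card_pos.ne'),
      Finsupp.add_apply, Nat.factorization_eq_zero_of_not_dvd hx, zero_add]
  refine ⟨Sylow.ofCard _ hcard, ?_⟩
  rw [Subgroup.mem_centralizer_iff]
  intro g hg
  have hg' : g ∈ (P₀ : Subgroup (centralizer ({x} : Set G))).map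
      (centralizer ({x} : Set G)).subtype := hg
  obtain ⟨⟨y, hy⟩, -, rfl⟩ := hg'
  rw [Subgroup.mem_centralizer_iff] at hy
  exact (hy x rfl).symm

open Classical in
/-- The non-identity elements centralizing some Sylow `r`-subgroup. -/
noncomputable def cset (G : Type*) [Group G] [Fintype G] (r : ℕ) : Finset G :=
  Finset.univ.filter (fun x : G =>
    x ≠ 1 ∧ ∃ P : Sylow r G, x ∈ Subgroup.centralizer (P : Set G))

open Classical in
theorem mem_cset {G : Type*} [Group G] [Fintype G] (r : ℕ) (x : G) :
    x ∈ cset G r ↔ x ≠ 1 ∧ ∃ P : Sylow r G, x ∈ Subgroup.centralizer (P : Set G) := by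
  rw [cset, Finset.mem_filter]
  exact ⟨fun h => h.2, fun h => ⟨Finset.mem_univ _, h⟩⟩

open Classical in
theorem union_bound {G : Type*} [Group G] [Fintype G] (r : ℕ) [Fact r.Prime]
    (hr : ∀ P : Sylow r G,
      ¬ Subgroup.normalizer (P : Set G) ≤ Subgroup.centralizer (P : Set G)) :
    2 * (cset G r).card + 2 ≤ Fintype.card G := by
  have hfin : Fintype (Sylow r G) := Fintype.ofFinite _
  have hnpos : 0 < Fintype.card (Sylow r G) := Fintype.card_pos
  generalize hn : Fintype.card (Sylow r G) = n at hnpos
  set F : Sylow r G → Finset G := fun P => Finset.univ.filter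
    (fun x : G => x ≠ 1 ∧ x ∈ Subgroup.centralizer (P : Set G)) with hF
  have hsub : cset G r ⊆ Finset.univ.biUnion F := by
    intro x hx
    rw [mem_cset] at hx
    obtain ⟨hx1, P, hP⟩ := hx
    rw [Finset.mem_biUnion]
    exact ⟨P, Finset.mem_univ _, Finset.mem_filter.mpr ⟨Finset.mem_univ _, hx1, hP⟩⟩
  have h1 := (Finset.card_le_card hsub).trans Finset.card_biUnion_le
  have h2 : ∀ P : Sylow r G, 2 * n * (F P).card + 2 * n ≤ Fintype.card G := by
    intro P
    have hCN : Subgroup.centralizer (P : Set G) ≤ Subgroup.normalizer (P : Set G) :=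
      Subgroup.centralizer_le_normalizer _
    have hdvd := Subgroup.card_dvd_of_le hCN
    have hne : Nat.card (Subgroup.centralizer (P : Set G)) ≠
        Nat.card (Subgroup.normalizer (P : Set G)) := by
      intro e
      exact hr P (Subgroup.eq_of_le_of_card_ge hCN e.ge).ge
    have hNpos : 0 < Nat.card (Subgroup.normalizer (P : Set G)) := Nat.card_pos
    have h2C : 2 * Nat.card (Subgroup.centralizer (P : Set G)) ≤
        Nat.card (Subgroup.normalizer (P : Set G)) := by
      obtain ⟨k, hk⟩ := hdvd
      rw [hk] at hne hNpos ⊢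
      have hk0 : k ≠ 0 := by
        rintro rfl
        simp at hNpos
      have hk1 : k ≠ 1 := by
        rintro rfl
        simp at hne
      have hk2 : 2 ≤ k := by omega
      calc 2 * Nat.card (Subgroup.centralizer (P : Set G))
          = Nat.card (Subgroup.centralizer (P : Set G)) * 2 := mul_comm _ _
        _ ≤ Nat.card (Subgroup.centralizer (P : Set G)) * k :=
          Nat.mul_le_mul_left _ hk2
    have hnN : n * Nat.card (Subgroup.normalizer (P : Set G)) = Fintype.card G := by
      rw [← hn, ← Nat.card_eq_fintype_card, Sylow.card_eq_index_normalizer P,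
        Subgroup.index_mul_card, Nat.card_eq_fintype_card]
    have hFC : (F P).card + 1 ≤ Nat.card (Subgroup.centralizer (P : Set G)) := by
      have hlt : (F P) ⊂ Finset.univ.filter
          (fun x : G => x ∈ Subgroup.centralizer (P : Set G)) := by
        rw [Finset.ssubset_iff_of_subset]
        · refine ⟨1, Finset.mem_filter.mpr ⟨Finset.mem_univ _, Subgroup.one_mem _⟩, ?_⟩
          intro h
          exact (Finset.mem_filter.mp h).2.1 rfl
        · intro x hx
          rw [Finset.mem_filter] at hx ⊢
          exact ⟨hx.1, hx.2.2⟩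
      have := Finset.card_lt_card hlt
      rw [Nat.card_eq_fintype_card, Fintype.card_subtype]
      exact this
    calc 2 * n * (F P).card + 2 * n = n * (2 * ((F P).card + 1)) := by ring
      _ ≤ n * (2 * Nat.card (Subgroup.centralizer (P : Set G))) :=
        Nat.mul_le_mul_left _ (Nat.mul_le_mul_left _ hFC)
      _ ≤ n * Nat.card (Subgroup.normalizer (P : Set G)) := Nat.mul_le_mul_left _ h2C
      _ = Fintype.card G := hnN
  have h3 : ∑ P : Sylow r G, (2 * n * (F P).card + 2 * n) ≤ n * Fintype.card G := by
    have := Finset.sum_le_card_nsmul (Finset.univ : Finset (Sylow r G))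
      (fun P => 2 * n * (F P).card + 2 * n) (Fintype.card G) (fun P _ => h2 P)
    rwa [Finset.card_univ, smul_eq_mul, hn] at this
  rw [Finset.sum_add_distrib, ← Finset.mul_sum, Finset.sum_const, Finset.card_univ, smul_eq_mul,
    hn] at h3
  have h4 : n * (2 * (∑ P : Sylow r G, (F P).card) + 2 * n) ≤ n * Fintype.card G := by
    calc n * (2 * (∑ P : Sylow r G, (F P).card) + 2 * n)
        = 2 * n * ∑ P : Sylow r G, (F P).card + n * (2 * n) := by ring
      _ ≤ n * Fintype.card G := h3
  have h5 := Nat.le_of_mul_le_mul_left h4 hnpos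
  omega

/-- Let G be a finite group and p ≠ q primes each dividing the size of some conjugacy class of G, such that no conjugacy class size is divisible by pq. Then G has a normal p-complement or a normal q-complement. -/
theorem result {G : Type*} [Group G] [Finite G] (p q : ℕ) (hp : p.Prime) (hq : q.Prime) (hpq : p ≠ q)
    (hp' : ∃ x : G, p ∣ (Subgroup.centralizer ({x} : Set G)).index) (hq' : ∃ x : G, q ∣ (Subgroup.centralizer ({x} : Set G)).index) (h : ∀ x : G, ¬ p * q ∣ (Subgroup.centralizer ({x} : Set G)).index) :
    Cfsg.HasNormalPComplement p G ∨ Cfsg.HasNormalPComplement q G := by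
  classical
  have hfinG : Fintype G := Fintype.ofFinite G
  have hpF : Fact p.Prime := ⟨hp⟩
  have hqF : Fact q.Prime := ⟨hq⟩
  by_contra hcon
  push Not at hcon
  obtain ⟨hnp, hnq⟩ := hcon
  have hA : ∀ P : Sylow p G,
      ¬ Subgroup.normalizer (P : Set G) ≤ Subgroup.centralizer (P : Set G) := by
    intro P hP
    exact hnp ⟨P, _, MonoidHom.normal_ker _, MonoidHom.ker_transferSylow_isComplement' P hP⟩
  have hB : ∀ Q : Sylow q G,
      ¬ Subgroup.normalizer (Q : Set G) ≤ Subgroup.centralizer (Q : Set G) := by
    intro Q hQ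
    exact hnq ⟨Q, _, MonoidHom.normal_ker _, MonoidHom.ker_transferSylow_isComplement' Q hQ⟩
  have h1 := union_bound p hA
  have h2 := union_bound q hB
  have hcover : (Finset.univ.erase (1 : G)) ⊆ cset G p ∪ cset G q := by
    intro x hx
    have hx1 : x ≠ 1 := Finset.ne_of_mem_erase hx
    rw [Finset.mem_union, mem_cset, mem_cset]
    by_cases hpx : p ∣ (Subgroup.centralizer ({x} : Set G)).index
    · right
      have hqx : ¬ q ∣ (Subgroup.centralizer ({x} : Set G)).index := by
        intro hqx
        exact h x (Nat.Coprime.mul_dvd_of_dvd_of_dvd ((Nat.coprime_primes hp hq).mpr hpq) hpx hqx)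
      exact ⟨hx1, exists_sylow_centralizing q x hqx⟩
    · left
      exact ⟨hx1, exists_sylow_centralizing p x hpx⟩
  have h3 := (Finset.card_le_card hcover).trans (Finset.card_union_le _ _)
  rw [Finset.card_erase_of_mem (Finset.mem_univ _), Finset.card_univ] at h3
  omega

end Cfsg.Agent.S4160
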