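import Cfsg.Statements.S4168

set_option autoImplicit false
open Cfsg

namespace Cfsg.Agent.S4168

open scoped commutatorElement

/-- Let L be a finite quasisimple group (perfect with L/Z(L) simple). Then every prime dividing the order of the centre Z(L) also divides the order of L/Z(L). -/
theorem result {L : Type*} [Group L] [Finite L] (hL : Cfsg.IsQuasisimple L)
    (p : ℕ) (hp : p.Prime) (hdiv : p ∣ Nat.card (Subgroup.center L)) : p ∣ (Subgroup.center L).index := by
  by_contra hnd
  have : Fact p.Prime := ⟨hp⟩
  obtain ⟨P⟩ : Nonempty (Sylow p L) := inferInstance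
  -- P is central
  have hPZ : (P : Subgroup L) ≤ Subgroup.center L := by
    intro x hx
    obtain ⟨k, hk⟩ := P.isPGroup' ⟨x, hx⟩
    have hk' : x ^ p ^ k = 1 := by
      have := congrArg Subtype.val hk
      simpa using this
    have h1 : orderOf (QuotientGroup.mk x : L ⧸ Subgroup.center L) ∣ p ^ k := by
      apply orderOf_dvd_of_pow_eq_one
      rw [← QuotientGroup.mk_pow, hk']
      rfl
    have h2 : orderOf (QuotientGroup.mk x : L ⧸ Subgroup.center L) ∣ (Subgroup.center L).index := by
      rw [Subgroup.index]
      exact orderOf_dvd_natCard _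
    obtain ⟨j, -, hj⟩ := (Nat.dvd_prime_pow hp).mp h1
    have hj0 : j = 0 := by
      by_contra hj0
      apply hnd
      refine dvd_trans ?_ h2
      rw [hj]
      exact dvd_pow_self p hj0
    rw [hj0, pow_zero, orderOf_eq_one_iff] at hj
    exact (QuotientGroup.eq_one_iff x).mp hj
  have hP : Subgroup.normalizer ((P : Subgroup L) : Set L) ≤ Subgroup.centralizer ((P : Subgroup L) : Set L) := by
    intro g _
    rw [Subgroup.mem_centralizer_iff]
    intro h hh
    have := hPZ hh
    rw [Subgroup.mem_center_iff] at this
    exact (this g).symm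
  have hcompl := MonoidHom.ker_transferSylow_isComplement' P hP
  have hker : (MonoidHom.transferSylow P hP).ker = ⊤ := by
    rw [eq_top_iff, ← hL.1.commutator_eq_top, commutator_def, Subgroup.commutator_le]
    intro a _ b _
    rw [MonoidHom.mem_ker, map_commutatorElement]
    have h1 : ∀ u v : (P : Subgroup L), u * v = v * u := by
      intro u v
      apply Subtype.ext
      have := hPZ v.2
      rw [Subgroup.mem_center_iff] at this
      exact this (u : L)
    rw [commutatorElement_def, h1 (MonoidHom.transferSylow P hP a) (MonoidHom.transferSylow P hP b)]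
    group
  rw [hker, Subgroup.isComplement'_top_left] at hcompl
  have hLdiv : p ∣ Nat.card L := dvd_trans hdiv (Subgroup.card_subgroup_dvd_card _)
  exact P.ne_bot_of_dvd_card hLdiv hcompl

end Cfsg.Agent.S4168
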