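import Cfsg.Statements.S4169
import Cfsg.Agent.Lib.Helper69.SmallClasses

set_option autoImplicit false
open Cfsg

namespace Cfsg.Agent.S4169

open Cfsg.Agent.Lib.Helper69

/-- Let P be a finite p-group whose conjugacy classes have exactly two sizes (1 and one other value). Then P has nilpotency class at most 3. -/
theorem result {P : Type*} [Group P] [Finite P] {p : ℕ} [Fact p.Prime] (hP : IsPGroup p P)
    (m : ℕ) (hm : 1 < m) (h : ∀ x : P, (Subgroup.centralizer ({x} : Set P)).index = 1 ∨ (Subgroup.centralizer ({x} : Set P)).index = m) :
    upperCentralSeries P 3 = ⊤ := by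
  obtain ⟨A, hAn, hA, hCA⟩ := exists_selfCentralizing hP
  have hmin : ∀ x : P, 1 < (Subgroup.centralizer ({x} : Set P)).index →
      m ≤ (Subgroup.centralizer ({x} : Set P)).index := by
    intro x hx
    rcases h x with h1 | h1
    · omega
    · omega
  have key : Subgroup.upperCentralSeries P 3 = ⊤ := by
    apply upperCentralSeries_three_eq_top
    intro g k l
    have hall : ∀ y : P, y ∈ Subgroup.closure {x : P | (Subgroup.centralizer ({x} : Set P)).index = 1 ∨
        (Subgroup.centralizer ({x} : Set P)).index = m} := fun y => Subgroup.subset_closure (h y)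
    exact triple_comm_mem_center A hA hCA m (by omega) hmin g k l (hall g) (hall k) (hall l)
  exact key

end Cfsg.Agent.S4169
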