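import Mathlib
import Cfsg.Statements.S4170

set_option autoImplicit false
open scoped Pointwise
open Cfsg

namespace Cfsg.Agent.S4170

/-- Let p be an odd prime and G a nontrivial group of permutations of a finite set Ω that is generated by its elements of p-power order. Then Ω has two disjoint nonempty subsets Δ₁ and Δ₂ such that the index in G of the subgroup of elements mapping Δ₁ onto Δ₁ and Δ₂ onto Δ₂ (and hence also the complement of their union onto itself) is divisible by p. -/
theorem result {Ω : Type*} [Fintype Ω] (p : ℕ) [Fact p.Prime] (hp : p ≠ 2) (G : Subgroup (Equiv.Perm Ω)) (hG : G ≠ ⊥) (hgen : Subgroup.closure {g : G | ∃ k : ℕ, orderOf g = p ^ k} = ⊤) :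
    ∃ Δ₁ Δ₂ : Set Ω, Δ₁.Nonempty ∧ Δ₂.Nonempty ∧ Disjoint Δ₁ Δ₂ ∧ p ∣ (MulAction.stabilizer G Δ₁ ⊓ MulAction.stabilizer G Δ₂).index := by
  classical
  -- a nontrivial element of `p`-power order
  obtain ⟨g, hg1, k, hk⟩ : ∃ g : G, g ≠ 1 ∧ ∃ k : ℕ, orderOf g = p ^ k := by
    by_contra hcon
    push Not at hcon
    have hsub : {g : G | ∃ k : ℕ, orderOf g = p ^ k} ⊆ ((⊥ : Subgroup G) : Set G) := by
      intro g hg
      obtain ⟨k, hk⟩ := hg
      by_contra hne
      exact hcon g (by simpa using hne) k hk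
    have hbot : (⊤ : Subgroup G) = ⊥ := by
      rw [← hgen]
      exact le_bot_iff.mp ((Subgroup.closure_le _).mpr hsub)
    apply hG
    rw [Subgroup.eq_bot_iff_forall]
    intro x hx
    have hmem : (⟨x, hx⟩ : G) ∈ (⊤ : Subgroup G) := Subgroup.mem_top _
    rw [hbot, Subgroup.mem_bot] at hmem
    exact congrArg Subtype.val hmem
  -- a point moved by `g`
  obtain ⟨α, hα⟩ : ∃ α : Ω, g • α ≠ α := by
    by_contra hcon
    push Not at hcon
    apply hg1
    apply Subtype.ext
    apply Equiv.ext
    intro a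
    exact hcon a
  set Z : Subgroup G := Subgroup.zpowers g with hZ
  set Θ : Set Ω := MulAction.orbit Z α with hΘ
  have hαΘ : α ∈ Θ := MulAction.mem_orbit_self α
  have hgαΘ : g • α ∈ Θ := ⟨⟨g, Subgroup.mem_zpowers g⟩, rfl⟩
  have hZp : IsPGroup p Z := IsPGroup.of_card (n := k) (by rw [Nat.card_zpowers, hk])
  obtain ⟨j, hj⟩ := hZp.card_orbit α
  have hj1 : j ≠ 0 := by
    rintro rfl
    rw [pow_zero] at hj
    have hsub : Subsingleton Θ := (Nat.card_eq_one_iff_unique.mp hj).1
    have := @Subsingleton.elim _ hsub ⟨g • α, hgαΘ⟩ ⟨α, hαΘ⟩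
    exact hα (congrArg Subtype.val this)
  have hpΘ : p ∣ Θ.ncard := by
    rw [← Nat.card_coe_set_eq, hj]
    exact dvd_pow_self p hj1
  refine ⟨{α}, Θ \ {α}, Set.singleton_nonempty α, ⟨g • α, hgαΘ, hα⟩,
    Set.disjoint_sdiff_right, ?_⟩
  set S := MulAction.stabilizer G ({α} : Set Ω) ⊓ MulAction.stabilizer G (Θ \ {α}) with hS
  set T := MulAction.stabilizer G Θ with hT
  have hST : S ≤ T := by
    intro s hs
    rw [hS, Subgroup.mem_inf, MulAction.mem_stabilizer_iff, MulAction.mem_stabilizer_iff] at hs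
    rw [hT, MulAction.mem_stabilizer_iff]
    have hU : Θ = {α} ∪ (Θ \ {α}) := by
      rw [Set.union_sdiff_self]
      exact (Set.union_eq_self_of_subset_left (Set.singleton_subset_iff.mpr hαΘ)).symm
    rw [hU, Set.smul_set_union, hs.1, hs.2]
  rw [← Subgroup.relIndex_mul_index hST]
  apply Dvd.dvd.mul_right
  have h1 : S.subgroupOf T = MulAction.stabilizer T α := by
    ext t
    rw [Subgroup.mem_subgroupOf, MulAction.mem_stabilizer_iff]
    constructor
    · intro hs
      rw [hS, Subgroup.mem_inf, MulAction.mem_stabilizer_iff] at hs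
      have h := hs.1
      rw [Set.smul_set_singleton] at h
      exact Set.singleton_eq_singleton_iff.mp h
    · intro ht
      rw [hS, Subgroup.mem_inf, MulAction.mem_stabilizer_iff, MulAction.mem_stabilizer_iff]
      have hα' : (t : G) • α = α := ht
      have htΘ : (t : G) • Θ = Θ := MulAction.mem_stabilizer_iff.mp t.2
      refine ⟨by rw [Set.smul_set_singleton, hα'], ?_⟩
      rw [Set.smul_set_sdiff, htΘ, Set.smul_set_singleton, hα']
  have h2 : MulAction.orbit T α = Θ := by
    ext b
    constructor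
    · rintro ⟨t, rfl⟩
      have htΘ : (t : G) • Θ = Θ := MulAction.mem_stabilizer_iff.mp t.2
      rw [← htΘ]
      exact Set.smul_mem_smul_set hαΘ
    · rintro ⟨z, rfl⟩
      have hzT : (z : G) ∈ T := by
        rw [hT, MulAction.mem_stabilizer_iff]
        exact MulAction.smul_orbit z α
      exact ⟨⟨(z : G), hzT⟩, rfl⟩
  rw [Subgroup.relIndex, h1, MulAction.index_stabilizer, h2]
  exact hpΘ

end Cfsg.Agent.S4170
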