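import Cfsg.Statements.S4176
import Cfsg.Agent.Lib.Helper69.SpanOrbit
import Cfsg.Agent.Lib.Helper69.PSolvable

set_option autoImplicit false
open Cfsg

namespace Cfsg.Agent.S4176

open Cfsg.Agent.Lib.Helper69

/-- Let k be a field of prime characteristic p, H a finite p-soluble group and ρ a k-linear representation of H on V. Let a be a vector that is fixed by some Sylow p-subgroup of H and whose H-orbit spans V. Then the space of H-fixed vectors has dimension at most 1, and every vector b whose H-orbit has size coprime to the size of the orbit of a is fixed by H. -/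
theorem result {k V H : Type*} [Field k] (p : ℕ) [Fact p.Prime] [CharP k p] [AddCommGroup V] [Module k V]
    [Group H] [Finite H] (hsol : Cfsg.IsPSolvable p H) (ρ : Representation k H V) (a : V)
    (hfix : ∃ P : Sylow p H, ∀ x : H, x ∈ (P : Subgroup H) → ρ x a = a)
    (hspan : Submodule.span k {u : V | ∃ h : H, ρ h a = u} = ⊤) :
    Module.finrank k ρ.invariants ≤ 1 ∧
    ∀ b : V, (Nat.card {u : V | ∃ h : H, ρ h a = u}).Coprime (Nat.card {u : V | ∃ h : H, ρ h b = u}) → ∀ h : H, ρ h b = b := by
  classical
  have hp : p.Prime := Fact.out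
  have hp0 : ∀ n : ℕ, n.Coprime p → (n : k) ≠ 0 := by
    intro n hn h0
    rw [CharP.cast_eq_zero_iff k p] at h0
    exact (hp.coprime_iff_not_dvd.mp hn.symm) h0
  obtain ⟨P, hP⟩ := hfix
  have hPle : (P : Subgroup H) ≤ repFixer ρ a := fun x hx => (mem_repFixer ρ a x).mpr (hP x hx)
  have hOp : ((repFixer ρ a).index).Coprime p := by
    have h1 : (repFixer ρ a).index ∣ (P : Subgroup H).index := Subgroup.index_dvd_of_le hPle
    have h2 : ((P : Subgroup H).index).Coprime p :=
      (hp.coprime_iff_not_dvd.mpr P.not_dvd_index).symm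
    exact Nat.Coprime.coprime_dvd_left h1 h2
  have hO : (Nat.card {u : V | ∃ h : H, ρ h a = u} : k) ≠ 0 := by
    apply hp0
    rw [card_orbit_eq_index]
    exact hOp
  constructor
  · obtain ⟨K, hK, m, hm⟩ := exists_pComplement p hsol
    obtain ⟨T, -, hT2⟩ := spanOrbit_core ρ a hspan K (hp0 _ hK)
      (fun g => by
        have hcop : K.index.Coprime (repFixer ρ a).index := by
          rw [hm]; exact Nat.Coprime.pow_left m hOp.symm
        obtain ⟨x, hx, y, hy, rfl⟩ := exists_mul_of_coprime_index K (repFixer ρ a) hcop g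
        refine ⟨x, hx, ?_⟩
        rw [map_mul, Module.End.mul_apply, (mem_repFixer ρ a y).mp hy]) hO
    exact finrank_invariants_le_one ρ T (fun v hv => hT2 v (fun x _ => hv x))
  · intro b hcop h
    rw [card_orbit_eq_index, card_orbit_eq_index] at hcop
    obtain ⟨K', hK', m, hm⟩ := exists_pComplement p (isPSolvable_subgroup p hsol (repFixer ρ b))
    have hidx : (K'.map (repFixer ρ b).subtype).index = p ^ m * (repFixer ρ b).index := by
      rw [Subgroup.index_map_subtype, hm]
    have hcard : Nat.card (K'.map (repFixer ρ b).subtype) = Nat.card K' :=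
      Subgroup.card_map_of_injective (Subgroup.subtype_injective _)
    obtain ⟨T, hT1, hT2⟩ := spanOrbit_core ρ a hspan (K'.map (repFixer ρ b).subtype)
      (hp0 _ (by rw [hcard]; exact hK'))
      (fun g => by
        have hcop' : (K'.map (repFixer ρ b).subtype).index.Coprime (repFixer ρ a).index := by
          rw [hidx]
          exact Nat.Coprime.mul_left (Nat.Coprime.pow_left m hOp.symm) hcop.symm
        obtain ⟨x, hx, y, hy, rfl⟩ := exists_mul_of_coprime_index _ (repFixer ρ a) hcop' g
        refine ⟨x, hx, ?_⟩
        rw [map_mul, Module.End.mul_apply, (mem_repFixer ρ a y).mp hy]) hO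
    obtain ⟨c, rfl⟩ := hT2 b (fun x hx =>
      (mem_repFixer ρ b x).mp (Subgroup.map_subtype_le K' hx))
    rw [map_smul, hT1]

end Cfsg.Agent.S4176
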