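import Cfsg.Statements.S4177
import Cfsg.Agent.Lib.Helper69.SpanOrbit

set_option autoImplicit false
open Cfsg

namespace Cfsg.Agent.S4177

open Cfsg.Agent.Lib.Helper69

/-- Let k be a field whose characteristic does not divide the order of the finite group H (for instance a field of characteristic zero), and ρ a k-linear representation of H on V. Let a be a vector whose H-orbit spans V. Then the space of H-fixed vectors has dimension at most 1, and every vector b whose H-orbit has size coprime to the size of the orbit of a is fixed by H. -/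
theorem result {k V H : Type*} [Field k] [AddCommGroup V] [Module k V] [Group H] [Finite H]
    (hchar : ¬ ringChar k ∣ Nat.card H) (ρ : Representation k H V) (a : V)
    (hspan : Submodule.span k {u : V | ∃ h : H, ρ h a = u} = ⊤) :
    Module.finrank k ρ.invariants ≤ 1 ∧
    ∀ b : V, (Nat.card {u : V | ∃ h : H, ρ h a = u}).Coprime (Nat.card {u : V | ∃ h : H, ρ h b = u}) → ∀ h : H, ρ h b = b := by
  classical
  have hp0 : ∀ n : ℕ, n ∣ Nat.card H → (n : k) ≠ 0 := by
    intro n hn h0
    rw [CharP.cast_eq_zero_iff k (ringChar k)] at h0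
    exact hchar (h0.trans hn)
  have hO : (Nat.card {u : V | ∃ h : H, ρ h a = u} : k) ≠ 0 := by
    apply hp0
    rw [card_orbit_eq_index]
    exact Subgroup.index_dvd_card _
  constructor
  · obtain ⟨T, -, hT2⟩ := spanOrbit_core ρ a hspan ⊤
      (by rw [Subgroup.card_top]; exact hp0 _ dvd_rfl)
      (fun h => ⟨h, Subgroup.mem_top h, rfl⟩) hO
    exact finrank_invariants_le_one ρ T (fun v hv => hT2 v (fun x _ => hv x))
  · intro b hcop h
    rw [card_orbit_eq_index, card_orbit_eq_index] at hcop
    obtain ⟨T, hT1, hT2⟩ := spanOrbit_core ρ a hspan (repFixer ρ b)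
      (hp0 _ (Subgroup.card_subgroup_dvd_card _))
      (fun g => by
        obtain ⟨x, hx, y, hy, rfl⟩ := exists_mul_of_coprime_index (repFixer ρ b) (repFixer ρ a)
          hcop.symm g
        refine ⟨x, hx, ?_⟩
        rw [map_mul, Module.End.mul_apply, (mem_repFixer ρ a y).mp hy]) hO
    obtain ⟨c, rfl⟩ := hT2 b (fun x hx => (mem_repFixer ρ b x).mp hx)
    rw [map_smul, hT1]

end Cfsg.Agent.S4177
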