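import Cfsg.Statements.S4178

set_option autoImplicit false
open Cfsg

namespace Cfsg.Agent.S4178

theorem index_le_of_map {K α : Type*} [Group K] [Finite α] (T : Subgroup K) (f : K → α)
    (hf : ∀ a b, f a = f b → a⁻¹ * b ∈ T) : T.index ≤ Nat.card α := by
  rw [Subgroup.index]
  apply Nat.card_le_card_of_injective (fun q : K ⧸ T => f q.out)
  intro q q' h
  have h1 := hf _ _ h
  have h2 : (QuotientGroup.mk q.out : K ⧸ T) = QuotientGroup.mk q'.out := QuotientGroup.eq.mpr h1
  simpa using h2

theorem card_ne {α : Type*} [Finite α] (a : α) : Nat.card {x : α // x ≠ a} = Nat.card α - 1 := by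
  classical
  have := Fintype.ofFinite α
  rw [Nat.card_eq_fintype_card, Nat.card_eq_fintype_card, Fintype.card_subtype_compl, Fintype.card_subtype_eq]

theorem card_mod {F X : Type*} [Field F] [Fintype F] [AddCommGroup X] [Module F X] [FiniteDimensional F X] :
    Nat.card X = Fintype.card F ^ Module.finrank F X := by
  have : Finite X := Module.finite_of_finite F
  have := Fintype.ofFinite X
  rw [Nat.card_eq_fintype_card, Module.card_eq_pow_finrank (K := F)]

theorem real_bound (q k d n : ℕ) (hq : 1 ≤ q) (hk : 2 * k ≤ d) (hn : n ≤ q ^ k - 1) :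
    (n : ℝ) ≤ Real.sqrt ((q : ℝ) ^ d) - 1 := by
  have h1 : 1 ≤ q ^ k := Nat.one_le_pow _ _ hq
  have h2 : (n : ℝ) ≤ (q : ℝ) ^ k - 1 := by
    have : ((q ^ k - 1 : ℕ) : ℝ) = (q : ℝ) ^ k - 1 := by
      rw [Nat.cast_sub h1]; simp
    rw [← this]
    exact_mod_cast hn
  have hq' : (1 : ℝ) ≤ q := by exact_mod_cast hq
  have h3 : (q : ℝ) ^ k ≤ Real.sqrt ((q : ℝ) ^ d) := by
    apply Real.le_sqrt_of_sq_le
    rw [← pow_mul]
    apply pow_le_pow_right₀ hq'
    omega
  linarith

theorem result {F V : Type*} [Field F] [Fintype F] [AddCommGroup V] [Module F V] [FiniteDimensional F V] [Nontrivial V]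
    (H : Subgroup (V ≃ₗ[F] V)) :
    (Subgroup.closure {h : ↥H | ∃ v : V, v ≠ 0 ∧ (h : V ≃ₗ[F] V) v = v}).index ≤ Fintype.card F ^ Module.finrank F V - 1 ∧
    ((∃ W : Submodule F V, W ≠ ⊥ ∧ W ≠ ⊤ ∧ ∀ h ∈ H, ∀ w ∈ W, h w ∈ W) →
      ((Subgroup.closure {h : ↥H | ∃ v : V, v ≠ 0 ∧ (h : V ≃ₗ[F] V) v = v}).index : ℝ) ≤ Real.sqrt ((Fintype.card F : ℝ) ^ Module.finrank F V) - 1) := by
  have : Finite V := Module.finite_of_finite F
  set R := Subgroup.closure {h : ↥H | ∃ v : V, v ≠ 0 ∧ (h : V ≃ₗ[F] V) v = v} with hR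
  have hq : 1 ≤ Fintype.card F := Fintype.card_pos
  -- general orbit bound
  have key : ∀ (X : Submodule F V) (x : V), x ≠ 0 → x ∈ X → (∀ h ∈ H, ∀ w ∈ X, h w ∈ X) →
      R.index ≤ Fintype.card F ^ Module.finrank F X - 1 := by
    intro X x hx hxX hinv
    let f : ↥H → {w : X // w ≠ 0} := fun h =>
      ⟨⟨(h : V ≃ₗ[F] V) x, hinv _ h.2 _ hxX⟩, by
        intro h0
        have h1 : (h : V ≃ₗ[F] V) x = 0 := congrArg Subtype.val h0
        exact hx (by simpa using h1)⟩
    have h1 := index_le_of_map R f (by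
      intro a b hab
      apply Subgroup.subset_closure
      refine ⟨x, hx, ?_⟩
      have h2 : (a : V ≃ₗ[F] V) x = (b : V ≃ₗ[F] V) x := congrArg (fun w => (w.1 : V)) hab
      show ((a⁻¹ * b : ↥H) : V ≃ₗ[F] V) x = x
      simp only [Subgroup.coe_mul, Subgroup.coe_inv, LinearEquiv.mul_apply]
      rw [← h2]
      exact (a : V ≃ₗ[F] V).symm_apply_apply x)
    rw [card_ne, card_mod (F := F)] at h1
    exact h1
  constructor
  · obtain ⟨v, hv⟩ := exists_ne (0 : V)
    have h1 := key ⊤ v hv trivial (fun _ _ _ _ => trivial)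
    rwa [finrank_top] at h1
  · rintro ⟨W, hW0, hW1, hinv⟩
    by_cases hdim : 2 * Module.finrank F W ≤ Module.finrank F V
    · obtain ⟨w, hwW, hw0⟩ := (Submodule.ne_bot_iff W).mp hW0
      have h1 := key W w hw0 hwW hinv
      exact real_bound _ _ _ _ hq hdim h1
    · -- use the quotient
      have hex : ∃ v : V, v ∉ W := by
        by_contra hcon
        push Not at hcon
        exact hW1 (eq_top_iff.mpr fun x _ => hcon x)
      obtain ⟨v, hv⟩ := hex
      have hmk : (Submodule.Quotient.mk v : V ⧸ W) ≠ 0 := by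
        intro h0
        exact hv ((Submodule.Quotient.mk_eq_zero W).mp h0)
      -- elements g of H with g v - v ∈ W fix a nonzero vector
      have hfix : ∀ g : V ≃ₗ[F] V, g ∈ H → g v - v ∈ W → ∃ u : V, u ≠ 0 ∧ g u = u := by
        intro g hg hgv
        by_contra hcon
        push Not at hcon
        -- g - 1 is injective
        let D : V →ₗ[F] V := (g : V →ₗ[F] V) - LinearMap.id
        have hDinj : Function.Injective D := by
          rw [← LinearMap.ker_eq_bot, LinearMap.ker_eq_bot']
          intro u hu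
          by_contra hu0
          apply hcon u hu0
          have : g u - u = 0 := hu
          exact sub_eq_zero.mp this
        -- restrict to W
        have hDW : ∀ w ∈ W, D w ∈ W := fun w hw => W.sub_mem (hinv g hg w hw) hw
        let DW : W →ₗ[F] W := D.restrict hDW
        have hDWinj : Function.Injective DW := by
          intro a b hab
          apply Subtype.ext
          apply hDinj
          exact congrArg Subtype.val hab
        have hDWsurj : Function.Surjective DW := LinearMap.surjective_of_injective hDWinj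
        obtain ⟨w, hw⟩ := hDWsurj ⟨D v, hgv⟩
        have h3 : D (w : V) = D v := congrArg Subtype.val hw
        have h4 := hDinj h3
        exact hv (h4 ▸ w.2)
      have : Finite (V ⧸ W) := Module.finite_of_finite F
      let f : ↥H → {x : V ⧸ W // x ≠ 0} := fun h =>
        ⟨Submodule.Quotient.mk ((h : V ≃ₗ[F] V) v), by
          intro h0
          have h1 : (h : V ≃ₗ[F] V) v ∈ W := (Submodule.Quotient.mk_eq_zero W).mp h0
          have h2 := hinv _ (H.inv_mem h.2) _ h1
          have h3 : (h : V ≃ₗ[F] V)⁻¹ ((h : V ≃ₗ[F] V) v) = v := (h : V ≃ₗ[F] V).symm_apply_apply v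
          rw [h3] at h2
          exact hv h2⟩
      have h1 := index_le_of_map R f (by
        intro a b hab
        apply Subgroup.subset_closure
        have h2 : (Submodule.Quotient.mk ((a : V ≃ₗ[F] V) v) : V ⧸ W) = Submodule.Quotient.mk ((b : V ≃ₗ[F] V) v) :=
          congrArg Subtype.val hab
        have h3 : (a : V ≃ₗ[F] V) v - (b : V ≃ₗ[F] V) v ∈ W := (Submodule.Quotient.eq W).mp h2
        have h4 : (b : V ≃ₗ[F] V) v - (a : V ≃ₗ[F] V) v ∈ W := by
          have := W.neg_mem h3
          simpa using this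
        have h5 := hinv _ (H.inv_mem a.2) _ h4
        have h6 : ((a⁻¹ * b : ↥H) : V ≃ₗ[F] V) v - v ∈ W := by
          simp only [Subgroup.coe_mul, Subgroup.coe_inv, LinearEquiv.mul_apply]
          have : (a : V ≃ₗ[F] V)⁻¹ ((b : V ≃ₗ[F] V) v - (a : V ≃ₗ[F] V) v) =
              (a : V ≃ₗ[F] V)⁻¹ ((b : V ≃ₗ[F] V) v) - v := by
            rw [map_sub]
            congr 1
            exact (a : V ≃ₗ[F] V).symm_apply_apply v
          rw [← this]
          exact h5
        exact hfix _ (a⁻¹ * b).2 h6)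
      rw [card_ne, card_mod (F := F)] at h1
      have h2 : Module.finrank F (V ⧸ W) + Module.finrank F W = Module.finrank F V :=
        Submodule.finrank_quotient_add_finrank W
      exact real_bound _ _ _ _ hq (by omega) h1

end Cfsg.Agent.S4178
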