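import Cfsg.Statements.S4182

set_option autoImplicit false
open Cfsg

namespace Cfsg.Agent.S4182

universe u v

theorem index_le_of_map {K α : Type*} [Group K] [Finite α] (T : Subgroup K) (f : K → α)
    (hf : ∀ a b, f a = f b → a⁻¹ * b ∈ T) : T.index ≤ Nat.card α := by
  rw [Subgroup.index]
  apply Nat.card_le_card_of_injective (fun q : K ⧸ T => f q.out)
  intro q q' h
  have h1 := hf _ _ h
  have h2 : (QuotientGroup.mk q.out : K ⧸ T) = QuotientGroup.mk q'.out := QuotientGroup.eq.mpr h1
  simpa using h2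

/-- A finite `p`-group is not covered by at most `p` proper subgroups. -/
theorem pgroup_case {G : Type*} [Group G] [Finite G] (p : ℕ) [hp : Fact p.Prime] (hG : IsPGroup p G)
    {ι : Type*} [Fintype ι] (K : ι → Subgroup G) (hK : ∀ i, K i ≠ ⊤)
    (hcov : ∀ g : G, ∃ i, g ∈ K i) : p + 1 ≤ Fintype.card ι := by
  classical
  by_contra hcon
  have hle : Fintype.card ι ≤ p := by omega
  have := Fintype.ofFinite G
  have hp2 : 2 ≤ p := hp.out.two_le
  set N := Nat.card G with hN
  set M := N / p with hM
  have hKi : ∀ i, Nat.card (K i) ≤ M := by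
    intro i
    obtain ⟨n, hn⟩ := hG.index (K i)
    have hn0 : n ≠ 0 := by
      rintro rfl
      exact hK i (Subgroup.index_eq_one.mp (by simpa using hn))
    have h1 : p ∣ (K i).index := by rw [hn]; exact dvd_pow_self p hn0
    have h2 := (K i).card_mul_index
    obtain ⟨c, hc⟩ := h1
    rw [hc] at h2
    rw [hM, Nat.le_div_iff_mul_le (by omega)]
    have hc0 : 0 < c := by
      rcases Nat.eq_zero_or_pos c with h | h
      · subst h
        simp only [mul_zero] at h2
        exact absurd h2.symm (Nat.card_pos.ne')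
      · exact h
    calc Nat.card (K i) * p ≤ Nat.card (K i) * p * c := Nat.le_mul_of_pos_right _ hc0
      _ = N := by rw [hN, ← h2]; ring
  have hcount : N ≤ 1 + ∑ i : ι, (Nat.card (K i) - 1) := by
    have h1 : (Finset.univ : Finset G) ⊆ insert 1 (Finset.univ.biUnion
        (fun i : ι => (Finset.univ.filter (fun g : G => g ∈ K i)).erase 1)) := by
      intro g _
      by_cases hg : g = 1
      · simp [hg]
      · obtain ⟨i, hi⟩ := hcov g
        simp only [Finset.mem_insert, Finset.mem_biUnion, Finset.mem_univ, true_and,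
          Finset.mem_erase, Finset.mem_filter]
        right
        exact ⟨i, hg, hi⟩
    have h2 := Finset.card_le_card h1
    have h3 := Finset.card_insert_le (1 : G) (Finset.univ.biUnion
        (fun i : ι => (Finset.univ.filter (fun g : G => g ∈ K i)).erase 1))
    have h4 := Finset.card_biUnion_le (s := (Finset.univ : Finset ι))
        (t := fun i : ι => (Finset.univ.filter (fun g : G => g ∈ K i)).erase 1)
    have h5 : ∀ i : ι, ((Finset.univ.filter (fun g : G => g ∈ K i)).erase 1).card = Nat.card (K i) - 1 := by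
      intro i
      rw [Finset.card_erase_of_mem (by simp [(K i).one_mem])]
      congr 1
      rw [Nat.card_eq_fintype_card, Fintype.card_subtype]
    simp only [h5] at h4
    rw [Finset.card_univ, ← Nat.card_eq_fintype_card] at h2
    omega
  have hsum : ∑ i : ι, (Nat.card (K i) - 1) ≤ ∑ _i : ι, (M - 1) :=
    Finset.sum_le_sum fun i _ => Nat.sub_le_sub_right (hKi i) 1
  rw [Finset.sum_const, Finset.card_univ, smul_eq_mul] at hsum
  obtain ⟨i0, -⟩ := hcov 1
  have hM1 : 1 ≤ M := le_trans Nat.card_pos (hKi i0)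
  have hpM : p * M ≤ N := Nat.mul_div_le N p
  obtain ⟨M', hM'⟩ : ∃ M', M = M' + 1 := ⟨M - 1, by omega⟩
  rw [hM'] at hsum hpM
  simp only [Nat.add_sub_cancel] at hsum
  have h6 : Fintype.card ι * M' ≤ p * M' := Nat.mul_le_mul_right _ hle
  have h7 : p * (M' + 1) = p * M' + p := by ring
  omega

theorem main (p : ℕ) [hp : Fact p.Prime] (ι : Type v) [Fintype ι] :
    ∀ (n : ℕ) (G : Type u) [Group G] [Finite G], Nat.card G = n →
      Subgroup.closure {g : G | ∃ k : ℕ, orderOf g = p ^ k} = ⊤ →
      ∀ (K : ι → Subgroup G), (∀ i, K i ≠ ⊤) →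
      (∀ g : G, (∃ k : ℕ, orderOf g = p ^ k) → ∃ i, g ∈ K i) → p + 1 ≤ Fintype.card ι := by
  intro n
  induction n using Nat.strong_induction_on with
  | _ n IH =>
  intro G _ _ hn hgen K hK hcov
  classical
  by_contra hcon
  have hle : Fintype.card ι ≤ p := by omega
  set pel : Set G := {g : G | ∃ k : ℕ, orderOf g = p ^ k} with hpel
  -- every proper subgroup generated by p-elements lies in some member
  have MCP : ∀ L : Subgroup G, L ≠ ⊤ → L ≤ Subgroup.closure {y | y ∈ L ∧ y ∈ pel} → ∃ i, L ≤ K i := by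
    intro L hL hLgen
    by_contra hno
    push Not at hno
    have hlt : Nat.card L < n := by
      rw [← hn]
      have h1 := L.card_mul_index
      have h2 : L.index ≠ 1 := fun h => hL (Subgroup.index_eq_one.mp h)
      have h3 : L.index ≠ 0 := Subgroup.index_ne_zero_of_finite
      have h4 : 2 ≤ L.index := by omega
      have h5 : 0 < Nat.card L := Nat.card_pos
      nlinarith
    apply hcon
    refine IH (Nat.card L) hlt L rfl ?_ (fun i => (K i).subgroupOf L) ?_ ?_
    · -- generation
      have h1 : (Subgroup.closure {g : ↥L | ∃ k : ℕ, orderOf g = p ^ k}).map L.subtype =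
          Subgroup.closure {y | y ∈ L ∧ y ∈ pel} := by
        rw [MonoidHom.map_closure]
        congr 1
        ext y
        constructor
        · rintro ⟨g, ⟨k, hk⟩, rfl⟩
          exact ⟨g.2, k, by rw [← hk]; exact Subgroup.orderOf_coe g⟩
        · rintro ⟨hy, k, hk⟩
          exact ⟨⟨y, hy⟩, ⟨k, by rw [← hk]; exact (Subgroup.orderOf_coe (⟨y, hy⟩ : L)).symm⟩, rfl⟩
      rw [eq_top_iff]
      intro x _
      have h2 : (x : G) ∈ (Subgroup.closure {g : ↥L | ∃ k : ℕ, orderOf g = p ^ k}).map L.subtype := by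
        rw [h1]; exact hLgen x.2
      obtain ⟨y, hy, hyx⟩ := h2
      have : y = x := Subtype.ext hyx
      rw [← this]; exact hy
    · intro i h
      exact hno i (Subgroup.subgroupOf_eq_top.mp h)
    · rintro g ⟨k, hk⟩
      obtain ⟨i, hi⟩ := hcov (g : G) ⟨k, by rw [← hk]; exact Subgroup.orderOf_coe g⟩
      exact ⟨i, Subgroup.mem_subgroupOf.mpr hi⟩
  by_cases hpG : IsPGroup p G
  · apply hcon
    apply pgroup_case p hpG K hK
    intro g
    apply hcov
    obtain ⟨k, hk⟩ := hpG g
    have h1 : orderOf g ∣ p ^ k := orderOf_dvd_of_pow_eq_one hk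
    obtain ⟨j, -, hj⟩ := (Nat.dvd_prime_pow hp.out).mp h1
    exact ⟨j, hj⟩
  -- not a p-group
  let L : ι → Subgroup G := fun j => Subgroup.closure {x | x ∈ K j ∧ x ∈ pel}
  have hLK : ∀ j, L j ≤ K j := fun j => (Subgroup.closure_le _).mpr fun x hx => hx.1
  have hLtop : ∀ j, L j ≠ ⊤ := fun j h => hK j (eq_top_iff.mpr (h ▸ hLK j))
  have hLle : ∀ (M : Subgroup G) j, M ≤ K j → M ≤ Subgroup.closure {y | y ∈ M ∧ y ∈ pel} → M ≤ L j := by
    intro M j hMK hMgen
    refine hMgen.trans (Subgroup.closure_mono ?_)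
    rintro y ⟨hy1, hy2⟩
    exact ⟨hMK hy1, hy2⟩
  -- a Sylow subgroup
  obtain ⟨Q⟩ : Nonempty (Sylow p G) := inferInstance
  have hQpel : ∀ x ∈ (Q : Subgroup G), x ∈ pel := by
    intro x hx
    obtain ⟨k, hk⟩ := Q.isPGroup' ⟨x, hx⟩
    have hk' : x ^ p ^ k = 1 := by
      have := congrArg Subtype.val hk
      simpa using this
    have h1 : orderOf x ∣ p ^ k := orderOf_dvd_of_pow_eq_one hk'
    obtain ⟨j, -, hj⟩ := (Nat.dvd_prime_pow hp.out).mp h1
    exact ⟨j, hj⟩
  have hQtop : (Q : Subgroup G) ≠ ⊤ := by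
    intro h
    apply hpG
    intro g
    obtain ⟨k, hk⟩ := hQpel g (h ▸ Subgroup.mem_top g)
    exact ⟨k, by rw [← hk]; exact pow_orderOf_eq_one g⟩
  have hQgen : (Q : Subgroup G) ≤ Subgroup.closure {y | y ∈ (Q : Subgroup G) ∧ y ∈ pel} :=
    fun x hx => Subgroup.subset_closure ⟨hx, hQpel x hx⟩
  obtain ⟨j0, hj0⟩ := MCP Q hQtop hQgen
  have hQL : (Q : Subgroup G) ≤ L j0 := hLle Q j0 hj0 hQgen
  have hQidx : ¬ p ∣ (Q : Subgroup G).index := Q.not_dvd_index
  have hJ0 : ¬ p ∣ (L j0).index := fun h => hQidx (dvd_trans h (Subgroup.index_dvd_of_le hQL))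
  -- choose i with L i of maximal order among those of index prime to p
  obtain ⟨i, hi, himax⟩ := Finset.exists_max_image (Finset.univ.filter (fun j : ι => ¬ p ∣ (L j).index))
    (fun j => Nat.card (L j)) ⟨j0, by simp [hJ0]⟩
  have hi' : ¬ p ∣ (L i).index := by simpa using hi
  -- conjugates
  let cj : G → Subgroup G := fun g => (L i).map (MulAut.conj g).toMonoidHom
  have hcj_mem : ∀ g x, x ∈ cj g ↔ g⁻¹ * x * g ∈ L i := by
    intro g x
    constructor
    · rintro ⟨y, hy, rfl⟩
      have : g⁻¹ * (MulAut.conj g).toMonoidHom y * g = y := by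
        simp [MulAut.conj_apply, mul_assoc]
      rw [this]; exact hy
    · intro h
      refine ⟨g⁻¹ * x * g, h, ?_⟩
      simp [MulAut.conj_apply, mul_assoc]
  have hcj_card : ∀ g, Nat.card (cj g) = Nat.card (L i) := fun g =>
    Subgroup.card_map_of_injective (MulAut.conj g).injective
  have hcj_idx : ∀ g, (cj g).index = (L i).index := by
    intro g
    have h1 := (cj g).card_mul_index
    have h2 := (L i).card_mul_index
    rw [hcj_card g, ← h2] at h1
    exact Nat.eq_of_mul_eq_mul_left Nat.card_pos h1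
  have hcj_eq : ∀ g, ∃ j, cj g = L j := by
    intro g
    have htop : cj g ≠ ⊤ := by
      intro h
      apply hLtop i
      rw [eq_top_iff]
      intro x _
      have h1 : g * x * g⁻¹ ∈ cj g := h ▸ Subgroup.mem_top _
      rw [hcj_mem] at h1
      simpa [mul_assoc] using h1
    have hgen : cj g ≤ Subgroup.closure {y | y ∈ cj g ∧ y ∈ pel} := by
      show (L i).map (MulAut.conj g).toMonoidHom ≤ _
      rw [MonoidHom.map_closure]
      apply Subgroup.closure_mono
      rintro y ⟨x, ⟨hx1, k, hk⟩, rfl⟩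
      refine ⟨Subgroup.mem_map_of_mem _ (Subgroup.subset_closure ⟨hx1, k, hk⟩), k, ?_⟩
      rw [← hk]
      exact (MulAut.conj g).orderOf_eq x
    obtain ⟨j, hj⟩ := MCP (cj g) htop hgen
    have hle' : cj g ≤ L j := hLle (cj g) j hj hgen
    have hjidx : ¬ p ∣ (L j).index := fun h =>
      hi' (by rw [← hcj_idx g]; exact dvd_trans h (Subgroup.index_dvd_of_le hle'))
    have hcard : Nat.card (L j) ≤ Nat.card (cj g) := by
      rw [hcj_card g]
      exact himax j (by simp [hjidx])
    exact ⟨j, Subgroup.eq_of_le_of_card_ge hle' hcard⟩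
  choose f hf using hcj_eq
  set Nz := Subgroup.normalizer ((L i : Subgroup G) : Set G) with hNz
  have hNidx : Nz.index ≤ Fintype.card ι := by
    rw [← Nat.card_eq_fintype_card]
    apply index_le_of_map Nz f
    intro a b hab
    have h1 : cj a = cj b := by rw [hf a, hf b, hab]
    rw [hNz, Subgroup.mem_normalizer_iff]
    intro h
    have h2 := hcj_mem a (b * h * b⁻¹)
    have h3 := hcj_mem b (b * h * b⁻¹)
    rw [h1] at h2
    have h4 : b⁻¹ * (b * h * b⁻¹) * b = h := by group
    have h5 : a⁻¹ * (b * h * b⁻¹) * a = a⁻¹ * b * h * (a⁻¹ * b)⁻¹ := by group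
    rw [h4] at h3
    rw [h5] at h2
    exact h3.symm.trans h2
  have hNp : ¬ p ∣ Nz.index := fun h =>
    hi' (dvd_trans h (Subgroup.index_dvd_of_le Subgroup.le_normalizer))
  have hNlt : Nz.index < p := by
    rcases Nat.lt_or_ge Nz.index p with h | h
    · exact h
    · exfalso
      have : Nz.index = p := by omega
      exact hNp (by rw [this])
  -- p-elements normalise L i
  have hpelN : ∀ x ∈ pel, x ∈ Nz := by
    rintro x ⟨k, hk⟩
    have hZ : IsPGroup p (Subgroup.zpowers x) := by
      apply IsPGroup.of_card (n := k)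
      rw [Nat.card_zpowers, hk]
    let T : Subgroup (Subgroup.zpowers x) := Nz.subgroupOf (Subgroup.zpowers x)
    have hT : T.index ≤ Nat.card (G ⧸ Nz) := by
      apply index_le_of_map T (fun y => (QuotientGroup.mk (y : G) : G ⧸ Nz))
      intro a b hab
      have := QuotientGroup.eq.mp hab
      exact Subgroup.mem_subgroupOf.mpr (by simpa using this)
    have hT' : T.index < p := lt_of_le_of_lt hT hNlt
    obtain ⟨m, hm⟩ := hZ.index T
    have hm0 : m = 0 := by
      by_contra hm0
      have : p ≤ p ^ m := Nat.le_self_pow hm0 p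
      omega
    rw [hm0, pow_zero, Subgroup.index_eq_one, Subgroup.subgroupOf_eq_top] at hm
    exact hm (Subgroup.mem_zpowers x)
  have hNtop : Nz = ⊤ := by
    rw [eq_top_iff, ← hgen]
    exact (Subgroup.closure_le _).mpr hpelN
  have hnorm : (L i).Normal := Subgroup.normalizer_eq_top_iff.mp hNtop
  -- all p-elements lie in L i
  have hpelL : ∀ x ∈ pel, x ∈ L i := by
    rintro x ⟨k, hk⟩
    have h1 : orderOf (QuotientGroup.mk x : G ⧸ L i) ∣ p ^ k := by
      rw [← hk]
      exact orderOf_map_dvd (QuotientGroup.mk' (L i)) x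
    have h2 : orderOf (QuotientGroup.mk x : G ⧸ L i) ∣ (L i).index := by
      rw [Subgroup.index]
      exact orderOf_dvd_natCard _
    obtain ⟨j, -, hj⟩ := (Nat.dvd_prime_pow hp.out).mp h1
    have hj0 : j = 0 := by
      by_contra hj0
      apply hi'
      refine dvd_trans ?_ h2
      rw [hj]
      exact dvd_pow_self p hj0
    rw [hj0, pow_zero, orderOf_eq_one_iff] at hj
    exact (QuotientGroup.eq_one_iff x).mp hj
  apply hLtop i
  rw [eq_top_iff, ← hgen]
  exact (Subgroup.closure_le _).mpr hpelL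

/-- Let p be a prime and G a finite group generated by its p-elements. If a finite family of proper subgroups of G covers the set of p-elements of G (every element of p-power order lies in one of them), then the family has at least p + 1 members. -/
theorem result {G : Type*} [Group G] [Finite G] (p : ℕ) [Fact p.Prime] (hgen : Subgroup.closure {g : G | ∃ k : ℕ, orderOf g = p ^ k} = ⊤)
    {ι : Type*} [Fintype ι] (K : ι → Subgroup G) (hK : ∀ i, K i ≠ ⊤)
    (hcov : ∀ g : G, (∃ k : ℕ, orderOf g = p ^ k) → ∃ i, g ∈ K i) :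
    p + 1 ≤ Fintype.card ι :=
  main p ι (Nat.card G) G rfl hgen K hK hcov

end Cfsg.Agent.S4182
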