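import Mathlib
import Cfsg.Statements.S4186

set_option autoImplicit false
open Cfsg

namespace Cfsg.Agent.S4186

/-- Let T and X be subgroups of a group with T a finite 2-group normalizing X but not centralizing it. Then some element of T inverts some non-identity element of X under conjugation. -/
theorem result {G : Type*} [Group G] (T X : Subgroup G) [Finite ↥T] (hT : IsPGroup 2 ↥T) (hTN : T ≤ Subgroup.normalizer (X : Set G)) (hTC : ¬ T ≤ Subgroup.centralizer (X : Set G)) : ∃ t ∈ T, ∃ x ∈ X, x ≠ 1 ∧ t * x * t⁻¹ = x⁻¹ := by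
  classical
  -- pick t0 in T not centralizing X
  obtain ⟨t0, ht0T, ht0C⟩ := SetLike.not_le_iff_exists.mp hTC
  -- t0 has 2-power order
  obtain ⟨k, hk⟩ := hT ⟨t0, ht0T⟩
  have hk' : t0 ^ 2 ^ k = 1 := by
    have := congrArg Subtype.val hk
    simpa using this
  -- minimal j with t0^(2^j) centralizing X
  have hex : ∃ j, t0 ^ 2 ^ j ∈ Subgroup.centralizer (X : Set G) := ⟨k, by rw [hk']; exact one_mem _⟩
  set j := Nat.find hex with hj
  have hjspec : t0 ^ 2 ^ j ∈ Subgroup.centralizer (X : Set G) := Nat.find_spec hex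
  have hjpos : j ≠ 0 := by
    intro h0
    rw [h0] at hjspec
    simp at hjspec
    exact ht0C hjspec
  obtain ⟨i, hi⟩ := Nat.exists_eq_succ_of_ne_zero hjpos
  have hmin : t0 ^ 2 ^ i ∉ Subgroup.centralizer (X : Set G) := by
    apply Nat.find_min hex
    omega
  set t := t0 ^ 2 ^ i with ht
  have htT : t ∈ T := pow_mem ht0T _
  have ht2 : t ^ 2 ∈ Subgroup.centralizer (X : Set G) := by
    have : t ^ 2 = t0 ^ 2 ^ j := by
      rw [ht, ← pow_mul, hi, pow_succ]
    rw [this]; exact hjspec
  -- y in X not commuting with t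
  have : ∃ y ∈ X, y * t ≠ t * y := by
    by_contra hcon
    push Not at hcon
    exact hmin (fun y hy => hcon y hy)
  obtain ⟨y, hyX, hyt⟩ := this
  have htN : t ∈ Subgroup.normalizer (X : Set G) := hTN htT
  have hconj : t * y * t⁻¹ ∈ X := (htN y).mp hyX
  refine ⟨t, htT, y⁻¹ * (t * y * t⁻¹), X.mul_mem (X.inv_mem hyX) hconj, ?_, ?_⟩
  · intro h
    apply hyt
    have : t * y * t⁻¹ = y := by
      have := congrArg (fun z => y * z) h
      simpa using this
    have h2 := congrArg (fun z => z * t) this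
    simpa using h2.symm
  · have hc : y * t ^ 2 = t ^ 2 * y := ht2 y hyX
    have hc' : t * t * y * t⁻¹ * t⁻¹ = y := by
      have : t * t * y = y * (t * t) := by
        rw [← pow_two]; exact hc.symm
      rw [this]; group
    calc t * (y⁻¹ * (t * y * t⁻¹)) * t⁻¹ = (t * y⁻¹ * t⁻¹) * (t * t * y * t⁻¹ * t⁻¹) := by group
      _ = (t * y⁻¹ * t⁻¹) * y := by rw [hc']
      _ = (y⁻¹ * (t * y * t⁻¹))⁻¹ := by group

end Cfsg.Agent.S4186
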