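import Cfsg.Statements.S4188
import Cfsg.Agent.Lib.Helper90.Irred2Main

set_option autoImplicit false
open Cfsg

namespace Cfsg.Agent.S4188

/-- Let G be a finite group that is the semidirect product of a normal abelian subgroup N of odd order by a 2-subgroup P, and suppose N is the unique minimal normal subgroup of G. Then the index of the Frattini subgroup of P in P is at most #N − 1. -/
theorem result {G : Type*} [Group G] [Finite G] (N P : Subgroup G) (hN : N.Normal) (hNab : IsMulCommutative ↥N) (hNodd : Odd (Nat.card ↥N)) (hP : IsPGroup 2 ↥P) (hdisj : N ⊓ P = ⊥) (hprod : N ⊔ P = ⊤) (hmin : N ≠ ⊥ ∧ ∀ M : Subgroup G, M.Normal → M ≠ ⊥ → N ≤ M) : (frattini ↥P).index ≤ Nat.card ↥N - 1 := by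
  classical
  haveI := hN
  have hcN : ∀ a b : ↥N, a * b = b * a := fun a b => mul_comm' a b
  have hNmem : ∀ a ∈ N, ∀ b ∈ N, a * b = b * a := fun a ha b hb =>
    congrArg Subtype.val (hcN ⟨a, ha⟩ ⟨b, hb⟩)
  have hle_norm : ∀ K S : Subgroup G, (∀ k ∈ K, ∀ s ∈ S, k * s * k⁻¹ ∈ S) →
      K ≤ Subgroup.normalizer (S : Set G) := by
    intro K S h k hk
    rw [Subgroup.mem_normalizer_iff]
    intro s
    refine ⟨fun hs => h k hk s hs, fun hs => ?_⟩
    have h1 := h k⁻¹ (K.inv_mem hk) _ hs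
    rw [inv_inv] at h1
    have h2 : k⁻¹ * (k * s * k⁻¹) * k = s := by group
    rwa [h2] at h1
  have hnormal : ∀ C : Subgroup G, (∀ n ∈ N, ∀ c ∈ C, n * c * n⁻¹ ∈ C) →
      (∀ p ∈ P, ∀ c ∈ C, p * c * p⁻¹ ∈ C) → C.Normal := by
    intro C h1 h2
    have h3 : N ⊔ P ≤ Subgroup.normalizer (C : Set G) :=
      sup_le (hle_norm N C h1) (hle_norm P C h2)
    rw [hprod] at h3
    exact Subgroup.normalizer_eq_top_iff.mp (top_le_iff.mp h3)
  let φ : ↥P →* MulAut ↥N := (MulAut.conjNormal (H := N)).comp P.subtype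
  have hφapp : ∀ (x : ↥P) (n : ↥N), ((φ x n : ↥N) : G) = (x : G) * n * (x : G)⁻¹ :=
    fun x n => MulAut.conjNormal_apply (x : G) n
  -- the action is faithful
  have hφ : Function.Injective φ := by
    rw [injective_iff_map_eq_one]
    intro x hx
    by_contra hx1
    have hxc : ∀ n ∈ N, (x : G) * n * (x : G)⁻¹ = n := by
      intro n hn
      have h0 := congrArg (fun σ : MulAut ↥N => ((σ ⟨n, hn⟩ : ↥N) : G)) hx
      rw [← hφapp x ⟨n, hn⟩]
      exact h0
    have hCn : (P ⊓ Subgroup.centralizer (N : Set G)).Normal := by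
      apply hnormal
      · intro n hn c hc
        have h0 : n * c = c * n := (Subgroup.mem_centralizer_iff.mp hc.2 n hn)
        rw [h0, mul_inv_cancel_right]
        exact hc
      · intro p hp c hc
        refine ⟨P.mul_mem (P.mul_mem hp hc.1) (P.inv_mem hp), ?_⟩
        exact (inferInstance : (Subgroup.centralizer (N : Set G)).Normal).conj_mem c hc.2 p
    have hxC : (x : G) ∈ P ⊓ Subgroup.centralizer (N : Set G) := by
      have hxcent : (x : G) ∈ Subgroup.centralizer (N : Set G) := by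
        rw [Subgroup.mem_centralizer_iff]
        intro n hn
        have h0 := hxc n hn
        calc n * (x : G) = (x : G) * n * (x : G)⁻¹ * (x : G) := by rw [h0]
          _ = (x : G) * n := by group
      exact ⟨x.2, hxcent⟩
    have hC0 : P ⊓ Subgroup.centralizer (N : Set G) ≠ ⊥ := by
      intro h
      rw [h, Subgroup.mem_bot] at hxC
      exact hx1 (Subtype.ext hxC)
    have hNC : N ≤ P ⊓ Subgroup.centralizer (N : Set G) := hmin.2 _ hCn hC0
    have h0 : N ≤ N ⊓ P := le_inf le_rfl (hNC.trans inf_le_left)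
    rw [hdisj] at h0
    exact hmin.1 (le_bot_iff.mp h0)
  -- the action is irreducible
  have hirr : ∀ W : Subgroup ↥N, (∀ x : ↥P, ∀ w ∈ W, φ x w ∈ W) → W = ⊥ ∨ W = ⊤ := by
    intro W hW
    have hWn : (W.map N.subtype).Normal := by
      apply hnormal
      · rintro n hn _ ⟨w, hw, rfl⟩
        have h0 : n * (w : G) = (w : G) * n := hNmem n hn w w.2
        have h1 : n * (N.subtype w) * n⁻¹ = N.subtype w := by
          show n * (w : G) * n⁻¹ = (w : G)
          rw [h0, mul_inv_cancel_right]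
        rw [h1]
        exact ⟨w, hw, rfl⟩
      · rintro p hp _ ⟨w, hw, rfl⟩
        refine ⟨φ ⟨p, hp⟩ w, hW ⟨p, hp⟩ w hw, ?_⟩
        exact hφapp ⟨p, hp⟩ w
    by_cases hW0 : W.map N.subtype = ⊥
    · left
      exact (Subgroup.map_eq_bot_iff_of_injective W N.subtype_injective).mp hW0
    · right
      have hNW : N ≤ W.map N.subtype := hmin.2 _ hWn hW0
      rw [eq_top_iff]
      intro w _
      obtain ⟨w', hw', hww⟩ := hNW w.2
      have h1 : w' = w := Subtype.ext hww
      rw [← h1]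
      exact hw'
  have hN1 : Nat.card ↥N ≠ 1 := fun h => hmin.1 (Subgroup.card_eq_one.mp h)
  have hfr : (frattini ↥P).index ≤ Cfsg.Agent.Lib.Helper90.Irr2.sqi ↥P :=
    Cfsg.Agent.Lib.Helper90.Irr2.frattini_index_le_sqi hP
  rcases Cfsg.Agent.Lib.Helper90.Irr2.main_bound' ↥N hcN ↥P φ hφ hNodd hN1 hP hirr with h3 | h
  · -- `|N| = 3`
    haveI : Fact (Nat.Prime 3) := ⟨Nat.prime_three⟩
    haveI : IsCyclic ↥N := isCyclic_of_prime_card h3
    have hAut : Nat.card (MulAut ↥N) ≤ 2 :=
      Cfsg.Agent.Lib.Helper90.Irr2.card_mulAut_le_two (by omega)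
    have h1 : Nat.card ↥P ≤ Nat.card (MulAut ↥N) := Nat.card_le_card_of_injective φ hφ
    have h2 : (frattini ↥P).index ≤ Nat.card ↥P :=
      Nat.le_of_dvd Nat.card_pos (Subgroup.index_dvd_card _)
    omega
  · have hpos := Cfsg.Agent.Lib.Helper90.Irr2.sqi_pos ↥P
    omega

end Cfsg.Agent.S4188
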