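import Mathlib
import Cfsg.Statements.S4189
import Cfsg.Agent.S4207
import Cfsg.Agent.S4210
import Cfsg.Agent.Lib.Helper70.FrattiniQuot

set_option autoImplicit false
open Cfsg

namespace Cfsg.Agent.S4189

/-- In a nilpotent group a subgroup contained in its own commutator with the whole group is trivial. -/
theorem nil_bot {P : Type*} [Group P] [Group.IsNilpotent P] (H : Subgroup P)
    (h : H ≤ ⁅H, (⊤ : Subgroup P)⁆) : H = ⊥ := by
  have hall : ∀ n : ℕ, H ≤ Subgroup.lowerCentralSeries (⊤ : Subgroup P) n := by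
    intro n
    induction n with
    | zero => simp
    | succ n ih =>
      refine h.trans ?_
      have h1 : ⁅H, (⊤ : Subgroup P)⁆ ≤ ⁅Subgroup.lowerCentralSeries (⊤ : Subgroup P) n, (⊤ : Subgroup P)⁆ :=
        Subgroup.commutator_mono ih le_rfl
      exact h1
  obtain ⟨n, hn⟩ := Subgroup.nilpotent_iff_lowerCentralSeries.mp (inferInstance : Group.IsNilpotent P)
  rw [eq_bot_iff, ← hn]
  exact hall n

/-- Pigeonhole in a quotient of order four. -/
theorem cosets3 {P : Type*} [Group P] (D : Subgroup P) [D.Normal] (h4 : D.index = 4) (a b c w : P)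
    (ha : a ∉ D) (hb : b ∉ D) (hc : c ∉ D) (hab : b * a⁻¹ ∉ D) (hac : c * a⁻¹ ∉ D)
    (hbc : c * b⁻¹ ∉ D) (hw : w ∉ D) :
    w * a⁻¹ ∈ D ∨ w * b⁻¹ ∈ D ∨ w * c⁻¹ ∈ D := by
  by_contra hcon
  push Not at hcon
  obtain ⟨h1, h2, h3⟩ := hcon
  have hcard : Nat.card (P ⧸ D) = 4 := h4
  have hfin : Finite (P ⧸ D) := Nat.finite_of_card_ne_zero (by omega)
  let f : Fin 5 → P := ![1, a, b, c, w]
  have hf : ∀ i j : Fin 5, i < j → f j * (f i)⁻¹ ∉ D := by
    intro i j hij
    fin_cases i <;> fin_cases j <;> first | (exact absurd hij (by decide)) | (simpa [f] using ‹_›)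
  let _ : Fintype (P ⧸ D) := Fintype.ofFinite _
  obtain ⟨i, j, hij, he⟩ := Fintype.exists_ne_map_eq_of_card_lt
    (fun i : Fin 5 => (QuotientGroup.mk (f i) : P ⧸ D)) (by rw [← Nat.card_eq_fintype_card, hcard]; simp)
  rw [QuotientGroup.eq_iff_div_mem, div_eq_mul_inv] at he
  rcases lt_or_gt_of_ne hij with hlt | hlt
  · apply hf i j hlt
    have := D.inv_mem he
    simpa using this
  · exact hf j i hlt he

/-- Let P be a finite non-abelian 2-group whose commutator subgroup has index 4 and whose automorphism group is not a 2-group (some automorphism has order that is not a power of 2). Then P is isomorphic to the quaternion group of order 8. -/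
theorem result {P : Type*} [Group P] [Finite P] (hP : IsPGroup 2 P) (hna : ¬ IsMulCommutative P) (h4 : (commutator P).index = 4) (haut : ¬ IsPGroup 2 (MulAut P)) : Nonempty (P ≃* QuaternionGroup 2) := by
  have h2 : Fact (Nat.Prime 2) := ⟨Nat.prime_two⟩
  have hnil : Group.IsNilpotent P := hP.isNilpotent
  -- notation
  set D : Subgroup P := ⁅(⊤ : Subgroup P), ⊤⁆ with hD
  have hDc : commutator P = D := rfl
  rw [hDc] at h4
  set L : Subgroup P := ⁅D, (⊤ : Subgroup P)⁆ with hL
  set M : Subgroup P := ⁅L, (⊤ : Subgroup P)⁆ with hM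
  have hDchar : D.Characteristic := inferInstance
  have hLchar : L.Characteristic := inferInstance
  have hDn : D.Normal := inferInstance
  have hLn : L.Normal := inferInstance
  have hMn : M.Normal := inferInstance
  have hcommD : ∀ u v : P, u * v * u⁻¹ * v⁻¹ ∈ D := fun u v =>
    Subgroup.commutator_mem_commutator (Subgroup.mem_top u) (Subgroup.mem_top v)
  have hcommL : ∀ d ∈ D, ∀ w : P, d * w * d⁻¹ * w⁻¹ ∈ L := fun d hd w =>
    Subgroup.commutator_mem_commutator hd (Subgroup.mem_top w)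
  have hcommL' : ∀ d ∈ D, ∀ w : P, w * d * w⁻¹ * d⁻¹ ∈ L := by
    intro d hd w
    have h := L.inv_mem (hcommL d hd w)
    have e : (d * w * d⁻¹ * w⁻¹)⁻¹ = w * d * w⁻¹ * d⁻¹ := by group
    rwa [e] at h
  have hcommM : ∀ g ∈ L, ∀ w : P, g * w * g⁻¹ * w⁻¹ ∈ M := fun g hg w =>
    Subgroup.commutator_mem_commutator hg (Subgroup.mem_top w)
  have hcommM' : ∀ g ∈ L, ∀ w : P, w * g * w⁻¹ * g⁻¹ ∈ M := by
    intro g hg w
    have h := M.inv_mem (hcommM g hg w)
    have e : (g * w * g⁻¹ * w⁻¹)⁻¹ = w * g * w⁻¹ * g⁻¹ := by group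
    rwa [e] at h
  have hcharD : ∀ (β : MulAut P) (x : P), β x ∈ D ↔ x ∈ D := by
    intro β x
    have h := hDchar.fixed β
    constructor
    · intro hx
      have hx' : x ∈ D.comap β.toMonoidHom := hx
      rwa [h] at hx'
    · intro hx
      rw [← h] at hx
      exact hx
  have hcharL : ∀ (β : MulAut P) (x : P), β x ∈ L ↔ x ∈ L := by
    intro β x
    have h := hLchar.fixed β
    constructor
    · intro hx
      have hx' : x ∈ L.comap β.toMonoidHom := hx
      rwa [h] at hx'
    · intro hx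
      rw [← h] at hx
      exact hx
  have hDΦ : D ≤ frattini P := by
    rw [hD, Subgroup.commutator_le]
    intro u _ v _
    rw [commutatorElement_def]
    have hmem : ∀ K : Subgroup P, IsCoatom K → u * v * u⁻¹ * v⁻¹ ∈ K := fun K hK =>
      (Cfsg.Agent.Lib.Helper70.coatom_props hP K hK).2 u v
    simp only [frattini, Order.radical, Subgroup.mem_iInf]
    exact fun K hK => hmem K hK
  -- Step 1: squares lie in `D`
  have hsq : ∀ x : P, x * x ∈ D := by
    intro x
    by_contra hx
    have hcard : Nat.card (P ⧸ D) = 4 := h4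
    have ho : orderOf (QuotientGroup.mk x : P ⧸ D) = 4 := by
      have h1 : orderOf (QuotientGroup.mk x : P ⧸ D) ∣ 4 := by
        rw [← hcard]
        exact orderOf_dvd_natCard _
      have h2 : ¬ orderOf (QuotientGroup.mk x : P ⧸ D) ∣ 2 := by
        rw [orderOf_dvd_iff_pow_eq_one]
        intro h
        apply hx
        rw [← QuotientGroup.eq_one_iff, ← h, pow_two]
        rfl
      have h3 : orderOf (QuotientGroup.mk x : P ⧸ D) ≤ 4 := Nat.le_of_dvd (by norm_num) h1
      generalize orderOf (QuotientGroup.mk x : P ⧸ D) = o at h1 h2 h3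
      interval_cases o <;> simp_all
    have hzp : Subgroup.zpowers (QuotientGroup.mk x : P ⧸ D) = ⊤ := by
      apply Subgroup.eq_top_of_card_eq
      rw [Nat.card_zpowers, ho, hcard]
    have htop : Subgroup.zpowers x ⊔ frattini P = ⊤ := by
      rw [eq_top_iff]
      intro w _
      have hw : (QuotientGroup.mk w : P ⧸ D) ∈ Subgroup.zpowers (QuotientGroup.mk x : P ⧸ D) := by
        rw [hzp]
        trivial
      obtain ⟨k, hk⟩ := Subgroup.mem_zpowers_iff.mp hw
      have h1 : (QuotientGroup.mk (x ^ k) : P ⧸ D) = QuotientGroup.mk w := by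
        rw [← hk]
        rfl
      rw [QuotientGroup.eq] at h1
      have h2 : w = x ^ k * ((x ^ k)⁻¹ * w) := by group
      rw [h2]
      exact Subgroup.mul_mem_sup (Subgroup.zpow_mem_zpowers x k) (hDΦ h1)
    have hxtop : Subgroup.zpowers x = ⊤ := frattini_nongenerating htop
    apply hna
    refine ⟨⟨fun a b => ?_⟩⟩
    have ha : a ∈ Subgroup.zpowers x := by
      rw [hxtop]
      trivial
    have hb : b ∈ Subgroup.zpowers x := by
      rw [hxtop]
      trivial
    obtain ⟨i, rfl⟩ := Subgroup.mem_zpowers_iff.mp ha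
    obtain ⟨j, rfl⟩ := Subgroup.mem_zpowers_iff.mp hb
    rw [← zpow_add, ← zpow_add, add_comm]
  -- automorphisms of odd prime order
  obtain ⟨n, hn⟩ := IsPGroup.iff_card.mp hP
  obtain ⟨r, hr⟩ := hP.index (frattini P)
  have hpow : ∀ (γ : MulAut P), (∀ x, γ x * x⁻¹ ∈ D) → ∀ k : ℕ, ∀ x, (γ ^ k) x * x⁻¹ ∈ D := by
    intro γ hγ k
    induction k with
    | zero =>
      intro x
      simp
    | succ k ih =>
      intro x
      have e : (γ ^ (k + 1)) x * x⁻¹ = ((γ ^ k) (γ x) * (γ x)⁻¹) * (γ x * x⁻¹) := by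
        rw [pow_succ, MulAut.mul_apply]
        group
      rw [e]
      exact D.mul_mem (ih (γ x)) (hγ x)
  have E0 : ∀ (β : MulAut P) (q : ℕ), q.Prime → q ≠ 2 → orderOf β = q → ¬ ∀ x, β x * x⁻¹ ∈ D := by
    intro β q hq hq2 hord hβ
    have hA : ∀ γ ∈ Subgroup.zpowers β, ∀ x : P, γ x * x⁻¹ ∈ frattini P := by
      intro γ hγ x
      obtain ⟨k, rfl⟩ : ∃ k : ℕ, β ^ k = γ := by
        have h := mem_powers_iff_mem_zpowers.mpr hγ
        exact h
      exact hDΦ (hpow β hβ k x)
    have hdvd := Cfsg.Agent.S4207.result hn hr (Subgroup.zpowers β) hA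
    rw [Nat.card_zpowers, hord] at hdvd
    exact hq2 ((Nat.prime_dvd_prime_iff_eq hq Nat.prime_two).mp (hq.dvd_of_dvd_pow hdvd))
  have E1 : ∀ (β : MulAut P) (q : ℕ), q.Prime → q ≠ 2 → orderOf β = q →
      ∀ x, x ∉ D → β x * x⁻¹ ∉ D := by
    intro β q hq hq2 hord x hx hβx
    let F : Subgroup P :=
      { carrier := {w | β w * w⁻¹ ∈ D}
        mul_mem' := by
          intro a b ha hb
          have e : β (a * b) * (a * b)⁻¹ = (β a * a⁻¹) * (a * (β b * b⁻¹) * a⁻¹) := by
            rw [map_mul]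
            group
          show β (a * b) * (a * b)⁻¹ ∈ D
          rw [e]
          exact D.mul_mem ha (hDn.conj_mem _ hb a)
        one_mem' := by
          show β 1 * 1⁻¹ ∈ D
          simp
        inv_mem' := by
          intro a ha
          have e : β a⁻¹ * a⁻¹⁻¹ = a⁻¹ * (β a * a⁻¹)⁻¹ * a⁻¹⁻¹ := by
            rw [map_inv]
            group
          show β a⁻¹ * a⁻¹⁻¹ ∈ D
          rw [e]
          exact hDn.conj_mem _ (D.inv_mem ha) a⁻¹ }
    have hFmem : ∀ w, w ∈ F ↔ β w * w⁻¹ ∈ D := fun w => Iff.rfl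
    have hDF : D ≤ F := by
      intro d hd
      rw [hFmem]
      exact D.mul_mem ((hcharD β d).mpr hd) (D.inv_mem hd)
    have hxF : x ∈ F := hβx
    have hidx : D.relIndex F * F.index = 4 := by
      rw [Subgroup.relIndex_mul_index hDF, h4]
    have hrel : D.relIndex F ≠ 1 := by
      rw [Ne, Subgroup.relIndex_eq_one]
      intro h
      exact hx (h hxF)
    have hF12 : F.index = 1 ∨ F.index = 2 := by
      have h1 : F.index ∣ 4 := Dvd.intro_left _ hidx
      have h2 : F.index ≤ 4 := Nat.le_of_dvd (by norm_num) h1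
      have h3 : F.index ≠ 4 := by
        intro h
        rw [h] at hidx
        apply hrel
        omega
      have h0 : F.index ≠ 0 := by
        intro h
        rw [h] at hidx
        omega
      have h5 : F.index ≠ 3 := by
        intro h
        rw [h] at h1
        omega
      omega
    rcases hF12 with h1 | h2
    · rw [Subgroup.index_eq_one] at h1
      apply E0 β q hq hq2 hord
      intro w
      have hw : w ∈ F := by
        rw [h1]
        trivial
      exact hw
    · have hβF : ∀ w, β w ∈ F ↔ w ∈ F := by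
        intro w
        rw [hFmem, hFmem]
        have e : β (β w) * (β w)⁻¹ = β (β w * w⁻¹) := by
          rw [map_mul, map_inv]
        rw [e]
        exact hcharD β _
      have hord2 : orderOf (β ^ 2) = q := by
        have hcop : Nat.Coprime (orderOf β) 2 := by
          rw [hord]
          exact (Nat.coprime_primes hq Nat.prime_two).mpr hq2
        rw [hcop.orderOf_pow, hord]
      apply E0 (β ^ 2) q hq hq2 hord2
      intro w
      have e0 : (β ^ 2) w = β (β w) := by
        rw [pow_two]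
        rfl
      rw [e0]
      by_cases hw : w ∈ F
      · have e : β (β w) * w⁻¹ = β (β w * w⁻¹) * (β w * w⁻¹) := by
          rw [map_mul, map_inv]
          group
        rw [e]
        exact D.mul_mem ((hcharD β _).mpr hw) hw
      · have hβw : β w ∉ F := fun h => hw ((hβF w).mp h)
        have ht : w⁻¹ * β w ∈ F := by
          rw [Subgroup.mul_mem_iff_of_index_two h2]
          constructor
          · intro h
            exact absurd (F.inv_mem_iff.mp h) hw
          · intro h
            exact absurd h hβw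
        obtain ⟨t, htdef⟩ : ∃ t, t = w⁻¹ * β w := ⟨_, rfl⟩
        rw [← htdef] at ht
        have ht' : β t * t⁻¹ ∈ D := ht
        have hβw' : β w = w * t := by
          rw [htdef]
          group
        have e : β (β w) * w⁻¹ = w * ((t * t) * (t⁻¹ * (β t * t⁻¹) * t⁻¹⁻¹)) * w⁻¹ := by
          rw [hβw', map_mul, hβw']
          group
        rw [e]
        apply hDn.conj_mem
        exact D.mul_mem (hsq t) (hDn.conj_mem _ ht' t⁻¹)
  obtain ⟨q, hq, hq2, α, hα⟩ : ∃ q : ℕ, q.Prime ∧ q ≠ 2 ∧ ∃ α : MulAut P, orderOf α = q := by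
    by_contra hcon
    push Not at hcon
    apply haut
    have hcard0 : Nat.card (MulAut P) ≠ 0 := Nat.card_pos.ne'
    refine IsPGroup.of_card (Nat.eq_prime_pow_of_unique_prime_dvd hcard0 ?_)
    intro d hd hdvd
    by_contra hd2
    have hdf : Fact d.Prime := ⟨hd⟩
    obtain ⟨β, hβ⟩ := exists_prime_orderOf_dvd_card' d hdvd
    exact hcon d hd hd2 β hβ
  have hα2 : orderOf (α ^ 2) = q := by
    have hcop : Nat.Coprime (orderOf α) 2 := by
      rw [hα]
      exact (Nat.coprime_primes hq Nat.prime_two).mpr hq2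
    rw [hcop.orderOf_pow, hα]
  obtain ⟨x₀, hx₀⟩ : ∃ x₀ : P, x₀ ∉ D := by
    by_contra hcon
    push Not at hcon
    have htop : D = ⊤ := by
      rw [eq_top_iff]
      intro x _
      exact hcon x
    rw [htop, Subgroup.index_top] at h4
    omega
  have hDbot : D ≠ ⊥ := by
    intro hbot
    apply hna
    refine ⟨⟨fun a b => ?_⟩⟩
    have h := hcommD a b
    rw [hbot, Subgroup.mem_bot] at h
    calc a * b = (a * b * a⁻¹ * b⁻¹) * (b * a) := by group
      _ = b * a := by rw [h, one_mul]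
  obtain ⟨c₁, hc₁D, hc₁L⟩ : ∃ c ∈ D, c ∉ L := by
    by_contra hcon
    push Not at hcon
    exact hDbot (nil_bot D (fun d hd => hcon d hd))
  -- (B): `D / L` has order two
  have hy₀D : α x₀ ∉ D := fun h => hx₀ ((hcharD α x₀).mp h)
  have hy₀x₀ : α x₀ * x₀⁻¹ ∉ D := E1 α q hq hq2 hα x₀ hx₀
  have hB : ∀ c ∈ D, c ∉ L → ∀ d ∈ D, d ∈ L ∨ d * c⁻¹ ∈ L := by
    obtain ⟨y₀, hy₀⟩ : ∃ y₀, y₀ = α x₀ := ⟨_, rfl⟩
    rw [← hy₀] at hy₀D hy₀x₀
    obtain ⟨c₀, hc₀⟩ : ∃ c₀, c₀ = x₀ * y₀ * x₀⁻¹ * y₀⁻¹ := ⟨_, rfl⟩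
    have hc₀D : c₀ ∈ D := by
      rw [hc₀]
      exact hcommD x₀ y₀
    have hc₀sq : c₀ * c₀ ∈ L := by
      have h1 : (x₀ * x₀) * y₀ * (x₀ * x₀)⁻¹ * y₀⁻¹ ∈ L := hcommL _ (hsq x₀) y₀
      have h2 : x₀ * c₀ * x₀⁻¹ * c₀⁻¹ ∈ L := hcommL' c₀ hc₀D x₀
      have e : c₀ * c₀ = (x₀ * c₀ * x₀⁻¹ * c₀⁻¹)⁻¹ * ((x₀ * x₀) * y₀ * (x₀ * x₀)⁻¹ * y₀⁻¹) := by
        rw [hc₀]
        group
      rw [e]
      exact L.mul_mem (L.inv_mem h2) h1
    let T : Subgroup P :=
      { carrier := {t | t ∈ L ∨ t * c₀⁻¹ ∈ L}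
        mul_mem' := by
          rintro a b (ha | ha) (hb | hb)
          · left
            exact L.mul_mem ha hb
          · right
            have e : a * b * c₀⁻¹ = a * (b * c₀⁻¹) := by group
            rw [e]
            exact L.mul_mem ha hb
          · right
            have e : a * b * c₀⁻¹ = (a * c₀⁻¹) * (c₀ * b * c₀⁻¹) := by group
            rw [e]
            exact L.mul_mem ha (hLn.conj_mem _ hb c₀)
          · left
            have e : a * b = (a * c₀⁻¹) * (c₀ * (b * c₀⁻¹) * c₀⁻¹) * (c₀ * c₀) := by group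
            rw [e]
            exact L.mul_mem (L.mul_mem ha (hLn.conj_mem _ hb c₀)) hc₀sq
        one_mem' := Or.inl L.one_mem
        inv_mem' := by
          rintro a (ha | ha)
          · left
            exact L.inv_mem ha
          · right
            have e : a⁻¹ * c₀⁻¹ = (c₀⁻¹ * (a * c₀⁻¹)⁻¹ * c₀⁻¹⁻¹) * (c₀ * c₀)⁻¹ := by group
            rw [e]
            exact L.mul_mem (hLn.conj_mem _ (L.inv_mem ha) c₀⁻¹) (L.inv_mem hc₀sq) }
    have hTmem : ∀ t, t ∈ T ↔ (t ∈ L ∨ t * c₀⁻¹ ∈ L) := fun t => Iff.rfl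
    have hTn : ∀ w t, t ∈ T → w * t * w⁻¹ ∈ T := by
      intro w t ht
      rcases ht with ht | ht
      · left
        exact hLn.conj_mem _ ht w
      · right
        have e : w * t * w⁻¹ * c₀⁻¹ = (w * (t * c₀⁻¹) * w⁻¹) * (w * c₀ * w⁻¹ * c₀⁻¹) := by group
        rw [e]
        exact L.mul_mem (hLn.conj_mem _ ht w) (hcommL' c₀ hc₀D w)
    have hTnorm : ∀ w : P, w ∈ Subgroup.normalizer (T : Set P) := by
      intro w
      rw [Subgroup.mem_normalizer_iff]
      intro t
      constructor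
      · exact hTn w t
      · intro h
        have h' := hTn w⁻¹ _ h
        have e : w⁻¹ * (w * t * w⁻¹) * w⁻¹⁻¹ = t := by group
        rwa [e] at h'
    have hgen : Subgroup.closure {x₀, y₀} = ⊤ := by
      apply frattini_nongenerating
      obtain ⟨H, hH⟩ : ∃ H, H = Subgroup.closure {x₀, y₀} ⊔ D := ⟨_, rfl⟩
      have hDH : D ≤ H := by
        rw [hH]
        exact le_sup_right
      have hx₀H : x₀ ∈ H := by
        rw [hH]
        exact (le_sup_left : Subgroup.closure {x₀, y₀} ≤ _) (Subgroup.subset_closure (by simp))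
      have hy₀H : y₀ ∈ H := by
        rw [hH]
        exact (le_sup_left : Subgroup.closure {x₀, y₀} ≤ _) (Subgroup.subset_closure (by simp))
      have hidx : D.relIndex H * H.index = 4 := by
        rw [Subgroup.relIndex_mul_index hDH, h4]
      have hHtop : H = ⊤ := by
        rw [← Subgroup.index_eq_one]
        have hrel1 : D.relIndex H ≠ 1 := by
          rw [Ne, Subgroup.relIndex_eq_one]
          intro h
          exact hx₀ (h hx₀H)
        have hrel2 : D.relIndex H ≠ 2 := by
          intro h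
          have h' : (D.subgroupOf H).index = 2 := h
          have hiff := Subgroup.mul_mem_iff_of_index_two h' (a := (⟨y₀, hy₀H⟩ : H))
            (b := (⟨x₀, hx₀H⟩ : H)⁻¹)
          apply hy₀x₀
          have h3 : (⟨y₀, hy₀H⟩ : H) * (⟨x₀, hx₀H⟩ : H)⁻¹ ∈ D.subgroupOf H := by
            rw [hiff]
            constructor
            · intro h
              exact absurd (Subgroup.mem_subgroupOf.mp h) hy₀D
            · intro h
              exact absurd (D.inv_mem_iff.mp (Subgroup.mem_subgroupOf.mp h)) hx₀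
          exact Subgroup.mem_subgroupOf.mp h3
        have h1 : D.relIndex H ∣ 4 := Dvd.intro _ hidx
        have h2 : D.relIndex H ≤ 4 := Nat.le_of_dvd (by norm_num) h1
        have h0 : D.relIndex H ≠ 0 := by
          intro h
          rw [h] at hidx
          omega
        have h3 : D.relIndex H ≠ 3 := by
          intro h
          rw [h] at h1
          omega
        have h4' : D.relIndex H = 4 := by omega
        rw [h4'] at hidx
        omega
      rw [eq_top_iff, ← hHtop, hH]
      exact sup_le_sup_left hDΦ _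
    have hDT : D ≤ T := by
      have h := Cfsg.Agent.S4210.comm_closure_le T x₀ y₀ (hTnorm x₀) (hTnorm y₀) (Or.inr (by
        rw [← hc₀, mul_inv_cancel]
        exact L.one_mem))
      rw [hgen] at h
      exact h
    intro c hc hcL d hd
    have h1 : c * c₀⁻¹ ∈ L := by
      rcases hDT hc with h | h
      · exact absurd h hcL
      · exact h
    rcases hDT hd with h | h
    · left
      exact h
    · right
      have e : d * c⁻¹ = (d * c₀⁻¹) * (c * c₀⁻¹)⁻¹ := by group
      rw [e]
      exact L.mul_mem h (L.inv_mem h1)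
  have hsqD : ∀ u ∈ D, u * u ∈ L := by
    intro u hu
    by_cases huL : u ∈ L
    · exact L.mul_mem huL huL
    · rcases hB u hu huL (u * u) (D.mul_mem hu hu) with h | h
      · exact h
      · exfalso
        apply huL
        have e : u * u * u⁻¹ = u := by group
        rwa [e] at h
  -- (C): some square outside `L`
  obtain ⟨x₁, hx₁D, hx₁L⟩ : ∃ x₁ : P, x₁ ∉ D ∧ x₁ * x₁ ∉ L := by
    by_contra hcon
    push Not at hcon
    have hall : ∀ w : P, w * w ∈ L := by
      intro w
      by_cases hw : w ∈ D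
      · exact hsqD w hw
      · exact hcon w hw
    apply hc₁L
    have hDL : D ≤ L := by
      rw [hD, Subgroup.commutator_le]
      intro u _ v _
      rw [commutatorElement_def]
      have e : u * v * u⁻¹ * v⁻¹ = (u * u) * ((u⁻¹ * v) * (u⁻¹ * v)) * (v⁻¹ * v⁻¹) := by group
      rw [e]
      exact L.mul_mem (L.mul_mem (hall u) (hall _)) (hall _)
    exact hDL hc₁D
  -- (D): squares modulo `L` only depend on the coset of `D`
  have hD' : ∀ x : P, x * x ∉ L → ∀ u ∈ D, (x * u) * (x * u) ∉ L := by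
    intro x hx u hu h
    apply hx
    have h1 : x⁻¹ * u * x⁻¹⁻¹ * u⁻¹ ∈ L := hcommL' u hu x⁻¹
    have e : x * x = ((x * u) * (x * u)) * (u * u)⁻¹ * (x⁻¹ * u * x⁻¹⁻¹ * u⁻¹)⁻¹ := by group
    rw [e]
    exact L.mul_mem (L.mul_mem h (L.inv_mem (hsqD u hu))) (L.inv_mem h1)
  -- (E): no element outside `D` squares into `L`
  have hE : ∀ w : P, w ∉ D → w * w ∉ L := by
    intro w hw
    have key : ∀ a : P, a * a ∉ L → w * a⁻¹ ∈ D → w * w ∉ L := by
      intro a ha hwa
      have h := hD' a ha (a⁻¹ * (w * a⁻¹) * a⁻¹⁻¹) (hDn.conj_mem _ hwa a⁻¹)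
      have e : a * (a⁻¹ * (w * a⁻¹) * a⁻¹⁻¹) = w := by group
      rwa [e] at h
    have ha1 : α x₁ ∉ D := fun h => hx₁D ((hcharD α x₁).mp h)
    have ha2 : α (α x₁) ∉ D := fun h => ha1 ((hcharD α _).mp h)
    have h12 : α x₁ * x₁⁻¹ ∉ D := E1 α q hq hq2 hα x₁ hx₁D
    have h13 : α (α x₁) * x₁⁻¹ ∉ D := by
      have h := E1 (α ^ 2) q hq hq2 hα2 x₁ hx₁D
      rw [pow_two] at h
      exact h
    have h23 : α (α x₁) * (α x₁)⁻¹ ∉ D := by
      intro h
      apply h12
      have e : α (α x₁) * (α x₁)⁻¹ = α (α x₁ * x₁⁻¹) := by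
        rw [map_mul, map_inv]
      rw [e] at h
      exact (hcharD α _).mp h
    have hs1 : α x₁ * α x₁ ∉ L := by
      rw [← map_mul]
      exact fun h => hx₁L ((hcharL α _).mp h)
    have hs2 : α (α x₁) * α (α x₁) ∉ L := by
      rw [← map_mul]
      exact fun h => hs1 ((hcharL α _).mp h)
    rcases cosets3 D h4 x₁ (α x₁) (α (α x₁)) w hx₁D ha1 ha2 h12 h13 h23 hw with h | h | h
    · exact key _ hx₁L h
    · exact key _ hs1 h
    · exact key _ hs2 h
  -- (F), (G): `L ≤ ⁅L, ⊤⁆`
  have hF : ∀ c ∈ D, c ∉ L → ∀ x : P, x ∉ D → c * x * c⁻¹ * x⁻¹ ∈ M := by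
    intro c hc hcL x hx
    have hg : x * x * c⁻¹ ∈ L := by
      rcases hB c hc hcL (x * x) (hsq x) with h | h
      · exact absurd h (hE x hx)
      · exact h
    obtain ⟨g, hgdef⟩ : ∃ g, g = x * x * c⁻¹ := ⟨_, rfl⟩
    rw [← hgdef] at hg
    have e : c * x * c⁻¹ * x⁻¹ = g⁻¹ * (x * g * x⁻¹ * g⁻¹) * g⁻¹⁻¹ := by
      rw [hgdef]
      group
    rw [e]
    exact hMn.conj_mem _ (hcommM' g hg x) g⁻¹
  have hG : ∀ c ∈ D, ∀ w : P, c * w * c⁻¹ * w⁻¹ ∈ M := by
    intro c hc w
    by_cases hcL : c ∈ L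
    · exact hcommM c hcL w
    · by_cases hw : w ∈ D
      · have h1 : w * x₀ ∉ D := by
          intro h
          apply hx₀
          have h' := D.mul_mem (D.inv_mem hw) h
          have e : w⁻¹ * (w * x₀) = x₀ := by group
          rwa [e] at h'
        have h2 : x₀⁻¹ ∉ D := fun h => hx₀ (D.inv_mem_iff.mp h)
        have e : c * w * c⁻¹ * w⁻¹ = (c * (w * x₀) * c⁻¹ * (w * x₀)⁻¹) *
            ((w * x₀) * (c * x₀⁻¹ * c⁻¹ * x₀⁻¹⁻¹) * (w * x₀)⁻¹) := by group
        rw [e]
        exact M.mul_mem (hF c hc hcL _ h1) (hMn.conj_mem _ (hF c hc hcL _ h2) _)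
      · exact hF c hc hcL w hw
  have hLbot : L = ⊥ := by
    apply nil_bot
    exact (Subgroup.commutator_le (H₁ := D) (H₂ := ⊤) (H₃ := M)).mpr (fun d hd w _ => hG d hd w)
  -- structure: `D` is central of order two
  have hLmem : ∀ g : P, g ∈ L ↔ g = 1 := by
    intro g
    rw [hLbot, Subgroup.mem_bot]
  have hc₁1 : c₁ ≠ 1 := fun h => hc₁L ((hLmem c₁).mpr h)
  have hDelts : ∀ d ∈ D, d = 1 ∨ d = c₁ := by
    intro d hd
    rcases hB c₁ hc₁D hc₁L d hd with h | h
    · left
      exact (hLmem d).mp h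
    · right
      exact mul_inv_eq_one.mp ((hLmem _).mp h)
  have hxx : ∀ x : P, x ∉ D → x * x = c₁ := by
    intro x hx
    rcases hDelts (x * x) (hsq x) with h | h
    · exact absurd ((hLmem _).mpr h) (hE x hx)
    · exact h
  have hc₁sq : c₁ * c₁ = 1 := (hLmem _).mp (hsqD c₁ hc₁D)
  -- generators
  obtain ⟨y, hy⟩ : ∃ y, y = α x₀ := ⟨_, rfl⟩
  rw [← hy] at hy₀D hy₀x₀
  have hxyD : x₀ * y ∉ D := by
    intro h
    apply hy₀x₀
    have e : y * x₀⁻¹ = (x₀⁻¹ * (x₀ * y) * x₀⁻¹⁻¹) * (x₀ * x₀)⁻¹ := by group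
    rw [e]
    exact D.mul_mem (hDn.conj_mem _ h _) (D.inv_mem (hsq x₀))
  have hx2 : x₀ * x₀ = c₁ := hxx x₀ hx₀
  have hy2 : y * y = c₁ := hxx y hy₀D
  have hxy2 : (x₀ * y) * (x₀ * y) = c₁ := hxx _ hxyD
  have hx4 : x₀ ^ 4 = 1 := by
    calc x₀ ^ 4 = (x₀ * x₀) * (x₀ * x₀) := by
          simp only [pow_succ, pow_zero, one_mul, mul_assoc]
      _ = 1 := by rw [hx2, hc₁sq]
  have hrel : y * x₀⁻¹ = x₀ * y := by
    have h : (x₀ * y) * (x₀ * y) = y * y := by rw [hxy2, hy2]
    have h' : x₀ * y * x₀ = y := by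
      calc x₀ * y * x₀ = ((x₀ * y) * (x₀ * y)) * y⁻¹ := by group
        _ = y := by rw [h]; group
    calc y * x₀⁻¹ = (x₀ * y * x₀) * x₀⁻¹ := by rw [h']
      _ = x₀ * y := by group
  -- the isomorphism
  have hne : NeZero (2 * 2) := ⟨by norm_num⟩
  let g : ZMod (2 * 2) → P := fun i => x₀ ^ i.val
  have hg_add : ∀ i j : ZMod (2 * 2), g (i + j) = g i * g j := by
    intro i j
    show x₀ ^ (i + j).val = x₀ ^ i.val * x₀ ^ j.val
    rw [ZMod.val_add, ← pow_add, ← pow_eq_pow_mod _ hx4]
  have hg0 : g 0 = 1 := by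
    show x₀ ^ (0 : ZMod (2 * 2)).val = 1
    rw [ZMod.val_zero, pow_zero]
  have hg_neg : ∀ i, g (-i) = (g i)⁻¹ := by
    intro i
    rw [eq_inv_iff_mul_eq_one, ← hg_add, neg_add_cancel, hg0]
  have hg2 : g ((2 : ℕ) : ZMod (2 * 2)) = c₁ := by
    show x₀ ^ (((2 : ℕ) : ZMod (2 * 2))).val = c₁
    have h : (((2 : ℕ) : ZMod (2 * 2))).val = 2 := by decide
    rw [h, pow_two, hx2]
  have hconj : ∀ i, g i * y = y * g (-i) := by
    intro i
    rw [hg_neg]
    show x₀ ^ i.val * y = y * (x₀ ^ i.val)⁻¹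
    have hs : SemiconjBy y x₀⁻¹ x₀ := hrel
    have h := (hs.pow_right i.val).eq
    rw [← inv_pow]
    exact h.symm
  let φ : QuaternionGroup 2 → P := fun z => match z with
    | QuaternionGroup.a i => g i
    | QuaternionGroup.xa i => y * g i
  have hφmul : ∀ u v, φ (u * v) = φ u * φ v := by
    rintro (i | i) (j | j)
    · rw [QuaternionGroup.a_mul_a]
      exact hg_add i j
    · rw [QuaternionGroup.a_mul_xa]
      show y * g (j - i) = g i * (y * g j)
      rw [← mul_assoc, hconj, mul_assoc, ← hg_add, sub_eq_neg_add]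
    · rw [QuaternionGroup.xa_mul_a]
      show y * g (i + j) = y * g i * g j
      rw [hg_add, mul_assoc]
    · rw [QuaternionGroup.xa_mul_xa]
      show g (((2 : ℕ) : ZMod (2 * 2)) + j - i) = y * g i * (y * g j)
      have e : y * g i * (y * g j) = (y * y) * (g (-i) * g j) := by
        rw [mul_assoc y (g i), ← mul_assoc (g i), hconj]
        group
      rw [e, hy2, ← hg2, ← hg_add, ← hg_add]
      congr 1
      ring
  let φh : QuaternionGroup 2 →* P := MonoidHom.mk' φ hφmul
  have hφa2 : φh (QuaternionGroup.a ((2 : ℕ) : ZMod (2 * 2))) = c₁ := hg2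
  have hinj : Function.Injective φh := by
    rw [injective_iff_map_eq_one]
    intro z hz
    by_contra hz1
    have key : ∀ z : QuaternionGroup 2, z ≠ 1 →
        z = QuaternionGroup.a ((2 : ℕ) : ZMod (2 * 2)) ∨
        z * z = QuaternionGroup.a ((2 : ℕ) : ZMod (2 * 2)) := by
      decide
    rcases key z hz1 with h | h
    · rw [h, hφa2] at hz
      exact hc₁1 hz
    · have h' : φh (z * z) = 1 := by rw [map_mul, hz, one_mul]
      rw [h, hφa2] at h'
      exact hc₁1 h'
  have hcardP : Nat.card P ≤ 8 := by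
    have h1 : Nat.card D * D.index = Nat.card P := D.card_mul_index
    have h2 : Nat.card D ≤ 2 := by
      have h3 : Nat.card D = (D : Set P).ncard := rfl
      rw [h3]
      calc (D : Set P).ncard ≤ ({1, c₁} : Set P).ncard :=
            Set.ncard_le_ncard (fun d hd => by
              rcases hDelts d hd with h | h <;> simp [h]) (Set.toFinite _)
        _ ≤ 2 := by
            have h5 := Set.ncard_insert_le (1 : P) {c₁}
            rw [Set.ncard_singleton] at h5
            exact h5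
    rw [h4] at h1
    omega
  have hbij : Function.Bijective φh := hinj.bijective_of_nat_card_le (by
    rw [Nat.card_eq_fintype_card (α := QuaternionGroup 2), QuaternionGroup.card]
    exact hcardP)
  exact ⟨(MulEquiv.ofBijective φh hbij).symm⟩

end Cfsg.Agent.S4189
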