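import Mathlib
import Cfsg.Statements.S4195

set_option autoImplicit false
open Cfsg

namespace Cfsg.Agent.S4195

/-- Let x be a non-identity element of a finite group G whose centralizer contains a Sylow 2-subgroup of G. If x is conjugate to its inverse, then x has order 2. -/
theorem result {G : Type*} [Group G] [Finite G] (x : G) (hx : x ≠ 1) (P : Sylow 2 G) (hP : (P : Subgroup G) ≤ Subgroup.centralizer ({x} : Set G)) (hreal : IsConj x x⁻¹) : orderOf x = 2 := by
  classical
  have : Fact (Nat.Prime 2) := ⟨Nat.prime_two⟩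
  have hodd : ¬ 2 ∣ (Subgroup.centralizer ({x} : Set G)).index := fun h =>
    P.not_dvd_index (dvd_trans h (Subgroup.index_dvd_of_le hP))
  have hidx : (Subgroup.centralizer ({x} : Set G)).index = (MulAction.orbit (ConjAct G) x).ncard := by
    rw [← MulAction.index_stabilizer, Subgroup.centralizer_eq_comap_stabilizer]
    exact Subgroup.index_comap_of_surjective _ (ConjAct.toConjAct.surjective)
  have hmem : ∀ y : G, y ∈ MulAction.orbit (ConjAct G) x ↔ IsConj y x := fun y =>
    ConjAct.mem_orbit_conjAct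
  have hinv : ∀ y : G, IsConj y x → IsConj y⁻¹ x := by
    intro y hy
    obtain ⟨c, hc⟩ := isConj_iff.mp hy
    have h1 : IsConj y⁻¹ x⁻¹ := isConj_iff.mpr ⟨c, by rw [← hc]; group⟩
    exact h1.trans hreal.symm
  let σ : Equiv.Perm (MulAction.orbit (ConjAct G) x) :=
    { toFun := fun y => ⟨(y : G)⁻¹, (hmem _).mpr (hinv _ ((hmem _).mp y.2))⟩
      invFun := fun y => ⟨(y : G)⁻¹, (hmem _).mpr (hinv _ ((hmem _).mp y.2))⟩
      left_inv := fun y => by simp
      right_inv := fun y => by simp }
  have : Fintype (MulAction.orbit (ConjAct G) x) := Fintype.ofFinite _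
  have hσ : σ ^ 2 ^ 1 = 1 := by
    ext y
    simp [σ, pow_two]
  have hcard : ¬ 2 ∣ Fintype.card (MulAction.orbit (ConjAct G) x) := by
    rw [← Nat.card_eq_fintype_card, Nat.card_coe_set_eq, ← hidx]
    exact hodd
  obtain ⟨y, hy⟩ := Equiv.Perm.exists_fixed_point_of_prime hcard hσ
  have hy' : (y : G)⁻¹ = y := congrArg Subtype.val hy
  obtain ⟨c, hc⟩ := isConj_iff.mp ((hmem _).mp y.2)
  have hxx : x⁻¹ = x := by
    rw [← hc]
    have : (c * (y : G) * c⁻¹)⁻¹ = c * (y : G)⁻¹ * c⁻¹ := by group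
    rw [this, hy']
  have hx2 : x ^ 2 = 1 := by
    rw [pow_two]
    nth_rewrite 1 [← hxx]
    simp
  exact orderOf_eq_prime hx2 hx

end Cfsg.Agent.S4195
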