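import Mathlib
import Cfsg.Statements.S4196
import Cfsg.Agent.S4195

set_option autoImplicit false
open Cfsg

namespace Cfsg.Agent.S4196

/-- A finite group G has elementary abelian Sylow 2-subgroups (commutative with every element squaring to the identity) if and only if every 2-element of G has a Sylow 2-subgroup in its centralizer and is conjugate to its inverse. -/
theorem result {G : Type*} [Group G] [Finite G] (P : Sylow 2 G) :
    (IsMulCommutative (P : Subgroup G) ∧ ∀ x ∈ (P : Subgroup G), x ^ 2 = 1) ↔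
      ∀ x : G, (∃ k : ℕ, orderOf x = 2 ^ k) → (∃ Q : Sylow 2 G, (Q : Subgroup G) ≤ Subgroup.centralizer ({x} : Set G)) ∧ IsConj x x⁻¹ := by
  classical
  have : Fact (Nat.Prime 2) := ⟨Nat.prime_two⟩
  constructor
  · rintro ⟨hcomm, hsq⟩ x ⟨k, hk⟩
    -- x lies in a Sylow 2-subgroup Q = g • P
    have hxp : IsPGroup 2 (Subgroup.zpowers x) := by
      apply IsPGroup.of_card (n := k)
      rw [Nat.card_zpowers, hk]
    obtain ⟨Q, hQ⟩ := hxp.exists_le_sylow
    obtain ⟨g, hg⟩ := MulAction.exists_smul_eq G P Q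
    have hxQ : x ∈ (Q : Subgroup G) := hQ (Subgroup.mem_zpowers x)
    -- elements of Q are conjugates of elements of P
    have hQmem : ∀ q : G, q ∈ (Q : Subgroup G) → g⁻¹ * q * g ∈ (P : Subgroup G) := by
      intro q hq
      rw [← hg, Sylow.coe_subgroup_smul, Subgroup.mem_pointwise_smul_iff_inv_smul_mem] at hq
      simpa [MulAut.smul_def] using hq
    have hcomm' : ∀ a b : G, a ∈ (P : Subgroup G) → b ∈ (P : Subgroup G) → a * b = b * a := by
      intro a b ha hb
      have := (isMulCommutative_iff.mp hcomm) ⟨a, ha⟩ ⟨b, hb⟩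
      exact congrArg Subtype.val this
    refine ⟨⟨Q, ?_⟩, ?_⟩
    · intro q hq
      rw [Subgroup.mem_centralizer_iff]
      intro y hy
      rw [Set.mem_singleton_iff] at hy
      subst hy
      have h1 := hcomm' _ _ (hQmem y hxQ) (hQmem q hq)
      have h2 : g * (g⁻¹ * y * g * (g⁻¹ * q * g)) * g⁻¹ = g * (g⁻¹ * q * g * (g⁻¹ * y * g)) * g⁻¹ := by
        rw [h1]
      simpa [mul_assoc] using h2
    · have h1 := hsq _ (hQmem x hxQ)
      have h2 : x ^ 2 = 1 := by
        have : (g⁻¹ * x * g) ^ 2 = g⁻¹ * x ^ 2 * g := by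
          simp [pow_two, mul_assoc]
        rw [this] at h1
        have h3 : g * (g⁻¹ * x ^ 2 * g) * g⁻¹ = g * 1 * g⁻¹ := by rw [h1]
        simpa [mul_assoc] using h3
      have h3 : x⁻¹ = x := by
        rw [inv_eq_iff_mul_eq_one, ← pow_two, h2]
      rw [h3]
  · intro h
    have hsq : ∀ x ∈ (P : Subgroup G), x ^ 2 = 1 := by
      intro x hx
      by_cases hx1 : x = 1
      · simp [hx1]
      · obtain ⟨k, hk⟩ := (IsPGroup.iff_orderOf.mp P.2) ⟨x, hx⟩
        have hk' : orderOf x = 2 ^ k := by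
          rw [← hk, ← Subgroup.orderOf_coe]
        obtain ⟨⟨Q, hQ⟩, hreal⟩ := h x ⟨k, hk'⟩
        have := Cfsg.Agent.S4195.result x hx1 Q hQ hreal
        rw [← this]
        exact pow_orderOf_eq_one x
    refine ⟨isMulCommutative_iff.mpr ?_, hsq⟩
    rintro ⟨a, ha⟩ ⟨b, hb⟩
    apply Subtype.ext
    change a * b = b * a
    have h1 := hsq a ha
    have h2 := hsq b hb
    have h3 := hsq (a * b) (mul_mem ha hb)
    have ha' : a⁻¹ = a := by rw [inv_eq_iff_mul_eq_one, ← pow_two, h1]
    have hb' : b⁻¹ = b := by rw [inv_eq_iff_mul_eq_one, ← pow_two, h2]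
    have hab : (a * b)⁻¹ = a * b := by rw [inv_eq_iff_mul_eq_one, ← pow_two, h3]
    rw [mul_inv_rev, ha', hb'] at hab
    exact hab.symm

end Cfsg.Agent.S4196
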