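import Mathlib
import Cfsg.Statements.S4216

set_option autoImplicit false
open Cfsg

namespace Cfsg.Agent.S4216

theorem smul_mk_eq_iff {G : Type*} [Group G] (H : Subgroup G) (g t : G) :
    g • (QuotientGroup.mk t : G ⧸ H) = QuotientGroup.mk t ↔ t⁻¹ * g * t ∈ H := by
  rw [MulAction.Quotient.smul_mk, smul_eq_mul, QuotientGroup.eq]
  have e : (g * t)⁻¹ * t = (t⁻¹ * g * t)⁻¹ := by group
  rw [e, inv_mem_iff]

theorem smul_eq_iff {G : Type*} [Group G] (H : Subgroup G) (g : G) (c : G ⧸ H) :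
    g • c = c ↔ c.out⁻¹ * g * c.out ∈ H := by
  have h := smul_mk_eq_iff H g c.out
  rw [QuotientGroup.out_eq'] at h
  exact h

theorem conj_pow' {G : Type*} [Group G] (t x : G) (n : ℕ) :
    (t⁻¹ * x * t) ^ n = t⁻¹ * x ^ n * t := by
  induction n with
  | zero => simp
  | succ n ih =>
    rw [pow_succ, ih, pow_succ]
    group

/-- The transfer computation at the heart of Grün's theorem. -/
theorem core {G : Type*} [Group G] [Finite G] {p : ℕ} [Fact p.Prime] (P : Sylow p G)
    {A : Type*} [CommGroup A] (φ : ↥(P : Subgroup G) →* A) (u : G) (huP : u ∈ (P : Subgroup G))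
    (huG : u ∈ commutator G)
    (hi : ∀ w : ↥(P : Subgroup G), (w : G) ∈ commutator G → orderOf (w : G) < orderOf u →
      φ w = 1)
    (hN : ∀ (x : ↥(P : Subgroup G)) (y : G),
      (∀ v ∈ (P : Subgroup G), y⁻¹ * v * y ∈ (P : Subgroup G)) →
      ∀ (hx : y⁻¹ * x * y ∈ (P : Subgroup G)), φ ⟨y⁻¹ * x * y, hx⟩ = φ x)
    (hZ : ∀ (t : G) (a b : ↥(P : Subgroup G)) (ha : t⁻¹ * a * t ∈ (P : Subgroup G))
      (hb : t⁻¹ * b * t ∈ (P : Subgroup G)),
      (a : G)⁻¹ * b ∈ ⁅(P : Subgroup G), (P : Subgroup G)⁆ →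
      φ ⟨t⁻¹ * a * t, ha⟩ = φ ⟨t⁻¹ * b * t, hb⟩) :
    φ ⟨u, huP⟩ = 1 := by
  classical
  have hp : p.Prime := Fact.out
  by_cases hu1 : u = 1
  · subst hu1
    exact map_one φ
  -- the order of `u`
  have hord : ∃ k, orderOf u = p ^ (k + 1) := by
    obtain ⟨k, hk⟩ := P.isPGroup' ⟨u, huP⟩
    have hk' : u ^ p ^ k = 1 := by
      have h5 := congrArg Subtype.val hk
      rw [Subgroup.coe_pow, Subgroup.coe_one] at h5
      exact h5
    obtain ⟨j, -, hj⟩ := (Nat.dvd_prime_pow hp).mp (orderOf_dvd_of_pow_eq_one hk')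
    cases j with
    | zero =>
      rw [pow_zero, orderOf_eq_one_iff] at hj
      exact absurd hj hu1
    | succ j => exact ⟨j, hj⟩
  obtain ⟨k, hk⟩ := hord
  have hpos : 0 < orderOf u := by
    rw [hk]
    exact pow_pos hp.pos _
  have hpu : p ∣ orderOf u := by
    rw [hk, pow_succ]
    exact dvd_mul_left p _
  have hcn : (commutator G).Normal := inferInstance
  have key : ∀ (a b : G) (ha : a ∈ (P : Subgroup G)) (hb : b ∈ (P : Subgroup G)), a = b →
      φ ⟨a, ha⟩ = φ ⟨b, hb⟩ := by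
    intro a b ha hb h
    subst h
    rfl
  have hconjP : ∀ (x w : ↥(P : Subgroup G)), φ (w⁻¹ * x * w) = φ x := by
    intro x w
    rw [map_mul, map_mul, map_inv, mul_comm (φ w)⁻¹, mul_assoc, inv_mul_cancel, mul_one]
  have hsmall : ∀ (t : G) (r : ℕ), r ∣ orderOf u → r ≠ 1 →
      ∀ (h : t⁻¹ * u ^ r * t ∈ (P : Subgroup G)), φ ⟨t⁻¹ * u ^ r * t, h⟩ = 1 := by
    intro t r hr hr1 h
    apply hi
    · show t⁻¹ * u ^ r * t ∈ commutator G
      have h5 := hcn.conj_mem (u ^ r) (Subgroup.pow_mem _ huG r) t⁻¹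
      rwa [inv_inv] at h5
    · show orderOf (t⁻¹ * u ^ r * t) < orderOf u
      have h5 : orderOf (t⁻¹ * u ^ r * t) = orderOf (u ^ r) := by
        have h6 := MulEquiv.orderOf_eq (MulAut.conj t⁻¹) (u ^ r)
        rw [MulAut.conj_apply, inv_inv] at h6
        exact h6
      have hr0 : r ≠ 0 := by
        rintro rfl
        rw [zero_dvd_iff] at hr
        omega
      rw [h5, orderOf_pow_of_dvd hr0 hr]
      exact Nat.div_lt_self hpos (by omega)
  have : Fintype (G ⧸ (P : Subgroup G)) := Fintype.ofFinite _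
  have : Fintype (Quotient (MulAction.orbitRel (Subgroup.zpowers u) (G ⧸ (P : Subgroup G)))) :=
    Fintype.ofFinite _
  obtain ⟨F, hF⟩ : ∃ F : G ⧸ (P : Subgroup G) → A,
      ∀ (c : G ⧸ (P : Subgroup G)) (h : c.out⁻¹ * u * c.out ∈ (P : Subgroup G)),
        F c = φ ⟨c.out⁻¹ * u * c.out, h⟩ :=
    ⟨fun c => if h : c.out⁻¹ * u * c.out ∈ (P : Subgroup G) then φ ⟨c.out⁻¹ * u * c.out, h⟩
      else 1, fun c h => dif_pos h⟩
  -- the transfer
  have hV : MonoidHom.transfer φ u = 1 :=
    MonoidHom.mem_ker.mp (Abelianization.commutator_subset_ker (MonoidHom.transfer φ) huG)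
  rw [MonoidHom.transfer_eq_prod_quotient_orbitRel_zpowers_quot] at hV
  have hfac : ∀ q : Quotient (MulAction.orbitRel (Subgroup.zpowers u) (G ⧸ (P : Subgroup G))),
      φ ⟨q.out.out⁻¹ * u ^ Function.minimalPeriod (u • ·) q.out * q.out.out,
        QuotientGroup.out_conj_pow_minimalPeriod_mem (P : Subgroup G) u q.out⟩
        = if u • q.out = q.out then F q.out else 1 := by
    intro q
    by_cases hfix : u • q.out = q.out
    · rw [if_pos hfix]
      have hr : Function.minimalPeriod (u • ·) q.out = 1 :=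
        Function.minimalPeriod_eq_one_iff_isFixedPt.mpr hfix
      have hmem : q.out.out⁻¹ * u * q.out.out ∈ (P : Subgroup G) :=
        (smul_eq_iff _ u q.out).mp hfix
      rw [hF _ hmem]
      apply key
      rw [hr, pow_one]
    · rw [if_neg hfix]
      apply hsmall
      · apply Function.IsPeriodicPt.minimalPeriod_dvd
        show (u • · : G ⧸ (P : Subgroup G) → G ⧸ (P : Subgroup G))^[orderOf u] q.out = q.out
        simp only [smul_iterate, pow_orderOf_eq_one, one_smul]
      · intro h1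
        exact hfix (Function.minimalPeriod_eq_one_iff_isFixedPt.mp h1)
  rw [Finset.prod_congr rfl (fun q _ => hfac q)] at hV
  have h4b : ∏ q : Quotient (MulAction.orbitRel (Subgroup.zpowers u) (G ⧸ (P : Subgroup G))),
      (if u • q.out = q.out then F q.out else 1)
      = ∏ c ∈ Finset.univ.filter (fun c : G ⧸ (P : Subgroup G) => u • c = c), F c := by
    rw [← Finset.prod_filter]
    apply Finset.prod_bij (fun q _ => q.out)
    · intro q hq
      rw [Finset.mem_filter] at hq ⊢
      exact ⟨Finset.mem_univ _, hq.2⟩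
    · intro q₁ _ q₂ _ h
      have h1 := Quotient.out_eq q₁
      have h2 := Quotient.out_eq q₂
      rw [← h1, ← h2, h]
    · intro c hc
      rw [Finset.mem_filter] at hc
      have hstab : ∀ z ∈ Subgroup.zpowers u, z • c = c := by
        intro z hz
        have h5 : Subgroup.zpowers u ≤ MulAction.stabilizer G c :=
          (Subgroup.zpowers_le).mpr (MulAction.mem_stabilizer_iff.mpr hc.2)
        exact MulAction.mem_stabilizer_iff.mp (h5 hz)
      have hout : (Quotient.mk
          (MulAction.orbitRel (Subgroup.zpowers u) (G ⧸ (P : Subgroup G))) c).out = c := by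
        have h1 := Quotient.mk_out
          (s := MulAction.orbitRel (Subgroup.zpowers u) (G ⧸ (P : Subgroup G))) c
        obtain ⟨z, hz⟩ := h1
        rw [← hz]
        exact hstab z z.2
      refine ⟨Quotient.mk _ c, ?_, hout⟩
      rw [Finset.mem_filter]
      refine ⟨Finset.mem_univ _, ?_⟩
      rw [hout]
      exact hc.2
    · intro q hq
      rfl
  rw [h4b] at hV
  obtain ⟨FixU, hFixU⟩ : ∃ S : Finset (G ⧸ (P : Subgroup G)),
      S = Finset.univ.filter (fun c => u • c = c) := ⟨_, rfl⟩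
  obtain ⟨FixP, hFixP⟩ : ∃ S : Finset (G ⧸ (P : Subgroup G)),
      S = Finset.univ.filter (fun c => c ∈ MulAction.fixedPoints ↥(P : Subgroup G)
        (G ⧸ (P : Subgroup G))) := ⟨_, rfl⟩
  have hFixPmem : ∀ c, c ∈ FixP ↔ ∀ v ∈ (P : Subgroup G), v • c = c := by
    intro c
    rw [hFixP, Finset.mem_filter, MulAction.mem_fixedPoints]
    constructor
    · rintro ⟨-, h⟩ v hv
      exact h ⟨v, hv⟩
    · intro h
      exact ⟨Finset.mem_univ _, fun v => h v v.2⟩
  have hFixUmem : ∀ c, c ∈ FixU ↔ u • c = c := by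
    intro c
    rw [hFixU, Finset.mem_filter]
    exact ⟨fun h => h.2, fun h => ⟨Finset.mem_univ _, h⟩⟩
  have hsub : FixP ⊆ FixU := by
    intro c hc
    rw [hFixUmem]
    exact (hFixPmem c).mp hc u huP
  rw [← hFixU, ← Finset.prod_sdiff hsub] at hV
  have hpart1 : ∏ c ∈ FixP, F c = φ ⟨u, huP⟩ ^ FixP.card := by
    have h1 : ∀ c ∈ FixP, F c = φ ⟨u, huP⟩ := by
      intro c hc
      rw [hFixPmem] at hc
      have hmem : c.out⁻¹ * u * c.out ∈ (P : Subgroup G) := (smul_eq_iff _ u c).mp (hc u huP)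
      rw [hF c hmem]
      exact hN ⟨u, huP⟩ c.out (fun v hv => (smul_eq_iff _ v c).mp (hc v hv)) hmem
    rw [Finset.prod_congr rfl h1, Finset.prod_const]
  have hpart2 : ∏ c ∈ FixU \ FixP, F c = 1 := by
    apply Finset.prod_cancels_of_partition_cancels
      (MulAction.orbitRel ↥(P : Subgroup G) (G ⧸ (P : Subgroup G)))
    intro c₀ hc₀
    rw [Finset.mem_sdiff] at hc₀
    obtain ⟨hc₀U, hc₀P⟩ := hc₀
    obtain ⟨S, hS⟩ : ∃ S : Finset (G ⧸ (P : Subgroup G)), S = (FixU \ FixP).filter
        (fun a => (MulAction.orbitRel ↥(P : Subgroup G) (G ⧸ (P : Subgroup G))) a c₀) :=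
      ⟨_, rfl⟩
    rw [← hS]
    have hSmem : ∀ a, a ∈ S ↔ u • a = a ∧ a ∈ MulAction.orbit ↥(P : Subgroup G) c₀ := by
      intro a
      rw [hS, Finset.mem_filter, Finset.mem_sdiff, hFixUmem]
      constructor
      · rintro ⟨⟨h1, -⟩, h3⟩
        exact ⟨h1, h3⟩
      · rintro ⟨h1, h3⟩
        refine ⟨⟨h1, ?_⟩, h3⟩
        intro haP
        apply hc₀P
        obtain ⟨v, hv⟩ := h3
        have hv' : (v : G) • c₀ = a := hv
        have h5 := (hFixPmem a).mp haP (v : G)⁻¹ (Subgroup.inv_mem _ v.2)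
        rw [← hv', inv_smul_smul] at h5
        rw [← hv', ← h5] at haP
        exact haP
    have hmem0 : c₀.out⁻¹ * u * c₀.out ∈ (P : Subgroup G) :=
      (smul_eq_iff _ u c₀).mp ((hFixUmem c₀).mp hc₀U)
    -- `F` is constant on `S`
    have hconst : ∀ a ∈ S, F a = F c₀ := by
      intro a ha
      rw [hSmem] at ha
      obtain ⟨hua, v, hv⟩ := ha
      have hv' : (v : G) • c₀ = a := hv
      have hmema : a.out⁻¹ * u * a.out ∈ (P : Subgroup G) := (smul_eq_iff _ u a).mp hua
      rw [hF a hmema, hF c₀ hmem0]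
      -- `a.out = v * c₀.out * w` with `w ∈ P`
      have hw : ((v : G) * c₀.out)⁻¹ * a.out ∈ (P : Subgroup G) := by
        apply QuotientGroup.eq.mp
        rw [QuotientGroup.out_eq', ← hv']
        conv_rhs => rw [← QuotientGroup.out_eq' c₀]
        rw [MulAction.Quotient.smul_mk, smul_eq_mul]
      obtain ⟨w, hwdef⟩ : ∃ w : G, w = ((v : G) * c₀.out)⁻¹ * a.out := ⟨_, rfl⟩
      rw [← hwdef] at hw
      have haout : a.out = (v : G) * c₀.out * w := by
        rw [hwdef]
        group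
      -- the element `x₁ = v⁻¹ u v`
      have hx1 : c₀.out⁻¹ * ((v⁻¹ * ⟨u, huP⟩ * v : ↥(P : Subgroup G)) : G) * c₀.out
          ∈ (P : Subgroup G) := by
        have h5 : c₀.out⁻¹ * ((v⁻¹ * ⟨u, huP⟩ * v : ↥(P : Subgroup G)) : G) * c₀.out
            = w * (a.out⁻¹ * u * a.out) * w⁻¹ := by
          rw [haout]
          simp only [Subgroup.coe_mul, Subgroup.coe_inv]
          group
        rw [h5]
        exact Subgroup.mul_mem _ (Subgroup.mul_mem _ hw hmema) (Subgroup.inv_mem _ hw)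
      have hcomm : ((v⁻¹ * ⟨u, huP⟩ * v : ↥(P : Subgroup G)) : G)⁻¹ * ((⟨u, huP⟩ :
          ↥(P : Subgroup G)) : G) ∈ ⁅(P : Subgroup G), (P : Subgroup G)⁆ := by
        have h4 := Subgroup.commutator_mem_commutator (H₁ := (P : Subgroup G))
          (H₂ := (P : Subgroup G)) (Subgroup.inv_mem _ v.2) (Subgroup.inv_mem _ huP)
        rw [commutatorElement_def] at h4
        have h5 : ((v⁻¹ * ⟨u, huP⟩ * v : ↥(P : Subgroup G)) : G)⁻¹ * ((⟨u, huP⟩ :
            ↥(P : Subgroup G)) : G) = (v : G)⁻¹ * u⁻¹ * (v : G)⁻¹⁻¹ * u⁻¹⁻¹ := by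
          simp only [Subgroup.coe_mul, Subgroup.coe_inv]
          group
        rw [h5]
        exact h4
      have h6 := hZ c₀.out (v⁻¹ * ⟨u, huP⟩ * v) ⟨u, huP⟩ hx1 hmem0 hcomm
      rw [← h6]
      have h7 := hconjP ⟨c₀.out⁻¹ * ((v⁻¹ * ⟨u, huP⟩ * v : ↥(P : Subgroup G)) : G) * c₀.out, hx1⟩
        ⟨w, hw⟩
      rw [← h7]
      apply key
      rw [haout]
      simp only [Subgroup.coe_mul, Subgroup.coe_inv]
      group
    rw [Finset.prod_congr rfl hconst, Finset.prod_const]
    -- `F c₀ ^ p = 1`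
    have hFp : F c₀ ^ p = 1 := by
      rw [hF c₀ hmem0, ← map_pow]
      have hmemp : c₀.out⁻¹ * u ^ p * c₀.out ∈ (P : Subgroup G) := by
        rw [← conj_pow']
        exact Subgroup.pow_mem _ hmem0 p
      have h5 := hsmall c₀.out p hpu hp.one_lt.ne' hmemp
      rw [← h5]
      apply key
      exact conj_pow' _ _ _
    -- `p ∣ S.card`
    have hdvd : p ∣ S.card := by
      obtain ⟨K, hK⟩ : ∃ K : Subgroup ↥(P : Subgroup G),
          K = Subgroup.zpowers (⟨u, huP⟩ : ↥(P : Subgroup G)) := ⟨_, rfl⟩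
      have hKp : IsPGroup p K := P.isPGroup'.to_subgroup K
      have h1 := IsPGroup.card_modEq_card_fixedPoints (p := p) (G := ↥K) hKp
        (MulAction.orbit ↥(P : Subgroup G) c₀)
      obtain ⟨n, hn⟩ := IsPGroup.card_orbit (p := p) P.isPGroup' c₀
      have hn0 : n ≠ 0 := by
        rintro rfl
        rw [pow_zero] at hn
        apply hc₀P
        rw [hFixPmem]
        intro v hv
        have hsub1 : Subsingleton (MulAction.orbit ↥(P : Subgroup G) c₀) :=
          (Nat.card_eq_one_iff_unique.mp hn).1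
        have h5 := hsub1.elim ⟨(⟨v, hv⟩ : ↥(P : Subgroup G)) • c₀, MulAction.mem_orbit _ _⟩
          ⟨c₀, MulAction.mem_orbit_self _⟩
        exact congrArg Subtype.val h5
      have hpdvd : p ∣ Nat.card (MulAction.orbit ↥(P : Subgroup G) c₀) := by
        rw [hn]
        exact dvd_pow_self p hn0
      have h2 : p ∣ Nat.card (MulAction.fixedPoints ↥K (MulAction.orbit ↥(P : Subgroup G) c₀)) :=
        (h1.dvd_iff (dvd_refl p)).mp hpdvd
      have hfwd : ∀ y : MulAction.fixedPoints ↥K (MulAction.orbit ↥(P : Subgroup G) c₀),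
          ((y : MulAction.orbit ↥(P : Subgroup G) c₀) : G ⧸ (P : Subgroup G)) ∈ S := by
        intro y
        rw [hSmem]
        refine ⟨?_, (y : MulAction.orbit ↥(P : Subgroup G) c₀).2⟩
        have h5 := y.2 ⟨⟨u, huP⟩, by rw [hK]; exact Subgroup.mem_zpowers _⟩
        exact congrArg Subtype.val h5
      have hbij : Function.Bijective
          (fun y : MulAction.fixedPoints ↥K (MulAction.orbit ↥(P : Subgroup G) c₀) =>
            (⟨_, hfwd y⟩ : {a // a ∈ S})) := by
        constructor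
        · intro y₁ y₂ h
          have h5 := congrArg Subtype.val h
          exact Subtype.ext (Subtype.ext h5)
        · rintro ⟨a, ha⟩
          have ha' := (hSmem a).mp ha
          refine ⟨⟨⟨a, ha'.2⟩, ?_⟩, rfl⟩
          intro κ
          apply Subtype.ext
          show ((κ : ↥(P : Subgroup G)) : G) • a = a
          have h5 : K ≤ MulAction.stabilizer ↥(P : Subgroup G) a := by
            rw [hK]
            apply (Subgroup.zpowers_le).mpr
            exact MulAction.mem_stabilizer_iff.mpr ha'.1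
          exact MulAction.mem_stabilizer_iff.mp (h5 κ.2)
      have h3 := Nat.card_eq_of_bijective _ hbij
      have h4 : Nat.card {a // a ∈ S} = S.card := Nat.subtype_card S (fun a => Iff.rfl)
      rw [h3, h4] at h2
      exact h2
    obtain ⟨j, hj⟩ := hdvd
    rw [hj, pow_mul, hFp, one_pow]
  rw [hpart2, one_mul, hpart1] at hV
  -- `FixP.card` is prime to `p`
  have hcop : ¬ p ∣ FixP.card := by
    have h1 := IsPGroup.card_modEq_card_fixedPoints (p := p) (G := ↥(P : Subgroup G))
      P.isPGroup' (G ⧸ (P : Subgroup G))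
    have h2 : Nat.card (MulAction.fixedPoints ↥(P : Subgroup G) (G ⧸ (P : Subgroup G)))
        = FixP.card := by
      apply Nat.subtype_card
      intro c
      rw [hFixP, Finset.mem_filter]
      exact ⟨fun h => h.2, fun h => ⟨Finset.mem_univ _, h⟩⟩
    rw [h2] at h1
    intro hdvd
    have h3 : p ∣ Nat.card (G ⧸ (P : Subgroup G)) := (h1.dvd_iff (dvd_refl p)).mpr hdvd
    exact P.not_dvd_index h3
  -- conclusion
  have hpk : φ ⟨u, huP⟩ ^ p ^ (k + 1) = 1 := by
    rw [← map_pow]
    have h5 : (⟨u, huP⟩ : ↥(P : Subgroup G)) ^ p ^ (k + 1) = 1 := by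
      apply Subtype.ext
      rw [Subgroup.coe_pow, Subgroup.coe_one, ← hk]
      exact pow_orderOf_eq_one u
    rw [h5, map_one]
  have ho1 : orderOf (φ ⟨u, huP⟩) ∣ FixP.card := orderOf_dvd_of_pow_eq_one hV
  have ho2 : orderOf (φ ⟨u, huP⟩) ∣ p ^ (k + 1) := orderOf_dvd_of_pow_eq_one hpk
  have hcop' : Nat.Coprime (p ^ (k + 1)) FixP.card :=
    Nat.Coprime.pow_left _ ((Nat.Prime.coprime_iff_not_dvd hp).mpr hcop)
  have ho3 : orderOf (φ ⟨u, huP⟩) = 1 := by
    have h5 := Nat.dvd_gcd ho2 ho1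
    rw [hcop'] at h5
    exact Nat.dvd_one.mp h5
  exact orderOf_eq_one_iff.mp ho3


/-- Grün's first Theorem: if `P` is a Sylow `p`-subgroup of the finite group `G`, then `P ∩ G'` is the subgroup generated by `P ∩ N_G(P)'` together with the subgroups `P ∩ z P' z⁻¹` for all `z ∈ G`, where `'` denotes the derived subgroup and `N_G(P)` the normalizer of `P`. -/
theorem result {G : Type*} [Group G] [Finite G] {p : ℕ} [Fact p.Prime] (P : Sylow p G) : (P : Subgroup G) ⊓ commutator G = ((P : Subgroup G) ⊓ ⁅Subgroup.normalizer ((P : Subgroup G) : Set G), Subgroup.normalizer ((P : Subgroup G) : Set G)⁆) ⊔ ⨆ z : G, (P : Subgroup G) ⊓ (⁅(P : Subgroup G), (P : Subgroup G)⁆).map (MulAut.conj z).toMonoidHom := by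
  obtain ⟨D, hD⟩ : ∃ D : Subgroup G, D = ((P : Subgroup G) ⊓ ⁅Subgroup.normalizer ((P : Subgroup G) : Set G), Subgroup.normalizer ((P : Subgroup G) : Set G)⁆) ⊔ ⨆ z : G, (P : Subgroup G) ⊓ (⁅(P : Subgroup G), (P : Subgroup G)⁆).map (MulAut.conj z).toMonoidHom := ⟨_, rfl⟩
  rw [← hD]
  have hcn : (commutator G).Normal := inferInstance
  have hDN : (P : Subgroup G) ⊓ ⁅Subgroup.normalizer ((P : Subgroup G) : Set G),
      Subgroup.normalizer ((P : Subgroup G) : Set G)⁆ ≤ D := by
    rw [hD]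
    exact le_sup_left
  have hDZ : ∀ z : G, (P : Subgroup G) ⊓
      (⁅(P : Subgroup G), (P : Subgroup G)⁆).map (MulAut.conj z).toMonoidHom ≤ D := by
    intro z
    rw [hD]
    exact le_sup_of_le_right (le_iSup (fun z : G => (P : Subgroup G) ⊓
      (⁅(P : Subgroup G), (P : Subgroup G)⁆).map (MulAut.conj z).toMonoidHom) z)
  have hPPle : ⁅(P : Subgroup G), (P : Subgroup G)⁆ ≤ (P : Subgroup G) := by
    rw [Subgroup.commutator_le]
    intro a ha b hb
    rw [commutatorElement_def]
    exact Subgroup.mul_mem _ (Subgroup.mul_mem _ (Subgroup.mul_mem _ ha hb)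
      (Subgroup.inv_mem _ ha)) (Subgroup.inv_mem _ hb)
  have hPPG : ⁅(P : Subgroup G), (P : Subgroup G)⁆ ≤ commutator G := by
    rw [commutator_def]
    exact Subgroup.commutator_mono le_top le_top
  have hPP : ⁅(P : Subgroup G), (P : Subgroup G)⁆ ≤ D := by
    intro x hx
    apply hDZ 1
    refine ⟨hPPle hx, x, hx, ?_⟩
    simp
  have hDle : D ≤ (P : Subgroup G) ⊓ commutator G := by
    rw [hD]
    apply sup_le
    · apply inf_le_inf_left
      rw [commutator_def]
      exact Subgroup.commutator_mono le_top le_top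
    · apply iSup_le
      intro z
      apply inf_le_inf_left
      rintro x ⟨y, hy, rfl⟩
      exact hcn.conj_mem y (hPPG hy) z
  apply le_antisymm _ hDle
  -- the abelian quotient
  obtain ⟨M, hM⟩ : ∃ M : Subgroup (Abelianization ↥(P : Subgroup G)),
      M = (D.subgroupOf (P : Subgroup G)).map Abelianization.of := ⟨_, rfl⟩
  obtain ⟨φ, hφdef⟩ : ∃ φ : ↥(P : Subgroup G) →* Abelianization ↥(P : Subgroup G) ⧸ M,
      φ = (QuotientGroup.mk' M).comp Abelianization.of := ⟨_, rfl⟩
  have hφ : ∀ x : ↥(P : Subgroup G), φ x = 1 ↔ (x : G) ∈ D := by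
    intro x
    rw [hφdef, MonoidHom.comp_apply, QuotientGroup.mk'_apply, QuotientGroup.eq_one_iff, hM]
    constructor
    · rintro ⟨d, hd, hdx⟩
      have hd' : (d : G) ∈ D := Subgroup.mem_subgroupOf.mp hd
      have h5 : d⁻¹ * x ∈ (Abelianization.of : ↥(P : Subgroup G) →* _).ker := by
        rw [MonoidHom.mem_ker, map_mul, map_inv, hdx, inv_mul_cancel]
      rw [Abelianization.ker_of] at h5
      have h6 : ((d⁻¹ * x : ↥(P : Subgroup G)) : G)
          ∈ ⁅(P : Subgroup G), (P : Subgroup G)⁆ := by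
        rw [← Subgroup.map_subtype_commutator]
        exact Subgroup.mem_map_of_mem _ h5
      have h7 := Subgroup.mul_mem _ hd' (hPP h6)
      have e : (d : G) * ((d⁻¹ * x : ↥(P : Subgroup G)) : G) = x := by
        simp
      rw [e] at h7
      exact h7
    · intro hx
      exact ⟨x, Subgroup.mem_subgroupOf.mpr hx, rfl⟩
  have hφeq : ∀ a b : ↥(P : Subgroup G), ((a : G)⁻¹ * b ∈ D) → φ a = φ b := by
    intro a b hab
    have h5 : φ (a⁻¹ * b) = 1 := by
      rw [hφ]
      simpa using hab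
    rw [map_mul, map_inv, inv_mul_eq_one] at h5
    exact h5
  have main : ∀ n : ℕ, ∀ u : G, orderOf u = n → u ∈ (P : Subgroup G) → u ∈ commutator G →
      u ∈ D := by
    intro n
    induction n using Nat.strong_induction_on with
    | _ n ih =>
      intro u hn huP huG
      have h1 : φ ⟨u, huP⟩ = 1 := by
        apply core P φ u huP huG
        · intro w hw hlt
          rw [hφ]
          exact ih (orderOf (w : G)) (hn ▸ hlt) w rfl w.2 hw
        · intro x y hy hx
          symm
          apply hφeq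
          apply hDN
          refine ⟨Subgroup.mul_mem _ (Subgroup.inv_mem _ x.2) hx, ?_⟩
          have hyN : y⁻¹ ∈ Subgroup.normalizer ((P : Subgroup G) : Set G) := by
            apply Subgroup.mem_normalizer_fintype
            intro v hv
            have h5 := hy v hv
            rw [inv_inv]
            exact h5
          have hxN : (x : G)⁻¹ ∈ Subgroup.normalizer ((P : Subgroup G) : Set G) :=
            Subgroup.le_normalizer (Subgroup.inv_mem _ x.2)
          have h4 := Subgroup.commutator_mem_commutator hxN hyN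
          rw [commutatorElement_def] at h4
          have e : (x : G)⁻¹ * (y⁻¹ * x * y) = (x : G)⁻¹ * y⁻¹ * (x : G)⁻¹⁻¹ * y⁻¹⁻¹ := by group
          show (x : G)⁻¹ * (y⁻¹ * x * y) ∈ _
          rw [e]
          exact h4
        · intro t a b ha hb hab
          apply hφeq
          apply hDZ t⁻¹
          refine ⟨Subgroup.mul_mem _ (Subgroup.inv_mem _ ha) hb, (a : G)⁻¹ * b, hab, ?_⟩
          show (MulAut.conj t⁻¹) ((a : G)⁻¹ * b) = (t⁻¹ * a * t)⁻¹ * (t⁻¹ * b * t)
          rw [MulAut.conj_apply]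
          group
      exact (hφ ⟨u, huP⟩).mp h1
  intro x hx
  exact main _ x rfl hx.1 hx.2

end Cfsg.Agent.S4216
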