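import Mathlib
import Cfsg.Statements.S4602

set_option autoImplicit false
open Cfsg

namespace Cfsg.Agent.S4602

open Subgroup

open scoped IsMulCommutative in
/-- A central `p`-subgroup `B` of index prime to `p` in a normal subgroup `A`: the `p'`-elements
of `A` lie in a normal subgroup of order prime to `p`. -/
theorem crux {Γ : Type*} [Group Γ] [Finite Γ] (p : ℕ) [Fact p.Prime] (A B : Subgroup Γ)
    [hAn : A.Normal] (hB : IsPGroup p B) (hcent : ∀ b ∈ B, ∀ a ∈ A, a * b = b * a)
    (hidx : (B.relIndex A).Coprime p) :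
    ∃ L : Subgroup Γ, L.Normal ∧ (Nat.card L).Coprime p ∧
      ∀ a ∈ A, (orderOf a).Coprime p → a ∈ L := by
  have hp : p.Prime := Fact.out
  set e := B.relIndex A with he
  set k := (center A).index with hk
  have hBc : B.subgroupOf A ≤ center A := by
    intro b hb
    rw [mem_center_iff]
    intro a
    apply Subtype.ext
    exact hcent b hb a a.2
  have hke : k ∣ e := index_dvd_of_le hBc
  have hBn : (B.subgroupOf A).Normal := by
    constructor
    intro b hb a
    have h1 := mem_center_iff.mp (hBc hb) a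
    have h2 : a * b * a⁻¹ = b := by rw [h1, mul_inv_cancel_right]
    rw [h2]
    exact hb
  let φ : A →* center A := (powMonoidHom e).comp (MonoidHom.transferCenterPow A)
  have hφ : ∀ a : A, ((φ a : A) : Γ) = (a : Γ) ^ (k * e) := by
    intro a
    simp [φ, pow_mul, hk]
  let L : Subgroup Γ := φ.ker.map A.subtype
  have hL : ∀ x : Γ, x ∈ L ↔ x ∈ A ∧ x ^ (k * e) = 1 := by
    intro x
    constructor
    · rintro ⟨a, ha, rfl⟩
      refine ⟨a.2, ?_⟩
      have h1 := hφ a
      rw [MonoidHom.mem_ker.mp ha] at h1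
      exact h1.symm
    · rintro ⟨hxA, hx⟩
      refine ⟨⟨x, hxA⟩, ?_, rfl⟩
      change (⟨x, hxA⟩ : A) ∈ φ.ker
      rw [MonoidHom.mem_ker]
      apply Subtype.ext
      apply Subtype.ext
      rw [hφ]
      exact hx
  refine ⟨L, ⟨fun x hx g => ?_⟩, ?_, ?_⟩
  · rw [hL] at hx ⊢
    refine ⟨hAn.conj_mem x hx.1 g, ?_⟩
    rw [conj_pow, hx.2]
    simp
  · rw [Nat.coprime_comm, Nat.Prime.coprime_iff_not_dvd hp]
    intro hdvd
    obtain ⟨x, hx⟩ := exists_prime_orderOf_dvd_card' p hdvd
    have hxL := (hL x).mp x.2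
    have hox : orderOf (x : Γ) = p := by rw [Subgroup.orderOf_coe]; exact hx
    have h1 : p ∣ k * e := hox ▸ orderOf_dvd_of_pow_eq_one hxL.2
    have h2 : p ∣ e := by
      rcases (Nat.Prime.dvd_mul hp).mp h1 with h | h
      · exact h.trans hke
      · exact h
    exact (Nat.Prime.coprime_iff_not_dvd hp).mp hidx.symm h2
  · intro a ha hcop
    rw [hL]
    refine ⟨ha, ?_⟩
    have h1 : (⟨a, ha⟩ : A) ^ e ∈ B.subgroupOf A := Subgroup.pow_index_mem _ _
    have h2 : a ^ e ∈ B := h1
    obtain ⟨t, ht⟩ := hB ⟨a ^ e, h2⟩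
    have h3 : orderOf (a ^ e) ∣ p ^ t := by
      apply orderOf_dvd_of_pow_eq_one
      simpa using congrArg Subtype.val ht
    have h4 : orderOf (a ^ e) ∣ orderOf a := orderOf_pow_dvd e
    have h5 : orderOf (a ^ e) = 1 :=
      Nat.eq_one_of_dvd_coprimes (Nat.Coprime.pow_right t hcop) h4 h3
    rw [mul_comm, pow_mul, orderOf_eq_one_iff.mp h5, one_pow]


/-- if the only element of order prime to `p` is trivial, the group is a `p`-group -/
theorem isPGroup_of_coprime_trivial {Γ : Type*} [Group Γ] [Finite Γ] (p : ℕ) [Fact p.Prime]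
    (A : Subgroup Γ) (h : ∀ a ∈ A, (orderOf a).Coprime p → a = 1) : IsPGroup p A := by
  have hp : p.Prime := Fact.out
  intro g
  have hpos : 0 < orderOf (g : Γ) := orderOf_pos _
  obtain ⟨k, m, hm, hkm⟩ :=
    Nat.exists_eq_pow_mul_and_not_dvd (Nat.pos_iff_ne_zero.mp hpos) p hp.ne_one
  refine ⟨k, ?_⟩
  have h1 : orderOf ((g : Γ) ^ p ^ k) = m := by
    rw [orderOf_pow' (g : Γ) (pow_ne_zero k hp.ne_zero), hkm]
    rw [Nat.gcd_eq_right (dvd_mul_right _ _)]
    exact Nat.mul_div_cancel_left m (pow_pos hp.pos k)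
  have h2 := h ((g : Γ) ^ p ^ k) (A.pow_mem g.2 _) (by
    rw [h1]
    exact (Nat.Coprime.symm ((Nat.Prime.coprime_iff_not_dvd hp).mpr hm)))
  apply Subtype.ext
  simpa using h2

/-- Hall-Higman type lemma: in a `p`-solvable group without nontrivial normal `p'`-subgroups,
a `q`-subgroup normalized by a Sylow `p`-subgroup is trivial. -/
theorem lemmaA {Γ : Type*} [Group Γ] [Finite Γ] (p q : ℕ) [Fact p.Prime] [Fact q.Prime]
    (hpq : p ≠ q) (hps : Cfsg.IsPSolvable p Γ)
    (hO : ∀ R : Subgroup Γ, R.Normal → (Nat.card R).Coprime p → R = ⊥)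
    (P : Sylow p Γ) (X : Subgroup Γ) (hX : IsPGroup q X)
    (hPX : (P : Subgroup Γ) ≤ normalizer (X : Set Γ)) : X = ⊥ := by
  have hp : p.Prime := Fact.out
  set H : Subgroup Γ := (P : Subgroup Γ).normalCore with hH
  have hHP : H ≤ P := Subgroup.normalCore_le _
  have hHp : IsPGroup p H := P.2.to_le hHP
  have hHn : H.Normal := Subgroup.normalCore_normal _
  have hnp : ∀ A : Subgroup Γ, A.Normal → IsPGroup p A → A ≤ H := by
    intro A hA hAp
    exact Subgroup.normal_le_normalCore.mpr (hAp.le_sylow_of_normal P)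
  set C : Subgroup Γ := centralizer (H : Set Γ) with hC
  have hCn : C.Normal := Subgroup.normal_centralizer
  have hCH : C ≤ H := by
    obtain ⟨n, S, h0, hlast, hmono, hnorm, hfac⟩ := hps
    have key : ∀ i : Fin (n + 1), S i ⊓ C ≤ H := by
      intro i
      induction i using Fin.induction with
      | zero => rw [h0]; simp
      | succ i ih =>
        set A := S i.succ ⊓ C with hA
        set B := S i.castSucc ⊓ C with hB
        have hSn : (S i.castSucc).Normal := hnorm _
        have hAn : A.Normal := by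
          have := hnorm i.succ
          exact Subgroup.normal_inf_normal _ _
        have hBA : B ≤ A := inf_le_inf_right C (hmono (Fin.castSucc_le_succ i))
        have hBp : IsPGroup p B := hHp.to_le ih
        have hcent : ∀ b ∈ B, ∀ a ∈ A, a * b = b * a := fun b hb a ha =>
          (mem_centralizer_iff.mp ha.2 b (ih hb)).symm
        have hdiv : B.relIndex A ∣ (S i.castSucc).relIndex (S i.succ) := by
          have h1 : B = S i.castSucc ⊓ A := by
            rw [hA, hB, ← inf_assoc, inf_of_le_left (hmono (Fin.castSucc_le_succ i))]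
          rw [h1, inf_relIndex_right, ← relIndex_sup_right A (S i.castSucc)]
          have h2 : A ⊔ S i.castSucc ≤ S i.succ :=
            sup_le inf_le_left (hmono (Fin.castSucc_le_succ i))
          exact Dvd.intro _ (relIndex_mul_relIndex _ _ _ le_sup_right h2)
        have hAp : IsPGroup p A := by
          rcases hfac i with ⟨m, hm⟩ | hcop
          · rw [hm] at hdiv
            obtain ⟨m', -, hm'⟩ := (Nat.dvd_prime_pow hp).mp hdiv
            obtain ⟨b, hb⟩ := (IsPGroup.iff_card).mp hBp
            rw [IsPGroup.iff_card]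
            refine ⟨b + m', ?_⟩
            have h1 : Nat.card (B.subgroupOf A) * (B.subgroupOf A).index = Nat.card A :=
              Subgroup.card_mul_index _
            have h2 : Nat.card (B.subgroupOf A) = Nat.card B :=
              Nat.card_congr (Subgroup.subgroupOfEquivOfLe hBA).toEquiv
            rw [← h1, h2, hb, pow_add]
            congr 1
          · obtain ⟨L, hLn, hLc, hL⟩ :=
              crux p A B hBp hcent (Nat.Coprime.coprime_dvd_left hdiv hcop)
            have hLbot := hO L hLn hLc
            apply isPGroup_of_coprime_trivial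
            intro a ha hco
            have := hL a ha hco
            rw [hLbot] at this
            exact Subgroup.mem_bot.mp this
        exact hnp A hAn hAp
    have := key (Fin.last n)
    rw [hlast] at this
    simpa using this
  have hdisj : X ⊓ H = ⊥ := (IsPGroup.disjoint_of_ne q p hpq.symm X H hX hHp).eq_bot
  have hXC : X ≤ C := by
    intro x hx
    rw [hC, mem_centralizer_iff]
    intro h hh
    have h1 : x * h * x⁻¹ * h⁻¹ ∈ X ⊓ H := by
      constructor
      · have hn : h ∈ normalizer (X : Set Γ) := hPX (hHP hh)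
        have h3 : h * x⁻¹ * h⁻¹ ∈ X := (Subgroup.mem_normalizer_iff.mp hn x⁻¹).mp (X.inv_mem hx)
        have : x * h * x⁻¹ * h⁻¹ = x * (h * x⁻¹ * h⁻¹) := by group
        rw [this]
        exact X.mul_mem hx h3
      · exact H.mul_mem (hHn.conj_mem h hh x) (H.inv_mem hh)
    rw [hdisj, Subgroup.mem_bot] at h1
    have h2 : x * h = h * x := by
      have : x * h = (x * h * x⁻¹ * h⁻¹) * (h * x) := by group
      rw [this, h1, one_mul]
    exact h2.symm
  have h3 : X ≤ X ⊓ H := le_inf le_rfl (hXC.trans hCH)
  rw [hdisj] at h3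
  exact le_bot_iff.mp h3


theorem pPrimeCore_normal (p : ℕ) (G : Type*) [Group G] : (Cfsg.pPrimeCore p G).Normal :=
  Subgroup.sSup_normal _ (fun _ h => h.1)

theorem sup_coprime {G : Type*} [Group G] [Finite G] (p : ℕ) (N M : Subgroup G) [M.Normal]
    (hN : (Nat.card N).Coprime p) (hM : (Nat.card M).Coprime p) :
    (Nat.card (N ⊔ M : Subgroup G)).Coprime p := by
  have h1 : Nat.card (M.subgroupOf (N ⊔ M)) * (M.subgroupOf (N ⊔ M)).index = Nat.card (N ⊔ M : Subgroup G) :=
    Subgroup.card_mul_index _
  have h2 : Nat.card (M.subgroupOf (N ⊔ M)) = Nat.card M :=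
    Nat.card_congr (Subgroup.subgroupOfEquivOfLe le_sup_right).toEquiv
  have h3 : (M.subgroupOf (N ⊔ M)).index = M.relIndex N := relIndex_sup_right N M
  have h4 : M.relIndex N ∣ Nat.card N := Subgroup.index_dvd_card _
  rw [← h1, h2, h3]
  exact Nat.Coprime.mul_left hM (Nat.Coprime.coprime_dvd_left h4 hN)

theorem pPrimeCore_coprime (p : ℕ) (G : Type*) [Group G] [Finite G] :
    (Nat.card (Cfsg.pPrimeCore p G)).Coprime p := by
  let S : Set (Subgroup G) := {N : Subgroup G | N.Normal ∧ (Nat.card N).Coprime p}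
  have hbot : (⊥ : Subgroup G) ∈ S := ⟨inferInstance, by simp⟩
  have : Nonempty S := ⟨⟨⊥, hbot⟩⟩
  obtain ⟨N₀, hN₀⟩ := Finite.exists_max (fun N : S => Nat.card (N : Subgroup G))
  have hle : ∀ N ∈ S, N ≤ (N₀ : Subgroup G) := by
    intro N hN
    have := N₀.2.1
    have := hN.1
    have hmem : (N ⊔ N₀ : Subgroup G) ∈ S := ⟨inferInstance, sup_coprime p N N₀ hN.2 N₀.2.2⟩
    have hc := hN₀ ⟨_, hmem⟩
    have heq : (N₀ : Subgroup G) = N ⊔ N₀ := Subgroup.eq_of_le_of_card_ge le_sup_right hc
    rw [heq]
    exact le_sup_left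
  have : Cfsg.pPrimeCore p G = N₀ := le_antisymm (sSup_le hle) (le_sSup N₀.2)
  rw [this]
  exact N₀.2.2

theorem isPSolvable_of_surjective {G G' : Type*} [Group G] [Group G'] [Finite G] (p : ℕ)
    [Fact p.Prime] (f : G →* G') (hf : Function.Surjective f) (h : Cfsg.IsPSolvable p G) :
    Cfsg.IsPSolvable p G' := by
  have hp : p.Prime := Fact.out
  obtain ⟨n, S, h0, hlast, hmono, hnorm, hfac⟩ := h
  refine ⟨n, fun i => (S i).map f, ?_, ?_, ?_, ?_, ?_⟩
  · simp [h0]
  · simp only [hlast]
    exact Subgroup.map_top_of_surjective f hf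
  · intro i j hij
    exact Subgroup.map_mono (hmono hij)
  · intro i
    exact (hnorm i).map f hf
  · intro i
    have hAB : S i.castSucc ≤ S i.succ := hmono (Fin.castSucc_le_succ i)
    have hdiv : ((S i.castSucc).map f).relIndex ((S i.succ).map f) ∣
        (S i.castSucc).relIndex (S i.succ) := by
      rw [relIndex_map_map]
      have := hnorm i.castSucc
      have : (S i.castSucc ⊔ f.ker).Normal := inferInstance
      have h1 : S i.succ ⊔ f.ker = S i.succ ⊔ (S i.castSucc ⊔ f.ker) := by
        rw [← sup_assoc, sup_of_le_left hAB]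
      rw [h1, relIndex_sup_right]
      exact relIndex_dvd_of_le_left _ le_sup_left
    rcases hfac i with ⟨m, hm⟩ | hcop
    · left
      rw [hm] at hdiv
      obtain ⟨m', -, hm'⟩ := (Nat.dvd_prime_pow hp).mp hdiv
      exact ⟨m', hm'⟩
    · right
      exact Nat.Coprime.coprime_dvd_left hdiv hcop

/-- Let G be a finite p-solvable group and q a prime different from p. Some Sylow p-subgroup of G normalizes some Sylow q-subgroup of G if and only if q does not divide the order of G/O_{p'}(G), the quotient by the largest normal subgroup of order prime to p. -/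
theorem result {G : Type*} [Group G] [Finite G] (p q : ℕ) [Fact p.Prime] [Fact q.Prime] (hpq : p ≠ q) (hsolv : Cfsg.IsPSolvable p G) :
    (∃ (P : Sylow p G) (Q : Sylow q G), (P : Subgroup G) ≤ Subgroup.normalizer ((Q : Subgroup G) : Set G)) ↔ ¬ q ∣ (Cfsg.pPrimeCore p G).index := by
  have hp : p.Prime := Fact.out
  have hq : q.Prime := Fact.out
  have hKdef : Cfsg.pPrimeCore p G = sSup {N : Subgroup G | N.Normal ∧ (Nat.card N).Coprime p} := rfl
  have hKn : (Cfsg.pPrimeCore p G).Normal := pPrimeCore_normal p G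
  have hKc : (Nat.card (Cfsg.pPrimeCore p G)).Coprime p := pPrimeCore_coprime p G
  generalize Cfsg.pPrimeCore p G = K at hKdef hKn hKc ⊢
  constructor
  · rintro ⟨P, Q, hPQ⟩
    let f := QuotientGroup.mk' K
    have hf : Function.Surjective f := QuotientGroup.mk'_surjective K
    have hker : f.ker = K := QuotientGroup.ker_mk' K
    have hps' : Cfsg.IsPSolvable p (G ⧸ K) := isPSolvable_of_surjective p f hf hsolv
    have hO : ∀ R : Subgroup (G ⧸ K), R.Normal → (Nat.card R).Coprime p → R = ⊥ := by
      intro R hRn hRc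
      have hR'n : (R.comap f).Normal := hRn.comap f
      have hR'c : (Nat.card (R.comap f)).Coprime p := by
        rw [Nat.coprime_comm, Nat.Prime.coprime_iff_not_dvd hp]
        intro hdvd
        obtain ⟨x, hx⟩ := exists_prime_orderOf_dvd_card' p hdvd
        have hox : orderOf (x : G) = p := by rw [Subgroup.orderOf_coe]; exact hx
        have h1 : orderOf (f x) ∣ p := hox ▸ orderOf_map_dvd f (x : G)
        have h2 : orderOf (f x) ∣ Nat.card R := Subgroup.orderOf_dvd_natCard R x.2
        have h3 : orderOf (f x) = 1 := Nat.eq_one_of_dvd_coprimes hRc h2 h1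
        have h4 : (x : G) ∈ K :=
          (QuotientGroup.eq_one_iff (x : G)).mp (orderOf_eq_one_iff.mp h3)
        have h5 : p ∣ Nat.card K := hox ▸ Subgroup.orderOf_dvd_natCard K h4
        exact (Nat.Prime.coprime_iff_not_dvd hp).mp hKc.symm h5
      have hmem : R.comap f ∈ {N : Subgroup G | N.Normal ∧ (Nat.card N).Coprime p} :=
        ⟨hR'n, hR'c⟩
      have hle : R.comap f ≤ K := le_of_le_of_eq (le_sSup hmem) hKdef.symm
      rw [← Subgroup.map_comap_eq_self_of_surjective hf R]
      rw [Subgroup.map_eq_bot_iff, hker]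
      exact hle
    have hX := lemmaA p q hpq hps' hO (P.mapSurjective hf) ((Q : Subgroup G).map f) (Q.2.map f) (by
      rw [Sylow.coe_mapSurjective]
      exact (Subgroup.map_mono hPQ).trans (Subgroup.le_normalizer_map f))
    have hQK : (Q : Subgroup G) ≤ K :=
      le_of_le_of_eq ((Subgroup.map_eq_bot_iff _).mp hX) hker
    intro hdvd
    exact Q.not_dvd_index (hdvd.trans (Subgroup.index_dvd_of_le hQK))
  · intro hndvd
    let Q₀ : Sylow q K := default
    set Q₁ : Subgroup G := (Q₀ : Subgroup K).map K.subtype with hQ₁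
    have hfr : normalizer (Q₁ : Set G) ⊔ K = ⊤ := Sylow.normalizer_sup_eq_top Q₀
    have hcardQ : Nat.card Q₁ = q ^ (Nat.card G).factorization q := by
      rw [hQ₁, Nat.card_congr (Subgroup.equivMapOfInjective _ _ K.subtype_injective).symm.toEquiv,
        Sylow.card_eq_multiplicity]
      congr 1
      have h1 := Subgroup.card_mul_index K
      rw [← h1, Nat.factorization_mul Nat.card_pos.ne' (Subgroup.index_ne_zero_of_finite),
        Finsupp.add_apply, Nat.factorization_eq_zero_of_not_dvd hndvd, add_zero]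
    let Q : Sylow q G := Sylow.ofCard Q₁ hcardQ
    set M : Subgroup G := normalizer (Q₁ : Set G) with hM
    have hMidx : ¬ p ∣ M.index := by
      have h1 : K.relIndex M = K.index := by
        have h := relIndex_sup_right M K
        rw [hfr, relIndex_top_right] at h
        exact h.symm
      have h2 : Nat.card (K.subgroupOf M) * K.relIndex M = Nat.card M := Subgroup.card_mul_index _
      have h3 : Nat.card M * M.index = Nat.card G := Subgroup.card_mul_index M
      have h4 : Nat.card K * K.index = Nat.card G := Subgroup.card_mul_index K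
      have h5 : Nat.card (K.subgroupOf M) * M.index = Nat.card K := by
        have hpos : 0 < K.index := Nat.pos_of_ne_zero Subgroup.index_ne_zero_of_finite
        apply Nat.eq_of_mul_eq_mul_right hpos
        rw [h4, ← h3, ← h2, h1]
        ring
      intro hdvd
      have h6 : p ∣ Nat.card K := h5 ▸ (hdvd.mul_left _)
      exact (Nat.Prime.coprime_iff_not_dvd hp).mp hKc.symm h6
    let P₀ : Sylow p M := default
    set P₁ : Subgroup G := (P₀ : Subgroup M).map M.subtype with hP₁
    have hcardP : Nat.card P₁ = p ^ (Nat.card G).factorization p := by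
      rw [hP₁, Nat.card_congr (Subgroup.equivMapOfInjective _ _ M.subtype_injective).symm.toEquiv,
        Sylow.card_eq_multiplicity]
      congr 1
      have h1 := Subgroup.card_mul_index M
      rw [← h1, Nat.factorization_mul Nat.card_pos.ne' (Subgroup.index_ne_zero_of_finite),
        Finsupp.add_apply, Nat.factorization_eq_zero_of_not_dvd hMidx, add_zero]
    let P : Sylow p G := Sylow.ofCard P₁ hcardP
    refine ⟨P, Q, ?_⟩
    rw [Sylow.coe_ofCard, Sylow.coe_ofCard]
    exact Subgroup.map_subtype_le _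

end Cfsg.Agent.S4602
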