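import Mathlib
import Cfsg.Statements.S4218
import Cfsg.Agent.S4602
import Cfsg.Agent.S4207
import Cfsg.Agent.Lib.Helper55.Cores
import Cfsg.Agent.Lib.Helper70.FrattiniQuot

set_option autoImplicit false
open Cfsg

namespace Cfsg.Agent.S4218

/-- Hall-Higman Lemma 1.2.3: in a `p`-solvable group without nontrivial normal `p'`-subgroups,
`O_p` contains its own centralizer.  (The argument follows `Cfsg.Agent.S4602.lemmaA`.) -/
theorem centralizer_pCore_le_of_psolv {Γ : Type*} [Group Γ] [Finite Γ] (p : ℕ) [Fact p.Prime]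
    (hps : Cfsg.IsPSolvable p Γ)
    (hO : ∀ R : Subgroup Γ, R.Normal → (Nat.card R).Coprime p → R = ⊥) :
    Subgroup.centralizer (Cfsg.pCore p Γ : Set Γ) ≤ Cfsg.pCore p Γ := by
  have hp : p.Prime := Fact.out
  obtain ⟨H, hH⟩ : ∃ H : Subgroup Γ, H = Cfsg.pCore p Γ := ⟨_, rfl⟩
  rw [← hH]
  have hHp : IsPGroup p H := hH ▸ Cfsg.Agent.Lib.Helper55.pCore_isPGroup p Γ
  have hHn : H.Normal := hH ▸ Cfsg.pCore_normal p Γ
  have hnp : ∀ A : Subgroup Γ, A.Normal → IsPGroup p A → A ≤ H := by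
    intro A hA hAp
    rw [hH]
    exact Cfsg.Agent.Lib.Helper55.le_pCore hA hAp
  obtain ⟨C, hC⟩ : ∃ C : Subgroup Γ, C = Subgroup.centralizer (H : Set Γ) := ⟨_, rfl⟩
  rw [← hC]
  have hCn : C.Normal := hC ▸ Subgroup.normal_centralizer
  obtain ⟨n, S, h0, hlast, hmono, hnorm, hfac⟩ := hps
  have key : ∀ i : Fin (n + 1), S i ⊓ C ≤ H := by
    intro i
    induction i using Fin.induction with
    | zero =>
      rw [h0]
      simp
    | succ i ih =>
      obtain ⟨A, hA⟩ : ∃ A : Subgroup Γ, A = S i.succ ⊓ C := ⟨_, rfl⟩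
      obtain ⟨B, hB⟩ : ∃ B : Subgroup Γ, B = S i.castSucc ⊓ C := ⟨_, rfl⟩
      rw [← hA]
      rw [← hB] at ih
      have hSn : (S i.castSucc).Normal := hnorm _
      have hAn : A.Normal := by
        have := hnorm i.succ
        rw [hA]
        exact Subgroup.normal_inf_normal _ _
      have hBA : B ≤ A := by
        rw [hA, hB]
        exact inf_le_inf_right C (hmono (Fin.castSucc_le_succ i))
      have hBp : IsPGroup p B := hHp.to_le ih
      have hcent : ∀ b ∈ B, ∀ a ∈ A, a * b = b * a := by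
        intro b hb a ha
        have haC : a ∈ Subgroup.centralizer (H : Set Γ) := by
          rw [← hC]
          rw [hA] at ha
          exact ha.2
        exact (Subgroup.mem_centralizer_iff.mp haC b (ih hb)).symm
      have hdiv : B.relIndex A ∣ (S i.castSucc).relIndex (S i.succ) := by
        have h1 : B = S i.castSucc ⊓ A := by
          rw [hA, hB, ← inf_assoc, inf_of_le_left (hmono (Fin.castSucc_le_succ i))]
        rw [h1, Subgroup.inf_relIndex_right, ← Subgroup.relIndex_sup_right A (S i.castSucc)]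
        have h2 : A ⊔ S i.castSucc ≤ S i.succ := by
          rw [hA]
          exact sup_le inf_le_left (hmono (Fin.castSucc_le_succ i))
        exact Dvd.intro _ (Subgroup.relIndex_mul_relIndex _ _ _ le_sup_right h2)
      have hAp : IsPGroup p A := by
        rcases hfac i with ⟨m, hm⟩ | hcop
        · rw [hm] at hdiv
          obtain ⟨m', -, hm'⟩ := (Nat.dvd_prime_pow hp).mp hdiv
          obtain ⟨b, hb⟩ := (IsPGroup.iff_card).mp hBp
          rw [IsPGroup.iff_card]
          refine ⟨b + m', ?_⟩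
          have h1 : Nat.card (B.subgroupOf A) * (B.subgroupOf A).index = Nat.card A :=
            Subgroup.card_mul_index _
          have h2 : Nat.card (B.subgroupOf A) = Nat.card B :=
            Nat.card_congr (Subgroup.subgroupOfEquivOfLe hBA).toEquiv
          rw [← h1, h2, hb, pow_add]
          congr 1
        · obtain ⟨L, hLn, hLc, hL⟩ :=
            Cfsg.Agent.S4602.crux p A B hBp hcent (Nat.Coprime.coprime_dvd_left hdiv hcop)
          have hLbot := hO L hLn hLc
          apply Cfsg.Agent.S4602.isPGroup_of_coprime_trivial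
          intro a ha hco
          have h3 := hL a ha hco
          rw [hLbot] at h3
          exact Subgroup.mem_bot.mp h3
      exact hnp A hAn hAp
  have h4 := key (Fin.last n)
  rw [hlast] at h4
  simpa using h4

/-- Conjugation by `g` preserves `N.subgroupOf P`. -/
theorem map_conj_subgroupOf {G : Type*} [Group G] (N P : Subgroup G) [hN : N.Normal] [hP : P.Normal]
    (g : G) :
    (N.subgroupOf P).map ((MulAut.conjNormal g : MulAut P) : ↥P →* ↥P) = N.subgroupOf P := by
  ext x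
  constructor
  · rintro ⟨y, hy, rfl⟩
    have hy' : (y : G) ∈ N := Subgroup.mem_subgroupOf.mp hy
    rw [Subgroup.mem_subgroupOf]
    show ((MulAut.conjNormal g y : P) : G) ∈ N
    rw [MulAut.conjNormal_apply]
    exact hN.conj_mem _ hy' g
  · intro hx
    have hx' : (x : G) ∈ N := Subgroup.mem_subgroupOf.mp hx
    refine ⟨(MulAut.conjNormal g)⁻¹ x, ?_, ?_⟩
    · rw [SetLike.mem_coe, Subgroup.mem_subgroupOf, MulAut.conjNormal_inv_apply]
      have h := hN.conj_mem _ hx' g⁻¹
      rwa [inv_inv] at h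
    · show (MulAut.conjNormal g : MulAut P) ((MulAut.conjNormal g)⁻¹ x) = x
      rw [MulAut.apply_inv_self]

/-- The action of `G` on `P / N` by conjugation. -/
def theta {G : Type*} [Group G] (N P : Subgroup G) [N.Normal] [P.Normal] :
    G →* MulAut (↥P ⧸ N.subgroupOf P) :=
  MonoidHom.mk' (fun g => QuotientGroup.congr (N.subgroupOf P) (N.subgroupOf P)
    (MulAut.conjNormal g) (map_conj_subgroupOf N P g)) (by
    intro a b
    apply MulEquiv.ext
    intro q
    induction q using QuotientGroup.induction_on with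
    | H x =>
      rw [MulAut.mul_apply]
      simp only [QuotientGroup.congr_mk]
      rw [map_mul, MulAut.mul_apply])

theorem theta_mk {G : Type*} [Group G] (N P : Subgroup G) [N.Normal] [P.Normal] (g : G) (x : P) :
    theta N P g (QuotientGroup.mk x) = QuotientGroup.mk (MulAut.conjNormal g x) := rfl

/-- The abstract form of the statement. -/
theorem general {G : Type*} [Group G] [Finite G] {p : ℕ} [Fact p.Prime] (N P : Subgroup G)
    [hN : N.Normal] [hP : P.Normal]
    (h1 : ∀ x ∈ P, ∃ k : ℕ, x ^ p ^ k ∈ N)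
    (h2 : ∀ g : G, (∀ x ∈ P, g * x * g⁻¹ * x⁻¹ ∈ N) → g ∈ P)
    (h3 : ∀ C : Subgroup G, C.Normal → (∀ g ∈ C, ∃ k : ℕ, g ^ p ^ k ∈ P) → C ≤ P)
    (g : G) :
    (∀ x ∈ P, g * x * g⁻¹ * x⁻¹ ∈ ((frattini (↥P ⧸ N.subgroupOf P)).comap
      (QuotientGroup.mk' (N.subgroupOf P))).map P.subtype) ↔ g ∈ P := by
  have hp : p.Prime := Fact.out
  have hQp : IsPGroup p (↥P ⧸ N.subgroupOf P) := by
    intro q
    induction q using QuotientGroup.induction_on with
    | H x =>
      obtain ⟨k, hk⟩ := h1 x x.2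
      refine ⟨k, ?_⟩
      rw [← QuotientGroup.mk_pow, QuotientGroup.eq_one_iff, Subgroup.mem_subgroupOf,
        Subgroup.coe_pow]
      exact hk
  have hchar : ∀ (α : MulAut (↥P ⧸ N.subgroupOf P)) (q : ↥P ⧸ N.subgroupOf P),
      q ∈ frattini (↥P ⧸ N.subgroupOf P) → α q ∈ frattini (↥P ⧸ N.subgroupOf P) := by
    intro α q hq
    have h := (frattini_characteristic (G := ↥P ⧸ N.subgroupOf P)).fixed α
    rw [← h] at hq
    exact hq
  have hcomm : ∀ a b : ↥P ⧸ N.subgroupOf P, a * b * a⁻¹ * b⁻¹ ∈ frattini (↥P ⧸ N.subgroupOf P) := by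
    intro a b
    have hmem : ∀ K : Subgroup (↥P ⧸ N.subgroupOf P), IsCoatom K → a * b * a⁻¹ * b⁻¹ ∈ K :=
      fun K hK => (Cfsg.Agent.Lib.Helper70.coatom_props hQp K hK).2 a b
    simp only [frattini, Order.radical, Subgroup.mem_iInf]
    exact fun K hK => hmem K hK
  let A₀ : Subgroup (MulAut (↥P ⧸ N.subgroupOf P)) :=
    { carrier := {α | ∀ q, α q * q⁻¹ ∈ frattini (↥P ⧸ N.subgroupOf P)}
      mul_mem' := by
        intro α β hα hβ q
        have e : (α * β) q * q⁻¹ = α (β q * q⁻¹) * (α q * q⁻¹) := by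
          rw [MulAut.mul_apply, map_mul, map_inv]
          group
        rw [e]
        exact Subgroup.mul_mem _ (hchar α _ (hβ q)) (hα q)
      one_mem' := by
        intro q
        simp
      inv_mem' := by
        intro α hα q
        have e : α⁻¹ q * q⁻¹ = (α (α⁻¹ q) * (α⁻¹ q)⁻¹)⁻¹ := by
          rw [MulAut.apply_inv_self]
          group
        rw [e]
        exact Subgroup.inv_mem _ (hα _) }
  have hA₀mem : ∀ α : MulAut (↥P ⧸ N.subgroupOf P),
      α ∈ A₀ ↔ ∀ q, α q * q⁻¹ ∈ frattini (↥P ⧸ N.subgroupOf P) := fun α => Iff.rfl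
  have hA₀n : A₀.Normal := by
    constructor
    intro α hα β q
    have e : (β * α * β⁻¹) q * q⁻¹ = β (α (β⁻¹ q) * (β⁻¹ q)⁻¹) := by
      rw [MulAut.mul_apply, MulAut.mul_apply, map_mul, map_inv, MulAut.apply_inv_self]
    rw [e]
    exact hchar β _ (hα _)
  -- translation of the hypothesis
  have hkey : ∀ g : G, (∀ x ∈ P, g * x * g⁻¹ * x⁻¹ ∈ ((frattini (↥P ⧸ N.subgroupOf P)).comap
      (QuotientGroup.mk' (N.subgroupOf P))).map P.subtype) ↔ theta N P g ∈ A₀ := by
    intro g
    constructor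
    · intro h q
      induction q using QuotientGroup.induction_on with
      | H x =>
        obtain ⟨y, hy, hyx⟩ := Subgroup.mem_map.mp (h x x.2)
        have hyeq : y = MulAut.conjNormal g x * x⁻¹ := by
          apply Subtype.ext
          rw [Subgroup.coe_mul, MulAut.conjNormal_apply, Subgroup.coe_inv]
          exact hyx
        rw [hyeq] at hy
        exact hy
    · intro h x hx
      have h' := h (QuotientGroup.mk (⟨x, hx⟩ : P))
      refine Subgroup.mem_map.mpr ⟨MulAut.conjNormal g (⟨x, hx⟩ : P) * (⟨x, hx⟩ : P)⁻¹, h', ?_⟩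
      show ((MulAut.conjNormal g (⟨x, hx⟩ : P) * (⟨x, hx⟩ : P)⁻¹ : P) : G) = g * x * g⁻¹ * x⁻¹
      rw [Subgroup.coe_mul, MulAut.conjNormal_apply, Subgroup.coe_inv]
  rw [hkey]
  constructor
  · intro hg
    obtain ⟨n, hn⟩ := IsPGroup.iff_card.mp hQp
    obtain ⟨r, hr⟩ := hQp.index (frattini (↥P ⧸ N.subgroupOf P))
    have hcard := Cfsg.Agent.S4207.result hn hr A₀ (fun α hα q => hα q)
    have hCn : (A₀.comap (theta N P)).Normal := hA₀n.comap _
    have hC : A₀.comap (theta N P) ≤ P := by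
      apply h3 _ hCn
      intro g' hg'
      refine ⟨r * (n - r), ?_⟩
      apply h2
      have hg'' : theta N P g' ∈ A₀ := hg'
      have hpow : (theta N P g') ^ p ^ (r * (n - r)) = 1 := by
        have h5 : (⟨theta N P g', hg''⟩ : A₀) ^ Nat.card A₀ = 1 := pow_card_eq_one'
        obtain ⟨t, ht⟩ := hcard
        have h6 : (⟨theta N P g', hg''⟩ : A₀) ^ p ^ (r * (n - r)) = 1 := by
          rw [ht, pow_mul, h5, one_pow]
        have h7 := congrArg Subtype.val h6
        rw [Subgroup.coe_pow] at h7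
        exact h7
      rw [← map_pow] at hpow
      intro x hx
      have h8 : theta N P (g' ^ p ^ (r * (n - r))) (QuotientGroup.mk (⟨x, hx⟩ : P))
          = QuotientGroup.mk (⟨x, hx⟩ : P) := by
        rw [hpow, MulAut.one_apply]
      rw [theta_mk, QuotientGroup.eq, Subgroup.mem_subgroupOf, Subgroup.coe_mul, Subgroup.coe_inv,
        MulAut.conjNormal_apply] at h8
      have h9 := hN.conj_mem _ (N.inv_mem h8) x
      have e : x * ((g' ^ p ^ (r * (n - r)) * x * (g' ^ p ^ (r * (n - r)))⁻¹)⁻¹ * x)⁻¹ * x⁻¹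
          = g' ^ p ^ (r * (n - r)) * x * (g' ^ p ^ (r * (n - r)))⁻¹ * x⁻¹ := by group
      rw [← e]
      exact h9
    exact hC hg
  · intro hg q
    induction q using QuotientGroup.induction_on with
    | H x =>
      rw [theta_mk]
      have e : MulAut.conjNormal g x = (⟨g, hg⟩ : P) * x * (⟨g, hg⟩ : P)⁻¹ := by
        apply Subtype.ext
        rw [MulAut.conjNormal_apply]
        rfl
      rw [e]
      exact hcomm (QuotientGroup.mk (⟨g, hg⟩ : P)) (QuotientGroup.mk x)

/-- Let `G` be a finite `p`-solvable group, `N₀ = O_{p'}(G)`, `P₁ = O_{p',p}(G)`, and let `F ≤ P₁` be the preimage of the Frattini subgroup of `P₁/N₀`. Then an element `g` of `G` induces the identity on `P₁/F` by conjugation (that is, `g x g⁻¹ x⁻¹ ∈ F` for all `x ∈ P₁`) if and only if `g ∈ P₁`: the group `G/P₁` acts faithfully on `P₁/F`. -/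
theorem result {G : Type*} [Group G] [Finite G] {p : ℕ} [Fact p.Prime] (hG : Cfsg.IsPSolvable p G) (g : G) : (∀ x ∈ Cfsg.pPrimePCore p G, g * x * g⁻¹ * x⁻¹ ∈ ((frattini (↥(Cfsg.pPrimePCore p G) ⧸ (Cfsg.pPrimeCore p G).subgroupOf (Cfsg.pPrimePCore p G))).comap (QuotientGroup.mk' ((Cfsg.pPrimeCore p G).subgroupOf (Cfsg.pPrimePCore p G)))).map (Cfsg.pPrimePCore p G).subtype) ↔ g ∈ Cfsg.pPrimePCore p G := by
  have hp : p.Prime := Fact.out
  have hπ : Function.Surjective (QuotientGroup.mk' (Cfsg.pPrimeCore p G)) :=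
    QuotientGroup.mk'_surjective _
  have hP1 : ∀ x : G, x ∈ Cfsg.pPrimePCore p G ↔
      QuotientGroup.mk' (Cfsg.pPrimeCore p G) x ∈ Cfsg.pCore p (G ⧸ Cfsg.pPrimeCore p G) :=
    fun x => Iff.rfl
  have hPn : (Cfsg.pPrimePCore p G).Normal :=
    Subgroup.Normal.comap (Cfsg.pCore_normal p (G ⧸ Cfsg.pPrimeCore p G)) _
  have hHp : IsPGroup p (Cfsg.pCore p (G ⧸ Cfsg.pPrimeCore p G)) :=
    Cfsg.Agent.Lib.Helper55.pCore_isPGroup p _
  have hps : Cfsg.IsPSolvable p (G ⧸ Cfsg.pPrimeCore p G) :=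
    Cfsg.Agent.S4602.isPSolvable_of_surjective p _ hπ hG
  have hO : ∀ R : Subgroup (G ⧸ Cfsg.pPrimeCore p G), R.Normal → (Nat.card R).Coprime p → R = ⊥ :=
    fun R hR hc => Cfsg.Agent.Lib.Helper55.eq_bot_of_normal_coprime_quotient p G R hR hc
  have hcent := centralizer_pCore_le_of_psolv p hps hO
  refine general (p := p) (Cfsg.pPrimeCore p G) (Cfsg.pPrimePCore p G) ?_ ?_ ?_ g
  · intro x hx
    obtain ⟨k, hk⟩ := hHp ⟨_, (hP1 x).mp hx⟩
    refine ⟨k, ?_⟩
    have hk' := congrArg Subtype.val hk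
    rw [Subgroup.coe_pow, Subgroup.coe_one, ← map_pow] at hk'
    exact (QuotientGroup.eq_one_iff _).mp hk'
  · intro g' hg'
    rw [hP1]
    apply hcent
    rw [Subgroup.mem_centralizer_iff]
    intro h hh
    obtain ⟨x, rfl⟩ := hπ h
    have hx : x ∈ Cfsg.pPrimePCore p G := (hP1 x).mpr hh
    have h5 := hg' x hx
    have h6 : QuotientGroup.mk' (Cfsg.pPrimeCore p G) (g' * x * g'⁻¹ * x⁻¹) = 1 :=
      (QuotientGroup.eq_one_iff _).mpr h5
    rw [map_mul, map_mul, map_mul, map_inv, map_inv] at h6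
    have h7 := mul_inv_eq_one.mp h6
    have h8 := mul_inv_eq_iff_eq_mul.mp h7
    exact h8.symm
  · intro C hCn hC
    have hmap : C.map (QuotientGroup.mk' (Cfsg.pPrimeCore p G)) ≤
        Cfsg.pCore p (G ⧸ Cfsg.pPrimeCore p G) := by
      apply Cfsg.Agent.Lib.Helper55.le_pCore (hCn.map _ hπ)
      rintro ⟨y, hy⟩
      obtain ⟨c, hc, rfl⟩ := Subgroup.mem_map.mp hy
      obtain ⟨k, hk⟩ := hC c hc
      obtain ⟨l, hl⟩ := hHp ⟨_, (hP1 _).mp hk⟩
      refine ⟨k + l, ?_⟩
      apply Subtype.ext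
      have hl' := congrArg Subtype.val hl
      rw [Subgroup.coe_pow, Subgroup.coe_one] at hl'
      rw [Subgroup.coe_pow, Subgroup.coe_one, pow_add, pow_mul, ← map_pow]
      exact hl'
    intro c hc
    rw [hP1]
    exact hmap (Subgroup.mem_map_of_mem _ hc)

end Cfsg.Agent.S4218
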