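import Mathlib
import Cfsg.Statements.S4227
import Cfsg.Agent.S0144
import Cfsg.Agent.S4218
import Cfsg.Agent.Lib.Helper55.Cores
import Cfsg.Agent.Lib.Helper63.PLength

set_option autoImplicit false
open Cfsg

namespace Cfsg.Agent.S4227

/-! ### A piece of linear algebra: `A₄` cannot act with `(Y - 1)² = 0` in characteristic `3` -/

theorem lemmaLA {M : Type*} [AddCommGroup M] (h2 : ∀ v : M, v + v = 0 → v = 0)
    (A B Y : M →+ M)
    (hA : ∀ v, A (A v) = v) (hB : ∀ v, B (B v) = v) (hAB : ∀ v, A (B v) = B (A v))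
    (hYA : ∀ v, Y (A v) = B (Y v)) (hYB : ∀ v, Y (B v) = A (B (Y v)))
    (hY3 : ∀ v, Y (Y (Y v)) = v) (hE : ∀ v, v + Y v + Y (Y v) = 0) :
    ∀ v, A v = v := by
  have hAY : ∀ v, A (Y v) = Y (A (B v)) := by
    intro v
    rw [hYA, hYB, ← hAB, hB]
  have R1 : ∀ v, v + B v - A v - A (B v) = 0 := by
    intro v
    obtain ⟨v₁, hv₁⟩ : ∃ v₁, v₁ = v + B v - A v - A (B v) := ⟨_, rfl⟩
    rw [← hv₁]
    have hBv₁ : B v₁ = v₁ := by
      rw [hv₁]
      simp only [map_add, map_sub, hB, ← hAB]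
      abel
    have hAv₁ : A v₁ = -v₁ := by
      rw [hv₁]
      simp only [map_add, map_sub, hA]
      abel
    have h1 : B (Y v₁) = -(Y v₁) := by rw [← hYA, hAv₁, map_neg]
    have h2' : B (Y (Y v₁)) = -(Y (Y v₁)) := by
      rw [← hYA, hAY, hBv₁, hAv₁, map_neg, map_neg]
    have h3 := hE v₁
    have h4 : B (v₁ + Y v₁ + Y (Y v₁)) = 0 := by rw [h3, map_zero]
    rw [map_add, map_add, hBv₁, h1, h2'] at h4
    apply h2
    have e : v₁ + v₁ = (v₁ + Y v₁ + Y (Y v₁)) + (v₁ + -(Y v₁) + -(Y (Y v₁))) := by abel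
    rw [e, h3, h4, add_zero]
  have R2 : ∀ w, w + A (B w) - B w - A w = 0 := by
    intro w
    have hw : Y (Y (Y w)) = w := hY3 w
    have h1 := R1 (Y (Y w))
    have h2' : Y (Y (Y w) + B (Y (Y w)) - A (Y (Y w)) - A (B (Y (Y w)))) = 0 := by
      rw [h1, map_zero]
    rw [map_sub, map_sub, map_add, hYA (B (Y (Y w))), hYA (Y (Y w)), hYB (Y (Y w)), hw,
      ← hAB (B w), hB] at h2'
    exact h2'
  intro v
  have h1 := R1 v
  have h2' := R2 v
  have h3 : (v - A v) + (v - A v) = 0 := by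
    have e : (v - A v) + (v - A v)
        = (v + B v - A v - A (B v)) + (v + A (B v) - B v - A v) := by abel
    rw [e, h1, h2', add_zero]
  have h4 := h2 _ h3
  exact (sub_eq_zero.mp h4).symm

theorem lemmaLA_mul {V : Type*} [Group V] (hc : ∀ a b : V, a * b = b * a)
    (h2 : ∀ v : V, v * v = 1 → v = 1) (A B Y : V →* V)
    (hA : ∀ v, A (A v) = v) (hB : ∀ v, B (B v) = v) (hAB : ∀ v, A (B v) = B (A v))
    (hYA : ∀ v, Y (A v) = B (Y v)) (hYB : ∀ v, Y (B v) = A (B (Y v)))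
    (hY3 : ∀ v, Y (Y (Y v)) = v) (hE : ∀ v, v * Y v * Y (Y v) = 1) :
    ∀ v, A v = v := by
  let _ : CommGroup V := { (inferInstance : Group V) with mul_comm := hc }
  exact lemmaLA (M := Additive V) (fun v hv => h2 v hv) (MonoidHom.toAdditive A)
    (MonoidHom.toAdditive B) (MonoidHom.toAdditive Y) hA hB hAB hYA hYB hY3 hE

/-! ### Groups of exponent six -/

/-- In a group of exponent six an element of `p`-power order has order dividing `p`. -/
theorem pow_prime_of_pow {X : Type*} [Group X] (hexp : ∀ x : X, x ^ 6 = 1) (p : ℕ) (hp : p.Prime)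
    (hp6 : ¬ p ^ 2 ∣ 6) (x : X) (k : ℕ) (hx : x ^ p ^ k = 1) : x ^ p = 1 := by
  have h1 : orderOf x ∣ p ^ k := orderOf_dvd_of_pow_eq_one hx
  obtain ⟨j, -, hj⟩ := (Nat.dvd_prime_pow hp).mp h1
  have h6 : orderOf x ∣ 6 := orderOf_dvd_of_pow_eq_one (hexp x)
  have hj1 : j ≤ 1 := by
    by_contra hcon
    apply hp6
    rw [hj] at h6
    exact (pow_dvd_pow p (by omega)).trans h6
  apply orderOf_dvd_iff_pow_eq_one.mp
  rw [hj]
  calc p ^ j ∣ p ^ 1 := pow_dvd_pow p hj1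
    _ = p := pow_one p

theorem sq_of_two_group {X : Type*} [Group X] (hexp : ∀ x : X, x ^ 6 = 1) (S : Subgroup X)
    (hS : IsPGroup 2 S) : ∀ s ∈ S, s * s = 1 := by
  intro s hs
  obtain ⟨k, hk⟩ := hS ⟨s, hs⟩
  have hk' : s ^ 2 ^ k = 1 := by
    have h := congrArg Subtype.val hk
    rw [Subgroup.coe_pow] at h
    exact h
  have h := pow_prime_of_pow hexp 2 Nat.prime_two (by norm_num) s k hk'
  rw [pow_two] at h
  exact h

theorem comm_of_two_group {X : Type*} [Group X] (hexp : ∀ x : X, x ^ 6 = 1) (S : Subgroup X)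
    (hS : IsPGroup 2 S) : ∀ s ∈ S, ∀ t ∈ S, s * t = t * s := by
  intro s hs t ht
  have h1 := sq_of_two_group hexp S hS s hs
  have h2 := sq_of_two_group hexp S hS t ht
  have h3 := sq_of_two_group hexp S hS (s * t) (S.mul_mem hs ht)
  have e : (s * t)⁻¹ = s * t := inv_eq_of_mul_eq_one_left h3
  have es : s⁻¹ = s := inv_eq_of_mul_eq_one_left h1
  have et : t⁻¹ = t := inv_eq_of_mul_eq_one_left h2
  calc s * t = (s * t)⁻¹ := e.symm
    _ = t⁻¹ * s⁻¹ := mul_inv_rev s t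
    _ = t * s := by rw [es, et]

/-- `p = 2`: every cube lies in `O_{2',2}`. -/
theorem key2 {G : Type*} [Group G] [Finite G] [Group.IsSolvable G] (hexp : ∀ x : G, x ^ 6 = 1) :
    ∀ x : G, x ^ 3 ∈ Cfsg.pPrimePCore 2 G := by
  have h2 : Fact (Nat.Prime 2) := ⟨Nat.prime_two⟩
  intro x
  have hexpQ : ∀ q : G ⧸ Cfsg.pPrimeCore 2 G, q ^ 6 = 1 := by
    intro q
    induction q using QuotientGroup.induction_on with
    | H g =>
      have e : ((g ^ 6 : G) : G ⧸ Cfsg.pPrimeCore 2 G) = 1 := by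
        rw [hexp]; rfl
      exact e
  have hcent : Subgroup.centralizer
      (Cfsg.pCore 2 (G ⧸ Cfsg.pPrimeCore 2 G) : Set (G ⧸ Cfsg.pPrimeCore 2 G))
      ≤ Cfsg.pCore 2 (G ⧸ Cfsg.pPrimeCore 2 G) :=
    Cfsg.Agent.Lib.Helper55.centralizer_pCore_le (fun N hN hc =>
      Cfsg.Agent.Lib.Helper55.eq_bot_of_normal_coprime_quotient 2 G N hN hc)
  show QuotientGroup.mk' (Cfsg.pPrimeCore 2 G) (x ^ 3) ∈ Cfsg.pCore 2 (G ⧸ Cfsg.pPrimeCore 2 G)
  apply hcent
  rw [Subgroup.mem_centralizer_iff]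
  intro h hh
  obtain ⟨t, ht⟩ : ∃ t, t = QuotientGroup.mk' (Cfsg.pPrimeCore 2 G) (x ^ 3) := ⟨_, rfl⟩
  rw [← ht]
  have htt : t * t = 1 := by
    rw [ht, ← map_mul]
    have e : x ^ 3 * x ^ 3 = 1 := by rw [← pow_add]; exact hexp x
    rw [e, map_one]
  have hP : IsPGroup 2 (Cfsg.pCore 2 (G ⧸ Cfsg.pPrimeCore 2 G)) :=
    Cfsg.Agent.Lib.Helper55.pCore_isPGroup 2 _
  have hPn : (Cfsg.pCore 2 (G ⧸ Cfsg.pPrimeCore 2 G)).Normal := Cfsg.pCore_normal 2 _
  have hsq := sq_of_two_group hexpQ _ hP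
  have hth : t * h * t⁻¹ ∈ Cfsg.pCore 2 (G ⧸ Cfsg.pPrimeCore 2 G) := hPn.conj_mem h hh t
  have hw : h * (t * h * t⁻¹) ∈ Cfsg.pCore 2 (G ⧸ Cfsg.pPrimeCore 2 G) :=
    Subgroup.mul_mem _ hh hth
  have htinv : t⁻¹ = t := inv_eq_of_mul_eq_one_left htt
  -- (h t)^2 = h (t h t⁻¹)
  have e1 : (h * t) ^ 2 = h * (t * h * t⁻¹) := by
    rw [htinv, pow_two]
    group
  have e2 : ((h * t) ^ 2) ^ 2 = 1 := by
    rw [e1, pow_two]
    exact hsq _ hw
  have e3 : (h * t) ^ 2 = 1 := by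
    have h4 : (h * t) ^ 4 = 1 := by
      rw [← e2, ← pow_mul]
    have h6 := hexpQ (h * t)
    calc (h * t) ^ 2 = (h * t) ^ 6 * ((h * t) ^ 4)⁻¹ := by group
      _ = 1 := by rw [h6, h4]; group
  rw [e1] at e3
  -- h * (t h t⁻¹) = 1, so t h t⁻¹ = h⁻¹ = h
  have hhinv : h⁻¹ = h := inv_eq_of_mul_eq_one_left (hsq h hh)
  have e4 : t * h * t⁻¹ = h := by
    have h5 : t * h * t⁻¹ = h⁻¹ := (inv_eq_of_mul_eq_one_right e3).symm
    rw [h5, hhinv]
  calc h * t = (t * h * t⁻¹) * t := by rw [e4]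
    _ = t * h := by group


/-- The abstract core of the argument for `p = 3`. -/
theorem key3_aux {G : Type*} [Group G] [Finite G] [Group.IsSolvable G] (hexp : ∀ x : G, x ^ 6 = 1)
    (F P : Subgroup G) [hF : F.Normal] [hP : P.Normal]
    (h1 : ∀ x ∈ P, x ^ 3 ∈ F)
    (hgen : ∀ g : G, (∀ x ∈ P, g * x * g⁻¹ * x⁻¹ ∈ F) ↔ g ∈ P)
    (h3 : ∀ C : Subgroup G, C.Normal → (∀ g ∈ C, ∃ k : ℕ, g ^ 3 ^ k ∈ P) → C ≤ P) :
    ∀ y : G, y ^ 3 = 1 → y ∈ P := by
  have h2 : Fact (Nat.Prime 2) := ⟨Nat.prime_two⟩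
  -- the action
  have hΘ : ∀ g : G, Cfsg.Agent.S4218.theta F P g = 1 ↔ g ∈ P := by
    intro g
    rw [← hgen g]
    constructor
    · intro h x hx
      have h8 : Cfsg.Agent.S4218.theta F P g (QuotientGroup.mk (⟨x, hx⟩ : P))
          = QuotientGroup.mk (⟨x, hx⟩ : P) := by
        rw [h, MulAut.one_apply]
      rw [Cfsg.Agent.S4218.theta_mk, QuotientGroup.eq, Subgroup.mem_subgroupOf, Subgroup.coe_mul,
        Subgroup.coe_inv, MulAut.conjNormal_apply] at h8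
      have h9 := hF.conj_mem _ (F.inv_mem h8) x
      have e : x * ((g * x * g⁻¹)⁻¹ * x)⁻¹ * x⁻¹ = g * x * g⁻¹ * x⁻¹ := by group
      rw [← e]
      exact h9
    · intro h
      apply MulEquiv.ext
      intro q
      induction q using QuotientGroup.induction_on with
      | H x =>
        rw [Cfsg.Agent.S4218.theta_mk, MulAut.one_apply, QuotientGroup.eq, Subgroup.mem_subgroupOf,
          Subgroup.coe_mul, Subgroup.coe_inv, MulAut.conjNormal_apply]
        have h9 := hF.conj_mem _ (F.inv_mem (h x x.2)) (x : G)⁻¹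
        have e : (x : G)⁻¹ * (g * x * g⁻¹ * (x : G)⁻¹)⁻¹ * (x : G)⁻¹⁻¹ = (g * x * g⁻¹)⁻¹ * x := by
          group
        rw [← e]
        exact h9
  have hVc : ∀ a b : ↥P ⧸ F.subgroupOf P, a * b = b * a := by
    intro a b
    induction a using QuotientGroup.induction_on with
    | H x =>
      induction b using QuotientGroup.induction_on with
      | H x' =>
        have h := (hgen (x' : G)⁻¹).mpr (P.inv_mem x'.2) (x : G)⁻¹ (P.inv_mem x.2)
        have e : (x' : G)⁻¹ * (x : G)⁻¹ * (x' : G)⁻¹⁻¹ * (x : G)⁻¹⁻¹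
            = (((x * x')⁻¹ * (x' * x) : P) : G) := by
          simp only [Subgroup.coe_mul, Subgroup.coe_inv]
          group
        rw [e] at h
        have h' : (x * x')⁻¹ * (x' * x) ∈ F.subgroupOf P := Subgroup.mem_subgroupOf.mpr h
        exact QuotientGroup.eq.mpr h'
  have hV3 : ∀ v : ↥P ⧸ F.subgroupOf P, v ^ 3 = 1 := by
    intro v
    induction v using QuotientGroup.induction_on with
    | H x =>
      have h : x ^ 3 ∈ F.subgroupOf P := by
        rw [Subgroup.mem_subgroupOf, Subgroup.coe_pow]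
        exact h1 x x.2
      exact (QuotientGroup.eq_one_iff (x ^ 3)).mpr h
  have hV2 : ∀ v : ↥P ⧸ F.subgroupOf P, v * v = 1 → v = 1 := by
    intro v hv
    have h := hV3 v
    rw [pow_succ, pow_two, hv, one_mul] at h
    exact h
  have hE : ∀ y : G, y ^ 3 = 1 → ∀ v : ↥P ⧸ F.subgroupOf P,
      v * Cfsg.Agent.S4218.theta F P y v
        * Cfsg.Agent.S4218.theta F P y (Cfsg.Agent.S4218.theta F P y v) = 1 := by
    intro y hy v
    induction v using QuotientGroup.induction_on with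
    | H u =>
      rw [Cfsg.Agent.S4218.theta_mk, Cfsg.Agent.S4218.theta_mk]
      obtain ⟨w, hw⟩ : ∃ w, w = (u : G) * (y * u * y⁻¹) * (y * (y * u * y⁻¹) * y⁻¹) := ⟨_, rfl⟩
      have hwP : w ∈ P := by
        rw [hw]
        exact P.mul_mem (P.mul_mem u.2 (hP.conj_mem _ u.2 y))
          (hP.conj_mem _ (hP.conj_mem _ u.2 y) y)
      have hw3 : w = ((u : G) * y) ^ 3 := by
        have e : ((u : G) * y) ^ 3
            = (u : G) * (y * u * y⁻¹) * (y * (y * u * y⁻¹) * y⁻¹) * y ^ 3 := by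
          rw [pow_succ, pow_two]
          group
        rw [e, hy, mul_one, hw]
      have hww : w * w = 1 := by
        rw [hw3, ← pow_add]
        exact hexp _
      have hwF : w ∈ F := by
        have h := h1 w hwP
        have e : w = w ^ 3 * (w * w)⁻¹ := by group
        rw [e, hww, inv_one, mul_one]
        exact h
      have hmem : u * MulAut.conjNormal y u * MulAut.conjNormal y (MulAut.conjNormal y u)
          ∈ F.subgroupOf P := by
        rw [Subgroup.mem_subgroupOf]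
        simp only [Subgroup.coe_mul, MulAut.conjNormal_apply]
        rw [← hw]
        exact hwF
      exact (QuotientGroup.eq_one_iff _).mpr hmem
  -- the quotient `G / P`
  have hexpQ : ∀ q : G ⧸ P, q ^ 6 = 1 := by
    intro q
    induction q using QuotientGroup.induction_on with
    | H g =>
      have e : ((g ^ 6 : G) : G ⧸ P) = 1 := by
        rw [hexp]; rfl
      exact e
  have hO : ∀ R : Subgroup (G ⧸ P), R.Normal → (Nat.card R).Coprime 2 → R = ⊥ := by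
    intro R hR hc
    have hC : R.comap (QuotientGroup.mk' P) ≤ P := by
      apply h3 _ (hR.comap _)
      intro g hg
      refine ⟨1, ?_⟩
      rw [pow_one]
      have hg' : QuotientGroup.mk' P g ∈ R := hg
      have ho : orderOf (QuotientGroup.mk' P g) ∣ 3 := by
        have h6 : orderOf (QuotientGroup.mk' P g) ∣ 2 * 3 :=
          orderOf_dvd_of_pow_eq_one (hexpQ _)
        have hcard : orderOf (QuotientGroup.mk' P g) ∣ Nat.card R :=
          Subgroup.orderOf_dvd_natCard _ hg'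
        exact (Nat.Coprime.coprime_dvd_left hcard hc).dvd_of_dvd_mul_left h6
      have h7 := orderOf_dvd_iff_pow_eq_one.mp ho
      rw [← map_pow] at h7
      exact (QuotientGroup.eq_one_iff _).mp h7
    rw [eq_bot_iff]
    intro r hr
    obtain ⟨g, rfl⟩ := QuotientGroup.mk'_surjective P r
    rw [Subgroup.mem_bot]
    exact (QuotientGroup.eq_one_iff _).mpr (hC hr)
  have hcent := Cfsg.Agent.Lib.Helper55.centralizer_pCore_le (p := 2) (X := G ⧸ P) hO
  have hOp : IsPGroup 2 (Cfsg.pCore 2 (G ⧸ P)) := Cfsg.Agent.Lib.Helper55.pCore_isPGroup 2 _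
  have hOn : (Cfsg.pCore 2 (G ⧸ P)).Normal := Cfsg.pCore_normal 2 _
  have hsq := sq_of_two_group hexpQ _ hOp
  have hcm := comm_of_two_group hexpQ _ hOp
  -- the induced faithful action of `G / P`
  have hker : P ≤ (Cfsg.Agent.S4218.theta F P).ker :=
    fun g hg => (MonoidHom.mem_ker).mpr ((hΘ g).mpr hg)
  obtain ⟨Θ', hΘ'⟩ : ∃ Θ' : G ⧸ P →* MulAut (↥P ⧸ F.subgroupOf P),
      Θ' = QuotientGroup.lift P (Cfsg.Agent.S4218.theta F P) hker := ⟨_, rfl⟩
  have hΘ'mk : ∀ g : G, Θ' (QuotientGroup.mk g) = Cfsg.Agent.S4218.theta F P g := by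
    intro g
    rw [hΘ']
    rfl
  have hΘ'inj : ∀ q : G ⧸ P, Θ' q = 1 → q = 1 := by
    intro q hq
    induction q using QuotientGroup.induction_on with
    | H g =>
      rw [hΘ'mk] at hq
      exact (QuotientGroup.eq_one_iff _).mpr ((hΘ g).mp hq)
  have hmul : ∀ (s t : G ⧸ P) (v : ↥P ⧸ F.subgroupOf P), Θ' s (Θ' t v) = Θ' (s * t) v := by
    intro s t v
    rw [map_mul, MulAut.mul_apply]
  have hone : ∀ v : ↥P ⧸ F.subgroupOf P, Θ' 1 v = v := by
    intro v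
    rw [map_one, MulAut.one_apply]
  intro y hy
  by_contra hyP
  obtain ⟨yb, hyb⟩ : ∃ yb : G ⧸ P, yb = QuotientGroup.mk y := ⟨_, rfl⟩
  have hyb3 : yb ^ 3 = 1 := by
    have e : ((y ^ 3 : G) : G ⧸ P) = 1 := by
      rw [hy]; rfl
    rw [hyb]
    exact e
  have hyb3' : yb * yb * yb = 1 := by
    rw [← hyb3, pow_succ, pow_two]
  have hyb1 : yb ≠ 1 := by
    intro h
    rw [hyb] at h
    exact hyP ((QuotientGroup.eq_one_iff _).mp h)
  have hybO : yb ∉ Cfsg.pCore 2 (G ⧸ P) := by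
    intro h
    have h' := hsq yb h
    apply hyb1
    have e := hyb3
    rw [pow_succ, pow_two, h', one_mul] at e
    exact e
  have hnc : yb ∉ Subgroup.centralizer (Cfsg.pCore 2 (G ⧸ P) : Set (G ⧸ P)) :=
    fun h => hybO (hcent h)
  rw [Subgroup.mem_centralizer_iff] at hnc
  push Not at hnc
  obtain ⟨a₀, ha₀, hne⟩ := hnc
  have ha₀' : a₀ ∈ Cfsg.pCore 2 (G ⧸ P) := ha₀
  obtain ⟨b₀, hb₀⟩ : ∃ b₀, b₀ = yb * a₀ * yb⁻¹ := ⟨_, rfl⟩
  obtain ⟨c₀, hc₀⟩ : ∃ c₀, c₀ = yb * b₀ * yb⁻¹ := ⟨_, rfl⟩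
  have hb₀O : b₀ ∈ Cfsg.pCore 2 (G ⧸ P) := by
    rw [hb₀]
    exact hOn.conj_mem _ ha₀' _
  have hc₀O : c₀ ∈ Cfsg.pCore 2 (G ⧸ P) := by
    rw [hc₀]
    exact hOn.conj_mem _ hb₀O _
  have hca : yb * c₀ * yb⁻¹ = a₀ := by
    rw [hc₀, hb₀]
    have e : yb * (yb * (yb * a₀ * yb⁻¹) * yb⁻¹) * yb⁻¹
        = (yb * yb * yb) * a₀ * (yb * yb * yb)⁻¹ := by group
    rw [e, hyb3', one_mul, inv_one, mul_one]
  have haO : a₀ * b₀ ∈ Cfsg.pCore 2 (G ⧸ P) := Subgroup.mul_mem _ ha₀' hb₀O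
  have hbO : b₀ * c₀ ∈ Cfsg.pCore 2 (G ⧸ P) := Subgroup.mul_mem _ hb₀O hc₀O
  have r1 : (a₀ * b₀) * (a₀ * b₀) = 1 := hsq _ haO
  have r2 : (b₀ * c₀) * (b₀ * c₀) = 1 := hsq _ hbO
  have r3 : (a₀ * b₀) * (b₀ * c₀) = (b₀ * c₀) * (a₀ * b₀) := hcm _ haO _ hbO
  have r4 : yb * (a₀ * b₀) = (b₀ * c₀) * yb := by
    rw [hc₀, hb₀]
    group
  have r5 : yb * (b₀ * c₀) = (a₀ * b₀) * ((b₀ * c₀) * yb) := by
    have e1 : yb * (b₀ * c₀) = (yb * b₀ * yb⁻¹) * (yb * c₀ * yb⁻¹) * yb := by group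
    have e2 : (a₀ * b₀) * ((b₀ * c₀) * yb) = a₀ * (b₀ * b₀) * c₀ * yb := by group
    rw [e1, e2, hca, ← hc₀, hsq b₀ hb₀O, mul_one, hcm c₀ hc₀O a₀ ha₀']
  have r6 : yb * (yb * yb) = 1 := by
    rw [← mul_assoc]
    exact hyb3'
  have hA1 := lemmaLA_mul hVc hV2 (Θ' (a₀ * b₀)).toMonoidHom (Θ' (b₀ * c₀)).toMonoidHom
    (Θ' yb).toMonoidHom
    (by
      intro v
      show Θ' (a₀ * b₀) (Θ' (a₀ * b₀) v) = v
      rw [hmul, r1, hone])
    (by
      intro v
      show Θ' (b₀ * c₀) (Θ' (b₀ * c₀) v) = v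
      rw [hmul, r2, hone])
    (by
      intro v
      show Θ' (a₀ * b₀) (Θ' (b₀ * c₀) v) = Θ' (b₀ * c₀) (Θ' (a₀ * b₀) v)
      rw [hmul, hmul, r3])
    (by
      intro v
      show Θ' yb (Θ' (a₀ * b₀) v) = Θ' (b₀ * c₀) (Θ' yb v)
      rw [hmul, hmul, r4])
    (by
      intro v
      show Θ' yb (Θ' (b₀ * c₀) v) = Θ' (a₀ * b₀) (Θ' (b₀ * c₀) (Θ' yb v))
      rw [hmul yb (b₀ * c₀) v, hmul (b₀ * c₀) yb v, hmul (a₀ * b₀) ((b₀ * c₀) * yb) v, r5])
    (by
      intro v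
      show Θ' yb (Θ' yb (Θ' yb v)) = v
      rw [hmul yb yb v, hmul yb (yb * yb) v, r6, hone])
    (by
      intro v
      show v * Θ' yb v * Θ' yb (Θ' yb v) = 1
      rw [hyb, hΘ'mk]
      exact hE y hy v)
  have hab1 : a₀ * b₀ = 1 := by
    apply hΘ'inj
    apply MulEquiv.ext
    intro v
    exact hA1 v
  apply hne
  have e1 : b₀ = a₀⁻¹ := (inv_eq_of_mul_eq_one_right hab1).symm
  have e2 : a₀⁻¹ = a₀ := inv_eq_of_mul_eq_one_left (hsq a₀ ha₀')
  rw [e1, e2] at hb₀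
  calc a₀ * yb = (yb * a₀ * yb⁻¹) * yb := by rw [← hb₀]
    _ = yb * a₀ := by group

/-- The abstract statement for `p = 3`, with the Frattini preimage supplied. -/
theorem key3 {G : Type*} [Group G] [Finite G] [Group.IsSolvable G] (hexp : ∀ x : G, x ^ 6 = 1)
    (N P : Subgroup G) [hN : N.Normal] [hP : P.Normal] (hNP : N ≤ P)
    (h1 : ∀ x ∈ P, x ^ 3 ∈ N)
    (h2 : ∀ g : G, (∀ x ∈ P, g * x * g⁻¹ * x⁻¹ ∈ N) → g ∈ P)
    (h3 : ∀ C : Subgroup G, C.Normal → (∀ g ∈ C, ∃ k : ℕ, g ^ 3 ^ k ∈ P) → C ≤ P) :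
    ∀ y : G, y ^ 3 = 1 → y ∈ P := by
  have h3' : Fact (Nat.Prime 3) := ⟨Nat.prime_three⟩
  obtain ⟨F, hFdef⟩ : ∃ F : Subgroup G, F = ((frattini (↥P ⧸ N.subgroupOf P)).comap
      (QuotientGroup.mk' (N.subgroupOf P))).map P.subtype := ⟨_, rfl⟩
  have hgen : ∀ g : G, (∀ x ∈ P, g * x * g⁻¹ * x⁻¹ ∈ F) ↔ g ∈ P := by
    intro g
    rw [hFdef]
    exact Cfsg.Agent.S4218.general (p := 3) N P
      (fun x hx => ⟨1, by rw [pow_one]; exact h1 x hx⟩) h2 h3 g
  have hFmem : ∀ x : G, x ∈ F ↔ ∃ hx : x ∈ P,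
      (QuotientGroup.mk (⟨x, hx⟩ : P) : ↥P ⧸ N.subgroupOf P)
        ∈ frattini (↥P ⧸ N.subgroupOf P) := by
    intro x
    rw [hFdef]
    constructor
    · rintro ⟨y, hy, rfl⟩
      exact ⟨y.2, hy⟩
    · rintro ⟨hx, h⟩
      exact ⟨⟨x, hx⟩, h, rfl⟩
  have hNF : N ≤ F := by
    intro x hx
    rw [hFmem]
    refine ⟨hNP hx, ?_⟩
    have e : (QuotientGroup.mk (⟨x, hNP hx⟩ : P) : ↥P ⧸ N.subgroupOf P) = 1 := by
      rw [QuotientGroup.eq_one_iff, Subgroup.mem_subgroupOf]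
      exact hx
    rw [e]
    exact Subgroup.one_mem _
  have hFn : F.Normal := by
    constructor
    intro f hf g
    rw [hFmem] at hf ⊢
    obtain ⟨hfP, hf'⟩ := hf
    refine ⟨hP.conj_mem f hfP g, ?_⟩
    have h := (frattini_characteristic (G := ↥P ⧸ N.subgroupOf P)).fixed
      (Cfsg.Agent.S4218.theta N P g)
    have hf'' := hf'
    rw [← h] at hf''
    have h5 : Cfsg.Agent.S4218.theta N P g (QuotientGroup.mk (⟨f, hfP⟩ : P))
        ∈ frattini (↥P ⧸ N.subgroupOf P) := hf''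
    rw [Cfsg.Agent.S4218.theta_mk] at h5
    have e : MulAut.conjNormal g (⟨f, hfP⟩ : P) = ⟨g * f * g⁻¹, hP.conj_mem f hfP g⟩ := by
      apply Subtype.ext
      rw [MulAut.conjNormal_apply]
    rw [e] at h5
    exact h5
  exact key3_aux hexp F P (fun x hx => hNF (h1 x hx)) hgen h3

/-- `p = 3`: every element of order dividing `3` lies in `O_{3',3}`. -/
theorem key3' {G : Type*} [Group G] [Finite G] [Group.IsSolvable G] (hexp : ∀ x : G, x ^ 6 = 1) :
    ∀ y : G, y ^ 3 = 1 → y ∈ Cfsg.pPrimePCore 3 G := by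
  have h3' : Fact (Nat.Prime 3) := ⟨Nat.prime_three⟩
  have hπ : Function.Surjective (QuotientGroup.mk' (Cfsg.pPrimeCore 3 G)) :=
    QuotientGroup.mk'_surjective _
  have hP1 : ∀ x : G, x ∈ Cfsg.pPrimePCore 3 G ↔
      QuotientGroup.mk' (Cfsg.pPrimeCore 3 G) x ∈ Cfsg.pCore 3 (G ⧸ Cfsg.pPrimeCore 3 G) :=
    fun x => Iff.rfl
  have hPn : (Cfsg.pPrimePCore 3 G).Normal :=
    Subgroup.Normal.comap (Cfsg.pCore_normal 3 (G ⧸ Cfsg.pPrimeCore 3 G)) _
  have hHp : IsPGroup 3 (Cfsg.pCore 3 (G ⧸ Cfsg.pPrimeCore 3 G)) :=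
    Cfsg.Agent.Lib.Helper55.pCore_isPGroup 3 _
  have hexpQ : ∀ q : G ⧸ Cfsg.pPrimeCore 3 G, q ^ 6 = 1 := by
    intro q
    induction q using QuotientGroup.induction_on with
    | H g =>
      have e : ((g ^ 6 : G) : G ⧸ Cfsg.pPrimeCore 3 G) = 1 := by
        rw [hexp]; rfl
      exact e
  have hcent : Subgroup.centralizer
      (Cfsg.pCore 3 (G ⧸ Cfsg.pPrimeCore 3 G) : Set (G ⧸ Cfsg.pPrimeCore 3 G))
      ≤ Cfsg.pCore 3 (G ⧸ Cfsg.pPrimeCore 3 G) :=
    Cfsg.Agent.Lib.Helper55.centralizer_pCore_le (fun N hN hc =>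
      Cfsg.Agent.Lib.Helper55.eq_bot_of_normal_coprime_quotient 3 G N hN hc)
  refine key3 hexp (Cfsg.pPrimeCore 3 G) (Cfsg.pPrimePCore 3 G) ?_ ?_ ?_ ?_
  · intro x hx
    rw [hP1]
    have e : QuotientGroup.mk' (Cfsg.pPrimeCore 3 G) x = 1 := (QuotientGroup.eq_one_iff _).mpr hx
    rw [e]
    exact Subgroup.one_mem _
  · intro x hx
    obtain ⟨k, hk⟩ := hHp ⟨_, (hP1 x).mp hx⟩
    have hk' := congrArg Subtype.val hk
    rw [Subgroup.coe_pow, Subgroup.coe_one] at hk'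
    have h5 := pow_prime_of_pow hexpQ 3 Nat.prime_three (by norm_num) _ k hk'
    rw [← map_pow] at h5
    exact (QuotientGroup.eq_one_iff _).mp h5
  · intro g' hg'
    rw [hP1]
    apply hcent
    rw [Subgroup.mem_centralizer_iff]
    intro h hh
    obtain ⟨x, rfl⟩ := hπ h
    have hx : x ∈ Cfsg.pPrimePCore 3 G := (hP1 x).mpr hh
    have h5 := hg' x hx
    have h6 : QuotientGroup.mk' (Cfsg.pPrimeCore 3 G) (g' * x * g'⁻¹ * x⁻¹) = 1 :=
      (QuotientGroup.eq_one_iff _).mpr h5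
    rw [map_mul, map_mul, map_mul, map_inv, map_inv] at h6
    have h7 := mul_inv_eq_one.mp h6
    have h8 := mul_inv_eq_iff_eq_mul.mp h7
    exact h8.symm
  · intro C hCn hC
    have hmap : C.map (QuotientGroup.mk' (Cfsg.pPrimeCore 3 G)) ≤
        Cfsg.pCore 3 (G ⧸ Cfsg.pPrimeCore 3 G) := by
      apply Cfsg.Agent.Lib.Helper55.le_pCore (hCn.map _ hπ)
      rintro ⟨y, hy⟩
      obtain ⟨c, hc, rfl⟩ := Subgroup.mem_map.mp hy
      obtain ⟨k, hk⟩ := hC c hc
      obtain ⟨l, hl⟩ := hHp ⟨_, (hP1 _).mp hk⟩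
      refine ⟨k + l, ?_⟩
      apply Subtype.ext
      have hl' := congrArg Subtype.val hl
      rw [Subgroup.coe_pow, Subgroup.coe_one] at hl'
      rw [Subgroup.coe_pow, Subgroup.coe_one, pow_add, pow_mul, ← map_pow]
      exact hl'
    intro c hc
    rw [hP1]
    exact hmap (Subgroup.mem_map_of_mem _ hc)

/-- A group of exponent six is solvable (Burnside's `p^a q^b` theorem). -/
theorem solvable_of_exp6 {G : Type*} [Group G] [Finite G] (h : ∀ x : G, x ^ 6 = 1) :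
    Group.IsSolvable G := by
  have hcard : ∀ q : ℕ, q.Prime → q ∣ Nat.card G → q = 2 ∨ q = 3 := by
    intro q hq hdvd
    have : Fact q.Prime := ⟨hq⟩
    obtain ⟨x, hx⟩ := exists_prime_orderOf_dvd_card' q hdvd
    have h6 : q ∣ 6 := by
      rw [← hx]
      exact orderOf_dvd_of_pow_eq_one (h x)
    have hle : q ≤ 6 := Nat.le_of_dvd (by norm_num) h6
    have h2 := hq.two_le
    interval_cases q
    · left; rfl
    · right; rfl
    · exact absurd h6 (by norm_num)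
    · exact absurd h6 (by norm_num)
    · exact absurd hq (by norm_num)
  have hpos : Nat.card G ≠ 0 := Nat.card_pos.ne'
  obtain ⟨a, m, hm2, hm⟩ := Nat.exists_eq_pow_mul_and_not_dvd hpos 2 (by norm_num)
  have hm0 : m ≠ 0 := by
    rintro rfl
    rw [mul_zero] at hm
    exact hpos hm
  obtain ⟨b, m', hm3, hm'⟩ := Nat.exists_eq_pow_mul_and_not_dvd hm0 3 (by norm_num)
  have hm'1 : m' = 1 := by
    by_contra hne
    obtain ⟨q, hq, hqd⟩ := Nat.exists_prime_and_dvd hne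
    have hqm : q ∣ m := by
      rw [hm']
      exact dvd_mul_of_dvd_right hqd _
    have hqG : q ∣ Nat.card G := by
      rw [hm]
      exact dvd_mul_of_dvd_right hqm _
    rcases hcard q hq hqG with rfl | rfl
    · exact hm2 hqm
    · exact hm3 hqd
  have hc : Nat.card G = 2 ^ a * 3 ^ b := by
    rw [hm, hm', hm'1, mul_one]
  exact Cfsg.Agent.S0144.result 2 3 a b Nat.prime_two Nat.prime_three hc

/-- The candidate `p`-series `1 ≤ O_{p'} ≤ O_{p',p} ≤ G`. -/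
def W3 (p : ℕ) (G : Type*) [Group G] : ℕ → Subgroup G
  | 0 => ⊥
  | 1 => Cfsg.pPrimeCore p G
  | 2 => Cfsg.pPrimePCore p G
  | (_ + 3) => ⊤

theorem plength_of {G : Type*} [Group G] [Finite G] (p m : ℕ) [Fact p.Prime] (hm : m.Coprime p)
    (h : ∀ x : G, x ^ m ∈ Cfsg.pPrimePCore p G) : Cfsg.PLengthLE p 1 G := by
  have hPn : (Cfsg.pPrimePCore p G).Normal :=
    Subgroup.Normal.comap (Cfsg.pCore_normal p (G ⧸ Cfsg.pPrimeCore p G)) _
  have hHp : IsPGroup p (Cfsg.pCore p (G ⧸ Cfsg.pPrimeCore p G)) :=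
    Cfsg.Agent.Lib.Helper55.pCore_isPGroup p _
  have hs : Cfsg.Agent.Lib.Helper63.IsPSeries p (W3 p G) :=
    { zero := rfl
      normal := by
        intro n
        match n with
        | 0 => exact (inferInstance : (⊥ : Subgroup G).Normal)
        | 1 => exact (inferInstance : (Cfsg.pPrimeCore p G).Normal)
        | 2 => exact hPn
        | (k + 3) => exact (inferInstance : (⊤ : Subgroup G).Normal)
      even := by
        intro n hn x hx
        match n, hn, hx with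
        | 0, _, hx =>
          have hx' : x ∈ Cfsg.pPrimeCore p G := hx
          obtain ⟨m', hm', hxm⟩ := Cfsg.Agent.Lib.Helper63.exists_coprime_pow_eq_one
            (Cfsg.pPrimeCore p G) (Cfsg.Agent.Lib.Helper63.card_pPrimeCore_coprime' p G) hx'
          refine ⟨m', hm', ?_⟩
          show x ^ m' ∈ (⊥ : Subgroup G)
          rw [hxm]
          exact Subgroup.one_mem _
        | 1, hn, _ => exact absurd hn (by decide)
        | 2, _, _ => exact ⟨m, hm, h x⟩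
        | (k + 3), _, _ => exact ⟨1, Nat.coprime_one_left p, Subgroup.mem_top _⟩
      odd := by
        intro n hn x hx
        match n, hn, hx with
        | 0, hn, _ => exact absurd (by decide : Even 0) hn
        | 1, _, hx =>
          have hx' : QuotientGroup.mk' (Cfsg.pPrimeCore p G) x
              ∈ Cfsg.pCore p (G ⧸ Cfsg.pPrimeCore p G) := hx
          obtain ⟨k, hk⟩ := hHp ⟨_, hx'⟩
          have hk' := congrArg Subtype.val hk
          rw [Subgroup.coe_pow, Subgroup.coe_one, ← map_pow] at hk'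
          have hmem : x ^ p ^ k ∈ Cfsg.pPrimeCore p G := (QuotientGroup.eq_one_iff _).mp hk'
          exact ⟨k, hmem⟩
        | 2, hn, _ => exact absurd (by decide : Even 2) hn
        | (k + 3), _, _ => exact ⟨0, Subgroup.mem_top _⟩ }
  exact Cfsg.Agent.Lib.Helper63.plengthLE_of_series hs (k := 1) rfl

/-- A finite group in which every element has order dividing `6` has `2`-length at most `1` and `3`-length at most `1`. -/
theorem result {G : Type*} [Group G] [Finite G] (h : ∀ x : G, x ^ 6 = 1) : Cfsg.PLengthLE 2 1 G ∧ Cfsg.PLengthLE 3 1 G := by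
  have hsolv : Group.IsSolvable G := solvable_of_exp6 h
  have h2 : Fact (Nat.Prime 2) := ⟨Nat.prime_two⟩
  have h3 : Fact (Nat.Prime 3) := ⟨Nat.prime_three⟩
  constructor
  · exact plength_of 2 3 (by norm_num) (key2 h)
  · refine plength_of 3 2 (by norm_num) (fun x => key3' h (x ^ 2) ?_)
    rw [← pow_mul]
    exact h x

end Cfsg.Agent.S4227
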