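import Mathlib
import Cfsg.Statements.S4230

set_option autoImplicit false
open Cfsg

namespace Cfsg.Agent.S4230

/-- Let p be an odd prime, q a natural number not divisible by p, and e the multiplicative order of q modulo p. For a natural number f, p divides the value at q of the f-th cyclotomic polynomial if and only if f = e·p^j for some j ≥ 0. -/
theorem result (p q f : ℕ) (hp : p.Prime) (hp2 : p ≠ 2) (hpq : ¬ p ∣ q) :
    ((p : ℤ) ∣ (Polynomial.cyclotomic f ℤ).eval (q : ℤ)) ↔ ∃ j : ℕ, f = orderOf (q : ZMod p) * p ^ j := by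
  have : Fact p.Prime := ⟨hp⟩
  have hq0 : (q : ZMod p) ≠ 0 := by
    rw [Ne, ZMod.natCast_eq_zero_iff]
    exact hpq
  have he_dvd : orderOf (q : ZMod p) ∣ p - 1 := ZMod.orderOf_dvd_card_sub_one hq0
  have hp1 : 0 < p - 1 := by have := hp.two_le; omega
  have he_pos : 0 < orderOf (q : ZMod p) := Nat.pos_of_dvd_of_pos he_dvd hp1
  have he_ndvd : ¬ p ∣ orderOf (q : ZMod p) := by
    intro h
    have := Nat.le_of_dvd hp1 (h.trans he_dvd)
    omega
  rcases Nat.eq_zero_or_pos f with hf | hf
  · subst hf
    simp only [Polynomial.cyclotomic_zero, Polynomial.eval_one]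
    constructor
    · intro h
      have h1 : (p : ℤ) ≤ 1 := Int.le_of_dvd one_pos h
      have := hp.two_le
      omega
    · rintro ⟨j, hj⟩
      have : 0 < orderOf (q : ZMod p) * p ^ j := Nat.mul_pos he_pos (pow_pos hp.pos j)
      omega
  · obtain ⟨k, m, hm, hfm⟩ := Nat.exists_eq_pow_mul_and_not_dvd hf.ne' p hp.ne_one
    have hm0 : (m : ZMod p) ≠ 0 := by
      rw [Ne, ZMod.natCast_eq_zero_iff]
      exact hm
    have : NeZero (m : ZMod p) := ⟨hm0⟩
    have hmpos : 0 < m := by
      rcases Nat.eq_zero_or_pos m with h | h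
      · exfalso; apply hm; rw [h]; exact dvd_zero p
      · exact h
    have step1 : ((p : ℤ) ∣ (Polynomial.cyclotomic f ℤ).eval (q : ℤ)) ↔
        (Polynomial.cyclotomic f (ZMod p)).IsRoot (q : ZMod p) := by
      rw [← ZMod.intCast_zmod_eq_zero_iff_dvd, Polynomial.IsRoot.def]
      have := Polynomial.cyclotomic.eval_apply (q : ℤ) f (Int.castRingHom (ZMod p))
      simp only [eq_intCast, Int.cast_natCast] at this
      rw [this]
    have step2 : (Polynomial.cyclotomic f (ZMod p)).IsRoot (q : ZMod p) ↔
        IsPrimitiveRoot (q : ZMod p) m := by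
      rw [hfm]
      exact Polynomial.isRoot_cyclotomic_prime_pow_mul_iff_of_charP
    have step3 : IsPrimitiveRoot (q : ZMod p) m ↔ orderOf (q : ZMod p) = m := by
      constructor
      · intro h
        exact h.eq_orderOf.symm
      · intro h
        rw [← h]
        exact IsPrimitiveRoot.orderOf _
    rw [step1, step2, step3]
    constructor
    · intro h
      exact ⟨k, by rw [hfm, h, mul_comm]⟩
    · rintro ⟨j, hj⟩
      rw [hfm] at hj
      -- p^k * m = e * p^j with p ∤ m, p ∤ e
      have hcop1 : Nat.Coprime m (p ^ j) := Nat.Coprime.pow_right j ((Nat.Prime.coprime_iff_not_dvd hp).mpr hm).symm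
      have hcop2 : Nat.Coprime (orderOf (q : ZMod p)) (p ^ k) :=
        Nat.Coprime.pow_right k ((Nat.Prime.coprime_iff_not_dvd hp).mpr he_ndvd).symm
      have h1 : m ∣ orderOf (q : ZMod p) := by
        apply hcop1.dvd_of_dvd_mul_right
        rw [← hj]
        exact dvd_mul_left m (p ^ k)
      have h2 : orderOf (q : ZMod p) ∣ m := by
        apply hcop2.dvd_of_dvd_mul_left
        rw [hj]
        exact dvd_mul_right _ _
      exact Nat.dvd_antisymm h2 h1

end Cfsg.Agent.S4230
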