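import Mathlib
import Cfsg.Statements.S4231
import Cfsg.Agent.S2119

set_option autoImplicit false
open Cfsg

namespace Cfsg.Agent.S4231

open Equiv Equiv.Perm
open scoped commutatorElement

/-- a `q`-subgroup of the symmetric group of degree `n < q ^ 2` is abelian -/
theorem comm_of_pgroup {n q : ℕ} [hq : Fact q.Prime] (hn : n < q ^ 2) (Q : Subgroup (Perm (Fin n)))
    (hQ : IsPGroup q Q) : ∀ σ ∈ Q, ∀ τ ∈ Q, σ * τ = τ * σ := by
  have hcomm : ∀ x : Fin n, commutator Q ≤ MulAction.stabilizer Q x := by
    intro x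
    obtain ⟨k, hk⟩ := IsPGroup.iff_card.mp hQ
    have hidx : (MulAction.stabilizer Q x).index ∣ q ^ k := by
      rw [← hk]; exact Subgroup.index_dvd_card _
    obtain ⟨j, hjk, hj⟩ := (Nat.dvd_prime_pow hq.1).mp hidx
    have hle : (MulAction.stabilizer Q x).index ≤ n := by
      rw [MulAction.index_stabilizer]
      calc (MulAction.orbit Q x).ncard ≤ Nat.card (Fin n) := Set.ncard_le_card _
        _ = n := by simp
    have hj1 : j ≤ 1 := by
      by_contra hcon
      have h2 : 2 ≤ j := by omega
      have h3 : q ^ 2 ≤ q ^ j := Nat.pow_le_pow_right hq.1.pos h2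
      omega
    interval_cases j
    · rw [pow_zero, Subgroup.index_eq_one] at hj
      rw [hj]; exact le_top
    · rw [pow_one] at hj
      have hk0 : k ≠ 0 := by
        rintro rfl
        rw [pow_zero, hj] at hidx
        exact hq.1.one_lt.ne' (Nat.dvd_one.mp hidx)
      have hnorm : (MulAction.stabilizer Q x).Normal := by
        apply Subgroup.normal_of_index_eq_minFac_card
        rw [hj, hk, Nat.pow_minFac hk0, hq.1.minFac_eq]
      have hcard : Nat.card (Q ⧸ MulAction.stabilizer Q x) = q := by
        rw [← Subgroup.index_eq_card]; exact hj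
      have hcyc : IsCyclic (Q ⧸ MulAction.stabilizer Q x) := isCyclic_of_prime_card hcard
      exact Subgroup.Normal.quotient_commutative_iff_commutator_le.mp inferInstance
  intro σ hσ τ hτ
  have h1 : ⁅(⟨σ, hσ⟩ : Q), (⟨τ, hτ⟩ : Q)⁆ = 1 := by
    apply Subtype.ext
    apply Perm.ext
    intro x
    have hmem : ⁅(⟨σ, hσ⟩ : Q), (⟨τ, hτ⟩ : Q)⁆ ∈ commutator Q :=
      Subgroup.commutator_mem_commutator (Subgroup.mem_top _) (Subgroup.mem_top _)
    have := hcomm x hmem
    rw [MulAction.mem_stabilizer_iff] at this
    exact this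
  have h2 := commutatorElement_eq_one_iff_mul_comm.mp h1
  exact congrArg Subtype.val h2


/-- conjugation by a nonidentity permutation is a nontrivial automorphism of the alternating group -/
theorem conjNormal_injective {α : Type*} [Fintype α] [DecidableEq α] (h4 : 4 ≤ Fintype.card α) :
    Function.Injective (MulAut.conjNormal : Perm α →* MulAut (alternatingGroup α)) := by
  rw [injective_iff_map_eq_one]
  intro σ hσ
  ext i
  by_contra hi
  rw [Perm.one_apply] at hi
  have hcard : 2 ≤ (Finset.univ \ {i, σ i} : Finset α).card := by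
    have h1 : ((Finset.univ : Finset α) \ {i, σ i}).card
        = Fintype.card α - ({i, σ i} : Finset α).card := Finset.card_univ_sdiff _
    have h2 : ({i, σ i} : Finset α).card ≤ 2 := Finset.card_le_two
    omega
  obtain ⟨k, hk, l, hl, hkl⟩ := Finset.one_lt_card.1 hcard
  simp only [Finset.mem_sdiff, Finset.mem_univ, Finset.mem_insert, Finset.mem_singleton,
    true_and, not_or] at hk hl
  have ht : Cfsg.Agent.S2119.cyc (σ i) k l ∈ alternatingGroup α :=
    (Cfsg.Agent.S2119.cyc_isThreeCycle (Ne.symm hk.2) (Ne.symm hl.2) hkl).mem_alternatingGroup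
  have h1 := congrArg (fun f : MulAut (alternatingGroup α) =>
    ((f ⟨Cfsg.Agent.S2119.cyc (σ i) k l, ht⟩ : alternatingGroup α) : Perm α)) hσ
  simp only [MulAut.conjNormal_apply, MulAut.one_apply] at h1
  rw [mul_inv_eq_iff_eq_mul] at h1
  have h2 := congrArg (fun f : Perm α => f i) h1
  simp only [Perm.mul_apply] at h2
  rw [Cfsg.Agent.S2119.cyc_apply_of_ne (Ne.symm hi) (Ne.symm hk.1) (Ne.symm hl.1),
    Cfsg.Agent.S2119.cyc_apply_fst (Ne.symm hk.2) (Ne.symm hl.2)] at h2
  exact hk.2 h2.symm

/-- a Sylow subgroup consisting of automorphisms preserving 3-cycles is abelian when `n < q ^ 2` -/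
theorem sylow_comm {n q : ℕ} [Fact q.Prime] (hn4 : 4 ≤ n) (hn : n < q ^ 2)
    (G : Subgroup (MulAut (alternatingGroup (Fin n)))) (Q : Sylow q G)
    (h3 : ∀ φ ∈ (Q : Subgroup G), ∀ g : alternatingGroup (Fin n), IsThreeCycle (g : Perm (Fin n)) →
      IsThreeCycle (((φ : G) : MulAut (alternatingGroup (Fin n))) g : Perm (Fin n))) :
    IsMulCommutative (Q : Subgroup G) := by
  have hc : Function.Injective
      (MulAut.conjNormal : Perm (Fin n) →* MulAut (alternatingGroup (Fin n))) :=
    conjNormal_injective (by simpa using hn4)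
  have hex : ∀ φ ∈ (Q : Subgroup G), ∃ σ : Perm (Fin n),
      (MulAut.conjNormal σ : MulAut (alternatingGroup (Fin n))) = ((φ : G) : MulAut _) := by
    intro φ hφ
    obtain ⟨σ, hσ⟩ := Cfsg.Agent.S2119.exists_conj (by simpa using hn4)
      ((φ : G) : MulAut (alternatingGroup (Fin n))) (h3 φ hφ)
    refine ⟨σ, ?_⟩
    apply MulEquiv.ext
    intro g
    apply Subtype.ext
    rw [MulAut.conjNormal_apply, hσ]
  let Q' : Subgroup (Perm (Fin n)) := (((Q : Subgroup G).map G.subtype)).comap
    (MulAut.conjNormal : Perm (Fin n) →* MulAut (alternatingGroup (Fin n)))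
  have hQ' : IsPGroup q Q' := by
    rintro ⟨σ, hσ⟩
    obtain ⟨φ, hφ, hφσ⟩ := Subgroup.mem_map.mp (Subgroup.mem_comap.mp hσ)
    obtain ⟨k, hk⟩ := Q.2 ⟨φ, hφ⟩
    refine ⟨k, ?_⟩
    apply Subtype.ext
    apply hc
    have h1 : ((φ : G) : MulAut (alternatingGroup (Fin n))) ^ q ^ k = 1 := by
      have := congrArg (fun x : (Q : Subgroup G) => ((x : G) : MulAut (alternatingGroup (Fin n)))) hk
      simpa using this
    simp only [Subgroup.coe_pow, Subgroup.coe_one, map_pow, map_one]
    rw [← h1, ← hφσ]
    rfl
  refine ⟨⟨fun a b => ?_⟩⟩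
  obtain ⟨σ, hσ⟩ := hex a a.2
  obtain ⟨τ, hτ⟩ := hex b b.2
  have hσQ : σ ∈ Q' := Subgroup.mem_comap.mpr (Subgroup.mem_map.mpr ⟨a, a.2, hσ.symm⟩)
  have hτQ : τ ∈ Q' := Subgroup.mem_comap.mpr (Subgroup.mem_map.mpr ⟨b, b.2, hτ.symm⟩)
  have hcomm := comm_of_pgroup hn Q' hQ' σ hσQ τ hτQ
  apply Subtype.ext
  apply Subtype.ext
  have h1 : ((a : G) : MulAut (alternatingGroup (Fin n))) * ((b : G) : MulAut _)
      = ((b : G) : MulAut _) * ((a : G) : MulAut _) := by
    rw [← hσ, ← hτ, ← map_mul, ← map_mul, hcomm]
  simpa using h1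

section six

/-- in `A₆`, an element of order three is a 3-cycle or a product of two 3-cycles -/
theorem order_three_six (g : alternatingGroup (Fin 6)) (hg : orderOf g = 3) :
    (g : Perm (Fin 6)).cycleType = {3} ∨ (g : Perm (Fin 6)).cycleType = {3, 3} := by
  have ho : orderOf (g : Perm (Fin 6)) = 3 := by rw [Subgroup.orderOf_coe, hg]
  have hct := Cfsg.Agent.S2119.cycleType_of_order_three ho
  have hsum : (g : Perm (Fin 6)).cycleType.sum ≤ 6 := by
    have := (g : Perm (Fin 6)).support.card_le_univ
    rw [← sum_cycleType] at this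
    simpa using this
  obtain ⟨k, hk⟩ : ∃ k, k = Multiset.card (g : Perm (Fin 6)).cycleType := ⟨_, rfl⟩
  rw [← hk] at hct
  rw [hct] at hsum
  simp only [Multiset.sum_replicate, smul_eq_mul] at hsum
  have hk0 : k ≠ 0 := by
    rintro rfl
    rw [Multiset.replicate_zero, cycleType_eq_zero] at hct
    rw [hct] at ho
    simp at ho
  have hk12 : k = 1 ∨ k = 2 := by omega
  rcases hk12 with rfl | rfl
  · left; rw [hct]; rfl
  · right; rw [hct]; rfl

theorem card_type_three : (Finset.univ.filter (fun g : alternatingGroup (Fin 6) =>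
    (g : Perm (Fin 6)).cycleType = {3})).card = 40 := by
  rw [AlternatingGroup.card_of_cycleType]
  decide

theorem card_type_three_three : (Finset.univ.filter (fun g : alternatingGroup (Fin 6) =>
    (g : Perm (Fin 6)).cycleType = {3, 3})).card = 40 := by
  rw [AlternatingGroup.card_of_cycleType]
  decide


/-- the image of a 3-cycle under an automorphism of `A₆` has a cycle type not depending on the
3-cycle -/
theorem type_const (ψ : MulAut (alternatingGroup (Fin 6))) (g₀ g : alternatingGroup (Fin 6))
    (hg₀ : IsThreeCycle (g₀ : Perm (Fin 6))) (hg : IsThreeCycle (g : Perm (Fin 6))) :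
    (ψ g : Perm (Fin 6)).cycleType = (ψ g₀ : Perm (Fin 6)).cycleType := by
  have hconj : IsConj g₀ g := alternatingGroup.isThreeCycle_isConj (by simp) hg₀ hg
  obtain ⟨c, hc⟩ := isConj_iff.mp hconj
  rw [← hc, map_mul, map_mul, map_inv]
  simp only [Subgroup.coe_mul, InvMemClass.coe_inv]
  exact cycleType_conj

/-- an automorphism of odd order of `A₆` maps 3-cycles to 3-cycles -/
theorem odd_preserves (φ : MulAut (alternatingGroup (Fin 6))) (hodd : Odd (orderOf φ)) :
    ∀ g : alternatingGroup (Fin 6), IsThreeCycle (g : Perm (Fin 6)) →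
      IsThreeCycle (φ g : Perm (Fin 6)) := by
  classical
  -- a fixed 3-cycle
  have hg₀ : IsThreeCycle (Cfsg.Agent.S2119.cyc (0 : Fin 6) 1 2) :=
    Cfsg.Agent.S2119.cyc_isThreeCycle (by decide) (by decide) (by decide)
  set g₀ : alternatingGroup (Fin 6) := ⟨Cfsg.Agent.S2119.cyc (0 : Fin 6) 1 2,
    hg₀.mem_alternatingGroup⟩ with hg₀def
  have hg₀' : IsThreeCycle (g₀ : Perm (Fin 6)) := hg₀
  have ho₀ : orderOf g₀ = 3 := by
    rw [← Subgroup.orderOf_coe]
    exact hg₀.orderOf
  have ho : orderOf (φ g₀) = 3 := by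
    rw [MulEquiv.orderOf_eq, ho₀]
  rcases order_three_six (φ g₀) ho with h1 | h2
  · intro g hg
    show (φ g : Perm (Fin 6)).cycleType = {3}
    rw [type_const φ g₀ g hg₀' hg, h1]
  · exfalso
    -- φ maps 3-cycles to double 3-cycles
    have hW : ∀ g : alternatingGroup (Fin 6), IsThreeCycle (g : Perm (Fin 6)) →
        (φ g : Perm (Fin 6)).cycleType = {3, 3} := by
      intro g hg
      rw [type_const φ g₀ g hg₀' hg, h2]
    have himg : (Finset.univ.filter (fun g : alternatingGroup (Fin 6) =>
        (g : Perm (Fin 6)).cycleType = {3})).image (fun g => φ g)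
        = Finset.univ.filter (fun g : alternatingGroup (Fin 6) =>
          (g : Perm (Fin 6)).cycleType = {3, 3}) := by
      apply Finset.eq_of_subset_of_card_le
      · intro x hx
        obtain ⟨g, hg, rfl⟩ := Finset.mem_image.mp hx
        simp only [Finset.mem_filter, Finset.mem_univ, true_and] at hg ⊢
        exact hW g hg
      · rw [Finset.card_image_of_injective _ φ.injective, card_type_three, card_type_three_three]
    -- φ maps double 3-cycles to 3-cycles
    have hW2 : ∀ d : alternatingGroup (Fin 6), (d : Perm (Fin 6)).cycleType = {3, 3} →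
        IsThreeCycle (φ d : Perm (Fin 6)) := by
      intro d hd
      have hod : orderOf d = 3 := by
        rw [← Subgroup.orderOf_coe, ← lcm_cycleType, hd]
        rfl
      have hoφd : orderOf (φ d) = 3 := by
        rw [MulEquiv.orderOf_eq, hod]
      rcases order_three_six (φ d) hoφd with h | h
      · exact h
      · exfalso
        have hmem : φ d ∈ Finset.univ.filter (fun g : alternatingGroup (Fin 6) =>
            (g : Perm (Fin 6)).cycleType = {3, 3}) := by
          simp only [Finset.mem_filter, Finset.mem_univ, true_and]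
          exact h
        rw [← himg] at hmem
        obtain ⟨g, hg, hgd⟩ := Finset.mem_image.mp hmem
        simp only [Finset.mem_filter, Finset.mem_univ, true_and] at hg
        have hgd' : g = d := φ.injective hgd
        rw [hgd', hd] at hg
        revert hg
        decide
    -- even powers preserve 3-cycles
    have hpow : ∀ j : ℕ, ∀ g : alternatingGroup (Fin 6), IsThreeCycle (g : Perm (Fin 6)) →
        IsThreeCycle ((φ ^ (2 * j)) g : Perm (Fin 6)) := by
      intro j
      induction j with
      | zero =>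
        intro g hg
        simpa using hg
      | succ j ih =>
        intro g hg
        have e : φ ^ (2 * (j + 1)) = φ ^ (2 * j) * (φ * φ) := by
          rw [mul_add, pow_add, mul_one, pow_two]
        rw [e, MulAut.mul_apply, MulAut.mul_apply]
        exact ih _ (hW2 _ (hW g hg))
    obtain ⟨m, hm⟩ := hodd
    have hφ : φ ^ (2 * (m + 1)) = φ := by
      have e : 2 * (m + 1) = (2 * m + 1) + 1 := by ring
      rw [e, pow_succ, ← hm, pow_orderOf_eq_one, one_mul]
    have h3 := hpow (m + 1) g₀ hg₀'
    rw [hφ] at h3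
    have h4 : (φ g₀ : Perm (Fin 6)).cycleType = {3} := h3
    rw [h2] at h4
    revert h4
    decide

end six

/-- an element of order `p * q` in a large alternating group -/
theorem exists_order {n p q : ℕ} (hp : p.Prime) (hq : q.Prime) (hlt : p < q) (hn : q ^ 2 ≤ n) :
    ∃ g : alternatingGroup (Fin n), orderOf g = p * q := by
  have hq3 : 3 ≤ q := by
    have := hp.two_le
    omega
  have hqodd : Odd q := hq.odd_of_ne_two (by omega)
  have hcop : Nat.Coprime p q := (Nat.coprime_primes hp hq).mpr (by omega)
  by_cases hp2 : p = 2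
  · subst hp2
    have hex := (Equiv.Perm.exists_with_cycleType_iff (Fin n) (m := {2, 2, q})).mpr ⟨by
      simp only [Multiset.insert_eq_cons, Multiset.sum_cons, Multiset.sum_singleton,
        Fintype.card_fin]
      nlinarith, by
      intro a ha
      simp only [Multiset.insert_eq_cons, Multiset.mem_cons, Multiset.mem_singleton] at ha
      omega⟩
    obtain ⟨g, hg⟩ := hex
    have hsign : Perm.sign g = 1 := by
      rw [sign_of_cycleType, hg]
      apply Even.neg_one_pow
      simp only [Multiset.insert_eq_cons, Multiset.sum_cons, Multiset.sum_singleton,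
        Multiset.card_cons, Multiset.card_singleton]
      obtain ⟨k, hk⟩ := hqodd
      exact ⟨k + 4, by omega⟩
    refine ⟨⟨g, mem_alternatingGroup.mpr hsign⟩, ?_⟩
    rw [Subgroup.orderOf_mk, ← lcm_cycleType, hg]
    simp only [Multiset.insert_eq_cons, Multiset.lcm_cons, Multiset.lcm_singleton]
    rw [normalize_eq, lcm_eq_nat_lcm, lcm_eq_nat_lcm, hcop.lcm_eq_mul]
    exact Nat.lcm_eq_right (Dvd.intro _ rfl)
  · have hpodd : Odd p := hp.odd_of_ne_two hp2
    have hex := (Equiv.Perm.exists_with_cycleType_iff (Fin n) (m := {p, q})).mpr ⟨by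
      simp only [Multiset.insert_eq_cons, Multiset.sum_cons, Multiset.sum_singleton,
        Fintype.card_fin]
      nlinarith, by
      intro a ha
      simp only [Multiset.insert_eq_cons, Multiset.mem_cons, Multiset.mem_singleton] at ha
      have := hp.two_le
      omega⟩
    obtain ⟨g, hg⟩ := hex
    have hsign : Perm.sign g = 1 := by
      rw [sign_of_cycleType, hg]
      apply Even.neg_one_pow
      simp only [Multiset.insert_eq_cons, Multiset.sum_cons, Multiset.sum_singleton,
        Multiset.card_cons, Multiset.card_singleton]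
      obtain ⟨k, hk⟩ := hqodd
      obtain ⟨l, hl⟩ := hpodd
      exact ⟨k + l + 2, by omega⟩
    refine ⟨⟨g, mem_alternatingGroup.mpr hsign⟩, ?_⟩
    rw [Subgroup.orderOf_mk, ← lcm_cycleType, hg]
    simp only [Multiset.insert_eq_cons, Multiset.lcm_cons, Multiset.lcm_singleton]
    rw [normalize_eq, lcm_eq_nat_lcm, hcop.lcm_eq_mul]

/-- Let n ≥ 5 and let G be a group of automorphisms of the alternating group of degree n containing all inner automorphisms. If p ≠ q are primes and G has no element of order pq, then every Sylow p-subgroup of G is abelian or every Sylow q-subgroup of G is abelian. -/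
theorem result (n : ℕ) (hn : 5 ≤ n) (G : Subgroup (MulAut (alternatingGroup (Fin n))))
    (hG : (MulAut.conj : alternatingGroup (Fin n) →* MulAut (alternatingGroup (Fin n))).range ≤ G)
    (p q : ℕ) [Fact p.Prime] [Fact q.Prime] (hpq : p ≠ q) (h : ∀ g : G, orderOf g ≠ p * q) :
    (∀ P : Sylow p G, IsMulCommutative (P : Subgroup G)) ∨ (∀ Q : Sylow q G, IsMulCommutative (Q : Subgroup G)) := by
  wlog hlt : p < q generalizing p q
  · have hlt' : q < p := lt_of_le_of_ne (not_lt.mp hlt) (Ne.symm hpq)
    exact (this q p (Ne.symm hpq) (fun g => by rw [mul_comm]; exact h g) hlt').symm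
  right
  intro Q
  have hp : p.Prime := Fact.out
  have hq : q.Prime := Fact.out
  have hn4 : 4 ≤ n := by omega
  have hqodd : Odd q := hq.odd_of_ne_two (by have := hp.two_le; omega)
  have hnq : n < q ^ 2 := by
    by_contra hcon
    push Not at hcon
    obtain ⟨g, hg⟩ := exists_order hp hq hlt hcon
    have hinj : Function.Injective
        (MulAut.conj : alternatingGroup (Fin n) →* MulAut (alternatingGroup (Fin n))) := by
      rw [injective_iff_map_eq_one]
      intro a ha
      have hcen : a ∈ Subgroup.center (alternatingGroup (Fin n)) := by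
        rw [Subgroup.mem_center_iff]
        intro x
        have h1 := congrArg (fun f : MulAut (alternatingGroup (Fin n)) => f x) ha
        simp only [MulAut.conj_apply, MulAut.one_apply] at h1
        rw [mul_inv_eq_iff_eq_mul] at h1
        exact h1.symm
      rw [alternatingGroup.center_eq_bot (by simpa using hn4)] at hcen
      exact Subgroup.mem_bot.mp hcen
    have hmem : MulAut.conj g ∈ G := hG ⟨g, rfl⟩
    apply h ⟨MulAut.conj g, hmem⟩
    rw [Subgroup.orderOf_mk, orderOf_injective _ hinj, hg]
  apply sylow_comm hn4 hnq G Q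
  intro φ hφ g hg
  by_cases h6 : n = 6
  · subst h6
    refine odd_preserves _ ?_ g hg
    obtain ⟨k, hk⟩ := Q.2 ⟨φ, hφ⟩
    have h1 : ((φ : G) : MulAut (alternatingGroup (Fin 6))) ^ q ^ k = 1 := by
      have := congrArg (fun x : (Q : Subgroup G) => ((x : G) : MulAut (alternatingGroup (Fin 6)))) hk
      simpa using this
    exact Odd.of_dvd_nat (Odd.pow hqodd) (orderOf_dvd_of_pow_eq_one h1)
  · exact Cfsg.Agent.S2119.aut_threeCycle (by simpa using h6) _ g hg

end Cfsg.Agent.S4231
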