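import Cfsg.Statements.S4236
import Cfsg.Agent.Lib.Helper62.SylowNumber

set_option autoImplicit false
open Cfsg

namespace Cfsg.Agent.S4236

open Subgroup
open Cfsg.Agent.S4304 (centralizes_of_coprime sylow_card_eq_prime)
open Cfsg.Agent.Lib.Helper62.SylowNumber

universe u

theorem min_counter {G : Type u} [Group G] [Finite G] [Fact (Nat.Prime 17)]
    (hn : Nat.card (Sylow 17 G) = 35)
    (hmin : ∀ (H : Type u) [Group H] [Finite H], Nat.card H < Nat.card G →
      Nat.card (Sylow 17 H) ≠ 35) : False := by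
  classical
  let _ : Fintype (Sylow 17 G) := Fintype.ofFinite _
  obtain ⟨hM1, hinj, hTI, hPcard⟩ := min_package hn (by norm_num) (by norm_num) hmin
  set φ : G →* Equiv.Perm (Sylow 17 G) := MulAction.toPermHom G (Sylow 17 G) with hφ
  have hφapp : ∀ (g : G) (S : Sylow 17 G), φ g S = g • S := fun g S => rfl
  obtain P : Sylow 17 G := default
  have hP7 : Nat.card (P : Subgroup G) = 17 := hPcard P
  have hPne : (P : Subgroup G) ≠ ⊥ := by
    rw [← Subgroup.one_lt_card_iff_ne_bot, hP7]; norm_num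
  obtain ⟨g₀, hg₀P, hg₀1⟩ := (P : Subgroup G).bot_or_exists_ne_one.resolve_left hPne
  have hP_pow : ∀ g ∈ (P : Subgroup G), g ^ 17 = 1 := by
    intro g hg
    have := pow_card_eq_one' (G := (P : Subgroup G)) (x := ⟨g, hg⟩)
    rw [hP7] at this
    simpa using congrArg Subtype.val this
  have hord : orderOf g₀ = 17 := orderOf_eq_prime (hP_pow g₀ hg₀P) hg₀1
  have hzp : Subgroup.zpowers g₀ = (P : Subgroup G) := by
    apply Subgroup.eq_of_le_of_card_ge (Subgroup.zpowers_le.mpr hg₀P)
    rw [Nat.card_zpowers, hord, hP7]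
  set x := φ g₀ with hx
  have hx7 : x ^ 17 = 1 := by rw [hx, ← map_pow, hP_pow g₀ hg₀P, map_one]
  have hfix : ∀ S : Sylow 17 G, x S = S ↔ S = P := by
    intro S
    rw [hx, hφapp]
    exact smul_eq_iff_of_ti hTI P g₀ hg₀P hg₀1 S
  have hΩ : Fintype.card (Sylow 17 G) = 2 * 17 + 1 := by rw [← Nat.card_eq_fintype_card, hn]
  have hsign : ∀ b : G, Equiv.Perm.sign (φ b) = 1 := by
    have hPle : (P : Subgroup G) ≤ (Equiv.Perm.sign.comp φ).ker := by
      intro g hg
      rw [MonoidHom.mem_ker, MonoidHom.comp_apply]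
      have h7 : Equiv.Perm.sign (φ g) ^ 17 = 1 := by
        rw [← map_pow, ← map_pow, hP_pow g hg, map_one, map_one]
      have h2 : Equiv.Perm.sign (φ g) ^ 2 = 1 := Int.units_sq _
      have := Nat.eq_one_of_dvd_coprimes (by norm_num : Nat.Coprime 17 2)
        (orderOf_dvd_of_pow_eq_one h7) (orderOf_dvd_of_pow_eq_one h2)
      exact orderOf_eq_one_iff.mp this
    have htop := hM1 P (Equiv.Perm.sign.comp φ).ker hPle
    intro b
    have hb : b ∈ (Equiv.Perm.sign.comp φ).ker := htop ▸ Subgroup.mem_top b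
    exact hb
  have hC : ∀ b : G, Commute b g₀ → b ∈ (P : Subgroup G) := by
    intro b hb
    have hz : Commute (φ b) x := hb.map φ
    obtain ⟨h14, hs⟩ := perm_key (by norm_num : Nat.Prime 17) (by norm_num) hΩ x (φ b) P hx7 hfix hz
    have hb7 : b ^ 17 = 1 := by
      apply hinj
      rw [map_pow, map_one]
      by_contra hne
      have h1 := hs hne
      rw [← map_pow, hsign] at h1
      exact absurd h1 (by decide)
    have hcent : b ∈ centralizer ((P : Subgroup G) : Set G) := by
      rw [Subgroup.mem_centralizer_iff]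
      intro h hh
      have hh' : h ∈ Subgroup.zpowers g₀ := hzp ▸ hh
      obtain ⟨k, rfl⟩ := Subgroup.mem_zpowers_iff.mp hh'
      exact (hb.zpow_right k).eq.symm
    have hpg : IsPGroup 17 (Subgroup.zpowers b) := by
      intro g
      refine ⟨1, ?_⟩
      obtain ⟨k, hk⟩ := Subgroup.mem_zpowers_iff.mp g.2
      apply Subtype.ext
      rw [pow_one]
      simp only [Subgroup.coe_pow, Subgroup.coe_one]
      rw [← hk, ← zpow_natCast, ← zpow_mul, mul_comm, zpow_mul, zpow_natCast, hb7, one_zpow]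
    have h1 : b ∈ Subgroup.zpowers b ⊓ normalizer (P : Set G) :=
      ⟨Subgroup.mem_zpowers b, Subgroup.centralizer_le_normalizer _ hcent⟩
    rw [hpg.inf_normalizer_sylow P] at h1
    exact h1.2
  have hcentP : centralizer ((P : Subgroup G) : Set G) = P := by
    apply le_antisymm
    · intro b hb
      rw [Subgroup.mem_centralizer_iff] at hb
      exact hC b (hb g₀ hg₀P).symm
    · intro b hb
      rw [Subgroup.mem_centralizer_iff]
      intro h hh
      have hb' : b ∈ Subgroup.zpowers g₀ := hzp ▸ hb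
      have hh' : h ∈ Subgroup.zpowers g₀ := hzp ▸ hh
      obtain ⟨k, rfl⟩ := Subgroup.mem_zpowers_iff.mp hb'
      obtain ⟨l, rfl⟩ := Subgroup.mem_zpowers_iff.mp hh'
      exact ((Commute.refl g₀).zpow_zpow l k).eq
  set N := normalizer ((P : Subgroup G) : Set G) with hN
  have hcyc : IsCyclic (P : Subgroup G) := isCyclic_of_prime_card hP7
  have hAut : Nat.card (MulAut (P : Subgroup G)) = 16 := by
    rw [hcyc.card_mulAut, hP7, Nat.totient_prime (by norm_num)]
  have hkerψ : (P : Subgroup G).normalizerMonoidHom.ker = (P : Subgroup G).subgroupOf N := by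
    rw [Subgroup.normalizerMonoidHom_ker, hcentP]
  have he : ∃ e, e ∣ 16 ∧ Nat.card N = 17 * e := by
    refine ⟨(P : Subgroup G).normalizerMonoidHom.ker.index, ?_, ?_⟩
    · rw [Subgroup.index_ker, ← hAut]
      exact Subgroup.card_subgroup_dvd_card _
    · rw [← Subgroup.card_mul_index (P : Subgroup G).normalizerMonoidHom.ker, hkerψ,
        Nat.card_congr (Subgroup.subgroupOfEquivOfLe Subgroup.le_normalizer).toEquiv, hP7]
  obtain ⟨e, he6, hNe⟩ := he
  have hNidx : N.index = 35 := by rw [← hn]; exact (Sylow.card_eq_index_normalizer P).symm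
  have hG : Nat.card G = 595 * e := by
    have h1 := Subgroup.card_mul_index N
    rw [hNidx, hNe] at h1
    omega
  -- the normalizer has odd order: no involution in `N`
  have hodd : ¬ 2 ∣ Nat.card N := by
    intro h2
    obtain ⟨⟨u, hu⟩, hu2⟩ := exists_prime_orderOf_dvd_card' (G := N) 2 h2
    have hu2' : orderOf u = 2 := by
      rw [← hu2]; exact (Subgroup.orderOf_mk u hu).symm
    have husq : u ^ 2 = 1 := by rw [← hu2']; exact pow_orderOf_eq_one u
    have hu1 : u ≠ 1 := by
      rintro rfl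
      rw [orderOf_one] at hu2'
      omega
    -- involutions of N are not in P
    have hinvP : ∀ s : G, s ^ 2 = 1 → s ∈ (P : Subgroup G) → s = 1 := by
      intro s hs2 hsP
      have h17 := hP_pow s hsP
      have := Nat.eq_one_of_dvd_coprimes (by norm_num : Nat.Coprime 17 2)
        (orderOf_dvd_of_pow_eq_one h17) (orderOf_dvd_of_pow_eq_one hs2)
      exact orderOf_eq_one_iff.mp this
    set ψ := (P : Subgroup G).normalizerMonoidHom with hψ
    have hψne : ∀ (s : G) (hs : s ∈ N), s ^ 2 = 1 → s ≠ 1 → ψ ⟨s, hs⟩ ≠ 1 := by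
      intro s hs hs2 hs1 h
      have hmem : (⟨s, hs⟩ : N) ∈ ψ.ker := h
      rw [hψ, hkerψ, Subgroup.mem_subgroupOf] at hmem
      exact hs1 (hinvP s hs2 hmem)
    have hψsq : ∀ (s : G) (hs : s ∈ N), s ^ 2 = 1 → ψ ⟨s, hs⟩ ^ 2 = 1 := by
      intro s hs hs2
      rw [← map_pow]
      have : (⟨s, hs⟩ : N) ^ 2 = 1 := Subtype.ext (by simpa using hs2)
      rw [this, map_one]
    have key : ∀ (k : ℕ) (y : G) (h : y⁻¹ * u ^ k * y ∈ N),
        ψ ⟨y⁻¹ * u ^ k * y, h⟩ = ψ ⟨u, hu⟩ ^ k := by
      intro k y h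
      rcases Nat.even_or_odd k with ⟨m, rfl⟩ | ⟨m, rfl⟩
      · have hk1 : u ^ (m + m) = 1 := by rw [← two_mul, pow_mul, husq, one_pow]
        have e1 : (⟨y⁻¹ * u ^ (m + m) * y, h⟩ : N) = 1 := Subtype.ext (by simp [hk1])
        rw [e1, map_one, ← two_mul, pow_mul, hψsq u hu husq, one_pow]
      · have hk1 : u ^ (2 * m + 1) = u := by rw [pow_succ, pow_mul, husq, one_pow, one_mul]
        have hs : y⁻¹ * u * y ∈ N := by rw [← hk1]; exact h
        have e1 : (⟨y⁻¹ * u ^ (2 * m + 1) * y, h⟩ : N) = ⟨y⁻¹ * u * y, hs⟩ :=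
          Subtype.ext (by simp [hk1])
        have hs2 : (y⁻¹ * u * y) ^ 2 = 1 := by
          rw [pow_two]; simp only [mul_assoc, mul_inv_cancel_left]
          rw [← mul_assoc u u, ← pow_two, husq, one_mul, inv_mul_cancel]
        have hs1 : y⁻¹ * u * y ≠ 1 := by
          intro h1
          apply hu1
          have : u = y * (y⁻¹ * u * y) * y⁻¹ := by group
          rw [this, h1]; group
        rw [e1, pow_succ, pow_mul, hψsq u hu husq, one_pow, one_mul]
        exact mulAut_involution_unique (P : Subgroup G) hP7 _ _ (hψsq _ hs hs2) (hψsq u hu husq)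
          (hψne _ hs hs2 hs1) (hψne u hu husq hu1)
    have hfin := psi_pow_index_eq_one P hP7 (hM1 P) u hu key
    have hidx' : (normalizer ((P : Subgroup G) : Set G)).index = 35 := hNidx
    rw [hidx'] at hfin
    have : ψ ⟨u, hu⟩ = 1 := by
      have h35 : ψ ⟨u, hu⟩ ^ 35 = ψ ⟨u, hu⟩ := by
        rw [show 35 = 2 * 17 + 1 by norm_num, pow_succ, pow_mul, hψsq u hu husq, one_pow, one_mul]
      rw [← h35]; exact hfin
    exact hψne u hu husq hu1 this
  have he1 : e = 1 := by
    have hle : e ≤ 16 := Nat.le_of_dvd (by norm_num) he6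
    have hodd' : ¬ 2 ∣ e := fun h => hodd (by rw [hNe]; exact Dvd.dvd.mul_left h 17)
    obtain ⟨c, hc⟩ := he6
    interval_cases e <;> omega
  subst he1
  have hG' : Nat.card G = 595 := by omega
  -- Sylow 5
  have : Fact (Nat.Prime 5) := ⟨by norm_num⟩
  obtain Q : Sylow 5 G := default
  have hQ : Nat.card Q = 5 :=
    sylow_card_eq_prime Q (by rw [hG']; norm_num) (by rw [hG']; norm_num)
  have hn5 := card_sylow_modEq_one 5 G
  have hdvd := Sylow.card_dvd_index Q
  have hidx : (Q : Subgroup G).index = 119 := by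
    have h0 := Subgroup.card_mul_index (Q : Subgroup G)
    rw [hQ, hG'] at h0
    omega
  have hn5' : Nat.card (Sylow 5 G) = 1 := by
    rw [hidx] at hdvd
    have hle := Nat.le_of_dvd (by norm_num) hdvd
    obtain ⟨c, hc⟩ := hdvd
    have hmod : Nat.card (Sylow 5 G) % 5 = 1 := hn5
    generalize Nat.card (Sylow 5 G) = k at *
    interval_cases k <;> omega
  have hNtop : normalizer (Q : Set G) = ⊤ := by
    rw [← Subgroup.index_eq_one, ← Sylow.card_eq_index_normalizer, hn5']
  have hcent := centralizes_of_coprime (Q : Subgroup G) (by norm_num : Nat.Prime 5) hQ g₀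
    (hNtop ▸ Subgroup.mem_top g₀) (hP_pow g₀ hg₀P) (by norm_num)
  have hQP : (Q : Subgroup G) ≤ P := by
    intro h hh
    rw [Subgroup.mem_centralizer_iff] at hcent
    exact hC h (hcent h hh)
  have := Subgroup.card_dvd_of_le hQP
  rw [hQ, hP7] at this
  norm_num at this

/-- No finite group has exactly 35 Sylow 17-subgroups. -/
theorem result {G : Type*} [Group G] [Finite G] : Nat.card (Sylow 17 G) ≠ 35 := by
  have : Fact (Nat.Prime 17) := ⟨by norm_num⟩
  exact of_min_counter (fun G _ _ hn hmin => min_counter hn hmin) G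

end Cfsg.Agent.S4236
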