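import Mathlib
import Cfsg.Statements.S4237
import Cfsg.Agent.Lib.Helper69.HallCount

set_option autoImplicit false
open Cfsg

namespace Cfsg.Agent.S4237

open Cfsg.Agent.Lib.Helper69

/-- Let G be a finite group, p a prime and a a natural number such that p^(a+1) divides the order of G. Then the number of subgroups of G of order p^a is congruent to 1 or to 1 + p modulo p². -/
theorem result {G : Type*} [Group G] [Finite G] (p a : ℕ) (hp : p.Prime) (hdvd : p ^ (a + 1) ∣ Nat.card G) :
    Nat.card {H : Subgroup G // Nat.card H = p ^ a} ≡ 1 [MOD p ^ 2] ∨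
      Nat.card {H : Subgroup G // Nat.card H = p ^ a} ≡ 1 + p [MOD p ^ 2] := by
  haveI : Fact p.Prime := ⟨hp⟩
  by_cases hp2 : p = 2
  · subst hp2
    have h1 := Cfsg.Agent.Lib.Helper66.card_subgroups_pow_modEq_one (G := G) 2 a
      (Dvd.dvd.trans (pow_dvd_pow 2 (Nat.le_succ a)) hdvd)
    unfold Nat.ModEq at h1 ⊢
    omega
  · obtain ⟨P⟩ : Nonempty (Sylow p G) := inferInstance
    have h := card_ordSub_modEq_sylow P a hdvd
    have hPcard := P.card_eq_multiplicity
    have han : a + 1 ≤ (Nat.card G).factorization p :=
      (Nat.Prime.pow_dvd_iff_le_factorization hp Nat.card_pos.ne').mp hdvd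
    by_cases hc : IsCyclic (P : Subgroup G)
    · left
      haveI := hc
      have h1 : Nat.card (OrdSub (P : Subgroup G) (p ^ a)) = 1 :=
        card_ordSub_of_isCyclic p a (by rw [hPcard]; exact pow_dvd_pow p (by omega))
      rw [h1] at h
      exact h
    · by_cases ha0 : a = 0
      · left
        subst ha0
        have h1 : Nat.card {H : Subgroup G // Nat.card H = p ^ 0} = 1 := by
          rw [Nat.card_eq_one_iff_unique]
          constructor
          · constructor
            intro H1 H2
            apply Subtype.ext
            have e1 : Nat.card H1.1 = 1 := H1.2.trans (pow_zero p)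
            have e2 : Nat.card H2.1 = 1 := H2.2.trans (pow_zero p)
            rw [Subgroup.card_eq_one] at e1 e2
            rw [e1, e2]
          · exact ⟨⟨⊥, by rw [pow_zero, Subgroup.card_eq_one]⟩⟩
        rw [h1]
      · right
        have h1 := kulakoff p hp2 _ (P : Subgroup G) hPcard hc a (by omega) (by omega)
        have h2 : ((1 + p : ℕ) : ZMod (p ^ 2)) = 1 + p := by push_cast; rfl
        rw [← h2, ZMod.natCast_eq_natCast_iff] at h1
        exact h.trans h1

end Cfsg.Agent.S4237
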