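import Mathlib
import Cfsg.Statements.S4242
import Cfsg.Agent.Lib.Helper54.Stability
import Cfsg.Agent.Lib.Helper90.SylowCount
-- import your own Cfsg.Agent.* helpers here

set_option autoImplicit false
open Cfsg

namespace Cfsg.Agent.S4242

section Aux

variable {G : Type*} [Group G]

theorem nil_of_le {H K : Subgroup G} (h : H ≤ K) (hK : Group.IsNilpotent K) :
    Group.IsNilpotent H :=
  @Group.nilpotent_of_mulEquiv _ _ _ _ (@Subgroup.isNilpotent _ _ (H.subgroupOf K) hK)
    (Subgroup.subgroupOfEquivOfLe h)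

/-- elements of coprime orders in a nilpotent subgroup commute -/
theorem comm_of_nil {L : Subgroup G} (hL : Group.IsNilpotent L) {a b : G} (ha : a ∈ L)
    (hb : b ∈ L) (hab : (orderOf a).Coprime (orderOf b)) : a * b = b * a := by
  have h := Cfsg.Agent.Lib.Helper54.commute_of_coprime_of_nilpotent L (⟨a, ha⟩ : L) ⟨b, hb⟩
    (by rw [Subgroup.orderOf_mk, Subgroup.orderOf_mk]; exact hab)
  exact congrArg Subtype.val h.eq

theorem case3 [Finite G] (p : ℕ) (hp : p.Prime) (Z K : Subgroup G) (hZ : Z.Normal)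
    (hK : K.Normal) (hZK : Z ⊓ K = ⊥) (hsup : Z ⊔ K = ⊤) (hcZ : Nat.card Z = p)
    (hKm : Cfsg.IsMinimalNonNilpotent K)
    (hpK : ¬ p ∣ Nat.card K) (M : Subgroup G) (hM : IsCoatom M) (hpM : p ∣ Nat.card M) :
    Group.IsNilpotent M := by
  have := hZ
  have := hK
  have : Fact p.Prime := ⟨hp⟩
  have hdecomp : ∀ g : G, ∃ z ∈ Z, ∃ k ∈ K, g = z * k := by
    intro g
    have hg : g ∈ Z ⊔ K := by rw [hsup]; exact Subgroup.mem_top g
    rw [← SetLike.mem_coe, Subgroup.normal_mul] at hg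
    obtain ⟨z, hz, k, hk, rfl⟩ := Set.mem_mul.mp hg
    exact ⟨z, hz, k, hk, rfl⟩
  have hZcomm : ∀ a ∈ Z, ∀ b ∈ Z, a * b = b * a := by
    have : IsCyclic Z := isCyclic_of_prime_card (p := p) hcZ
    intro a ha b hb
    obtain ⟨g, hg⟩ := IsCyclic.exists_generator (α := Z)
    obtain ⟨i, hi⟩ := Subgroup.mem_zpowers_iff.mp (hg ⟨a, ha⟩)
    obtain ⟨j, hj⟩ := Subgroup.mem_zpowers_iff.mp (hg ⟨b, hb⟩)
    have h1 : (⟨a, ha⟩ : Z) * ⟨b, hb⟩ = ⟨b, hb⟩ * ⟨a, ha⟩ := by
      rw [← hi, ← hj, ← zpow_add, ← zpow_add, add_comm]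
    exact congrArg Subtype.val h1
  have hZcen : ∀ z ∈ Z, ∀ g : G, z * g = g * z := by
    intro z hz g
    obtain ⟨z', hz', k, hk, rfl⟩ := hdecomp g
    have h1 : z * k = k * z :=
      (Subgroup.commute_of_normal_of_disjoint Z K hZ hK (disjoint_iff.mpr hZK) z k hz hk).eq
    rw [← mul_assoc, hZcomm z hz z' hz', mul_assoc, h1, mul_assoc]
  have hcardG : Nat.card G = p * Nat.card K := by
    have h := Cfsg.Agent.Lib.Helper1.card_sup_mul_card_inf Z K
    rw [hsup, hZK, Subgroup.card_top, Subgroup.card_bot, mul_one, hcZ] at h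
    exact h
  have hZM : Z ≤ M := by
    obtain ⟨x, hx⟩ := exists_prime_orderOf_dvd_card' (G := M) p hpM
    have hxG : orderOf (x : G) = p := by rw [Subgroup.orderOf_coe]; exact hx
    have hxZ : (x : G) ∈ Z := by
      rw [← QuotientGroup.eq_one_iff (N := Z)]
      have h1 : orderOf ((x : G) : G ⧸ Z) ∣ p := by
        rw [← hxG]
        exact orderOf_map_dvd (QuotientGroup.mk' Z) (x : G)
      have h2 : orderOf ((x : G) : G ⧸ Z) ∣ Nat.card K := by
        have h3 : Nat.card (G ⧸ Z) = Nat.card K := by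
          have h4 := Subgroup.card_eq_card_quotient_mul_card_subgroup Z
          rw [hcardG, hcZ] at h4
          have h5 : Nat.card K * p = Nat.card (G ⧸ Z) * p := by rw [← h4, mul_comm]
          exact (Nat.eq_of_mul_eq_mul_right hp.pos h5).symm
        rw [← h3]; exact orderOf_dvd_natCard _
      have h5 : orderOf ((x : G) : G ⧸ Z) = 1 := by
        have h6 := Nat.dvd_gcd h1 h2
        have h7 : Nat.gcd p (Nat.card K) = 1 := (Nat.Prime.coprime_iff_not_dvd hp).mpr hpK
        rw [h7] at h6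
        exact Nat.dvd_one.mp h6
      exact orderOf_eq_one_iff.mp h5
    have h6 : Subgroup.zpowers (x : G) = Z := by
      apply Subgroup.eq_of_le_of_card_ge
      · rw [Subgroup.zpowers_le]; exact hxZ
      · rw [Nat.card_zpowers, hxG, hcZ]
    rw [← h6, Subgroup.zpowers_le]
    exact x.2
  have hLne : M ⊓ K ≠ K := by
    intro h
    have hKM : K ≤ M := by rw [← h]; exact inf_le_left
    have h1 : (⊤ : Subgroup G) ≤ M := by rw [← hsup]; exact sup_le hZM hKM
    exact hM.1 (top_le_iff.mp h1)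
  have hLnil : Group.IsNilpotent (M ⊓ K : Subgroup G) := by
    have h1 : (M ⊓ K).subgroupOf K ≠ ⊤ := by
      intro h
      rw [Subgroup.subgroupOf_eq_top] at h
      exact hLne (le_antisymm inf_le_right h)
    have h2 := hKm.2 _ h1
    exact @Group.nilpotent_of_mulEquiv _ _ _ _ h2
      (Subgroup.subgroupOfEquivOfLe (inf_le_right : M ⊓ K ≤ K))
  have hsurj : Function.Surjective ((QuotientGroup.mk' (Z.subgroupOf M)).comp
      (Subgroup.inclusion (inf_le_left : M ⊓ K ≤ M))) := by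
    intro q
    obtain ⟨m, rfl⟩ := QuotientGroup.mk'_surjective _ q
    obtain ⟨z, hz, k, hk, hmk⟩ := hdecomp (m : G)
    have hkM : k ∈ M := by
      have h1 : k = z⁻¹ * m := by rw [hmk]; group
      rw [h1]; exact M.mul_mem (M.inv_mem (hZM hz)) m.2
    refine ⟨⟨k, hkM, hk⟩, ?_⟩
    show (QuotientGroup.mk' (Z.subgroupOf M)) (⟨k, hkM⟩ : M) = QuotientGroup.mk' _ m
    show ((⟨k, hkM⟩ : M) : M ⧸ Z.subgroupOf M) = (m : M ⧸ Z.subgroupOf M)
    rw [QuotientGroup.eq, Subgroup.mem_subgroupOf]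
    have h2 : (((⟨k, hkM⟩ : M)⁻¹ * m : M) : G) = k⁻¹ * z * k⁻¹⁻¹ := by
      simp only [Subgroup.coe_mul, Subgroup.coe_inv]
      rw [hmk]; group
    rw [h2]
    exact hZ.conj_mem z hz k⁻¹
  have hQnil : Group.IsNilpotent (M ⧸ Z.subgroupOf M) :=
    @Group.nilpotent_of_surjective _ _ _ _ hLnil _ hsurj
  refine @Subgroup.isNilpotent_of_ker_le_center _ _ _ _ (QuotientGroup.mk' (Z.subgroupOf M)) ?_ hQnil
  rw [QuotientGroup.ker_mk']
  intro m hm
  rw [Subgroup.mem_center_iff]
  intro g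
  apply Subtype.ext
  have h1 := hZcen (m : G) (Subgroup.mem_subgroupOf.mp hm) (g : G)
  simp only [Subgroup.coe_mul]
  exact h1.symm

theorem forward [Finite G] (p : ℕ) (hp : p.Prime) (hpG : p ∣ Nat.card G)
    (H : ∀ M : Subgroup G, IsCoatom M → p ∣ Nat.card M → Group.IsNilpotent M)
    (hnil : ¬ Group.IsNilpotent G) (hmin : ¬ Cfsg.IsMinimalNonNilpotent G) :
    ∃ Z K : Subgroup G, Z.Normal ∧ K.Normal ∧ Z ⊓ K = ⊥ ∧ Z ⊔ K = ⊤ ∧ Nat.card Z = p ∧
          Cfsg.IsMinimalNonNilpotent K ∧ ¬ p ∣ Nat.card K := by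
  have : Fact p.Prime := ⟨hp⟩
  -- a non-nilpotent coatom
  obtain ⟨M₀, hM₀, hM₀nil⟩ : ∃ M₀ : Subgroup G, IsCoatom M₀ ∧ ¬ Group.IsNilpotent M₀ := by
    unfold Cfsg.IsMinimalNonNilpotent at hmin
    have hmin' : ∃ H₀ : Subgroup G, H₀ ≠ ⊤ ∧ ¬ Group.IsNilpotent H₀ := by
      by_contra hcon
      apply hmin
      refine ⟨hnil, fun H₀ hH₀ => ?_⟩
      by_contra hH₀n
      exact hcon ⟨H₀, hH₀, hH₀n⟩
    obtain ⟨H₀, hH₀, hH₀n⟩ := hmin'
    rcases eq_top_or_exists_le_coatom H₀ with h | ⟨M₀, hM₀, hle⟩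
    · exact absurd h hH₀
    · exact ⟨M₀, hM₀, fun h => hH₀n (nil_of_le hle h)⟩
  have hpM₀ : ¬ p ∣ Nat.card M₀ := fun h => hM₀nil (H M₀ hM₀ h)
  have hM₀cop : (Nat.card M₀).Coprime p := ((Nat.Prime.coprime_iff_not_dvd hp).mpr hpM₀).symm
  -- every proper subgroup of order divisible by p is nilpotent
  have Hprop : ∀ T : Subgroup G, T ≠ ⊤ → p ∣ Nat.card T → Group.IsNilpotent T := by
    intro T hT hpT
    rcases eq_top_or_exists_le_coatom T with h | ⟨L, hL, hle⟩
    · exact absurd h hT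
    · exact nil_of_le hle (H L hL (hpT.trans (Subgroup.card_dvd_of_le hle)))
  -- Frobenius condition
  have hF : Cfsg.Agent.Lib.Helper54.FrobeniusCondition p G := by
    intro Q hQ g hg hgp
    rw [Subgroup.mem_centralizer_iff]
    intro q hq
    have hq' : q ∈ Q := hq
    by_cases hq1 : q = 1
    · rw [hq1, one_mul, mul_one]
    obtain ⟨k, hk⟩ := hQ ⟨q, hq'⟩
    have hqk : q ^ p ^ k = 1 := by simpa using congrArg Subtype.val hk
    have hqord : orderOf q ∣ p ^ k := orderOf_dvd_of_pow_eq_one hqk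
    have hcop : (orderOf g).Coprime (orderOf q) :=
      Nat.Coprime.coprime_dvd_right hqord (Nat.Coprime.pow_right k hgp)
    have hpQ : p ∣ Nat.card Q := by
      have h1 : orderOf q ≠ 1 := fun h => hq1 (orderOf_eq_one_iff.mp h)
      obtain ⟨j, -, hj2⟩ := (Nat.dvd_prime_pow hp).mp hqord
      have h2 : p ∣ orderOf q := by
        rw [hj2]
        rcases Nat.eq_zero_or_pos j with h0 | h0
        · rw [h0, pow_zero] at hj2; exact absurd hj2 h1
        · exact dvd_pow_self p h0.ne'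
      exact h2.trans (Subgroup.orderOf_dvd_natCard Q hq')
    by_cases hT : Q ⊔ Subgroup.zpowers g = ⊤
    · exfalso
      have hQn : Q.Normal := by
        rw [← Subgroup.normalizer_eq_top_iff]
        apply top_le_iff.mp
        rw [← hT]
        exact sup_le Subgroup.le_normalizer (by rw [Subgroup.zpowers_le]; exact hg)
      have := hQn
      have hmod : ∀ a : G, ∃ i : ℤ, (a : G ⧸ Q) = ((g ^ i : G) : G ⧸ Q) := by
        intro a
        have ha : a ∈ Q ⊔ Subgroup.zpowers g := by rw [hT]; exact Subgroup.mem_top a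
        rw [← SetLike.mem_coe, Subgroup.normal_mul] at ha
        obtain ⟨q', hq'', y, hy, rfl⟩ := Set.mem_mul.mp ha
        obtain ⟨i, rfl⟩ := Subgroup.mem_zpowers_iff.mp hy
        refine ⟨i, ?_⟩
        rw [QuotientGroup.eq]
        have h1 : (q' * g ^ i)⁻¹ * g ^ i = (g ^ i)⁻¹ * q'⁻¹ * (g ^ i)⁻¹⁻¹ := by group
        rw [h1]
        exact hQn.conj_mem _ (Q.inv_mem hq'') _
      apply hM₀nil
      have hcomm : ∀ a ∈ M₀, ∀ b ∈ M₀, a * b = b * a := by
        intro a ha b hb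
        have h1 : a * b * a⁻¹ * b⁻¹ ∈ Q := by
          rw [← QuotientGroup.eq_one_iff (N := Q)]
          obtain ⟨i, hi⟩ := hmod a
          obtain ⟨j, hj⟩ := hmod b
          have hc : ((g ^ i : G) : G ⧸ Q) * ((g ^ j : G) : G ⧸ Q)
              = ((g ^ j : G) : G ⧸ Q) * ((g ^ i : G) : G ⧸ Q) := by
            rw [← QuotientGroup.mk_mul, ← QuotientGroup.mk_mul, ← zpow_add, ← zpow_add, add_comm]
          rw [QuotientGroup.mk_mul, QuotientGroup.mk_mul, QuotientGroup.mk_mul,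
            QuotientGroup.mk_inv, QuotientGroup.mk_inv, hi, hj, hc]
          group
        have h2 : a * b * a⁻¹ * b⁻¹ ∈ M₀ :=
          M₀.mul_mem (M₀.mul_mem (M₀.mul_mem ha hb) (M₀.inv_mem ha)) (M₀.inv_mem hb)
        obtain ⟨k', hk'⟩ := hQ ⟨_, h1⟩
        have hck : (a * b * a⁻¹ * b⁻¹) ^ p ^ k' = 1 := by simpa using congrArg Subtype.val hk'
        have h3 : a * b * a⁻¹ * b⁻¹ = 1 :=
          Cfsg.Agent.Lib.Helper54.eq_one_of_coprime_of_pow_eq_one
            (Nat.Coprime.coprime_dvd_left (Subgroup.orderOf_dvd_natCard M₀ h2) hM₀cop) hck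
        calc a * b = (a * b * a⁻¹ * b⁻¹) * (b * a) := by group
          _ = b * a := by rw [h3, one_mul]
      let _ : CommGroup M₀ :=
        { (inferInstance : Group M₀) with
          mul_comm := fun a b => Subtype.ext (hcomm a a.2 b b.2) }
      exact CommGroup.isNilpotent
    · have hTn := Hprop _ hT (hpQ.trans (Subgroup.card_dvd_of_le le_sup_left))
      exact (comm_of_nil hTn (a := g) (b := q)
        (Subgroup.mem_sup_right (Subgroup.mem_zpowers g)) (Subgroup.mem_sup_left hq') hcop).symm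
  obtain ⟨N, hN⟩ := Cfsg.Agent.Lib.Helper54.exists_isNormalPComplement_of_frobeniusCondition hF
  have hM₀N : M₀ ≤ N := fun a ha => hN.mem_of_coprime
    (Nat.Coprime.coprime_dvd_left (Subgroup.orderOf_dvd_natCard M₀ ha) hM₀cop)
  have hNtop : N ≠ ⊤ := by
    intro h
    have h1 := hN.2.1
    rw [h, Subgroup.card_top] at h1
    have h2 : p ∣ Nat.gcd (Nat.card G) p := Nat.dvd_gcd hpG dvd_rfl
    rw [h1] at h2
    exact hp.one_lt.ne' (Nat.dvd_one.mp h2)
  have hNM₀ : N = M₀ := by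
    by_contra hne
    exact hNtop (hM₀.2 N (lt_of_le_of_ne hM₀N (Ne.symm hne)))
  have hM₀normal : M₀.Normal := hNM₀ ▸ hN.1
  have := hM₀normal
  -- an element of order p
  obtain ⟨x, hx⟩ := exists_prime_orderOf_dvd_card' (G := G) p hpG
  have hxM₀ : x ∉ M₀ := by
    intro h
    apply hpM₀
    rw [← hx]; exact Subgroup.orderOf_dvd_natCard M₀ h
  obtain ⟨Z, hZdef⟩ : ∃ Z : Subgroup G, Z = Subgroup.zpowers x := ⟨_, rfl⟩
  have hxZ : x ∈ Z := by rw [hZdef]; exact Subgroup.mem_zpowers x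
  have hcZ : Nat.card Z = p := by rw [hZdef, Nat.card_zpowers, hx]
  have hZM₀ : Z ⊓ M₀ = ⊥ := by
    apply disjoint_iff.mp
    apply Subgroup.disjoint_of_coprime_natCard
    rw [hcZ]; exact hM₀cop.symm
  have hsup : Z ⊔ M₀ = ⊤ := by
    apply hM₀.2
    apply lt_of_le_of_ne le_sup_right
    intro h
    apply hxM₀
    rw [h]; exact Subgroup.mem_sup_left hxZ
  have hZp : IsPGroup p Z := IsPGroup.of_card (n := 1) (by rw [hcZ, pow_one])
  have hcardG : Nat.card G = p * Nat.card M₀ := by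
    have h := Cfsg.Agent.Lib.Helper1.card_sup_mul_card_inf M₀ Z
    rw [sup_comm, inf_comm, hsup, hZM₀, Subgroup.card_top, Subgroup.card_bot, mul_one, hcZ,
      mul_comm] at h
    exact h
  -- `Z M₁` is proper for proper `Z`-invariant `M₁`
  have hTne : ∀ M₁ : Subgroup G, M₁ ≤ M₀ → M₁ ≠ M₀ → Z ≤ Subgroup.normalizer (M₁ : Set G) →
      Z ⊔ M₁ ≠ ⊤ := by
    intro M₁ hle hne hnorm h
    have h1 := Cfsg.Agent.Lib.Helper90.card_sup_mul_card_inf_of_le_normalizer hnorm
    have h2 : Z ⊓ M₁ = ⊥ := by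
      apply le_bot_iff.mp
      rw [← hZM₀]; exact inf_le_inf_left Z hle
    rw [h, h2, Subgroup.card_top, Subgroup.card_bot, mul_one, hcardG, hcZ] at h1
    have h3 : Nat.card M₀ = Nat.card M₁ := Nat.eq_of_mul_eq_mul_left hp.pos h1
    have h4 := Cfsg.Agent.Lib.Helper1.card_lt_card_of_lt (lt_of_le_of_ne hle hne)
    omega
  have hTnil : ∀ M₁ : Subgroup G, M₁ ≤ M₀ → M₁ ≠ M₀ → Z ≤ Subgroup.normalizer (M₁ : Set G) →
      Group.IsNilpotent (Z ⊔ M₁ : Subgroup G) := by
    intro M₁ hle hne hnorm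
    exact Hprop _ (hTne M₁ hle hne hnorm)
      (by rw [← hcZ]; exact Subgroup.card_dvd_of_le le_sup_left)
  have hcent : ∀ M₁ : Subgroup G, M₁ ≤ M₀ → M₁ ≠ M₀ → Z ≤ Subgroup.normalizer (M₁ : Set G) →
      ∀ m ∈ M₁, x * m = m * x := by
    intro M₁ hle hne hnorm m hm
    have hcop : (orderOf x).Coprime (orderOf m) := by
      rw [hx]
      exact (Nat.Coprime.coprime_dvd_left (Subgroup.orderOf_dvd_natCard M₀ (hle hm)) hM₀cop).symm
    exact comm_of_nil (hTnil M₁ hle hne hnorm) (Subgroup.mem_sup_left hxZ)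
      (Subgroup.mem_sup_right hm) hcop
  have hZnM₀ : Z ≤ Subgroup.normalizer (M₀ : Set G) := by
    rw [Subgroup.normalizer_eq_top_iff.mpr hM₀normal]; exact le_top
  have hall : ∀ m ∈ M₀, x * m = m * x := by
    obtain ⟨C, hCdef⟩ : ∃ C : Subgroup G, C = Subgroup.centralizer {x} ⊓ M₀ := ⟨_, rfl⟩
    have hCle : C ≤ M₀ := by rw [hCdef]; exact inf_le_right
    have hCeq : C = M₀ := by
      apply Subgroup.eq_of_le_of_card_ge hCle
      apply Nat.le_of_dvd Nat.card_pos
      rw [← Nat.factorization_prime_le_iff_dvd Nat.card_pos.ne' Nat.card_pos.ne']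
      intro r hr
      have : Fact r.Prime := ⟨hr⟩
      have hnb : Z ≤ Subgroup.normalizer (((⊥ : Subgroup G) : Subgroup G) : Set G) := by
        rw [Subgroup.normalizer_eq_top_iff.mpr inferInstance]; exact le_top
      obtain ⟨Q, -, hQle, hQn, hQc⟩ :=
        Cfsg.Agent.Lib.Helper90.exists_invariant_sylow_ge (p := p) (q := r)
          Z M₀ ⊥ hZp hZnM₀ hpM₀ bot_le IsPGroup.of_bot hnb
      have hQne : Q ≠ M₀ := by
        intro h
        apply hM₀nil
        have h1 : IsPGroup r M₀ := by rw [← h]; exact IsPGroup.of_card hQc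
        exact h1.isNilpotent
      have hQC : Q ≤ C := by
        intro m hm
        rw [hCdef]
        exact ⟨Subgroup.mem_centralizer_singleton_iff.mpr (hcent Q hQle hQne hQn m hm).symm,
          hQle hm⟩
      have h1 : r ^ (Nat.card M₀).factorization r ∣ Nat.card C := by
        rw [← hQc]; exact Subgroup.card_dvd_of_le hQC
      exact (hr.pow_dvd_iff_le_factorization Nat.card_pos.ne').mp h1
    intro m hm
    have h1 : m ∈ C := by rw [hCeq]; exact hm
    rw [hCdef] at h1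
    exact (Subgroup.mem_centralizer_singleton_iff.mp h1.1).symm
  have hxcen : ∀ g : G, g * x = x * g := by
    have h1 : (⊤ : Subgroup G) ≤ Subgroup.centralizer {x} := by
      rw [← hsup]
      apply sup_le
      · rw [hZdef, Subgroup.zpowers_le]; exact Subgroup.mem_centralizer_singleton_iff.mpr rfl
      · intro m hm; exact Subgroup.mem_centralizer_singleton_iff.mpr (hall m hm).symm
    intro g
    exact Subgroup.mem_centralizer_singleton_iff.mp (h1 (Subgroup.mem_top g))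
  have hZcen : ∀ z ∈ Z, ∀ g : G, g * z * g⁻¹ = z := by
    intro z hz g
    rw [hZdef] at hz
    obtain ⟨i, rfl⟩ := Subgroup.mem_zpowers_iff.mp hz
    have hc : Commute g x := hxcen g
    rw [(hc.zpow_right i).eq, mul_inv_cancel_right]
  have hZnormal : Z.Normal := by
    refine ⟨fun z hz g => ?_⟩
    rw [hZcen z hz g]; exact hz
  have hZnorm : ∀ M₁ : Subgroup G, Z ≤ Subgroup.normalizer (M₁ : Set G) := by
    intro M₁ z hz
    rw [Subgroup.mem_normalizer_iff]
    intro h
    have h1 : z * h * z⁻¹ = h := by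
      have h2 := hZcen z hz h⁻¹
      have h3 : z * h * z⁻¹ = h * (h⁻¹ * z * h⁻¹⁻¹) * z⁻¹ := by group
      rw [h3, h2]; group
    rw [h1]
  refine ⟨Z, M₀, hZnormal, hM₀normal, hZM₀, hsup, hcZ, ⟨hM₀nil, ?_⟩, hpM₀⟩
  intro H₁ hH₁
  have hle : H₁.map M₀.subtype ≤ M₀ := Subgroup.map_subtype_le H₁
  have hne : H₁.map M₀.subtype ≠ M₀ := by
    intro h
    apply hH₁
    rw [eq_top_iff]
    intro m _
    have h1 : (m : G) ∈ H₁.map M₀.subtype := by rw [h]; exact m.2
    obtain ⟨m', hm', hmm⟩ := Subgroup.mem_map.mp h1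
    have h2 : m' = m := Subtype.ext hmm
    rw [← h2]; exact hm'
  have h1 := hTnil _ hle hne (hZnorm _)
  have h2 : Group.IsNilpotent (H₁.map M₀.subtype) := nil_of_le le_sup_right h1
  exact @Group.nilpotent_of_mulEquiv _ _ _ _ h2
    (Subgroup.equivMapOfInjective H₁ M₀.subtype M₀.subtype_injective).symm

end Aux

/-- Let G be a finite group and p a prime dividing its order. Every maximal subgroup of G of order divisible by p is nilpotent if and only if G is nilpotent, or G is a minimal non-nilpotent group, or G is the internal direct product of a normal subgroup of order p and a normal minimal non-nilpotent subgroup of order prime to p. -/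
theorem result {G : Type*} [Group G] [Finite G] (p : ℕ) (hp : p.Prime) (hpG : p ∣ Nat.card G) :
    (∀ M : Subgroup G, IsCoatom M → p ∣ Nat.card M → Group.IsNilpotent M) ↔
      (Group.IsNilpotent G ∨ Cfsg.IsMinimalNonNilpotent G ∨
        ∃ Z K : Subgroup G, Z.Normal ∧ K.Normal ∧ Z ⊓ K = ⊥ ∧ Z ⊔ K = ⊤ ∧ Nat.card Z = p ∧
          Cfsg.IsMinimalNonNilpotent K ∧ ¬ p ∣ Nat.card K) := by
  constructor
  · intro H
    by_cases hnil : Group.IsNilpotent G
    · exact Or.inl hnil
    by_cases hmin : Cfsg.IsMinimalNonNilpotent G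
    · exact Or.inr (Or.inl hmin)
    exact Or.inr (Or.inr (forward p hp hpG H hnil hmin))
  · rintro (h | h | ⟨Z, K, hZ, hK, hZK, hsup, hcZ, hKm, hpK⟩) M hM hpM
    · exact Subgroup.isNilpotent M
    · exact h.2 M hM.1
    · exact case3 p hp Z K hZ hK hZK hsup hcZ hKm hpK M hM hpM

end Cfsg.Agent.S4242
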