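import Mathlib
import Cfsg.Statements.S4244

set_option autoImplicit false
open Cfsg

namespace Cfsg.Agent.S4244

theorem card_inf_mul {M : Type*} [Group M] (H K : Subgroup M) :
    Nat.card ↥(H ⊓ K) * K.relIndex H = Nat.card H := by
  have h := Subgroup.relIndex_mul_relIndex (⊥ : Subgroup M) (H ⊓ K) H bot_le inf_le_left
  rw [Subgroup.relIndex_bot_left, Subgroup.relIndex_bot_left, Subgroup.inf_relIndex_left] at h
  exact h

theorem normal_case {M : Type*} [Group M] [Finite M] (H K : Subgroup M) [H.Normal] :
    K.relIndex H ∣ K.index := by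
  have h1 : H.relIndex (K ⊔ H) = H.relIndex K := Subgroup.relIndex_sup_right K H
  have h2 : Nat.card H * H.relIndex (K ⊔ H) = Nat.card ↥(K ⊔ H) := by
    have h := Subgroup.relIndex_mul_relIndex (⊥ : Subgroup M) H (K ⊔ H) bot_le le_sup_right
    rw [Subgroup.relIndex_bot_left, Subgroup.relIndex_bot_left] at h
    exact h
  have h3 : Nat.card K * K.relIndex (K ⊔ H) = Nat.card ↥(K ⊔ H) := by
    have h := Subgroup.relIndex_mul_relIndex (⊥ : Subgroup M) K (K ⊔ H) bot_le le_sup_left
    rw [Subgroup.relIndex_bot_left, Subgroup.relIndex_bot_left] at h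
    exact h
  have h4 : Nat.card ↥(H ⊓ K) * K.relIndex H = Nat.card H := card_inf_mul H K
  have h5 : Nat.card ↥(H ⊓ K) * H.relIndex K = Nat.card K := by
    have := card_inf_mul K H
    rwa [inf_comm] at this
  have hpos : 0 < Nat.card ↥(H ⊓ K) := Nat.card_pos
  have hposK : 0 < H.relIndex K := by
    rcases Nat.eq_zero_or_pos (H.relIndex K) with h | h
    · rw [h, mul_zero] at h5
      have : 0 < Nat.card K := Nat.card_pos
      omega
    · exact h
  have key : K.relIndex (K ⊔ H) = K.relIndex H := by
    have e1 : Nat.card ↥(H ⊓ K) * H.relIndex K * K.relIndex (K ⊔ H)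
        = Nat.card ↥(H ⊓ K) * H.relIndex K * K.relIndex H := by
      calc Nat.card ↥(H ⊓ K) * H.relIndex K * K.relIndex (K ⊔ H)
          = Nat.card K * K.relIndex (K ⊔ H) := by rw [h5]
        _ = Nat.card ↥(K ⊔ H) := h3
        _ = Nat.card H * H.relIndex (K ⊔ H) := h2.symm
        _ = Nat.card H * H.relIndex K := by rw [h1]
        _ = Nat.card ↥(H ⊓ K) * K.relIndex H * H.relIndex K := by rw [h4]
        _ = Nat.card ↥(H ⊓ K) * H.relIndex K * K.relIndex H := by ring
    exact Nat.eq_of_mul_eq_mul_left (Nat.mul_pos hpos hposK) e1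
  rw [← key]
  exact Subgroup.relIndex_dvd_index_of_le le_sup_left

/-- Let H be a subnormal subgroup of a finite group G. Then for every subgroup K of G the index of H ∩ K in H divides the index of K in G. -/
theorem result {G : Type*} [Group G] [Finite G] (H : Subgroup G) (hH : H.IsSubnormal) (K : Subgroup G) :
    (H ⊓ K).relIndex H ∣ K.index := by
  rw [Subgroup.inf_relIndex_left]
  induction hH with
  | top => rw [Subgroup.relIndex_top_right]
  | step H M h_le hSubn hN ih =>
    have h1 : (K.subgroupOf M).relIndex (H.subgroupOf M) ∣ (K.subgroupOf M).index :=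
      normal_case (H.subgroupOf M) (K.subgroupOf M)
    rw [Subgroup.relIndex_subgroupOf h_le] at h1
    exact h1.trans ih

end Cfsg.Agent.S4244
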