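import Cfsg.Statements.S4250
import Cfsg.Agent.Lib.Helper34.Alperin

set_option autoImplicit false
open Cfsg

namespace Cfsg.Agent.S4250

open Cfsg.Agent.Lib.Helper34

open scoped commutatorElement

theorem chain_mem {G : Type*} [Group G] [Finite G] (p : ℕ) [Fact p.Prime] (P : Sylow p G)
    (R : Subgroup G)
    (hR1 : ⁅(P : Subgroup G), Subgroup.normalizer ((P : Subgroup G) : Set G)⁆ ≤ R)
    (hR2 : ∀ (Q : Sylow p G) (x : G), AlpGood P Q x → (∃ k : ℕ, orderOf x = p ^ k) →
      ⁅(P : Subgroup G) ⊓ (Q : Subgroup G), Subgroup.zpowers x⁆ ≤ R) :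
    ∀ (l : List (Sylow p G × G)) (a : G), a ∈ (P : Subgroup G) → AlpChain P {a} l →
      a * ((l.map Prod.snd).prod⁻¹ * a * (l.map Prod.snd).prod)⁻¹ ∈ R := by
  intro l
  induction l with
  | nil => intro a ha _; simp
  | cons c l ih =>
    intro a ha hc
    rw [alpChain_cons_iff] at hc
    obtain ⟨h1, h2, h3⟩ := hc
    rw [Set.image_singleton] at h3
    have haPQ : a ∈ (P : Subgroup G) ⊓ (c.1 : Subgroup G) := h1 rfl
    have hnorm := h2.1
    have ha1 : c.2⁻¹ * a * c.2 ∈ (P : Subgroup G) ⊓ (c.1 : Subgroup G) := by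
      have := (Subgroup.mem_normalizer_iff.mp (Subgroup.inv_mem _ hnorm) a).mp haPQ
      simpa using this
    have ih' := ih (c.2⁻¹ * a * c.2) (Subgroup.mem_inf.mp ha1).1 h3
    have hstep : a * (c.2⁻¹ * a * c.2)⁻¹ ∈ R := by
      have hcomm : a * (c.2⁻¹ * a * c.2)⁻¹ = ⁅a, c.2⁻¹⁆ := by
        rw [commutatorElement_def]; group
      rw [hcomm]
      have hmem : ⁅a, c.2⁻¹⁆ ∈ ⁅(P : Subgroup G) ⊓ (c.1 : Subgroup G), Subgroup.zpowers c.2⁆ :=
        Subgroup.commutator_mem_commutator haPQ (Subgroup.inv_mem _ (Subgroup.mem_zpowers c.2))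
      rcases h2.2.2.2 with hQP | hk
      · apply hR1
        have hPQ : (P : Subgroup G) ⊓ (c.1 : Subgroup G) = P := by rw [hQP, inf_idem]
        rw [hPQ] at hmem hnorm
        exact Subgroup.commutator_mono le_rfl (Subgroup.zpowers_le.mpr hnorm) hmem
      · exact hR2 c.1 c.2 h2 hk hmem
    have e : a * ((List.map Prod.snd (c :: l)).prod⁻¹ * a * (List.map Prod.snd (c :: l)).prod)⁻¹
        = (a * (c.2⁻¹ * a * c.2)⁻¹) * ((c.2⁻¹ * a * c.2) *
          ((l.map Prod.snd).prod⁻¹ * (c.2⁻¹ * a * c.2) * (l.map Prod.snd).prod)⁻¹) := by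
      simp only [List.map_cons, List.prod_cons]; group
    rw [e]
    exact R.mul_mem hstep ih'

/-- Let P be a Sylow p-subgroup of a finite group G. Call an intersection H = P ∩ Q with a Sylow p-subgroup Q tame when N_P(H) and N_Q(H) are Sylow p-subgroups of N_G(H). Then P ∩ G′ is generated by [P, N_G(P)] together with the commutator subgroups [P ∩ Q, ⟨x⟩] for all tame intersections P ∩ Q and all p-elements x of N_G(P ∩ Q). -/
theorem result {G : Type*} [Group G] [Finite G] (p : ℕ) [Fact p.Prime] (P : Sylow p G) :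
    (P : Subgroup G) ⊓ commutator G =
      ⁅(P : Subgroup G), Subgroup.normalizer ((P : Subgroup G) : Set G)⁆ ⊔
        ⨆ (Q : Sylow p G) (_ : (¬ p ∣ ((P : Subgroup G) ⊓ Subgroup.normalizer (((P : Subgroup G) ⊓ (Q : Subgroup G) : Subgroup G) : Set G)).relIndex (Subgroup.normalizer (((P : Subgroup G) ⊓ (Q : Subgroup G) : Subgroup G) : Set G)) ∧ ¬ p ∣ ((Q : Subgroup G) ⊓ Subgroup.normalizer (((P : Subgroup G) ⊓ (Q : Subgroup G) : Subgroup G) : Set G)).relIndex (Subgroup.normalizer (((P : Subgroup G) ⊓ (Q : Subgroup G) : Subgroup G) : Set G))))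
          (x : G) (_ : x ∈ Subgroup.normalizer (((P : Subgroup G) ⊓ (Q : Subgroup G) : Subgroup G) : Set G) ∧ ∃ k : ℕ, orderOf x = p ^ k),
          ⁅(P : Subgroup G) ⊓ (Q : Subgroup G), Subgroup.zpowers x⁆ := by
  have key : ∀ R : Subgroup G,
      ⁅(P : Subgroup G), Subgroup.normalizer ((P : Subgroup G) : Set G)⁆ ≤ R →
      (∀ (Q : Sylow p G) (x : G), AlpGood P Q x → (∃ k : ℕ, orderOf x = p ^ k) →
        ⁅(P : Subgroup G) ⊓ (Q : Subgroup G), Subgroup.zpowers x⁆ ≤ R) →
      (P : Subgroup G) ⊓ commutator G ≤ R := by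
    intro R hR1 hR2
    rw [inf_comm, Subgroup.commutator_inf_eq_focalSubgroup, Subgroup.focalSubgroup_def,
      Subgroup.closure_le]
    rintro g ⟨hgP, a, haP, u, rfl⟩
    have hconj : u * a * u⁻¹ ∈ (P : Subgroup G) := by
      have : u * a * u⁻¹ = (⁅a, u⁆)⁻¹ * a := by rw [commutatorElement_def]; group
      rw [this]; exact mul_mem (inv_mem hgP) haP
    obtain ⟨l, hl, hprod⟩ := alperin_fusion P {a} u⁻¹
      (by rw [Set.singleton_subset_iff]; exact haP)
      (by rw [Set.image_singleton, Set.singleton_subset_iff, inv_inv]; exact hconj)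
    have hmain := chain_mem p P R hR1 hR2 l a haP hl
    rw [hprod] at hmain
    have e : ⁅a, u⁆ = a * ((u⁻¹)⁻¹ * a * u⁻¹)⁻¹ := by rw [commutatorElement_def]; group
    rw [SetLike.mem_coe, e]
    exact hmain
  apply le_antisymm
  · refine key _ le_sup_left ?_
    intro Q x hgood hk
    refine le_trans ?_ le_sup_right
    exact le_iSup_of_le Q (le_iSup_of_le ⟨hgood.2.1, hgood.2.2.1⟩
      (le_iSup_of_le x (le_iSup_of_le ⟨hgood.1, hk⟩ le_rfl)))
  · apply sup_le
    · apply le_inf
      · rw [Subgroup.commutator_le]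
        intro a ha n hn
        have h1 : n * a⁻¹ * n⁻¹ ∈ (P : Subgroup G) :=
          (Subgroup.mem_normalizer_iff.mp hn a⁻¹).mp (inv_mem ha)
        have : ⁅a, n⁆ = a * (n * a⁻¹ * n⁻¹) := by rw [commutatorElement_def]; group
        rw [this]; exact mul_mem ha h1
      · rw [commutator_def]
        exact Subgroup.commutator_mono le_top le_top
    · apply iSup_le; intro Q
      apply iSup_le; intro _
      apply iSup_le; intro x
      apply iSup_le; intro hx
      apply le_inf
      · rw [Subgroup.commutator_le]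
        intro a ha y hy
        have hyN : y ∈ Subgroup.normalizer (((P : Subgroup G) ⊓ (Q : Subgroup G) : Subgroup G) : Set G) :=
          (Subgroup.zpowers_le.mpr hx.1) hy
        have h1 : y * a⁻¹ * y⁻¹ ∈ (P : Subgroup G) ⊓ (Q : Subgroup G) :=
          (Subgroup.mem_normalizer_iff.mp hyN a⁻¹).mp (inv_mem ha)
        have : ⁅a, y⁆ = a * (y * a⁻¹ * y⁻¹) := by rw [commutatorElement_def]; group
        rw [this]; exact mul_mem (Subgroup.mem_inf.mp ha).1 (Subgroup.mem_inf.mp h1).1
      · rw [commutator_def]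
        exact Subgroup.commutator_mono le_top le_top

end Cfsg.Agent.S4250
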