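import Cfsg.Statements.S4252

set_option autoImplicit false
open Cfsg
open scoped Pointwise

namespace Cfsg.Agent.S4252

theorem mem_conj_smul_stab {G Ω : Type*} [Group G] [MulAction G Ω] (α : Ω) (c k : G) :
    k ∈ MulAut.conj c • MulAction.stabilizer G α ↔ k • (c • α) = c • α := by
  rw [Subgroup.mem_pointwise_smul_iff_inv_smul_mem]
  simp only [MulAut.smul_def, MulAut.conj_inv_apply, MulAction.mem_stabilizer_iff]
  rw [mul_smul, mul_smul, inv_smul_eq_iff]

/-- Let a finite group G act on a finite set Ω with more than one point, transitively but not regularly, so that no non-identity element of G fixes two distinct points. Then the stabilizer H of any point is a Frobenius complement in G (nontrivial, proper, meeting its other conjugates trivially), and the Frobenius kernel of G with respect to H (the identity together with the elements lying in no conjugate of H) is exactly the set consisting of the identity and the elements fixing no point. -/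
theorem result {G Ω : Type*} [Group G] [Finite G] [Fintype Ω] [MulAction G Ω] (hΩ : 1 < Fintype.card Ω)
    (htrans : ∀ α β : Ω, ∃ g : G, g • α = β) (hnreg : ∃ g : G, g ≠ 1 ∧ ∃ α : Ω, g • α = α)
    (hfix : ∀ g : G, g ≠ 1 → ∀ α β : Ω, g • α = α → g • β = β → α = β) (α : Ω) :
    Cfsg.IsFrobeniusComplement (MulAction.stabilizer G α) ∧
      Cfsg.frobeniusKernel (MulAction.stabilizer G α) = {g : G | g = 1 ∨ ∀ ω : Ω, g • ω ≠ ω} := by
  refine ⟨⟨?_, ?_, ?_⟩, ?_⟩
  · obtain ⟨g, hg1, β, hgβ⟩ := hnreg
    obtain ⟨c, hc⟩ := htrans β α
    intro hbot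
    have hmem : c * g * c⁻¹ ∈ MulAction.stabilizer G α := by
      rw [MulAction.mem_stabilizer_iff, mul_smul, mul_smul]
      have : c⁻¹ • α = β := by rw [← hc, inv_smul_smul]
      rw [this, hgβ, hc]
    rw [hbot, Subgroup.mem_bot] at hmem
    apply hg1
    have : g = c⁻¹ * (c * g * c⁻¹) * c := by group
    rw [this, hmem]; group
  · obtain ⟨β, hβ⟩ := Fintype.exists_ne_of_one_lt_card hΩ α
    obtain ⟨g, hg⟩ := htrans α β
    intro htop
    have : g ∈ MulAction.stabilizer G α := by rw [htop]; trivial
    rw [MulAction.mem_stabilizer_iff] at this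
    exact hβ (hg ▸ this)
  · intro g hg
    rw [eq_bot_iff]
    intro k hk
    rw [Subgroup.mem_inf, mem_conj_smul_stab, MulAction.mem_stabilizer_iff] at hk
    rw [Subgroup.mem_bot]
    by_contra hk1
    apply hg
    rw [MulAction.mem_stabilizer_iff]
    exact (hfix k hk1 α (g • α) hk.1 hk.2).symm
  · ext x
    simp only [Cfsg.frobeniusKernel, Set.mem_ofPred_eq]
    constructor
    · rintro (h | h)
      · exact Or.inl h
      · right
        intro ω hω
        obtain ⟨c, hc⟩ := htrans α ω
        apply h c
        rw [mem_conj_smul_stab, hc]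
        exact hω
    · rintro (h | h)
      · exact Or.inl h
      · right
        intro g hx
        rw [mem_conj_smul_stab] at hx
        exact h _ hx

end Cfsg.Agent.S4252
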