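import Cfsg.Statements.S4253

set_option autoImplicit false
open Cfsg
open scoped Pointwise

namespace Cfsg.Agent.S4253

theorem mem_conj_smul {G : Type*} [Group G] (H : Subgroup G) (c k : G) :
    k ∈ MulAut.conj c • H ↔ c⁻¹ * k * c ∈ H := by
  rw [Subgroup.mem_pointwise_smul_iff_inv_smul_mem]
  simp [MulAut.smul_def]

/-- Let H be a Frobenius complement in a finite group G (a nontrivial proper subgroup meeting each conjugate gHg⁻¹ with g outside H trivially). Then in the action of G on the left cosets of H by left multiplication, no non-identity element of G fixes two distinct cosets. -/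
theorem result {G : Type*} [Group G] [Finite G] (H : Subgroup G) (hH : Cfsg.IsFrobeniusComplement H)
    (g : G) (hg : g ≠ 1) (a b : G ⧸ H) (ha : g • a = a) (hb : g • b = b) : a = b := by
  induction a using QuotientGroup.induction_on with
  | H x =>
  induction b using QuotientGroup.induction_on with
  | H y =>
  rw [MulAction.Quotient.smul_mk, QuotientGroup.eq] at ha hb
  rw [QuotientGroup.eq]
  by_contra hc
  have h3 := hH.2.2 (x⁻¹ * y) hc
  have hk : (g * x)⁻¹ * x ∈ H ⊓ (MulAut.conj (x⁻¹ * y) • H) := by
    rw [Subgroup.mem_inf]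
    refine ⟨ha, ?_⟩
    rw [mem_conj_smul]
    have : (x⁻¹ * y)⁻¹ * ((g * x)⁻¹ * x) * (x⁻¹ * y) = (g * y)⁻¹ * y := by group
    rw [this]
    exact hb
  rw [h3, Subgroup.mem_bot] at hk
  apply hg
  have : g⁻¹ = 1 := by
    have h4 : (g * x)⁻¹ * x = x⁻¹ * g⁻¹ * x := by group
    rw [h4] at hk
    have h5 : g⁻¹ = x * (x⁻¹ * g⁻¹ * x) * x⁻¹ := by group
    rw [h5, hk]; group
  simpa using this

end Cfsg.Agent.S4253
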