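import Cfsg.Statements.S4261
import Cfsg.Agent.Lib.Helper71.MaxSolv

set_option autoImplicit false
open Cfsg

namespace Cfsg.Agent.S4261

open Cfsg.Agent.Lib.Helper71

/-- Let M be a maximal subgroup of a finite solvable group G such that x^[G : M] lies in M for every x in G. Then M is normal in G. -/
theorem result {G : Type*} [Group G] [Finite G] (hG : Group.IsSolvable G) (M : Subgroup G) (hM : IsCoatom M)
    (hexp : ∀ x : G, x ^ M.index ∈ M) : M.Normal := by
  obtain ⟨p, k, hp, hidx⟩ := index_eq_prime_pow_of_isCoatom M hM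
  have : Fact p.Prime := ⟨hp⟩
  have hpg : IsPGroup p (G ⧸ M.normalCore) := by
    intro y
    obtain ⟨x, rfl⟩ := QuotientGroup.mk_surjective y
    refine ⟨k, ?_⟩
    rw [← QuotientGroup.mk_pow, QuotientGroup.eq_one_iff]
    intro b
    have e : b * x ^ p ^ k * b⁻¹ = (b * x * b⁻¹) ^ p ^ k := by rw [conj_pow]
    rw [e, ← hidx]
    exact hexp _
  have hnil : Group.IsNilpotent (G ⧸ M.normalCore) := hpg.isNilpotent
  have hker : (QuotientGroup.mk' M.normalCore).ker ≤ M := by
    rw [QuotientGroup.ker_mk']; exact M.normalCore_le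
  have hcm : (M.map (QuotientGroup.mk' M.normalCore)).comap (QuotientGroup.mk' M.normalCore) = M :=
    Subgroup.comap_map_eq_self hker
  have hsurj : Function.Surjective (QuotientGroup.mk' M.normalCore) := QuotientGroup.mk'_surjective _
  have hlt : M.map (QuotientGroup.mk' M.normalCore) < ⊤ := by
    rw [lt_top_iff_ne_top]
    intro h
    apply hM.1
    rw [← hcm, h, Subgroup.comap_top]
  have h2 := Group.normalizerCondition_of_isNilpotent _ hlt
  have h3 : M < (Subgroup.normalizer
      ((M.map (QuotientGroup.mk' M.normalCore) : Subgroup (G ⧸ M.normalCore)) : Set (G ⧸ M.normalCore))).comap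
      (QuotientGroup.mk' M.normalCore) := by
    have := (Subgroup.comap_lt_comap_of_surjective hsurj).mpr h2
    rwa [hcm] at this
  have h4 := hM.2 _ h3
  have h5 : Subgroup.normalizer
      ((M.map (QuotientGroup.mk' M.normalCore) : Subgroup (G ⧸ M.normalCore)) : Set (G ⧸ M.normalCore)) = ⊤ := by
    apply Subgroup.comap_injective hsurj
    rw [h4, Subgroup.comap_top]
  have h6 : (M.map (QuotientGroup.mk' M.normalCore)).Normal := Subgroup.normalizer_eq_top_iff.mp h5
  rw [← hcm]
  exact h6.comap _

end Cfsg.Agent.S4261
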