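import Cfsg.Statements.S4263
import Cfsg.Agent.Lib.Helper71.Fitting

set_option autoImplicit false
open Cfsg

namespace Cfsg.Agent.S4263

open Cfsg.Agent.Lib.Helper71

/-- In a finite nilpotent group, `y ^ [N : K]` lies in `K` for every subgroup `K`. -/
theorem pow_index_mem_of_isNilpotent {N : Type*} [Group N] [Finite N] [Group.IsNilpotent N]
    (K : Subgroup N) (y : N) : y ^ K.index ∈ K := by
  induction K using WellFoundedGT.induction with
  | ind K ih =>
    by_cases hK : K = ⊤
    · rw [hK]; trivial
    · have hlt : K < Subgroup.normalizer (K : Set N) :=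
        Group.normalizerCondition_of_isNilpotent K (lt_top_iff_ne_top.mpr hK)
      have h1 := ih _ hlt
      have h2 : (y ^ (Subgroup.normalizer (K : Set N)).index) ^
          K.relIndex (Subgroup.normalizer (K : Set N)) ∈ K := by
        have : (K.subgroupOf (Subgroup.normalizer (K : Set N))).Normal :=
          Subgroup.normal_in_normalizer
        have h3 := Subgroup.pow_index_mem (K.subgroupOf (Subgroup.normalizer (K : Set N)))
          ⟨_, h1⟩
        exact h3
      rw [← pow_mul, mul_comm, Subgroup.relIndex_mul_index hlt.le] at h2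
      exact h2

theorem relIndex_dvd_index_of_normal_right {G : Type*} [Group G] [Finite G] (H F : Subgroup G)
    [F.Normal] : H.relIndex F ∣ H.index := by
  have e1 : F.relIndex (H ⊔ F) = F.relIndex H := Subgroup.relIndex_sup_right H F
  have a1 := Subgroup.relIndex_mul_relIndex (⊥ : Subgroup G) F (H ⊔ F) bot_le le_sup_right
  have a2 := Subgroup.relIndex_mul_relIndex (⊥ : Subgroup G) H (H ⊔ F) bot_le le_sup_left
  have a3 := Subgroup.relIndex_mul_relIndex (⊥ : Subgroup G) (H ⊓ F) H bot_le inf_le_left
  have a4 := Subgroup.relIndex_mul_relIndex (⊥ : Subgroup G) (H ⊓ F) F bot_le inf_le_right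
  rw [Subgroup.inf_relIndex_right] at a4
  rw [inf_comm, Subgroup.inf_relIndex_right] at a3
  rw [e1] at a1
  have hpos : 0 < (⊥ : Subgroup G).relIndex (F ⊓ H) := by
    rw [Subgroup.relIndex_bot_left]; exact Nat.card_pos
  have hpos2 : 0 < F.relIndex H :=
    Nat.pos_of_ne_zero (Subgroup.index_ne_zero_of_finite (H := F.subgroupOf H))
  have key : H.relIndex F = H.relIndex (H ⊔ F) := by
    rw [inf_comm] at a4
    have : (⊥ : Subgroup G).relIndex (F ⊓ H) * F.relIndex H * H.relIndex F
        = (⊥ : Subgroup G).relIndex (F ⊓ H) * F.relIndex H * H.relIndex (H ⊔ F) := by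
      calc (⊥ : Subgroup G).relIndex (F ⊓ H) * F.relIndex H * H.relIndex F
          = ((⊥ : Subgroup G).relIndex (F ⊓ H) * H.relIndex F) * F.relIndex H := by ring
        _ = (⊥ : Subgroup G).relIndex F * F.relIndex H := by rw [a4]
        _ = (⊥ : Subgroup G).relIndex (H ⊔ F) := a1
        _ = (⊥ : Subgroup G).relIndex H * H.relIndex (H ⊔ F) := a2.symm
        _ = (⊥ : Subgroup G).relIndex (F ⊓ H) * F.relIndex H * H.relIndex (H ⊔ F) := by rw [a3]
    exact Nat.eq_of_mul_eq_mul_left (Nat.mul_pos hpos hpos2) this
  rw [key]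
  exact Subgroup.relIndex_dvd_index_of_le le_sup_left

/-- Let G be a finite group. An element x lies in the Fitting subgroup F(G) if and only if, for every subgroup H of G, the power x^[G : H] lies in H. -/
theorem result {G : Type*} [Group G] [Finite G] (x : G) :
    x ∈ Cfsg.fittingSubgroup G ↔ ∀ H : Subgroup G, x ^ H.index ∈ H := by
  constructor
  · intro hx H
    have : Group.IsNilpotent (Cfsg.fittingSubgroup G) := fittingSubgroup_isNilpotent
    have h1 := pow_index_mem_of_isNilpotent (H.subgroupOf (Cfsg.fittingSubgroup G)) ⟨x, hx⟩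
    have h2 : x ^ H.relIndex (Cfsg.fittingSubgroup G) ∈ H := h1
    obtain ⟨k, hk⟩ := relIndex_dvd_index_of_normal_right H (Cfsg.fittingSubgroup G)
    rw [hk, pow_mul]
    exact H.pow_mem h2 k
  · intro h
    have hord : orderOf (QuotientGroup.mk x : G ⧸ Cfsg.fittingSubgroup G) = 1 := by
      by_contra hne
      obtain ⟨p, hp, hpd⟩ := Nat.exists_prime_and_dvd hne
      have : Fact p.Prime := ⟨hp⟩
      obtain ⟨P⟩ : Nonempty (Sylow p G) := inferInstance
      have h1 : x ^ (P : Subgroup G).index ∈ (P : Subgroup G).normalCore := by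
        intro b
        have := h ((P : Subgroup G).comap (MulAut.conj b).toMonoidHom)
        rw [Subgroup.index_comap_of_surjective _ (MulAut.conj b).surjective] at this
        simpa using this
      have h2 : (P : Subgroup G).normalCore ≤ Cfsg.fittingSubgroup G := by
        apply le_fittingSubgroup
        exact (P.2.to_le (Subgroup.normalCore_le _)).isNilpotent
      have h3 : (QuotientGroup.mk x : G ⧸ Cfsg.fittingSubgroup G) ^ (P : Subgroup G).index = 1 := by
        rw [← QuotientGroup.mk_pow, QuotientGroup.eq_one_iff]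
        exact h2 h1
      have h4 := orderOf_dvd_of_pow_eq_one h3
      exact P.not_dvd_index (hpd.trans h4)
    rw [orderOf_eq_one_iff, QuotientGroup.eq_one_iff] at hord
    exact hord

end Cfsg.Agent.S4263
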