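import Cfsg.Statements.S4269

set_option autoImplicit false
open Cfsg

namespace Cfsg.Agent.S4269

open scoped commutatorElement Pointwise

variable {G : Type*} [Group G]

theorem mem_map_conj (H : Subgroup G) (g y : G) :
    y ∈ H.map (MulAut.conj g).toMonoidHom ↔ g⁻¹ * y * g ∈ H := by
  rw [Subgroup.mem_map_equiv]
  simp [MulAut.conj_symm_apply]

theorem conj_mem_map_conj (H : Subgroup G) (g h : G) (hh : h ∈ H) :
    g * h * g⁻¹ ∈ H.map (MulAut.conj g).toMonoidHom := by
  rw [mem_map_conj]
  simpa [mul_assoc] using hh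

theorem map_conj_mul (H : Subgroup G) (a b : G) :
    H.map (MulAut.conj (a * b)).toMonoidHom =
      (H.map (MulAut.conj b).toMonoidHom).map (MulAut.conj a).toMonoidHom := by
  ext y
  simp only [mem_map_conj]
  have e : (a * b)⁻¹ * y * (a * b) = b⁻¹ * (a⁻¹ * y * a) * b := by group
  rw [e]

theorem map_conj_of_mem (H : Subgroup G) (h : G) (hh : h ∈ H) :
    H.map (MulAut.conj h).toMonoidHom = H := by
  ext y
  rw [mem_map_conj]
  constructor
  · intro hy
    have := H.mul_mem (H.mul_mem hh hy) (H.inv_mem hh)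
    simpa [mul_assoc] using this
  · intro hy
    exact H.mul_mem (H.mul_mem (H.inv_mem hh) hy) hh

theorem map_conj_eq_iff (H : Subgroup G) (a b : G) :
    H.map (MulAut.conj a).toMonoidHom = H.map (MulAut.conj b).toMonoidHom ↔
      b⁻¹ * a ∈ Subgroup.normalizer (H : Set G) := by
  rw [Subgroup.mem_normalizer_iff]
  constructor
  · intro h k
    have h1 := SetLike.ext_iff.mp h (a * k * a⁻¹)
    rw [mem_map_conj, mem_map_conj] at h1
    have e1 : a⁻¹ * (a * k * a⁻¹) * a = k := by group
    have e2 : b⁻¹ * (a * k * a⁻¹) * b = b⁻¹ * a * k * (b⁻¹ * a)⁻¹ := by group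
    rw [e1, e2] at h1
    exact h1
  · intro h
    ext y
    rw [mem_map_conj, mem_map_conj]
    have h1 := h (a⁻¹ * y * a)
    have e2 : b⁻¹ * a * (a⁻¹ * y * a) * (b⁻¹ * a)⁻¹ = b⁻¹ * y * b := by group
    rw [e2] at h1
    exact h1

theorem comm_le_of_invariant (H U : Subgroup G)
    (hU : ∀ h ∈ H, U.map (MulAut.conj h).toMonoidHom = U) : ⁅H, U⁆ ≤ U := by
  rw [Subgroup.commutator_le]
  intro h hh u hu
  have h1 : h * u * h⁻¹ ∈ U := by
    have := conj_mem_map_conj U h u hu
    rwa [hU h hh] at this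
  exact U.mul_mem h1 (U.inv_mem hu)

theorem pronormal_imp (H : Subgroup G) (hpro : Cfsg.IsPronormal H) (U : Subgroup G)
    (hU : ∀ h ∈ H, U.map (MulAut.conj h).toMonoidHom = U) :
    U = (U ⊓ Subgroup.normalizer (H : Set G)) ⊔ ⁅H, U⁆ := by
  have hcU := comm_le_of_invariant H U hU
  apply le_antisymm
  · intro u hu
    obtain ⟨x, hx, hxeq⟩ := hpro u
    have hK : H ⊔ H.map (MulAut.conj u).toMonoidHom ≤ ⁅H, U⁆ ⊔ H := by
      apply sup_le le_sup_right
      intro y hy
      rw [mem_map_conj] at hy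
      have e : y = (⁅u⁻¹ * y * u, u⁆)⁻¹ * (u⁻¹ * y * u) := by
        simp only [commutatorElement_def]; group
      rw [e]
      exact Subgroup.mul_mem _
        (Subgroup.inv_mem _ (le_sup_left (a := ⁅H, U⁆) (Subgroup.commutator_mem_commutator hy hu)))
        (le_sup_right (a := ⁅H, U⁆) hy)
    have hx' := hK hx
    rw [← SetLike.mem_coe, Subgroup.coe_mul_of_right_le_normalizer_left _ _
      (Subgroup.normalizer_commutator_ge_left H U)] at hx'
    obtain ⟨c, hc, h, hh, rfl⟩ := hx'
    rw [map_conj_mul, map_conj_of_mem H h hh, map_conj_eq_iff] at hxeq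
    have hcU' : c ∈ U := hcU hc
    have e : u = c * (c⁻¹ * u) := by group
    rw [e]
    exact Subgroup.mul_mem _ (le_sup_right (a := U ⊓ Subgroup.normalizer (H : Set G)) hc)
      (le_sup_left (b := ⁅H, U⁆) ⟨U.mul_mem (U.inv_mem hcU') hu, hxeq⟩)
  · exact sup_le inf_le_left hcU

/-- Let G be a finite group, V an abelian normal subgroup and H a subgroup with HV = G. Then H is pronormal in G (H and gHg⁻¹ are conjugate inside the subgroup they generate, for every g) if and only if every H-invariant subgroup U of V satisfies U = N_U(H)·[H, U], that is, U is the join of U ∩ N_G(H) and the commutator subgroup [H, U]. -/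
theorem result {G : Type*} [Group G] [Finite G]
    (V : Subgroup G) [V.Normal] (hV : IsMulCommutative ↥V) (H : Subgroup G) (hHV : H ⊔ V = ⊤) :
    Cfsg.IsPronormal H ↔
      ∀ U : Subgroup G, U ≤ V → (∀ h ∈ H, U.map (MulAut.conj h).toMonoidHom = U) →
        U = (U ⊓ Subgroup.normalizer (H : Set G)) ⊔ ⁅H, U⁆ := by
  constructor
  · intro hpro U _ hU
    exact pronormal_imp H hpro U hU
  · intro hR g
    have hcomm : ∀ a ∈ V, ∀ b ∈ V, a * b = b * a := fun a ha b hb =>
      setLike_mul_comm ha hb
    have hg : g ∈ V ⊔ H := by rw [sup_comm, hHV]; trivial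
    rw [← SetLike.mem_coe, Subgroup.normal_mul] at hg
    obtain ⟨v, hv, h, hh, rfl⟩ := hg
    rw [map_conj_mul, map_conj_of_mem H h hh]
    -- the H-closure of v
    set S : Set G := {y | ∃ k ∈ H, y = k * v * k⁻¹} with hS
    set U : Subgroup G := Subgroup.closure S with hUdef
    have hUV : U ≤ V := by
      rw [hUdef, Subgroup.closure_le]
      rintro y ⟨k, _, rfl⟩
      exact Subgroup.Normal.conj_mem inferInstance v hv k
    have hUinv : ∀ k ∈ H, U.map (MulAut.conj k).toMonoidHom = U := by
      intro k hk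
      rw [hUdef, MonoidHom.map_closure]
      congr 1
      ext y
      constructor
      · rintro ⟨s, ⟨k', hk', rfl⟩, rfl⟩
        refine ⟨k * k', H.mul_mem hk hk', ?_⟩
        simp only [MulEquiv.coe_toMonoidHom, MulAut.conj_apply]
        group
      · rintro ⟨k', hk', rfl⟩
        refine ⟨k⁻¹ * k' * v * (k⁻¹ * k')⁻¹, ⟨k⁻¹ * k', H.mul_mem (H.inv_mem hk) hk', rfl⟩, ?_⟩
        simp only [MulEquiv.coe_toMonoidHom, MulAut.conj_apply]
        group
    have hU := hR U hUV hUinv
    have hvU : v ∈ U := Subgroup.subset_closure ⟨1, H.one_mem, by simp⟩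
    have hcU : ⁅H, U⁆ ≤ U := comm_le_of_invariant H U hUinv
    -- decompose v
    have hnorm : U ⊓ Subgroup.normalizer (H : Set G) ≤ Subgroup.normalizer ((⁅H, U⁆ : Subgroup G) : Set G) := by
      intro n hn
      have hnV : n ∈ V := hUV hn.1
      rw [Subgroup.mem_normalizer_iff]
      intro y
      constructor
      · intro hy
        have hyV : y ∈ V := hUV (hcU hy)
        have e : n * y * n⁻¹ = y := by rw [hcomm n hnV y hyV]; group
        rw [e]; exact hy
      · intro hy
        have hyV : n * y * n⁻¹ ∈ V := hUV (hcU hy)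
        have hyV' : y ∈ V := by
          have := V.mul_mem (V.mul_mem (V.inv_mem hnV) hyV) hnV
          have e : n⁻¹ * (n * y * n⁻¹) * n = y := by group
          rwa [e] at this
        have e : n * y * n⁻¹ = y := by rw [hcomm n hnV y hyV']; group
        rwa [e] at hy
    have hv2 : v ∈ (U ⊓ Subgroup.normalizer (H : Set G)) ⊔ ⁅H, U⁆ := by rw [← hU]; exact hvU
    rw [← SetLike.mem_coe, Subgroup.coe_mul_of_left_le_normalizer_right _ _ hnorm] at hv2
    obtain ⟨n, hn, c, hc, hnc⟩ := hv2
    have hnV : n ∈ V := hUV hn.1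
    have hcV : c ∈ V := hUV (hcU hc)
    have hvc : v = c * n := by rw [← hnc]; exact hcomm n hnV c hcV
    have hn2 : H.map (MulAut.conj n).toMonoidHom = H := by
      have := (map_conj_eq_iff H n 1).mpr (by simpa using hn.2)
      rw [this]
      exact map_conj_of_mem H 1 H.one_mem
    have heq : H.map (MulAut.conj v).toMonoidHom = H.map (MulAut.conj c).toMonoidHom := by
      rw [hvc, map_conj_mul, hn2]
    refine ⟨c, ?_, heq⟩
    -- c lies in the join
    have hkey : ⁅H, U⁆ ≤ H ⊔ H.map (MulAut.conj v).toMonoidHom := by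
      rw [Subgroup.commutator_le]
      intro k hk u hu
      have hbase : ∀ a ∈ H, ⁅a, v⁆ ∈ H ⊔ H.map (MulAut.conj v).toMonoidHom := by
        intro a ha
        have e : ⁅a, v⁆ = a * (v * a⁻¹ * v⁻¹) := by simp only [commutatorElement_def]; group
        rw [e]
        exact Subgroup.mul_mem _ (le_sup_left (b := H.map (MulAut.conj v).toMonoidHom) ha)
          (le_sup_right (a := H) (conj_mem_map_conj H v a⁻¹ (H.inv_mem ha)))
      have hcomV : ∀ w ∈ V, ⁅k, w⁆ ∈ V := by
        intro w hw
        exact V.mul_mem (Subgroup.Normal.conj_mem inferInstance w hw k) (V.inv_mem hw)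
      induction hu using Subgroup.closure_induction with
      | mem y hy =>
        obtain ⟨k', hk', rfl⟩ := hy
        have e : ⁅k, k' * v * k'⁻¹⁆ = ⁅k * k', v⁆ * (⁅k', v⁆)⁻¹ := by
          simp only [commutatorElement_def]; group
        rw [e]
        exact Subgroup.mul_mem _ (hbase _ (H.mul_mem hk hk')) (Subgroup.inv_mem _ (hbase _ hk'))
      | one => simp
      | mul x y hx hy ihx ihy =>
        have hxV : x ∈ V := hUV hx
        have hyV : y ∈ V := hUV hy
        rw [commutatorElement_mul_right_eq_mul_conj]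
        have e : ⁅k, x⁆ * x * ⁅k, y⁆ * x⁻¹ = ⁅k, x⁆ * ⁅k, y⁆ := by
          rw [mul_assoc ⁅k, x⁆, hcomm x hxV _ (hcomV y hyV)]; group
        rw [e]
        exact Subgroup.mul_mem _ ihx ihy
      | inv x hx ihx =>
        have hxV : x ∈ V := hUV hx
        rw [commutatorElement_inv_right]
        have h1 : ⁅x, k⁆ ∈ V := by
          rw [← commutatorElement_inv]; exact V.inv_mem (hcomV x hxV)
        have e : x⁻¹ * ⁅x, k⁆ * x = ⁅x, k⁆ := by
          rw [mul_assoc, ← hcomm x hxV _ h1]; group
        rw [e, ← commutatorElement_inv]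
        exact Subgroup.inv_mem _ ihx
    exact hkey hc

end Cfsg.Agent.S4269
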