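import Cfsg.Statements.S4270
import Cfsg.Agent.Lib.Helper90.PronormalKMR

set_option autoImplicit false
open Cfsg

namespace Cfsg.Agent.S4270

open Cfsg.Agent.Lib.Helper90

/-- Let p be a prime and G a finite group with a normal subgroup A such that, both in A and in G/A, every subgroup containing a Sylow p-subgroup of that group is pronormal in that group. Let T be a Sylow p-subgroup of A. Then every subgroup of G containing a Sylow p-subgroup of G is pronormal in G if and only if (i) every subgroup of N_G(T)/T containing a Sylow p-subgroup of N_G(T)/T is pronormal there, and (ii) for every subgroup H of G containing a Sylow p-subgroup of G, the image of N_G(H) in G/A is the full normalizer of the image of H. (Pronormal: H and gHg⁻¹ are conjugate inside the subgroup they generate, for every g.) -/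
theorem result {G : Type*} [Group G] [Finite G] {p : ℕ} [Fact p.Prime]
    (A : Subgroup G) [A.Normal] (hA : (∀ K : Subgroup ↥A, (∃ P : Sylow p ↥A, (P : Subgroup ↥A) ≤ K) → Cfsg.IsPronormal K)) (hQ : (∀ K : Subgroup (G ⧸ A), (∃ P : Sylow p (G ⧸ A), (P : Subgroup (G ⧸ A)) ≤ K) → Cfsg.IsPronormal K))
    (T : Subgroup G) (hT : ∃ P : Sylow p ↥A, (P : Subgroup ↥A).map A.subtype = T) [(T.subgroupOf (Subgroup.normalizer (T : Set G))).Normal] :
    (∀ K : Subgroup G, (∃ P : Sylow p G, (P : Subgroup G) ≤ K) → Cfsg.IsPronormal K) ↔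
      ((∀ K : Subgroup (↥(Subgroup.normalizer (T : Set G)) ⧸ T.subgroupOf (Subgroup.normalizer (T : Set G))), (∃ P : Sylow p (↥(Subgroup.normalizer (T : Set G)) ⧸ T.subgroupOf (Subgroup.normalizer (T : Set G))), (P : Subgroup (↥(Subgroup.normalizer (T : Set G)) ⧸ T.subgroupOf (Subgroup.normalizer (T : Set G)))) ≤ K) → Cfsg.IsPronormal K) ∧
        ∀ K : Subgroup G, (∃ P : Sylow p G, (P : Subgroup G) ≤ K) →
          (Subgroup.normalizer (K : Set G)).map (QuotientGroup.mk' A) = Subgroup.normalizer ((K.map (QuotientGroup.mk' A) : Subgroup (G ⧸ A)) : Set (G ⧸ A))) := by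
  constructor
  · intro hG
    refine ⟨sylOver_quot_of A T hT hG, ?_⟩
    rintro K hK
    have hKp := hG K hK
    apply le_antisymm
    · rintro _ ⟨g, hg, rfl⟩
      rw [Subgroup.mem_normalizer_iff_map_conj_eq]
      have h3 := map_cj (QuotientGroup.mk' A) K g
      rw [cj_of_mem_normalizer _ g hg] at h3
      exact h3.symm
    · intro q hq
      obtain ⟨g, rfl⟩ := QuotientGroup.mk'_surjective A q
      rw [Subgroup.mem_normalizer_iff_map_conj_eq] at hq
      have h3 : (K.map (MulAut.conj g).toMonoidHom).map (QuotientGroup.mk' A)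
          = K.map (QuotientGroup.mk' A) := (map_cj (QuotientGroup.mk' A) K g).trans hq
      have h4 : K.map (MulAut.conj g).toMonoidHom ≤ K ⊔ A := by
        have h5 := Subgroup.le_comap_map (QuotientGroup.mk' A) (K.map (MulAut.conj g).toMonoidHom)
        rw [h3, Subgroup.comap_map_eq, QuotientGroup.ker_mk'] at h5
        exact h5
      obtain ⟨x, hx, hxK⟩ := hKp g
      have hxKA : x ∈ K ⊔ A := (sup_le le_sup_left h4) hx
      have hn := mem_normalizer_of_cj_eq K g x hxK
      rw [← SetLike.mem_coe, Subgroup.mul_normal, Set.mem_mul] at hxKA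
      obtain ⟨k, hk, a, ha, rfl⟩ := hxKA
      refine ⟨k * ((k * a)⁻¹ * g), Subgroup.mul_mem _ (Subgroup.le_normalizer hk) hn, ?_⟩
      have ha1 : QuotientGroup.mk' A a = 1 := by
        rw [← MonoidHom.mem_ker, QuotientGroup.ker_mk']
        exact ha
      rw [map_mul, map_mul, map_inv, map_mul, ha1, mul_one, mul_inv_cancel_left]
  · rintro ⟨hN, hnorm⟩ K ⟨P, hPK⟩
    obtain ⟨c, S, hSH, hTS⟩ := exists_conj_over A T hT K P hPK
    apply isPronormal_of_cj K c
    obtain ⟨H, hH⟩ : ∃ H : Subgroup G, H = K.map (MulAut.conj c).toMonoidHom := ⟨_, rfl⟩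
    rw [← hH] at hSH ⊢
    intro g
    have hbar : Cfsg.IsPronormal (H.map (QuotientGroup.mk' A)) := by
      apply hQ _ ⟨Sylow.mapSurjective (QuotientGroup.mk'_surjective A) S, ?_⟩
      rw [Sylow.coe_mapSurjective]
      exact Subgroup.map_mono hSH
    obtain ⟨ub, hub, hubH⟩ := hbar (QuotientGroup.mk' A g)
    rw [← map_cj, ← Subgroup.map_sup] at hub
    obtain ⟨u, hu, rfl⟩ := hub
    have hn := mem_normalizer_of_cj_eq _ _ _ hubH
    rw [← hnorm H ⟨S, hSH⟩] at hn
    obtain ⟨n, hn, hnq⟩ := hn
    have haA : u⁻¹ * g * n⁻¹ ∈ A := by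
      rw [← QuotientGroup.ker_mk' A, MonoidHom.mem_ker, map_mul, map_mul, map_inv, map_inv, hnq]
      group
    apply pron_chain H g u (u⁻¹ * g * n⁻¹ * n) (by group) hu
    have e : H.map (MulAut.conj (u⁻¹ * g * n⁻¹ * n)).toMonoidHom
        = H.map (MulAut.conj (u⁻¹ * g * n⁻¹)).toMonoidHom := by
      rw [cj_mul, cj_of_mem_normalizer _ n hn]
    rw [e]
    exact core_pron A T hT hA hN H S hSH hTS _ haA

end Cfsg.Agent.S4270
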