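import Cfsg.Statements.S4331

set_option autoImplicit false
open Cfsg

namespace Cfsg.Agent.S4331

/-- Parameters `(x, y, e, a, b)` of the map `z ↦ (x + y i) * conj^e z + (a + b i)` on the field
of nine elements, `i ^ 2 = -1`, where `e = 1` means no conjugation and `e = -1` conjugation. -/
abbrev Raw := ZMod 3 × ZMod 3 × ZMod 3 × ZMod 3 × ZMod 3

def good (g : Raw) : Prop := g.2.2.1 ≠ 0 ∧ (g.1 ≠ 0 ∨ g.2.1 ≠ 0)

instance : DecidablePred good := fun g => by unfold good; infer_instance

def rmul (g h : Raw) : Raw :=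
  (g.1 * h.1 - g.2.1 * g.2.2.1 * h.2.1, g.1 * g.2.2.1 * h.2.1 + g.2.1 * h.1, g.2.2.1 * h.2.2.1,
    g.1 * h.2.2.2.1 - g.2.1 * g.2.2.1 * h.2.2.2.2 + g.2.2.2.1,
    g.1 * g.2.2.1 * h.2.2.2.2 + g.2.1 * h.2.2.2.1 + g.2.2.2.2)

def rinv (g : Raw) : Raw :=
  ((g.1 * g.1 + g.2.1 * g.2.1) * g.1, -(g.2.2.1 * (g.1 * g.1 + g.2.1 * g.2.1) * g.2.1), g.2.2.1,
    -((g.1 * g.1 + g.2.1 * g.2.1) * (g.1 * g.2.2.2.1 + g.2.1 * g.2.2.2.2)),
    -(g.2.2.1 * (g.1 * g.1 + g.2.1 * g.2.1) * (g.1 * g.2.2.2.2 - g.2.1 * g.2.2.2.1)))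

def rone : Raw := (1, 0, 1, 0, 0)

theorem good_mul_aux : ∀ g h : ZMod 3 × ZMod 3 × ZMod 3,
    (g.2.2 ≠ 0 ∧ (g.1 ≠ 0 ∨ g.2.1 ≠ 0)) → (h.2.2 ≠ 0 ∧ (h.1 ≠ 0 ∨ h.2.1 ≠ 0)) →
    (g.2.2 * h.2.2 ≠ 0 ∧ (g.1 * h.1 - g.2.1 * g.2.2 * h.2.1 ≠ 0 ∨
      g.1 * g.2.2 * h.2.1 + g.2.1 * h.1 ≠ 0)) := by decide +kernel

theorem good_mul (g h : Raw) (hg : good g) (hh : good h) : good (rmul g h) := by
  obtain ⟨x, y, e, p, q⟩ := g
  obtain ⟨x', y', e', p', q'⟩ := h
  exact good_mul_aux (x, y, e) (x', y', e') hg hh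

theorem good_inv : ∀ g : Raw, good g → good (rinv g) := by decide +kernel

theorem good_one : good rone := by decide +kernel

theorem rinv_mul : ∀ g : Raw, good g → rmul (rinv g) g = rone := by decide +kernel

theorem sq_eq : ∀ g : Raw, good g → g.2.2.1 = 1 ∨ g.2.2.1 = -1 := by decide +kernel

theorem rmul_assoc (a b c : Raw) (ha : a.2.2.1 = 1 ∨ a.2.2.1 = -1) :
    rmul (rmul a b) c = rmul a (rmul b c) := by
  obtain ⟨x, y, e, p, q⟩ := a
  obtain ⟨x', y', e', p', q'⟩ := b
  obtain ⟨x'', y'', e'', p'', q''⟩ := c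
  simp only [rmul] at *
  rcases ha with rfl | rfl <;>
    (simp only [Prod.mk.injEq]; refine ⟨?_, ?_, ?_, ?_, ?_⟩ <;> ring)

theorem rone_mul (a : Raw) : rmul rone a = a := by
  obtain ⟨x, y, e, p, q⟩ := a
  simp [rmul, rone]

/-- The group of order 144 of semilinear affine maps of the field of nine elements. -/
abbrev G : Type := {g : Raw // good g}

instance instDecEqG : DecidableEq G := inferInstanceAs (DecidableEq {g : Raw // good g})
instance instFintypeG : Fintype G := inferInstanceAs (Fintype {g : Raw // good g})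

instance : Mul G := ⟨fun g h => ⟨rmul g.1 h.1, good_mul g.1 h.1 g.2 h.2⟩⟩
instance : One G := ⟨⟨rone, good_one⟩⟩
instance : Inv G := ⟨fun g => ⟨rinv g.1, good_inv g.1 g.2⟩⟩

instance instGroupG : Group G :=
  Group.ofLeftAxioms
    (fun a b c => Subtype.ext (rmul_assoc a.1 b.1 c.1 (sq_eq a.1 a.2)))
    (fun a => Subtype.ext (rone_mul a.1))
    (fun a => Subtype.ext (rinv_mul a.1 a.2))

/-- The stabilizer of `0`: a semidihedral group of order 16. -/
def isT (g : G) : Prop := g.1.2.2.2.1 = 0 ∧ g.1.2.2.2.2 = 0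
instance : DecidablePred isT := fun g => by unfold isT; infer_instance

/-- The translations. -/
def isF (g : G) : Prop := g.1.1 = 1 ∧ g.1.2.1 = 0 ∧ g.1.2.2.1 = 1
instance : DecidablePred isF := fun g => by unfold isF; infer_instance

/-- The maps without conjugation. -/
def isL (g : G) : Prop := g.1.2.2.1 = 1
instance : DecidablePred isL := fun g => by unfold isL; infer_instance

/-- Conjugation `z ↦ conj z`. -/
def a : G := ⟨(1, 0, -1, 0, 0), by decide +kernel⟩

theorem isT_mul : ∀ g h : G, isT g → isT h → isT (g * h) := by decide +kernel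
theorem isT_one : isT (1 : G) := by decide +kernel
theorem isT_inv : ∀ g : G, isT g → isT g⁻¹ := by decide +kernel
theorem isT_pow : ∀ g : G, isT g → g ^ 8 = 1 := by decide +kernel
theorem isT_a : isT a := by decide +kernel
theorem a_sq : a ^ 2 = 1 := by decide +kernel
theorem a_ne_one : a ≠ 1 := by decide +kernel

theorem isF_mul : ∀ g h : G, isF g → isF h → isF (g * h) := by decide +kernel
theorem isF_one : isF (1 : G) := by decide +kernel
theorem isF_inv : ∀ g : G, isF g → isF g⁻¹ := by decide +kernel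
theorem isF_cube : ∀ g : G, isF g → g ^ 3 = 1 := by decide +kernel
theorem isF_conj : ∀ f : G, isF f → ∀ n : G, isF (n * f * n⁻¹ * f⁻¹) := by decide +kernel
theorem isF_cent : ∀ n : G, (∀ f : G, isF f → n * f * n⁻¹ * f⁻¹ = 1) → isF n := by
  decide +kernel

theorem isL_mul : ∀ g h : G, isL g → isL h → isL (g * h) := by decide +kernel
theorem isL_one : isL (1 : G) := by decide +kernel
theorem isL_inv : ∀ g : G, isL g → isL g⁻¹ := by decide +kernel

theorem comm_L : ∀ g h : G, isL (g * h * g⁻¹ * h⁻¹) := by decide +kernel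
theorem comm_F : ∀ g h : G, isL g → isL h → isF (g * h * g⁻¹ * h⁻¹) := by decide +kernel
theorem comm_one : ∀ g h : G, isF g → isF h → g * h * g⁻¹ * h⁻¹ = 1 := by decide +kernel

/-- Every element is conjugate into the stabilizer of `0` or into the centralizer of `a`. -/
theorem conj_good : ∀ c : G, ∃ h : G, isT (h * c * h⁻¹) ∨ (h * c * h⁻¹) * a = a * (h * c * h⁻¹) := by
  decide +kernel

def T : Subgroup G where
  carrier := {g | isT g}
  mul_mem' := fun {g h} hg hh => isT_mul g h hg hh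
  one_mem' := isT_one
  inv_mem' := fun {g} hg => isT_inv g hg

def F : Subgroup G where
  carrier := {g | isF g}
  mul_mem' := fun {g h} hg hh => isF_mul g h hg hh
  one_mem' := isF_one
  inv_mem' := fun {g} hg => isF_inv g hg

def L : Subgroup G where
  carrier := {g | isL g}
  mul_mem' := fun {g h} hg hh => isL_mul g h hg hh
  one_mem' := isL_one
  inv_mem' := fun {g} hg => isL_inv g hg

theorem solvable : Group.IsSolvable G := by
  rw [Group.isSolvable_def]
  refine ⟨3, ?_⟩
  have h1 : derivedSeries G 1 ≤ L := by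
    rw [derivedSeries_succ, derivedSeries_zero, Subgroup.commutator_le]
    intro g _ h _
    rw [commutatorElement_def]
    exact comm_L g h
  have h2 : derivedSeries G 2 ≤ F := by
    rw [derivedSeries_succ]
    refine (Subgroup.commutator_mono h1 h1).trans ?_
    rw [Subgroup.commutator_le]
    intro g hg h hh
    rw [commutatorElement_def]
    exact comm_F g h hg hh
  rw [derivedSeries_succ, eq_bot_iff]
  refine (Subgroup.commutator_mono h2 h2).trans ?_
  rw [Subgroup.commutator_le]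
  intro g hg h hh
  rw [Subgroup.mem_bot, commutatorElement_def]
  exact comm_one g h hg hh

theorem isSubnormal_of_normalizerCondition {H : Type*} [Group H] [Finite H]
    (h : NormalizerCondition H) (K : Subgroup H) : K.IsSubnormal := by
  induction K using WellFoundedGT.induction with
  | ind K ih =>
    by_cases hK : K = ⊤
    · subst hK; exact Subgroup.IsSubnormal.top
    · have hlt : K < Subgroup.normalizer (K : Set H) := h K (lt_top_iff_ne_top.mpr hK)
      exact Subgroup.IsSubnormal.step K _ hlt.le (ih _ hlt) Subgroup.normal_in_normalizer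

theorem isPGroup_T : IsPGroup 2 T := by
  rintro ⟨g, hg⟩
  refine ⟨3, Subtype.ext ?_⟩
  have := isT_pow g hg
  simpa using this

theorem eq_one_of_pow {x : G} (h3 : x ^ 3 = 1) (k : ℕ) (h2 : x ^ 2 ^ k = 1) : x = 1 := by
  have hc : Nat.Coprime 3 (2 ^ k) := Nat.Coprime.pow_right k (by norm_num)
  have := Nat.eq_one_of_dvd_coprimes hc (orderOf_dvd_of_pow_eq_one h3)
    (orderOf_dvd_of_pow_eq_one h2)
  exact orderOf_eq_one_iff.mp this

theorem pCore_eq_bot : Cfsg.pCore 2 G = ⊥ := by
  unfold Cfsg.pCore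
  rw [sSup_eq_bot]
  rintro N ⟨hN, hpN⟩
  rw [eq_bot_iff]
  intro n hn
  rw [Subgroup.mem_bot]
  have hcomm : ∀ f : G, isF f → n * f * n⁻¹ * f⁻¹ = 1 := by
    intro f hf
    have h1 : n * f * n⁻¹ * f⁻¹ ∈ N := by
      have : n * f * n⁻¹ * f⁻¹ = n * (f * n⁻¹ * f⁻¹) := by group
      rw [this]
      exact N.mul_mem hn (hN.conj_mem _ (N.inv_mem hn) f)
    have h3 : (n * f * n⁻¹ * f⁻¹) ^ 3 = 1 := isF_cube _ (isF_conj f hf n)
    obtain ⟨k, hk⟩ := hpN ⟨_, h1⟩
    have hk' : (n * f * n⁻¹ * f⁻¹) ^ 2 ^ k = 1 := by simpa using congrArg Subtype.val hk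
    exact eq_one_of_pow h3 k hk'
  have h3 : n ^ 3 = 1 := isF_cube n (isF_cent n hcomm)
  obtain ⟨k, hk⟩ := hpN ⟨n, hn⟩
  have hk' : n ^ 2 ^ k = 1 := by simpa using congrArg Subtype.val hk
  exact eq_one_of_pow h3 k hk'

/-- There is a finite solvable group G with a subgroup A of order 2 such that every conjugacy class of G contains an element g for which A is subnormal in the subgroup generated by A and g, and yet A is not contained in O_2(G). (So the corresponding criteria for odd primes fail at the prime 2, even for solvable groups.) -/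
theorem result :
    ∃ (G : Type) (_ : Group G) (_ : Finite G) (A : Subgroup G), Group.IsSolvable G ∧ Nat.card A = 2 ∧
      (∀ c : G, ∃ g : G, IsConj c g ∧ (A.subgroupOf (A ⊔ Subgroup.zpowers g)).IsSubnormal) ∧
      ¬ A ≤ Cfsg.pCore 2 G := by
  refine ⟨G, inferInstance, inferInstance, Subgroup.zpowers a, solvable, ?_, ?_, ?_⟩
  · rw [Nat.card_zpowers]
    exact orderOf_eq_prime a_sq a_ne_one
  · intro c
    obtain ⟨h, hh⟩ := conj_good c
    refine ⟨h * c * h⁻¹, isConj_iff.mpr ⟨h, rfl⟩, ?_⟩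
    rcases hh with hT | hcomm
    · have hle : Subgroup.zpowers a ⊔ Subgroup.zpowers (h * c * h⁻¹) ≤ T :=
        sup_le (Subgroup.zpowers_le.mpr isT_a) (Subgroup.zpowers_le.mpr hT)
      have hp : IsPGroup 2 (Subgroup.zpowers a ⊔ Subgroup.zpowers (h * c * h⁻¹) : Subgroup G) :=
        isPGroup_T.to_le hle
      have hnil : Group.IsNilpotent
          (Subgroup.zpowers a ⊔ Subgroup.zpowers (h * c * h⁻¹) : Subgroup G) := hp.isNilpotent
      exact isSubnormal_of_normalizerCondition Group.normalizerCondition_of_isNilpotent _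
    · apply Subgroup.Normal.isSubnormal
      rw [Subgroup.normal_subgroupOf_iff_le_normalizer le_sup_left]
      apply sup_le Subgroup.le_normalizer
      refine le_trans ?_ (Subgroup.centralizer_le_normalizer _)
      rw [Subgroup.zpowers_le, Subgroup.mem_centralizer_iff]
      intro z hz
      obtain ⟨j, rfl⟩ := Subgroup.mem_zpowers_iff.mp hz
      have hc : Commute (h * c * h⁻¹) a := hcomm
      exact (hc.zpow_right j).eq.symm
  · intro hA
    rw [pCore_eq_bot] at hA
    have : a ∈ (⊥ : Subgroup G) := hA (Subgroup.mem_zpowers a)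
    exact a_ne_one (Subgroup.mem_bot.mp this)

end Cfsg.Agent.S4331
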