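import Cfsg.Statements.S4332

set_option autoImplicit false
open Cfsg
open Pointwise

namespace Cfsg.Agent.S4332

open Equiv

/-- The possible cycle types in the symmetric group of degree 8. -/
def typeList : List (Multiset ℕ) := [0, {2}, {3}, {4}, {5}, {6}, {7}, {8}, {2, 2}, {2, 3}, {2, 4}, {2, 5}, {2, 6}, {3, 3}, {3, 4}, {3, 5}, {4, 4}, {2, 2, 2}, {2, 2, 3}, {2, 2, 4}, {2, 3, 3}, {2, 2, 2, 2}]

theorem wit0 : ∃ g : Perm (Fin 8), g.cycleType = (0 : Multiset ℕ) ∧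
    g * c[(0 : Fin 8), 1, 2] * g⁻¹ * c[(0 : Fin 8), 1, 2] = c[(0 : Fin 8), 1, 2] * (g * c[(0 : Fin 8), 1, 2] * g⁻¹) :=
  ⟨1, by decide +kernel, by decide +kernel⟩

theorem wit1 : ∃ g : Perm (Fin 8), g.cycleType = ({2} : Multiset ℕ) ∧
    g * c[(0 : Fin 8), 1, 2] * g⁻¹ * c[(0 : Fin 8), 1, 2] = c[(0 : Fin 8), 1, 2] * (g * c[(0 : Fin 8), 1, 2] * g⁻¹) :=
  ⟨c[(3 : Fin 8), 4], by decide +kernel, by decide +kernel⟩

theorem wit2 : ∃ g : Perm (Fin 8), g.cycleType = ({3} : Multiset ℕ) ∧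
    g * c[(0 : Fin 8), 1, 2] * g⁻¹ * c[(0 : Fin 8), 1, 2] = c[(0 : Fin 8), 1, 2] * (g * c[(0 : Fin 8), 1, 2] * g⁻¹) :=
  ⟨c[(3 : Fin 8), 4, 5], by decide +kernel, by decide +kernel⟩

theorem wit3 : ∃ g : Perm (Fin 8), g.cycleType = ({4} : Multiset ℕ) ∧
    g * c[(0 : Fin 8), 1, 2] * g⁻¹ * c[(0 : Fin 8), 1, 2] = c[(0 : Fin 8), 1, 2] * (g * c[(0 : Fin 8), 1, 2] * g⁻¹) :=
  ⟨c[(3 : Fin 8), 4, 5, 6], by decide +kernel, by decide +kernel⟩

theorem wit4 : ∃ g : Perm (Fin 8), g.cycleType = ({5} : Multiset ℕ) ∧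
    g * c[(0 : Fin 8), 1, 2] * g⁻¹ * c[(0 : Fin 8), 1, 2] = c[(0 : Fin 8), 1, 2] * (g * c[(0 : Fin 8), 1, 2] * g⁻¹) :=
  ⟨c[(3 : Fin 8), 4, 5, 6, 7], by decide +kernel, by decide +kernel⟩

theorem wit5 : ∃ g : Perm (Fin 8), g.cycleType = ({6} : Multiset ℕ) ∧
    g * c[(0 : Fin 8), 1, 2] * g⁻¹ * c[(0 : Fin 8), 1, 2] = c[(0 : Fin 8), 1, 2] * (g * c[(0 : Fin 8), 1, 2] * g⁻¹) :=
  ⟨c[(0 : Fin 8), 3, 1, 4, 2, 5], by decide +kernel, by decide +kernel⟩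

theorem wit6 : ∃ g : Perm (Fin 8), g.cycleType = ({7} : Multiset ℕ) ∧
    g * c[(0 : Fin 8), 1, 2] * g⁻¹ * c[(0 : Fin 8), 1, 2] = c[(0 : Fin 8), 1, 2] * (g * c[(0 : Fin 8), 1, 2] * g⁻¹) :=
  ⟨c[(0 : Fin 8), 3, 1, 4, 2, 5, 6], by decide +kernel, by decide +kernel⟩

theorem wit7 : ∃ g : Perm (Fin 8), g.cycleType = ({8} : Multiset ℕ) ∧
    g * c[(0 : Fin 8), 1, 2] * g⁻¹ * c[(0 : Fin 8), 1, 2] = c[(0 : Fin 8), 1, 2] * (g * c[(0 : Fin 8), 1, 2] * g⁻¹) :=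
  ⟨c[(0 : Fin 8), 3, 1, 4, 2, 5, 6, 7], by decide +kernel, by decide +kernel⟩

theorem wit8 : ∃ g : Perm (Fin 8), g.cycleType = ({2, 2} : Multiset ℕ) ∧
    g * c[(0 : Fin 8), 1, 2] * g⁻¹ * c[(0 : Fin 8), 1, 2] = c[(0 : Fin 8), 1, 2] * (g * c[(0 : Fin 8), 1, 2] * g⁻¹) :=
  ⟨c[(3 : Fin 8), 4] * c[(5 : Fin 8), 6], by decide +kernel, by decide +kernel⟩

theorem wit9 : ∃ g : Perm (Fin 8), g.cycleType = ({2, 3} : Multiset ℕ) ∧
    g * c[(0 : Fin 8), 1, 2] * g⁻¹ * c[(0 : Fin 8), 1, 2] = c[(0 : Fin 8), 1, 2] * (g * c[(0 : Fin 8), 1, 2] * g⁻¹) :=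
  ⟨c[(3 : Fin 8), 4] * c[(5 : Fin 8), 6, 7], by decide +kernel, by decide +kernel⟩

theorem wit10 : ∃ g : Perm (Fin 8), g.cycleType = ({2, 4} : Multiset ℕ) ∧
    g * c[(0 : Fin 8), 1, 2] * g⁻¹ * c[(0 : Fin 8), 1, 2] = c[(0 : Fin 8), 1, 2] * (g * c[(0 : Fin 8), 1, 2] * g⁻¹) :=
  ⟨c[(0 : Fin 8), 3, 1, 4] * c[(2 : Fin 8), 5], by decide +kernel, by decide +kernel⟩

theorem wit11 : ∃ g : Perm (Fin 8), g.cycleType = ({2, 5} : Multiset ℕ) ∧
    g * c[(0 : Fin 8), 1, 2] * g⁻¹ * c[(0 : Fin 8), 1, 2] = c[(0 : Fin 8), 1, 2] * (g * c[(0 : Fin 8), 1, 2] * g⁻¹) :=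
  ⟨c[(0 : Fin 8), 3, 1, 4, 6] * c[(2 : Fin 8), 5], by decide +kernel, by decide +kernel⟩

theorem wit12 : ∃ g : Perm (Fin 8), g.cycleType = ({2, 6} : Multiset ℕ) ∧
    g * c[(0 : Fin 8), 1, 2] * g⁻¹ * c[(0 : Fin 8), 1, 2] = c[(0 : Fin 8), 1, 2] * (g * c[(0 : Fin 8), 1, 2] * g⁻¹) :=
  ⟨c[(0 : Fin 8), 3, 1, 4, 6, 7] * c[(2 : Fin 8), 5], by decide +kernel, by decide +kernel⟩

theorem wit13 : ∃ g : Perm (Fin 8), g.cycleType = ({3, 3} : Multiset ℕ) ∧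
    g * c[(0 : Fin 8), 1, 2] * g⁻¹ * c[(0 : Fin 8), 1, 2] = c[(0 : Fin 8), 1, 2] * (g * c[(0 : Fin 8), 1, 2] * g⁻¹) :=
  ⟨c[(0 : Fin 8), 1, 2] * c[(3 : Fin 8), 4, 5], by decide +kernel, by decide +kernel⟩

theorem wit14 : ∃ g : Perm (Fin 8), g.cycleType = ({3, 4} : Multiset ℕ) ∧
    g * c[(0 : Fin 8), 1, 2] * g⁻¹ * c[(0 : Fin 8), 1, 2] = c[(0 : Fin 8), 1, 2] * (g * c[(0 : Fin 8), 1, 2] * g⁻¹) :=
  ⟨c[(0 : Fin 8), 1, 2] * c[(3 : Fin 8), 4, 5, 6], by decide +kernel, by decide +kernel⟩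

theorem wit15 : ∃ g : Perm (Fin 8), g.cycleType = ({3, 5} : Multiset ℕ) ∧
    g * c[(0 : Fin 8), 1, 2] * g⁻¹ * c[(0 : Fin 8), 1, 2] = c[(0 : Fin 8), 1, 2] * (g * c[(0 : Fin 8), 1, 2] * g⁻¹) :=
  ⟨c[(0 : Fin 8), 1, 2] * c[(3 : Fin 8), 4, 5, 6, 7], by decide +kernel, by decide +kernel⟩

theorem wit16 : ∃ g : Perm (Fin 8), g.cycleType = ({4, 4} : Multiset ℕ) ∧
    g * c[(0 : Fin 8), 1, 2] * g⁻¹ * c[(0 : Fin 8), 1, 2] = c[(0 : Fin 8), 1, 2] * (g * c[(0 : Fin 8), 1, 2] * g⁻¹) :=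
  ⟨c[(0 : Fin 8), 3, 1, 4] * c[(2 : Fin 8), 5, 6, 7], by decide +kernel, by decide +kernel⟩

theorem wit17 : ∃ g : Perm (Fin 8), g.cycleType = ({2, 2, 2} : Multiset ℕ) ∧
    g * c[(0 : Fin 8), 1, 2] * g⁻¹ * c[(0 : Fin 8), 1, 2] = c[(0 : Fin 8), 1, 2] * (g * c[(0 : Fin 8), 1, 2] * g⁻¹) :=
  ⟨c[(0 : Fin 8), 3] * c[(1 : Fin 8), 4] * c[(2 : Fin 8), 5], by decide +kernel, by decide +kernel⟩

theorem wit18 : ∃ g : Perm (Fin 8), g.cycleType = ({2, 2, 3} : Multiset ℕ) ∧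
    g * c[(0 : Fin 8), 1, 2] * g⁻¹ * c[(0 : Fin 8), 1, 2] = c[(0 : Fin 8), 1, 2] * (g * c[(0 : Fin 8), 1, 2] * g⁻¹) :=
  ⟨c[(0 : Fin 8), 1, 2] * c[(3 : Fin 8), 4] * c[(5 : Fin 8), 6], by decide +kernel, by decide +kernel⟩

theorem wit19 : ∃ g : Perm (Fin 8), g.cycleType = ({2, 2, 4} : Multiset ℕ) ∧
    g * c[(0 : Fin 8), 1, 2] * g⁻¹ * c[(0 : Fin 8), 1, 2] = c[(0 : Fin 8), 1, 2] * (g * c[(0 : Fin 8), 1, 2] * g⁻¹) :=
  ⟨c[(0 : Fin 8), 3, 1, 4] * c[(2 : Fin 8), 5] * c[(6 : Fin 8), 7], by decide +kernel, by decide +kernel⟩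

theorem wit20 : ∃ g : Perm (Fin 8), g.cycleType = ({2, 3, 3} : Multiset ℕ) ∧
    g * c[(0 : Fin 8), 1, 2] * g⁻¹ * c[(0 : Fin 8), 1, 2] = c[(0 : Fin 8), 1, 2] * (g * c[(0 : Fin 8), 1, 2] * g⁻¹) :=
  ⟨c[(0 : Fin 8), 1, 2] * c[(3 : Fin 8), 4, 5] * c[(6 : Fin 8), 7], by decide +kernel, by decide +kernel⟩

theorem wit21 : ∃ g : Perm (Fin 8), g.cycleType = ({2, 2, 2, 2} : Multiset ℕ) ∧
    g * c[(0 : Fin 8), 1, 2] * g⁻¹ * c[(0 : Fin 8), 1, 2] = c[(0 : Fin 8), 1, 2] * (g * c[(0 : Fin 8), 1, 2] * g⁻¹) :=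
  ⟨c[(0 : Fin 8), 3] * c[(1 : Fin 8), 4] * c[(2 : Fin 8), 5] * c[(6 : Fin 8), 7], by decide +kernel, by decide +kernel⟩

theorem wit_all : ∀ m ∈ typeList, ∃ g : Perm (Fin 8), g.cycleType = m ∧
    g * c[(0 : Fin 8), 1, 2] * g⁻¹ * c[(0 : Fin 8), 1, 2] = c[(0 : Fin 8), 1, 2] * (g * c[(0 : Fin 8), 1, 2] * g⁻¹) := by
  intro m hm
  simp only [typeList, List.mem_cons, List.not_mem_nil, or_false] at hm
  rcases hm with rfl | rfl | rfl | rfl | rfl | rfl | rfl | rfl | rfl | rfl | rfl | rfl | rfl | rfl | rfl | rfl | rfl | rfl | rfl | rfl | rfl | rfl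
  · exact wit0
  · exact wit1
  · exact wit2
  · exact wit3
  · exact wit4
  · exact wit5
  · exact wit6
  · exact wit7
  · exact wit8
  · exact wit9
  · exact wit10
  · exact wit11
  · exact wit12
  · exact wit13
  · exact wit14
  · exact wit15
  · exact wit16
  · exact wit17
  · exact wit18
  · exact wit19
  · exact wit20
  · exact wit21

theorem enum_types (m : Multiset ℕ) (h2 : ∀ n ∈ m, 2 ≤ n) (hs : m.sum ≤ 8) : m ∈ typeList := by
  have hcard : Multiset.card m • 2 ≤ m.sum := Multiset.card_nsmul_le_sum h2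
  have hc4 : Multiset.card m ≤ 4 := by
    rw [smul_eq_mul] at hcard; omega
  rcases Nat.lt_or_ge (Multiset.card m) 1 with h0 | h1
  · have : m = 0 := Multiset.card_eq_zero.mp (show Multiset.card m = 0 by omega)
    subst this; decide
  rcases Nat.lt_or_ge (Multiset.card m) 2 with h0 | h1a
  · obtain ⟨a, rfl⟩ := Multiset.card_eq_one.mp (show Multiset.card m = 1 by omega)
    have ha2 := h2 a (by simp)
    simp only [Multiset.sum_singleton] at hs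
    interval_cases a <;> decide
  rcases Nat.lt_or_ge (Multiset.card m) 3 with h0 | h1b
  · obtain ⟨a, b, rfl⟩ := Multiset.card_eq_two.mp (show Multiset.card m = 2 by omega)
    have ha2 := h2 a (by simp)
    have hb2 := h2 b (by simp)
    simp only [Multiset.insert_eq_cons, Multiset.sum_cons, Multiset.sum_singleton] at hs
    have ha6 : a ≤ 6 := by omega
    have hb6 : b ≤ 6 := by omega
    interval_cases a <;> interval_cases b <;> first | omega | decide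
  rcases Nat.lt_or_ge (Multiset.card m) 4 with h0 | h1c
  · obtain ⟨a, b, c, rfl⟩ := Multiset.card_eq_three.mp (show Multiset.card m = 3 by omega)
    have ha2 := h2 a (by simp)
    have hb2 := h2 b (by simp)
    have hc2 := h2 c (by simp)
    simp only [Multiset.insert_eq_cons, Multiset.sum_cons, Multiset.sum_singleton] at hs
    have ha6 : a ≤ 4 := by omega
    have hb6 : b ≤ 4 := by omega
    have hc6 : c ≤ 4 := by omega
    interval_cases a <;> interval_cases b <;> interval_cases c <;> first | omega | decide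
  · have h4 : Multiset.card m = 4 := by omega
    have hall : ∀ n ∈ m, n = 2 := by
      intro n hn
      obtain ⟨t, rfl⟩ := Multiset.exists_cons_of_mem hn
      have ht : Multiset.card t = 3 := by simpa using h4
      have ht2 : Multiset.card t • 2 ≤ t.sum :=
        Multiset.card_nsmul_le_sum (fun x hx => h2 x (Multiset.mem_cons_of_mem hx))
      rw [Multiset.sum_cons] at hs
      rw [ht, smul_eq_mul] at ht2
      have := h2 n (Multiset.mem_cons_self n t)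
      omega
    have : m = Multiset.replicate 4 2 := Multiset.eq_replicate.mpr ⟨h4, hall⟩
    subst this; decide

theorem key0 (c : Perm (Fin 8)) : ∃ g : Perm (Fin 8), IsConj c g ∧
    Commute (g * c[(0 : Fin 8), 1, 2] * g⁻¹) c[(0 : Fin 8), 1, 2] := by
  have hm := enum_types c.cycleType (fun n hn => Perm.two_le_of_mem_cycleType hn)
    (by have := Perm.sum_cycleType_le c; simpa using this)
  obtain ⟨g, hg, hcomm⟩ := wit_all _ hm
  exact ⟨g, Perm.isConj_iff_cycleType_eq.mpr hg.symm, hcomm⟩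

theorem key (σ : Perm (Fin 8)) (hσ : σ.IsThreeCycle) (c : Perm (Fin 8)) :
    ∃ g : Perm (Fin 8), IsConj c g ∧ Commute (g * σ * g⁻¹) σ := by
  have h0 : (c[(0 : Fin 8), 1, 2] : Perm (Fin 8)).cycleType = {3} := by decide +kernel
  have hconj : IsConj (c[(0 : Fin 8), 1, 2] : Perm (Fin 8)) σ :=
    Perm.isConj_iff_cycleType_eq.mpr (h0.trans hσ.symm)
  obtain ⟨h, hh⟩ := isConj_iff.mp hconj
  obtain ⟨g₀, hg₀, hcomm⟩ := key0 c
  refine ⟨h * g₀ * h⁻¹, hg₀.trans (isConj_iff.mpr ⟨h, rfl⟩), ?_⟩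
  rw [← hh]
  have e : h * g₀ * h⁻¹ * (h * c[(0 : Fin 8), 1, 2] * h⁻¹) * (h * g₀ * h⁻¹)⁻¹ =
      h * (g₀ * c[(0 : Fin 8), 1, 2] * g₀⁻¹) * h⁻¹ := by group
  rw [e]
  exact (Commute.conj_iff h).mpr hcomm

/-- A nontrivial normal subgroup of the symmetric group on `Fin n` has order divisible by `n`. -/
theorem dvd_card_of_normal {n : ℕ} (N : Subgroup (Perm (Fin n))) [hN : N.Normal] (hne : N ≠ ⊥) :
    n ∣ Nat.card N := by
  obtain ⟨σ, hσ1⟩ := (Subgroup.ne_bot_iff_exists_ne_one).mp hne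
  obtain ⟨a, ha⟩ : ∃ a, (σ : Perm (Fin n)) a ≠ a := by
    by_contra h
    push Not at h
    exact hσ1 (Subtype.ext (Equiv.ext h))
  have horb : MulAction.orbit N a = Set.univ := by
    ext c
    simp only [Set.mem_univ, iff_true]
    by_cases hc : c = a
    · exact ⟨1, by simp [hc]⟩
    · refine ⟨⟨swap ((σ : Perm (Fin n)) a) c * σ * (swap ((σ : Perm (Fin n)) a) c)⁻¹,
        hN.conj_mem σ σ.2 _⟩, ?_⟩
      show (swap ((σ : Perm (Fin n)) a) c * σ * (swap ((σ : Perm (Fin n)) a) c)⁻¹) a = c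
      rw [swap_inv, Perm.mul_apply, Perm.mul_apply,
        swap_apply_of_ne_of_ne (Ne.symm ha) (Ne.symm hc), swap_apply_left]
  have h1 := MulAction.index_stabilizer N a
  rw [horb, Set.ncard_univ, Nat.card_fin] at h1
  have h2 := Subgroup.index_dvd_card (MulAction.stabilizer N a)
  rwa [h1] at h2

/-- In the symmetric group of degree 8, let A be the subgroup generated by a 3-cycle. Then every conjugacy class contains an element g for which A is subnormal in the subgroup generated by A and its conjugate by g, although O_3 of the symmetric group of degree 8 is trivial. -/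
theorem result
    (σ : Equiv.Perm (Fin 8)) (hσ : σ.IsThreeCycle) :
    (∀ c : Equiv.Perm (Fin 8), ∃ g : Equiv.Perm (Fin 8), IsConj c g ∧
      ((Subgroup.zpowers σ).subgroupOf (Subgroup.zpowers σ ⊔ MulAut.conj g • Subgroup.zpowers σ)).IsSubnormal) ∧
    Cfsg.pCore 3 (Equiv.Perm (Fin 8)) = ⊥ := by
  constructor
  · intro c
    obtain ⟨g, hg, hcomm⟩ := key σ hσ c
    refine ⟨g, hg, ?_⟩
    apply Subgroup.Normal.isSubnormal
    rw [Subgroup.normal_subgroupOf_iff_le_normalizer le_sup_left]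
    apply sup_le Subgroup.le_normalizer
    refine le_trans ?_ (Subgroup.centralizer_le_normalizer _)
    intro x hx
    rw [Subgroup.mem_smul_pointwise_iff_exists] at hx
    obtain ⟨y, hy, rfl⟩ := hx
    obtain ⟨i, rfl⟩ := Subgroup.mem_zpowers_iff.mp hy
    rw [Subgroup.mem_centralizer_iff]
    intro z hz
    obtain ⟨j, rfl⟩ := Subgroup.mem_zpowers_iff.mp hz
    have e : MulAut.conj g • σ ^ i = (g * σ * g⁻¹) ^ i := by
      rw [MulAut.smul_def, map_zpow, MulAut.conj_apply]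
    rw [e]
    exact ((hcomm.zpow_zpow i j).symm).eq
  · unfold Cfsg.pCore
    rw [sSup_eq_bot]
    rintro N ⟨hN, hpN⟩
    by_contra hne
    have := hN
    have h8 := dvd_card_of_normal N hne
    obtain ⟨k, hk⟩ := IsPGroup.iff_card.mp hpN
    rw [hk] at h8
    have h2 : 2 ∣ 3 ^ k := (by norm_num : 2 ∣ 8).trans h8
    have h3 := (Nat.Prime.dvd_of_dvd_pow Nat.prime_two h2)
    omega

end Cfsg.Agent.S4332
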