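-- Statement S4333: Wielandt's criterion with conjugates by conjugates of own elements.
import Cfsg.Statements.S4333
import Mathlib
import Cfsg.Agent.S0066

set_option autoImplicit false
open Pointwise
open Cfsg

namespace Cfsg.Agent.S4333

open Subgroup
open Cfsg.Agent.Lib.Helper9
open Cfsg.Agent.S0066

theorem main_rel {G : Type*} [Group G] [Finite G] (A : Subgroup G)
    (h : ∀ a ∈ A, ∀ g : G, (A.subgroupOf (A ⊔ MulAut.conj (g⁻¹ * a * g) • A)).IsSubnormal) :
    ∀ (n : ℕ) (H : Subgroup G), Nat.card H = n → A ≤ H → RelSN A H := by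
  intro n
  induction n using Nat.strong_induction_on with
  | _ n ih =>
    intro H hn hAH
    by_contra hnot
    have hprop : ∀ K, A ≤ K → K < H → RelSN A K := fun K hAK hKH =>
      ih (Nat.card K) (by rw [← hn]; exact card_lt_of_lt hKH) K rfl hAK
    obtain ⟨M, hMH, hM⟩ := zipper H _ A rfl hAH hprop hnot
    have hAltH : A < H := by
      refine lt_of_le_of_ne hAH ?_
      intro heq
      apply hnot
      rw [heq]
      exact relSN_refl H
    have hAM : A ≤ M := hM A le_rfl hAltH
    -- every `g⁻¹ a g` (with `a ∈ A`, `g ∈ H`) normalizes `M`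
    have hnormM : ∀ a ∈ A, ∀ g ∈ H, g⁻¹ * a * g ∈ normalizer (M : Set G) := by
      intro a ha g hg
      have hxH : g⁻¹ * a * g ∈ H := H.mul_mem (H.mul_mem (H.inv_mem hg) (hAH ha)) hg
      have hgA : MulAut.conj (g⁻¹ * a * g) • A ≤ H := by
        have h1 : MulAut.conj (g⁻¹ * a * g) • H = H :=
          conj_smul_eq_of_mem_normalizer (le_normalizer hxH)
        rw [← h1]
        exact pointwise_smul_le_pointwise_smul_iff.mpr hAH
      have hle : A ⊔ MulAut.conj (g⁻¹ * a * g) • A ≤ H := sup_le hAH hgA
      have hlt : A ⊔ MulAut.conj (g⁻¹ * a * g) • A < H := by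
        refine lt_of_le_of_ne hle ?_
        intro heq
        apply hnot
        refine ⟨hAH, ?_⟩
        have := h a ha g
        rw [heq] at this
        exact this
      have hxAM : MulAut.conj (g⁻¹ * a * g) • A ≤ M := le_sup_right.trans (hM _ le_sup_left hlt)
      -- hence `A ≤ x⁻¹ • M`, a proper subgroup of `H`, so `x⁻¹ • M ≤ M`
      have hA' : A ≤ MulAut.conj (g⁻¹ * a * g)⁻¹ • M := by
        have := pointwise_smul_le_pointwise_smul_iff (a := MulAut.conj (g⁻¹ * a * g)⁻¹)
          |>.mpr hxAM
        rwa [← mul_smul, ← map_mul, inv_mul_cancel, map_one, one_smul] at this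
      have hxinvH : (g⁻¹ * a * g)⁻¹ ∈ H := H.inv_mem hxH
      have hlt' : MulAut.conj (g⁻¹ * a * g)⁻¹ • M < H := by
        have h1 : MulAut.conj (g⁻¹ * a * g)⁻¹ • H = H :=
          conj_smul_eq_of_mem_normalizer (le_normalizer hxinvH)
        refine lt_of_le_of_ne ?_ ?_
        · rw [← h1]
          exact pointwise_smul_le_pointwise_smul_iff.mpr hMH.le
        · intro heq
          rw [← h1] at heq
          exact hMH.ne (smul_left_cancel _ heq)
      have hle' : MulAut.conj (g⁻¹ * a * g)⁻¹ • M ≤ M := hM _ hA' hlt'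
      have := mem_normalizer_of_conj_le hle'
      simpa using (normalizer (M : Set G)).inv_mem this
    have hNle : (⨆ c : H, MulAut.conj (c : G) • A) ≤ normalizer (M : Set G) := by
      refine iSup_le fun c => ?_
      intro x hx
      rw [mem_pointwise_smul_iff_inv_smul_mem] at hx
      have hx' : (c : G)⁻¹ * x * (c : G) ∈ A := by
        simpa [MulAut.smul_def, MulAut.conj_apply] using hx
      have := hnormM _ hx' (c : G)⁻¹ (H.inv_mem c.2)
      have heq : ((c : G)⁻¹)⁻¹ * ((c : G)⁻¹ * x * (c : G)) * (c : G)⁻¹ = x := by group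
      rwa [heq] at this
    have hNH : (⨆ c : H, MulAut.conj (c : G) • A) ≤ H := by
      refine iSup_le fun c => ?_
      have h1 : MulAut.conj (c : G) • H = H := conj_smul_eq_of_mem_normalizer (le_normalizer c.2)
      have h2 : MulAut.conj (c : G) • A ≤ MulAut.conj (c : G) • H :=
        pointwise_smul_le_pointwise_smul_iff.mpr hAH
      exact h2.trans (le_of_eq h1)
    have hAN : A ≤ ⨆ c : H, MulAut.conj (c : G) • A := by
      have := le_iSup (fun c : H => MulAut.conj (c : G) • A) 1
      simpa using this
    have hHn : H ≤ normalizer ((⨆ c : H, MulAut.conj (c : G) • A : Subgroup G) : Set G) := by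
      intro b hb
      exact mem_normalizer_iff_map_conj_eq.mpr (conj_smul_iSup_conj A H b hb)
    rcases eq_or_lt_of_le hNH with heq | hlt
    · -- `H` normalizes `M`
      rw [heq] at hNle
      exact hnot (relSN_trans (hprop M hAM hMH) (relSN_step hMH.le hNle (relSN_refl H)))
    · exact hnot (relSN_trans (hprop _ hAN hlt) (relSN_step hlt.le hHn (relSN_refl H)))

/-- Let A be a subgroup of a finite group G. If A is subnormal in the subgroup generated by A and its conjugate by g⁻¹ a g, for every a ∈ A and every g ∈ G, then A is subnormal in G. (A sharpening of Wielandt's subnormality criterion: only conjugates of A by conjugates of elements of A are needed.) -/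
theorem result {G : Type*} [Group G] [Finite G]
    (A : Subgroup G)
    (h : ∀ a ∈ A, ∀ g : G, (A.subgroupOf (A ⊔ MulAut.conj (g⁻¹ * a * g) • A)).IsSubnormal) :
    A.IsSubnormal := by
  have h1 := main_rel A h _ ⊤ rfl le_top
  exact IsSubnormal.trans le_top h1.2 IsSubnormal.top

end Cfsg.Agent.S4333
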