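import Cfsg.Statements.S4341
import Cfsg.Agent.Lib.Helper72.SylowCount

set_option autoImplicit false
open Cfsg

namespace Cfsg.Agent.S4341

open Cfsg.Agent.Lib.Helper72

/-- Let K be a normal subgroup of a finite group G, p a prime and P a Sylow p-subgroup of G; let N be the normalizer of P ∩ K inside the subgroup PK. Then the number of Sylow p-subgroups of G equals the product of the numbers of Sylow p-subgroups of G/K, of K, and of N/(P ∩ K). (The normality of P ∩ K in N, which always holds, is assumed as a hypothesis so that the quotient can be formed.) -/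
theorem result {G : Type*} [Group G] [Finite G]
    (p : ℕ) [Fact p.Prime] (K : Subgroup G) [K.Normal] (P : Sylow p G) (N : Subgroup G)
    (hN : N = ((P : Subgroup G) ⊔ K) ⊓ Subgroup.normalizer (((P : Subgroup G) ⊓ K : Subgroup G) : Set G))
    [hn : (((P : Subgroup G) ⊓ K).subgroupOf N).Normal] :
    Nat.card (Sylow p G) =
      Nat.card (Sylow p (G ⧸ K)) * Nat.card (Sylow p K) * Nat.card (Sylow p (N ⧸ ((P : Subgroup G) ⊓ K).subgroupOf N)) := by
  have hKnorm : K ≤ Subgroup.normalizer ((K : Subgroup G) : Set G) := Subgroup.le_normalizer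
  have htop : Subgroup.normalizer ((K : Subgroup G) : Set G) = ⊤ := Subgroup.normalizer_eq_top K
  -- P and N(P) ∩ K normalize P ∩ K
  have hPNQ : (P : Subgroup G) ≤
      Subgroup.normalizer (((P : Subgroup G) ⊓ K : Subgroup G) : Set G) := by
    refine le_trans ?_ Subgroup.inf_normalizer_le_normalizer_inf
    refine le_inf Subgroup.le_normalizer ?_
    rw [htop]; exact le_top
  have hNPK : Subgroup.normalizer ((P : Subgroup G) : Set G) ⊓ K ≤
      Subgroup.normalizer (((P : Subgroup G) ⊓ K : Subgroup G) : Set G) := by
    refine le_trans ?_ Subgroup.inf_normalizer_le_normalizer_inf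
    refine le_inf inf_le_left ?_
    rw [htop]; exact le_top
  have hPN : (P : Subgroup G) ≤ N := by
    rw [hN]; exact le_inf le_sup_left hPNQ
  have e1 := card_sylow_eq_mul K P
  have e2 := card_sylow_normal K P
  have e3 : Nat.card (Sylow p (N ⧸ ((P : Subgroup G) ⊓ K).subgroupOf N)) =
      (Subgroup.normalizer ((P : Subgroup G) : Set G)).relIndex N := by
    rw [← card_sylow_subgroup N P hPN]
    apply card_sylow_quot_of_le _ (P.subtype hPN)
    rw [Sylow.coe_subtype]
    intro x hx
    exact Subgroup.mem_subgroupOf.mpr (Subgroup.mem_subgroupOf.mp hx).1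
  have e4 : (Subgroup.normalizer ((P : Subgroup G) : Set G)).relIndex N =
      (Subgroup.normalizer ((P : Subgroup G) : Set G)).relIndex (K ⊓ N) := by
    apply relIndex_eq_of_factor K
    intro x hx
    have hx' := hx
    rw [hN] at hx'
    obtain ⟨u, hu, k, hk, huk⟩ := Subgroup.mem_sup_of_normal_right.mp hx'.1
    exact ⟨u, ⟨Subgroup.le_normalizer hu, hPN hu⟩, k, hk, huk.symm⟩
  have e5 : K ⊓ N = Subgroup.normalizer (((P : Subgroup G) ⊓ K : Subgroup G) : Set G) ⊓ K := by
    rw [hN]
    apply le_antisymm
    · exact le_inf (inf_le_right.trans inf_le_right) inf_le_left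
    · exact le_inf inf_le_right (le_inf (inf_le_right.trans le_sup_right) inf_le_left)
  have e6 : (Subgroup.normalizer ((P : Subgroup G) : Set G)).relIndex
        (Subgroup.normalizer (((P : Subgroup G) ⊓ K : Subgroup G) : Set G) ⊓ K) *
      (Subgroup.normalizer (((P : Subgroup G) ⊓ K : Subgroup G) : Set G)).relIndex K =
      (Subgroup.normalizer ((P : Subgroup G) : Set G)).relIndex K := by
    have h1 := Subgroup.relIndex_mul_relIndex
      (H := Subgroup.normalizer ((P : Subgroup G) : Set G) ⊓ K)
      (K := Subgroup.normalizer (((P : Subgroup G) ⊓ K : Subgroup G) : Set G) ⊓ K) (L := K)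
      (le_inf hNPK inf_le_right) inf_le_right
    rw [Subgroup.inf_relIndex_right, Subgroup.inf_relIndex_right] at h1
    have h2 : Subgroup.normalizer ((P : Subgroup G) : Set G) ⊓ K =
        Subgroup.normalizer ((P : Subgroup G) : Set G) ⊓
          (Subgroup.normalizer (((P : Subgroup G) ⊓ K : Subgroup G) : Set G) ⊓ K) :=
      le_antisymm (le_inf inf_le_left (le_inf hNPK inf_le_right))
        (le_inf inf_le_left (inf_le_right.trans inf_le_right))
    rw [h2, Subgroup.inf_relIndex_right] at h1
    exact h1
  rw [e1, e2, e3, e4, e5, mul_assoc, mul_comm (Subgroup.relIndex _ K), e6]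

end Cfsg.Agent.S4341
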