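import Cfsg.Statements.S4342

set_option autoImplicit false
open Cfsg

namespace Cfsg.Agent.S4342

/-- A Sylow subgroup lies inside a normal subgroup of index prime to `p`. -/
theorem sylow_le_of_normal {G : Type*} [Group G] [Finite G] (p : ℕ) [Fact p.Prime]
    (H : Subgroup G) [H.Normal] (hp : ¬ p ∣ H.index) (P : Sylow p G) :
    (P : Subgroup G) ≤ H := by
  intro x hx
  obtain ⟨k, hk⟩ := P.isPGroup' ⟨x, hx⟩
  have hk' : x ^ p ^ k = 1 := by
    have := congrArg Subtype.val hk
    simpa using this
  have h1 : orderOf (QuotientGroup.mk' H x) ∣ p ^ k := by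
    apply orderOf_dvd_of_pow_eq_one
    rw [← map_pow, hk', map_one]
  have h2 : orderOf (QuotientGroup.mk' H x) ∣ H.index := by
    apply orderOf_dvd_of_pow_eq_one
    rw [← map_pow]
    exact (QuotientGroup.eq_one_iff _).mpr (Subgroup.pow_index_mem H x)
  have hcop : Nat.Coprime (p ^ k) H.index :=
    Nat.Coprime.pow_left k ((Nat.Prime.coprime_iff_not_dvd Fact.out).mpr hp)
  have h3 := Nat.eq_one_of_dvd_coprimes hcop h1 h2
  rw [orderOf_eq_one_iff] at h3
  exact (QuotientGroup.eq_one_iff _).mp h3

/-- Sylow subgroups of a normal subgroup of index prime to `p` correspond to those of the group. -/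
theorem card_sylow_of_normal {G : Type*} [Group G] [Finite G] (p : ℕ) [Fact p.Prime]
    (H : Subgroup G) [H.Normal] (hp : ¬ p ∣ H.index) :
    Nat.card (Sylow p H) = Nat.card (Sylow p G) := by
  have hidx : ∀ Q : Sylow p H, ¬ p ∣ ((Q : Subgroup H).map H.subtype).index := by
    intro Q
    rw [Subgroup.index_map_subtype]
    exact Nat.Prime.not_dvd_mul Fact.out Q.not_dvd_index hp
  let f : Sylow p H → Sylow p G := fun Q => (Q.isPGroup'.map H.subtype).toSylow (hidx Q)
  apply Nat.card_eq_of_bijective f
  constructor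
  · intro Q₁ Q₂ h
    have h' : ((Q₁ : Subgroup H).map H.subtype) = ((Q₂ : Subgroup H).map H.subtype) :=
      congrArg Sylow.toSubgroup h
    exact Sylow.ext (Subgroup.map_injective H.subtype_injective h')
  · intro P
    have hP := sylow_le_of_normal p H hp P
    refine ⟨P.subtype hP, Sylow.ext ?_⟩
    show ((P.subtype hP : Sylow p H) : Subgroup H).map H.subtype = (P : Subgroup G)
    rw [Sylow.coe_subtype, Subgroup.subgroupOf_map_subtype, inf_of_le_left hP]

/-- The central quotient has as many Sylow subgroups as the group. -/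
theorem card_sylow_center_quot {K : Type*} [Group K] [Finite K] (p : ℕ) [Fact p.Prime] :
    Nat.card (Sylow p (K ⧸ Subgroup.center K)) = Nat.card (Sylow p K) := by
  symm
  apply Nat.card_eq_of_bijective
    (Sylow.mapSurjective (QuotientGroup.mk'_surjective (Subgroup.center K)) : Sylow p K → _)
  refine ⟨?_, Sylow.mapSurjective_surjective _ p⟩
  intro P Q h
  have h' : (P : Subgroup K).map (QuotientGroup.mk' (Subgroup.center K)) =
      (Q : Subgroup K).map (QuotientGroup.mk' (Subgroup.center K)) :=
    congrArg Sylow.toSubgroup h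
  have key : ∀ P Q : Sylow p K, (P : Subgroup K).map (QuotientGroup.mk' (Subgroup.center K)) =
      (Q : Subgroup K).map (QuotientGroup.mk' (Subgroup.center K)) →
      (Q : Subgroup K) ≤ P := by
    intro P Q h x hx
    have hx' : QuotientGroup.mk' (Subgroup.center K) x ∈
        (P : Subgroup K).map (QuotientGroup.mk' (Subgroup.center K)) := by
      rw [h]; exact Subgroup.mem_map_of_mem _ hx
    obtain ⟨u, hu, hux⟩ := Subgroup.mem_map.mp hx'
    have hz : u⁻¹ * x ∈ Subgroup.center K := by
      have := QuotientGroup.eq.mp hux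
      exact this
    obtain ⟨a, ha⟩ := P.isPGroup' ⟨u, hu⟩
    obtain ⟨b, hb⟩ := Q.isPGroup' ⟨x, hx⟩
    have ha' : u ^ p ^ a = 1 := by simpa using congrArg Subtype.val ha
    have hb' : x ^ p ^ b = 1 := by simpa using congrArg Subtype.val hb
    have hcomm : Commute u⁻¹ x := by
      have h1 := Subgroup.mem_center_iff.mp hz u
      -- u * (u⁻¹ * x) = u⁻¹ * x * u
      have h2 : x * u = u * x := by
        have : u * (u⁻¹ * x * u) = u * (u * (u⁻¹ * x)) := by rw [h1]
        simpa [mul_assoc] using this
      exact (Commute.inv_left (show Commute u x from h2.symm))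
    have hzpow : (u⁻¹ * x) ^ p ^ (a + b) = 1 := by
      rw [hcomm.mul_pow, inv_pow, pow_add, pow_mul, ha', one_pow, inv_one, one_mul,
        mul_comm, pow_mul, hb', one_pow]
    have hnorm : (Subgroup.zpowers (u⁻¹ * x)).Normal := by
      constructor
      intro n hn g
      have hn' : n ∈ Subgroup.center K :=
        (Subgroup.zpowers_le.mpr hz) hn
      have : g * n * g⁻¹ = n := by
        rw [Subgroup.mem_center_iff.mp hn' g, mul_inv_cancel_right]
      rw [this]; exact hn
    have hpg : IsPGroup p (Subgroup.zpowers (u⁻¹ * x)) := by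
      have hdvd : orderOf (u⁻¹ * x) ∣ p ^ (a + b) := orderOf_dvd_of_pow_eq_one hzpow
      obtain ⟨j, -, hj⟩ := (Nat.dvd_prime_pow Fact.out).mp hdvd
      exact IsPGroup.of_card ((Nat.card_zpowers _).trans hj)
    have hzP : u⁻¹ * x ∈ (P : Subgroup K) :=
      (hpg.le_sylow_of_normal P) (Subgroup.mem_zpowers _)
    have : x = u * (u⁻¹ * x) := by group
    rw [this]
    exact (P : Subgroup K).mul_mem hu hzP
  have hQP := key P Q h'
  have hPQ := key Q P h'.symm
  exact Sylow.ext (le_antisymm hPQ hQP)

/-- Let H be a normal subgroup of a finite group G and p a prime not dividing the index of H. Then the number of Sylow p-subgroups of H/Z(H) equals the number of Sylow p-subgroups of G. -/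
theorem result {G : Type*} [Group G] [Finite G]
    (p : ℕ) [Fact p.Prime] (H : Subgroup G) [H.Normal] (hp : ¬ p ∣ H.index) :
    Nat.card (Sylow p (H ⧸ Subgroup.center H)) = Nat.card (Sylow p G) := by
  rw [card_sylow_center_quot, card_sylow_of_normal p H hp]

end Cfsg.Agent.S4342
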