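import Cfsg.Statements.S4344

set_option autoImplicit false
open Cfsg

namespace Cfsg.Agent.S4344

/-- Let S be a finite non-abelian simple group, M a maximal subgroup of S and C a cyclic normal subgroup of M. If a Sylow p-subgroup P of S (for a prime p dividing the order of S) is contained in C, then the number of Sylow p-subgroups of S equals the index of M. -/
theorem result {S : Type*} [Group S] [Finite S]
    [IsSimpleGroup S] (hS : ¬ IsMulCommutative S) (p : ℕ) [Fact p.Prime] (hp : p ∣ Nat.card S)
    (M : Subgroup S) (hM : IsCoatom M) (C : Subgroup S) (hCM : C ≤ M) (hCn : (C.subgroupOf M).Normal)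
    (hC : IsCyclic C) (P : Sylow p S) (hP : (P : Subgroup S) ≤ C) :
    Nat.card (Sylow p S) = M.index := by
  rw [P.card_eq_index_normalizer]
  congr 1
  -- conjugation by elements of M maps P into P
  have key : ∀ m ∈ M, ∀ x ∈ (P : Subgroup S), m * x * m⁻¹ ∈ (P : Subgroup S) := by
    intro m hm x hx
    obtain ⟨c, hc⟩ := hC.exists_generator
    -- generator of P inside C
    have hPc : IsCyclic ((P : Subgroup S).subgroupOf C) := inferInstance
    obtain ⟨y, hy⟩ := hPc.exists_generator
    -- conjugate of c by m lies in C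
    have hcm : m * (c : S) * m⁻¹ ∈ C := by
      have h1 : (⟨(c : S), hCM c.2⟩ : M) ∈ C.subgroupOf M := by
        rw [Subgroup.mem_subgroupOf]; exact c.2
      have h2 := hCn.conj_mem _ h1 ⟨m, hm⟩
      rw [Subgroup.mem_subgroupOf] at h2
      simpa using h2
    obtain ⟨j, hj⟩ := Subgroup.mem_zpowers_iff.mp (hc ⟨_, hcm⟩)
    have hj' : m * (c : S) * m⁻¹ = (c : S) ^ j := by
      have := congrArg Subtype.val hj
      simpa using this.symm
    obtain ⟨k, hk⟩ := Subgroup.mem_zpowers_iff.mp (hc (y : C))
    have hk' : ((y : C) : S) = (c : S) ^ k := by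
      have := congrArg Subtype.val hk
      simpa using this.symm
    have hyP : ((y : C) : S) ∈ (P : Subgroup S) := by
      have := y.2
      rwa [Subgroup.mem_subgroupOf] at this
    -- conj of y is a power of y
    have hconj : ∀ z : S, m * z ^ k * m⁻¹ = (m * z * m⁻¹) ^ k := by
      intro z
      exact (map_zpow (MulAut.conj m) z k)
    have hy' : m * ((y : C) : S) * m⁻¹ ∈ (P : Subgroup S) := by
      rw [hk', hconj, hj', ← zpow_mul, mul_comm, zpow_mul, ← hk']
      exact Subgroup.zpow_mem _ hyP j
    -- x is a power of y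
    have hxC : x ∈ C := hP hx
    obtain ⟨i, hi⟩ := Subgroup.mem_zpowers_iff.mp (hy ⟨⟨x, hxC⟩, by rw [Subgroup.mem_subgroupOf]; exact hx⟩)
    have hi' : x = ((y : C) : S) ^ i := by
      have := congrArg (fun t : ((P : Subgroup S).subgroupOf C) => ((t : C) : S)) hi
      simpa using this.symm
    rw [hi']
    have : m * ((y : C) : S) ^ i * m⁻¹ = (m * ((y : C) : S) * m⁻¹) ^ i :=
      (map_zpow (MulAut.conj m) _ i)
    rw [this]
    exact Subgroup.zpow_mem _ hy' i
  have hMle : M ≤ Subgroup.normalizer ((P : Subgroup S) : Set S) := by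
    intro m hm
    rw [Subgroup.mem_normalizer_iff]
    intro h
    constructor
    · exact key m hm h
    · intro hh
      have := key m⁻¹ (M.inv_mem hm) _ hh
      simpa [mul_assoc] using this
  have hne : Subgroup.normalizer ((P : Subgroup S) : Set S) ≠ ⊤ := by
    intro htop
    have hnorm : (P : Subgroup S).Normal := Subgroup.normalizer_eq_top_iff.mp htop
    rcases hnorm.eq_bot_or_eq_top with hbot | htop'
    · exact P.ne_bot_of_dvd_card hp hbot
    · apply hS
      have hCtop : C = ⊤ := top_le_iff.mp (htop' ▸ hP)
      have : IsCyclic S := by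
        have e : C ≃* S := (MulEquiv.subgroupCongr hCtop).trans Subgroup.topEquiv
        exact e.isCyclic.mp hC
      infer_instance
  exact ((hM.le_iff.mp hMle).resolve_left hne)
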