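import Cfsg.Statements.S4345
import Cfsg.Agent.Lib.Helper72.SylowCount

set_option autoImplicit false
open Cfsg

namespace Cfsg.Agent.S4345

open Cfsg.Agent.Lib.Helper72

universe u

/-- A nontrivial finite solvable group has a nontrivial normal subgroup of prime power order. -/
theorem exists_normal_pgroup (G : Type u) [Group G] [Finite G] (hG : Group.IsSolvable G)
    [Nontrivial G] :
    ∃ (K : Subgroup G) (q k : ℕ), K.Normal ∧ K ≠ ⊥ ∧ q.Prime ∧ Nat.card K = q ^ k := by
  classical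
  have hex : ∃ n, ∃ N : Subgroup G, N.Normal ∧ N ≠ ⊥ ∧ Nat.card N = n :=
    ⟨_, ⊤, inferInstance, top_ne_bot, rfl⟩
  obtain ⟨A, hAn, hAne, hAcard⟩ := Nat.find_spec hex
  have hmin : ∀ M : Subgroup G, M.Normal → M ≠ ⊥ → M ≤ A → M = A := by
    intro M hMn hMne hMA
    have h1 : Nat.find hex ≤ Nat.card M := Nat.find_min' hex ⟨M, hMn, hMne, rfl⟩
    exact Subgroup.eq_of_le_of_card_ge hMA (by rw [hAcard]; exact h1)
  have hnt : Nontrivial A := A.nontrivial_iff_ne_bot.mpr hAne
  have hlt : ⁅A, A⁆ < A := by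
    have h1 := Group.IsSolvable.commutator_lt_top_of_nontrivial (G := A)
    rw [← A.map_subtype_commutator]
    have h2 := Subgroup.map_subtype_lt_map_subtype.mpr h1
    rwa [← MonoidHom.range_eq_map, A.range_subtype] at h2
  have hcomm0 : ⁅A, A⁆ = ⊥ := by
    by_contra hne
    exact hlt.ne (hmin ⁅A, A⁆ inferInstance hne hlt.le)
  have hcomm : ∀ a ∈ A, ∀ b ∈ A, Commute a b := by
    intro a ha b hb
    have hle := Subgroup.commutator_eq_bot_iff_le_centralizer.mp hcomm0
    exact (Subgroup.mem_centralizer_iff.mp (hle ha) b hb).symm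
  have hcard : Nat.card A ≠ 1 := fun h => hAne (Subgroup.card_eq_one.mp h)
  obtain ⟨q, hq, hqd⟩ := Nat.exists_prime_and_dvd hcard
  have : Fact q.Prime := ⟨hq⟩
  let K : Subgroup G :=
    { carrier := {x | x ∈ A ∧ x ^ q = 1}
      mul_mem' := by
        rintro a b ⟨ha, ha'⟩ ⟨hb, hb'⟩
        exact ⟨A.mul_mem ha hb, by rw [(hcomm a ha b hb).mul_pow, ha', hb', one_mul]⟩
      one_mem' := ⟨A.one_mem, one_pow q⟩
      inv_mem' := by
        rintro a ⟨ha, ha'⟩
        exact ⟨A.inv_mem ha, by rw [inv_pow, ha', inv_one]⟩ }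
  have hKn : K.Normal := by
    constructor
    rintro x ⟨hx, hx'⟩ g
    refine ⟨hAn.conj_mem x hx g, ?_⟩
    rw [conj_pow, hx']; group
  have hKle : K ≤ A := fun x hx => hx.1
  obtain ⟨y, hy⟩ := exists_prime_orderOf_dvd_card' (G := A) q hqd
  have hyK : (y : G) ∈ K := by
    refine ⟨y.2, ?_⟩
    have h1 : y ^ q = 1 := by rw [← hy]; exact pow_orderOf_eq_one y
    have h2 : ((y ^ q : A) : G) = 1 := by rw [h1]; rfl
    simpa using h2
  have hy1 : (y : G) ≠ 1 := by
    intro h
    have h1 : y = 1 := Subtype.ext h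
    rw [h1, orderOf_one] at hy
    exact hq.one_lt.ne hy
  have hKne : K ≠ ⊥ := by
    intro h
    rw [h] at hyK
    exact hy1 (Subgroup.mem_bot.mp hyK)
  have hKA : K = A := hmin K hKn hKne hKle
  have hAp : IsPGroup q A := by
    rintro ⟨x, hx⟩
    refine ⟨1, ?_⟩
    apply Subtype.ext
    have hx2 : x ∈ K := by rw [hKA]; exact hx
    simpa using hx2.2
  obtain ⟨k, hk⟩ := IsPGroup.iff_card.mp hAp
  exact ⟨A, q, k, hAn, hAne, hq, hk⟩

theorem aux (p ℓ : ℕ) [Fact p.Prime] (hℓ : ℓ.Prime) (n : ℕ) :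
    ∀ (G : Type u) [Group G] [Finite G], Nat.card G = n → Group.IsSolvable G →
      ℓ ^ (Nat.card (Sylow p G)).factorization ℓ ≡ 1 [MOD p] := by
  induction n using Nat.strongRecOn with | ind n ih => ?_
  intro G _ _ hn hG
  rcases subsingleton_or_nontrivial G with hsub | hnt
  · have P : Sylow p G := default
    have h1 : Nat.card (Sylow p G) ∣ Nat.card G :=
      P.card_dvd_index.trans (Subgroup.index_dvd_card _)
    rw [Nat.card_of_subsingleton (1 : G), Nat.dvd_one] at h1
    rw [h1]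
    simp [Nat.ModEq]
  · obtain ⟨K, q, k, hKn, hKne, hq, hKcard⟩ := exists_normal_pgroup G hG
    have P : Sylow p G := default
    have e1 := card_sylow_eq_mul K P
    have hmdvd : (Subgroup.normalizer ((P : Subgroup G) : Set G)).relIndex K ∣ q ^ k := by
      rw [← hKcard]; exact Subgroup.relIndex_dvd_card _ _
    obtain ⟨j, -, hj⟩ := (Nat.dvd_prime_pow hq).mp hmdvd
    rw [hj] at e1
    have hG1 : Nat.card (Sylow p G) ≡ 1 [MOD p] := card_sylow_modEq_one p G
    have hQ1 : Nat.card (Sylow p (G ⧸ K)) ≡ 1 [MOD p] := card_sylow_modEq_one p (G ⧸ K)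
    have hm1 : q ^ j ≡ 1 [MOD p] := by
      have h2 : Nat.card (Sylow p (G ⧸ K)) * q ^ j ≡ 1 * q ^ j [MOD p] :=
        Nat.ModEq.mul_right (q ^ j) hQ1
      rw [← e1, one_mul] at h2
      exact h2.symm.trans hG1
    have hcardlt : Nat.card (G ⧸ K) < Nat.card G := by
      rw [Subgroup.card_eq_card_quotient_mul_card_subgroup K]
      exact lt_mul_of_one_lt_right Nat.card_pos (K.one_lt_card_iff_ne_bot.mpr hKne)
    have hsolv : Group.IsSolvable (G ⧸ K) := inferInstance
    have ihQ := ih (Nat.card (G ⧸ K)) (hn ▸ hcardlt) (G ⧸ K) rfl hsolv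
    have hlm : ℓ ^ (q ^ j).factorization ℓ ≡ 1 [MOD p] := by
      rw [Nat.Prime.factorization_pow hq]
      by_cases hlq : ℓ = q
      · subst hlq
        rw [Finsupp.single_eq_same]; exact hm1
      · rw [Finsupp.single_eq_of_ne hlq]
        simp [Nat.ModEq]
    rw [e1, Nat.factorization_mul Nat.card_pos.ne' (pow_pos hq.pos j).ne', Finsupp.add_apply,
      pow_add]
    simpa using ihQ.mul hlm

/-- Let G be a finite solvable group and p, ℓ primes. Then the largest power of ℓ dividing the number of Sylow p-subgroups of G is congruent to 1 modulo p. -/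
theorem result {G : Type*} [Group G] [Finite G]
    (hG : Group.IsSolvable G) (p ℓ : ℕ) [Fact p.Prime] (hℓ : ℓ.Prime) :
    ℓ ^ (Nat.card (Sylow p G)).factorization ℓ ≡ 1 [MOD p] :=
  aux p ℓ hℓ (Nat.card G) G rfl hG

end Cfsg.Agent.S4345
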