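-- Statement S4346: no finite group has exactly 22 Sylow 3-subgroups.
-- Elementary proof on a minimal counterexample G (acting faithfully on its 22 Sylow 3-subgroups):
-- a linear-space count shows the Sylow 3-subgroups have order 3 and are TI, all of G acts by even
-- permutations; a Sylow 11-subgroup R has order 11, is self-centralizing and |N_G(R)| = 22, so
-- |N_G(P)| = n_11 ≡ 1 mod 11; N_G(P)/P acts faithfully on the 7 orbits of P, whence
-- |N_G(P)| is 12 or 210; both cases are excluded (parity on the Sylow 11-subgroups, resp. a
-- normal Sylow 7-subgroup of N_G(P)).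
import Cfsg.Statements.S4346
import Cfsg.Agent.Lib.Helper69.Syl22C

set_option autoImplicit false
open Cfsg

namespace Cfsg.Agent.S4346

/-- No finite group has exactly 22 Sylow 3-subgroups. -/
theorem result {G : Type*} [Group G] [Finite G] : Nat.card (Sylow 3 G) ≠ 22 := by
  have : Fact (Nat.Prime 3) := ⟨by norm_num⟩
  exact Cfsg.Agent.Lib.Helper69.Syl22.main_aux _ G rfl

end Cfsg.Agent.S4346
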