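import Cfsg.Statements.S4365
import Cfsg.Agent.Lib.Helper72.SylowCount

set_option autoImplicit false
open Cfsg

namespace Cfsg.Agent.S4365

open Cfsg.Agent.Lib.Helper72

variable {P : Type*} [Group P]

theorem mem_cent {x y : P} : y ∈ Subgroup.centralizer ({x} : Set P) ↔ Commute y x :=
  Subgroup.mem_centralizer_singleton_iff

/-- Two noncentral elements with nested centralizers have equal centralizers. -/
theorem cent_eq [Finite P] {n : ℕ}
    (hH : ∀ u : P, u ∉ Subgroup.center P → (Subgroup.centralizer ({u} : Set P)).index = n)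
    {u v : P} (hu : u ∉ Subgroup.center P) (hv : v ∉ Subgroup.center P)
    (hle : Subgroup.centralizer ({u} : Set P) ≤ Subgroup.centralizer ({v} : Set P)) :
    Subgroup.centralizer ({u} : Set P) = Subgroup.centralizer ({v} : Set P) := by
  apply le_antisymm hle
  rw [← Subgroup.relIndex_eq_one]
  have h1 := Subgroup.relIndex_mul_index hle
  rw [hH u hu, hH v hv] at h1
  have hn : 0 < n := by
    rw [← hH u hu]; exact Nat.pos_of_ne_zero Subgroup.index_ne_zero_of_finite
  exact Nat.eq_of_mul_eq_mul_right hn (by rw [h1, one_mul])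

/-- If `x ^ p` is not central then the centralizer of `x` is abelian. -/
theorem star [Finite P] (p : ℕ) [Fact p.Prime] (hP : IsPGroup p P) {n : ℕ}
    (hH : ∀ u : P, u ∉ Subgroup.center P → (Subgroup.centralizer ({u} : Set P)).index = n)
    (x : P) (hx : x ^ p ∉ Subgroup.center P) :
    ∀ c ∈ Subgroup.centralizer ({x} : Set P), ∀ d ∈ Subgroup.centralizer ({x} : Set P),
      Commute c d := by
  have hx1 : x ∉ Subgroup.center P := fun h => hx (Subgroup.pow_mem _ h p)
  -- ZC : the center of C = C(x), as the set of w in C commuting with C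
  have hW : ∀ w : P, (∀ c ∈ Subgroup.centralizer ({x} : Set P), Commute c w) →
      w ∉ Subgroup.center P →
      Subgroup.centralizer ({w} : Set P) = Subgroup.centralizer ({x} : Set P) := by
    intro w hw hwZ
    exact (cent_eq hH hx1 hwZ (fun c hc => mem_cent.mpr (hw c hc))).symm
  by_contra hcon
  push Not at hcon
  obtain ⟨c, hc, d, hd, hcd⟩ := hcon
  -- c is in C but not central in C
  have hexn : ∃ k : ℕ, ∀ e ∈ Subgroup.centralizer ({x} : Set P), Commute e (c ^ p ^ k) := by
    obtain ⟨k, hk⟩ := hP c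
    exact ⟨k, fun e _ => by rw [hk]; exact Commute.one_right e⟩
  classical
  have hk0 : Nat.find hexn ≠ 0 := by
    intro h0
    have := Nat.find_spec hexn
    rw [h0, pow_zero, pow_one] at this
    exact hcd (this d hd).symm
  obtain ⟨m, hm⟩ := Nat.exists_eq_succ_of_ne_zero hk0
  have hgp : ∀ e ∈ Subgroup.centralizer ({x} : Set P), Commute e ((c ^ p ^ m) ^ p) := by
    have := Nat.find_spec hexn
    rw [hm, pow_succ, pow_mul] at this
    exact this
  have hgn : ¬ ∀ e ∈ Subgroup.centralizer ({x} : Set P), Commute e (c ^ p ^ m) :=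
    Nat.find_min hexn (by omega)
  have hgC : c ^ p ^ m ∈ Subgroup.centralizer ({x} : Set P) := Subgroup.pow_mem _ hc _
  -- write g for c ^ p ^ m
  generalize c ^ p ^ m = g at hgp hgn hgC
  have hgx : Commute g x := mem_cent.mp hgC
  have hgZ : g ∉ Subgroup.center P := by
    intro h
    exact hgn (fun e _ => (Subgroup.mem_center_iff.mp h e))
  by_cases hgpZ : g ^ p ∈ Subgroup.center P
  · -- y = g x
    have hyp : (g * x) ^ p = g ^ p * x ^ p := hgx.mul_pow p
    have hypZ : (g * x) ^ p ∉ Subgroup.center P := by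
      intro h
      apply hx
      have : x ^ p = (g ^ p)⁻¹ * (g * x) ^ p := by rw [hyp]; group
      rw [this]
      exact Subgroup.mul_mem _ (Subgroup.inv_mem _ hgpZ) h
    have hyZ : g * x ∉ Subgroup.center P := fun h => hypZ (Subgroup.pow_mem _ h p)
    have hypc : ∀ e ∈ Subgroup.centralizer ({x} : Set P), Commute e ((g * x) ^ p) := by
      intro e he
      rw [hyp]
      exact (hgp e he).mul_right ((mem_cent.mp he).pow_right p)
    have h1 := hW _ hypc hypZ
    have h2 : Subgroup.centralizer ({g * x} : Set P) =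
        Subgroup.centralizer ({(g * x) ^ p} : Set P) :=
      cent_eq hH hyZ hypZ (fun e he => mem_cent.mpr ((mem_cent.mp he).pow_right p))
    apply hgn
    intro e he
    have he' : Commute e (g * x) := by
      rw [← h1, ← h2] at he
      exact mem_cent.mp he
    have hex : Commute e x := mem_cent.mp he
    have : g = g * x * x⁻¹ := by group
    rw [this]
    exact he'.mul_right hex.inv_right
  · have h1 := hW _ hgp hgpZ
    have h2 : Subgroup.centralizer ({g} : Set P) = Subgroup.centralizer ({g ^ p} : Set P) :=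
      cent_eq hH hgZ hgpZ (fun e he => mem_cent.mpr ((mem_cent.mp he).pow_right p))
    apply hgn
    intro e he
    rw [← h1, ← h2] at he
    exact mem_cent.mp he

/-- A noncentral element whose image in `P/Z` is central of order `p`. -/
theorem exists_g0 [Finite P] (p : ℕ) [Fact p.Prime] (hP : IsPGroup p P)
    (hnc : ∃ x : P, x ∉ Subgroup.center P) :
    ∃ g₀ : P, g₀ ∉ Subgroup.center P ∧ g₀ ^ p ∈ Subgroup.center P ∧
      ∀ h : P, h * g₀ * h⁻¹ * g₀⁻¹ ∈ Subgroup.center P := by
  obtain ⟨x, hx⟩ := hnc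
  have hnt : Nontrivial (P ⧸ Subgroup.center P) := by
    refine ⟨⟨QuotientGroup.mk x, 1, ?_⟩⟩
    intro h
    exact hx ((QuotientGroup.eq_one_iff x).mp h)
  have hPQ : IsPGroup p (P ⧸ Subgroup.center P) := hP.to_quotient _
  have hcn : Nontrivial (Subgroup.center (P ⧸ Subgroup.center P)) := hPQ.center_nontrivial
  have hpc : IsPGroup p (Subgroup.center (P ⧸ Subgroup.center P)) := hPQ.to_subgroup _
  have hdvd : p ∣ Nat.card (Subgroup.center (P ⧸ Subgroup.center P)) := by
    rcases hpc.card_eq_or_dvd with h | h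
    · exfalso
      have := Finite.one_lt_card (α := Subgroup.center (P ⧸ Subgroup.center P))
      omega
    · exact h
  obtain ⟨y, hy⟩ :=
    exists_prime_orderOf_dvd_card' (G := Subgroup.center (P ⧸ Subgroup.center P)) p hdvd
  obtain ⟨g₀, hg₀⟩ := QuotientGroup.mk_surjective (y : P ⧸ Subgroup.center P)
  refine ⟨g₀, ?_, ?_, ?_⟩
  · intro h
    have h1 : (y : P ⧸ Subgroup.center P) = 1 := by
      rw [← hg₀]; exact (QuotientGroup.eq_one_iff g₀).mpr h
    have h2 : y = 1 := Subtype.ext h1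
    rw [h2, orderOf_one] at hy
    exact (Fact.out : p.Prime).one_lt.ne hy
  · have h1 : y ^ p = 1 := by rw [← hy]; exact pow_orderOf_eq_one y
    have h2 : ((y : P ⧸ Subgroup.center P)) ^ p = 1 := by
      have := congrArg Subtype.val h1
      simpa using this
    rw [← hg₀, ← QuotientGroup.mk_pow] at h2
    exact (QuotientGroup.eq_one_iff _).mp h2
  · intro h
    apply (QuotientGroup.eq_one_iff _).mp
    have hyc := Subgroup.mem_center_iff.mp y.2 (QuotientGroup.mk h)
    rw [QuotientGroup.mk_mul, QuotientGroup.mk_mul, QuotientGroup.mk_mul, QuotientGroup.mk_inv,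
      QuotientGroup.mk_inv, hg₀, hyc]
    group

/-- For `g₀` central modulo the center, `h ↦ [h, g₀]` is a homomorphism. -/
def cHom (g₀ : P) (hg : ∀ h : P, h * g₀ * h⁻¹ * g₀⁻¹ ∈ Subgroup.center P) : P →* P :=
  MonoidHom.mk' (fun h => h * g₀ * h⁻¹ * g₀⁻¹) (by
    intro a b
    have hb := Subgroup.mem_center_iff.mp (hg b)
    calc a * b * g₀ * (a * b)⁻¹ * g₀⁻¹
        = a * (b * g₀ * b⁻¹ * g₀⁻¹) * g₀ * a⁻¹ * g₀⁻¹ := by group
      _ = (b * g₀ * b⁻¹ * g₀⁻¹) * a * g₀ * a⁻¹ * g₀⁻¹ := by rw [hb a]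
      _ = (b * g₀ * b⁻¹ * g₀⁻¹) * (a * g₀ * a⁻¹ * g₀⁻¹) := by group
      _ = (a * g₀ * a⁻¹ * g₀⁻¹) * (b * g₀ * b⁻¹ * g₀⁻¹) := (hb _).symm)

theorem cHom_apply (g₀ : P) (hg : ∀ h : P, h * g₀ * h⁻¹ * g₀⁻¹ ∈ Subgroup.center P) (h : P) :
    cHom g₀ hg h = h * g₀ * h⁻¹ * g₀⁻¹ := rfl

theorem cHom_eq_one_iff (g₀ : P) (hg : ∀ h : P, h * g₀ * h⁻¹ * g₀⁻¹ ∈ Subgroup.center P)
    (h : P) : cHom g₀ hg h = 1 ↔ Commute h g₀ := by
  rw [cHom_apply, mul_inv_eq_one, mul_inv_eq_iff_eq_mul]
  exact Iff.rfl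

theorem cHom_pow_eq_one (g₀ : P) (hg : ∀ h : P, h * g₀ * h⁻¹ * g₀⁻¹ ∈ Subgroup.center P)
    (p : ℕ) (hgp : g₀ ^ p ∈ Subgroup.center P) (h : P) : (cHom g₀ hg h) ^ p = 1 := by
  have hc := Subgroup.mem_center_iff.mp (hg h)
  have h1 : h * g₀ * h⁻¹ = cHom g₀ hg h * g₀ := by rw [cHom_apply]; group
  have h2 : (h * g₀ * h⁻¹) ^ p = h * g₀ ^ p * h⁻¹ := conj_pow
  have h3 : h * g₀ ^ p * h⁻¹ = g₀ ^ p := by
    rw [Subgroup.mem_center_iff.mp hgp h, mul_inv_cancel_right]
  have h4 : Commute (cHom g₀ hg h) g₀ := (hc g₀).symm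
  rw [h1, h4.mul_pow, h3] at h2
  exact mul_eq_right.mp h2

section norm

variable {M : Type*} [CommGroup M]

theorem prod_pow_mul_coprime (s : MulAut M) (p : ℕ) (hs : s ^ p = 1) (hp : 0 < p) (i : ℕ)
    (hi : Nat.Coprime p i) (c : M) :
    ∏ j ∈ Finset.range p, (s ^ (j * i)) c = ∏ j ∈ Finset.range p, (s ^ j) c := by
  have hinj : Set.InjOn (fun j => (j * i) % p) (Finset.range p : Set ℕ) := by
    intro j₁ h₁ j₂ h₂ h
    simp only [Finset.coe_range, Set.mem_Iio] at h₁ h₂
    have h' : j₁ * i ≡ j₂ * i [MOD p] := h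
    have h'' : j₁ ≡ j₂ [MOD p] := Nat.ModEq.cancel_right_of_coprime hi h'
    exact Nat.ModEq.eq_of_lt_of_lt h'' h₁ h₂
  have himg : (Finset.range p).image (fun j => (j * i) % p) = Finset.range p := by
    apply Finset.eq_of_subset_of_card_le
    · intro y hy
      obtain ⟨j, -, rfl⟩ := Finset.mem_image.mp hy
      exact Finset.mem_range.mpr (Nat.mod_lt _ hp)
    · rw [Finset.card_image_of_injOn hinj]
  calc ∏ j ∈ Finset.range p, (s ^ (j * i)) c
      = ∏ j ∈ Finset.range p, (s ^ ((j * i) % p)) c := by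
        refine Finset.prod_congr rfl fun j _ => ?_
        rw [pow_eq_pow_mod (j * i) hs]
    _ = ∏ y ∈ (Finset.range p).image (fun j => (j * i) % p), (s ^ y) c := by
        rw [Finset.prod_image hinj]
    _ = ∏ j ∈ Finset.range p, (s ^ j) c := by rw [himg]

theorem norm_identity (s t : MulAut M) (hst : Commute s t) (p : ℕ) (hp : p.Prime)
    (hs : s ^ p = 1) (b : M) :
    ∏ j ∈ Finset.range p, ∏ i ∈ Finset.range p, ((s ^ j * t) ^ i) b =
      b ^ p * ∏ i ∈ Finset.range (p - 1), ∏ j ∈ Finset.range p, (s ^ j) ((t ^ (i + 1)) b) := by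
  have h1 : ∀ j i : ℕ, ((s ^ j * t) ^ i) b = (s ^ (j * i)) ((t ^ i) b) := by
    intro j i
    rw [(hst.pow_left j).mul_pow, ← pow_mul]; rfl
  simp_rw [h1]
  rw [Finset.prod_comm]
  have hF : ∀ F : ℕ → M, ∏ i ∈ Finset.range p, F i =
      F 0 * ∏ i ∈ Finset.range (p - 1), F (i + 1) := by
    intro F
    have hp1 : p = (p - 1) + 1 := by have := hp.pos; omega
    conv_lhs => rw [hp1]
    rw [Finset.prod_range_succ', mul_comm]
  rw [hF]
  congr 1
  · simp
  · refine Finset.prod_congr rfl fun i hi => ?_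
    have hi' : i + 1 < p := by have := Finset.mem_range.mp hi; omega
    apply prod_pow_mul_coprime s p hs hp.pos
    exact (Nat.Prime.coprime_iff_not_dvd hp).mpr (Nat.not_dvd_of_pos_of_lt (Nat.succ_pos i) hi')

end norm

/-- Counting: `[A : Z]` divides the common class size. -/
theorem relIndex_center_dvd [Finite P] (n : ℕ) (A : Subgroup P) [A.Normal]
    (hZA : Subgroup.center P ≤ A)
    (he : ∀ h : P, h ∉ A → ∀ b ∈ A, Commute h b → b ∈ Subgroup.center P)
    (hcidx : ∀ h : P, h ∉ A → (Subgroup.centralizer ({h} : Set P)).index = n)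
    (hne : A ≠ ⊤) : (Subgroup.center P).relIndex A ∣ n := by
  obtain ⟨h, hh⟩ : ∃ h, h ∉ A := by
    by_contra hcon
    push Not at hcon
    exact hne (eq_top_iff.mpr fun g _ => hcon g)
  have hinf : Subgroup.centralizer ({h} : Set P) ⊓ A = Subgroup.center P := by
    apply le_antisymm
    · rintro b ⟨hb1, hb2⟩
      exact he h hh b hb2 (mem_cent.mp hb1).symm
    · exact le_inf (Subgroup.center_le_centralizer _) hZA
  rw [← hinf, Subgroup.inf_relIndex_right, ← relIndex_sup_normal, ← hcidx h hh]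
  exact Subgroup.relIndex_dvd_index_of_le le_sup_left

theorem pow_mem_center_of_relIndex_dvd [Finite P] (p : ℕ) (A : Subgroup P)
    (hdvd : (Subgroup.center P).relIndex A ∣ p) : ∀ b ∈ A, b ^ p ∈ Subgroup.center P := by
  intro b hb
  have h3 := Subgroup.pow_index_mem ((Subgroup.center P).subgroupOf A) (⟨b, hb⟩ : A)
  have h4 : b ^ ((Subgroup.center P).subgroupOf A).index ∈ Subgroup.center P := by
    have := Subgroup.mem_subgroupOf.mp h3
    simpa using this
  obtain ⟨m, hm⟩ := hdvd
  rw [hm, pow_mul]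
  exact Subgroup.pow_mem _ h4 m

open scoped IsMulCommutative in
/-- The norm argument: two independent elements outside `A`. -/
theorem pow_mem_center_of_indep (p : ℕ) [Fact p.Prime] (A : Subgroup P) [A.Normal]
    (hAab : ∀ c ∈ A, ∀ d ∈ A, Commute c d)
    (hZA : Subgroup.center P ≤ A)
    (hcomm : ∀ h k : P, h * k * h⁻¹ * k⁻¹ ∈ A)
    (hd : ∀ h : P, h ∉ A → h ^ p ∈ Subgroup.center P)
    (h k : P) (hh : h ∉ A) (hk : ∀ j < p, h ^ j * k ∉ A) :
    ∀ b ∈ A, b ^ p ∈ Subgroup.center P := by
  have hpp : p.Prime := Fact.out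
  have hAc : IsMulCommutative A := ⟨⟨fun a b => Subtype.ext (hAab a a.2 b b.2)⟩⟩
  -- conjugation by elements of `A` is trivial on `A`
  have hcj1 : ∀ g ∈ A, (MulAut.conjNormal g : MulAut A) = 1 := by
    intro g hg
    ext b
    rw [MulAut.conjNormal_apply, MulAut.one_apply, (hAab g hg b b.2).eq, mul_inv_cancel_right]
  have hst : Commute (MulAut.conjNormal h : MulAut A) (MulAut.conjNormal k) := by
    have e : h * k = (h * k * h⁻¹ * k⁻¹) * (k * h) := by group
    show (MulAut.conjNormal h : MulAut A) * MulAut.conjNormal k =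
      MulAut.conjNormal k * MulAut.conjNormal h
    rw [← map_mul, ← map_mul, e, map_mul, hcj1 _ (hcomm h k), one_mul]
  have hpowA : ∀ g : P, g ^ p ∈ A := by
    intro g
    by_cases hg : g ∈ A
    · exact Subgroup.pow_mem _ hg p
    · exact hZA (hd g hg)
  have hs : (MulAut.conjNormal h : MulAut A) ^ p = 1 := by
    rw [← map_pow]; exact hcj1 _ (hpowA h)
  -- the norm formula
  have hnorm : ∀ (g : P) (b : A) (n : ℕ), ((b : P) * g) ^ n =
      ((∏ i ∈ Finset.range n, ((MulAut.conjNormal g : MulAut A) ^ i) b : A) : P) * g ^ n := by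
    intro g b n
    induction n with
    | zero => simp
    | succ n ih =>
      rw [pow_succ, ih, Finset.prod_range_succ, Subgroup.coe_mul, ← map_pow,
        MulAut.conjNormal_apply]
      group
  have hnormZ : ∀ (g : P), g ∉ A → ∀ b : A,
      ((∏ i ∈ Finset.range p, ((MulAut.conjNormal g : MulAut A) ^ i) b : A) : P) ∈
        Subgroup.center P := by
    intro g hg b
    have hbg : (b : P) * g ∉ A := by
      intro hcon
      apply hg
      have : g = (b : P)⁻¹ * ((b : P) * g) := by group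
      rw [this]
      exact A.mul_mem (A.inv_mem b.2) hcon
    have h1 := hnorm g b p
    have h2 : ((∏ i ∈ Finset.range p, ((MulAut.conjNormal g : MulAut A) ^ i) b : A) : P) =
        ((b : P) * g) ^ p * (g ^ p)⁻¹ := by rw [h1]; group
    rw [h2]
    exact Subgroup.mul_mem _ (hd _ hbg) (Subgroup.inv_mem _ (hd g hg))
  intro b hb
  have hid := norm_identity (MulAut.conjNormal h : MulAut A) (MulAut.conjNormal k) hst p hpp hs
    ⟨b, hb⟩
  have hL : ∏ j ∈ Finset.range p, ∏ i ∈ Finset.range p,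
      (((MulAut.conjNormal h : MulAut A) ^ j * MulAut.conjNormal k) ^ i : MulAut A) (⟨b, hb⟩ : A) ∈
        (Subgroup.center P).subgroupOf A := by
    apply Subgroup.prod_mem
    intro j hj
    rw [← map_pow, ← map_mul]
    exact Subgroup.mem_subgroupOf.mpr (hnormZ _ (hk j (Finset.mem_range.mp hj)) _)
  have hR : ∏ i ∈ Finset.range (p - 1), ∏ j ∈ Finset.range p,
      ((MulAut.conjNormal h : MulAut A) ^ j : MulAut A) (((MulAut.conjNormal k : MulAut A) ^ (i + 1) : MulAut A) (⟨b, hb⟩ : A)) ∈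
        (Subgroup.center P).subgroupOf A := by
    apply Subgroup.prod_mem
    intro i _
    exact Subgroup.mem_subgroupOf.mpr (hnormZ h hh _)
  have hb2 : (⟨b, hb⟩ : A) ^ p ∈ (Subgroup.center P).subgroupOf A := by
    have e : (⟨b, hb⟩ : A) ^ p = (∏ j ∈ Finset.range p, ∏ i ∈ Finset.range p,
      (((MulAut.conjNormal h : MulAut A) ^ j * MulAut.conjNormal k) ^ i : MulAut A) (⟨b, hb⟩ : A)) *
        (∏ i ∈ Finset.range (p - 1), ∏ j ∈ Finset.range p,
      ((MulAut.conjNormal h : MulAut A) ^ j : MulAut A)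
        (((MulAut.conjNormal k : MulAut A) ^ (i + 1) : MulAut A) (⟨b, hb⟩ : A)))⁻¹ := by
      rw [hid, mul_inv_cancel_right]
    rw [e]
    exact Subgroup.mul_mem _ hL (Subgroup.inv_mem _ hR)
  have := Subgroup.mem_subgroupOf.mp hb2
  simpa using this

/-- Let P be a finite p-group whose conjugacy class sizes are exactly 1 and pᵃ for some a ≥ 1. Then every element of P has its p-th power in the center of P (P/Z(P) has exponent p). -/
theorem result {P : Type*} [Group P] [Finite P] (p : ℕ) [Fact p.Prime]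
    (hP : IsPGroup p P) (a : ℕ) (ha : 1 ≤ a)
    (hcs : {k : ℕ | ∃ x : P, (Subgroup.centralizer ({x} : Set P)).index = k} = {1, p ^ a}) (x : P) :
    x ^ p ∈ Subgroup.center P := by
  have hpp : p.Prime := Fact.out
  have hH : ∀ u : P, u ∉ Subgroup.center P →
      (Subgroup.centralizer ({u} : Set P)).index = p ^ a := by
    intro u hu
    have hmem : (Subgroup.centralizer ({u} : Set P)).index ∈ ({1, p ^ a} : Set ℕ) := by
      rw [← hcs]; exact ⟨u, rfl⟩
    rcases hmem with h | h
    · exfalso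
      apply hu
      have := Subgroup.index_eq_one.mp h
      rw [Subgroup.centralizer_eq_top_iff_subset] at this
      exact this (Set.mem_singleton u)
    · exact h
  by_contra hxp
  have hx1 : x ∉ Subgroup.center P := fun h => hxp (Subgroup.pow_mem _ h p)
  have hAab := star p hP hH x hxp
  obtain ⟨g₀, hg0Z, hg0p, hg0c⟩ := exists_g0 p hP ⟨x, hx1⟩
  have hCxp : Subgroup.centralizer ({x} : Set P) = Subgroup.centralizer ({x ^ p} : Set P) :=
    cent_eq hH hx1 hxp (fun e he => mem_cent.mpr ((mem_cent.mp he).pow_right p))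
  have hg0A : g₀ ∈ Subgroup.centralizer ({x} : Set P) := by
    rw [hCxp, mem_cent]
    have h1 : cHom g₀ hg0c (x ^ p) = 1 := by
      rw [map_pow]; exact cHom_pow_eq_one g₀ hg0c p hg0p x
    exact ((cHom_eq_one_iff g₀ hg0c _).mp h1).symm
  have hAg : Subgroup.centralizer ({x} : Set P) = Subgroup.centralizer ({g₀} : Set P) :=
    cent_eq hH hx1 hg0Z (fun e he => mem_cent.mpr (hAab e he g₀ hg0A))
  have hmemA : ∀ h : P, h ∈ Subgroup.centralizer ({x} : Set P) ↔ cHom g₀ hg0c h = 1 := by
    intro h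
    rw [hAg, mem_cent, cHom_eq_one_iff]
  have hAn : (Subgroup.centralizer ({x} : Set P)).Normal := by
    constructor
    intro n hn g
    rw [hmemA] at hn ⊢
    rw [map_mul, map_mul, hn, mul_one, ← map_mul, mul_inv_cancel, map_one]
  have hcen : ∀ h : P, cHom g₀ hg0c h ∈ Subgroup.center P := fun h => hg0c h
  have hcomm : ∀ h k : P, h * k * h⁻¹ * k⁻¹ ∈ Subgroup.centralizer ({x} : Set P) := by
    intro h k
    rw [hmemA, map_mul, map_mul, map_mul, map_inv, map_inv]
    have := Subgroup.mem_center_iff.mp (hcen k) (cHom g₀ hg0c h)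
    rw [this]; group
  have hpowA : ∀ h : P, h ^ p ∈ Subgroup.centralizer ({x} : Set P) := by
    intro h
    rw [hmemA, map_pow]; exact cHom_pow_eq_one g₀ hg0c p hg0p h
  have hZA : Subgroup.center P ≤ Subgroup.centralizer ({x} : Set P) :=
    Subgroup.center_le_centralizer _
  have hc : ∀ b ∈ Subgroup.centralizer ({x} : Set P), b ∉ Subgroup.center P →
      Subgroup.centralizer ({b} : Set P) = Subgroup.centralizer ({x} : Set P) := by
    intro b hb hbZ
    exact (cent_eq hH hx1 hbZ (fun e he => mem_cent.mpr (hAab e he b hb))).symm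
  have hd : ∀ h : P, h ∉ Subgroup.centralizer ({x} : Set P) → h ^ p ∈ Subgroup.center P := by
    intro h hh
    by_contra hhp
    apply hh
    rw [← hc (h ^ p) (hpowA h) hhp, mem_cent]
    exact (Commute.refl h).pow_right p
  have he : ∀ h : P, h ∉ Subgroup.centralizer ({x} : Set P) →
      ∀ b ∈ Subgroup.centralizer ({x} : Set P), Commute h b → b ∈ Subgroup.center P := by
    intro h hh b hb hhb
    by_contra hbZ
    apply hh
    rw [← hc b hb hbZ, mem_cent]
    exact hhb
  have hxA : x ∈ Subgroup.centralizer ({x} : Set P) := mem_cent.mpr (Commute.refl x)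
  have hne : Subgroup.centralizer ({x} : Set P) ≠ ⊤ := by
    intro h
    rw [Subgroup.centralizer_eq_top_iff_subset] at h
    exact hx1 (h (Set.mem_singleton x))
  have hcidx : ∀ h : P, h ∉ Subgroup.centralizer ({x} : Set P) →
      (Subgroup.centralizer ({h} : Set P)).index = p ^ a := by
    intro h hh
    exact hH h (fun hZ => hh (hZA hZ))
  apply hxp
  rcases Nat.lt_or_ge a 2 with ha2 | ha2
  · have ha1 : a = 1 := by omega
    have hdvd := relIndex_center_dvd (p ^ a) (Subgroup.centralizer ({x} : Set P)) hZA he hcidx hne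
    rw [ha1, pow_one] at hdvd
    exact pow_mem_center_of_relIndex_dvd p _ hdvd x hxA
  · obtain ⟨h, hh⟩ : ∃ h, h ∉ Subgroup.centralizer ({x} : Set P) := by
      by_contra hcon
      push Not at hcon
      exact hne (eq_top_iff.mpr fun g _ => hcon g)
    have hexk : ∃ k : P, ∀ j < p, h ^ j * k ∉ Subgroup.centralizer ({x} : Set P) := by
      by_contra hcon
      push Not at hcon
      have hsurj : Function.Surjective (fun j : Fin p =>
          (QuotientGroup.mk ((h ^ (j : ℕ))⁻¹) : P ⧸ Subgroup.centralizer ({x} : Set P))) := by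
        intro q
        obtain ⟨k, rfl⟩ := QuotientGroup.mk_surjective q
        obtain ⟨j, hj, hjk⟩ := hcon k
        refine ⟨⟨j, hj⟩, ?_⟩
        apply QuotientGroup.eq.mpr
        simpa using hjk
      have hcard := Nat.card_le_card_of_surjective _ hsurj
      rw [Nat.card_fin, ← Subgroup.index_eq_card, hH x hx1] at hcard
      have h2 : p ^ 2 ≤ p ^ a := Nat.pow_le_pow_right hpp.pos ha2
      have h3 : p < p ^ 2 := by nlinarith [hpp.one_lt]
      omega
    obtain ⟨k, hk⟩ := hexk
    exact pow_mem_center_of_indep p (Subgroup.centralizer ({x} : Set P)) hAab hZA hcomm hd h k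
      hh hk x hxA

end Cfsg.Agent.S4365
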