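import Mathlib
import Cfsg.Agent.Lib.Helper5.OrdFin
import Cfsg.Statements.S4376

set_option autoImplicit false
open Cfsg

namespace Cfsg.Agent.S4376

/-- There are finite groups G and H having the same number of elements of each order (the same order type) with G solvable and H not solvable. -/
theorem result :
    ∃ (G : Type) (_ : Group G) (_ : Finite G) (H : Type) (_ : Group H) (_ : Finite H),
      Group.IsSolvable G ∧ ¬ Group.IsSolvable H ∧ ∀ n : ℕ, Nat.card {g : G // orderOf g = n} = Nat.card {h : H // orderOf h = n} := by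
  exact ⟨Cfsg.Agent.Lib.Helper5.OrdFin.GG, inferInstance, Cfsg.Agent.Lib.Helper5.OrdFin.gg_finite,
    Cfsg.Agent.Lib.Helper5.OrdFin.HH, inferInstance, Cfsg.Agent.Lib.Helper5.OrdFin.hh_finite,
    Cfsg.Agent.Lib.Helper5.OrdFin.gg_solvable, Cfsg.Agent.Lib.Helper5.OrdFin.hh_not_solvable,
    Cfsg.Agent.Lib.Helper5.OrdFin.same_order_type⟩

end Cfsg.Agent.S4376
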