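import Cfsg.Statements.S4377

set_option autoImplicit false
open Cfsg

namespace Cfsg.Agent.S4377

theorem pow_count (G : Type*) [Group G] [Finite G] (n : ℕ) (hn : n ≠ 0) :
    Nat.card {g : G // g ^ n = 1} = ∑ d ∈ n.divisors, Nat.card {g : G // orderOf g = d} := by
  classical
  let _ := Fintype.ofFinite G
  simp only [Nat.card_eq_fintype_card, Fintype.card_subtype]
  rw [Finset.card_eq_sum_card_fiberwise (f := fun g : G => orderOf g) (t := n.divisors)]
  · refine Finset.sum_congr rfl fun d hd => ?_
    congr 1
    ext g
    simp only [Finset.mem_filter, Finset.mem_univ, true_and, and_iff_right_iff_imp]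
    intro hg
    rw [← orderOf_dvd_iff_pow_eq_one, hg]
    exact Nat.dvd_of_mem_divisors hd
  · intro g hg
    simp only [Finset.coe_filter, Finset.mem_univ, true_and, Set.mem_ofPred_eq] at hg
    simp only [Finset.mem_coe, Nat.mem_divisors]
    exact ⟨orderOf_dvd_of_pow_eq_one hg, hn⟩

theorem pow_count_zero (G : Type*) [Group G] [Finite G] :
    Nat.card {g : G // g ^ 0 = 1} = Nat.card G := by
  simp

theorem pow_count_card (G : Type*) [Group G] [Finite G] (m : ℕ) :
    Nat.card {g : G // g ^ (Nat.card G * m) = 1} = Nat.card G := by
  have : ∀ g : G, g ^ (Nat.card G * m) = 1 := fun g => by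
    rw [pow_mul, pow_card_eq_one', one_pow]
  simp [this]

theorem order_count_zero (G : Type*) [Group G] [Finite G] :
    Nat.card {g : G // orderOf g = 0} = 0 := by
  have : IsEmpty {g : G // orderOf g = 0} := ⟨fun ⟨g, hg⟩ => (orderOf_pos g).ne' hg⟩
  exact Nat.card_of_isEmpty

/-- Two finite groups have the same number of elements of each order if and only if, for every n, they have the same number of elements g with gⁿ = 1. -/
theorem result {G H : Type*} [Group G] [Finite G] [Group H] [Finite H] :
    (∀ n : ℕ, Nat.card {g : G // orderOf g = n} = Nat.card {h : H // orderOf h = n}) ↔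
      ∀ n : ℕ, Nat.card {g : G // g ^ n = 1} = Nat.card {h : H // h ^ n = 1} := by
  constructor
  · intro h
    have hpos : ∀ n : ℕ, n ≠ 0 →
        Nat.card {g : G // g ^ n = 1} = Nat.card {h : H // h ^ n = 1} := by
      intro n hn
      rw [pow_count G n hn, pow_count H n hn]
      exact Finset.sum_congr rfl fun d _ => h d
    intro n
    rcases Nat.eq_zero_or_pos n with rfl | hn
    · rw [pow_count_zero, pow_count_zero]
      have hne : Nat.card G * Nat.card H ≠ 0 :=
        Nat.mul_ne_zero Nat.card_pos.ne' Nat.card_pos.ne'
      have := hpos _ hne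
      rw [pow_count_card G (Nat.card H)] at this
      rw [mul_comm, pow_count_card H (Nat.card G)] at this
      exact this
    · exact hpos n hn.ne'
  · intro h n
    induction n using Nat.strong_induction_on with
    | _ n ih =>
      rcases Nat.eq_zero_or_pos n with rfl | hn
      · rw [order_count_zero, order_count_zero]
      · have hG := pow_count G n hn.ne'
        have hH := pow_count H n hn.ne'
        rw [← Nat.cons_self_properDivisors hn.ne', Finset.sum_cons] at hG hH
        have hsum : ∑ d ∈ n.properDivisors, Nat.card {g : G // orderOf g = d}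
            = ∑ d ∈ n.properDivisors, Nat.card {g : H // orderOf g = d} :=
          Finset.sum_congr rfl fun d hd => ih d (Nat.mem_properDivisors.mp hd).2
        have := h n
        omega

end Cfsg.Agent.S4377
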