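-- Statement S4381: maximal invariant subgroups under coprime action.
import Cfsg.Statements.S4381
import Mathlib
import Cfsg.Agent.Lib.Helper90.ExtAction

set_option autoImplicit false
open Pointwise
open Cfsg

namespace Cfsg.Agent.S4381

open Subgroup
open Cfsg.Agent.Lib.Helper90

section
variable (A : Type*) {G : Type*} [Group A] [Group G] [MulDistribMulAction A G]

/-- invariance of a subgroup under the action. -/
def Inv (L : Subgroup G) : Prop := ∀ a : A, ∀ x ∈ L, a • x ∈ L

/-- maximal invariant proper subgroups. -/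
def MaxInv (M : Subgroup G) : Prop :=
  M ≠ ⊤ ∧ Inv A M ∧ ∀ L : Subgroup G, M < L → Inv A L → L = ⊤

variable {A}

theorem inv_sup {L₁ L₂ : Subgroup G} (h1 : Inv A L₁) (h2 : Inv A L₂) : Inv A (L₁ ⊔ L₂) := by
  intro a x hx
  have hle : (L₁ ⊔ L₂).map (MulDistribMulAction.toMonoidHom G a) ≤ L₁ ⊔ L₂ := by
    rw [Subgroup.map_sup]
    refine sup_le_sup ?_ ?_
    · rintro _ ⟨y, hy, rfl⟩
      exact h1 a y hy
    · rintro _ ⟨y, hy, rfl⟩
      exact h2 a y hy
  exact hle ⟨x, hx, rfl⟩

theorem inv_frattini : Inv A (frattini G) := fun a x hx => smul_mem_frattini a x hx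

theorem inv_normalizer [Finite G] {M : Subgroup G} (hM : Inv A M) :
    Inv A (normalizer (M : Set G)) := by
  intro a g hg
  apply mem_normalizer_fintype
  intro n hn
  have h1 : a • g * n * (a • g)⁻¹ = a • (g * (a⁻¹ • n) * g⁻¹) := by
    rw [smul_mul', smul_mul', smul_inv', smul_inv_smul]
  rw [h1]
  exact hM a _ ((mem_normalizer_iff.mp hg _).mp (hM a⁻¹ n hn))

theorem exists_maxInv_ge [Finite G] {H : Subgroup G} (hH : Inv A H) (hne : H ≠ ⊤) :
    ∃ M : Subgroup G, H ≤ M ∧ MaxInv A M := by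
  obtain ⟨M, hHM, hmax⟩ := Finite.exists_le_maximal
    (p := fun T : Subgroup G => T ≠ ⊤ ∧ Inv A T) (a := H) ⟨hne, hH⟩
  refine ⟨M, hHM, hmax.1.1, hmax.1.2, ?_⟩
  intro L hML hL
  by_contra hLtop
  exact hML.ne (le_antisymm hML.le (hmax.2 ⟨hLtop, hL⟩ hML.le))

theorem maxInv_iff_of_irr [Finite G]
    (hirr : ∀ L : Subgroup G, frattini G < L → Inv A L → L = ⊤) (M : Subgroup G) :
    MaxInv A M ↔ (M = frattini G ∧ M ≠ ⊤) := by
  constructor
  · rintro ⟨hne, hinv, hmax⟩
    refine ⟨?_, hne⟩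
    have hΦM : frattini G ≤ M := by
      by_contra hcon
      have hlt : M < M ⊔ frattini G := by
        refine lt_of_le_of_ne le_sup_left ?_
        intro h
        apply hcon
        rw [h]
        exact le_sup_right
      have htop := hmax _ hlt (inv_sup hinv inv_frattini)
      exact hne (frattini_nongenerating htop)
    rcases eq_or_lt_of_le hΦM with h | h
    · exact h.symm
    · exact absurd (hirr M h hinv) hne
  · rintro ⟨rfl, hne⟩
    exact ⟨hne, inv_frattini, hirr⟩

theorem normal_of_maxInv [Finite G] {p : ℕ} [Fact p.Prime] (hG : IsPGroup p G) {M : Subgroup G}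
    (hM : MaxInv A M) : M.Normal := by
  have hnil : Group.IsNilpotent G := hG.isNilpotent
  have hlt : M < normalizer (M : Set G) :=
    Group.normalizerCondition_of_isNilpotent M (lt_top_iff_ne_top.mpr hM.1)
  exact normalizer_eq_top_iff.mp (hM.2.2 _ hlt (inv_normalizer hM.2.1))

theorem main [Finite A] [Finite G] (hcop : (Nat.card A).Coprime (Nat.card G))
    (hsol : Group.IsSolvable A ∨ Group.IsSolvable G) :
    ((∀ M N : Subgroup G, MaxInv A M → MaxInv A N →
        ∃ c : G, (∀ a : A, a • c = c) ∧ N = MulAut.conj c • M) ↔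
      ((∃ p : ℕ, p.Prime ∧ IsPGroup p G) ∧
        ∀ L : Subgroup G, frattini G < L → Inv A L → L = ⊤)) ∧
    (((∃ p : ℕ, p.Prime ∧ IsPGroup p G) ∧
        ∀ L : Subgroup G, frattini G < L → Inv A L → L = ⊤) →
      ∀ M : Subgroup G, MaxInv A M ↔ (M = frattini G ∧ M ≠ ⊤)) := by
  refine ⟨⟨?_, ?_⟩, fun h M => maxInv_iff_of_irr h.2 M⟩
  · intro hconj
    -- Step 1: `G` is a `p`-group
    have hpg : ∃ p : ℕ, p.Prime ∧ IsPGroup p G := by
      by_contra hnp
      have hbot : (⊥ : Subgroup G) ≠ ⊤ := by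
        intro h
        apply hnp
        refine ⟨2, Nat.prime_two, IsPGroup.of_card (n := 0) ?_⟩
        rw [← Subgroup.card_top (G := G), ← h, Subgroup.card_bot, pow_zero]
      have hinvbot : Inv A (⊥ : Subgroup G) := by
        intro a x hx
        rw [mem_bot] at hx ⊢
        rw [hx, smul_one]
      obtain ⟨M₀, -, hM₀⟩ := exists_maxInv_ge hinvbot hbot
      have key : ∀ r : ℕ, r.Prime → r ^ (Nat.card G).factorization r ∣ Nat.card M₀ := by
        intro r hr
        haveI : Fact r.Prime := ⟨hr⟩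
        obtain ⟨R, hR⟩ := exists_invariant_sylow_ext hcop hsol r
        have hRtop : (R : Subgroup G) ≠ ⊤ := by
          intro h
          apply hnp
          refine ⟨r, hr, ?_⟩
          intro g
          have hg : g ∈ (R : Subgroup G) := h ▸ mem_top g
          obtain ⟨k, hk⟩ := R.isPGroup' ⟨g, hg⟩
          exact ⟨k, by simpa using congrArg Subtype.val hk⟩
        obtain ⟨Mr, hRM, hMr⟩ := exists_maxInv_ge (H := (R : Subgroup G)) hR hRtop
        obtain ⟨c, -, hc⟩ := hconj M₀ Mr hM₀ hMr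
        have hcard : Nat.card Mr = Nat.card M₀ := by
          rw [hc]
          exact Subgroup.card_map_of_injective (MulAut.conj c).injective
        rw [← hcard, ← R.card_eq_multiplicity]
        exact card_dvd_of_le hRM
      have hGpos : Nat.card G ≠ 0 := Nat.card_pos.ne'
      have hMpos : Nat.card M₀ ≠ 0 := Nat.card_pos.ne'
      have hdvd : Nat.card G ∣ Nat.card M₀ := by
        rw [← Nat.factorization_prime_le_iff_dvd hGpos hMpos]
        intro r hr
        exact (hr.pow_dvd_iff_le_factorization hMpos).mp (key r hr)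
      have heq : Nat.card M₀ = Nat.card G :=
        Nat.dvd_antisymm (card_subgroup_dvd_card M₀) hdvd
      exact hM₀.1 ((card_eq_iff_eq_top M₀).mp heq)
    refine ⟨hpg, ?_⟩
    obtain ⟨p, hp, hG⟩ := hpg
    haveI : Fact p.Prime := ⟨hp⟩
    have huniq : ∀ M N : Subgroup G, MaxInv A M → MaxInv A N → N = M := by
      intro M N hM hN
      obtain ⟨c, -, hc⟩ := hconj M N hM hN
      have hMn : M.Normal := normal_of_maxInv hG hM
      rw [hc, Normal.conj_smul_eq_self c M]
    intro L hΦL hL
    by_contra hLtop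
    obtain ⟨M₁, hLM₁, hM₁⟩ := exists_maxInv_ge hL hLtop
    obtain ⟨W, hWinv, -, hWL, hsup⟩ :=
      exists_invariant_supplement_frattini hG hcop L hL hΦL.le
    have hWtop : W ≠ ⊤ := by
      intro h
      rw [h, top_inf_eq] at hWL
      exact hΦL.ne hWL.symm
    obtain ⟨M₂, hWM₂, hM₂⟩ := exists_maxInv_ge hWinv hWtop
    have h12 : M₂ = M₁ := huniq M₁ M₂ hM₁ hM₂
    apply hM₁.1
    rw [eq_top_iff, ← hsup]
    exact sup_le (h12 ▸ hWM₂) hLM₁
  · rintro ⟨-, hirr⟩ M N hM hN
    have h1 := (maxInv_iff_of_irr hirr M).mp hM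
    have h2 := (maxInv_iff_of_irr hirr N).mp hN
    refine ⟨1, fun a => smul_one a, ?_⟩
    rw [map_one, one_smul, h1.1, h2.1]

end

/-- Let the finite group A act by automorphisms on the finite group G with the orders of A and G coprime, and assume that A or G is solvable. Call a proper A-invariant subgroup of G maximal A-invariant when no A-invariant subgroup lies strictly between it and G. Then all maximal A-invariant subgroups of G are conjugate under elements of the fixed-point subgroup C_G(A) if and only if G is a p-group for some prime p and A leaves invariant no subgroup strictly between the Frattini subgroup of G and G. In that case, if G is nontrivial, the Frattini subgroup is the only maximal A-invariant subgroup (a trivial G has none). -/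
theorem result {A G : Type*} [Group A] [Finite A]
    [Group G] [Finite G] [MulDistribMulAction A G] (hcop : (Nat.card A).Coprime (Nat.card G)) (hsol : Group.IsSolvable A ∨ Group.IsSolvable G) :
    ((∀ M N : Subgroup G, (M ≠ ⊤ ∧ (∀ a : A, ∀ x ∈ M, a • x ∈ M) ∧ ∀ L : Subgroup G, M < L → (∀ a : A, ∀ x ∈ L, a • x ∈ L) → L = ⊤) → (N ≠ ⊤ ∧ (∀ a : A, ∀ x ∈ N, a • x ∈ N) ∧ ∀ L : Subgroup G, N < L → (∀ a : A, ∀ x ∈ L, a • x ∈ L) → L = ⊤) →
        ∃ c : G, (∀ a : A, a • c = c) ∧ N = MulAut.conj c • M) ↔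
      ((∃ p : ℕ, p.Prime ∧ IsPGroup p G) ∧ ∀ L : Subgroup G, frattini G < L → (∀ a : A, ∀ x ∈ L, a • x ∈ L) → L = ⊤)) ∧
    (((∃ p : ℕ, p.Prime ∧ IsPGroup p G) ∧ ∀ L : Subgroup G, frattini G < L → (∀ a : A, ∀ x ∈ L, a • x ∈ L) → L = ⊤) →
      ∀ M : Subgroup G, (M ≠ ⊤ ∧ (∀ a : A, ∀ x ∈ M, a • x ∈ M) ∧ ∀ L : Subgroup G, M < L → (∀ a : A, ∀ x ∈ L, a • x ∈ L) → L = ⊤) ↔ (M = frattini G ∧ M ≠ ⊤)) := by
  exact main hcop hsol

end Cfsg.Agent.S4381
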