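import Cfsg.Statements.S4385
import Cfsg.Agent.Lib.Helper30.DSims.Final
import Cfsg.Agent.Lib.Helper49.DSims.LemCardP
import Cfsg.Agent.Lib.Helper21.DSims.LemExpTwo
import Cfsg.Agent.Lib.Helper21.DSims.LemCube
import Cfsg.Agent.Lib.Helper67.DSims.LemIdent24
import Cfsg.Agent.Lib.Helper67.DSims.LemIdent48
import Cfsg.Agent.Lib.Helper62.DSims.LemIdentV4
import Cfsg.Agent.Lib.Helper61.DSims.LemDihExtract

set_option autoImplicit false
open Pointwise
open Cfsg

namespace Cfsg.Agent.S4385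

/-- Let H be a subgroup of a finite group G whose largest normal 2-subgroup O_2(H) is nontrivial and such that H/O_2(H) is a dihedral group of order at least 4. Let P be a Sylow 2-subgroup of H and S a Sylow 2-subgroup of G containing P. Suppose y ∈ S lies outside P, normalizes P, has y² in the product of P with the centralizer of P in G, and normalizes no non-identity normal subgroup of H contained in P. Then P has order 4, 8 or 16, and H modulo its largest normal subgroup of odd order is isomorphic to the four-group, to the symmetric group of degree 4, or to the direct product of the symmetric group of degree 4 with a group of order 2. -/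
theorem result {G : Type*} [Group G] [Finite G]
    (H : Subgroup G) (hO : Cfsg.pCore 2 ↥H ≠ ⊥) (n : ℕ) (hn : 2 ≤ n) (hdih : Nonempty (↥H ⧸ Cfsg.pCore 2 ↥H ≃* DihedralGroup n))
    (P : Subgroup G) (hPH : P ≤ H) (hP : IsPGroup 2 P) (hPsyl : ¬ 2 ∣ P.relIndex H)
    (S : Sylow 2 G) (hPS : P ≤ (S : Subgroup G)) (y : G) (hyS : y ∈ (S : Subgroup G)) (hyP : y ∉ P)
    (hy2 : y ^ 2 ∈ P ⊔ Subgroup.centralizer (P : Set G)) (hyN : MulAut.conj y • P = P)
    (hyQ : ∀ Q : Subgroup G, Q ≤ P → (Q.subgroupOf H).Normal → MulAut.conj y • Q = Q → Q = ⊥) :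
    (Nat.card P = 4 ∨ Nat.card P = 8 ∨ Nat.card P = 16) ∧
    (Nonempty (↥H ⧸ Cfsg.oddCore ↥H ≃* Multiplicative (ZMod 2) × Multiplicative (ZMod 2)) ∨
     Nonempty (↥H ⧸ Cfsg.oddCore ↥H ≃* Equiv.Perm (Fin 4)) ∨
     Nonempty (↥H ⧸ Cfsg.oddCore ↥H ≃* Equiv.Perm (Fin 4) × Multiplicative (ZMod 2))) := by
  exact Cfsg.Agent.Lib.Helper30.DSims.s4385_of_packages
    Cfsg.Agent.Lib.Helper49.DSims.lemCardP Cfsg.Agent.Lib.Helper21.DSims.lemExpTwo
    Cfsg.Agent.Lib.Helper21.DSims.lemCube Cfsg.Agent.Lib.Helper67.DSims.lemIdent24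
    Cfsg.Agent.Lib.Helper67.DSims.lemIdent48 Cfsg.Agent.Lib.Helper62.DSims.lemIdentV4
    Cfsg.Agent.Lib.Helper61.DSims.lemDihExtract H hO n hn hdih P hPH hP hPsyl y hy2 hyN hyQ

end Cfsg.Agent.S4385
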