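import Cfsg.Statements.S4387

set_option autoImplicit false
open Pointwise
open Cfsg

namespace Cfsg.Agent.S4387

theorem exists_not_mem_conj {G : Type*} [Group G] [Finite G] (M : Subgroup G) (hM : M ≠ ⊤) :
    ∃ g : G, ∀ x : G, g ∉ MulAut.conj x • M := by
  classical
  by_contra hcon
  push Not at hcon
  let _ := Fintype.ofFinite G
  have hfix : ∀ g : G, 1 ≤ Fintype.card (MulAction.fixedBy (G ⧸ M) g) := by
    intro g
    obtain ⟨x, hx⟩ := hcon g
    rw [Subgroup.mem_pointwise_smul_iff_inv_smul_mem] at hx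
    have hx' : x⁻¹ * g * x ∈ M := by simpa using hx
    refine Fintype.card_pos_iff.mpr ⟨⟨(x : G ⧸ M), ?_⟩⟩
    rw [MulAction.mem_fixedBy]
    change ((g * x : G) : G ⧸ M) = (x : G ⧸ M)
    rw [QuotientGroup.eq]
    have := inv_mem hx'
    simpa [mul_assoc] using this
  have hsum := MulAction.sum_card_fixedBy_eq_card_orbits_mul_card_group G (G ⧸ M)
  have hone : Fintype.card (MulAction.orbitRel.Quotient G (G ⧸ M)) = 1 := by
    have : Subsingleton (MulAction.orbitRel.Quotient G (G ⧸ M)) :=
      (MulAction.pretransitive_iff_subsingleton_quotient G (G ⧸ M)).mp inferInstance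
    exact Fintype.card_eq_one_iff.mpr ⟨Quotient.mk'' ((1 : G) : G ⧸ M), fun y => Subsingleton.elim _ _⟩
  rw [hone, one_mul] at hsum
  have h1 : Fintype.card (MulAction.fixedBy (G ⧸ M) (1 : G)) = M.index := by
    rw [Subgroup.index_eq_card, Nat.card_eq_fintype_card]
    exact Fintype.card_congr ⟨fun x => x.1, fun x => ⟨x, by simp⟩,
      fun x => rfl, fun x => rfl⟩
  have h2 : 2 ≤ M.index := by
    have h0 : M.index ≠ 0 := Subgroup.index_ne_zero_of_finite
    have h1' : M.index ≠ 1 := fun h => hM (Subgroup.index_eq_one.mp h)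
    omega
  rw [← Finset.add_sum_erase Finset.univ _ (Finset.mem_univ (1 : G)), h1] at hsum
  have h3 : (Finset.univ.erase (1 : G)).card • 1 ≤
      ∑ g ∈ Finset.univ.erase (1 : G), Fintype.card (MulAction.fixedBy (G ⧸ M) g) :=
    Finset.card_nsmul_le_sum _ _ _ (fun g _ => hfix g)
  rw [Finset.card_erase_of_mem (Finset.mem_univ _), Finset.card_univ] at h3
  have hpos : 0 < Fintype.card G := Fintype.card_pos
  simp only [smul_eq_mul, mul_one] at h3
  omega

/-- Let G be a non-trivial finite group in which any two maximal subgroups are conjugate. Then G is cyclic of prime-power order. -/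
theorem result {G : Type*} [Group G] [Finite G] [Nontrivial G]
    (h : ∀ M N : Subgroup G, IsCoatom M → IsCoatom N → ∃ g : G, N = MulAut.conj g • M) :
    IsCyclic G ∧ IsPrimePow (Nat.card G) := by
  obtain ⟨M, hM, -⟩ : ∃ M : Subgroup G, IsCoatom M ∧ ⊥ ≤ M :=
    (eq_top_or_exists_le_coatom (⊥ : Subgroup G)).resolve_left bot_ne_top
  constructor
  · rw [isCyclic_iff_exists_zpowers_eq_top]
    obtain ⟨g, hg⟩ := exists_not_mem_conj M hM.1
    refine ⟨g, ?_⟩
    by_contra hne
    obtain ⟨N, hN, hgN⟩ := (eq_top_or_exists_le_coatom (Subgroup.zpowers g)).resolve_left hne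
    obtain ⟨x, hx⟩ := h M N hM hN
    exact hg x (hx ▸ hgN (Subgroup.mem_zpowers g))
  · have hidx1 : M.index ≠ 1 := fun h1 => hM.1 (Subgroup.index_eq_one.mp h1)
    set p := M.index.minFac with hp
    have hpp : p.Prime := Nat.minFac_prime hidx1
    have : Fact p.Prime := ⟨hpp⟩
    obtain ⟨P⟩ : Nonempty (Sylow p G) := inferInstance
    have hPtop : (P : Subgroup G) = ⊤ := by
      by_contra hne
      obtain ⟨N, hN, hPN⟩ := (eq_top_or_exists_le_coatom (P : Subgroup G)).resolve_left hne
      obtain ⟨x, hx⟩ := h M N hM hN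
      have hNidx : N.index = M.index := by
        rw [hx, Subgroup.pointwise_smul_def]
        exact Subgroup.index_map_of_bijective (MulAut.conj x).bijective M
      have hdvd : p ∣ (P : Subgroup G).index :=
        dvd_trans (hNidx ▸ Nat.minFac_dvd M.index) (Subgroup.index_dvd_of_le hPN)
      exact P.not_dvd_index hdvd
    have hpg : IsPGroup p G := by
      have := P.isPGroup'
      rw [hPtop] at this
      exact IsPGroup.of_equiv this Subgroup.topEquiv
    obtain ⟨n, hn⟩ := IsPGroup.iff_card.mp hpg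
    rw [isPrimePow_nat_iff]
    refine ⟨p, n, hpp, ?_, hn.symm⟩
    rcases Nat.eq_zero_or_pos n with rfl | hpos
    · exfalso
      have h1 : Nat.card G = 1 := by simpa using hn
      have : Subsingleton G := (Nat.card_eq_one_iff_unique.mp h1).1
      exact not_subsingleton G this
    · exact hpos

end Cfsg.Agent.S4387
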