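import Mathlib
import Cfsg.Statements.S4399
import Cfsg.Agent.Lib.Helper73.MaximalClassTwo
import Cfsg.Agent.Lib.Helper73.DihedralIso

set_option autoImplicit false
open Cfsg

namespace Cfsg.Agent.S4399

open Cfsg.Agent.Lib.Helper73

/-- Let S be a finite 2-group whose commutator quotient S/[S,S] is a Klein four-group (order 4 and exponent 2). Then S itself has order 4, or S is dihedral of order at least 8, semidihedral of order at least 16 (order 2^(k+4) with an element a of order 2^(k+3) and an involution b with b a b⁻¹ = a^(2^(k+2)−1)), or generalized quaternion of order at least 8. -/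
theorem result {S : Type*} [Group S] [Finite S] (h2 : IsPGroup 2 S) (hab : Nat.card (Abelianization S) = 4)
    (hexp : ∀ x : Abelianization S, x ^ 2 = 1) :
    Nat.card S = 4 ∨
    ((∃ k : ℕ, Nonempty (S ≃* DihedralGroup (2 ^ (k + 2)))) ∨
      (∃ k : ℕ, Nat.card S = 2 ^ (k + 4) ∧ ∃ a b : S, orderOf a = 2 ^ (k + 3) ∧ orderOf b = 2 ∧ b * a * b⁻¹ = a ^ (2 ^ (k + 2) - 1)) ∨
      (∃ k : ℕ, Nonempty (S ≃* QuaternionGroup (2 ^ (k + 1))))) := by
  have hidx : (commutator S).index = 4 := by
    rw [Subgroup.index_eq_card]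
    exact hab
  by_cases hna : commutator S = ⊥
  · left
    rw [hna, Subgroup.index_bot] at hidx
    exact hidx
  · right
    obtain ⟨m, a, b, hm2, hcard, ha, hbz, h⟩ := maximal_class_structure S h2 hidx hna
    obtain ⟨k, rfl⟩ : ∃ k, m = k + 2 := ⟨m - 2, by omega⟩
    rcases h with ⟨hinv, hb2⟩ | ⟨hinv, hb2⟩ | ⟨hm3, hsd, hb2⟩
    · left
      have : NeZero (2 ^ (k + 2)) := ⟨pow_ne_zero _ (by norm_num)⟩
      exact ⟨k, nonempty_mulEquiv_dihedralGroup (2 ^ (k + 2)) a b ha hb2 hinv hbz
        (by rw [hcard, pow_succ, mul_comm])⟩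
    · right; right
      have : NeZero (2 ^ (k + 1)) := ⟨pow_ne_zero _ (by norm_num)⟩
      refine ⟨k, nonempty_mulEquiv_quaternionGroup (2 ^ (k + 1)) a b ?_ ?_ hinv hbz ?_⟩
      · rw [ha, pow_succ, mul_comm]
      · rw [hb2]
        congr 2
      · rw [hcard]
        ring
    · right; left
      obtain ⟨k', rfl⟩ : ∃ k', k = k' + 1 := ⟨k - 1, by omega⟩
      refine ⟨k', hcard, a, b, ha, ?_, hsd⟩
      refine orderOf_eq_prime hb2 ?_
      rintro rfl
      exact hbz (one_mem _)

end Cfsg.Agent.S4399
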