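import Cfsg.Statements.S4401
import Cfsg.Agent.Lib.Helper50.SecRank3

set_option autoImplicit false
open Cfsg

namespace Cfsg.Agent.S4401

/-- Let S be a finite 2-group of sectional 2-rank at most 4 and P a proper non-abelian subgroup whose centre has order 2. Let S₀ be the centralizer in S of Z(P) and suppose P is normal in S₀. Then either S₀ = S, or P has sectional 2-rank at most 2 and S₀ has index 2 in S. -/
theorem result {S : Type*} [Group S] [Finite S] (h2 : IsPGroup 2 S) (hr : Cfsg.SectionalPRankLE 2 4 S)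
    (P : Subgroup S) (hPlt : P ≠ ⊤) (hP : ¬ IsMulCommutative ↥P) (hZP : Nat.card ↥(Subgroup.center ↥P) = 2)
    (S₀ : Subgroup S) (hS₀ : S₀ = Subgroup.centralizer (((Subgroup.center ↥P).map P.subtype : Subgroup S) : Set S))
    (hPn : ∀ s ∈ S₀, ∀ x ∈ P, s * x * s⁻¹ ∈ P) :
    S₀ = ⊤ ∨ (Cfsg.SectionalPRankLE 2 2 ↥P ∧ S₀.index = 2) := by
  by_cases htop : S₀ = ⊤
  · exact Or.inl htop
  right
  obtain ⟨z, hz⟩ := Cfsg.Agent.Lib.Helper50.sr_good_of P hP hZP
  have hS₀mem : ∀ g, g ∈ S₀ ↔ g * z = z * g := by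
    intro g
    rw [hS₀, Subgroup.mem_centralizer_iff]
    constructor
    · intro h
      have hzmem : z ∈ ((Subgroup.center ↥P).map P.subtype : Subgroup S) := by
        refine ⟨⟨z, hz.1⟩, ?_, rfl⟩
        rw [SetLike.mem_coe, Subgroup.mem_center_iff]
        intro x
        exact Subtype.ext (hz.2.2.1 x x.2)
      exact (h z hzmem).symm
    · intro h y hy
      rw [SetLike.mem_coe] at hy
      obtain ⟨c, hc, rfl⟩ := hy
      rw [SetLike.mem_coe, Subgroup.mem_center_iff] at hc
      rcases hz.2.2.2.1 (c : S) c.2 (fun a ha => congrArg Subtype.val (hc ⟨a, ha⟩)) with h1 | h1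
      · simp [h1]
      · change (c : S) * g = g * (c : S)
        rw [h1]
        exact h.symm
  obtain ⟨p1, p2⟩ := Cfsg.Agent.Lib.Helper50.sr_main h2 hr P S₀ z hz hS₀mem hPn htop
  refine ⟨?_, p2⟩
  apply Cfsg.Agent.Lib.Helper50.sr_of_relIndex
  intro H K hKH hsq
  have h3 := p1 (H.map P.subtype) (K.map P.subtype) (Subgroup.map_mono hKH)
    (Subgroup.map_subtype_le H) ?_
  · rwa [Subgroup.relIndex_map_map_of_injective _ _ P.subtype_injective] at h3
  · rintro _ ⟨x, hx, rfl⟩
    rw [← map_pow]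
    exact Subgroup.mem_map_of_mem _ (hsq x hx)

end Cfsg.Agent.S4401
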