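import Cfsg.Statements.S4405
import Cfsg.Agent.Lib.Helper93.G320d
import Cfsg.Agent.Lib.Helper1.BurnsideBasis

set_option autoImplicit false
open Cfsg

namespace Cfsg.Agent.S4405

/-- Let G be a finite group of order 320 = 64·5 whose largest normal 2-subgroup H = O₂(G) equals the Fitting subgroup F(G) and is extraspecial of order 32 containing no elementary abelian subgroup of order 8 (so H is the central product of a quaternion group and a dihedral group of order 8). If T is an involution of G outside H whose centralizer in H contains an elementary abelian subgroup of order 4, then C_H(T) itself is elementary abelian of order 4. -/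
theorem result {G : Type*} [Group G] [Finite G]
    (hG : Nat.card G = 320) (hHF : Cfsg.pCore 2 G = Cfsg.fittingSubgroup G)
    (hex : Cfsg.IsExtraspecial 2 ↥(Cfsg.pCore 2 G)) (h32 : Nat.card ↥(Cfsg.pCore 2 G) = 32)
    (hminus : ∀ A : Subgroup G, A ≤ Cfsg.pCore 2 G → Cfsg.IsElementaryAbelian 2 A → Nat.card ↥A ≤ 4)
    (T : G) (hT : orderOf T = 2) (hTH : T ∉ Cfsg.pCore 2 G)
    (V : Subgroup G) (hV : V ≤ Cfsg.pCore 2 G ⊓ Subgroup.centralizer ({T} : Set G)) (hV4 : Nat.card ↥V = 4) (hVe : Cfsg.IsElementaryAbelian 2 V) :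
    Nat.card ↥(Cfsg.pCore 2 G ⊓ Subgroup.centralizer ({T} : Set G)) = 4 ∧
      Cfsg.IsElementaryAbelian 2 (Cfsg.pCore 2 G ⊓ Subgroup.centralizer ({T} : Set G)) := by
  classical
  generalize hH : Cfsg.pCore 2 G = H at *
  have hHn : H.Normal := hH ▸ Subgroup.sSup_normal _ (fun _ h => h.1)
  obtain ⟨⟨hPG, hfr, hcm⟩, hc2⟩ := hex
  obtain ⟨Z, hZ⟩ : ∃ Z, Z = (Subgroup.center ↥H).map H.subtype := ⟨_, rfl⟩
  have hZ2 : Nat.card Z = 2 := by
    rw [hZ, Subgroup.card_map_of_injective H.subtype_injective]; exact hc2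
  have hZH : Z ≤ H := by rw [hZ]; exact Subgroup.map_subtype_le _
  have hZn : Z.Normal := by rw [hZ]; infer_instance
  have hZc : ∀ z ∈ Z, ∀ g : G, g * z = z * g := by
    intro z hz g
    by_cases hz1 : z = 1
    · subst hz1; simp
    · have hconj : g * z * g⁻¹ ∈ Z := hZn.conj_mem z hz g
      have hne : g * z * g⁻¹ ≠ 1 := by
        intro h
        apply hz1
        have : z = g⁻¹ * (g * z * g⁻¹) * g := by group
        rw [this, h]; group
      obtain ⟨y, -, hy⟩ := (Nat.card_eq_two_iff' (1 : Z)).1 hZ2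
      have h1 := hy ⟨z, hz⟩ (by intro h; exact hz1 (congrArg Subtype.val h))
      have h2 := hy ⟨g * z * g⁻¹, hconj⟩ (by intro h; exact hne (congrArg Subtype.val h))
      have h3 : g * z * g⁻¹ = z := congrArg Subtype.val (h2.trans h1.symm)
      calc g * z = g * z * g⁻¹ * g := by group
        _ = z * g := by rw [h3]
  have hsq : ∀ x ∈ H, x ^ 2 ∈ Z := by
    intro x hx
    have := Cfsg.Agent.Lib.Helper1.pow_mem_frattini_of_pGroup 2 hPG ⟨x, hx⟩
    rw [hfr] at this
    rw [hZ]
    exact ⟨_, this, rfl⟩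
  have hcomm : ∀ x ∈ H, ∀ y ∈ H, x * y * x⁻¹ * y⁻¹ ∈ Z := by
    intro x hx y hy
    have : (⟨x, hx⟩ : H) * ⟨y, hy⟩ * (⟨x, hx⟩ : H)⁻¹ * (⟨y, hy⟩ : H)⁻¹ ∈ commutator H := by
      rw [commutator_def]
      exact Subgroup.commutator_mem_commutator (Subgroup.mem_top _) (Subgroup.mem_top _)
    rw [hcm] at this
    rw [hZ]
    exact ⟨_, this, rfl⟩
  have S : Cfsg.Agent.Lib.Helper93.G320.Setup G H Z T :=
    { hG := hG
      hHn := hHn
      h32 := h32
      hZ2 := hZ2
      hZH := hZH
      hZc := hZc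
      hsq := hsq
      hcomm := hcomm
      hO2 := fun N hN hp => hH ▸ le_sSup ⟨hN, hp⟩
      hF := fun N hN hc => by
        rw [hHF]
        have : IsMulCommutative N := ⟨⟨fun a b => Subtype.ext (hc a a.2 b b.2)⟩⟩
        exact le_sSup ⟨hN, ⟨⟨1, Subgroup.upperCentralSeries_one_eq_top_iff.mpr inferInstance⟩⟩⟩
      hminus := fun A hA hexp => hminus A hA ⟨⟨⟨fun a b => by
        apply Subtype.ext
        have ha := hexp a a.2
        have hb := hexp b b.2
        have hab := hexp (a * b) (A.mul_mem a.2 b.2)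
        show (a : G) * (b : G) = (b : G) * (a : G)
        have e1 : (a : G)⁻¹ = a := inv_eq_of_mul_eq_one_left (by rw [← pow_two]; exact ha)
        have e2 : (b : G)⁻¹ = b := inv_eq_of_mul_eq_one_left (by rw [← pow_two]; exact hb)
        have e3 : ((a : G) * (b : G))⁻¹ = (a : G) * (b : G) :=
          inv_eq_of_mul_eq_one_left (by rw [← pow_two]; exact hab)
        rw [← e3, mul_inv_rev, e1, e2]⟩⟩, hexp⟩
      hT := by rw [← hT]; exact pow_orderOf_eq_one T
      hTH := hTH }
  have hle := S.card_cent_T_le'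
  have hge : 4 ≤ Nat.card (H ⊓ Subgroup.centralizer ({T} : Set G) : Subgroup G) :=
    hV4 ▸ Subgroup.card_le_of_le hV
  have hcard : Nat.card (H ⊓ Subgroup.centralizer ({T} : Set G) : Subgroup G) = 4 :=
    le_antisymm hle hge
  have hVeq : V = H ⊓ Subgroup.centralizer ({T} : Set G) :=
    Subgroup.eq_of_le_of_card_ge hV (by rw [hcard, hV4])
  exact ⟨hcard, hVeq ▸ hVe⟩

end Cfsg.Agent.S4405
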