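import Mathlib
import Cfsg.Statements.S4406

set_option autoImplicit false
open Cfsg

namespace Cfsg.Agent.S4406

/-- The alternating group of degree four. -/
abbrev A4 := ↥(alternatingGroup (Fin 4))

theorem pow12 : ∀ u : A4, u ^ 12 = 1 := by decide +kernel

theorem sq_of_pow4 : ∀ u : A4, u ^ 4 = 1 → u ^ 2 = 1 := by decide +kernel

theorem card_A4 : Nat.card A4 = 12 := by
  rw [Nat.card_eq_fintype_card]
  decide +kernel

theorem sq_of_two_pow (u : A4) (k : ℕ) (h : u ^ 2 ^ k = 1) : u ^ 2 = 1 := by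
  apply sq_of_pow4
  have h1 : orderOf u ∣ 2 ^ k := orderOf_dvd_of_pow_eq_one h
  have h2 : orderOf u ∣ 4 * 3 := orderOf_dvd_of_pow_eq_one (pow12 u)
  have hc : Nat.Coprime (orderOf u) 3 :=
    Nat.Coprime.coprime_dvd_left h1 (Nat.Coprime.pow_left k (by norm_num))
  exact orderOf_dvd_iff_pow_eq_one.mp (hc.dvd_of_dvd_mul_right h2)

theorem cube_of_three_pow (u : A4) (k : ℕ) (h : u ^ 3 ^ k = 1) : u ^ 3 = 1 := by
  have h1 : orderOf u ∣ 3 ^ k := orderOf_dvd_of_pow_eq_one h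
  have h2 : orderOf u ∣ 3 * 4 := orderOf_dvd_of_pow_eq_one (pow12 u)
  have hc : Nat.Coprime (orderOf u) 4 :=
    Nat.Coprime.coprime_dvd_left h1 (Nat.Coprime.pow_left k (by norm_num))
  exact orderOf_dvd_iff_pow_eq_one.mp (hc.dvd_of_dvd_mul_right h2)

set_option synthInstance.maxSize 8192 in
set_option maxRecDepth 100000 in
theorem core : ∀ a : A4, a ≠ 1 → a ^ 3 = 1 → ∀ b : A4, b ≠ 1 → b ^ 3 = 1 →
    ∀ x₁ : A4, x₁ ≠ 1 → x₁ ^ 2 = 1 → ∀ x₂ : A4, x₂ ≠ 1 → x₂ ^ 2 = 1 →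
    ∀ y₁ : A4, y₁ ≠ 1 → y₁ ^ 2 = 1 → y₁ ≠ x₁ → ∀ y₂ : A4, y₂ ≠ 1 → y₂ ^ 2 = 1 → y₂ ≠ x₂ →
    (((a * x₁ * a⁻¹ = y₁ ∧ b * x₂ * b⁻¹ = y₂) ∨ (a * x₁ * a⁻¹ = x₁ * y₁ ∧ b * x₂ * b⁻¹ = x₂ * y₂)) ∧
     ((a * y₁ * a⁻¹ = x₁ ∧ b * y₂ * b⁻¹ = x₂) ∨ (a * y₁ * a⁻¹ = x₁ * y₁ ∧ b * y₂ * b⁻¹ = x₂ * y₂))) ∨
    (((a * x₁ * a⁻¹ = y₁ ∧ b⁻¹ * x₂ * b⁻¹⁻¹ = y₂) ∨ (a * x₁ * a⁻¹ = x₁ * y₁ ∧ b⁻¹ * x₂ * b⁻¹⁻¹ = x₂ * y₂)) ∧
     ((a * y₁ * a⁻¹ = x₁ ∧ b⁻¹ * y₂ * b⁻¹⁻¹ = x₂) ∨ (a * y₁ * a⁻¹ = x₁ * y₁ ∧ b⁻¹ * y₂ * b⁻¹⁻¹ = x₂ * y₂))) := by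
  decide +kernel

/-- If `g` has order dividing three and conjugation by `g` sends `x` and `y` into the group
`B = {1, x, y, x * y}`, then the cyclic group generated by `g` normalizes `B`. -/
theorem zpowers_le_normalizer {G : Type*} [Group G] (B : Subgroup G) (x y g : G)
    (hB : ∀ h ∈ B, h = 1 ∨ h = x ∨ h = y ∨ h = x * y) (hg : g ^ 3 = 1)
    (hx : g * x * g⁻¹ ∈ B) (hy : g * y * g⁻¹ ∈ B) :
    Subgroup.zpowers g ≤ Subgroup.normalizer (B : Set G) := by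
  have hfw : ∀ h ∈ B, g * h * g⁻¹ ∈ B := by
    intro h hh
    rcases hB h hh with rfl | rfl | rfl | rfl
    · simp
    · exact hx
    · exact hy
    · have : g * (x * y) * g⁻¹ = (g * x * g⁻¹) * (g * y * g⁻¹) := by group
      rw [this]
      exact mul_mem hx hy
  rw [Subgroup.zpowers_le, Subgroup.mem_normalizer_iff]
  intro h
  refine ⟨hfw h, fun hh => ?_⟩
  have h2 := hfw _ (hfw _ hh)
  have e : g * (g * (g * h * g⁻¹) * g⁻¹) * g⁻¹ = g ^ 3 * h * (g ^ 3)⁻¹ := by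
    simp only [pow_succ, pow_zero, one_mul, mul_inv_rev, mul_assoc]
  rw [e, hg] at h2
  simpa using h2

/-- A subgroup of order four all of whose elements square to one is `{1, x, y, x * y}`. -/
theorem four_group {G : Type*} [Group G] (B : Subgroup G) (hB4 : Nat.card ↥B = 4)
    (hsq : ∀ h ∈ B, h ^ 2 = 1) :
    ∃ x ∈ B, ∃ y ∈ B, x ≠ 1 ∧ y ≠ 1 ∧ y ≠ x ∧ x * y ≠ 1 ∧
      ∀ h ∈ B, h = 1 ∨ h = x ∨ h = y ∨ h = x * y := by
  classical
  have hfin : (B : Set G).Finite := by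
    have : Finite ↥B := Nat.finite_of_card_ne_zero (by omega)
    exact Set.toFinite _
  have hnc : (B : Set G).ncard = 4 := by rw [← Nat.card_coe_set_eq]; exact hB4
  obtain ⟨x, hxB, hx1⟩ : ∃ x ∈ B, x ≠ 1 := by
    by_contra hcon
    push Not at hcon
    have hsub : (B : Set G) ⊆ {1} := fun h hh => hcon h hh
    have := Set.ncard_le_ncard hsub (Set.finite_singleton 1)
    rw [hnc, Set.ncard_singleton] at this
    omega
  obtain ⟨y, hyB, hy1, hyx⟩ : ∃ y ∈ B, y ≠ 1 ∧ y ≠ x := by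
    by_contra hcon
    push Not at hcon
    have hsub : (B : Set G) ⊆ {1, x} := by
      intro h hh
      by_cases h1 : h = 1
      · exact Or.inl h1
      · exact Or.inr (hcon h hh h1)
    have := Set.ncard_le_ncard hsub (Set.toFinite _)
    have h2 : ({1, x} : Set G).ncard ≤ 2 := by
      have := Set.ncard_insert_le 1 ({x} : Set G)
      rw [Set.ncard_singleton] at this
      exact this
    omega
  have hxx : x * x = 1 := by rw [← pow_two]; exact hsq x hxB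
  have hxy1 : x * y ≠ 1 := by
    intro h
    apply hyx
    calc y = x * x * y := by rw [hxx, one_mul]
      _ = x * (x * y) := by group
      _ = x := by rw [h, mul_one]
  have hxyx : x * y ≠ x := fun h => hy1 (by simpa using h)
  have hxyy : x * y ≠ y := fun h => hx1 (by simpa using h)
  have hT : ({1, x, y, x * y} : Finset G).card = 4 := by
    rw [Finset.card_insert_of_notMem, Finset.card_insert_of_notMem, Finset.card_insert_of_notMem,
      Finset.card_singleton]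
    · simp only [Finset.mem_singleton]
      exact fun h => hxyy h.symm
    · simp only [Finset.mem_insert, Finset.mem_singleton, not_or]
      exact ⟨fun h => hyx h.symm, fun h => hxyx h.symm⟩
    · simp only [Finset.mem_insert, Finset.mem_singleton, not_or]
      exact ⟨fun h => hx1 h.symm, fun h => hy1 h.symm, fun h => hxy1 h.symm⟩
  have hsub : ((({1, x, y, x * y} : Finset G)) : Set G) ⊆ (B : Set G) := by
    intro h hh
    simp only [Finset.coe_insert, Finset.coe_singleton, Set.mem_insert_iff,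
      Set.mem_singleton_iff] at hh
    rcases hh with rfl | rfl | rfl | rfl
    · exact one_mem B
    · exact hxB
    · exact hyB
    · exact mul_mem hxB hyB
  have heq := Set.eq_of_subset_of_ncard_le hsub (by rw [Set.ncard_coe_finset, hT, hnc]) hfin
  refine ⟨x, hxB, y, hyB, hx1, hy1, hyx, hxy1, fun h hh => ?_⟩
  have : h ∈ ((({1, x, y, x * y} : Finset G)) : Set G) := by rw [heq]; exact hh
  simpa using this

/-- In the direct product P = A₄ × A₄, let X be the Sylow 2-subgroup, X₁ and X₂ its intersections with the two direct factors, Q a Sylow 3-subgroup and Q₁, Q₂ its intersections with the two factors. Then every subgroup B of X of order 4 either meets X₁ or X₂ nontrivially, or is normalized by one of the two subgroups of Q of order 3 other than Q₁ and Q₂. -/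
theorem result
    (X : Sylow 2 (↥(alternatingGroup (Fin 4)) × ↥(alternatingGroup (Fin 4))))
    (Q : Sylow 3 (↥(alternatingGroup (Fin 4)) × ↥(alternatingGroup (Fin 4))))
    (B : Subgroup (↥(alternatingGroup (Fin 4)) × ↥(alternatingGroup (Fin 4)))) (hBX : B ≤ (X : Subgroup _)) (hB4 : Nat.card ↥B = 4) :
    B ⊓ ((X : Subgroup _) ⊓ Subgroup.prod ⊤ ⊥) ≠ ⊥ ∨ B ⊓ ((X : Subgroup _) ⊓ Subgroup.prod ⊥ ⊤) ≠ ⊥ ∨
      ∃ R : Subgroup (↥(alternatingGroup (Fin 4)) × ↥(alternatingGroup (Fin 4))), R ≤ (Q : Subgroup _) ∧ Nat.card ↥R = 3 ∧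
        R ≠ (Q : Subgroup _) ⊓ Subgroup.prod ⊤ ⊥ ∧ R ≠ (Q : Subgroup _) ⊓ Subgroup.prod ⊥ ⊤ ∧ R ≤ Subgroup.normalizer (B : Set _) := by
  by_cases h1 : B ⊓ ((X : Subgroup _) ⊓ Subgroup.prod ⊤ ⊥) ≠ ⊥
  · exact Or.inl h1
  by_cases h2 : B ⊓ ((X : Subgroup _) ⊓ Subgroup.prod ⊥ ⊤) ≠ ⊥
  · exact Or.inr (Or.inl h2)
  refine Or.inr (Or.inr ?_)
  rw [not_not] at h1 h2
  have hB2 : ∀ h ∈ B, h.2 = 1 → h = 1 := by
    intro h hh h2'
    have : h ∈ B ⊓ ((X : Subgroup _) ⊓ Subgroup.prod ⊤ ⊥) :=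
      ⟨hh, hBX hh, Subgroup.mem_prod.mpr ⟨Subgroup.mem_top _, Subgroup.mem_bot.mpr h2'⟩⟩
    rw [h1] at this
    exact Subgroup.mem_bot.mp this
  have hB1 : ∀ h ∈ B, h.1 = 1 → h = 1 := by
    intro h hh h1'
    have : h ∈ B ⊓ ((X : Subgroup _) ⊓ Subgroup.prod ⊥ ⊤) :=
      ⟨hh, hBX hh, Subgroup.mem_prod.mpr ⟨Subgroup.mem_bot.mpr h1', Subgroup.mem_top _⟩⟩
    rw [h2] at this
    exact Subgroup.mem_bot.mp this
  have hsq : ∀ h ∈ B, h.1 ^ 2 = 1 ∧ h.2 ^ 2 = 1 := by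
    intro h hh
    obtain ⟨k, hk⟩ := X.isPGroup' ⟨h, hBX hh⟩
    have hk' : h ^ 2 ^ k = 1 := by simpa using congrArg Subtype.val hk
    have e1 : h.1 ^ 2 ^ k = 1 := by simpa using congrArg Prod.fst hk'
    have e2 : h.2 ^ 2 ^ k = 1 := by simpa using congrArg Prod.snd hk'
    exact ⟨sq_of_two_pow _ k e1, sq_of_two_pow _ k e2⟩
  have hsqB : ∀ h ∈ B, h ^ 2 = 1 := fun h hh => Prod.ext (hsq h hh).1 (hsq h hh).2
  obtain ⟨x, hxB, y, hyB, hx1, hy1, hyx, hxy1, hBel⟩ := four_group B hB4 hsqB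
  have hcube : ∀ h ∈ (Q : Subgroup (A4 × A4)), h.1 ^ 3 = 1 ∧ h.2 ^ 3 = 1 := by
    intro h hh
    obtain ⟨k, hk⟩ := Q.isPGroup' ⟨h, hh⟩
    have hk' : h ^ 3 ^ k = 1 := by simpa using congrArg Subtype.val hk
    have e1 : h.1 ^ 3 ^ k = 1 := by simpa using congrArg Prod.fst hk'
    have e2 : h.2 ^ 3 ^ k = 1 := by simpa using congrArg Prod.snd hk'
    exact ⟨cube_of_three_pow _ k e1, cube_of_three_pow _ k e2⟩
  have : Fact (Nat.Prime 3) := ⟨Nat.prime_three⟩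
  have h9 : 9 ∣ Nat.card (Q : Subgroup (A4 × A4)) := by
    have hidx := Q.not_dvd_index
    have hmul := (Q : Subgroup (A4 × A4)).card_mul_index
    rw [Nat.card_prod, card_A4] at hmul
    have hc : Nat.Coprime (3 ^ 2) (Q : Subgroup (A4 × A4)).index :=
      Nat.Coprime.pow_left 2 ((Nat.Prime.coprime_iff_not_dvd Nat.prime_three).mpr hidx)
    have : 3 ^ 2 ∣ Nat.card (Q : Subgroup (A4 × A4)) * (Q : Subgroup (A4 × A4)).index := by
      rw [hmul]; norm_num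
    exact hc.dvd_of_dvd_mul_right this
  have hQa : ∃ a : A4, a ≠ 1 ∧ ((a, 1) : A4 × A4) ∈ (Q : Subgroup (A4 × A4)) := by
    by_contra hcon
    push Not at hcon
    have hinj : Function.Injective
        ((MonoidHom.snd A4 A4).comp (Q : Subgroup (A4 × A4)).subtype) := by
      rw [injective_iff_map_eq_one]
      intro q hq
      have hq2 : (q : A4 × A4).2 = 1 := hq
      have hmem : ((q : A4 × A4).1, (1 : A4)) ∈ (Q : Subgroup (A4 × A4)) := by
        have := q.2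
        rw [← hq2]
        exact this
      have h1 : (q : A4 × A4).1 = 1 := by
        by_contra hne
        exact hcon _ hne hmem
      exact Subtype.ext (Prod.ext h1 hq2)
    have := Subgroup.card_dvd_of_injective _ hinj
    rw [card_A4] at this
    have : 9 ∣ 12 := dvd_trans h9 this
    omega
  have hQb : ∃ b : A4, b ≠ 1 ∧ ((1, b) : A4 × A4) ∈ (Q : Subgroup (A4 × A4)) := by
    by_contra hcon
    push Not at hcon
    have hinj : Function.Injective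
        ((MonoidHom.fst A4 A4).comp (Q : Subgroup (A4 × A4)).subtype) := by
      rw [injective_iff_map_eq_one]
      intro q hq
      have hq1 : (q : A4 × A4).1 = 1 := hq
      have hmem : ((1 : A4), (q : A4 × A4).2) ∈ (Q : Subgroup (A4 × A4)) := by
        have := q.2
        rw [← hq1]
        exact this
      have h2 : (q : A4 × A4).2 = 1 := by
        by_contra hne
        exact hcon _ hne hmem
      exact Subtype.ext (Prod.ext hq1 h2)
    have := Subgroup.card_dvd_of_injective _ hinj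
    rw [card_A4] at this
    have : 9 ∣ 12 := dvd_trans h9 this
    omega
  obtain ⟨a, ha1, haQ⟩ := hQa
  obtain ⟨b, hb1, hbQ⟩ := hQb
  have ha3 : a ^ 3 = 1 := (hcube _ haQ).1
  have hb3 : b ^ 3 = 1 := (hcube _ hbQ).2
  have hx1' : x.1 ≠ 1 := fun h => hx1 (hB1 x hxB h)
  have hx2' : x.2 ≠ 1 := fun h => hx1 (hB2 x hxB h)
  have hy1' : y.1 ≠ 1 := fun h => hy1 (hB1 y hyB h)
  have hy2' : y.2 ≠ 1 := fun h => hy1 (hB2 y hyB h)
  have hyx1 : y.1 ≠ x.1 := by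
    intro h
    apply hxy1
    apply hB1 _ (mul_mem hxB hyB)
    change x.1 * y.1 = 1
    rw [h, ← pow_two]
    exact (hsq x hxB).1
  have hyx2 : y.2 ≠ x.2 := by
    intro h
    apply hxy1
    apply hB2 _ (mul_mem hxB hyB)
    change x.2 * y.2 = 1
    rw [h, ← pow_two]
    exact (hsq x hxB).2
  have hc := core a ha1 ha3 b hb1 hb3 x.1 hx1' (hsq x hxB).1 x.2 hx2' (hsq x hxB).2
    y.1 hy1' (hsq y hyB).1 hyx1 y.2 hy2' (hsq y hyB).2 hyx2
  have hcand : ∀ b' : A4, b' ≠ 1 → b' ^ 3 = 1 → ((1, b') : A4 × A4) ∈ (Q : Subgroup (A4 × A4)) →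
      (((a * x.1 * a⁻¹ = y.1 ∧ b' * x.2 * b'⁻¹ = y.2) ∨
          (a * x.1 * a⁻¹ = x.1 * y.1 ∧ b' * x.2 * b'⁻¹ = x.2 * y.2)) ∧
       ((a * y.1 * a⁻¹ = x.1 ∧ b' * y.2 * b'⁻¹ = x.2) ∨
          (a * y.1 * a⁻¹ = x.1 * y.1 ∧ b' * y.2 * b'⁻¹ = x.2 * y.2))) →
      ∃ R : Subgroup (A4 × A4), R ≤ (Q : Subgroup _) ∧ Nat.card ↥R = 3 ∧
        R ≠ (Q : Subgroup _) ⊓ Subgroup.prod ⊤ ⊥ ∧ R ≠ (Q : Subgroup _) ⊓ Subgroup.prod ⊥ ⊤ ∧
        R ≤ Subgroup.normalizer (B : Set _) := by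
    intro b' hb'1 hb'3 hb'Q hconj
    have hg3 : ((a, b') : A4 × A4) ^ 3 = 1 := Prod.ext ha3 hb'3
    have hgQ : ((a, b') : A4 × A4) ∈ (Q : Subgroup (A4 × A4)) := by
      have : ((a, b') : A4 × A4) = (a, 1) * (1, b') := by simp
      rw [this]
      exact mul_mem haQ hb'Q
    refine ⟨Subgroup.zpowers (a, b'), Subgroup.zpowers_le.mpr hgQ, ?_, ?_, ?_, ?_⟩
    · rw [Nat.card_zpowers]
      exact orderOf_eq_prime hg3 (fun h => ha1 (congrArg Prod.fst h))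
    · intro h
      have : ((a, b') : A4 × A4) ∈ (Q : Subgroup _) ⊓ Subgroup.prod ⊤ ⊥ :=
        h ▸ Subgroup.mem_zpowers _
      exact hb'1 (Subgroup.mem_bot.mp (Subgroup.mem_prod.mp this.2).2)
    · intro h
      have : ((a, b') : A4 × A4) ∈ (Q : Subgroup _) ⊓ Subgroup.prod ⊥ ⊤ :=
        h ▸ Subgroup.mem_zpowers _
      exact ha1 (Subgroup.mem_bot.mp (Subgroup.mem_prod.mp this.2).1)
    · apply zpowers_le_normalizer B x y (a, b') hBel hg3
      · have e : ((a, b') : A4 × A4) * x * (a, b')⁻¹ = (a * x.1 * a⁻¹, b' * x.2 * b'⁻¹) := rfl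
        rw [e]
        rcases hconj.1 with ⟨e1, e2⟩ | ⟨e1, e2⟩
        · rw [e1, e2]
          exact hyB
        · rw [e1, e2]
          exact mul_mem hxB hyB
      · have e : ((a, b') : A4 × A4) * y * (a, b')⁻¹ = (a * y.1 * a⁻¹, b' * y.2 * b'⁻¹) := rfl
        rw [e]
        rcases hconj.2 with ⟨e1, e2⟩ | ⟨e1, e2⟩
        · rw [e1, e2]
          exact hxB
        · rw [e1, e2]
          exact mul_mem hxB hyB
  rcases hc with hc | hc
  · exact hcand b hb1 hb3 hbQ hc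
  · exact hcand b⁻¹ (inv_ne_one.mpr hb1) (by rw [inv_pow, hb3, inv_one])
      (by simpa using inv_mem hbQ) hc

end Cfsg.Agent.S4406
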