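import Mathlib
import Cfsg.Statements.S4407
import Cfsg.Agent.Lib.Helper70.S4407Core

set_option autoImplicit false
set_option linter.unusedSimpArgs false
open Cfsg

namespace Cfsg.Agent.S4407

open DihedralGroup in
theorem d8_rel1 : (r (1 : ZMod 4)) ^ 4 = 1 := by decide

open DihedralGroup in
theorem d8_rel2 : (sr (0 : ZMod 4)) * sr 0 = 1 := by decide

open DihedralGroup in
theorem d8_rel3 : (sr (0 : ZMod 4)) * r 1 = (r 1)⁻¹ * sr 0 := by decide

open DihedralGroup in
theorem d8_rel4 : (r (1 : ZMod 4)) * r 1 ≠ 1 := by decide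

open DihedralGroup in
theorem d8_rel5 : (sr (0 : ZMod 4)) * (r 1 * r 1) ≠ 1 := by decide

open DihedralGroup in
theorem d8_gen : ∀ d : DihedralGroup 4, ∃ i : Fin 4, ∃ j : Fin 2,
    d = (r 1) ^ (i : ℕ) * (sr 0) ^ (j : ℕ) := by decide

open DihedralGroup in
theorem d8_sq : ∀ x : DihedralGroup 4, x ^ 2 = 1 →
    x = 1 ∨ x = r 2 ∨ x = sr 0 ∨ x = sr 1 ∨ x = sr 2 ∨ x = sr 3 := by decide

open DihedralGroup in
/-- the four-group `{1, r 2, sr 0, sr 2}` -/
def K0 : Subgroup (DihedralGroup 4) where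
  carrier := {x | x = 1 ∨ x = r 2 ∨ x = sr 0 ∨ x = sr 2}
  mul_mem' := by
    intro a b
    simp only [Set.mem_ofPred_eq]
    revert a b
    decide
  one_mem' := Or.inl rfl
  inv_mem' := by
    intro a
    simp only [Set.mem_ofPred_eq]
    revert a
    decide

open DihedralGroup in
/-- the four-group `{1, r 2, sr 1, sr 3}` -/
def K1 : Subgroup (DihedralGroup 4) where
  carrier := {x | x = 1 ∨ x = r 2 ∨ x = sr 1 ∨ x = sr 3}
  mul_mem' := by
    intro a b
    simp only [Set.mem_ofPred_eq]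
    revert a b
    decide
  one_mem' := Or.inl rfl
  inv_mem' := by
    intro a
    simp only [Set.mem_ofPred_eq]
    revert a
    decide

open DihedralGroup in
theorem mem_K0 (x : DihedralGroup 4) : x ∈ K0 ↔ (x = 1 ∨ x = r 2 ∨ x = sr 0 ∨ x = sr 2) :=
  Iff.rfl

open DihedralGroup in
theorem mem_K1 (x : DihedralGroup 4) : x ∈ K1 ↔ (x = 1 ∨ x = r 2 ∨ x = sr 1 ∨ x = sr 3) :=
  Iff.rfl

instance decK0 : DecidablePred (· ∈ K0) := fun x => decidable_of_iff _ (mem_K0 x).symm
instance decK1 : DecidablePred (· ∈ K1) := fun x => decidable_of_iff _ (mem_K1 x).symm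

theorem card_K0 : Nat.card K0 = 4 := by
  rw [Nat.card_eq_fintype_card]; decide

theorem card_K1 : Nat.card K1 = 4 := by
  rw [Nat.card_eq_fintype_card]; decide

theorem exp_K0 : ∀ x ∈ K0, x ^ 2 = 1 := by decide

theorem exp_K1 : ∀ x ∈ K1, x ^ 2 = 1 := by decide

open DihedralGroup in
theorem d8_class (K : Subgroup (DihedralGroup 4)) (h4 : Nat.card K = 4)
    (hexp : ∀ x ∈ K, x ^ 2 = 1) : K = K0 ∨ K = K1 := by
  by_cases h13 : sr 1 ∈ K ∨ sr 3 ∈ K
  · right
    apply Subgroup.eq_of_le_of_card_ge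
    · intro x hx
      rw [mem_K1]
      rcases d8_sq x (hexp x hx) with e | e | e | e | e | e
      · exact Or.inl e
      · exact Or.inr (Or.inl e)
      · exfalso
        rcases h13 with h | h
        · exact absurd (hexp _ (K.mul_mem (e ▸ hx) h)) (by decide)
        · exact absurd (hexp _ (K.mul_mem (e ▸ hx) h)) (by decide)
      · exact Or.inr (Or.inr (Or.inl e))
      · exfalso
        rcases h13 with h | h
        · exact absurd (hexp _ (K.mul_mem (e ▸ hx) h)) (by decide)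
        · exact absurd (hexp _ (K.mul_mem (e ▸ hx) h)) (by decide)
      · exact Or.inr (Or.inr (Or.inr e))
    · rw [h4, card_K1]
  · left
    push Not at h13
    apply Subgroup.eq_of_le_of_card_ge
    · intro x hx
      rw [mem_K0]
      rcases d8_sq x (hexp x hx) with e | e | e | e | e | e
      · exact Or.inl e
      · exact Or.inr (Or.inl e)
      · exact Or.inr (Or.inr (Or.inl e))
      · exact absurd (e ▸ hx) h13.1
      · exact Or.inr (Or.inr (Or.inr e))
      · exact absurd (e ▸ hx) h13.2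
    · rw [h4, card_K0]

/-- In a group, elements of `zpowers d` for `d ^ 3 = 1`. -/
theorem zpowers_three {S : Type*} [Group S] (d : S) (hd : d ^ 3 = 1) (x : S)
    (hx : x ∈ Subgroup.zpowers d) : x = 1 ∨ x = d ∨ x = d⁻¹ := by
  obtain ⟨k, rfl⟩ := Subgroup.mem_zpowers_iff.1 hx
  have hd' : d ^ (3 : ℤ) = 1 := by exact_mod_cast hd
  have hk : d ^ k = d ^ (k % 3) := zpow_eq_zpow_emod k hd'
  have h3 : k % 3 = 0 ∨ k % 3 = 1 ∨ k % 3 = 2 := by omega
  rcases h3 with h | h | h <;> rw [hk, h]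
  · left; simp
  · right; left; simp
  · right; right
    rw [eq_inv_iff_mul_eq_one]
    calc d ^ (2 : ℤ) * d = d ^ (3 : ℤ) := by group
      _ = 1 := hd'

/-- Group-theoretic part: generators and relations of `S = 3^2 : D_8`. -/
theorem group_part {S : Type*} [Group S] [Finite S]
    (A : Subgroup S) [A.Normal] (hA : Cfsg.IsElementaryAbelian 3 A) (hA9 : Nat.card ↥A = 9)
    (hAC : Subgroup.centralizer (A : Set S) = A) (X : Subgroup S)
    (ψ : DihedralGroup 4 →* S) (hψX : ∀ d, ψ d ∈ X) (hψsurj : ∀ x ∈ X, ∃ d, ψ d = x)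
    (hψinj : Function.Injective ψ) (hX8 : Nat.card X = 8) (hAX : A ⊔ X = ⊤) :
    ∃ a b : S, a ≠ 1 ∧ a * (a * a) = 1 ∧ b * (b * b) = 1 ∧ a * b = b * a ∧
      ψ (DihedralGroup.r 1) * a = b * ψ (DihedralGroup.r 1) ∧
      ψ (DihedralGroup.r 1) * b = a * (a * ψ (DihedralGroup.r 1)) ∧
      ψ (DihedralGroup.sr 0) * a = a * ψ (DihedralGroup.sr 0) ∧
      ψ (DihedralGroup.sr 0) * b = b * (b * ψ (DihedralGroup.sr 0)) ∧
      Subgroup.closure {a, b, ψ (DihedralGroup.r 1), ψ (DihedralGroup.sr 0)} = (⊤ : Subgroup S) := by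
  classical
  have : Fact (Nat.Prime 3) := ⟨by norm_num⟩
  obtain ⟨hAcomm', hAexp⟩ := hA
  have hcomm : ∀ x ∈ A, ∀ y ∈ A, x * y = y * x := by
    intro x hx y hy
    exact congrArg Subtype.val (hAcomm'.is_comm.comm ⟨x, hx⟩ ⟨y, hy⟩)
  have hnorm : ∀ x : S, ∀ g ∈ A, x * g * x⁻¹ ∈ A := fun x g hg => ‹A.Normal›.conj_mem g hg x
  have hAX0 : A ⊓ X = ⊥ :=
    (Subgroup.disjoint_of_coprime_natCard (by rw [hA9, hX8]; decide)).eq_bot
  have hfaith : ∀ x ∈ X, (∀ g ∈ A, x * g * x⁻¹ = g) → x = 1 := by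
    intro x hx hc
    have hxC : x ∈ Subgroup.centralizer (A : Set S) := by
      rw [Subgroup.mem_centralizer_iff]
      intro g hg
      have := hc g hg
      calc g * x = (x * g * x⁻¹) * x := by rw [this]
        _ = x * g := by group
    rw [hAC] at hxC
    have : x ∈ A ⊓ X := ⟨hxC, hx⟩
    rw [hAX0] at this
    exact Subgroup.mem_bot.1 this
  have hinvne : ∀ d ∈ A, d⁻¹ = d → d = 1 := by
    intro d hd e
    have h2 : d * d = 1 := by
      nth_rewrite 1 [← e]
      exact inv_mul_cancel d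
    calc d = d ^ 3 * (d * d)⁻¹ := by group
      _ = 1 := by rw [hAexp d hd, h2]; simp
  obtain ⟨r, hr⟩ : ∃ r : S, r = ψ (DihedralGroup.r 1) := ⟨_, rfl⟩
  obtain ⟨s, hs⟩ : ∃ s : S, s = ψ (DihedralGroup.sr 0) := ⟨_, rfl⟩
  rw [← hr, ← hs]
  have hrX : r ∈ X := hr ▸ hψX _
  have hsX : s ∈ X := hs ▸ hψX _
  have hr4 : r ^ 4 = 1 := by rw [hr, ← map_pow, d8_rel1, map_one]
  have hs2 : s * s = 1 := by rw [hs, ← map_mul, d8_rel2, map_one]
  have hsr : s * r = r⁻¹ * s := by rw [hs, hr, ← map_mul, d8_rel3, map_mul, map_inv]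
  obtain ⟨z, hz⟩ : ∃ z : S, z = r * r := ⟨_, rfl⟩
  have hz1 : z ≠ 1 := by
    rw [hz, hr, ← map_mul]
    intro h
    exact d8_rel4 (hψinj (h.trans (map_one ψ).symm))
  have hsz1 : s * z ≠ 1 := by
    rw [hz, hs, hr, ← map_mul, ← map_mul]
    intro h
    exact d8_rel5 (hψinj (h.trans (map_one ψ).symm))
  have hzz : z * z = 1 := by
    rw [hz]
    calc r * r * (r * r) = r ^ 4 := by simp [pow_succ, mul_assoc]
      _ = 1 := hr4
  have hzinv : z⁻¹ = z := inv_eq_of_mul_eq_one_right hzz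
  have hzX : z ∈ X := hz ▸ X.mul_mem hrX hrX
  -- generation of `A`
  have hgenA : ∀ a ∈ A, ∀ b ∈ A, a ≠ 1 → b ∉ Subgroup.zpowers a →
      Subgroup.closure {a, b} = A := by
    intro a ha b hb ha1 hb'
    have hle : Subgroup.closure {a, b} ≤ A := by
      rw [Subgroup.closure_le]
      rintro x (rfl | rfl) <;> assumption
    have hza : Subgroup.zpowers a ≤ Subgroup.closure {a, b} := by
      rw [Subgroup.zpowers_le]
      exact Subgroup.subset_closure (Set.mem_insert _ _)
    have ho : orderOf a = 3 := orderOf_eq_prime (hAexp a ha) ha1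
    have hc3 : Nat.card (Subgroup.zpowers a) = 3 := by rw [Nat.card_zpowers, ho]
    have hd1 : 3 ∣ Nat.card (Subgroup.closure {a, b}) := hc3 ▸ Subgroup.card_dvd_of_le hza
    have hd2 : Nat.card (Subgroup.closure {a, b}) ∣ 9 := hA9 ▸ Subgroup.card_dvd_of_le hle
    have hcases : Nat.card (Subgroup.closure {a, b}) = 3 ∨
        Nat.card (Subgroup.closure {a, b}) = 9 := by
      obtain ⟨n, hn⟩ : ∃ n, n = Nat.card (Subgroup.closure {a, b}) := ⟨_, rfl⟩
      rw [← hn] at hd1 hd2 ⊢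
      have hle9 := Nat.le_of_dvd (by norm_num) hd2
      interval_cases n <;> omega
    rcases hcases with h3 | h9
    · exfalso
      apply hb'
      have : Subgroup.zpowers a = Subgroup.closure {a, b} :=
        Subgroup.eq_of_le_of_card_ge hza (by rw [h3, hc3])
      rw [this]
      exact Subgroup.subset_closure (by simp)
    · exact Subgroup.eq_of_le_of_card_ge hle (by rw [h9, hA9])
  -- (G1): `z` inverts `A`
  have hG1 : ∀ g ∈ A, z * g * z⁻¹ = g⁻¹ := by
    by_contra hcon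
    push Not at hcon
    obtain ⟨g₀, hg₀, hg₀'⟩ := hcon
    obtain ⟨c, hc⟩ : ∃ c, c = g₀ * (z * g₀ * z⁻¹) := ⟨_, rfl⟩
    have hcA : c ∈ A := hc ▸ A.mul_mem hg₀ (hnorm z g₀ hg₀)
    have hc1 : c ≠ 1 := by
      intro h1
      apply hg₀'
      rw [hc] at h1
      exact eq_inv_of_mul_eq_one_right h1
    have hcz : z * c * z⁻¹ = c := by
      rw [hc]
      calc z * (g₀ * (z * g₀ * z⁻¹)) * z⁻¹
          = (z * g₀ * z⁻¹) * (z * z * g₀ * (z * z)⁻¹) := by group
        _ = (z * g₀ * z⁻¹) * g₀ := by rw [hzz]; group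
        _ = g₀ * (z * g₀ * z⁻¹) := hcomm _ (hnorm z g₀ hg₀) _ hg₀
    have hd : ∃ d ∈ A, d ≠ 1 ∧ z * d * z⁻¹ = d⁻¹ := by
      by_contra hno
      push Not at hno
      apply hz1
      apply hfaith z hzX
      intro g hg
      have hdA : g * (z * g * z⁻¹)⁻¹ ∈ A := A.mul_mem hg (A.inv_mem (hnorm z g hg))
      have hdz : z * (g * (z * g * z⁻¹)⁻¹) * z⁻¹ = (g * (z * g * z⁻¹)⁻¹)⁻¹ := by
        calc z * (g * (z * g * z⁻¹)⁻¹) * z⁻¹
            = (z * g * z⁻¹) * (z * z * g * (z * z)⁻¹)⁻¹ := by group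
          _ = (z * g * z⁻¹) * g⁻¹ := by rw [hzz]; group
          _ = (g * (z * g * z⁻¹)⁻¹)⁻¹ := by group
      by_contra hne
      exact hno _ hdA (fun h1 => hne (mul_inv_eq_one.1 h1).symm) hdz
    obtain ⟨d, hdA, hd1, hdz⟩ := hd
    obtain ⟨d₂, hd₂⟩ : ∃ d₂, d₂ = r * d * r⁻¹ := ⟨_, rfl⟩
    have hd₂A : d₂ ∈ A := hd₂ ▸ hnorm r d hdA
    have hd₂z : z * d₂ * z⁻¹ = d₂⁻¹ := by
      rw [hd₂]
      calc z * (r * d * r⁻¹) * z⁻¹ = r * (z * d * z⁻¹) * r⁻¹ := by rw [hz]; group
        _ = (r * d * r⁻¹)⁻¹ := by rw [hdz]; group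
    have hzd : z * d * z⁻¹ = r * d₂ * r⁻¹ := by rw [hd₂, hz]; group
    have hd3 : d ^ 3 = 1 := hAexp d hdA
    have hd₂not : d₂ ∉ Subgroup.zpowers d := by
      intro hmem
      rcases zpowers_three d hd3 d₂ hmem with e | e | e
      · apply hd1
        rw [hd₂] at e
        calc d = r⁻¹ * (r * d * r⁻¹) * r := by group
          _ = 1 := by rw [e]; group
      · have : z * d * z⁻¹ = d := by rw [hzd, e, ← hd₂, e]
        rw [hdz] at this
        exact hd1 (hinvne d hdA this)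
      · have : z * d * z⁻¹ = d := by
          rw [hzd, e]
          calc r * d⁻¹ * r⁻¹ = (r * d * r⁻¹)⁻¹ := by group
            _ = d := by rw [← hd₂, e, inv_inv]
        rw [hdz] at this
        exact hd1 (hinvne d hdA this)
    have hcl := hgenA d hdA d₂ hd₂A hd1 hd₂not
    have hall : ∀ g ∈ Subgroup.closure {d, d₂}, g ∈ A ∧ z * g * z⁻¹ = g⁻¹ := by
      intro g hg
      induction hg using Subgroup.closure_induction with
      | mem x hx =>
        rcases hx with rfl | rfl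
        exacts [⟨hdA, hdz⟩, ⟨hd₂A, hd₂z⟩]
      | one => exact ⟨A.one_mem, by group⟩
      | mul x y _ _ ihx ihy =>
        refine ⟨A.mul_mem ihx.1 ihy.1, ?_⟩
        calc z * (x * y) * z⁻¹ = (z * x * z⁻¹) * (z * y * z⁻¹) := by group
          _ = x⁻¹ * y⁻¹ := by rw [ihx.2, ihy.2]
          _ = (x * y)⁻¹ := by
            rw [mul_inv_rev]
            exact hcomm _ (A.inv_mem ihx.1) _ (A.inv_mem ihy.1)
      | inv x _ ih =>
        refine ⟨A.inv_mem ih.1, ?_⟩
        calc z * x⁻¹ * z⁻¹ = (z * x * z⁻¹)⁻¹ := by group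
          _ = x⁻¹⁻¹ := by rw [ih.2]
    have hfin := (hall c (hcl ▸ hcA)).2
    rw [hcz] at hfin
    exact hc1 (hinvne c hcA hfin.symm)
  -- (G2): `s` fixes a nontrivial element of `A`
  have hG2 : ∃ a ∈ A, a ≠ 1 ∧ s * a * s⁻¹ = a := by
    by_contra hno
    push Not at hno
    apply hsz1
    apply hfaith (s * z) (X.mul_mem hsX hzX)
    intro g hg
    have hinvs : ∀ g ∈ A, s * g * s⁻¹ = g⁻¹ := by
      intro g hg
      by_contra hne
      refine hno (g * (s * g * s⁻¹)) (A.mul_mem hg (hnorm s g hg)) ?_ ?_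
      · intro h1
        exact hne (eq_inv_of_mul_eq_one_right h1)
      · calc s * (g * (s * g * s⁻¹)) * s⁻¹
            = (s * g * s⁻¹) * (s * s * g * (s * s)⁻¹) := by group
          _ = (s * g * s⁻¹) * g := by rw [hs2]; group
          _ = g * (s * g * s⁻¹) := hcomm _ (hnorm s g hg) _ hg
    calc s * z * g * (s * z)⁻¹ = s * (z * g * z⁻¹) * s⁻¹ := by group
      _ = s * g⁻¹ * s⁻¹ := by rw [hG1 g hg]
      _ = g⁻¹⁻¹ := hinvs _ (A.inv_mem hg)
      _ = g := inv_inv g
  obtain ⟨a, haA, ha1, hsa⟩ := hG2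
  obtain ⟨b, hb⟩ : ∃ b, b = r * a * r⁻¹ := ⟨_, rfl⟩
  have hbA : b ∈ A := hb ▸ hnorm r a haA
  have ha3 : a ^ 3 = 1 := hAexp a haA
  have hb3 : b ^ 3 = 1 := hAexp b hbA
  have hab : a * b = b * a := hcomm a haA b hbA
  have hra : r * a = b * r := by rw [hb]; group
  have hrb' : r * b * r⁻¹ = a⁻¹ := by
    rw [← hG1 a haA, hb, hz]; group
  have hrb : r * b = a * (a * r) := by
    calc r * b = (r * b * r⁻¹) * r := by group
      _ = a⁻¹ * r := by rw [hrb']
      _ = a ^ 3 * a⁻¹ * r := by rw [ha3, one_mul]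
      _ = a * (a * r) := by simp [pow_succ, mul_assoc]
  have hsa' : s * a = a * s := by
    calc s * a = (s * a * s⁻¹) * s := by group
      _ = a * s := by rw [hsa]
  have hsb' : s * b * s⁻¹ = b⁻¹ := by
    calc s * b * s⁻¹ = (s * r) * a * (s * r)⁻¹ := by rw [hb]; group
      _ = r⁻¹ * (s * a * s⁻¹) * r := by rw [hsr]; group
      _ = r⁻¹ * a * r := by rw [hsa]
      _ = z⁻¹ * b * z⁻¹⁻¹ := by rw [hb, hz]; group
      _ = z * b * z⁻¹ := by rw [hzinv, hzinv]
      _ = b⁻¹ := hG1 b hbA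
  have hsb : s * b = b * (b * s) := by
    calc s * b = (s * b * s⁻¹) * s := by group
      _ = b⁻¹ * s := by rw [hsb']
      _ = b ^ 3 * b⁻¹ * s := by rw [hb3, one_mul]
      _ = b * (b * s) := by simp [pow_succ, mul_assoc]
  have hbnot : b ∉ Subgroup.zpowers a := by
    intro hmem
    rcases zpowers_three a ha3 b hmem with e | e | e
    · apply ha1
      calc a = r⁻¹ * (r * a * r⁻¹) * r := by group
        _ = 1 := by rw [← hb, e]; group
    · have : a⁻¹ = a := by
        calc a⁻¹ = r * b * r⁻¹ := hrb'.symm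
          _ = r * a * r⁻¹ := by rw [e]
          _ = b := hb.symm
          _ = a := e
      exact ha1 (hinvne a haA this)
    · have : a⁻¹ = a := by
        calc a⁻¹ = r * b * r⁻¹ := hrb'.symm
          _ = r * a⁻¹ * r⁻¹ := by rw [e]
          _ = (r * a * r⁻¹)⁻¹ := by group
          _ = b⁻¹ := by rw [← hb]
          _ = a := by rw [e, inv_inv]
      exact ha1 (hinvne a haA this)
  refine ⟨a, b, ha1, ?_, ?_, hab, hra, hrb, hsa', hsb, ?_⟩
  · rw [← ha3]; simp [pow_succ, mul_assoc]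
  · rw [← hb3]; simp [pow_succ, mul_assoc]
  · rw [eq_top_iff, ← hAX, sup_le_iff]
    constructor
    · rw [← hgenA a haA b hbA ha1 hbnot]
      apply Subgroup.closure_mono
      intro x hx
      rcases hx with rfl | rfl <;> simp
    · intro x hx
      obtain ⟨d, rfl⟩ := hψsurj x hx
      obtain ⟨i, j, rfl⟩ := d8_gen d
      rw [map_mul, map_pow, map_pow, ← hr, ← hs]
      exact mul_mem (pow_mem (Subgroup.subset_closure (by simp)) _)
        (pow_mem (Subgroup.subset_closure (by simp)) _)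

open DihedralGroup in
theorem d8_id1 : r (1 : ZMod 4) * (r 1 * (r 1 * r 1)) = 1 := by decide

open DihedralGroup in
theorem d8_id2 : sr (0 : ZMod 4) * r 1 = r 1 * (r 1 * (r 1 * sr 0)) := by decide

open DihedralGroup in
theorem d8_id3 : r (2 : ZMod 4) = r 1 * r 1 := by decide

open DihedralGroup in
theorem d8_id4 : sr (2 : ZMod 4) = sr 0 * (r 1 * r 1) := by decide

open DihedralGroup in
theorem d8_id5 : sr (3 : ZMod 4) = r 1 * sr 0 := by decide

open DihedralGroup in
theorem d8_id6 : sr (1 : ZMod 4) = r 1 * (sr 0 * (r 1 * r 1)) := by decide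

/-- Let S be a finite group with a normal elementary abelian subgroup A of order 9 that is self-centralizing (C_S(A) = A), and a dihedral subgroup X of order 8 with S = AX. Let M be a finite-dimensional module for S over the field with two elements that is faithful and irreducible. Then M has 16 elements, and X contains exactly one subgroup B of order 4 and exponent 2 whose fixed points on M form a subspace with exactly 2 elements (equivalently, M is free of rank one over the group algebra of B). -/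
theorem result {S : Type*} [Group S] [Finite S]
    (A : Subgroup S) [A.Normal] (hA : Cfsg.IsElementaryAbelian 3 A) (hA9 : Nat.card ↥A = 9)
    (hAC : Subgroup.centralizer (A : Set S) = A) (X : Subgroup S) (hX : Nonempty (↥X ≃* DihedralGroup 4)) (hAX : A ⊔ X = ⊤)
    {M : Type*} [AddCommGroup M] [Module (ZMod 2) M] [Finite M] (ρ : Representation (ZMod 2) S M)
    (hfaith : Function.Injective ρ)
    (hirr : ∀ N : Submodule (ZMod 2) M, (∀ s : S, ∀ m ∈ N, ρ s m ∈ N) → N = ⊥ ∨ N = ⊤) (hM : Nontrivial M) :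
    Nat.card M = 16 ∧
      ∃! B : Subgroup S, B ≤ X ∧ Nat.card ↥B = 4 ∧ (∀ b ∈ B, b ^ 2 = 1) ∧
        Nat.card {m : M // ∀ b ∈ B, ρ b m = m} = 2 := by
  classical
  obtain ⟨φ⟩ := hX
  have hX8 : Nat.card X = 8 := by rw [Nat.card_congr φ.toEquiv, DihedralGroup.nat_card]
  obtain ⟨ψ, hψinj, hψX, hψsurj⟩ : ∃ ψ : DihedralGroup 4 →* S, Function.Injective ψ ∧
      (∀ d, ψ d ∈ X) ∧ (∀ x ∈ X, ∃ d, ψ d = x) := by
    refine ⟨X.subtype.comp φ.symm.toMonoidHom, ?_, ?_, ?_⟩
    · exact X.subtype_injective.comp φ.symm.injective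
    · intro d
      exact (φ.symm d).2
    · intro x hx
      exact ⟨φ ⟨x, hx⟩, by simp⟩
  obtain ⟨a, b, ha1, ha3, hb3, hab, hra, hrb, hsa, hsb, hgen⟩ :=
    group_part A hA hA9 hAC X ψ hψX hψsurj hψinj hX8 hAX
  obtain ⟨r, hr⟩ : ∃ r : S, r = ψ (DihedralGroup.r 1) := ⟨_, rfl⟩
  obtain ⟨s, hs⟩ : ∃ s : S, s = ψ (DihedralGroup.sr 0) := ⟨_, rfl⟩
  rw [← hr] at hra hrb hgen
  rw [← hs] at hsa hsb hgen
  have hr4 : r * (r * (r * r)) = 1 := by
    rw [hr, ← map_mul, ← map_mul, ← map_mul, d8_id1, map_one]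
  have hs2 : s * s = 1 := by rw [hs, ← map_mul, d8_rel2, map_one]
  have hsr : s * r = r * (r * (r * s)) := by
    rw [hs, hr, ← map_mul, ← map_mul, ← map_mul, ← map_mul, d8_id2]
  have hψr2 : ψ (DihedralGroup.r 2) = r * r := by rw [hr, ← map_mul, d8_id3]
  have hψsr2 : ψ (DihedralGroup.sr 2) = s * (r * r) := by
    rw [hs, hr, ← map_mul, ← map_mul, d8_id4]
  have hψsr3 : ψ (DihedralGroup.sr 3) = r * s := by rw [hs, hr, ← map_mul, d8_id5]
  have hψsr1 : ψ (DihedralGroup.sr 1) = r * (s * (r * r)) := by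
    rw [hs, hr, ← map_mul, ← map_mul, ← map_mul, d8_id6]
  have hρ : ∀ g h : S, ∀ m : M, ρ g (ρ h m) = ρ (g * h) m := by
    intro g h m
    rw [map_mul]
    rfl
  have hρ1 : ∀ m : M, ρ 1 m = m := by
    intro m
    rw [map_one]
    rfl
  have hsys : Cfsg.Agent.Lib.Helper70.S4407Core.Sys (ρ a) (ρ b) (ρ r) (ρ s) := by
    refine ⟨?_, ?_, ?_, ?_, ?_, ?_, ?_, ?_, ?_, ?_, ?_⟩
    · intro m
      simp only [hρ, mul_assoc]
      rw [ha3, hρ1]
    · intro m
      simp only [hρ, mul_assoc]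
      rw [hb3, hρ1]
    · intro m
      simp only [hρ, mul_assoc]
      rw [hab]
    · intro m
      simp only [hρ, mul_assoc]
      rw [hra]
    · intro m
      simp only [hρ, mul_assoc]
      rw [hrb]
    · intro m
      simp only [hρ, mul_assoc]
      rw [hsa]
    · intro m
      simp only [hρ, mul_assoc]
      rw [hsb]
    · intro m
      simp only [hρ, mul_assoc]
      rw [hs2, hρ1]
    · intro m
      simp only [hρ, mul_assoc]
      rw [hr4, hρ1]
    · intro m
      simp only [hρ, mul_assoc]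
      rw [hsr]
    · intro N na nb nr ns
      apply hirr
      have hinvpow : ∀ g : S, (∀ m ∈ N, ρ g m ∈ N) → ∀ m ∈ N, ρ g⁻¹ m ∈ N := by
        intro g hg
        have hpow : ∀ k : ℕ, ∀ m ∈ N, ρ (g ^ k) m ∈ N := by
          intro k
          induction k with
          | zero =>
            intro m hm
            rw [pow_zero, hρ1]
            exact hm
          | succ k ih =>
            intro m hm
            rw [pow_succ, ← hρ]
            exact ih _ (hg m hm)
        have hginv : g ^ (orderOf g - 1) = g⁻¹ :=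
          eq_inv_of_mul_eq_one_left (by
            rw [← pow_succ, Nat.sub_add_cancel (orderOf_pos g), pow_orderOf_eq_one])
        intro m hm
        rw [← hginv]
        exact hpow _ m hm
      let H : Subgroup S :=
        { carrier := {g | (∀ m ∈ N, ρ g m ∈ N) ∧ (∀ m ∈ N, ρ g⁻¹ m ∈ N)}
          mul_mem' := by
            rintro g h ⟨g1, g2⟩ ⟨h1, h2⟩
            refine ⟨fun m hm => ?_, fun m hm => ?_⟩
            · rw [← hρ]
              exact g1 _ (h1 m hm)
            · rw [mul_inv_rev, ← hρ]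
              exact h2 _ (g2 m hm)
          one_mem' := ⟨fun m hm => by rw [hρ1]; exact hm,
            fun m hm => by rw [inv_one, hρ1]; exact hm⟩
          inv_mem' := by
            rintro g ⟨g1, g2⟩
            exact ⟨g2, fun m hm => by rw [inv_inv]; exact g1 m hm⟩ }
      have hH : H = ⊤ := by
        rw [eq_top_iff, ← hgen, Subgroup.closure_le]
        intro x hx
        simp only [Set.mem_insert_iff, Set.mem_singleton_iff] at hx
        rcases hx with hx | hx | hx | hx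
        · rw [hx]; exact ⟨na, hinvpow _ na⟩
        · rw [hx]; exact ⟨nb, hinvpow _ nb⟩
        · rw [hx]; exact ⟨nr, hinvpow _ nr⟩
        · rw [hx]; exact ⟨ns, hinvpow _ ns⟩
      intro g m hm
      have hg : g ∈ H := hH ▸ Subgroup.mem_top g
      exact hg.1 m hm
  have hα1 : ∃ m, ρ a m ≠ m := by
    by_contra hno
    push Not at hno
    apply ha1
    apply hfaith
    rw [map_one]
    exact LinearMap.ext fun m => hno m
  obtain ⟨hM16, hcases⟩ := hsys.main_ops hα1
  have hfix0 : ∀ m : M, (∀ g ∈ K0.map ψ, ρ g m = m) ↔ (ρ s m = m ∧ ρ r (ρ r m) = m) := by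
    intro m
    constructor
    · intro hb
      refine ⟨hb s ?_, ?_⟩
      · exact Subgroup.mem_map.2 ⟨DihedralGroup.sr 0, Or.inr (Or.inr (Or.inl rfl)), hs.symm⟩
      · rw [hρ]
        apply hb
        exact Subgroup.mem_map.2 ⟨DihedralGroup.r 2, Or.inr (Or.inl rfl), hψr2⟩
    · rintro ⟨e1, e2⟩ g hg
      obtain ⟨k, hk, rfl⟩ := Subgroup.mem_map.1 hg
      rcases (mem_K0 k).1 hk with rfl | rfl | rfl | rfl
      · rw [map_one, hρ1]
      · rw [hψr2, ← hρ, e2]
      · rw [← hs, e1]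
      · rw [hψsr2, ← hρ, ← hρ, e2, e1]
  have hfix1 : ∀ m : M, (∀ g ∈ K1.map ψ, ρ g m = m) ↔
      (ρ r (ρ s m) = m ∧ ρ r (ρ r m) = m) := by
    intro m
    constructor
    · intro hb
      refine ⟨?_, ?_⟩
      · rw [hρ]
        apply hb
        exact Subgroup.mem_map.2
          ⟨DihedralGroup.sr 3, Or.inr (Or.inr (Or.inr rfl)), hψsr3⟩
      · rw [hρ]
        apply hb
        exact Subgroup.mem_map.2 ⟨DihedralGroup.r 2, Or.inr (Or.inl rfl), hψr2⟩
    · rintro ⟨e1, e2⟩ g hg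
      obtain ⟨k, hk, rfl⟩ := Subgroup.mem_map.1 hg
      rcases (mem_K1 k).1 hk with rfl | rfl | rfl | rfl
      · rw [map_one, hρ1]
      · rw [hψr2, ← hρ, e2]
      · rw [hψsr1, ← hρ, ← hρ, ← hρ, e2, e1]
      · rw [hψsr3, ← hρ, e1]
  have hclass : ∀ B : Subgroup S, B ≤ X → Nat.card B = 4 → (∀ b ∈ B, b ^ 2 = 1) →
      B = K0.map ψ ∨ B = K1.map ψ := by
    intro B hBX hB4 hBexp
    have hBrange : B ≤ ψ.range := by
      intro x hx
      obtain ⟨d, hd⟩ := hψsurj x (hBX hx)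
      exact ⟨d, hd⟩
    have hmc : (B.comap ψ).map ψ = B := Subgroup.map_comap_eq_self hBrange
    have hcard : Nat.card (B.comap ψ) = 4 := by
      rw [← Subgroup.card_map_of_injective hψinj, hmc]
      exact hB4
    have hexp : ∀ x ∈ B.comap ψ, x ^ 2 = 1 := by
      intro x hx
      apply hψinj
      rw [map_pow, map_one]
      exact hBexp _ hx
    rcases d8_class _ hcard hexp with h | h
    · left
      rw [← hmc, h]
    · right
      rw [← hmc, h]
  have hBX : ∀ K : Subgroup (DihedralGroup 4), K.map ψ ≤ X := by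
    intro K x hx
    obtain ⟨k, -, rfl⟩ := Subgroup.mem_map.1 hx
    exact hψX k
  have hBcard : ∀ K : Subgroup (DihedralGroup 4), Nat.card (K.map ψ) = Nat.card K :=
    fun K => Subgroup.card_map_of_injective hψinj
  have hBexp : ∀ K : Subgroup (DihedralGroup 4), (∀ x ∈ K, x ^ 2 = 1) →
      ∀ g ∈ K.map ψ, g ^ 2 = 1 := by
    intro K hK x hx
    obtain ⟨k, hk, rfl⟩ := Subgroup.mem_map.1 hx
    rw [← map_pow, hK k hk, map_one]
  refine ⟨hM16, ?_⟩
  rcases hcases with ⟨c0, c1⟩ | ⟨c0, c1⟩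
  · refine ⟨K1.map ψ, ⟨hBX K1, (hBcard K1).trans card_K1, hBexp K1 exp_K1, ?_⟩, ?_⟩
    · rw [Nat.card_congr (Equiv.subtypeEquivRight hfix1)]
      exact c1
    · rintro B ⟨h1, h2, h3, h4⟩
      rcases hclass B h1 h2 h3 with rfl | rfl
      · rw [Nat.card_congr (Equiv.subtypeEquivRight hfix0), c0] at h4
        omega
      · rfl
  · refine ⟨K0.map ψ, ⟨hBX K0, (hBcard K0).trans card_K0, hBexp K0 exp_K0, ?_⟩, ?_⟩
    · rw [Nat.card_congr (Equiv.subtypeEquivRight hfix0)]
      exact c0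
    · rintro B ⟨h1, h2, h3, h4⟩
      rcases hclass B h1 h2 h3 with rfl | rfl
      · rfl
      · rw [Nat.card_congr (Equiv.subtypeEquivRight hfix1), c1] at h4
        omega

end Cfsg.Agent.S4407
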