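import Mathlib
import Cfsg.Agent.Lib.Helper61.NilAxB
import Cfsg.Agent.Lib.Helper61.Norm
import Cfsg.Agent.Lib.Helper61.CoprimeAb
import Cfsg.Agent.Lib.Helper22.Fstar
import Cfsg.Agent.Lib.Helper71.Fitting
import Cfsg.Agent.Lib.Helper91.Coprime2
import Cfsg.Agent.S1324
import Cfsg.Agent.S0044
import Cfsg.Statements.S4408

set_option autoImplicit false

namespace Cfsg.Agent.S4408

open Cfsg.Agent.Lib.Helper61

theorem mem_centralizer_zpowers_iff {S : Type*} [Group S] (g w : S) :
    g ∈ Subgroup.centralizer ((Subgroup.zpowers w : Subgroup S) : Set S) ↔ g * w * g⁻¹ = w := by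
  constructor
  · intro h
    have h1 := (Subgroup.mem_centralizer_iff.mp h) w (Subgroup.mem_zpowers w)
    rw [← h1]; group
  · intro h
    apply centralizer_singleton_le_centralizer_zpowers
    rw [Subgroup.mem_centralizer_iff]
    intro x hx
    rw [Set.mem_singleton_iff] at hx
    subst hx
    calc x * g = (g * x * g⁻¹) * g := by rw [h]
      _ = g * x := by group

theorem centralizer_sup_eq {S : Type*} [Group S] (P T : Subgroup S) :
    Subgroup.centralizer ((P ⊔ T : Subgroup S) : Set S) =
      Subgroup.centralizer (P : Set S) ⊓ Subgroup.centralizer (T : Set S) := by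
  apply le_antisymm
  · exact le_inf (Subgroup.centralizer_le (SetLike.coe_subset_coe.mpr le_sup_left))
      (Subgroup.centralizer_le (SetLike.coe_subset_coe.mpr le_sup_right))
  · intro x hx
    obtain ⟨hxP, hxT⟩ := Subgroup.mem_inf.mp hx
    have hle : P ⊔ T ≤ Subgroup.centralizer ({x} : Set S) := by
      apply sup_le
      · intro h hh
        rw [Subgroup.mem_centralizer_iff]
        intro y hy
        rw [Set.mem_singleton_iff] at hy
        subst hy
        exact ((Subgroup.mem_centralizer_iff.mp hxP) h hh).symm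
      · intro h hh
        rw [Subgroup.mem_centralizer_iff]
        intro y hy
        rw [Set.mem_singleton_iff] at hy
        subst hy
        exact ((Subgroup.mem_centralizer_iff.mp hxT) h hh).symm
    rw [Subgroup.mem_centralizer_iff]
    intro h hh
    exact ((Subgroup.mem_centralizer_iff.mp (hle hh)) x rfl).symm

theorem inv_ne_self_of_orderOf {S : Type*} [Group S] (w : S) {p : ℕ} (hp : p.Prime) (hp2 : p ≠ 2)
    (hw : orderOf w = p) : w⁻¹ ≠ w := by
  intro h
  have h2 : w ^ 2 = 1 := by
    rw [pow_two]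
    nth_rewrite 1 [← h]
    exact inv_mul_cancel w
  have h3 := orderOf_dvd_of_pow_eq_one h2
  rw [hw] at h3
  exact hp2 ((Nat.prime_dvd_prime_iff_eq hp Nat.prime_two).mp h3)

theorem card_eq_two_mul {S : Type*} [Group S] [Finite S] (I : Subgroup S)
    (hIexp : ∀ x ∈ I, x ^ 2 = 1) (w : S) {p : ℕ} (hp : p.Prime) (hp2 : p ≠ 2)
    (hw : orderOf w = p)
    (hIP : I ≤ Subgroup.normalizer ((Subgroup.zpowers w : Subgroup S) : Set S))
    (J : Subgroup S) (hJ : J ≤ I) (j : S) (hj : j ∈ J) (hjw : j * w * j⁻¹ ≠ w) :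
    Nat.card J = 2 * Nat.card (J ⊓ Subgroup.centralizer
      ((Subgroup.zpowers w : Subgroup S) : Set S) : Subgroup S) := by
  have hci : ∀ g ∈ I, g * w * g⁻¹ = w ∨ g * w * g⁻¹ = w⁻¹ := by
    intro g hg
    apply conj_eq_or_eq_inv_of_sq g w (hIexp g hg) hp hw
    exact (Subgroup.mem_normalizer_iff.mp (hIP hg) w).mp (Subgroup.mem_zpowers w)
  have hww : w⁻¹ ≠ w := inv_ne_self_of_orderOf w hp hp2 hw
  have hjinv : j * w * j⁻¹ = w⁻¹ := (hci j (hJ hj)).resolve_left hjw
  have hidx : (J ⊓ Subgroup.centralizer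
      ((Subgroup.zpowers w : Subgroup S) : Set S)).relIndex J = 2 := by
    rw [Subgroup.relIndex_eq_two_iff]
    refine ⟨j, hj, ?_⟩
    intro b hb
    have hbj : (b * j) * w * (b * j)⁻¹ = (b * w * b⁻¹)⁻¹ := by
      calc (b * j) * w * (b * j)⁻¹ = b * (j * w * j⁻¹) * b⁻¹ := by group
        _ = b * w⁻¹ * b⁻¹ := by rw [hjinv]
        _ = (b * w * b⁻¹)⁻¹ := by group
    rcases hci b (hJ hb) with h | h
    · right
      refine ⟨Subgroup.mem_inf.mpr ⟨hb, (mem_centralizer_zpowers_iff b w).mpr h⟩, ?_⟩
      intro hmem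
      have h2 := (mem_centralizer_zpowers_iff (b * j) w).mp (Subgroup.mem_inf.mp hmem).2
      rw [hbj, h] at h2
      exact hww h2
    · left
      refine ⟨Subgroup.mem_inf.mpr ⟨J.mul_mem hb hj, (mem_centralizer_zpowers_iff (b * j) w).mpr ?_⟩, ?_⟩
      · rw [hbj, h, inv_inv]
      · intro hmem
        have h2 := (mem_centralizer_zpowers_iff b w).mp (Subgroup.mem_inf.mp hmem).2
        rw [h] at h2
        exact hww h2
  have h1 := Cfsg.Agent.Lib.Helper1.card_eq_card_mul_relIndex
    (inf_le_left : J ⊓ Subgroup.centralizer ((Subgroup.zpowers w : Subgroup S) : Set S) ≤ J)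
  rw [hidx] at h1
  rw [h1, mul_comm]

theorem card_le_two_mul {S : Type*} [Group S] [Finite S] (I : Subgroup S)
    (hIexp : ∀ x ∈ I, x ^ 2 = 1) (w : S) {p : ℕ} (hp : p.Prime) (hp2 : p ≠ 2)
    (hw : orderOf w = p)
    (hIP : I ≤ Subgroup.normalizer ((Subgroup.zpowers w : Subgroup S) : Set S))
    (J : Subgroup S) (hJ : J ≤ I) :
    Nat.card J ≤ 2 * Nat.card (J ⊓ Subgroup.centralizer
      ((Subgroup.zpowers w : Subgroup S) : Set S) : Subgroup S) := by
  by_cases h : ∀ g ∈ J, g * w * g⁻¹ = w
  · have h1 : J ⊓ Subgroup.centralizer ((Subgroup.zpowers w : Subgroup S) : Set S) = J := by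
      apply inf_eq_left.mpr
      intro g hg
      exact (mem_centralizer_zpowers_iff g w).mpr (h g hg)
    rw [h1]
    omega
  · push Not at h
    obtain ⟨j, hj, hjw⟩ := h
    exact (card_eq_two_mul I hIexp w hp hp2 hw hIP J hJ j hj hjw).le

theorem exists_family {S : Type*} [Group S] [Finite S] (I : Subgroup S)
    (hI : Cfsg.IsElementaryAbelian 2 I) :
    ∀ (m : ℕ) (F J : Subgroup S), Group.IsNilpotent F → Odd (Nat.card F) →
      I ≤ Subgroup.normalizer (F : Set S) → J ≤ I → Nat.card J = 2 ^ m →
      J ⊓ Subgroup.centralizer (F : Set S) = ⊥ →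
      ∃ f : Fin m → Subgroup S, (∀ i, (Nat.card ↥(f i)).Prime) ∧ (∀ i, f i ≤ F) ∧
        (∀ i, I ≤ Subgroup.normalizer ((f i) : Set S)) ∧
        (∀ i j, i ≠ j → ∀ a ∈ f i, ∀ b ∈ f j, a * b = b * a) ∧
        Nat.card ↥(⨆ i, f i) = ∏ i, Nat.card ↥(f i) ∧
        J ⊓ Subgroup.centralizer ((⨆ i, f i : Subgroup S) : Set S) = ⊥ ∧
        (∀ J' : Subgroup S, J' ≤ I → Nat.card J' ≤ 2 ^ m *
          Nat.card (J' ⊓ Subgroup.centralizer ((⨆ i, f i : Subgroup S) : Set S) : Subgroup S)) := by
  have hIab : ∀ x ∈ I, ∀ y ∈ I, x * y = y * x := by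
    intro x hx y hy
    have := hI.1.is_comm.comm (⟨x, hx⟩ : I) ⟨y, hy⟩
    exact congrArg Subtype.val this
  have hIexp : ∀ x ∈ I, x ^ 2 = 1 := hI.2
  intro m
  induction m with
  | zero =>
    intro F J _ _ _ _ hJm _
    have hJbot : J = ⊥ := Subgroup.eq_bot_of_card_eq J (by rw [hJm, pow_zero])
    refine ⟨fun i => i.elim0, fun i => i.elim0, fun i => i.elim0, fun i => i.elim0,
      fun i => i.elim0, ?_, ?_, ?_⟩
    · simp
    · rw [hJbot, bot_inf_eq]
    · intro J' _
      have hC : ∀ T : Subgroup S, T = ⊥ →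
          J' ⊓ Subgroup.centralizer ((T : Subgroup S) : Set S) = J' := by
        intro T hT
        apply inf_eq_left.mpr
        intro g _
        rw [hT, Subgroup.mem_centralizer_iff]
        intro h hh
        have : h = 1 := Subgroup.mem_bot.mp hh
        rw [this, one_mul, mul_one]
      rw [hC _ (iSup_of_empty _), pow_zero, one_mul]
  | succ m ih =>
    intro F J hFnil hFodd hIF hJI hJm hJF
    have hF2 : ¬ 2 ∣ Nat.card F := by
      intro h
      exact (Nat.not_even_iff_odd.mpr hFodd) (even_iff_two_dvd.mpr h)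
    obtain ⟨j, hjJ, hj1⟩ : ∃ j ∈ J, j ≠ 1 := by
      by_contra hcon
      push Not at hcon
      have hb : J = ⊥ := (Subgroup.eq_bot_iff_forall J).mpr hcon
      rw [hb, Subgroup.card_bot] at hJm
      have h2 : 2 ^ (m + 1) = 2 * 2 ^ m := pow_succ' 2 m
      have h3 : 0 < 2 ^ m := pow_pos (by norm_num) m
      omega
    have hjI : j ∈ I := hJI hjJ
    have hjj : j * j = 1 := by rw [← pow_two]; exact hIexp j hjI
    have hjinv : j⁻¹ = j := by rw [inv_eq_iff_mul_eq_one]; exact hjj
    have hjF : j ∉ Subgroup.centralizer (F : Set S) := by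
      intro h
      have h1 : j ∈ J ⊓ Subgroup.centralizer (F : Set S) := Subgroup.mem_inf.mpr ⟨hjJ, h⟩
      rw [hJF] at h1
      exact hj1 (Subgroup.mem_bot.mp h1)
    obtain ⟨I₀, hI₀I, hII₀, x, hxF, hxI₀, hxj⟩ : ∃ I₀ : Subgroup S, I₀ ≤ I ∧
        I ≤ I₀ ⊔ Subgroup.zpowers j ∧ ∃ x ∈ F, x ∈ Subgroup.centralizer (I₀ : Set S) ∧
          j * x * j⁻¹ ≠ x := by
      by_contra hcon
      push Not at hcon
      apply hjF
      have hall : ∀ x ∈ F, j * x * j⁻¹ = x := by
        by_cases hI4 : 2 ^ 2 ≤ Nat.card I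
        · have hgen := Cfsg.Agent.S1324.result 2 I F hI hI4 hF2 hIF
          have hle : F ≤ Subgroup.centralizer ({j} : Set S) := by
            rw [hgen]
            apply iSup_le
            rintro ⟨B, hBI, hB2⟩
            intro x hx
            obtain ⟨hxF, hxB⟩ := Subgroup.mem_inf.mp hx
            rw [Subgroup.mem_centralizer_iff]
            intro h hh
            rw [Set.mem_singleton_iff] at hh
            subst hh
            by_cases hjB : h ∈ B
            · exact (Subgroup.mem_centralizer_iff.mp hxB) h hjB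
            · have hMI : B ⊔ Subgroup.zpowers h ≤ I :=
                sup_le hBI (by rw [Subgroup.zpowers_le]; exact hjI)
              have hsup : I ≤ B ⊔ Subgroup.zpowers h := by
                have e1 := Subgroup.relIndex_mul_relIndex B (B ⊔ Subgroup.zpowers h) I le_sup_left hMI
                have e2 : B.relIndex (B ⊔ Subgroup.zpowers h) ≠ 1 := by
                  intro h1
                  have := Subgroup.relIndex_eq_one.mp h1
                  exact hjB (this (Subgroup.mem_sup_right (Subgroup.mem_zpowers h)))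
                have e3 : B.relIndex (B ⊔ Subgroup.zpowers h) ≠ 0 := by
                  rw [Subgroup.relIndex]; exact Subgroup.index_ne_zero_of_finite
                have e4 : (B ⊔ Subgroup.zpowers h).relIndex I ≠ 0 := by
                  rw [Subgroup.relIndex]; exact Subgroup.index_ne_zero_of_finite
                have e5 : (B ⊔ Subgroup.zpowers h).relIndex I = 1 := by
                  by_contra hne
                  have a1 : 2 ≤ (B ⊔ Subgroup.zpowers h).relIndex I := by omega
                  have a2 : 2 ≤ B.relIndex (B ⊔ Subgroup.zpowers h) := by omega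
                  have a3 : 2 * 2 ≤ B.relIndex (B ⊔ Subgroup.zpowers h) *
                      (B ⊔ Subgroup.zpowers h).relIndex I := Nat.mul_le_mul a2 a1
                  omega
                exact Subgroup.relIndex_eq_one.mp e5
              have h3 := hcon B hBI hsup x hxF hxB
              calc h * x = (h * x * h⁻¹) * h := by group
                _ = x * h := by rw [h3]
          intro x hx
          have h4 := (Subgroup.mem_centralizer_iff.mp (hle hx)) j rfl
          rw [h4]; group
        · -- |I| = 2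
          have hzI : Subgroup.zpowers j ≤ I := by rw [Subgroup.zpowers_le]; exact hjI
          have hoj : orderOf j = 2 := orderOf_eq_prime (hIexp j hjI) hj1
          have hIpg : IsPGroup 2 I := by
            intro x
            exact ⟨1, Subtype.ext (by rw [pow_one]; exact hIexp x x.2)⟩
          obtain ⟨k, hk⟩ := hIpg.exists_card_eq
          have hk1 : k ≤ 1 := by
            by_contra hlt
            have : 2 ^ 2 ≤ 2 ^ k := Nat.pow_le_pow_right (by norm_num) (by omega)
            omega
          have hcard : Nat.card I ≤ Nat.card (Subgroup.zpowers j) := by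
            rw [Nat.card_zpowers, hoj, hk]
            calc 2 ^ k ≤ 2 ^ 1 := Nat.pow_le_pow_right (by norm_num) hk1
              _ = 2 := by norm_num
          have hIz : Subgroup.zpowers j = I := Subgroup.eq_of_le_of_card_ge hzI hcard
          intro x hx
          apply hcon ⊥ bot_le (by rw [bot_sup_eq, hIz]) x hx
          rw [Subgroup.mem_centralizer_iff]
          intro h hh
          have : h = 1 := Subgroup.mem_bot.mp hh
          rw [this, one_mul, mul_one]
      rw [Subgroup.mem_centralizer_iff]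
      intro y hy
      have h5 := hall y hy
      calc y * j = (j * y * j⁻¹) * j := by rw [h5]
        _ = j * y := by group
    -- the element inverted by j
    have hjC : j ∈ Subgroup.centralizer (I₀ : Set S) := by
      rw [Subgroup.mem_centralizer_iff]
      intro h hh
      exact hIab h (hI₀I hh) j hjI
    obtain ⟨y, hy⟩ : ∃ y : S, y = x⁻¹ * (j * x * j⁻¹) := ⟨_, rfl⟩
    have hyF : y ∈ F := by
      rw [hy]
      exact F.mul_mem (F.inv_mem hxF) ((Subgroup.le_normalizer_iff.mp hIF) j hjI x hxF)
    have hyI₀ : y ∈ Subgroup.centralizer (I₀ : Set S) := by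
      rw [hy]
      exact Subgroup.mul_mem _ (Subgroup.inv_mem _ hxI₀)
        (Subgroup.mul_mem _ (Subgroup.mul_mem _ hjC hxI₀) (Subgroup.inv_mem _ hjC))
    have hy1 : y ≠ 1 := by
      intro h
      rw [hy, inv_mul_eq_one] at h
      exact hxj h.symm
    have hjy : j * y * j⁻¹ = y⁻¹ := by
      have e1 : j * y * j⁻¹ = j * x⁻¹ * j * x * (j⁻¹ * j⁻¹) := by rw [hy]; group
      have e2 : y⁻¹ = j * x⁻¹ * j⁻¹ * x := by rw [hy]; group
      rw [e1, e2, hjinv, hjj, mul_one]
    have hoy : orderOf y ≠ 1 := fun h => hy1 (orderOf_eq_one_iff.mp h)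
    obtain ⟨p, hp, hpd⟩ := Nat.exists_prime_and_dvd hoy
    obtain ⟨w, hwdef⟩ : ∃ w : S, w = y ^ (orderOf y / p) := ⟨_, rfl⟩
    have hw : orderOf w = p := by
      rw [hwdef]; exact orderOf_pow_orderOf_div (orderOf_pos y).ne' hpd
    have hwF : w ∈ F := by rw [hwdef]; exact F.pow_mem hyF _
    have hwI₀ : w ∈ Subgroup.centralizer (I₀ : Set S) := by
      rw [hwdef]; exact Subgroup.pow_mem _ hyI₀ _
    have hjw : j * w * j⁻¹ = w⁻¹ := by
      rw [hwdef, ← conj_pow, hjy, inv_pow]
    have hp2 : p ≠ 2 := by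
      intro h
      rw [h] at hpd
      exact hF2 (hpd.trans (Subgroup.orderOf_dvd_natCard F hyF))
    have hww : w⁻¹ ≠ w := inv_ne_self_of_orderOf w hp hp2 hw
    have hPF : Subgroup.zpowers w ≤ F := by rw [Subgroup.zpowers_le]; exact hwF
    have hPcard : Nat.card (Subgroup.zpowers w) = p := by rw [Nat.card_zpowers, hw]
    have hjP : j ∈ Subgroup.normalizer ((Subgroup.zpowers w : Subgroup S) : Set S) := by
      have key : ∀ n ∈ Subgroup.zpowers w, j * n * j⁻¹ ∈ Subgroup.zpowers w := by
        intro n hn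
        obtain ⟨k, rfl⟩ := Subgroup.mem_zpowers_iff.mp hn
        rw [← conj_zpow, hjw]
        exact Subgroup.zpow_mem _ (Subgroup.inv_mem _ (Subgroup.mem_zpowers w)) k
      rw [Subgroup.mem_normalizer_iff]
      intro n
      refine ⟨key n, fun h => ?_⟩
      have h2 := key _ h
      have h3 : j * (j * n * j⁻¹) * j⁻¹ = n := by
        rw [hjinv]
        calc j * (j * n * j) * j = (j * j) * n * (j * j) := by group
          _ = n := by rw [hjj]; group
      rw [h3] at h2
      exact h2
    have hI₀P : I₀ ≤ Subgroup.normalizer ((Subgroup.zpowers w : Subgroup S) : Set S) := by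
      have h1 : I₀ ≤ Subgroup.centralizer ((Subgroup.zpowers w : Subgroup S) : Set S) := by
        rw [Subgroup.le_centralizer_iff, Subgroup.zpowers_le]
        exact hwI₀
      exact h1.trans (Subgroup.centralizer_le_normalizer _)
    have hIP : I ≤ Subgroup.normalizer ((Subgroup.zpowers w : Subgroup S) : Set S) :=
      hII₀.trans (sup_le hI₀P (by rw [Subgroup.zpowers_le]; exact hjP))
    have hJ₁card : Nat.card J = 2 * Nat.card (J ⊓ Subgroup.centralizer
        ((Subgroup.zpowers w : Subgroup S) : Set S) : Subgroup S) :=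
      card_eq_two_mul I hIexp w hp hp2 hw hIP J hJI j hjJ (by rw [hjw]; exact hww)
    have hJ₁m : Nat.card (J ⊓ Subgroup.centralizer
        ((Subgroup.zpowers w : Subgroup S) : Set S) : Subgroup S) = 2 ^ m := by
      have h2 : 2 ^ (m + 1) = 2 * 2 ^ m := pow_succ' 2 m
      omega
    have hF₁nil : Group.IsNilpotent (F ⊓ Subgroup.centralizer
        ((Subgroup.zpowers w : Subgroup S) : Set S) : Subgroup S) :=
      Cfsg.Agent.Lib.Helper22.isNilpotent_of_le inf_le_left hFnil
    have hF₁odd : Odd (Nat.card (F ⊓ Subgroup.centralizer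
        ((Subgroup.zpowers w : Subgroup S) : Set S) : Subgroup S)) :=
      Odd.of_dvd_nat hFodd (Subgroup.card_dvd_of_le inf_le_left)
    have hIF₁ : I ≤ Subgroup.normalizer ((F ⊓ Subgroup.centralizer
        ((Subgroup.zpowers w : Subgroup S) : Set S) : Subgroup S) : Set S) :=
      le_trans (le_inf hIF (hIP.trans (normalizer_le_normalizer_centralizer _)))
        (normalizer_inf_le_normalizer_inf F _)
    have hJ₁F₁ : (J ⊓ Subgroup.centralizer ((Subgroup.zpowers w : Subgroup S) : Set S)) ⊓
        Subgroup.centralizer ((F ⊓ Subgroup.centralizer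
          ((Subgroup.zpowers w : Subgroup S) : Set S) : Subgroup S) : Set S) = ⊥ := by
      rw [eq_bot_iff]
      intro g hg
      obtain ⟨hg1, hgF₁⟩ := Subgroup.mem_inf.mp hg
      obtain ⟨hgJ, hgP⟩ := Subgroup.mem_inf.mp hg1
      have : Fact p.Prime := ⟨hp⟩
      have hgo : (orderOf g).Coprime p :=
        Nat.Coprime.coprime_dvd_left (orderOf_dvd_of_pow_eq_one (hIexp g (hJI hgJ)))
          ((Nat.coprime_primes Nat.prime_two hp).mpr (Ne.symm hp2))
      have key := commute_of_commute_centralizer_nilpotent (p := p) F (Subgroup.zpowers w) hFnil hPF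
        (IsPGroup.of_card (n := 1) (by rw [hPcard, pow_one])) g (hIF (hJI hgJ)) hgo
        (fun b hb => ((Subgroup.mem_centralizer_iff.mp hgP) b hb).symm)
        (fun u hu hub => by
          have hu1 : u ∈ F ⊓ Subgroup.centralizer ((Subgroup.zpowers w : Subgroup S) : Set S) := by
            refine Subgroup.mem_inf.mpr ⟨hu, ?_⟩
            rw [Subgroup.mem_centralizer_iff]
            intro h hh
            exact (hub h hh).eq.symm
          exact ((Subgroup.mem_centralizer_iff.mp hgF₁) u hu1).symm)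
      have hgF : g ∈ J ⊓ Subgroup.centralizer (F : Set S) := by
        refine Subgroup.mem_inf.mpr ⟨hgJ, ?_⟩
        rw [Subgroup.mem_centralizer_iff]
        intro h hh
        exact (key h hh).eq.symm
      rw [hJF] at hgF
      exact hgF
    obtain ⟨f', hf1, hf2, hf3, hf4, hf5, hf6, hf7⟩ := ih _ _ hF₁nil hF₁odd hIF₁
      (inf_le_left.trans hJI) hJ₁m hJ₁F₁
    have hTCP : (⨆ i, f' i) ≤ Subgroup.centralizer ((Subgroup.zpowers w : Subgroup S) : Set S) :=
      (iSup_le hf2).trans inf_le_right
    have hsup : (⨆ i, (Fin.cons (Subgroup.zpowers w) f' : Fin (m + 1) → Subgroup S) i) =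
        Subgroup.zpowers w ⊔ ⨆ i, f' i := by
      apply le_antisymm
      · apply iSup_le
        intro i
        refine Fin.cases ?_ (fun k => ?_) i
        · rw [Fin.cons_zero]; exact le_sup_left
        · rw [Fin.cons_succ]; exact (le_iSup f' k).trans le_sup_right
      · apply sup_le
        · have := le_iSup (Fin.cons (Subgroup.zpowers w) f' : Fin (m + 1) → Subgroup S) 0
          rwa [Fin.cons_zero] at this
        · apply iSup_le
          intro k
          have := le_iSup (Fin.cons (Subgroup.zpowers w) f' : Fin (m + 1) → Subgroup S) k.succ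
          rwa [Fin.cons_succ] at this
    -- an element of J centralizing T but not P
    obtain ⟨g, hgJ, hgT, hg1⟩ : ∃ g ∈ J, g ∈ Subgroup.centralizer ((⨆ i, f' i : Subgroup S) : Set S) ∧
        g ≠ 1 := by
      by_contra hcon
      push Not at hcon
      have hb : J ⊓ Subgroup.centralizer ((⨆ i, f' i : Subgroup S) : Set S) = ⊥ := by
        rw [Subgroup.eq_bot_iff_forall]
        intro g hg
        exact hcon g (Subgroup.mem_inf.mp hg).1 (Subgroup.mem_inf.mp hg).2
      have h1 := hf7 J hJI
      rw [hb, Subgroup.card_bot, mul_one, hJm] at h1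
      have h2 : 2 ^ (m + 1) = 2 * 2 ^ m := pow_succ' 2 m
      have h3 : 0 < 2 ^ m := pow_pos (by norm_num) m
      omega
    have hgP : g * w * g⁻¹ = w⁻¹ := by
      have hci := conj_eq_or_eq_inv_of_sq g w (hIexp g (hJI hgJ)) hp hw
        ((Subgroup.mem_normalizer_iff.mp (hIP (hJI hgJ)) w).mp (Subgroup.mem_zpowers w))
      refine hci.resolve_left ?_
      intro h
      have h1 : g ∈ (J ⊓ Subgroup.centralizer ((Subgroup.zpowers w : Subgroup S) : Set S)) ⊓
          Subgroup.centralizer ((⨆ i, f' i : Subgroup S) : Set S) :=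
        Subgroup.mem_inf.mpr ⟨Subgroup.mem_inf.mpr ⟨hgJ, (mem_centralizer_zpowers_iff g w).mpr h⟩, hgT⟩
      rw [hf6] at h1
      exact hg1 (Subgroup.mem_bot.mp h1)
    have hPT : Subgroup.zpowers w ⊓ (⨆ i, f' i) = ⊥ := by
      rw [eq_bot_iff]
      intro u hu
      obtain ⟨huP, huT⟩ := Subgroup.mem_inf.mp hu
      obtain ⟨k, hk⟩ := Subgroup.mem_zpowers_iff.mp huP
      have h1 : g * u * g⁻¹ = u⁻¹ := by
        rw [← hk, ← conj_zpow, hgP, inv_zpow]
      have h2 : g * u * g⁻¹ = u := by
        have := (Subgroup.mem_centralizer_iff.mp hgT) u huT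
        rw [← this]; group
      have h3 : u ^ 2 = 1 := by
        rw [pow_two]
        nth_rewrite 1 [← h2]
        rw [h1]
        exact inv_mul_cancel u
      have h4 : orderOf u ∣ 2 := orderOf_dvd_of_pow_eq_one h3
      have h5 : orderOf u ∣ p := by
        have := Subgroup.orderOf_dvd_natCard _ huP
        rwa [hPcard] at this
      have h6 : orderOf u = 1 := by
        have hc : Nat.Coprime 2 p := (Nat.coprime_primes Nat.prime_two hp).mpr (Ne.symm hp2)
        have hc2 : (orderOf u).Coprime (orderOf u) :=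
          Nat.Coprime.coprime_dvd_left h4 (Nat.Coprime.coprime_dvd_right h5 hc)
        exact (Nat.coprime_self _).mp hc2
      exact Subgroup.mem_bot.mpr (orderOf_eq_one_iff.mp h6)
    refine ⟨Fin.cons (Subgroup.zpowers w) f', ?_, ?_, ?_, ?_, ?_, ?_, ?_⟩
    · intro i
      refine Fin.cases ?_ (fun k => ?_) i
      · rw [Fin.cons_zero, hPcard]; exact hp
      · rw [Fin.cons_succ]; exact hf1 k
    · intro i
      refine Fin.cases ?_ (fun k => ?_) i
      · rw [Fin.cons_zero]; exact hPF
      · rw [Fin.cons_succ]; exact (hf2 k).trans inf_le_left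
    · intro i
      refine Fin.cases ?_ (fun k => ?_) i
      · rw [Fin.cons_zero]; exact hIP
      · rw [Fin.cons_succ]; exact hf3 k
    · intro i k hik a ha b hb
      rcases Fin.eq_zero_or_eq_succ i with rfl | ⟨i', rfl⟩
      · rcases Fin.eq_zero_or_eq_succ k with rfl | ⟨k', rfl⟩
        · exact absurd rfl hik
        · rw [Fin.cons_zero] at ha
          rw [Fin.cons_succ] at hb
          exact (Subgroup.mem_centralizer_iff.mp (hTCP (le_iSup f' k' hb))) a ha
      · rcases Fin.eq_zero_or_eq_succ k with rfl | ⟨k', rfl⟩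
        · rw [Fin.cons_zero] at hb
          rw [Fin.cons_succ] at ha
          exact ((Subgroup.mem_centralizer_iff.mp (hTCP (le_iSup f' i' ha))) b hb).symm
        · rw [Fin.cons_succ] at ha hb
          exact hf4 i' k' (fun h => hik (by rw [h])) a ha b hb
    · rw [hsup, Fin.prod_univ_succ]
      simp only [Fin.cons_zero, Fin.cons_succ]
      rw [← hf5]
      have h1 := Cfsg.Agent.Lib.Helper91.card_sup_mul_card_inf_of_le_normalizer (Subgroup.zpowers w)
        (⨆ i, f' i) (hTCP.trans (Subgroup.centralizer_le_normalizer _))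
      rw [hPT, Subgroup.card_bot, mul_one] at h1
      exact h1
    · rw [hsup, centralizer_sup_eq, ← inf_assoc]
      exact hf6
    · intro J' hJ'
      rw [hsup, centralizer_sup_eq, ← inf_assoc]
      have h1 := card_le_two_mul I hIexp w hp hp2 hw hIP J' hJ'
      have h2 := hf7 (J' ⊓ Subgroup.centralizer ((Subgroup.zpowers w : Subgroup S) : Set S))
        (inf_le_left.trans hJ')
      calc Nat.card J' ≤ 2 * Nat.card (J' ⊓ Subgroup.centralizer
            ((Subgroup.zpowers w : Subgroup S) : Set S) : Subgroup S) := h1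
        _ ≤ 2 * (2 ^ m * Nat.card ((J' ⊓ Subgroup.centralizer
            ((Subgroup.zpowers w : Subgroup S) : Set S)) ⊓
            Subgroup.centralizer ((⨆ i, f' i : Subgroup S) : Set S) : Subgroup S)) :=
          Nat.mul_le_mul_left 2 h2
        _ = 2 ^ (m + 1) * Nat.card ((J' ⊓ Subgroup.centralizer
            ((Subgroup.zpowers w : Subgroup S) : Set S)) ⊓
            Subgroup.centralizer ((⨆ i, f' i : Subgroup S) : Set S) : Subgroup S) := by
          rw [pow_succ' 2 m, mul_assoc]

theorem result {S : Type*} [Group S] [Finite S]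
    [Group.IsSolvable S] (hF : Odd (Nat.card ↥(Cfsg.fittingSubgroup S)))
    (I : Subgroup S) (hI : Cfsg.IsElementaryAbelian 2 I) (n : ℕ) (hn : 1 ≤ n) (hIn : Nat.card ↥I = 2 ^ n) :
    ∃ f : Fin n → Subgroup S, (∀ i, (Nat.card ↥(f i)).Prime) ∧ (∀ i, f i ≤ Cfsg.fittingSubgroup S) ∧
      (∀ i, I ≤ Subgroup.normalizer ((f i) : Set S)) ∧ (∀ i j, i ≠ j → ∀ a ∈ f i, ∀ b ∈ f j, a * b = b * a) ∧
      Nat.card ↥(⨆ i, f i) = ∏ i, Nat.card ↥(f i) ∧ I ⊓ Subgroup.centralizer ((⨆ i, f i : Subgroup S) : Set S) = ⊥ := by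
  have hFn : Group.IsNilpotent (Cfsg.fittingSubgroup S) :=
    Cfsg.Agent.Lib.Helper71.fittingSubgroup_isNilpotent
  have hIF : I ≤ Subgroup.normalizer ((Cfsg.fittingSubgroup S : Subgroup S) : Set S) := by
    have hnorm : (Cfsg.fittingSubgroup S).Normal := Cfsg.Agent.Lib.Helper71.fittingSubgroup_normal
    rw [Subgroup.normalizer_eq_top]
    exact le_top
  have hbot : I ⊓ Subgroup.centralizer ((Cfsg.fittingSubgroup S : Subgroup S) : Set S) = ⊥ := by
    rw [eq_bot_iff]
    intro g hg
    obtain ⟨hgI, hgC⟩ := Subgroup.mem_inf.mp hg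
    have hgF := Cfsg.Agent.S0044.result hgC
    have h1 : orderOf g ∣ 2 := orderOf_dvd_of_pow_eq_one (hI.2 g hgI)
    have h2 : orderOf g ∣ Nat.card (Cfsg.fittingSubgroup S) := Subgroup.orderOf_dvd_natCard _ hgF
    have h3 : orderOf g = 1 := by
      have hc : (orderOf g).Coprime (orderOf g) :=
        Nat.Coprime.coprime_dvd_left h1 (Nat.Coprime.coprime_dvd_right h2 (Odd.coprime_two_left hF))
      exact (Nat.coprime_self _).mp hc
    exact Subgroup.mem_bot.mpr (orderOf_eq_one_iff.mp h3)
  obtain ⟨f, h1, h2, h3, h4, h5, h6, _⟩ := exists_family I hI n _ I hFn hF hIF le_rfl hIn hbot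
  exact ⟨f, h1, h2, h3, h4, h5, h6⟩

end Cfsg.Agent.S4408
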