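import Cfsg.Statements.S4410
import Cfsg.Agent.Lib.Helper50.Transv

set_option autoImplicit false
open Cfsg

namespace Cfsg.Agent.S4410

/-- Let V be a finite-dimensional vector space over the field with two elements and S a solvable group of linear automorphisms of V with O₂(S) = 1. If P ∈ S has order 4 and (P − 1)³ = 0 on V, then the image of (P − 1)² has at least 4 elements; equivalently, in the decomposition of V into indecomposable modules for the cyclic group generated by P, at least two summands have dimension 3. -/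
theorem result
    {V : Type*} [AddCommGroup V] [Module (ZMod 2) V] [Finite V]
    (S : Subgroup (V ≃ₗ[ZMod 2] V)) (hS : Group.IsSolvable ↥S) (hO2 : Cfsg.pCore 2 ↥S = ⊥)
    (P : V ≃ₗ[ZMod 2] V) (hPS : P ∈ S) (hP4 : orderOf P = 4)
    (hcub : ((P : V →ₗ[ZMod 2] V) - LinearMap.id) ^ 3 = 0) :
    4 ≤ Nat.card ↥(LinearMap.range (((P : V →ₗ[ZMod 2] V) - LinearMap.id) ^ 2)) := by
  classical
  by_contra hlt
  push Not at hlt
  obtain ⟨e, he⟩ := Cfsg.Agent.Lib.Helper50.tvl_form _ hlt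
  have hform : ∀ v, (P * P) v = v ∨ (P * P) v = v + e := by
    intro v
    have e1 : ((((P : V →ₗ[ZMod 2] V) - LinearMap.id) ^ 2 : V →ₗ[ZMod 2] V)) v =
        P (P v) - P v - (P v - v) := by
      simp [pow_two, Module.End.mul_apply, map_sub]
    have e2 : (P * P) v =
        v + ((((P : V →ₗ[ZMod 2] V) - LinearMap.id) ^ 2 : V →ₗ[ZMod 2] V)) v := by
      rw [e1, LinearEquiv.mul_apply]
      apply Cfsg.Agent.Lib.Helper50.tvl_eq_of_add
      abel_nf
      simp only [Cfsg.Agent.Lib.Helper50.tvl_zsmul2, Cfsg.Agent.Lib.Helper50.tvl_zsmul_neg2,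
        add_zero]
    rcases he v with h | h
    · left; rw [e2, h, add_zero]
    · right; rw [e2, h]
  have hzz : P * P * (P * P) = 1 := by
    have h1 := pow_orderOf_eq_one P
    rw [hP4] at h1
    rw [← h1, pow_succ, pow_succ, pow_succ, pow_one]
    simp only [mul_assoc]
  have hz1 : P * P ≠ 1 := by
    have h1 := pow_ne_one_of_lt_orderOf (x := P) (n := 2) (by norm_num) (by rw [hP4]; norm_num)
    rwa [pow_two] at h1
  have hfin : Finite (V ≃ₗ[ZMod 2] V) :=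
    Finite.of_injective (fun f => (f : V → V)) DFunLike.coe_injective
  have hsolv : Group.IsSolvable S := hS
  obtain ⟨zS, hzSdef⟩ : ∃ zS : S, (zS : V ≃ₗ[ZMod 2] V) = P * P :=
    ⟨⟨P * P, S.mul_mem hPS hPS⟩, rfl⟩
  have hzS1 : zS ≠ 1 := by
    intro h1
    apply hz1
    rw [← hzSdef, h1]; rfl
  have hzSzS : zS * zS = 1 := by
    apply Subtype.ext
    rw [Subgroup.coe_mul, hzSdef, hzz]; rfl
  obtain ⟨N, hNn, hNodd, g, hg, hgz⟩ :=
    Cfsg.Agent.Lib.Helper50.tv_exists_normal_odd hO2 zS hzS1 hzSzS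
  apply hgz
  obtain ⟨x', hx'def⟩ : ∃ x' : S, x' = g⁻¹ * zS * g * zS⁻¹ := ⟨_, rfl⟩
  have hS1 : zS * x' * zS⁻¹ = x'⁻¹ := by
    rw [hx'def]; exact Cfsg.Agent.Lib.Helper50.tv_inv_comm zS g hzSzS
  have hS2 : zS * x' = (zS * g⁻¹) * zS * (zS * g⁻¹)⁻¹ := by
    rw [hx'def]; group
  have hx'N : x' ∈ N := by
    rw [hx'def]
    have h1 : g⁻¹ * (zS * g * zS⁻¹) ∈ N := N.mul_mem (N.inv_mem hg) (hNn.conj_mem g hg zS)
    simpa [mul_assoc] using h1
  have key := Cfsg.Agent.Lib.Helper50.tvl_main P (zS : V ≃ₗ[ZMod 2] V) (x' : V ≃ₗ[ZMod 2] V)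
    ((zS * g⁻¹ : S) : V ≃ₗ[ZMod 2] V) e hzSdef (by rw [hzSdef]; exact hzz)
    (by rw [hzSdef]; exact hform) (N.map S.subtype) ?_ ?_ ?_ ?_ ?_
  · have hx'1 : x' = 1 := by
      apply Subtype.ext
      rw [key]; rfl
    rw [hx'def] at hx'1
    have h2 : g⁻¹ * (zS * g * zS⁻¹) = 1 := by
      rw [← hx'1]; group
    exact (inv_mul_eq_one.mp h2).symm
  · rintro _ ⟨n, hn, rfl⟩
    have hdvd : orderOf (⟨n, hn⟩ : N) ∣ Nat.card N := orderOf_dvd_natCard _
    rw [Subgroup.orderOf_mk] at hdvd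
    have h3 : orderOf (S.subtype n) = orderOf n := Subgroup.orderOf_coe n
    rw [h3]
    exact Odd.of_dvd_nat hNodd hdvd
  · rintro _ ⟨n, hn, rfl⟩
    refine ⟨(⟨P, hPS⟩ : S)⁻¹ * n * ⟨P, hPS⟩, ?_, rfl⟩
    have h4 := hNn.conj_mem n hn (⟨P, hPS⟩ : S)⁻¹
    simpa using h4
  · exact ⟨x', hx'N, rfl⟩
  · exact_mod_cast congrArg (Subtype.val) hS1
  · exact_mod_cast congrArg (Subtype.val) hS2

end Cfsg.Agent.S4410
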