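import Cfsg.Statements.S4413
import Cfsg.Agent.Lib.Helper93.ESe
import Cfsg.Agent.Lib.Helper1.BurnsideBasis

set_option autoImplicit false
open Cfsg

namespace Cfsg.Agent.S4413

/-- Let P be an extraspecial 2-group of order 32 with no elementary abelian subgroup of order 8 (the central product of a dihedral and a quaternion group of order 8). Then the inner automorphism group of P has order 16 and the outer automorphism group Aut(P)/Inn(P) is isomorphic to the symmetric group of degree 5; in particular Aut(P) has order 1920. -/
theorem result {P : Type*} [Group P] [Finite P]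
    (hex : Cfsg.IsExtraspecial 2 P) (h32 : Nat.card P = 32)
    (hminus : ∀ A : Subgroup P, Cfsg.IsElementaryAbelian 2 A → Nat.card ↥A ≤ 4)
    [(MulAut.conj : P →* MulAut P).range.Normal] :
    Nat.card ↥(MulAut.conj : P →* MulAut P).range = 16 ∧ Nat.card (MulAut P) = 1920 ∧
      Nonempty ((MulAut P ⧸ (MulAut.conj : P →* MulAut P).range) ≃* Equiv.Perm (Fin 5)) := by
  classical
  obtain ⟨⟨hPG, hfr, hcm⟩, hc2⟩ := hex
  obtain ⟨y, hy1, hy⟩ := (Nat.card_eq_two_iff' (1 : Subgroup.center P)).1 hc2
  have hzc : ∀ x, (y : P) * x = x * y := fun x => ((Subgroup.mem_center_iff.1 y.2) x).symm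
  have hz1 : (y : P) ≠ 1 := fun h => hy1 (Subtype.ext h)
  have hcz : ∀ c ∈ Subgroup.center P, c = 1 ∨ c = (y : P) := by
    intro c hc
    by_cases h : c = 1
    · exact Or.inl h
    · right
      have := hy ⟨c, hc⟩ (fun h' => h (congrArg Subtype.val h'))
      exact congrArg Subtype.val this
  have B : Cfsg.Agent.Lib.Helper93.ES.Base P (y : P) :=
    { card := h32
      zc := hzc
      z1 := hz1
      z2 := by
        have := pow_card_eq_one' (G := Subgroup.center P) (x := y)
        rw [hc2] at this
        exact congrArg Subtype.val this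
      cen := fun x hx => hcz x (Subgroup.mem_center_iff.2 (fun g => (hx g).symm))
      sq := fun x => hcz _ (by
        have := Cfsg.Agent.Lib.Helper1.pow_mem_frattini_of_pGroup 2 hPG x
        rw [hfr] at this
        exact this)
      cm := fun x y' => by
        have hmem : x * y' * x⁻¹ * y'⁻¹ ∈ commutator P := by
          rw [commutator_def]
          exact Subgroup.commutator_mem_commutator (Subgroup.mem_top _) (Subgroup.mem_top _)
        rw [hcm] at hmem
        have e : x * y' = (x * y' * x⁻¹ * y'⁻¹) * (y' * x) := by group
        rcases hcz _ hmem with h | h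
        · left
          rw [e, h, one_mul]
        · right
          rw [e, h, hzc]
      noE8 := fun A hexp => hminus A ⟨⟨⟨fun a b => by
        apply Subtype.ext
        have ha := hexp a a.2
        have hb := hexp b b.2
        have hab := hexp (a * b) (A.mul_mem a.2 b.2)
        show (a : P) * (b : P) = (b : P) * (a : P)
        have e1 : (a : P)⁻¹ = a := inv_eq_of_mul_eq_one_left (by rw [← pow_two]; exact ha)
        have e2 : (b : P)⁻¹ = b := inv_eq_of_mul_eq_one_left (by rw [← pow_two]; exact hb)
        have e3 : ((a : P) * (b : P))⁻¹ = (a : P) * (b : P) :=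
          inv_eq_of_mul_eq_one_left (by rw [← pow_two]; exact hab)
        rw [← e3, mul_inv_rev, e1, e2]⟩⟩, hexp⟩ }
  exact B.result

end Cfsg.Agent.S4413
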