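import Cfsg.Statements.S4420

set_option autoImplicit false
open Cfsg

namespace Cfsg.Agent.S4420

theorem sq_eq_one_aux {H : Type*} [Group H] (B B' : Subgroup H) (hB : IsMulCommutative ↥B)
    (hB' : ∀ x : H, x ∉ B' → x ^ 2 = 1 ∧ ∀ b ∈ B', x * b * x⁻¹ = b⁻¹)
    (y : H) (hy : y ∈ B) (hy' : y ∉ B') (x : H) (hx : x ∈ B) (hx' : x ∈ B') : x ^ 2 = 1 := by
  have h1 : y * x * y⁻¹ = x⁻¹ := (hB' y hy').2 x hx'
  have h2 : y * x = x * y := setLike_mul_comm hy hx
  rw [h2, mul_inv_cancel_right] at h1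
  rw [pow_two]
  calc x * x = x * x⁻¹ := by rw [← h1]
    _ = 1 := mul_inv_cancel x

theorem comm_of_sq {H : Type*} [Group H] (h : ∀ x : H, x ^ 2 = 1) : IsMulCommutative H := by
  rw [isMulCommutative_iff]
  intro a b
  have ha := h a
  have hb := h b
  have hab := h (a * b)
  rw [pow_two] at ha hb hab
  have ha' : a⁻¹ = a := inv_eq_of_mul_eq_one_left ha
  have hb' : b⁻¹ = b := inv_eq_of_mul_eq_one_left hb
  have : (a * b)⁻¹ = a * b := inv_eq_of_mul_eq_one_left hab
  rw [mul_inv_rev, ha', hb'] at this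
  exact this.symm

theorem uniq {H : Type*} [Group H] (B B' : Subgroup H)
    (hBc : IsMulCommutative ↥B) (hB'c : IsMulCommutative ↥B')
    (hB : ∀ x : H, x ∉ B → x ^ 2 = 1 ∧ ∀ b ∈ B, x * b * x⁻¹ = b⁻¹)
    (hB' : ∀ x : H, x ∉ B' → x ^ 2 = 1 ∧ ∀ b ∈ B', x * b * x⁻¹ = b⁻¹)
    (hne : ¬ (IsMulCommutative H ∧ ∀ x : H, x ^ 2 = 1)) : B' = B := by
  by_contra hBB
  have hsq : ∀ x : H, x ^ 2 = 1 := by
    intro x
    by_cases hx : x ∈ B
    · by_cases hx' : x ∈ B'
      · have : (∃ y, y ∈ B ∧ y ∉ B') ∨ (∃ y, y ∈ B' ∧ y ∉ B) := by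
          by_contra hcon
          push Not at hcon
          exact hBB (le_antisymm hcon.2 hcon.1)
        rcases this with ⟨y, hy, hy'⟩ | ⟨y, hy, hy'⟩
        · exact sq_eq_one_aux B B' hBc hB' y hy hy' x hx hx'
        · exact sq_eq_one_aux B' B hB'c hB y hy hy' x hx' hx
      · exact (hB' x hx').1
    · exact (hB x hx).1
  exact hne ⟨comm_of_sq hsq, hsq⟩

/-- Structure of groups in which every element outside some proper subgroup has square 1. Let H be a finite group with a proper subgroup A such that every element outside A has square 1. Then H has an abelian normal subgroup B of index 2 such that every element outside B is an involution inverting every element of B; and if H is not an elementary abelian 2-group, B is the only abelian normal subgroup of index 2 with this property. -/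
theorem result {H : Type*} [Group H] [Finite H] (A : Subgroup H) (hA : A ≠ ⊤) (hD : ∀ x : H, x ∉ A → x ^ 2 = 1) :
    ∃ B : Subgroup H, B.Normal ∧ IsMulCommutative ↥B ∧ B.index = 2 ∧
      (∀ x : H, x ∉ B → x ^ 2 = 1 ∧ ∀ b ∈ B, x * b * x⁻¹ = b⁻¹) ∧
      (¬ (IsMulCommutative H ∧ ∀ x : H, x ^ 2 = 1) →
        ∀ B' : Subgroup H, B'.Normal → IsMulCommutative ↥B' → B'.index = 2 →
          (∀ x : H, x ∉ B' → x ^ 2 = 1 ∧ ∀ b ∈ B', x * b * x⁻¹ = b⁻¹) → B' = B) := by
  obtain ⟨x₀, hx₀⟩ : ∃ x₀ : H, x₀ ∉ A := by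
    by_contra hcon
    push Not at hcon
    exact hA (eq_top_iff.mpr fun x _ => hcon x)
  by_cases hsq : ∀ x : H, x ^ 2 = 1
  · -- elementary abelian case
    have hcomm : IsMulCommutative H := comm_of_sq hsq
    have hpg : IsPGroup 2 H := fun g => ⟨1, by simpa using hsq g⟩
    have : Fact (Nat.Prime 2) := ⟨Nat.prime_two⟩
    obtain ⟨n, hn⟩ := (IsPGroup.iff_card).mp hpg
    have hn0 : n ≠ 0 := by
      rintro rfl
      have h1 : Nat.card H = 1 := by simpa using hn
      have : Subsingleton H := (Nat.card_eq_one_iff_unique.mp h1).1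
      exact hx₀ (by rw [Subsingleton.elim x₀ 1]; exact one_mem A)
    obtain ⟨m, rfl⟩ : ∃ m, n = m + 1 := Nat.exists_eq_succ_of_ne_zero hn0
    obtain ⟨B, hBcard⟩ := Sylow.exists_subgroup_card_pow_prime (G := H) 2 (n := m)
      (by rw [hn]; exact pow_dvd_pow 2 (Nat.le_succ m))
    have hidx : B.index = 2 := by
      have := B.card_mul_index
      rw [hBcard, hn, pow_succ] at this
      exact Nat.eq_of_mul_eq_mul_left (pow_pos (by norm_num) m) this
    have hcommH : ∀ a b : H, a * b = b * a := isMulCommutative_iff.mp hcomm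
    refine ⟨B, Subgroup.normal_of_index_eq_two hidx, ?_, hidx, ?_, ?_⟩
    · rw [isMulCommutative_iff]
      intro a b
      exact Subtype.ext (hcommH a b)
    · intro x _
      refine ⟨hsq x, fun b _ => ?_⟩
      rw [hcommH x b, mul_inv_cancel_right]
      have := hsq b
      rw [pow_two] at this
      exact (inv_eq_of_mul_eq_one_left this).symm
    · intro hne
      exact absurd ⟨hcomm, hsq⟩ hne
  · -- A itself works
    push Not at hsq
    obtain ⟨x₁, hx₁⟩ := hsq
    have hx₁A : x₁ ∈ A := by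
      by_contra h
      exact hx₁ (hD x₁ h)
    have hinv : ∀ x : H, x ∉ A → ∀ a ∈ A, x * a * x⁻¹ = a⁻¹ := by
      intro x hx a ha
      have hxa : x * a ∉ A := fun h => hx (by simpa using mul_mem h (inv_mem ha))
      have h1 := hD x hx
      have h2 := hD (x * a) hxa
      rw [pow_two] at h1 h2
      have hxinv : x⁻¹ = x := inv_eq_of_mul_eq_one_left h1
      rw [hxinv]
      have : x * a * x * a = 1 := by simpa [mul_assoc] using h2
      exact eq_inv_of_mul_eq_one_left this
    have hprod : ∀ x y : H, x ∉ A → y ∉ A → x * y ∈ A := by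
      intro x y hx hy
      by_contra hxy
      have h1 := hinv (x * y) hxy x₁ hx₁A
      have h2 := hinv y hy x₁ hx₁A
      have h3 := hinv x hx x₁⁻¹ (inv_mem hx₁A)
      have : x * y * x₁ * (x * y)⁻¹ = x₁ := by
        calc x * y * x₁ * (x * y)⁻¹ = x * (y * x₁ * y⁻¹) * x⁻¹ := by group
          _ = x * x₁⁻¹ * x⁻¹ := by rw [h2]
          _ = x₁ := by rw [h3, inv_inv]
      rw [this] at h1
      apply hx₁
      rw [pow_two]
      calc x₁ * x₁ = x₁ * x₁⁻¹ := by rw [← h1]
        _ = 1 := mul_inv_cancel x₁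
    have hidx : A.index = 2 := by
      rw [Subgroup.index_eq_two_iff_exists_notMem_and]
      refine ⟨x₀, hx₀, fun b => ?_⟩
      by_cases hb : b ∈ A
      · exact Or.inr hb
      · exact Or.inl (hprod b x₀ hb hx₀)
    have hAc : IsMulCommutative ↥A := by
      rw [isMulCommutative_iff]
      rintro ⟨a, ha⟩ ⟨b, hb⟩
      apply Subtype.ext
      change a * b = b * a
      have h1 := hinv x₀ hx₀ (a * b) (mul_mem ha hb)
      have h2 := hinv x₀ hx₀ a ha
      have h3 := hinv x₀ hx₀ b hb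
      have : x₀ * (a * b) * x₀⁻¹ = (x₀ * a * x₀⁻¹) * (x₀ * b * x₀⁻¹) := by group
      rw [this, h2, h3, mul_inv_rev] at h1
      have := congrArg (fun t => t⁻¹) h1
      exact (by simpa using this : b * a = a * b).symm
    have hprop : ∀ x : H, x ∉ A → x ^ 2 = 1 ∧ ∀ b ∈ A, x * b * x⁻¹ = b⁻¹ :=
      fun x hx => ⟨hD x hx, hinv x hx⟩
    refine ⟨A, Subgroup.normal_of_index_eq_two hidx, hAc, hidx, hprop, ?_⟩
    intro hne B' _ hB'c _ hB'
    exact uniq A B' hAc hB'c hprop hB' hne

end Cfsg.Agent.S4420
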