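import Cfsg.Statements.S4422

set_option autoImplicit false
open Cfsg

namespace Cfsg.Agent.S4422

theorem prime_modEq_one (q e m : ℕ) (hq : 2 ≤ q) (he : 1 ≤ e)
    (hm : m ∣ q ^ e - 1) (hcop : ∀ i : ℕ, 1 ≤ i → i < e → Nat.Coprime m (q ^ i - 1))
    (p : ℕ) (hp : p.Prime) (hpm : p ∣ m) : p ≡ 1 [MOD e] := by
  have : Fact p.Prime := ⟨hp⟩
  have hqpos : ∀ i : ℕ, 1 ≤ q ^ i := fun i => Nat.one_le_pow _ _ (by omega)
  have key : ∀ i : ℕ, p ∣ q ^ i - 1 ↔ (q : ZMod p) ^ i = 1 := by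
    intro i
    rw [← (ZMod.natCast_eq_zero_iff (q ^ i - 1) p)]
    rw [Nat.cast_sub (hqpos i)]
    simp [sub_eq_zero]
  have h1 : (q : ZMod p) ^ e = 1 := (key e).mp (dvd_trans hpm hm)
  have hd : orderOf (q : ZMod p) ∣ e := orderOf_dvd_of_pow_eq_one h1
  have hdpos : 0 < orderOf (q : ZMod p) := Nat.pos_of_dvd_of_pos hd (by omega)
  have hde : orderOf (q : ZMod p) = e := by
    by_contra hne
    have hlt : orderOf (q : ZMod p) < e :=
      lt_of_le_of_ne (Nat.le_of_dvd (by omega) hd) hne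
    have hc := hcop _ hdpos hlt
    have hp1 : p ∣ q ^ orderOf (q : ZMod p) - 1 := (key _).mpr (pow_orderOf_eq_one _)
    have : p ∣ 1 := by
      have := Nat.dvd_gcd hpm hp1
      rwa [hc] at this
    exact hp.one_lt.ne' (Nat.dvd_one.mp this)
  have hq0 : (q : ZMod p) ≠ 0 := by
    intro h0
    rw [h0, zero_pow (by omega)] at h1
    exact zero_ne_one h1
  have hdvd : e ∣ p - 1 := hde ▸ ZMod.orderOf_dvd_card_sub_one hq0
  exact ((Nat.modEq_iff_dvd' hp.one_lt.le).mpr hdvd).symm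

theorem list_prod_modEq_one (e : ℕ) (l : List ℕ) (h : ∀ p ∈ l, p ≡ 1 [MOD e]) :
    l.prod ≡ 1 [MOD e] := by
  induction l with
  | nil => simp [Nat.ModEq]
  | cons a t ih =>
    rw [List.prod_cons]
    have h1 := h a (by simp)
    have h2 := ih (fun p hp => h p (by simp [hp]))
    simpa using h1.mul h2

/-- Primitive divisors of `q^e - 1` are congruent to 1 modulo `e`. Let `q ≥ 2` and `e ≥ 1` be natural numbers and let `m` be a divisor of `q^e - 1` that is coprime to `q^i - 1` for every `1 ≤ i < e` (so `m` divides the primitive part of `q^e - 1`, the largest such divisor). Then `m ≡ 1 (mod e)`. -/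
theorem result (q e m : ℕ) (hq : 2 ≤ q) (he : 1 ≤ e)
    (hm : m ∣ q ^ e - 1) (hcop : ∀ i : ℕ, 1 ≤ i → i < e → Nat.Coprime m (q ^ i - 1)) :
    m % e = 1 % e := by
  have hpos : 0 < q ^ e - 1 := by
    have : 2 ^ 1 ≤ q ^ e := le_trans (Nat.pow_le_pow_left hq 1) (Nat.pow_le_pow_right (by omega) he)
    omega
  have hm0 : m ≠ 0 := by
    rintro rfl
    rw [zero_dvd_iff] at hm
    omega
  have := list_prod_modEq_one e m.primeFactorsList (fun p hp =>
    prime_modEq_one q e m hq he hm hcop p (Nat.prime_of_mem_primeFactorsList hp)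
      (Nat.dvd_of_mem_primeFactorsList hp))
  rw [Nat.prod_primeFactorsList hm0] at this
  exact this

end Cfsg.Agent.S4422
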