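-- Statement S4477: Alperin-Feit-Thompson, 2-groups with involution count 1 mod 4.
import Mathlib
import Cfsg.Statements.S4477
import Cfsg.Agent.S4058

set_option autoImplicit false
open Cfsg

namespace Cfsg.Agent.S4477

open scoped ComplexConjugate
open Cfsg.Agent.S4058

section general

/-- Orbit-wise divisibility of an invariant weight sum. -/
theorem dvd_sum_of_orbit {Λ X : Type*} [Group Λ] [MulAction Λ X] [Fintype X]
    (w : X → ℤ) (hw : ∀ (l : Λ) (x : X), w (l • x) = w x) (N : ℤ)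
    (h : ∀ x : X, N ∣ (Nat.card (MulAction.orbit Λ x) : ℤ) * w x) : N ∣ ∑ x, w x := by
  classical
  have : Fintype (MulAction.orbitRel.Quotient Λ X) := Fintype.ofFinite _
  rw [← Finset.sum_fiberwise (Finset.univ)
    (fun x => (Quotient.mk'' x : MulAction.orbitRel.Quotient Λ X)) w]
  apply Finset.dvd_sum
  intro ω _
  obtain ⟨x₀, rfl⟩ := Quotient.exists_rep ω
  have hmem : ∀ a : X, (Quotient.mk'' a : MulAction.orbitRel.Quotient Λ X) = Quotient.mk _ x₀ ↔
      a ∈ MulAction.orbit Λ x₀ := by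
    intro a
    rw [Quotient.mk''_eq_mk, Quotient.eq, MulAction.orbitRel_apply]
  have h1 : ∀ a ∈ Finset.univ.filter
      (fun a => (Quotient.mk'' a : MulAction.orbitRel.Quotient Λ X) = Quotient.mk _ x₀),
      w a = w x₀ := by
    intro a ha
    rw [Finset.mem_filter, hmem] at ha
    obtain ⟨l, rfl⟩ := ha.2
    exact hw l x₀
  rw [Finset.sum_congr rfl h1, Finset.sum_const, nsmul_eq_mul]
  have h2 : (Finset.univ.filter
      (fun a => (Quotient.mk'' a : MulAction.orbitRel.Quotient Λ X) = Quotient.mk _ x₀)).card =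
      Nat.card (MulAction.orbit Λ x₀) := by
    rw [Nat.card_eq_fintype_card, ← Set.toFinset_card]
    congr 1
    ext a
    rw [Finset.mem_filter, Set.mem_toFinset, hmem]
    simp
  rw [h2]
  exact h x₀

end general

variable {G : Type*} [Group G]

lemma ind_ne_zero_iff [Fintype G] (χ : Cfsg.IrrCharacter G) :
    Cfsg.Agent.S4476.ind χ ≠ 0 ↔ ∀ g : G, ((χ : G → ℂ) g).im = 0 := by
  classical
  unfold Cfsg.Agent.S4476.ind
  by_cases hreal : ∀ g : G, ((χ : G → ℂ) g).im = 0
  · simp only [if_pos hreal]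
    constructor
    · intro _; exact hreal
    · intro _; split_ifs <;> norm_num
  · simp only [if_neg hreal]
    simp [hreal]

lemma ind_cases [Fintype G] (χ : Cfsg.IrrCharacter G) :
    Cfsg.Agent.S4476.ind χ = 0 ∨ Cfsg.Agent.S4476.ind χ = 1 ∨ Cfsg.Agent.S4476.ind χ = -1 := by
  classical
  unfold Cfsg.Agent.S4476.ind
  split_ifs <;> simp

lemma card_sq_eq [Finite G] :
    Nat.card {x : G // x ^ 2 = 1} = 1 + Nat.card {x : G // orderOf x = 2} := by
  classical
  have := Fintype.ofFinite G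
  have h := Cfsg.Agent.S4476.count_sq_one (G := G) _ rfl
  rw [Finset.sum_boole] at h
  have h2 : Nat.card {x : G // x ^ 2 = 1} = (Finset.univ.filter (fun u : G => u * u = 1)).card := by
    rw [Nat.card_eq_fintype_card, Fintype.card_subtype]
    simp_rw [pow_two]
  rw [h2]
  exact_mod_cast h

/-- separation of points of `G ⧸ Φ(G)` by linear characters -/
lemma exists_hom_ne_one [Finite G] (hG : IsPGroup 2 G) (q : G ⧸ frattini G) (hq : q ≠ 1) :
    ∃ l : (G ⧸ frattini G) →* ℂˣ, l q ≠ 1 := by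
  have : Fact (Nat.Prime 2) := ⟨Nat.prime_two⟩
  have hcomm : IsMulCommutative (G ⧸ frattini G) :=
    Subgroup.Normal.quotient_commutative_iff_commutator_le.mpr
      (Cfsg.Agent.Lib.Helper2.commutator_le_frattini hG)
  letI : CommGroup (G ⧸ frattini G) :=
    { (inferInstance : Group (G ⧸ frattini G)) with mul_comm := hcomm.is_comm.comm }
  exact CommGroup.exists_apply_ne_one_of_hasEnoughRootsOfUnity (G ⧸ frattini G) ℂ hq

/-- twist by a linear character of `G` -/
noncomputable def twL (μ : G →* ℂˣ) (χ : G → ℂ) : G → ℂ := fun g => ((μ g : ℂˣ) : ℂ) * χ g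

theorem twL_apply (μ : G →* ℂˣ) (χ : G → ℂ) (g : G) :
    twL μ χ g = ((μ g : ℂˣ) : ℂ) * χ g := rfl

theorem twL_irr [Finite G] (μ : G →* ℂˣ) {χ : G → ℂ} (hχ : Cfsg.IsIrrCharacter G χ) :
    Cfsg.IsIrrCharacter G (twL μ χ) := by
  have := Fintype.ofFinite G
  have h := Cfsg.Agent.Lib.Helper81.twist_irr
    (Cfsg.Agent.Lib.Helper15.isCharacter_of_hom μ) (by simp) hχ
  exact h

theorem charDegree_twL (μ : G →* ℂˣ) (χ : G → ℂ) :
    Cfsg.charDegree (twL μ χ) = Cfsg.charDegree χ := by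
  unfold Cfsg.charDegree
  rw [twL_apply]
  simp

/-- A function fixed by all twists by linear characters of `G ⧸ Φ(G)` vanishes off `Φ(G)`. -/
lemma vanish_off_frattini [Finite G] (hG : IsPGroup 2 G) (χ : G → ℂ)
    (hfix : ∀ l : (G ⧸ frattini G) →* ℂˣ, tw l χ = χ) (g : G) (hg : g ∉ frattini G) :
    χ g = 0 := by
  have hq : (QuotientGroup.mk g : G ⧸ frattini G) ≠ 1 :=
    fun h => hg ((QuotientGroup.eq_one_iff g).mp h)
  obtain ⟨l, hl⟩ := exists_hom_ne_one hG _ hq
  have h2 := congrFun (hfix l) g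
  rw [tw_apply] at h2
  have h3 : ((l (QuotientGroup.mk g) : ℂˣ) : ℂ) ≠ 1 := fun h => hl (Units.ext h)
  have h4 : (((l (QuotientGroup.mk g) : ℂˣ) : ℂ) - 1) * χ g = 0 := by
    rw [sub_mul, h2, one_mul, sub_self]
  rcases mul_eq_zero.mp h4 with h | h
  · exact absurd (sub_eq_zero.mp h) h3
  · exact h

/-- An irreducible character vanishing off a subgroup `K` has `|G| ≤ |K| χ(1)²`. -/
lemma card_le_of_vanish [Fintype G] (χ : Cfsg.IrrCharacter G) (K : Subgroup G)
    (hvan : ∀ g, g ∉ K → (χ : G → ℂ) g = 0) :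
    Nat.card G ≤ Nat.card K * (Cfsg.charDegree (χ : G → ℂ)) ^ 2 := by
  classical
  obtain ⟨Kf, hKf⟩ : ∃ Kf : Finset G, Kf = Finset.univ.filter (fun g => g ∈ K) := ⟨_, rfl⟩
  have hKcard : Kf.card = Nat.card K := by
    rw [hKf, Nat.card_eq_fintype_card, Fintype.card_subtype]
  have hmem : ∀ g, g ∉ Kf → (χ : G → ℂ) g = 0 := by
    intro g hg
    apply hvan
    intro hgK
    exact hg (by rw [hKf, Finset.mem_filter]; exact ⟨Finset.mem_univ _, hgK⟩)
  have hsum : ∑ g ∈ Kf, (χ : G → ℂ) g * conj ((χ : G → ℂ) g) = (Nat.card G : ℂ) := by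
    have h1 := Cfsg.Agent.Lib.Helper3.classInner_irr_self χ.2
    unfold Cfsg.classInner at h1
    have hne : (Nat.card G : ℂ) ≠ 0 := by exact_mod_cast Nat.card_pos.ne'
    have h2 : ∑ g : G, (χ : G → ℂ) g * conj ((χ : G → ℂ) g) = (Nat.card G : ℂ) := by
      have h3 := congrArg (fun z => (Nat.card G : ℂ) * z) h1
      simp only [mul_one] at h3
      rw [← mul_assoc, mul_inv_cancel₀ hne, one_mul] at h3
      exact h3
    rw [← h2]
    apply Finset.sum_subset (Finset.subset_univ Kf)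
    intro g _ hg
    rw [hmem g hg, zero_mul]
  have hd := (Cfsg.Agent.Lib.Helper74.irr_charDegree χ).2
  obtain ⟨n, ρ, hirr, hχ⟩ := χ.2
  have hn : (n : ℂ) = (Cfsg.charDegree (χ : G → ℂ) : ℂ) := by
    rw [← hd, ← hχ, Representation.char_one]; simp
  have hn' : n = Cfsg.charDegree (χ : G → ℂ) := Nat.cast_injective hn
  have hnorm : ∀ g, ‖(χ : G → ℂ) g‖ ≤ (Cfsg.charDegree (χ : G → ℂ) : ℝ) := by
    intro g
    have h := Cfsg.Agent.Lib.Helper3.norm_character_le ρ g
    rw [hχ] at h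
    rw [← hn']
    simpa using h
  have h3 : ((∑ g ∈ Kf, ‖(χ : G → ℂ) g‖ ^ 2 : ℝ) : ℂ) = ((Nat.card G : ℝ) : ℂ) := by
    rw [Complex.ofReal_sum]
    push_cast
    rw [← hsum]
    refine Finset.sum_congr rfl (fun g _ => ?_)
    rw [Complex.mul_conj, Complex.normSq_eq_norm_sq]
    push_cast
    rfl
  have h3' : (∑ g ∈ Kf, ‖(χ : G → ℂ) g‖ ^ 2 : ℝ) = (Nat.card G : ℝ) := Complex.ofReal_injective h3
  have h4 : (Nat.card G : ℝ) ≤ (Kf.card : ℝ) * ((Cfsg.charDegree (χ : G → ℂ) : ℝ)) ^ 2 := by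
    rw [← h3']
    calc ∑ g ∈ Kf, ‖(χ : G → ℂ) g‖ ^ 2
        ≤ ∑ g ∈ Kf, ((Cfsg.charDegree (χ : G → ℂ) : ℝ)) ^ 2 :=
          Finset.sum_le_sum (fun g _ => pow_le_pow_left₀ (norm_nonneg _) (hnorm g) 2)
      _ = (Kf.card : ℝ) * ((Cfsg.charDegree (χ : G → ℂ) : ℝ)) ^ 2 := by
          rw [Finset.sum_const, nsmul_eq_mul]
  rw [← hKcard]
  exact_mod_cast h4

/-- the set of characters counted modulo 2 -/
def InF [Fintype G] (χ : Cfsg.IrrCharacter G) : Prop :=
  Cfsg.charDegree (χ : G → ℂ) = 2 ∧ Cfsg.Agent.S4476.ind χ ≠ 0 ∧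
    ∀ l : (G ⧸ frattini G) →* ℂˣ, tw l (χ : G → ℂ) = (χ : G → ℂ)

lemma odd_card_F [Fintype G] [Fintype (Cfsg.IrrCharacter G)] (hG : IsPGroup 2 G)
    (hcardQ : Nat.card (G ⧸ frattini G) = 4)
    (ht : Nat.card {x : G // orderOf x = 2} % 4 = 1) :
    Odd (Nat.card {χ : Cfsg.IrrCharacter G // InF χ}) := by
  classical
  have : Fact (Nat.Prime 2) := ⟨Nat.prime_two⟩
  let _ := twAction (G := G)
  have hfinΛ : Finite ((G ⧸ frattini G) →* ℂˣ) := Cfsg.Agent.Lib.Helper79.finite_monoidHom_units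
  have hΛcard : Nat.card ((G ⧸ frattini G) →* ℂˣ) = 4 := by
    rw [Cfsg.Agent.Lib.Helper79.card_monoidHom_units]
    have hcomm : IsMulCommutative (G ⧸ frattini G) :=
      Subgroup.Normal.quotient_commutative_iff_commutator_le.mpr
        (Cfsg.Agent.Lib.Helper2.commutator_le_frattini hG)
    have hc : commutator (G ⧸ frattini G) = ⊥ := by
      rw [commutator_def, eq_bot_iff, Subgroup.commutator_le]
      intro a _ b _
      rw [Subgroup.mem_bot, commutatorElement_eq_one_iff_mul_comm]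
      exact hcomm.is_comm.comm a b
    rw [hc, Subgroup.index_bot, hcardQ]
  obtain ⟨m, hm⟩ := IsPGroup.iff_card.mp hG
  have hcount : (Nat.card {x : G // x ^ 2 = 1} : ℤ) =
      ∑ χ : Cfsg.IrrCharacter G, Cfsg.Agent.S4476.ind χ * (Cfsg.charDegree (χ : G → ℂ) : ℤ) := by
    apply Int.cast_injective (α := ℂ)
    push_cast
    have h1 := Cfsg.Agent.S0159.result (G := G)
    rw [finsum_eq_sum_of_fintype] at h1
    have h2 : Nat.card {x : G // x ^ 2 = 1} = Nat.card {s : G // s * s = 1} := by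
      simp_rw [pow_two]
    rw [h2, h1]
    refine Finset.sum_congr rfl (fun χ _ => ?_)
    rw [Cfsg.Agent.S4476.ind_cast, (Cfsg.Agent.Lib.Helper74.irr_charDegree χ).2]
  -- fixedness
  obtain ⟨fx, hfx⟩ : ∃ fx : Cfsg.IrrCharacter G → Prop, ∀ χ : Cfsg.IrrCharacter G, fx χ ↔
      ∀ l : (G ⧸ frattini G) →* ℂˣ, tw l (χ : G → ℂ) = (χ : G → ℂ) :=
    ⟨fun χ => ∀ l : (G ⧸ frattini G) →* ℂˣ, tw l (χ : G → ℂ) = (χ : G → ℂ), fun χ => Iff.rfl⟩
  have hsm : ∀ (l : (G ⧸ frattini G) →* ℂˣ) (χ : Cfsg.IrrCharacter G),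
      ((l • χ : Cfsg.IrrCharacter G) : G → ℂ) = tw l (χ : G → ℂ) := fun l χ => rfl
  have hfx_smul : ∀ (l : (G ⧸ frattini G) →* ℂˣ) (χ : Cfsg.IrrCharacter G),
      fx (l • χ) ↔ fx χ := by
    intro l χ
    rw [hfx, hfx]
    constructor
    · intro h l'
      funext g
      have h1 := congrFun (h l') g
      rw [hsm, tw_apply, tw_apply] at h1
      rw [tw_apply]
      have hne : ((l (QuotientGroup.mk g) : ℂˣ) : ℂ) ≠ 0 := Units.ne_zero _
      apply mul_left_cancel₀ hne
      linear_combination h1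
    · intro h
      have h1 : l • χ = χ := Subtype.ext (by rw [hsm]; exact h l)
      rw [h1]
      exact h
  obtain ⟨w₁, hw₁⟩ : ∃ w₁ : Cfsg.IrrCharacter G → ℤ, ∀ χ : Cfsg.IrrCharacter G, w₁ χ =
      if (Cfsg.charDegree (χ : G → ℂ) = 2 ∧ fx χ) then 0
      else Cfsg.Agent.S4476.ind χ * (Cfsg.charDegree (χ : G → ℂ) : ℤ) :=
    ⟨fun χ => if (Cfsg.charDegree (χ : G → ℂ) = 2 ∧ fx χ) then 0
      else Cfsg.Agent.S4476.ind χ * (Cfsg.charDegree (χ : G → ℂ) : ℤ), fun χ => rfl⟩
  have hdeg_smul : ∀ (l : (G ⧸ frattini G) →* ℂˣ) (χ : Cfsg.IrrCharacter G),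
      Cfsg.charDegree ((l • χ : Cfsg.IrrCharacter G) : G → ℂ) = Cfsg.charDegree (χ : G → ℂ) :=
    fun l χ => charDegree_smul l χ.1
  have hind_smul : ∀ (l : (G ⧸ frattini G) →* ℂˣ) (χ : Cfsg.IrrCharacter G),
      Cfsg.Agent.S4476.ind (l • χ) = Cfsg.Agent.S4476.ind χ := fun l χ => ind_smul hG l χ
  have hw₁inv : ∀ (l : (G ⧸ frattini G) →* ℂˣ) (χ : Cfsg.IrrCharacter G), w₁ (l • χ) = w₁ χ := by
    intro l χ
    rw [hw₁, hw₁]
    simp only [hfx_smul, hdeg_smul, hind_smul]
  have h4 : (4 : ℤ) ∣ ∑ χ, w₁ χ := by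
    apply dvd_sum_of_orbit (Λ := (G ⧸ frattini G) →* ℂˣ) w₁ hw₁inv
    intro χ
    have hn : Cfsg.charDegree (χ : G → ℂ) ∣ 2 ^ m := by
      rw [← hm]
      exact (Cfsg.Agent.Lib.Helper79.irr_charDegree χ.2).2.2
    obtain ⟨j, hjm, hj⟩ := (Nat.dvd_prime_pow Nat.prime_two).mp hn
    have horb : Nat.card (MulAction.orbit ((G ⧸ frattini G) →* ℂˣ) χ) *
        Nat.card (MulAction.stabilizer ((G ⧸ frattini G) →* ℂˣ) χ) = 4 := by
      rw [← hΛcard]
      have := Fintype.ofFinite ((G ⧸ frattini G) →* ℂˣ)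
      have := Fintype.ofFinite (MulAction.orbit ((G ⧸ frattini G) →* ℂˣ) χ)
      have := Fintype.ofFinite (MulAction.stabilizer ((G ⧸ frattini G) →* ℂˣ) χ)
      rw [Nat.card_eq_fintype_card, Nat.card_eq_fintype_card, Nat.card_eq_fintype_card]
      exact MulAction.card_orbit_mul_card_stabilizer_eq_card_group _ χ
    by_cases hc : Cfsg.charDegree (χ : G → ℂ) = 2 ∧ fx χ
    · rw [hw₁]
      simp only [if_pos hc, mul_zero, dvd_zero]
    · have hwχ : w₁ χ = Cfsg.Agent.S4476.ind χ * (Cfsg.charDegree (χ : G → ℂ) : ℤ) := by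
        rw [hw₁]
        simp only [if_neg hc]
      rw [hwχ]
      rcases Nat.lt_or_ge j 1 with hj0 | hj1
      · have hdeg : Cfsg.charDegree (χ : G → ℂ) = 1 := by
          rw [hj]; interval_cases j; rfl
        have hst := card_stabilizer_le χ
        rw [hdeg] at hst
        have hst1 : Nat.card (MulAction.stabilizer ((G ⧸ frattini G) →* ℂˣ) χ) = 1 :=
          le_antisymm (by simpa using hst) Nat.card_pos
        rw [hst1, mul_one] at horb
        rw [horb]
        exact Dvd.intro _ rfl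
      · rcases Nat.lt_or_ge j 2 with hj1' | hj2
        · have hdeg : Cfsg.charDegree (χ : G → ℂ) = 2 := by
            have : j = 1 := by omega
            rw [hj, this]; rfl
          have hnf : ¬ fx χ := fun h => hc ⟨hdeg, h⟩
          have horb2 : 2 ∣ Nat.card (MulAction.orbit ((G ⧸ frattini G) →* ℂˣ) χ) := by
            have hdvd : Nat.card (MulAction.orbit ((G ⧸ frattini G) →* ℂˣ) χ) ∣ 2 ^ 2 :=
              ⟨_, horb.symm⟩
            obtain ⟨i, hi2, hi⟩ := (Nat.dvd_prime_pow Nat.prime_two).mp hdvd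
            rcases Nat.eq_zero_or_pos i with h0 | hpos
            · exfalso
              apply hnf
              rw [hfx]
              intro l
              have hsub : Subsingleton (MulAction.orbit ((G ⧸ frattini G) →* ℂˣ) χ) :=
                (Nat.card_eq_one_iff_unique.mp (by rw [hi, h0]; rfl)).1
              have hmem : l • χ ∈ MulAction.orbit ((G ⧸ frattini G) →* ℂˣ) χ :=
                MulAction.mem_orbit χ l
              have hmem0 : χ ∈ MulAction.orbit ((G ⧸ frattini G) →* ℂˣ) χ :=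
                MulAction.mem_orbit_self χ
              have h5 := congrArg Subtype.val (Subsingleton.elim
                (⟨l • χ, hmem⟩ : MulAction.orbit ((G ⧸ frattini G) →* ℂˣ) χ) ⟨χ, hmem0⟩)
              exact congrArg Subtype.val h5
            · rw [hi]
              exact dvd_pow_self 2 (by omega)
          rw [hdeg]
          obtain ⟨c, hc'⟩ := horb2
          rw [hc']
          push_cast
          exact ⟨c * Cfsg.Agent.S4476.ind χ, by ring⟩
        · have h4d : (4 : ℤ) ∣ (Cfsg.charDegree (χ : G → ℂ) : ℤ) := by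
            rw [hj]
            push_cast
            have : (4 : ℤ) = 2 ^ 2 := by norm_num
            rw [this]
            exact pow_dvd_pow 2 hj2
          exact Dvd.dvd.mul_left (Dvd.dvd.mul_left h4d _) _
  have hsplit : ∑ χ : Cfsg.IrrCharacter G,
        Cfsg.Agent.S4476.ind χ * (Cfsg.charDegree (χ : G → ℂ) : ℤ) =
      ∑ χ, w₁ χ + ∑ χ : Cfsg.IrrCharacter G,
        (if Cfsg.charDegree (χ : G → ℂ) = 2 ∧ fx χ then Cfsg.Agent.S4476.ind χ * 2 else 0) := by
    rw [← Finset.sum_add_distrib]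
    refine Finset.sum_congr rfl (fun χ _ => ?_)
    rw [hw₁]
    by_cases hc : Cfsg.charDegree (χ : G → ℂ) = 2 ∧ fx χ
    · simp only [if_pos hc, zero_add]
      rw [hc.1]; rfl
    · simp only [if_neg hc, add_zero]
  have hterm : ∀ χ : Cfsg.IrrCharacter G,
      (if Cfsg.charDegree (χ : G → ℂ) = 2 ∧ fx χ then Cfsg.Agent.S4476.ind χ * 2 else 0) =
      2 * (if InF χ then (1 : ℤ) else 0) +
        4 * (if (Cfsg.charDegree (χ : G → ℂ) = 2 ∧ fx χ) ∧ Cfsg.Agent.S4476.ind χ = -1
          then (-1 : ℤ) else 0) := by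
    intro χ
    have hInF : InF χ ↔ (Cfsg.charDegree (χ : G → ℂ) = 2 ∧ fx χ) ∧ Cfsg.Agent.S4476.ind χ ≠ 0 := by
      unfold InF
      rw [hfx]
      tauto
    by_cases hc : Cfsg.charDegree (χ : G → ℂ) = 2 ∧ fx χ
    · rcases ind_cases χ with h0 | h1 | h1
      · have hn : ¬ InF χ := fun h => (hInF.mp h).2 h0
        rw [if_pos hc, if_neg hn, if_neg (by rw [h0]; simp), h0]
        simp
      · have hy : InF χ := hInF.mpr ⟨hc, by rw [h1]; norm_num⟩
        rw [if_pos hc, if_pos hy, if_neg (by rw [h1]; simp), h1]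
        simp
      · have hy : InF χ := hInF.mpr ⟨hc, by rw [h1]; norm_num⟩
        rw [if_pos hc, if_pos hy, if_pos ⟨hc, h1⟩, h1]
        norm_num
    · have hn : ¬ InF χ := fun h => hc (hInF.mp h).1
      rw [if_neg hc, if_neg hn, if_neg (fun h => hc h.1)]
      simp
  have hFcard : (Nat.card {χ : Cfsg.IrrCharacter G // InF χ} : ℤ) =
      ∑ χ : Cfsg.IrrCharacter G, (if InF χ then (1 : ℤ) else 0) := by
    rw [Finset.sum_boole, Nat.card_eq_fintype_card, Fintype.card_subtype]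
  have h2sum : ∑ χ : Cfsg.IrrCharacter G,
        (if Cfsg.charDegree (χ : G → ℂ) = 2 ∧ fx χ then Cfsg.Agent.S4476.ind χ * 2 else 0) =
      2 * (Nat.card {χ : Cfsg.IrrCharacter G // InF χ} : ℤ) +
        4 * ∑ χ : Cfsg.IrrCharacter G,
          (if (Cfsg.charDegree (χ : G → ℂ) = 2 ∧ fx χ) ∧ Cfsg.Agent.S4476.ind χ = -1
            then (-1 : ℤ) else 0) := by
    rw [hFcard, Finset.mul_sum, Finset.mul_sum, ← Finset.sum_add_distrib]
    exact Finset.sum_congr rfl (fun χ _ => hterm χ)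
  rw [card_sq_eq, hsplit, h2sum] at hcount
  obtain ⟨e, he⟩ := h4
  rw [he] at hcount
  obtain ⟨c, hc⟩ : ∃ c : ℤ, c = ∑ χ : Cfsg.IrrCharacter G,
          (if (Cfsg.charDegree (χ : G → ℂ) = 2 ∧ fx χ) ∧ Cfsg.Agent.S4476.ind χ = -1
            then (-1 : ℤ) else 0) := ⟨_, rfl⟩
  rw [← hc] at hcount
  rw [Nat.odd_iff]
  push_cast at hcount
  omega

lemma even_card_F [Fintype G] [Fintype (Cfsg.IrrCharacter G)] (hG : IsPGroup 2 G)
    (hcardQ : Nat.card (G ⧸ frattini G) = 4) (hne : (commutator G).index ≠ 4) :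
    Even (Nat.card {χ : Cfsg.IrrCharacter G // InF χ}) := by
  classical
  have : Fact (Nat.Prime 2) := ⟨Nat.prime_two⟩
  have hfinΛ : Finite ((G ⧸ frattini G) →* ℂˣ) := Cfsg.Agent.Lib.Helper79.finite_monoidHom_units
  have hfinL : Finite (G →* ℂˣ) := Cfsg.Agent.Lib.Helper79.finite_monoidHom_units
  have hΛcard : Nat.card ((G ⧸ frattini G) →* ℂˣ) = 4 := by
    rw [Cfsg.Agent.Lib.Helper79.card_monoidHom_units]
    have hcomm : IsMulCommutative (G ⧸ frattini G) :=
      Subgroup.Normal.quotient_commutative_iff_commutator_le.mpr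
        (Cfsg.Agent.Lib.Helper2.commutator_le_frattini hG)
    have hc : commutator (G ⧸ frattini G) = ⊥ := by
      rw [commutator_def, eq_bot_iff, Subgroup.commutator_le]
      intro a _ b _
      rw [Subgroup.mem_bot, commutatorElement_eq_one_iff_mul_comm]
      exact hcomm.is_comm.comm a b
    rw [hc, Subgroup.index_bot, hcardQ]
  obtain ⟨m, hm⟩ := IsPGroup.iff_card.mp hG
  -- the embedding of the linear characters of `G ⧸ Φ(G)`
  obtain ⟨φ, hφ⟩ : ∃ φ : ((G ⧸ frattini G) →* ℂˣ) →* (G →* ℂˣ),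
      ∀ (l : (G ⧸ frattini G) →* ℂˣ) (g : G), φ l g = l (QuotientGroup.mk g) :=
    ⟨MonoidHom.compHom' (QuotientGroup.mk' (frattini G)), fun l g => rfl⟩
  have hinj : Function.Injective φ := by
    intro l l' h
    apply MonoidHom.ext
    intro q
    obtain ⟨g, rfl⟩ := QuotientGroup.mk_surjective q
    rw [← hφ, ← hφ, h]
  have hrange : Nat.card φ.range = 4 := by
    rw [← hΛcard]
    exact Nat.card_congr (MonoidHom.ofInjective hinj).toEquiv.symm
  have hLcard : Nat.card (G →* ℂˣ) = (commutator G).index :=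
    Cfsg.Agent.Lib.Helper79.card_monoidHom_units
  have hLdvd : Nat.card (G →* ℂˣ) ∣ 2 ^ m := by
    rw [hLcard, ← hm]
    exact Subgroup.index_dvd_card _
  obtain ⟨a, ham, ha⟩ := (Nat.dvd_prime_pow Nat.prime_two).mp hLdvd
  have hidx : 4 * φ.range.index = 2 ^ a := by
    rw [← hrange, ← ha]
    exact Subgroup.card_mul_index _
  have ha2 : 3 ≤ a := by
    by_contra hcon
    have ha' : a = 0 ∨ a = 1 ∨ a = 2 := by omega
    rcases ha' with h | h | h
    · rw [h] at hidx; omega
    · rw [h] at hidx; omega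
    · apply hne
      rw [← hLcard, ha, h]; rfl
  haveI hnormal : φ.range.Normal :=
    ⟨fun n hn g => by
      have h : g * n * g⁻¹ = n := by
        apply MonoidHom.ext
        intro x
        rw [MonoidHom.mul_apply, MonoidHom.mul_apply, MonoidHom.inv_apply, mul_inv_cancel_comm]
      rw [h]; exact hn⟩
  have h2dvd : 2 ∣ Nat.card ((G →* ℂˣ) ⧸ φ.range) := by
    rw [← Subgroup.index_eq_card]
    have h3 : φ.range.index = 2 ^ (a - 2) := by
      have h4 : (2 : ℕ) ^ a = 4 * 2 ^ (a - 2) := by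
        have : a = 2 + (a - 2) := by omega
        conv_lhs => rw [this, pow_add]
        norm_num
      rw [h4] at hidx
      exact Nat.eq_of_mul_eq_mul_left (by norm_num) hidx
    rw [h3]
    exact dvd_pow_self 2 (by omega)
  obtain ⟨q, hq⟩ := exists_prime_orderOf_dvd_card' 2 h2dvd
  obtain ⟨μ, rfl⟩ := QuotientGroup.mk_surjective q
  have hμ1 : μ ∉ φ.range := by
    intro h
    have h1 : (QuotientGroup.mk μ : (G →* ℂˣ) ⧸ φ.range) = 1 := (QuotientGroup.eq_one_iff μ).mpr h
    rw [h1, orderOf_one] at hq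
    norm_num at hq
  have hμ2 : μ * μ ∈ φ.range := by
    have h1 : (QuotientGroup.mk μ : (G →* ℂˣ) ⧸ φ.range) ^ 2 = 1 := by
      rw [← hq]; exact pow_orderOf_eq_one _
    rw [← QuotientGroup.mk_pow, QuotientGroup.eq_one_iff, pow_two] at h1
    exact h1
  obtain ⟨l₀, hl₀⟩ := hμ2
  have hl₀' : ∀ g : G, ((l₀ (QuotientGroup.mk g) : ℂˣ) : ℂ) = ((μ g : ℂˣ) : ℂ) * ((μ g : ℂˣ) : ℂ) := by
    intro g
    rw [← hφ, hl₀]
    simp
  -- the involution
  obtain ⟨σ, hσ⟩ : ∃ σ : Cfsg.IrrCharacter G → Cfsg.IrrCharacter G,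
      ∀ χ : Cfsg.IrrCharacter G, ((σ χ : Cfsg.IrrCharacter G) : G → ℂ) = twL μ (χ : G → ℂ) :=
    ⟨fun χ => ⟨twL μ χ.1, twL_irr μ χ.2⟩, fun χ => rfl⟩
  have hcardF : Nat.card {χ : Cfsg.IrrCharacter G // InF χ} =
      (Finset.univ.filter (fun χ : Cfsg.IrrCharacter G => InF χ)).card := by
    rw [Nat.card_eq_fintype_card, Fintype.card_subtype]
  rw [hcardF, ← ZMod.natCast_eq_zero_iff_even]
  have hmemF : ∀ χ : Cfsg.IrrCharacter G,
      χ ∈ Finset.univ.filter (fun χ : Cfsg.IrrCharacter G => InF χ) ↔ InF χ := by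
    intro χ
    rw [Finset.mem_filter]
    exact ⟨fun h => h.2, fun h => ⟨Finset.mem_univ _, h⟩⟩
  have hsum0 : ∑ χ ∈ Finset.univ.filter (fun χ : Cfsg.IrrCharacter G => InF χ), (1 : ZMod 2) = 0 := by
    apply Finset.sum_involution (fun χ _ => σ χ)
    · intro χ _
      show (1 : ZMod 2) + 1 = 0
      rfl
    · intro χ hχ _ hfixed
      rw [hmemF] at hχ
      obtain ⟨hdeg, hind, hfix⟩ := hχ
      -- `χ` vanishes off `Φ(G) ⊓ ker μ`
      have hvan : ∀ g, g ∉ frattini G ⊓ μ.ker → (χ : G → ℂ) g = 0 := by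
        intro g hg
        by_cases hgΦ : g ∈ frattini G
        · have hgμ : μ g ≠ 1 := fun h => hg ⟨hgΦ, MonoidHom.mem_ker.mpr h⟩
          have h2 := congrFun (congrArg Subtype.val hfixed) g
          rw [hσ, twL_apply] at h2
          have h3 : ((μ g : ℂˣ) : ℂ) ≠ 1 := fun h => hgμ (Units.ext h)
          have h4 : (((μ g : ℂˣ) : ℂ) - 1) * (χ : G → ℂ) g = 0 := by
            rw [sub_mul, h2, one_mul, sub_self]
          rcases mul_eq_zero.mp h4 with h | h
          · exact absurd (sub_eq_zero.mp h) h3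
          · exact h
        · exact vanish_off_frattini hG _ hfix g hgΦ
      have hle := card_le_of_vanish χ _ hvan
      rw [hdeg] at hle
      have hGΦ : Nat.card (frattini G) * 4 = Nat.card G := by
        rw [← hcardQ, ← Subgroup.index_eq_card]
        exact Subgroup.card_mul_index _
      have hle2 : Nat.card (frattini G) ≤ Nat.card (frattini G ⊓ μ.ker : Subgroup G) := by
        rw [← hGΦ] at hle
        omega
      have heq : (frattini G ⊓ μ.ker : Subgroup G) = frattini G :=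
        Subgroup.eq_of_le_of_card_ge inf_le_left hle2
      have hker : frattini G ≤ μ.ker := by
        rw [← heq]; exact inf_le_right
      apply hμ1
      refine ⟨QuotientGroup.lift (frattini G) μ hker, ?_⟩
      apply MonoidHom.ext
      intro g
      rw [hφ]
      exact QuotientGroup.lift_mk' _ hker g
    · intro χ hχ
      rw [hmemF] at hχ ⊢
      obtain ⟨hdeg, hind, hfix⟩ := hχ
      refine ⟨?_, ?_, ?_⟩
      · rw [hσ, charDegree_twL]
        exact hdeg
      · rw [ind_ne_zero_iff] at hind ⊢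
        intro g
        rw [hσ, twL_apply]
        by_cases hgΦ : g ∈ frattini G
        · have h1 : ((μ g : ℂˣ) : ℂ) * ((μ g : ℂˣ) : ℂ) = 1 := by
            rw [← hl₀', (QuotientGroup.eq_one_iff g).mpr hgΦ, map_one]
            rfl
          have h2 : (((μ g : ℂˣ) : ℂ) - 1) * (((μ g : ℂˣ) : ℂ) + 1) = 0 := by
            linear_combination h1
          rcases mul_eq_zero.mp h2 with h | h
          · rw [sub_eq_zero.mp h, one_mul]
            exact hind g
          · rw [eq_neg_of_add_eq_zero_left h]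
            simp [hind g]
        · rw [vanish_off_frattini hG _ hfix g hgΦ, mul_zero]
          rfl
      · intro l
        rw [hσ]
        funext g
        rw [tw_apply, twL_apply]
        have h1 := congrFun (hfix l) g
        rw [tw_apply] at h1
        linear_combination ((μ g : ℂˣ) : ℂ) * h1
    · intro χ hχ
      rw [hmemF] at hχ
      obtain ⟨hdeg, hind, hfix⟩ := hχ
      apply Subtype.ext
      rw [hσ, hσ]
      funext g
      rw [twL_apply, twL_apply, ← mul_assoc, ← hl₀']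
      have h1 := congrFun (hfix l₀) g
      rw [tw_apply] at h1
      exact h1
  rw [Finset.sum_const, nsmul_eq_mul, mul_one] at hsum0
  exact hsum0

theorem result {G : Type*} [Group G] [Finite G] (hG : IsPGroup 2 G) (ht : Nat.card {x : G // orderOf x = 2} % 4 = 1) : IsCyclic G ∨ (commutator G).index = 4 := by
  classical
  have : Fact (Nat.Prime 2) := ⟨Nat.prime_two⟩
  have := Fintype.ofFinite G
  have := Fintype.ofFinite (Cfsg.IrrCharacter G)
  obtain ⟨m, hm⟩ := IsPGroup.iff_card.mp hG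
  have hdvdQ : Nat.card (G ⧸ frattini G) ∣ 2 ^ m := by
    rw [← hm, ← Subgroup.index_eq_card]
    exact Subgroup.index_dvd_card _
  obtain ⟨d, hdm, hd⟩ := (Nat.dvd_prime_pow Nat.prime_two).mp hdvdQ
  have hd2 : d ≤ 2 := by
    by_contra hcon
    have h8 : 2 ^ (2 * 1 + 1) ≤ Nat.card (G ⧸ frattini G) := by
      rw [hd]
      exact Nat.pow_le_pow_right (by norm_num) (by omega)
    have h := Cfsg.Agent.S4058.result hG 1 h8
    rw [card_sq_eq] at h
    have h4 : 4 ∣ 1 + Nat.card {x : G // orderOf x = 2} := h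
    omega
  rcases Nat.lt_or_ge d 2 with hlt | hge
  · left
    have hcyc : IsCyclic (G ⧸ frattini G) := by
      rcases Nat.lt_or_ge d 1 with h0 | h1
      · have h1 : Nat.card (G ⧸ frattini G) = 1 := by
          rw [hd]; interval_cases d; rfl
        have hsub : Subsingleton (G ⧸ frattini G) := (Nat.card_eq_one_iff_unique.mp h1).1
        infer_instance
      · have h2 : Nat.card (G ⧸ frattini G) = 2 := by
          have : d = 1 := by omega
          rw [hd, this]; rfl
        exact isCyclic_of_prime_card h2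
    obtain ⟨q, hq⟩ := hcyc.exists_generator
    obtain ⟨g, rfl⟩ := QuotientGroup.mk_surjective q
    have htop : Subgroup.zpowers g ⊔ frattini G = ⊤ := by
      rw [eq_top_iff]
      intro x _
      obtain ⟨k, hk⟩ := Subgroup.mem_zpowers_iff.mp (hq (QuotientGroup.mk x))
      have h1 : (g ^ k)⁻¹ * x ∈ frattini G := by
        rw [← QuotientGroup.eq, QuotientGroup.mk_zpow]
        exact hk
      have h2 : x = g ^ k * ((g ^ k)⁻¹ * x) := by group
      rw [h2]
      exact Subgroup.mul_mem_sup (Subgroup.zpow_mem_zpowers g k) h1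
    have h3 := frattini_nongenerating htop
    exact isCyclic_iff_exists_zpowers_eq_top.mpr ⟨g, h3⟩
  · right
    have hd' : d = 2 := by omega
    have hcardQ : Nat.card (G ⧸ frattini G) = 4 := by rw [hd, hd']; rfl
    by_contra hne
    have h1 := odd_card_F hG hcardQ ht
    have h2 := even_card_F hG hcardQ hne
    exact (Nat.not_even_iff_odd.mpr h1) h2

end Cfsg.Agent.S4477
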