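-- Statement S4480: the refined order formula (Klein four Sylow 2-subgroups, sign product -1).
import Mathlib
import Cfsg.Statements.S4480
import Cfsg.Agent.S4479
import Cfsg.Agent.Lib.Helper79.RealOdd
import Cfsg.Agent.Lib.Helper81.OddIndex
import Cfsg.Agent.Lib.Helper16.Klein
import Cfsg.Agent.Lib.Helper74.CharOps
import Cfsg.Agent.Lib.Helper74.FrobSchur

set_option autoImplicit false
open Cfsg
open scoped ComplexConjugate

namespace Cfsg.Agent.S4480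

open Cfsg.Agent.Lib.Helper52 Cfsg.Agent.Lib.Helper74

/-- An irreducible character with Frobenius-Schur indicator `-1` has even degree. -/
theorem even_degree_of_fs_neg {G : Type*} [Group G] [Fintype G] (χ : Cfsg.IrrCharacter G)
    (h : (Nat.card G : ℂ)⁻¹ * ∑ s : G, (χ : G → ℂ) (s * s) = -1) :
    Even (Cfsg.charDegree (χ : G → ℂ)) := by
  classical
  obtain ⟨n, ρ, hirr, hχ⟩ := χ.2
  have := hirr
  have hreal : ∀ g, (ρ.character g).im = 0 := by
    by_contra hcon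
    push Not at hcon
    obtain ⟨g, hg⟩ := hcon
    have h0 := fs_not_real ρ ⟨g, hg⟩
    rw [hχ, h] at h0
    norm_num at h0
  obtain ⟨hfr, htr, -⟩ := fs_real ρ (Pi.basisFun ℂ (Fin n)) hreal
  rw [hχ, h] at htr
  obtain ⟨M₀, hM₀ne, -⟩ := finrank_eq_one_iff'.1 hfr
  have hM0 : (M₀ : Matrix (Fin n) (Fin n) ℂ) ≠ 0 := fun h0 => hM₀ne (Subtype.ext h0)
  have hunit := isUnit_of_mem_invForms ρ (Pi.basisFun ℂ (Fin n)) M₀ M₀.2 hM0
  have hdet : (M₀ : Matrix (Fin n) (Fin n) ℂ).det ≠ 0 :=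
    ((Matrix.isUnit_iff_isUnit_det _).1 hunit).ne_zero
  have h1 := congrArg Matrix.det (htr M₀ M₀.2)
  rw [Matrix.det_transpose, Matrix.det_smul, Fintype.card_fin] at h1
  have h2 : ((-1 : ℂ)) ^ n = 1 := by
    have : (1 - (-1 : ℂ) ^ n) * (M₀ : Matrix (Fin n) (Fin n) ℂ).det = 0 := by
      linear_combination h1
    rcases mul_eq_zero.1 this with h3 | h3
    · linear_combination -h3
    · exact absurd h3 hdet
  have hn : Even n := by
    by_contra hodd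
    rw [Nat.not_even_iff_odd] at hodd
    rw [hodd.neg_one_pow] at h2
    norm_num at h2
  have hdeg : Cfsg.charDegree (χ : G → ℂ) = n := by
    rw [← hχ]
    unfold Cfsg.charDegree
    rw [Representation.char_one]
    simp
  rw [hdeg]
  exact hn

/-- The arithmetic behind the refined order formula. -/
theorem arith (n cJ cP idx x q : ℕ) (hn : cJ * idx = n) (hk : cP ∣ cJ) (hcP : 0 < cP)
    (hcJ : 0 < cJ) (hq : q = 2 * x + 1) (h4 : 4 ∣ q + 1)
    (hN : n * (x + 1) ^ 2 * cP ^ 2 = 4 * x * q * cJ ^ 3) :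
    ∃ m : ℕ, 4 * cJ = m * cP * (q + 1) ∧ 8 * n = m ^ 3 * cP * (q ^ 3 - q) := by
  obtain ⟨r, hr⟩ := h4
  have hx : x + 1 = 2 * r := by omega
  obtain ⟨k, hk⟩ := hk
  have hrpos : 0 < r := by omega
  have h1 : idx * r ^ 2 = x * q * k ^ 2 := by
    have h2 : cJ * cP ^ 2 * 4 * (idx * r ^ 2) = cJ * cP ^ 2 * 4 * (x * q * k ^ 2) := by
      have h3 : n * (x + 1) ^ 2 * cP ^ 2 = 4 * x * q * cJ ^ 3 := hN
      rw [← hn, hx] at h3
      calc cJ * cP ^ 2 * 4 * (idx * r ^ 2) = cJ * idx * (2 * r) ^ 2 * cP ^ 2 := by ring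
        _ = 4 * x * q * cJ ^ 3 := h3
        _ = cJ * cP ^ 2 * 4 * (x * q * k ^ 2) := by rw [hk]; ring
    exact Nat.eq_of_mul_eq_mul_left (by positivity) h2
  have hc1 : Nat.Coprime r x := by
    have h1 : Nat.gcd r x ∣ x + 1 := by
      rw [hx]; exact Dvd.dvd.mul_left (Nat.gcd_dvd_left r x) 2
    have h2 : Nat.gcd r x ∣ 1 := (Nat.dvd_add_right (Nat.gcd_dvd_right r x)).1 h1
    exact Nat.eq_one_of_dvd_one h2
  have hc2 : Nat.Coprime r q := by
    have h1 : Nat.gcd r q ∣ q + 1 := by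
      rw [hr]; exact Dvd.dvd.mul_left (Nat.gcd_dvd_left r q) 4
    have h2 : Nat.gcd r q ∣ 1 := (Nat.dvd_add_right (Nat.gcd_dvd_right r q)).1 h1
    exact Nat.eq_one_of_dvd_one h2
  have hdvd : r ^ 2 ∣ k ^ 2 := by
    have hc : Nat.Coprime (r ^ 2) (x * q) := Nat.Coprime.pow_left 2 (Nat.Coprime.mul_right hc1 hc2)
    have h5 : r ^ 2 ∣ x * q * k ^ 2 := ⟨idx, by rw [← h1]; ring⟩
    exact hc.dvd_of_dvd_mul_left h5
  have hrk : r ∣ k := (Nat.pow_dvd_pow_iff (by norm_num)).1 hdvd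
  obtain ⟨m, hm⟩ := hrk
  refine ⟨m, ?_, ?_⟩
  · rw [hk, hm, hr]; ring
  · have hidx : idx = x * q * m ^ 2 := by
      have h6 : idx * r ^ 2 = (x * q * m ^ 2) * r ^ 2 := by rw [h1, hm]; ring
      exact Nat.eq_of_mul_eq_mul_right (by positivity) h6
    have hq3 : q ^ 3 - q = 8 * r * x * q := by
      apply Nat.sub_eq_of_eq_add
      have h7 : q ^ 2 = 8 * r * x + 1 := by
        rw [hq]
        have : (2 * x + 1) ^ 2 = 4 * x * (x + 1) + 1 := by ring
        rw [this, hx]; ring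
      calc q ^ 3 = q ^ 2 * q := by ring
        _ = (8 * r * x + 1) * q := by rw [h7]
        _ = 8 * r * x * q + q := by ring
    rw [hq3, ← hn, hk, hidx, hm]; ring

/-- Same setting as the Klein-four order formula: G of order 4·g₀ (g₀ odd) with no normal 2-complement, P a Sylow 2-subgroup, J an involution of P, M over 2, principal 2-block {1, χ₁, χ₂, χ₃} with χ_i(J) = ε_i = ±1. Suppose ε₁ε₂ε₃ = −1 and ε₃ = −1, and put q = x₃ = χ₃(1). Then there is a natural number m with 4·c(J) = m·c(P)·(q + 1), and the order of G equals (m³·c(P)/4)·(q³ − q)/2, that is 8·#G = m³·c(P)·(q³ − q). -/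
theorem result {G : Type*} [Group G] [Finite G] (M : Ideal Cfsg.AlgInt) (hM : Cfsg.IsPModular 2 M) (g₀ : ℕ) (hg₀ : Odd g₀) (hG : Nat.card G = 4 * g₀) (hnc : ¬ ∃ N : Subgroup G, N.Normal ∧ Nat.card N = g₀) (P : Sylow 2 G) (J : G) (hJ : J ∈ (P : Subgroup G)) (hJ2 : orderOf J = 2) (χ₁ χ₂ χ₃ : Cfsg.IrrCharacter G) (ε₁ ε₂ ε₃ : ℤ) (hB : Cfsg.principalBlock M G = {χ : Cfsg.IrrCharacter G | (χ : G → ℂ) = (fun _ => 1) ∨ χ = χ₁ ∨ χ = χ₂ ∨ χ = χ₃}) (hdist : (χ₁ : G → ℂ) ≠ (fun _ => 1) ∧ (χ₂ : G → ℂ) ≠ (fun _ => 1) ∧ (χ₃ : G → ℂ) ≠ (fun _ => 1) ∧ χ₁ ≠ χ₂ ∧ χ₁ ≠ χ₃ ∧ χ₂ ≠ χ₃) (hε : (ε₁ = 1 ∨ ε₁ = -1) ∧ (ε₂ = 1 ∨ ε₂ = -1) ∧ (ε₃ = 1 ∨ ε₃ = -1)) (hval : (χ₁ : G → ℂ) J = ε₁ ∧ (χ₂ : G → ℂ) J = ε₂ ∧ (χ₃ : G → ℂ) J = ε₃) (hprod : ε₁ * ε₂ * ε₃ = -1) (hε₃ : ε₃ = -1) : ∃ m : ℕ, 4 * Nat.card (Subgroup.centralizer ({J} : Set G)) = m * Nat.card (Subgroup.centralizer ((P : Subgroup G) : Set G)) * (Cfsg.charDegree (χ₃ : G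 → ℂ) + 1) ∧ 8 * Nat.card G = m ^ 3 * Nat.card (Subgroup.centralizer ((P : Subgroup G) : Set G)) * (Cfsg.charDegree (χ₃ : G → ℂ) ^ 3 - Cfsg.charDegree (χ₃ : G → ℂ)) := by
  classical
  have : Fintype G := Fintype.ofFinite G
  have hf2 : Fact (Nat.Prime 2) := ⟨Nat.prime_two⟩
  have h79 := Cfsg.Agent.S4479.result M hM g₀ hg₀ hG hnc P J hJ hJ2 χ₁ χ₂ χ₃ ε₁ ε₂ ε₃ hB hdist
    hε hval
  obtain ⟨hK, hone⟩ := Cfsg.Agent.S4479.klein_and_fusion g₀ hg₀ hG hnc P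
  have hJ1 : J ≠ 1 := by
    rintro rfl
    rw [orderOf_one] at hJ2
    omega
  have hJJ : J * J = 1 := klein_sq P hK J hJ
  have hJinv : J⁻¹ = J := inv_eq_of_mul_eq_one_left hJJ
  have hBlock : Cfsg.IsPBlock M (Cfsg.principalBlock M G) :=
    Cfsg.Agent.Lib.Helper77.isPBlock_principalBlock M
  set t : Cfsg.IrrCharacter G := Cfsg.Agent.Lib.Helper77.trivIrr G with ht
  have ht1 : ∀ g, (t : G → ℂ) g = 1 := fun g => rfl
  obtain ⟨hd1, hd2, hd3, h12, h13, h23⟩ := hdist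
  have ht_1 : t ≠ χ₁ := fun h => hd1 (by rw [← h]; rfl)
  have ht_2 : t ≠ χ₂ := fun h => hd2 (by rw [← h]; rfl)
  have ht_3 : t ≠ χ₃ := fun h => hd3 (by rw [← h]; rfl)
  have hBset : Cfsg.principalBlock M G = {t, χ₁, χ₂, χ₃} := by
    rw [hB]
    ext χ
    simp only [Set.mem_ofPred_eq, Set.mem_insert_iff, Set.mem_singleton_iff]
    constructor
    · rintro (h | h | h | h)
      · exact Or.inl (Subtype.ext h)
      · exact Or.inr (Or.inl h)
      · exact Or.inr (Or.inr (Or.inl h))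
      · exact Or.inr (Or.inr (Or.inr h))
    · rintro (h | h | h | h)
      · exact Or.inl (by rw [h]; rfl)
      · exact Or.inr (Or.inl h)
      · exact Or.inr (Or.inr (Or.inl h))
      · exact Or.inr (Or.inr (Or.inr h))
  have finsum4 : ∀ f : Cfsg.IrrCharacter G → ℂ,
      ∑ᶠ χ ∈ Cfsg.principalBlock M G, f χ = f t + f χ₁ + f χ₂ + f χ₃ := by
    intro f
    rw [hBset, finsum_mem_insert f _ (Set.toFinite _), finsum_mem_insert f _ (Set.toFinite _),
      finsum_mem_pair h23]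
    · ring
    · simp only [Set.mem_insert_iff, Set.mem_singleton_iff, not_or]
      exact ⟨h12, h13⟩
    · simp only [Set.mem_insert_iff, Set.mem_singleton_iff, not_or]
      exact ⟨ht_1, ht_2, ht_3⟩
  have hmem : ∀ χ : Cfsg.IrrCharacter G, (χ = t ∨ χ = χ₁ ∨ χ = χ₂ ∨ χ = χ₃) →
      χ ∈ Cfsg.principalBlock M G := by
    intro χ h
    rw [hBset]
    simpa only [Set.mem_insert_iff, Set.mem_singleton_iff] using h
  have hmem' : ∀ χ : Cfsg.IrrCharacter G, χ ∈ Cfsg.principalBlock M G →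
      (χ = t ∨ χ = χ₁ ∨ χ = χ₂ ∨ χ = χ₃) := by
    intro χ h
    rw [hBset] at h
    simpa only [Set.mem_insert_iff, Set.mem_singleton_iff] using h
  have hev : ∀ χ ∈ Cfsg.principalBlock M G, ∀ g : G, 2 ∣ orderOf g →
      (χ : G → ℂ) g = (χ : G → ℂ) J :=
    fun χ hχ g hg => Cfsg.Agent.S4512.even_value M hM P hK hone J hJ hJ1 χ hχ g hg
  obtain ⟨hv1, hv2, hv3⟩ := hval
  obtain ⟨hε1, hε2, -⟩ := hε
  obtain ⟨hx1, hx1pos, -⟩ := Cfsg.Agent.Lib.Helper79.irr_charDegree χ₁.2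
  obtain ⟨hx2, hx2pos, -⟩ := Cfsg.Agent.Lib.Helper79.irr_charDegree χ₂.2
  obtain ⟨hx3, hx3pos, -⟩ := Cfsg.Agent.Lib.Helper79.irr_charDegree χ₃.2
  set x₁ := Cfsg.charDegree (χ₁ : G → ℂ) with hx₁
  set x₂ := Cfsg.charDegree (χ₂ : G → ℂ) with hx₂
  set x₃ := Cfsg.charDegree (χ₃ : G → ℂ) with hx₃
  -- the degree relation
  have hrelC : (1 : ℂ) + (x₁ : ℂ) * ε₁ + (x₂ : ℂ) * ε₂ + (x₃ : ℂ) * ε₃ = 0 := by
    have h := Cfsg.Agent.Lib.Helper78.block_orth_regular_singular hM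
      (Cfsg.principalBlock M G) hBlock (u := 1) (g := J)
      (by rw [orderOf_one]; norm_num) (by rw [hJ2])
    rw [finsum4, hJinv, ht1, ht1, hx1, hx2, hx3, hv1, hv2, hv3] at h
    linear_combination h
  have hrelZ : (1 : ℤ) + (x₁ : ℤ) * ε₁ + (x₂ : ℤ) * ε₂ + (x₃ : ℤ) * ε₃ = 0 := by
    exact_mod_cast hrelC
  -- the signs
  subst hε₃
  have hε12 : ε₁ = 1 ∧ ε₂ = 1 := by
    rcases hε1 with rfl | rfl <;> rcases hε2 with rfl | rfl
    · exact ⟨rfl, rfl⟩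
    · norm_num at hprod
    · norm_num at hprod
    · exfalso
      have h1 : (1 : ℤ) ≤ x₁ := by exact_mod_cast hx1pos
      have h2 : (1 : ℤ) ≤ x₂ := by exact_mod_cast hx2pos
      have h3 : (1 : ℤ) ≤ x₃ := by exact_mod_cast hx3pos
      linarith
  obtain ⟨rfl, rfl⟩ := hε12
  have hq : x₃ = 1 + x₁ + x₂ := by
    have : (x₃ : ℤ) = 1 + x₁ + x₂ := by linarith
    exact_mod_cast this
  have hv1' : (χ₁ : G → ℂ) J = 1 := by rw [hv1]; norm_num
  have hv2' : (χ₂ : G → ℂ) J = 1 := by rw [hv2]; norm_num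
  have hv3' : (χ₃ : G → ℂ) J = -1 := by rw [hv3]; norm_num
  -- congruences for the degrees
  have hcardP : Nat.card (P : Subgroup G) = 4 := hK.card_four
  have hcong : ∀ (χ : Cfsg.IrrCharacter G) (n : ℤ), χ ∈ Cfsg.principalBlock M G →
      (χ : G → ℂ) J = n → (4 : ℤ) ∣ (Cfsg.charDegree (χ : G → ℂ) : ℤ) - n := by
    intro χ n hχ hn
    apply Cfsg.Agent.Lib.Helper16.four_dvd_degree_sub (P : Subgroup G) hcardP χ n
    intro u hu
    rw [← hn]
    apply hev χ hχ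
    have hu1 : (u : G) ≠ 1 := fun h => hu (Subtype.ext h)
    rw [klein_orderOf P hK u u.2 hu1]
  have hodd1 : ¬ Even x₁ := by
    have h := hcong χ₁ 1 (hmem χ₁ (Or.inr (Or.inl rfl))) hv1
    intro he
    obtain ⟨a, ha⟩ := he
    obtain ⟨b, hb⟩ := h
    rw [← hx₁] at hb
    omega
  have hodd2 : ¬ Even x₂ := by
    have h := hcong χ₂ 1 (hmem χ₂ (Or.inr (Or.inr (Or.inl rfl)))) hv2
    intro he
    obtain ⟨a, ha⟩ := he
    obtain ⟨b, hb⟩ := h
    rw [← hx₂] at hb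
    omega
  have h4q : 4 ∣ x₃ + 1 := by
    have h := hcong χ₃ (-1) (hmem χ₃ (Or.inr (Or.inr (Or.inr rfl)))) hv3
    obtain ⟨b, hb⟩ := h
    rw [← hx₃] at hb
    omega
  have hodd3 : ¬ Even x₃ := by
    intro he
    obtain ⟨a, ha⟩ := he
    omega
  -- squares never have even order
  have hsqodd : ∀ g : G, ¬ 2 ∣ orderOf (g * g) := by
    intro g hg
    obtain ⟨m, hm⟩ := hg
    have h4 : (g ^ m) ^ 4 = 1 := by
      rw [← pow_mul]
      have : g ^ (m * 4) = (g * g) ^ (2 * m) := by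
        rw [← sq, ← pow_mul]; congr 1; ring
      rw [this, ← hm, pow_orderOf_eq_one]
    have h5 := Cfsg.Agent.Lib.Helper74.KleinCount.sq_eq_one_of_pow_four P hK h4
    have h6 : (g * g) ^ m = 1 := by
      rw [← sq, ← pow_mul, two_mul, pow_add]
      exact h5
    have h7 : orderOf (g * g) ∣ m := orderOf_dvd_of_pow_eq_one h6
    have hpos : 0 < orderOf (g * g) := orderOf_pos _
    have hmpos : 0 < m := by
      rcases Nat.eq_zero_or_pos m with h | h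
      · rw [h] at hm; omega
      · exact h
    have := Nat.le_of_dvd hmpos h7
    omega
  -- the Frobenius-Schur relation in the principal block
  have hcard0 : (Nat.card G : ℂ) ≠ 0 := by exact_mod_cast Nat.card_pos.ne'
  have hFS : (1 : ℂ) + (Nat.card G : ℂ)⁻¹ * ∑ g : G, (χ₁ : G → ℂ) (g * g) +
      (Nat.card G : ℂ)⁻¹ * ∑ g : G, (χ₂ : G → ℂ) (g * g) -
      (Nat.card G : ℂ)⁻¹ * ∑ g : G, (χ₃ : G → ℂ) (g * g) = 0 := by
    have h0 : ∑ g : G, ∑ᶠ χ ∈ Cfsg.principalBlock M G,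
        (χ : G → ℂ) (g * g) * (χ : G → ℂ) J⁻¹ = 0 := by
      apply Finset.sum_eq_zero
      intro g _
      exact Cfsg.Agent.Lib.Helper78.block_orth_regular_singular hM
        (Cfsg.principalBlock M G) hBlock (hsqodd g) (by rw [hJ2])
    have h3 : ∀ g : G, ∑ᶠ χ ∈ Cfsg.principalBlock M G,
        (χ : G → ℂ) (g * g) * (χ : G → ℂ) J⁻¹ =
        1 + (χ₁ : G → ℂ) (g * g) + (χ₂ : G → ℂ) (g * g) - (χ₃ : G → ℂ) (g * g) := by
      intro g
      rw [finsum4, hJinv, ht1, ht1, hv1', hv2', hv3']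
      ring
    rw [Finset.sum_congr rfl (fun g _ => h3 g)] at h0
    simp only [Finset.sum_add_distrib, Finset.sum_sub_distrib] at h0
    rw [Finset.sum_const, Finset.card_univ, nsmul_eq_mul, mul_one,
      ← Nat.card_eq_fintype_card] at h0
    field_simp
    linear_combination h0
  obtain ⟨hc1, hr1⟩ := Cfsg.Agent.Lib.Helper81.fs_cases χ₁
  obtain ⟨hc2, hr2⟩ := Cfsg.Agent.Lib.Helper81.fs_cases χ₂
  obtain ⟨hc3, hr3⟩ := Cfsg.Agent.Lib.Helper81.fs_cases χ₃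
  have hn1 : (Nat.card G : ℂ)⁻¹ * ∑ g : G, (χ₁ : G → ℂ) (g * g) ≠ -1 :=
    fun h => hodd1 (even_degree_of_fs_neg χ₁ h)
  have hn2 : (Nat.card G : ℂ)⁻¹ * ∑ g : G, (χ₂ : G → ℂ) (g * g) ≠ -1 :=
    fun h => hodd2 (even_degree_of_fs_neg χ₂ h)
  have hn3 : (Nat.card G : ℂ)⁻¹ * ∑ g : G, (χ₃ : G → ℂ) (g * g) ≠ -1 :=
    fun h => hodd3 (even_degree_of_fs_neg χ₃ h)
  have hν1 : (Nat.card G : ℂ)⁻¹ * ∑ g : G, (χ₁ : G → ℂ) (g * g) = 0 := by
    rcases hc1 with h1 | h1 | h1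
    · exact h1
    · exfalso
      rcases hc2 with h2 | h2 | h2 <;> rcases hc3 with h3 | h3 | h3 <;>
        first
        | exact hn2 h2
        | exact hn3 h3
        | (rw [h1, h2, h3] at hFS; norm_num at hFS)
    · exact absurd h1 hn1
  -- χ₁ is not real, and its conjugate is χ₂
  obtain ⟨s, hs⟩ := hr1.1 hν1
  have hconj := Cfsg.Agent.Lib.Helper79.conj_block_eq_of_real (M := M) t
    (fun g => by rw [ht1]; simp)
  have hχ'mem : (⟨fun g => conj ((χ₁ : G → ℂ) g), isIrrCharacter_conj χ₁.2⟩ :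
      Cfsg.IrrCharacter G) ∈ Cfsg.principalBlock M G := by
    have : (⟨fun g => conj ((χ₁ : G → ℂ) g), isIrrCharacter_conj χ₁.2⟩ :
        Cfsg.IrrCharacter G) ∈ {ψ : Cfsg.IrrCharacter G | ∃ χ' ∈ Cfsg.blockOf M (t : G → ℂ),
          (ψ : G → ℂ) = fun g => (starRingEnd ℂ) ((χ' : G → ℂ) g)} :=
      ⟨χ₁, hmem χ₁ (Or.inr (Or.inl rfl)), rfl⟩
    rw [hconj] at this
    exact this
  have hx12 : x₁ = x₂ := by
    rcases hmem' _ hχ'mem with h | h | h | h
    · exfalso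
      apply hd1
      funext g
      have := congrArg (fun χ : Cfsg.IrrCharacter G => (χ : G → ℂ) g) h
      simp only [ht1] at this
      have h2 := congrArg conj this
      simpa using h2
    · exfalso
      apply hs
      have := congrArg (fun χ : Cfsg.IrrCharacter G => (χ : G → ℂ) s) h
      simp only at this
      exact Complex.conj_eq_iff_im.1 this
    · have := congrArg (fun χ : Cfsg.IrrCharacter G => (χ : G → ℂ) 1) h
      simp only at this
      rw [hx1, hx2] at this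
      have h2 : ((x₁ : ℕ) : ℂ) = (x₂ : ℂ) := by simpa using this
      exact_mod_cast h2
    · exfalso
      have := congrArg (fun χ : Cfsg.IrrCharacter G => (χ : G → ℂ) J) h
      simp only at this
      rw [hv1', hv3'] at this
      norm_num at this
  -- the arithmetic
  have hcJpos : 0 < Nat.card (Subgroup.centralizer ({J} : Set G)) := Nat.card_pos
  have hcPpos : 0 < Nat.card (Subgroup.centralizer ((P : Subgroup G) : Set G)) := Nat.card_pos
  have hle : Subgroup.centralizer ((P : Subgroup G) : Set G) ≤ Subgroup.centralizer ({J} : Set G) :=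
    Subgroup.centralizer_le (by
      intro y hy
      rw [Set.mem_singleton_iff] at hy
      rw [hy]; exact hJ)
  have hdvd := Subgroup.card_dvd_of_le hle
  have hidx := Subgroup.card_mul_index (Subgroup.centralizer ({J} : Set G))
  set cJ := Nat.card (Subgroup.centralizer ({J} : Set G)) with hcJ
  set cP := Nat.card (Subgroup.centralizer ((P : Subgroup G) : Set G)) with hcP
  have hq' : x₃ = 2 * x₁ + 1 := by omega
  have hN : Nat.card G * (x₁ + 1) ^ 2 * cP ^ 2 = 4 * x₁ * x₃ * cJ ^ 3 := by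
    rw [← hx12] at h79
    have hcP0 : (cP : ℚ) ≠ 0 := by exact_mod_cast hcPpos.ne'
    have hx0 : (x₁ : ℚ) ≠ 0 := by exact_mod_cast hx1pos.ne'
    have hx10 : (x₁ : ℚ) + 1 ≠ 0 := by positivity
    have hq0 : (x₃ : ℚ) + (-1) = 2 * x₁ := by rw [hq']; push_cast; ring
    have h1 : (Nat.card G : ℚ) * ((x₁ : ℚ) + 1) ^ 2 * (cP : ℚ) ^ 2 = 4 * x₁ * x₃ * (cJ : ℚ) ^ 3 := by
      rw [h79]
      push_cast
      rw [hq0]
      field_simp
      ring
    exact_mod_cast h1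
  exact arith (Nat.card G) cJ cP _ x₁ x₃ hidx hdvd hcPpos hcJpos hq' h4q hN

end Cfsg.Agent.S4480
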