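import Cfsg.Statements.S4521
import Mathlib
import Cfsg.Agent.Lib.Helper79.CentralProd

set_option autoImplicit false
open Cfsg

namespace Cfsg.Agent.S4521

/-- Let the finite group G be generated by subgroups U₁ and U₂ that commute elementwise and whose intersection is a p-group, and let M be a maximal ideal of the algebraic integers containing the prime p. If the irreducible character χ of G has the irreducible constituents ψ₁ on U₁ and ψ₂ on U₂, then χ lies in the principal block of G if and only if ψ₁ and ψ₂ lie in the principal blocks of U₁ and U₂. -/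
theorem result {G : Type*} [Group G] [Fintype G] (p : ℕ) [Fact p.Prime] (M : Ideal Cfsg.AlgInt) (hM : Cfsg.IsPModular p M) (U₁ U₂ : Subgroup G) [Fintype U₁] [Fintype U₂] (hcomm : ∀ u ∈ U₁, ∀ v ∈ U₂, u * v = v * u) (hgen : U₁ ⊔ U₂ = ⊤) (hZ : IsPGroup p ↥(U₁ ⊓ U₂)) (χ : Cfsg.IrrCharacter G) (ψ₁ : Cfsg.IrrCharacter U₁) (ψ₂ : Cfsg.IrrCharacter U₂) (h₁ : Cfsg.classInner (fun u : U₁ => (χ : G → ℂ) u) (ψ₁ : U₁ → ℂ) ≠ 0) (h₂ : Cfsg.classInner (fun u : U₂ => (χ : G → ℂ) u) (ψ₂ : U₂ → ℂ) ≠ 0) : χ ∈ Cfsg.principalBlock M G ↔ (ψ₁ ∈ Cfsg.principalBlock M U₁ ∧ ψ₂ ∈ Cfsg.principalBlock M U₂) := by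
  classical
  have hMp := Cfsg.Agent.Lib.Helper16.isPrime_of_isPModular hM
  have hp : p.Prime := Fact.out
  obtain ⟨φ₁, φ₂, hspec⟩ := Cfsg.Agent.Lib.Helper79.exists_cprod_decomp U₁ U₂ hcomm hgen χ
  have hφ₁ : φ₁ = ψ₁ := by
    by_contra hne
    apply h₁
    have e : (fun u : U₁ => (χ : G → ℂ) u) = fun u => (φ₂ : U₂ → ℂ) 1 * (φ₁ : U₁ → ℂ) u := by
      funext u
      have := hspec u 1
      simp only [OneMemClass.coe_one, mul_one] at this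
      rw [this, mul_comm]
    rw [e]
    have h2 := Cfsg.Agent.Lib.Helper80.classInner_irr φ₁ ψ₁
    rw [if_neg hne] at h2
    unfold Cfsg.classInner at h2 ⊢
    have h3 : ∑ u : U₁, ((φ₂ : U₂ → ℂ) 1 * (φ₁ : U₁ → ℂ) u) * (starRingEnd ℂ) ((ψ₁ : U₁ → ℂ) u) =
        (φ₂ : U₂ → ℂ) 1 * ∑ u : U₁, (φ₁ : U₁ → ℂ) u * (starRingEnd ℂ) ((ψ₁ : U₁ → ℂ) u) := by
      rw [Finset.mul_sum]
      exact Finset.sum_congr rfl (fun u _ => by ring)
    rw [h3, mul_left_comm, h2, mul_zero]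
  have hφ₂ : φ₂ = ψ₂ := by
    by_contra hne
    apply h₂
    have e : (fun u : U₂ => (χ : G → ℂ) u) = fun u => (φ₁ : U₁ → ℂ) 1 * (φ₂ : U₂ → ℂ) u := by
      funext u
      have := hspec 1 u
      simp only [OneMemClass.coe_one, one_mul] at this
      rw [this]
    rw [e]
    have h2 := Cfsg.Agent.Lib.Helper80.classInner_irr φ₂ ψ₂
    rw [if_neg hne] at h2
    unfold Cfsg.classInner at h2 ⊢
    have h3 : ∑ u : U₂, ((φ₁ : U₁ → ℂ) 1 * (φ₂ : U₂ → ℂ) u) * (starRingEnd ℂ) ((ψ₂ : U₂ → ℂ) u) =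
        (φ₁ : U₁ → ℂ) 1 * ∑ u : U₂, (φ₂ : U₂ → ℂ) u * (starRingEnd ℂ) ((ψ₂ : U₂ → ℂ) u) := by
      rw [Finset.mul_sum]
      exact Finset.sum_congr rfl (fun u _ => by ring)
    rw [h3, mul_left_comm, h2, mul_zero]
  subst hφ₁
  subst hφ₂
  have hone : ¬ p ∣ 1 := fun h => hp.one_lt.ne' (Nat.dvd_one.mp h)
  have htriv : ∀ (x : U₁) (c : U₂), (fun _ : G => (1 : ℂ)) ((x : G) * (c : G)) =
      (fun _ : U₁ => (1 : ℂ)) x * (fun _ : U₂ => (1 : ℂ)) c := by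
    intro x c
    simp
  have hcc1 : ∀ (H : Type _) [Group H] (f : H → ℂ), f 1 ≠ 0 → Cfsg.centralChar f 1 = 1 := by
    intro H _ f hf
    unfold Cfsg.centralChar
    have : Subgroup.centralizer ({(1 : H)} : Set H) = ⊤ := by
      rw [Subgroup.centralizer_eq_top_iff_subset]
      intro y hy
      rw [Set.mem_singleton_iff] at hy
      rw [hy]
      exact Subgroup.one_mem _
    rw [this, Subgroup.index_top, Nat.cast_one, one_mul]
    exact div_self hf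
  constructor
  · intro hχ
    have hχ' : Cfsg.SameBlock M (fun _ : G => (1 : ℂ)) (χ : G → ℂ) := hχ
    constructor
    · show Cfsg.SameBlock M (fun _ : U₁ => (1 : ℂ)) (φ₁ : U₁ → ℂ)
      apply Cfsg.Agent.Lib.Helper16.sameBlock_of_pRegular hM (Cfsg.Agent.Lib.Helper77.trivIrr U₁) φ₁
      intro x hx
      have hx' : ¬ p ∣ orderOf (x : G) := by rwa [Subgroup.orderOf_coe]
      have h1' : ¬ p ∣ orderOf (((1 : U₂) : U₂) : G) := by
        rw [OneMemClass.coe_one, orderOf_one]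
        exact hone
      have e1 := Cfsg.Agent.Lib.Helper79.centralChar_cprod U₁ U₂ hcomm hgen hZ (χ : G → ℂ)
        (φ₁ : U₁ → ℂ) (φ₂ : U₂ → ℂ) hspec x 1 hx' h1'
      have e2 := Cfsg.Agent.Lib.Helper79.centralChar_cprod U₁ U₂ hcomm hgen hZ
        (fun _ : G => (1 : ℂ)) (fun _ : U₁ => (1 : ℂ)) (fun _ : U₂ => (1 : ℂ)) htriv x 1 hx' h1'
      have e3 := hcc1 U₂ (φ₂ : U₂ → ℂ) (Cfsg.Agent.Lib.Helper79.irr_one_ne_zero φ₂.2)
      have e4 := hcc1 U₂ (fun _ : U₂ => (1 : ℂ)) one_ne_zero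
      have h5 := hχ' ((x : G) * (((1 : U₂) : U₂) : G))
      rw [e1, e2, e3, e4, mul_one, mul_one] at h5
      exact h5
    · show Cfsg.SameBlock M (fun _ : U₂ => (1 : ℂ)) (φ₂ : U₂ → ℂ)
      apply Cfsg.Agent.Lib.Helper16.sameBlock_of_pRegular hM (Cfsg.Agent.Lib.Helper77.trivIrr U₂) φ₂
      intro x hx
      have hx' : ¬ p ∣ orderOf (x : G) := by rwa [Subgroup.orderOf_coe]
      have h1' : ¬ p ∣ orderOf (((1 : U₁) : U₁) : G) := by
        rw [OneMemClass.coe_one, orderOf_one]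
        exact hone
      have e1 := Cfsg.Agent.Lib.Helper79.centralChar_cprod U₁ U₂ hcomm hgen hZ (χ : G → ℂ)
        (φ₁ : U₁ → ℂ) (φ₂ : U₂ → ℂ) hspec 1 x h1' hx'
      have e2 := Cfsg.Agent.Lib.Helper79.centralChar_cprod U₁ U₂ hcomm hgen hZ
        (fun _ : G => (1 : ℂ)) (fun _ : U₁ => (1 : ℂ)) (fun _ : U₂ => (1 : ℂ)) htriv 1 x h1' hx'
      have e3 := hcc1 U₁ (φ₁ : U₁ → ℂ) (Cfsg.Agent.Lib.Helper79.irr_one_ne_zero φ₁.2)
      have e4 := hcc1 U₁ (fun _ : U₁ => (1 : ℂ)) one_ne_zero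
      have h5 := hχ' ((((1 : U₁) : U₁) : G) * (x : G))
      rw [e1, e2, e3, e4, one_mul, one_mul] at h5
      exact h5
  · rintro ⟨hb₁, hb₂⟩
    show Cfsg.SameBlock M (fun _ : G => (1 : ℂ)) (χ : G → ℂ)
    apply Cfsg.Agent.Lib.Helper16.sameBlock_of_pRegular hM (Cfsg.Agent.Lib.Helper77.trivIrr G) χ
    intro g hg
    obtain ⟨x₁, x₂, hx₁, hx₂, rfl⟩ :=
      Cfsg.Agent.Lib.Helper79.exists_pRegular_factors hp U₁ U₂ hcomm hgen g hg
    have e1 := Cfsg.Agent.Lib.Helper79.centralChar_cprod U₁ U₂ hcomm hgen hZ (χ : G → ℂ)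
      (φ₁ : U₁ → ℂ) (φ₂ : U₂ → ℂ) hspec x₁ x₂ hx₁ hx₂
    have e2 := Cfsg.Agent.Lib.Helper79.centralChar_cprod U₁ U₂ hcomm hgen hZ
      (fun _ : G => (1 : ℂ)) (fun _ : U₁ => (1 : ℂ)) (fun _ : U₂ => (1 : ℂ)) htriv x₁ x₂ hx₁ hx₂
    show Cfsg.MemLocalIdeal M (Cfsg.centralChar (fun _ : G => (1 : ℂ)) ((x₁ : G) * (x₂ : G)) -
      Cfsg.centralChar (χ : G → ℂ) ((x₁ : G) * (x₂ : G)))
    rw [e1, e2]
    have a1 : Cfsg.MemLocalIdeal M (Cfsg.centralChar (fun _ : U₁ => (1 : ℂ)) x₁ -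
        Cfsg.centralChar (φ₁ : U₁ → ℂ) x₁) := hb₁ x₁
    have a2 : Cfsg.MemLocalIdeal M (Cfsg.centralChar (fun _ : U₂ => (1 : ℂ)) x₂ -
        Cfsg.centralChar (φ₂ : U₂ → ℂ) x₂) := hb₂ x₂
    have r1 : Cfsg.MemLocalRing M (Cfsg.centralChar (fun _ : U₁ => (1 : ℂ)) x₁) :=
      Cfsg.Agent.Lib.Helper16.memLocalRing_centralChar hMp (Cfsg.Agent.Lib.Helper77.trivIrr U₁) x₁
    have r2 := Cfsg.Agent.Lib.Helper16.memLocalRing_centralChar hMp φ₂ x₂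
    have hring : Cfsg.centralChar (fun _ : U₁ => (1 : ℂ)) x₁ *
        Cfsg.centralChar (fun _ : U₂ => (1 : ℂ)) x₂ -
        Cfsg.centralChar (φ₁ : U₁ → ℂ) x₁ * Cfsg.centralChar (φ₂ : U₂ → ℂ) x₂ =
        Cfsg.centralChar (fun _ : U₁ => (1 : ℂ)) x₁ *
          (Cfsg.centralChar (fun _ : U₂ => (1 : ℂ)) x₂ - Cfsg.centralChar (φ₂ : U₂ → ℂ) x₂) +
        (Cfsg.centralChar (fun _ : U₁ => (1 : ℂ)) x₁ - Cfsg.centralChar (φ₁ : U₁ → ℂ) x₁) *
          Cfsg.centralChar (φ₂ : U₂ → ℂ) x₂ := by ring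
    rw [hring]
    exact Cfsg.Agent.Lib.Helper16.memLocalIdeal_add hMp
      (Cfsg.Agent.Lib.Helper16.memLocalIdeal_mul_left hMp r1 a2)
      (Cfsg.Agent.Lib.Helper16.memLocalIdeal_mul_right hMp a1 r2)

end Cfsg.Agent.S4521
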