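import Cfsg.Statements.S4539
import Mathlib
import Cfsg.Agent.Lib.Helper76.MajorRank2

set_option autoImplicit false
open Cfsg

namespace Cfsg.Agent.S4539

/-- Let B be a p-block of the finite group G (relative to a maximal ideal M of the algebraic integers containing p) of defect d with defect group D. Let z be an element of D commuting with every element of D, and let b be a block of the centralizer C of z with defect group D that induces B (a major subsection (z, b)). If b has p-regular rank at most two, then B contains at most p ^ d irreducible characters. -/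
theorem result {G : Type*} [Group G] [Finite G] (p : ℕ) [Fact p.Prime] (M : Ideal Cfsg.AlgInt) (hM : Cfsg.IsPModular p M) (B : Set (Cfsg.IrrCharacter G)) (hB : Cfsg.IsPBlock M B) (D : Subgroup G) (hD : Cfsg.IsDefectGroup p M B D) (z : G) (hzD : z ∈ D) (hzc : ∀ d ∈ D, d * z = z * d) (b : Set (Cfsg.IrrCharacter ↥(Subgroup.centralizer ({z} : Set G)))) (hb : Cfsg.IsInducedBlock M (Subgroup.centralizer ({z} : Set G)) b B) (hbD : Cfsg.IsDefectGroup p M b (D.subgroupOf (Subgroup.centralizer ({z} : Set G)))) (hl : Cfsg.blockRank p b ≤ 2) : Nat.card B ≤ p ^ Cfsg.blockDefect p B := by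
  classical
  letI : Fintype G := Fintype.ofFinite G
  letI : Fintype (Cfsg.IrrCharacter G) := @Fintype.ofFinite _ (Cfsg.Agent.Lib.Helper81.irr_finite _)
  have hp : p.Prime := Fact.out
  have hcardD := Cfsg.Agent.Lib.Helper77.card_isDefectGroup hM B hB D hD
  obtain ⟨k, hk⟩ : ∃ k : ℕ, orderOf z = p ^ k := by
    have h1 : orderOf (⟨z, hzD⟩ : D) ∣ Nat.card D := orderOf_dvd_natCard _
    rw [hcardD] at h1
    obtain ⟨k, -, hk⟩ := (Nat.dvd_prime_pow hp).1 h1
    refine ⟨k, ?_⟩
    rw [← hk, ← Subgroup.orderOf_coe]
  have hCy : ∀ g : G, g ∈ Subgroup.centralizer ({z} : Set G) ↔ g * z = z * g := by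
    intro g
    rw [Subgroup.mem_centralizer_iff]
    simp [eq_comm]
  have hDC : D ≤ Subgroup.centralizer ({z} : Set G) := fun d hd => (hCy d).2 (hzc d hd)
  have hdef : Cfsg.blockDefect p b = Cfsg.blockDefect p B := by
    have h1 := Cfsg.Agent.Lib.Helper77.card_isDefectGroup hM b hb.1 _ hbD
    have h2 : Nat.card (D.subgroupOf (Subgroup.centralizer ({z} : Set G))) = Nat.card D :=
      Nat.card_congr (Subgroup.subgroupOfEquivOfLe hDC).toEquiv
    rw [h2, hcardD] at h1
    exact (Nat.pow_right_injective hp.two_le h1).symm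
  have hcard : Nat.card B = (Finset.univ.filter (· ∈ B)).card := by
    rw [← Fintype.card_subtype]
    exact Nat.card_eq_fintype_card
  rw [hcard]
  exact Cfsg.Agent.Lib.Helper76.major_rank_two hM B z k hk _ hCy b hb hdef hl

end Cfsg.Agent.S4539
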