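import Cfsg.Statements.S4541
import Mathlib
import Cfsg.Agent.Lib.Helper76.ContribDiag

set_option autoImplicit false
open Cfsg

namespace Cfsg.Agent.S4541

/-- Let B be a 2-block of the finite group G (relative to a maximal ideal M of the algebraic integers containing 2), u a 2-element, and b a block of the centralizer of u inducing B (a subsection (u, b)), of defect q and 2-regular rank l; write s for the integer square root of l and k₀(B) for the number of members of B of height zero. If s is odd then k₀(B) ≤ s·2 ^ q, and otherwise (s + 1)·k₀(B) ≤ l·2 ^ q; in particular k₀(B) ≤ 2 ^ q when l ≤ 3. -/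
theorem result {G : Type*} [Group G] [Finite G] (M : Ideal Cfsg.AlgInt) (hM : Cfsg.IsPModular 2 M) (B : Set (Cfsg.IrrCharacter G)) (hB : Cfsg.IsPBlock M B) (u : G) (hu : ∃ j : ℕ, orderOf u = 2 ^ j) (b : Set (Cfsg.IrrCharacter ↥(Subgroup.centralizer ({u} : Set G)))) (hb : Cfsg.IsInducedBlock M (Subgroup.centralizer ({u} : Set G)) b B) : (Odd (Nat.sqrt (Cfsg.blockRank 2 b)) → Nat.card {χ : Cfsg.IrrCharacter G // χ ∈ B ∧ Cfsg.blockHeight 2 B (χ : G → ℂ) = 0} ≤ Nat.sqrt (Cfsg.blockRank 2 b) * 2 ^ Cfsg.blockDefect 2 b) ∧ (¬ Odd (Nat.sqrt (Cfsg.blockRank 2 b)) → (Nat.sqrt (Cfsg.blockRank 2 b) + 1) * Nat.card {χ : Cfsg.IrrCharacter G // χ ∈ B ∧ Cfsg.blockHeight 2 B (χ : G → ℂ) = 0} ≤ Cfsg.blockRank 2 b * 2 ^ Cfsg.blockDefect 2 b) ∧ (Cfsg.blockRank 2 b ≤ 3 → Nat.card {χ : Cfsg.IrrCharacter G // χ ∈ B ∧ Cfsg.blockHeight 2 B (χ : G → ℂ) = 0} ≤ 2 ^ Cfsg.blockDefect 2 b) := by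
  classical
  letI : Fintype G := Fintype.ofFinite G
  letI : Fintype (Cfsg.IrrCharacter G) := @Fintype.ofFinite _ (Cfsg.Agent.Lib.Helper81.irr_finite _)
  obtain ⟨k, hk⟩ := hu
  have hCy : ∀ g : G, g ∈ Subgroup.centralizer ({u} : Set G) ↔ g * u = u * g := by
    intro g
    rw [Subgroup.mem_centralizer_iff]
    simp [eq_comm]
  set K0 : Finset (Cfsg.IrrCharacter G) :=
    Finset.univ.filter (fun χ => χ ∈ B ∧ Cfsg.blockHeight 2 B (χ : G → ℂ) = 0) with hK0
  have hK0mem : ∀ χ, χ ∈ K0 ↔ χ ∈ B ∧ Cfsg.blockHeight 2 B (χ : G → ℂ) = 0 := by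
    intro χ
    simp [hK0]
  obtain ⟨a, ha, hsum⟩ := Cfsg.Agent.Lib.Helper76.two_block_k0_core hM B u k hk _ hCy b hb K0 hK0mem
  have hcard : Nat.card {χ : Cfsg.IrrCharacter G // χ ∈ B ∧ Cfsg.blockHeight 2 B (χ : G → ℂ) = 0} =
      K0.card := by
    rw [hK0, ← Fintype.card_subtype]
    exact Nat.card_eq_fintype_card
  rw [hcard]
  set n := K0.card with hn
  set A := 2 ^ Cfsg.blockDefect 2 b with hA
  set l := Cfsg.blockRank 2 b with hl
  set s := Nat.sqrt l with hs
  have hs1 : s * s ≤ l := Nat.sqrt_le l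
  have hs2 : l < (s + 1) * (s + 1) := Nat.lt_succ_sqrt l
  have hApos : 0 < A := pow_pos (by norm_num) _
  -- the two main inequalities
  have main : (Odd s → n ≤ s * A) ∧ (¬ Odd s → (s + 1) * n ≤ l * A) := by
    rcases Nat.eq_zero_or_pos n with hn0 | hnpos
    · rw [hn0]
      exact ⟨fun _ => Nat.zero_le _, fun _ => by simp⟩
    · have hne : K0.Nonempty := Finset.card_pos.1 hnpos
      obtain ⟨χ0, hχ0, hmin⟩ := Finset.exists_min_image K0 a hne
      obtain ⟨hodd0, hle0⟩ := ha χ0 hχ0
      set a0 := a χ0 with ha0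
      have h1 : (n : ℤ) * a0 ≤ (A : ℤ) * (l : ℤ) := by
        have h2 : (n : ℤ) * a0 = ∑ χ ∈ K0, a0 := by
          rw [Finset.sum_const, hn, nsmul_eq_mul]
        rw [h2]
        refine le_trans (Finset.sum_le_sum (fun χ hχ => hmin χ hχ)) ?_
        rw [hA]
        push_cast
        exact hsum
      have h3 : (n : ℤ) ≤ (A : ℤ) * a0 := by
        rw [hA]
        push_cast
        exact hle0
      have hnZ : (0 : ℤ) < (n : ℤ) := by exact_mod_cast hnpos
      have hAZ : (0 : ℤ) < (A : ℤ) := by exact_mod_cast hApos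
      have ha0pos : 0 < a0 := by
        by_contra hneg
        push Not at hneg
        have : (A : ℤ) * a0 ≤ 0 := mul_nonpos_of_nonneg_of_nonpos hAZ.le hneg
        omega
      have hs1Z : (s : ℤ) * (s : ℤ) ≤ (l : ℤ) := by exact_mod_cast hs1
      have hs2Z : (l : ℤ) < ((s : ℤ) + 1) * ((s : ℤ) + 1) := by exact_mod_cast hs2
      constructor
      · intro hsodd
        have hgoal : (n : ℤ) ≤ (s : ℤ) * (A : ℤ) := by
          by_cases hc : a0 ≤ (s : ℤ)
          · calc (n : ℤ) ≤ (A : ℤ) * a0 := h3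
              _ ≤ (A : ℤ) * (s : ℤ) := mul_le_mul_of_nonneg_left hc hAZ.le
              _ = (s : ℤ) * (A : ℤ) := mul_comm _ _
          · push Not at hc
            have hsoddZ : Odd (s : ℤ) := by exact_mod_cast hsodd
            have hne1 : a0 ≠ (s : ℤ) + 1 := by
              intro h
              have : Even ((s : ℤ) + 1) := hsoddZ.add_one
              rw [← h] at this
              exact (Int.not_even_iff_odd.2 hodd0) this
            have hge : (s : ℤ) + 2 ≤ a0 := by omega
            have h5 : (n : ℤ) * ((s : ℤ) + 2) ≤ (A : ℤ) * (l : ℤ) :=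
              le_trans (mul_le_mul_of_nonneg_left hge hnZ.le) h1
            have h6 : (l : ℤ) ≤ (s : ℤ) * ((s : ℤ) + 2) := by nlinarith
            have h7 : (n : ℤ) * ((s : ℤ) + 2) ≤ ((s : ℤ) * (A : ℤ)) * ((s : ℤ) + 2) := by
              calc (n : ℤ) * ((s : ℤ) + 2) ≤ (A : ℤ) * (l : ℤ) := h5
                _ ≤ (A : ℤ) * ((s : ℤ) * ((s : ℤ) + 2)) := mul_le_mul_of_nonneg_left h6 hAZ.le
                _ = ((s : ℤ) * (A : ℤ)) * ((s : ℤ) + 2) := by ring
            have hs2pos : (0 : ℤ) < (s : ℤ) + 2 := by positivity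
            exact le_of_mul_le_mul_right h7 hs2pos
        exact_mod_cast hgoal
      · intro hsodd
        have hsev : Even (s : ℤ) := by
          have : Even s := Nat.not_odd_iff_even.1 hsodd
          exact_mod_cast this
        have hgoal : ((s : ℤ) + 1) * (n : ℤ) ≤ (l : ℤ) * (A : ℤ) := by
          by_cases hc : a0 ≤ (s : ℤ)
          · have hne1 : a0 ≠ (s : ℤ) := by
              intro h
              rw [← h] at hsev
              exact (Int.not_even_iff_odd.2 hodd0) hsev
            have hle : a0 ≤ (s : ℤ) - 1 := by omega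
            have hs0 : (0 : ℤ) ≤ (s : ℤ) := by positivity
            calc ((s : ℤ) + 1) * (n : ℤ) ≤ ((s : ℤ) + 1) * ((A : ℤ) * a0) :=
                  mul_le_mul_of_nonneg_left h3 (by positivity)
              _ ≤ ((s : ℤ) + 1) * ((A : ℤ) * ((s : ℤ) - 1)) :=
                  mul_le_mul_of_nonneg_left (mul_le_mul_of_nonneg_left hle hAZ.le) (by positivity)
              _ = ((s : ℤ) * (s : ℤ) - 1) * (A : ℤ) := by ring
              _ ≤ (l : ℤ) * (A : ℤ) := mul_le_mul_of_nonneg_right (by omega) hAZ.le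
          · push Not at hc
            have hge : (s : ℤ) + 1 ≤ a0 := by omega
            calc ((s : ℤ) + 1) * (n : ℤ) ≤ a0 * (n : ℤ) :=
                  mul_le_mul_of_nonneg_right hge hnZ.le
              _ = (n : ℤ) * a0 := mul_comm _ _
              _ ≤ (A : ℤ) * (l : ℤ) := h1
              _ = (l : ℤ) * (A : ℤ) := mul_comm _ _
        exact_mod_cast hgoal
  refine ⟨main.1, main.2, fun hl3 => ?_⟩
  by_cases hodd : Odd s
  · have h1 := main.1 hodd
    have hs_le : s ≤ 1 := by
      by_contra hgt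
      push Not at hgt
      have : 2 * 2 ≤ s * s := Nat.mul_le_mul hgt hgt
      omega
    calc n ≤ s * A := h1
      _ ≤ 1 * A := Nat.mul_le_mul_right _ hs_le
      _ = A := one_mul _
  · have h2 := main.2 hodd
    have hs_le : s ≤ 1 := by
      by_contra hgt
      push Not at hgt
      have : 2 * 2 ≤ s * s := Nat.mul_le_mul hgt hgt
      omega
    have hs0 : s = 0 := by
      rcases Nat.lt_or_ge s 1 with h | h
      · omega
      · exfalso
        have : s = 1 := le_antisymm hs_le h
        exact hodd (by rw [this]; exact odd_one)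
    have hl0 : l = 0 := by
      rw [hs0] at hs2
      omega
    rw [hs0, hl0] at h2
    simp at h2
    rw [h2]
    exact Nat.zero_le _

end Cfsg.Agent.S4541
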