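import Cfsg.Statements.S4549
import Cfsg.Agent.Lib.Helper79.IsaacsSmithTw
import Cfsg.Agent.Lib.Helper79.CubeTwist
import Cfsg.Agent.Lib.Helper79.PNilpB0

set_option autoImplicit false
open Cfsg

namespace Cfsg.Agent.S4549

/-- Let G be a finite group and M a maximal ideal of the algebraic integers containing 2. Let k be a natural number with g ^ k = g ^ 3 for every 2-element g and g ^ k = g for every element g of odd order (such k exist); an irreducible character χ is unchanged by g ↦ g ^ k exactly when it is fixed by the field automorphism that cubes the 2-power roots of unity and fixes the roots of unity of odd order. Then G has a normal 2-complement if and only if every member χ of the principal 2-block of odd degree with χ (g ^ k) = χ g for all g has degree one. -/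
theorem result {G : Type*} [Group G] [Finite G] (M : Ideal Cfsg.AlgInt) (hM : Cfsg.IsPModular 2 M) (k : ℕ) (hk₁ : ∀ g : G, (∃ j : ℕ, orderOf g = 2 ^ j) → g ^ k = g ^ 3) (hk₂ : ∀ g : G, Odd (orderOf g) → g ^ k = g) : Cfsg.HasNormalPComplement 2 G ↔ ∀ χ ∈ Cfsg.principalBlock M G, Odd (Cfsg.charDegree (χ : G → ℂ)) → (∀ g : G, (χ : G → ℂ) (g ^ k) = (χ : G → ℂ) g) → Cfsg.charDegree (χ : G → ℂ) = 1 := by
  classical
  have hcop := Cfsg.Agent.Lib.Helper79.coprime_of_cube_twist k hk₁ hk₂
  have hiter := Cfsg.Agent.Lib.Helper79.pow_iter_of_cube_twist k hk₁ hk₂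
  constructor
  · intro h χ hχ hodd _
    exact Cfsg.Agent.Lib.Helper79.charDegree_eq_one_of_hasNormalPComplement 2 M hM h χ hχ
      (fun h2 => (Nat.not_even_iff_odd.mpr hodd) (even_iff_two_dvd.mpr h2))
  · intro h
    apply Cfsg.Agent.Lib.Helper79.hasNormalPComplement_of_linear_tw 2 M hM k (Nat.card G) hcop
      hiter
    intro χ hχ hnd hfix
    exact h χ hχ (Nat.not_even_iff_odd.mp (fun he => hnd (even_iff_two_dvd.mp he))) hfix

end Cfsg.Agent.S4549
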