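import Mathlib
import Cfsg.Statements.S4550
import Cfsg.Agent.Lib.Helper77.Osima
import Cfsg.Agent.Lib.Helper77.Defect
import Cfsg.Agent.Lib.Helper75.GaloisChar
import Cfsg.Agent.Lib.Helper80.CharKer
import Cfsg.Agent.Lib.Helper3.CharValues

set_option autoImplicit false
open Cfsg

namespace Cfsg.Agent.S4550

open Cfsg.Agent.Lib.Helper16 Cfsg.Agent.Lib.Helper77 Cfsg.Agent.Lib.Helper81
open scoped ComplexConjugate

/-- `3 ^ (2 ^ m) ≡ 1 [MOD 2 ^ (m + 1)]`. -/
theorem three_pow_modEq (m : ℕ) : 3 ^ (2 ^ m) ≡ 1 [MOD 2 ^ (m + 1)] := by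
  induction m with
  | zero => decide
  | succ m ih =>
    have h1 : (2 ^ (m + 1) : ℕ) ∣ 3 ^ (2 ^ m) - 1 := (Nat.modEq_iff_dvd' (Nat.one_le_pow _ _ (by norm_num))).mp ih.symm
    have h2 : (2 : ℕ) ∣ 3 ^ (2 ^ m) + 1 := by
      have : Odd (3 ^ (2 ^ m)) := Odd.pow (by decide)
      obtain ⟨r, hr⟩ := this
      exact ⟨r + 1, by omega⟩
    have h3 : 3 ^ (2 ^ (m + 1)) - 1 = (3 ^ (2 ^ m) - 1) * (3 ^ (2 ^ m) + 1) := by
      have h4 : 1 ≤ 3 ^ (2 ^ m) := Nat.one_le_pow _ _ (by norm_num)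
      obtain ⟨c, hc⟩ : ∃ c, 3 ^ (2 ^ m) = c + 1 := ⟨3 ^ (2 ^ m) - 1, by omega⟩
      rw [pow_succ, pow_mul, hc]
      simp only [Nat.add_sub_cancel]
      have : (c + 1) ^ 2 = c * (c + 1 + 1) + 1 := by ring
      rw [this]; simp
    apply Nat.ModEq.symm
    rw [Nat.modEq_iff_dvd' (Nat.one_le_pow _ _ (by norm_num)), h3, pow_succ]
    exact Nat.mul_dvd_mul h1 h2

/-- Under the hypotheses on `k`, the `2 ^ N`-th iterate of `g ↦ g ^ k` is the identity. -/
theorem pow_pow_eq {G : Type*} [Group G] [Finite G] (k : ℕ)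
    (hk₁ : ∀ g : G, (∃ j : ℕ, orderOf g = 2 ^ j) → g ^ k = g ^ 3)
    (hk₂ : ∀ g : G, Odd (orderOf g) → g ^ k = g) (g : G) :
    g ^ (k ^ (2 ^ Nat.card G)) = g := by
  set N := Nat.card G
  have ho : 0 < orderOf g := orderOf_pos g
  obtain ⟨a, b, hb, hab⟩ := Nat.exists_eq_two_pow_mul_odd ho.ne'
  have hoN : orderOf g ≤ N := orderOf_le_card
  have hbpos : 0 < b := hb.pos
  have h2a : 0 < 2 ^ a := by positivity
  -- the 2-part
  have hu : orderOf (g ^ b) = 2 ^ a := by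
    rw [orderOf_pow' g hbpos.ne', hab, Nat.gcd_mul_left_left]
    exact Nat.mul_div_cancel _ hbpos
  have hv : orderOf (g ^ (2 ^ a)) = b := by
    rw [orderOf_pow' g h2a.ne', hab, Nat.gcd_mul_right_left]
    exact Nat.mul_div_cancel_left _ h2a
  have h1 : k ≡ 3 [MOD 2 ^ a] := by
    have := hk₁ (g ^ b) ⟨a, hu⟩
    rw [pow_eq_pow_iff_modEq, hu] at this
    exact this
  have h2 : k ≡ 1 [MOD b] := by
    have := hk₂ (g ^ (2 ^ a)) (by rw [hv]; exact hb)
    nth_rewrite 2 [← pow_one (g ^ 2 ^ a)] at this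
    rw [pow_eq_pow_iff_modEq, hv] at this
    exact this
  have h3 : k ^ (2 ^ N) ≡ 1 [MOD 2 ^ a] := by
    have h4 : k ^ (2 ^ N) ≡ 3 ^ (2 ^ N) [MOD 2 ^ a] := h1.pow _
    have h5 : 3 ^ (2 ^ N) ≡ 1 [MOD 2 ^ a] := by
      apply (three_pow_modEq N).of_dvd
      apply pow_dvd_pow
      have : a < 2 ^ a := Nat.lt_two_pow_self
      have : 2 ^ a ≤ orderOf g := by rw [hab]; exact Nat.le_mul_of_pos_right _ hbpos
      omega
    exact h4.trans h5
  have h4 : k ^ (2 ^ N) ≡ 1 [MOD b] := by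
    have := h2.pow (2 ^ N)
    rwa [one_pow] at this
  have hcop : Nat.Coprime (2 ^ a) b := by
    apply Nat.Coprime.pow_left
    exact Nat.coprime_two_left.mpr hb
  have h5 : k ^ (2 ^ N) ≡ 1 [MOD orderOf g] := by
    rw [hab]
    exact (Nat.modEq_and_modEq_iff_modEq_mul hcop).mp ⟨h3, h4⟩
  nth_rewrite 2 [← pow_one g]
  rw [pow_eq_pow_iff_modEq]
  exact h5

/-- `k` is prime to the group order. -/
theorem coprime_k {G : Type*} [Group G] [Finite G] (k : ℕ)
    (hk₁ : ∀ g : G, (∃ j : ℕ, orderOf g = 2 ^ j) → g ^ k = g ^ 3)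
    (hk₂ : ∀ g : G, Odd (orderOf g) → g ^ k = g) : Nat.Coprime k (Nat.card G) := by
  rw [Nat.coprime_iff_gcd_eq_one]
  by_contra hne
  obtain ⟨q, hq, hqd⟩ := Nat.exists_prime_and_dvd hne
  have hqk : q ∣ k := hqd.trans (Nat.gcd_dvd_left _ _)
  have hqN : q ∣ Nat.card G := hqd.trans (Nat.gcd_dvd_right _ _)
  have : Fact q.Prime := ⟨hq⟩
  obtain ⟨g, hg⟩ := exists_prime_orderOf_dvd_card' q hqN
  have h1 := pow_pow_eq k hk₁ hk₂ g
  have h2 : g ^ (k ^ (2 ^ Nat.card G)) = 1 := by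
    rw [← orderOf_dvd_iff_pow_eq_one, hg]
    exact hqk.trans (dvd_pow_self k (by positivity))
  rw [h2] at h1
  rw [← h1, orderOf_one] at hg
  exact hq.one_lt.ne hg

/-- The value of a character at an involution. -/
theorem char_involution {G : Type*} [Group G] [Finite G] {χ : G → ℂ} (hχ : Cfsg.IsCharacter G χ)
    {x : G} (hx : orderOf x = 2) : ∃ m : ℤ, χ x = χ 1 - 2 * m := by
  classical
  obtain ⟨n, ρ, rfl⟩ := hχ
  obtain ⟨ι, hι, b, d, hd, -, hb, -⟩ := Cfsg.Agent.Lib.Helper3.exists_eigen_data ρ x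
  have h1 : ρ.character x = ∑ i, d i :=
    Cfsg.Agent.Lib.Helper3.trace_eq_sum_of_eigenbasis b (ρ x) d hb
  have h2 : ρ.character 1 = ∑ i : ι, (1 : ℂ) := by
    apply Cfsg.Agent.Lib.Helper3.trace_eq_sum_of_eigenbasis b (ρ 1) (fun _ => 1)
    intro i
    rw [map_one, one_smul]; rfl
  have hd' : ∀ i, d i = 1 ∨ d i = -1 := by
    intro i
    have := hd i
    rw [hx] at this
    have h : (d i - 1) * (d i + 1) = 0 := by ring_nf; rw [this]; ring
    rcases mul_eq_zero.mp h with h | h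
    · left; linear_combination h
    · right; linear_combination h
  refine ⟨((Finset.univ.filter (fun i => d i = -1)).card : ℤ), ?_⟩
  rw [h1, h2]
  have : ∀ i, d i = 1 - 2 * (if d i = -1 then 1 else 0) := by
    intro i
    rcases hd' i with h | h
    · rw [h]; norm_num
    · rw [h]; norm_num
  calc ∑ i, d i = ∑ i, (1 - 2 * (if d i = -1 then (1:ℂ) else 0)) :=
        Finset.sum_congr rfl (fun i _ => this i)
    _ = ∑ i : ι, (1 : ℂ) - 2 * ((Finset.univ.filter (fun i => d i = -1)).card : ℤ) := by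
        rw [Finset.sum_sub_distrib, ← Finset.mul_sum, Finset.sum_boole]
        push_cast; rfl

theorem result {G : Type*} [Group G] [Finite G] (M : Ideal Cfsg.AlgInt) (hM : Cfsg.IsPModular 2 M) (hev : Even (Nat.card G)) (k : ℕ) (hk₁ : ∀ g : G, (∃ j : ℕ, orderOf g = 2 ^ j) → g ^ k = g ^ 3) (hk₂ : ∀ g : G, Odd (orderOf g) → g ^ k = g) : Even (Nat.card {χ : Cfsg.IrrCharacter G // χ ∈ Cfsg.principalBlock M G ∧ Odd (Cfsg.charDegree (χ : G → ℂ)) ∧ ∀ g : G, (χ : G → ℂ) (g ^ k) = (χ : G → ℂ) g}) := by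
  classical
  have : Fintype G := Fintype.ofFinite G
  have : Finite (Cfsg.IrrCharacter G) := irr_finite G
  have : Fintype (Cfsg.IrrCharacter G) := Fintype.ofFinite _
  have hP := isPrime_of_isPModular hM
  have hcop := coprime_k k hk₁ hk₂
  set B := Cfsg.principalBlock M G with hBdef
  -- Step 1: the number of odd degree characters in the principal block is even
  obtain ⟨x, hx⟩ := exists_prime_orderOf_dvd_card' (G := G) 2 hev.two_dvd
  have hos := blockCoeff_eq_zero_of_singular (p := 2) hM B (isPBlock_principalBlock M)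
    (g := x) (by rw [hx])
  unfold Cfsg.blockCoeff at hos
  have hG0 : (Nat.card G : ℂ)⁻¹ ≠ 0 := by
    apply inv_ne_zero
    exact_mod_cast (Nat.card_pos (α := G)).ne'
  have hsum : ∑ᶠ χ ∈ B, (χ : G → ℂ) 1 * conj ((χ : G → ℂ) x) = 0 :=
    (mul_eq_zero.mp hos).resolve_left hG0
  rw [finsum_mem_eq_finite_toFinset_sum _ (Set.toFinite B)] at hsum
  set F := (Set.toFinite B).toFinset with hF
  have hm : ∀ χ : Cfsg.IrrCharacter G, ∃ m : ℤ, (χ : G → ℂ) x = (χ : G → ℂ) 1 - 2 * m :=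
    fun χ => char_involution (Cfsg.Agent.Lib.Helper80.isCharacter_of_isIrrCharacter χ.2) hx
  choose m hm using hm
  have hd : ∀ χ : Cfsg.IrrCharacter G, (χ : G → ℂ) 1 = (Cfsg.charDegree (χ : G → ℂ) : ℂ) :=
    fun χ => Cfsg.Agent.Lib.Helper80.char_one_eq_charDegree
      (Cfsg.Agent.Lib.Helper80.isCharacter_of_isIrrCharacter χ.2)
  have hsumZ : ∑ χ ∈ F, (Cfsg.charDegree (χ : G → ℂ) : ℤ) *
      ((Cfsg.charDegree (χ : G → ℂ) : ℤ) - 2 * m χ) = 0 := by
    have : ((∑ χ ∈ F, (Cfsg.charDegree (χ : G → ℂ) : ℤ) *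
      ((Cfsg.charDegree (χ : G → ℂ) : ℤ) - 2 * m χ) : ℤ) : ℂ) = 0 := by
      rw [← hsum]
      push_cast
      refine Finset.sum_congr rfl (fun χ _ => ?_)
      rw [hm χ, hd χ]
      simp only [map_sub, map_mul, Complex.conj_natCast, Complex.conj_ofNat, map_intCast]
    exact_mod_cast this
  have hcardF : Even (F.filter (fun χ : Cfsg.IrrCharacter G => Odd (Cfsg.charDegree (χ : G → ℂ)))).card := by
    have h2 := congrArg (Int.cast : ℤ → ZMod 2) hsumZ
    push_cast at h2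
    have h20 : (2 : ZMod 2) = 0 := rfl
    simp only [h20, zero_mul, sub_zero] at h2
    have h3 : ∀ χ : Cfsg.IrrCharacter G, ((Cfsg.charDegree (χ : G → ℂ) : ℕ) : ZMod 2) *
        ((Cfsg.charDegree (χ : G → ℂ) : ℕ) : ZMod 2) =
        if Odd (Cfsg.charDegree (χ : G → ℂ)) then 1 else 0 := by
      intro χ
      by_cases ho : Odd (Cfsg.charDegree (χ : G → ℂ))
      · rw [if_pos ho, (ZMod.natCast_eq_one_iff_odd).mpr ho, mul_one]
      · rw [if_neg ho, (ZMod.natCast_eq_zero_iff_even).mpr (Nat.not_odd_iff_even.mp ho), mul_zero]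
    rw [Finset.sum_congr rfl (fun χ _ => h3 χ), Finset.sum_boole] at h2
    exact (ZMod.natCast_eq_zero_iff_even).mp h2
  -- the set X
  let X := {χ : Cfsg.IrrCharacter G // χ ∈ B ∧ Odd (Cfsg.charDegree (χ : G → ℂ))}
  have hXcard : Nat.card X = (F.filter (fun χ : Cfsg.IrrCharacter G => Odd (Cfsg.charDegree (χ : G → ℂ)))).card := by
    apply Nat.subtype_card
    intro χ
    rw [Finset.mem_filter, hF, Set.Finite.mem_toFinset]
  -- Step 2: the Galois permutation
  have hirr : ∀ χ : Cfsg.IrrCharacter G, Cfsg.IsIrrCharacter G (fun g => (χ : G → ℂ) (g ^ k)) :=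
    fun χ => Cfsg.Agent.Lib.Helper75.isIrrCharacter_pow χ.2 k hcop
  have hcent : ∀ g : G, Subgroup.centralizer ({g ^ k} : Set G) = Subgroup.centralizer ({g} : Set G) := by
    intro g
    apply le_antisymm
    · intro y hy
      rw [Subgroup.mem_centralizer_singleton_iff] at hy ⊢
      have h1 := pow_pow_eq k hk₁ hk₂ g
      have h2 : k ^ (2 ^ Nat.card G) = k * k ^ (2 ^ Nat.card G - 1) := by
        rw [← pow_succ']
        congr 1
        have : 0 < 2 ^ Nat.card G := by positivity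
        omega
      rw [h2, pow_mul] at h1
      have hc : Commute (g ^ k) y := hy.symm
      have h3 := (hc.pow_left (k ^ (2 ^ Nat.card G - 1))).eq
      rw [h1] at h3
      exact h3.symm
    · intro y hy
      rw [Subgroup.mem_centralizer_singleton_iff] at hy ⊢
      have hc : Commute g y := hy.symm
      exact (hc.pow_left k).eq.symm
  let f : Function.End X := fun χ =>
    ⟨⟨fun g => (χ.1 : G → ℂ) (g ^ k), hirr χ.1⟩, by
      constructor
      · intro g
        have h1 := χ.2.1 (g ^ k)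
        unfold Cfsg.centralChar at h1 ⊢
        rw [hcent g] at h1
        simpa using h1
      · have : Cfsg.charDegree (fun g => (χ.1 : G → ℂ) (g ^ k)) = Cfsg.charDegree (χ.1 : G → ℂ) := by
          unfold Cfsg.charDegree
          simp
        rw [this]
        exact χ.2.2⟩
  have hfpow : ∀ (j : ℕ) (χ : X) (g : G), (((f ^ j) χ).1 : G → ℂ) g = (χ.1 : G → ℂ) (g ^ (k ^ j)) := by
    intro j
    induction j with
    | zero => intro χ g; rw [pow_zero, pow_zero, pow_one]; rfl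
    | succ j ih =>
      intro χ g
      rw [pow_succ]
      show (((f ^ j) (f χ)).1 : G → ℂ) g = _
      rw [ih (f χ) g]
      show (χ.1 : G → ℂ) ((g ^ (k ^ j)) ^ k) = _
      rw [← pow_mul, ← pow_succ]
  have hf1 : f ^ 2 ^ (Nat.card G) = 1 := by
    funext χ
    apply Subtype.ext
    apply Subtype.ext
    funext g
    rw [hfpow, pow_pow_eq k hk₁ hk₂ g]
    rfl
  have hmod := Equiv.Perm.card_fixedPoints_modEq (p := 2) hf1
  rw [← Nat.card_eq_fintype_card, ← Nat.card_eq_fintype_card] at hmod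
  have hfix : Nat.card {χ : Cfsg.IrrCharacter G // χ ∈ Cfsg.principalBlock M G ∧ Odd (Cfsg.charDegree (χ : G → ℂ)) ∧ ∀ g : G, (χ : G → ℂ) (g ^ k) = (χ : G → ℂ) g} = Nat.card (Function.fixedPoints f) := by
    apply Nat.card_congr
    refine ⟨fun χ => ⟨⟨χ.1, χ.2.1, χ.2.2.1⟩, ?_⟩, fun χ => ⟨χ.1.1, χ.1.2.1, χ.1.2.2, ?_⟩, ?_, ?_⟩
    · show f _ = _
      apply Subtype.ext
      apply Subtype.ext
      funext g
      exact χ.2.2.2 g
    · intro g
      have h1 : f χ.1 = χ.1 := χ.2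
      have h2 := congrArg (fun y : X => (y.1 : G → ℂ) g) h1
      exact h2
    · intro χ; rfl
    · intro χ; rfl
  rw [hfix]
  rw [hXcard] at hmod
  have h0 : (F.filter (fun χ : Cfsg.IrrCharacter G => Odd (Cfsg.charDegree (χ : G → ℂ)))).card ≡ 0 [MOD 2] :=
    (Nat.modEq_zero_iff_dvd).mpr hcardF.two_dvd
  exact (Nat.modEq_zero_iff_dvd.mp (hmod.symm.trans h0)) |> even_iff_two_dvd.mpr

end Cfsg.Agent.S4550
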