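import Cfsg.Statements.S4553
import Cfsg.Agent.Lib.Helper79.PResFixed

set_option autoImplicit false
open Cfsg

namespace Cfsg.Agent.S4553

/-- Let G be a finite group, p a prime, P a Sylow p-subgroup, N the p-residual of G (the subgroup generated by the elements of order prime to p, the smallest normal subgroup with G/N a p-group), and M a maximal ideal of the algebraic integers containing p; suppose G/N is cyclic and nontrivial. Let k be a natural number with g ^ k = g ^ (1 + p) for every p-element g and g ^ k = g for every element g of order prime to p (so that χ (g ^ k) is the image of χ g under the field automorphism that raises p-power roots of unity to the power 1 + p and fixes the roots of unity of order prime to p). Then the number of members χ of the principal block of G of degree prime to p with χ (g ^ k) = χ g for all g equals p times the number of members θ of the principal block of N of degree prime to p that are invariant under conjugation by P and satisfy θ (n ^ k) = θ n for all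 n. -/
theorem result {G : Type*} [Group G] [Finite G] (p : ℕ) [Fact p.Prime] (M : Ideal Cfsg.AlgInt) (hM : Cfsg.IsPModular p M) (P : Sylow p G) (N : Subgroup G) [hN : N.Normal] (hNres : N = Cfsg.pResidual p G) (hcyc : IsCyclic (G ⧸ N)) (hnt : N ≠ ⊤) (k : ℕ) (hk₁ : ∀ g : G, (∃ j : ℕ, orderOf g = p ^ j) → g ^ k = g ^ (1 + p)) (hk₂ : ∀ g : G, Nat.Coprime (orderOf g) p → g ^ k = g) : Nat.card {χ : Cfsg.IrrCharacter G // χ ∈ Cfsg.principalBlock M G ∧ ¬ p ∣ Cfsg.charDegree (χ : G → ℂ) ∧ ∀ g : G, (χ : G → ℂ) (g ^ k) = (χ : G → ℂ) g} = p * Nat.card {θ : Cfsg.IrrCharacter ↥N // θ ∈ Cfsg.principalBlock M ↥N ∧ ¬ p ∣ Cfsg.charDegree (θ : ↥N → ℂ) ∧ (∀ x ∈ (P : Subgroup G), ∀ n : ↥N, (θ : ↥N → ℂ) ⟨x * n * x⁻¹, hN.conj_mem n n.2 x⟩ = (θ : ↥N → ℂ) n) ∧ ∀ n : ↥N, (θ : ↥N → ℂ) (n ^ k) = (θ : ↥N → ℂ) n} := by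
  classical
  subst hNres
  have hp : p.Prime := Fact.out
  have hreg : ∀ g : G, ¬ p ∣ orderOf g → g ∈ Cfsg.pResidual p G := by
    intro g hg
    exact Subgroup.subset_closure ((Nat.Prime.coprime_iff_not_dvd hp).mpr hg).symm
  have hQ := Cfsg.Agent.Lib.Helper47.isPGroup_quotient_pResidual p G
  obtain ⟨m, hm⟩ := IsPGroup.iff_card.mp hQ
  have hidx : (Cfsg.pResidual p G).index = p ^ m := by
    rw [Subgroup.index_eq_card]
    exact hm
  have hm0 : m ≠ 0 := by
    rintro rfl
    rw [pow_zero] at hidx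
    exact hnt (Subgroup.index_eq_one.mp hidx)
  have hk := Cfsg.Agent.Lib.Helper79.coprime_of_pow_conditions hk₁ hk₂
  have hpG : p ∣ Nat.card G := by
    rw [← Subgroup.card_mul_index (Cfsg.pResidual p G), hidx]
    exact Dvd.dvd.mul_left (dvd_pow_self p hm0) _
  have hkp : k ≡ 1 [MOD p] := by
    obtain ⟨g, hg⟩ := exists_prime_orderOf_dvd_card' p hpG
    have h1 := hk₁ g ⟨1, by rw [hg, pow_one]⟩
    have h2 : g ^ p = 1 := by
      rw [← hg]
      exact pow_orderOf_eq_one g
    rw [pow_add, pow_one, h2, mul_one] at h1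
    have h3 : g ^ k = g ^ 1 := by rw [h1, pow_one]
    have h4 := pow_eq_pow_iff_modEq.mp h3
    rwa [hg] at h4
  exact Cfsg.Agent.Lib.Helper79.card_fixed_ppow hM P (Cfsg.pResidual p G) hreg
    (fun f j hf => Cfsg.Agent.Lib.Helper79.hom_eq_one_of_pow_pResidual f j hf)
    (Cfsg.Agent.Lib.Helper47.pResidual_sup_sylow P) hcyc hm0 hidx k hk hk₁ hkp

end Cfsg.Agent.S4553
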