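import Mathlib
import Cfsg.Statements.S4558

set_option autoImplicit false
open Cfsg

namespace Cfsg.Agent.S4558

open Polynomial

/-- A multiset of `p^j`-th roots of unity with zero sum has cardinality divisible by `p`. -/
theorem dvd_card_of_sum_eq_zero {p : ℕ} [Fact p.Prime] (j : ℕ) (S : Multiset ℂ)
    (hS : ∀ μ ∈ S, μ ^ (p ^ j) = 1) (hsum : S.sum = 0) : p ∣ Multiset.card S := by
  rcases Nat.eq_zero_or_pos j with rfl | hj
  · have h1 : ∀ μ ∈ S, μ = 1 := by
      intro μ hμ
      simpa using hS μ hμ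
    have h2 : S = Multiset.replicate (Multiset.card S) 1 := Multiset.eq_replicate.mpr ⟨rfl, h1⟩
    rw [h2, Multiset.sum_replicate] at hsum
    simp only [nsmul_eq_mul, mul_one, Nat.cast_eq_zero] at hsum
    rw [hsum]
    exact dvd_zero p
  · obtain ⟨k, rfl⟩ : ∃ k, j = k + 1 := ⟨j - 1, by omega⟩
    have hp : (p : ℕ).Prime := Fact.out
    have hne : p ^ (k + 1) ≠ 0 := pow_ne_zero _ hp.ne_zero
    haveI : NeZero (p ^ (k + 1)) := ⟨hne⟩
    set ζ : ℂ := Complex.exp (2 * Real.pi * Complex.I / ((p ^ (k + 1) : ℕ) : ℂ)) with hζdef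
    have hζ : IsPrimitiveRoot ζ (p ^ (k + 1)) := Complex.isPrimitiveRoot_exp _ hne
    classical
    let a : ℂ → ℕ := fun μ => if h : ∃ i, ζ ^ i = μ then h.choose else 0
    have ha : ∀ μ ∈ S, ζ ^ a μ = μ := by
      intro μ hμ
      obtain ⟨i, -, hi⟩ := hζ.eq_pow_of_pow_eq_one (hS μ hμ)
      have h : ∃ i, ζ ^ i = μ := ⟨i, hi⟩
      simp only [a, dif_pos h]
      exact h.choose_spec
    let F : ℤ[X] := (S.map (fun μ => (X : ℤ[X]) ^ a μ)).sum
    have hF0 : aeval ζ F = 0 := by
      simp only [F, map_multiset_sum, Multiset.map_map, Function.comp_def, map_pow, aeval_X]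
      rw [Multiset.map_congr rfl ha, Multiset.map_id']
      exact hsum
    have hF1 : F.eval 1 = (Multiset.card S : ℤ) := by
      have : F.eval 1 = evalRingHom 1 F := rfl
      rw [this]
      simp only [F, map_multiset_sum, Multiset.map_map, Function.comp_def, map_pow, coe_evalRingHom,
        eval_X, one_pow]
      simp
    have hdvd : cyclotomic (p ^ (k + 1)) ℤ ∣ F := by
      rw [cyclotomic_eq_minpoly hζ (Nat.pos_of_ne_zero hne)]
      exact minpoly.isIntegrallyClosed_dvd (hζ.isIntegral (Nat.pos_of_ne_zero hne)) hF0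
    have h3 : (cyclotomic (p ^ (k + 1)) ℤ).eval 1 ∣ F.eval 1 := by
      obtain ⟨c, hc⟩ := hdvd
      rw [hc, eval_mul]
      exact dvd_mul_right _ _
    rw [eval_one_cyclotomic_prime_pow, hF1] at h3
    exact Int.natCast_dvd_natCast.mp h3

/-- Let χ be a character of the finite group G and g an element of p-power order for the prime p. If χ g = 0, then p divides the degree of χ. -/
theorem result {G : Type*} [Group G] [Finite G] (p : ℕ) [Fact p.Prime] (χ : G → ℂ) (hχ : Cfsg.IsCharacter G χ) (g : G) (hg : ∃ j : ℕ, orderOf g = p ^ j) (h0 : χ g = 0) : p ∣ Cfsg.charDegree χ := by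
  obtain ⟨n, ρ, rfl⟩ := hχ
  obtain ⟨j, hj⟩ := hg
  have hsplit : (ρ g).charpoly.Splits := IsAlgClosed.splits _
  have htr : (ρ g).charpoly.roots.sum = 0 := by
    rw [← Module.End.trace_eq_sum_roots_charpoly_of_splits hsplit]
    exact h0
  have hroots : ∀ μ ∈ (ρ g).charpoly.roots, μ ^ (p ^ j) = 1 := by
    intro μ hμ
    have hroot : (ρ g).charpoly.IsRoot μ := (Polynomial.mem_roots'.mp hμ).2
    have hev : Module.End.HasEigenvalue (ρ g) μ :=
      (Module.End.hasEigenvalue_iff_isRoot_charpoly (ρ g) μ).mpr hroot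
    obtain ⟨v, hv⟩ := hev.exists_hasEigenvector
    have h1 := hv.pow_apply (p ^ j)
    have h2 : (ρ g) ^ (p ^ j) = 1 := by
      rw [← map_pow, ← hj, pow_orderOf_eq_one, map_one]
    rw [h2] at h1
    have h3 : (μ ^ (p ^ j) - 1) • v = 0 := by
      rw [sub_smul, ← h1]
      simp
    rcases smul_eq_zero.mp h3 with h4 | h4
    · exact sub_eq_zero.mp h4
    · exact absurd h4 hv.2
  have hcard : Multiset.card (ρ g).charpoly.roots = n := by
    rw [Polynomial.splits_iff_card_roots.mp hsplit, LinearMap.charpoly_natDegree,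
      Module.finrank_fin_fun]
  have hdeg : Cfsg.charDegree ρ.character = n := by
    unfold Cfsg.charDegree
    rw [Representation.char_one, Module.finrank_fin_fun]
    simp
  rw [hdeg, ← hcard]
  exact dvd_card_of_sum_eq_zero j _ hroots htr

end Cfsg.Agent.S4558
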