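import Cfsg.Statements.S4560
import Cfsg.Agent.Lib.Helper93.SChH

set_option autoImplicit false
open Cfsg

namespace Cfsg.Agent.S4560

/-- For n ≥ 7 the alternating group on n letters has an irreducible character that vanishes at some 2-element and is the restriction of an irreducible character of the symmetric group, and an irreducible character that vanishes at some element of order 3 and is the restriction of an irreducible character of the symmetric group. -/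
theorem result (n : ℕ) (hn : 7 ≤ n) : (∃ χ : Cfsg.IrrCharacter (alternatingGroup (Fin n)), (∃ x : alternatingGroup (Fin n), (∃ j : ℕ, orderOf x = 2 ^ j) ∧ (χ : alternatingGroup (Fin n) → ℂ) x = 0) ∧ ∃ ψ : Cfsg.IrrCharacter (Equiv.Perm (Fin n)), ∀ x : alternatingGroup (Fin n), (ψ : Equiv.Perm (Fin n) → ℂ) x = (χ : alternatingGroup (Fin n) → ℂ) x) ∧ (∃ χ : Cfsg.IrrCharacter (alternatingGroup (Fin n)), (∃ y : alternatingGroup (Fin n), orderOf y = 3 ∧ (χ : alternatingGroup (Fin n) → ℂ) y = 0) ∧ ∃ ψ : Cfsg.IrrCharacter (Equiv.Perm (Fin n)), ∀ x : alternatingGroup (Fin n), (ψ : Equiv.Perm (Fin n) → ℂ) x = (χ : alternatingGroup (Fin n) → ℂ) x) := by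
  obtain ⟨x, hx1, hx8, hx0⟩ := Cfsg.Agent.Lib.Helper93.SCh.exists_two_elt n hn
  obtain ⟨y, hy1, hy3, hyne, hy0⟩ := Cfsg.Agent.Lib.Helper93.SCh.exists_three_elt n hn
  refine ⟨?_, ?_⟩
  · obtain ⟨χ, hχ, ψ, hψ⟩ := Cfsg.Agent.Lib.Helper93.SCh.alt_char n hn x hx1 hx0
    refine ⟨χ, ⟨⟨x, Equiv.Perm.mem_alternatingGroup.2 hx1⟩, ?_, hχ⟩, ψ, hψ⟩
    have h8 : (⟨x, Equiv.Perm.mem_alternatingGroup.2 hx1⟩ : alternatingGroup (Fin n)) ^ 8 = 1 :=
      Subtype.ext (by simpa using hx8)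
    have hd : orderOf (⟨x, Equiv.Perm.mem_alternatingGroup.2 hx1⟩ : alternatingGroup (Fin n)) ∣
        2 ^ 3 := orderOf_dvd_of_pow_eq_one h8
    obtain ⟨j, -, hj⟩ := (Nat.dvd_prime_pow Nat.prime_two).1 hd
    exact ⟨j, hj⟩
  · obtain ⟨χ, hχ, ψ, hψ⟩ := Cfsg.Agent.Lib.Helper93.SCh.alt_char n hn y hy1 hy0
    refine ⟨χ, ⟨⟨y, Equiv.Perm.mem_alternatingGroup.2 hy1⟩, ?_, hχ⟩, ψ, hψ⟩
    have h3 : (⟨y, Equiv.Perm.mem_alternatingGroup.2 hy1⟩ : alternatingGroup (Fin n)) ^ 3 = 1 :=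
      Subtype.ext (by simpa using hy3)
    have hne : (⟨y, Equiv.Perm.mem_alternatingGroup.2 hy1⟩ : alternatingGroup (Fin n)) ≠ 1 :=
      fun h => hyne (congrArg Subtype.val h)
    have : Fact (Nat.Prime 3) := ⟨by norm_num⟩
    exact orderOf_eq_prime h3 hne

end Cfsg.Agent.S4560
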