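import Cfsg.Statements.S4563
import Cfsg.Agent.Lib.Helper15.FRInd
import Cfsg.Agent.S0006

set_option autoImplicit false
open Cfsg

namespace Cfsg.Agent.S4563

open Cfsg.Agent.Lib Cfsg.Agent.Lib.Helper15 in
/-- Let χ be an irreducible character of the finite group H that is fully ramified over the normal subgroup Z: the restriction of χ to Z is e times an irreducible character of Z with e ^ 2 equal to the index of Z. If K is a proper normal subgroup of H containing Z and χ is induced from a character of K, then H/K is solvable; in particular, if K is solvable then so is H. -/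
theorem result {H : Type*} [Group H] [Fintype H] (Z : Subgroup H) [Z.Normal] (χ : Cfsg.IrrCharacter H) (hfr : ∃ (θ : Cfsg.IrrCharacter ↥Z) (e : ℕ), e ^ 2 = Z.index ∧ ∀ z : ↥Z, (χ : H → ℂ) z = (e : ℂ) * (θ : ↥Z → ℂ) z) (K : Subgroup H) [K.Normal] [Fintype K] (hZK : Z ≤ K) (hK : K ≠ ⊤) (φ : ↥K → ℂ) (hφ : Cfsg.IsCharacter ↥K φ) (hind : Cfsg.indFun K φ = (χ : H → ℂ)) : Group.IsSolvable (H ⧸ K) ∧ (Group.IsSolvable ↥K → Group.IsSolvable H) := by
  classical
  have : Fintype Z := Fintype.ofFinite Z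
  obtain ⟨θ, e, he, hres⟩ := hfr
  have hχ := χ.2
  have hθ := θ.2
  have hsolv : Group.IsSolvable (H ⧸ K) := by
    apply Cfsg.Agent.S0006.result
    intro p hp
    have : Fact p.Prime := ⟨hp⟩
    obtain ⟨R⟩ := (inferInstance : Nonempty (Sylow p H))
    obtain ⟨⟨r, hr⟩, hSidx, hfrat⟩ := sylow_setup Z K hZK R
    have : Fintype ↥((Z ⊔ (R : Subgroup H)) ⊓ K) := Fintype.ofFinite _
    have hZA : Z ≤ (Z ⊔ (R : Subgroup H)) ⊓ K := le_inf le_sup_left hZK
    have h1 : K.relIndex (Z ⊔ (R : Subgroup H)) ∣ p ^ r := by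
      rw [← hr]
      exact Subgroup.relIndex_dvd_of_le_left _ hZK
    obtain ⟨n, -, hn⟩ := (Nat.dvd_prime_pow hp).mp h1
    obtain ⟨ζ₀, hζ₀, hk₀, hβ⟩ := fr_beta_induced Z e hχ hθ he hres K hp
      (Z ⊔ (R : Subgroup H)) _ hZA rfl hn hSidx φ hφ hind
    obtain ⟨M, hKM, hM⟩ := fr_core Z e hχ hθ he hres K hp (Z ⊔ (R : Subgroup H)) _ hZA rfl hr
      hSidx hfrat hζ₀ hk₀ hβ
    obtain ⟨n', hn', hcop⟩ := pcompl_quot Z K hZK R M hKM hM
    exact ⟨M.map (QuotientGroup.mk' K), (Cfsg.Agent.S0006.comp_iff hp _).mpr ⟨⟨n', hn'⟩, hcop⟩⟩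
  refine ⟨hsolv, fun hKs => ?_⟩
  exact Group.isSolvable_of_ker_le_range K.subtype (QuotientGroup.mk' K)
    (by rw [QuotientGroup.ker_mk', Subgroup.range_subtype])

end Cfsg.Agent.S4563
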