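import Cfsg.Statements.S4564
import Cfsg.Agent.Lib.Helper15.FRCore

set_option autoImplicit false
open Cfsg

namespace Cfsg.Agent.S4564

open Cfsg.Agent.Lib Cfsg.Agent.Lib.Helper15 in
/-- Let χ be an irreducible character of the finite group H that is fully ramified over the normal subgroup Z: the restriction of χ to Z is e times an irreducible character of Z with e ^ 2 equal to the index of Z. Let K be a normal subgroup of H containing Z and P a cyclic Sylow p-subgroup of H/K. Then P has a complement in H/K: a subgroup meeting P trivially whose product with P is the whole group. -/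
theorem result {H : Type*} [Group H] [Finite H] (Z : Subgroup H) [Z.Normal] (χ : Cfsg.IrrCharacter H) (hfr : ∃ (θ : Cfsg.IrrCharacter ↥Z) (e : ℕ), e ^ 2 = Z.index ∧ ∀ z : ↥Z, (χ : H → ℂ) z = (e : ℂ) * (θ : ↥Z → ℂ) z) (K : Subgroup H) [K.Normal] (hZK : Z ≤ K) (p : ℕ) [Fact p.Prime] (P : Sylow p (H ⧸ K)) (hcyc : IsCyclic P) : ∃ M : Subgroup (H ⧸ K), M.IsComplement' (P : Subgroup (H ⧸ K)) := by
  classical
  have : Fintype H := Fintype.ofFinite H
  have : Fintype Z := Fintype.ofFinite Z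
  obtain ⟨θ, e, he, hres⟩ := hfr
  have hχ := χ.2
  have hθ := θ.2
  have hp : p.Prime := Fact.out
  obtain ⟨R⟩ := (inferInstance : Nonempty (Sylow p H))
  obtain ⟨⟨r, hr⟩, hSidx, hfrat⟩ := sylow_setup Z K hZK R
  have : Fintype ↥((Z ⊔ (R : Subgroup H)) ⊓ K) := Fintype.ofFinite _
  have hZA : Z ≤ (Z ⊔ (R : Subgroup H)) ⊓ K := le_inf le_sup_left hZK
  have : Fintype (Cfsg.IrrCharacter ↥((Z ⊔ (R : Subgroup H)) ⊓ K)) := Fintype.ofFinite _
  have hχA : Cfsg.IsCharacter ↥((Z ⊔ (R : Subgroup H)) ⊓ K)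
      (fun a : ↥((Z ⊔ (R : Subgroup H)) ⊓ K) => (χ : H → ℂ) a) :=
    Helper80.isCharacter_restrict _ (Helper3.isCharacter_of_irr hχ)
  have hk : ∀ ζ : Cfsg.IrrCharacter ↥((Z ⊔ (R : Subgroup H)) ⊓ K), ∃ m : ℕ,
      Cfsg.classInner (fun a : ↥((Z ⊔ (R : Subgroup H)) ⊓ K) => (χ : H → ℂ) a)
        (ζ : ↥((Z ⊔ (R : Subgroup H)) ⊓ K) → ℂ) = m :=
    fun ζ => Helper75.classInner_char_irr_nat hχA ζ.2
  choose k hk using hk
  have hsum := fr_sum_sq Z e hχ hθ he hres _ hZA k hk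
  have hex : ∃ ζ : Cfsg.IrrCharacter ↥((Z ⊔ (R : Subgroup H)) ⊓ K), k ζ ≠ 0 := by
    by_contra hno
    push Not at hno
    have h0 : ∑ ζ : Cfsg.IrrCharacter ↥((Z ⊔ (R : Subgroup H)) ⊓ K), (k ζ) ^ 2 = 0 :=
      Finset.sum_eq_zero (fun ζ _ => by rw [hno ζ]; rfl)
    rw [h0] at hsum
    exact Subgroup.index_ne_zero_of_finite hsum.symm
  obtain ⟨ζ, hζk⟩ := hex
  have hζk' : Cfsg.classInner (fun a : ↥((Z ⊔ (R : Subgroup H)) ⊓ K) => (χ : H → ℂ) a)
      (ζ : ↥((Z ⊔ (R : Subgroup H)) ⊓ K) → ℂ) ≠ 0 := by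
    rw [hk ζ]
    exact_mod_cast hζk
  have hSp : IsPGroup p ↥((Z ⊔ (R : Subgroup H)).map (QuotientGroup.mk' K)) := by
    have h1 : (Z ⊔ (R : Subgroup H)).map (QuotientGroup.mk' K)
        = (R : Subgroup H).map (QuotientGroup.mk' K) := by
      rw [Subgroup.map_sup, (Subgroup.map_eq_bot_iff _).mpr
        (by rw [QuotientGroup.ker_mk']; exact hZK), bot_sup_eq]
    rw [h1]
    exact R.2.map _
  obtain ⟨Q, hSQ, hQ⟩ := exists_cyclic_ge P hcyc _ hSp
  have hβ := fr_beta_cyclic Z e hχ hθ he hres K hp (Z ⊔ (R : Subgroup H)) _ hZA rfl hr hSidx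
    Q hQ hSQ ζ.2 hζk'
  obtain ⟨M, hKM, hM⟩ := fr_core Z e hχ hθ he hres K hp (Z ⊔ (R : Subgroup H)) _ hZA rfl hr
    hSidx hfrat ζ.2 hζk' hβ
  obtain ⟨n, hn, hcop⟩ := pcompl_quot Z K hZK R M hKM hM
  exact ⟨M.map (QuotientGroup.mk' K), isComplement'_sylow_of_index P _ hn hcop⟩

end Cfsg.Agent.S4564
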