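import Cfsg.Statements.S4565
import Cfsg.Agent.Lib.Helper15.FRBasic
import Cfsg.Agent.Lib.Helper80.CharOps

set_option autoImplicit false
open Cfsg

namespace Cfsg.Agent.S4565

open scoped ComplexConjugate
open Cfsg.Agent.Lib Cfsg.Agent.Lib.Helper15

/-- Let χ be an irreducible character of the finite group H that is fully ramified over the normal subgroup Z: the restriction of χ to Z is e times an irreducible character of Z with e ^ 2 equal to the index of Z. If Z ≠ H, then H/Z has no cyclic subgroup that is its own centralizer. -/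
theorem result {H : Type*} [Group H] [Finite H] (Z : Subgroup H) [Z.Normal] (χ : Cfsg.IrrCharacter H) (hfr : ∃ (θ : Cfsg.IrrCharacter ↥Z) (e : ℕ), e ^ 2 = Z.index ∧ ∀ z : ↥Z, (χ : H → ℂ) z = (e : ℂ) * (θ : ↥Z → ℂ) z) (hZ : Z ≠ ⊤) (C : Subgroup (H ⧸ Z)) (hC : IsCyclic C) : Subgroup.centralizer (C : Set (H ⧸ Z)) ≠ C := by
  classical
  intro hcent
  obtain ⟨⟨θ, hθ⟩, e, he, hres⟩ := hfr
  obtain ⟨χ, hχ⟩ := χ
  change ∀ z : Z, χ z = (e : ℂ) * θ z at hres
  have : Fintype H := Fintype.ofFinite H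
  have : Fintype Z := Fintype.ofFinite Z
  have : Fintype (Cfsg.IrrCharacter H) := Fintype.ofFinite _
  have hZn : Z.Normal := inferInstance
  have hχc : Cfsg.IsCharacter H χ := Helper3.isCharacter_of_irr hχ
  have hχcl : Cfsg.IsClassFunction H χ := Helper80.isClassFunction_of_isCharacter hχc
  have he0 : e ≠ 0 := by
    rintro rfl
    have h0 : Z.index ≠ 0 := Subgroup.index_ne_zero_of_finite
    apply h0
    rw [← he]
    norm_num
  have he0' : (e : ℂ) ≠ 0 := Nat.cast_ne_zero.mpr he0
  have hvan : ∀ h : H, h ∉ Z → χ h = 0 :=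
    Helper75.vanish_off_of_sq_eq Z hχ hθ e (funext fun z => by simpa using hres z) he
  have hinv : ∀ (h : H) (z : Z) (hz : h * z * h⁻¹ ∈ Z), θ ⟨h * z * h⁻¹, hz⟩ = θ z := by
    intro h z hz
    have h1 := hres ⟨h * z * h⁻¹, hz⟩
    have h2 := hres z
    have h3 : χ (h * z * h⁻¹) = χ z := hχcl z h
    rw [h3, h2] at h1
    exact (mul_left_cancel₀ he0' h1).symm
  -- a generator of `C`
  obtain ⟨g, hg⟩ := hC.exists_generator
  have hone : ∀ x : C, g = 1 → x = 1 := by
    intro x h1
    have := hg x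
    rw [h1] at this
    simpa using this
  by_cases hg1 : g = 1
  · apply hZ
    rw [eq_top_iff]
    intro h _
    have hmem : (h : H ⧸ Z) ∈ Subgroup.centralizer (C : Set (H ⧸ Z)) := by
      rw [Subgroup.mem_centralizer_iff]
      intro y hy
      have hy1 : y = 1 := congrArg Subtype.val (hone ⟨y, hy⟩ hg1)
      rw [hy1, one_mul, mul_one]
    rw [hcent] at hmem
    exact (QuotientGroup.eq_one_iff h).mp (congrArg Subtype.val (hone ⟨_, hmem⟩ hg1))
  -- the preimage `D` of `C`
  set π : H →* H ⧸ Z := QuotientGroup.mk' Z with hπ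
  set D : Subgroup H := C.comap π with hD
  have : Fintype D := Fintype.ofFinite D
  have hZD : Z ≤ D := fun z hz => by
    show π z ∈ C
    have : π z = 1 := (QuotientGroup.eq_one_iff z).mpr hz
    rw [this]
    exact C.one_mem
  let f : D →* C := (π.comp D.subtype).codRestrict C (fun d => d.2)
  have hker : ∀ b : D, f b = 1 ↔ (b : H) ∈ Z := by
    intro b
    rw [← QuotientGroup.eq_one_iff, Subtype.ext_iff]
    rfl
  obtain ⟨η, hη, hηZ⟩ := ext_of_cyclic_hom Z D hZD f hker θ hθ (fun b _ a h => hinv b a h)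
  have hηc : Cfsg.IsCharacter D η := Helper3.isCharacter_of_irr hη
  have hηcl : Cfsg.IsClassFunction D η := Helper80.isClassFunction_of_isCharacter hηc
  obtain ⟨lam, ζ, hlg, hlinj, hl1, hlpow⟩ := exists_faithful_hom g hg
  set n := orderOf g with hn
  let Λ : D →* ℂˣ := lam.comp f
  have hΛ1 : ∀ d : D, Λ d = 1 ↔ (d : H) ∈ Z := fun d =>
    ⟨fun h => (hker d).mp (hl1 _ h), fun h => by
      show lam (f d) = 1
      rw [(hker d).mpr h, map_one]⟩
  have hΛζ : ∀ d : D, Λ d = ζ ↔ f d = g := fun d =>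
    ⟨fun h => hlinj _ h, fun h => by
      show lam (f d) = ζ
      rw [h, hlg]⟩
  have hΛpow : ∀ d : D, ((Λ d : ℂˣ) : ℂ) ^ n = 1 := fun d => by
    have h1 : Λ d ^ n = 1 := hlpow (f d)
    have h2 : ((Λ d ^ n : ℂˣ) : ℂ) = 1 := by rw [h1]; rfl
    simpa using h2
  set w : ℂ := ((ζ⁻¹ : ℂˣ) : ℂ) with hw
  have hwpow : w ^ n = 1 := by
    have h1 : ζ ^ n = 1 := by rw [← hlg]; exact hlpow g
    have h2 : (ζ⁻¹) ^ n = 1 := by rw [inv_pow, h1, inv_one]
    rw [hw, ← Units.val_pow_eq_pow_val, h2]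
    rfl
  -- the characters `λ^j η` of `D`
  set ηj : ℕ → D → ℂ := fun j d => ((Λ d : ℂˣ) : ℂ) ^ j * η d with hηjdef
  have hηj : ∀ j : ℕ, Cfsg.IsCharacter D (ηj j) := by
    intro j
    have h1 := isCharacter_of_hom (Λ ^ j)
    have h2 := Helper80.isCharacter_mul h1 hηc
    convert h2 using 1
    funext d
    simp [hηjdef, Pi.mul_apply]
  have hΨc : ∀ j, Cfsg.IsCharacter H (Cfsg.indFun D (ηj j)) :=
    fun j => Helper80.isCharacter_indFun D (hηj j)
  -- the sum of the induced characters is a multiple of `χ`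
  have hsum : ∀ h : H, ∑ j ∈ Finset.range n, Cfsg.indFun D (ηj j) h
      = ((Nat.card D : ℂ)⁻¹ * (n : ℂ) * (Nat.card H : ℂ) / (e : ℂ)) * χ h := by
    intro h
    simp only [Cfsg.indFun]
    rw [← Finset.mul_sum, Finset.sum_comm]
    have key : ∀ y : H, ∑ j ∈ Finset.range n, Cfsg.extendByZero D (ηj j) y
        = (n : ℂ) * Cfsg.extendByZero Z θ y := by
      intro y
      by_cases hyD : y ∈ D
      · simp only [Helper75.extendByZero_mem D _ hyD, hηjdef]
        rw [← Finset.sum_mul, fr_geom_root (hΛpow ⟨y, hyD⟩)]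
        by_cases hyZ : y ∈ Z
        · rw [Helper75.extendByZero_mem Z _ hyZ]
          have h1 : ((Λ ⟨y, hyD⟩ : ℂˣ) : ℂ) = 1 := by
            rw [(hΛ1 ⟨y, hyD⟩).mpr hyZ]; rfl
          rw [if_pos h1, ← hηZ ⟨y, hyZ⟩]
        · rw [Helper75.extendByZero_not_mem Z _ hyZ]
          have h1 : ((Λ ⟨y, hyD⟩ : ℂˣ) : ℂ) ≠ 1 := by
            intro h1
            exact hyZ ((hΛ1 ⟨y, hyD⟩).mp (Units.ext h1))
          rw [if_neg h1]
          simp
      · have hyZ : y ∉ Z := fun h => hyD (hZD h)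
        simp only [Helper75.extendByZero_not_mem D _ hyD, Helper75.extendByZero_not_mem Z _ hyZ]
        simp
    simp only [key]
    rw [← Finset.mul_sum]
    by_cases hhZ : h ∈ Z
    · have h1 : ∀ x : H, Cfsg.extendByZero Z θ (x⁻¹ * h * x) = θ ⟨h, hhZ⟩ := by
        intro x
        have hx : x⁻¹ * h * x⁻¹⁻¹ ∈ Z := hZn.conj_mem h hhZ x⁻¹
        have hx' : x⁻¹ * h * x ∈ Z := by simpa using hx
        rw [Helper75.extendByZero_mem Z _ hx']
        have h2 := hinv x⁻¹ ⟨h, hhZ⟩ hx
        rw [← h2]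
        congr 1
        simp
      simp only [h1]
      rw [Finset.sum_const, Finset.card_univ, nsmul_eq_mul, hres ⟨h, hhZ⟩, ← Nat.card_eq_fintype_card]
      field_simp
    · have h1 : ∀ x : H, Cfsg.extendByZero Z θ (x⁻¹ * h * x) = 0 := by
        intro x
        apply Helper75.extendByZero_not_mem
        intro hx
        apply hhZ
        have := hZn.conj_mem _ hx x
        simpa [mul_assoc] using this
      simp only [h1, hvan h hhZ]
      simp
  -- each induced character vanishes off `Z`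
  have hΨvan : ∀ j ∈ Finset.range n, ∀ c' : H, c' ∉ Z → Cfsg.indFun D (ηj j) c' = 0 := by
    intro j hj c' hc'
    rw [Helper80.classFun_expansion_apply _ (Helper80.isClassFunction_indFun D _) c']
    apply Finset.sum_eq_zero
    intro ψ _
    by_cases hψ : (ψ : H → ℂ) = χ
    · rw [hψ, hvan c' hc', mul_zero]
    · have hz : ∑ i ∈ Finset.range n, Cfsg.classInner (Cfsg.indFun D (ηj i)) (ψ : H → ℂ) = 0 := by
        rw [← Helper80.classInner_sum_left]
        have h1 : (∑ i ∈ Finset.range n, Cfsg.indFun D (ηj i))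
            = ((Nat.card D : ℂ)⁻¹ * (n : ℂ) * (Nat.card H : ℂ) / (e : ℂ)) • χ := by
          funext h
          rw [Finset.sum_apply]
          exact hsum h
        rw [h1, Helper80.classInner_smul_left, Helper3.classInner_irr_ne hχ ψ.2 (Ne.symm hψ),
          mul_zero]
      choose m hm using fun i => Helper75.classInner_char_irr_nat (hΨc i) ψ.2
      simp only [hm] at hz
      have h2 : ∑ i ∈ Finset.range n, m i = 0 := by exact_mod_cast hz
      have h3 := (Finset.sum_eq_zero_iff.mp h2) j hj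
      rw [hm, h3]
      simp
  -- evaluation of the twisted sum at an element over the generator
  have hcomm : ∀ x : H, x ∈ D ↔ π x * (g : H ⧸ Z) = (g : H ⧸ Z) * π x := by
    intro x
    constructor
    · intro hx
      have h1 : π x ∈ Subgroup.centralizer (C : Set (H ⧸ Z)) := by
        rw [hcent]; exact hx
      exact ((Subgroup.mem_centralizer_iff.mp h1) _ g.2).symm
    · intro hx
      have h1 : π x ∈ Subgroup.centralizer (C : Set (H ⧸ Z)) := by
        rw [Subgroup.mem_centralizer_iff]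
        intro y hy
        obtain ⟨k, hk⟩ := Subgroup.mem_zpowers_iff.mp (hg ⟨y, hy⟩)
        have hy' : y = (g : H ⧸ Z) ^ k := by
          have := congrArg Subtype.val hk
          simpa using this.symm
        rw [hy']
        exact ((Commute.zpow_right (show Commute (π x) (g : H ⧸ Z) from hx) k).eq).symm
      rw [hcent] at h1
      exact h1
  have hQ4 : ∀ (c' : H) (hc' : c' ∈ D), f ⟨c', hc'⟩ = g → η ⟨c', hc'⟩ = 0 := by
    intro c' hc' hfc
    have hc'Z : c' ∉ Z := by
      intro h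
      apply hg1
      rw [← hfc]
      exact (hker ⟨c', hc'⟩).mpr h
    have hπc : π c' = (g : H ⧸ Z) := congrArg Subtype.val hfc
    have h0 : ∑ j ∈ Finset.range n, w ^ j * Cfsg.indFun D (ηj j) c' = 0 := by
      apply Finset.sum_eq_zero
      intro j hj
      rw [hΨvan j hj c' hc'Z, mul_zero]
    have h1 : ∑ j ∈ Finset.range n, w ^ j * Cfsg.indFun D (ηj j) c'
        = (n : ℂ) * η ⟨c', hc'⟩ := by
      simp only [Cfsg.indFun]
      have hre : ∀ j, w ^ j * ((Nat.card D : ℂ)⁻¹ *
          ∑ x : H, Cfsg.extendByZero D (ηj j) (x⁻¹ * c' * x))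
          = (Nat.card D : ℂ)⁻¹ * ∑ x : H, w ^ j * Cfsg.extendByZero D (ηj j) (x⁻¹ * c' * x) := by
        intro j
        rw [Finset.mul_sum, Finset.mul_sum, Finset.mul_sum]
        refine Finset.sum_congr rfl (fun x _ => ?_)
        ring
      simp only [hre]
      rw [← Finset.mul_sum, Finset.sum_comm]
      have key : ∀ x : H, ∑ j ∈ Finset.range n,
          w ^ j * Cfsg.extendByZero D (ηj j) (x⁻¹ * c' * x)
          = if x ∈ D then (n : ℂ) * η ⟨c', hc'⟩ else 0 := by
        intro x
        by_cases hx : x ∈ D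
        · have hyD : x⁻¹ * c' * x ∈ D := D.mul_mem (D.mul_mem (D.inv_mem hx) hc') hx
          rw [if_pos hx]
          simp only [Helper75.extendByZero_mem D _ hyD, hηjdef]
          have hre2 : ∀ j, w ^ j * (((Λ ⟨_, hyD⟩ : ℂˣ) : ℂ) ^ j * η ⟨_, hyD⟩)
              = (w * ((Λ ⟨_, hyD⟩ : ℂˣ) : ℂ)) ^ j * η ⟨_, hyD⟩ := by
            intro j
            rw [mul_pow]
            ring
          simp only [hre2]
          rw [← Finset.sum_mul, fr_geom_root (by rw [mul_pow, hwpow, hΛpow, one_mul])]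
          have hfy : f ⟨_, hyD⟩ = g := by
            apply Subtype.ext
            show π (x⁻¹ * c' * x) = (g : H ⧸ Z)
            rw [map_mul, map_mul, map_inv, hπc, mul_assoc, ← (hcomm x).mp hx, ← mul_assoc,
              inv_mul_cancel, one_mul]
          have hΛy : Λ ⟨_, hyD⟩ = ζ := (hΛζ _).mpr hfy
          have h2 : w * ((Λ ⟨_, hyD⟩ : ℂˣ) : ℂ) = 1 := by
            rw [hΛy, hw, ← Units.val_mul, inv_mul_cancel]
            rfl
          rw [if_pos h2]
          congr 1
          have h3 := hηcl ⟨c', hc'⟩ (⟨x, hx⟩⁻¹ : D)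
          rw [← h3]
          congr 1
          apply Subtype.ext
          simp
        · rw [if_neg hx]
          by_cases hyD : x⁻¹ * c' * x ∈ D
          · simp only [Helper75.extendByZero_mem D _ hyD, hηjdef]
            have hre2 : ∀ j, w ^ j * (((Λ ⟨_, hyD⟩ : ℂˣ) : ℂ) ^ j * η ⟨_, hyD⟩)
                = (w * ((Λ ⟨_, hyD⟩ : ℂˣ) : ℂ)) ^ j * η ⟨_, hyD⟩ := by
              intro j
              rw [mul_pow]
              ring
            simp only [hre2]
            rw [← Finset.sum_mul, fr_geom_root (by rw [mul_pow, hwpow, hΛpow, one_mul])]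
            have h2 : w * ((Λ ⟨_, hyD⟩ : ℂˣ) : ℂ) ≠ 1 := by
              intro h2
              apply hx
              have hΛy : Λ ⟨_, hyD⟩ = ζ := by
                apply Units.ext
                have h3 : ((ζ * ζ⁻¹ : ℂˣ) : ℂ) = 1 := by rw [mul_inv_cancel]; rfl
                rw [Units.val_mul] at h3
                have h4 : ((ζ : ℂˣ) : ℂ) * (w * ((Λ ⟨_, hyD⟩ : ℂˣ) : ℂ)) = (ζ : ℂ) := by
                  rw [h2, mul_one]
                rw [← mul_assoc, hw, h3, one_mul] at h4
                exact h4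
              have hfy : f ⟨_, hyD⟩ = g := (hΛζ _).mp hΛy
              have hπy : π (x⁻¹ * c' * x) = (g : H ⧸ Z) := congrArg Subtype.val hfy
              rw [map_mul, map_mul, map_inv, hπc] at hπy
              rw [hcomm x]
              calc π x * (g : H ⧸ Z) = π x * ((π x)⁻¹ * (g : H ⧸ Z) * π x) := by rw [hπy]
                _ = (g : H ⧸ Z) * π x := by group
            rw [if_neg h2, zero_mul]
          · simp only [Helper75.extendByZero_not_mem D _ hyD]
            simp
      simp only [key]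
      rw [sum_ite_mem_subgroup D, ← mul_assoc, inv_mul_cancel₀, one_mul]
      exact_mod_cast (Nat.card_pos (α := D)).ne'
    rw [h1] at h0
    rcases mul_eq_zero.mp h0 with h | h
    · exact absurd h (Nat.cast_ne_zero.mpr (orderOf_pos g).ne')
    · exact h
  -- the inner products `[λ^j η, η]`
  choose m hm using fun j => Helper80.classInner_nat (hηj j) hηc
  have hcardD : Nat.card D = n * Nat.card Z := by
    rw [hD, hπ, card_comap_mk Z C, hn, orderOf_eq_card_of_forall_mem_zpowers hg]
  have hS : ∀ v : ℂ, ∑ j ∈ Finset.range n, v ^ j * Cfsg.classInner (ηj j) η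
      = (Nat.card D : ℂ)⁻¹ * ∑ d : D, (∑ j ∈ Finset.range n, (v * ((Λ d : ℂˣ) : ℂ)) ^ j)
          * (η d * conj (η d)) := by
    intro v
    simp only [Cfsg.classInner, hηjdef]
    have hre : ∀ j, v ^ j * ((Nat.card D : ℂ)⁻¹ *
        ∑ d : D, ((Λ d : ℂˣ) : ℂ) ^ j * η d * conj (η d))
        = (Nat.card D : ℂ)⁻¹ * ∑ d : D, (v * ((Λ d : ℂˣ) : ℂ)) ^ j * (η d * conj (η d)) := by
      intro j
      rw [Finset.mul_sum, Finset.mul_sum, Finset.mul_sum]
      refine Finset.sum_congr rfl (fun x _ => ?_)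
      rw [mul_pow]
      ring
    simp only [hre]
    rw [← Finset.mul_sum, Finset.sum_comm]
    congr 1
    refine Finset.sum_congr rfl (fun d _ => ?_)
    rw [Finset.sum_mul]
  have hθθ : ∑ z : Z, θ z * conj (θ z) = (Nat.card Z : ℂ) := by
    have h1 := Helper3.classInner_irr_self hθ
    unfold Cfsg.classInner at h1
    have hne : (Nat.card Z : ℂ) ≠ 0 := by exact_mod_cast (Nat.card_pos (α := Z)).ne'
    field_simp at h1
    exact h1
  have hsum1 : ∑ j ∈ Finset.range n, m j = 1 := by
    have h1 := hS 1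
    simp only [one_pow, one_mul, hm] at h1
    have h2 : ∀ d : D, (∑ j ∈ Finset.range n, ((Λ d : ℂˣ) : ℂ) ^ j) * (η d * conj (η d))
        = if h : (d : H) ∈ Z then (n : ℂ) * (θ ⟨d, h⟩ * conj (θ ⟨d, h⟩)) else 0 := by
      intro d
      rw [fr_geom_root (hΛpow d)]
      by_cases hd : (d : H) ∈ Z
      · have h3 : ((Λ d : ℂˣ) : ℂ) = 1 := by rw [(hΛ1 d).mpr hd]; rfl
        rw [if_pos h3, dif_pos hd, ← hηZ ⟨d, hd⟩]
      · have h3 : ((Λ d : ℂˣ) : ℂ) ≠ 1 := fun h3 => hd ((hΛ1 d).mp (Units.ext h3))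
        rw [if_neg h3, dif_neg hd, zero_mul]
    simp only [h2] at h1
    rw [sum_subgroup_indicator Z D hZD (fun z => (n : ℂ) * (θ z * conj (θ z))), ← Finset.mul_sum,
      hθθ, hcardD] at h1
    have hn0 : (n : ℂ) ≠ 0 := Nat.cast_ne_zero.mpr (orderOf_pos g).ne'
    have hZ0 : (Nat.card Z : ℂ) ≠ 0 := by exact_mod_cast (Nat.card_pos (α := Z)).ne'
    have h4 : (∑ j ∈ Finset.range n, (m j : ℂ)) = 1 := by
      rw [h1]
      push_cast
      field_simp
    exact_mod_cast h4
  have hsumw : ∑ j ∈ Finset.range n, w ^ j * (m j : ℂ) = 0 := by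
    have h1 := hS w
    simp only [hm] at h1
    rw [h1]
    have h2 : ∀ d : D, (∑ j ∈ Finset.range n, (w * ((Λ d : ℂˣ) : ℂ)) ^ j) * (η d * conj (η d))
        = 0 := by
      intro d
      rw [fr_geom_root (by rw [mul_pow, hwpow, hΛpow, one_mul])]
      by_cases h3 : w * ((Λ d : ℂˣ) : ℂ) = 1
      · have hΛd : Λ d = ζ := by
          apply Units.ext
          have h5 : ((ζ * ζ⁻¹ : ℂˣ) : ℂ) = 1 := by rw [mul_inv_cancel]; rfl
          rw [Units.val_mul] at h5
          have h4 : ((ζ : ℂˣ) : ℂ) * (w * ((Λ d : ℂˣ) : ℂ)) = (ζ : ℂ) := by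
            rw [h3, mul_one]
          rw [← mul_assoc, hw, h5, one_mul] at h4
          exact h4
        have hfd : f d = g := (hΛζ d).mp hΛd
        have : η d = 0 := hQ4 d d.2 hfd
        rw [this, zero_mul, mul_zero]
      · rw [if_neg h3, zero_mul]
    simp only [h2]
    simp
  have hm0 : m 0 = 1 := by
    have h1 := hm 0
    have h2 : ηj 0 = η := by
      funext d
      simp [hηjdef]
    rw [h2, Helper3.classInner_irr_self hη] at h1
    exact_mod_cast h1.symm
  have hnpos : 0 < n := orderOf_pos g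
  have h0mem : 0 ∈ Finset.range n := Finset.mem_range.mpr hnpos
  have hrest : ∀ j ∈ Finset.range n, j ≠ 0 → m j = 0 := by
    intro j hj hj0
    have h1 := Finset.add_sum_erase (Finset.range n) m h0mem
    rw [hsum1, hm0] at h1
    have h2 : ∑ x ∈ (Finset.range n).erase 0, m x = 0 := by omega
    exact (Finset.sum_eq_zero_iff.mp h2) j (Finset.mem_erase.mpr ⟨hj0, hj⟩)
  have hfin : ∑ j ∈ Finset.range n, w ^ j * (m j : ℂ) = 1 := by
    rw [Finset.sum_eq_single 0]
    · rw [hm0]; simp
    · intro j hj hj0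
      rw [hrest j hj hj0]; simp
    · intro h; exact absurd h0mem h
  rw [hsumw] at hfin
  exact zero_ne_one hfin

end Cfsg.Agent.S4565
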