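import Mathlib
import Cfsg.Statements.S4566

set_option autoImplicit false
open Cfsg

namespace Cfsg.Agent.S4566

open scoped ComplexConjugate

theorem nontrivial_of_irreducible {G : Type*} [Group G] {V : Type*} [AddCommGroup V] [Module ℂ V]
    (ρ : Representation ℂ G V) [ρ.IsIrreducible] : Nontrivial V := by
  by_contra h
  rw [not_nontrivial_iff_subsingleton] at h
  have : (⊥ : Subrepresentation ρ) = ⊤ := by
    apply Subrepresentation.toSubmodule_injective
    exact Subsingleton.elim _ _
  exact bot_ne_top this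

theorem schur_central {G : Type*} [Group G] {V : Type*} [AddCommGroup V] [Module ℂ V]
    [FiniteDimensional ℂ V] (ρ : Representation ℂ G V) [ρ.IsIrreducible] (z : G)
    (hz : ∀ g : G, g * z = z * g) : ∃ c : ℂ, ρ z = c • (1 : Module.End ℂ V) := by
  let T : Representation.IntertwiningMap ρ ρ :=
    (ρ z).intertwiningMap_of_isIntertwiningMap ρ ρ (fun g v => by
      rw [← Module.End.mul_apply, ← Module.End.mul_apply, ← map_mul, ← map_mul, hz g])
  obtain ⟨c, hc⟩ :=
    (Representation.IsIrreducible.algebraMap_intertwiningMap_bijective_of_isAlgClosed (ρ := ρ)).2 T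
  refine ⟨c, ?_⟩
  have h1 := congrArg (fun f : Representation.IntertwiningMap ρ ρ => f.toLinearMap) hc
  simp only [Representation.IntertwiningMap.algebraMap_apply,
    Representation.IntertwiningMap.toLinearMap_smul] at h1
  exact h1.symm

/-- the scalar function of a central subgroup in an irreducible representation -/
theorem scalar_fun {G : Type*} [Group G] {V : Type*} [AddCommGroup V] [Module ℂ V]
    [FiniteDimensional ℂ V] (ρ : Representation ℂ G V) [ρ.IsIrreducible] (N : Subgroup G)
    (hN : ∀ z ∈ N, ∀ g : G, g * z = z * g) :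
    ∃ c : N →* ℂ, ∀ z : N, ρ z = c z • (1 : Module.End ℂ V) := by
  have := nontrivial_of_irreducible ρ
  obtain ⟨v, hv⟩ := exists_ne (0 : V)
  choose c hc using fun z : N => schur_central ρ (z : G) (hN z z.2)
  have h1 : c 1 = 1 := by
    have := hc 1
    rw [Subgroup.coe_one, map_one] at this
    have h2 := congrArg (fun f : Module.End ℂ V => f v) this
    simp only [Module.End.one_apply, LinearMap.smul_apply] at h2
    have h3 : (c 1 - 1) • v = 0 := by rw [sub_smul, ← h2]; simp
    rcases smul_eq_zero.mp h3 with h4 | h4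
    · exact sub_eq_zero.mp h4
    · exact absurd h4 hv
  have hmul : ∀ z z' : N, c (z * z') = c z * c z' := by
    intro z z'
    have := hc (z * z')
    rw [Subgroup.coe_mul, map_mul, hc z, hc z'] at this
    have h2 := congrArg (fun f : Module.End ℂ V => f v) this
    simp only [Module.End.mul_apply, Module.End.one_apply, LinearMap.smul_apply, smul_smul] at h2
    have h3 : (c z * c z' - c (z * z')) • v = 0 := by rw [sub_smul, h2]; simp
    rcases smul_eq_zero.mp h3 with h4 | h4
    · exact (sub_eq_zero.mp h4).symm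
    · exact absurd h4 hv
  exact ⟨⟨⟨c, h1⟩, hmul⟩, hc⟩

/-- Let N be a central subgroup of the finite group G, ψ a faithful irreducible (hence degree-one) character of N, and χ an irreducible character of G whose restriction to N contains ψ. If g ∈ G and some x ∈ G has commutator x⁻¹ g⁻¹ x g in N but different from 1, then χ g = 0. -/
theorem result {G : Type*} [Group G] [Fintype G] (N : Subgroup G) [Fintype N] (hN : N ≤ Subgroup.center G) (ψ : Cfsg.IrrCharacter ↥N) (hfaith : ∀ n : ↥N, (ψ : ↥N → ℂ) n = (ψ : ↥N → ℂ) 1 → n = 1) (χ : Cfsg.IrrCharacter G) (hover : Cfsg.classInner (fun n : ↥N => (χ : G → ℂ) n) (ψ : ↥N → ℂ) ≠ 0) (g x : G) (hcomm : x⁻¹ * g⁻¹ * x * g ∈ N) (hne : x⁻¹ * g⁻¹ * x * g ≠ 1) : (χ : G → ℂ) g = 0 := by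
  obtain ⟨χf, n, ρ, hρ, hχ⟩ := χ
  obtain ⟨ψf, m, σ, hσ, hψ⟩ := ψ
  dsimp only at hfaith hover ⊢
  have := hρ
  have := hσ
  have hNc : ∀ z ∈ N, ∀ g : G, g * z = z * g := fun z hz g => Subgroup.mem_center_iff.mp (hN hz) g
  obtain ⟨c, hc⟩ := scalar_fun ρ N hNc
  obtain ⟨d, hd⟩ := scalar_fun σ (⊤ : Subgroup N) (fun z _ g => by
    apply Subtype.ext
    simpa using hNc z z.2 g)
  let d' : N →* ℂ := d.comp (Subgroup.topEquiv (G := N)).symm.toMonoidHom
  have hd' : ∀ z : N, σ z = d' z • (1 : Module.End ℂ (Fin m → ℂ)) := fun z => hd ⟨z, trivial⟩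
  -- character values
  have hχmul : ∀ (g : G) (z : N), χf (g * z) = c z * χf g := by
    intro g z
    rw [← hχ]
    unfold Representation.character
    rw [map_mul, hc z]
    simp
  have hψval : ∀ z : N, ψf z = d' z * ψf 1 := by
    intro z
    rw [← hψ]
    unfold Representation.character
    rw [hd' z]
    simp
  have hχval : ∀ z : N, χf z = c z * χf 1 := by
    intro z
    have := hχmul 1 z
    rwa [one_mul] at this
  -- norm of d'
  have hdnorm : ∀ z : N, ‖d' z‖ = 1 := by
    intro z
    refine Complex.norm_eq_one_of_pow_eq_one (n := orderOf z) ?_ (orderOf_pos z).ne'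
    rw [← map_pow, pow_orderOf_eq_one, map_one]
  have hdconj : ∀ z : N, conj (d' z) = (d' z)⁻¹ := by
    intro z
    have h1 : d' z * conj (d' z) = 1 := by
      rw [Complex.mul_conj, Complex.normSq_eq_norm_sq, hdnorm z]
      simp
    exact eq_inv_of_mul_eq_one_right h1
  have hdne : ∀ z : N, d' z ≠ 0 := by
    intro z h
    have := hdnorm z
    rw [h, norm_zero] at this
    exact zero_ne_one this
  -- the sum
  set T : ℂ := ∑ z : N, c z * conj (d' z) with hT
  have hTne : T ≠ 0 := by
    intro hT0
    apply hover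
    unfold Cfsg.classInner
    have : ∑ z : N, χf z * conj (ψf z) = χf 1 * conj (ψf 1) * T := by
      rw [hT, Finset.mul_sum]
      refine Finset.sum_congr rfl (fun z _ => ?_)
      rw [hχval z, hψval z, map_mul]
      ring
    rw [this, hT0]
    simp
  have hcd : ∀ z : N, c z = d' z := by
    intro z₀
    have h1 : T = c z₀ * conj (d' z₀) * T := by
      rw [hT, Finset.mul_sum]
      rw [← Equiv.sum_comp (Equiv.mulLeft z₀) (fun z => c z * conj (d' z))]
      refine Finset.sum_congr rfl (fun z _ => ?_)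
      simp only [Equiv.coe_mulLeft, map_mul]
      ring
    have h2 : (1 - c z₀ * conj (d' z₀)) * T = 0 := by
      rw [sub_mul, one_mul, ← h1, sub_self]
    rcases mul_eq_zero.mp h2 with h3 | h3
    · have h4 : c z₀ * conj (d' z₀) = 1 := (sub_eq_zero.mp h3).symm
      rw [hdconj z₀] at h4
      field_simp [hdne z₀] at h4
      exact h4
    · exact absurd h3 hTne
  -- conclusion
  let w : N := ⟨x⁻¹ * g⁻¹ * x * g, hcomm⟩⁻¹
  have hw : g * (w : G) = x⁻¹ * g * x⁻¹⁻¹ := by
    simp only [w, Subgroup.coe_inv]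
    group
  have h1 : χf (g * (w : G)) = χf g := by
    rw [hw, ← hχ]
    exact Representation.char_conj ρ g x⁻¹
  rw [hχmul g w] at h1
  have h2 : (c w - 1) * χf g = 0 := by rw [sub_mul, h1, one_mul, sub_self]
  rcases mul_eq_zero.mp h2 with h3 | h3
  · exfalso
    have h4 : d' w = 1 := by rw [← hcd w]; exact sub_eq_zero.mp h3
    have h5 : ψf w = ψf 1 := by rw [hψval w, h4, one_mul]
    have h6 := hfaith w h5
    apply hne
    have h7 : ((⟨x⁻¹ * g⁻¹ * x * g, hcomm⟩ : N))⁻¹ = 1 := h6
    have h8 := inv_eq_one.mp h7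
    exact congrArg Subtype.val h8
  · exact h3

end Cfsg.Agent.S4566
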