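import Cfsg.Statements.S4571
import Mathlib
import Cfsg.Agent.Lib.Helper79.QuotBlockP

set_option autoImplicit false
open Cfsg

namespace Cfsg.Agent.S4571

/-- Let Q be a normal p-subgroup of the finite group G with G = Q·C_G(Q), and M a maximal ideal of the algebraic integers containing p. Then the principal p-blocks of G and of G/Q have the same p-regular rank (the same number of irreducible Brauer characters). -/
theorem result {G : Type*} [Group G] [Finite G] (p : ℕ) [Fact p.Prime] (M : Ideal Cfsg.AlgInt) (hM : Cfsg.IsPModular p M) (Q : Subgroup G) [Q.Normal] (hQ : IsPGroup p Q) (hsup : Q ⊔ Subgroup.centralizer (Q : Set G) = ⊤) : Cfsg.blockRank p (Cfsg.principalBlock M G) = Cfsg.blockRank p (Cfsg.principalBlock M (G ⧸ Q)) := by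
  classical
  have : Fintype G := Fintype.ofFinite G
  let _ : Fintype (G ⧸ Q) := Fintype.ofFinite _
  have hMp := Cfsg.Agent.Lib.Helper16.isPrime_of_isPModular hM
  have hp : p.Prime := Fact.out
  have : Finite (Cfsg.IrrCharacter (G ⧸ Q)) := Cfsg.Agent.Lib.Helper77.irr_finite _
  have : Fintype (Cfsg.IrrCharacter (G ⧸ Q)) := Fintype.ofFinite _
  let T : (G ⧸ Q → ℂ) →ₗ[ℂ] (G → ℂ) :=
    { toFun := fun f g => if p ∣ orderOf g then 0 else f (g : G ⧸ Q)
      map_add' := by
        intro f1 f2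
        funext g
        by_cases h : p ∣ orderOf g <;> simp [h]
      map_smul' := by
        intro c f
        funext g
        by_cases h : p ∣ orderOf g <;> simp [h] }
  have hTapp : ∀ (f : G ⧸ Q → ℂ) (g : G), T f g = if p ∣ orderOf g then 0 else f (g : G ⧸ Q) :=
    fun f g => rfl
  have hregq : ∀ g : G, ¬ p ∣ orderOf g → ¬ p ∣ orderOf (g : G ⧸ Q) := by
    intro g h h2
    apply h
    refine dvd_trans h2 (orderOf_dvd_of_pow_eq_one ?_)
    rw [← QuotientGroup.mk_pow, pow_orderOf_eq_one]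
    rfl
  have hT : ∀ χ : G ⧸ Q → ℂ, T (Cfsg.pRegularPart p χ) =
      Cfsg.pRegularPart p (fun g : G => χ (g : G ⧸ Q)) := by
    intro χ
    funext g
    rw [hTapp]
    by_cases h : p ∣ orderOf g
    · have h' : ¬ Cfsg.IsPRegular p g := fun h2 => h2 h
      simp only [Cfsg.pRegularPart, if_pos h, if_neg h']
    · have h' : Cfsg.IsPRegular p g := h
      have h'' : Cfsg.IsPRegular p (g : G ⧸ Q) := hregq g h
      simp only [Cfsg.pRegularPart, if_neg h, if_pos h', if_pos h'']
  have hinfl : ∀ χ : Cfsg.IrrCharacter (G ⧸ Q),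
      (χ ∈ Cfsg.principalBlock M (G ⧸ Q) ↔
        (Cfsg.Agent.Lib.Helper80.inflateIrr Q χ : Cfsg.IrrCharacter G) ∈ Cfsg.principalBlock M G) := by
    intro χ
    constructor
    · intro h
      have h1 : Cfsg.SameBlock M (fun _ : G ⧸ Q => (1 : ℂ)) (χ : G ⧸ Q → ℂ) := h
      exact Cfsg.Agent.Lib.Helper79.sameBlock_inflate Q hMp h1
    · intro h
      have h1 : Cfsg.SameBlock M
          (((Cfsg.Agent.Lib.Helper77.trivIrr (G ⧸ Q) : Cfsg.IrrCharacter (G ⧸ Q)) : G ⧸ Q → ℂ) ∘
            QuotientGroup.mk) ((χ : G ⧸ Q → ℂ) ∘ QuotientGroup.mk) := h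
      exact Cfsg.Agent.Lib.Helper79.sameBlock_deflate_of_centralizer Q hM hQ hsup
        (Cfsg.Agent.Lib.Helper77.trivIrr (G ⧸ Q)) χ h1
  have hmap : Submodule.map T (Submodule.span ℂ
      ((fun χ : Cfsg.IrrCharacter (G ⧸ Q) => Cfsg.pRegularPart p (χ : G ⧸ Q → ℂ)) ''
        Cfsg.principalBlock M (G ⧸ Q))) =
      Submodule.span ℂ ((fun χ : Cfsg.IrrCharacter G => Cfsg.pRegularPart p (χ : G → ℂ)) ''
        Cfsg.principalBlock M G) := by
    rw [Submodule.map_span]
    apply le_antisymm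
    · rw [Submodule.span_le]
      rintro f ⟨f', ⟨χ, hχ, rfl⟩, rfl⟩
      show T (Cfsg.pRegularPart p (χ : G ⧸ Q → ℂ)) ∈ _
      rw [hT]
      exact Submodule.subset_span ⟨(Cfsg.Agent.Lib.Helper80.inflateIrr Q χ : Cfsg.IrrCharacter G),
        (hinfl χ).mp hχ, rfl⟩
    · rw [Submodule.span_le]
      rintro f ⟨θ, hθ, rfl⟩
      show Cfsg.pRegularPart p (θ : G → ℂ) ∈ _
      obtain ⟨c, hc0, hc⟩ := Cfsg.Agent.Lib.Helper79.pRegular_expansion_quot Q hM hQ hsup
        (Cfsg.principalBlock M G) (Cfsg.Agent.Lib.Helper77.isPBlock_principalBlock M) θ hθ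
      have hexp : Cfsg.pRegularPart p (θ : G → ℂ) = ∑ χ : Cfsg.IrrCharacter (G ⧸ Q),
          c χ • T (Cfsg.pRegularPart p (χ : G ⧸ Q → ℂ)) := by
        funext g
        rw [Finset.sum_apply]
        by_cases h : p ∣ orderOf g
        · have h' : ¬ Cfsg.IsPRegular p g := fun h2 => h2 h
          simp only [Cfsg.pRegularPart, if_neg h', Pi.smul_apply, hTapp, if_pos h, smul_zero,
            Finset.sum_const_zero]
        · have h' : Cfsg.IsPRegular p g := h
          have h'' : Cfsg.IsPRegular p (g : G ⧸ Q) := hregq g h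
          simp only [Cfsg.pRegularPart, if_pos h', Pi.smul_apply, hTapp, if_neg h, if_pos h'',
            smul_eq_mul]
          exact hc g h
      rw [hexp]
      apply Submodule.sum_mem
      intro χ _
      by_cases hχ : (Cfsg.Agent.Lib.Helper80.inflateIrr Q χ : Cfsg.IrrCharacter G) ∈
          Cfsg.principalBlock M G
      · apply Submodule.smul_mem
        exact Submodule.subset_span ⟨_, ⟨χ, (hinfl χ).mpr hχ, rfl⟩, rfl⟩
      · rw [hc0 χ hχ, zero_smul]
        exact Submodule.zero_mem _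
  have hvan : ∀ f ∈ Submodule.span ℂ
      ((fun χ : Cfsg.IrrCharacter (G ⧸ Q) => Cfsg.pRegularPart p (χ : G ⧸ Q → ℂ)) ''
        Cfsg.principalBlock M (G ⧸ Q)), ∀ c : G ⧸ Q, p ∣ orderOf c → f c = 0 := by
    intro f hf
    induction hf using Submodule.span_induction with
    | mem f hf =>
      obtain ⟨χ, -, rfl⟩ := hf
      intro c hc
      have h' : ¬ Cfsg.IsPRegular p c := fun h2 => h2 hc
      simp only [Cfsg.pRegularPart, if_neg h']
    | zero => intro c _; rfl
    | add f1 f2 _ _ h1 h2 =>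
      intro c hc
      rw [Pi.add_apply, h1 c hc, h2 c hc, add_zero]
    | smul a f _ h1 =>
      intro c hc
      rw [Pi.smul_apply, h1 c hc, smul_zero]
  have hinj : Function.Injective (T.domRestrict (Submodule.span ℂ
      ((fun χ : Cfsg.IrrCharacter (G ⧸ Q) => Cfsg.pRegularPart p (χ : G ⧸ Q → ℂ)) ''
        Cfsg.principalBlock M (G ⧸ Q)))) := by
    rw [← LinearMap.ker_eq_bot, LinearMap.ker_eq_bot']
    rintro ⟨f, hf⟩ h0
    apply Subtype.ext
    show f = 0
    have h1 : T f = 0 := h0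
    funext c
    by_cases hc : p ∣ orderOf c
    · exact hvan f hf c hc
    · obtain ⟨x, hx, rfl⟩ := Cfsg.Agent.Lib.Helper79.exists_pRegular_lift Q c hc
      have h2 := congrFun h1 x
      rw [hTapp, if_neg hx] at h2
      exact h2
  have hfin := LinearMap.finrank_range_of_inj hinj
  rw [LinearMap.range_domRestrict, hmap] at hfin
  exact hfin

end Cfsg.Agent.S4571
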