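import Cfsg.Statements.S4580
import Cfsg.Agent.Lib.Helper79.RealOdd2
import Cfsg.Agent.Lib.Helper75.Gallagher
import Cfsg.Agent.Lib.Helper15.LinChar
import Cfsg.Agent.Lib.Helper15.LinIrr
import Cfsg.Agent.Lib.Helper74.CharOps
import Cfsg.Agent.Lib.Helper3.CharValues

set_option autoImplicit false
open Cfsg

namespace Cfsg.Agent.S4580

/-- Let N be a normal subgroup of the finite group G, M a maximal ideal of the algebraic integers containing 2, and θ a real-valued irreducible character of N of odd degree that extends to G (some irreducible character of G restricts to θ). Then θ has an extension to G lying in the principal 2-block of G. -/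
theorem result {G : Type*} [Group G] [Finite G] (N : Subgroup G) [N.Normal] (M : Ideal Cfsg.AlgInt) (hM : Cfsg.IsPModular 2 M) (θ : Cfsg.IrrCharacter N) (hreal : ∀ n : N, ((θ : N → ℂ) n).im = 0) (hodd : Odd (Cfsg.charDegree (θ : N → ℂ))) (hext : ∃ η : Cfsg.IrrCharacter G, ∀ n : N, (η : G → ℂ) n = (θ : N → ℂ) n) :
    ∃ η : Cfsg.IrrCharacter G, (∀ n : N, (η : G → ℂ) n = (θ : N → ℂ) n) ∧ η ∈ Cfsg.principalBlock M G := by
  classical
  let _ : Fintype G := Fintype.ofFinite G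
  let _ : Fintype N := Fintype.ofFinite N
  have hMp := Cfsg.Agent.Lib.Helper16.isPrime_of_isPModular hM
  obtain ⟨η, hη⟩ := hext
  have hθreal : ∀ n : N, (starRingEnd ℂ) ((θ : N → ℂ) n) = (θ : N → ℂ) n :=
    fun n => Complex.conj_eq_iff_im.mpr (hreal n)
  have hηN : (fun n : N => (η : G → ℂ) n) = (θ : N → ℂ) := funext hη
  have hηNirr : Cfsg.IsIrrCharacter N (fun n : N => (η : G → ℂ) n) := by
    rw [hηN]; exact θ.2
  have hconjirr := Cfsg.Agent.Lib.Helper74.isIrrCharacter_conj η.2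
  have hcon : Cfsg.classInner (fun n : N => (starRingEnd ℂ) ((η : G → ℂ) n))
      (fun n : N => (η : G → ℂ) n) ≠ 0 := by
    have e : (fun n : N => (starRingEnd ℂ) ((η : G → ℂ) n)) = (θ : N → ℂ) := by
      funext n
      rw [hη, hθreal]
    rw [e, hηN, Cfsg.Agent.Lib.Helper3.classInner_irr_self θ.2]
    exact one_ne_zero
  obtain ⟨β, hβirr, hβN, hβ⟩ :=
    Cfsg.Agent.Lib.Helper75.gallagher_exists N η.2 hηNirr hconjirr hcon
  obtain ⟨hη1, hηpos, -⟩ := Cfsg.Agent.Lib.Helper79.irr_charDegree η.2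
  have hη1ne : (η : G → ℂ) 1 ≠ 0 := by
    rw [hη1]
    exact_mod_cast hηpos.ne'
  have hβ1 : β 1 = 1 := by
    have h1 := congrFun hβ 1
    simp only [Pi.mul_apply] at h1
    rw [hη1, Complex.conj_natCast] at h1
    rw [hη1] at hη1ne
    field_simp at h1
    exact h1.symm
  have hβc := Cfsg.Agent.Lib.Helper3.isCharacter_of_irr hβirr
  obtain ⟨f, hf⟩ : ∃ f : G →* ℂˣ, ∀ g, ((f g : ℂˣ) : ℂ) = β g :=
    ⟨Cfsg.Agent.Lib.Helper15.linCharHom hβc hβ1, fun g => rfl⟩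
  have hfN : ∀ n : N, f n = 1 := by
    intro n
    apply Units.ext
    rw [hf, hβN, hβ1, Units.val_one]
  have hfcard : ∀ g : G, ((f g : ℂˣ) : ℂ) ^ Nat.card G = 1 := by
    intro g
    rw [← Units.val_pow_eq_pow_val, ← map_pow, pow_card_eq_one', map_one, Units.val_one]
  obtain ⟨a, m, hm, hcard⟩ :=
    Nat.exists_eq_pow_mul_and_not_dvd (Nat.card_pos (α := G)).ne' 2 (by norm_num)
  have hmodd : Odd m := Nat.odd_iff.mpr (Nat.two_dvd_ne_zero.mp hm)
  obtain ⟨c, hc⟩ := hmodd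
  have hγc := Cfsg.Agent.Lib.Helper15.isCharacter_of_hom (f ^ (c + 1))
  have hγ1 : (fun g : G => ((((f ^ (c + 1)) g : ℂˣ)) : ℂ)) 1 = 1 := by
    show ((((f ^ (c + 1)) 1 : ℂˣ)) : ℂ) = 1
    rw [map_one, Units.val_one]
  have hγval : ∀ g : G, ((((f ^ (c + 1)) g : ℂˣ)) : ℂ) = ((f g : ℂˣ) : ℂ) ^ (c + 1) := by
    intro g
    rw [MonoidHom.pow_apply, Units.val_pow_eq_pow_val]
  obtain ⟨η', hη'⟩ : ∃ η' : Cfsg.IrrCharacter G, ∀ g : G, (η' : G → ℂ) g =
      ((f g : ℂˣ) : ℂ) ^ (c + 1) * (η : G → ℂ) g :=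
    ⟨⟨_, Cfsg.Agent.Lib.Helper15.isIrrCharacter_lin_mul hγc hγ1 η.2⟩, fun g => by
      show ((((f ^ (c + 1)) g : ℂˣ)) : ℂ) * (η : G → ℂ) g = _
      rw [hγval]⟩
  have hη'N : ∀ n : N, (η' : G → ℂ) n = (θ : N → ℂ) n := by
    intro n
    rw [hη', hfN, Units.val_one, one_pow, one_mul, hη]
  refine ⟨η', hη'N, ?_⟩
  have hc' : ∀ g : G, (starRingEnd ℂ) ((η' : G → ℂ) g) =
      (((f g : ℂˣ) : ℂ) ^ m)⁻¹ * (η' : G → ℂ) g := by
    intro g
    have hz : ((f g : ℂˣ) : ℂ) ≠ 0 := Units.ne_zero _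
    have hnorm : ‖((f g : ℂˣ) : ℂ) ^ (c + 1)‖ = 1 := by
      apply Complex.norm_eq_one_of_pow_eq_one (n := Nat.card G) _ Nat.card_pos.ne'
      rw [← pow_mul, mul_comm, pow_mul, hfcard, one_pow]
    have hconj := (Complex.inv_eq_conj hnorm).symm
    have hβg : (starRingEnd ℂ) ((η : G → ℂ) g) = ((f g : ℂˣ) : ℂ) * (η : G → ℂ) g := by
      have := congrFun hβ g
      simp only [Pi.mul_apply] at this
      rw [hf]
      exact this
    rw [hη', map_mul, hconj, hβg, hc]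
    field_simp
    ring
  have hδ : ∀ g : G, ((((f g : ℂˣ) : ℂ) ^ m)⁻¹) ^ (2 ^ a) = 1 := by
    intro g
    rw [inv_pow, ← pow_mul, mul_comm, ← hcard, hfcard, inv_one]
  have hδ1 : (((f 1 : ℂˣ) : ℂ) ^ m)⁻¹ = 1 := by
    rw [map_one, Units.val_one, one_pow, inv_one]
  have hsb := Cfsg.Agent.Lib.Helper79.sameBlock_conj_of_twist hM η'
    (fun g => (((f g : ℂˣ) : ℂ) ^ m)⁻¹) a hδ hδ1 hc'
  apply Cfsg.Agent.Lib.Helper79.odd_mem_principalBlock_of_sameBlock_conj hM η' hsb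
  have hdeg : Cfsg.charDegree (η' : G → ℂ) = Cfsg.charDegree (θ : N → ℂ) := by
    unfold Cfsg.charDegree
    have := hη'N 1
    simp only [OneMemClass.coe_one] at this
    rw [this]
  rw [hdeg]
  exact hodd

end Cfsg.Agent.S4580
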