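import Mathlib
import Cfsg.Statements.S4582

set_option autoImplicit false
open Cfsg

namespace Cfsg.Agent.S4582

open Subgroup MonoidHom

theorem conj_aux {W : Type*} [Group W] (N H : Subgroup W) [N.Normal]
    {A : Type*} [CommGroup A] (ϕ : H →* A) (B : Subgroup A)
    (hB : ∀ h : H, (h : W) ∈ N → ϕ h ∈ B)
    (hsup : ∀ w : W, ∃ h ∈ H, ∃ n ∈ N, w = h * n)
    (x : H) (k : ℕ) (y : W) (hy : y⁻¹ * (x : W) ^ k * y ∈ H) :
    ∃ b ∈ B, ϕ ⟨y⁻¹ * (x : W) ^ k * y, hy⟩ = ϕ x ^ k * b := by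
  obtain ⟨h, hh, n, hn, rfl⟩ := hsup y
  let h' : H := ⟨h, hh⟩
  let z : H := h'⁻¹ * x ^ k * h'
  let c : H := z⁻¹ * ⟨(h * n)⁻¹ * (x : W) ^ k * (h * n), hy⟩
  have hc : (c : W) ∈ N := by
    have : (c : W) = ((z : W)⁻¹ * n⁻¹ * (z : W)) * n := by
      simp only [c, z, h', Subgroup.coe_mul, Subgroup.coe_inv, Subgroup.coe_pow]
      group
    rw [this]
    refine N.mul_mem ?_ hn
    have := ‹N.Normal›.conj_mem n⁻¹ (N.inv_mem hn) (z : W)⁻¹
    simpa using this
  refine ⟨ϕ c, hB c hc, ?_⟩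
  have hz : ϕ z = ϕ x ^ k := by
    simp only [z, map_mul, map_inv, map_pow]
    rw [mul_comm, mul_inv_cancel_left]
  rw [← hz, ← map_mul]
  congr 1
  simp [c]

theorem transfer_mem_aux {W : Type*} [Group W] (N H : Subgroup W) [N.Normal] [H.FiniteIndex]
    {A : Type*} [CommGroup A] (ϕ : H →* A) (B : Subgroup A)
    (hB : ∀ h : H, (h : W) ∈ N → ϕ h ∈ B)
    (hsup : ∀ w : W, ∃ h ∈ H, ∃ n ∈ N, w = h * n)
    (x : H) : ∃ b ∈ B, transfer ϕ (x : W) = ϕ x ^ H.index * b := by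
  classical
  have : Fintype (Quotient (MulAction.orbitRel (zpowers (x : W)) (W ⧸ H))) := Fintype.ofFinite _
  rw [transfer_eq_prod_quotient_orbitRel_zpowers_quot]
  have key : ∀ q : Quotient (MulAction.orbitRel (zpowers (x : W)) (W ⧸ H)),
      ∃ b ∈ B, ϕ ⟨q.out.out⁻¹ * (x : W) ^ Function.minimalPeriod ((x : W) • ·) q.out * q.out.out,
            QuotientGroup.out_conj_pow_minimalPeriod_mem H (x : W) q.out⟩
          = ϕ x ^ Function.minimalPeriod ((x : W) • ·) q.out * b := by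
    intro q
    exact conj_aux N H ϕ B hB hsup x _ _ _
  choose b hb hbeq using key
  refine ⟨∏ q, b q, Subgroup.prod_mem _ (fun q _ => hb q), ?_⟩
  rw [Finset.prod_congr rfl (fun q _ => hbeq q), Finset.prod_mul_distrib,
    Finset.prod_pow_eq_pow_sum, ← index_eq_sum_minimalPeriod]


theorem aux {W : Type*} [Group W] [Finite W] (N H : Subgroup W) [N.Normal]
    (hsup : ∀ w : W, ∃ h ∈ H, ∃ n ∈ N, w = h * n) (hidx : Odd H.index) (h2 : IsPGroup 2 H)
    (hN : Odd (Nat.card (Abelianization N)))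
    (hP : ∀ x ∈ H, x ^ 2 ∈ (H ⊓ N) ⊔ ⁅H, H⁆)
    (hQ : ∀ x ∈ H ⊓ N, x ^ 2 ∈ ⁅H, H⁆) :
    ∀ x ∈ H, x ^ 2 ∈ ⁅H, H⁆ := by
  intro x hx
  -- the abelianization map
  let ϕ : H →* Abelianization H := Abelianization.of
  have hker : ∀ h : H, ϕ h = 1 ↔ (h : W) ∈ ⁅H, H⁆ := by
    intro h
    rw [← MonoidHom.mem_ker, Abelianization.ker_of, ← Subgroup.map_subtype_commutator]
    constructor
    · intro hh
      exact ⟨h, hh, rfl⟩
    · rintro ⟨h', hh', heq⟩
      have : h' = h := Subtype.ext heq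
      rwa [← this]
  let B : Subgroup (Abelianization H) := (N.subgroupOf H).map ϕ
  have hB : ∀ h : H, (h : W) ∈ N → ϕ h ∈ B := fun h hh => ⟨h, hh, rfl⟩
  have hBsq : ∀ b ∈ B, b ^ 2 = 1 := by
    rintro b ⟨h, hh, rfl⟩
    rw [← map_pow, hker]
    exact hQ _ ⟨h.2, hh⟩
  let V : W →* Abelianization H := transfer ϕ
  -- every element of the abelianization of H has 2-power order
  have hA2 : ∀ a : Abelianization H, ∃ k : ℕ, a ^ 2 ^ k = 1 := by
    intro a
    obtain ⟨h, rfl⟩ := QuotientGroup.mk_surjective a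
    change ∃ k : ℕ, ϕ h ^ 2 ^ k = 1
    obtain ⟨k, hk⟩ := h2 h
    exact ⟨k, by rw [← map_pow, hk, map_one]⟩
  -- V kills N
  have hVN : ∀ n ∈ N, V n = 1 := by
    intro n hn
    let f : N →* Abelianization H := V.comp N.subtype
    have h1 : f ⟨n, hn⟩ ^ Nat.card (Abelianization N) = 1 := by
      have : f ⟨n, hn⟩ = Abelianization.lift f (Abelianization.of ⟨n, hn⟩) := by simp
      rw [this, ← map_pow, pow_card_eq_one', map_one]
    obtain ⟨k, hk⟩ := hA2 (f ⟨n, hn⟩)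
    have hd1 : orderOf (f ⟨n, hn⟩) ∣ Nat.card (Abelianization N) := orderOf_dvd_of_pow_eq_one h1
    have hd2 : orderOf (f ⟨n, hn⟩) ∣ 2 ^ k := orderOf_dvd_of_pow_eq_one hk
    have hcop : Nat.Coprime (Nat.card (Abelianization N)) (2 ^ k) :=
      Nat.Coprime.pow_right k (Nat.Coprime.symm (Nat.coprime_two_left.mpr hN))
    have : orderOf (f ⟨n, hn⟩) = 1 := Nat.eq_one_of_dvd_coprimes hcop hd1 hd2
    exact orderOf_eq_one_iff.mp this
  -- V kills commutators
  have hVc : ⁅H, H⁆ ≤ V.ker := by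
    refine le_trans ?_ (Abelianization.commutator_subset_ker V)
    rw [_root_.commutator_def]
    exact Subgroup.commutator_mono le_top le_top
  have hVsq : V (x ^ 2) = 1 := by
    have hle : (H ⊓ N) ⊔ ⁅H, H⁆ ≤ V.ker :=
      sup_le (fun y hy => hVN y hy.2) hVc
    exact hle (hP x hx)
  obtain ⟨b, hb, hVx⟩ := transfer_mem_aux N H ϕ B hB hsup ⟨x, hx⟩
  have h2m : ϕ ⟨x, hx⟩ ^ (2 * H.index) = 1 := by
    have : V x ^ 2 = 1 := by rw [← map_pow, hVsq]
    change transfer ϕ x ^ 2 = 1 at this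
    rw [hVx, mul_pow, hBsq b hb, mul_one, ← pow_mul, mul_comm] at this
    exact this
  obtain ⟨k, hk⟩ := hA2 (ϕ ⟨x, hx⟩)
  have hord : orderOf (ϕ ⟨x, hx⟩) ∣ 2 := by
    have hd1 := orderOf_dvd_of_pow_eq_one h2m
    have hd2 := orderOf_dvd_of_pow_eq_one hk
    have hg : orderOf (ϕ ⟨x, hx⟩) ∣ Nat.gcd (2 * H.index) (2 ^ k) := Nat.dvd_gcd hd1 hd2
    refine hg.trans ?_
    rcases Nat.eq_zero_or_pos k with rfl | hkpos
    · simp
    · obtain ⟨j, rfl⟩ : ∃ j, k = j + 1 := ⟨k - 1, by omega⟩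
      rw [pow_succ, mul_comm (2 ^ j) 2, Nat.gcd_mul_left]
      have : Nat.gcd H.index (2 ^ j) = 1 :=
        Nat.Coprime.pow_right j (Nat.Coprime.symm (Nat.coprime_two_left.mpr hidx))
      rw [this]
  have : ϕ ⟨x, hx⟩ ^ 2 = 1 := orderOf_dvd_iff_pow_eq_one.mp hord
  rw [← map_pow, hker] at this
  simpa using this


/-- Let N be a normal subgroup of the finite group G, P a Sylow 2-subgroup of G and Q = P ∩ N. Suppose that P/QP' and Q/Q' are elementary abelian (every square of an element of P lies in the subgroup generated by Q and the derived subgroup of P, and every square of an element of Q lies in the derived subgroup of Q), and that the commutator factor group N/N' has odd order. Then P/P' is elementary abelian. -/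
theorem result {G : Type*} [Group G] [Finite G] (N : Subgroup G) [N.Normal] (P : Sylow 2 G)
    (hP : ∀ x ∈ (P : Subgroup G), x ^ 2 ∈ ((P : Subgroup G) ⊓ N) ⊔ ⁅(P : Subgroup G), (P : Subgroup G)⁆)
    (hQ : ∀ x ∈ (P : Subgroup G) ⊓ N, x ^ 2 ∈ ⁅(P : Subgroup G) ⊓ N, (P : Subgroup G) ⊓ N⁆)
    (hodd : Odd (Nat.card (Abelianization N))) :
    ∀ x ∈ (P : Subgroup G), x ^ 2 ∈ ⁅(P : Subgroup G), (P : Subgroup G)⁆ := by
  intro x hx
  have hP2 : IsPGroup 2 (P : Subgroup G) := P.2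
  have hPidx : ¬ 2 ∣ (P : Subgroup G).index := P.not_dvd_index
  generalize (P : Subgroup G) = S at hP hQ hx hP2 hPidx ⊢
  let W : Subgroup G := N ⊔ S
  have hNW : N ≤ W := le_sup_left
  have hSW : S ≤ W := le_sup_right
  let N' : Subgroup W := N.subgroupOf W
  let H : Subgroup W := S.subgroupOf W
  have hinj : Function.Injective W.subtype := Subgroup.subtype_injective W
  have hmapN : N'.map W.subtype = N := Subgroup.map_subgroupOf_eq_of_le hNW
  have hmapH : H.map W.subtype = S := Subgroup.map_subgroupOf_eq_of_le hSW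
  have hmapc : (⁅H, H⁆).map W.subtype = ⁅S, S⁆ := by
    rw [Subgroup.map_commutator, hmapH]
  have hsup : ∀ w : W, ∃ h ∈ H, ∃ n ∈ N', w = h * n := by
    intro w
    have hw : (w : G) ∈ ((S ⊔ N : Subgroup G) : Set G) := by
      have h0 : (w : G) ∈ N ⊔ S := w.2
      rwa [sup_comm] at h0
    rw [Subgroup.mul_normal] at hw
    obtain ⟨h, hh, n, hn, hEq⟩ := Set.mem_mul.mp hw
    exact ⟨⟨h, hSW hh⟩, hh, ⟨n, hNW hn⟩, hn, Subtype.ext hEq.symm⟩
  have hidx : Odd H.index := by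
    have h1 : H.index ∣ S.index := by
      have := Subgroup.relIndex_mul_index hSW
      exact Dvd.intro _ this
    rw [← Nat.not_even_iff_odd, even_iff_two_dvd]
    exact fun h => hPidx (h.trans h1)
  have h2 : IsPGroup 2 H := hP2.comap_subtype
  have hN : Odd (Nat.card (Abelianization N')) := by
    have e : N' ≃* N := Subgroup.subgroupOfEquivOfLe hNW
    rw [Nat.card_congr e.abelianizationCongr.toEquiv]
    exact hodd
  have hP' : ∀ y ∈ H, y ^ 2 ∈ (H ⊓ N') ⊔ ⁅H, H⁆ := by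
    intro y hy
    have h1 := hP (y : G) hy
    have h3 : ((H ⊓ N') ⊔ ⁅H, H⁆).map W.subtype = (S ⊓ N) ⊔ ⁅S, S⁆ := by
      rw [Subgroup.map_sup, Subgroup.map_inf _ _ _ hinj, hmapc, hmapH, hmapN]
    rw [← h3] at h1
    exact (Subgroup.mem_map_iff_mem hinj).mp (by simpa using h1)
  have hQ' : ∀ y ∈ H ⊓ N', y ^ 2 ∈ ⁅H, H⁆ := by
    intro y hy
    have h1 := hQ (y : G) ⟨hy.1, hy.2⟩
    have h3 : ⁅S ⊓ N, S ⊓ N⁆ ≤ ⁅S, S⁆ := Subgroup.commutator_mono inf_le_left inf_le_left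
    have h4 := h3 h1
    rw [← hmapc] at h4
    exact (Subgroup.mem_map_iff_mem hinj).mp (by simpa using h4)
  have key := aux N' H hsup hidx h2 hN hP' hQ' ⟨x, hSW hx⟩ (Subgroup.mem_subgroupOf.mpr hx)
  have : W.subtype (⟨x, hSW hx⟩ ^ 2) ∈ (⁅H, H⁆).map W.subtype := Subgroup.mem_map_of_mem _ key
  rw [hmapc] at this
  simpa using this

end Cfsg.Agent.S4582
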