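-- Statement S4583: p'-degree character of the principal block over an extendible character (via Lemma (L)).
import Mathlib
import Cfsg.Statements.S4583
import Cfsg.Agent.Lib.Helper74.LemmaL
import Cfsg.Agent.S0966
import Cfsg.Agent.Lib.Helper77.IrrMap

set_option autoImplicit false
open Cfsg

namespace Cfsg.Agent.S4583

open Cfsg.Agent.Lib.Helper16 Cfsg.Agent.Lib.Helper77

/-- The general form: `L ≥ N, P` with `L / N` a `p`-group. -/
theorem aux {G : Type*} [Group G] [Finite G] (N : Subgroup G) [N.Normal] (p : ℕ) [Fact p.Prime]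
    (M : Ideal Cfsg.AlgInt) (hM : Cfsg.IsPModular p M) (P : Sylow p G)
    (θ : Cfsg.IrrCharacter N) (hθ : θ ∈ Cfsg.principalBlock M N)
    (hdeg : ¬ p ∣ Cfsg.charDegree (θ : N → ℂ))
    (L : Subgroup G) (hNL : N ≤ L) (hPLe : (P : Subgroup G) ≤ L)
    (hidx : ∃ k : ℕ, (N.subgroupOf L).index = p ^ k)
    (η : Cfsg.IrrCharacter L)
    (hη : ∀ n : N, (η : L → ℂ) (Subgroup.inclusion hNL n) = (θ : N → ℂ) n) [Fintype N] :
    ∃ χ : Cfsg.IrrCharacter G, χ ∈ Cfsg.principalBlock M G ∧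
      ¬ p ∣ Cfsg.charDegree (χ : G → ℂ) ∧
      Cfsg.classInner (fun n : N => (χ : G → ℂ) n) (θ : N → ℂ) ≠ 0 := by
  classical
  let _ := Fintype.ofFinite G
  have hPr := isPrime_of_isPModular hM
  have hp : p.Prime := Fact.out
  let _ : Fintype L := Fintype.ofFinite L
  let N' : Subgroup L := N.subgroupOf L
  let _ : Fintype N' := Fintype.ofFinite N'
  have hN'norm : N'.Normal := inferInstance
  -- (1) `η` lies in the principal block of `L`
  let α : N ≃* N' := (Subgroup.subgroupOfEquivOfLe hNL).symm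
  let θ' : Cfsg.IrrCharacter N' := mapIrr α θ
  have hθ'fun : (θ' : N' → ℂ) = fun n' : N' => (η : L → ℂ) n' := by
    funext n'
    show (mapIrr α θ : N' → ℂ) n' = _
    rw [mapIrr_apply, ← hη (α.symm n')]
    congr 1
  have hθ'mem : θ' ∈ Cfsg.principalBlock M N' := by
    have h1 := (sameBlock_mapIrr_iff (M := M) α (trivIrr N) θ).mpr hθ
    exact h1
  have htriv : Cfsg.classInner (fun n : N' => (trivIrr L : L → ℂ) n) (trivIrr N' : N' → ℂ) ≠ 0 := by
    have h1 : (fun n : N' => (trivIrr L : L → ℂ) n) = (trivIrr N' : N' → ℂ) := rfl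
    rw [h1, Cfsg.Agent.Lib.Helper80.classInner_irr, if_pos rfl]
    exact one_ne_zero
  have hcon : Cfsg.classInner (fun n : N' => (η : L → ℂ) n) (θ' : N' → ℂ) ≠ 0 := by
    rw [← hθ'fun, Cfsg.Agent.Lib.Helper80.classInner_irr, if_pos rfl]
    exact one_ne_zero
  obtain ⟨B, -, hBuniq⟩ := Cfsg.Agent.S0966.result p M hM N' hidx (Cfsg.principalBlock M N')
    (isPBlock_principalBlock M)
  have h1 : Cfsg.principalBlock M L = B := hBuniq _ ⟨isPBlock_principalBlock M, trivIrr L,
    trivIrr_mem_principalBlock hPr, trivIrr N', trivIrr_mem_principalBlock hPr, htriv⟩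
  have h2 : Cfsg.blockOf M (η : L → ℂ) = B := hBuniq _ ⟨⟨η, rfl⟩, η, mem_blockOf_self hPr η,
    θ', hθ'mem, hcon⟩
  have hηB : η ∈ Cfsg.principalBlock M L := by
    rw [h1, ← h2]
    exact mem_blockOf_self hPr η
  -- (2) Lemma (L)
  have hPL : ∀ x ∈ (P : Subgroup G), ∀ l ∈ L, x * l * x⁻¹ ∈ L := fun x hx l hl =>
    L.mul_mem (L.mul_mem (hPLe hx) hl) (L.inv_mem (hPLe hx))
  have hidxL : ¬ p ∣ L.index := fun h =>
    P.not_dvd_index (h.trans (Subgroup.index_dvd_of_le hPLe))
  have hdegη : ¬ p ∣ Cfsg.charDegree (η : L → ℂ) := by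
    have h3 : (η : L → ℂ) 1 = (θ : N → ℂ) 1 := by rw [← hη 1, map_one]
    have h4 : Cfsg.charDegree (η : L → ℂ) = Cfsg.charDegree (θ : N → ℂ) := by
      unfold Cfsg.charDegree
      rw [h3]
    rw [h4]
    exact hdeg
  obtain ⟨χ, hχB, hχdeg, hχη⟩ := Cfsg.Agent.Lib.Helper74.LemmaL.exists_over_pPrime p M hM P L hPL
    η hηB hidxL hdegη
  refine ⟨χ, hχB, hχdeg, ?_⟩
  -- (3) `χ` lies over `θ`
  haveI : Fintype (Cfsg.IrrCharacter L) := Fintype.ofFinite _
  obtain ⟨m, hm, hmexp⟩ := Cfsg.Agent.Lib.Helper80.character_expansion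
    (Cfsg.Agent.Lib.Helper80.isCharacter_restrict L
      (Cfsg.Agent.Lib.Helper80.isCharacter_of_isIrrCharacter χ.2))
  have hmη : m η ≠ 0 := by
    intro h0
    apply hχη
    rw [hm η, h0]
    simp
  have hres : ∀ η' : Cfsg.IrrCharacter L, ∃ k : ℕ,
      Cfsg.classInner (fun n : N => (η' : L → ℂ) (Subgroup.inclusion hNL n))
        (θ : N → ℂ) = k := fun η' =>
    Cfsg.Agent.Lib.Helper80.classInner_nat
      (Cfsg.Agent.Lib.Helper80.isCharacter_comp (Subgroup.inclusion hNL)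
        (Cfsg.Agent.Lib.Helper80.isCharacter_of_isIrrCharacter η'.2))
      (Cfsg.Agent.Lib.Helper80.isCharacter_of_isIrrCharacter θ.2)
  choose k hk using hres
  have hkη : k η = 1 := by
    have h3 := hk η
    have h4 : (fun n : N => (η : L → ℂ) (Subgroup.inclusion hNL n)) = (θ : N → ℂ) :=
      funext hη
    rw [h4, Cfsg.Agent.Lib.Helper80.classInner_irr, if_pos rfl] at h3
    exact_mod_cast h3.symm
  have hfun : (fun n : N => (χ : G → ℂ) n) = ∑ η' : Cfsg.IrrCharacter L,
      (m η' : ℂ) • (fun n : N => (η' : L → ℂ) (Subgroup.inclusion hNL n)) := by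
    funext n
    have h3 := congrFun hmexp (Subgroup.inclusion hNL n)
    simp only [Finset.sum_apply, Pi.smul_apply] at h3 ⊢
    exact h3
  rw [hfun, Cfsg.Agent.Lib.Helper80.classInner_sum_left]
  simp_rw [Cfsg.Agent.Lib.Helper80.classInner_smul_left, hk]
  have h3 : (∑ η' : Cfsg.IrrCharacter L, (m η' : ℂ) * (k η' : ℂ)) =
      ((∑ η' : Cfsg.IrrCharacter L, m η' * k η' : ℕ) : ℂ) := by
    push_cast
    rfl
  rw [h3]
  have h4 : m η * k η ≤ ∑ η' : Cfsg.IrrCharacter L, m η' * k η' :=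
    Finset.single_le_sum (f := fun η' => m η' * k η') (fun _ _ => Nat.zero_le _)
      (Finset.mem_univ η)
  rw [hkη, mul_one] at h4
  have h5 : 0 < ∑ η' : Cfsg.IrrCharacter L, m η' * k η' :=
    lt_of_lt_of_le (Nat.pos_of_ne_zero hmη) h4
  exact_mod_cast h5.ne'

/-- Let N be a normal subgroup of the finite group G, p a prime, M a maximal ideal of the algebraic integers containing p, and P a Sylow p-subgroup of G. Let θ be an irreducible character of N of degree prime to p lying in the principal p-block of N, and suppose θ extends to the subgroup NP (some irreducible character of NP restricts to θ). Then some irreducible character χ of G of degree prime to p in the principal p-block of G lies over θ (θ is a constituent of the restriction of χ to N). -/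
theorem result {G : Type*} [Group G] [Finite G] (N : Subgroup G) [N.Normal] (p : ℕ) [Fact p.Prime] (M : Ideal Cfsg.AlgInt) (hM : Cfsg.IsPModular p M) (P : Sylow p G)
    (θ : Cfsg.IrrCharacter N) (hθ : θ ∈ Cfsg.principalBlock M N) (hdeg : ¬ p ∣ Cfsg.charDegree (θ : N → ℂ))
    (hext : ∃ η : Cfsg.IrrCharacter ↥(N ⊔ (P : Subgroup G)), ∀ n : N, (η : ↥(N ⊔ (P : Subgroup G)) → ℂ) (Subgroup.inclusion le_sup_left n) = (θ : N → ℂ) n) :
    ∃ χ : Cfsg.IrrCharacter G, χ ∈ Cfsg.principalBlock M G ∧ ¬ p ∣ Cfsg.charDegree (χ : G → ℂ) ∧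
      haveI := Fintype.ofFinite N; Cfsg.classInner (fun n : N => (χ : G → ℂ) n) (θ : N → ℂ) ≠ 0 := by
  obtain ⟨η, hη⟩ := hext
  have hp : p.Prime := Fact.out
  have hidx : ∃ k : ℕ, (N.subgroupOf (N ⊔ (P : Subgroup G))).index = p ^ k := by
    have h1 : (N.subgroupOf (N ⊔ (P : Subgroup G))).index = N.relIndex (P : Subgroup G) := by
      show N.relIndex (N ⊔ (P : Subgroup G)) = _
      rw [Subgroup.relIndex_sup_left]
    have h2 : N.relIndex (P : Subgroup G) ∣ Nat.card (P : Subgroup G) :=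
      Subgroup.relIndex_dvd_card _ _
    obtain ⟨n, hn⟩ := IsPGroup.iff_card.mp P.isPGroup'
    rw [hn] at h2
    obtain ⟨k, -, hk⟩ := (Nat.dvd_prime_pow hp).mp h2
    exact ⟨k, h1.trans hk⟩
  exact @aux G _ _ N _ p _ M hM P θ hθ hdeg (N ⊔ (P : Subgroup G)) le_sup_left le_sup_right hidx η hη
    (Fintype.ofFinite N)

end Cfsg.Agent.S4583
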