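import Mathlib
import Cfsg.Statements.S4585
import Cfsg.Agent.S4584

set_option autoImplicit false
open Cfsg
open scoped commutatorElement

namespace Cfsg.Agent.S4585

/-- In a nilpotent group, a subgroup `H` with `H ≤ [H, G]` is trivial. -/
lemma eq_bot_of_le_commutator {G : Type*} [Group G] [hG : Group.IsNilpotent G] (H : Subgroup G)
    (h : H ≤ ⁅H, (⊤ : Subgroup G)⁆) : H = ⊥ := by
  obtain ⟨n, hn⟩ := Subgroup.nilpotent_iff_lowerCentralSeries.mp hG
  have key : ∀ k, H ≤ Subgroup.lowerCentralSeries (⊤ : Subgroup G) k := by
    intro k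
    induction k with
    | zero => exact le_top
    | succ k ih =>
      rw [Subgroup.lowerCentralSeries_succ]
      exact h.trans (Subgroup.commutator_mono ih le_rfl)
  exact eq_bot_iff.2 (hn ▸ key n)

/-- `[N, G] = 1` iff `N` is central. -/
lemma commutator_top_eq_bot_iff {G : Type*} [Group G] (N : Subgroup G) :
    ⁅N, (⊤ : Subgroup G)⁆ = ⊥ ↔ N ≤ Subgroup.center G := by
  rw [Subgroup.commutator_eq_bot_iff_le_centralizer]
  constructor
  · intro h n hn
    have := h hn
    rw [Subgroup.mem_centralizer_iff] at this
    rw [Subgroup.mem_center_iff]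
    intro g
    exact this g (Subgroup.mem_top g)
  · intro h n hn
    rw [Subgroup.mem_centralizer_iff]
    intro g _
    exact Subgroup.mem_center_iff.1 (h hn) g

/-- In a nilpotent group, if `[G : G']` divides a prime then `G' = 1`. -/
lemma commutator_eq_bot_of_index_dvd {G : Type*} [Group G] [hG : Group.IsNilpotent G] (p : ℕ)
    [hp : Fact p.Prime] (h : (commutator G).index ∣ p) : commutator G = ⊥ := by
  apply eq_bot_of_le_commutator
  have hex : ∃ x : G, commutator G ⊔ Subgroup.zpowers x = ⊤ := by
    rcases (Nat.dvd_prime hp.out).1 h with h1 | h1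
    · refine ⟨1, ?_⟩
      rw [Subgroup.index_eq_one.1 h1]
      exact top_sup_eq _
    · have hex' : ∃ x : G, x ∉ commutator G := by
        by_contra hcon
        have hall : ∀ x : G, x ∈ commutator G := by
          intro x
          by_contra hx
          exact hcon ⟨x, hx⟩
        have : commutator G = ⊤ := (Subgroup.eq_top_iff' _).2 hall
        rw [← Subgroup.index_eq_one, h1] at this
        exact hp.out.one_lt.ne' this
      obtain ⟨x, hx⟩ := hex'
      exact ⟨x, S4586.sup_zpowers_eq_top p _ h1 x hx⟩
  obtain ⟨x, htop⟩ := hex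
  set R : Subgroup G := ⁅commutator G, (⊤ : Subgroup G)⁆ with hR
  have hRn : R.Normal := by rw [hR]; infer_instance
  have hcomm := S4586.comm_of_gen (QuotientGroup.mk' R) (commutator G) x htop
    (fun a ha b hb => by
      rw [← map_mul, ← map_mul]
      apply (QuotientGroup.eq).2
      have : (a * b)⁻¹ * (b * a) = ⁅b⁻¹, a⁻¹⁆ := by simp [commutatorElement_def, mul_assoc]
      rw [this]
      exact Subgroup.commutator_mem_commutator ((commutator G).inv_mem hb) (Subgroup.mem_top _))
    (fun a ha => by
      rw [← map_mul, ← map_mul]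
      apply (QuotientGroup.eq).2
      have : (x * a)⁻¹ * (a * x) = ⁅a⁻¹, x⁻¹⁆ := by simp [commutatorElement_def, mul_assoc]
      rw [this]
      exact Subgroup.commutator_mem_commutator ((commutator G).inv_mem ha) (Subgroup.mem_top _))
  rw [← Subgroup.Normal.quotient_commutative_iff_commutator_le]
  refine ⟨⟨fun a b => ?_⟩⟩
  obtain ⟨a, rfl⟩ := QuotientGroup.mk'_surjective R a
  obtain ⟨b, rfl⟩ := QuotientGroup.mk'_surjective R b
  exact hcomm a b

/-- Let p be a prime and P a group of order p^4. Then P' has index p^2 in P if and only if P has maximal nilpotency class, that is, nilpotency class exactly 3. -/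
theorem result {P : Type*} [Group P] [Finite P] (p : ℕ) [Fact p.Prime] (hP : Nat.card P = p ^ 4) :
    (commutator P).index = p ^ 2 ↔ Group.nilpotencyClass P = 3 := by
  have hp : p.Prime := Fact.out
  have hPp : IsPGroup p P := IsPGroup.of_card hP
  have hnil : Group.IsNilpotent P := hPp.isNilpotent
  have hc1 : Nat.card (commutator P) * (commutator P).index = p ^ 4 :=
    (Subgroup.card_mul_index _).trans hP
  have hγ1 : Subgroup.lowerCentralSeries (⊤ : Subgroup P) 1 = commutator P :=
    Subgroup.top_lowerCentralSeries_one
  have hγ2 : Subgroup.lowerCentralSeries (⊤ : Subgroup P) 2 = ⁅commutator P, (⊤ : Subgroup P)⁆ := by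
    rw [Subgroup.lowerCentralSeries_succ, hγ1]
  have hγ3 : Subgroup.lowerCentralSeries (⊤ : Subgroup P) 3 =
      ⁅⁅commutator P, (⊤ : Subgroup P)⁆, (⊤ : Subgroup P)⁆ := by
    rw [Subgroup.lowerCentralSeries_succ, hγ2]
  have hclass : Group.nilpotencyClass P = 3 ↔
      (⁅⁅commutator P, (⊤ : Subgroup P)⁆, (⊤ : Subgroup P)⁆ = ⊥ ∧
        ¬ ⁅commutator P, (⊤ : Subgroup P)⁆ = ⊥) := by
    rw [← hγ3, ← hγ2, Subgroup.lowerCentralSeries_eq_bot_iff_nilpotencyClass_le,
      Subgroup.lowerCentralSeries_eq_bot_iff_nilpotencyClass_le]
    omega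
  rw [hclass]
  -- if `P' ≤ Z(P)` and `P` is nonabelian then `[P : Z] = p^2` would force `|P'| = p`
  have hp2 : 1 < p ^ 2 := Nat.one_lt_pow (by norm_num) hp.one_lt
  constructor
  · intro h
    have hcard : Nat.card (commutator P) = p ^ 2 := by
      rw [h] at hc1
      have : Nat.card (commutator P) * p ^ 2 = p ^ 2 * p ^ 2 := by rw [← pow_add, hc1]
      exact Nat.eq_of_mul_eq_mul_right (pow_pos hp.pos 2) this
    have hne : ¬ ⁅commutator P, (⊤ : Subgroup P)⁆ = ⊥ := by
      intro h2
      rw [commutator_top_eq_bot_iff] at h2
      have h3 : (Subgroup.center P).index ∣ p ^ 2 := h ▸ Subgroup.index_dvd_of_le h2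
      obtain ⟨j, hj2, hj⟩ := (Nat.dvd_prime_pow hp).1 h3
      have hnc : ¬ ∀ a b : P, a * b = b * a := by
        intro hcomm
        have : commutator P = ⊥ := by
          rw [commutator_eq_bot_iff_center_eq_top, Subgroup.eq_top_iff']
          intro z
          rw [Subgroup.mem_center_iff]
          intro g
          exact hcomm g z
        rw [this, Subgroup.card_bot] at hcard
        omega
      have hj0 : j ≠ 0 := by
        rintro rfl
        rw [pow_zero] at hj
        have h4 : Subgroup.center P = ⊤ := Subgroup.index_eq_one.1 hj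
        apply hnc
        intro a b
        have : b ∈ Subgroup.center P := h4 ▸ Subgroup.mem_top b
        exact Subgroup.mem_center_iff.1 this a
      have hj1 : j ≠ 1 := by
        rintro rfl
        rw [pow_one] at hj
        have hcyc : IsCyclic (P ⧸ Subgroup.center P) := isCyclic_of_prime_card (p := p) hj
        have hcomm := (QuotientGroup.mk' (Subgroup.center P)).isMulCommutative_of_isCyclic_of_ker_le_center
          (by rw [QuotientGroup.ker_mk'])
        exact hnc (fun a b => hcomm.is_comm.comm a b)
      have hj2' : j = 2 := by omega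
      rw [hj2'] at hj
      have := (S4584.result p hP).2 hj
      rw [hcard] at this
      have h5 : p ^ 2 = p ^ 1 := by rw [pow_one]; exact this
      have := Nat.pow_right_injective hp.two_le h5
      omega
    refine ⟨?_, hne⟩
    -- `γ₃ < P'`, so `|γ₃|` divides `p`, so `γ₃` is central
    set R : Subgroup P := ⁅commutator P, (⊤ : Subgroup P)⁆ with hR
    have hRn : R.Normal := by rw [hR]; infer_instance
    have hRle : R ≤ commutator P := by
      rw [hR]
      exact Subgroup.commutator_le_left _ _
    have hRne : R ≠ commutator P := by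
      intro h2
      have := eq_bot_of_le_commutator (commutator P) (by rw [← hR, h2])
      rw [this, Subgroup.card_bot] at hcard
      omega
    have hRcard : Nat.card R ∣ p := by
      have h3 : Nat.card R ∣ p ^ 2 := hcard ▸ Subgroup.card_dvd_of_le hRle
      obtain ⟨j, hj2, hj⟩ := (Nat.dvd_prime_pow hp).1 h3
      have hj2' : j ≠ 2 := by
        rintro rfl
        exact hRne (Subgroup.eq_of_le_of_card_ge hRle (by rw [hj, hcard]))
      rw [hj]
      have : j ≤ 1 := by omega
      exact pow_dvd_pow p this |>.trans (by rw [pow_one])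
    rw [commutator_top_eq_bot_iff]
    rcases (Nat.dvd_prime hp).1 hRcard with h4 | h4
    · rw [Subgroup.card_eq_one.1 h4]
      exact bot_le
    · exact S4584.le_center_of_normal_of_card hPp R h4
  · rintro ⟨_, hne⟩
    have hnc : ¬ ∀ a b : P, a * b = b * a := by
      intro hcomm
      apply hne
      rw [commutator_top_eq_bot_iff]
      intro z _
      rw [Subgroup.mem_center_iff]
      intro g
      exact hcomm g z
    have hcne : commutator P ≠ ⊥ := by
      intro h2
      apply hne
      rw [h2]
      exact Subgroup.commutator_bot_left _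
    obtain ⟨i, hi4, hi⟩ := (Nat.dvd_prime_pow hp).1 (hP ▸ Subgroup.card_subgroup_dvd_card (commutator P))
    have hi0 : i ≠ 0 := by
      rintro rfl
      rw [pow_zero] at hi
      exact hcne (Subgroup.card_eq_one.1 hi)
    have hi1 : i ≠ 1 := by
      rintro rfl
      rw [pow_one] at hi
      have h2 := (S4584.result p hP).1 hi
      have hcZ : commutator P ≤ Subgroup.center P := by
        rw [← Subgroup.Normal.quotient_commutative_iff_commutator_le]
        exact IsPGroup.isMulCommutative_of_card_eq_prime_sq (p := p) h2
      exact hne ((commutator_top_eq_bot_iff _).2 hcZ)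
    have hidx : (commutator P).index = p ^ (4 - i) := by
      rw [hi] at hc1
      have : p ^ i * (commutator P).index = p ^ i * p ^ (4 - i) := by
        rw [hc1, ← pow_add, show i + (4 - i) = 4 by omega]
      exact Nat.eq_of_mul_eq_mul_left (pow_pos hp.pos i) this
    have hi34 : i ≤ 2 := by
      by_contra hcon
      have h3 : (commutator P).index ∣ p := by
        rw [hidx]
        have : 4 - i ≤ 1 := by omega
        exact pow_dvd_pow p this |>.trans (by rw [pow_one])
      exact hcne (commutator_eq_bot_of_index_dvd p h3)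
    have hi2 : i = 2 := by omega
    rw [hidx, hi2]

end Cfsg.Agent.S4585
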