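import Mathlib
import Cfsg.Agent.Lib.Helper22.AbSylowAut
import Cfsg.Agent.Lib.Helper22.PComp
import Cfsg.Statements.S4593

set_option autoImplicit false
open Cfsg

namespace Cfsg.Agent.S4593

/-- Let G be a finite group with trivial centre and no nontrivial normal subgroup of odd order, whose Sylow 2-subgroups are abelian, and let P be a Sylow 2-subgroup. Every automorphism of G of 2-power order that fixes P elementwise is inner. -/
theorem result {G : Type*} [Group G] [Finite G] (hZ : Subgroup.center G = ⊥) (hcore : Cfsg.pPrimeCore 2 G = ⊥) (P : Sylow 2 G) (hab : IsMulCommutative (P : Subgroup G))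
    (α : MulAut G) (h2 : ∃ j : ℕ, orderOf α = 2 ^ j) (hfix : ∀ x ∈ (P : Subgroup G), α x = x) :
    ∃ g : G, ∀ x : G, α x = g * x * g⁻¹ := by
  classical
  haveI : Fact (Nat.Prime 2) := ⟨Nat.prime_two⟩
  obtain ⟨j, hj⟩ := h2
  have hconj : ∀ (φ : MulAut G) (g : G), φ * MulAut.conj g * φ⁻¹ = MulAut.conj (φ g) := by
    intro φ g
    ext x
    simp [MulAut.conj_apply]
  have hinj : Function.Injective (MulAut.conj : G →* MulAut G) := by
    rw [injective_iff_map_eq_one]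
    intro g hg
    have h0 : g ∈ Subgroup.center G := by
      rw [Subgroup.mem_center_iff]
      intro x
      have h1 : (MulAut.conj g) x = x := by rw [hg]; rfl
      rw [MulAut.conj_apply] at h1
      calc x * g = g * x * g⁻¹ * g := by rw [h1]
        _ = g * x := by group
    rw [hZ] at h0
    exact Subgroup.mem_bot.mp h0
  obtain ⟨I₀, hI₀⟩ : ∃ I₀ : Subgroup (MulAut G), I₀ = (MulAut.conj : G →* MulAut G).range :=
    ⟨_, rfl⟩
  haveI hI₀n : I₀.Normal := by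
    constructor
    intro φ hφ ψ
    rw [hI₀] at hφ ⊢
    obtain ⟨g, rfl⟩ := hφ
    exact ⟨ψ g, (hconj ψ g).symm⟩
  obtain ⟨Γ₀, hΓ₀⟩ : ∃ Γ₀ : Subgroup (MulAut G), Γ₀ = I₀ ⊔ Subgroup.zpowers α := ⟨_, rfl⟩
  have hIΓ : I₀ ≤ Γ₀ := hΓ₀ ▸ le_sup_left
  have hαΓ : α ∈ Γ₀ :=
    hΓ₀ ▸ (le_sup_right : Subgroup.zpowers α ≤ I₀ ⊔ Subgroup.zpowers α) (Subgroup.mem_zpowers α)
  have hconjΓ : ∀ g : G, MulAut.conj g ∈ Γ₀ := fun g => hIΓ (hI₀ ▸ ⟨g, rfl⟩)
  obtain ⟨P₀, hP₀⟩ : ∃ P₀ : Subgroup (MulAut G),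
      P₀ = (P : Subgroup G).map (MulAut.conj : G →* MulAut G) := ⟨_, rfl⟩
  have hP₀I : P₀ ≤ I₀ := by
    rw [hP₀, hI₀]
    exact Subgroup.map_le_range _ _
  have hPcomm : ∀ x ∈ (P : Subgroup G), ∀ y ∈ (P : Subgroup G), x * y = y * x := by
    intro x hx y hy
    have h1 := hab.is_comm.comm (⟨x, hx⟩ : ↥(P : Subgroup G)) ⟨y, hy⟩
    exact congrArg Subtype.val h1
  -- the hypotheses of the abstract lemma
  have hPI : P₀.subgroupOf Γ₀ ≤ I₀.subgroupOf Γ₀ := Subgroup.comap_mono hP₀I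
  have hP2 : IsPGroup 2 ↥(P₀.subgroupOf Γ₀) := by
    rw [hP₀]
    exact (P.isPGroup'.map _).comap_subtype
  have hPs : ¬ 2 ∣ (P₀.subgroupOf Γ₀).relIndex (I₀.subgroupOf Γ₀) := by
    rw [Subgroup.relIndex_subgroupOf hIΓ, hP₀, hI₀, MonoidHom.range_eq_map,
      Subgroup.relIndex_map_map_of_injective _ _ hinj, Subgroup.relIndex_top_right]
    exact P.not_dvd_index
  have hPab : ∀ x ∈ P₀.subgroupOf Γ₀, ∀ y ∈ P₀.subgroupOf Γ₀, x * y = y * x := by
    intro x hx y hy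
    rw [Subgroup.mem_subgroupOf, hP₀] at hx hy
    obtain ⟨x₀, hx₀, hxe⟩ := hx
    obtain ⟨y₀, hy₀, hye⟩ := hy
    apply Subtype.ext
    rw [Subgroup.coe_mul, Subgroup.coe_mul, ← hxe, ← hye, ← map_mul, ← map_mul,
      hPcomm x₀ hx₀ y₀ hy₀]
  have hord : (⟨α, hαΓ⟩ : ↥Γ₀) ^ 2 ^ j = 1 := by
    apply Subtype.ext
    rw [Subgroup.coe_pow, Subgroup.coe_one]
    show α ^ 2 ^ j = 1
    rw [← hj]
    exact pow_orderOf_eq_one α
  have haP : ∀ x ∈ P₀.subgroupOf Γ₀, (⟨α, hαΓ⟩ : ↥Γ₀) * x = x * ⟨α, hαΓ⟩ := by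
    intro x hx
    rw [Subgroup.mem_subgroupOf, hP₀] at hx
    obtain ⟨x₀, hx₀, hxe⟩ := hx
    apply Subtype.ext
    rw [Subgroup.coe_mul, Subgroup.coe_mul, ← hxe]
    show α * MulAut.conj x₀ = MulAut.conj x₀ * α
    have h1 := hconj α x₀
    rw [hfix x₀ hx₀] at h1
    calc α * MulAut.conj x₀ = α * MulAut.conj x₀ * α⁻¹ * α := by group
      _ = MulAut.conj x₀ * α := by rw [h1]
  have hgen : ∀ γ : ↥Γ₀, ∃ i ∈ I₀.subgroupOf Γ₀,
      ∃ b ∈ Subgroup.zpowers (⟨α, hαΓ⟩ : ↥Γ₀), γ = i * b := by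
    intro γ
    have h1 : (γ : MulAut G) ∈ I₀ ⊔ Subgroup.zpowers α := hΓ₀ ▸ γ.2
    rw [Subgroup.mem_sup_of_normal_left] at h1
    obtain ⟨y, hy, z, hz, hyz⟩ := h1
    obtain ⟨k, rfl⟩ := Subgroup.mem_zpowers_iff.mp hz
    refine ⟨⟨y, hIΓ hy⟩, Subgroup.mem_subgroupOf.mpr hy, (⟨α, hαΓ⟩ : ↥Γ₀) ^ k,
      Subgroup.zpow_mem_zpowers _ k, ?_⟩
    apply Subtype.ext
    rw [Subgroup.coe_mul, Subgroup.coe_zpow]
    exact hyz.symm
  have hO : Cfsg.oddCore ↥Γ₀ = ⊥ := by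
    rw [eq_bot_iff]
    intro ν hν
    rw [Subgroup.mem_bot]
    obtain ⟨c, hc⟩ : ∃ c : G →* ↥Γ₀, ∀ g : G, ((c g : ↥Γ₀) : MulAut G) = MulAut.conj g :=
      ⟨(MulAut.conj : G →* MulAut G).codRestrict Γ₀ hconjΓ, fun _ => rfl⟩
    have hcinj : Function.Injective c := by
      intro g g' hgg
      apply hinj
      rw [← hc g, ← hc g', hgg]
    have hMn : ((Cfsg.oddCore ↥Γ₀).comap c).Normal := Subgroup.Normal.comap inferInstance c
    have hMc : (Nat.card ((Cfsg.oddCore ↥Γ₀).comap c)).Coprime 2 := by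
      have h1 : Nat.card ((Cfsg.oddCore ↥Γ₀).comap c) ∣ Nat.card (Cfsg.oddCore ↥Γ₀) := by
        have h2 : Nat.card (((Cfsg.oddCore ↥Γ₀).comap c).map c) =
            Nat.card ((Cfsg.oddCore ↥Γ₀).comap c) :=
          Subgroup.card_map_of_injective hcinj
        rw [← h2]
        exact Subgroup.card_dvd_of_le (Subgroup.map_comap_le c _)
      exact Nat.Coprime.coprime_dvd_left h1
        (Cfsg.Agent.Lib.Helper22.card_pPrimeCore_coprime 2 ↥Γ₀)
    have hM : (Cfsg.oddCore ↥Γ₀).comap c = ⊥ := by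
      rw [eq_bot_iff, ← hcore]
      exact Cfsg.Agent.Lib.Helper22.le_pPrimeCore_of_normal 2 hMn hMc
    have hνg : ∀ g : G, (ν : MulAut G) g = g := by
      intro g
      have h1 : (ν : MulAut G) g * g⁻¹ ∈ (Cfsg.oddCore ↥Γ₀).comap c := by
        have h2 : c ((ν : MulAut G) g * g⁻¹) = ν * (c g * ν⁻¹ * (c g)⁻¹) := by
          apply Subtype.ext
          rw [map_mul, map_inv, Subgroup.coe_mul, Subgroup.coe_mul, Subgroup.coe_mul,
            Subgroup.coe_mul, Subgroup.coe_inv, Subgroup.coe_inv, hc, hc,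
            ← hconj (ν : MulAut G) g]
          group
        rw [Subgroup.mem_comap, h2]
        exact Subgroup.mul_mem _ hν
          (Subgroup.Normal.conj_mem inferInstance _ (Subgroup.inv_mem _ hν) _)
      rw [hM, Subgroup.mem_bot] at h1
      exact mul_inv_eq_one.mp h1
    apply Subtype.ext
    ext g
    exact hνg g
  obtain ⟨z, hzP, hz⟩ := Cfsg.Agent.Lib.Helper22.exists_central_mul_of_centralizes_sylow
    (Γ := ↥Γ₀) (I₀.subgroupOf Γ₀) (P₀.subgroupOf Γ₀) hPI hP2 hPs hPab ⟨α, hαΓ⟩ j hord haP hgen hO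
  rw [Subgroup.mem_subgroupOf, hP₀] at hzP
  obtain ⟨z₀, hz₀, hze⟩ := hzP
  have hβ : ∀ g : G, (α * MulAut.conj z₀) g = g := by
    intro g
    have h1 := congrArg Subtype.val (hz ⟨MulAut.conj g, hconjΓ g⟩)
    rw [Subgroup.coe_mul, Subgroup.coe_mul, Subgroup.coe_mul, Subgroup.coe_mul, ← hze] at h1
    have h2 : MulAut.conj g * (α * MulAut.conj z₀) = (α * MulAut.conj z₀) * MulAut.conj g := h1
    have h3 := hconj (α * MulAut.conj z₀) g
    have h4 : (α * MulAut.conj z₀) * MulAut.conj g * (α * MulAut.conj z₀)⁻¹ = MulAut.conj g := by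
      rw [← h2]
      group
    rw [h4] at h3
    exact (hinj h3).symm
  refine ⟨z₀⁻¹, fun x => ?_⟩
  have h1 := hβ (z₀⁻¹ * x * z₀⁻¹⁻¹)
  rw [MulAut.mul_apply, MulAut.conj_apply] at h1
  have h2 : z₀ * (z₀⁻¹ * x * z₀⁻¹⁻¹) * z₀⁻¹ = x := by group
  rw [h2] at h1
  exact h1

end Cfsg.Agent.S4593
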