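import Mathlib
import Cfsg.Statements.S4601
import Cfsg.Agent.S4602

set_option autoImplicit false
open Cfsg

namespace Cfsg.Agent.S4601

open Subgroup
open scoped Pointwise

universe u

/-- If `N` is normal, `N ≤ K ≤ H ⊔ N`, then `|K : H ∩ K| = |N : H ∩ N|`.
(Same argument as in the library file of helper50.) -/
theorem relIndex_eq_of_le_sup {G : Type*} [Group G] [Finite G] (H N K : Subgroup G) [N.Normal]
    (hNK : N ≤ K) (hK : K ≤ H ⊔ N) : H.relIndex K = H.relIndex N := by
  have hKeq : K = (H ⊓ K) ⊔ N := by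
    apply le_antisymm
    · intro k hk
      have hk' := hK hk
      rw [Subgroup.mem_sup_of_normal_right] at hk'
      obtain ⟨h, hh, n, hn, rfl⟩ := hk'
      have hhK : h ∈ K := by
        have : h * n * n⁻¹ ∈ K := K.mul_mem hk (K.inv_mem (hNK hn))
        simpa using this
      exact Subgroup.mul_mem_sup ⟨hh, hhK⟩ hn
    · exact sup_le inf_le_right hNK
  have h1 : (H ⊓ N).relIndex (H ⊓ K) * (H ⊓ K).relIndex K = (H ⊓ N).relIndex K :=
    Subgroup.relIndex_mul_relIndex _ _ _ (inf_le_inf_left H hNK) inf_le_right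
  have h2 : (H ⊓ N).relIndex N * N.relIndex K = (H ⊓ N).relIndex K :=
    Subgroup.relIndex_mul_relIndex _ _ _ inf_le_right hNK
  have h3 : N.relIndex K = (H ⊓ N).relIndex (H ⊓ K) := by
    have e1 : N.relIndex K = N.relIndex ((H ⊓ K) ⊔ N) := by rw [← hKeq]
    rw [e1, Subgroup.relIndex_sup_right, ← Subgroup.inf_relIndex_right N (H ⊓ K)]
    congr 1
    apply le_antisymm
    · exact le_inf (inf_le_right.trans inf_le_left) inf_le_left
    · exact le_inf inf_le_right (le_inf inf_le_left (inf_le_right.trans hNK))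
  have h4 : (H ⊓ N).relIndex (H ⊓ K) ≠ 0 := by
    have : ((H ⊓ N).subgroupOf (H ⊓ K)).FiniteIndex := Subgroup.finiteIndex_of_finite_quotient
    exact Subgroup.FiniteIndex.index_ne_zero
  rw [← Subgroup.inf_relIndex_right H K, ← Subgroup.inf_relIndex_right H N]
  rw [h3] at h2
  have : (H ⊓ N).relIndex (H ⊓ K) * (H ⊓ K).relIndex K
      = (H ⊓ N).relIndex (H ⊓ K) * (H ⊓ N).relIndex N := by
    rw [h1, ← h2, mul_comm]
  exact Nat.eq_of_mul_eq_mul_left (Nat.pos_of_ne_zero h4) this

/-- A Sylow subgroup meets a normal subgroup in a Sylow subgroup. -/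
theorem not_dvd_relIndex_normal {G : Type*} [Group G] [Finite G] {p : ℕ} [Fact p.Prime]
    (P : Sylow p G) (N : Subgroup G) [N.Normal] : ¬ p ∣ (P : Subgroup G).relIndex N := by
  rw [← relIndex_eq_of_le_sup (P : Subgroup G) N ((P : Subgroup G) ⊔ N) le_sup_right le_rfl]
  intro h
  exact P.not_dvd_index (h.trans (Subgroup.relIndex_dvd_index_of_le le_sup_left))

/-- Sylow conjugacy inside a subgroup `K`, elementwise form. -/
theorem exists_conj_mem {G : Type*} [Group G] [Finite G] {p : ℕ} [Fact p.Prime]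
    (A B K : Subgroup G) (hBK : B ≤ K) (hA : IsPGroup p A) (hB : IsPGroup p B)
    (hidx : ¬ p ∣ A.relIndex K) : ∃ k ∈ K, ∀ b ∈ B, k⁻¹ * b * k ∈ A := by
  have hA' : IsPGroup p (A.subgroupOf K) := hA.comap_subtype
  have hB' : IsPGroup p (B.subgroupOf K) := hB.comap_subtype
  let S : Sylow p K := hA'.toSylow hidx
  obtain ⟨Q, hQ⟩ := hB'.exists_le_sylow
  obtain ⟨k, hk⟩ := MulAction.exists_smul_eq K S Q
  refine ⟨k, k.2, ?_⟩
  intro b hb
  have hb' : (⟨b, hBK hb⟩ : K) ∈ (Q : Subgroup K) := hQ (by rw [Subgroup.mem_subgroupOf]; exact hb)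
  rw [← hk, Sylow.coe_subgroup_smul, Subgroup.mem_pointwise_smul_iff_inv_smul_mem] at hb'
  have hb'' : (MulAut.conj k)⁻¹ • (⟨b, hBK hb⟩ : K) ∈ A.subgroupOf K := hb'
  rw [Subgroup.mem_subgroupOf] at hb''
  simpa [MulAut.smul_def, mul_assoc] using hb''

theorem exists_sylow_le_of_not_dvd_index {G : Type*} [Group G] [Finite G] (p : ℕ) [Fact p.Prime]
    (M : Subgroup G) (h : ¬ p ∣ M.index) : ∃ P : Sylow p G, (P : Subgroup G) ≤ M := by
  let P₀ : Sylow p M := default
  have hcardP : Nat.card ((P₀ : Subgroup M).map M.subtype) = p ^ (Nat.card G).factorization p := by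
    rw [Nat.card_congr (Subgroup.equivMapOfInjective _ _ M.subtype_injective).symm.toEquiv,
      Sylow.card_eq_multiplicity]
    congr 1
    have h1 := Subgroup.card_mul_index M
    rw [← h1, Nat.factorization_mul Nat.card_pos.ne' (Subgroup.index_ne_zero_of_finite),
      Finsupp.add_apply, Nat.factorization_eq_zero_of_not_dvd h, add_zero]
  exact ⟨Sylow.ofCard _ hcardP, by rw [Sylow.coe_ofCard]; exact Subgroup.map_subtype_le _⟩

/-- a self-map of a finite set of `q`-power order has a fixed point when `q ∤ card`. -/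
theorem exists_fixed_of_iterate {α : Type*} [Finite α] (q : ℕ) [Fact q.Prime] (f : α → α) (a : ℕ)
    (hf : ∀ x, f^[q ^ a] x = x) (hcard : ¬ q ∣ Nat.card α) : ∃ x, f x = x := by
  classical
  have := Fintype.ofFinite α
  let F : Function.End α := f
  have hF : F ^ q ^ a = 1 := by
    change f^[q ^ a] = id
    exact funext hf
  have h3 := Equiv.Perm.card_fixedPoints_modEq (f := F) (p := q) (n := a) hF
  by_contra hne
  have hne : ∀ x, f x ≠ x := fun x hx => hne ⟨x, hx⟩
  have h4 : Fintype.card (Function.fixedPoints F) = 0 := by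
    rw [Fintype.card_eq_zero_iff]
    exact ⟨fun x => hne x.1 x.2⟩
  rw [h4] at h3
  apply hcard
  rw [Nat.card_eq_fintype_card]
  exact (Nat.modEq_zero_iff_dvd).mp h3

theorem exists_lift_qElement {G Γ : Type*} [Group G] [Group Γ] [Finite G] (q : ℕ) [Fact q.Prime]
    (f : G →* Γ) (hf : Function.Surjective f) (y' : Γ) (hy' : ∃ k : ℕ, orderOf y' = q ^ k) :
    ∃ y : G, f y = y' ∧ ∃ k : ℕ, orderOf y = q ^ k := by
  have hq : q.Prime := Fact.out
  obtain ⟨b, hb⟩ := hy'
  obtain ⟨y₀, rfl⟩ := hf y'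
  have hpos : 0 < orderOf y₀ := orderOf_pos y₀
  obtain ⟨a, m, hm, ham⟩ :=
    Nat.exists_eq_pow_mul_and_not_dvd (Nat.pos_iff_ne_zero.mp hpos) q hq.ne_one
  rcases Nat.eq_zero_or_pos b with rfl | hbpos
  · refine ⟨1, ?_, 0, by simp⟩
    rw [map_one]
    rw [pow_zero] at hb
    exact (orderOf_eq_one_iff.mp hb).symm
  · have hcop : Nat.Coprime m (q ^ b) :=
      Nat.Coprime.pow_right b (Nat.Coprime.symm ((Nat.Prime.coprime_iff_not_dvd hq).mpr hm))
    have h1lt : 1 < q ^ b := Nat.one_lt_pow hbpos.ne' hq.one_lt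
    obtain ⟨m', -, hm'⟩ := Nat.exists_mul_mod_eq_one_of_coprime hcop h1lt
    refine ⟨y₀ ^ (m * m'), ?_, ?_⟩
    · rw [map_pow, ← pow_mod_orderOf, hb, hm', pow_one]
    · have h2 : (y₀ ^ (m * m')) ^ (q ^ a) = 1 := by
        rw [← pow_mul, mul_comm (m * m') (q ^ a), ← mul_assoc, ← ham, pow_mul, pow_orderOf_eq_one,
          one_pow]
      obtain ⟨j, -, hj⟩ := (Nat.dvd_prime_pow hq).mp (orderOf_dvd_of_pow_eq_one h2)
      exact ⟨j, hj⟩


theorem hyp_quotient {G : Type*} [Group G] [Finite G] (p q : ℕ) [Fact q.Prime] (N : Subgroup G)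
    [N.Normal]
    (h : ∀ y : G, (∃ k : ℕ, orderOf y = q ^ k) → ¬ p ∣ (centralizer ({y} : Set G)).index) :
    ∀ y : G ⧸ N, (∃ k : ℕ, orderOf y = q ^ k) →
      ¬ p ∣ (centralizer ({y} : Set (G ⧸ N))).index := by
  intro y' hy'
  obtain ⟨y, rfl, hy⟩ :=
    exists_lift_qElement q (QuotientGroup.mk' N) (QuotientGroup.mk'_surjective N) y' hy'
  have h1 := h y hy
  have hle : (centralizer ({y} : Set G)).map (QuotientGroup.mk' N) ≤
      centralizer ({QuotientGroup.mk' N y} : Set (G ⧸ N)) := by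
    rintro _ ⟨c, hc, rfl⟩
    have hc : c ∈ centralizer ({y} : Set G) := hc
    rw [mem_centralizer_iff] at hc ⊢
    intro z hz
    rw [Set.mem_singleton_iff] at hz
    subst hz
    rw [← map_mul, ← map_mul, hc y rfl]
  intro hdvd
  exact h1 ((hdvd.trans (index_dvd_of_le hle)).trans
    (index_map_dvd _ (QuotientGroup.mk'_surjective N)))

theorem stepB {G : Type*} [Group G] [Finite G] (p q : ℕ) [Fact p.Prime] [Fact q.Prime]
    (N : Subgroup G) [hNn : N.Normal] (hNq : (Nat.card N).Coprime q)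
    (S : Subgroup G) (hSN : S ≤ N) (hSp : IsPGroup p S)
    (y : G) (hy : ∃ k : ℕ, orderOf y = q ^ k) (hyS : y ∈ normalizer (S : Set G))
    (hyc : ¬ p ∣ (centralizer ({y} : Set G)).index) : ∀ s ∈ S, y * s = s * y := by
  have hq : q.Prime := Fact.out
  obtain ⟨Py, hPy⟩ := exists_sylow_le_of_not_dvd_index p _ hyc
  have h1 : ¬ p ∣ ((Py : Subgroup G) ⊓ N).relIndex N := by
    rw [inf_relIndex_right]
    exact not_dvd_relIndex_normal Py N
  obtain ⟨k, hkN, hk⟩ :=
    exists_conj_mem ((Py : Subgroup G) ⊓ N) S N hSN (Py.2.to_le inf_le_left) hSp h1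
  have hcomm : ∀ s ∈ S, y * (k⁻¹ * s * k) = (k⁻¹ * s * k) * y := by
    intro s hs
    have := hPy (hk s hs).1
    rw [mem_centralizer_iff] at this
    exact this y rfl
  have hkyk : k * y * k⁻¹ ∈ normalizer (S : Set G) := by
    apply centralizer_le_normalizer
    rw [mem_centralizer_iff]
    intro s hs
    have := hcomm s hs
    calc s * (k * y * k⁻¹) = k * ((k⁻¹ * s * k) * y) * k⁻¹ := by group
      _ = k * (y * (k⁻¹ * s * k)) * k⁻¹ := by rw [this]
      _ = k * y * k⁻¹ * s := by group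
  obtain ⟨a, ha⟩ := hy
  let Y := {n : G // n ∈ N ∧ k * n ∈ normalizer (S : Set G)}
  have hYmem : ∀ n : Y, y * n.1 * y⁻¹ ∈ N ∧ k * (y * n.1 * y⁻¹) ∈ normalizer (S : Set G) := by
    intro n
    refine ⟨hNn.conj_mem _ n.2.1 y, ?_⟩
    have : k * (y * n.1 * y⁻¹) = (k * y * k⁻¹) * (k * n.1) * y⁻¹ := by group
    rw [this]
    exact mul_mem (mul_mem hkyk n.2.2) (inv_mem hyS)
  let g : Y → Y := fun n => ⟨y * n.1 * y⁻¹, hYmem n⟩
  have hiter : ∀ (j : ℕ) (n : Y), (g^[j] n).1 = y ^ j * n.1 * (y ^ j)⁻¹ := by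
    intro j
    induction j with
    | zero => intro n; simp
    | succ j ih =>
      intro n
      rw [Function.iterate_succ_apply', pow_succ']
      change y * (g^[j] n).1 * y⁻¹ = _
      rw [ih]
      group
  have hg : ∀ n, g^[q ^ a] n = n := by
    intro n
    apply Subtype.ext
    rw [hiter, ← ha, pow_orderOf_eq_one]
    simp
  have hcardY : ¬ q ∣ Nat.card Y := by
    have e : Y ≃ ↥(N ⊓ normalizer (S : Set G)) :=
      Equiv.subtypeEquiv (Equiv.mulLeft k) (fun n => by
        simp only [Equiv.coe_mulLeft, Subgroup.mem_inf]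
        rw [N.mul_mem_cancel_left hkN])
    rw [Nat.card_congr e]
    intro hdvd
    have h2 : Nat.card ↥(N ⊓ normalizer (S : Set G)) ∣ Nat.card N :=
      Subgroup.card_dvd_of_le inf_le_left
    exact (Nat.Prime.coprime_iff_not_dvd hq).mp hNq.symm (hdvd.trans h2)
  obtain ⟨n₁, hn₁⟩ := exists_fixed_of_iterate q g a hg hcardY
  have hn₁' : y * n₁.1 * y⁻¹ = n₁.1 := congrArg Subtype.val hn₁
  have hyn : y * n₁.1 = n₁.1 * y := by
    calc y * n₁.1 = (y * n₁.1 * y⁻¹) * y := by group
      _ = n₁.1 * y := by rw [hn₁']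
  intro s hs
  have hm := n₁.2.2
  have hs' : (k * n₁.1) * s * (k * n₁.1)⁻¹ ∈ S := (mem_normalizer_iff.mp hm s).mp hs
  have h3 := hcomm _ hs'
  have h4 : k⁻¹ * ((k * n₁.1) * s * (k * n₁.1)⁻¹) * k = n₁.1 * s * n₁.1⁻¹ := by group
  rw [h4] at h3
  calc y * s = n₁.1⁻¹ * (y * (n₁.1 * s * n₁.1⁻¹)) * n₁.1 := by
        have : n₁.1⁻¹ * (y * (n₁.1 * s * n₁.1⁻¹)) * n₁.1 = n₁.1⁻¹ * (y * n₁.1) * s := by group
        rw [this, hyn]
        group
    _ = n₁.1⁻¹ * ((n₁.1 * s * n₁.1⁻¹) * y) * n₁.1 := by rw [h3]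
    _ = s * y := by
        have : n₁.1⁻¹ * ((n₁.1 * s * n₁.1⁻¹) * y) * n₁.1 = s * (n₁.1⁻¹ * (y * n₁.1)) := by group
        rw [this, hyn]
        group


/-- The case of a normal `q'`-subgroup `N`: if the Sylow `p`-subgroup `P` normalizes `Q₀ N`,
then some Sylow `p`-subgroup normalizes some Sylow `q`-subgroup. -/
theorem core_ii {G : Type*} [Group G] [Finite G] (p q : ℕ) [Fact p.Prime] [Fact q.Prime]
    (N : Subgroup G) [hNn : N.Normal] (hNq : (Nat.card N).Coprime q)
    (h : ∀ y : G, (∃ k : ℕ, orderOf y = q ^ k) → ¬ p ∣ (centralizer ({y} : Set G)).index)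
    (P : Sylow p G) (Q₀ : Sylow q G)
    (hPT : (P : Subgroup G) ≤ normalizer (((Q₀ : Subgroup G) ⊔ N : Subgroup G) : Set G)) :
    ∃ (P' : Sylow p G) (Q' : Sylow q G),
      (P' : Subgroup G) ≤ normalizer ((Q' : Subgroup G) : Set G) := by
  have hp : p.Prime := Fact.out
  have hq : q.Prime := Fact.out
  set T : Subgroup G := (Q₀ : Subgroup G) ⊔ N with hT
  have hNT : N ≤ T := le_sup_right
  -- (a) the Sylow p-subgroup S of N
  set S : Subgroup G := (P : Subgroup G) ⊓ N with hS
  have hSN : S ≤ N := inf_le_right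
  have hSp : IsPGroup p S := P.2.to_le inf_le_left
  have hSidx : ¬ p ∣ S.relIndex N := by
    rw [hS, inf_relIndex_right]
    exact not_dvd_relIndex_normal P N
  -- (b) Frattini
  set M : Subgroup G := normalizer (S : Set G) with hM
  have hfr : M ⊔ N = ⊤ := by
    let S' : Sylow p N := (hSp.comap_subtype (K := N)).toSylow hSidx
    have h1 := Sylow.normalizer_sup_eq_top S'
    have h2 : (S' : Subgroup N).map N.subtype = S := Subgroup.map_subgroupOf_eq_of_le hSN
    rw [h2] at h1
    exact h1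
  -- (c) a Sylow q-subgroup inside T ⊓ M
  have hidxTM : ¬ q ∣ (T ⊓ M).index := by
    have h1 : (T ⊓ M).relIndex T * T.index = (T ⊓ M).index := relIndex_mul_index inf_le_left
    have h2 : (T ⊓ M).relIndex T = M.relIndex N := by
      rw [inf_relIndex_left]
      exact relIndex_eq_of_le_sup M N T hNT (by rw [hfr]; exact le_top)
    have h3 : M.relIndex N ∣ Nat.card N := Subgroup.index_dvd_card _
    have h4 : T.index ∣ (Q₀ : Subgroup G).index := index_dvd_of_le le_sup_left
    rw [← h1, h2]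
    intro hdvd
    rcases (Nat.Prime.dvd_mul hq).mp hdvd with h5 | h5
    · exact (Nat.Prime.coprime_iff_not_dvd hq).mp hNq.symm (h5.trans h3)
    · exact Q₀.not_dvd_index (h5.trans h4)
  obtain ⟨Q, hQ⟩ := exists_sylow_le_of_not_dvd_index q _ hidxTM
  have hQT : (Q : Subgroup G) ≤ T := hQ.trans inf_le_left
  have hQM : (Q : Subgroup G) ≤ M := hQ.trans inf_le_right
  -- (d) T = Q ⊔ N
  have hcardsup : ∀ Q₁ : Sylow q G, Nat.card ((Q₁ : Subgroup G) ⊔ N : Subgroup G) =
      Nat.card N * q ^ (Nat.card G).factorization q := by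
    intro Q₁
    have h1 : Nat.card (N.subgroupOf ((Q₁ : Subgroup G) ⊔ N)) *
        (N.subgroupOf ((Q₁ : Subgroup G) ⊔ N)).index = Nat.card ((Q₁ : Subgroup G) ⊔ N : Subgroup G) :=
      Subgroup.card_mul_index _
    have h2 : Nat.card (N.subgroupOf ((Q₁ : Subgroup G) ⊔ N)) = Nat.card N :=
      Nat.card_congr (Subgroup.subgroupOfEquivOfLe le_sup_right).toEquiv
    have h3 : (N.subgroupOf ((Q₁ : Subgroup G) ⊔ N)).index = N.relIndex (Q₁ : Subgroup G) :=
      relIndex_sup_right (Q₁ : Subgroup G) N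
    have h4 : N ⊓ (Q₁ : Subgroup G) = ⊥ := by
      apply Disjoint.eq_bot
      apply Subgroup.disjoint_of_coprime_natCard
      rw [Sylow.card_eq_multiplicity]
      exact Nat.Coprime.pow_right _ hNq
    have h5 : N.relIndex (Q₁ : Subgroup G) = Nat.card Q₁ := by
      rw [← inf_relIndex_right, h4, relIndex_bot_left]
    rw [← h1, h2, h3, h5, Sylow.card_eq_multiplicity]
  have hTQ : T = (Q : Subgroup G) ⊔ N := by
    have hle : (Q : Subgroup G) ⊔ N ≤ T := sup_le hQT hNT
    have hc : Nat.card T ≤ Nat.card ((Q : Subgroup G) ⊔ N : Subgroup G) := by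
      rw [hT, hcardsup Q₀, hcardsup Q]
    exact (Subgroup.eq_of_le_of_card_ge hle hc).symm
  -- (e) Q centralizes S
  have hQS : ∀ y ∈ (Q : Subgroup G), ∀ s ∈ S, y * s = s * y := by
    intro y hy
    have hyq : ∃ k : ℕ, orderOf y = q ^ k := by
      obtain ⟨k, hk⟩ := Q.2 ⟨y, hy⟩
      have h1 : y ^ q ^ k = 1 := by simpa using congrArg Subtype.val hk
      obtain ⟨j, -, hj⟩ := (Nat.dvd_prime_pow hq).mp (orderOf_dvd_of_pow_eq_one h1)
      exact ⟨j, hj⟩
    exact stepB p q N hNq S hSN hSp y hyq (hQM hy) (h y hyq)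
  -- (f) the normalizer of Q
  set R : Subgroup G := normalizer ((Q : Subgroup G) : Set G) with hR
  have hQR : (Q : Subgroup G) ≤ R := le_normalizer
  have hSR : S ≤ R := by
    intro s hs
    apply centralizer_le_normalizer
    rw [mem_centralizer_iff]
    intro y hy
    exact hQS y hy s hs
  have hRidx : ¬ p ∣ R.relIndex (R ⊔ N) := by
    rw [relIndex_eq_of_le_sup R N (R ⊔ N) le_sup_right le_rfl, ← inf_relIndex_right]
    intro hdvd
    exact hSidx (hdvd.trans (relIndex_dvd_of_le_left N (le_inf hSR hSN)))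
  -- (g) P ≤ R ⊔ N
  have hPRN : (P : Subgroup G) ≤ R ⊔ N := by
    intro x hx
    set B : Subgroup G := (Q : Subgroup G).map (MulAut.conj x).toMonoidHom with hB
    have hBT : B ≤ T := by
      rintro _ ⟨u, hu, rfl⟩
      exact (mem_normalizer_iff.mp (hPT hx) u).mp (hQT hu)
    have hBq : IsPGroup q B := Q.2.map _
    have hQidx : ¬ q ∣ (Q : Subgroup G).relIndex T := fun hd =>
      Q.not_dvd_index (hd.trans (relIndex_dvd_index_of_le hQT))
    obtain ⟨t, ht, htB⟩ := exists_conj_mem (Q : Subgroup G) B T hBT Q.2 hBq hQidx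
    have hw : t⁻¹ * x ∈ R := by
      apply Subgroup.mem_normalizer_fintype
      intro u hu
      have h1 := htB _ (Subgroup.mem_map_of_mem _ hu)
      have h2 : t⁻¹ * ((MulAut.conj x).toMonoidHom u) * t = t⁻¹ * x * u * (t⁻¹ * x)⁻¹ := by
        simp only [MulEquiv.coe_toMonoidHom, MulAut.conj_apply]
        group
      rw [h2] at h1
      exact h1
    rw [hTQ, mem_sup_of_normal_right] at ht
    obtain ⟨u₀, hu₀, n, hn, rfl⟩ := ht
    have h3 : u₀ * ((u₀ * n)⁻¹ * x) ∈ R := R.mul_mem (hQR hu₀) hw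
    have h4 : x = (u₀ * n * u₀⁻¹) * (u₀ * ((u₀ * n)⁻¹ * x)) := by group
    rw [h4, sup_comm]
    exact Subgroup.mul_mem_sup (hNn.conj_mem n hn u₀) h3
  -- (h) a Sylow p-subgroup of R
  let PR : Sylow p R := default
  set A : Subgroup G := (PR : Subgroup R).map R.subtype with hA
  have hAR : A ≤ R := Subgroup.map_subtype_le _
  have hAp : IsPGroup p A := PR.2.map _
  have hAidx : ¬ p ∣ A.relIndex (R ⊔ N) := by
    rw [← relIndex_mul_relIndex A R (R ⊔ N) hAR le_sup_left]
    have h1 : A.relIndex R = (PR : Subgroup R).index := by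
      have : A.subgroupOf R = (PR : Subgroup R) :=
        Subgroup.comap_map_eq_self_of_injective R.subtype_injective _
      rw [Subgroup.relIndex, this]
    rw [h1]
    intro hdvd
    rcases (Nat.Prime.dvd_mul hp).mp hdvd with h5 | h5
    · exact PR.not_dvd_index h5
    · exact hRidx h5
  obtain ⟨k, -, hk⟩ := exists_conj_mem A (P : Subgroup G) (R ⊔ N) hPRN hAp P.2 hAidx
  -- (j) conclusion
  refine ⟨P, k • Q, ?_⟩
  intro x hx
  have ha : k⁻¹ * x * k ∈ R := hAR (hk x hx)
  rw [Sylow.coe_subgroup_smul]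
  apply Subgroup.mem_normalizer_fintype
  intro v hv
  have hv' : v ∈ MulAut.conj k • (Q : Subgroup G) := hv
  rw [Subgroup.mem_pointwise_smul_iff_inv_smul_mem] at hv'
  have hgoal : x * v * x⁻¹ ∈ MulAut.conj k • (Q : Subgroup G) := by
    rw [Subgroup.mem_pointwise_smul_iff_inv_smul_mem]
    rw [MulAut.smul_def, MulAut.conj_inv_apply] at hv' ⊢
    have h1 := (mem_normalizer_iff.mp ha (k⁻¹ * v * k)).mp hv'
    have h2 : k⁻¹ * x * k * (k⁻¹ * v * k) * (k⁻¹ * x * k)⁻¹ = k⁻¹ * (x * v * x⁻¹) * k := by group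
    rw [h2] at h1
    exact h1
  exact hgoal


theorem exists_normal_of_isPSolvable {G : Type*} [Group G] [Nontrivial G] (q : ℕ)
    [Fact q.Prime] (h : Cfsg.IsPSolvable q G) :
    ∃ N : Subgroup G, N.Normal ∧ N ≠ ⊥ ∧ (IsPGroup q N ∨ (Nat.card N).Coprime q) := by
  obtain ⟨n, S, h0, hlast, hmono, hnorm, hfac⟩ := h
  by_contra hcon
  have key : ∀ i : Fin (n + 1), S i = ⊥ := by
    intro i
    induction i using Fin.induction with
    | zero => exact h0
    | succ i ih =>
      by_contra hne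
      have h1 := hfac i
      rw [ih, relIndex_bot_left] at h1
      apply hcon
      refine ⟨S i.succ, hnorm _, hne, ?_⟩
      rcases h1 with ⟨m, hm⟩ | hc
      · left
        exact IsPGroup.of_card hm
      · right
        exact hc
  have h2 := key (Fin.last n)
  rw [hlast] at h2
  exact top_ne_bot h2

theorem qcase (p q : ℕ) [Fact p.Prime] [Fact q.Prime] :
    ∀ (n : ℕ) (G : Type u) [Group G] [Finite G], Nat.card G = n → Cfsg.IsPSolvable q G →
      (∀ y : G, (∃ k : ℕ, orderOf y = q ^ k) → ¬ p ∣ (centralizer ({y} : Set G)).index) →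
      ∃ (P : Sylow p G) (Q : Sylow q G),
        (P : Subgroup G) ≤ normalizer ((Q : Subgroup G) : Set G) := by
  intro n
  induction n using Nat.strong_induction_on with
  | _ n ih =>
    intro G _ _ hcard hsolv h
    rcases subsingleton_or_nontrivial G with hsub | hnt
    · refine ⟨default, default, fun x _ => ?_⟩
      rw [Subsingleton.elim x 1]
      exact one_mem _
    · obtain ⟨N, hNn, hNbot, hNcase⟩ := exists_normal_of_isPSolvable q hsolv
      let f := QuotientGroup.mk' N
      have hf : Function.Surjective f := QuotientGroup.mk'_surjective N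
      have hlt : Nat.card (G ⧸ N) < n := by
        rw [← hcard, ← Subgroup.index_eq_card, ← Subgroup.card_mul_index N]
        have h1 : 1 < Nat.card N := (Subgroup.one_lt_card_iff_ne_bot N).mpr hNbot
        have h2 : 0 < N.index := Nat.pos_of_ne_zero Subgroup.index_ne_zero_of_finite
        nlinarith
      obtain ⟨P', Q', hPQ'⟩ := ih _ hlt (G ⧸ N) rfl
        (S4602.isPSolvable_of_surjective q f hf hsolv) (hyp_quotient p q N h)
      obtain ⟨P, rfl⟩ := Sylow.mapSurjective_surjective hf p P'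
      obtain ⟨Q₀, rfl⟩ := Sylow.mapSurjective_surjective hf q Q'
      have hPT : (P : Subgroup G) ≤
          normalizer (((Q₀ : Subgroup G) ⊔ N : Subgroup G) : Set G) := by
        intro x hx
        have h1 : f x ∈ normalizer
            (((Q₀.mapSurjective hf : Sylow q (G ⧸ N)) : Subgroup (G ⧸ N)) : Set (G ⧸ N)) :=
          hPQ' (by rw [Sylow.coe_mapSurjective]; exact Subgroup.mem_map_of_mem f hx)
        have h2 := Subgroup.le_normalizer_comap f (Subgroup.mem_comap.mpr h1)
        rw [Sylow.coe_mapSurjective, Subgroup.comap_map_eq, QuotientGroup.ker_mk'] at h2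
        exact h2
      rcases hNcase with hNq | hNc
      · have hle : N ≤ Q₀ := hNq.le_sylow_of_normal Q₀
        rw [sup_of_le_left hle] at hPT
        exact ⟨P, Q₀, hPT⟩
      · exact core_ii p q N hNc h P Q₀ hPT

theorem pcase {G : Type*} [Group G] [Finite G] (p q : ℕ) [Fact p.Prime] [Fact q.Prime]
    (hpq : p ≠ q) (hsolv : Cfsg.IsPSolvable p G)
    (h : ∀ y : G, (∃ k : ℕ, orderOf y = q ^ k) → ¬ p ∣ (centralizer ({y} : Set G)).index) :
    ∃ (P : Sylow p G) (Q : Sylow q G),
      (P : Subgroup G) ≤ normalizer ((Q : Subgroup G) : Set G) := by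
  rw [S4602.result p q hpq hsolv]
  have hp : p.Prime := Fact.out
  have hq : q.Prime := Fact.out
  have hKdef : Cfsg.pPrimeCore p G = sSup {N : Subgroup G | N.Normal ∧ (Nat.card N).Coprime p} := rfl
  have hKn : (Cfsg.pPrimeCore p G).Normal := S4602.pPrimeCore_normal p G
  have hKc : (Nat.card (Cfsg.pPrimeCore p G)).Coprime p := S4602.pPrimeCore_coprime p G
  generalize Cfsg.pPrimeCore p G = K at hKdef hKn hKc ⊢
  let f := QuotientGroup.mk' K
  have hf : Function.Surjective f := QuotientGroup.mk'_surjective K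
  have hker : f.ker = K := QuotientGroup.ker_mk' K
  have hps' : Cfsg.IsPSolvable p (G ⧸ K) := S4602.isPSolvable_of_surjective p f hf hsolv
  have hO : ∀ R : Subgroup (G ⧸ K), R.Normal → (Nat.card R).Coprime p → R = ⊥ := by
    intro R hRn hRc
    have hR'n : (R.comap f).Normal := hRn.comap f
    have hR'c : (Nat.card (R.comap f)).Coprime p := by
      rw [Nat.coprime_comm, Nat.Prime.coprime_iff_not_dvd hp]
      intro hdvd
      obtain ⟨x, hx⟩ := exists_prime_orderOf_dvd_card' p hdvd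
      have hox : orderOf (x : G) = p := by rw [Subgroup.orderOf_coe]; exact hx
      have h1 : orderOf (f x) ∣ p := hox ▸ orderOf_map_dvd f (x : G)
      have h2 : orderOf (f x) ∣ Nat.card R := Subgroup.orderOf_dvd_natCard R x.2
      have h3 : orderOf (f x) = 1 := Nat.eq_one_of_dvd_coprimes hRc h2 h1
      have h4 : (x : G) ∈ K :=
        (QuotientGroup.eq_one_iff (x : G)).mp (orderOf_eq_one_iff.mp h3)
      have h5 : p ∣ Nat.card K := hox ▸ Subgroup.orderOf_dvd_natCard K h4
      exact (Nat.Prime.coprime_iff_not_dvd hp).mp hKc.symm h5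
    have hmem : R.comap f ∈ {N : Subgroup G | N.Normal ∧ (Nat.card N).Coprime p} :=
      ⟨hR'n, hR'c⟩
    have hle : R.comap f ≤ K := le_of_le_of_eq (le_sSup hmem) hKdef.symm
    rw [← Subgroup.map_comap_eq_self_of_surjective hf R]
    rw [Subgroup.map_eq_bot_iff, hker]
    exact hle
  let Q : Sylow q G := default
  have hQK : (Q : Subgroup G) ≤ K := by
    intro y hy
    have hyq : ∃ k : ℕ, orderOf y = q ^ k := by
      obtain ⟨k, hk⟩ := Q.2 ⟨y, hy⟩
      have h1 : y ^ q ^ k = 1 := by simpa using congrArg Subtype.val hk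
      obtain ⟨j, -, hj⟩ := (Nat.dvd_prime_pow hq).mp (orderOf_dvd_of_pow_eq_one h1)
      exact ⟨j, hj⟩
    obtain ⟨Py, hPy⟩ := exists_sylow_le_of_not_dvd_index p _ (h y hyq)
    have hX : IsPGroup q (zpowers (f y)) := by
      obtain ⟨k, hk⟩ := hyq
      have h1 : orderOf (f y) ∣ q ^ k := hk ▸ orderOf_map_dvd f y
      obtain ⟨j, -, hj⟩ := (Nat.dvd_prime_pow hq).mp h1
      exact IsPGroup.of_card (n := j) (by rw [Nat.card_zpowers, hj])
    have hnorm : ((Py.mapSurjective hf : Sylow p (G ⧸ K)) : Subgroup (G ⧸ K)) ≤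
        normalizer ((zpowers (f y) : Subgroup (G ⧸ K)) : Set (G ⧸ K)) := by
      rw [Sylow.coe_mapSurjective]
      rintro _ ⟨c, hc, rfl⟩
      apply centralizer_le_normalizer
      rw [mem_centralizer_iff]
      intro z hz
      obtain ⟨i, rfl⟩ := Subgroup.mem_zpowers_iff.mp hz
      have hcy : y * c = c * y := (mem_centralizer_iff.mp (hPy hc)) y rfl
      have hcomm : Commute (f y) (f c) := by
        change f y * f c = f c * f y
        rw [← map_mul, ← map_mul, hcy]
      exact (hcomm.zpow_left i).eq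
    have hbot := S4602.lemmaA p q hpq hps' hO (Py.mapSurjective hf) (zpowers (f y)) hX hnorm
    have h1 : f y = 1 := by
      have h2 : f y ∈ zpowers (f y) := mem_zpowers _
      rw [hbot] at h2
      exact Subgroup.mem_bot.mp h2
    exact (QuotientGroup.eq_one_iff y).mp h1
  intro hdvd
  exact Q.not_dvd_index (hdvd.trans (index_dvd_of_le hQK))

/-- Let p and q be primes and G a finite group that is p-solvable or q-solvable, in which no q-element has conjugacy class size divisible by p. Then some Sylow p-subgroup of G normalizes some Sylow q-subgroup of G. -/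
theorem result {G : Type*} [Group G] [Finite G] (p q : ℕ) [Fact p.Prime] [Fact q.Prime] (hsolv : Cfsg.IsPSolvable p G ∨ Cfsg.IsPSolvable q G)
    (h : ∀ y : G, (∃ k : ℕ, orderOf y = q ^ k) → ¬ p ∣ (Subgroup.centralizer ({y} : Set G)).index) :
    ∃ (P : Sylow p G) (Q : Sylow q G), (P : Subgroup G) ≤ Subgroup.normalizer ((Q : Subgroup G) : Set G) := by
  by_cases hpq : p = q
  · subst hpq
    exact ⟨default, default, le_normalizer⟩
  · rcases hsolv with hs | hs
    · exact pcase p q hpq hs h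
    · exact qcase p q (Nat.card G) G rfl hs h

end Cfsg.Agent.S4601
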