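import Cfsg.Statements.S4611
import Cfsg.Agent.Lib.Helper79.PSolvBlock
import Cfsg.Agent.Lib.Helper79.SolvPSolv
import Cfsg.Agent.Lib.Helper80.Codegree
import Cfsg.Agent.Lib.Helper79.ClassMult

set_option autoImplicit false
open Cfsg

namespace Cfsg.Agent.S4611

/-- Let G be a finite solvable group and π a nonempty set of primes, each dividing the order of G; fix for each p in π a maximal ideal M p of the algebraic integers containing p. Then the only irreducible character lying in the principal p-block for every p in π is the principal character if and only if G is generated by the subgroups O_{p'}(G), p in π (the largest normal subgroups of order prime to p). -/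
theorem result {G : Type*} [Group G] [Finite G] [Group.IsSolvable G] (π : Set ℕ) (hπ : ∀ p ∈ π, p.Prime ∧ p ∣ Nat.card G) (hne : π.Nonempty) (M : ℕ → Ideal Cfsg.AlgInt) (hM : ∀ p ∈ π, Cfsg.IsPModular p (M p)) :
    (∀ χ : Cfsg.IrrCharacter G, (∀ p ∈ π, χ ∈ Cfsg.principalBlock (M p) G) → (χ : G → ℂ) = fun _ => 1) ↔
      ⨆ p ∈ π, Cfsg.pPrimeCore p G = ⊤ := by
  classical
  let _ : Fintype G := Fintype.ofFinite G
  let _ : Fintype (Cfsg.IrrCharacter G) := Fintype.ofFinite _
  have hsolv : Group.IsSolvable G := inferInstance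
  have hfong : ∀ p ∈ π, ∀ χ : Cfsg.IrrCharacter G, χ ∈ Cfsg.principalBlock (M p) G ↔
      ∀ n ∈ Cfsg.pPrimeCore p G, (χ : G → ℂ) n = (χ : G → ℂ) 1 := by
    intro p hp χ
    haveI : Fact p.Prime := ⟨(hπ p hp).1⟩
    exact Cfsg.Agent.Lib.Helper79.mem_principalBlock_iff_of_isPSolvable p (M p) (hM p hp)
      (Cfsg.Agent.Lib.Helper79.isPSolvable_of_isSolvable p hsolv) χ
  obtain ⟨K, hK⟩ : ∃ K : Subgroup G, K = ⨆ p ∈ π, Cfsg.pPrimeCore p G := ⟨_, rfl⟩
  rw [← hK]
  have hKn : K.Normal := by
    rw [hK]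
    apply Subgroup.sSup_normal
    rintro H ⟨p, rfl⟩
    apply Subgroup.sSup_normal
    rintro H' ⟨hp, rfl⟩
    exact Cfsg.Agent.Lib.Helper75.pPrimeCore_normal' p G
  have hkey : ∀ χ : Cfsg.IrrCharacter G, (∀ p ∈ π, χ ∈ Cfsg.principalBlock (M p) G) ↔
      ∀ x ∈ K, (χ : G → ℂ) x = (χ : G → ℂ) 1 := by
    intro χ
    have e : ∀ L : Subgroup G, (∀ x ∈ L, (χ : G → ℂ) x = (χ : G → ℂ) 1) ↔
        L ≤ Cfsg.Agent.Lib.Helper80.irrKer χ := by
      intro L
      constructor
      · intro h x hx
        exact (Cfsg.Agent.Lib.Helper80.mem_irrKer χ x).mpr (h x hx)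
      · intro h x hx
        exact (Cfsg.Agent.Lib.Helper80.mem_irrKer χ x).mp (h hx)
    rw [e K, hK, iSup₂_le_iff]
    refine forall₂_congr (fun p hp => ?_)
    rw [hfong p hp χ, e]
  have htriv1 : Cfsg.charDegree
      ((Cfsg.Agent.Lib.Helper77.trivIrr G : Cfsg.IrrCharacter G) : G → ℂ) = 1 := by
    unfold Cfsg.charDegree
    rw [Cfsg.Agent.Lib.Helper77.trivIrr_apply]
    simp
  constructor
  · intro h
    have hsum := Cfsg.Agent.Lib.Helper80.sum_charDegree_sq_filter_ker K
    have hle : K.index ≤ 1 := by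
      rw [← hsum]
      calc _ ≤ ∑ χ ∈ ({Cfsg.Agent.Lib.Helper77.trivIrr G} : Finset (Cfsg.IrrCharacter G)),
            Cfsg.charDegree (χ : G → ℂ) ^ 2 := by
            apply Finset.sum_le_sum_of_subset
            intro χ hχ
            rw [Finset.mem_filter] at hχ
            rw [Finset.mem_singleton]
            apply Subtype.ext
            exact h χ ((hkey χ).mpr hχ.2)
        _ = 1 := by
            rw [Finset.sum_singleton, htriv1]
            norm_num
    have hpos : 0 < K.index := Nat.pos_of_ne_zero Subgroup.index_ne_zero_of_finite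
    exact Subgroup.index_eq_one.mp (by omega)
  · intro hKtop χ hχ
    have hker := (hkey χ).mp hχ
    have hall : ∀ x : G, (χ : G → ℂ) x = (χ : G → ℂ) 1 := fun x => hker x (by
      rw [hKtop]
      trivial)
    obtain ⟨hd1, hdpos, -⟩ := Cfsg.Agent.Lib.Helper79.irr_charDegree χ.2
    have h1 := Cfsg.Agent.Lib.Helper3.classInner_irr_self χ.2
    unfold Cfsg.classInner at h1
    have h2 : ∀ g : G, (χ : G → ℂ) g * (starRingEnd ℂ) ((χ : G → ℂ) g) =
        ((Cfsg.charDegree (χ : G → ℂ) ^ 2 : ℕ) : ℂ) := by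
      intro g
      rw [hall g, hd1]
      simp [sq]
    rw [Finset.sum_congr rfl (fun g _ => h2 g), Finset.sum_const, Finset.card_univ,
      nsmul_eq_mul, ← Nat.card_eq_fintype_card, ← mul_assoc,
      inv_mul_cancel₀ (by exact_mod_cast Nat.card_pos.ne' : (Nat.card G : ℂ) ≠ 0), one_mul] at h1
    have h3 : Cfsg.charDegree (χ : G → ℂ) ^ 2 = 1 := by exact_mod_cast h1
    have h4 : Cfsg.charDegree (χ : G → ℂ) = 1 := by
      rcases Nat.lt_or_ge (Cfsg.charDegree (χ : G → ℂ)) 2 with h | h
      · omega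
      · nlinarith
    funext g
    rw [hall g, hd1, h4]
    simp

end Cfsg.Agent.S4611
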