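import Mathlib
import Cfsg.Statements.S4620

set_option autoImplicit false
open scoped Pointwise
open Cfsg

namespace Cfsg.Agent.S4620

variable {H : Type*} [Group H] [Finite H] (p : ℕ) [Fact p.Prime]

theorem no_normal_p (hOp : Cfsg.pCore p H = ⊥) (K : Subgroup H) (hK : K.Normal)
    (hKp : IsPGroup p K) : K = ⊥ := by
  have h : K ≤ Cfsg.pCore p H := le_sSup ⟨hK, hKp⟩
  rw [hOp] at h
  exact le_bot_iff.mp h

theorem no_normal_p' (hOp' : Cfsg.pPrimeCore p H = ⊥) (K : Subgroup H) (hK : K.Normal)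
    (hKp : (Nat.card K).Coprime p) : K = ⊥ := by
  have h : K ≤ Cfsg.pPrimeCore p H := le_sSup ⟨hK, hKp⟩
  rw [hOp'] at h
  exact le_bot_iff.mp h

theorem coprime_iff (n : ℕ) : n.Coprime p ↔ ¬ p ∣ n := by
  rw [Nat.coprime_comm]
  exact Nat.Prime.coprime_iff_not_dvd Fact.out

theorem dvd_card_of_normal (hOp' : Cfsg.pPrimeCore p H = ⊥) (K : Subgroup H) (hK : K.Normal)
    (hK1 : K ≠ ⊥) : p ∣ Nat.card K := by
  by_contra h
  exact hK1 (no_normal_p' p hOp' K hK ((coprime_iff p _).mpr h))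

theorem conj_mem_smul (y x : H) (K : Subgroup H) (hx : x ∈ K) :
    y * x * y⁻¹ ∈ MulAut.conj y • K := by
  have h := Subgroup.smul_mem_pointwise_smul x (MulAut.conj y) K hx
  simpa [MulAut.smul_def] using h

theorem mem_of_conj_mem_smul (y x : H) (K : Subgroup H) (hx : y * x * y⁻¹ ∈ MulAut.conj y • K) :
    x ∈ K := by
  have h : (MulAut.conj y) • x ∈ MulAut.conj y • K := by
    simpa [MulAut.smul_def] using hx
  exact (Subgroup.smul_mem_pointwise_smul_iff).mp h

theorem ti_elem (P : Sylow p H)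
    (hTI : ∀ g : H, g ∉ Subgroup.normalizer ((P : Subgroup H) : Set H) →
      (P : Subgroup H) ⊓ (MulAut.conj g • (P : Subgroup H)) = ⊥)
    (y x : H) (hx1 : x ≠ 1) (hx : x ∈ (P : Subgroup H)) (hyx : y * x * y⁻¹ ∈ (P : Subgroup H)) :
    y ∈ Subgroup.normalizer ((P : Subgroup H) : Set H) := by
  by_contra hy
  have h := hTI y hy
  have hmem : y * x * y⁻¹ ∈ (P : Subgroup H) ⊓ MulAut.conj y • (P : Subgroup H) :=
    ⟨hyx, conj_mem_smul y x _ hx⟩
  rw [h, Subgroup.mem_bot] at hmem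
  apply hx1
  have h2 : x = y⁻¹ * (y * x * y⁻¹) * y := by group
  rw [h2, hmem]; group

theorem ti_comm (P : Sylow p H)
    (hTI : ∀ g : H, g ∉ Subgroup.normalizer ((P : Subgroup H) : Set H) →
      (P : Subgroup H) ⊓ (MulAut.conj g • (P : Subgroup H)) = ⊥)
    (y x : H) (hx1 : x ≠ 1) (hx : x ∈ (P : Subgroup H)) (hyx : y * x = x * y) :
    y ∈ Subgroup.normalizer ((P : Subgroup H) : Set H) := by
  apply ti_elem p P hTI y x hx1 hx
  rw [hyx, mul_inv_cancel_right]
  exact hx

theorem isPGroup_zpowers (y : H) (hy : orderOf y = p) : IsPGroup p (Subgroup.zpowers y) := by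
  apply IsPGroup.of_card (n := 1)
  rw [Nat.card_zpowers, hy, pow_one]

/-- a `p`-subgroup normalizing a Sylow `p`-subgroup is inside it -/
theorem le_sylow_of_le_normalizer (P : Sylow p H) (Q : Subgroup H) (hQ : IsPGroup p Q)
    (hQN : Q ≤ Subgroup.normalizer ((P : Subgroup H) : Set H)) : Q ≤ (P : Subgroup H) := by
  have h1 : IsPGroup p (Q ⊔ (P : Subgroup H) : Subgroup H) :=
    hQ.to_sup_of_normal_right' P.isPGroup' hQN
  have h2 := P.is_maximal' h1 le_sup_right
  calc Q ≤ Q ⊔ (P : Subgroup H) := le_sup_left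
    _ = (P : Subgroup H) := h2

theorem exists_mem_inf (hOp' : Cfsg.pPrimeCore p H = ⊥) (P : Sylow p H) (K : Subgroup H)
    (hK : K.Normal) (hK1 : K ≠ ⊥) : ∃ x, x ∈ (P : Subgroup H) ∧ x ∈ K ∧ x ≠ 1 := by
  have hp : p.Prime := Fact.out
  have hdvd := dvd_card_of_normal p hOp' K hK hK1
  obtain ⟨y, hy⟩ := exists_prime_orderOf_dvd_card' (G := K) p hdvd
  have hy' : orderOf (y : H) = p := by rw [Subgroup.orderOf_coe]; exact hy
  obtain ⟨P', hP'⟩ := (isPGroup_zpowers p (y : H) hy').exists_le_sylow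
  obtain ⟨g, hg⟩ := MulAction.exists_smul_eq H P' P
  have hyP' : (y : H) ∈ (P' : Subgroup H) := hP' (Subgroup.mem_zpowers _)
  refine ⟨g * y * g⁻¹, ?_, hK.conj_mem _ y.2 g, ?_⟩
  · have h := conj_mem_smul g (y : H) (P' : Subgroup H) hyP'
    rw [← Sylow.coe_subgroup_smul, hg] at h
    exact h
  · intro h
    have h1 : (y : H) = 1 := by
      have h2 : (y : H) = g⁻¹ * (g * y * g⁻¹) * g := by group
      rw [h2, h]; group
    rw [h1, orderOf_one] at hy'
    exact hp.one_lt.ne hy'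

/-- a subgroup normalizing a Sylow `p`-subgroup and meeting it trivially has order prime to `p` -/
theorem coprime_of_inf_eq_bot (P : Sylow p H) (K : Subgroup H)
    (hKN : K ≤ Subgroup.normalizer ((P : Subgroup H) : Set H)) (hPK : (P : Subgroup H) ⊓ K = ⊥) :
    ¬ p ∣ Nat.card K := by
  have hp : p.Prime := Fact.out
  intro hdvd
  obtain ⟨y, hy⟩ := exists_prime_orderOf_dvd_card' (G := K) p hdvd
  have hy' : orderOf (y : H) = p := by rw [Subgroup.orderOf_coe]; exact hy
  have hle : Subgroup.zpowers (y : H) ≤ K := by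
    rw [Subgroup.zpowers_le]; exact y.2
  have h1 := le_sylow_of_le_normalizer p P _ (isPGroup_zpowers p (y : H) hy') (hle.trans hKN)
  have h2 : (y : H) ∈ (P : Subgroup H) ⊓ K := ⟨h1 (Subgroup.mem_zpowers _), y.2⟩
  rw [hPK, Subgroup.mem_bot] at h2
  rw [h2, orderOf_one] at hy'
  exact hp.one_lt.ne hy'

/-- a normal subgroup normalizing the Sylow subgroup meets it trivially -/
theorem inf_eq_bot_of_normal_le_normalizer (hOp : Cfsg.pCore p H = ⊥) (P : Sylow p H)
    (L : Subgroup H) (hL : L.Normal)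
    (hLN : L ≤ Subgroup.normalizer ((P : Subgroup H) : Set H)) : (P : Subgroup H) ⊓ L = ⊥ := by
  apply no_normal_p p hOp
  · refine ⟨fun x hx h => ?_⟩
    refine ⟨?_, hL.conj_mem x hx.2 h⟩
    have hQ : IsPGroup p (MulAut.conj h • ((P : Subgroup H) ⊓ L) : Subgroup H) :=
      (P.isPGroup'.to_le inf_le_left).map _
    have hQL : MulAut.conj h • ((P : Subgroup H) ⊓ L) ≤ L := by
      have h1 : MulAut.conj h • ((P : Subgroup H) ⊓ L) ≤ MulAut.conj h • L :=
        Subgroup.pointwise_smul_le_pointwise_smul_iff.mpr inf_le_right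
      rwa [Subgroup.Normal.conj_smul_eq_self h L] at h1
    have h2 := le_sylow_of_le_normalizer p P _ hQ (hQL.trans hLN)
    exact h2 (conj_mem_smul h x _ hx)
  · exact P.isPGroup'.to_le inf_le_left

theorem inf_ne_bot (hOp : Cfsg.pCore p H = ⊥) (hOp' : Cfsg.pPrimeCore p H = ⊥) (P : Sylow p H)
    (hTI : ∀ g : H, g ∉ Subgroup.normalizer ((P : Subgroup H) : Set H) →
      (P : Subgroup H) ⊓ (MulAut.conj g • (P : Subgroup H)) = ⊥)
    (K L : Subgroup H) (hK : K.Normal) (hL : L.Normal) (hK1 : K ≠ ⊥) (hL1 : L ≠ ⊥) :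
    K ⊓ L ≠ ⊥ := by
  intro hKL
  obtain ⟨x, hxP, hxK, hx1⟩ := exists_mem_inf p hOp' P K hK hK1
  have hLN : L ≤ Subgroup.normalizer ((P : Subgroup H) : Set H) := by
    intro y hy
    apply ti_comm p P hTI y x hx1 hxP
    exact ((Subgroup.commute_of_normal_of_disjoint K L hK hL (disjoint_iff.mpr hKL)
      x y hxK hy).eq).symm
  have h := inf_eq_bot_of_normal_le_normalizer p hOp P L hL hLN
  obtain ⟨x', hx'P, hx'L, hx'1⟩ := exists_mem_inf p hOp' P L hL hL1
  have h2 : x' ∈ (P : Subgroup H) ⊓ L := ⟨hx'P, hx'L⟩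
  rw [h, Subgroup.mem_bot] at h2
  exact hx'1 h2

theorem not_comm (hOp : Cfsg.pCore p H = ⊥) (hOp' : Cfsg.pPrimeCore p H = ⊥) (P : Sylow p H)
    (hTI : ∀ g : H, g ∉ Subgroup.normalizer ((P : Subgroup H) : Set H) →
      (P : Subgroup H) ⊓ (MulAut.conj g • (P : Subgroup H)) = ⊥)
    (N : Subgroup H) (hN : N.Normal) (hN1 : N ≠ ⊥)
    (hc : ∀ a ∈ N, ∀ b ∈ N, a * b = b * a) : False := by
  obtain ⟨x, hxP, hxN, hx1⟩ := exists_mem_inf p hOp' P N hN hN1
  have hNN : N ≤ Subgroup.normalizer ((P : Subgroup H) : Set H) :=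
    fun y hy => ti_comm p P hTI y x hx1 hxP (hc y hy x hxN)
  have h := inf_eq_bot_of_normal_le_normalizer p hOp P N hN hNN
  have h2 : x ∈ (P : Subgroup H) ⊓ N := ⟨hxP, hxN⟩
  rw [h, Subgroup.mem_bot] at h2
  exact hx1 h2

theorem exists_min_normal (hOp : Cfsg.pCore p H = ⊥) (hOp' : Cfsg.pPrimeCore p H = ⊥)
    (P : Sylow p H) (hP1 : (P : Subgroup H) ≠ ⊥)
    (hTI : ∀ g : H, g ∉ Subgroup.normalizer ((P : Subgroup H) : Set H) →
      (P : Subgroup H) ⊓ (MulAut.conj g • (P : Subgroup H)) = ⊥) :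
    ∃ N : Subgroup H, N.Normal ∧ N ≠ ⊥ ∧ ∀ K : Subgroup H, K.Normal → K ≠ ⊥ → N ≤ K := by
  have htop : (⊤ : Subgroup H) ≠ ⊥ := by
    intro h
    apply hP1
    exact le_bot_iff.mp (h ▸ le_top)
  obtain ⟨N, ⟨hN, hN1⟩, hmin⟩ := Set.exists_min_image {K : Subgroup H | K.Normal ∧ K ≠ ⊥}
    (fun K => Nat.card K) (Set.toFinite _) ⟨⊤, Subgroup.normal_top, htop⟩
  refine ⟨N, hN, hN1, fun K hK hK1 => ?_⟩
  have h1 : (N ⊓ K).Normal := Subgroup.normal_inf_normal N K
  have h2 := inf_ne_bot p hOp hOp' P hTI N K hN hK hN1 hK1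
  have h3 := hmin (N ⊓ K) ⟨h1, h2⟩
  have h4 : N ⊓ K = N := Subgroup.eq_of_le_of_card_ge inf_le_left h3
  exact inf_eq_left.mp h4

omit [Fact p.Prime] in
theorem coprime_sup_normal {K : Type*} [Group K] [Finite K] (A B : Subgroup K) [B.Normal]
    (hA : (Nat.card A).Coprime p) (hB : (Nat.card B).Coprime p) :
    (Nat.card (A ⊔ B : Subgroup K)).Coprime p := by
  have h1 : Nat.card B * B.relIndex (A ⊔ B) = Nat.card (A ⊔ B : Subgroup K) := by
    have h := Subgroup.relIndex_mul_relIndex (⊥ : Subgroup K) B (A ⊔ B) bot_le le_sup_right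
    rwa [Subgroup.relIndex_bot_left, Subgroup.relIndex_bot_left] at h
  rw [← h1, Subgroup.relIndex_sup_right]
  exact Nat.Coprime.mul_left hB (Nat.Coprime.coprime_dvd_left (Subgroup.relIndex_dvd_card B A) hA)

omit [Fact p.Prime] in
theorem coprime_sup {A B : Subgroup H} (hA : (Nat.card A).Coprime p)
    (hB : (Nat.card B).Coprime p) (hAB : A ≤ Subgroup.normalizer (B : Set H)) :
    (Nat.card (A ⊔ B : Subgroup H)).Coprime p := by
  have hBK : B ≤ Subgroup.normalizer (B : Set H) := Subgroup.le_normalizer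
  have h := coprime_sup_normal p (A.subgroupOf (Subgroup.normalizer (B : Set H)))
    (B.subgroupOf (Subgroup.normalizer (B : Set H)))
    (by rw [Nat.card_congr (Subgroup.subgroupOfEquivOfLe hAB).toEquiv]; exact hA)
    (by rw [Nat.card_congr (Subgroup.subgroupOfEquivOfLe hBK).toEquiv]; exact hB)
  rw [← Subgroup.subgroupOf_sup hAB hBK,
    Nat.card_congr (Subgroup.subgroupOfEquivOfLe (sup_le hAB hBK)).toEquiv] at h
  exact h

omit [Fact p.Prime] in
theorem coprime_biSup (N : Subgroup H) {ι : Type*} (A : ι → Subgroup H)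
    (hA : ∀ i, A i ≤ N) (hAN : ∀ i, N ≤ Subgroup.normalizer (A i : Set H))
    (hc : ∀ i, (Nat.card (A i)).Coprime p) (s : Finset ι) :
    N ≤ Subgroup.normalizer ((⨆ i ∈ s, A i : Subgroup H) : Set H) ∧
      (Nat.card (⨆ i ∈ s, A i : Subgroup H)).Coprime p := by
  classical
  induction s using Finset.induction_on with
  | empty =>
    simp only [Finset.notMem_empty, iSup_false, iSup_bot]
    refine ⟨?_, ?_⟩
    · rw [Subgroup.normalizer_eq_top]; exact le_top
    · rw [Subgroup.card_bot]; exact Nat.coprime_one_left p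
  | insert a s _ ih =>
    rw [Finset.iSup_insert]
    refine ⟨?_, ?_⟩
    · exact (le_inf (hAN a) ih.1).trans (Subgroup.normalizer_inf_normalizer_le_normalizer_sup _ _)
    · exact coprime_sup p (hc a) ih.2 ((hA a).trans ih.1)

/-- nontrivial subgroups of `N` normalized by `N` -/
def IsNSub (N T : Subgroup H) : Prop :=
  T ≤ N ∧ T ≠ ⊥ ∧ N ≤ Subgroup.normalizer (T : Set H)

theorem isNSub_conj (N : Subgroup H) (hN : N.Normal) (T : Subgroup H) (hT : IsNSub N T) (g : H) :
    IsNSub N (MulAut.conj g • T) := by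
  obtain ⟨h1, h2, h3⟩ := hT
  refine ⟨?_, ?_, ?_⟩
  · have h : MulAut.conj g • T ≤ MulAut.conj g • N :=
      Subgroup.pointwise_smul_le_pointwise_smul_iff.mpr h1
    rwa [Subgroup.Normal.conj_smul_eq_self g N] at h
  · intro h
    apply h2
    have h' : (MulAut.conj g)⁻¹ • (MulAut.conj g • T) = T := inv_smul_smul _ _
    rw [← h', h]; exact Subgroup.smul_bot _
  · intro n hn
    rw [Subgroup.mem_normalizer_iff_map_conj_eq]
    change MulAut.conj n • (MulAut.conj g • T) = MulAut.conj g • T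
    have hm : g⁻¹ * n * g ∈ N := by
      have := hN.conj_mem n hn g⁻¹; simpa using this
    have h4 : MulAut.conj (g⁻¹ * n * g) • T = T :=
      Subgroup.mem_normalizer_iff_map_conj_eq.mp (h3 hm)
    rw [← mul_smul, ← map_mul]
    have h5 : n * g = g * (g⁻¹ * n * g) := by group
    rw [h5, map_mul, mul_smul, h4]

theorem card_conj (T : Subgroup H) (g : H) :
    Nat.card (MulAut.conj g • T : Subgroup H) = Nat.card T :=
  (Nat.card_congr (Subgroup.equivSMul (MulAut.conj g) T).toEquiv).symm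

theorem comm_of_min (N : Subgroup H) (T1 T2 : Subgroup H) (h1 : IsNSub N T1) (h2 : IsNSub N T2)
    (hmin1 : ∀ T, IsNSub N T → Nat.card T1 ≤ Nat.card T)
    (hmin2 : ∀ T, IsNSub N T → Nat.card T2 ≤ Nat.card T) (hne : T1 ≠ T2) :
    ∀ a ∈ T1, ∀ b ∈ T2, a * b = b * a := by
  have hbot : T1 ⊓ T2 = ⊥ := by
    by_contra h
    have hS : IsNSub N (T1 ⊓ T2) := by
      refine ⟨inf_le_left.trans h1.1, h, fun n hn => ?_⟩
      rw [Subgroup.mem_normalizer_iff]
      intro x
      have e1 := Subgroup.mem_normalizer_iff.mp (h1.2.2 hn) x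
      have e2 := Subgroup.mem_normalizer_iff.mp (h2.2.2 hn) x
      simp only [Subgroup.mem_inf, e1, e2]
    have e1 : T1 ⊓ T2 = T1 := Subgroup.eq_of_le_of_card_ge inf_le_left (hmin1 _ hS)
    have e2 : T1 ⊓ T2 = T2 := Subgroup.eq_of_le_of_card_ge inf_le_right (hmin2 _ hS)
    exact hne (e1.symm.trans e2)
  intro a ha b hb
  have ha' := h2.2.2 (h1.1 ha)
  have hb' := h1.2.2 (h2.1 hb)
  have m2 : a * b * a⁻¹ * b⁻¹ ∈ T2 :=
    T2.mul_mem ((Subgroup.mem_normalizer_iff.mp ha' b).mp hb) (T2.inv_mem hb)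
  have m1 : a * b * a⁻¹ * b⁻¹ ∈ T1 := by
    have h := T1.mul_mem ha ((Subgroup.mem_normalizer_iff.mp hb' a⁻¹).mp (T1.inv_mem ha))
    have e : a * b * a⁻¹ * b⁻¹ = a * (b * a⁻¹ * b⁻¹) := by group
    rw [e]; exact h
  have h3 : a * b * a⁻¹ * b⁻¹ ∈ T1 ⊓ T2 := ⟨m1, m2⟩
  rw [hbot, Subgroup.mem_bot] at h3
  have h4 : a * b = (a * b * a⁻¹ * b⁻¹) * (b * a) := by group
  rw [h4, h3, one_mul]

theorem normalClosure_le_of_conj (S K : Subgroup H) (h : ∀ c : H, MulAut.conj c • S ≤ K) :
    Subgroup.normalClosure (S : Set H) ≤ K := by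
  rw [Subgroup.normalClosure, Subgroup.closure_le]
  intro z hz
  rw [Group.mem_conjugatesOfSet_iff] at hz
  obtain ⟨t, ht, htz⟩ := hz
  rw [isConj_iff] at htz
  obtain ⟨c, rfl⟩ := htz
  exact h c (conj_mem_smul c t S ht)

theorem dvd_card_of_isNSub (hOp' : Cfsg.pPrimeCore p H = ⊥) (N : Subgroup H) (hN : N.Normal)
    (T : Subgroup H) (hT : IsNSub N T) : p ∣ Nat.card T := by
  classical
  haveI := Fintype.ofFinite H
  by_contra hnd
  have hc : ∀ g : H, (Nat.card (MulAut.conj g • T : Subgroup H)).Coprime p := fun g => by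
    rw [card_conj]; exact (coprime_iff p _).mpr hnd
  have key := coprime_biSup p N (fun g : H => MulAut.conj g • T)
    (fun g => (isNSub_conj N hN T hT g).1) (fun g => (isNSub_conj N hN T hT g).2.2) hc Finset.univ
  have hle : Subgroup.normalClosure (T : Set H) ≤
      ⨆ g ∈ (Finset.univ : Finset H), MulAut.conj g • T := by
    apply normalClosure_le_of_conj
    intro c
    exact le_iSup₂ (f := fun g (_ : g ∈ (Finset.univ : Finset H)) => MulAut.conj g • T) c
      (Finset.mem_univ c)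
  have hcop : (Nat.card (Subgroup.normalClosure (T : Set H))).Coprime p :=
    Nat.Coprime.coprime_dvd_left (Subgroup.card_dvd_of_le hle) key.2
  have hbot := no_normal_p' p hOp' _ Subgroup.normalClosure_normal hcop
  apply hT.2.1
  have h2 : T ≤ Subgroup.normalClosure (T : Set H) := Subgroup.le_normalClosure
  rw [hbot] at h2
  exact le_bot_iff.mp h2

theorem min_is_N (hOp : Cfsg.pCore p H = ⊥) (hOp' : Cfsg.pPrimeCore p H = ⊥) (P : Sylow p H)
    (hTI : ∀ g : H, g ∉ Subgroup.normalizer ((P : Subgroup H) : Set H) →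
      (P : Subgroup H) ⊓ (MulAut.conj g • (P : Subgroup H)) = ⊥)
    (N : Subgroup H) (hN : N.Normal) (hN1 : N ≠ ⊥)
    (hmin : ∀ K : Subgroup H, K.Normal → K ≠ ⊥ → N ≤ K) :
    ∀ T : Subgroup H, IsNSub N T → T = N := by
  classical
  have hp : p.Prime := Fact.out
  obtain ⟨T₀, hT₀, hT₀min⟩ := Set.exists_min_image {T : Subgroup H | IsNSub N T}
    (fun T => Nat.card T) (Set.toFinite _) ⟨N, le_rfl, hN1, Subgroup.le_normalizer⟩
  have hdvd := dvd_card_of_isNSub p hOp' N hN T₀ hT₀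
  obtain ⟨y, hy⟩ := exists_prime_orderOf_dvd_card' (G := T₀) p hdvd
  have hy' : orderOf (y : H) = p := by rw [Subgroup.orderOf_coe]; exact hy
  obtain ⟨P', hP'⟩ := (isPGroup_zpowers p (y : H) hy').exists_le_sylow
  obtain ⟨g, hg⟩ := MulAction.exists_smul_eq H P' P
  have hyP' : (y : H) ∈ (P' : Subgroup H) := hP' (Subgroup.mem_zpowers _)
  obtain ⟨S, hSdef⟩ : ∃ S : Subgroup H, S = MulAut.conj g • (T₀ : Subgroup H) := ⟨_, rfl⟩
  obtain ⟨x, hxdef⟩ : ∃ x : H, x = g * (y : H) * g⁻¹ := ⟨_, rfl⟩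
  have hxP : x ∈ (P : Subgroup H) := by
    have h := conj_mem_smul g (y : H) (P' : Subgroup H) hyP'
    rw [← Sylow.coe_subgroup_smul, hg] at h
    rw [hxdef]; exact h
  have hxS : x ∈ S := by rw [hxdef, hSdef]; exact conj_mem_smul g (y : H) T₀ y.2
  have hx1 : x ≠ 1 := by
    intro h
    have h1 : (y : H) = 1 := by
      have h2 : (y : H) = g⁻¹ * (g * y * g⁻¹) * g := by group
      rw [h2, ← hxdef, h]; group
    rw [h1, orderOf_one] at hy'
    exact hp.one_lt.ne hy'
  have hS : IsNSub N S := by rw [hSdef]; exact isNSub_conj N hN T₀ hT₀ g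
  have hcardS : Nat.card S = Nat.card T₀ := by rw [hSdef]; exact card_conj T₀ g
  have hSmin : ∀ T, IsNSub N T → Nat.card S ≤ Nat.card T := fun T hT => by
    rw [hcardS]; exact hT₀min T hT
  have hconj : ∀ h : H, IsNSub N (MulAut.conj h • S) ∧
      ∀ T, IsNSub N T → Nat.card (MulAut.conj h • S : Subgroup H) ≤ Nat.card T := fun h =>
    ⟨isNSub_conj N hN S hS h, fun T hT => by rw [card_conj]; exact hSmin T hT⟩
  have hSN : S = N := by
    by_contra hne
    have hex : ∃ h : H, MulAut.conj h • S ≠ S := by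
      by_contra hall
      push Not at hall
      have hnorm : S.Normal := by
        refine ⟨fun s hs h => ?_⟩
        have h1 := conj_mem_smul h s S hs
        rwa [hall h] at h1
      exact hne (le_antisymm hS.1 (hmin S hnorm hS.2.1))
    obtain ⟨h, hh⟩ := hex
    have hS2 := hconj h
    have hcomm := comm_of_min N S (MulAut.conj h • S) hS hS2.1 hSmin hS2.2 (Ne.symm hh)
    have hS2N : MulAut.conj h • S ≤ Subgroup.normalizer ((P : Subgroup H) : Set H) :=
      fun b hb => ti_comm p P hTI b x hx1 hxP (hcomm x hxS b hb).symm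
    by_cases hPS2 : (P : Subgroup H) ⊓ MulAut.conj h • S = ⊥
    · have hnd := coprime_of_inf_eq_bot p P _ hS2N hPS2
      rw [card_conj, hcardS] at hnd
      exact hnd hdvd
    · obtain ⟨x', hx', hx'1⟩ : ∃ x' ∈ (P : Subgroup H) ⊓ MulAut.conj h • S, x' ≠ 1 := by
        by_contra hcon
        push Not at hcon
        exact hPS2 ((Subgroup.eq_bot_iff_forall _).mpr hcon)
      have hSNP : S ≤ Subgroup.normalizer ((P : Subgroup H) : Set H) :=
        fun a ha => ti_comm p P hTI a x' hx'1 hx'.1 (hcomm a ha x' hx'.2)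
      have hall : ∀ k : H, MulAut.conj k • S ≤
          Subgroup.normalizer ((P : Subgroup H) : Set H) := by
        intro k
        by_cases hk : MulAut.conj k • S = S
        · rw [hk]; exact hSNP
        · have hS3 := hconj k
          have hcomm3 := comm_of_min N S (MulAut.conj k • S) hS hS3.1 hSmin hS3.2 (Ne.symm hk)
          exact fun b hb => ti_comm p P hTI b x hx1 hxP (hcomm3 x hxS b hb).symm
      have hcl := normalClosure_le_of_conj S _ hall
      have hb := inf_eq_bot_of_normal_le_normalizer p hOp P _ Subgroup.normalClosure_normal hcl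
      have h6 : x ∈ (P : Subgroup H) ⊓ Subgroup.normalClosure (S : Set H) :=
        ⟨hxP, Subgroup.le_normalClosure hxS⟩
      rw [hb, Subgroup.mem_bot] at h6
      exact hx1 h6
  intro T hT
  have h1 : Nat.card N ≤ Nat.card T := by rw [← hSN]; exact hSmin T hT
  exact Subgroup.eq_of_le_of_card_ge hT.1 h1

/-- the TI property, elementwise, for a conjugate of `P` -/
theorem ti_elem_conj (P : Sylow p H)
    (hTI : ∀ g : H, g ∉ Subgroup.normalizer ((P : Subgroup H) : Set H) →
      (P : Subgroup H) ⊓ (MulAut.conj g • (P : Subgroup H)) = ⊥)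
    (g y x : H) (hx1 : x ≠ 1) (hx : x ∈ MulAut.conj g • (P : Subgroup H))
    (hyx : y * x * y⁻¹ ∈ MulAut.conj g • (P : Subgroup H)) :
    y ∈ Subgroup.normalizer ((MulAut.conj g • (P : Subgroup H) : Subgroup H) : Set H) := by
  have hx0 : g⁻¹ * x * g ∈ (P : Subgroup H) := by
    apply mem_of_conj_mem_smul g
    have e : g * (g⁻¹ * x * g) * g⁻¹ = x := by group
    rw [e]; exact hx
  have hx01 : g⁻¹ * x * g ≠ 1 := by
    intro h; apply hx1
    have e : x = g * (g⁻¹ * x * g) * g⁻¹ := by group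
    rw [e, h]; group
  have hyx0 : (g⁻¹ * y * g) * (g⁻¹ * x * g) * (g⁻¹ * y * g)⁻¹ ∈ (P : Subgroup H) := by
    apply mem_of_conj_mem_smul g
    have e : g * ((g⁻¹ * y * g) * (g⁻¹ * x * g) * (g⁻¹ * y * g)⁻¹) * g⁻¹ = y * x * y⁻¹ := by group
    rw [e]; exact hyx
  have hy0 := ti_elem p P hTI (g⁻¹ * y * g) (g⁻¹ * x * g) hx01 hx0 hyx0
  rw [Subgroup.mem_normalizer_iff_map_conj_eq]
  change MulAut.conj y • (MulAut.conj g • (P : Subgroup H)) = MulAut.conj g • (P : Subgroup H)
  have h4 : MulAut.conj (g⁻¹ * y * g) • (P : Subgroup H) = (P : Subgroup H) :=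
    Subgroup.mem_normalizer_iff_map_conj_eq.mp hy0
  rw [← mul_smul, ← map_mul]
  have h5 : y * g = g * (g⁻¹ * y * g) := by group
  rw [h5, map_mul, mul_smul, h4]

/-- Let H be a finite group with no nontrivial normal p-subgroup and no nontrivial normal subgroup of order prime to p, whose Sylow p-subgroup P is nontrivial and a trivial-intersection set (P meets its conjugates by elements outside N_H(P) trivially). Then H has a unique minimal normal subgroup N; N is non-abelian simple with trivial centralizer in H (so H embeds in Aut(N)), and a Sylow p-subgroup of N is again a nontrivial trivial-intersection set in N. -/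
theorem result {H : Type*} [Group H] [Finite H] (p : ℕ) [Fact p.Prime] (hOp : Cfsg.pCore p H = ⊥) (hOp' : Cfsg.pPrimeCore p H = ⊥) (P : Sylow p H) (hP1 : (P : Subgroup H) ≠ ⊥)
    (hTI : ∀ g : H, g ∉ Subgroup.normalizer ((P : Subgroup H) : Set H) → (P : Subgroup H) ⊓ (MulAut.conj g • (P : Subgroup H)) = ⊥) :
    ∃ N : Subgroup H, N.Normal ∧ N ≠ ⊥ ∧ (∀ K : Subgroup H, K.Normal → K ≠ ⊥ → N ≤ K) ∧
      IsSimpleGroup N ∧ ¬ IsMulCommutative N ∧ Subgroup.centralizer (N : Set H) = ⊥ ∧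
      ∀ Q : Sylow p N, (Q : Subgroup N) ≠ ⊥ ∧
        ∀ n : N, n ∉ Subgroup.normalizer ((Q : Subgroup N) : Set N) → (Q : Subgroup N) ⊓ (MulAut.conj n • (Q : Subgroup N)) = ⊥ := by
  have hp : p.Prime := Fact.out
  obtain ⟨N, hN, hN1, hmin⟩ := exists_min_normal p hOp hOp' P hP1 hTI
  have hsimp := min_is_N p hOp hOp' P hTI N hN hN1 hmin
  refine ⟨N, hN, hN1, hmin, ?_, ?_, ?_, ?_⟩
  · haveI : Nontrivial N := (Subgroup.nontrivial_iff_ne_bot N).mpr hN1
    refine ⟨fun T' hT' => ?_⟩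
    by_cases hb : T' = ⊥
    · left; exact hb
    · right
      have hT : IsNSub N (T'.map N.subtype) := by
        refine ⟨Subgroup.map_subtype_le T', ?_, ?_⟩
        · intro h
          apply hb
          exact (Subgroup.map_eq_bot_iff_of_injective T' (Subgroup.subtype_injective N)).mp h
        · intro n hn
          rw [Subgroup.mem_normalizer_iff]
          intro x
          constructor
          · rintro ⟨t, ht, rfl⟩
            exact ⟨⟨n, hn⟩ * t * ⟨n, hn⟩⁻¹, hT'.conj_mem t ht ⟨n, hn⟩, by simp⟩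
          · rintro ⟨t, ht, hx⟩
            refine ⟨⟨n, hn⟩⁻¹ * t * ⟨n, hn⟩, ?_, ?_⟩
            · have h := hT'.conj_mem t ht ⟨n, hn⟩⁻¹
              simpa using h
            · simp only [Subgroup.coe_subtype, Subgroup.coe_mul, Subgroup.coe_inv] at hx ⊢
              rw [hx]; group
      have h1 := hsimp _ hT
      apply Subgroup.eq_top_of_card_eq
      rw [← Subgroup.card_map_of_injective (Subgroup.subtype_injective N), h1]
  · intro hc
    apply not_comm p hOp hOp' P hTI N hN hN1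
    intro a ha b hb
    have h := hc.is_comm.comm (⟨a, ha⟩ : N) ⟨b, hb⟩
    exact congrArg Subtype.val h
  · by_contra hC
    have hCn : (Subgroup.centralizer (N : Set H)).Normal := Subgroup.normal_centralizer
    have hle := hmin _ hCn hC
    apply not_comm p hOp hOp' P hTI N hN hN1
    intro a ha b hb
    exact Subgroup.mem_centralizer_iff.mp (hle hb) a ha
  · intro Q
    have hdvdN : p ∣ Nat.card N := dvd_card_of_normal p hOp' N hN hN1
    refine ⟨Q.ne_bot_of_dvd_card hdvdN, ?_⟩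
    intro n hn
    by_contra hne
    apply hn
    obtain ⟨z, hz, hz1⟩ : ∃ z ∈ (Q : Subgroup N) ⊓ MulAut.conj n • (Q : Subgroup N), z ≠ 1 := by
      by_contra hcon
      push Not at hcon
      exact hne ((Subgroup.eq_bot_iff_forall _).mpr hcon)
    obtain ⟨hzQ, hzc⟩ := hz
    have hq : n⁻¹ * z * n ∈ (Q : Subgroup N) := by
      apply mem_of_conj_mem_smul n
      have e : n * (n⁻¹ * z * n) * n⁻¹ = z := by group
      rw [e]; exact hzc
    have hq1 : n⁻¹ * z * n ≠ 1 := by
      intro h; apply hz1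
      have e : z = n * (n⁻¹ * z * n) * n⁻¹ := by group
      rw [e, h]; group
    obtain ⟨P', hP'⟩ := (Q.isPGroup'.map N.subtype).exists_le_sylow
    obtain ⟨g, hg⟩ := MulAction.exists_smul_eq H P P'
    have hP'eq : (P' : Subgroup H) = MulAut.conj g • (P : Subgroup H) := by rw [← hg]; rfl
    have hmemP' : ∀ w : N, w ∈ (Q : Subgroup N) → (w : H) ∈ (P' : Subgroup H) :=
      fun w hw => hP' ⟨w, hw, rfl⟩
    have hnP' : (n : H) ∈ Subgroup.normalizer ((P' : Subgroup H) : Set H) := by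
      rw [hP'eq]
      apply ti_elem_conj p P hTI g (n : H) ((n⁻¹ * z * n : N) : H)
      · intro h
        apply hq1
        exact Subtype.ext h
      · rw [← hP'eq]; exact hmemP' _ hq
      · rw [← hP'eq]
        have e : (n : H) * ((n⁻¹ * z * n : N) : H) * (n : H)⁻¹ = (z : H) := by
          simp only [Subgroup.coe_mul, Subgroup.coe_inv]; group
        rw [e]; exact hmemP' z hzQ
    have hQchar : ∀ w : N, w ∈ (Q : Subgroup N) ↔ (w : H) ∈ (P' : Subgroup H) := by
      intro w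
      constructor
      · exact hmemP' w
      · intro hw
        have hpg : IsPGroup p ((P' : Subgroup H).subgroupOf N) := P'.isPGroup'.comap_subtype
        have hle : (Q : Subgroup N) ≤ (P' : Subgroup H).subgroupOf N :=
          fun v hv => Subgroup.mem_subgroupOf.mpr (hmemP' v hv)
        have h := Q.is_maximal' hpg hle
        have hw' : w ∈ (P' : Subgroup H).subgroupOf N := Subgroup.mem_subgroupOf.mpr hw
        rw [h] at hw'
        exact hw'
    rw [Subgroup.mem_normalizer_iff]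
    intro w
    rw [hQchar, hQchar]
    have h := Subgroup.mem_normalizer_iff.mp hnP' (w : H)
    simpa using h

end Cfsg.Agent.S4620
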