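import Cfsg.Statements.S4657
import Cfsg.Agent.Lib.Helper77.BrauerMap

set_option autoImplicit false
open Cfsg

namespace Cfsg.Agent.S4657

open Cfsg.Agent.Lib.Helper77 Cfsg.Agent.Lib.Helper16 in
/-- Fix a prime p and a maximal ideal M of the algebraic integers containing p. Let (P, e) be a Brauer pair of the finite group G: P is a p-subgroup and e is a p-block of the centralizer C_G(P). Then there is exactly one p-block B of G such that (P, e) is a Brauer pair of B. -/
theorem result {G : Type*} [Group G] [Fintype G] (p : ℕ) [Fact p.Prime] (M : Ideal Cfsg.AlgInt) (hM : Cfsg.IsPModular p M) (P : Subgroup G) (e : Set (Cfsg.IrrCharacter (Subgroup.centralizer (P : Set G)))) (hPe : Cfsg.IsBrauerPair p M P e) : ∃! B : Set (Cfsg.IrrCharacter G), Cfsg.IsBrauerPairOf p M B P e := by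
  have hMp := isPrime_of_isPModular hM
  obtain ⟨hP, he⟩ := hPe
  obtain ⟨ξ, hξ⟩ := IsPBlock.nonempty hMp he
  obtain ⟨A, hA, hA1, hAu⟩ := exists_block_of_brauerOmega hM P hP ξ
  have hadm : BrAdm M P (Cfsg.blockCoeff A) :=
    brAdm_of_isClassFunction (fun g => memLocalRing_blockCoeff hMp A hA g)
      (blockCoeff_isClassFunction A)
  refine ⟨A, ⟨⟨hP, he⟩, hA, ?_⟩, ?_⟩
  · intro ξ' hξ'
    have h1 := memLocalIdeal_brauerOmega_sub_of_sameBlock hMp P
      (IsPBlock.sameBlock hMp he hξ' hξ) hadm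
    have h2 := memLocalIdeal_add hMp h1 hA1
    rwa [sub_add_sub_cancel] at h2
  · intro B hB
    exact hAu B hB.2.1 (not_memLocalIdeal_of_sub_one hMp (hB.2.2 ξ hξ))

end Cfsg.Agent.S4657
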