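import Cfsg.Statements.S4715
import Cfsg.Agent.Lib.Helper77.MajorHeight
import Cfsg.Agent.Lib.Helper77.HBlockPair

set_option autoImplicit false
set_option linter.style.haveILetI false
open Cfsg

namespace Cfsg.Agent.S4715

open Cfsg.Agent.Lib.Helper77 Cfsg.Agent.Lib.Helper16 in
/-- Let p be a prime, M a maximal ideal of the algebraic integers containing p, B a p-block of the finite group G with defect group D of order p^d, H = D·C_G(D), b a block of H inducing B, T the stabilizer of b in N_G(D) and e = [T : H] the inertial index of B; let n be the integer with p^n ≤ e < p^(n+1) and p^c the order of the centre of D. Then every irreducible character in B has height h with h + c ≤ n + d. -/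
theorem result {G : Type*} [Group G] [Finite G] (p : ℕ) [Fact p.Prime] (M : Ideal Cfsg.AlgInt) (hM : Cfsg.IsPModular p M) (B : Set (Cfsg.IrrCharacter G)) (hB : Cfsg.IsPBlock M B) (D : Subgroup G) (hBD : Cfsg.IsDefectGroup p M B D) (d : ℕ) (hDd : Nat.card D = p ^ d) (H : Subgroup G) (hH : H = D ⊔ Subgroup.centralizer (D : Set G)) (b : Set (Cfsg.IrrCharacter H)) (hind : Cfsg.IsInducedBlock M H b B) (T : Subgroup G) (hT : ∀ g : G, g ∈ T ↔ (g ∈ Subgroup.normalizer (D : Set G) ∧ ∀ θ ∈ b, ∀ θ' : Cfsg.IrrCharacter H, (∀ h h' : H, (h' : G) = g * h * g⁻¹ → (θ' : H → ℂ) h' = (θ : H → ℂ) h) → θ' ∈ b)) (e : ℕ) (he : H.relIndex T = e) (n : ℕ) (hn : p ^ n ≤ e ∧ e < p ^ (n + 1)) (c : ℕ) (hc : Nat.card (Subgroup.center D) = p ^ c) : ∀ χ ∈ B, Cfsg.blockHeight p B (χ : G → ℂ) + c ≤ n + d := by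
  classical
  letI : Fintype G := Fintype.ofFinite G
  have hp : p.Prime := Fact.out
  intro χ hχ
  have hDH : D ≤ H := by rw [hH]; exact le_sup_left
  have hCH : Subgroup.centralizer (D : Set G) ≤ H := by rw [hH]; exact le_sup_right
  obtain ⟨b₀, hmax, hstab⟩ :=
    exists_maximal_pair_of_induced_sup hM hBD H hDH hCH (le_of_eq hH) b hind
  -- the centre of `D`, as a set of elements of `G`
  obtain ⟨ZS, hZS⟩ : ∃ ZS : Subgroup G, ZS = (Subgroup.center D).map D.subtype := ⟨_, rfl⟩
  have hZSD : ∀ u ∈ ZS, u ∈ D := by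
    intro u hu
    rw [hZS] at hu
    obtain ⟨z, -, rfl⟩ := hu
    exact z.2
  have hZScen : ∀ u ∈ ZS, ∀ y ∈ D, y * u = u * y := by
    intro u hu y hy
    rw [hZS] at hu
    obtain ⟨z, hz, rfl⟩ := hu
    have h1 := Subgroup.mem_center_iff.mp hz ⟨y, hy⟩
    exact congrArg Subtype.val h1
  have hZScard : Nat.card ZS = p ^ c := by
    rw [hZS, Subgroup.card_map_of_injective D.subtype_injective, hc]
  have hZcard : (Finset.univ.filter (· ∈ ZS)).card = p ^ c := by
    rw [← hZScard, ← Fintype.card_subtype]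
    exact Nat.card_eq_fintype_card.symm
  have hHcen : ∀ h ∈ H, ∀ u ∈ ZS, h * u = u * h := by
    have hle : H ≤ Subgroup.centralizer (ZS : Set G) := by
      rw [hH]
      refine sup_le ?_ (Subgroup.centralizer_le (fun u hu => hZSD u hu))
      intro y hy
      rw [Subgroup.mem_centralizer_iff]
      intro u hu
      exact (hZScen u hu y hy).symm
    intro h hh u hu
    exact (Subgroup.mem_centralizer_iff.mp (hle hh) u hu).symm
  have key := card_mul_pow_height_le hM hmax (Finset.univ.filter (· ∈ ZS))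
    (fun u hu => hZSD u (Finset.mem_filter.mp hu).2)
    (fun u hu => hZScen u (Finset.mem_filter.mp hu).2)
    (fun u hu j => Finset.mem_filter.mpr ⟨Finset.mem_univ _, pow_mem (Finset.mem_filter.mp hu).2 j⟩)
    T H (fun g hg hs => (hT g).mpr ⟨hg, hstab g hg hs⟩)
    (fun h hh u hu => hHcen h hh u (Finset.mem_filter.mp hu).2) χ hχ
  have hdef : Cfsg.blockDefect p B = d := by
    have h1 := card_isDefectGroup hM B hB D hBD
    rw [hDd] at h1
    exact (Nat.pow_right_injective hp.two_le h1).symm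
  rw [hZcard, hdef, he] at key
  have key' : p ^ c * p ^ Cfsg.blockHeight p B (χ : G → ℂ) ≤ p ^ d * e := by
    exact_mod_cast key
  have h2 : p ^ (c + Cfsg.blockHeight p B (χ : G → ℂ)) < p ^ (d + (n + 1)) := by
    rw [pow_add, pow_add]
    exact lt_of_le_of_lt key' (Nat.mul_lt_mul_of_pos_left hn.2 (pow_pos hp.pos d))
  have h3 := (Nat.pow_lt_pow_iff_right hp.one_lt).mp h2
  omega

end Cfsg.Agent.S4715
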