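import Mathlib
import Cfsg.Statements.S4741
import Cfsg.Agent.Lib.Helper16.Robinson

set_option autoImplicit false
open Cfsg

namespace Cfsg.Agent.S4741

open Cfsg.Agent.Lib.Helper16

/-- Let p be a prime, M a maximal ideal of the algebraic integers containing p, and D a subgroup of the finite group G. Let x₁, …, x_r be pairwise non-conjugate elements of G such that D is a Sylow p-subgroup of the centralizer of each xᵢ, and such that for any conjugates g of some xᵢ and h of some xⱼ the element g h⁻¹ is never a non-identity p-element. Then there are r distinct p-blocks B₁, …, B_r of G, each having D as a defect group, such that for every choice of characters χᵢ ∈ Bᵢ of height zero the determinant of the r × r matrix (χᵢ(xⱼ)) does not lie in the local ideal at M. -/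
theorem result {G : Type*} [Group G] [Finite G] (p : ℕ) [Fact p.Prime] (M : Ideal Cfsg.AlgInt) (hM : Cfsg.IsPModular p M) (D : Subgroup G) {r : ℕ} (x : Fin r → G) (hx : ∀ i j : Fin r, IsConj (x i) (x j) → i = j) (hD : ∀ i : Fin r, ∃ S : Sylow p ↥(Subgroup.centralizer ({x i} : Set G)), (S : Subgroup ↥(Subgroup.centralizer ({x i} : Set G))).map (Subgroup.centralizer ({x i} : Set G)).subtype = D) (hsep : ∀ i j : Fin r, ∀ g h : G, IsConj (x i) g → IsConj (x j) h → ∀ k : ℕ, 0 < k → orderOf (g * h⁻¹) ≠ p ^ k) : ∃ B : Fin r → Set (Cfsg.IrrCharacter G), Function.Injective B ∧ (∀ i : Fin r, Cfsg.IsPBlock M (B i) ∧ Cfsg.IsDefectGroup p M (B i) D) ∧ ∀ χ : Fin r → Cfsg.IrrCharacter G, (∀ i : Fin r, χ i ∈ B i ∧ Cfsg.blockHeight p (B i) (χ i : G → ℂ) = 0) → ¬ Cfsg.MemLocalIdeal M (Matrix.det (Matrix.of fun i j : Fin r => (χ i : G → ℂ) (x j))) := by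

  classical
  haveI : Fintype G := Fintype.ofFinite G
  haveI : Fintype (Cfsg.IrrCharacter G) := Fintype.ofFinite _
  have hP := isPrime_of_isPModular hM
  have hp := (Fact.out : p.Prime)
  haveI : M.IsMaximal := hM.2.1
  letI : Field (Cfsg.AlgInt ⧸ M) := Ideal.Quotient.field M
  obtain ⟨S⟩ : Nonempty (Sylow p G) := inferInstance
  obtain ⟨m, hm⟩ := robinson_identity p S x hx hsep
  obtain ⟨q, hq⟩ : ∃ q : Cfsg.AlgInt →+* (Cfsg.AlgInt ⧸ M), q = Ideal.Quotient.mk M := ⟨_, rfl⟩
  have hq0 : ∀ a : Cfsg.AlgInt, q a = 0 ↔ a ∈ M := by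
    intro a; rw [hq]; exact Ideal.Quotient.eq_zero_iff_mem
  obtain ⟨W, hW⟩ : ∃ W : Cfsg.IrrCharacter G → Fin r → Cfsg.AlgInt,
      ∀ χ j, ((W χ j : Cfsg.AlgInt) : ℂ) = Cfsg.centralChar (χ : G → ℂ) (x j) :=
    ⟨fun χ j => ⟨Cfsg.centralChar (χ : G → ℂ) (x j), isIntegral_centralChar_irr χ (x j)⟩,
      fun _ _ => rfl⟩
  obtain ⟨C, hC⟩ : ∃ C : Cfsg.IrrCharacter G → Fin r → Cfsg.AlgInt,
      ∀ χ i, ((C χ i : Cfsg.AlgInt) : ℂ) = (χ : G → ℂ) (x i)⁻¹ :=
    ⟨fun χ i => ⟨(χ : G → ℂ) (x i)⁻¹, Cfsg.Agent.Lib.Helper77.isIntegral_irr_apply χ _⟩,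
      fun _ _ => rfl⟩
  obtain ⟨w, hw⟩ : ∃ w : Cfsg.IrrCharacter G → Fin r → (Cfsg.AlgInt ⧸ M),
      ∀ χ j, w χ j = q (W χ j) := ⟨fun χ j => q (W χ j), fun _ _ => rfl⟩
  -- the identity in the ring of algebraic integers
  have hidA : ∀ i j : Fin r, ∑ χ : Cfsg.IrrCharacter G, (m χ : Cfsg.AlgInt) * (W χ j * C χ i) =
      if i = j then (((S : Subgroup G).index : ℕ) : Cfsg.AlgInt) else 0 := by
    intro i j
    apply Subtype.val_injective
    have h := hm i j
    simp only [AddSubmonoidClass.coe_finset_sum, MulMemClass.coe_mul, hW, hC]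
    split_ifs with hij
    · rw [if_pos hij] at h
      simpa using h
    · rw [if_neg hij] at h
      simpa using h
  -- the identity in the residue field
  have hidk : ∀ i j : Fin r, ∑ χ : Cfsg.IrrCharacter G, (q (m χ) * q (C χ i)) * w χ j =
      if i = j then q (((S : Subgroup G).index : ℕ) : Cfsg.AlgInt) else 0 := by
    intro i j
    have h := congrArg q (hidA i j)
    rw [map_sum] at h
    have e : (∑ χ : Cfsg.IrrCharacter G, (q (m χ) * q (C χ i)) * w χ j) =
        ∑ χ : Cfsg.IrrCharacter G, q ((m χ : Cfsg.AlgInt) * (W χ j * C χ i)) := by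
      apply Finset.sum_congr rfl
      intro χ _
      rw [hw, map_mul, map_mul]
      ring
    rw [e, h]
    split_ifs <;> simp
  have hc0 : q (((S : Subgroup G).index : ℕ) : Cfsg.AlgInt) ≠ 0 := by
    rw [Ne, hq0, natCast_mem_iff hM]
    exact S.not_dvd_index
  -- characters outside the blocks with defect group `D` contribute nothing
  have hvan : ∀ χ : Cfsg.IrrCharacter G,
      ¬ Cfsg.IsDefectGroup p M (Cfsg.blockOf M (χ : G → ℂ)) D →
      ∀ i j : Fin r, (q (m χ) * q (C χ i)) * w χ j = 0 := by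
    intro χ hχ i j
    have h1 := robinson_vanish hM D x hD χ hχ i j
    have h2 : W χ j * C χ i ∈ M := by
      rw [← memLocalIdeal_algInt_iff hP]
      simpa [hW, hC] using h1
    have h3 : q (W χ j * C χ i) = 0 := (hq0 _).mpr h2
    rw [hw, mul_assoc, mul_comm (q (C χ i)), ← map_mul, h3, mul_zero]
  -- the central-character vectors of these blocks span
  have hspan : Submodule.span (Cfsg.AlgInt ⧸ M)
      (w '' {χ : Cfsg.IrrCharacter G | Cfsg.IsDefectGroup p M (Cfsg.blockOf M (χ : G → ℂ)) D}) =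
        ⊤ := by
    rw [eq_top_iff, ← (Pi.basisFun (Cfsg.AlgInt ⧸ M) (Fin r)).span_eq, Submodule.span_le]
    rintro _ ⟨i, rfl⟩
    rw [Pi.basisFun_apply]
    have e : (Pi.single i (1 : Cfsg.AlgInt ⧸ M) : Fin r → Cfsg.AlgInt ⧸ M) =
        (q (((S : Subgroup G).index : ℕ) : Cfsg.AlgInt))⁻¹ •
          ∑ χ : Cfsg.IrrCharacter G, (q (m χ) * q (C χ i)) • w χ := by
      funext j
      rw [Pi.smul_apply, Finset.sum_apply]
      simp only [Pi.smul_apply, smul_eq_mul]
      rw [hidk i j, Pi.single_apply]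
      by_cases hij : i = j
      · rw [if_pos hij, if_pos hij.symm, inv_mul_cancel₀ hc0]
      · rw [if_neg hij, if_neg (fun h => hij h.symm), mul_zero]
    rw [e]
    apply Submodule.smul_mem
    apply Submodule.sum_mem
    intro χ _
    by_cases hχ : Cfsg.IsDefectGroup p M (Cfsg.blockOf M (χ : G → ℂ)) D
    · exact Submodule.smul_mem _ _ (Submodule.subset_span ⟨χ, hχ, rfl⟩)
    · have : (q (m χ) * q (C χ i)) • w χ = 0 := by
        funext j
        rw [Pi.smul_apply, smul_eq_mul]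
        exact hvan χ hχ i j
      rw [this]
      exact Submodule.zero_mem _
  obtain ⟨b, hbs, hbspan, hbli⟩ := exists_linearIndependent (Cfsg.AlgInt ⧸ M)
    (w '' {χ : Cfsg.IrrCharacter G | Cfsg.IsDefectGroup p M (Cfsg.blockOf M (χ : G → ℂ)) D})
  have hbtop : Submodule.span (Cfsg.AlgInt ⧸ M) b = ⊤ := hbspan.trans hspan
  let bas : Module.Basis b (Cfsg.AlgInt ⧸ M) (Fin r → Cfsg.AlgInt ⧸ M) :=
    Module.Basis.mk hbli (by rw [Subtype.range_coe]; exact hbtop.ge)
  let e : Fin r ≃ b := (Pi.basisFun (Cfsg.AlgInt ⧸ M) (Fin r)).indexEquiv bas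
  have hch : ∀ i : Fin r, ∃ χ : Cfsg.IrrCharacter G,
      Cfsg.IsDefectGroup p M (Cfsg.blockOf M (χ : G → ℂ)) D ∧
        w χ = ((e i : b) : Fin r → Cfsg.AlgInt ⧸ M) := fun i => hbs (e i).2
  choose χ₀ hχ₀D hχ₀w using hch
  -- characters in the same block have the same vector
  have hsame : ∀ χ χ' : Cfsg.IrrCharacter G, χ' ∈ Cfsg.blockOf M (χ : G → ℂ) → w χ = w χ' := by
    intro χ χ' hmem
    funext j
    rw [hw, hw, hq, Ideal.Quotient.eq, ← memLocalIdeal_algInt_iff hP]
    have := hmem (x j)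
    simpa [hW] using this
  refine ⟨fun i => Cfsg.blockOf M (χ₀ i : G → ℂ), ?_, fun i => ⟨⟨χ₀ i, rfl⟩, hχ₀D i⟩, ?_⟩
  · intro i j hij
    have hmem : χ₀ j ∈ Cfsg.blockOf M (χ₀ i : G → ℂ) := by
      have : Cfsg.blockOf M (χ₀ i : G → ℂ) = Cfsg.blockOf M (χ₀ j : G → ℂ) := hij
      rw [this]
      exact mem_blockOf_self hP _
    have h1 := hsame _ _ hmem
    rw [hχ₀w, hχ₀w] at h1
    exact e.injective (Subtype.ext h1)
  · intro χ' hχ'
    have hrow : ∀ i, w (χ' i) = ((e i : b) : Fin r → Cfsg.AlgInt ⧸ M) := fun i =>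
      (hsame (χ₀ i) (χ' i) (hχ' i).1).symm.trans (hχ₀w i)
    obtain ⟨N', hN'⟩ : ∃ N' : Matrix (Fin r) (Fin r) Cfsg.AlgInt,
        N' = Matrix.of fun i j => W (χ' i) j := ⟨_, rfl⟩
    have hdetk : (q.mapMatrix N').det ≠ 0 := by
      have hli : LinearIndependent (Cfsg.AlgInt ⧸ M)
          (fun i : Fin r => ((e i : b) : Fin r → Cfsg.AlgInt ⧸ M)) := hbli.comp e e.injective
      have hrows : q.mapMatrix N' =
          Matrix.of (fun i : Fin r => ((e i : b) : Fin r → Cfsg.AlgInt ⧸ M)) := by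
        ext i j
        rw [hN']
        simp only [RingHom.mapMatrix_apply, Matrix.map_apply, Matrix.of_apply]
        rw [← hw, hrow]
      rw [hrows]
      have hu := Matrix.linearIndependent_rows_iff_isUnit.mp
        (show LinearIndependent (Cfsg.AlgInt ⧸ M)
          (Matrix.of (fun i : Fin r => ((e i : b) : Fin r → Cfsg.AlgInt ⧸ M))).row from hli)
      exact ((Matrix.isUnit_iff_isUnit_det _).mp hu).ne_zero
    have hdetN' : N'.det ∉ M := by
      intro hmem
      apply hdetk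
      rw [← RingHom.map_det]
      exact (hq0 _).mpr hmem
    intro hcontra
    apply hdetN'
    rw [← memLocalIdeal_algInt_iff hP]
    have hcoe : ((N'.det : Cfsg.AlgInt) : ℂ) =
        Matrix.det (Matrix.of fun i j : Fin r => Cfsg.centralChar (χ' i : G → ℂ) (x j)) := by
      have h := RingHom.map_det (algebraMap Cfsg.AlgInt ℂ) N'
      have h2 : (algebraMap Cfsg.AlgInt ℂ).mapMatrix N' =
          Matrix.of fun i j : Fin r => Cfsg.centralChar (χ' i : G → ℂ) (x j) := by
        ext i j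
        rw [hN']
        simp only [RingHom.mapMatrix_apply, Matrix.map_apply, Matrix.of_apply]
        exact hW _ _
      rw [h2] at h
      exact h
    rw [hcoe]
    obtain ⟨A, hA⟩ : ∃ A : Matrix (Fin r) (Fin r) ℂ,
        A = Matrix.of fun i j : Fin r => (χ' i : G → ℂ) (x j) := ⟨_, rfl⟩
    rw [← hA] at hcontra
    have hN : (Matrix.of fun i j : Fin r => Cfsg.centralChar (χ' i : G → ℂ) (x j)).det =
        (∏ i : Fin r, ((χ' i : G → ℂ) 1)⁻¹) *
        ((∏ j : Fin r, ((Subgroup.centralizer ({x j} : Set G)).index : ℂ)) * A.det) := by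
      rw [← Matrix.det_mul_row, ← Matrix.det_mul_column]
      congr 1
      ext i j
      rw [hA]
      simp only [Matrix.of_apply]
      unfold Cfsg.centralChar
      ring
    rw [hN]
    have hre : (∏ i : Fin r, ((χ' i : G → ℂ) 1)⁻¹) *
        ((∏ j : Fin r, ((Subgroup.centralizer ({x j} : Set G)).index : ℂ)) * A.det) =
        A.det *
          ∏ i : Fin r, (((Subgroup.centralizer ({x i} : Set G)).index : ℂ) *
            (((Cfsg.charDegree (χ' i : G → ℂ) : ℕ) : ℂ))⁻¹) := by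
      rw [Finset.prod_mul_distrib]
      have : ∀ i : Fin r, ((χ' i : G → ℂ) 1) = ((Cfsg.charDegree (χ' i : G → ℂ) : ℕ) : ℂ) :=
        fun i => (Cfsg.Agent.Lib.Helper79.irr_charDegree (χ' i).2).1
      simp_rw [this]
      ring
    rw [hre]
    apply memLocalIdeal_mul_right hP hcontra
    apply memLocalRing_prod hP
    intro i _
    obtain ⟨h1, hpos, -⟩ := Cfsg.Agent.Lib.Helper79.irr_charDegree (χ' i).2
    apply memLocalRing_natCast_div hM Subgroup.index_ne_zero_of_finite hpos.ne'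
    obtain ⟨g, hg, Pg, hPg⟩ := hχ₀D i
    have hfz := Cfsg.Agent.Lib.Helper78.factorization_eq_of_height_zero hM
      (Cfsg.blockOf M (χ₀ i : G → ℂ)) ⟨χ₀ i, rfl⟩ g hg (χ' i) (hχ' i).1 (hχ' i).2
    rw [hfz]
    obtain ⟨Si, hSi⟩ := hD i
    have c1 := card_sylow_centralizer_map (x i) Si
    have c2 := card_sylow_centralizer_map g Pg
    rw [hSi] at c1
    rw [← hPg] at c2
    have c3 := Nat.pow_right_injective hp.two_le (c1.symm.trans c2)
    have f1 := factorization_card_eq_centralizer p (x i)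
    have f2 := factorization_card_eq_centralizer p g
    omega

end Cfsg.Agent.S4741
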