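import Cfsg.Statements.S4742
import Cfsg.Agent.Lib.Helper79.ClassMult

set_option autoImplicit false
open Cfsg

namespace Cfsg.Agent.S4742

/-- Let p ≠ q be primes dividing the order of the finite group G, and suppose the centralizer of every non-identity p-element of G has order prime to q. Then either G has an irreducible character of p-defect zero, or for every non-identity q-element z of G there are conjugates g, h of z such that g h⁻¹ is a non-identity p-element. -/
theorem result {G : Type*} [Group G] [Finite G] (p q : ℕ) [Fact p.Prime] [Fact q.Prime] (hppq : p ≠ q) (hpG : p ∣ Nat.card G) (hqG : q ∣ Nat.card G) (hC : ∀ g : G, g ≠ 1 → (∃ k : ℕ, orderOf g = p ^ k) → ¬ q ∣ Nat.card ↥(Subgroup.centralizer ({g} : Set G))) : (∃ χ : Cfsg.IrrCharacter G, (Cfsg.charDegree (χ : G → ℂ)).factorization p = (Nat.card G).factorization p) ∨ ∀ z : G, z ≠ 1 → (∃ k : ℕ, orderOf z = q ^ k) → ∃ g h : G, IsConj z g ∧ IsConj z h ∧ g * h⁻¹ ≠ 1 ∧ ∃ k : ℕ, orderOf (g * h⁻¹) = p ^ k := by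
  classical
  by_contra hcon
  rw [not_or] at hcon
  obtain ⟨hnd, hz⟩ := hcon
  rw [not_exists] at hnd
  rw [not_forall] at hz
  obtain ⟨z, hz⟩ := hz
  rw [Classical.not_imp] at hz
  obtain ⟨hz1, hz⟩ := hz
  rw [Classical.not_imp] at hz
  obtain ⟨⟨kz, hkz⟩, hzz⟩ := hz
  have hp : p.Prime := Fact.out
  have hq : q.Prime := Fact.out
  have hGne : Nat.card G ≠ 0 := Nat.card_pos.ne'
  set A := (Nat.card G).factorization p with hA
  have hApos : 0 < A := hp.factorization_pos_of_dvd hGne hpG
  obtain ⟨P⟩ : Nonempty (Sylow p G) := inferInstance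
  have hPcard : Nat.card (P : Subgroup G) = p ^ A := P.card_eq_multiplicity
  have hdeg : ∀ χ : Cfsg.IrrCharacter G, ¬ p ^ ((A - 1) + 1) ∣ Cfsg.charDegree (χ : G → ℂ) := by
    intro χ hdvd
    obtain ⟨-, hpos, hdvdG⟩ := Cfsg.Agent.Lib.Helper79.irr_charDegree χ.2
    have h1 : A ≤ (Cfsg.charDegree (χ : G → ℂ)).factorization p := by
      have := (hp.pow_dvd_iff_le_factorization hpos.ne').mp hdvd
      omega
    have h2 : (Cfsg.charDegree (χ : G → ℂ)).factorization p ≤ A :=
      (Nat.factorization_le_iff_dvd hpos.ne' hGne).mpr hdvdG p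
    exact hnd χ (le_antisymm h2 h1)
  have hyp : ∀ w ∈ (P : Subgroup G), w ≠ 1 → ∀ g : G, ¬ IsConj (g * z * g⁻¹ * z⁻¹) w := by
    intro w hw hw1 g hconj
    apply hzz
    refine ⟨g * z * g⁻¹, z, isConj_iff.mpr ⟨g, rfl⟩, IsConj.refl z, ?_, ?_⟩
    · intro h1
      rw [h1] at hconj
      exact hw1 (isConj_one_right.mp hconj)
    · obtain ⟨k, hk⟩ := (IsPGroup.iff_orderOf.mp P.isPGroup') ⟨w, hw⟩
      refine ⟨k, ?_⟩
      rw [isConj_iff] at hconj
      obtain ⟨c, hc⟩ := hconj
      have h2 : orderOf w = orderOf (g * z * g⁻¹ * z⁻¹) := by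
        rw [← hc]
        exact (MulAut.conj c).orderOf_eq (g * z * g⁻¹ * z⁻¹)
      rw [← h2, ← hk]
      exact (Subgroup.orderOf_mk w hw).symm
  have hkey := Cfsg.Agent.Lib.Helper79.pow_dvd_card_solutions p hp (A - 1) hdeg z z⁻¹
    (P : Subgroup G) A hPcard (by omega) hyp
  have hA1 : A - (A - 1) = 1 := by omega
  rw [hA1, pow_one] at hkey
  have hcardC : Nat.card {g : G // g * z * g⁻¹ * z⁻¹ = 1} =
      Nat.card (Subgroup.centralizer ({z} : Set G)) := by
    apply Nat.card_congr
    apply Equiv.subtypeEquivRight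
    intro g
    rw [Subgroup.mem_centralizer_iff]
    constructor
    · intro h1 y hy
      rw [Set.mem_singleton_iff] at hy
      subst hy
      have : g * y = y * g := by
        calc g * y = (g * y * g⁻¹ * y⁻¹) * (y * g) := by group
          _ = y * g := by rw [h1, one_mul]
      exact this.symm
    · intro h1
      have h2 := h1 z (Set.mem_singleton z)
      calc g * z * g⁻¹ * z⁻¹ = (g * z) * g⁻¹ * z⁻¹ := by group
        _ = (z * g) * g⁻¹ * z⁻¹ := by rw [h2]
        _ = 1 := by group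
  rw [hcardC] at hkey
  obtain ⟨u, hu⟩ := exists_prime_orderOf_dvd_card' (G := Subgroup.centralizer ({z} : Set G)) p hkey
  have hu' : orderOf (u : G) = p := by rw [Subgroup.orderOf_coe]; exact hu
  have hu1 : (u : G) ≠ 1 := by
    intro h1
    rw [h1, orderOf_one] at hu'
    exact hp.one_lt.ne hu'
  have hnq := hC (u : G) hu1 ⟨1, by rw [hu', pow_one]⟩
  apply hnq
  have hzmem : z ∈ Subgroup.centralizer ({(u : G)} : Set G) := by
    rw [Subgroup.mem_centralizer_iff]
    intro y hy
    rw [Set.mem_singleton_iff] at hy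
    subst hy
    have := (Subgroup.mem_centralizer_iff.mp u.2) z (Set.mem_singleton z)
    exact this.symm
  have hord : orderOf (⟨z, hzmem⟩ : Subgroup.centralizer ({(u : G)} : Set G)) = q ^ kz := by
    rw [Subgroup.orderOf_mk]; exact hkz
  have hkz0 : kz ≠ 0 := by
    intro h0
    rw [h0, pow_zero] at hkz
    exact hz1 (orderOf_eq_one_iff.mp hkz)
  have hdvd := orderOf_dvd_natCard (⟨z, hzmem⟩ : Subgroup.centralizer ({(u : G)} : Set G))
  rw [hord] at hdvd
  exact (dvd_pow_self q hkz0).trans hdvd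

end Cfsg.Agent.S4742
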