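import Cfsg.Statements.S4744
import Cfsg.Agent.Lib.Helper79.BrauerFowler

set_option autoImplicit false
open Cfsg

namespace Cfsg.Agent.S4744

/-- Let p be an odd prime and G a finite group of even order divisible by p in which the centralizer of every non-identity p-element has odd order. Then either G has an irreducible character of p-defect zero, or the normalizer of every Sylow p-subgroup P of G has even order and P is abelian. -/
theorem result {G : Type*} [Group G] [Finite G] (p : ℕ) [Fact p.Prime] (hp2 : p ≠ 2) (hpG : p ∣ Nat.card G) (h2G : 2 ∣ Nat.card G) (hC : ∀ g : G, g ≠ 1 → (∃ k : ℕ, orderOf g = p ^ k) → Odd (Nat.card ↥(Subgroup.centralizer ({g} : Set G)))) : (∃ χ : Cfsg.IrrCharacter G, (Cfsg.charDegree (χ : G → ℂ)).factorization p = (Nat.card G).factorization p) ∨ ∀ P : Sylow p G, Even (Nat.card ↥(Subgroup.normalizer ((P : Subgroup G) : Set G))) ∧ IsMulCommutative ↥(P : Subgroup G) := by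
  classical
  by_cases hd : ∃ χ : Cfsg.IrrCharacter G,
      (Cfsg.charDegree (χ : G → ℂ)).factorization p = (Nat.card G).factorization p
  · exact Or.inl hd
  · right
    rw [not_exists] at hd
    intro P
    have : Fact (Nat.Prime 2) := ⟨Nat.prime_two⟩
    obtain ⟨t, ht⟩ := exists_prime_orderOf_dvd_card' (G := G) 2 h2G
    have ht1 : t ≠ 1 := by
      intro h
      rw [h, orderOf_one] at ht
      omega
    have htt : t * t = 1 := by
      have := pow_orderOf_eq_one t
      rw [ht, pow_two] at this
      exact this
    obtain ⟨t', hconj, hinv⟩ :=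
      Cfsg.Agent.Lib.Helper79.exists_conj_invol_inverting_sylow p hpG hC hd t ht1 htt P
    have ht'ord : orderOf t' = 2 := by
      obtain ⟨c, hc⟩ := isConj_iff.mp hconj
      rw [← hc, ← ht]
      exact (MulAut.conj c).orderOf_eq t
    have ht't' : t' * t' = 1 := by
      have := pow_orderOf_eq_one t'
      rw [ht'ord, pow_two] at this
      exact this
    have ht'inv : t'⁻¹ = t' := inv_eq_of_mul_eq_one_left ht't'
    constructor
    · have hmem : t' ∈ Subgroup.normalizer ((P : Subgroup G) : Set G) := by
        rw [Subgroup.mem_set_normalizer_iff]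
        intro h
        constructor
        · intro hh
          have h1 : t' * h * t'⁻¹ = h⁻¹ := hinv h hh
          rw [h1]
          exact inv_mem hh
        · intro hh
          have hh' : t' * h * t'⁻¹ ∈ (P : Subgroup G) := hh
          have h1 := hinv _ hh'
          have h2 : t' * (t' * h * t'⁻¹) * t'⁻¹ = h := by
            rw [ht'inv]
            calc t' * (t' * h * t') * t' = (t' * t') * h * (t' * t') := by group
              _ = h := by rw [ht't', one_mul, mul_one]
          rw [h2] at h1
          have h3 : h ∈ (P : Subgroup G) := by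
            rw [h1]
            exact inv_mem hh'
          exact h3
      have hord : orderOf (⟨t', hmem⟩ : Subgroup.normalizer ((P : Subgroup G) : Set G)) = 2 := by
        rw [Subgroup.orderOf_mk]
        exact ht'ord
      have hdvd := orderOf_dvd_natCard
        (⟨t', hmem⟩ : Subgroup.normalizer ((P : Subgroup G) : Set G))
      rw [hord] at hdvd
      exact even_iff_two_dvd.mpr hdvd
    · exact ⟨⟨fun a b => Subtype.ext
        (Cfsg.Agent.Lib.Helper79.commute_of_inverted (P : Subgroup G) t' hinv a a.2 b b.2)⟩⟩

end Cfsg.Agent.S4744
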