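import Cfsg.Statements.S4746
import Cfsg.Agent.Lib.Helper79.BrauerFowler
import Cfsg.Agent.Lib.Helper79.OddDeg

set_option autoImplicit false
open Cfsg

namespace Cfsg.Agent.S4746

/-- Let p be an odd prime and G a finite group of even order divisible by p in which the centralizer of every non-identity p-element has odd order. Then G has an irreducible character of p-defect zero or an irreducible character of even degree. -/
theorem result {G : Type*} [Group G] [Finite G] (p : ℕ) [Fact p.Prime] (hp2 : p ≠ 2) (hpG : p ∣ Nat.card G) (h2G : 2 ∣ Nat.card G) (hC : ∀ g : G, g ≠ 1 → (∃ k : ℕ, orderOf g = p ^ k) → Odd (Nat.card ↥(Subgroup.centralizer ({g} : Set G)))) : (∃ χ : Cfsg.IrrCharacter G, (Cfsg.charDegree (χ : G → ℂ)).factorization p = (Nat.card G).factorization p) ∨ ∃ χ : Cfsg.IrrCharacter G, Even (Cfsg.charDegree (χ : G → ℂ)) := by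
  classical
  have hp : p.Prime := Fact.out
  by_contra hcon
  rw [not_or] at hcon
  obtain ⟨hd, hev⟩ := hcon
  rw [not_exists] at hd hev
  have hodd : ∀ χ : Cfsg.IrrCharacter G, Odd (Cfsg.charDegree (χ : G → ℂ)) :=
    fun χ => Nat.not_even_iff_odd.mp (hev χ)
  have : Fact (Nat.Prime 2) := ⟨Nat.prime_two⟩
  obtain ⟨t, ht⟩ := exists_prime_orderOf_dvd_card' (G := G) 2 h2G
  have ht1 : t ≠ 1 := by
    intro h
    rw [h, orderOf_one] at ht
    omega
  have htt : t * t = 1 := by
    have := pow_orderOf_eq_one t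
    rw [ht, pow_two] at this
    exact this
  obtain ⟨P⟩ : Nonempty (Sylow p G) := inferInstance
  obtain ⟨t', -, hinv⟩ :=
    Cfsg.Agent.Lib.Helper79.exists_conj_invol_inverting_sylow p hpG hC hd t ht1 htt P
  have hGne : Nat.card G ≠ 0 := Nat.card_pos.ne'
  have hApos : 0 < (Nat.card G).factorization p := hp.factorization_pos_of_dvd hGne hpG
  have hPcard : Nat.card (P : Subgroup G) = p ^ (Nat.card G).factorization p :=
    P.card_eq_multiplicity
  have hpP : p ∣ Nat.card (P : Subgroup G) := by
    rw [hPcard]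
    exact dvd_pow_self p hApos.ne'
  obtain ⟨w, hw⟩ := exists_prime_orderOf_dvd_card' (G := (P : Subgroup G)) p hpP
  have hw' : orderOf (w : G) = p := by rw [Subgroup.orderOf_coe]; exact hw
  have hw1 : (w : G) ≠ 1 := by
    intro h1
    rw [h1, orderOf_one] at hw'
    exact hp.one_lt.ne hw'
  have hreal : IsConj (w : G) (w : G)⁻¹ := isConj_iff.mpr ⟨t', hinv w w.2⟩
  have heven := Cfsg.Agent.Lib.Helper79.even_centralizer_of_real_of_odd_degrees (w : G) hw1
    hreal hodd
  exact (Nat.not_even_iff_odd.mpr (hC (w : G) hw1 ⟨1, by rw [hw', pow_one]⟩)) heven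

end Cfsg.Agent.S4746
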