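import Cfsg.Statements.S4754
import Cfsg.Agent.Lib.Helper79.CharSum

set_option autoImplicit false
open Cfsg

namespace Cfsg.Agent.S4754

/-- For elements x, y of a finite group G, the conjugacy class of x y equals the set of all products of a conjugate of x with a conjugate of y if and only if χ(1) χ(a x a⁻¹ b y b⁻¹) = χ(x) χ(y) for all a, b ∈ G and every irreducible character χ. -/
theorem result {G : Type*} [Group G] [Finite G] (x y : G) : (∀ z : G, IsConj (x * y) z ↔ ∃ a b : G, z = a * x * a⁻¹ * (b * y * b⁻¹)) ↔ ∀ (a b : G) (χ : Cfsg.IrrCharacter G), (χ : G → ℂ) 1 * (χ : G → ℂ) (a * x * a⁻¹ * (b * y * b⁻¹)) = (χ : G → ℂ) x * (χ : G → ℂ) y := by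
  classical
  letI : Fintype G := Fintype.ofFinite G
  constructor
  · intro H a b χ
    have hne : (χ : G → ℂ) 1 ≠ 0 := Cfsg.Agent.Lib.Helper79.irr_one_ne_zero χ.2
    have hz : IsConj (x * y) (a * x * a⁻¹ * (b * y * b⁻¹)) := (H _).mpr ⟨a, b, rfl⟩
    rw [← Cfsg.Agent.Lib.Helper79.irr_eq_of_isConj χ.2 hz]
    have havg := Cfsg.Agent.Lib.Helper79.irr_sum_conj_mul χ.2 x y
    have hterm : ∀ g ∈ (Finset.univ : Finset G),
        (χ : G → ℂ) (g * x * g⁻¹ * y) = (χ : G → ℂ) (x * y) := by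
      intro g _
      have hc : IsConj (x * y) (g * x * g⁻¹ * y) := (H _).mpr ⟨g, 1, by group⟩
      exact (Cfsg.Agent.Lib.Helper79.irr_eq_of_isConj χ.2 hc).symm
    rw [Finset.sum_congr rfl hterm, Finset.sum_const, Finset.card_univ,
      ← Nat.card_eq_fintype_card, nsmul_eq_mul] at havg
    have hG : (Nat.card G : ℂ) ≠ 0 := by exact_mod_cast Nat.card_pos.ne'
    field_simp at havg
    linear_combination havg
  · intro K z
    constructor
    · intro hz
      rw [isConj_iff] at hz
      obtain ⟨c, rfl⟩ := hz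
      exact ⟨c, c, by group⟩
    · rintro ⟨a, b, rfl⟩
      apply Cfsg.Agent.Lib.Helper79.isConj_of_forall_irr_eq
      intro χ
      have hne : (χ : G → ℂ) 1 ≠ 0 := Cfsg.Agent.Lib.Helper79.irr_one_ne_zero χ.2
      have h1 := K a b χ
      have h2 := K 1 1 χ
      have h3 : (1 : G) * x * 1⁻¹ * (1 * y * 1⁻¹) = x * y := by group
      rw [h3] at h2
      exact mul_left_cancel₀ hne (h2.trans h1.symm)

end Cfsg.Agent.S4754
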