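import Cfsg.Statements.S4755
import Cfsg.Agent.Lib.Helper79.CharSum
import Cfsg.Agent.Lib.Helper79.Linear

set_option autoImplicit false
open Cfsg

namespace Cfsg.Agent.S4755

/-- Let x, y be non-identity elements of the finite group G such that χ(x' y') = χ(x') χ(y') for all conjugates x' of x, y' of y and every irreducible character χ. Then the conjugacy class of x y is the set of all products of a conjugate of x with a conjugate of y; every irreducible character of degree greater than 1 vanishes at x y; and the conjugacy class of x y is the coset of the commutator subgroup containing x y. -/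
theorem result {G : Type*} [Group G] [Finite G] (x y : G) (hx : x ≠ 1) (hy : y ≠ 1) (h : ∀ (a b : G) (χ : Cfsg.IrrCharacter G), (χ : G → ℂ) (a * x * a⁻¹ * (b * y * b⁻¹)) = (χ : G → ℂ) (a * x * a⁻¹) * (χ : G → ℂ) (b * y * b⁻¹)) : (∀ z : G, IsConj (x * y) z ↔ ∃ a b : G, z = a * x * a⁻¹ * (b * y * b⁻¹)) ∧ (∀ χ : Cfsg.IrrCharacter G, (χ : G → ℂ) 1 ≠ 1 → (χ : G → ℂ) (x * y) = 0) ∧ (∀ z : G, IsConj (x * y) z ↔ (x * y)⁻¹ * z ∈ commutator G) := by
  classical
  letI : Fintype G := Fintype.ofFinite G
  letI : Fintype (Cfsg.IrrCharacter G) := Fintype.ofFinite _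
  have h0 : ∀ (a b : G) (χ : Cfsg.IrrCharacter G),
      (χ : G → ℂ) (a * x * a⁻¹ * (b * y * b⁻¹)) = (χ : G → ℂ) x * (χ : G → ℂ) y := by
    intro a b χ
    rw [h a b χ, Cfsg.Agent.Lib.Helper79.irr_conj_eq χ.2, Cfsg.Agent.Lib.Helper79.irr_conj_eq χ.2]
  have h00 : ∀ χ : Cfsg.IrrCharacter G, (χ : G → ℂ) (x * y) = (χ : G → ℂ) x * (χ : G → ℂ) y := by
    intro χ
    have := h0 1 1 χ
    have h3 : (1 : G) * x * 1⁻¹ * (1 * y * 1⁻¹) = x * y := by group
    rw [h3] at this
    exact this
  have hG : (Nat.card G : ℂ) ≠ 0 := by exact_mod_cast Nat.card_pos.ne'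
  have h1 : ∀ χ : Cfsg.IrrCharacter G, (χ : G → ℂ) 1 ≠ 1 →
      (χ : G → ℂ) x * (χ : G → ℂ) y = 0 := by
    intro χ hne
    have havg := Cfsg.Agent.Lib.Helper79.irr_sum_conj_mul χ.2 x y
    have hterm : ∀ g ∈ (Finset.univ : Finset G),
        (χ : G → ℂ) (g * x * g⁻¹ * y) = (χ : G → ℂ) x * (χ : G → ℂ) y := by
      intro g _
      have := h0 g 1 χ
      have h3 : g * x * g⁻¹ * (1 * y * 1⁻¹) = g * x * g⁻¹ * y := by group
      rw [h3] at this
      exact this
    rw [Finset.sum_congr rfl hterm, Finset.sum_const, Finset.card_univ,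
      ← Nat.card_eq_fintype_card, nsmul_eq_mul] at havg
    have hne1 : (χ : G → ℂ) 1 ≠ 0 := Cfsg.Agent.Lib.Helper79.irr_one_ne_zero χ.2
    field_simp at havg
    have h4 : (χ : G → ℂ) x * (χ : G → ℂ) y * ((χ : G → ℂ) 1 - 1) = 0 := by
      linear_combination havg
    rcases mul_eq_zero.mp h4 with h5 | h5
    · exact h5
    · exact absurd (sub_eq_zero.mp h5) hne
  have h2 : ∀ χ : Cfsg.IrrCharacter G, (χ : G → ℂ) 1 ≠ 1 → (χ : G → ℂ) (x * y) = 0 := by
    intro χ hne
    rw [h00 χ]
    exact h1 χ hne
  have hsep : ∀ a b : G, IsConj (x * y) (a * x * a⁻¹ * (b * y * b⁻¹)) := by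
    intro a b
    apply Cfsg.Agent.Lib.Helper79.isConj_of_forall_irr_eq
    intro χ
    rw [h0 a b χ, h00 χ]
  have hcomm : ∀ z : G, IsConj (x * y) z → (x * y)⁻¹ * z ∈ commutator G := by
    intro z hz
    rw [isConj_iff] at hz
    obtain ⟨c, rfl⟩ := hz
    have h3 : (x * y)⁻¹ * (c * (x * y) * c⁻¹) = (x * y)⁻¹ * c * ((x * y)⁻¹)⁻¹ * c⁻¹ := by
      group
    rw [h3]
    exact Subgroup.commutator_mem_commutator (H₁ := ⊤) (H₂ := ⊤) (g₁ := (x * y)⁻¹) (g₂ := c)
      (Subgroup.mem_top _) (Subgroup.mem_top _)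
  refine ⟨?_, h2, ?_⟩
  · intro z
    constructor
    · intro hz
      rw [isConj_iff] at hz
      obtain ⟨c, rfl⟩ := hz
      exact ⟨c, c, by group⟩
    · rintro ⟨a, b, rfl⟩
      exact hsep a b
  · intro z
    refine ⟨hcomm z, ?_⟩
    set u := x * y with hu
    -- counting
    set A : Finset G := Finset.univ.filter (fun g : G => IsConj g u) with hA
    set B : Finset G := Finset.univ.filter (fun g : G => u⁻¹ * g ∈ commutator G) with hB
    have hAB : A ⊆ B := by
      intro g hg
      rw [hA, Finset.mem_filter] at hg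
      rw [hB, Finset.mem_filter]
      exact ⟨Finset.mem_univ _, hcomm g hg.2.symm⟩
    have hcardA : A.card = (Subgroup.centralizer ({u} : Set G)).index :=
      Cfsg.Agent.Lib.Helper79.card_filter_isConj u
    have hcardB : B.card = Nat.card (commutator G) := by
      rw [hB, ← Fintype.card_subtype, ← Nat.card_eq_fintype_card]
      exact Nat.card_congr (Equiv.subtypeEquiv (Equiv.mulLeft u⁻¹) (fun _ => Iff.rfl))
    -- the centralizer order is the number of linear characters
    have hcol := Cfsg.Agent.Lib.Helper79.irr_sum_mul_inv_of_isConj (IsConj.refl u)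
    have hterm : ∀ χ ∈ (Finset.univ : Finset (Cfsg.IrrCharacter G)),
        (χ : G → ℂ) u * (χ : G → ℂ) u⁻¹ = if (χ : G → ℂ) 1 = 1 then 1 else 0 := by
      intro χ _
      split_ifs with hlin
      · rw [← Cfsg.Agent.Lib.Helper79.linear_irr_mul χ.2 hlin, mul_inv_cancel, hlin]
      · rw [h2 χ hlin, zero_mul]
    rw [Finset.sum_congr rfl hterm, Finset.sum_boole] at hcol
    have hlin_le := Cfsg.Agent.Lib.Helper79.card_linear_irr_le (G := G)
    rw [Nat.card_eq_fintype_card, Fintype.card_subtype] at hlin_le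
    have hCle : Nat.card (Subgroup.centralizer ({u} : Set G)) ≤ (commutator G).index := by
      have : (Nat.card (Subgroup.centralizer ({u} : Set G)) : ℂ) =
          ((Finset.univ.filter (fun χ : Cfsg.IrrCharacter G => (χ : G → ℂ) 1 = 1)).card : ℂ) :=
        hcol.symm
      have h5 : Nat.card (Subgroup.centralizer ({u} : Set G)) =
          (Finset.univ.filter (fun χ : Cfsg.IrrCharacter G => (χ : G → ℂ) 1 = 1)).card := by
        exact_mod_cast this
      rw [h5]
      exact hlin_le
    have hmul1 := (Subgroup.centralizer ({u} : Set G)).card_mul_index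
    have hmul2 := (commutator G).card_mul_index
    have hCpos : 0 < Nat.card (Subgroup.centralizer ({u} : Set G)) := Nat.card_pos
    have hBA : B.card ≤ A.card := by
      rw [hcardA, hcardB]
      have h6 : Nat.card (commutator G) * Nat.card (Subgroup.centralizer ({u} : Set G)) ≤
          (Subgroup.centralizer ({u} : Set G)).index *
            Nat.card (Subgroup.centralizer ({u} : Set G)) := by
        calc Nat.card (commutator G) * Nat.card (Subgroup.centralizer ({u} : Set G))
            ≤ Nat.card (commutator G) * (commutator G).index :=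
              Nat.mul_le_mul_left _ hCle
          _ = Nat.card G := hmul2
          _ = (Subgroup.centralizer ({u} : Set G)).index *
                Nat.card (Subgroup.centralizer ({u} : Set G)) := by rw [← hmul1, mul_comm]
      exact Nat.le_of_mul_le_mul_right h6 hCpos
    have hEq : A = B := Finset.eq_of_subset_of_card_le hAB hBA
    intro hz
    have hzB : z ∈ B := by
      rw [hB, Finset.mem_filter]
      exact ⟨Finset.mem_univ _, hz⟩
    rw [← hEq, hA, Finset.mem_filter] at hzB
    exact hzB.2.symm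

end Cfsg.Agent.S4755
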