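import Cfsg.Statements.S4757
import Cfsg.Agent.Lib.Helper79.CharGap

set_option autoImplicit false
open Cfsg

namespace Cfsg.Agent.S4757

/-- Let u ≠ 1 be an element of the finite group G and c a complex number such that every non-principal irreducible character χ satisfies χ(1) − χ(u) = c or χ(u) = 0. Then the following are equivalent: (a) u has order 2, G is generated by u together with O(G), the largest normal subgroup of G of odd order, and the centralizer of u is {1, u}; (b) G is not perfect; (c) c = 2. -/
theorem result {G : Type*} [Group G] [Finite G] (u : G) (hu : u ≠ 1) (c : ℂ) (hyp : ∀ χ : Cfsg.IrrCharacter G, (χ : G → ℂ) ≠ (fun _ => (1 : ℂ)) → ((χ : G → ℂ) 1 - (χ : G → ℂ) u = c ∨ (χ : G → ℂ) u = 0)) : ((orderOf u = 2 ∧ Subgroup.zpowers u ⊔ Cfsg.oddCore G = ⊤ ∧ Subgroup.centralizer ({u} : Set G) = Subgroup.zpowers u) ↔ commutator G ≠ ⊤) ∧ (commutator G ≠ ⊤ ↔ c = 2) := by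
  constructor
  · constructor
    · rintro ⟨hord, htop, -⟩
      exact Cfsg.Agent.Lib.Helper79.not_perfect_of_zpowers_sup_oddCore u hord htop
    · intro hne
      have hc := Cfsg.Agent.Lib.Helper79.gap_eq_two_of_not_perfect u hu c hyp hne
      subst hc
      exact Cfsg.Agent.Lib.Helper79.gap_two_structure u hu hyp hne
  · constructor
    · exact Cfsg.Agent.Lib.Helper79.gap_eq_two_of_not_perfect u hu c hyp
    · intro hc
      subst hc
      exact Cfsg.Agent.Lib.Helper79.not_perfect_of_gap_two u hu hyp

end Cfsg.Agent.S4757
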