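import Cfsg.Statements.S4762
import Cfsg.Agent.Lib.Helper80.OneDegree

set_option autoImplicit false
open Cfsg

namespace Cfsg.Agent.S4762

/-- Let p be a prime and G a finite nilpotent group. Then G has exactly one irreducible complex character of degree divisible by p if and only if p = 2 and G is an extraspecial 2-group. -/
theorem result {G : Type*} [Group G] [Finite G] [Group.IsNilpotent G] (p : ℕ) [Fact p.Prime] : Nat.card {χ : Cfsg.IrrCharacter G // p ∣ Cfsg.charDegree (χ : G → ℂ)} = 1 ↔ (p = 2 ∧ Cfsg.IsExtraspecial 2 G) := by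
  constructor
  · intro h
    exact Cfsg.Agent.Lib.Helper80.extraspecial_of_unique_dvd p h
  · rintro ⟨rfl, h⟩
    exact Cfsg.Agent.Lib.Helper80.unique_dvd_of_extraspecial h

end Cfsg.Agent.S4762
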