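import Cfsg.Statements.S4765
import Cfsg.Agent.Lib.Helper39.SL2Deg
import Cfsg.Agent.S2331

set_option autoImplicit false
open Cfsg

namespace Cfsg.Agent.S4765

/-- Let F be a finite field of characteristic p with at least 4 elements. Then PSL(2,F) has exactly one irreducible complex character of degree divisible by p, and its degree is the order of F. -/
theorem result (p : ℕ) [Fact p.Prime] (F : Type*) [Field F] [Fintype F] [CharP F p] (hF : 4 ≤ Fintype.card F) : Nat.card {χ : Cfsg.IrrCharacter (Matrix.ProjectiveSpecialLinearGroup (Fin 2) F) // p ∣ Cfsg.charDegree (χ : Matrix.ProjectiveSpecialLinearGroup (Fin 2) F → ℂ)} = 1 ∧ ∀ χ : Cfsg.IrrCharacter (Matrix.ProjectiveSpecialLinearGroup (Fin 2) F), p ∣ Cfsg.charDegree (χ : Matrix.ProjectiveSpecialLinearGroup (Fin 2) F → ℂ) → Cfsg.charDegree (χ : Matrix.ProjectiveSpecialLinearGroup (Fin 2) F → ℂ) = Fintype.card F := by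
  classical
  have hcls : ringChar F = 2 →
      Nat.card (ConjClasses (Matrix.SpecialLinearGroup (Fin 2) F)) = Fintype.card F + 1 := by
    intro h2
    haveI : CharP F 2 := by
      rw [← h2]
      exact ringChar.charP F
    exact Cfsg.Agent.S2331.result
  obtain ⟨St, hSt, dSt, hStz, hall⟩ := Cfsg.Agent.Lib.Helper39.sl2_degree_q_unique hF hcls
  obtain ⟨n, hp, hqn⟩ := FiniteField.card F p
  have hpq : p ∣ Fintype.card F := by
    rw [hqn]
    exact dvd_pow_self p n.pos.ne'
  have hp2 : 2 ≤ p := hp.two_le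
  have key : ∀ χ : Matrix.SpecialLinearGroup (Fin 2) F → ℂ,
      Cfsg.IsIrrCharacter (Matrix.SpecialLinearGroup (Fin 2) F) χ →
      p ∣ Cfsg.charDegree χ → χ = St := by
    intro χ hχ hdvd
    rcases hall χ hχ with h | h | h | h | h | h
    · exact h
    · exfalso
      rw [h] at hdvd
      have := Nat.le_of_dvd one_pos hdvd
      omega
    · exfalso
      rw [h] at hdvd
      have h3 := (Nat.dvd_add_right hpq).mp hdvd
      have := Nat.le_of_dvd one_pos h3
      omega
    · exfalso
      rw [← h] at hpq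
      have h3 := (Nat.dvd_add_right hdvd).mp hpq
      have := Nat.le_of_dvd one_pos h3
      omega
    · exfalso
      have h3 : p ∣ Fintype.card F + 1 := by
        rw [← h]
        exact Dvd.dvd.mul_left hdvd 2
      have h4 := (Nat.dvd_add_right hpq).mp h3
      have := Nat.le_of_dvd one_pos h4
      omega
    · exfalso
      have h3 : p ∣ 2 * Cfsg.charDegree χ := Dvd.dvd.mul_left hdvd 2
      rw [← h] at hpq
      have h4 := (Nat.dvd_add_right h3).mp hpq
      have := Nat.le_of_dvd one_pos h4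
      omega
  have hdegE : ∀ ψ : Cfsg.IrrCharacter (Matrix.ProjectiveSpecialLinearGroup (Fin 2) F),
      Cfsg.charDegree (ψ : Matrix.ProjectiveSpecialLinearGroup (Fin 2) F → ℂ) =
      Cfsg.charDegree (((Cfsg.Agent.Lib.Helper80.irrQuotientEquiv
        (Subgroup.center (Matrix.SpecialLinearGroup (Fin 2) F)) ψ :
          Cfsg.IrrCharacter (Matrix.SpecialLinearGroup (Fin 2) F)) :
            Matrix.SpecialLinearGroup (Fin 2) F → ℂ)) := by
    intro ψ
    rfl
  have huniq : ∀ ψ : Cfsg.IrrCharacter (Matrix.ProjectiveSpecialLinearGroup (Fin 2) F),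
      p ∣ Cfsg.charDegree (ψ : Matrix.ProjectiveSpecialLinearGroup (Fin 2) F → ℂ) →
      ψ = (Cfsg.Agent.Lib.Helper80.irrQuotientEquiv
        (Subgroup.center (Matrix.SpecialLinearGroup (Fin 2) F))).symm ⟨⟨St, hSt⟩, hStz⟩ := by
    intro ψ hψ
    rw [hdegE] at hψ
    have h1 := key _ ((Cfsg.Agent.Lib.Helper80.irrQuotientEquiv
        (Subgroup.center (Matrix.SpecialLinearGroup (Fin 2) F))) ψ).1.2 hψ
    apply (Cfsg.Agent.Lib.Helper80.irrQuotientEquiv
        (Subgroup.center (Matrix.SpecialLinearGroup (Fin 2) F))).injective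
    rw [Equiv.apply_symm_apply]
    exact Subtype.ext (Subtype.ext h1)
  have hdeg₀ : Cfsg.charDegree (((Cfsg.Agent.Lib.Helper80.irrQuotientEquiv
        (Subgroup.center (Matrix.SpecialLinearGroup (Fin 2) F))).symm ⟨⟨St, hSt⟩, hStz⟩ :
        Cfsg.IrrCharacter (Matrix.ProjectiveSpecialLinearGroup (Fin 2) F)) :
          Matrix.ProjectiveSpecialLinearGroup (Fin 2) F → ℂ) = Fintype.card F := by
    rw [hdegE, Equiv.apply_symm_apply]
    exact dSt
  constructor
  · rw [Nat.card_eq_one_iff_exists]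
    exact ⟨⟨_, by rw [hdeg₀]; exact hpq⟩, fun y => Subtype.ext (huniq y.1 y.2)⟩
  · intro ψ hψ
    rw [huniq ψ hψ]
    exact hdeg₀

end Cfsg.Agent.S4765
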