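import Cfsg.Statements.S4774
import Cfsg.Agent.Lib.Helper39.SL2DegGraph

set_option autoImplicit false
open Cfsg

namespace Cfsg.Agent.S4774

/-- Let F be a finite field of odd characteristic t with q > 5 elements and let S be isomorphic to PSL(2,F) or to SL(2,F). Then the vertices of the character degree graph of S are the primes dividing q(q²−1); the prime t is adjacent to no vertex; two distinct primes dividing q² − 1 are adjacent exactly when one of them is 2, or both divide q + 1, or both divide q − 1. -/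
theorem result (F : Type*) [Field F] [Fintype F] (t : ℕ) [Fact t.Prime] [CharP F t] (ht : t ≠ 2) (q : ℕ) (hq : Fintype.card F = q) (h5 : 5 < q) {S : Type*} [Group S] [Finite S] (hS : Nonempty (S ≃* Matrix.ProjectiveSpecialLinearGroup (Fin 2) F) ∨ Nonempty (S ≃* Matrix.SpecialLinearGroup (Fin 2) F)) : Cfsg.degreePrimes S = {r : ℕ | r.Prime ∧ r ∣ q * (q ^ 2 - 1)} ∧ ∀ r s : ℕ, (Cfsg.degreeGraph S).Adj r s ↔ (r ≠ s ∧ r.Prime ∧ s.Prime ∧ r ∣ q ^ 2 - 1 ∧ s ∣ q ^ 2 - 1 ∧ (r = 2 ∨ s = 2 ∨ (r ∣ q + 1 ∧ s ∣ q + 1) ∨ (r ∣ q - 1 ∧ s ∣ q - 1))) := by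
  classical
  subst hq
  have hrc : ringChar F = t := ringChar.eq F t
  have hcls : ringChar F = 2 →
      Nat.card (ConjClasses (Matrix.SpecialLinearGroup (Fin 2) F)) = Fintype.card F + 1 :=
    fun h => absurd (hrc.symm.trans h) ht
  have hodd' := FiniteField.odd_card_of_char_ne_two (F := F) (by rw [hrc]; exact ht)
  obtain ⟨h1, h2, h3, hsub⟩ :=
    Cfsg.Agent.Lib.Helper39.sl2_psl2_charDegrees (by omega) (by omega) hcls hS
  obtain ⟨n, hp, hqn⟩ := FiniteField.card F t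
  obtain ⟨hV, hA⟩ := Cfsg.Agent.Lib.Helper39.degreeGraph_of_degrees (Fintype.card F) t n hp hqn
    h1 h2 h3 hsub
  refine ⟨hV, fun r s => ?_⟩
  rw [hA]
  have hsq : Fintype.card F ^ 2 - 1 = (Fintype.card F + 1) * (Fintype.card F - 1) := by
    have h := Nat.sq_sub_sq (Fintype.card F) 1
    rwa [one_pow] at h
  have h2p : 2 ∣ Fintype.card F + 1 := by omega
  have h2m : 2 ∣ Fintype.card F - 1 := by omega
  constructor
  · rintro ⟨hne, hr, hs, h | h⟩
    · exact ⟨hne, hr, hs, by rw [hsq]; exact Dvd.dvd.mul_right h.1 _,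
        by rw [hsq]; exact Dvd.dvd.mul_right h.2 _, Or.inr (Or.inr (Or.inl h))⟩
    · exact ⟨hne, hr, hs, by rw [hsq]; exact Dvd.dvd.mul_left h.1 _,
        by rw [hsq]; exact Dvd.dvd.mul_left h.2 _, Or.inr (Or.inr (Or.inr h))⟩
  · rintro ⟨hne, hr, hs, hrq, hsq', h | h | h | h⟩
    · subst h
      rw [hsq] at hsq'
      rcases (Nat.Prime.dvd_mul hs).mp hsq' with h' | h'
      · exact ⟨hne, hr, hs, Or.inl ⟨h2p, h'⟩⟩
      · exact ⟨hne, hr, hs, Or.inr ⟨h2m, h'⟩⟩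
    · subst h
      rw [hsq] at hrq
      rcases (Nat.Prime.dvd_mul hr).mp hrq with h' | h'
      · exact ⟨hne, hr, hs, Or.inl ⟨h', h2p⟩⟩
      · exact ⟨hne, hr, hs, Or.inr ⟨h', h2m⟩⟩
    · exact ⟨hne, hr, hs, Or.inl h⟩
    · exact ⟨hne, hr, hs, Or.inr h⟩

end Cfsg.Agent.S4774
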