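import Cfsg.Statements.S4784
import Cfsg.Agent.S4476
import Cfsg.Agent.S0161
import Cfsg.Agent.Lib.Helper74.CharSums
import Cfsg.Agent.Lib.Helper75.CharInd
import Cfsg.Agent.Lib.Helper80.CharKer

set_option autoImplicit false
open Cfsg

namespace Cfsg.Agent.S4784

open Cfsg.Agent.Lib.Helper3 Cfsg.Agent.Lib.Helper74 Cfsg.Agent.Lib.Helper75 Cfsg.Agent.S4476
open scoped ComplexConjugate

variable {G : Type*} [Group G] [Fintype G]

/-- The indicator takes the values `1`, `-1`, `0`. -/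
theorem ind_cases (χ : Cfsg.IrrCharacter G) : ind χ = 1 ∨ ind χ = -1 ∨ ind χ = 0 := by
  classical
  unfold ind
  split_ifs <;> simp

/-- `∑ ν(χ) ⟨(1_H)^G, χ⟩ = #{u : u² ∈ H} / |H|`. -/
theorem sum_ind_mul (H : Subgroup G) [Fintype H] [DecidableEq G]
    [Fintype (Cfsg.IrrCharacter G)] :
    ∑ χ : Cfsg.IrrCharacter G, ((ind χ : ℤ) : ℂ) *
        Cfsg.classInner (Cfsg.indFun H (fun _ : H => (1 : ℂ))) (χ : G → ℂ)
      = (Nat.card H : ℂ)⁻¹ * (Nat.card {u : G // u * u ∈ H} : ℂ) := by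
  classical
  have hcardeq : Nat.card {u : G // u * u ∈ H}
      = (Finset.univ.filter (fun u : G => u * u ∈ H)).card := by
    rw [Nat.card_eq_fintype_card, Fintype.card_subtype]
  rw [hcardeq]
  have hfr : ∀ χ : Cfsg.IrrCharacter G,
      Cfsg.classInner (Cfsg.indFun H (fun _ : H => (1 : ℂ))) (χ : G → ℂ)
        = (Nat.card H : ℂ)⁻¹ * ∑ h : H, conj ((χ : G → ℂ) h) := by
    intro χ
    rw [frobenius_reciprocity H _ (isClassFunction_of_isCharacter (isCharacter_of_irr χ.2))]
    unfold Cfsg.classInner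
    simp
  have h1 : ∀ h : G, ∑ χ : Cfsg.IrrCharacter G, ((ind χ : ℤ) : ℂ) * conj ((χ : G → ℂ) h)
      = ∑ u : G, if u * u = h then (1 : ℂ) else 0 := by
    intro h
    have h2 := sqrtCount_eq (G := G) h
    have h3 : conj (∑ u : G, if u * u = h then (1 : ℂ) else 0)
        = ∑ u : G, if u * u = h then (1 : ℂ) else 0 := by
      rw [map_sum]
      refine Finset.sum_congr rfl (fun u _ => ?_)
      split_ifs <;> simp
    rw [← h3, h2, map_sum]
    refine Finset.sum_congr rfl (fun χ _ => ?_)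
    rw [map_mul, ← ind_cast χ]
    simp
  have h4 : ∀ χ : Cfsg.IrrCharacter G, ((ind χ : ℤ) : ℂ) *
      ((Nat.card H : ℂ)⁻¹ * ∑ h : H, conj ((χ : G → ℂ) h))
        = (Nat.card H : ℂ)⁻¹ * ∑ h : H, ((ind χ : ℤ) : ℂ) * conj ((χ : G → ℂ) h) := by
    intro χ
    rw [mul_left_comm, Finset.mul_sum]
  simp_rw [hfr, h4]
  rw [← Finset.mul_sum, Finset.sum_comm]
  congr 1
  simp_rw [h1]
  rw [Finset.sum_comm, Finset.card_filter]
  push_cast
  refine Finset.sum_congr rfl (fun u _ => ?_)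
  by_cases hu : u * u ∈ H
  · rw [if_pos hu, Finset.sum_eq_single (⟨u * u, hu⟩ : H)]
    · simp
    · intro b _ hb
      rw [if_neg]
      intro h
      exact hb (Subtype.ext h.symm)
    · intro h
      exact absurd (Finset.mem_univ _) h
  · rw [if_neg hu]
    apply Finset.sum_eq_zero
    intro b _
    rw [if_neg]
    intro h
    exact hu (h ▸ b.2)

/-- A complex number of norm at most `d` and real part `d` equals `d`. -/
theorem eq_of_re_eq_of_norm_le {z : ℂ} {d : ℝ} (hre : z.re = d) (hn : ‖z‖ ≤ d) : z = (d : ℂ) := by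
  have h0 : 0 ≤ d := le_trans (norm_nonneg z) hn
  have h1 : ‖z‖ ^ 2 ≤ d ^ 2 := pow_le_pow_left₀ (norm_nonneg z) hn 2
  rw [← Complex.normSq_eq_norm_sq, Complex.normSq_apply, hre] at h1
  have h2 : z.im = 0 := by nlinarith
  apply Complex.ext
  · simpa using hre
  · simpa using h2

/-- The constituents of `(1_H)^G` have the normal core of `H` in their kernel. -/
theorem constituent_core (H : Subgroup G) [Fintype H] [Fintype (Cfsg.IrrCharacter G)]
    (χ : Cfsg.IrrCharacter G)
    (hχ : Cfsg.classInner (Cfsg.indFun H (fun _ : H => (1 : ℂ))) (χ : G → ℂ) ≠ 0)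
    (x : G) (hx : x ∈ H.normalCore) : (χ : G → ℂ) x = (χ : G → ℂ) 1 := by
  classical
  set π : G → ℂ := Cfsg.indFun H (fun _ : H => (1 : ℂ)) with hπ
  have hπc : Cfsg.IsCharacter G π := isCharacter_indFun H (isCharacter_of_irr isIrrCharacter_one)
  obtain ⟨m, hm, hsum⟩ := char_eq_sum_irr hπc
  have hπx : π x = π 1 := by
    simp only [hπ]
    unfold Cfsg.indFun
    congr 1
    refine Finset.sum_congr rfl (fun y _ => ?_)
    have h1 : y⁻¹ * x * y ∈ H := by
      have := H.normalCore_normal.conj_mem x hx y⁻¹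
      rw [inv_inv] at this
      exact H.normalCore_le this
    have h2 : y⁻¹ * 1 * y ∈ H := by simp
    rw [extendByZero_mem H _ h1, extendByZero_mem H _ h2]
  have hx' := congrFun hsum x
  have h1' := congrFun hsum 1
  simp only [Finset.sum_apply, Pi.smul_apply, smul_eq_mul] at hx' h1'
  have hdeg : ∀ ψ : Cfsg.IrrCharacter G, (ψ : G → ℂ) 1 = (Cfsg.charDegree (ψ : G → ℂ) : ℂ) :=
    fun ψ => (irr_charDegree ψ).2
  have hnorm : ∀ ψ : Cfsg.IrrCharacter G, ‖(ψ : G → ℂ) x‖ ≤ (Cfsg.charDegree (ψ : G → ℂ) : ℝ) :=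
    fun ψ => Cfsg.Agent.Lib.Helper80.norm_char_le_charDegree (isCharacter_of_irr ψ.2) x
  have hzero : ∑ ψ : Cfsg.IrrCharacter G,
      (m ψ : ℝ) * ((Cfsg.charDegree (ψ : G → ℂ) : ℝ) - ((ψ : G → ℂ) x).re) = 0 := by
    have h3 : ∑ ψ : Cfsg.IrrCharacter G, (m ψ : ℂ) * ((ψ : G → ℂ) 1 - (ψ : G → ℂ) x) = 0 := by
      simp_rw [mul_sub]
      rw [Finset.sum_sub_distrib, ← hx', ← h1', hπx, sub_self]
    have h4 := congrArg Complex.re h3
    rw [Complex.re_sum, Complex.zero_re] at h4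
    rw [← h4]
    refine Finset.sum_congr rfl (fun ψ _ => ?_)
    rw [hdeg ψ]
    simp
  have hterm := (Finset.sum_eq_zero_iff_of_nonneg (fun ψ _ => by
    have h5 : ((ψ : G → ℂ) x).re ≤ (Cfsg.charDegree (ψ : G → ℂ) : ℝ) :=
      le_trans (Complex.re_le_norm _) (hnorm ψ)
    have h6 : (0 : ℝ) ≤ (m ψ : ℝ) := Nat.cast_nonneg _
    exact mul_nonneg h6 (by linarith))).1 hzero χ (Finset.mem_univ χ)
  have hmχ : (m χ : ℝ) ≠ 0 := by
    have : m χ ≠ 0 := by
      intro h0
      apply hχ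
      rw [hm χ, h0]
      simp
    exact_mod_cast this
  have hre : ((χ : G → ℂ) x).re = (Cfsg.charDegree (χ : G → ℂ) : ℝ) := by
    rcases mul_eq_zero.1 hterm with h | h
    · exact absurd h hmχ
    · linarith
  rw [eq_of_re_eq_of_norm_le hre (hnorm χ), hdeg χ]
  simp

/-- `(1_H)^G` has a unique real constituent of `+` type iff `[G : core_G(H)]` is odd. -/
theorem result {G : Type*} [Group G] [Fintype G] (H : Subgroup G) : Nat.card {χ : Cfsg.IrrCharacter G // Cfsg.classInner (Cfsg.indFun H (fun _ : H => (1 : ℂ))) (χ : G → ℂ) ≠ 0 ∧ (∀ g : G, (starRingEnd ℂ) ((χ : G → ℂ) g) = (χ : G → ℂ) g) ∧ (Nat.card G : ℂ)⁻¹ * ∑ g : G, (χ : G → ℂ) (g * g) = 1} = 1 ↔ Odd H.normalCore.index := by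
  classical
  have := Fintype.ofFinite H
  have := Fintype.ofFinite (Cfsg.IrrCharacter G)
  set π : G → ℂ := Cfsg.indFun H (fun _ : H => (1 : ℂ)) with hπ
  have hπc : Cfsg.IsCharacter G π := isCharacter_indFun H (isCharacter_of_irr isIrrCharacter_one)
  obtain ⟨m, hm, -⟩ := char_eq_sum_irr hπc
  have hG : (Nat.card G : ℂ) ≠ 0 := card_ne_zero'
  have hHne : (Nat.card H : ℂ) ≠ 0 := by
    have : Nat.card H ≠ 0 := Nat.card_pos.ne'
    exact_mod_cast this
  have hm1 : m (irrOne G) = 1 := by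
    have h1 := hm (irrOne G)
    rw [hπ, frobenius_reciprocity H _
      (isClassFunction_of_isCharacter (isCharacter_of_irr (irrOne G).2))] at h1
    have h2 : Cfsg.classInner (fun _ : H => (1 : ℂ)) (fun h : H => (irrOne G : G → ℂ) h) = 1 :=
      classInner_irr_self (isIrrCharacter_one (G := H))
    rw [h2] at h1
    exact_mod_cast h1.symm
  have hν1 : (Nat.card G : ℂ)⁻¹ * ∑ g : G, (irrOne G : G → ℂ) (g * g) = 1 := by
    simp only [irrOne_apply, Finset.sum_const, Finset.card_univ, nsmul_eq_mul, mul_one]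
    rw [← Nat.card_eq_fintype_card]
    field_simp
  have hone_mem : Cfsg.classInner π ((irrOne G : Cfsg.IrrCharacter G) : G → ℂ) ≠ 0 ∧
      (∀ g : G, (starRingEnd ℂ) ((irrOne G : G → ℂ) g) = (irrOne G : G → ℂ) g) ∧
      (Nat.card G : ℂ)⁻¹ * ∑ g : G, (irrOne G : G → ℂ) (g * g) = 1 := by
    refine ⟨?_, fun g => by simp [irrOne_apply], hν1⟩
    rw [hm, hm1]
    simp
  have hind1 : ind (irrOne G) = 1 := by
    have h1 := ind_cast (irrOne G)
    rw [hν1] at h1
    exact_mod_cast h1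
  constructor
  · intro hcard
    rw [Nat.card_eq_one_iff_unique] at hcard
    obtain ⟨hsub, -⟩ := hcard
    have hS : ∀ χ : Cfsg.IrrCharacter G, Cfsg.classInner π (χ : G → ℂ) ≠ 0 →
        (Nat.card G : ℂ)⁻¹ * ∑ g : G, (χ : G → ℂ) (g * g) = 1 → χ = irrOne G := by
      intro χ h1 h2
      have hreal : ∀ g : G, (starRingEnd ℂ) ((χ : G → ℂ) g) = (χ : G → ℂ) g := by
        by_contra hnr
        have h3 := (irr_fs χ).2 (fun hr => hnr (fun g => Complex.conj_eq_iff_im.2 (hr g)))
        rw [h3] at h2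
        exact zero_ne_one h2
      have := hsub.elim ⟨χ, h1, hreal, h2⟩ ⟨irrOne G, hone_mem⟩
      exact congrArg Subtype.val this
    have hle : ∀ χ : Cfsg.IrrCharacter G,
        ind χ * (m χ : ℤ) ≤ if χ = irrOne G then 1 else 0 := by
      intro χ
      by_cases hχ : χ = irrOne G
      · rw [if_pos hχ, hχ, hm1, hind1]
        simp
      · rw [if_neg hχ]
        by_cases hm0 : m χ = 0
        · simp [hm0]
        · have hne : Cfsg.classInner π (χ : G → ℂ) ≠ 0 := by
            rw [hm]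
            exact_mod_cast hm0
          have hind : ind χ ≠ 1 := by
            intro h1
            apply hχ
            apply hS χ hne
            rw [← ind_cast, h1]
            simp
          have hind_le : ind χ ≤ 0 := by
            rcases ind_cases χ with h | h | h
            · exact absurd h hind
            · rw [h]; norm_num
            · rw [h]
          exact mul_nonpos_of_nonpos_of_nonneg hind_le (Int.natCast_nonneg _)
    have hsumle : ∑ χ : Cfsg.IrrCharacter G, ind χ * (m χ : ℤ) ≤ 1 := by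
      calc ∑ χ : Cfsg.IrrCharacter G, ind χ * (m χ : ℤ)
          ≤ ∑ χ : Cfsg.IrrCharacter G, (if χ = irrOne G then (1 : ℤ) else 0) :=
            Finset.sum_le_sum (fun χ _ => hle χ)
        _ = 1 := by simp
    have hI := sum_ind_mul (G := G) H
    have hI' : ((∑ χ : Cfsg.IrrCharacter G, ind χ * (m χ : ℤ) : ℤ) : ℂ)
        = (Nat.card H : ℂ)⁻¹ * (Nat.card {u : G // u * u ∈ H} : ℂ) := by
      rw [← hI]
      push_cast
      refine Finset.sum_congr rfl (fun χ _ => ?_)
      rw [← hπ, hm χ]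
    have hcle : Nat.card {u : G // u * u ∈ H} ≤ Nat.card H := by
      have h1 : ((Nat.card {u : G // u * u ∈ H} : ℤ) : ℂ)
          = (((Nat.card H : ℤ) * ∑ χ : Cfsg.IrrCharacter G, ind χ * (m χ : ℤ) : ℤ) : ℂ) := by
        rw [Int.cast_mul, hI']
        push_cast
        field_simp
      have h2 : (Nat.card {u : G // u * u ∈ H} : ℤ)
          = (Nat.card H : ℤ) * ∑ χ : Cfsg.IrrCharacter G, ind χ * (m χ : ℤ) := by
        exact_mod_cast h1
      have h3 : (Nat.card {u : G // u * u ∈ H} : ℤ) ≤ (Nat.card H : ℤ) := by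
        rw [h2]
        have : (0 : ℤ) ≤ (Nat.card H : ℤ) := Int.natCast_nonneg _
        nlinarith
      exact_mod_cast h3
    have hbij : Function.Bijective (fun h : H => (⟨(h : G), H.mul_mem h.2 h.2⟩ :
        {u : G // u * u ∈ H})) :=
      Function.Injective.bijective_of_nat_card_le
        (fun a b hab => Subtype.ext (congrArg (fun u : {u : G // u * u ∈ H} => (u : G)) hab)) hcle
    by_contra hnotodd
    rw [Nat.not_odd_iff_even] at hnotodd
    have h2dvd : 2 ∣ Nat.card (G ⧸ H.normalCore) := even_iff_two_dvd.1 hnotodd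
    obtain ⟨q, hq⟩ := exists_prime_orderOf_dvd_card' 2 h2dvd
    obtain ⟨g, rfl⟩ := QuotientGroup.mk_surjective q
    have hgK : g ∉ H.normalCore := by
      intro h
      have h1 : (QuotientGroup.mk g : G ⧸ H.normalCore) = 1 := (QuotientGroup.eq_one_iff g).2 h
      rw [h1, orderOf_one] at hq
      omega
    have hg2 : g * g ∈ H.normalCore := by
      have h1 : (QuotientGroup.mk g : G ⧸ H.normalCore) ^ 2 = 1 := by
        rw [← hq]
        exact pow_orderOf_eq_one _
      rw [← QuotientGroup.mk_pow, QuotientGroup.eq_one_iff, pow_two] at h1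
      exact h1
    have hex : ∃ b : G, b * g * b⁻¹ ∉ H := by
      by_contra hall
      push Not at hall
      exact hgK hall
    obtain ⟨b, hb⟩ := hex
    have hu : (b * g * b⁻¹) * (b * g * b⁻¹) ∈ H := by
      have h1 : (b * g * b⁻¹) * (b * g * b⁻¹) = b * (g * g) * b⁻¹ := by group
      rw [h1]
      exact H.normalCore_le (H.normalCore_normal.conj_mem _ hg2 b)
    obtain ⟨h, hh⟩ := hbij.2 ⟨b * g * b⁻¹, hu⟩
    have hmem : (h : G) = b * g * b⁻¹ := congrArg Subtype.val hh
    exact hb (hmem ▸ h.2)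
  · intro hodd
    rw [Nat.card_eq_one_iff_unique]
    have hall : ∀ χ : Cfsg.IrrCharacter G, Cfsg.classInner π (χ : G → ℂ) ≠ 0 →
        (∀ g : G, (starRingEnd ℂ) ((χ : G → ℂ) g) = (χ : G → ℂ) g) → χ = irrOne G := by
      intro χ h1 hreal
      have hker : ∀ x ∈ H.normalCore, (χ : G → ℂ) x = (χ : G → ℂ) 1 :=
        fun x hx => constituent_core H χ h1 x hx
      obtain ⟨ψ, hψ, hψχ⟩ :=
        Cfsg.Agent.Lib.Helper80.exists_isIrrCharacter_deflate H.normalCore χ.2 hker
      have hoddq : Odd (Nat.card (G ⧸ H.normalCore)) := hodd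
      have h2 := Cfsg.Agent.S0161.result hoddq ⟨ψ, hψ⟩ (fun q => by
        obtain ⟨g, rfl⟩ := QuotientGroup.mk_surjective q
        change (ψ (g : G ⧸ H.normalCore)).im = 0
        rw [hψχ]
        exact Complex.conj_eq_iff_im.1 (hreal g))
      apply Subtype.ext
      funext g
      rw [← hψχ g]
      exact congrFun h2 _
    refine ⟨⟨?_⟩, ⟨⟨irrOne G, hone_mem⟩⟩⟩
    intro a b
    exact Subtype.ext ((hall a.1 a.2.1 a.2.2.1).trans (hall b.1 b.2.1 b.2.2.1).symm)

end Cfsg.Agent.S4784
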