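import Cfsg.Statements.S4797
import Cfsg.Agent.Lib.Helper80.PrimeCodeg

set_option autoImplicit false
open Cfsg

namespace Cfsg.Agent.S4797

open Cfsg.Agent.Lib.Helper80

/-- The codegree of an irreducible complex character χ of a finite group G is [G : ker χ] / χ(1), where ker χ is the set of elements at which χ takes the value χ(1). A non-trivial finite group is perfect if and only if no irreducible complex character of it has prime codegree. -/
theorem result {G : Type*} [Group G] [Finite G] [Nontrivial G] : commutator G = ⊤ ↔ ∀ χ : Cfsg.IrrCharacter G, ¬ ((Nat.card G / (Nat.card {g : G // (χ : G → ℂ) g = (χ : G → ℂ) 1} * Cfsg.charDegree (χ : G → ℂ)))).Prime := by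
  constructor
  · intro hperf χ hprime
    obtain ⟨N, hN, hmem⟩ := exists_ker_subgroup (isCharacter_of_isIrrCharacter χ.2)
    obtain ⟨ψ, hψ, hψχ⟩ := exists_isIrrCharacter_deflate N χ.2 (fun x hx => (hmem x).mp hx)
    have hdeg : Cfsg.charDegree ψ = Cfsg.charDegree (χ : G → ℂ) := by
      unfold Cfsg.charDegree
      have : ψ 1 = (χ : G → ℂ) 1 := hψχ 1
      rw [this]
    have hcardker : Nat.card {g : G // (χ : G → ℂ) g = (χ : G → ℂ) 1} = Nat.card N :=
      Nat.card_congr (Equiv.subtypeEquivRight (fun g => (hmem g).symm))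
    have hdvd := card_ker_mul_charDegree_dvd χ.2
    rw [hcardker] at hdvd hprime
    set d := Cfsg.charDegree (χ : G → ℂ) with hd
    set p := Nat.card G / (Nat.card N * d) with hp
    have h1 : Nat.card G = p * (Nat.card N * d) := (Nat.div_mul_cancel hdvd).symm
    have h2 : Nat.card (G ⧸ N) = p * d := by
      have h3 := Subgroup.card_mul_index N
      have h4 : Nat.card (G ⧸ N) = N.index := rfl
      rw [h4]
      have h5 : Nat.card N * N.index = Nat.card N * (p * d) := by
        rw [h3, h1]; ring
      exact Nat.eq_of_mul_eq_mul_left Nat.card_pos h5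
    have hd0 : 0 < d := charDegree_pos χ.2
    have h3 : d ^ 2 ≤ Nat.card (G ⧸ N) := by
      have := charDegree_sq_le_card hψ
      rwa [hdeg] at this
    have hdp : d ≤ p := by
      rw [h2, sq] at h3
      exact Nat.le_of_mul_le_mul_right h3 hd0
    have hperf' : commutator (G ⧸ N) = ⊤ := by
      have h6 : (commutator G).map (QuotientGroup.mk' N) = commutator (G ⧸ N) := by
        rw [commutator_def, commutator_def, Subgroup.map_commutator,
          Subgroup.map_top_of_surjective _ (QuotientGroup.mk'_surjective N)]
      rw [← h6, hperf, Subgroup.map_top_of_surjective _ (QuotientGroup.mk'_surjective N)]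
    have : Fact p.Prime := ⟨hprime⟩
    rcases lt_or_eq_of_le hdp with hlt | heq
    · exact not_perfect_of_card h2 hd0 hlt hperf'
    · have h7 : Nat.card (G ⧸ N) = p ^ 2 := by rw [h2, heq, sq]
      have hcomm := IsPGroup.isMulCommutative_of_card_eq_prime_sq h7
      let _ : CommGroup (G ⧸ N) := { (inferInstance : Group (G ⧸ N)) with
        mul_comm := fun a b => hcomm.is_comm.comm a b }
      have hker : commutator (G ⧸ N) ≤ (MonoidHom.id (G ⧸ N)).ker :=
        Abelianization.commutator_subset_ker _
      rw [hperf', MonoidHom.ker_id, top_le_iff] at hker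
      have h8 : Nat.card (G ⧸ N) = 1 := by
        have := Subgroup.card_top (G := G ⧸ N)
        rw [← hker, Subgroup.card_bot] at this
        exact this.symm
      rw [h7] at h8
      have := hprime.one_lt
      have h9 : 1 < p ^ 2 := Nat.one_lt_pow (by norm_num) this
      omega
  · intro h
    by_contra hne
    obtain ⟨M, hMn, hMp, hle⟩ := exists_normal_prime_index hne
    have hcomm : IsMulCommutative (G ⧸ M) :=
      Subgroup.Normal.quotient_commutative_iff_commutator_le.mpr hle
    let _ : CommGroup (G ⧸ M) := { (inferInstance : Group (G ⧸ M)) with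
      mul_comm := fun a b => hcomm.is_comm.comm a b }
    have hMtop : M ≠ ⊤ := by
      intro htop
      rw [htop, Subgroup.index_top] at hMp
      exact Nat.not_prime_one hMp
    obtain ⟨g0, hg0⟩ : ∃ g : G, g ∉ M := by
      by_contra hcon
      exact hMtop ((Subgroup.eq_top_iff' M).mpr fun g => by
        by_contra hg
        exact hcon ⟨g, hg⟩)
    have ha : (g0 : G ⧸ M) ≠ 1 := fun h1 => hg0 ((QuotientGroup.eq_one_iff g0).mp h1)
    obtain ⟨φ, hφ⟩ := CommGroup.exists_apply_ne_one_of_hasEnoughRootsOfUnity (G ⧸ M) ℂ ha
    let lam : G →* ℂˣ := φ.comp (QuotientGroup.mk' M)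
    have hMker : M ≤ lam.ker := by
      intro m hm
      rw [MonoidHom.mem_ker]
      change φ (m : G ⧸ M) = 1
      rw [(QuotientGroup.eq_one_iff m).mpr hm, map_one]
    have hkertop : lam.ker ≠ ⊤ := by
      intro htop
      have : g0 ∈ lam.ker := by rw [htop]; trivial
      exact hφ (MonoidHom.mem_ker.mp this)
    have hidx : lam.ker.index = M.index := by
      have h1 : lam.ker.index ∣ M.index := Subgroup.index_dvd_of_le hMker
      rcases (Nat.dvd_prime hMp).mp h1 with h2 | h2
      · exact absurd (Subgroup.index_eq_one.mp h2) hkertop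
      · exact h2
    let χ : Cfsg.IrrCharacter G := ⟨fun g => ((lam g : ℂˣ) : ℂ), isIrrCharacter_of_hom lam⟩
    have hcardker : Nat.card {g : G // (χ : G → ℂ) g = (χ : G → ℂ) 1} = Nat.card lam.ker := by
      apply Nat.card_congr
      refine Equiv.subtypeEquivRight (fun g => ?_)
      change ((lam g : ℂˣ) : ℂ) = ((lam 1 : ℂˣ) : ℂ) ↔ g ∈ lam.ker
      rw [map_one, Units.val_one, Units.val_eq_one, MonoidHom.mem_ker]
    have hdeg : Cfsg.charDegree (χ : G → ℂ) = 1 := charDegree_of_hom lam
    have hcod := h χ
    rw [hcardker, hdeg, mul_one] at hcod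
    have h3 := Subgroup.card_mul_index lam.ker
    have h4 : Nat.card G / Nat.card lam.ker = lam.ker.index := by
      rw [← h3]
      exact Nat.mul_div_cancel_left _ Nat.card_pos
    rw [h4, hidx] at hcod
    exact hcod hMp

end Cfsg.Agent.S4797
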