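import Cfsg.Statements.S4798
import Cfsg.Agent.Lib.Helper80.CharOps

set_option autoImplicit false
open Cfsg

namespace Cfsg.Agent.S4798

open Cfsg.Agent.Lib.Helper80

open scoped ComplexConjugate

/-- Let p be a prime and χ a faithful irreducible complex character of the finite group G (χ(g) = χ(1) only for g = 1), so that its codegree is #G / χ(1). Then #G / χ(1) is a power of p if and only if χ is induced from a character of a Sylow p-subgroup of G. -/
theorem result {G : Type*} [Group G] [Fintype G] (p : ℕ) [Fact p.Prime] (χ : Cfsg.IrrCharacter G) (hfaith : ∀ g : G, (χ : G → ℂ) g = (χ : G → ℂ) 1 → g = 1) : (∃ k : ℕ, Nat.card G = p ^ k * Cfsg.charDegree (χ : G → ℂ)) ↔ ∃ (P : Sylow p G) (θ : ↥(P : Subgroup G) → ℂ), Cfsg.IsCharacter ↥(P : Subgroup G) θ ∧ (χ : G → ℂ) = Cfsg.indFun (P : Subgroup G) θ := by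
  classical
  have hp : p.Prime := Fact.out
  have hχc : Cfsg.IsCharacter G (χ : G → ℂ) := isCharacter_of_isIrrCharacter χ.2
  constructor
  · rintro ⟨k, hk⟩
    obtain ⟨P⟩ : Nonempty (Sylow p G) := inferInstance
    let _ : Fintype (P : Subgroup G) := Fintype.ofFinite _
    let _ : Fintype (Cfsg.IrrCharacter (P : Subgroup G)) := Fintype.ofFinite _
    let _ : Fintype (Cfsg.IrrCharacter G) := Fintype.ofFinite _
    set d := Cfsg.charDegree (χ : G → ℂ) with hd
    have hd0 : 0 < d := charDegree_pos χ.2
    set n := (Nat.card G).factorization p with hn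
    have hPcard : Nat.card (P : Subgroup G) = p ^ n := P.card_eq_multiplicity
    have hidx : Nat.card (P : Subgroup G) * (P : Subgroup G).index = Nat.card G :=
      Subgroup.card_mul_index _
    have hidxcop : Nat.Coprime (P : Subgroup G).index p := by
      rw [Nat.coprime_comm, Nat.Prime.coprime_iff_not_dvd hp]
      exact P.not_dvd_index
    -- restriction of χ to P
    let res : ↥(P : Subgroup G) → ℂ := fun x => (χ : G → ℂ) (x : G)
    have hres : Cfsg.IsCharacter (P : Subgroup G) res := isCharacter_restrict _ hχc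
    obtain ⟨e, he, hexp⟩ := character_expansion hres
    have hdsum := charDegree_eq_sum hres e hexp
    have hresdeg : Cfsg.charDegree res = d := rfl
    rw [hresdeg] at hdsum
    set a := d.factorization p with ha
    have hnotdvd : ¬ p ^ (a + 1) ∣ d := Nat.pow_succ_factorization_not_dvd hd0.ne' hp
    have hpa : p ^ a ∣ d := Nat.ordProj_dvd d p
    -- degrees of irreducible characters of P are powers of p
    have hdegpow : ∀ θ : Cfsg.IrrCharacter (P : Subgroup G),
        ∃ j, j ≤ n ∧ Cfsg.charDegree (θ : ↥(P : Subgroup G) → ℂ) = p ^ j := by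
      intro θ
      have := charDegree_dvd_card θ.2
      rw [hPcard] at this
      exact (Nat.dvd_prime_pow hp).mp this
    -- some constituent has degree dividing p ^ a
    have hexists : ∃ θ : Cfsg.IrrCharacter (P : Subgroup G), e θ ≠ 0 ∧
        Cfsg.charDegree (θ : ↥(P : Subgroup G) → ℂ) ∣ p ^ a := by
      by_contra hcon
      push Not at hcon
      apply hnotdvd
      rw [hdsum]
      apply Finset.dvd_sum
      intro θ _
      by_cases h0 : e θ = 0
      · rw [h0, zero_mul]; exact dvd_zero _
      · obtain ⟨j, hj, hdeg⟩ := hdegpow θ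
        have hnd := hcon θ h0
        rw [hdeg] at hnd ⊢
        have hja : a < j := by
          by_contra hle
          exact hnd (pow_dvd_pow p (not_lt.mp hle))
        exact Dvd.dvd.mul_left (pow_dvd_pow p hja) _
    obtain ⟨θ, heθ, hθdvd⟩ := hexists
    refine ⟨P, (θ : ↥(P : Subgroup G) → ℂ), isCharacter_of_isIrrCharacter θ.2, ?_⟩
    set φ := Cfsg.indFun (P : Subgroup G) (θ : ↥(P : Subgroup G) → ℂ) with hφ
    have hφc : Cfsg.IsCharacter G φ := isCharacter_indFun _ (isCharacter_of_isIrrCharacter θ.2)
    -- χ is a constituent of φ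
    have hne : Cfsg.classInner φ (χ : G → ℂ) ≠ 0 := by
      rw [hφ, frobenius_reciprocity _ _ _ (isClassFunction_of_isCharacter hχc)]
      have h1 : Cfsg.classInner (θ : ↥(P : Subgroup G) → ℂ) res
          = conj (Cfsg.classInner res (θ : ↥(P : Subgroup G) → ℂ)) :=
        (classInner_conj_symm _ _).symm
      change Cfsg.classInner (θ : ↥(P : Subgroup G) → ℂ) res ≠ 0
      rw [h1, he θ]
      simpa using heθ
    -- degree comparison
    have hφdeg : Cfsg.charDegree φ = (P : Subgroup G).index *
        Cfsg.charDegree (θ : ↥(P : Subgroup G) → ℂ) := by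
      have h1 := indFun_one (P : Subgroup G) (θ : ↥(P : Subgroup G) → ℂ)
      rw [← hφ, char_one_eq_charDegree hφc,
        char_one_eq_charDegree (isCharacter_of_isIrrCharacter θ.2)] at h1
      exact_mod_cast h1
    have hidxd : (P : Subgroup G).index ∣ d := by
      have h1 : (P : Subgroup G).index ∣ p ^ k * d := by
        rw [← hk, ← hidx]; exact Dvd.intro_left _ rfl
      exact (Nat.Coprime.pow_right k hidxcop).dvd_of_dvd_mul_left h1
    have hmul : (P : Subgroup G).index * p ^ a ∣ d :=
      Nat.Coprime.mul_dvd_of_dvd_of_dvd (Nat.Coprime.pow_right a hidxcop) hidxd hpa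
    have hle : Cfsg.charDegree φ ≤ d := by
      rw [hφdeg]
      calc (P : Subgroup G).index * Cfsg.charDegree (θ : ↥(P : Subgroup G) → ℂ)
          ≤ (P : Subgroup G).index * p ^ a :=
            Nat.mul_le_mul_left _ (Nat.le_of_dvd (pow_pos hp.pos a) hθdvd)
        _ ≤ d := Nat.le_of_dvd hd0 hmul
    exact (eq_of_constituent_of_degree_le hφc χ.2 hne hle).symm
  · rintro ⟨P, θ, hθ, hχθ⟩
    have h1 := indFun_one (P : Subgroup G) θ
    rw [← hχθ, char_one_eq_charDegree hχc, char_one_eq_charDegree hθ] at h1
    have hdeg : Cfsg.charDegree (χ : G → ℂ) = (P : Subgroup G).index * Cfsg.charDegree θ := by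
      exact_mod_cast h1
    have hdvd := charDegree_dvd_card χ.2
    have hidx : Nat.card (P : Subgroup G) * (P : Subgroup G).index = Nat.card G :=
      Subgroup.card_mul_index _
    have hidxpos : 0 < (P : Subgroup G).index := Nat.pos_of_ne_zero (by
      intro h0
      rw [h0, mul_zero] at hidx
      exact (Nat.card_pos (α := G)).ne' hidx.symm)
    have hθdvd : Cfsg.charDegree θ ∣ Nat.card (P : Subgroup G) := by
      rw [hdeg, ← hidx, mul_comm (Nat.card (P : Subgroup G))] at hdvd
      exact Nat.dvd_of_mul_dvd_mul_left hidxpos hdvd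
    have hPcard : Nat.card (P : Subgroup G) = p ^ (Nat.card G).factorization p :=
      P.card_eq_multiplicity
    rw [hPcard] at hθdvd
    obtain ⟨j, hj, hdegθ⟩ := (Nat.dvd_prime_pow hp).mp hθdvd
    refine ⟨(Nat.card G).factorization p - j, ?_⟩
    have hG : Nat.card G = p ^ (Nat.card G).factorization p * (P : Subgroup G).index := by
      rw [← hPcard, hidx]
    generalize (Nat.card G).factorization p = n at hG hj
    rw [hdeg, hdegθ, hG]
    have : p ^ n = p ^ (n - j) * p ^ j := by
      rw [← pow_add, Nat.sub_add_cancel hj]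
    rw [this]
    ring

end Cfsg.Agent.S4798
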