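import Cfsg.Statements.S4801
import Cfsg.Agent.Lib.Helper80.Codegree

set_option autoImplicit false
open Cfsg

namespace Cfsg.Agent.S4801

open Cfsg.Agent.Lib.Helper80

/-- The codegree of an irreducible complex character χ of a finite group G is [G : ker χ] / χ(1), where ker χ is the set of elements at which χ takes the value χ(1). Let S be a finite simple group and G a finite group such that every codegree of an irreducible character of S is a codegree of an irreducible character of G. Then the order of S divides the order of G. -/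
theorem result {S : Type*} [Group S] [Finite S] (hS : IsSimpleGroup S) {G : Type*} [Group G] [Finite G] (hsub : ∀ χ : Cfsg.IrrCharacter S, ∃ ψ : Cfsg.IrrCharacter G, (Nat.card S / (Nat.card {g : S // (χ : S → ℂ) g = (χ : S → ℂ) 1} * Cfsg.charDegree (χ : S → ℂ))) = (Nat.card G / (Nat.card {g : G // (ψ : G → ℂ) g = (ψ : G → ℂ) 1} * Cfsg.charDegree (ψ : G → ℂ)))) : Nat.card S ∣ Nat.card G := by
  have hS0 : Nat.card S ≠ 0 := (Nat.card_pos (α := S)).ne'
  have hG0 : Nat.card G ≠ 0 := (Nat.card_pos (α := G)).ne'
  rw [← Nat.factorization_prime_le_iff_dvd hS0 hG0]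
  intro p hp
  by_cases hpS : p ∣ Nat.card S
  · obtain ⟨χ, hχne, hχp⟩ := exists_irr_ne_one_not_dvd hp hpS
    obtain ⟨ψ, hψ⟩ := hsub χ
    obtain ⟨N, hN, hmem⟩ := exists_ker_subgroup (isCharacter_of_isIrrCharacter χ.2)
    have hNbot : N = ⊥ := by
      rcases hN.eq_bot_or_eq_top with h | h
      · exact h
      · exfalso
        apply hχne
        apply eq_one_of_forall_eq χ.2
        intro g
        exact (hmem g).mp (by rw [h]; trivial)
    have hcod := codegree_eq N hmem
    rw [hNbot, Subgroup.index_bot] at hcod
    have hdvd : Nat.card S / Cfsg.charDegree (χ : S → ℂ) ∣ Nat.card G := by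
      rw [← hcod, hψ]
      exact codegree_dvd_card ψ.2
    have hd := charDegree_dvd_card χ.2
    have hd0 : 0 < Cfsg.charDegree (χ : S → ℂ) := charDegree_pos χ.2
    have hquot0 : Nat.card S / Cfsg.charDegree (χ : S → ℂ) ≠ 0 := by
      intro h0
      have := Nat.div_mul_cancel hd
      rw [h0, zero_mul] at this
      exact hS0 this.symm
    have h1 : (Nat.card S).factorization p
        = (Nat.card S / Cfsg.charDegree (χ : S → ℂ)).factorization p := by
      conv_lhs => rw [← Nat.div_mul_cancel hd]
      rw [Nat.factorization_mul hquot0 hd0.ne']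
      simp [Nat.factorization_eq_zero_of_not_dvd hχp]
    rw [h1]
    exact (Nat.factorization_le_iff_dvd hquot0 hG0).mpr hdvd p
  · rw [Nat.factorization_eq_zero_of_not_dvd hpS]
    exact Nat.zero_le _

end Cfsg.Agent.S4801
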