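import Cfsg.Statements.S4802
import Cfsg.Agent.Lib.Helper80.Codegree

set_option autoImplicit false
open Cfsg

namespace Cfsg.Agent.S4802

open Cfsg.Agent.Lib.Helper80

open scoped ComplexConjugate

/-- Let N < M be normal subgroups of the finite group G and g ∈ M ∖ N. Then the conjugacy class of g is exactly M ∖ N if and only if every irreducible complex character of G whose kernel contains N takes the same value at all elements of M ∖ N, and every irreducible complex character of G whose kernel does not contain N vanishes at g. -/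
theorem result {G : Type*} [Group G] [Finite G] (N M : Subgroup G) [N.Normal] [M.Normal] (hNM : N < M) (g : G) (hgM : g ∈ M) (hgN : g ∉ N) : {h : G | IsConj g h} = (M : Set G) \ (N : Set G) ↔ ((∀ χ : Cfsg.IrrCharacter G, (∀ x ∈ N, (χ : G → ℂ) x = (χ : G → ℂ) 1) → ∀ x ∈ M, x ∉ N → ∀ y ∈ M, y ∉ N → (χ : G → ℂ) x = (χ : G → ℂ) y) ∧ (∀ χ : Cfsg.IrrCharacter G, (∃ x ∈ N, (χ : G → ℂ) x ≠ (χ : G → ℂ) 1) → (χ : G → ℂ) g = 0)) := by
  classical
  have := Fintype.ofFinite G
  have := Fintype.ofFinite (Cfsg.IrrCharacter G)
  have hNn : N.Normal := inferInstance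
  have hMn : M.Normal := inferInstance
  have hsub : {h : G | IsConj g h} ⊆ (M : Set G) \ (N : Set G) := by
    intro h hh
    obtain ⟨c, rfl⟩ := isConj_iff.mp hh
    refine ⟨hMn.conj_mem g hgM c, fun hN => hgN ?_⟩
    have := hNn.conj_mem _ hN c⁻¹
    simpa [mul_assoc] using this
  constructor
  · intro hclass
    constructor
    · intro χ _ x hxM hxN y hyM hyN
      have hx : IsConj g x := by
        have : x ∈ (M : Set G) \ (N : Set G) := ⟨hxM, hxN⟩
        rw [← hclass] at this
        exact this
      have hy : IsConj g y := by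
        have : y ∈ (M : Set G) \ (N : Set G) := ⟨hyM, hyN⟩
        rw [← hclass] at this
        exact this
      rw [← char_isConj_eq (isCharacter_of_isIrrCharacter χ.2) hx,
        char_isConj_eq (isCharacter_of_isIrrCharacter χ.2) hy]
    · intro χ hχ
      have hall := second_orthogonality_of_isConj (G := G) (IsConj.refl g)
      rw [← Finset.sum_filter_add_sum_filter_not Finset.univ (fun χ : Cfsg.IrrCharacter G =>
        ∀ x ∈ N, (χ : G → ℂ) x = (χ : G → ℂ) 1)] at hall
      have hker := second_orthogonality_filter_ker N g g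
      rw [if_pos (IsConj.refl _)] at hker
      rw [hker] at hall
      -- the counting inequality
      have hcc : Nat.card (Subgroup.centralizer ({g} : Set G))
          ≤ Nat.card (Subgroup.centralizer ({(g : G ⧸ N)} : Set (G ⧸ N))) := by
        have e1 := Subgroup.card_mul_index (Subgroup.centralizer ({g} : Set G))
        have e2 := Subgroup.card_mul_index (Subgroup.centralizer ({(g : G ⧸ N)} : Set (G ⧸ N)))
        have e2' : Nat.card (G ⧸ N) = N.index := rfl
        rw [e2'] at e2
        have e3 := Subgroup.card_mul_index N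
        rw [← card_isConj_eq_index] at e1 e2
        have e4 : Nat.card N * Nat.card {q : G ⧸ N // IsConj (g : G ⧸ N) q}
            ≤ Nat.card {h : G // IsConj g h} := by
          have h1 := QuotientGroup.card_preimage_mk N {q : G ⧸ N | IsConj (g : G ⧸ N) q}
          have h2 : (QuotientGroup.mk ⁻¹' {q : G ⧸ N | IsConj (g : G ⧸ N) q} : Set G)
              ⊆ {h : G | IsConj g h} := by
            intro y hy
            rw [hclass]
            have hy' : IsConj (g : G ⧸ N) (y : G ⧸ N) := hy
            obtain ⟨c, hc⟩ := isConj_iff.mp hy'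
            obtain ⟨c, rfl⟩ := QuotientGroup.mk_surjective c
            have h3 : ((c * g * c⁻¹ : G) : G ⧸ N) = (y : G ⧸ N) := by
              rw [← hc]; rfl
            have h4 : (c * g * c⁻¹)⁻¹ * y ∈ N := QuotientGroup.eq.mp h3
            refine ⟨?_, ?_⟩
            · have h5 : c * g * c⁻¹ ∈ M := hMn.conj_mem g hgM c
              have h6 := M.mul_mem h5 (hNM.le h4)
              rwa [mul_inv_cancel_left] at h6
            · intro hyN
              have h7 : (y : G ⧸ N) = 1 := (QuotientGroup.eq_one_iff y).mpr hyN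
              rw [h7] at hy'
              have h8 : (g : G ⧸ N) = 1 := isConj_one_left.mp hy'
              exact hgN ((QuotientGroup.eq_one_iff g).mp h8)
          have h5 := Nat.card_mono (Set.toFinite _) h2
          rw [h1] at h5
          exact h5
        have kpos : 0 < Nat.card {h : G // IsConj g h} :=
          Nat.card_pos_iff.mpr ⟨⟨⟨g, IsConj.refl g⟩⟩, inferInstance⟩
        by_contra hlt
        push Not at hlt
        have h9 : Nat.card (Subgroup.centralizer ({(g : G ⧸ N)} : Set (G ⧸ N)))
            * (Nat.card N * Nat.card {q : G ⧸ N // IsConj (g : G ⧸ N) q})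
            ≤ Nat.card (Subgroup.centralizer ({(g : G ⧸ N)} : Set (G ⧸ N)))
              * Nat.card {h : G // IsConj g h} := Nat.mul_le_mul_left _ e4
        have h10 : Nat.card (Subgroup.centralizer ({(g : G ⧸ N)} : Set (G ⧸ N)))
              * Nat.card {h : G // IsConj g h}
            < Nat.card (Subgroup.centralizer ({g} : Set G)) * Nat.card {h : G // IsConj g h} :=
          Nat.mul_lt_mul_of_pos_right hlt kpos
        have h11 : Nat.card (Subgroup.centralizer ({(g : G ⧸ N)} : Set (G ⧸ N)))
            * (Nat.card N * Nat.card {q : G ⧸ N // IsConj (g : G ⧸ N) q}) = Nat.card G := by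
          rw [← e3, ← e2]; ring
        omega
      have hsum : ∑ χ ∈ Finset.univ.filter (fun χ : Cfsg.IrrCharacter G =>
          ¬ ∀ x ∈ N, (χ : G → ℂ) x = (χ : G → ℂ) 1), Complex.normSq ((χ : G → ℂ) g)
          = (Nat.card (Subgroup.centralizer ({g} : Set G)) : ℝ)
            - (Nat.card (Subgroup.centralizer ({(g : G ⧸ N)} : Set (G ⧸ N))) : ℝ) := by
        have h1 : ((∑ χ ∈ Finset.univ.filter (fun χ : Cfsg.IrrCharacter G =>
            ¬ ∀ x ∈ N, (χ : G → ℂ) x = (χ : G → ℂ) 1), Complex.normSq ((χ : G → ℂ) g) : ℝ) : ℂ)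
            = ((Nat.card (Subgroup.centralizer ({g} : Set G)) : ℝ) : ℂ)
            - ((Nat.card (Subgroup.centralizer ({(g : G ⧸ N)} : Set (G ⧸ N))) : ℝ) : ℂ) := by
          rw [Complex.ofReal_sum]
          simp_rw [← Complex.mul_conj]
          rw [eq_sub_iff_add_eq, add_comm]
          simpa using hall
        exact_mod_cast h1
      have hle : ∑ χ ∈ Finset.univ.filter (fun χ : Cfsg.IrrCharacter G =>
          ¬ ∀ x ∈ N, (χ : G → ℂ) x = (χ : G → ℂ) 1), Complex.normSq ((χ : G → ℂ) g) ≤ 0 := by
        rw [hsum, sub_nonpos]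
        exact_mod_cast hcc
      have hzero := (Finset.sum_eq_zero_iff_of_nonneg
        (fun (χ : Cfsg.IrrCharacter G) _ => Complex.normSq_nonneg ((χ : G → ℂ) g))).mp
        (le_antisymm hle (Finset.sum_nonneg fun χ _ => Complex.normSq_nonneg _)) χ
        (Finset.mem_filter.mpr ⟨Finset.mem_univ _, by
          push Not
          exact hχ⟩)
      exact Complex.normSq_eq_zero.mp hzero
  · rintro ⟨h1, h2⟩
    apply Set.Subset.antisymm hsub
    rintro x ⟨hxM, hxN⟩
    by_contra hnc
    have hnc' : ¬ IsConj g x := hnc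
    have hsum := second_orthogonality_of_not_isConj (G := G) hnc'
    have hterm : ∀ χ : Cfsg.IrrCharacter G, (χ : G → ℂ) g * conj ((χ : G → ℂ) x)
        = ((Complex.normSq ((χ : G → ℂ) g) : ℝ) : ℂ) := by
      intro χ
      by_cases hχ : ∀ x ∈ N, (χ : G → ℂ) x = (χ : G → ℂ) 1
      · rw [h1 χ hχ x hxM hxN g hgM hgN, Complex.mul_conj]
      · push Not at hχ
        rw [h2 χ hχ]
        simp
    simp_rw [hterm] at hsum
    have hsum' : ∑ χ : Cfsg.IrrCharacter G, Complex.normSq ((χ : G → ℂ) g) = 0 := by
      exact_mod_cast hsum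
    have h0 := (Finset.sum_eq_zero_iff_of_nonneg
      (fun (χ : Cfsg.IrrCharacter G) _ => Complex.normSq_nonneg ((χ : G → ℂ) g))).mp hsum'
      (trivIrr G) (Finset.mem_univ _)
    rw [trivIrr_apply] at h0
    simp at h0

end Cfsg.Agent.S4802
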