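import Cfsg.Statements.S4808
import Cfsg.Agent.Lib.Helper80.Codegree

set_option autoImplicit false
open Cfsg

namespace Cfsg.Agent.S4808

open Cfsg.Agent.Lib.Helper80

/-- The codegree of an irreducible complex character χ of a finite group G is [G : ker χ] / χ(1), where ker χ is the set of elements at which χ takes the value χ(1). A prime divides the order of G if and only if it divides the codegree of some irreducible complex character of G. -/
theorem result {G : Type*} [Group G] [Finite G] (p : ℕ) (hp : p.Prime) : p ∣ Nat.card G ↔ ∃ χ : Cfsg.IrrCharacter G, p ∣ (Nat.card G / (Nat.card {g : G // (χ : G → ℂ) g = (χ : G → ℂ) 1} * Cfsg.charDegree (χ : G → ℂ))) := by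
  classical
  have : Fact p.Prime := ⟨hp⟩
  constructor
  · intro hdvd
    have hex : ∃ n, ∃ N : Subgroup G, N.Normal ∧ p ∣ N.index ∧ N.index = n :=
      ⟨_, ⊥, inferInstance, by simpa using hdvd, rfl⟩
    obtain ⟨N, hNn, hNp, hNidx⟩ := Nat.find_spec hex
    have hmin : ∀ K : Subgroup G, K.Normal → p ∣ K.index → N.index ≤ K.index :=
      fun K hK hKp => hNidx ▸ Nat.find_min' hex ⟨K, hK, hKp, rfl⟩
    have hcardQ : Nat.card (G ⧸ N) = N.index := rfl
    have hmin' : ∀ K : Subgroup (G ⧸ N), K.Normal → K ≠ ⊥ → ¬ p ∣ K.index := by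
      intro K hK hKbot hKp
      have h1 : (K.comap (QuotientGroup.mk' N)).index = K.index :=
        Subgroup.index_comap_of_surjective K (QuotientGroup.mk'_surjective N)
      have h2 := hmin (K.comap (QuotientGroup.mk' N)) (hK.comap _) (h1 ▸ hKp)
      rw [h1] at h2
      have h3 := Subgroup.card_mul_index K
      rw [hcardQ] at h3
      have h4 : 1 < Nat.card K := K.one_lt_card_iff_ne_bot.mpr hKbot
      have h5 : 0 < K.index := Nat.pos_of_ne_zero Subgroup.index_ne_zero_of_finite
      nlinarith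
    obtain ⟨ψ, hψf, hψp⟩ := exists_faithful_irr_not_dvd (p := p) (G := G ⧸ N)
      (by rw [hcardQ]; exact hNp) hmin'
    let χ : Cfsg.IrrCharacter G := ⟨fun g => (ψ : G ⧸ N → ℂ) (g : G ⧸ N),
      isIrrCharacter_inflate N ψ.2⟩
    refine ⟨χ, ?_⟩
    have hker : ∀ g : G, g ∈ N ↔ (χ : G → ℂ) g = (χ : G → ℂ) 1 := by
      intro g
      constructor
      · intro hg
        change (ψ : G ⧸ N → ℂ) (g : G ⧸ N) = (ψ : G ⧸ N → ℂ) ((1 : G) : G ⧸ N)
        rw [(QuotientGroup.eq_one_iff g).mpr hg]
        rfl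
      · intro hg
        exact (QuotientGroup.eq_one_iff g).mp (hψf _ hg)
    rw [codegree_eq N hker]
    have hdeg : Cfsg.charDegree (χ : G → ℂ) = Cfsg.charDegree (ψ : G ⧸ N → ℂ) := rfl
    rw [hdeg]
    have hd := charDegree_dvd_card ψ.2
    rw [hcardQ] at hd
    have h6 : p ∣ N.index / Cfsg.charDegree (ψ : G ⧸ N → ℂ) * Cfsg.charDegree (ψ : G ⧸ N → ℂ) := by
      rw [Nat.div_mul_cancel hd]; exact hNp
    rcases (Nat.Prime.dvd_mul hp).mp h6 with h7 | h7
    · exact h7
    · exact absurd h7 hψp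
  · rintro ⟨χ, hχ⟩
    exact hχ.trans (codegree_dvd_card χ.2)

end Cfsg.Agent.S4808
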