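import Cfsg.Statements.S4813
import Cfsg.Agent.Lib.Helper39.PrimeDegG

set_option autoImplicit false
open Cfsg

namespace Cfsg.Agent.S4813

/-- If every irreducible complex character of the finite group G of degree greater than one has prime degree, then G has at most three distinct irreducible character degrees. -/
theorem result {G : Type*} [Group G] [Finite G] (hprime : ∀ d ∈ Cfsg.charDegrees G, d = 1 ∨ d.Prime) : Nat.card ↥(Cfsg.charDegrees G) ≤ 3 := by
  have h : ∀ χ : Cfsg.IrrCharacter G, Cfsg.charDegree (χ : G → ℂ) ≠ 1 →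
      (Cfsg.charDegree (χ : G → ℂ)).Prime := by
    intro χ hχ
    rcases hprime _ ⟨χ, rfl⟩ with h1 | h1
    · exact absurd h1 hχ
    · exact h1
  obtain ⟨s₁, s₂, hs⟩ := Cfsg.Agent.Lib.Helper39.PrimeDeg.three_degrees (Nat.card G) G rfl h
  have hsub : Cfsg.charDegrees G ⊆ ({1, s₁, s₂} : Set ℕ) := by
    rintro d ⟨χ, rfl⟩
    simpa using hs χ
  rw [Nat.card_coe_set_eq]
  calc (Cfsg.charDegrees G).ncard ≤ ({1, s₁, s₂} : Set ℕ).ncard :=
        Set.ncard_le_ncard hsub (Set.toFinite _)
    _ ≤ 3 := by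
      refine le_trans (Set.ncard_insert_le _ _) ?_
      have := Set.ncard_insert_le s₁ ({s₂} : Set ℕ)
      rw [Set.ncard_singleton] at this
      omega

end Cfsg.Agent.S4813
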