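import Cfsg.Statements.S4825
import Cfsg.Agent.Lib.Helper79.RelSq

set_option autoImplicit false
open Cfsg

namespace Cfsg.Agent.S4825

/-- Let p be a prime, G a finite group with Sylow p-subgroup P, M a maximal ideal of the algebraic integers containing p, and B a p-block of G with defect group P. Let N be a normal subgroup of G not containing P and θ an irreducible character of N. Then the number of irreducible characters in B of degree prime to p lying over θ (having θ as a constituent on restriction to N) is either 0 or at least 2, and when p ≤ 3 it is divisible by p. -/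
theorem result {G : Type*} [Group G] [Fintype G] (p : ℕ) [Fact p.Prime] (P : Sylow p G) (M : Ideal Cfsg.AlgInt) (hM : Cfsg.IsPModular p M) (B : Set (Cfsg.IrrCharacter G)) (hB : Cfsg.IsPBlock M B) (hBP : Cfsg.IsDefectGroup p M B P) (N : Subgroup G) [N.Normal] [Fintype N] (hPN : ¬ (P : Subgroup G) ≤ N) (θ : Cfsg.IrrCharacter N) :
    (Nat.card {χ : Cfsg.IrrCharacter G // χ ∈ B ∧ ¬ p ∣ Cfsg.charDegree (χ : G → ℂ) ∧ Cfsg.classInner (fun n : N => (χ : G → ℂ) n) (θ : N → ℂ) ≠ 0} = 0 ∨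
      2 ≤ Nat.card {χ : Cfsg.IrrCharacter G // χ ∈ B ∧ ¬ p ∣ Cfsg.charDegree (χ : G → ℂ) ∧ Cfsg.classInner (fun n : N => (χ : G → ℂ) n) (θ : N → ℂ) ≠ 0}) ∧
    (p ≤ 3 → p ∣ Nat.card {χ : Cfsg.IrrCharacter G // χ ∈ B ∧ ¬ p ∣ Cfsg.charDegree (χ : G → ℂ) ∧ Cfsg.classInner (fun n : N => (χ : G → ℂ) n) (θ : N → ℂ) ≠ 0}) := by
  classical
  have hp : p.Prime := Fact.out
  have key : ∀ (q d : ℕ), q.Prime → q ≤ 3 → ¬ q ∣ d → d ^ 2 % q = 1 := by
    intro q d hq hq3 hnd
    have hq2 := hq.two_le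
    interval_cases q
    · have h : d % 2 = 1 := by omega
      rw [Nat.pow_mod, h]
    · have h : d % 3 = 1 ∨ d % 3 = 2 := by omega
      rcases h with h | h <;> rw [Nat.pow_mod, h]
  have hfin := Cfsg.Agent.Lib.Helper77.irr_finite G
  let _ : Fintype (Cfsg.IrrCharacter G) := Fintype.ofFinite _
  have hpN : p ∣ N.index := by
    by_contra hnd
    apply hPN
    intro x hx
    obtain ⟨j, hj⟩ := (IsPGroup.iff_orderOf.mp P.isPGroup') ⟨x, hx⟩
    rw [Subgroup.orderOf_mk] at hj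
    have h1 : orderOf (x : G ⧸ N) ∣ p ^ j := by
      rw [← hj]
      apply orderOf_dvd_of_pow_eq_one
      rw [← QuotientGroup.mk_pow, pow_orderOf_eq_one]
      rfl
    have h2 : orderOf (x : G ⧸ N) ∣ N.index := by
      rw [Subgroup.index_eq_card]
      exact orderOf_dvd_natCard _
    have h3 : orderOf (x : G ⧸ N) = 1 :=
      Nat.eq_one_of_dvd_coprimes
        (Nat.Coprime.pow_left j ((Nat.Prime.coprime_iff_not_dvd hp).mpr hnd)) h1 h2
    exact (QuotientGroup.eq_one_iff x).mp (orderOf_eq_one_iff.mp h3)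
  obtain ⟨S, hS⟩ : ∃ S : Finset (Cfsg.IrrCharacter G), ∀ χ, χ ∈ S ↔ χ ∈ B ∧
      Cfsg.classInner (fun n : N => (χ : G → ℂ) n) (θ : N → ℂ) ≠ 0 :=
    ⟨Finset.univ.filter (fun χ : Cfsg.IrrCharacter G => χ ∈ B ∧
      Cfsg.classInner (fun n : N => (χ : G → ℂ) n) (θ : N → ℂ) ≠ 0), fun χ => by simp⟩
  have hdvd := Cfsg.Agent.Lib.Helper79.dvd_sum_sq_over hM B hB N hpN θ S hS
  obtain ⟨T, hT⟩ : ∃ T : Finset (Cfsg.IrrCharacter G),
      T = S.filter (fun χ : Cfsg.IrrCharacter G => ¬ p ∣ Cfsg.charDegree (χ : G → ℂ)) := ⟨_, rfl⟩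
  have hcard : Nat.card {χ : Cfsg.IrrCharacter G // χ ∈ B ∧
      ¬ p ∣ Cfsg.charDegree (χ : G → ℂ) ∧
      Cfsg.classInner (fun n : N => (χ : G → ℂ) n) (θ : N → ℂ) ≠ 0} = T.card := by
    rw [Nat.card_eq_fintype_card, Fintype.card_subtype]
    congr 1
    ext χ
    rw [hT, Finset.mem_filter, Finset.mem_filter, hS]
    simp only [Finset.mem_univ, true_and]
    tauto
  rw [hcard]
  have hTdvd : p ∣ ∑ χ ∈ T, Cfsg.charDegree (χ : G → ℂ) ^ 2 := by
    have hsplit := Finset.sum_filter_add_sum_filter_not S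
      (fun χ : Cfsg.IrrCharacter G => ¬ p ∣ Cfsg.charDegree (χ : G → ℂ))
      (fun χ : Cfsg.IrrCharacter G => Cfsg.charDegree (χ : G → ℂ) ^ 2)
    rw [← hT] at hsplit
    have h2 : p ∣ ∑ χ ∈ S.filter (fun χ : Cfsg.IrrCharacter G => ¬ ¬ p ∣ Cfsg.charDegree (χ : G → ℂ)),
        Cfsg.charDegree (χ : G → ℂ) ^ 2 := by
      apply Finset.dvd_sum
      intro χ hχ
      rw [Finset.mem_filter] at hχ
      exact dvd_pow (not_not.mp hχ.2) two_ne_zero
    rw [← hsplit] at hdvd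
    exact (Nat.dvd_add_left h2).mp hdvd
  have hTnd : ∀ χ ∈ T, ¬ p ∣ Cfsg.charDegree (χ : G → ℂ) := by
    intro χ hχ
    rw [hT, Finset.mem_filter] at hχ
    exact hχ.2
  constructor
  · by_contra hcon
    have h1 : T.card = 1 := by omega
    obtain ⟨χ, hχ⟩ := Finset.card_eq_one.mp h1
    rw [hχ, Finset.sum_singleton] at hTdvd
    exact hTnd χ (by rw [hχ]; exact Finset.mem_singleton_self χ) (hp.dvd_of_dvd_pow hTdvd)
  · intro hp3
    have h5 : (∑ χ ∈ T, Cfsg.charDegree (χ : G → ℂ) ^ 2) % p = T.card % p := by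
      rw [Finset.sum_nat_mod, Finset.sum_congr rfl (fun χ hχ => key p _ hp hp3 (hTnd χ hχ)),
        Finset.sum_const, smul_eq_mul, mul_one]
    rw [Nat.dvd_iff_mod_eq_zero] at hTdvd ⊢
    rw [← h5]
    exact hTdvd

end Cfsg.Agent.S4825
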