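import Mathlib
import Cfsg.Statements.S4828
import Cfsg.Agent.Lib.Helper16.MaxPairChar
import Cfsg.Agent.S4657

set_option autoImplicit false
open Cfsg

namespace Cfsg.Agent.S4828

open Cfsg.Agent.Lib.Helper16

/-- Let p be a prime, M a maximal ideal of the algebraic integers containing p, and (Q, e) a Brauer pair of the finite group G (Q a p-subgroup, e a block of C_G(Q)). Then (Q, e) is a maximal Brauer pair of some block of G if and only if e contains an irreducible character θ such that θ takes the value θ(1) at every element of Z(Q) = Q ∩ C_G(Q), the p-part of θ(1) times the p-part of the order of Z(Q) equals the p-part of the order of C_G(Q) (θ has defect zero as a character of C_G(Q)/Z(Q)), and every element of N_G(Q) of p-power order that stabilizes e lies in Q·C_G(Q) (the stabilizer of e in N_G(Q) has index prime to p over Q·C_G(Q)). -/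
theorem result {G : Type*} [Group G] [Finite G] (p : ℕ) [Fact p.Prime] (M : Ideal Cfsg.AlgInt) (hM : Cfsg.IsPModular p M) (Q : Subgroup G) (e : Set (Cfsg.IrrCharacter (Subgroup.centralizer (Q : Set G)))) (he : Cfsg.IsBrauerPair p M Q e) :
    (∃ B : Set (Cfsg.IrrCharacter G), Cfsg.IsMaximalBrauerPair p M B Q e) ↔
      ∃ θ ∈ e, (∀ z : Subgroup.centralizer (Q : Set G), (z : G) ∈ Q → (θ : Subgroup.centralizer (Q : Set G) → ℂ) z = (θ : Subgroup.centralizer (Q : Set G) → ℂ) 1) ∧
        (Cfsg.charDegree (θ : Subgroup.centralizer (Q : Set G) → ℂ)).factorization p + (Nat.card ↥(Q ⊓ Subgroup.centralizer (Q : Set G))).factorization p = (Nat.card (Subgroup.centralizer (Q : Set G))).factorization p ∧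
        (∀ g : G, g ∈ Subgroup.normalizer (Q : Set G) → Cfsg.StabilizesBlock (Subgroup.centralizer (Q : Set G)) e g → (∃ k : ℕ, orderOf g = p ^ k) → g ∈ Q ⊔ Subgroup.centralizer (Q : Set G)) := by
  classical
  haveI : Fintype G := Fintype.ofFinite G
  haveI : Fintype (Subgroup.centralizer (Q : Set G)) := Fintype.ofFinite _
  have hMp := isPrime_of_isPModular hM
  have hp := (Fact.out : p.Prime)
  have hZp : IsPGroup p ((Q ⊓ Subgroup.centralizer (Q : Set G)).subgroupOf
      (Subgroup.centralizer (Q : Set G))) := (he.1.to_le inf_le_left).comap_subtype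
  have hZc : (Q ⊓ Subgroup.centralizer (Q : Set G)).subgroupOf
      (Subgroup.centralizer (Q : Set G)) ≤ Subgroup.center (Subgroup.centralizer (Q : Set G)) := by
    intro z hz
    rw [Subgroup.mem_center_iff]
    intro c
    apply Subtype.ext
    push_cast
    exact (Subgroup.mem_centralizer_iff.mp c.2 (z : G) (Subgroup.mem_subgroupOf.mp hz).1).symm
  have hcardZ : Nat.card ((Q ⊓ Subgroup.centralizer (Q : Set G)).subgroupOf
      (Subgroup.centralizer (Q : Set G))) = Nat.card ↥(Q ⊓ Subgroup.centralizer (Q : Set G)) :=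
    Nat.card_congr (Subgroup.subgroupOfEquivOfLe inf_le_right).toEquiv
  have hidx := Subgroup.card_mul_index ((Q ⊓ Subgroup.centralizer (Q : Set G)).subgroupOf
      (Subgroup.centralizer (Q : Set G)))
  have hi0 : ((Q ⊓ Subgroup.centralizer (Q : Set G)).subgroupOf
      (Subgroup.centralizer (Q : Set G))).index ≠ 0 := Subgroup.index_ne_zero_of_finite
  constructor
  · rintro ⟨B, hmax⟩
    have hZdef := isDefectGroup_center_of_isMaximalBrauerPair hM hmax
    obtain ⟨θ, hθ, htriv⟩ := exists_trivial_on_central hM he.2 _ hZp hZc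
    refine ⟨θ, hθ, fun z hz => htriv z (Subgroup.mem_subgroupOf.mpr ⟨hz, z.2⟩), ?_, ?_⟩
    · have hd := Cfsg.Agent.Lib.Helper77.card_isDefectGroup hM e he.2 _ hZdef
      have h1 := pow_dvd_charDegree_of_mem p e θ hθ
      haveI hZn : ((Q ⊓ Subgroup.centralizer (Q : Set G)).subgroupOf
          (Subgroup.centralizer (Q : Set G))).Normal := ⟨fun n hn g => by
        have := Subgroup.mem_center_iff.mp (hZc hn) g
        rw [this, mul_inv_cancel_right]
        exact hn⟩
      have h2 := Cfsg.Agent.Lib.Helper82.ito_charDegree_dvd θ.2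
        ((Q ⊓ Subgroup.centralizer (Q : Set G)).subgroupOf (Subgroup.centralizer (Q : Set G)))
        (fun a ha b _ => (Subgroup.mem_center_iff.mp (hZc ha) b).symm)
      have h0 := (Cfsg.Agent.Lib.Helper79.irr_charDegree θ.2).2.1
      have h3 := (Nat.factorization_le_iff_dvd h0.ne' hi0).mpr h2 p
      have h4 := (hp.pow_dvd_iff_le_factorization h0.ne').mp h1
      have h5 : Cfsg.blockDefect p e + ((Q ⊓ Subgroup.centralizer (Q : Set G)).subgroupOf
          (Subgroup.centralizer (Q : Set G))).index.factorization p =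
          (Nat.card (Subgroup.centralizer (Q : Set G))).factorization p := by
        rw [← hidx, hd, Nat.factorization_mul (pow_pos hp.pos _).ne' hi0,
          Nat.Prime.factorization_pow hp]
        simp
      rw [← hcardZ, hd, Nat.Prime.factorization_pow hp]
      simp only [Finsupp.single_eq_same]
      omega
    · rintro g hgN hgs ⟨k, hk⟩
      apply Cfsg.Agent.Lib.Helper77.mem_sup_centralizer_of_isMaximalBrauerPair hM hmax hgN hgs
      apply IsPGroup.of_card (n := k)
      rw [Nat.card_zpowers, hk]
  · rintro ⟨θ, hθ, -, hdeg, hc⟩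
    obtain ⟨B, hB, -⟩ := Cfsg.Agent.S4657.result p M hM Q e he
    refine ⟨B, isMaximalBrauerPair_of_isDefectGroup_center hM hB ?_ hc⟩
    rw [IsPBlock.eq_blockOf hMp he.2 hθ]
    apply laradji_defect hM _ hZp hZc θ
    have hZ0 : Nat.card ((Q ⊓ Subgroup.centralizer (Q : Set G)).subgroupOf
        (Subgroup.centralizer (Q : Set G))) ≠ 0 := Nat.card_pos.ne'
    have h5 : (Nat.card ((Q ⊓ Subgroup.centralizer (Q : Set G)).subgroupOf
          (Subgroup.centralizer (Q : Set G)))).factorization p +
        ((Q ⊓ Subgroup.centralizer (Q : Set G)).subgroupOf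
          (Subgroup.centralizer (Q : Set G))).index.factorization p =
          (Nat.card (Subgroup.centralizer (Q : Set G))).factorization p := by
      rw [← hidx, Nat.factorization_mul hZ0 hi0]
      simp
    rw [hcardZ] at h5
    omega

end Cfsg.Agent.S4828
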