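import Cfsg.Statements.S4836
import Cfsg.Agent.Lib.Helper80.Gagola

set_option autoImplicit false
open Cfsg

namespace Cfsg.Agent.S4836

open Cfsg.Agent.Lib.Helper80 in
/-- Let G be a finite group of order greater than 2 with an irreducible character χ that is nonzero on exactly two conjugacy classes. Then χ is faithful (it takes the value χ(1) only at the identity), it is the only faithful irreducible character of G, and it is the only irreducible character of G that is nonzero on exactly two conjugacy classes. -/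
theorem result {G : Type*} [Group G] [Finite G] (hG : 2 < Nat.card G) (χ : Cfsg.IrrCharacter G) (hχ : Nat.card {C : ConjClasses G // ∃ g ∈ C.carrier, (χ : G → ℂ) g ≠ 0} = 2) :
    (∀ g : G, (χ : G → ℂ) g = (χ : G → ℂ) 1 → g = 1) ∧
      (∀ ψ : Cfsg.IrrCharacter G, (∀ g : G, (ψ : G → ℂ) g = (ψ : G → ℂ) 1 → g = 1) → ψ = χ) ∧
      (∀ ψ : Cfsg.IrrCharacter G, Nat.card {C : ConjClasses G // ∃ g ∈ C.carrier, (ψ : G → ℂ) g ≠ 0} = 2 → ψ = χ) := by
  obtain ⟨g₀, N, hNn, hg₀, hg₀N, hNsupp, hNconj, hother, hfaith, hR1, horder⟩ :=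
    gagola_core hG χ hχ
  have h2 : ∀ ψ : Cfsg.IrrCharacter G,
      (∀ g : G, (ψ : G → ℂ) g = (ψ : G → ℂ) 1 → g = 1) → ψ = χ := by
    intro ψ hψ
    by_contra hne
    exact hg₀ (hψ g₀ (hother ψ hne g₀ hg₀N))
  refine ⟨hfaith, h2, ?_⟩
  intro ψ hψ
  obtain ⟨g₁, N', -, -, -, -, -, -, hfaith', -, -⟩ := gagola_core hG ψ hψ
  exact h2 ψ hfaith'

end Cfsg.Agent.S4836
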