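import Cfsg.Statements.S4837
import Cfsg.Agent.Lib.Helper80.GagolaSylow

set_option autoImplicit false
open Cfsg

namespace Cfsg.Agent.S4837

open Cfsg.Agent.Lib.Helper80 in
/-- Let G be a finite group of order greater than 2 with an irreducible character χ nonzero on exactly two conjugacy classes, and let N be the set of elements where χ is nonzero, given as a nontrivial normal p-subgroup of G for the prime p. Then for every nonidentity x in N the centralizer C_G(x) is a Sylow p-subgroup of G, and for every irreducible character λ ≠ 1 of N the stabilizer of λ in G (its inertia group) is a Sylow p-subgroup of G. -/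
theorem result {G : Type*} [Group G] [Finite G] (hG : 2 < Nat.card G) (χ : Cfsg.IrrCharacter G) (hχ : Nat.card {C : ConjClasses G // ∃ g ∈ C.carrier, (χ : G → ℂ) g ≠ 0} = 2) (p : ℕ) [Fact p.Prime] (N : Subgroup G) [N.Normal] (hN : ∀ g : G, g ∈ N ↔ (χ : G → ℂ) g ≠ 0) (hNp : IsPGroup p N) (hN1 : N ≠ ⊥) :
    (∀ x ∈ N, x ≠ 1 → ∃ P : Sylow p G, Subgroup.centralizer ({x} : Set G) = P) ∧
      (∀ μ : Cfsg.IrrCharacter N, (μ : N → ℂ) ≠ (fun _ => (1 : ℂ)) → ∃ P : Sylow p G, ∀ g : G, g ∈ (P : Subgroup G) ↔ ∀ n n' : N, (n' : G) = g * n * g⁻¹ → (μ : N → ℂ) n' = (μ : N → ℂ) n) := by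
  obtain ⟨g₀, N', p', hNn, hpp, hg₀, hg₀N, hop, hNsupp, hNconj, hother, hfaith, hR1, horder, hNp',
    hel, hmin⟩ := gagola_structure hG χ hχ
  have hNN : N' = N := by
    ext x
    rw [hNsupp, hN]
  subst hNN
  have hχc := isCharacter_of_isIrrCharacter χ.2
  have hC := gagola_card_centralizer hχc hNp hNsupp hg₀ hg₀N hNconj horder
  refine ⟨?_, ?_⟩
  · intro x hx hx1
    have hc := hNconj x hx hx1
    have hcard : Nat.card (Subgroup.centralizer ({x} : Set G))
        = p ^ (Nat.card G).factorization p := by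
      rw [← card_centralizer_eq_of_isConj hc, hC]
    exact ⟨Sylow.ofCard _ hcard, rfl⟩
  · intro μ hμ
    have hNc : ∀ a b : N', a * b = b * a := by
      intro a b
      exact hel.1.is_comm.comm a b
    have hT := gagola_card_inertia hNc hg₀ hg₀N hNconj μ hμ
    have hcard : Nat.card (conjStabilizer N' (μ : N' → ℂ))
        = p ^ (Nat.card G).factorization p := by
      rw [← hC]
      have h2 := Subgroup.card_mul_index (Subgroup.centralizer ({g₀} : Set G))
      rw [← h2] at hT
      exact Nat.eq_of_mul_eq_mul_right (Nat.pos_of_ne_zero Subgroup.index_ne_zero_of_finite) hT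
    refine ⟨Sylow.ofCard _ hcard, fun g => ?_⟩
    rw [Sylow.coe_ofCard]
    exact mem_conjStabilizer' N' (μ : N' → ℂ) g

end Cfsg.Agent.S4837
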