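import Cfsg.Statements.S4838
import Cfsg.Agent.Lib.Helper80.GagolaCenter

set_option autoImplicit false
open Cfsg

namespace Cfsg.Agent.S4838

open Cfsg.Agent.Lib.Helper80 in
/-- Let G be a finite group of order greater than 2 with an irreducible character χ nonzero on exactly two conjugacy classes, N the normal p-subgroup of elements where χ is nonzero, and P a Sylow p-subgroup of G. Then (a) for every x outside N the centralizer of x in G has the same order as the centralizer of xN in G/N; (b) the centre of P lies in N, and equals N exactly when P is normal in G; (c) N, viewed inside P, is a term of the upper central series of P. -/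
theorem result {G : Type*} [Group G] [Finite G] (hG : 2 < Nat.card G) (χ : Cfsg.IrrCharacter G) (hχ : Nat.card {C : ConjClasses G // ∃ g ∈ C.carrier, (χ : G → ℂ) g ≠ 0} = 2) (p : ℕ) [Fact p.Prime] (N : Subgroup G) [N.Normal] (hN : ∀ g : G, g ∈ N ↔ (χ : G → ℂ) g ≠ 0) (hNp : IsPGroup p N) (hN1 : N ≠ ⊥) (P : Sylow p G) :
    (∀ x : G, x ∉ N → Nat.card (Subgroup.centralizer ({x} : Set G)) = Nat.card (Subgroup.centralizer ({(x : G ⧸ N)} : Set (G ⧸ N)))) ∧
      ((Subgroup.center ↥(P : Subgroup G)).map (P : Subgroup G).subtype ≤ N ∧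
        ((Subgroup.center ↥(P : Subgroup G)).map (P : Subgroup G).subtype = N ↔ (P : Subgroup G).Normal)) ∧
      (∃ i : ℕ, Subgroup.upperCentralSeries ↥(P : Subgroup G) i = N.subgroupOf (P : Subgroup G)) := by
  obtain ⟨g₀, N', p', hNn, hpp, hg₀, hg₀N, hop, hNsupp, hNconj, hother, hfaith, hR1, horder, hNp',
    hel, hmin⟩ := gagola_structure hG χ hχ
  have hNN : N' = N := by
    ext x
    rw [hNsupp, hN]
  subst hNN
  have hχc := isCharacter_of_isIrrCharacter χ.2
  have hC := gagola_card_centralizer hχc hNp hNsupp hg₀ hg₀N hNconj horder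
  have hCn : ∀ n ∈ N', n ≠ 1 → Nat.card (Subgroup.centralizer ({n} : Set G))
      = p ^ (Nat.card G).factorization p := by
    intro n hn hn1
    rw [← card_centralizer_eq_of_isConj (hNconj n hn hn1), hC]
  have hvan : ∀ x : G, x ∉ N' → (χ : G → ℂ) x = 0 := by
    intro x hx
    by_contra h
    exact hx ((hNsupp x).mpr h)
  have hcenter := gagola_center_le χ N' hNp hN1 hNsupp hother P
  have hNP : N' ≤ (P : Subgroup G) := hNp.le_sylow_of_normal P
  refine ⟨fun x hx => gagola_card_centralizer_quot χ N' hother (hvan x hx), ⟨hcenter, ?_⟩, ?_⟩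
  · constructor
    · intro heq
      have hPC : ∀ n ∈ N', n ≠ 1 → (P : Subgroup G) = Subgroup.centralizer ({n} : Set G) := by
        intro n hn hn1
        have hle : (P : Subgroup G) ≤ Subgroup.centralizer ({n} : Set G) := by
          intro y hy
          rw [← heq] at hn
          obtain ⟨z, hz, rfl⟩ := hn
          rw [Subgroup.mem_centralizer_singleton_iff]
          have := Subgroup.mem_center_iff.mp hz ⟨y, hy⟩
          exact congrArg Subtype.val this
        apply Subgroup.eq_of_le_of_card_ge hle
        rw [hCn n hn hn1, P.card_eq_multiplicity]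
      refine ⟨fun y hy g => ?_⟩
      have hg₀' : g * g₀ * g⁻¹ ∈ N' := hNn.conj_mem g₀ hg₀N g
      have hg₀'1 : g * g₀ * g⁻¹ ≠ 1 := by
        intro h
        apply hg₀
        have : g₀ = g⁻¹ * (g * g₀ * g⁻¹) * g := by group
        rw [this, h]
        group
      rw [hPC _ hg₀' hg₀'1, Subgroup.mem_centralizer_singleton_iff]
      rw [hPC g₀ hg₀N hg₀, Subgroup.mem_centralizer_singleton_iff] at hy
      calc g * y * g⁻¹ * (g * g₀ * g⁻¹) = g * (y * g₀) * g⁻¹ := by group
        _ = g * (g₀ * y) * g⁻¹ := by rw [hy]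
        _ = g * g₀ * g⁻¹ * (g * y * g⁻¹) := by group
    · intro hPn
      apply le_antisymm hcenter
      intro n hn
      refine ⟨⟨n, hNP hn⟩, Subgroup.mem_center_iff.mpr ?_, rfl⟩
      intro y
      apply Subtype.ext
      rw [Subgroup.coe_mul, Subgroup.coe_mul]
      by_cases hn1 : n = 1
      · subst hn1
        rw [mul_one, one_mul]
      · have hle : (P : Subgroup G) ≤ (Sylow.ofCard _ (hCn n hn hn1) : Sylow p G) :=
          P.isPGroup'.le_sylow_of_normal _
        have hy := hle y.2
        rw [Sylow.coe_ofCard, Subgroup.mem_centralizer_singleton_iff] at hy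
        exact hy
  · exact gagola_upperCentral χ N' hNp hNsupp hother P

end Cfsg.Agent.S4838
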