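import Cfsg.Statements.S4856
import Cfsg.Agent.Lib.Helper81.CharCore

set_option autoImplicit false
open Cfsg

namespace Cfsg.Agent.S4856

open Cfsg.Agent.Lib.Helper81

section Aux

variable {G : Type*} [Group G] [Fintype G] [Fintype (Cfsg.IrrCharacter G)]

omit [Fintype (Cfsg.IrrCharacter G)] in
theorem sum_comm_char (χ : Cfsg.IrrCharacter G) :
    ∑ x : G, ∑ y : G, χ.1 ((x * y * x⁻¹ * y⁻¹)⁻¹) = (Nat.card G : ℂ) ^ 2 / χ.1 1 := by
  have h1 : ∀ x y : G, χ.1 ((x * y * x⁻¹ * y⁻¹)⁻¹) = χ.1 (x⁻¹ * (y * x * y⁻¹)) := by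
    intro x y
    rw [irr_mul_comm χ x⁻¹ (y * x * y⁻¹)]
    group
  simp only [h1, irr_sum_conj]
  have h2 := irr_orth χ χ
  rw [if_pos rfl] at h2
  have h3 : ∀ x : G, (Nat.card G : ℂ) * χ.1 x⁻¹ * χ.1 x / χ.1 1 =
      ((Nat.card G : ℂ) / χ.1 1) * (χ.1 x * χ.1 x⁻¹) := by
    intro x; ring
  simp only [h3]
  rw [← Finset.mul_sum, h2]
  ring

omit [Fintype (Cfsg.IrrCharacter G)] in
open scoped Classical in
theorem count_conj (z : G) :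
    ∑ x : G, ∑ y : G, (Nat.card {t : G // t * (x * y * x⁻¹ * y⁻¹) * t⁻¹ = z} : ℂ) =
      (Nat.card G : ℂ) * (Nat.card {xy : G × G // xy.1 * xy.2 * xy.1⁻¹ * xy.2⁻¹ = z} : ℂ) := by
  have h1 : ∀ x y : G, (Nat.card {t : G // t * (x * y * x⁻¹ * y⁻¹) * t⁻¹ = z} : ℂ) =
      ∑ t : G, if t * (x * y * x⁻¹ * y⁻¹) * t⁻¹ = z then (1 : ℂ) else 0 := by
    intro x y
    rw [Finset.sum_boole, Nat.card_eq_fintype_card, Fintype.card_subtype]
  have h2 : (Nat.card {xy : G × G // xy.1 * xy.2 * xy.1⁻¹ * xy.2⁻¹ = z} : ℂ) =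
      ∑ x : G, ∑ y : G, if x * y * x⁻¹ * y⁻¹ = z then (1 : ℂ) else 0 := by
    rw [Nat.card_eq_fintype_card, Fintype.card_subtype, ← Fintype.sum_prod_type', Finset.sum_boole]
  simp only [h1]
  have h4 : ∀ x : G, ∑ y : G, ∑ t : G, (if t * (x * y * x⁻¹ * y⁻¹) * t⁻¹ = z then (1 : ℂ) else 0) =
      ∑ t : G, ∑ y : G, (if t * (x * y * x⁻¹ * y⁻¹) * t⁻¹ = z then (1 : ℂ) else 0) :=
    fun x => Finset.sum_comm
  simp only [h4]
  rw [Finset.sum_comm]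
  have h3 : ∀ t : G, ∑ x : G, ∑ y : G, (if t * (x * y * x⁻¹ * y⁻¹) * t⁻¹ = z then (1 : ℂ) else 0) =
      ∑ x : G, ∑ y : G, if x * y * x⁻¹ * y⁻¹ = z then (1 : ℂ) else 0 := by
    intro t
    rw [← Fintype.sum_equiv (MulAut.conj t).toEquiv
      (fun x => ∑ y : G, (if t * (x * y * x⁻¹ * y⁻¹) * t⁻¹ = z then (1 : ℂ) else 0))
      (fun x => ∑ y : G, if x * y * x⁻¹ * y⁻¹ = z then (1 : ℂ) else 0)]
    intro x
    rw [← Fintype.sum_equiv (MulAut.conj t).toEquiv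
      (fun y => (if t * (x * y * x⁻¹ * y⁻¹) * t⁻¹ = z then (1 : ℂ) else 0))
      (fun y => if (MulAut.conj t).toEquiv x * y * ((MulAut.conj t).toEquiv x)⁻¹ * y⁻¹ = z then (1 : ℂ) else 0)]
    intro y
    have : (MulAut.conj t).toEquiv x * (MulAut.conj t).toEquiv y * ((MulAut.conj t).toEquiv x)⁻¹ *
        ((MulAut.conj t).toEquiv y)⁻¹ = t * (x * y * x⁻¹ * y⁻¹) * t⁻¹ := by
      simp only [MulEquiv.toEquiv_eq_coe, MulEquiv.coe_toEquiv, MulAut.conj_apply]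
      group
    rw [this]
  simp only [h3]
  rw [h2]
  simp [Nat.card_eq_fintype_card]

theorem main_aux (z : G) :
    (Nat.card {xy : G × G // xy.1 * xy.2 * xy.1⁻¹ * xy.2⁻¹ = z} : ℂ) =
      (Nat.card G : ℂ) * ∑ χ : Cfsg.IrrCharacter G, χ.1 z / χ.1 1 := by
  have hG : (Nat.card G : ℂ) ≠ 0 := by exact_mod_cast Nat.card_pos.ne'
  have h1 := count_conj z
  have h2 : ∀ x y : G, (Nat.card {t : G // t * (x * y * x⁻¹ * y⁻¹) * t⁻¹ = z} : ℂ) =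
      ∑ χ : Cfsg.IrrCharacter G, χ.1 z * χ.1 ((x * y * x⁻¹ * y⁻¹)⁻¹) := by
    intro x y
    rw [irr_col_orth_inv]
  simp only [h2] at h1
  have h3 : ∑ x : G, ∑ y : G, ∑ χ : Cfsg.IrrCharacter G, χ.1 z * χ.1 ((x * y * x⁻¹ * y⁻¹)⁻¹) =
      ∑ χ : Cfsg.IrrCharacter G, χ.1 z * ((Nat.card G : ℂ) ^ 2 / χ.1 1) := by
    have : ∀ x : G, ∑ y : G, ∑ χ : Cfsg.IrrCharacter G, χ.1 z * χ.1 ((x * y * x⁻¹ * y⁻¹)⁻¹) =
        ∑ χ : Cfsg.IrrCharacter G, ∑ y : G, χ.1 z * χ.1 ((x * y * x⁻¹ * y⁻¹)⁻¹) := fun x => Finset.sum_comm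
    simp only [this]
    rw [Finset.sum_comm]
    refine Finset.sum_congr rfl (fun χ _ => ?_)
    simp only [← Finset.mul_sum]
    rw [sum_comm_char]
  rw [h3] at h1
  have h4 : ∑ χ : Cfsg.IrrCharacter G, χ.1 z * ((Nat.card G : ℂ) ^ 2 / χ.1 1) =
      (Nat.card G : ℂ) * ((Nat.card G : ℂ) * ∑ χ : Cfsg.IrrCharacter G, χ.1 z / χ.1 1) := by
    rw [Finset.mul_sum, Finset.mul_sum]
    refine Finset.sum_congr rfl (fun χ _ => ?_)
    ring
  rw [h4] at h1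
  exact (mul_left_cancel₀ hG h1).symm

end Aux

/-- For an element z of a finite group G, the number of pairs (x, y) of elements with x y x⁻¹ y⁻¹ = z equals the order of G times the sum over the irreducible characters χ of χ(z)/χ(1). -/
theorem result {G : Type*} [Group G] [Finite G] (z : G) : (Nat.card {xy : G × G // xy.1 * xy.2 * xy.1⁻¹ * xy.2⁻¹ = z} : ℂ) = (Nat.card G : ℂ) * ∑ᶠ χ : Cfsg.IrrCharacter G, (χ : G → ℂ) z / (χ : G → ℂ) 1 := by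
  classical
  have := Fintype.ofFinite G
  have := irr_finite G
  have := Fintype.ofFinite (Cfsg.IrrCharacter G)
  rw [finsum_eq_sum_of_fintype]
  exact main_aux z

end Cfsg.Agent.S4856
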