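import Cfsg.Statements.S4870
import Cfsg.Agent.Lib.Helper81.MinNormal

set_option autoImplicit false
open Cfsg

namespace Cfsg.Agent.S4870

/-- Let G be a finite group with a non-abelian minimal normal subgroup N, and let φ be an irreducible complex character of N with stabilizer I in G (the elements g with φ(g n g⁻¹) = φ(n) for all n ∈ N) such that φ extends to an irreducible character of I. Put d = φ(1)·[G : I]. Then the number of linear characters of G is at most [G : I] times the number of irreducible characters of G of degree d. -/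
theorem result {G : Type*} [Group G] [Finite G] (N : Subgroup G) (hN : N.Normal) (hN1 : N ≠ ⊥) (hmin : ∀ M : Subgroup G, M.Normal → M ≤ N → M = ⊥ ∨ M = N) (hna : ¬ IsMulCommutative ↥N) (φ : Cfsg.IrrCharacter ↥N) (I : Subgroup G) (hI : ∀ g : G, g ∈ I ↔ ∀ n n' : ↥N, (n' : G) = g * (n : G) * g⁻¹ → (φ : ↥N → ℂ) n' = (φ : ↥N → ℂ) n) (hNI : N ≤ I) (hext : ∃ ψ : Cfsg.IrrCharacter ↥I, ∀ n : ↥N, (ψ : ↥I → ℂ) (Subgroup.inclusion hNI n) = (φ : ↥N → ℂ) n) : Nat.card {χ : Cfsg.IrrCharacter G // Cfsg.charDegree (χ : G → ℂ) = 1} ≤ I.index * Nat.card {χ : Cfsg.IrrCharacter G // Cfsg.charDegree (χ : G → ℂ) = Cfsg.charDegree (φ : ↥N → ℂ) * I.index} := by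
  classical
  have : Fintype G := Fintype.ofFinite G
  have hNn : N.Normal := hN
  have : Fintype ↥N := Fintype.ofFinite _
  have : Fintype ↥I := Fintype.ofFinite _
  have : Fintype (Cfsg.IrrCharacter G) := Fintype.ofFinite _
  obtain ⟨ψ, hψ⟩ := hext
  obtain ⟨hirr, hdeg, s, hst, hs⟩ := Lib.Helper81.indFun_irr_of_ext N φ I hI hNI ψ hψ
  have hNc := Lib.Helper81.le_commutator_of_minimal N hN hmin hna
  have hL1 : ∀ ν : {χ : Cfsg.IrrCharacter G // Cfsg.charDegree (χ : G → ℂ) = 1},
      (ν.1 : G → ℂ) 1 = 1 := fun ν => Lib.Helper81.linear_one ν.1 ν.2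
  let f : {χ : Cfsg.IrrCharacter G // Cfsg.charDegree (χ : G → ℂ) = 1} →
      {χ : Cfsg.IrrCharacter G //
        Cfsg.charDegree (χ : G → ℂ) = Cfsg.charDegree (φ : ↥N → ℂ) * I.index} := fun ν =>
    ⟨⟨(ν.1 : G → ℂ) * Cfsg.indFun I (ψ : ↥I → ℂ),
      Lib.Helper81.twist_irr (Lib.Helper80.isCharacter_of_isIrrCharacter ν.1.2) (hL1 ν) hirr⟩, by
      show Cfsg.charDegree ((ν.1 : G → ℂ) * Cfsg.indFun I (ψ : ↥I → ℂ)) = _
      rw [← hdeg]
      unfold Cfsg.charDegree
      rw [Pi.mul_apply, hL1 ν, one_mul]⟩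
  rw [Nat.card_eq_fintype_card, Nat.card_eq_fintype_card]
  calc Fintype.card {χ : Cfsg.IrrCharacter G // Cfsg.charDegree (χ : G → ℂ) = 1}
      = (Finset.univ : Finset {χ : Cfsg.IrrCharacter G //
          Cfsg.charDegree (χ : G → ℂ) = 1}).card := rfl
    _ ≤ I.index * ((Finset.univ : Finset {χ : Cfsg.IrrCharacter G //
          Cfsg.charDegree (χ : G → ℂ) = 1}).image f).card := by
        apply Finset.card_le_mul_card_image
        intro d hd
        obtain ⟨ν₁, _, rfl⟩ := Finset.mem_image.1 hd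
        have h1 := Lib.Helper81.card_twist_fiber_le N hNc hirr I.index s hst hs ν₁.1 (hL1 ν₁)
          ((Finset.univ.filter (fun ν : {χ : Cfsg.IrrCharacter G //
            Cfsg.charDegree (χ : G → ℂ) = 1} => f ν = f ν₁)).image Subtype.val) (by
          intro ν hν
          obtain ⟨ν', hν', rfl⟩ := Finset.mem_image.1 hν
          rw [Finset.mem_filter] at hν'
          refine ⟨hL1 ν', ?_⟩
          exact congrArg (fun d : {χ : Cfsg.IrrCharacter G //
            Cfsg.charDegree (χ : G → ℂ) = Cfsg.charDegree (φ : ↥N → ℂ) * I.index} =>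
              (d.1 : G → ℂ)) hν'.2)
        rwa [Finset.card_image_of_injective _ Subtype.val_injective] at h1
    _ ≤ I.index * Fintype.card {χ : Cfsg.IrrCharacter G //
          Cfsg.charDegree (χ : G → ℂ) = Cfsg.charDegree (φ : ↥N → ℂ) * I.index} :=
        Nat.mul_le_mul_left _ (Finset.card_le_univ _)

end Cfsg.Agent.S4870
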