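import Cfsg.Statements.S4871
import Cfsg.Agent.Lib.Helper81.SemiReal

set_option autoImplicit false
open Cfsg

namespace Cfsg.Agent.S4871

/-- Let G be a finite group that is the semidirect product of a normal elementary abelian subgroup N of odd order by a non-trivial 2-subgroup P, with N the unique minimal normal subgroup of G. Consider the strongly real irreducible complex characters of G (Frobenius–Schur indicator +1) whose degree is 1 or even. Then their average degree is at least 4/3: four times their number is at most three times the sum of their degrees. -/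
theorem result {G : Type*} [Group G] [Finite G] (N P : Subgroup G) (hN : N.Normal) (q : ℕ) [Fact q.Prime] (hq : q ≠ 2) (hNel : Cfsg.IsElementaryAbelian q N) (hP : IsPGroup 2 ↥P) (hP1 : P ≠ ⊥) (hdisj : N ⊓ P = ⊥) (hprod : N ⊔ P = ⊤) (hmin : N ≠ ⊥ ∧ ∀ M : Subgroup G, M.Normal → M ≠ ⊥ → N ≤ M) : 4 * Nat.card {χ : Cfsg.IrrCharacter G // (Cfsg.charDegree (χ : G → ℂ) = 1 ∨ 2 ∣ Cfsg.charDegree (χ : G → ℂ)) ∧ (Nat.card G : ℂ)⁻¹ * ∑ᶠ g : G, (χ : G → ℂ) (g * g) = 1} ≤ 3 * (∑ᶠ χ : {χ : Cfsg.IrrCharacter G // (Cfsg.charDegree (χ : G → ℂ) = 1 ∨ 2 ∣ Cfsg.charDegree (χ : G → ℂ)) ∧ (Nat.card G : ℂ)⁻¹ * ∑ᶠ g : G, (χ : G → ℂ) (g * g) = 1}, Cfsg.charDegree (χ.1 : G → ℂ)) := by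
  classical
  have : Fintype G := Fintype.ofFinite G
  have hNn : N.Normal := hN
  have : Fintype ↥N := Fintype.ofFinite _
  have : Fintype ↥P := Fintype.ofFinite _
  have : Fintype (Cfsg.IrrCharacter G) := Fintype.ofFinite _
  obtain ⟨hcomm, hexp⟩ := hNel
  have hab : ∀ a ∈ N, ∀ b ∈ N, a * b = b * a := by
    intro a ha b hb
    have h1 := hcomm.is_comm.comm (⟨a, ha⟩ : ↥N) ⟨b, hb⟩
    exact congrArg Subtype.val h1
  have hqodd : Odd q := (Fact.out : q.Prime).odd_of_ne_two hq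
  obtain ⟨z, hzP, hz1, hz2, hzc⟩ := Lib.Helper81.exists_central_involution P hP hP1
  have hz := Lib.Helper81.inverts_of_central_involution N P hdisj hprod hab hmin.2 hmin.1
    hzP hz1 hz2 hzc
  have hNc := Lib.Helper81.le_commutator_of_inverted N q hqodd hexp hz
  -- a nontrivial linear character of `N`
  obtain ⟨a, ha⟩ : ∃ a : ↥N, a ≠ 1 := by
    by_contra hcon
    push Not at hcon
    apply hmin.1
    rw [Subgroup.eq_bot_iff_forall]
    intro x hx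
    exact congrArg Subtype.val (hcon ⟨x, hx⟩)
  obtain ⟨lam, hlam⟩ := Lib.Helper81.exists_hom_ne_one_of_comm
    (fun x y : ↥N => hcomm.is_comm.comm x y) ha
  -- its stabilizer
  have hNI : N ≤ Lib.Helper81.linStab N lam := Lib.Helper81.le_linStab N lam hab
  have : Fintype ↥(Lib.Helper81.linStab N lam) := Fintype.ofFinite _
  have hzI : z ∉ Lib.Helper81.linStab N lam :=
    Lib.Helper81.not_mem_linStab_of_inverts N lam hlam q hqodd hexp hz
  obtain ⟨ψ, hψext, hψfs⟩ := Lib.Helper81.exists_ext_fs_one N P hdisj hprod lam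
    (Lib.Helper81.linStab N lam) (Lib.Helper81.mem_linStab N lam) hNI hzP hz2 hz
  have hext : ∀ n : ↥N, (fun x : ↥(Lib.Helper81.linStab N lam) => ((ψ x : ℂˣ) : ℂ))
      (Subgroup.inclusion hNI n) = (fun n : ↥N => ((lam n : ℂˣ) : ℂ)) n := by
    intro n
    show ((ψ (Subgroup.inclusion hNI n) : ℂˣ) : ℂ) = ((lam n : ℂˣ) : ℂ)
    rw [hψext]
  obtain ⟨hirr, hdeg, s, hst, hs⟩ := Lib.Helper81.indFun_irr_of_ext N
    ⟨fun n : ↥N => ((lam n : ℂˣ) : ℂ), Lib.Helper80.isIrrCharacter_of_hom lam⟩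
    (Lib.Helper81.linStab N lam) (Lib.Helper81.mem_linStab' N lam) hNI
    ⟨fun x : ↥(Lib.Helper81.linStab N lam) => ((ψ x : ℂˣ) : ℂ),
      Lib.Helper80.isIrrCharacter_of_hom ψ⟩ hext
  have hdeg1 : Cfsg.charDegree (fun n : ↥N => ((lam n : ℂˣ) : ℂ)) = 1 :=
    Lib.Helper80.charDegree_of_hom lam
  simp only [hdeg1, one_mul] at hdeg
  -- the index `t` of the stabilizer is even
  have ht1 : (Lib.Helper81.linStab N lam).index ≠ 1 := by
    intro h1
    rw [Subgroup.index_eq_one] at h1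
    apply hzI
    rw [h1]
    exact Subgroup.mem_top z
  have ht2 : 2 ∣ (Lib.Helper81.linStab N lam).index := by
    have h1 : (Lib.Helper81.linStab N lam).index ∣ N.index := Subgroup.index_dvd_of_le hNI
    rw [Lib.Helper81.index_eq_card_of_np N P hdisj hprod] at h1
    obtain ⟨k, hk⟩ := (IsPGroup.iff_card).1 hP
    rw [hk] at h1
    obtain ⟨j, _, hj⟩ := (Nat.dvd_prime_pow Nat.prime_two).1 h1
    rw [hj] at ht1 ⊢
    have hj0 : j ≠ 0 := by
      rintro rfl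
      exact ht1 (pow_zero 2)
    exact dvd_pow_self 2 hj0
  have ht3 : 2 ≤ (Lib.Helper81.linStab N lam).index := Nat.le_of_dvd
    (Nat.pos_of_ne_zero Subgroup.index_ne_zero_of_finite) ht2
  -- linear strongly real characters
  have hL1 : ∀ ν : {χ : Cfsg.IrrCharacter G // (Cfsg.charDegree (χ : G → ℂ) = 1 ∨ 2 ∣ Cfsg.charDegree (χ : G → ℂ)) ∧ (Nat.card G : ℂ)⁻¹ * ∑ᶠ g : G, (χ : G → ℂ) (g * g) = 1}, Cfsg.charDegree (ν.1 : G → ℂ) = 1 → (ν.1 : G → ℂ) 1 = 1 :=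
    fun ν h => Lib.Helper81.linear_one ν.1 h
  have hLsq : ∀ ν : {χ : Cfsg.IrrCharacter G // (Cfsg.charDegree (χ : G → ℂ) = 1 ∨ 2 ∣ Cfsg.charDegree (χ : G → ℂ)) ∧ (Nat.card G : ℂ)⁻¹ * ∑ᶠ g : G, (χ : G → ℂ) (g * g) = 1}, Cfsg.charDegree (ν.1 : G → ℂ) = 1 →
      ∀ g : G, (ν.1 : G → ℂ) (g * g) = 1 := by
    intro ν h1 g
    apply Lib.Helper81.linear_sq_of_fs ν.1 (hL1 ν h1)
    have h := ν.2.2
    rw [finsum_eq_sum_of_fintype] at h
    intro h0
    rw [h0, mul_zero] at h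
    exact zero_ne_one h
  -- the twisting map
  let f : {χ : Cfsg.IrrCharacter G // (Cfsg.charDegree (χ : G → ℂ) = 1 ∨ 2 ∣ Cfsg.charDegree (χ : G → ℂ)) ∧ (Nat.card G : ℂ)⁻¹ * ∑ᶠ g : G, (χ : G → ℂ) (g * g) = 1} → {χ : Cfsg.IrrCharacter G // (Cfsg.charDegree (χ : G → ℂ) = 1 ∨ 2 ∣ Cfsg.charDegree (χ : G → ℂ)) ∧ (Nat.card G : ℂ)⁻¹ * ∑ᶠ g : G, (χ : G → ℂ) (g * g) = 1} := fun ν =>
    if h1 : Cfsg.charDegree (ν.1 : G → ℂ) = 1 then
      ⟨⟨(ν.1 : G → ℂ) * Cfsg.indFun (Lib.Helper81.linStab N lam)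
          (fun x : ↥(Lib.Helper81.linStab N lam) => ((ψ x : ℂˣ) : ℂ)),
        Lib.Helper81.twist_irr (Lib.Helper80.isCharacter_of_isIrrCharacter ν.1.2) (hL1 ν h1)
          hirr⟩, by
        have hd : Cfsg.charDegree ((ν.1 : G → ℂ) * Cfsg.indFun (Lib.Helper81.linStab N lam)
            (fun x : ↥(Lib.Helper81.linStab N lam) => ((ψ x : ℂˣ) : ℂ))) =
            (Lib.Helper81.linStab N lam).index := by
          rw [← hdeg]
          unfold Cfsg.charDegree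
          rw [Pi.mul_apply, hL1 ν h1, one_mul]
        constructor
        · right
          show 2 ∣ Cfsg.charDegree ((ν.1 : G → ℂ) * Cfsg.indFun (Lib.Helper81.linStab N lam)
            (fun x : ↥(Lib.Helper81.linStab N lam) => ((ψ x : ℂˣ) : ℂ)))
          rw [hd]
          exact ht2
        · show (Nat.card G : ℂ)⁻¹ * ∑ᶠ g : G, ((ν.1 : G → ℂ) *
            Cfsg.indFun (Lib.Helper81.linStab N lam)
              (fun x : ↥(Lib.Helper81.linStab N lam) => ((ψ x : ℂˣ) : ℂ))) (g * g) = 1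
          rw [finsum_eq_sum_of_fintype]
          refine Eq.trans ?_ hψfs
          congr 1
          refine Finset.sum_congr rfl (fun g _ => ?_)
          rw [Pi.mul_apply, hLsq ν h1 g, one_mul]⟩
    else ν
  have hfval : ∀ ν : {χ : Cfsg.IrrCharacter G // (Cfsg.charDegree (χ : G → ℂ) = 1 ∨ 2 ∣ Cfsg.charDegree (χ : G → ℂ)) ∧ (Nat.card G : ℂ)⁻¹ * ∑ᶠ g : G, (χ : G → ℂ) (g * g) = 1}, Cfsg.charDegree (ν.1 : G → ℂ) = 1 →
      ((f ν).1 : G → ℂ) = (ν.1 : G → ℂ) * Cfsg.indFun (Lib.Helper81.linStab N lam)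
        (fun x : ↥(Lib.Helper81.linStab N lam) => ((ψ x : ℂˣ) : ℂ)) := by
    intro ν h1
    simp only [f, dif_pos h1]
  have hfdeg : ∀ ν : {χ : Cfsg.IrrCharacter G // (Cfsg.charDegree (χ : G → ℂ) = 1 ∨ 2 ∣ Cfsg.charDegree (χ : G → ℂ)) ∧ (Nat.card G : ℂ)⁻¹ * ∑ᶠ g : G, (χ : G → ℂ) (g * g) = 1}, Cfsg.charDegree (ν.1 : G → ℂ) = 1 →
      Cfsg.charDegree ((f ν).1 : G → ℂ) = (Lib.Helper81.linStab N lam).index := by
    intro ν h1
    rw [hfval ν h1, ← hdeg]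
    unfold Cfsg.charDegree
    rw [Pi.mul_apply, hL1 ν h1, one_mul]
  -- the count of linear ones
  have hAD : ((Finset.univ : Finset {χ : Cfsg.IrrCharacter G // (Cfsg.charDegree (χ : G → ℂ) = 1 ∨ 2 ∣ Cfsg.charDegree (χ : G → ℂ)) ∧ (Nat.card G : ℂ)⁻¹ * ∑ᶠ g : G, (χ : G → ℂ) (g * g) = 1}).filter
        (fun ν => Cfsg.charDegree (ν.1 : G → ℂ) = 1)).card ≤
      (Lib.Helper81.linStab N lam).index * ((Finset.univ : Finset {χ : Cfsg.IrrCharacter G // (Cfsg.charDegree (χ : G → ℂ) = 1 ∨ 2 ∣ Cfsg.charDegree (χ : G → ℂ)) ∧ (Nat.card G : ℂ)⁻¹ * ∑ᶠ g : G, (χ : G → ℂ) (g * g) = 1}).filter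
        (fun ν => Cfsg.charDegree (ν.1 : G → ℂ) = (Lib.Helper81.linStab N lam).index)).card := by
    calc ((Finset.univ : Finset {χ : Cfsg.IrrCharacter G // (Cfsg.charDegree (χ : G → ℂ) = 1 ∨ 2 ∣ Cfsg.charDegree (χ : G → ℂ)) ∧ (Nat.card G : ℂ)⁻¹ * ∑ᶠ g : G, (χ : G → ℂ) (g * g) = 1}).filter
          (fun ν => Cfsg.charDegree (ν.1 : G → ℂ) = 1)).card
        ≤ (Lib.Helper81.linStab N lam).index * (((Finset.univ : Finset {χ : Cfsg.IrrCharacter G // (Cfsg.charDegree (χ : G → ℂ) = 1 ∨ 2 ∣ Cfsg.charDegree (χ : G → ℂ)) ∧ (Nat.card G : ℂ)⁻¹ * ∑ᶠ g : G, (χ : G → ℂ) (g * g) = 1}).filter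
          (fun ν => Cfsg.charDegree (ν.1 : G → ℂ) = 1)).image f).card := by
          apply Finset.card_le_mul_card_image
          intro d hd
          obtain ⟨ν₁, hν₁, rfl⟩ := Finset.mem_image.1 hd
          have hν₁1 : Cfsg.charDegree (ν₁.1 : G → ℂ) = 1 := (Finset.mem_filter.1 hν₁).2
          have h1 := Lib.Helper81.card_twist_fiber_le N hNc hirr
            (Lib.Helper81.linStab N lam).index s hst hs ν₁.1 (hL1 ν₁ hν₁1)
            ((((Finset.univ : Finset {χ : Cfsg.IrrCharacter G // (Cfsg.charDegree (χ : G → ℂ) = 1 ∨ 2 ∣ Cfsg.charDegree (χ : G → ℂ)) ∧ (Nat.card G : ℂ)⁻¹ * ∑ᶠ g : G, (χ : G → ℂ) (g * g) = 1}).filter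
              (fun ν => Cfsg.charDegree (ν.1 : G → ℂ) = 1)).filter
                (fun ν => f ν = f ν₁)).image Subtype.val) (by
            intro ν hν
            obtain ⟨ν', hν', rfl⟩ := Finset.mem_image.1 hν
            rw [Finset.mem_filter, Finset.mem_filter] at hν'
            refine ⟨hL1 ν' hν'.1.2, ?_⟩
            rw [← hfval ν' hν'.1.2, ← hfval ν₁ hν₁1, hν'.2])
          rwa [Finset.card_image_of_injective _ Subtype.val_injective] at h1
      _ ≤ (Lib.Helper81.linStab N lam).index * ((Finset.univ : Finset {χ : Cfsg.IrrCharacter G // (Cfsg.charDegree (χ : G → ℂ) = 1 ∨ 2 ∣ Cfsg.charDegree (χ : G → ℂ)) ∧ (Nat.card G : ℂ)⁻¹ * ∑ᶠ g : G, (χ : G → ℂ) (g * g) = 1}).filter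
          (fun ν => Cfsg.charDegree (ν.1 : G → ℂ) = (Lib.Helper81.linStab N lam).index)).card := by
          apply Nat.mul_le_mul_left
          apply Finset.card_le_card
          intro d hd
          obtain ⟨ν₁, hν₁, rfl⟩ := Finset.mem_image.1 hd
          rw [Finset.mem_filter]
          exact ⟨Finset.mem_univ _, hfdeg ν₁ (Finset.mem_filter.1 hν₁).2⟩
  -- pointwise inequality
  have hpt : ∀ χ : {χ : Cfsg.IrrCharacter G // (Cfsg.charDegree (χ : G → ℂ) = 1 ∨ 2 ∣ Cfsg.charDegree (χ : G → ℂ)) ∧ (Nat.card G : ℂ)⁻¹ * ∑ᶠ g : G, (χ : G → ℂ) (g * g) = 1},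
      4 + (3 * (Lib.Helper81.linStab N lam).index - 4) *
        (if Cfsg.charDegree (χ.1 : G → ℂ) = (Lib.Helper81.linStab N lam).index then 1 else 0) ≤
      3 * Cfsg.charDegree (χ.1 : G → ℂ) +
        (if Cfsg.charDegree (χ.1 : G → ℂ) = 1 then 1 else 0) := by
    intro χ
    by_cases h1 : Cfsg.charDegree (χ.1 : G → ℂ) = 1
    · rw [if_pos h1, if_neg (by omega), h1]
      omega
    · rw [if_neg h1]
      have h2 : 2 ≤ Cfsg.charDegree (χ.1 : G → ℂ) := by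
        rcases χ.2.1 with h | h
        · exact absurd h h1
        · exact Nat.le_of_dvd (Lib.Helper80.charDegree_pos χ.1.2) h
      by_cases h3 : Cfsg.charDegree (χ.1 : G → ℂ) = (Lib.Helper81.linStab N lam).index
      · rw [if_pos h3, h3]
        omega
      · rw [if_neg h3]
        omega
  have hsum := Finset.sum_le_sum (fun χ (_ : χ ∈ (Finset.univ : Finset {χ : Cfsg.IrrCharacter G // (Cfsg.charDegree (χ : G → ℂ) = 1 ∨ 2 ∣ Cfsg.charDegree (χ : G → ℂ)) ∧ (Nat.card G : ℂ)⁻¹ * ∑ᶠ g : G, (χ : G → ℂ) (g * g) = 1})) => hpt χ)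
  rw [Finset.sum_add_distrib, Finset.sum_add_distrib, Finset.sum_const, ← Finset.mul_sum,
    ← Finset.mul_sum, Finset.sum_boole, Finset.sum_boole, smul_eq_mul] at hsum
  rw [finsum_eq_sum_of_fintype, Nat.card_eq_fintype_card (α := {χ : Cfsg.IrrCharacter G // (Cfsg.charDegree (χ : G → ℂ) = 1 ∨ 2 ∣ Cfsg.charDegree (χ : G → ℂ)) ∧ (Nat.card G : ℂ)⁻¹ * ∑ᶠ g : G, (χ : G → ℂ) (g * g) = 1})]
  have hU : Fintype.card {χ : Cfsg.IrrCharacter G // (Cfsg.charDegree (χ : G → ℂ) = 1 ∨ 2 ∣ Cfsg.charDegree (χ : G → ℂ)) ∧ (Nat.card G : ℂ)⁻¹ * ∑ᶠ g : G, (χ : G → ℂ) (g * g) = 1} = (Finset.univ : Finset {χ : Cfsg.IrrCharacter G // (Cfsg.charDegree (χ : G → ℂ) = 1 ∨ 2 ∣ Cfsg.charDegree (χ : G → ℂ)) ∧ (Nat.card G : ℂ)⁻¹ * ∑ᶠ g : G, (χ : G → ℂ) (g * g) = 1}).card := rfl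
  rw [hU]
  simp only [Nat.cast_id] at hsum
  have h5 : (Lib.Helper81.linStab N lam).index ≤ 3 * (Lib.Helper81.linStab N lam).index - 4 := by
    omega
  have h6 := Nat.mul_le_mul_right ((Finset.univ : Finset {χ : Cfsg.IrrCharacter G // (Cfsg.charDegree (χ : G → ℂ) = 1 ∨ 2 ∣ Cfsg.charDegree (χ : G → ℂ)) ∧ (Nat.card G : ℂ)⁻¹ * ∑ᶠ g : G, (χ : G → ℂ) (g * g) = 1}).filter
        (fun ν => Cfsg.charDegree (ν.1 : G → ℂ) = (Lib.Helper81.linStab N lam).index)).card h5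
  linarith

end Cfsg.Agent.S4871
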