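import Cfsg.Statements.S4888
import Cfsg.Agent.Lib.Helper79.IsaacsSmith
import Cfsg.Agent.Lib.Helper79.QuotBlock
import Cfsg.Agent.Lib.Helper54.Frobenius
import Cfsg.Agent.Lib.Helper80.CharKer

set_option autoImplicit false
open Cfsg

namespace Cfsg.Agent.S4888

/-- Let G be a finite group, p a prime and M a maximal ideal of the algebraic integers containing p. Then all height-zero irreducible characters of the principal p-block of G (equivalently, all its characters of degree prime to p) have the same degree if and only if G has a normal p-complement. -/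
theorem result {G : Type*} [Group G] [Finite G] (p : ℕ) [Fact p.Prime] (M : Ideal Cfsg.AlgInt) (hM : Cfsg.IsPModular p M) : (∃ d : ℕ, ∀ χ : Cfsg.IrrCharacter G, χ ∈ (Cfsg.principalBlock M G) → Cfsg.blockHeight p (Cfsg.principalBlock M G) (χ : G → ℂ) = 0 → Cfsg.charDegree (χ : G → ℂ) = d) ↔ Cfsg.HasNormalPComplement p G := by
  classical
  let _ : Fintype G := Fintype.ofFinite G
  have hp : p.Prime := Fact.out
  have hMp := Cfsg.Agent.Lib.Helper16.isPrime_of_isPModular hM
  have htB : Cfsg.Agent.Lib.Helper77.trivIrr G ∈ Cfsg.principalBlock M G :=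
    Cfsg.Agent.Lib.Helper77.trivIrr_mem_principalBlock hMp
  have htriv : Cfsg.charDegree (Cfsg.Agent.Lib.Helper77.trivIrr G : G → ℂ) = 1 := by
    unfold Cfsg.charDegree
    simp [Cfsg.Agent.Lib.Helper77.trivIrr_apply]
  have hInf : sInf ((fun ψ : Cfsg.IrrCharacter G =>
      (Cfsg.charDegree (ψ : G → ℂ)).factorization p) '' Cfsg.principalBlock M G) = 0 := by
    apply Nat.eq_zero_of_le_zero
    apply Nat.sInf_le
    refine ⟨Cfsg.Agent.Lib.Helper77.trivIrr G, htB, ?_⟩
    show (Cfsg.charDegree (Cfsg.Agent.Lib.Helper77.trivIrr G : G → ℂ)).factorization p = 0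
    rw [htriv]
    simp
  have hheight : ∀ χ : Cfsg.IrrCharacter G,
      Cfsg.blockHeight p (Cfsg.principalBlock M G) (χ : G → ℂ) = 0 ↔
        ¬ p ∣ Cfsg.charDegree (χ : G → ℂ) := by
    intro χ
    unfold Cfsg.blockHeight
    rw [hInf, Nat.sub_zero]
    have hpos := (Cfsg.Agent.Lib.Helper79.irr_charDegree χ.2).2.1
    constructor
    · intro h hdvd
      have := hp.factorization_pos_of_dvd hpos.ne' hdvd
      omega
    · intro h
      exact Nat.factorization_eq_zero_of_not_dvd h
  have h1nd : ¬ p ∣ 1 := fun h => hp.one_lt.ne' (Nat.dvd_one.mp h)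
  constructor
  · rintro ⟨d, hd⟩
    have hd1 : d = 1 := by
      have := hd (Cfsg.Agent.Lib.Helper77.trivIrr G) htB
        ((hheight _).mpr (by rw [htriv]; exact h1nd))
      rw [htriv] at this
      exact this.symm
    apply Cfsg.Agent.Lib.Helper79.hasNormalPComplement_of_linear p M hM
    intro χ hχ hnd
    rw [hd χ hχ ((hheight χ).mpr hnd), hd1]
  · intro h
    refine ⟨1, fun χ hχ hht => ?_⟩
    obtain ⟨K, hK⟩ := Cfsg.Agent.Lib.Helper54.hasNormalPComplement_iff.mp h
    have hKn : K.Normal := hK.1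
    have hpK : ¬ p ∣ Nat.card K := by
      intro hd
      exact hp.ne_one (Nat.Coprime.eq_one_of_dvd hK.2.1.symm hd)
    have hs : Cfsg.SameBlock M (Cfsg.Agent.Lib.Helper77.trivIrr G : G → ℂ) (χ : G → ℂ) := hχ
    have hker : ∀ n ∈ K, (χ : G → ℂ) n = (χ : G → ℂ) 1 :=
      Cfsg.Agent.Lib.Helper79.ker_of_sameBlock_of_coprime K hM hpK hs (fun n _ => rfl)
    obtain ⟨ψ, hψ, hψχ⟩ := Cfsg.Agent.Lib.Helper80.exists_isIrrCharacter_deflate K χ.2 hker
    obtain ⟨h1, hpos, hdvd⟩ := Cfsg.Agent.Lib.Helper79.irr_charDegree hψ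
    obtain ⟨h1', -, -⟩ := Cfsg.Agent.Lib.Helper79.irr_charDegree χ.2
    have hdeg : Cfsg.charDegree ψ = Cfsg.charDegree (χ : G → ℂ) := by
      have e := hψχ 1
      rw [QuotientGroup.mk_one, h1, h1'] at e
      exact_mod_cast e
    obtain ⟨k, hk⟩ := hK.2.2
    rw [← Subgroup.index_eq_card, hk, hdeg] at hdvd
    obtain ⟨j, -, hj⟩ := (Nat.dvd_prime_pow hp).mp hdvd
    have hnd := (hheight χ).mp hht
    rcases Nat.eq_zero_or_pos j with h0 | hjpos
    · rw [hj, h0, pow_zero]
    · exfalso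
      apply hnd
      rw [hj]
      exact dvd_pow_self p hjpos.ne'

end Cfsg.Agent.S4888
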