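import Cfsg.Statements.S4911
import Cfsg.Agent.Lib.Helper81.RealGlaub

set_option autoImplicit false
open Cfsg

namespace Cfsg.Agent.S4911

/-- Let P and K be subgroups of a finite group with P a p-group normalizing K and K of order prime to p. Then the number of P-invariant real-valued irreducible complex characters of K equals the number of conjugacy classes of K that are real (closed under inversion) and P-invariant. Moreover, if every real-valued irreducible character of K is P-invariant, then every real element of K (one conjugate in K to its inverse) is conjugate in K to an element centralized by P. -/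
theorem result {G : Type*} [Group G] [Finite G] (p : ℕ) [Fact p.Prime] (P K : Subgroup G) (hP : IsPGroup p ↥P) (hK : ¬ p ∣ Nat.card ↥K) (hPK : P ≤ Subgroup.normalizer (K : Set G)) : Nat.card {θ : Cfsg.IrrCharacter ↥K // (∀ k : ↥K, ((θ : ↥K → ℂ) k).im = 0) ∧ (∀ x ∈ P, ∀ k k' : ↥K, (k' : G) = x * (k : G) * x⁻¹ → (θ : ↥K → ℂ) k' = (θ : ↥K → ℂ) k)} = Nat.card {c : ConjClasses ↥K // (∀ k : ↥K, ConjClasses.mk k = c → IsConj k k⁻¹) ∧ ∀ k : ↥K, ConjClasses.mk k = c → ∀ x ∈ P, ∀ k' : ↥K, (k' : G) = x * (k : G) * x⁻¹ → ConjClasses.mk k' = c} ∧ ((∀ θ : Cfsg.IrrCharacter ↥K, (∀ k : ↥K, ((θ : ↥K → ℂ) k).im = 0) → (∀ x ∈ P, ∀ k k' : ↥K, (k' : G) = x * (k : G) * x⁻¹ → (θ : ↥K → ℂ) k' = (θ : ↥K → ℂ) k)) → ∀ k : ↥K, IsConj k k⁻¹ → ∃ k' : ↥K, IsConj k k' ∧ ∀ x ∈ P, x * (k' : G) * x⁻¹ = (k' : G)) := by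
  classical
  have hp : p.Prime := Fact.out
  have hAK : ∀ a ∈ P.map (MulAut.conj : G →* MulAut G), ∀ g ∈ K, a g ∈ K := by
    rintro _ ⟨x, hx, rfl⟩ g hg
    rw [MulAut.conj_apply]
    exact (Subgroup.mem_normalizer_iff.1 (hPK hx) g).1 hg
  have hA : IsPGroup p (P.map (MulAut.conj : G →* MulAut G)) := hP.map _
  have hAp : IsPGroup p (Lib.Helper81.resAut K (P.map (MulAut.conj : G →* MulAut G)) hAK).range :=
    hA.of_surjective (Lib.Helper81.resAut K (P.map (MulAut.conj : G →* MulAut G)) hAK).rangeRestrict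
      (MonoidHom.rangeRestrict_surjective _)
  have e1 : ∀ χ : Cfsg.IrrCharacter K,
      (∀ x ∈ P, ∀ k k' : K, (k' : G) = x * (k : G) * x⁻¹ → (χ : K → ℂ) k' = (χ : K → ℂ) k) ↔
      Lib.Helper81.InvR (P.map (MulAut.conj : G →* MulAut G)) K (χ : K → ℂ) := by
    intro χ
    constructor
    · rintro h _ ⟨s, hs, rfl⟩ g hmem
      exact h s hs g ⟨_, hmem⟩ (MulAut.conj_apply s _)
    · intro h s hs g g' hgg'
      have hmem : (MulAut.conj s) (g : G) ∈ K := by
        rw [MulAut.conj_apply, ← hgg']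
        exact g'.2
      have h2 := h (MulAut.conj s) (Subgroup.mem_map_of_mem _ hs) g hmem
      have h3 : g' = ⟨(MulAut.conj s) (g : G), hmem⟩ :=
        Subtype.ext (hgg'.trans (MulAut.conj_apply s _).symm)
      rw [h3]
      exact h2
  have e2 : ∀ c : ConjClasses K,
      (∀ k : K, ConjClasses.mk k = c → ∀ x ∈ P, ∀ k' : K, (k' : G) = x * (k : G) * x⁻¹ →
        ConjClasses.mk k' = c) ↔
      Lib.Helper81.InvClass (P.map (MulAut.conj : G →* MulAut G)) K c := by
    intro c
    constructor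
    · rintro h _ ⟨s, hs, rfl⟩ g hmem hg
      exact h g hg s hs ⟨_, hmem⟩ (MulAut.conj_apply s _)
    · intro h g hg s hs g' hgg'
      have hmem : (MulAut.conj s) (g : G) ∈ K := by
        rw [MulAut.conj_apply, ← hgg']
        exact g'.2
      have h2 := h (MulAut.conj s) (Subgroup.mem_map_of_mem _ hs) g hmem hg
      have h3 : g' = ⟨(MulAut.conj s) (g : G), hmem⟩ :=
        Subtype.ext (hgg'.trans (MulAut.conj_apply s _).symm)
      rw [h3]
      exact h2
  constructor
  · rw [Nat.card_congr (Equiv.subtypeEquivRight (fun χ => and_congr Iff.rfl (e1 χ))),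
      Nat.card_congr (Equiv.subtypeEquivRight (fun c => and_congr Iff.rfl (e2 c)))]
    exact Lib.Helper81.card_real_inv_irr _ K hAK p hp hK hAp
  · intro hall k hk
    have hinv := Lib.Helper81.real_class_inv_of_real_irr_inv _ K hAK p hp hK hAp
      (fun χ hr => (e1 χ).1 (hall χ hr)) (ConjClasses.mk k)
      (fun g hg => Lib.Helper81.real_class_of_real hk g hg)
    obtain ⟨c, hc⟩ := Lib.Helper81.exists_fix_of_inv_class K _ hAK p hp hK hAp _ hinv
    refine ⟨Subgroup.inclusion inf_le_left c, ConjClasses.mk_eq_mk_iff_isConj.1 hc.symm,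
      fun x hx => ?_⟩
    have h1 := c.2.2 (MulAut.conj x) (Subgroup.mem_map_of_mem _ hx)
    rw [MulAut.conj_apply] at h1
    exact h1

end Cfsg.Agent.S4911
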