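import Cfsg.Statements.S4914
import Cfsg.Agent.Lib.Helper81.RelGlaub

set_option autoImplicit false
open Cfsg

namespace Cfsg.Agent.S4914

/-- Let P and K be subgroups of a finite group G with P a p-group normalizing K, and suppose K has a normal Sylow p-subgroup Q. Let C be the subgroup of those k ∈ K whose commutator with every element of P lies in Q (so that C/Q is the fixed-point subgroup of P on K/Q). Then there is a bijection f from the P-invariant irreducible complex characters of K onto the P-invariant irreducible complex characters of C such that, for every P-invariant irreducible character χ of K, the multiplicity of f(χ) in the restriction of χ to C is a natural number congruent to 1 or to −1 modulo p, every other P-invariant irreducible character of C occurs in that restriction with multiplicity divisible by p, and the degrees of χ and f(χ) are congruent modulo p up to sign. -/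
theorem result {G : Type*} [Group G] [Finite G] (p : ℕ) [Fact p.Prime] (P K Q C : Subgroup G) (hP : IsPGroup p ↥P) (hPK : P ≤ Subgroup.normalizer (K : Set G)) (hQK : Q ≤ K) (hQn : ∀ k ∈ K, ∀ q ∈ Q, k * q * k⁻¹ ∈ Q) (hQp : ∃ a : ℕ, Nat.card ↥Q = p ^ a) (hQsyl : ¬ p ∣ Q.relIndex K) (hCK : C ≤ K) (hC : ∀ k : G, k ∈ C ↔ (k ∈ K ∧ ∀ x ∈ P, x * k * x⁻¹ * k⁻¹ ∈ Q)) : ∃ f : {χ : Cfsg.IrrCharacter ↥K // (∀ x ∈ P, ∀ k k' : ↥K, (k' : G) = x * (k : G) * x⁻¹ → (χ : ↥K → ℂ) k' = (χ : ↥K → ℂ) k)} → {ξ : Cfsg.IrrCharacter ↥C // (∀ x ∈ P, ∀ k k' : ↥C, (k' : G) = x * (k : G) * x⁻¹ → (ξ : ↥C → ℂ) k' = (ξ : ↥C → ℂ) k)}, Function.Bijective f ∧ ∀ χ, (∀ ξ : {ξ : Cfsg.IrrCharacter ↥C // (∀ x ∈ P, ∀ k k' : ↥C, (k' : G) = x * (k : G) * x⁻¹ → (ξ : ↥C → ℂ) k' = (ξ : ↥C → ℂ) k)}, ∃ m : ℕ, (Nat.card ↥C : ℂ)⁻¹ * ∑ᶠ c : ↥C, (χ.1 : ↥K → ℂ) (Subgroup.inclusion hCK c) * (starRingEnd ℂ) ((ξ.1 : ↥C → ℂ) c) = (m : ℂ) ∧ (ξ = f χ → ((m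 : ZMod p) = 1 ∨ (m : ZMod p) = -1)) ∧ (ξ ≠ f χ → p ∣ m)) ∧ ((Cfsg.charDegree ((f χ).1 : ↥C → ℂ) : ZMod p) = (Cfsg.charDegree (χ.1 : ↥K → ℂ) : ZMod p) ∨ (Cfsg.charDegree ((f χ).1 : ↥C → ℂ) : ZMod p) = -(Cfsg.charDegree (χ.1 : ↥K → ℂ) : ZMod p)) := by
  classical
  have hp : p.Prime := Fact.out
  have : Fintype G := Fintype.ofFinite G
  have : Fintype K := Fintype.ofFinite K
  have : Fintype Q := Fintype.ofFinite Q
  have : Fintype C := Fintype.ofFinite C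
  have hAK : ∀ a ∈ P.map (MulAut.conj : G →* MulAut G), ∀ g ∈ K, a g ∈ K := by
    rintro _ ⟨x, hx, rfl⟩ g hg
    rw [MulAut.conj_apply]
    exact (Subgroup.mem_normalizer_iff.1 (hPK hx) g).1 hg
  have hA : IsPGroup p (P.map (MulAut.conj : G →* MulAut G)) := hP.map _
  have hAQ : ∀ a ∈ P.map (MulAut.conj : G →* MulAut G), ∀ q ∈ Q, a q ∈ Q := by
    rintro _ ⟨x, hx, rfl⟩ q hq
    rw [MulAut.conj_apply]
    obtain ⟨a, ha⟩ := hQp
    have hrK : x * q * x⁻¹ ∈ K := (Subgroup.mem_normalizer_iff.1 (hPK hx) q).1 (hQK hq)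
    have h1 : (⟨q, hq⟩ : Q) ^ (p ^ a) = 1 := by
      rw [← ha]
      exact pow_card_eq_one'
    have h2 : q ^ (p ^ a) = 1 := by
      have h3 := congrArg Subtype.val h1
      simpa using h3
    have hpow : (x * q * x⁻¹) ^ (p ^ a) = 1 := by
      rw [conj_pow, h2, mul_one, mul_inv_cancel]
    exact Lib.Helper81.mem_of_pow_eq_one K Q p hQn hQsyl _ hrK a hpow
  have hC' : ∀ x : G, x ∈ C ↔ x ∈ K ∧
      ∀ a ∈ P.map (MulAut.conj : G →* MulAut G), a x * x⁻¹ ∈ Q := by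
    intro k
    rw [hC]
    constructor
    · rintro ⟨hk, h⟩
      refine ⟨hk, ?_⟩
      rintro _ ⟨x, hx, rfl⟩
      rw [MulAut.conj_apply]
      exact h x hx
    · rintro ⟨hk, h⟩
      refine ⟨hk, fun x hx => ?_⟩
      have h1 := h (MulAut.conj x) (Subgroup.mem_map_of_mem _ hx)
      rwa [MulAut.conj_apply] at h1
  have gl := Lib.Helper81.rel_glauberman K Q C (P.map (MulAut.conj : G →* MulAut G)) p hA hAK hAQ
    hQK hQn hQp hQsyl hCK hC'
  have hAC := Lib.Helper81.fixQuot_inv K Q C (P.map (MulAut.conj : G →* MulAut G)) hAK hC'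
  have einv : ∀ (H : Subgroup G) (χ : H → ℂ),
      (∀ x ∈ P, ∀ k k' : H, (k' : G) = x * (k : G) * x⁻¹ → χ k' = χ k) ↔
      Lib.Helper81.InvR (P.map (MulAut.conj : G →* MulAut G)) H χ := by
    intro H χ
    constructor
    · rintro h _ ⟨s, hs, rfl⟩ g hmem
      exact h s hs g ⟨_, hmem⟩ (MulAut.conj_apply s _)
    · intro h s hs g g' hgg'
      have hmem : (MulAut.conj s) (g : G) ∈ H := by
        rw [MulAut.conj_apply, ← hgg']
        exact g'.2
      have h2 := h (MulAut.conj s) (Subgroup.mem_map_of_mem _ hs) g hmem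
      have h3 : g' = ⟨(MulAut.conj s) (g : G), hmem⟩ :=
        Subtype.ext (hgg'.trans (MulAut.conj_apply s _).symm)
      rw [h3]
      exact h2
  have key : ∀ χ : {χ : Cfsg.IrrCharacter ↥K // (∀ x ∈ P, ∀ k k' : ↥K,
      (k' : G) = x * (k : G) * x⁻¹ → (χ : ↥K → ℂ) k' = (χ : ↥K → ℂ) k)},
      ∃ (ξ : C → ℂ) (ε : ℤ), Cfsg.IsIrrCharacter C ξ ∧
        Lib.Helper81.InvR (P.map (MulAut.conj : G →* MulAut G)) C ξ ∧ (ε = 1 ∨ ε = -1) ∧
        ∀ ξ₁ : C → ℂ, Cfsg.IsIrrCharacter C ξ₁ →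
          Lib.Helper81.InvR (P.map (MulAut.conj : G →* MulAut G)) C ξ₁ →
          ∃ m : ℕ, Cfsg.classInner (fun c => (χ.1 : K → ℂ) (Subgroup.inclusion hCK c)) ξ₁ = (m : ℂ) ∧
            (ξ₁ = ξ → (m : ℤ) ≡ ε [ZMOD p]) ∧ (ξ₁ ≠ ξ → (p : ℤ) ∣ m) :=
    fun χ => gl.1 χ.1.1 χ.1.2 ((einv K _).1 χ.2)
  choose ξ ε hξ hξinv hε hall using key
  have hsum : ∀ (χ : K → ℂ) (ξ₁ : C → ℂ),
      (Nat.card C : ℂ)⁻¹ * ∑ᶠ c : C, χ (Subgroup.inclusion hCK c) * (starRingEnd ℂ) (ξ₁ c) =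
        Cfsg.classInner (fun c => χ (Subgroup.inclusion hCK c)) ξ₁ := by
    intro χ ξ₁
    rw [finsum_eq_sum_of_fintype]
    rfl
  refine ⟨fun χ => ⟨⟨ξ χ, hξ χ⟩, (einv C _).2 (hξinv χ)⟩, ⟨?_, ?_⟩, ?_⟩
  · intro χ χ' hff
    have h1 : ξ χ = ξ χ' := congrArg (fun z => (z.1.1 : C → ℂ)) hff
    obtain ⟨m, hm, hmod, -⟩ := hall χ (ξ χ) (hξ χ) (hξinv χ)
    obtain ⟨m', hm', hmod', -⟩ := hall χ' (ξ χ) (hξ χ) (hξinv χ)
    have hpm := Lib.Helper75.not_dvd_of_modEq_sign hp (hε χ) (hmod rfl)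
    have hpm' := Lib.Helper75.not_dvd_of_modEq_sign hp (hε χ') (hmod' h1)
    have h2 := gl.2.1 χ.1.1 χ'.1.1 χ.1.2 χ'.1.2 ((einv K _).1 χ.2) ((einv K _).1 χ'.2) (ξ χ)
      (hξ χ) (hξinv χ) m m' hm hpm hm' hpm'
    exact Subtype.ext (Subtype.ext h2)
  · intro ξ₀
    obtain ⟨χ₀, hχ₀, hinv, m, hm, hpm⟩ := gl.2.2 ξ₀.1.1 ξ₀.1.2 ((einv C _).1 ξ₀.2)
    refine ⟨⟨⟨χ₀, hχ₀⟩, (einv K _).2 hinv⟩, ?_⟩
    by_contra hne
    obtain ⟨m', hm', -, hdvd⟩ := hall ⟨⟨χ₀, hχ₀⟩, (einv K _).2 hinv⟩ ξ₀.1.1 ξ₀.1.2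
      ((einv C _).1 ξ₀.2)
    have h5 : m' = m := by exact_mod_cast hm'.symm.trans hm
    apply hpm
    rw [← h5]
    apply Int.natCast_dvd_natCast.1
    apply hdvd
    intro h
    apply hne
    exact Subtype.ext (Subtype.ext h.symm)
  · intro χ
    constructor
    · intro ξ₁
      obtain ⟨m, hm, hmod, hdvd⟩ := hall χ ξ₁.1.1 ξ₁.1.2 ((einv C _).1 ξ₁.2)
      refine ⟨m, (hsum _ _).trans hm, ?_, ?_⟩
      · intro h
        have h1 : (ξ₁.1.1 : C → ℂ) = ξ χ := congrArg (fun z => (z.1.1 : C → ℂ)) h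
        have h2 := hmod h1
        have h3 : (((m : ℕ) : ℤ) : ZMod p) = ((ε χ : ℤ) : ZMod p) :=
          (ZMod.intCast_eq_intCast_iff _ _ _).2 h2
        rcases hε χ with h4 | h4
        · left
          rw [h4] at h3
          simpa using h3
        · right
          rw [h4] at h3
          simpa using h3
      · intro h
        apply Int.natCast_dvd_natCast.1
        apply hdvd
        intro h'
        exact h (Subtype.ext (Subtype.ext h'))
    · have hαinv : Lib.Helper81.InvR (P.map (MulAut.conj : G →* MulAut G)) C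
          (fun c => (χ.1 : K → ℂ) (Subgroup.inclusion hCK c)) := by
        intro a ha c h
        exact (einv K _).1 χ.2 a ha (Subgroup.inclusion hCK c) _
      have hdeg := Lib.Helper81.degree_congr_of_mult C (P.map (MulAut.conj : G →* MulAut G)) p
        hAC hA (Lib.Helper80.isCharacter_comp (Subgroup.inclusion hCK)
          (Lib.Helper80.isCharacter_of_isIrrCharacter χ.1.2)) hαinv (hξ χ) (hξinv χ) (ε χ)
        (hall χ)
      have hd1 : Cfsg.charDegree (fun c : C => (χ.1 : K → ℂ) (Subgroup.inclusion hCK c)) =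
          Cfsg.charDegree (χ.1 : K → ℂ) := by
        show ⌊((χ.1 : K → ℂ) (Subgroup.inclusion hCK 1)).re⌋₊ = ⌊((χ.1 : K → ℂ) 1).re⌋₊
        rw [map_one]
      rw [hd1] at hdeg
      have h3 : (((Cfsg.charDegree (χ.1 : K → ℂ) : ℕ) : ℤ) : ZMod p) =
          ((ε χ * ((Cfsg.charDegree (ξ χ) : ℕ) : ℤ) : ℤ) : ZMod p) :=
        (ZMod.intCast_eq_intCast_iff _ _ _).2 hdeg
      push_cast at h3
      rcases hε χ with h4 | h4
      · left
        rw [h4] at h3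
        simp only [Int.cast_one, one_mul] at h3
        exact h3.symm
      · right
        rw [h4] at h3
        simp only [Int.cast_neg, Int.cast_one, neg_mul, one_mul] at h3
        rw [h3, neg_neg]

end Cfsg.Agent.S4914
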