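import Cfsg.Statements.S4916
import Cfsg.Agent.S0913
import Cfsg.Agent.Lib.Helper77.Defect
import Cfsg.Agent.Lib.Helper80.CharKer

set_option autoImplicit false
open Cfsg

namespace Cfsg.Agent.S4916

open Cfsg.Agent.Lib.Helper16 Cfsg.Agent.Lib.Helper77 Cfsg.Agent.Lib.Helper81
open scoped ComplexConjugate

/-- Let G be a finite group, p a prime and M a maximal ideal of the algebraic integers containing p. Then the principal character is the only irreducible character of degree prime to p in the principal p-block of G if and only if p does not divide the order of G. -/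
theorem result {G : Type*} [Group G] [Finite G] (p : ℕ) [Fact p.Prime] (M : Ideal Cfsg.AlgInt) (hM : Cfsg.IsPModular p M) : (∀ χ : Cfsg.IrrCharacter G, χ ∈ Cfsg.principalBlock M G → ¬ p ∣ Cfsg.charDegree (χ : G → ℂ) → (χ : G → ℂ) = fun _ => (1 : ℂ)) ↔ ¬ p ∣ Nat.card G := by
  classical
  have : Fintype G := Fintype.ofFinite G
  have : Finite (Cfsg.IrrCharacter G) := irr_finite G
  have hP := isPrime_of_isPModular hM
  constructor
  · -- all nonprincipal characters of the principal block have degree divisible by `p`
    intro hall hdvd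
    have hR := Cfsg.Agent.S0913.result p M hM (Cfsg.principalBlock M G)
      (isPBlock_principalBlock M) 1
    have hGJ : MemLocalIdeal M (Nat.card G : ℂ) := (memLocalIdeal_natCast_iff hM _).2 hdvd
    have hG0 : (Nat.card G : ℂ) ≠ 0 := by exact_mod_cast (Nat.card_pos (α := G)).ne'
    have hsum : MemLocalIdeal M (∑ᶠ χ ∈ Cfsg.principalBlock M G,
        (χ : G → ℂ) 1 * conj ((χ : G → ℂ) 1)) := by
      have h1 := memLocalIdeal_mul_right hP hGJ hR
      unfold Cfsg.blockCoeff at h1
      rwa [← mul_assoc, mul_inv_cancel₀ hG0, one_mul] at h1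
    rw [finsum_mem_eq_finite_toFinset_sum _ (Set.toFinite (Cfsg.principalBlock M G))] at hsum
    have htriv : trivIrr G ∈ (Set.toFinite (Cfsg.principalBlock M G)).toFinset := by
      rw [Set.Finite.mem_toFinset]
      exact trivIrr_mem_principalBlock hP
    rw [← Finset.add_sum_erase _ _ htriv] at hsum
    have hrest : MemLocalIdeal M (∑ χ ∈ ((Set.toFinite (Cfsg.principalBlock M G)).toFinset).erase
        (trivIrr G), (χ : G → ℂ) 1 * conj ((χ : G → ℂ) 1)) := by
      refine memLocalIdeal_sum hP _ _ (fun χ hχ => ?_)
      rw [Finset.mem_erase, Set.Finite.mem_toFinset] at hχ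
      have hd : p ∣ Cfsg.charDegree (χ : G → ℂ) := by
        by_contra hnd
        exact hχ.1 (Subtype.ext (hall χ hχ.2 hnd))
      rw [Cfsg.Agent.Lib.Helper80.char_one_eq_charDegree
        (Cfsg.Agent.Lib.Helper80.isCharacter_of_isIrrCharacter χ.2), Complex.conj_natCast,
        ← Nat.cast_mul]
      exact (memLocalIdeal_natCast_iff hM _).2 (Dvd.dvd.mul_right hd _)
    have hone := memLocalIdeal_sub hP hsum hrest
    rw [add_sub_cancel_right] at hone
    simp only [trivIrr_apply, map_one, mul_one] at hone
    exact not_memLocalIdeal_one hP hone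
  · -- `p` does not divide the group order
    intro hp χ hχ _
    by_contra hne
    have hne' : χ ≠ trivIrr G := fun h => hne (by rw [h]; rfl)
    have hχ1 : (χ : G → ℂ) 1 ≠ 0 := Cfsg.Agent.Lib.Helper81.irr_one_ne_zero χ
    have hg : ∀ g : G, MemLocalIdeal M (1 - (χ : G → ℂ) g / (χ : G → ℂ) 1) := by
      intro g
      have h1 : MemLocalIdeal M (Cfsg.centralChar (fun _ : G => (1 : ℂ)) g -
          Cfsg.centralChar (χ : G → ℂ) g) := hχ g
      have hidx : ¬ p ∣ (Subgroup.centralizer ({g} : Set G)).index := fun h =>
        hp (h.trans (Subgroup.index_dvd_card _))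
      refine memLocalIdeal_of_natCast_mul hM hidx ?_
      have h2 : Cfsg.centralChar (fun _ : G => (1 : ℂ)) g - Cfsg.centralChar (χ : G → ℂ) g =
          ((Subgroup.centralizer ({g} : Set G)).index : ℂ) *
            (1 - (χ : G → ℂ) g / (χ : G → ℂ) 1) := by
        unfold Cfsg.centralChar
        field_simp
      rw [← h2]
      exact h1
    have hs := memLocalIdeal_sum hP Finset.univ _ (fun g _ => hg g)
    rw [Finset.sum_sub_distrib, ← Finset.sum_div] at hs
    have horth := irr_orth χ (trivIrr G)
    rw [if_neg hne'] at horth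
    simp only [trivIrr_apply, mul_one] at horth
    rw [horth, zero_div, sub_zero] at hs
    simp only [Finset.sum_const, Finset.card_univ, nsmul_eq_mul, mul_one] at hs
    rw [← Nat.card_eq_fintype_card] at hs
    exact hp ((memLocalIdeal_natCast_iff hM _).1 hs)

end Cfsg.Agent.S4916
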