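import Cfsg.Statements.S4923
import Cfsg.Agent.Lib.Helper82.FusionCyc
import Cfsg.Agent.Lib.Helper82.FieldVal

set_option autoImplicit false
open Cfsg

namespace Cfsg.Agent.S4923

open Cfsg.Agent.Lib.Helper82 Cfsg.Agent.Lib.Helper82.KA

/-- a group of order `2 ^ n` with a central element of order `2 ^ (n - 1)` is abelian -/
theorem comm_of_central {Q : Type*} [Group Q] [Finite Q] {n : ℕ} (hn : 1 ≤ n)
    (hcard : Nat.card Q = 2 ^ n) (g : Q) (hg : orderOf g = 2 ^ (n - 1))
    (hc : ∀ q : Q, q * g = g * q) : ∀ a b : Q, a * b = b * a := by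
  have hidx := TM.index_zpowers hn hcard g hg
  have hnorm : (Subgroup.zpowers g).Normal := Subgroup.normal_of_index_eq_two hidx
  have : Fact (Nat.Prime 2) := ⟨Nat.prime_two⟩
  have hq : Nat.card (Q ⧸ Subgroup.zpowers g) = 2 := by
    rw [← Subgroup.index_eq_card]; exact hidx
  have : IsCyclic (Q ⧸ Subgroup.zpowers g) := isCyclic_of_prime_card hq
  intro a b
  refine commutative_of_cyclic_center_quotient (QuotientGroup.mk' (Subgroup.zpowers g)) ?_ a b
  rw [QuotientGroup.ker_mk', Subgroup.zpowers_le, Subgroup.mem_center_iff]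
  exact hc

/-- if the generator of a cyclic subgroup of index two commutes with an outer element, the
group is abelian -/
theorem comm_of_outer {Q : Type*} [Group Q] [Finite Q] {n : ℕ} (hn : 1 ≤ n)
    (hcard : Nat.card Q = 2 ^ n) (g y : Q) (hg : orderOf g = 2 ^ (n - 1))
    (hy : y ∉ Subgroup.zpowers g) (hyg : y * g = g * y) : ∀ a b : Q, a * b = b * a := by
  have hidx := TM.index_zpowers hn hcard g hg
  have hc : ∀ q : Q, q * g = g * q := by
    intro q
    by_cases hq : q ∈ Subgroup.zpowers g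
    · exact TM.zpowers_comm g q hq g (Subgroup.mem_zpowers g)
    · have hyi : y⁻¹ ∉ Subgroup.zpowers g := fun h => hy (by simpa using inv_mem h)
      have h1 : q * y⁻¹ ∈ Subgroup.zpowers g := by
        rw [Subgroup.mul_mem_iff_of_index_two hidx]
        exact ⟨fun h => absurd h hq, fun h => absurd h hyi⟩
      have h2 := TM.zpowers_comm g _ h1 g (Subgroup.mem_zpowers g)
      calc q * g = (q * y⁻¹) * (y * g) := by group
        _ = (q * y⁻¹) * (g * y) := by rw [hyg]
        _ = ((q * y⁻¹) * g) * y := by group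
        _ = (g * (q * y⁻¹)) * y := by rw [h2]
        _ = g * q := by group
  exact comm_of_central hn hcard g hg hc

/-- Let G be a finite group with Sylow 2-subgroup P of order 2^n ≥ 8, and let ζ be a primitive 2^(n−1)-th root of unity in ℂ. Then the commutator subgroup of P has index 4 in P if and only if there is an element g of P whose conjugacy class in G has even size and such that the field generated over ℚ by the values at g of all irreducible complex characters of G equals ℚ(ζ + ζ⁻¹) or ℚ(ζ − ζ⁻¹). -/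
theorem result {G : Type*} [Group G] [Finite G] (P : Sylow 2 G) (n : ℕ) (hn : 3 ≤ n) (hP : Nat.card P = 2 ^ n) (ζ : ℂ) (hζ : IsPrimitiveRoot ζ (2 ^ (n - 1))) :
    (commutator ↥P).index = 4 ↔
      ∃ g : G, g ∈ (P : Subgroup G) ∧ 2 ∣ (Subgroup.centralizer ({g} : Set G)).index ∧
        (IntermediateField.adjoin ℚ {z : ℂ | ∃ χ : Cfsg.IrrCharacter G, (χ : G → ℂ) g = z} = IntermediateField.adjoin ℚ ({ζ + ζ⁻¹} : Set ℂ) ∨
          IntermediateField.adjoin ℚ {z : ℂ | ∃ χ : Cfsg.IrrCharacter G, (χ : G → ℂ) g = z} = IntermediateField.adjoin ℚ ({ζ - ζ⁻¹} : Set ℂ)) := by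
  classical
  have : Fact (Nat.Prime 2) := ⟨Nat.prime_two⟩
  constructor
  · intro hidx
    obtain ⟨gP, yP, eP, hgo, hy, he, he2, hconj⟩ := TM.fwd hn hP hidx
    have hPnc : ¬ ∀ a b : ↥P, a * b = b * a := by
      intro h
      rw [TM.commutator_eq_bot_of_comm h, Subgroup.index_bot] at hidx
      have h5 : (4 : ℕ) = 2 ^ n := hidx.symm.trans hP
      have : 2 ^ 3 ≤ 2 ^ n := Nat.pow_le_pow_right (by norm_num) hn
      omega
    obtain ⟨g, hgdef⟩ : ∃ g : G, g = (gP : G) := ⟨_, rfl⟩
    have hgP : g ∈ (P : Subgroup G) := hgdef ▸ gP.2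
    have hgo' : orderOf g = 2 ^ (n - 1) := by
      rw [hgdef, ← hgo]; exact Subgroup.orderOf_coe gP
    have hyg : yP * gP ≠ gP * yP := fun h =>
      hPnc (comm_of_outer (by omega) hP gP yP hgo hy h)
    have hconjG : (yP : G) * g * (yP : G)⁻¹ = g⁻¹ * (eP : G) := by
      have h := congrArg Subtype.val hconj
      rw [hgdef]; simpa using h
    obtain ⟨g', hg'def⟩ : ∃ g' : G, g' = (yP : G) * g * (yP : G)⁻¹ := ⟨_, rfl⟩
    have heC : (eP : G) ∈ Subgroup.zpowers g := by
      obtain ⟨i, hi⟩ := Subgroup.mem_zpowers_iff.1 he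
      rw [Subgroup.mem_zpowers_iff]
      refine ⟨i, ?_⟩
      rw [hgdef, ← hi]; simp
    have hg'C : g' ∈ Subgroup.zpowers g := by
      rw [hg'def, hconjG]; exact mul_mem (inv_mem (Subgroup.mem_zpowers g)) heC
    have hne : g' ≠ g := by
      intro h
      apply hyg
      apply Subtype.ext
      have h1 : (yP : G) * g * (yP : G)⁻¹ = g := by rw [← hg'def]; exact h
      have h2 : (yP : G) * g = g * (yP : G) := by
        calc (yP : G) * g = ((yP : G) * g * (yP : G)⁻¹) * yP := by group
          _ = g * yP := by rw [h1]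
      rw [Subgroup.coe_mul, Subgroup.coe_mul, ← hgdef]; exact h2
    -- the class of g has even size
    have heven : 2 ∣ (Subgroup.centralizer ({g} : Set G)).index := by
      by_contra hodd
      have hPp : IsPGroup 2 ↥P := P.isPGroup'
      have hfix := hPp.nonempty_fixed_point_of_prime_not_dvd_card
        (G ⧸ Subgroup.centralizer ({g} : Set G)) (by
          rw [← Subgroup.index_eq_card]; exact hodd)
      obtain ⟨q, hq⟩ := hfix
      obtain ⟨a, rfl⟩ := QuotientGroup.mk_surjective q
      obtain ⟨g₁, hg₁⟩ : ∃ g₁, g₁ = a * g * a⁻¹ := ⟨_, rfl⟩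
      have hcomm : ∀ p ∈ (P : Subgroup G), p * g₁ = g₁ * p := by
        intro p hp
        have h1 := hq ⟨p, hp⟩
        have h2 : ((p * a : G) : G ⧸ Subgroup.centralizer ({g} : Set G)) = (a : G ⧸ _) := h1
        rw [QuotientGroup.eq] at h2
        have h3 := Subgroup.mem_centralizer_iff.1 h2 g (Set.mem_singleton g)
        obtain ⟨c, hcdef⟩ : ∃ c, c = (p * a)⁻¹ * a := ⟨_, rfl⟩
        rw [← hcdef] at h3
        have hc' : c⁻¹ * g = g * c⁻¹ := by
          calc c⁻¹ * g = c⁻¹ * (g * c) * c⁻¹ := by group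
            _ = c⁻¹ * (c * g) * c⁻¹ := by rw [h3]
            _ = g * c⁻¹ := by group
        calc p * g₁ = a * (c⁻¹ * g) * a⁻¹ := by rw [hg₁, hcdef]; group
          _ = a * (g * c⁻¹) * a⁻¹ := by rw [hc']
          _ = g₁ * p := by rw [hg₁, hcdef]; group
      have ho : orderOf g₁ = 2 ^ (n - 1) := by
        rw [← hgo', hg₁]
        have h := (MulAut.conj a).orderOf_eq g
        simpa [MulAut.conj_apply] using h
      have hz : IsPGroup 2 ↥(Subgroup.zpowers g₁) :=
        IsPGroup.of_card (n := n - 1) (by rw [Nat.card_zpowers, ho])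
      have hnorm : Subgroup.zpowers g₁ ≤ Subgroup.normalizer ((P : Subgroup G) : Set G) := by
        rw [Subgroup.zpowers_le, Subgroup.mem_normalizer_iff]
        intro h
        constructor
        · intro hh
          have e : g₁ * h * g₁⁻¹ = h := by
            rw [← hcomm h hh]; group
          rw [e]; exact hh
        · intro hh
          have e := hcomm _ hh
          have e2 : h = g₁ * h * g₁⁻¹ := by
            calc h = g₁⁻¹ * (g₁ * h * g₁⁻¹ * g₁) := by group
              _ = g₁⁻¹ * (g₁ * (g₁ * h * g₁⁻¹)) := by rw [e]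
              _ = g₁ * h * g₁⁻¹ := by group
          rw [e2]; exact hh
      have hsup : IsPGroup 2 ↥(Subgroup.zpowers g₁ ⊔ (P : Subgroup G)) :=
        hz.to_sup_of_normal_right' P.isPGroup' hnorm
      have heq := P.is_maximal' hsup le_sup_right
      have hg₁P : g₁ ∈ (P : Subgroup G) := by
        have h : g₁ ∈ Subgroup.zpowers g₁ ⊔ (P : Subgroup G) :=
          (le_sup_left : Subgroup.zpowers g₁ ≤ _) (Subgroup.mem_zpowers g₁)
        rwa [heq] at h
      apply hPnc
      refine comm_of_central (by omega) hP (⟨g₁, hg₁P⟩ : ↥P) ?_ ?_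
      · rw [← ho]; exact (Subgroup.orderOf_coe (⟨g₁, hg₁P⟩ : ↥(P : Subgroup G))).symm
      · intro q
        exact Subtype.ext (hcomm q q.2)
    -- fusion of the generators of ⟨g⟩
    have H : ∀ x : G, x * g * x⁻¹ ∈ Subgroup.zpowers g →
        x * g * x⁻¹ = g ∨ x * g * x⁻¹ = g' := by
      intro x hx
      obtain ⟨p, hp, hpx⟩ := TM.fusion_cyclic P hn hP hgP hgo' hx
      rw [hpx]
      by_cases hpC : (⟨p, hp⟩ : ↥P) ∈ Subgroup.zpowers gP
      · left
        obtain ⟨i, hi⟩ := Subgroup.mem_zpowers_iff.1 hpC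
        have h1 : p = g ^ i := by
          have h := congrArg Subtype.val hi
          rw [hgdef]; simpa using h.symm
        rw [h1]; group
      · right
        have hidx2 : (Subgroup.zpowers gP).index = 2 := TM.index_zpowers (by omega) hP gP hgo
        have hyi : yP⁻¹ ∉ Subgroup.zpowers gP := fun h => hy (by simpa using inv_mem h)
        have h1 : (⟨p, hp⟩ : ↥P) * yP⁻¹ ∈ Subgroup.zpowers gP := by
          rw [Subgroup.mul_mem_iff_of_index_two hidx2]
          exact ⟨fun h => absurd h hpC, fun h => absurd h hyi⟩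
        obtain ⟨i, hi⟩ := Subgroup.mem_zpowers_iff.1 h1
        have h2 : p * (yP : G)⁻¹ = g ^ i := by
          have h := congrArg Subtype.val hi
          rw [hgdef]; simpa using h.symm
        have h3 : p = g ^ i * (yP : G) := by rw [← h2]; group
        have hc := TM.zpowers_comm g (g ^ i) (Subgroup.zpow_mem_zpowers g i) g' hg'C
        rw [hg'def] at hc
        rw [h3, hg'def]
        calc g ^ i * (yP : G) * g * (g ^ i * (yP : G))⁻¹
            = (g ^ i * ((yP : G) * g * (yP : G)⁻¹)) * (g ^ i)⁻¹ := by group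
          _ = (((yP : G) * g * (yP : G)⁻¹) * g ^ i) * (g ^ i)⁻¹ := by rw [hc]
          _ = (yP : G) * g * (yP : G)⁻¹ := by group
    -- a linear character of ⟨g⟩ with value ζ at g
    have hζ0 : ζ ≠ 0 := hζ.ne_zero (by positivity)
    obtain ⟨ζu, hζu⟩ : ∃ ζu : ℂˣ, (ζu : ℂ) = ζ := ⟨Units.mk0 ζ hζ0, rfl⟩
    obtain ⟨gC, hgC⟩ : ∃ gC : ↥(Subgroup.zpowers g), gC = ⟨g, Subgroup.mem_zpowers g⟩ :=
      ⟨_, rfl⟩
    have hgen : ∀ c : ↥(Subgroup.zpowers g), c ∈ Subgroup.zpowers gC := by
      intro c
      obtain ⟨i, hi⟩ := Subgroup.mem_zpowers_iff.1 c.2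
      rw [Subgroup.mem_zpowers_iff]
      exact ⟨i, Subtype.ext (by rw [Subgroup.coe_zpow, hgC]; exact hi)⟩
    have hord : orderOf ζu ∣ orderOf gC := by
      have h : orderOf gC = orderOf g := by
        rw [hgC]; exact (Subgroup.orderOf_coe (⟨g, Subgroup.mem_zpowers g⟩ : ↥(Subgroup.zpowers g))).symm
      rw [h, hgo']
      apply orderOf_dvd_of_pow_eq_one
      apply Units.ext
      rw [Units.val_pow_eq_pow_val, hζu, Units.val_one]; exact hζ.pow_eq_one
    obtain ⟨θ, hθ⟩ : ∃ θ : ↥(Subgroup.zpowers g) →* ℂˣ, θ gC = ζu :=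
      ⟨monoidHomOfForallMemZpowers hgen hord, monoidHomOfForallMemZpowers_apply_gen hgen hord⟩
    have hθg : lin θ ⟨g, Subgroup.mem_zpowers g⟩ = ζ := by
      rw [lin_apply, ← hgC, hθ, hζu]
    have hfin : IsOfFinOrder g := isOfFinOrder_of_finite g
    obtain ⟨k, hk⟩ : ∃ k : ℕ, g ^ k = g' := by
      have h := hg'C
      rw [← hfin.mem_powers_iff_mem_zpowers] at h
      exact (Submonoid.mem_powers_iff _ _).1 h
    have hθg' : lin θ ⟨g', hg'C⟩ = ζ ^ k := by
      have h : (⟨g', hg'C⟩ : ↥(Subgroup.zpowers g)) =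
          (⟨g, Subgroup.mem_zpowers g⟩ : ↥(Subgroup.zpowers g)) ^ k :=
        Subtype.ext (by rw [Subgroup.coe_pow]; exact hk.symm)
      rw [h, FV.lin_pow, hθg]
    obtain ⟨ε, hε⟩ : ∃ ε : ℂ, ε = lin θ ⟨(eP : G), heC⟩ := ⟨_, rfl⟩
    have hε2 : ε ^ 2 = 1 := by
      rw [hε, ← FV.lin_pow]
      have h : (⟨(eP : G), heC⟩ : ↥(Subgroup.zpowers g)) ^ 2 = 1 := by
        apply Subtype.ext
        rw [Subgroup.coe_pow]
        have h' := congrArg Subtype.val he2
        simpa using h'
      rw [h, FV.lin_one_apply]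
    have hζk : ζ ^ k = ζ⁻¹ * ε := by
      rw [← hθg', hε]
      have h : (⟨g', hg'C⟩ : ↥(Subgroup.zpowers g)) =
          (⟨g, Subgroup.mem_zpowers g⟩ : ↥(Subgroup.zpowers g))⁻¹ * ⟨(eP : G), heC⟩ := by
        apply Subtype.ext
        show g' = g⁻¹ * (eP : G)
        rw [hg'def, hconjG]
      rw [h, FV.lin_mul_apply]
      congr 1
      rw [lin_apply, map_inv, Units.val_inv_eq_inv_val, ← lin_apply, hθg]
    have hε' : ε = 1 ∨ ε = -1 := by
      have h : (ε - 1) * (ε + 1) = 0 := by ring_nf; rw [hε2]; ring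
      rcases mul_eq_zero.1 h with h | h
      · left; linear_combination h
      · right; linear_combination h
    have hprod : ζ * ζ ^ k = 1 ∨ ζ * ζ ^ k = -1 := by
      rw [hζk, ← mul_assoc, mul_inv_cancel₀ hζ0, one_mul]; exact hε'
    have hζ' : IsPrimitiveRoot ζ (orderOf g) := by rw [hgo']; exact hζ
    have hxk : (yP : G) * g * (yP : G)⁻¹ = g ^ k := by rw [hk, hg'def]
    have hsub : ∀ χ : Cfsg.IrrCharacter G,
        χ.1 g ∈ IntermediateField.adjoin ℚ ({ζ + ζ ^ k} : Set ℂ) :=
      fun χ => FV.char_mem_adjoin g (yP : G) k hxk ζ hζ' hprod χ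
    have hsup := FV.sum_mem_adjoin g g' (yP : G) hg'def.symm hne hg'C H θ
    rw [hθg', hθg] at hsup
    have hEq : IntermediateField.adjoin ℚ
        {z : ℂ | ∃ χ : Cfsg.IrrCharacter G, (χ : G → ℂ) g = z} =
        IntermediateField.adjoin ℚ ({ζ + ζ ^ k} : Set ℂ) := by
      apply le_antisymm
      · rw [IntermediateField.adjoin_le_iff]
        rintro z ⟨χ, rfl⟩
        exact hsub χ
      · rw [IntermediateField.adjoin_le_iff]
        intro z hz
        rw [Set.mem_singleton_iff] at hz
        rw [hz]; exact hsup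
    refine ⟨g, hgP, heven, ?_⟩
    rcases hε' with h | h
    · left
      rw [hEq, hζk, h, mul_one]
    · right
      rw [hEq, hζk, h]
      have e : ζ + ζ⁻¹ * -1 = ζ - ζ⁻¹ := by ring
      rw [e]
  · rintro ⟨g, hgP, heven, hF⟩
    have hPnc : ¬ ∀ a b : ↥P, a * b = b * a := by
      intro h
      have hle : (P : Subgroup G) ≤ Subgroup.centralizer ({g} : Set G) := by
        intro p hp
        rw [Subgroup.mem_centralizer_iff]
        intro x hx
        rw [Set.mem_singleton_iff] at hx
        rw [hx]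
        exact congrArg Subtype.val (h ⟨g, hgP⟩ ⟨p, hp⟩)
      have h1 := Subgroup.index_dvd_of_le hle
      exact P.not_dvd_index (dvd_trans heven h1)
    rcases Nat.eq_or_lt_of_le hn with h3 | h4
    · subst h3
      exact TM.index_of_card_eight hP hPnc
    · by_contra hidx
      have hk : n - 1 = (n - 2) + 1 := by omega
      have hζk : IsPrimitiveRoot ζ (2 ^ ((n - 2) + 1)) := by rw [← hk]; exact hζ
      have hpos : 0 < 2 ^ (n - 2 + 1) := by positivity
      have hζ2 : IsPrimitiveRoot (ζ ^ 2) (2 ^ (n - 2)) :=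
        IsPrimitiveRoot.pow hpos hζk (pow_succ' 2 (n - 2))
      have hall : ∀ χ : Cfsg.IrrCharacter G,
          χ.1 g ∈ IntermediateField.adjoin ℚ ({ζ ^ 2} : Set ℂ) := by
        intro χ
        by_cases hgM : g ^ 2 ^ (n - 2) = 1
        · exact FV.char_mem_of_pow g (2 ^ (n - 2)) (by positivity) hgM (ζ ^ 2) hζ2 χ
        · have hgo : orderOf (⟨g, hgP⟩ : ↥P) = 2 ^ (n - 1) := by
            have hd : orderOf (⟨g, hgP⟩ : ↥P) ∣ 2 ^ n := hP ▸ orderOf_dvd_natCard _
            obtain ⟨j, hj, hj2⟩ := (Nat.dvd_prime_pow Nat.prime_two).1 hd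
            have ho : orderOf g = 2 ^ j := by
              rw [← hj2]; exact Subgroup.orderOf_coe (⟨g, hgP⟩ : ↥(P : Subgroup G))
            have hj1 : n - 2 < j := by
              by_contra hle
              rw [not_lt] at hle
              apply hgM
              apply orderOf_dvd_iff_pow_eq_one.1
              rw [ho]; exact Nat.pow_dvd_pow 2 hle
            have hjn : j ≠ n := by
              intro hjn
              apply hPnc
              have hc : IsCyclic ↥P :=
                isCyclic_of_orderOf_eq_card (⟨g, hgP⟩ : ↥P) (by rw [hj2, hjn]; exact hP.symm)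
              obtain ⟨c, hc⟩ := IsCyclic.exists_generator (α := ↥P)
              intro a b
              exact TM.zpowers_comm c a (hc a) b (hc b)
            have hj3 : j = n - 1 := by omega
            rw [hj2, hj3]
          obtain ⟨y, hy⟩ := TM.exists_not_mem_of_index_two _
            (TM.index_zpowers (by omega) hP _ hgo)
          have hyg : y * ⟨g, hgP⟩ * y⁻¹ ≠ ⟨g, hgP⟩ := by
            intro h
            apply hPnc
            apply comm_of_outer (by omega) hP _ y hgo hy
            calc y * ⟨g, hgP⟩ = (y * ⟨g, hgP⟩ * y⁻¹) * y := by group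
              _ = ⟨g, hgP⟩ * y := by rw [h]
          have hb := TM.bwd hn hP hidx ⟨g, hgP⟩ y hgo hy hyg
          have hb' : (y : G) * g * (y : G)⁻¹ = g * g ^ 2 ^ (n - 2) := by
            have h := congrArg Subtype.val hb
            simpa using h
          have hz2 : (g ^ 2 ^ (n - 2)) ^ 2 = 1 := by
            rw [← pow_mul, ← pow_succ]
            have h : n - 2 + 1 = n - 1 := by omega
            rw [h]
            have ho : orderOf g = 2 ^ (n - 1) := by
              rw [← hgo]; exact Subgroup.orderOf_coe (⟨g, hgP⟩ : ↥(P : Subgroup G))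
            rw [← ho]; exact pow_orderOf_eq_one g
          exact FV.char_mem_of_twist g (y : G) (2 ^ (n - 2)) (by positivity) hz2 hb' (ζ ^ 2)
            hζ2 χ
      have hFle : IntermediateField.adjoin ℚ
          {z : ℂ | ∃ χ : Cfsg.IrrCharacter G, (χ : G → ℂ) g = z} ≤
          IntermediateField.adjoin ℚ ({ζ ^ 2} : Set ℂ) := by
        rw [IntermediateField.adjoin_le_iff]
        rintro z ⟨χ, rfl⟩
        exact hall χ
      have hnot := FV.add_inv_not_mem (k := n - 2) (by omega) hζk
      rcases hF with h | h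
      · apply hnot.1
        apply hFle
        rw [h]
        exact IntermediateField.subset_adjoin ℚ _ (Set.mem_singleton _)
      · apply hnot.2
        apply hFle
        rw [h]
        exact IntermediateField.subset_adjoin ℚ _ (Set.mem_singleton _)

end Cfsg.Agent.S4923
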