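import Cfsg.Statements.S4931
import Cfsg.Agent.Lib.Helper15.NormExt
import Cfsg.Agent.Lib.Helper80.CharKer
import Cfsg.Agent.Lib.Helper80.Gagola
import Cfsg.Agent.Lib.Helper82.Ito

set_option autoImplicit false
open Cfsg

namespace Cfsg.Agent.S4931

open Cfsg.Agent.Lib.Helper80 Cfsg.Agent.Lib.Helper15
open scoped commutatorElement

/-- If all irreducible characters of `N/D` have `p'`-degree and `p'`-degree characters of `N`
extend to `G`, then the normal closure of `D` in `G` meets `N` in `D`. -/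
theorem closure_inf_le {G : Type*} [Group G] [Finite G] (p : ℕ)
    (N : Subgroup G) (D : Subgroup ↥N) [D.Normal]
    (hdeg : ∀ ψ : Cfsg.IrrCharacter (↥N ⧸ D), ¬ p ∣ Cfsg.charDegree (ψ : ↥N ⧸ D → ℂ))
    (hext : ∀ θ : Cfsg.IrrCharacter ↥N, ¬ p ∣ Cfsg.charDegree (θ : ↥N → ℂ) →
        ∃ χ : Cfsg.IrrCharacter G, ∀ x : ↥N, (χ : G → ℂ) x = (θ : ↥N → ℂ) x) :
    Subgroup.normalClosure ((D.map N.subtype : Subgroup G) : Set G) ⊓ N ≤ D.map N.subtype := by
  rintro x ⟨hx1, hx2⟩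
  by_contra hxD
  have hxD' : (⟨x, hx2⟩ : ↥N) ∉ D := fun h => hxD ⟨_, h, rfl⟩
  have hne : ((⟨x, hx2⟩ : ↥N) : ↥N ⧸ D) ≠ 1 :=
    fun h => hxD' ((QuotientGroup.eq_one_iff _).mp h)
  obtain ⟨ψ, hψ⟩ : ∃ ψ : Cfsg.IrrCharacter (↥N ⧸ D),
      (ψ : ↥N ⧸ D → ℂ) ((⟨x, hx2⟩ : ↥N) : ↥N ⧸ D) ≠ (ψ : ↥N ⧸ D → ℂ) 1 := by
    by_contra hcon
    push Not at hcon
    exact hne (eq_one_of_forall_irr_eq hcon)
  have hθirr : Cfsg.IsIrrCharacter ↥N (fun g : ↥N => (ψ : ↥N ⧸ D → ℂ) (g : ↥N ⧸ D)) :=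
    isIrrCharacter_inflate D ψ.2
  have hdegθ : Cfsg.charDegree (fun g : ↥N => (ψ : ↥N ⧸ D → ℂ) (g : ↥N ⧸ D)) =
      Cfsg.charDegree (ψ : ↥N ⧸ D → ℂ) := by
    have h1 := char_one_eq_charDegree (isCharacter_of_isIrrCharacter hθirr)
    have h2 := char_one_eq_charDegree (isCharacter_of_isIrrCharacter ψ.2)
    have h3 : (ψ : ↥N ⧸ D → ℂ) ((1 : ↥N) : ↥N ⧸ D) = (ψ : ↥N ⧸ D → ℂ) 1 := by
      rw [QuotientGroup.mk_one]
    rw [h3, h2] at h1
    exact_mod_cast h1.symm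
  obtain ⟨χ, hχ⟩ := hext ⟨_, hθirr⟩ (by rw [hdegθ]; exact hdeg ψ)
  have h2 : (χ : G → ℂ) 1 = (ψ : ↥N ⧸ D → ℂ) 1 := by
    have := hχ 1
    simpa using this
  have hker : Subgroup.normalClosure ((D.map N.subtype : Subgroup G) : Set G) ≤ irrKer χ := by
    apply Subgroup.normalClosure_le_normal
    rintro _ ⟨d, hd, rfl⟩
    rw [SetLike.mem_coe, mem_irrKer]
    have h1 : (χ : G → ℂ) (d : G) = (ψ : ↥N ⧸ D → ℂ) ((d : ↥N) : ↥N ⧸ D) := hχ d
    have hd1 : ((d : ↥N) : ↥N ⧸ D) = 1 := (QuotientGroup.eq_one_iff d).mpr hd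
    rw [hd1] at h1
    rw [h2]
    exact h1
  have hxk := (mem_irrKer χ x).mp (hker hx1)
  apply hψ
  have h1 : (χ : G → ℂ) x = (ψ : ↥N ⧸ D → ℂ) ((⟨x, hx2⟩ : ↥N) : ↥N ⧸ D) := hχ ⟨x, hx2⟩
  rw [← h1, hxk, h2]

theorem step_P {G : Type*} [Group G] [Finite G] (p : ℕ) [Fact p.Prime] (P : Sylow p G)
    (hext : ∀ θ : Cfsg.IrrCharacter ↥(Subgroup.normalizer ((P : Subgroup G) : Set G)),
      ¬ p ∣ Cfsg.charDegree (θ : ↥(Subgroup.normalizer ((P : Subgroup G) : Set G)) → ℂ) →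
        ∃ χ : Cfsg.IrrCharacter G, ∀ x : ↥(Subgroup.normalizer ((P : Subgroup G) : Set G)),
          (χ : G → ℂ) x = (θ : ↥(Subgroup.normalizer ((P : Subgroup G) : Set G)) → ℂ) x) :
    Subgroup.normalClosure ((P : Subgroup G) : Set G) ⊓
      Subgroup.normalizer ((P : Subgroup G) : Set G) ≤ P := by
  have hPN : (P : Subgroup G) ≤ Subgroup.normalizer ((P : Subgroup G) : Set G) :=
    Subgroup.le_normalizer
  have hmap : ((P : Subgroup G).subgroupOf (Subgroup.normalizer ((P : Subgroup G) : Set G))).map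
      (Subgroup.normalizer ((P : Subgroup G) : Set G)).subtype = P :=
    Subgroup.map_subgroupOf_eq_of_le hPN
  have h := closure_inf_le p (Subgroup.normalizer ((P : Subgroup G) : Set G))
    ((P : Subgroup G).subgroupOf (Subgroup.normalizer ((P : Subgroup G) : Set G))) ?_ hext
  · rwa [hmap] at h
  · intro ψ hdvd
    have h1 : Cfsg.charDegree (ψ : _ → ℂ) ∣ Nat.card (↥(Subgroup.normalizer ((P : Subgroup G) : Set G)) ⧸
        (P : Subgroup G).subgroupOf (Subgroup.normalizer ((P : Subgroup G) : Set G))) :=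
      charDegree_dvd_card ψ.2
    have h3 : (P : Subgroup G).relIndex (Subgroup.normalizer ((P : Subgroup G) : Set G)) ∣
        (P : Subgroup G).index := Subgroup.relIndex_dvd_index_of_le hPN
    exact P.not_dvd_index (hdvd.trans (h1.trans h3))

theorem step_comm {G : Type*} [Group G] [Finite G] (p : ℕ) [Fact p.Prime] (P : Sylow p G)
    (hext : ∀ θ : Cfsg.IrrCharacter ↥(Subgroup.normalizer ((P : Subgroup G) : Set G)),
      ¬ p ∣ Cfsg.charDegree (θ : ↥(Subgroup.normalizer ((P : Subgroup G) : Set G)) → ℂ) →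
        ∃ χ : Cfsg.IrrCharacter G, ∀ x : ↥(Subgroup.normalizer ((P : Subgroup G) : Set G)),
          (χ : G → ℂ) x = (θ : ↥(Subgroup.normalizer ((P : Subgroup G) : Set G)) → ℂ) x) :
    Subgroup.normalClosure ((⁅(P : Subgroup G), (P : Subgroup G)⁆ : Subgroup G) : Set G) ⊓
      Subgroup.normalizer ((P : Subgroup G) : Set G) ≤ ⁅(P : Subgroup G), (P : Subgroup G)⁆ := by
  have hPN : (P : Subgroup G) ≤ Subgroup.normalizer ((P : Subgroup G) : Set G) :=
    Subgroup.le_normalizer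
  obtain ⟨PN, hPNdef⟩ : ∃ PN : Subgroup ↥(Subgroup.normalizer ((P : Subgroup G) : Set G)),
      PN = (P : Subgroup G).subgroupOf (Subgroup.normalizer ((P : Subgroup G) : Set G)) :=
    ⟨_, rfl⟩
  have hPNn : PN.Normal := by rw [hPNdef]; infer_instance
  have hmap : PN.map (Subgroup.normalizer ((P : Subgroup G) : Set G)).subtype = P := by
    rw [hPNdef]; exact Subgroup.map_subgroupOf_eq_of_le hPN
  have hmapc : (⁅PN, PN⁆).map (Subgroup.normalizer ((P : Subgroup G) : Set G)).subtype =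
      ⁅(P : Subgroup G), (P : Subgroup G)⁆ := by
    rw [Subgroup.map_commutator, hmap]
  have hDn : (⁅PN, PN⁆).Normal := inferInstance
  have h := closure_inf_le p (Subgroup.normalizer ((P : Subgroup G) : Set G)) ⁅PN, PN⁆ ?_ hext
  · rwa [hmapc] at h
  · intro ψ hdvd
    have hDle : ⁅PN, PN⁆ ≤ PN := Subgroup.commutator_le_right PN PN
    have hAn : (PN.map (QuotientGroup.mk' ⁅PN, PN⁆)).Normal :=
      hPNn.map _ (QuotientGroup.mk'_surjective _)
    have hab : ∀ a ∈ PN.map (QuotientGroup.mk' ⁅PN, PN⁆),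
        ∀ b ∈ PN.map (QuotientGroup.mk' ⁅PN, PN⁆), a * b = b * a := by
      rintro _ ⟨x, hx, rfl⟩ _ ⟨y, hy, rfl⟩
      have h1 : ⁅x, y⁆ ∈ ⁅PN, PN⁆ := Subgroup.commutator_mem_commutator hx hy
      have h2 : (QuotientGroup.mk' ⁅PN, PN⁆) ⁅x, y⁆ = 1 := (QuotientGroup.eq_one_iff _).mpr h1
      rw [map_commutatorElement] at h2
      exact commutatorElement_eq_one_iff_mul_comm.mp h2
    have h1 := Cfsg.Agent.Lib.Helper82.ito_charDegree_dvd ψ.2
      (PN.map (QuotientGroup.mk' ⁅PN, PN⁆)) hab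
    have h2 : (PN.map (QuotientGroup.mk' ⁅PN, PN⁆)).index = PN.index :=
      Subgroup.index_map_eq _ (QuotientGroup.mk'_surjective _)
        (by rw [QuotientGroup.ker_mk']; exact hDle)
    have h3 : PN.index ∣ (P : Subgroup G).index := by
      rw [hPNdef]; exact Subgroup.relIndex_dvd_index_of_le hPN
    rw [h2] at h1
    exact P.not_dvd_index (hdvd.trans (h1.trans h3))

theorem extend_of_complement {G : Type*} [Group G] [Finite G] (N K : Subgroup G) [K.Normal]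
    (hsup : K ⊔ N = ⊤) (hinf : K ⊓ N = ⊥) (θ : Cfsg.IrrCharacter ↥N) :
    ∃ χ : Cfsg.IrrCharacter G, ∀ x : ↥N, (χ : G → ℂ) x = (θ : ↥N → ℂ) x := by
  obtain ⟨φ, hφ⟩ : ∃ φ : ↥N →* G ⧸ K, ∀ a : ↥N, φ a = (QuotientGroup.mk' K) (a : G) :=
    ⟨(QuotientGroup.mk' K).comp N.subtype, fun a => rfl⟩
  have hinj : Function.Injective φ := by
    rw [injective_iff_map_eq_one]
    intro a ha
    rw [hφ] at ha
    have h1 : (a : G) ∈ K := (QuotientGroup.eq_one_iff _).mp ha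
    have h2 : (a : G) ∈ K ⊓ N := ⟨h1, a.2⟩
    rw [hinf, Subgroup.mem_bot] at h2
    exact Subtype.ext h2
  have hsurj : Function.Surjective φ := by
    intro q
    obtain ⟨g, rfl⟩ := QuotientGroup.mk'_surjective K q
    have hg : g ∈ K ⊔ N := by rw [hsup]; exact Subgroup.mem_top g
    obtain ⟨k, hk, n, hn, rfl⟩ := Subgroup.mem_sup_of_normal_left.mp hg
    refine ⟨⟨n, hn⟩, ?_⟩
    have hk1 : (QuotientGroup.mk' K) k = 1 := (QuotientGroup.eq_one_iff k).mpr hk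
    rw [hφ, map_mul, hk1, one_mul]
  obtain ⟨e, he⟩ : ∃ e : ↥N ≃* G ⧸ K, ∀ a, e a = φ a :=
    ⟨MulEquiv.ofBijective φ ⟨hinj, hsurj⟩, fun a => rfl⟩
  obtain ⟨r, hr⟩ : ∃ r : G →* ↥N, ∀ g, r g = e.symm ((QuotientGroup.mk' K) g) :=
    ⟨e.symm.toMonoidHom.comp (QuotientGroup.mk' K), fun g => rfl⟩
  have hrs : Function.Surjective r := by
    intro n
    obtain ⟨g, hg⟩ := QuotientGroup.mk'_surjective K (e n)
    refine ⟨g, ?_⟩
    rw [hr, hg, MulEquiv.symm_apply_apply]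
  have hrN : ∀ x : ↥N, r (x : G) = x := by
    intro x
    rw [hr, ← hφ, ← he, MulEquiv.symm_apply_apply]
  refine ⟨⟨fun g => (θ : ↥N → ℂ) (r g), isIrrCharacter_comp r hrs θ.2⟩, fun x => ?_⟩
  show (θ : ↥N → ℂ) (r (x : G)) = (θ : ↥N → ℂ) x
  rw [hrN]

/-- Let G be a finite group, p a prime and P a Sylow p-subgroup of G with normalizer N. Then every irreducible complex character of N of degree not divisible by p is the restriction of an irreducible character of G if and only if there is a normal subgroup K of G with KN = G and K ∩ N = 1. -/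
theorem result {G : Type*} [Group G] [Finite G] (p : ℕ) [Fact p.Prime] (P : Sylow p G) :
    (∀ θ : Cfsg.IrrCharacter ↥(Subgroup.normalizer ((P : Subgroup G) : Set G)), ¬ p ∣ Cfsg.charDegree (θ : ↥(Subgroup.normalizer ((P : Subgroup G) : Set G)) → ℂ) →
        ∃ χ : Cfsg.IrrCharacter G, ∀ x : ↥(Subgroup.normalizer ((P : Subgroup G) : Set G)), (χ : G → ℂ) x = (θ : ↥(Subgroup.normalizer ((P : Subgroup G) : Set G)) → ℂ) x) ↔
      ∃ K : Subgroup G, K.Normal ∧ K ⊔ Subgroup.normalizer ((P : Subgroup G) : Set G) = ⊤ ∧ K ⊓ Subgroup.normalizer ((P : Subgroup G) : Set G) = ⊥ := by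
  constructor
  · intro hext
    exact nx_exists_normal_complement P (step_P p P hext) (step_comm p P hext)
  · rintro ⟨K, hKn, hsup, hinf⟩ θ _
    have := hKn
    exact extend_of_complement _ K hsup hinf θ

end Cfsg.Agent.S4931
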