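import Cfsg.Statements.S4930
import Cfsg.Agent.Lib.Helper15.OddDeg
import Cfsg.Agent.Lib.Helper82.Ito
import Cfsg.Agent.S4931

set_option autoImplicit false
open Cfsg

namespace Cfsg.Agent.S4930

open Cfsg.Agent.Lib.Helper80 Cfsg.Agent.Lib.Helper15
open scoped commutatorElement

/-- Let G be a finite group, P a Sylow 2-subgroup of G with normalizer N, and P′ the commutator subgroup of P. Then the sum of the squares of the degrees of the irreducible complex characters of G of odd degree is at least the index of P′ in N (the order of N divided by the order of P′), and equality holds if and only if N has a normal complement in G: a normal subgroup K of G with K ∩ N = 1 and KN = G. -/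
theorem result {G : Type*} [Group G] [Finite G] (P : Sylow 2 G) :
    Nat.card (Subgroup.normalizer ((P : Subgroup G) : Set G)) ≤ Nat.card (commutator ↥P) * (∑ᶠ χ : {χ : Cfsg.IrrCharacter G // ¬ 2 ∣ Cfsg.charDegree (χ : G → ℂ)}, Cfsg.charDegree (χ.1 : G → ℂ) ^ 2) ∧
    (Nat.card (Subgroup.normalizer ((P : Subgroup G) : Set G)) = Nat.card (commutator ↥P) * (∑ᶠ χ : {χ : Cfsg.IrrCharacter G // ¬ 2 ∣ Cfsg.charDegree (χ : G → ℂ)}, Cfsg.charDegree (χ.1 : G → ℂ) ^ 2) ↔
      ∃ K : Subgroup G, K.Normal ∧ K ⊓ Subgroup.normalizer ((P : Subgroup G) : Set G) = ⊥ ∧ K ⊔ Subgroup.normalizer ((P : Subgroup G) : Set G) = ⊤) := by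
  classical
  have : Fact (Nat.Prime 2) := ⟨Nat.prime_two⟩
  have hPN : (P : Subgroup G) ≤ Subgroup.normalizer ((P : Subgroup G) : Set G) :=
    Subgroup.le_normalizer
  obtain ⟨PN, hPNdef⟩ : ∃ PN : Subgroup ↥(Subgroup.normalizer ((P : Subgroup G) : Set G)),
      PN = (P : Subgroup G).subgroupOf (Subgroup.normalizer ((P : Subgroup G) : Set G)) :=
    ⟨_, rfl⟩
  have hPNn : PN.Normal := by rw [hPNdef]; infer_instance
  have hPNp : IsPGroup 2 PN := by rw [hPNdef]; exact P.isPGroup'.comap_subtype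
  have hmap : PN.map (Subgroup.normalizer ((P : Subgroup G) : Set G)).subtype = P := by
    rw [hPNdef]; exact Subgroup.map_subgroupOf_eq_of_le hPN
  have hmapc : (⁅PN, PN⁆).map (Subgroup.normalizer ((P : Subgroup G) : Set G)).subtype =
      ⁅(P : Subgroup G), (P : Subgroup G)⁆ := by
    rw [Subgroup.map_commutator, hmap]
  have hDn : (⁅PN, PN⁆).Normal := inferInstance
  have hcardD : Nat.card (⁅PN, PN⁆ : Subgroup ↥(Subgroup.normalizer ((P : Subgroup G) : Set G))) =
      Nat.card (commutator ↥P) := by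
    have h1 : Nat.card ((⁅PN, PN⁆).map (Subgroup.normalizer ((P : Subgroup G) : Set G)).subtype) =
        Nat.card (⁅PN, PN⁆ : Subgroup ↥(Subgroup.normalizer ((P : Subgroup G) : Set G))) :=
      Subgroup.card_map_of_injective (Subgroup.subtype_injective _)
    have h2 : Nat.card ((commutator ↥(P : Subgroup G)).map (P : Subgroup G).subtype) =
        Nat.card (commutator ↥P) :=
      Subgroup.card_map_of_injective (Subgroup.subtype_injective _)
    rw [← h1, hmapc, ← Subgroup.map_subtype_commutator, h2]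
  have hidx : ¬ 2 ∣ (Subgroup.normalizer ((P : Subgroup G) : Set G)).index :=
    fun h => P.not_dvd_index (h.trans (Subgroup.index_dvd_of_le hPN))
  have hdeg : ∀ θ : Cfsg.IrrCharacter ↥(Subgroup.normalizer ((P : Subgroup G) : Set G)),
      (∀ x ∈ ⁅PN, PN⁆, θ.1 x = θ.1 1) → ¬ 2 ∣ Cfsg.charDegree θ.1 := by
    intro θ hθ hdvd
    obtain ⟨ψ, hψ, hψv⟩ := exists_isIrrCharacter_deflate (N := ⁅PN, PN⁆) θ.2 hθ
    have hdegψ : Cfsg.charDegree ψ = Cfsg.charDegree θ.1 := by
      have h1 := char_one_eq_charDegree (isCharacter_of_isIrrCharacter hψ)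
      have h2 := char_one_eq_charDegree (isCharacter_of_isIrrCharacter θ.2)
      have h3 := hψv 1
      rw [QuotientGroup.mk_one, h1, h2] at h3
      exact_mod_cast h3
    have hDle : ⁅PN, PN⁆ ≤ PN := Subgroup.commutator_le_right PN PN
    have hAn : (PN.map (QuotientGroup.mk' ⁅PN, PN⁆)).Normal :=
      hPNn.map _ (QuotientGroup.mk'_surjective _)
    have hab : ∀ a ∈ PN.map (QuotientGroup.mk' ⁅PN, PN⁆),
        ∀ b ∈ PN.map (QuotientGroup.mk' ⁅PN, PN⁆), a * b = b * a := by
      rintro _ ⟨x, hx, rfl⟩ _ ⟨y, hy, rfl⟩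
      have h1 : ⁅x, y⁆ ∈ ⁅PN, PN⁆ := Subgroup.commutator_mem_commutator hx hy
      have h2 : (QuotientGroup.mk' ⁅PN, PN⁆) ⁅x, y⁆ = 1 := (QuotientGroup.eq_one_iff _).mpr h1
      rw [map_commutatorElement] at h2
      exact commutatorElement_eq_one_iff_mul_comm.mp h2
    have h1 := Cfsg.Agent.Lib.Helper82.ito_charDegree_dvd hψ
      (PN.map (QuotientGroup.mk' ⁅PN, PN⁆)) hab
    have h2 : (PN.map (QuotientGroup.mk' ⁅PN, PN⁆)).index = PN.index :=
      Subgroup.index_map_eq _ (QuotientGroup.mk'_surjective _)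
        (by rw [QuotientGroup.ker_mk']; exact hDle)
    have h3 : PN.index ∣ (P : Subgroup G).index := by
      rw [hPNdef]; exact Subgroup.relIndex_dvd_index_of_le hPN
    rw [h2, hdegψ] at h1
    exact P.not_dvd_index (hdvd.trans (h1.trans h3))
  obtain ⟨hle, heq⟩ := od_index_le 2 (Subgroup.normalizer ((P : Subgroup G) : Set G)) ⁅PN, PN⁆
    hidx hdeg
  have hcardN : Nat.card ↥(Subgroup.normalizer ((P : Subgroup G) : Set G)) =
      Nat.card (commutator ↥P) *
        (⁅PN, PN⁆ : Subgroup ↥(Subgroup.normalizer ((P : Subgroup G) : Set G))).index := by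
    rw [← hcardD]; exact (Subgroup.card_mul_index _).symm
  have hpos : 0 < Nat.card (commutator ↥P) := Nat.card_pos
  have hDker : ∀ θ : Cfsg.IrrCharacter ↥(Subgroup.normalizer ((P : Subgroup G) : Set G)),
      ¬ 2 ∣ Cfsg.charDegree θ.1 → ∀ x ∈ ⁅PN, PN⁆, θ.1 x = θ.1 1 :=
    fun θ hθ => od_comm_le_ker 2 PN hPNp θ.2 hθ
  constructor
  · rw [hcardN]; exact Nat.mul_le_mul_left _ hle
  · constructor
    · intro h
      rw [hcardN] at h
      have h1 := Nat.eq_of_mul_eq_mul_left hpos h
      have hext := heq h1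
      obtain ⟨K, hKn, hsup, hinf⟩ := (Cfsg.Agent.S4931.result 2 P).mp
        (fun θ hθ => hext θ (hDker θ hθ))
      exact ⟨K, hKn, hinf, hsup⟩
    · rintro ⟨K, hKn, hinf, hsup⟩
      have := hKn
      rw [hcardN]
      congr 1
      apply le_antisymm hle
      apply od_sum_le_index 2 (Subgroup.normalizer ((P : Subgroup G) : Set G)) K hsup hinf
        ⁅PN, PN⁆ ?_ hDker
      intro χ hχ
      have hinfP : K ⊓ (P : Subgroup G) = ⊥ := by
        apply le_bot_iff.mp
        rw [← hinf]
        exact inf_le_inf_left K hPN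
      apply od_ker_of_fpf 2 K (P : Subgroup G) P.isPGroup' (od_coprime_of_inf_sylow 2 P K hinfP)
        ?_ χ.2 hχ
      intro k hk hcen
      have hkN : k ∈ Subgroup.normalizer ((P : Subgroup G) : Set G) :=
        Subgroup.centralizer_le_normalizer _ (Subgroup.mem_centralizer_iff.mpr hcen)
      have hk2 : k ∈ K ⊓ Subgroup.normalizer ((P : Subgroup G) : Set G) := ⟨hk, hkN⟩
      rw [hinf, Subgroup.mem_bot] at hk2
      exact hk2

end Cfsg.Agent.S4930
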