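import Cfsg.Statements.S4969
import Cfsg.Agent.Lib.Helper82.CharCount

set_option autoImplicit false
open Cfsg

namespace Cfsg.Agent.S4969

open Cfsg.Agent.Lib.Helper82 Cfsg.Agent.Lib.Helper81

/-- Let G be a finite group with k conjugacy classes, g ∈ G, and N > 0. Then the sum over the irreducible complex characters χ of G with χ(1) ≥ N of |χ(g)|/χ(1) is at most √(k · #C_G(g)) / N. -/
theorem result {G : Type*} [Group G] [Finite G] (g : G) (N : ℝ) (hN : 0 < N) :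
    ∑ᶠ χ : Cfsg.IrrCharacter G, (if N ≤ ‖(χ : G → ℂ) 1‖ then ‖(χ : G → ℂ) g‖ / ‖(χ : G → ℂ) 1‖ else 0) ≤
      Real.sqrt ((Nat.card (ConjClasses G) : ℝ) * (Nat.card ↥(Subgroup.centralizer ({g} : Set G)) : ℝ)) / N := by
  classical
  have : Finite (Cfsg.IrrCharacter G) := irr_finite G
  have := Fintype.ofFinite (Cfsg.IrrCharacter G)
  rw [finsum_eq_sum_of_fintype]
  -- termwise bound
  have h1 : ∀ χ : Cfsg.IrrCharacter G,
      (if N ≤ ‖(χ : G → ℂ) 1‖ then ‖(χ : G → ℂ) g‖ / ‖(χ : G → ℂ) 1‖ else 0) ≤ ‖(χ : G → ℂ) g‖ / N := by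
    intro χ
    split_ifs with h
    · exact div_le_div_of_nonneg_left (norm_nonneg _) hN h
    · exact div_nonneg (norm_nonneg _) hN.le
  have h2 : ∑ χ : Cfsg.IrrCharacter G, ‖(χ : G → ℂ) g‖ ≤
      Real.sqrt ((Nat.card (ConjClasses G) : ℝ) * (Nat.card ↥(Subgroup.centralizer ({g} : Set G)) : ℝ)) := by
    apply Real.le_sqrt_of_sq_le
    have h3 := sq_sum_le_card_mul_sum_sq (s := (Finset.univ : Finset (Cfsg.IrrCharacter G)))
      (f := fun χ => ‖(χ : G → ℂ) g‖)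
    rw [irr_sum_norm_sq g, Finset.card_univ, ← Nat.card_eq_fintype_card,
      card_irr_eq_card_conjClasses] at h3
    exact h3
  calc ∑ χ : Cfsg.IrrCharacter G, (if N ≤ ‖(χ : G → ℂ) 1‖ then ‖(χ : G → ℂ) g‖ / ‖(χ : G → ℂ) 1‖ else 0)
      ≤ ∑ χ : Cfsg.IrrCharacter G, ‖(χ : G → ℂ) g‖ / N := Finset.sum_le_sum (fun χ _ => h1 χ)
    _ = (∑ χ : Cfsg.IrrCharacter G, ‖(χ : G → ℂ) g‖) / N := by rw [Finset.sum_div]
    _ ≤ _ := div_le_div_of_nonneg_right h2 hN.le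

end Cfsg.Agent.S4969
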