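import Mathlib
import Cfsg.Statements.S5001
import Cfsg.Agent.Lib.Helper16.CentralScalar
import Cfsg.Agent.Lib.Helper16.Osima
import Cfsg.Agent.Lib.Helper78.HeightZero
import Cfsg.Agent.Lib.Helper15.LinChar
import Cfsg.Agent.Lib.Helper75.CharDecomp
import Cfsg.Agent.Lib.Helper75.CharInd

set_option autoImplicit false
open Cfsg

namespace Cfsg.Agent.S5001

open Cfsg.Agent.Lib.Helper16

/-- Let p be a prime, G a finite group and B a p-block of G (relative to a maximal ideal M of the algebraic integers containing p) with defect group D. Let Z be a central p-subgroup of G contained in D and λ a linear character of Z (a homomorphism to the nonzero complex numbers). Say an irreducible character χ of G lies over λ when χ(z) = χ(1)λ(z) for all z ∈ Z. If some irreducible character in B lying over λ has height zero, then λ extends to a linear character of D. -/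
theorem result {G : Type*} [Group G] [Finite G] (p : ℕ) [Fact p.Prime] (M : Ideal Cfsg.AlgInt) (hM : Cfsg.IsPModular p M) (B : Set (Cfsg.IrrCharacter G)) (hB : Cfsg.IsPBlock M B) (D : Subgroup G) (hD : Cfsg.IsDefectGroup p M B D) (Z : Subgroup G) (hZc : Z ≤ Subgroup.center G) (hZp : IsPGroup p ↥Z) (hZD : Z ≤ D) (lam : ↥Z →* ℂˣ) (χ : Cfsg.IrrCharacter G) (hχ : χ ∈ B) (hover : (∀ z : ↥Z, (χ : G → ℂ) z = (χ : G → ℂ) 1 * (lam z : ℂ))) (h0 : Cfsg.blockHeight p B (χ : G → ℂ) = 0) : (∃ μ : ↥D →* ℂˣ, ∀ z : ↥Z, μ ⟨(z : G), hZD z.2⟩ = lam z) := by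

  classical
  haveI : Fintype G := Fintype.ofFinite G
  have hMp := isPrime_of_isPModular hM
  have hp : p.Prime := Fact.out
  obtain ⟨g, hg, P, hDP⟩ := hD
  -- the value of `χ` at the defect class is a unit
  have hχg : ¬ MemLocalIdeal M ((χ : G → ℂ) g) := by
    rw [← Cfsg.Agent.Lib.Helper78.memLocalIdeal_centralChar_iff hM χ g
      (Cfsg.Agent.Lib.Helper78.factorization_eq_of_height_zero hM B hB g hg χ hχ h0)]
    exact hg.2.2 χ hχ
  -- central elements of `Z` act on `χ` by `lam`
  have hχZ : ∀ (z : ↥Z) (x : G), (χ : G → ℂ) ((z : G) * x) = (lam z : ℂ) * (χ : G → ℂ) x := by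
    intro z x
    obtain ⟨ω, -, hω2⟩ := Cfsg.Agent.Lib.Helper80.central_char_mul χ.2 (hZc z.2)
    have h1 := hω2 1
    rw [mul_one, hover z] at h1
    have hne := irr_one_ne_zero χ
    have hω : ω = (lam z : ℂ) := by
      have h2 : (χ : G → ℂ) 1 * ((lam z : ℂ) - ω) = 0 := by linear_combination h1
      rcases mul_eq_zero.mp h2 with h | h
      · exact absurd h hne
      · exact (sub_eq_zero.mp h).symm
    rw [hω2 x, hω]
  -- restriction to the centralizer of `g`
  obtain ⟨C, hC⟩ : ∃ C : Subgroup G, C = Subgroup.centralizer ({g} : Set G) := ⟨_, rfl⟩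
  subst hC
  haveI : Fintype ↥(Subgroup.centralizer ({g} : Set G)) := Fintype.ofFinite _
  haveI : Fintype (Cfsg.IrrCharacter ↥(Subgroup.centralizer ({g} : Set G))) := Fintype.ofFinite _
  have hχc := isCharacter_of_isIrrCharacter χ.2
  obtain ⟨m, hm, hsum⟩ := Cfsg.Agent.Lib.Helper75.char_eq_sum_irr
    (Cfsg.Agent.Lib.Helper75.isCharacter_res (Subgroup.centralizer ({g} : Set G)) hχc)
  have hgmem : g ∈ Subgroup.centralizer ({g} : Set G) := by
    rw [Subgroup.mem_centralizer_iff]
    intro y hy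
    rw [Set.mem_singleton_iff] at hy
    rw [hy]
  have hgcen : (⟨g, hgmem⟩ : ↥(Subgroup.centralizer ({g} : Set G))) ∈
      Subgroup.center ↥(Subgroup.centralizer ({g} : Set G)) := by
    rw [Subgroup.mem_center_iff]
    intro c
    apply Subtype.ext
    exact (Subgroup.mem_centralizer_iff.mp c.2 g (Set.mem_singleton g)).symm
  have hω : ∀ τ : Cfsg.IrrCharacter ↥(Subgroup.centralizer ({g} : Set G)), ∃ ω : ℂ,
      IsIntegral ℤ ω ∧ (τ : ↥(Subgroup.centralizer ({g} : Set G)) → ℂ) ⟨g, hgmem⟩ =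
        ω * (τ : ↥(Subgroup.centralizer ({g} : Set G)) → ℂ) 1 := by
    intro τ
    obtain ⟨ω, hω1, hω2⟩ := Cfsg.Agent.Lib.Helper80.central_char_mul τ.2 hgcen
    refine ⟨ω, ?_, ?_⟩
    · exact IsIntegral.of_pow (orderOf_pos _) (by rw [hω1]; exact isIntegral_one)
    · have := hω2 1
      rwa [mul_one] at this
  have hex : ∃ τ : Cfsg.IrrCharacter ↥(Subgroup.centralizer ({g} : Set G)), m τ ≠ 0 ∧
      ¬ p ∣ Cfsg.charDegree (τ : ↥(Subgroup.centralizer ({g} : Set G)) → ℂ) := by
    by_contra hcon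
    push Not at hcon
    apply hχg
    have e : (χ : G → ℂ) g = ∑ τ : Cfsg.IrrCharacter ↥(Subgroup.centralizer ({g} : Set G)),
        (m τ : ℂ) * (τ : ↥(Subgroup.centralizer ({g} : Set G)) → ℂ) ⟨g, hgmem⟩ := by
      have := congrFun hsum ⟨g, hgmem⟩
      simp only [Finset.sum_apply, Pi.smul_apply, smul_eq_mul] at this
      exact this
    rw [e]
    apply memLocalIdeal_sum hMp
    intro τ _
    by_cases h0 : m τ = 0
    · rw [h0]
      simp only [Nat.cast_zero, zero_mul]
      exact memLocalIdeal_zero hMp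
    · obtain ⟨k, hk⟩ := hcon τ h0
      obtain ⟨ω, hωi, hωe⟩ := hω τ
      rw [hωe, (Cfsg.Agent.Lib.Helper79.irr_charDegree τ.2).1, hk]
      have e2 : (m τ : ℂ) * (ω * ((p * k : ℕ) : ℂ)) = ((p : ℕ) : ℂ) * ((m τ : ℂ) * ω * (k : ℂ)) := by
        push_cast
        ring
      rw [e2]
      exact memLocalIdeal_mul_right hMp ((memLocalIdeal_natCast_iff hM p).mpr dvd_rfl)
        (memLocalRing_mul hMp (memLocalRing_mul hMp (memLocalRing_natCast hMp _)
          (memLocalRing_of_isIntegral hMp hωi)) (memLocalRing_natCast hMp k))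
  obtain ⟨τ, hmτ, hpτ⟩ := hex
  -- restriction of `τ` to the Sylow subgroup
  haveI : Fintype ↥(P : Subgroup ↥(Subgroup.centralizer ({g} : Set G))) := Fintype.ofFinite _
  haveI : Fintype (Cfsg.IrrCharacter ↥(P : Subgroup ↥(Subgroup.centralizer ({g} : Set G)))) :=
    Fintype.ofFinite _
  obtain ⟨n, hn, hsum2⟩ := Cfsg.Agent.Lib.Helper75.char_eq_sum_irr
    (Cfsg.Agent.Lib.Helper75.isCharacter_res
      (P : Subgroup ↥(Subgroup.centralizer ({g} : Set G))) (isCharacter_of_isIrrCharacter τ.2))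
  have hex2 : ∃ σ : Cfsg.IrrCharacter ↥(P : Subgroup ↥(Subgroup.centralizer ({g} : Set G))),
      n σ ≠ 0 ∧ Cfsg.charDegree
        (σ : ↥(P : Subgroup ↥(Subgroup.centralizer ({g} : Set G))) → ℂ) = 1 := by
    by_contra hcon
    push Not at hcon
    apply hpτ
    have e : Cfsg.charDegree (τ : ↥(Subgroup.centralizer ({g} : Set G)) → ℂ) =
        ∑ σ : Cfsg.IrrCharacter ↥(P : Subgroup ↥(Subgroup.centralizer ({g} : Set G))),
          n σ * Cfsg.charDegree
            (σ : ↥(P : Subgroup ↥(Subgroup.centralizer ({g} : Set G))) → ℂ) := by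
      have := congrFun hsum2 1
      simp only [Finset.sum_apply, Pi.smul_apply, smul_eq_mul] at this
      have h1 : (τ : ↥(Subgroup.centralizer ({g} : Set G)) → ℂ)
          ((1 : ↥(P : Subgroup ↥(Subgroup.centralizer ({g} : Set G)))) :
            ↥(Subgroup.centralizer ({g} : Set G))) =
          (Cfsg.charDegree (τ : ↥(Subgroup.centralizer ({g} : Set G)) → ℂ) : ℂ) := by
        rw [Subgroup.coe_one]
        exact (Cfsg.Agent.Lib.Helper79.irr_charDegree τ.2).1
      rw [h1] at this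
      have h2 : ∀ σ : Cfsg.IrrCharacter ↥(P : Subgroup ↥(Subgroup.centralizer ({g} : Set G))),
          (σ : ↥(P : Subgroup ↥(Subgroup.centralizer ({g} : Set G))) → ℂ) 1 =
          (Cfsg.charDegree
            (σ : ↥(P : Subgroup ↥(Subgroup.centralizer ({g} : Set G))) → ℂ) : ℂ) :=
        fun σ => (Cfsg.Agent.Lib.Helper79.irr_charDegree σ.2).1
      simp only [h2] at this
      exact_mod_cast this
    rw [e]
    apply Finset.dvd_sum
    intro σ _
    by_cases h0 : n σ = 0
    · rw [h0, zero_mul]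
      exact dvd_zero p
    · have hdvd := (Cfsg.Agent.Lib.Helper79.irr_charDegree σ.2).2.2
      obtain ⟨k, hk⟩ := IsPGroup.iff_card.mp P.isPGroup'
      rw [hk] at hdvd
      obtain ⟨j, -, hj⟩ := (Nat.dvd_prime_pow hp).mp hdvd
      have hj0 : j ≠ 0 := by
        rintro rfl
        exact hcon σ h0 (by rw [hj, pow_zero])
      rw [hj]
      exact Dvd.dvd.mul_left (dvd_pow_self p hj0) _
  obtain ⟨σ, hnσ, hσ1⟩ := hex2
  have hσ1' : (σ : ↥(P : Subgroup ↥(Subgroup.centralizer ({g} : Set G))) → ℂ) 1 = 1 := by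
    rw [(Cfsg.Agent.Lib.Helper79.irr_charDegree σ.2).1, hσ1]
    simp
  have hσc := isCharacter_of_isIrrCharacter σ.2
  -- the isomorphism between `P` and `D`
  obtain ⟨e, he⟩ : ∃ e : ↥(P : Subgroup ↥(Subgroup.centralizer ({g} : Set G))) ≃* ↥D,
      ∀ u, ((e u : ↥D) : G) = ((u : ↥(Subgroup.centralizer ({g} : Set G))) : G) := by
    refine ⟨((P : Subgroup ↥(Subgroup.centralizer ({g} : Set G))).equivMapOfInjective
      (Subgroup.centralizer ({g} : Set G)).subtype (Subgroup.subtype_injective _)).trans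
      (MulEquiv.subgroupCongr hDP.symm), ?_⟩
    intro u
    rfl
  refine ⟨(Cfsg.Agent.Lib.Helper15.linCharHom hσc hσ1').comp e.symm.toMonoidHom, ?_⟩
  intro z
  apply Units.ext
  show (σ : ↥(P : Subgroup ↥(Subgroup.centralizer ({g} : Set G))) → ℂ)
    (e.symm ⟨(z : G), hZD z.2⟩) = (lam z : ℂ)
  obtain ⟨zP, hzP⟩ : ∃ zP : ↥(P : Subgroup ↥(Subgroup.centralizer ({g} : Set G))),
      zP = e.symm ⟨(z : G), hZD z.2⟩ := ⟨_, rfl⟩
  rw [← hzP]
  have hzPval : ((zP : ↥(Subgroup.centralizer ({g} : Set G))) : G) = (z : G) := by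
    have h1 := he zP
    have h2 : e zP = ⟨(z : G), hZD z.2⟩ := by rw [hzP, MulEquiv.apply_symm_apply]
    rw [h2] at h1
    exact h1.symm
  have hzcenG : ∀ x : G, (z : G) * x = x * (z : G) := fun x =>
    (Subgroup.mem_center_iff.mp (hZc z.2) x).symm
  -- step A: `τ` transforms by `lam z`
  have hzC : (zP : ↥(Subgroup.centralizer ({g} : Set G))) ∈
      Subgroup.center ↥(Subgroup.centralizer ({g} : Set G)) := by
    rw [Subgroup.mem_center_iff]
    intro c
    apply Subtype.ext
    show (c : G) * ((zP : ↥(Subgroup.centralizer ({g} : Set G))) : G) =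
      ((zP : ↥(Subgroup.centralizer ({g} : Set G))) : G) * (c : G)
    rw [hzPval]
    exact (hzcenG _).symm
  have hA := central_scalar_of_constituent (ψ := fun c : ↥(Subgroup.centralizer ({g} : Set G)) =>
      (χ : G → ℂ) c) τ.2 hzC (c := (lam z : ℂ)) (by
        intro c
        show (χ : G → ℂ) (((zP : ↥(Subgroup.centralizer ({g} : Set G))) : G) * (c : G)) = _
        rw [hzPval]
        exact hχZ z c) (by
        rw [hm τ]
        exact_mod_cast hmτ)
  -- step B: `σ` transforms by `lam z`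
  have hzPc : zP ∈ Subgroup.center ↥(P : Subgroup ↥(Subgroup.centralizer ({g} : Set G))) := by
    rw [Subgroup.mem_center_iff]
    intro u
    apply Subtype.ext
    exact Subgroup.mem_center_iff.mp hzC u
  have hB' := central_scalar_of_constituent
    (ψ := fun u : ↥(P : Subgroup ↥(Subgroup.centralizer ({g} : Set G))) =>
      (τ : ↥(Subgroup.centralizer ({g} : Set G)) → ℂ) u) σ.2 hzPc (c := (lam z : ℂ)) (by
        intro u
        exact hA u) (by
        rw [hn σ]
        exact_mod_cast hnσ)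
  have := hB' 1
  rw [mul_one, hσ1', mul_one] at this
  exact this

end Cfsg.Agent.S5001
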