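import Cfsg.Statements.S5087
import Cfsg.Agent.Lib.Helper84.FusionApps

set_option autoImplicit false
open Cfsg

namespace Cfsg.Agent.S5087

/-- In a saturated fusion system over a finite p-group S, a subgroup Q is normal in the system if and only if every subgroup P that equals S or is essential contains Q and every element of Aut_F(P) maps Q onto itself. -/
theorem result {Ω : Type*} [Group Ω] {S : Subgroup Ω} [Finite S] (p : ℕ) [Fact p.Prime] (hS : IsPGroup p S) (F : Cfsg.FusionSystem S) (hF : F.IsSaturated p) (Q : Subgroup Ω) : F.IsNormal Q ↔ ∀ P : Subgroup Ω, (P = S ∨ F.IsEssential p P) → (Q ≤ P ∧ ∀ α ∈ F.autGroup P, (Q.subgroupOf P).map α.toMonoidHom = Q.subgroupOf P) := by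
  constructor
  · intro hQ P hP
    have hPS : P ≤ S := by
      rcases hP with hP | hP
      · rw [hP]
      · exact hP.1.1
    have hQP : Q ≤ P := by
      rcases hP with hP | hP
      · rw [hP]; exact hQ.1
      · exact Cfsg.Agent.Lib.Helper84.le_of_normal_of_centric_of_pCore_le hS F hQ hP.1
          (Cfsg.Agent.Lib.Helper84.radical_of_essential hS F hP).2.le
    exact ⟨hQP, fun α hα => Cfsg.Agent.Lib.Helper84.normal_aut_map_eq F hQ hPS hQP hα⟩
  · intro h
    apply Cfsg.Agent.Lib.Helper84.isNormal_of_forall_essential p hS F hF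
    intro P hP
    obtain ⟨hQP, hst⟩ := h P hP
    refine ⟨hQP, fun α hα x hx => ?_⟩
    have h1 : α x ∈ (Q.subgroupOf P).map α.toMonoidHom := ⟨x, Subgroup.mem_subgroupOf.2 hx, rfl⟩
    rw [hst α hα] at h1
    exact Subgroup.mem_subgroupOf.1 h1

end Cfsg.Agent.S5087
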