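import Cfsg.Statements.S5135
-- import your own Cfsg.Agent.* helpers here
import Cfsg.Agent.Lib.Helper85.GroupFusion
import Cfsg.Agent.Lib.Helper85.FusionFactor

set_option autoImplicit false
open Cfsg

namespace Cfsg.Agent.S5135

open Cfsg.FusionSystem Cfsg.Agent.Lib.Helper85
open scoped Pointwise

theorem aux {G : Type*} [Group G] [Finite G] (p : ℕ) [Fact p.Prime] (S : Sylow p G)
    (H : Subgroup G) [H.Normal] (θ : ↥(S : Subgroup G) →* G ⧸ H)
    (hθ : ∀ s : ↥(S : Subgroup G), θ s = QuotientGroup.mk' H (s : G)) :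
    (Cfsg.groupFusionSystem (S : Subgroup G)).IsFactorSystem ((S : Subgroup G) ⊓ H) θ
      (Cfsg.groupFusionSystem ((S : Subgroup G).map (QuotientGroup.mk' H))) := by
  have hSsyl : IsSylIn p (S : Subgroup G) ((S : Subgroup G) ⊔ H) := isSylIn_of_sylow S le_sup_left
  have hrange : θ.range = (S : Subgroup G).map (QuotientGroup.mk' H) := by
    ext y
    constructor
    · rintro ⟨s, rfl⟩
      exact ⟨s, s.2, (hθ s).symm⟩
    · rintro ⟨s, hs, rfl⟩
      exact ⟨⟨s, hs⟩, hθ _⟩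
  have hsurj : ∀ (P' : Subgroup (G ⧸ H)), P' ≤ (S : Subgroup G).map (QuotientGroup.mk' H) →
      ∀ y ∈ P', ∃ (x : G) (hx : x ∈ preimageAlong θ P'),
        θ ⟨x, preimageAlong_le θ P' hx⟩ = y := by
    intro P' hP' y hy
    obtain ⟨s, hs, rfl⟩ := hP' hy
    have h1 : θ ⟨s, hs⟩ = QuotientGroup.mk' H s := hθ _
    have h2 : θ ⟨s, hs⟩ ∈ P' := by rw [h1]; exact hy
    exact ⟨s, ⟨⟨s, hs⟩, h2, rfl⟩, h1⟩
  refine ⟨inf_le_left, fun s => ?_, hrange, fun P' φ' => ⟨?_, ?_⟩⟩
  · rw [hθ, QuotientGroup.mk'_apply, QuotientGroup.eq_one_iff]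
    exact ⟨fun h => ⟨s.2, h⟩, fun h => h.2⟩
  · rintro ⟨hP', hφ'S, gbar, hgbar⟩
    refine ⟨hP', ?_⟩
    obtain ⟨g₀, rfl⟩ := QuotientGroup.mk'_surjective H gbar
    have hPS := preimageAlong_le θ P'
    have hX : (preimageAlong θ P').map (MulAut.conj g₀).toMonoidHom ≤ (S : Subgroup G) ⊔ H := by
      rintro _ ⟨x, hx, rfl⟩
      have h1 : θ ⟨x, hPS hx⟩ ∈ P' := ((mem_preimageAlong θ P' x).mp hx).2
      have h2 := hφ'S ⟨θ ⟨x, hPS hx⟩, h1⟩
      rw [hgbar] at h2
      have h3 : QuotientGroup.mk' H (g₀ * x * g₀⁻¹) ∈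
          (S : Subgroup G).map (QuotientGroup.mk' H) := by
        rw [map_mul, map_mul, map_inv, ← hθ ⟨x, hPS hx⟩]
        exact h2
      have h4 : g₀ * x * g₀⁻¹ ∈
          ((S : Subgroup G).map (QuotientGroup.mk' H)).comap (QuotientGroup.mk' H) := h3
      rw [Subgroup.comap_map_eq, QuotientGroup.ker_mk'] at h4
      exact h4
    have hXp : IsPGroup p ((preimageAlong θ P').map (MulAut.conj g₀).toMonoidHom : Subgroup G) :=
      (S.isPGroup'.to_le hPS).map _
    obtain ⟨k, hk, hXk⟩ := hSsyl.exists_conj_le hX hXp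
    have hk' : k ∈ (((S : Subgroup G) : Set G)) * (H : Set G) := by
      rw [← Subgroup.mul_normal]
      exact hk
    obtain ⟨s, hs, h, hh, rfl⟩ := Set.mem_mul.mp hk'
    have hval : ∀ x : ↥(preimageAlong θ P'),
        (h * g₀) * (x : G) * (h * g₀)⁻¹ ∈ (S : Subgroup G) := by
      intro x
      have h1 : (s * h) * (g₀ * x * g₀⁻¹) * (s * h)⁻¹ ∈ (S : Subgroup G) :=
        hXk ⟨_, ⟨x, x.2, rfl⟩, rfl⟩
      have h2 : s⁻¹ * ((s * h) * (g₀ * x * g₀⁻¹) * (s * h)⁻¹) * s ∈ (S : Subgroup G) :=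
        Subgroup.mul_mem _ (Subgroup.mul_mem _ (Subgroup.inv_mem _ hs) h1) hs
      have e : s⁻¹ * ((s * h) * (g₀ * x * g₀⁻¹) * (s * h)⁻¹) * s =
          (h * g₀) * (x : G) * (h * g₀)⁻¹ := by group
      rw [e] at h2
      exact h2
    refine ⟨conjHom (preimageAlong θ P') (h * g₀), ⟨hPS, hval, h * g₀, fun x => rfl⟩, hPS, hval,
      fun x => ((mem_preimageAlong θ P' x).mp x.2).2, fun x => ?_⟩
    rw [hgbar]
    show QuotientGroup.mk' H g₀ * θ ⟨x, hPS x.2⟩ * (QuotientGroup.mk' H g₀)⁻¹ =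
      θ ⟨(h * g₀) * (x : G) * (h * g₀)⁻¹, hval x⟩
    rw [hθ, hθ]
    show QuotientGroup.mk' H g₀ * QuotientGroup.mk' H (x : G) * (QuotientGroup.mk' H g₀)⁻¹ =
      QuotientGroup.mk' H ((h * g₀) * (x : G) * (h * g₀)⁻¹)
    have hh1 : QuotientGroup.mk' H h = 1 := (QuotientGroup.eq_one_iff h).mpr hh
    simp only [map_mul, map_inv, hh1, one_mul]
  · rintro ⟨hP', φ, ⟨hP, hφS, g, hg⟩, hP2, hφ2, hθP', hind⟩
    have key : ∀ y : P', ∃ x : ↥(preimageAlong θ P'),
        (y : G ⧸ H) = QuotientGroup.mk' H (x : G) ∧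
        φ' y = QuotientGroup.mk' H (g * (x : G) * g⁻¹) ∧ g * (x : G) * g⁻¹ ∈ (S : Subgroup G) := by
      intro y
      obtain ⟨x, hx, hxy⟩ := hsurj P' hP' y y.2
      refine ⟨⟨x, hx⟩, ?_, ?_, ?_⟩
      · rw [← hxy, hθ]
      · have e : y = ⟨θ ⟨x, hP2 hx⟩, hθP' ⟨x, hx⟩⟩ := Subtype.ext hxy.symm
        rw [e, hind ⟨x, hx⟩, hθ]
        show QuotientGroup.mk' H (φ ⟨x, hx⟩) = _
        rw [hg]
      · have := hφS ⟨x, hx⟩
        rw [hg] at this
        exact this
    refine ⟨hP', fun y => ?_, QuotientGroup.mk' H g, fun y => ?_⟩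
    · obtain ⟨x, -, hx2, hx3⟩ := key y
      rw [hx2]
      exact ⟨_, hx3, rfl⟩
    · obtain ⟨x, hx1, hx2, -⟩ := key y
      rw [hx2, hx1]
      simp only [map_mul, map_inv]

/-- Let G be a finite group, S a Sylow p-subgroup and H a normal subgroup of G. Then the fusion system of G/H on the image SH/H of S is the factor system of the fusion system of G on S modulo S ∩ H, read through the quotient map restricted to S: for each subgroup P' of SH/H, the conjugation maps by elements of G/H defined on P' with values in SH/H are exactly the homomorphisms induced by the conjugation maps by elements of G defined on the full preimage of P' in S with values in S. -/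
theorem result {G : Type*} [Group G] [Finite G] (p : ℕ) [Fact p.Prime] (S : Sylow p G) (H : Subgroup G) [H.Normal] : (Cfsg.groupFusionSystem (S : Subgroup G)).IsFactorSystem ((S : Subgroup G) ⊓ H) ((QuotientGroup.mk' H).comp (S : Subgroup G).subtype) (Cfsg.groupFusionSystem ((S : Subgroup G).map (QuotientGroup.mk' H))) := by
  exact aux p S H _ (fun s => rfl)

end Cfsg.Agent.S5135
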