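import Cfsg.Statements.S5136
-- import your own Cfsg.Agent.* helpers here
import Cfsg.Agent.Lib.Helper85.FusionBasic

set_option autoImplicit false
open Cfsg

namespace Cfsg.Agent.S5136

open Cfsg.FusionSystem Cfsg.Agent.Lib.Helper85

theorem fst_mem {Ω₁ Ω₂ : Type*} [Group Ω₁] [Group Ω₂] {P : Subgroup (Ω₁ × Ω₂)} (x : P) :
    (x : Ω₁ × Ω₂).1 ∈ P.map (MonoidHom.fst Ω₁ Ω₂) := ⟨x, x.2, rfl⟩

theorem snd_mem {Ω₁ Ω₂ : Type*} [Group Ω₁] [Group Ω₂] {P : Subgroup (Ω₁ × Ω₂)} (x : P) :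
    (x : Ω₁ × Ω₂).2 ∈ P.map (MonoidHom.snd Ω₁ Ω₂) := ⟨x, x.2, rfl⟩

/-- Let F₁ and F₂ be fusion systems over finite p-groups S₁ and S₂ (inside ambient groups Ω₁ and Ω₂). Then their direct product exists: there is a fusion system over S₁ × S₂ inside Ω₁ × Ω₂ whose maps with source P ≤ S₁ × S₂ are exactly the restrictions to P of the homomorphisms (x₁, x₂) ↦ (φ₁ x₁, φ₂ x₂) with φ₁ a map of F₁ on the first projection of P and φ₂ a map of F₂ on the second projection. -/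
theorem result {Ω₁ Ω₂ : Type*} [Group Ω₁] [Group Ω₂] {S₁ : Subgroup Ω₁} {S₂ : Subgroup Ω₂} [Finite S₁] [Finite S₂] (p : ℕ) [Fact p.Prime] (h₁ : IsPGroup p S₁) (h₂ : IsPGroup p S₂) (F₁ : Cfsg.FusionSystem S₁) (F₂ : Cfsg.FusionSystem S₂) : ∃ E : Cfsg.FusionSystem (S₁.prod S₂), Cfsg.FusionSystem.IsProductSystem F₁ F₂ E := by
  refine ⟨{ Hom := fun P => {φ | P ≤ S₁.prod S₂ ∧
              ∃ φ₁ ∈ F₁.Hom (P.map (MonoidHom.fst Ω₁ Ω₂)),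
              ∃ φ₂ ∈ F₂.Hom (P.map (MonoidHom.snd Ω₁ Ω₂)),
                ∀ (x : P) (h₁ : (x : Ω₁ × Ω₂).1 ∈ P.map (MonoidHom.fst Ω₁ Ω₂))
                  (h₂ : (x : Ω₁ × Ω₂).2 ∈ P.map (MonoidHom.snd Ω₁ Ω₂)),
                  φ x = (φ₁ ⟨(x : Ω₁ × Ω₂).1, h₁⟩, φ₂ ⟨(x : Ω₁ × Ω₂).2, h₂⟩)}
            le_of_mem := ?_
            injective_of_mem := ?_
            conj_mem := ?_
            comp_mem := ?_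
            inv_mem := ?_ }, fun P φ => Iff.rfl⟩
  · rintro P φ ⟨hP, φ₁, hφ₁, φ₂, hφ₂, hφ⟩
    refine ⟨hP, fun x => ?_⟩
    rw [hφ x (fst_mem x) (snd_mem x)]
    exact ⟨(F₁.le_of_mem hφ₁).2 _, (F₂.le_of_mem hφ₂).2 _⟩
  · rintro P φ ⟨hP, φ₁, hφ₁, φ₂, hφ₂, hφ⟩ x y hxy
    rw [hφ x (fst_mem x) (snd_mem x), hφ y (fst_mem y) (snd_mem y)] at hxy
    have h1 := F₁.injective_of_mem hφ₁ (congrArg Prod.fst hxy)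
    have h2 := F₂.injective_of_mem hφ₂ (congrArg Prod.snd hxy)
    exact Subtype.ext (Prod.ext (congrArg Subtype.val h1) (congrArg Subtype.val h2))
  · intro P g hP hg
    have hP₁ : P.map (MonoidHom.fst Ω₁ Ω₂) ≤ S₁ := by
      rintro _ ⟨x, hx, rfl⟩
      exact (hP hx).1
    have hP₂ : P.map (MonoidHom.snd Ω₁ Ω₂) ≤ S₂ := by
      rintro _ ⟨x, hx, rfl⟩
      exact (hP hx).2
    exact ⟨hP, conjHom _ g.1, F₁.conj_mem hP₁ hg.1, conjHom _ g.2, F₂.conj_mem hP₂ hg.2,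
      fun x _ _ => rfl⟩
  · rintro P Q φ ψ ⟨hP, φ₁, hφ₁, φ₂, hφ₂, hφ⟩ ⟨hQ, ψ₁, hψ₁, ψ₂, hψ₂, hψ⟩ h
    have h₁ : ∀ x₁ : ↥(P.map (MonoidHom.fst Ω₁ Ω₂)), φ₁ x₁ ∈ Q.map (MonoidHom.fst Ω₁ Ω₂) := by
      rintro ⟨_, x, hx, rfl⟩
      refine ⟨φ ⟨x, hx⟩, h _, ?_⟩
      rw [hφ ⟨x, hx⟩ (fst_mem _) (snd_mem _)]
      rfl
    have h₂ : ∀ x₂ : ↥(P.map (MonoidHom.snd Ω₁ Ω₂)), φ₂ x₂ ∈ Q.map (MonoidHom.snd Ω₁ Ω₂) := by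
      rintro ⟨_, x, hx, rfl⟩
      refine ⟨φ ⟨x, hx⟩, h _, ?_⟩
      rw [hφ ⟨x, hx⟩ (fst_mem _) (snd_mem _)]
      rfl
    refine ⟨hP, _, F₁.comp_mem hφ₁ hψ₁ h₁, _, F₂.comp_mem hφ₂ hψ₂ h₂, fun x hx₁ hx₂ => ?_⟩
    show ψ ⟨φ x, h x⟩ = (ψ₁ ⟨φ₁ ⟨_, hx₁⟩, h₁ _⟩, ψ₂ ⟨φ₂ ⟨_, hx₂⟩, h₂ _⟩)
    rw [hψ ⟨φ x, h x⟩ (fst_mem _) (snd_mem _)]
    have e := hφ x hx₁ hx₂
    refine Prod.ext ?_ ?_
    · show ψ₁ ⟨(φ x).1, _⟩ = ψ₁ ⟨φ₁ ⟨_, hx₁⟩, h₁ _⟩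
      congr 1
      exact Subtype.ext (congrArg Prod.fst e)
    · show ψ₂ ⟨(φ x).2, _⟩ = ψ₂ ⟨φ₂ ⟨_, hx₂⟩, h₂ _⟩
      congr 1
      exact Subtype.ext (congrArg Prod.snd e)
  · rintro P φ ⟨hP, φ₁, hφ₁, φ₂, hφ₂, hφ⟩
    have hR₁ : φ.range.map (MonoidHom.fst Ω₁ Ω₂) = φ₁.range := by
      ext y
      constructor
      · rintro ⟨_, ⟨x, rfl⟩, rfl⟩
        refine ⟨⟨_, fst_mem x⟩, ?_⟩
        rw [hφ x (fst_mem x) (snd_mem x)]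
        rfl
      · rintro ⟨⟨_, x, hx, rfl⟩, rfl⟩
        refine ⟨φ ⟨x, hx⟩, ⟨_, rfl⟩, ?_⟩
        rw [hφ ⟨x, hx⟩ (fst_mem _) (snd_mem _)]
        rfl
    have hR₂ : φ.range.map (MonoidHom.snd Ω₁ Ω₂) = φ₂.range := by
      ext y
      constructor
      · rintro ⟨_, ⟨x, rfl⟩, rfl⟩
        refine ⟨⟨_, snd_mem x⟩, ?_⟩
        rw [hφ x (fst_mem x) (snd_mem x)]
        rfl
      · rintro ⟨⟨_, x, hx, rfl⟩, rfl⟩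
        refine ⟨φ ⟨x, hx⟩, ⟨_, rfl⟩, ?_⟩
        rw [hφ ⟨x, hx⟩ (fst_mem _) (snd_mem _)]
        rfl
    obtain ⟨ψ₁, hψ₁, hinv₁⟩ := inv_mem' F₁ hφ₁ hR₁
    obtain ⟨ψ₂, hψ₂, hinv₂⟩ := inv_mem' F₂ hφ₂ hR₂
    have hrange : φ.range ≤ S₁.prod S₂ := by
      rintro _ ⟨x, rfl⟩
      rw [hφ x (fst_mem x) (snd_mem x)]
      exact ⟨(F₁.le_of_mem hφ₁).2 _, (F₂.le_of_mem hφ₂).2 _⟩
    refine ⟨MonoidHom.prod (ψ₁.comp ((MonoidHom.fst Ω₁ Ω₂).subgroupMap φ.range))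
      (ψ₂.comp ((MonoidHom.snd Ω₁ Ω₂).subgroupMap φ.range)),
      ⟨hrange, ψ₁, hψ₁, ψ₂, hψ₂, fun y _ _ => rfl⟩, fun x => ?_⟩
    have e := hφ x (fst_mem x) (snd_mem x)
    have hm₁ : (φ x).1 ∈ φ.range.map (MonoidHom.fst Ω₁ Ω₂) := ⟨φ x, ⟨x, rfl⟩, rfl⟩
    have hm₂ : (φ x).2 ∈ φ.range.map (MonoidHom.snd Ω₁ Ω₂) := ⟨φ x, ⟨x, rfl⟩, rfl⟩
    show (ψ₁ ⟨(φ x).1, hm₁⟩, ψ₂ ⟨(φ x).2, hm₂⟩) = (x : Ω₁ × Ω₂)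
    refine Prod.ext ?_ ?_
    · show ψ₁ ⟨(φ x).1, hm₁⟩ = (x : Ω₁ × Ω₂).1
      have h1 := hinv₁ ⟨_, fst_mem x⟩ (by rw [hR₁]; exact ⟨_, rfl⟩)
      refine Eq.trans ?_ h1
      congr 1
      exact Subtype.ext (congrArg Prod.fst e)
    · show ψ₂ ⟨(φ x).2, hm₂⟩ = (x : Ω₁ × Ω₂).2
      have h2 := hinv₂ ⟨_, snd_mem x⟩ (by rw [hR₂]; exact ⟨_, rfl⟩)
      refine Eq.trans ?_ h2
      congr 1
      exact Subtype.ext (congrArg Prod.snd e)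

end Cfsg.Agent.S5136
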