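import Cfsg.Statements.S5153
-- import your own Cfsg.Agent.* helpers here
import Cfsg.Agent.Lib.Helper85.FusionSatBasic
import Cfsg.Agent.Lib.Helper85.FusionFactor
import Cfsg.Agent.Lib.Helper86.Saturated

set_option autoImplicit false
open Cfsg

namespace Cfsg.Agent.S5153

open Cfsg.FusionSystem Cfsg.Agent.Lib.Helper85

theorem fullyNormalized_of_normal {Ω : Type*} [Group Ω] {S : Subgroup Ω} [Finite S] {p : ℕ}
    [Fact p.Prime] (hS : IsPGroup p S) (F : Cfsg.FusionSystem S) (hF : F.IsSaturated p)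
    {U : Subgroup Ω} (D : Cfsg.FusionSystem U) (hsub : D.IsSubsystemOf F)
    (hU : F.StronglyClosed U) {P : Subgroup Ω} (hPU : P ≤ U) (hP : F.IsFullyNormalized P) :
    D.IsFullyNormalized P := by
  refine ⟨hPU, fun Q hQ => ?_⟩
  have hUS := hU.1
  have hQF : F.IsConj P Q := by
    obtain ⟨φ, hφ, hr⟩ := hQ
    exact ⟨φ, hsub P hφ, hr⟩
  obtain ⟨hfa, hrec⟩ := Cfsg.Agent.Lib.Helper86.fullyNormalized_imp hS F hF hP
  obtain ⟨φ, hφ, hφN, -⟩ :=
    Cfsg.Agent.Lib.Helper86.exists_hom_normalizer_onto hS F hfa hrec (isConj_symm F hQF)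
  have hle : normalizerIn U Q ≤ normalizerIn S Q := inf_le_inf_right _ hUS
  have hmap : ∀ x : ↥(normalizerIn U Q), φ ⟨x, hle x.2⟩ ∈ normalizerIn U P := by
    intro x
    refine Subgroup.mem_inf.mpr ⟨?_, (hφN _).2⟩
    exact (stronglyClosed_mem_iff F hU hφ ⟨x, hle x.2⟩).mpr x.2.1
  have : Finite ↥(normalizerIn U P) := finite_of_le (inf_le_left.trans hUS)
  refine Nat.card_le_card_of_injective
    (fun x => (⟨φ ⟨x, hle x.2⟩, hmap x⟩ : ↥(normalizerIn U P))) ?_
  intro a b hab
  have h1 : φ ⟨a, hle a.2⟩ = φ ⟨b, hle b.2⟩ := congrArg Subtype.val hab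
  have h2 := F.injective_of_mem hφ h1
  exact Subtype.ext (Subtype.mk.inj h2)

theorem aux {Ω : Type*} [Group Ω] {T : Subgroup Ω} (E : Cfsg.FusionSystem T) {S : Subgroup Ω}
    (F : Cfsg.FusionSystem S) (p : ℕ) (h : E.IsSubnormalIn F p) :
    Fact p.Prime → Finite S → IsPGroup p S → F.IsSaturated p →
      T ≤ S ∧ ∀ P : Subgroup Ω, P ≤ T → F.IsFullyNormalized P → E.IsFullyNormalized P := by
  induction h with
  | refl F p =>
    intro _ _ _ _
    exact ⟨le_rfl, fun P _ hP => hP⟩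
  | @step U S E D F p hED hDF ih =>
    intro hp hfin hS hF
    have hUS : U ≤ S := hDF.1.2.2.2.1.1
    have hfinU : Finite U := finite_of_le hUS
    have hU : IsPGroup p U := hS.to_le hUS
    obtain ⟨hTU, ih2⟩ := ih hp hfinU hU hDF.1.1
    refine ⟨hTU.trans hUS, fun P hPT hP => ?_⟩
    exact ih2 P hPT
      (fullyNormalized_of_normal hS F hF D hDF.1.2.2.1 hDF.1.2.2.2.1 (hPT.trans hTU) hP)

/-- Let F be a saturated fusion system over a finite p-group S and E a subnormal subsystem of F over T. Then every subgroup of T that is fully normalized in F is fully normalized in E. -/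
theorem result {Ω : Type*} [Group Ω] {S : Subgroup Ω} [Finite S] (p : ℕ) [Fact p.Prime] (hS : IsPGroup p S) (F : Cfsg.FusionSystem S) (hF : F.IsSaturated p) {T : Subgroup Ω} (E : Cfsg.FusionSystem T) (hE : E.IsSubnormalIn F p) (P : Subgroup Ω) (hPT : P ≤ T) (hP : F.IsFullyNormalized P) : E.IsFullyNormalized P := by
  exact (aux E F p hE inferInstance inferInstance hS hF).2 P hPT hP

end Cfsg.Agent.S5153
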