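import Cfsg.Statements.S5199
import Cfsg.Agent.Lib.Helper86.Alperin

set_option autoImplicit false
open Cfsg Cfsg.FusionSystem Cfsg.Agent.Lib.Helper84 Cfsg.Agent.Lib.Helper86 Cfsg.Agent.Lib.Helper34

namespace Cfsg.Agent.S5199

/-- Let F be a saturated fusion system over a finite p-group S, E a normal subsystem of F over T, and F₀ a normal subsystem of F over a subgroup U containing both T and the hyperfocal subgroup of F, such that F₀ has p-power index in F. Then E is a subsystem of F₀. -/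
theorem result {Ω : Type*} [Group Ω] {S : Subgroup Ω} [Finite S] (p : ℕ) [Fact p.Prime] (hS : IsPGroup p S) (F : Cfsg.FusionSystem S) (hF : F.IsSaturated p) {T U : Subgroup Ω} (E : Cfsg.FusionSystem T) (hE : E.IsNormalIn F p) (F₀ : Cfsg.FusionSystem U) (hF₀ : F₀.IsNormalIn F p) (hU : T ⊔ F.hyperfocalSubgroup p ≤ U) (hidx : F₀.HasPPowerIndexIn F p) : E.IsSubsystemOf F₀ := by
  obtain ⟨⟨hEsat, -, hEF, hTsc, -, -⟩, -⟩ := hE
  have hTS : T ≤ S := hTsc.1
  have hTU : T ≤ U := le_sup_left.trans hU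
  have : Finite T := finite_of_le hTS
  have hT : IsPGroup p T := hS.to_le hTS
  obtain ⟨-, -, hres⟩ := hidx
  refine alperin_weak hT E hEsat F₀ ?_
  intro R hRa hRr _ α hα
  have hRT : R ≤ T := hRa.1
  have hRU : R ≤ U := hRT.trans hTU
  have : Finite R := finite_of_le (hRT.trans hTS)
  rw [← mem_autGroup_iff F₀ hRU]
  have hαE : α ∈ E.autGroup R := (mem_autGroup_iff E hRT α).mpr hα
  obtain ⟨Rs, hRs⟩ := hRa.2
  obtain ⟨s, hs, u, hu, hsu⟩ := exists_mul_pResidual (p := p) (Rs : Subgroup (E.autGroup R))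
    (Sylow.not_dvd_index Rs) ⟨α, hαE⟩
  have hα' : α = (s : MulAut R) * (u : MulAut R) := congrArg Subtype.val hsu
  rw [hα']
  refine Subgroup.mul_mem _ ?_ ?_
  · rw [hRs] at hs
    exact autInducedBy_le_autGroup' F₀ hTU hRU (Subgroup.mem_subgroupOf.mp hs)
  · have h1 : (u : MulAut R) ∈ (Cfsg.pResidual p (E.autGroup R)).map (E.autGroup R).subtype :=
      ⟨u, hu, rfl⟩
    exact hres R hRU (pResidual_map_le p (autGroup_mono E F hEF R) h1)

end Cfsg.Agent.S5199
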