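import Cfsg.Statements.S5214
import Cfsg.Agent.S5087
import Cfsg.Agent.Lib.Helper85.PearlFus
import Cfsg.Agent.Lib.Helper45.HigMain
-- import your own Cfsg.Agent.* helpers here

set_option autoImplicit false
open Cfsg

namespace Cfsg.Agent.S5214

open Cfsg.Agent.Lib.Helper45.Hig Cfsg.Agent.Lib.Helper21.Suz2 in
/-- A saturated fusion system on a Suzuki 2-group has no essential subgroups. -/
theorem no_essential {Ω : Type*} [Group Ω] {S : Subgroup Ω} [Finite S] (hS : IsPGroup 2 S)
    (F : Cfsg.FusionSystem S) (hF : F.IsSaturated 2) (hsz : Cfsg.IsSuzukiTwoGroup ↥S)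
    (E : Subgroup Ω) (hE : F.IsEssential 2 E) : False := by
  obtain ⟨K, h⟩ := suzuki_SD hsz
  have hES : E ≤ S := hE.1.1
  obtain ⟨Z, hZ⟩ : ∃ Z : Subgroup Ω, Z = (Subgroup.center ↥S).map S.subtype := ⟨_, rfl⟩
  have hZmem : ∀ x : Ω, x ∈ Z ↔ ∃ s : ↥S, s ∈ Subgroup.center ↥S ∧ (s : Ω) = x := by
    intro x
    rw [hZ, Subgroup.mem_map]
    rfl
  obtain ⟨X, hX⟩ : ∃ X : ℕ → Subgroup Ω, X = fun k => if k = 0 then E else if k = 1 then Z else ⊥ :=
    ⟨_, rfl⟩
  have hX0 : X 0 = E := by rw [hX]; rfl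
  have hX1 : X 1 = Z := by rw [hX]; rfl
  have hX2 : X 2 = ⊥ := by rw [hX]; rfl
  have key : ∀ g ∈ S, g ∈ Subgroup.normalizer (E : Set Ω) → g ∈ E := by
    intro g hgS hgN
    refine Cfsg.Agent.Lib.Helper85.Pearl.mem_of_chain hS F hE X 2 (le_of_eq hX0.symm) ?_ ?_
      hgS hgN ?_
    · intro x _ hx
      rw [hX2] at hx
      exact Subgroup.mem_bot.mp hx
    · intro α k hk x hx
      interval_cases k
      · rw [hX0]; exact (α x).2
      · rw [hX1] at hx ⊢
        rw [hZmem] at hx ⊢
        obtain ⟨s, hs, hsx⟩ := hx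
        have hs2 : s * s = 1 := h.hce s hs
        have hx2 : x * x = 1 := by
          apply Subtype.ext
          show (x : Ω) * (x : Ω) = 1
          rw [← hsx]
          exact congrArg Subtype.val hs2
        have hy2 : α x * α x = 1 := by rw [← map_mul, hx2, map_one]
        refine ⟨⟨(α x : Ω), hES (α x).2⟩, ?_, rfl⟩
        apply h.hci
        apply Subtype.ext
        have h3 := congrArg (Subtype.val : ↥E → Ω) hy2
        exact h3
      · rw [hX2] at hx ⊢
        have hx1 : x = 1 := Subtype.ext (Subgroup.mem_bot.mp hx)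
        rw [hx1, map_one]
        exact Subgroup.one_mem _
    · intro k hk x hxE hx
      interval_cases k
      · rw [hX1, hZmem]
        refine ⟨cm (⟨x, hES hxE⟩ : ↥S) (⟨g, hgS⟩ : ↥S)⁻¹, h.cm_central _ _, ?_⟩
        unfold cm
        push_cast
        group
      · rw [hX1, hZmem] at hx
        rw [hX2, Subgroup.mem_bot]
        obtain ⟨s, hs, hsx⟩ := hx
        have h1 := Subgroup.mem_center_iff.mp hs ⟨g, hgS⟩
        have h2 : g * x = x * g := by
          rw [← hsx]
          exact congrArg Subtype.val h1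
        rw [h2]
        group
  have hne := Cfsg.Agent.Lib.Helper85.Pearl.essential_ne_top F hF hE
  haveI : Fact (Nat.Prime 2) := ⟨Nat.prime_two⟩
  haveI hnil : Group.IsNilpotent ↥S := hS.isNilpotent
  have hnc := Group.normalizerCondition_of_isNilpotent (G := ↥S)
  have hlt : E.subgroupOf S < ⊤ := by
    rw [lt_top_iff_ne_top]
    intro htop
    apply hne
    apply le_antisymm hES
    intro s hs
    have : (⟨s, hs⟩ : ↥S) ∈ E.subgroupOf S := by rw [htop]; exact Subgroup.mem_top _
    exact Subgroup.mem_subgroupOf.mp this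
  have h2 := hnc _ hlt
  obtain ⟨g, hgN, hgE⟩ := SetLike.exists_of_lt h2
  apply hgE
  rw [Subgroup.mem_subgroupOf]
  apply key g.1 g.2
  rw [Subgroup.mem_normalizer_iff] at hgN
  rw [Subgroup.mem_set_normalizer_iff]
  intro x
  constructor
  · intro hx
    have := (hgN ⟨x, hES hx⟩).1 (Subgroup.mem_subgroupOf.mpr hx)
    exact Subgroup.mem_subgroupOf.mp this
  · intro hx
    have hxS : x ∈ S := by
      have h1 : (g : Ω) * x * (g : Ω)⁻¹ ∈ S := hES hx
      have e : x = (g : Ω)⁻¹ * ((g : Ω) * x * (g : Ω)⁻¹) * (g : Ω) := by group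
      rw [e]
      exact S.mul_mem (S.mul_mem (S.inv_mem g.2) h1) g.2
    have := (hgN ⟨x, hxS⟩).2 (Subgroup.mem_subgroupOf.mpr hx)
    exact Subgroup.mem_subgroupOf.mp this

/-- Let S be a Suzuki 2-group (a finite nonabelian 2-group with more than one involution admitting a cyclic group of automorphisms permuting its involutions regularly). Then S is normal in every saturated fusion system over S (such a group is resistant). -/
theorem result {Ω : Type*} [Group Ω] {S : Subgroup Ω} [Finite S] (hS : IsPGroup 2 S) (F : Cfsg.FusionSystem S) (hF : F.IsSaturated 2) (hsz : Cfsg.IsSuzukiTwoGroup ↥S) : F.IsNormal S := by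
  haveI : Fact (Nat.Prime 2) := ⟨Nat.prime_two⟩
  rw [Cfsg.Agent.S5087.result 2 hS F hF S]
  intro P hP
  rcases hP with hP | hP
  · subst hP
    refine ⟨le_rfl, fun α _ => ?_⟩
    rw [Subgroup.subgroupOf_self]
    exact Subgroup.map_top_of_surjective _ α.surjective
  · exact (no_essential hS F hF hsz P hP).elim

end Cfsg.Agent.S5214
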