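import Cfsg.Statements.S5222
import Cfsg.Agent.Lib.Helper87.FusionTate
-- import your own Cfsg.Agent.* helpers here

set_option autoImplicit false
open Cfsg

namespace Cfsg.Agent.S5222

/-- Let F be a saturated fusion system over a finite p-group S whose normalizer fusion system of S is the inner fusion system of S (Aut_F(S) is a p-group). Then for every subgroup Q of S with [S, S] ≤ Q ≤ Φ(S), the normalizer fusion system of Q in F is the inner fusion system of N_S(Q) = S. -/
theorem result {Ω : Type*} [Group Ω] {S : Subgroup Ω} [Finite S] (p : ℕ) [Fact p.Prime] (hS : IsPGroup p S) (F : Cfsg.FusionSystem S) (hF : F.IsSaturated p) (hN : ∀ N : Cfsg.FusionSystem (Cfsg.FusionSystem.normalizerIn S S), F.IsNormalizerSystem S N → ∀ P : Subgroup Ω, N.Hom P = (Cfsg.innerFusionSystem (Cfsg.FusionSystem.normalizerIn S S)).Hom P) (Q : Subgroup Ω) (h1 : (commutator ↥S).map S.subtype ≤ Q) (h2 : Q ≤ (frattini ↥S).map S.subtype) : ∀ N : Cfsg.FusionSystem (Cfsg.FusionSystem.normalizerIn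 S Q), F.IsNormalizerSystem Q N → ∀ P : Subgroup Ω, N.Hom P = (Cfsg.innerFusionSystem (Cfsg.FusionSystem.normalizerIn S Q)).Hom P := by
  intro N hNsys P
  have hA := Lib.Helper87.aut_top_inner_of_normalizer F hN
  have hQS : Q ≤ S := by
    intro q hq
    obtain ⟨x, -, rfl⟩ := h2 hq
    exact x.2
  have hcommQ := Lib.Helper87.comm_mem_of_commutator_le h1
  have hSnQ : S ≤ Subgroup.normalizer (Q : Set Ω) :=
    Lib.Helper87.le_normalizer_of_comm hcommQ le_rfl hQS
  apply Set.Subset.antisymm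
  · intro φ hφ
    rw [hNsys P] at hφ
    obtain ⟨hφF, hPN, hφN, ψ, hψ, hext, hmap⟩ := hφ
    rw [Lib.Helper87.map_subgroupOf_eq_iff le_sup_right] at hmap
    have hPS : P ≤ S := hPN.trans inf_le_left
    obtain ⟨g, hg, hgψ⟩ := Lib.Helper87.tate_hom hS F hF hA h1 h2 (P ⊔ Q) le_sup_right
      (sup_le hPS hQS) ψ hψ (fun x hx => hmap.1 x hx)
    refine ⟨hPN, g, ⟨hg, hSnQ hg⟩, fun x => ?_⟩
    rw [← hext x, hgψ]
    rfl
  · exact Lib.Helper87.inner_hom_subset N P

end Cfsg.Agent.S5222
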