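import Cfsg.Statements.S5223
import Cfsg.Agent.Lib.Helper87.FusionAlperin

set_option autoImplicit false
open Cfsg

namespace Cfsg.Agent.S5223

/-- Let F be a saturated fusion system over a finite p-group S. Suppose there are subgroups Q₀ = S, Q₁, …, Qₙ = 1 (not required to be nested) such that for each i < n the focal subgroup of Qᵢ (generated by the elements x⁻¹φ(x), x ∈ Qᵢ, φ a map of F defined on the cyclic group generated by x) lies in Qᵢ₊₁. Then F is the inner fusion system of S. -/
theorem result {Ω : Type*} [Group Ω] {S : Subgroup Ω} [Finite S] (p : ℕ) [Fact p.Prime] (hS : IsPGroup p S) (F : Cfsg.FusionSystem S) (hF : F.IsSaturated p) (n : ℕ) (Q : Fin (n + 1) → Subgroup Ω) (hQ0 : Q 0 = S) (hQn : Q (Fin.last n) = ⊥) (hstep : ∀ i : Fin n, Subgroup.closure {y : Ω | ∃ x ∈ Q i.castSucc, ∃ φ ∈ F.Hom (Subgroup.zpowers x), y = x⁻¹ * φ ⟨x, Subgroup.mem_zpowers x⟩} ≤ Q i.succ) : ∀ P : Subgroup Ω, F.Hom P = (Cfsg.innerFusionSystem S).Hom P := by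
  intro P
  apply Set.Subset.antisymm
  · refine Lib.Helper87.alperin hS F hF (Cfsg.innerFusionSystem S) ?_ P
    intro R hfa hrec _ _ _ α hα
    have hR : R ≤ S := hrec.1
    obtain ⟨s, hs⟩ := hS.exists_card_eq
    -- every automorphism in the system has `p`-power order
    have hpow : ∀ β ∈ F.autGroup R, ∃ N : ℕ, β ^ p ^ N = 1 := by
      intro β hβ
      have key : ∀ i : Fin (n + 1), ∃ N : ℕ, ∀ x : R, (x : Ω) ∈ Q i → (β ^ p ^ N) x = x := by
        intro i
        induction i using Fin.reverseInduction with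
        | last =>
          refine ⟨0, fun x hx => ?_⟩
          rw [hQn, Subgroup.mem_bot] at hx
          have hx1 : x = 1 := Subtype.ext hx
          rw [hx1, map_one]
        | cast i ih =>
          obtain ⟨N, hN⟩ := ih
          refine ⟨N + s, fun x hx => ?_⟩
          have hγ : β ^ p ^ N ∈ F.autGroup R := Subgroup.pow_mem _ hβ _
          have hγF := (Lib.Helper87.mem_autGroup_iff F hR _).1 hγ
          have hz : Subgroup.zpowers (x : Ω) ≤ R := (Subgroup.zpowers_le).2 x.2
          have hφ := Lib.Helper87.hom_restrict F hz hγF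
          have hd : (x : Ω)⁻¹ * (((β ^ p ^ N) x : R) : Ω) ∈ Q i.succ := by
            apply hstep i
            apply Subgroup.subset_closure
            exact ⟨x, hx, _, hφ, rfl⟩
          have hex : ∃ d : R, (β ^ p ^ N) x = x * d ∧ (β ^ p ^ N) d = d :=
            ⟨x⁻¹ * (β ^ p ^ N) x, by group, hN (x⁻¹ * (β ^ p ^ N) x) hd⟩
          obtain ⟨d, hmul, hfix⟩ := hex
          have hpw : ∀ m : ℕ, ((β ^ p ^ N) ^ m) x = x * d ^ m := by
            intro m
            induction m with
            | zero => simp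
            | succ m ihm =>
              rw [pow_succ', MulAut.mul_apply, ihm, map_mul, map_pow, hfix, hmul, pow_succ',
                mul_assoc]
          have h1 : β ^ p ^ (N + s) = (β ^ p ^ N) ^ p ^ s := by
            rw [← pow_mul, ← pow_add]
          rw [h1, hpw]
          have h2 : d ^ p ^ s = 1 := by
            apply Subtype.ext
            have h3 : (⟨(d : Ω), hR d.2⟩ : S) ^ Nat.card S = 1 := pow_card_eq_one'
            rw [hs] at h3
            have h4 := congrArg Subtype.val h3
            simpa using h4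
          rw [h2, mul_one]
      obtain ⟨N, hN⟩ := key 0
      refine ⟨N, ?_⟩
      ext x
      have := hN x (hQ0 ▸ hR x.2)
      rw [this]
      rfl
    have hPG : IsPGroup p (F.autGroup R) := by
      intro a
      obtain ⟨N, hN⟩ := hpow a a.2
      exact ⟨N, Subtype.ext (by simpa using hN)⟩
    obtain ⟨-, T, hT⟩ := hfa
    have htop : (⊤ : Subgroup (F.autGroup R)) = (T : Subgroup (F.autGroup R)) :=
      T.is_maximal' (hPG.to_subgroup ⊤) le_top
    have hαT : (⟨α, hα⟩ : F.autGroup R) ∈ (T : Subgroup (F.autGroup R)) := htop ▸ Subgroup.mem_top _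
    rw [hT] at hαT
    have hαS : α ∈ Cfsg.autInducedBy S R := hαT
    obtain ⟨g, hg, hgα⟩ := (Lib.Helper87.mem_autInducedBy_iff S R α).1 hαS
    exact ⟨hR, g, hg, hgα⟩
  · rintro φ ⟨hP, g, hg, h⟩
    have h1 : Cfsg.conjHom P g ∈ F.Hom P := F.conj_mem hP hg
    have h2 : Cfsg.conjHom P g = φ := by
      ext x
      exact (h x).symm
    rwa [h2] at h1

end Cfsg.Agent.S5223
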