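import Mathlib
import Cfsg.Statements.S5224
import Cfsg.Agent.Lib.Helper84.FusionApps
import Cfsg.Agent.Lib.Helper86.PPower
import Cfsg.Agent.Lib.Helper87.FusionHyp
import Cfsg.Agent.Lib.Helper88.HypExt
import Cfsg.Agent.Lib.Helper88.FocExt

set_option autoImplicit false
open Cfsg Cfsg.FusionSystem Cfsg.Agent.Lib.Helper88

namespace Cfsg.Agent.S5224

universe u

theorem main {Ω : Type u} [Group Ω] {S : Subgroup Ω} [Finite S] (p : ℕ) [Fact p.Prime]
    (hS : IsPGroup p S) (F : Cfsg.FusionSystem S) (hF : F.IsSaturated p) (H : Cfsg.FusionSystem S)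
    (hH : H.IsSaturated p) (hHF : H.IsSubsystemOf F) :
    (((frattini ↥S).map S.subtype ⊔ F.focalSubgroup) = ((frattini ↥S).map S.subtype ⊔ H.focalSubgroup)
      ↔ F.focalSubgroup = H.focalSubgroup) ∧
    (F.focalSubgroup = H.focalSubgroup ↔ F.hyperfocalSubgroup p = H.hyperfocalSubgroup p) := by
  have hfocF := Lib.Helper84.focal_eq_hyperfocal_sup p hS F hF
  have hfocH := Lib.Helper84.focal_eq_hyperfocal_sup p hS H hH
  have hWV : H.focalSubgroup ≤ F.focalSubgroup := focal_mono F H hHF
  constructor
  · constructor
    · intro heq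
      obtain ⟨M, hMS, hWM, hsup, himp⟩ := foc_ext hS F hF H hHF
      have h1 : F.focalSubgroup ≤ M ⊔ (frattini ↥S).map S.subtype := by
        calc F.focalSubgroup ≤ (frattini ↥S).map S.subtype ⊔ F.focalSubgroup := le_sup_right
          _ = (frattini ↥S).map S.subtype ⊔ H.focalSubgroup := heq
          _ ≤ M ⊔ (frattini ↥S).map S.subtype := sup_le le_sup_right (hWM.trans le_sup_left)
      have hle : M ⊔ F.focalSubgroup ≤ (M.subgroupOf S ⊔ frattini ↥S).map S.subtype := by
        rw [Subgroup.map_sup, Subgroup.map_subgroupOf_eq_of_le hMS]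
        exact sup_le le_sup_left h1
      have h2 : M.subgroupOf S ⊔ frattini ↥S = ⊤ := by
        rw [eq_top_iff]
        rintro s -
        obtain ⟨c, hc, hcs⟩ := hle (hsup s.2)
        have : c = s := Subtype.ext hcs
        rw [← this]
        exact hc
      have h3 := frattini_nongenerating h2
      have h4 : S ≤ M := Subgroup.subgroupOf_eq_top.1 h3
      exact le_antisymm (himp ((focal_le F).trans h4)) hWV
    · intro heq
      rw [heq]
  · constructor
    · intro heq
      have hsub : H.hyperfocalSubgroup p ≤ F.hyperfocalSubgroup p :=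
        Lib.Helper86.hyperfocal_le_of_subsystem H F hHF p
      obtain ⟨M, hMS, hcomm, hKM, hsup, himp⟩ := hyp_ext hS F hF (H.hyperfocalSubgroup p) hsub
        (fun s hs k hk => Lib.Helper87.hyperfocal_conj_mem H p hs hk)
      have h1 : H.focalSubgroup ≤ M := by
        rw [hfocH]
        apply sup_le hKM
        rw [Subgroup.commutator_le]
        intro a ha b hb
        exact hcomm a ha b hb
      have h2 : F.hyperfocalSubgroup p ≤ M := by
        calc F.hyperfocalSubgroup p ≤ F.focalSubgroup := by rw [hfocF]; exact le_sup_left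
          _ = H.focalSubgroup := heq
          _ ≤ M := h1
      exact le_antisymm (himp h2) hsub
    · intro heq
      rw [hfocF, hfocH, heq]

/-- Tate's Theorem for fusion systems. Let F be a saturated fusion system over a finite p-group S and H a saturated fusion system over S contained in F. Then the following are equivalent: the elementary focal subgroups Φ(S)·foc agree for F and H; the focal subgroups of F and H agree; the hyperfocal subgroups of F and H agree. -/
theorem result {Ω : Type*} [Group Ω] {S : Subgroup Ω} [Finite S] (p : ℕ) [Fact p.Prime] (hS : IsPGroup p S) (F : Cfsg.FusionSystem S) (hF : F.IsSaturated p) (H : Cfsg.FusionSystem S) (hH : H.IsSaturated p) (hHF : H.IsSubsystemOf F) : (((frattini ↥S).map S.subtype ⊔ F.focalSubgroup) = ((frattini ↥S).map S.subtype ⊔ H.focalSubgroup) ↔ F.focalSubgroup = H.focalSubgroup) ∧ (F.focalSubgroup = H.focalSubgroup ↔ F.hyperfocalSubgroup p = H.hyperfocalSubgroup p) :=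
  main p hS F hF H hH hHF

end Cfsg.Agent.S5224
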