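import Cfsg.Statements.S5233
-- import your own Cfsg.Agent.* helpers here
import Cfsg.Agent.Lib.Helper85.GenExtraFus

set_option autoImplicit false
open Cfsg

namespace Cfsg.Agent.S5233

/-- Let F be a saturated fusion system over a finite p-group S and P a subgroup of S strongly closed in F that is generalized extraspecial (its Frattini subgroup equals its commutator subgroup and has order p) and not isomorphic to E × A with A elementary abelian and E dihedral of order 8 (p = 2) or extraspecial of order p³ and exponent p (p odd). Then P is normal in F. -/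
theorem result {Ω : Type*} [Group Ω] {S : Subgroup Ω} [Finite S] (p : ℕ) [Fact p.Prime] (hS : IsPGroup p S) (F : Cfsg.FusionSystem S) (hF : F.IsSaturated p) (P : Subgroup Ω) (hP : F.StronglyClosed P) (hge : frattini ↥P = commutator ↥P ∧ Nat.card ↥(commutator ↥P) = p) (h2 : p = 2 → ¬ ∃ (A : Type) (_ : CommGroup A), (∀ a : A, a ^ 2 = 1) ∧ Nonempty (↥P ≃* DihedralGroup 4 × A)) (hodd : p ≠ 2 → ¬ ∃ (E : Type) (_ : Group E) (A : Type) (_ : CommGroup A), Cfsg.IsExtraspecial p E ∧ Nat.card E = p ^ 3 ∧ Monoid.exponent E = p ∧ (∀ a : A, a ^ p = 1) ∧ Nonempty (↥P ≃* E × A)) : F.IsNormal P := by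
  have C := Cfsg.Agent.Lib.Helper85GE.ctx_of p hS F hF P hP hge
  have hwc := Cfsg.Agent.Lib.Helper85GE.weaklyClosed_Z C h2 hodd
  let D : ℕ → Subgroup Ω := fun j => match j with
    | 0 => ⊥
    | 1 => ⁅P, P⁆
    | _ => P
  refine Cfsg.Agent.Lib.Helper87.isNormal_of_chain hS F hF hP D 2 rfl ?_ ?_ ?_ ?_
  · intro j hj
    match j, hj with
    | (k + 2), _ => rfl
  · intro j
    match j with
    | 0 => exact bot_le
    | 1 => exact C.hZP
    | (k + 2) => exact le_rfl
  · intro j hj
    match j, hj with
    | 0, _ =>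
      show ⁅(⁅P, P⁆ : Subgroup Ω), P⁆ ≤ ⊥
      rw [Subgroup.commutator_le]
      intro w hw a ha
      rw [Subgroup.mem_bot, commutatorElement_eq_one_iff_commute]
      exact (C.hZcen w hw a (hP.1 ha)).symm
    | 1, _ =>
      show ⁅P, P⁆ ≤ ⁅P, P⁆
      exact le_rfl
    | (k + 2), h => exact absurd h (by omega)
  · intro j hj
    match j, hj with
    | 0, _ =>
      exact Cfsg.Agent.Lib.Helper87.stronglyClosed_weaklyClosed F
        (Cfsg.Agent.Lib.Helper87.stronglyClosed_bot F)
    | 1, _ => exact hwc
    | (k + 2), h => exact absurd h (by omega)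

end Cfsg.Agent.S5233
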