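import Cfsg.Statements.S5236
import Cfsg.Agent.Lib.Helper87.FusionOmega
-- import your own Cfsg.Agent.* helpers here

set_option autoImplicit false
open Cfsg

namespace Cfsg.Agent.S5236

/-- Let p be an odd prime, F a saturated fusion system over a finite p-group S and P a subgroup of S strongly closed in F. Then P is normal in F if and only if Ω₁(P) (the subgroup generated by the elements of order p of P) has a chain of subgroups 1 = Q₀ ≤ Q₁ ≤ ⋯ ≤ Qₙ = Ω₁(P), each strongly closed in F, with [Qᵢ₊₁, P] ≤ Qᵢ for all i. -/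
theorem result {Ω : Type*} [Group Ω] {S : Subgroup Ω} [Finite S] (p : ℕ) [Fact p.Prime] (hS : IsPGroup p S) (F : Cfsg.FusionSystem S) (hF : F.IsSaturated p) (hp : p ≠ 2) (P : Subgroup Ω) (hP : F.StronglyClosed P) : F.IsNormal P ↔ ∃ (n : ℕ) (Q : Fin (n + 1) → Subgroup Ω), Q 0 = ⊥ ∧ Q (Fin.last n) = Cfsg.omegaOne p P ∧ Monotone Q ∧ (∀ i : Fin (n + 1), F.StronglyClosed (Q i)) ∧ ∀ i : Fin n, ⁅Q i.succ, P⁆ ≤ Q i.castSucc := by
  constructor
  · intro hPn
    exact Lib.Helper87.exists_omega_chain hS F hPn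
  · rintro ⟨n, Q, hQ0, hQn, hmono, hsc, hcomm⟩
    refine Lib.Helper87.isNormal_of_omega_chain hS F hF hp hP
      (fun j => if h : j ≤ n then Q ⟨j, Nat.lt_succ_of_le h⟩ else Cfsg.omegaOne p P) n ?_ ?_ ?_ ?_
    · simp only [Nat.zero_le, dite_true]
      exact hQ0
    · simp only [le_refl, dite_true]
      exact hQn
    · intro j hj
      have h1 : j + 1 ≤ n := hj
      have h2 : j ≤ n := hj.le
      simp only [h1, h2, dite_true]
      exact hcomm ⟨j, hj⟩
    · intro j hj
      simp only [hj, dite_true]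
      exact hsc _

end Cfsg.Agent.S5236
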