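import Cfsg.Statements.S5245
-- import your own Cfsg.Agent.* helpers here
import Cfsg.Agent.Lib.Helper85.AutSys
import Cfsg.Agent.Lib.Helper85.FusionMore
import Cfsg.Agent.Lib.Helper85.FusionNormal
import Cfsg.Agent.Lib.Helper85.FusionSatBasic
import Cfsg.Agent.Lib.Helper88.FusPAut
import Cfsg.Agent.Lib.Helper86.PPower

set_option autoImplicit false
open Cfsg

namespace Cfsg.Agent.S5245

open Cfsg.FusionSystem Cfsg.Agent.Lib.Helper85

variable {Ω : Type*} [Group Ω]

/-- an automorphism of prime order `q ≠ p` of a finite `p`-group is not inner -/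
theorem aut_not_inner {T : Subgroup Ω} {p : ℕ} [Fact p.Prime] (hT : IsPGroup p T)
    {γ : MulAut T} {q : ℕ} (hq : q.Prime) (hqp : q ≠ p) (hγ : orderOf γ = q) :
    T.subtype.comp γ.toMonoidHom ∉ (innerFusionSystem T).Hom T := by
  rintro ⟨-, g, hg, h⟩
  have h1 : γ = MulAut.conj (⟨g, hg⟩ : T) := by
    ext x
    have := h x
    simpa [MulAut.conj_apply] using this
  obtain ⟨k, hk⟩ := hT ⟨g, hg⟩
  have h2 : γ ^ (p ^ k) = 1 := by
    rw [h1, ← map_pow, hk, map_one]
  have h3 : q ∣ p ^ k := hγ ▸ orderOf_dvd_of_pow_eq_one h2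
  have hp : p.Prime := Fact.out
  exact hqp ((Nat.prime_dvd_prime_iff_eq hq hp).1 (hq.dvd_of_dvd_pow h3))

theorem self_mem_autSys {T : Subgroup Ω} (γ : MulAut T) :
    T.subtype.comp γ.toMonoidHom ∈ (autSys T (Subgroup.zpowers γ)).Hom T :=
  ⟨le_rfl, 1, γ, Subgroup.mem_zpowers γ, fun x => by simp⟩

theorem card_zpowers_coprime {M : Type*} [Group M] {p q : ℕ} [Fact p.Prime] (γ : M)
    (hq : q.Prime) (hqp : q ≠ p) (hγ : orderOf γ = q) :
    (Nat.card (Subgroup.zpowers γ)).Coprime p := by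
  rw [Nat.card_zpowers, hγ]
  have hp : p.Prime := Fact.out
  exact (Nat.coprime_primes hq hp).2 hqp

/-- a finite group that is not a `p`-group has an element of prime order `q ≠ p` -/
theorem exists_prime_order_ne {M : Type*} [Group M] [Finite M] {p : ℕ} [Fact p.Prime]
    (h : ¬ IsPGroup p M) : ∃ (q : ℕ) (g : M), q.Prime ∧ q ≠ p ∧ orderOf g = q := by
  by_contra hcon
  push_neg at hcon
  apply h
  have hp : p.Prime := Fact.out
  have h1 : ∀ {d : ℕ}, d.Prime → d ∣ Nat.card M → d = p := by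
    intro d hd hdvd
    by_contra hne
    haveI : Fact d.Prime := ⟨hd⟩
    obtain ⟨g, hg⟩ := exists_prime_orderOf_dvd_card' d hdvd
    exact hcon d g hd hne hg
  have h2 := Nat.eq_prime_pow_of_unique_prime_dvd Nat.card_pos.ne' h1
  exact IsPGroup.of_card h2

/-- Let F be an extremely sparse fusion system over a finite p-group S (saturated, not the inner system, and every saturated fusion system over any subgroup T of S contained in F is F itself or the inner system of T). Then S is normal in F, the focal and hyperfocal subgroups of F are both S, and Aut_F(S) is generated by the inner automorphisms of S together with a single automorphism of prime order q ≠ p (F is the fusion system of the semidirect product of S by a cyclic group of prime order). -/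
theorem result {Ω : Type*} [Group Ω] {S : Subgroup Ω} [Finite S] (p : ℕ) [Fact p.Prime] (hS : IsPGroup p S) (F : Cfsg.FusionSystem S) (hF : F.IsSaturated p) (hxs : ¬ (∀ P : Subgroup Ω, F.Hom P = (Cfsg.innerFusionSystem S).Hom P) ∧ ∀ (T : Subgroup Ω) (E : Cfsg.FusionSystem T), E.IsSaturated p → E.IsSubsystemOf F → (T = S ∧ ∀ P : Subgroup Ω, E.Hom P = F.Hom P) ∨ (∀ P : Subgroup Ω, E.Hom P = (Cfsg.innerFusionSystem T).Hom P)) : F.IsNormal S ∧ F.focalSubgroup = S ∧ F.hyperfocalSubgroup p = S ∧ ∃ (q : ℕ) (β : MulAut ↥S), q.Prime ∧ q ≠ p ∧ β ∈ F.autGroup S ∧ orderOf β = q ∧ (F.autGroup S : Subgroup (MulAut ↥S)) = Cfsg.Inn ↥S ⊔ Subgroup.zpowers β := by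
  classical
  obtain ⟨hni, hsp⟩ := hxs
  have hp : p.Prime := Fact.out
  -- a subgroup whose automizer is not a p-group
  have h1 : ∃ P : Subgroup Ω, P ≤ S ∧ ¬ IsPGroup p (F.autGroup P) := by
    by_contra hcon
    push_neg at hcon
    exact hni (Cfsg.Agent.Lib.Helper88.eq_inner_of_isPGroup hS F hF hcon)
  obtain ⟨P, hPS, hnp⟩ := h1
  have hfinA : Finite (F.autGroup P) := Cfsg.Agent.Lib.Helper84.finite_autGroup F hPS
  obtain ⟨q, b, hq, hqp, hb⟩ := exists_prime_order_ne hnp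
  have hβ0 : orderOf (b : MulAut P) = q := by rw [Subgroup.orderOf_coe]; exact hb
  have hfinP : Finite P := finite_of_le hPS
  have hPp : IsPGroup p P := hS.to_le hPS
  have hsat1 := autSys_saturated p hPp (Subgroup.zpowers (b : MulAut P))
    (card_zpowers_coprime _ hq hqp hβ0)
  have hsub1 : (autSys P (Subgroup.zpowers (b : MulAut P))).IsSubsystemOf F :=
    autSys_subsystem F hPS ((Subgroup.zpowers_le).2 b.2)
  have hPeq : P = S ∧ ∀ R : Subgroup Ω,
      (autSys P (Subgroup.zpowers (b : MulAut P))).Hom R = F.Hom R := by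
    rcases hsp P _ hsat1 hsub1 with h | h
    · exact h
    · exfalso
      have h2 := self_mem_autSys (b : MulAut P)
      rw [h P] at h2
      exact aut_not_inner hPp hq hqp hβ0 h2
  obtain ⟨hPS', hEF⟩ := hPeq
  subst hPS'
  set β : MulAut P := (b : MulAut P) with hβdef
  have hβ : β ∈ F.autGroup P := b.2
  have hβq : β ^ q = 1 := by rw [← hβ0]; exact pow_orderOf_eq_one β
  have hFeq : F = autSys P (Subgroup.zpowers β) := fusionSystem_ext (fun R => (hEF R).symm)
  have hβhom : P.subtype.comp β.toMonoidHom ∈ F.Hom P := (mem_autGroup_iff F le_rfl β).1 hβ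
  -- the commutator subgroup [S, β]
  let KS : Subgroup P := Subgroup.closure {y : P | ∃ x : P, y = x⁻¹ * β x}
  let K : Subgroup Ω := KS.map P.subtype
  have hKmem : ∀ x : P, (x : Ω) ∈ K ↔ x ∈ KS := fun x =>
    Subgroup.mem_map_iff_mem P.subtype_injective
  have hinv1 : KS ≤ KS.comap β.toMonoidHom := by
    rw [Subgroup.closure_le]
    rintro y ⟨x, rfl⟩
    show β (x⁻¹ * β x) ∈ KS
    rw [map_mul, map_inv]
    exact Subgroup.subset_closure ⟨β x, rfl⟩
  have hinv2 : KS ≤ KS.comap (β⁻¹).toMonoidHom := by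
    rw [Subgroup.closure_le]
    rintro y ⟨x, rfl⟩
    show β⁻¹ (x⁻¹ * β x) ∈ KS
    rw [map_mul, map_inv]
    have e : β⁻¹ (β x) = β (β⁻¹ x) := by simp
    rw [e]
    exact Subgroup.subset_closure ⟨β⁻¹ x, rfl⟩
  have hK1 : ∀ x : P, (x : Ω) ∈ K → ((β x : P) : Ω) ∈ K := fun x hx =>
    (hKmem _).2 (hinv1 ((hKmem x).1 hx))
  have hK2 : ∀ x : P, (x : Ω) ∈ K → ((β⁻¹ x : P) : Ω) ∈ K := fun x hx =>
    (hKmem _).2 (hinv2 ((hKmem x).1 hx))
  let βK : MulAut ↥(P ⊓ K) := Cfsg.Agent.Lib.Helper86.restrictAut β K hK1 hK2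
  have hKS : K ≤ P := by
    rintro _ ⟨x, -, rfl⟩
    exact x.2
  have hgenK : ∀ x : P, ((x⁻¹ * β x : P) : Ω) ∈ P ⊓ K := fun x =>
    ⟨(x⁻¹ * β x).2, (hKmem _).2 (Subgroup.subset_closure ⟨x, rfl⟩)⟩
  have hβKne : βK ≠ 1 := by
    intro h1
    -- β fixes every commutator, hence β ^ |S| = 1
    have hfix : ∀ x : P, β (x⁻¹ * β x) = x⁻¹ * β x := by
      intro x
      have h2 : ((βK ⟨((x⁻¹ * β x : P) : Ω), hgenK x⟩ : ↥(P ⊓ K)) : Ω) = ((x⁻¹ * β x : P) : Ω) := by
        rw [h1]; rfl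
      rw [Cfsg.Agent.Lib.Helper86.restrictAut_apply] at h2
      exact Subtype.ext h2
    have hpow : ∀ (n : ℕ) (x : P), (β ^ n) x = x * (x⁻¹ * β x) ^ n := by
      intro n
      induction n with
      | zero => intro x; simp
      | succ n ih =>
        intro x
        rw [pow_succ', MulAut.mul_apply, ih, map_mul, map_pow, hfix]
        rw [pow_succ' (x⁻¹ * β x) n, ← mul_assoc x, mul_inv_cancel_left]
    have h3 : β ^ Nat.card P = 1 := by
      ext x
      rw [hpow, pow_card_eq_one']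
      simp
    have h4 : q ∣ Nat.card P := hβ0 ▸ orderOf_dvd_of_pow_eq_one h3
    obtain ⟨n, hn⟩ := (IsPGroup.iff_card.1 hPp)
    rw [hn] at h4
    exact hqp ((Nat.prime_dvd_prime_iff_eq hq hp).1 (hq.dvd_of_dvd_pow h4))
  have hβKq : βK ^ q = 1 := by
    ext z
    rw [Cfsg.Agent.Lib.Helper86.restrictAut_pow_apply, hβq]
    rfl
  have hβKord : orderOf βK = q := by
    have h1 : orderOf βK ∣ q := orderOf_dvd_of_pow_eq_one hβKq
    rcases (Nat.dvd_prime hq).1 h1 with h | h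
    · exact absurd (orderOf_eq_one_iff.1 h) hβKne
    · exact h
  have hfinK : Finite ↥(P ⊓ K) := finite_of_le inf_le_left
  have hKp : IsPGroup p ↥(P ⊓ K) := hS.to_le inf_le_left
  have hsat2 := autSys_saturated p hKp (Subgroup.zpowers βK)
    (card_zpowers_coprime _ hq hqp hβKord)
  have hβKmem : βK ∈ F.autGroup (P ⊓ K) := by
    rw [mem_autGroup_iff F inf_le_left]
    have h1 := restrict_mem F (inf_le_left : P ⊓ K ≤ P) hβhom
    have e : (P ⊓ K).subtype.comp βK.toMonoidHom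
        = (P.subtype.comp β.toMonoidHom).comp (Subgroup.inclusion inf_le_left) := by
      ext z
      rfl
    rw [e]
    exact h1
  have hsub2 : (autSys (P ⊓ K) (Subgroup.zpowers βK)).IsSubsystemOf F :=
    autSys_subsystem F inf_le_left ((Subgroup.zpowers_le).2 hβKmem)
  have hKtop : P ≤ K := by
    rcases hsp (P ⊓ K) _ hsat2 hsub2 with h | h
    · have h1 : P ⊓ K = P := h.1
      exact inf_eq_left.1 h1
    · exfalso
      have h2 := self_mem_autSys βK
      rw [h (P ⊓ K)] at h2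
      exact aut_not_inner hKp hq hqp hβKord h2
  have hcop : q.Coprime p := (Nat.coprime_primes hq hp).2 hqp
  refine ⟨?_, ?_, ?_, q, β, hq, hqp, hβ, hβ0, ?_⟩
  · -- S is normal in F
    refine ⟨le_rfl, fun R φ hφ => ?_⟩
    have hφ' := hφ
    rw [← hEF R] at hφ'
    obtain ⟨hR, t, γ, hγ, h⟩ := hφ'
    have hle : R ⊔ P ≤ P := sup_le hR le_rfl
    let ψ : ↥(R ⊔ P) →* Ω :=
      (conjHom P (t : Ω)).comp (γ.toMonoidHom.comp (Subgroup.inclusion hle))
    have hψ : ψ ∈ F.Hom (R ⊔ P) := by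
      rw [← hEF (R ⊔ P)]
      exact ⟨hle, t, γ, hγ, fun x => rfl⟩
    refine ⟨ψ, hψ, fun x => (h x).symm, ?_⟩
    rw [map_subgroupOf_eq_iff]
    refine ⟨fun x _ => (F.le_of_mem hψ).2 x, fun y hy => ?_⟩
    have hy1 : (t : Ω)⁻¹ * y * (t : Ω) ∈ P := P.mul_mem (P.mul_mem (P.inv_mem t.2) hy) t.2
    refine ⟨⟨(γ⁻¹ ⟨(t : Ω)⁻¹ * y * (t : Ω), hy1⟩ : P), ?_⟩, (γ⁻¹ _ : P).2, ?_⟩
    · exact (le_sup_right : P ≤ R ⊔ P) (γ⁻¹ _ : P).2
    · show (t : Ω) * ((γ (γ⁻¹ ⟨(t : Ω)⁻¹ * y * (t : Ω), hy1⟩) : P) : Ω) * (t : Ω)⁻¹ = y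
      have e : γ (γ⁻¹ ⟨(t : Ω)⁻¹ * y * (t : Ω), hy1⟩) = ⟨(t : Ω)⁻¹ * y * (t : Ω), hy1⟩ := by simp
      rw [e]
      show (t : Ω) * ((t : Ω)⁻¹ * y * (t : Ω)) * (t : Ω)⁻¹ = y
      group
  · -- focal subgroup
    apply le_antisymm
    · unfold Cfsg.FusionSystem.focalSubgroup
      rw [Subgroup.closure_le]
      rintro y ⟨R, φ, x, hφ, rfl⟩
      exact P.mul_mem (P.inv_mem ((F.le_of_mem hφ).1 x.2)) ((F.le_of_mem hφ).2 x)
    · refine hKtop.trans ?_
      show KS.map P.subtype ≤ _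
      rw [Subgroup.map_le_iff_le_comap, Subgroup.closure_le]
      rintro y ⟨x, rfl⟩
      show ((x⁻¹ * β x : P) : Ω) ∈ F.focalSubgroup
      apply Subgroup.subset_closure
      refine ⟨P, P.subtype.comp β.toMonoidHom, x, hβhom, ?_⟩
      rw [Subgroup.coe_mul, Subgroup.coe_inv]
      rfl
  · -- hyperfocal subgroup
    apply le_antisymm (Cfsg.Agent.Lib.Helper86.hyperfocal_le F p)
    refine hKtop.trans ?_
    show KS.map P.subtype ≤ _
    rw [Subgroup.map_le_iff_le_comap, Subgroup.closure_le]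
    rintro y ⟨x, rfl⟩
    exact Cfsg.Agent.Lib.Helper88.hyp_gen_mem F le_rfl hβ hcop hβq x
  · -- the automizer of S
    rw [hFeq]
    ext α
    rw [mem_autGroup_autSys]
    constructor
    · rintro ⟨t, γ, hγ, rfl⟩
      exact Subgroup.mul_mem _ (Subgroup.mem_sup_left ⟨t, rfl⟩) (Subgroup.mem_sup_right hγ)
    · intro hα
      have hle : Cfsg.Inn ↥P ⊔ Subgroup.zpowers β
          ≤ (autSys P (Subgroup.zpowers β)).autGroup P := by
        apply sup_le
        · rintro _ ⟨t, rfl⟩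
          exact mem_autGroup_autSys.2 ⟨t, 1, Subgroup.one_mem _, by simp⟩
        · intro γ hγ
          exact mem_autGroup_autSys.2 ⟨1, γ, hγ, by simp⟩
      exact mem_autGroup_autSys.1 (hle hα)

end Cfsg.Agent.S5245
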