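import Mathlib
import Cfsg.Statements.S5247
import Cfsg.Agent.Lib.Helper88.PStable
import Cfsg.Agent.Lib.Helper84.NormalizerSys
import Cfsg.Agent.Lib.Helper87.FusionNormal

set_option autoImplicit false
open Cfsg Cfsg.FusionSystem Cfsg.Agent.Lib Cfsg.Agent.Lib.Helper88

namespace Cfsg.Agent.S5247

/-- Let p be an odd prime and F a saturated fusion system over a finite p-group S. Call a fusion system E (over any subgroup) p-stable when, for every fully E-normalized subgroup Q and every χ ∈ Aut_E(Q) with χ(a⁻¹)·a·χ(a⁻¹)·χ(χ(a)) = 1 for all a ∈ Q (χ acts quadratically), χ lies in O_p(Aut_E(Q)). Then F is p-stable if and only if every normalizer fusion system N_F(R) of every non-cyclic fully F-normalized subgroup R of S is p-stable. -/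
theorem result {Ω : Type*} [Group Ω] {S : Subgroup Ω} [Finite S] (p : ℕ) [Fact p.Prime] (hS : IsPGroup p S) (F : Cfsg.FusionSystem S) (hF : F.IsSaturated p) (hp : p ≠ 2) : (∀ Q : Subgroup Ω, F.IsFullyNormalized Q → ∀ χ : MulAut ↥Q, χ ∈ F.autGroup Q → (∀ a : ↥Q, (χ a⁻¹) * a * (χ a⁻¹) * (χ (χ a)) = 1) → χ ∈ ((Cfsg.pCore p ↥(F.autGroup Q)).map (F.autGroup Q).subtype : Subgroup (MulAut ↥Q))) ↔ ∀ R : Subgroup Ω, F.IsFullyNormalized R → ¬ IsCyclic ↥R → ∀ N : Cfsg.FusionSystem (Cfsg.FusionSystem.normalizerIn S R), F.IsNormalizerSystem R N → (∀ Q : Subgroup Ω, N.IsFullyNormalized Q → ∀ χ : MulAut ↥Q, χ ∈ N.autGroup Q → (∀ a : ↥Q, (χ a⁻¹) * a * (χ a⁻¹) * (χ (χ a)) = 1) → χ ∈ ((Cfsg.pCore p ↥(N.autGroup Q)).map (N.autGroup Q).subtype : Subgroup (MulAut ↥Q))) := by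
  classical
  have hsub : ∀ (R : Subgroup Ω) (N : Cfsg.FusionSystem (Cfsg.FusionSystem.normalizerIn S R)),
      F.IsNormalizerSystem R N → ∀ Q : Subgroup Ω, N.autGroup Q ≤ F.autGroup Q := by
    intro R N hN Q
    apply Subgroup.closure_mono
    intro α hα
    have h1 : Q.subtype.comp α.toMonoidHom ∈ N.Hom Q := hα
    rw [hN Q] at h1
    exact h1.1
  constructor
  · intro h R _ _ N hN Q hfn χ hχ hquad
    have hQS : Q ≤ S := hfn.1.trans inf_le_left
    have h1 := pstable_all F h hQS χ (hsub R N hN Q hχ) hquad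
    exact mem_pCore_map_mono (hsub R N hN Q) hχ h1
  · intro h Q hfn χ hχ hquad
    have hQS : Q ≤ S := hfn.1
    have hfinQ : Finite Q := Finite.of_injective (Subgroup.inclusion hQS) (Subgroup.inclusion_injective hQS)
    by_cases hc : IsCyclic Q
    · rw [mem_pCore_map_iff]
      refine ⟨Subgroup.zpowers χ, ?_, quad_zpowers_isPGroup (hS.to_le hQS) χ hquad, ?_,
        Subgroup.mem_zpowers χ⟩
      · rw [Subgroup.zpowers_le]; exact hχ
      · intro g _ k hk
        have : g * k * g⁻¹ = k := by rw [mulAut_comm_of_isCyclic g k, mul_inv_cancel_right]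
        rw [this]; exact hk
    · have hN := Helper87.isNormalizerSystem_normSystem F Q hQS
      have hQN : Q ≤ normalizerIn S Q := le_inf hQS Subgroup.le_normalizer
      have hfinN : Finite (normalizerIn S Q) :=
        Finite.of_injective (Subgroup.inclusion (inf_le_left : normalizerIn S Q ≤ S))
          (Subgroup.inclusion_injective _)
      have hAut : (Helper87.normSystem F Q (normalizerIn S Q) hQS inf_le_left inf_le_right).autGroup Q
          = F.autGroup Q := by
        apply le_antisymm (hsub Q _ hN Q)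
        intro α hα
        rw [Helper88.mem_autGroup_iff _ hQN]
        rw [Helper88.mem_autGroup_iff _ hQS] at hα
        rw [Helper84.mor_normalizerSystem_iff F hQS _ hN]
        refine ⟨hα, hQN, fun x hx => ?_, _, ?_, fun x _ => rfl, fun x hx => ?_⟩
        · rw [extFun_mem _ hx]
          exact hQN (α ⟨x, hx⟩).2
        · rw [sup_idem]
          exact hα
        · rw [extFun_mem _ hx]
          exact (α ⟨x, hx⟩).2
      have hfnN : (Helper87.normSystem F Q (normalizerIn S Q) hQS inf_le_left inf_le_right).IsFullyNormalized Q := by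
        refine ⟨hQN, fun Q' _ => ?_⟩
        have h1 : normalizerIn (normalizerIn S Q) Q = normalizerIn S Q :=
          le_antisymm inf_le_left (le_inf le_rfl inf_le_right)
        rw [h1]
        exact Subgroup.card_le_of_le inf_le_left
      have h2 := h Q hfn hc _ hN Q hfnN χ (by rw [hAut]; exact hχ) hquad
      rw [hAut] at h2
      exact h2

end Cfsg.Agent.S5247
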