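import Cfsg.Statements.S5255
import Cfsg.Agent.Lib.Helper87.FusionStrongly

set_option autoImplicit false
open Cfsg

namespace Cfsg.Agent.S5255

/-- Let F be a saturated fusion system over a finite p-group S and T a subgroup of S strongly closed in F. Then T·C_S(T) is strongly closed in F. -/
theorem result {Ω : Type*} [Group Ω] {S : Subgroup Ω} [Finite S] (p : ℕ) [Fact p.Prime] (hS : IsPGroup p S) (F : Cfsg.FusionSystem S) (hF : F.IsSaturated p) (T : Subgroup Ω) (hT : F.StronglyClosed T) : F.StronglyClosed (T ⊔ Cfsg.FusionSystem.centralizerIn S T) := by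
  have hKS : T ⊔ Cfsg.FusionSystem.centralizerIn S T ≤ S := sup_le hT.1 inf_le_left
  have hKconj : ∀ g ∈ S, ∀ x ∈ T ⊔ Cfsg.FusionSystem.centralizerIn S T,
      g * x * g⁻¹ ∈ T ⊔ Cfsg.FusionSystem.centralizerIn S T := by
    intro g hg x hx
    have h1 : (T ⊔ Cfsg.FusionSystem.centralizerIn S T).map (MulAut.conj g).toMonoidHom
        ≤ T ⊔ Cfsg.FusionSystem.centralizerIn S T := by
      rw [Subgroup.map_sup]
      apply sup_le
      · rintro _ ⟨t, ht, rfl⟩
        exact Subgroup.mem_sup_left (Lib.Helper87.stronglyClosed_conj_mem F hT hg ht)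
      · rintro _ ⟨c, hc, rfl⟩
        apply Subgroup.mem_sup_right
        refine ⟨S.mul_mem (S.mul_mem hg hc.1) (S.inv_mem hg), ?_⟩
        show g * c * g⁻¹ ∈ Subgroup.centralizer (T : Set Ω)
        rw [Subgroup.mem_centralizer_iff]
        intro y hy
        have hy' : g⁻¹ * y * g ∈ T := Lib.Helper87.stronglyClosed_conj_mem' F hT hg hy
        have hcomm := hc.2 (g⁻¹ * y * g) hy'
        calc y * (g * c * g⁻¹) = g * ((g⁻¹ * y * g) * c) * g⁻¹ := by group
          _ = g * (c * (g⁻¹ * y * g)) * g⁻¹ := by rw [hcomm]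
          _ = g * c * g⁻¹ * y := by group
    exact h1 ⟨x, hx, rfl⟩
  have hK : ∀ g ∈ S, ∀ x : Ω, x ∈ T ⊔ Cfsg.FusionSystem.centralizerIn S T ↔
      g * x * g⁻¹ ∈ T ⊔ Cfsg.FusionSystem.centralizerIn S T := by
    intro g hg x
    constructor
    · exact hKconj g hg x
    · intro h
      have h2 := hKconj g⁻¹ (S.inv_mem hg) _ h
      have h3 : g⁻¹ * (g * x * g⁻¹) * g⁻¹⁻¹ = x := by group
      rwa [h3] at h2
  have hsub := Lib.Helper87.alperin hS F hF
    (Lib.Helper87.stabSystem F (T ⊔ Cfsg.FusionSystem.centralizerIn S T) hK) ?_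
  · refine ⟨hKS, ?_⟩
    intro R hRK φ hφ x
    exact ((hsub R hφ).2 x).1 (hRK x.2)
  · intro R hfa hrec _ _ hbig α hα
    have hR := hrec.1
    have one : ∀ β ∈ F.autGroup R, ∀ x : R, (x : Ω) ∈ T ⊔ Cfsg.FusionSystem.centralizerIn S T →
        ((β x : R) : Ω) ∈ T ⊔ Cfsg.FusionSystem.centralizerIn S T := by
      intro β hβ x hx
      by_cases hTR : T ≤ R
      · have hcoe := Subgroup.coe_mul_of_right_le_normalizer_left T
          (Cfsg.FusionSystem.centralizerIn S T)
          ((inf_le_left : Cfsg.FusionSystem.centralizerIn S T ≤ S).trans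
            (Lib.Helper87.stronglyClosed_le_normalizer F hT))
        have hx' : (x : Ω) ∈ ((T ⊔ Cfsg.FusionSystem.centralizerIn S T : Subgroup Ω) : Set Ω) := hx
        rw [hcoe] at hx'
        obtain ⟨t, ht, c, hc, htc⟩ := hx'
        have htR : t ∈ R := hTR ht
        have hcR : c ∈ R := by
          have h1 : c = t⁻¹ * x := by rw [← htc]; group
          rw [h1]
          exact R.mul_mem (R.inv_mem htR) x.2
        have hxe : x = ⟨t, htR⟩ * ⟨c, hcR⟩ := Subtype.ext htc.symm
        rw [hxe, map_mul]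
        apply Subgroup.mul_mem_sup
        · exact Lib.Helper87.stronglyClosed_aut_mem F hT hR hβ ⟨t, htR⟩ ht
        · refine ⟨hR (β ⟨c, hcR⟩).2, ?_⟩
          show ((β ⟨c, hcR⟩ : R) : Ω) ∈ Subgroup.centralizer (T : Set Ω)
          rw [Subgroup.mem_centralizer_iff]
          intro y hy
          have hy0 : ((β⁻¹ ⟨y, hTR hy⟩ : R) : Ω) ∈ T :=
            Lib.Helper87.stronglyClosed_aut_mem F hT hR ((F.autGroup R).inv_mem hβ) ⟨y, hTR hy⟩ hy
          have hcomm := hc.2 _ hy0
          have hcomm' : β⁻¹ ⟨y, hTR hy⟩ * ⟨c, hcR⟩ = ⟨c, hcR⟩ * β⁻¹ ⟨y, hTR hy⟩ := Subtype.ext hcomm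
          have h5 := congrArg (fun z => ((β z : R) : Ω)) hcomm'
          simpa [map_mul] using h5
      · obtain ⟨δ, hδA, hδT, N, hRN, hlt, χ, hχ, hχeq⟩ :=
          Lib.Helper87.exists_extension_mod hS F hT hfa hrec hTR hβ
        have hχE := hbig N hlt hχ
        have h1 := (hχE.2 (Subgroup.inclusion hRN x)).1 hx
        rw [hχeq] at h1
        have h2 := hδT (β x)
        have h3 : ((β x : R) : Ω) = ((δ (β x) : R) : Ω) *
            (((β x : R) : Ω)⁻¹ * ((δ (β x) : R) : Ω))⁻¹ := by group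
        rw [h3]
        exact Subgroup.mul_mem _ h1 (Subgroup.inv_mem _ (Subgroup.mem_sup_left h2))
    refine ⟨(Lib.Helper87.mem_autGroup_iff F hR α).1 hα, fun x => ⟨one α hα x, fun h => ?_⟩⟩
    have h6 := one α⁻¹ ((F.autGroup R).inv_mem hα) (α x) h
    simpa using h6

end Cfsg.Agent.S5255
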