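import Cfsg.Statements.S5257
import Cfsg.Agent.Lib.Helper84.IdxP3

set_option autoImplicit false
open Cfsg

namespace Cfsg.Agent.S5257

/-- Let p be an odd prime, S a finite nonabelian p-group with a unique abelian subgroup A of index p, and F a saturated fusion system over S having an F-essential subgroup other than A. Then the second centre Z₂(S) lies in A; Z(S) ∩ [S, S] has order p; Z(S)[S, S] has index p in A; Z(S) has index p in Z₂(S); and S/Z(S) has maximal nilpotency class (if S/Z(S) has order pᵐ with m ≥ 3 then the term of index m − 2 of the lower central series of S, counting S as index 0, is not contained in Z(S)). -/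
theorem result {Ω : Type*} [Group Ω] {S : Subgroup Ω} [Finite S] (p : ℕ) [Fact p.Prime] (hS : IsPGroup p S) (F : Cfsg.FusionSystem S) (hF : F.IsSaturated p) (hp : p ≠ 2) (hna : ¬ IsMulCommutative ↥S) (A : Subgroup Ω) (hA : A ≤ S ∧ IsMulCommutative ↥A ∧ (A.subgroupOf S).index = p) (huniq : ∀ B : Subgroup Ω, B ≤ S → IsMulCommutative ↥B → (B.subgroupOf S).index = p → B = A) (P : Subgroup Ω) (hP : F.IsEssential p P) (hPA : P ≠ A) : ((upperCentralSeries ↥S 2).map S.subtype) ≤ A ∧ Nat.card ↥((S ⊓ Subgroup.centralizer (S : Set Ω)) ⊓ ((commutator ↥S).map S.subtype)) = p ∧ (((S ⊓ Subgroup.centralizer (S : Set Ω)) ⊔ ((commutator ↥S).map S.subtype)).subgroupOf A).index = p ∧ (((S ⊓ Subgroup.centralizer (S : Set Ω))).subgroupOf ((upperCentralSeries ↥S 2).map S.subtype)).index = p ∧ ∀ m : ℕ, ((S ⊓ Subgroup.centralizer (S : Set Ω)).subgroupOf S).index = p ^ m → 3 ≤ m → ¬ Subgroup.lowerCentralSeries S (m - 2) ≤ (S ⊓ Subgroup.centralizer (S : Set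 Ω)) := by
  have hpp : p.Prime := Fact.out
  have d := Cfsg.Agent.Lib.Helper84.IdxP.Data.of_hyps hS hna hA
  obtain ⟨-, hZ2A, hK, x, hx, hxA, -⟩ :=
    Cfsg.Agent.Lib.Helper84.IdxP.essential_structure d
      (Cfsg.Agent.Lib.Helper84.IdxP.huniq_of_hyps huniq) F hF hP hPA
  have hPS : P ≤ S := hP.1.1
  have hxS : x ∈ S := hPS hx
  refine ⟨hZ2A, d.card_Z_inf_Sd hxS hxA hZ2A hK, d.index_Z_sup_Sd hxS hxA hZ2A hK, hK, ?_⟩
  intro m hm h3 hle
  have hcard := d.card_le_of_iterate hxS hxA hZ2A hK (m - 2) (fun a => by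
    rw [Function.iterate_succ_apply']
    have h1 := hle (d.iterate_mem_lcs hxS (m - 2) a)
    have h2 : ((d.theta hxS)^[m - 2]) a ∈ (d.theta hxS).ker := by
      rw [d.theta_ker hxS hxA]
      exact Subgroup.mem_subgroupOf.2 h1
    exact h2)
  have hZS : Cfsg.Agent.Lib.Helper84.IdxP.ZS S ≤ S := inf_le_left
  have h4 := Cfsg.Agent.Lib.Helper84.IdxP.card_mul_relIndex hZS
  have h5 : (Cfsg.Agent.Lib.Helper84.IdxP.ZS S).relIndex S = p ^ m := hm
  rw [h5] at h4
  have h6 := d.card_eq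
  obtain ⟨k, rfl⟩ : ∃ k, m = k + 3 := ⟨m - 3, by omega⟩
  have h7 : k + 3 - 2 = k + 1 := by omega
  rw [h7] at hcard
  haveI : Finite ↥(Cfsg.Agent.Lib.Helper84.IdxP.ZS S) := Cfsg.Agent.Lib.Helper84.finite_of_le hZS
  have hZpos : 0 < Nat.card (Cfsg.Agent.Lib.Helper84.IdxP.ZS S) := Nat.card_pos
  have h8 : Nat.card (Cfsg.Agent.Lib.Helper84.IdxP.ZS S) * p ^ (k + 3) ≤
      Nat.card (Cfsg.Agent.Lib.Helper84.IdxP.ZS S) * p ^ (k + 2) := by
    calc Nat.card (Cfsg.Agent.Lib.Helper84.IdxP.ZS S) * p ^ (k + 3) = Nat.card A * p := by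
          rw [h4, h6]
      _ ≤ (p ^ (k + 1) * Nat.card (Cfsg.Agent.Lib.Helper84.IdxP.ZS S)) * p :=
          Nat.mul_le_mul_right p hcard
      _ = Nat.card (Cfsg.Agent.Lib.Helper84.IdxP.ZS S) * p ^ (k + 2) := by ring
  have h9 := Nat.le_of_mul_le_mul_left h8 hZpos
  have h10 : p ^ (k + 2) < p ^ (k + 3) := Nat.pow_lt_pow_right hpp.one_lt (by omega)
  omega

end Cfsg.Agent.S5257
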