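import Mathlib
import Cfsg.Statements.S5274
import Cfsg.Agent.Lib.Helper84.FusionSat2

set_option autoImplicit false
open Cfsg

namespace Cfsg.Agent.S5274

open Cfsg.FusionSystem Cfsg.Agent.Lib.Helper84

section aux

variable {Ω : Type*} [Group Ω] {S : Subgroup Ω}

/-- a subgroup of `S` that is central in `S` is fully centralized and fully normalized. -/
theorem fc_of_central [Finite S] (F : FusionSystem S) {Q : Subgroup Ω} (hQS : Q ≤ S)
    (hQ : ∀ q ∈ Q, ∀ s ∈ S, s * q = q * s) : F.IsFullyCentralized Q ∧ F.IsFullyNormalized Q := by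
  have e1 : centralizerIn S Q = S := by
    apply le_antisymm inf_le_left
    intro s hs
    refine ⟨hs, ?_⟩
    show s ∈ Subgroup.centralizer (Q : Set Ω)
    exact Subgroup.mem_centralizer_iff.2 (fun q hq => (hQ q hq s hs).symm)
  have e2 : normalizerIn S Q = S := by
    apply le_antisymm inf_le_left
    have h := centralizerIn_le_normalizerIn S Q
    rwa [e1] at h
  refine ⟨⟨hQS, fun Q' _ => ?_⟩, ⟨hQS, fun Q' _ => ?_⟩⟩
  · rw [e1]
    exact Subgroup.card_le_of_le inf_le_left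
  · rw [e2]
    exact Subgroup.card_le_of_le inf_le_left

/-- values of a map defined on a cyclic group. -/
theorem val_zpow {w z : Ω} (φ : Subgroup.zpowers w →* Ω)
    (hφw : φ ⟨w, Subgroup.mem_zpowers w⟩ = z) (x : Subgroup.zpowers w) :
    ∃ k : ℤ, w ^ k = (x : Ω) ∧ φ x = z ^ k := by
  obtain ⟨k, hk⟩ := Subgroup.mem_zpowers_iff.1 x.2
  refine ⟨k, hk, ?_⟩
  have e : x = (⟨w, Subgroup.mem_zpowers w⟩ : Subgroup.zpowers w) ^ k := by
    apply Subtype.ext
    simp [hk]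
  rw [e, map_zpow, hφw]

/-- extension of a map from a cyclic group onto a central cyclic group. -/
theorem exists_ext [Finite S] (hS : IsPGroup 2 S) (F : FusionSystem S) (hF : F.IsSaturated 2)
    {w z : Ω} (hz : ∀ s ∈ S, s * z = z * s) {φ : Subgroup.zpowers w →* Ω}
    (hφ : φ ∈ F.Hom (Subgroup.zpowers w)) (hφw : φ ⟨w, Subgroup.mem_zpowers w⟩ = z) :
    ∃ ψ ∈ F.Hom (extender S (Subgroup.zpowers w) φ),
      ∀ (x : Ω) (hP : x ∈ Subgroup.zpowers w) (hN : x ∈ extender S (Subgroup.zpowers w) φ),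
        ψ ⟨x, hN⟩ = φ ⟨x, hP⟩ := by
  have hQS : φ.range ≤ S := hom_range_le F hφ
  have hQc : ∀ q ∈ φ.range, ∀ s ∈ S, s * q = q * s := by
    rintro _ ⟨x, rfl⟩ s hs
    obtain ⟨k, -, hk⟩ := val_zpow φ hφw x
    rw [hk]
    exact ((show Commute s z from hz s hs).zpow_right k).eq
  have fc := (fc_of_central F hQS hQc).1
  have hrec := receptive_of_fullyCentralized 2 hS F hF fc
  exact hrec.2 _ φ hφ rfl

/-- inversion on a cyclic subgroup, as an automorphism. -/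
def invAut (z : Ω) : MulAut (Subgroup.zpowers z) where
  toFun := fun x => x⁻¹
  invFun := fun x => x⁻¹
  left_inv := fun x => by simp
  right_inv := fun x => by simp
  map_mul' := fun x y => by
    obtain ⟨a, ha⟩ := Subgroup.mem_zpowers_iff.1 x.2
    obtain ⟨b, hb⟩ := Subgroup.mem_zpowers_iff.1 y.2
    apply Subtype.ext
    simp only [Subgroup.coe_inv, Subgroup.coe_mul]
    rw [← ha, ← hb, ← zpow_add, ← zpow_neg, ← zpow_neg, ← zpow_neg, ← zpow_add]
    congr 1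
    ring

theorem invAut_apply (z : Ω) (x : Subgroup.zpowers z) : ((invAut z x : Subgroup.zpowers z) : Ω) = (x : Ω)⁻¹ := rfl

/-- Two elements of `S` of order at most two commute. -/
theorem invol_comm [Finite S] (hS : IsPGroup 2 S) (F : FusionSystem S) (hF : F.IsSaturated 2)
    (h : ∀ x ∈ S, ∃ z ∈ S ⊓ Subgroup.centralizer (S : Set Ω), F.IsConjElt x z)
    {u v : Ω} (hu : u ∈ S) (hv : v ∈ S) (hu2 : u * u = 1) (hv2 : v * v = 1) : u * v = v * u := by
  set ρ := u * v with hρ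
  have hρS : ρ ∈ S := S.mul_mem hu hv
  obtain ⟨z, hz, φ, hφ, hφρ⟩ := h ρ hρS
  have hzS : z ∈ S := hz.1
  have hzc : ∀ s ∈ S, s * z = z * s := fun s hs => Subgroup.mem_centralizer_iff.1 hz.2 s hs
  have hQS : Subgroup.zpowers z ≤ S := by
    rw [Subgroup.zpowers_le]; exact hzS
  have hQc : ∀ q ∈ Subgroup.zpowers z, ∀ s ∈ S, s * q = q * s := by
    intro q hq s hs
    obtain ⟨k, rfl⟩ := Subgroup.mem_zpowers_iff.1 hq
    exact ((show Commute s z from hzc s hs).zpow_right k).eq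
  have fn := (fc_of_central F hQS hQc).2
  obtain ⟨-, R, hR⟩ := fullyAutomized_of_fullyNormalized 2 hS F hF fn
  have := finite_autGroup F hQS
  -- Aut_S(<z>) is trivial
  have htriv : autInducedBy S (Subgroup.zpowers z) = ⊥ := by
    rw [eq_bot_iff]
    intro α hα
    obtain ⟨g, hg, hgα⟩ := (mem_autInducedBy_iff S _ α).1 hα
    rw [Subgroup.mem_bot]
    ext x
    rw [hgα x, hQc x x.2 g hg]
    simp
  have hR1 : Nat.card (R : Subgroup (F.autGroup (Subgroup.zpowers z))) = 1 := by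
    rw [hR, htriv]
    have : ((⊥ : Subgroup (MulAut (Subgroup.zpowers z))).subgroupOf (F.autGroup (Subgroup.zpowers z))) = ⊥ := by
      simp
    rw [this]
    simp
  have hodd : ¬ 2 ∣ Nat.card (F.autGroup (Subgroup.zpowers z)) := by
    have h1 := Sylow.card_eq_multiplicity R
    rw [hR1] at h1
    have h2 : (Nat.card (F.autGroup (Subgroup.zpowers z))).factorization 2 = 0 := by
      by_contra hne
      have : 1 < 2 ^ (Nat.card (F.autGroup (Subgroup.zpowers z))).factorization 2 :=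
        Nat.one_lt_two_pow hne
      omega
    intro hdvd
    have h3 := (Nat.factorization_eq_zero_iff _ _).1 h2
    rcases h3 with h3 | h3 | h3
    · exact h3 Nat.prime_two
    · exact h3 hdvd
    · exact Nat.card_pos.ne' h3
  -- inversion on <z> is a map of the system
  have hρu : u * ρ * u⁻¹ = ρ⁻¹ := by
    have hu' : u⁻¹ = u := inv_eq_of_mul_eq_one_right hu2
    have hv' : v⁻¹ = v := inv_eq_of_mul_eq_one_right hv2
    rw [hρ, mul_inv_rev, hu', hv', ← mul_assoc, hu2, one_mul]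
  have hle : Subgroup.zpowers ρ ≤ S := by
    rw [Subgroup.zpowers_le]; exact hρS
  have hQr : Subgroup.zpowers z ≤ φ.range := by
    rw [Subgroup.zpowers_le]
    exact ⟨_, hφρ⟩
  obtain ⟨ψi, hψi, hψi1, hψi2⟩ := exists_inv F hφ hQr
  have hc := F.conj_mem (g := u) hle hu
  have hχ1 := F.comp_mem hψi hc hψi2
  have hnorm : ∀ y : Subgroup.zpowers ρ, u * (y : Ω) * u⁻¹ ∈ Subgroup.zpowers ρ := by
    intro y
    obtain ⟨k, hk⟩ := Subgroup.mem_zpowers_iff.1 y.2
    rw [← hk, Subgroup.mem_zpowers_iff]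
    refine ⟨-k, ?_⟩
    have : u * ρ ^ k * u⁻¹ = (u * ρ * u⁻¹) ^ k := by
      simp [conj_zpow]
    rw [this, hρu]
    simp
  have h3 : ∀ y : Subgroup.zpowers z,
      ((conjHom (Subgroup.zpowers ρ) u).comp (ψi.codRestrict (Subgroup.zpowers ρ) hψi2)) y ∈
        Subgroup.zpowers ρ := by
    intro y
    exact hnorm _
  have hθ' := F.comp_mem hχ1 hφ h3
  have hθ : (Subgroup.zpowers z).subtype.comp (invAut z).toMonoidHom ∈ F.Hom (Subgroup.zpowers z) := by
    apply hom_of_eq F hθ'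
    intro y
    obtain ⟨k, hk⟩ := Subgroup.mem_zpowers_iff.1 y.2
    set xk : Subgroup.zpowers ρ := (⟨ρ, Subgroup.mem_zpowers ρ⟩ : Subgroup.zpowers ρ) ^ k with hxk
    have hφxk : φ xk = z ^ k := by rw [hxk, map_zpow, hφρ]
    have hy : y = ⟨φ xk, by rw [hφxk, hk]; exact y.2⟩ := by
      apply Subtype.ext
      show (y : Ω) = φ xk
      rw [hφxk, hk]
    have hψy : ψi y = (xk : Ω) := by
      rw [hy]
      exact hψi1 xk _
    show ((invAut z y : Subgroup.zpowers z) : Ω) = φ ⟨u * ψi y * u⁻¹, _⟩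
    have e2 : (⟨u * ψi y * u⁻¹, hnorm ⟨ψi y, hψi2 y⟩⟩ : Subgroup.zpowers ρ) = xk⁻¹ := by
      apply Subtype.ext
      show u * ψi y * u⁻¹ = ((xk⁻¹ : Subgroup.zpowers ρ) : Ω)
      rw [hψy, hxk]
      simp only [Subgroup.coe_inv, Subgroup.coe_zpow]
      have : u * ρ ^ k * u⁻¹ = (u * ρ * u⁻¹) ^ k := by
        simp [conj_zpow]
      rw [this, hρu]
      simp
    rw [invAut_apply]
    have e3 : φ ⟨u * ψi y * u⁻¹, hnorm ⟨ψi y, hψi2 y⟩⟩ = (z ^ k)⁻¹ := by
      rw [e2, map_inv, hφxk]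
    rw [← hk]
    exact e3.symm
  have hα : invAut z ∈ F.autGroup (Subgroup.zpowers z) := (mem_autGroup_iff F hQS _).2 hθ
  -- the inversion has order dividing 2 in a group of odd order
  have hsq : (⟨invAut z, hα⟩ : F.autGroup (Subgroup.zpowers z)) ^ 2 = 1 := by
    apply Subtype.ext
    show (invAut z) ^ 2 = 1
    ext x
    rw [pow_two, MulAut.mul_apply, invAut_apply, MulAut.one_apply]
    show ((invAut z x : Subgroup.zpowers z) : Ω)⁻¹ = x
    rw [invAut_apply, inv_inv]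
  have hord : orderOf (⟨invAut z, hα⟩ : F.autGroup (Subgroup.zpowers z)) = 1 := by
    have h1 := orderOf_dvd_of_pow_eq_one hsq
    have h2 := orderOf_dvd_natCard (⟨invAut z, hα⟩ : F.autGroup (Subgroup.zpowers z))
    rcases (Nat.dvd_prime Nat.prime_two).1 h1 with h | h
    · exact h
    · rw [h] at h2; exact absurd h2 hodd
  have hone : invAut z = 1 := by
    have := orderOf_eq_one_iff.1 hord
    exact congrArg Subtype.val this
  have hzz : z⁻¹ = z := by
    have := congrArg (fun α : MulAut (Subgroup.zpowers z) =>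
      ((α ⟨z, Subgroup.mem_zpowers z⟩ : Subgroup.zpowers z) : Ω)) hone
    simpa [invAut_apply] using this
  -- hence ρ * ρ = 1
  have hρρ : ρ * ρ = 1 := by
    have h1 : φ (⟨ρ, Subgroup.mem_zpowers ρ⟩ * ⟨ρ, Subgroup.mem_zpowers ρ⟩) = φ 1 := by
      rw [map_mul, hφρ, map_one]
      nth_rewrite 1 [← hzz]
      simp
    have h2 := F.injective_of_mem hφ h1
    exact congrArg Subtype.val h2
  have hu' : u⁻¹ = u := inv_eq_of_mul_eq_one_right hu2
  have hv' : v⁻¹ = v := inv_eq_of_mul_eq_one_right hv2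
  have e1 : ρ = ρ⁻¹ := (inv_eq_of_mul_eq_one_right hρρ).symm
  rw [e1, hρ, mul_inv_rev, hu', hv']

/-- The inductive step: if `x * x ≠ 1` then `x` commutes with `s`, given the claim for smaller pairs. -/
theorem step [Finite S] (hS : IsPGroup 2 S) (F : FusionSystem S) (hF : F.IsSaturated 2)
    (h : ∀ x ∈ S, ∃ z ∈ S ⊓ Subgroup.centralizer (S : Set Ω), F.IsConjElt x z)
    {x s : Ω} (hx : x ∈ S) (hs : s ∈ S) (hxx : x * x ≠ 1)
    (IH : ∀ a b : Ω, a ∈ S → b ∈ S → orderOf a * orderOf b < orderOf x * orderOf s →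
      a * b = b * a) :
    x * s = s * x := by
  have ord2 : ∀ a ∈ S, ∃ k, orderOf a = 2 ^ k := by
    intro a ha
    obtain ⟨k, hk⟩ := (IsPGroup.iff_orderOf.1 hS) ⟨a, ha⟩
    exact ⟨k, by rw [← hk, Subgroup.orderOf_mk]⟩
  obtain ⟨k, hk⟩ := ord2 x hx
  obtain ⟨j, hj⟩ := ord2 s hs
  have hx1 : x ≠ 1 := by
    rintro rfl
    exact hxx (one_mul 1)
  have hk0 : k ≠ 0 := by
    rintro rfl
    rw [pow_zero, orderOf_eq_one_iff] at hk
    exact hx1 hk
  have h2x : 2 ∣ orderOf x := by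
    rw [hk]; exact dvd_pow_self 2 hk0
  have hww : x ^ 2 = x * x := pow_two x
  have how : orderOf (x ^ 2) * 2 = orderOf x := by
    rw [orderOf_pow_of_dvd two_ne_zero h2x]
    exact Nat.div_mul_cancel h2x
  have hw1 : x ^ 2 ≠ 1 := by rw [hww]; exact hxx
  have hox : 0 < orderOf x := by rw [hk]; positivity
  have how2 : 2 ≤ orderOf (x ^ 2) := by
    have h1 : orderOf (x ^ 2) ≠ 1 := fun h => hw1 (orderOf_eq_one_iff.1 h)
    omega
  have hos : 0 < orderOf s := by rw [hj]; positivity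
  have hwS : x ^ 2 ∈ S := S.pow_mem hx 2
  -- `x ^ 2` and `s` commute
  have hws : x ^ 2 * s = s * x ^ 2 := by
    apply IH (x ^ 2) s hwS hs
    rw [← how]
    nlinarith
  obtain ⟨z, hz, φ, hφ, hφx⟩ := h x hx
  have hzS : z ∈ S := hz.1
  have hzc : ∀ t ∈ S, t * z = z * t := fun t ht => Subgroup.mem_centralizer_iff.1 hz.2 t ht
  have hle : Subgroup.zpowers (x ^ 2) ≤ Subgroup.zpowers x := by
    rw [Subgroup.zpowers_le]
    exact Subgroup.pow_mem _ (Subgroup.mem_zpowers x) 2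
  have hφ0 := res_mem F hφ hle
  have hφ0w : (φ.comp (Subgroup.inclusion hle)) ⟨x ^ 2, Subgroup.mem_zpowers (x ^ 2)⟩ = z ^ 2 := by
    have e : (Subgroup.inclusion hle ⟨x ^ 2, Subgroup.mem_zpowers (x ^ 2)⟩ : Subgroup.zpowers x) =
        (⟨x, Subgroup.mem_zpowers x⟩ : Subgroup.zpowers x) ^ 2 := by
      apply Subtype.ext
      rfl
    rw [MonoidHom.comp_apply, e, map_pow, hφx]
  have hzzc : ∀ t ∈ S, t * z ^ 2 = z ^ 2 * t := fun t ht =>
    ((show Commute t z from hzc t ht).pow_right 2).eq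
  obtain ⟨ψ, hψ, hψe⟩ := exists_ext hS F hF hzzc hφ0 hφ0w
  have hxN : x ∈ extender S (Subgroup.zpowers (x ^ 2)) (φ.comp (Subgroup.inclusion hle)) := by
    apply centralizerIn_le_extender
    rw [mem_centralizerIn]
    refine ⟨hx, ?_⟩
    intro y hy
    obtain ⟨i, rfl⟩ := Subgroup.mem_zpowers_iff.1 hy
    have c : Commute (x ^ 2) x := (Commute.refl x).pow_left 2
    exact (c.zpow_left i).eq
  have hsN : s ∈ extender S (Subgroup.zpowers (x ^ 2)) (φ.comp (Subgroup.inclusion hle)) := by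
    apply centralizerIn_le_extender
    rw [mem_centralizerIn]
    refine ⟨hs, ?_⟩
    intro y hy
    obtain ⟨i, rfl⟩ := Subgroup.mem_zpowers_iff.1 hy
    have c : Commute (x ^ 2) s := hws
    exact (c.zpow_left i).eq
  have hwN : x ^ 2 ∈ extender S (Subgroup.zpowers (x ^ 2)) (φ.comp (Subgroup.inclusion hle)) :=
    Subgroup.pow_mem _ hxN 2
  have hx'S : ψ ⟨x, hxN⟩ ∈ S := hom_mem_S F hψ _
  have hs'S : ψ ⟨s, hsN⟩ ∈ S := hom_mem_S F hψ _
  have hx'2 : ψ ⟨x, hxN⟩ * ψ ⟨x, hxN⟩ = z ^ 2 := by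
    have e : (⟨x, hxN⟩ : extender S (Subgroup.zpowers (x ^ 2)) (φ.comp (Subgroup.inclusion hle))) *
        ⟨x, hxN⟩ = ⟨x ^ 2, hwN⟩ := by
      apply Subtype.ext
      show x * x = x ^ 2
      rw [hww]
    rw [← map_mul, e, hψe (x ^ 2) (Subgroup.mem_zpowers (x ^ 2)) hwN, hφ0w]
  have hρS : ψ ⟨x, hxN⟩ * z⁻¹ ∈ S := S.mul_mem hx'S (S.inv_mem hzS)
  have hρ2 : (ψ ⟨x, hxN⟩ * z⁻¹) * (ψ ⟨x, hxN⟩ * z⁻¹) = 1 := by
    have c : Commute (ψ ⟨x, hxN⟩) z := hzc _ hx'S
    have c' : z⁻¹ * ψ ⟨x, hxN⟩ = ψ ⟨x, hxN⟩ * z⁻¹ := (c.inv_right).eq.symm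
    calc (ψ ⟨x, hxN⟩ * z⁻¹) * (ψ ⟨x, hxN⟩ * z⁻¹)
        = ψ ⟨x, hxN⟩ * (z⁻¹ * ψ ⟨x, hxN⟩) * z⁻¹ := by group
      _ = (ψ ⟨x, hxN⟩ * ψ ⟨x, hxN⟩) * (z⁻¹ * z⁻¹) := by rw [c']; group
      _ = 1 := by rw [hx'2]; group
  have hos' : orderOf (ψ ⟨s, hsN⟩) = orderOf s := by
    have e := orderOf_injective ψ (F.injective_of_mem hψ)
      (⟨s, hsN⟩ : extender S (Subgroup.zpowers (x ^ 2)) (φ.comp (Subgroup.inclusion hle)))
    rw [e, Subgroup.orderOf_mk]
  have hoρ : orderOf (ψ ⟨x, hxN⟩ * z⁻¹) ≤ 2 := by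
    apply Nat.le_of_dvd two_pos
    apply orderOf_dvd_of_pow_eq_one
    rw [pow_two]; exact hρ2
  have hρs : (ψ ⟨x, hxN⟩ * z⁻¹) * ψ ⟨s, hsN⟩ = ψ ⟨s, hsN⟩ * (ψ ⟨x, hxN⟩ * z⁻¹) := by
    apply IH _ _ hρS hs'S
    rw [hos', ← how]
    nlinarith
  have hx's' : ψ ⟨x, hxN⟩ * ψ ⟨s, hsN⟩ = ψ ⟨s, hsN⟩ * ψ ⟨x, hxN⟩ := by
    have c : ψ ⟨s, hsN⟩ * z = z * ψ ⟨s, hsN⟩ := hzc _ hs'S
    calc ψ ⟨x, hxN⟩ * ψ ⟨s, hsN⟩
        = (ψ ⟨x, hxN⟩ * z⁻¹) * (z * ψ ⟨s, hsN⟩) := by group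
      _ = ((ψ ⟨x, hxN⟩ * z⁻¹) * ψ ⟨s, hsN⟩) * z := by rw [← c]; group
      _ = ψ ⟨s, hsN⟩ * ψ ⟨x, hxN⟩ := by rw [hρs]; group
  have hfin : ψ (⟨x, hxN⟩ * ⟨s, hsN⟩) = ψ (⟨s, hsN⟩ * ⟨x, hxN⟩) := by
    rw [map_mul, map_mul]; exact hx's'
  exact congrArg Subtype.val (F.injective_of_mem hψ hfin)

/-- All pairs of elements of `S` commute. -/
theorem comm_all [Finite S] (hS : IsPGroup 2 S) (F : FusionSystem S) (hF : F.IsSaturated 2)
    (h : ∀ x ∈ S, ∃ z ∈ S ⊓ Subgroup.centralizer (S : Set Ω), F.IsConjElt x z) :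
    ∀ n : ℕ, ∀ x s : Ω, x ∈ S → s ∈ S → orderOf x * orderOf s = n → x * s = s * x := by
  intro n
  induction n using Nat.strong_induction_on with
  | _ n ih =>
    intro x s hx hs hn
    by_cases hxx : x * x = 1
    · by_cases hss : s * s = 1
      · exact invol_comm hS F hF h hx hs hxx hss
      · refine (step hS F hF h hs hx hss ?_).symm
        intro a b ha hb hlt
        exact ih _ (by rw [← hn, mul_comm (orderOf x)]; exact hlt) a b ha hb rfl
    · refine step hS F hF h hx hs hxx ?_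
      intro a b ha hb hlt
      exact ih _ (by rw [← hn]; exact hlt) a b ha hb rfl

end aux

/-- Let F be a saturated fusion system over a finite 2-group S. Suppose that every element of S is F-conjugate to an element of the centre Z(S) (some map of F defined on the cyclic subgroup it generates sends it into Z(S)). Then S is abelian. -/
theorem result {Ω : Type*} [Group Ω] {S : Subgroup Ω} [Finite S] (hS : IsPGroup 2 ↥S) (F : Cfsg.FusionSystem S) (hF : F.IsSaturated 2) (h : ∀ x ∈ S, ∃ z ∈ S ⊓ Subgroup.centralizer (S : Set Ω), F.IsConjElt x z) : IsMulCommutative ↥S := by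
  refine ⟨⟨fun a b => Subtype.ext ?_⟩⟩
  exact comm_all hS F hF h _ a.1 b.1 a.2 b.2 rfl

end Cfsg.Agent.S5274
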