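import Mathlib
import Cfsg.Statements.S5276
import Cfsg.Agent.Lib.Helper87.FusionTate
import Cfsg.Agent.Lib.Helper87.FusionFactor
import Cfsg.Agent.Lib.Helper87.FusionMore
import Cfsg.Agent.Lib.Helper1.BurnsideBasis
import Cfsg.Agent.Lib.Helper88.HypExt

set_option autoImplicit false
open Cfsg Cfsg.FusionSystem Cfsg.Agent.Lib.Helper88

namespace Cfsg.Agent.S5276

universe u

/-- The hyperfocal subgroup lies in the Frattini subgroup when the latter is strongly closed and
the automorphisms of `S` in the system are inner. -/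
theorem hyp_le_frattini {Ω : Type u} [Group Ω] {S : Subgroup Ω} [Finite S] (p : ℕ) [Fact p.Prime]
    (hS : IsPGroup p ↥S) (F : Cfsg.FusionSystem S) (hF : F.IsSaturated p)
    (hN : ∀ N : Cfsg.FusionSystem (Cfsg.FusionSystem.normalizerIn S S), F.IsNormalizerSystem S N →
      ∀ P : Subgroup Ω, N.Hom P = (Cfsg.innerFusionSystem (Cfsg.FusionSystem.normalizerIn S S)).Hom P)
    (hQ : F.StronglyClosed ((frattini ↥S).map S.subtype)) :
    F.hyperfocalSubgroup p ≤ (frattini ↥S).map S.subtype := by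
  have hA := Lib.Helper87.aut_top_inner_of_normalizer F hN
  have h1 : (commutator ↥S).map S.subtype ≤ (frattini ↥S).map S.subtype :=
    Subgroup.map_mono (Lib.Helper1.commutator_le_frattini_of_pGroup p hS)
  have htate := Lib.Helper87.tate_hom hS F hF hA h1 le_rfl
  have hcomm := Lib.Helper87.comm_mem_of_commutator_le h1
  have hQS : (frattini ↥S).map S.subtype ≤ S := hQ.1
  unfold FusionSystem.hyperfocalSubgroup
  rw [Subgroup.closure_le]
  rintro y ⟨P, α, x, hPS, -, rfl⟩
  have hφ : P.subtype.comp (α : MulAut P).toMonoidHom ∈ F.Hom P := subtype_comp_mem F hPS α.2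
  obtain ⟨ψ, hψ, hψx⟩ := Lib.Helper87.exists_hom_sup_mod hS F hF hQ hφ
  obtain ⟨g, hg, hgψ⟩ := htate (P ⊔ (frattini ↥S).map S.subtype) le_sup_right (sup_le hPS hQS) ψ hψ
    (by
      intro z hz
      have h2 := hQ.2 _ le_rfl _ (Lib.Helper87.hom_restrict F le_sup_right hψ) ⟨z, hz⟩
      exact h2)
  have h3 := hψx x
  rw [hgψ] at h3
  have h4 : (((α : MulAut P) x : P) : Ω)⁻¹ * (g * (x : Ω) * g⁻¹) ∈ (frattini ↥S).map S.subtype := h3
  have h5 := hcomm (x : Ω)⁻¹ (S.inv_mem (hPS x.2)) g hg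
  have e : (x : Ω)⁻¹ * (((α : MulAut P) x : P) : Ω)
      = ((x : Ω)⁻¹ * g * (x : Ω)⁻¹⁻¹ * g⁻¹)
        * ((((α : MulAut P) x : P) : Ω)⁻¹ * (g * (x : Ω) * g⁻¹))⁻¹ := by group
  rw [SetLike.mem_coe, e]
  exact Subgroup.mul_mem _ h5 (Subgroup.inv_mem _ h4)

theorem main {Ω : Type u} [Group Ω] {S : Subgroup Ω} [Finite S] (p : ℕ) [Fact p.Prime]
    (hS : IsPGroup p ↥S) (F : Cfsg.FusionSystem S) (hF : F.IsSaturated p) :
    (∀ P : Subgroup Ω, F.Hom P = (Cfsg.innerFusionSystem S).Hom P) ↔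
      (∀ N : Cfsg.FusionSystem (Cfsg.FusionSystem.normalizerIn S S), F.IsNormalizerSystem S N →
        ∀ P : Subgroup Ω, N.Hom P = (Cfsg.innerFusionSystem (Cfsg.FusionSystem.normalizerIn S S)).Hom P) ∧
      F.StronglyClosed ((frattini ↥S).map S.subtype) := by
  constructor
  · intro hinn
    refine ⟨fun N hNsys P => ?_, ?_, ?_⟩
    · apply Set.Subset.antisymm
      · intro φ hφ
        rw [hNsys P] at hφ
        obtain ⟨hφF, hPN, -, -⟩ := hφ
        rw [hinn P] at hφF
        obtain ⟨-, g, hg, hgφ⟩ := hφF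
        exact ⟨hPN, g, ⟨hg, Subgroup.le_normalizer hg⟩, hgφ⟩
      · exact Lib.Helper87.inner_hom_subset N P
    · exact Subgroup.map_subtype_le _
    · intro R hR φ hφ x
      rw [hinn R] at hφ
      obtain ⟨hRS, g, hg, hgφ⟩ := hφ
      obtain ⟨y, hy, hyx⟩ := hR x.2
      rw [hgφ]
      refine ⟨⟨g, hg⟩ * y * ⟨g, hg⟩⁻¹, ?_, ?_⟩
      · have hn : (frattini ↥S).Normal := inferInstance
        exact hn.conj_mem y hy _
      · show g * (y : Ω) * g⁻¹ = g * (x : Ω) * g⁻¹
        have : ((y : ↥S) : Ω) = (x : Ω) := hyx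
        rw [this]
  · rintro ⟨hN, hQ⟩
    have h1 := hyp_le_frattini p hS F hF hN hQ
    have h2 := hyp_eq_bot_of_le_frattini hS F hF h1
    exact eq_inner_of_hyp_eq_bot hS F hF h2

/-- Let p be a prime and F a saturated fusion system over a finite p-group S. Then F is the inner fusion system of S if and only if the normalizer fusion system of S itself in F is the inner fusion system (equivalently, Aut_F(S) is induced by S) and the Frattini subgroup Φ(S) is strongly closed in F. -/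
theorem result {Ω : Type*} [Group Ω] {S : Subgroup Ω} [Finite S] (p : ℕ) [Fact p.Prime] (hS : IsPGroup p ↥S) (F : Cfsg.FusionSystem S) (hF : F.IsSaturated p) : (∀ P : Subgroup Ω, F.Hom P = (Cfsg.innerFusionSystem S).Hom P) ↔ (∀ N : Cfsg.FusionSystem (Cfsg.FusionSystem.normalizerIn S S), F.IsNormalizerSystem S N → ∀ P : Subgroup Ω, N.Hom P = (Cfsg.innerFusionSystem (Cfsg.FusionSystem.normalizerIn S S)).Hom P) ∧ F.StronglyClosed ((frattini ↥S).map S.subtype) :=
  main p hS F hF

end Cfsg.Agent.S5276
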