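import Cfsg.Statements.S5284
-- import your own Cfsg.Agent.* helpers here
import Cfsg.Agent.S5283
import Cfsg.Agent.Lib.Helper85.AbelChar
import Cfsg.Agent.Lib.Helper85.AbelAut
import Cfsg.Agent.Lib.Helper88.FusAbelian

set_option autoImplicit false
open Cfsg

namespace Cfsg.Agent.S5284

open Cfsg.FusionSystem Cfsg.Agent.Lib.Helper85

/-- Let S be a finite abelian p-group. Every saturated fusion system over S is supersoluble (S has a chain of F-strongly closed subgroups from 1 to S with cyclic steps) if and only if the invariants of S are pairwise distinct, that is, S is not isomorphic to a direct product (Z/p^n × Z/p^n) × H with n ≥ 1. -/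
theorem result {Ω : Type*} [Group Ω] {S : Subgroup Ω} [Finite S] (p : ℕ) [Fact p.Prime] (hS : IsPGroup p ↥S) (hab : IsMulCommutative ↥S) : (∀ F : Cfsg.FusionSystem S, F.IsSaturated p → (∃ (m : ℕ) (c : Fin (m + 1) → Subgroup Ω), c 0 = ⊥ ∧ c (Fin.last m) = S ∧ (∀ i : Fin (m + 1), F.StronglyClosed (c i)) ∧ ∀ i : Fin m, c i.castSucc ≤ c i.succ ∧ ∃ x ∈ S, c i.succ = c i.castSucc ⊔ Subgroup.zpowers x)) ↔ ¬ ∃ (n : ℕ) (H : Type) (_ : CommGroup H), 0 < n ∧ Nonempty (↥S ≃* (Multiplicative (ZMod (p ^ n)) × Multiplicative (ZMod (p ^ n))) × H) := by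
  haveI := hab
  have hcomm : ∀ a b : S, a * b = b * a := fun a b => mul_comm' a b
  constructor
  · -- supersoluble type ⇒ no repeated invariant
    intro hsup
    rintro ⟨n, H, instH, hn, ⟨ε⟩⟩
    obtain ⟨K, hK, hbad⟩ := exists_bad_aut (p := p) hn ε
    obtain ⟨hKc, hKe⟩ := ((Cfsg.Agent.S5283.result p hS).1 hsup).2 K hK
    apply hbad
    refine ⟨fun a ha b hb => ?_, hKe⟩
    haveI := hKc
    exact congrArg Subtype.val (mul_comm' (⟨a, ha⟩ : K) ⟨b, hb⟩)
  · -- no repeated invariant ⇒ supersoluble type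
    intro hno F hF
    have hch := abel_char_chain hS hcomm hno
    have hab' : ∀ x ∈ S, ∀ y ∈ S, x * y = y * x := fun x hx y hy =>
      congrArg Subtype.val (hcomm ⟨x, hx⟩ ⟨y, hy⟩)
    obtain ⟨m, c, hc0, hcl, hsc, hstep⟩ := Cfsg.Agent.S5283.chain_of_cycCh F
      (Inv := fun R : Subgroup S => ∀ α : MulAut S, ∀ x ∈ R, α x ∈ R)
      (by
        intro R hR
        refine ⟨?_, fun R' hR' φ hφ x => ?_⟩
        · rintro _ ⟨z, -, rfl⟩; exact z.2
        · have hmor : Cfsg.Agent.Lib.Helper88.Mor F R' (Cfsg.Agent.Lib.Helper88.extFun φ) :=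
            ⟨φ, hφ, fun y => (Cfsg.Agent.Lib.Helper88.extFun_apply φ y).symm⟩
          obtain ⟨α, -, hαf⟩ := Cfsg.Agent.Lib.Helper88.abelian_hom_aut hF hab' hmor
          obtain ⟨z, hz, hzx⟩ := hR' x.2
          have h1 := hαf (x : Ω) x.2 ((F.le_of_mem hφ).1 x.2)
          rw [Cfsg.Agent.Lib.Helper88.extFun_apply] at h1
          rw [← h1]
          have h2 : (⟨(x : Ω), (F.le_of_mem hφ).1 x.2⟩ : S) = z := Subtype.ext hzx.symm
          rw [h2]
          exact ⟨α z, hR α z hz, rfl⟩) hch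
    exact ⟨m, c, by rw [hc0, Subgroup.map_bot], hcl, hsc, hstep⟩

end Cfsg.Agent.S5284
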