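import Mathlib
import Cfsg.Statements.S5290
import Cfsg.Agent.Lib.Helper88.FusInner
import Cfsg.Agent.Lib.Helper88.FusNormal

set_option autoImplicit false
open Cfsg Cfsg.Agent.Lib.Helper88

namespace Cfsg.Agent.S5290

/-- Let F be a saturated fusion system over a finite p-group S and Q a subgroup of S. Then Q is normal in F (F = N_F(Q)) if and only if the inner fusion system of Q, consisting of the conjugations by elements of Q on subgroups of Q, is a weakly normal subsystem of F (both saturated, Q strongly closed, invariant under F-conjugation, with the Frattini property). -/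
theorem result {Ω : Type*} [Group Ω] {S : Subgroup Ω} [Finite S] (p : ℕ) [Fact p.Prime] (hS : IsPGroup p S)
    (F : Cfsg.FusionSystem S) (hF : F.IsSaturated p)
    (Q : Subgroup Ω) (hQ : Q ≤ S) :
    F.IsNormal Q ↔ (Cfsg.innerFusionSystem Q).IsWeaklyNormalIn F p := by
  constructor
  · intro hN
    refine ⟨inner_saturated (hS.to_le hQ), hF, ?_, Cfsg.Agent.Lib.Helper87.isNormal_stronglyClosed F hN,
      ?_, ?_⟩
    · -- subsystem
      rintro P φ ⟨hP, g, hg, hφ⟩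
      exact hom_of_mor (mor_conj F (hP.trans hQ) (hQ hg)) hφ
    · -- invariance
      rintro P hPQ φ ⟨-, g, hg, hφ⟩ α hα
      refine ⟨Cfsg.conjHom _ ((α ⟨g, hg⟩ : Q) : Ω), ⟨?_, ((α ⟨g, hg⟩ : Q) : Ω), (α ⟨g, hg⟩).2,
        fun _ => rfl⟩, ?_⟩
      · rintro y ⟨x, -, rfl⟩
        exact (α x).2
      · intro x hφx hαx
        show ((α ⟨g, hg⟩ : Q) : Ω) * ((α ⟨x, hPQ x.2⟩ : Q) : Ω) * ((α ⟨g, hg⟩ : Q) : Ω)⁻¹ = _
        have e : (⟨φ x, hφx⟩ : Q) = ⟨g, hg⟩ * ⟨x, hPQ x.2⟩ * (⟨g, hg⟩ : Q)⁻¹ := by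
          apply Subtype.ext
          exact hφ x
        rw [e, map_mul, map_mul, map_inv]
        rfl
    · -- Frattini condition
      intro P hPQ φ hφ
      obtain ⟨f', hf', hf'1, hf'2, -⟩ := normal_extend hN (mor_of_hom F hφ)
      obtain ⟨α, hα, hαf⟩ := (hf'.res (le_sup_right : Q ≤ P ⊔ Q)).exists_aut hf'2
      refine ⟨α, hα, P.subtype, ⟨hPQ, 1, Q.one_mem, fun x => by simp⟩, ?_⟩
      intro x hx
      rw [hαf ⟨_, hx⟩]
      show φ x = f' (x : Ω)
      rw [hf'1 x x.2, extFun_apply]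
  · rintro ⟨-, -, -, hsc, -, hfrat⟩
    refine normal_of_extend hS F hF hsc ?_
    rintro U f hUQ ⟨φ, hφ, hφf⟩
    obtain ⟨α, hα, φ₀, ⟨-, g, hg, hφ₀⟩, h⟩ := hfrat U hUQ φ hφ
    have hmα : Mor F Q (extFun (fun x : Q => ((α x : Q) : Ω))) :=
      (mem_autGroup_iff F hQ α).mp hα
    have hconj : ∀ x ∈ Q, g * x * g⁻¹ ∈ Q := fun x hx =>
      Q.mul_mem (Q.mul_mem hg hx) (Q.inv_mem hg)
    refine ⟨fun x => extFun (fun x : Q => ((α x : Q) : Ω)) (g * x * g⁻¹),
      (mor_conj F hQ (hQ hg)).comp hmα hconj, ?_⟩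
    intro x hx
    have hx' : φ₀ ⟨x, hx⟩ ∈ Q := by
      rw [hφ₀]; exact hconj x (hUQ hx)
    have h1 := h ⟨x, hx⟩ hx'
    rw [← hφf ⟨x, hx⟩, h1]
    show extFun (fun x : Q => ((α x : Q) : Ω)) (g * x * g⁻¹) = _
    rw [extFun_mem _ (hconj x (hUQ hx))]
    congr 2
    apply Subtype.ext
    exact (hφ₀ ⟨x, hx⟩).symm

end Cfsg.Agent.S5290
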