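import Mathlib
import Cfsg.Statements.S5291
import Cfsg.Agent.Lib.Helper88.FusWN

set_option autoImplicit false
open Cfsg Cfsg.Agent.Lib.Helper88

namespace Cfsg.Agent.S5291

/-- Let F be a saturated fusion system over a finite p-group S and E a weakly normal subsystem of F over a subgroup T. Suppose a subgroup R of T is normal in E (E = N_E(R)), and let R* be the subgroup of T generated by the images of R under all maps of F with source R. Then R* is normal in F (F = N_F(R*)). -/
theorem result {Ω : Type*} [Group Ω] {S : Subgroup Ω} [Finite S] (p : ℕ) [Fact p.Prime] (hS : IsPGroup p S)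
    (F : Cfsg.FusionSystem S) (hF : F.IsSaturated p)
    {T : Subgroup Ω} (E : Cfsg.FusionSystem T) (hE : E.IsWeaklyNormalIn F p)
    (R : Subgroup Ω) (hR : E.IsNormal R) :
    F.IsNormal (Subgroup.closure {x : Ω | ∃ φ ∈ F.Hom R, ∃ r : R, x = φ r}) := by
  obtain ⟨-, -, hinv⟩ := hE
  have hsub := hinv.1
  have hT := hinv.2.1
  have hTS : T ≤ S := hT.1
  have hfinT : Finite T := Finite.of_injective _ (Subgroup.inclusion_injective hTS)
  have hRT : R ≤ T := hR.1
  have hRsc : E.StronglyClosed R := normal_stronglyClosed hR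
  set Q : Subgroup Ω := Subgroup.closure {x : Ω | ∃ φ ∈ F.Hom R, ∃ r : R, x = φ r} with hQdef
  -- the family of images of `R` under automorphisms of `T`
  have hfam : Q = sSup {N : Subgroup Ω | ∃ a, Mor F T a ∧ N = img R a} := by
    apply le_antisymm
    · rw [hQdef, Subgroup.closure_le]
      rintro x ⟨φ, hφ, r, rfl⟩
      obtain ⟨a, f₀, ha, hf₀, h⟩ := invariant_frattini hinv hRT (mor_of_hom F hφ)
      have h1 := h r r.2
      rw [extFun_apply] at h1
      have h2 : f₀ r ∈ R := stronglyClosed_mor hRsc le_rfl hf₀ r r.2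
      have h3 : img R a ≤ sSup {N : Subgroup Ω | ∃ a, Mor F T a ∧ N = img R a} :=
        le_sSup ⟨a, ha, rfl⟩
      apply h3
      show φ r ∈ img R a
      rw [h1]
      exact (ha.res hRT).apply_mem_img h2
    · apply sSup_le
      rintro N ⟨a, ha, rfl⟩
      intro y hy
      obtain ⟨x, hx, rfl⟩ := (ha.res hRT).mem_img.mp hy
      obtain ⟨φ, hφ, hφa⟩ := ha.res hRT
      apply Subgroup.subset_closure
      exact ⟨φ, hφ, ⟨x, hx⟩, (hφa ⟨x, hx⟩).symm⟩
  have hQE : E.IsNormal Q := by
    rw [hfam]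
    apply normal_sSup_fin
    · refine Set.Finite.subset (subgroups_le_finite T) ?_
      rintro N ⟨a, ha, rfl⟩
      exact (invariant_normal_img hinv hR ha).1
    · rintro N ⟨a, ha, rfl⟩
      exact invariant_normal_img hinv hR ha
  have hQT : Q ≤ T := hQE.1
  have hQsc : E.StronglyClosed Q := normal_stronglyClosed hQE
  -- `Q` is invariant under the automorphisms of `T` in `F`
  have hQa : ∀ a, Mor F T a → ∀ x ∈ Q, a x ∈ Q := by
    intro a ha x hx
    have key : x ∈ T ∧ a x ∈ Q := by
      rw [hQdef] at hx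
      induction hx using Subgroup.closure_induction with
      | mem y hy =>
        obtain ⟨φ, hφ, r, rfl⟩ := hy
        have hφT : φ r ∈ T := hT.2 R hRT φ hφ r
        refine ⟨hφT, ?_⟩
        have hm : Mor F R (fun z => a (extFun φ z)) :=
          (mor_of_hom F hφ).comp ha (fun z hz => by
            rw [extFun_mem φ hz]; exact hT.2 R hRT φ hφ ⟨z, hz⟩)
        obtain ⟨ψ, hψ, hψa⟩ := hm
        apply Subgroup.subset_closure
        refine ⟨ψ, hψ, r, ?_⟩
        rw [hψa r]
        show a (φ r) = a (extFun φ (r : Ω))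
        rw [extFun_apply]
      | one => exact ⟨T.one_mem, by rw [ha.map_one]; exact Q.one_mem⟩
      | mul y z _ _ hy hz =>
        exact ⟨T.mul_mem hy.1 hz.1, by rw [ha.map_mul hy.1 hz.1]; exact Q.mul_mem hy.2 hz.2⟩
      | inv y _ hy =>
        exact ⟨T.inv_mem hy.1, by rw [ha.map_inv hy.1]; exact Q.inv_mem hy.2⟩
    exact key.2
  have hQF : F.StronglyClosed Q := by
    refine ⟨hQT.trans hTS, ?_⟩
    intro U hU φ hφ x
    obtain ⟨a, f₀, ha, hf₀, h⟩ := invariant_frattini hinv (hU.trans hQT) (mor_of_hom F hφ)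
    have h1 := h x x.2
    rw [extFun_apply] at h1
    rw [h1]
    exact hQa a ha _ (stronglyClosed_mor hQsc hU hf₀ x x.2)
  refine normal_of_extend hS F hF hQF ?_
  intro U f hU hf
  obtain ⟨a, f₀, ha, hf₀, h⟩ := invariant_frattini hinv (hU.trans hQT) hf
  obtain ⟨f₁, hf₁, hf₁U, hf₁Q, -⟩ := normal_extend hQE hf₀
  have hsup : U ⊔ Q = Q := sup_eq_right.mpr hU
  rw [hsup] at hf₁
  refine ⟨fun x => a (f₁ x), (subsystem_mor hsub hf₁).comp ha (fun x hx => hQT (hf₁Q x hx)), ?_⟩
  intro x hx
  show a (f₁ x) = f x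
  rw [hf₁U x hx, h x hx]

end Cfsg.Agent.S5291
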