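import Cfsg.Statements.S5292
-- import your own Cfsg.Agent.* helpers here
import Cfsg.Agent.Lib.Helper85.ModelPSolv
import Cfsg.Agent.Lib.Helper84.Model3

set_option autoImplicit false
universe u
open Cfsg

namespace Cfsg.Agent.S5292

/-- Let F be a saturated fusion system over a finite p-group S. Then F is the fusion system of some finite p-solvable group on a Sylow p-subgroup if and only if F is constrained (some subgroup normal in F is centric in F) and the group of automorphisms that F induces on its largest normal subgroup O_p(F) is p-solvable. -/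
theorem result {Ω : Type u} [Group Ω] {S : Subgroup Ω} [Finite S] (p : ℕ) [Fact p.Prime] (hS : IsPGroup p S)
    (F : Cfsg.FusionSystem S) (hF : F.IsSaturated p) :
    (∃ (G : Type u) (_ : Group G) (_ : Finite G) (ι : S →* G), Cfsg.IsPSolvable p G ∧ F.IsRealizedBy ι ∧
        ∃ T : Sylow p G, (T : Subgroup G) = ι.range) ↔
      (F.IsConstrained p ∧ Cfsg.IsPSolvable p ↥(F.autGroup F.core)) := by
  constructor
  · rintro ⟨G, _, _, ι, hps, hreal, T, hT⟩
    haveI hKn : (pPrimeCore p G).Normal :=
      @Subgroup.normal_of_characteristic _ _ _ (Cfsg.Agent.Lib.Helper63.pPrimeCore_characteristic' p G)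
    have hKc : (Nat.card (pPrimeCore p G)).Coprime p :=
      Cfsg.Agent.Lib.Helper63.card_pPrimeCore_coprime' p G
    have hreal' := Cfsg.Agent.Lib.Helper85.ModelCore.isRealizedBy_quotient hreal T hT (pPrimeCore p G) hKc
    have hps' : Cfsg.IsPSolvable p (G ⧸ pPrimeCore p G) :=
      Cfsg.Agent.Lib.Helper69.isPSolvable_of_surj p (QuotientGroup.mk' _)
        (QuotientGroup.mk'_surjective _) hps
    have hcent := Cfsg.Agent.Lib.Helper63.centralizer_pCore_le
      (Cfsg.Agent.Lib.Helper63.pPrimeCore_quotient_eq_bot p G)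
      (Cfsg.Agent.Lib.Helper63.exists_plengthLE_of_isPSolvable hps')
    have hsyl := Cfsg.Agent.Lib.Helper85.ModelCore.exists_sylow_quotient T hT (pPrimeCore p G)
    have hmod : F.IsModel p (G ⧸ pPrimeCore p G) ((QuotientGroup.mk' (pPrimeCore p G)).comp ι) :=
      ⟨inferInstance, hreal', hsyl, hcent⟩
    refine ⟨Cfsg.Agent.Lib.Helper85.ModelCore.isConstrained_of_model hF hmod, ?_⟩
    obtain ⟨Φ, hr, -⟩ := Cfsg.Agent.Lib.Helper85.ModelCore.exists_autHom_core hS hmod
    rw [← hr]
    exact Cfsg.Agent.Lib.Helper69.isPSolvable_of_surj p Φ.rangeRestrict Φ.rangeRestrict_surjective hps'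
  · rintro ⟨hcons, hps⟩
    obtain ⟨L, _, ι, hmod⟩ := Cfsg.Agent.Lib.Helper84.Model.exists_model p hS F hcons
    haveI : Finite L := hmod.1
    obtain ⟨Φ, hr, hk⟩ := Cfsg.Agent.Lib.Helper85.ModelCore.exists_autHom_core hS hmod
    have h1 : Cfsg.IsPSolvable p ↥Φ.range := by rw [hr]; exact hps
    haveI : Finite ↥Φ.range := Finite.of_surjective Φ.rangeRestrict Φ.rangeRestrict_surjective
    have h2 : Cfsg.IsPSolvable p (L ⧸ Φ.ker) :=
      Cfsg.Agent.Lib.Helper69.isPSolvable_of_surj p
        (QuotientGroup.quotientKerEquivRange Φ).symm.toMonoidHom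
        (QuotientGroup.quotientKerEquivRange Φ).symm.surjective h1
    have h3 : IsPGroup p ↥Φ.ker := by
      rw [hk]
      exact (Cfsg.Agent.Lib.Helper63.pCore_isPGroup' p L).to_le hmod.2.2.2
    obtain ⟨m, hm⟩ := h3.exists_card_eq
    exact ⟨L, inferInstance, inferInstance, ι,
      Cfsg.Agent.Lib.Helper69.isPSolvable_of_quotient p Φ.ker (Or.inl ⟨m, hm⟩) h2, hmod.2.1, hmod.2.2.1⟩

end Cfsg.Agent.S5292
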