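import Mathlib
import Cfsg.Statements.S5294
import Cfsg.Agent.Lib.Helper88.FusNormal
import Cfsg.Agent.Lib.Helper88.Trace

set_option autoImplicit false
universe u
open Cfsg Cfsg.Agent.Lib.Helper88
open scoped IsMulCommutative

namespace Cfsg.Agent.S5294

/-- Let F be a saturated fusion system over a finite p-group S whose centre Z(S) lies in the largest subgroup O_p(F) normal in F. Then the centre Z(F) of F is a direct factor of Z(S): there is a subgroup K of Z(S) with Z(F) ∩ K = 1 and Z(F)K = Z(S). -/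
theorem result {Ω : Type u} [Group Ω] {S : Subgroup Ω} [Finite S] (p : ℕ) [Fact p.Prime] (hS : IsPGroup p S)
    (F : Cfsg.FusionSystem S) (hF : F.IsSaturated p) (hZ : (S ⊓ Subgroup.centralizer (S : Set Ω)) ≤ F.core) :
    ∃ K : Subgroup Ω, K ≤ (S ⊓ Subgroup.centralizer (S : Set Ω)) ∧ F.center ⊓ K = ⊥ ∧ F.center ⊔ K = (S ⊓ Subgroup.centralizer (S : Set Ω)) := by
  have hQ : F.IsNormal F.core := core_normal F
  have hQS : F.core ≤ S := hQ.1
  have hfinQ : Finite F.core := Finite.of_injective _ (Subgroup.inclusion_injective hQS)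
  obtain ⟨R, hR⟩ := fa_exists_sylow (normal_fa hF hQ).1
  let ρ : ↥(F.autGroup F.core) →* MulAut (Subgroup.center F.core) :=
    (centerAut F.core).comp (F.autGroup F.core).subtype
  have hpV : IsPGroup p (Subgroup.center F.core) := (hS.to_le hQS).to_subgroup _
  obtain ⟨k, hk⟩ := IsPGroup.iff_card.mp hpV
  have hcop : ((R : Subgroup (F.autGroup F.core)).index).Coprime
      (Nat.card (Subgroup.center F.core)) := by
    rw [hk]
    apply Nat.Coprime.pow_right
    rw [Nat.coprime_comm]
    exact (Nat.Prime.coprime_iff_not_dvd Fact.out).mpr R.not_dvd_index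
  obtain ⟨K, hK1, hK2, hK3⟩ := trace_complement ρ (R : Subgroup (F.autGroup F.core)) hcop
  have hcenter := center_eq_fix hQ hZ
  let ι : Subgroup.center F.core →* Ω := F.core.subtype.comp (Subgroup.center F.core).subtype
  have hKZ : K.map ι ≤ S ⊓ Subgroup.centralizer (S : Set Ω) := by
    rintro _ ⟨k, hk, rfl⟩
    refine ⟨hQS k.1.2, ?_⟩
    show ι k ∈ Subgroup.centralizer (S : Set Ω)
    rw [Subgroup.mem_centralizer_iff]
    intro g hg
    obtain ⟨α, hα, hαg⟩ := normal_conj_aut hQ hg
    have hmem : (⟨α, hα⟩ : F.autGroup F.core) ∈ R := (hR ⟨α, hα⟩).mpr ⟨g, hg, hαg⟩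
    have h1 := hK1 k hk ⟨α, hα⟩ hmem
    have h2 : ((α (k : F.core) : F.core) : Ω) = ((k : F.core) : Ω) :=
      congrArg (fun z : Subgroup.center F.core => ((z : F.core) : Ω)) h1
    rw [hαg] at h2
    show g * ((k : F.core) : Ω) = ((k : F.core) : Ω) * g
    calc g * ((k : F.core) : Ω) = g * ((k : F.core) : Ω) * g⁻¹ * g := by group
      _ = ((k : F.core) : Ω) * g := by rw [h2]
  refine ⟨K.map ι, hKZ, ?_, ?_⟩
  · rw [eq_bot_iff]
    rintro x ⟨hxc, hxK⟩
    have hxc' : x ∈ (fixSub (F.autGroup F.core)).map F.core.subtype := by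
      rw [← hcenter]; exact hxc
    obtain ⟨y, hy, rfl⟩ := hxc'
    obtain ⟨k, hk, hkx⟩ := hxK
    have hky : (k : F.core) = y := Subtype.ext hkx
    have hfix : ∀ a : F.autGroup F.core, ρ a k = k := by
      intro a
      apply Subtype.ext
      show (a : MulAut F.core) (k : F.core) = (k : F.core)
      rw [hky]; exact hy a a.2
    have h1 := hK2 k hk hfix
    rw [Subgroup.mem_bot, ← hky, h1]; rfl
  · apply le_antisymm
    · apply sup_le
      · intro x hx
        have hxS : x ∈ S := by
          have hx' : x ∈ (fixSub (F.autGroup F.core)).map F.core.subtype := by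
            rw [← hcenter]; exact hx
          obtain ⟨y, -, rfl⟩ := hx'
          exact hQS y.2
        exact ⟨hxS, F.center_le_centralizer hx⟩
      · exact hKZ
    · intro x hx
      have hxQ : x ∈ F.core := hZ hx
      have hxc : (⟨x, hxQ⟩ : F.core) ∈ Subgroup.center F.core := by
        rw [Subgroup.mem_center_iff]
        intro g
        apply Subtype.ext
        show (g : Ω) * x = x * g
        exact (Subgroup.mem_centralizer_iff.mp hx.2) g (hQS g.2)
      have hBfix : ∀ b ∈ (R : Subgroup (F.autGroup F.core)),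
          ρ b ⟨⟨x, hxQ⟩, hxc⟩ = ⟨⟨x, hxQ⟩, hxc⟩ := by
        intro b hb
        obtain ⟨g, hg, hgb⟩ := (hR b).mp hb
        apply Subtype.ext
        apply Subtype.ext
        show (((b : MulAut F.core) ⟨x, hxQ⟩ : F.core) : Ω) = x
        rw [hgb]
        show g * x * g⁻¹ = x
        rw [(Subgroup.mem_centralizer_iff.mp hx.2) g hg, mul_inv_cancel_right]
      obtain ⟨c, k, hv, hc, hk⟩ := hK3 _ hBfix
      have hx' : x = ι c * ι k := by
        have h1 := congrArg ι hv
        rw [map_mul] at h1
        exact h1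
      rw [hx']
      apply Subgroup.mul_mem_sup
      · rw [hcenter]
        refine ⟨(c : F.core), ?_, rfl⟩
        intro α hα
        exact congrArg Subtype.val (hc ⟨α, hα⟩)
      · exact ⟨k, hk, rfl⟩

end Cfsg.Agent.S5294
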