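import Cfsg.Statements.S5296
import Mathlib
import Cfsg.Agent.Lib.Helper88.BgD

set_option autoImplicit false
universe u
open Cfsg

namespace Cfsg.Agent.S5296

/-- Small-exponent abelian subgroups of the hyperfocal subgroup control fusion. Let E and F be saturated fusion systems over the same finite p-group S with E contained in F. Suppose that E and F have the same maps between A and B for all subgroups A, B of the hyperfocal subgroup of F that are elementary abelian when p is odd, respectively abelian of exponent dividing 4 when p = 2. Then E = F. -/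
theorem result {Ω : Type u} [Group Ω] {S : Subgroup Ω} [Finite S] (p : ℕ) [Fact p.Prime] (hS : IsPGroup p S)
    (E F : Cfsg.FusionSystem S) (hE : E.IsSaturated p) (hF : F.IsSaturated p) (hEF : E.IsSubsystemOf F)
    (hodd : p ≠ 2 → ∀ A B : Subgroup Ω, A ≤ (F.hyperfocalSubgroup p) → B ≤ (F.hyperfocalSubgroup p) →
      Cfsg.IsElementaryAbelian p A → Cfsg.IsElementaryAbelian p B → E.homSet A B = F.homSet A B)
    (htwo : p = 2 → ∀ A B : Subgroup Ω, A ≤ (F.hyperfocalSubgroup p) → B ≤ (F.hyperfocalSubgroup p) →
      IsMulCommutative ↥A → IsMulCommutative ↥B → (∀ a ∈ A, a ^ 4 = 1) → (∀ b ∈ B, b ^ 4 = 1) → E.homSet A B = F.homSet A B) :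
    ∀ P : Subgroup Ω, E.Hom P = F.Hom P := by
  exact Cfsg.Agent.Lib.Helper88.Bg.bg_final p hS E F hE hF hEF
    (fun hp A B hA hB _ _ hAe hBe => hodd hp A B hA hB hAe hBe)
    (fun hp A B hA hB _ _ hAc hBc hA4 hB4 => htwo hp A B hA hB hAc hBc hA4 hB4)

end Cfsg.Agent.S5296
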