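import Cfsg.Statements.S5297
import Mathlib
import Cfsg.Agent.Lib.Helper88.FusPAut
import Cfsg.Agent.Lib.Helper88.SmallGrp
import Cfsg.Agent.Lib.Helper84.FusionApps

set_option autoImplicit false
universe u
open Cfsg Cfsg.FusionSystem Cfsg.Agent.Lib.Helper88
open scoped commutatorElement

namespace Cfsg.Agent.S5297

/-- Let F be a saturated fusion system over a finite p-group S. If every map of F between cyclic subgroups of the hyperfocal subgroup of F of order p or 4 is a map of the normalizer system of S (it extends to a map of F defined on all of S), then S is normal in F. -/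
theorem result {Ω : Type u} [Group Ω] {S : Subgroup Ω} [Finite S] (p : ℕ) [Fact p.Prime] (hS : IsPGroup p S)
    (F : Cfsg.FusionSystem S) (hF : F.IsSaturated p)
    (h : ∀ A B : Subgroup Ω, A ≤ (F.hyperfocalSubgroup p) → B ≤ (F.hyperfocalSubgroup p) → IsCyclic ↥A → (Nat.card ↥A = p ∨ Nat.card ↥A = 4) → IsCyclic ↥B → (Nat.card ↥B = p ∨ Nat.card ↥B = 4) →
      F.homSet A B ⊆ F.normalizerHom S A) :
    F.IsNormal S := by
  have hp : p.Prime := Fact.out
  apply Lib.Helper84.isNormal_of_forall_essential p hS F hF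
  intro E hE
  suffices hSE : S ≤ E by
    have hES : E ≤ S := by
      rcases hE with hE | hE
      · rw [hE]
      · exact hE.1.1
    exact ⟨hSE, fun α _ x _ => hES (α x).2⟩
  rcases hE with hE | hE
  · rw [hE]
  have hcen : F.IsCentric E := hE.1
  have hES : E ≤ S := hcen.1
  have hC : centralizerIn S E ≤ E := hcen.2 E (Lib.Helper84.isConj_refl F hES)
  have hrad := Lib.Helper84.radical_of_essential hS F hE
  have hfinE : Finite E := Finite.of_injective _ (Subgroup.inclusion_injective hES)
  have hEp : IsPGroup p E := hS.to_le hES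
  have hfinA : Finite (F.autGroup E) := Lib.Helper84.finite_autGroup F hES
  -- the normal closure of `Aut_S(E)` in `Aut_F(E)`
  let Sg : Set (F.autGroup E) :=
    {k | ∃ s : normalizerIn S E, (k : MulAut E) = Lib.Helper84.conjN S E s}
  set K : Subgroup (F.autGroup E) := Subgroup.normalClosure Sg with hK
  have hKn : K.Normal := Subgroup.normalClosure_normal
  have hKp : IsPGroup p K := by
    by_contra hnp
    have hex : ∃ k : K, ∃ n m : ℕ, m.Coprime p ∧ (k ^ p ^ n) ^ m = 1 ∧ k ^ p ^ n ≠ 1 := by
      by_contra hcon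
      push Not at hcon
      apply hnp
      intro k
      obtain ⟨n, m, hm, hnm⟩ := exists_pprime_pow p k
      exact ⟨n, hcon k n m hm hnm⟩
    obtain ⟨k, n, m, hm, hkm, hk1⟩ := hex
    set b : K := k ^ p ^ n with hb
    set β : MulAut E := ((b : F.autGroup E) : MulAut E) with hβ
    let T : Set (MulAut E) := {t | (∃ k' : F.autGroup E, k' ∈ K ∧ (k' : MulAut E) = t) ∧
      ∃ m : ℕ, m.Coprime p ∧ t ^ m = 1}
    have hTA : T ⊆ (F.autGroup E : Set (MulAut E)) := by
      rintro t ⟨⟨k', -, rfl⟩, -⟩
      exact k'.2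
    have hTc : ∀ t ∈ T, ∀ g ∈ F.autGroup E, g * t * g⁻¹ ∈ T := by
      rintro t ⟨⟨k', hk', rfl⟩, m', hm', htm'⟩ g hg
      refine ⟨⟨⟨g, hg⟩ * k' * ⟨g, hg⟩⁻¹, hKn.conj_mem k' hk' ⟨g, hg⟩, rfl⟩, m', hm', ?_⟩
      rw [conj_pow, htm']
      simp
    have hTo : ∀ t ∈ T, ∃ m : ℕ, m.Coprime p ∧ t ^ m = 1 := fun t ht => ht.2
    have hβT : β ∈ T := ⟨⟨(b : F.autGroup E), b.2, rfl⟩, m, hm, by
      have := congrArg (fun z : K => ((z : F.autGroup E) : MulAut E)) hkm
      simpa using this⟩
    have hβ1 : β ≠ 1 := by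
      intro h1
      apply hk1
      exact Subtype.ext (Subtype.ext h1)
    have hnt : ∃ t ∈ T, ∃ x ∈ (⊤ : Subgroup E), t x ≠ x := by
      by_contra hcon
      push Not at hcon
      apply hβ1
      ext x
      rw [hcon β hβT x (Subgroup.mem_top x)]
      rfl
    obtain ⟨Q, -, hQinv, ⟨t, ht, x₀, hx₀, htx₀⟩, hsmall, hclo⟩ :=
      exists_small_invariant_grp (F.autGroup E) T hTA hTc hTo _ (⊤ : Subgroup E) inferInstance rfl
        (hEp.to_subgroup ⊤) (fun g _ x _ => Subgroup.mem_top _) hnt
    -- `Q` lies in the hyperfocal subgroup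
    have hhyp : ∀ y ∈ Q, ((y : E) : Ω) ∈ F.hyperfocalSubgroup p := by
      have hle : Q ≤ (F.hyperfocalSubgroup p).comap E.subtype := by
        rw [hclo]
        apply (Subgroup.closure_le _).2
        rintro _ ⟨t', ht', x, -, rfl⟩
        obtain ⟨m', hm', htm'⟩ := ht'.2
        exact hyp_gen_mem F hES (hTA ht') hm' htm' x
      exact fun y hy => hle hy
    -- orders of small nontrivial elements
    have hord : ∀ y ∈ Q, y ≠ 1 → (Nat.card (Subgroup.zpowers ((y : E) : Ω)) = p ∨
        Nat.card (Subgroup.zpowers ((y : E) : Ω)) = 4) := by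
      intro y hy hy1
      rw [Nat.card_zpowers]
      have hyΩ : ((y : E) : Ω) ≠ 1 := fun h1 => hy1 (Subtype.ext h1)
      rcases hsmall y hy with h1 | ⟨h2, h4⟩
      · left
        have h1' : ((y : E) : Ω) ^ p = 1 := by
          have := congrArg Subtype.val h1
          simpa using this
        rcases (Nat.dvd_prime hp).1 (orderOf_dvd_of_pow_eq_one h1') with h | h
        · exact absurd (orderOf_eq_one_iff.1 h) hyΩ
        · exact h
      · have h4' : ((y : E) : Ω) ^ 4 = 1 := by
          have := congrArg Subtype.val h4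
          simpa using this
        have hdvd : orderOf ((y : E) : Ω) ∣ 2 ^ 2 := orderOf_dvd_of_pow_eq_one h4'
        obtain ⟨k, hk, hk2⟩ := (Nat.dvd_prime_pow Nat.prime_two).1 hdvd
        interval_cases k
        · exact absurd (orderOf_eq_one_iff.1 (by simpa using hk2)) hyΩ
        · left; rw [hk2, h2]; norm_num
        · right; rw [hk2]; norm_num
    -- automorphisms preserve the lower central series level of elements of `Q`
    have hlcs : ∀ g ∈ F.autGroup E, ∀ y ∈ Q, ∀ i : ℕ, ((y : E) : Ω) ∈ S.lowerCentralSeries i →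
        ((g y : E) : Ω) ∈ S.lowerCentralSeries i := by
      intro g hg y hy i hyi
      by_cases hy1 : y = 1
      · rw [hy1, map_one]
        exact Subgroup.one_mem _
      have hgy1 : g y ≠ 1 := by
        intro h1
        apply hy1
        have : g y = g 1 := by rw [h1, map_one]
        exact g.injective this
      have hmor : Mor F E (extFun (fun z : E => ((g z : E) : Ω))) := (mem_autGroup_iff F hES g).1 hg
      have hAP : Subgroup.zpowers ((y : E) : Ω) ≤ E := (Subgroup.zpowers_le).2 y.2
      obtain ⟨φ, hφ, hφf⟩ := hmor.res hAP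
      have hφx : φ ⟨(y : Ω), Subgroup.mem_zpowers _⟩ = ((g y : E) : Ω) := by
        rw [hφf]
        exact extFun_apply (fun z : E => ((g z : E) : Ω)) y
      have hmaps : ∀ z : Subgroup.zpowers ((y : E) : Ω), φ z ∈ Subgroup.zpowers (((g y : E)) : Ω) := by
        intro z
        obtain ⟨k, hk⟩ := Subgroup.mem_zpowers_iff.1 z.2
        have hz : z = (⟨(y : Ω), Subgroup.mem_zpowers _⟩ : Subgroup.zpowers ((y : E) : Ω)) ^ k :=
          Subtype.ext (by rw [Subgroup.coe_zpow]; exact hk.symm)
        rw [hz, map_zpow, hφx]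
        exact Subgroup.zpow_mem _ (Subgroup.mem_zpowers _) k
      have hin := h (Subgroup.zpowers ((y : E) : Ω)) (Subgroup.zpowers (((g y : E)) : Ω))
        ((Subgroup.zpowers_le).2 (hhyp y hy)) ((Subgroup.zpowers_le).2 (hhyp _ (hQinv g hg y hy)))
        (Subgroup.isCyclic_zpowers _) (hord y hy hy1) (Subgroup.isCyclic_zpowers _)
        (hord _ (hQinv g hg y hy) hgy1) ⟨hφ, hmaps⟩
      obtain ⟨-, -, -, ψ, hψ, hψφ, hψS⟩ := hin
      have hST : S ≤ Subgroup.zpowers ((y : E) : Ω) ⊔ S := le_sup_right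
      have h1 : ((S.subgroupOf (Subgroup.zpowers ((y : E) : Ω) ⊔ S)).lowerCentralSeries i).map
          (Subgroup.zpowers ((y : E) : Ω) ⊔ S).subtype = S.lowerCentralSeries i := by
        rw [Subgroup.map_lowerCentralSeries, Subgroup.map_subgroupOf_eq_of_le hST]
      have h2 : ((S.subgroupOf (Subgroup.zpowers ((y : E) : Ω) ⊔ S)).lowerCentralSeries i).map ψ
          = S.lowerCentralSeries i := by
        rw [Subgroup.map_lowerCentralSeries, hψS]
      rw [← h1] at hyi
      obtain ⟨z, hz, hzy⟩ := hyi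
      have hzeq : z = Subgroup.inclusion le_sup_left
          (⟨(y : Ω), Subgroup.mem_zpowers _⟩ : Subgroup.zpowers ((y : E) : Ω)) :=
        Subtype.ext hzy
      have h3 : ψ z ∈ S.lowerCentralSeries i := by
        rw [← h2]
        exact ⟨z, hz, rfl⟩
      rw [hzeq, hψφ, hφx] at h3
      exact h3
    -- the subgroup of automorphisms acting trivially on the factors of the filtration of `Q`
    let KQ : Subgroup (F.autGroup E) :=
      { carrier := {g | ∀ i : ℕ, ∀ y ∈ Q, ((y : E) : Ω) ∈ S.lowerCentralSeries i →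
          ((y⁻¹ * (g : MulAut E) y : E) : Ω) ∈ S.lowerCentralSeries (i + 1)}
        one_mem' := by
          intro i y _ _
          have : (y⁻¹ * ((1 : F.autGroup E) : MulAut E) y : E) = 1 := by simp
          rw [this]
          exact Subgroup.one_mem _
        mul_mem' := by
          intro g k hg hk i y hy hyi
          have hky : (k : MulAut E) y ∈ Q := hQinv _ k.2 y hy
          have hkyi := hlcs _ k.2 y hy i hyi
          have e : (y⁻¹ * ((g * k : F.autGroup E) : MulAut E) y : E) =
              (y⁻¹ * (k : MulAut E) y) * (((k : MulAut E) y)⁻¹ * (g : MulAut E) ((k : MulAut E) y)) := by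
            rw [Subgroup.coe_mul, MulAut.mul_apply]
            group
          rw [e, Subgroup.coe_mul]
          exact Subgroup.mul_mem _ (hk i y hy hyi) (hg i _ hky hkyi)
        inv_mem' := by
          intro g hg i y hy hyi
          have hgA : ((g : MulAut E))⁻¹ ∈ F.autGroup E := (F.autGroup E).inv_mem g.2
          have hzQ : ((g : MulAut E))⁻¹ y ∈ Q := hQinv _ hgA y hy
          have hzi := hlcs _ hgA y hy i hyi
          have h1 := hg i _ hzQ hzi
          have e1 : (g : MulAut E) (((g : MulAut E))⁻¹ y) = y := by simp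
          rw [e1] at h1
          have e : (y⁻¹ * ((g⁻¹ : F.autGroup E) : MulAut E) y : E) =
              ((((g : MulAut E))⁻¹ y)⁻¹ * y)⁻¹ := by
            rw [Subgroup.coe_inv]
            group
          rw [e, Subgroup.coe_inv]
          exact Subgroup.inv_mem _ h1 }
    have hKQn : KQ.Normal := by
      constructor
      intro k hk g i y hy hyi
      have hgA : ((g : MulAut E))⁻¹ ∈ F.autGroup E := (F.autGroup E).inv_mem g.2
      have hzQ : ((g : MulAut E))⁻¹ y ∈ Q := hQinv _ hgA y hy
      have hzi := hlcs _ hgA y hy i hyi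
      have hw := hk i _ hzQ hzi
      have hwQ : (((g : MulAut E))⁻¹ y)⁻¹ * (k : MulAut E) (((g : MulAut E))⁻¹ y) ∈ Q :=
        Q.mul_mem (Q.inv_mem hzQ) (hQinv _ k.2 _ hzQ)
      have h1 := hlcs _ g.2 _ hwQ (i + 1) hw
      have e : (y⁻¹ * ((g * k * g⁻¹ : F.autGroup E) : MulAut E) y : E) =
          (g : MulAut E) ((((g : MulAut E))⁻¹ y)⁻¹ * (k : MulAut E) (((g : MulAut E))⁻¹ y)) := by
        rw [map_mul, map_inv]
        simp [MulAut.mul_apply]
      rw [e]
      exact h1
    have hSgKQ : Sg ⊆ KQ := by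
      rintro k ⟨s, hks⟩ i y hy hyi
      have e : ((y⁻¹ * (k : MulAut E) y : E) : Ω) = ⁅((y : E) : Ω)⁻¹, (s : Ω)⁆ := by
        rw [hks, commutatorElement_def, Subgroup.coe_mul, Subgroup.coe_inv]
        show ((y : E) : Ω)⁻¹ * ((s : Ω) * y * (s : Ω)⁻¹) = _
        group
      rw [e, Subgroup.lowerCentralSeries_succ]
      exact Subgroup.commutator_mem_commutator (inv_mem hyi) s.2.1
    have hKKQ : K ≤ KQ := Subgroup.normalClosure_le_normal hSgKQ
    obtain ⟨⟨k', hk', hk't⟩, mt, hmt, htm⟩ := ht
    have htA : t ∈ F.autGroup E := by rw [← hk't]; exact k'.2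
    have hk'Q := hKKQ hk'
    have hSnil : Group.IsNilpotent S := hS.isNilpotent
    obtain ⟨N, hN⟩ := (Subgroup.isNilpotent_iff_lowerCentralSeries S).1 hSnil
    have key : ∀ j : ℕ, j ≤ N → ∀ y ∈ Q,
        ((y : E) : Ω) ∈ S.lowerCentralSeries (N - j) → t y = y := by
      intro j
      induction j with
      | zero =>
        intro _ y hy hyl
        rw [Nat.sub_zero, hN, Subgroup.mem_bot] at hyl
        have : y = 1 := Subtype.ext hyl
        rw [this, map_one]
      | succ j ih =>
        intro hj y hy hyl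
        have hty : t y ∈ Q := hQinv t htA y hy
        have hc : y⁻¹ * t y ∈ Q := Q.mul_mem (Q.inv_mem hy) hty
        have hcl' : ((y⁻¹ * t y : E) : Ω) ∈ S.lowerCentralSeries (N - j) := by
          have e : N - j = (N - (j + 1)) + 1 := by omega
          rw [e]
          have h1 := hk'Q (N - (j + 1)) y hy hyl
          rw [hk't] at h1
          exact h1
        have hfix := ih (by omega) _ hc hcl'
        obtain ⟨e', he'⟩ := hEp (y⁻¹ * t y)
        have := eq_one_of_coprime_fix t hmt htm (x := y) (c := y⁻¹ * t y) (by group) hfix he'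
        exact (inv_mul_eq_one.1 this).symm
    exact htx₀ (key N le_rfl x₀ hx₀ (by
      rw [Nat.sub_self, Subgroup.lowerCentralSeries_zero]
      exact hES x₀.2))
  have hKle : K ≤ pCore p (F.autGroup E) := Lib.Helper84.le_pCore hKn hKp
  -- `N_S(E) ≤ E`
  have hNE : normalizerIn S E ≤ E := by
    intro s hs
    have hsS : s ∈ S := hs.1
    set u : MulAut E := Lib.Helper84.conjN S E ⟨s, hs⟩ with hu
    have huA : u ∈ F.autGroup E := by
      apply Lib.Helper84.autInducedBy_le_autGroup F hES
      rw [Lib.Helper84.autInducedBy_eq_range]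
      exact ⟨⟨s, hs⟩, rfl⟩
    have huK : (⟨u, huA⟩ : F.autGroup E) ∈ K := Subgroup.subset_normalClosure ⟨⟨s, hs⟩, rfl⟩
    have huI : u ∈ Inn E := by
      rw [← hrad.2]
      exact ⟨⟨u, huA⟩, hKle huK, rfl⟩
    obtain ⟨x, hx⟩ := huI
    apply Lib.Helper84.mem_of_conj_eq_conj hES hC hsS x.2
    intro y hy
    have h1 := congrArg (fun a : MulAut E => ((a ⟨y, hy⟩ : E) : Ω)) hx
    have h2 : ((u ⟨y, hy⟩ : E) : Ω) = s * y * s⁻¹ := rfl
    rw [← h2]
    simpa [MulAut.conj_apply] using h1
  by_contra hne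
  have hne' : E ≠ S := fun h => hne (by rw [h])
  obtain ⟨g, hg, hgE⟩ := Lib.Helper84.exists_mem_normalizerIn_not_mem hS hES hne'
  exact hgE (hNE hg)

end Cfsg.Agent.S5297
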