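import Mathlib
import Cfsg.Statements.S5298
import Cfsg.Agent.Lib.Helper88.FusPAut

set_option autoImplicit false
universe u
open Cfsg Cfsg.FusionSystem Cfsg.Agent.Lib.Helper88

namespace Cfsg.Agent.S5298

/-- Let F be a saturated fusion system over a finite p-group S. If every map of F between cyclic subgroups of the hyperfocal subgroup of F of order p or 4 is conjugation by an element of S, then F is the inner fusion system of S. -/
theorem result {Ω : Type u} [Group Ω] {S : Subgroup Ω} [Finite S] (p : ℕ) [Fact p.Prime] (hS : IsPGroup p S)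
    (F : Cfsg.FusionSystem S) (hF : F.IsSaturated p)
    (h : ∀ A B : Subgroup Ω, A ≤ (F.hyperfocalSubgroup p) → B ≤ (F.hyperfocalSubgroup p) → IsCyclic ↥A → (Nat.card ↥A = p ∨ Nat.card ↥A = 4) → IsCyclic ↥B → (Nat.card ↥B = p ∨ Nat.card ↥B = 4) →
      F.homSet A B ⊆ (Cfsg.innerFusionSystem S).Hom A) :
    ∀ P : Subgroup Ω, F.Hom P = (Cfsg.innerFusionSystem S).Hom P := by
  have hp : p.Prime := Fact.out
  apply eq_inner_of_isPGroup hS F hF
  intro P hP
  apply isPGroup_autGroup_of_coprime_trivial F hP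
  intro b hb m hm hbm
  by_contra hb1
  have hfinP : Finite P := Finite.of_injective _ (Subgroup.inclusion_injective hP)
  have hPp : IsPGroup p P := hS.to_le hP
  have hnt : ∃ x ∈ (⊤ : Subgroup P), b x ≠ x := by
    by_contra hcon
    push Not at hcon
    apply hb1
    ext x
    rw [hcon x (Subgroup.mem_top x)]
    rfl
  obtain ⟨P₁, -, hinv, ⟨x₀, hx₀, hbx₀⟩, hsmall, hclo⟩ :=
    exists_small_invariant b hm hbm _ (⊤ : Subgroup P) inferInstance rfl
      (hPp.to_subgroup ⊤) (fun x _ => Subgroup.mem_top _) hnt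
  -- `P₁` lies in the hyperfocal subgroup
  have hhyp : ∀ y ∈ P₁, ((y : P) : Ω) ∈ F.hyperfocalSubgroup p := by
    have hle : P₁ ≤ (F.hyperfocalSubgroup p).comap P.subtype := by
      rw [hclo]
      apply (Subgroup.closure_le _).2
      rintro _ ⟨x, -, rfl⟩
      exact hyp_gen_mem F hP hb hm hbm x
    exact fun y hy => hle hy
  -- orders of small nontrivial elements
  have hord : ∀ y ∈ P₁, y ≠ 1 → (Nat.card (Subgroup.zpowers ((y : P) : Ω)) = p ∨
      Nat.card (Subgroup.zpowers ((y : P) : Ω)) = 4) := by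
    intro y hy hy1
    rw [Nat.card_zpowers]
    have hyΩ : ((y : P) : Ω) ≠ 1 := fun h1 => hy1 (Subtype.ext h1)
    rcases hsmall y hy with h1 | ⟨h2, h4⟩
    · left
      have h1' : ((y : P) : Ω) ^ p = 1 := by
        have := congrArg Subtype.val h1
        simpa using this
      rcases (Nat.dvd_prime hp).1 (orderOf_dvd_of_pow_eq_one h1') with h | h
      · exact absurd (orderOf_eq_one_iff.1 h) hyΩ
      · exact h
    · have h4' : ((y : P) : Ω) ^ 4 = 1 := by
        have := congrArg Subtype.val h4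
        simpa using this
      have hdvd : orderOf ((y : P) : Ω) ∣ 2 ^ 2 := orderOf_dvd_of_pow_eq_one h4'
      obtain ⟨k, hk, hk2⟩ := (Nat.dvd_prime_pow Nat.prime_two).1 hdvd
      interval_cases k
      · exact absurd (orderOf_eq_one_iff.1 (by simpa using hk2)) hyΩ
      · left; rw [hk2, h2]; norm_num
      · right; rw [hk2]; norm_num
  have hSnil : Group.IsNilpotent S := hS.isNilpotent
  have hcl : ∀ x ∈ P₁, ∃ s : S, Subgroup.inclusion hP (b x) = s * Subgroup.inclusion hP x * s⁻¹ := by
    intro x hx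
    by_cases hx1 : x = 1
    · refine ⟨1, ?_⟩
      rw [hx1, map_one, map_one]
      group
    have hbx1 : b x ≠ 1 := by
      intro h1
      apply hx1
      have : b x = b 1 := by rw [h1, map_one]
      exact b.injective this
    have hmor : Mor F P (extFun (fun y : P => ((b y : P) : Ω))) := (mem_autGroup_iff F hP b).1 hb
    have hAP : Subgroup.zpowers ((x : P) : Ω) ≤ P := (Subgroup.zpowers_le).2 x.2
    obtain ⟨φ, hφ, hφf⟩ := hmor.res hAP
    have hφx : φ ⟨(x : Ω), Subgroup.mem_zpowers _⟩ = ((b x : P) : Ω) := by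
      rw [hφf]
      exact extFun_apply (fun y : P => ((b y : P) : Ω)) x
    have hmaps : ∀ z : Subgroup.zpowers ((x : P) : Ω), φ z ∈ Subgroup.zpowers (((b x : P)) : Ω) := by
      intro z
      obtain ⟨k, hk⟩ := Subgroup.mem_zpowers_iff.1 z.2
      have hz : z = (⟨(x : Ω), Subgroup.mem_zpowers _⟩ : Subgroup.zpowers ((x : P) : Ω)) ^ k :=
        Subtype.ext (by rw [Subgroup.coe_zpow]; exact hk.symm)
      rw [hz, map_zpow, hφx]
      exact Subgroup.zpow_mem _ (Subgroup.mem_zpowers _) k
    have hin := h (Subgroup.zpowers ((x : P) : Ω)) (Subgroup.zpowers (((b x : P)) : Ω))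
      ((Subgroup.zpowers_le).2 (hhyp x hx)) ((Subgroup.zpowers_le).2 (hhyp _ (hinv x hx)))
      (Subgroup.isCyclic_zpowers _) (hord x hx hx1) (Subgroup.isCyclic_zpowers _)
      (hord _ (hinv x hx) hbx1) ⟨hφ, hmaps⟩
    obtain ⟨-, g, hg, hgφ⟩ := hin
    refine ⟨⟨g, hg⟩, Subtype.ext ?_⟩
    have := hgφ ⟨(x : Ω), Subgroup.mem_zpowers _⟩
    rw [hφx] at this
    exact this
  exact hbx₀ (fix_of_class_preserving hS (Subgroup.inclusion hP) (Subgroup.inclusion_injective hP)
    b hm hbm P₁ hinv hcl x₀ hx₀)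

end Cfsg.Agent.S5298
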