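import Mathlib
import Cfsg.Statements.S5300
import Cfsg.Agent.Lib.Helper88.FusPAut
import Cfsg.Agent.Lib.Helper84.FusionApps

set_option autoImplicit false
universe u
open Cfsg Cfsg.FusionSystem Cfsg.Agent.Lib.Helper88

namespace Cfsg.Agent.S5300

/-- Let F be a saturated fusion system over a finite p-group S. If every cyclic subgroup of the focal subgroup of F of order p (of order 2 or 4 when p = 2) is normal in S, then S is normal in F. -/
theorem result {Ω : Type u} [Group Ω] {S : Subgroup Ω} [Finite S] (p : ℕ) [Fact p.Prime] (hS : IsPGroup p S)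
    (F : Cfsg.FusionSystem S) (hF : F.IsSaturated p)
    (hnorm : ∀ x ∈ F.focalSubgroup, (x ^ p = 1 ∨ (p = 2 ∧ x ^ 4 = 1)) → ∀ s ∈ S, s * x * s⁻¹ ∈ Subgroup.zpowers x) :
    F.IsNormal S := by
  have hp : p.Prime := Fact.out
  apply Lib.Helper84.isNormal_of_forall_essential p hS F hF
  intro E hE
  suffices hSE : S ≤ E by
    have hES : E ≤ S := by
      rcases hE with hE | hE
      · rw [hE]
      · exact hE.1.1
    exact ⟨hSE, fun α _ x _ => hES (α x).2⟩
  rcases hE with hE | hE
  · rw [hE]
  have hcen : F.IsCentric E := hE.1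
  have hES : E ≤ S := hcen.1
  have hC : centralizerIn S E ≤ E := hcen.2 E (Lib.Helper84.isConj_refl F hES)
  have hrad := Lib.Helper84.radical_of_essential hS F hE
  have hfinE : Finite E := Finite.of_injective _ (Subgroup.inclusion_injective hES)
  have hEp : IsPGroup p E := hS.to_le hES
  have hfinA : Finite (F.autGroup E) := Lib.Helper84.finite_autGroup F hES
  -- the commutator of `E` with its automorphism group
  set R : Subgroup E := Subgroup.closure {y | ∃ g ∈ F.autGroup E, ∃ x : E, y = x⁻¹ * g x} with hR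
  have hRfoc : ∀ y ∈ R, ((y : E) : Ω) ∈ F.focalSubgroup := by
    have hle : R ≤ (F.focalSubgroup).comap E.subtype := by
      apply (Subgroup.closure_le _).2
      rintro _ ⟨g, hg, x, rfl⟩
      apply Subgroup.subset_closure
      refine ⟨E, E.subtype.comp g.toMonoidHom, x, subtype_comp_mem F hES hg, ?_⟩
      show ((x⁻¹ * g x : E) : Ω) = _
      rw [Subgroup.coe_mul, Subgroup.coe_inv]
      rfl
    exact fun y hy => hle hy
  have hRinv : ∀ g ∈ F.autGroup E, ∀ y ∈ R, g y ∈ R := by
    intro g hg y hy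
    have hle : R ≤ R.comap g.toMonoidHom := by
      apply (Subgroup.closure_le _).2
      rintro _ ⟨k, hk, x, rfl⟩
      show g (x⁻¹ * k x) ∈ R
      apply Subgroup.subset_closure
      refine ⟨g * k * g⁻¹, (F.autGroup E).mul_mem ((F.autGroup E).mul_mem hg hk)
        ((F.autGroup E).inv_mem hg), g x, ?_⟩
      rw [map_mul, map_inv]
      simp [MulAut.mul_apply]
    exact hle hy
  have hRp : IsPGroup p R := hEp.to_subgroup R
  -- the subgroup of automorphisms fixing or inverting the small elements of `R`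
  let K : Subgroup (F.autGroup E) :=
    { carrier := {g | ∀ y ∈ R, Small p y →
        ((g : MulAut E) y = y ∨ (p = 2 ∧ (g : MulAut E) y = y⁻¹))}
      one_mem' := fun y _ _ => Or.inl rfl
      mul_mem' := by
        intro g k hg hk y hy hsm
        show (g : MulAut E) ((k : MulAut E) y) = y ∨ (p = 2 ∧ (g : MulAut E) ((k : MulAut E) y) = y⁻¹)
        rcases hk y hy hsm with h1 | ⟨h2, h1⟩
        · rw [h1]; exact hg y hy hsm
        · rw [h1, map_inv]
          rcases hg y hy hsm with h3 | ⟨-, h3⟩
          · right; exact ⟨h2, by rw [h3]⟩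
          · left; rw [h3, inv_inv]
      inv_mem' := by
        intro g hg y hy hsm
        show ((g : MulAut E)⁻¹) y = y ∨ (p = 2 ∧ ((g : MulAut E)⁻¹) y = y⁻¹)
        rcases hg y hy hsm with h1 | ⟨h2, h1⟩
        · left
          have : ((g : MulAut E)⁻¹) ((g : MulAut E) y) = y := by simp
          rw [h1] at this
          exact this
        · right
          refine ⟨h2, ?_⟩
          have h3 : (g : MulAut E) y⁻¹ = y := by rw [map_inv, h1, inv_inv]
          have : ((g : MulAut E)⁻¹) ((g : MulAut E) y⁻¹) = y⁻¹ := by simp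
          rw [h3] at this
          exact this }
  have hKn : K.Normal := by
    constructor
    intro k hk g y hy hsm
    have hgy : ((g : MulAut E)⁻¹) y ∈ R := hRinv _ ((F.autGroup E).inv_mem g.2) y hy
    have hgs : Small p (((g : MulAut E)⁻¹) y) := hsm.map ((g : MulAut E)⁻¹).toMonoidHom
    show (g : MulAut E) ((k : MulAut E) (((g : MulAut E)⁻¹) y)) = y ∨
      (p = 2 ∧ (g : MulAut E) ((k : MulAut E) (((g : MulAut E)⁻¹) y)) = y⁻¹)
    rcases hk _ hgy hgs with h1 | ⟨h2, h1⟩
    · left; rw [h1]; simp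
    · right; refine ⟨h2, ?_⟩
      rw [h1, map_inv]; simp
  have hKp : IsPGroup p K := by
    intro k
    obtain ⟨n, m, hm, hnm⟩ := exists_pprime_pow p k
    refine ⟨n, ?_⟩
    set b : K := k ^ p ^ n with hb
    set β : MulAut E := ((b : F.autGroup E) : MulAut E) with hβ
    have hβA : β ∈ F.autGroup E := (b : F.autGroup E).2
    have hβm : β ^ m = 1 := by
      have := congrArg (fun z : K => ((z : F.autGroup E) : MulAut E)) hnm
      simpa using this
    have hfix : ∀ y ∈ R, Small p y → β y = y := by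
      intro y hy hsm
      rcases (b.2 y hy hsm : β y = y ∨ (p = 2 ∧ β y = y⁻¹)) with h1 | ⟨h2, h1⟩
      · exact h1
      · have hsq : (β ^ 2) y⁻¹ = y⁻¹ := by
          rw [pow_two, MulAut.mul_apply, map_inv, h1, inv_inv, h1]
        have hodd : Odd m := by
          rw [h2] at hm
          exact Nat.coprime_two_right.1 hm
        obtain ⟨j, hj⟩ := hodd
        have h3 : (β ^ m) y = y⁻¹ := by
          rw [hj, pow_succ, MulAut.mul_apply, h1, pow_mul]
          exact aut_pow_fixed (β ^ 2) hsq j
        rw [hβm, MulAut.one_apply] at h3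
        rw [h1, ← h3]
    have hRβ : ∀ x ∈ R, β x ∈ R := fun x hx => hRinv β hβA x hx
    have hfixR := fix_of_fix_small β hm hβm R hRp hRβ hfix
    have hβ1 : β = 1 := by
      ext x
      have hc : x⁻¹ * β x ∈ R := Subgroup.subset_closure ⟨β, hβA, x, rfl⟩
      obtain ⟨e, he⟩ := hEp (x⁻¹ * β x)
      have := eq_one_of_coprime_fix β hm hβm (x := x) (c := x⁻¹ * β x) (by group)
        (hfixR _ hc) he
      rw [(inv_mul_eq_one.1 this).symm]
      rfl
    exact Subtype.ext (Subtype.ext hβ1)
  have hKle : K ≤ pCore p (F.autGroup E) := Lib.Helper84.le_pCore hKn hKp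
  -- `N_S(E) ≤ E`
  have hNE : normalizerIn S E ≤ E := by
    intro s hs
    have hsS : s ∈ S := hs.1
    set u : MulAut E := Lib.Helper84.conjN S E ⟨s, hs⟩ with hu
    have huA : u ∈ F.autGroup E := by
      apply Lib.Helper84.autInducedBy_le_autGroup F hES
      rw [Lib.Helper84.autInducedBy_eq_range]
      exact ⟨⟨s, hs⟩, rfl⟩
    obtain ⟨e, he⟩ := hS ⟨s, hsS⟩
    have he' : s ^ p ^ e = 1 := by
      have := congrArg Subtype.val he
      simpa using this
    have huK : (⟨u, huA⟩ : F.autGroup E) ∈ K := by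
      intro y hy hsm
      have hsmΩ : Small p ((y : E) : Ω) := hsm.map E.subtype
      have h1 := hnorm _ (hRfoc y hy) hsmΩ s hsS
      rcases conj_small_eq he' hsmΩ h1 with h2 | ⟨h2, h3⟩
      · left
        exact Subtype.ext h2
      · right
        exact ⟨h2, Subtype.ext (by rw [Subgroup.coe_inv]; exact h3)⟩
    have huI : u ∈ Inn E := by
      rw [← hrad.2]
      exact ⟨⟨u, huA⟩, hKle huK, rfl⟩
    obtain ⟨x, hx⟩ := huI
    apply Lib.Helper84.mem_of_conj_eq_conj hES hC hsS x.2
    intro y hy
    have h1 := congrArg (fun a : MulAut E => ((a ⟨y, hy⟩ : E) : Ω)) hx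
    have h2 : ((u ⟨y, hy⟩ : E) : Ω) = s * y * s⁻¹ := rfl
    rw [← h2]
    simpa [MulAut.conj_apply] using h1
  by_contra hne
  have hne' : E ≠ S := fun h => hne (by rw [h])
  obtain ⟨g, hg, hgE⟩ := Lib.Helper84.exists_mem_normalizerIn_not_mem hS hES hne'
  exact hgE (hNE hg)

end Cfsg.Agent.S5300
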