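import Mathlib
import Cfsg.Statements.S5301
import Cfsg.Agent.Lib.Helper88.FusAlp
import Cfsg.Agent.Lib.Helper88.FusNormal

set_option autoImplicit false
open Cfsg Cfsg.Agent.Lib.Helper88

namespace Cfsg.Agent.S5301

universe u

theorem result {Ω : Type u} [Group Ω] {S : Subgroup Ω} [Finite S] (p : ℕ) [Fact p.Prime] (hS : IsPGroup p S)
    (F : Cfsg.FusionSystem S) (hF : F.IsSaturated p)
    (hcl : ∀ P : Subgroup Ω, F.IsFullyNormalized P → F.IsCentric P → F.IsRadical p P →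
      ∃ R : Sylow p ↥(F.autGroup P), (R : Subgroup ↥(F.autGroup P)).Normal) :
    F.IsNormal S := by
  have key : ∀ P : Subgroup Ω, F.Hom P ⊆ (extSystem F).Hom P := by
    refine Cfsg.Agent.Lib.Helper87.alperin hS F hF (extSystem F) ?_
    intro R hfa hrec hc hr _ α hα
    have hRS : R = S :=
      eq_top_of_normal_sylow hS hfa hc hr (hcl R (fn_of_fa_rec hS hfa hrec) hc hr)
    subst hRS
    have hα' : R.subtype.comp α.toMonoidHom ∈ F.Hom R :=
      (Cfsg.Agent.Lib.Helper87.mem_autGroup_iff F le_rfl α).mp hα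
    exact ⟨hα', extFun (R.subtype.comp α.toMonoidHom), mor_of_hom F hα',
      fun x => (extFun_apply _ x).symm⟩
  refine isNormal_of le_rfl ?_
  rintro P f ⟨φ, hφ, hφf⟩
  obtain ⟨-, f', hf', hφf'⟩ := key P hφ
  have hPS : P ≤ S := (F.le_of_mem hφ).1
  have hsup : P ⊔ S = S := sup_eq_right.mpr hPS
  refine ⟨f', by rw [hsup]; exact hf', ?_, fun x hx => hf'.mem_S hx⟩
  intro x hx
  rw [← hφf' ⟨x, hx⟩, hφf ⟨x, hx⟩]

end Cfsg.Agent.S5301
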