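import Cfsg.Statements.S5317
import Cfsg.Agent.Lib.Helper86.PSL2Fusion

set_option autoImplicit false
open Cfsg

namespace Cfsg.Agent.S5317

/-- Let F be a finite field of odd order q with q² ≡ 1 mod 16 (so that a Sylow 2-subgroup of PSL(2,q), dihedral of order the 2-part of (q²−1)/2, has order at least 8). Then the 2-fusion system of PSL(2,F) on a Sylow 2-subgroup is simple: saturated, over a nontrivial 2-group, with no normal subsystem other than the trivial one and itself. -/
theorem result {F : Type*} [Field F] [Fintype F] (hodd : Fintype.card F % 2 = 1) (h16 : 16 ∣ Fintype.card F ^ 2 - 1)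
    (S : Sylow 2 (Matrix.ProjectiveSpecialLinearGroup (Fin 2) F)) :
    (Cfsg.groupFusionSystem (S : Subgroup (Matrix.ProjectiveSpecialLinearGroup (Fin 2) F))).IsSimple 2 := by
  have h2 : (2 : F) ≠ 0 := Cfsg.Agent.Lib.Helper5.two_ne_zero_of_odd_card (Nat.odd_iff.mpr hodd)
  obtain ⟨hS1, hgen, r, hrS, hord, hmul⟩ := Cfsg.Agent.Lib.Helper86.psl_sylow_data hodd h16 S
  apply Cfsg.Agent.Lib.Helper86.groupFusionSystem_isSimple_of_inner 2 S hS1
  · intro T hTS hT1 hT
    exact Cfsg.Agent.Lib.Helper86.eq_of_closed_of_invol_conj S.isPGroup'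
      (Cfsg.Agent.Lib.Helper86.psl_invol_conj h2) hgen hTS hT1 hT
  · intro g hg
    exact Cfsg.Agent.Lib.Helper86.exists_inner_of_coprime_centralize S
      (fun g hg hcop => Cfsg.Agent.Lib.Helper86.conj_eq_self_of_odd_of_cyclic_index_two
        S.isPGroup' hrS hord hmul hg hcop) hg

end Cfsg.Agent.S5317
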