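import Cfsg.Statements.S5319
import Cfsg.Agent.Lib.Helper86.SU3Wreath
import Cfsg.Agent.Lib.Helper86.SU3SD

set_option autoImplicit false
open Cfsg

namespace Cfsg.Agent.S5319

/-- Let q be an odd prime power and F a field with q² elements. Then the 2-fusion system of PSU(3,q) (realised as the special unitary group of the standard Hermitian form over F modulo its centre) on a Sylow 2-subgroup is simple. -/
theorem result {F : Type*} [Field F] [Fintype F] (q : ℕ) (hq : Fintype.card F = q ^ 2) (hodd : q % 2 = 1) (S : Sylow 2 (Cfsg.PSU 3 F q)) :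
    (Cfsg.groupFusionSystem (S : Subgroup (Cfsg.PSU 3 F q))).IsSimple 2 := by
  rcases (by omega : q % 4 = 1 ∨ q % 4 = 3) with h | h
  · exact Cfsg.Agent.Lib.Helper86.SU3.psu3_sd hq h S
  · exact Cfsg.Agent.Lib.Helper86.SU3.psu3_wreath hq h S

end Cfsg.Agent.S5319
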