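import Cfsg.Statements.S5320
import Cfsg.Agent.Lib.Helper86.Sp4Main

set_option autoImplicit false
open Cfsg

namespace Cfsg.Agent.S5320

/-- For a finite field F of odd order, the 2-fusion system of the projective symplectic group PSp(4,F) on a Sylow 2-subgroup is simple. -/
theorem result {F : Type*} [Field F] [Fintype F] (hodd : Fintype.card F % 2 = 1) (S : Sylow 2 (Cfsg.PSp 2 F)) :
    (Cfsg.groupFusionSystem (S : Subgroup (Cfsg.PSp 2 F))).IsSimple 2 := by
  have h2 : (2 : F) ≠ 0 := by
    apply Ring.two_ne_zero
    intro hc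
    have := FiniteField.even_card_of_char_two hc
    omega
  obtain ⟨a, b, hab⟩ := FiniteField.exists_root_sum_quadratic (R := F)
    (f := Polynomial.X ^ 2) (g := Polynomial.X ^ 2 + Polynomial.C 1)
    (Polynomial.degree_X_pow 2) (Polynomial.degree_X_pow_add_C (by norm_num) 1) hodd
  simp only [Polynomial.eval_pow, Polynomial.eval_X, Polynomial.eval_add, Polynomial.eval_C]
    at hab
  have h : a * a + b * b = -1 := by linear_combination hab
  exact Cfsg.Agent.Lib.Helper86.Sp4.psp4_fusion_simple h h2 S

end Cfsg.Agent.S5320
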