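import Mathlib
import Cfsg.Statements.S5328
import Cfsg.Agent.Lib.Helper88.BisetPerm

set_option autoImplicit false
universe u
open Cfsg Cfsg.FusionSystem Cfsg.Agent.Lib.Helper88 MulAction

namespace Cfsg.Agent.S5328

/-- Every fusion system over a finite p-group S, saturated or not, is realized inside some finite group: there is a finite group G and an injective homomorphism ι of S into G such that the maps of the system are exactly the homomorphisms between subgroups of S that become conjugations by elements of G (the image of S need not be a Sylow p-subgroup of G). -/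
theorem result {Ω : Type u} [Group Ω] {S : Subgroup Ω} [Finite S] (p : ℕ) [Fact p.Prime] (hS : IsPGroup p S) (F : Cfsg.FusionSystem S) : ∃ (G : Type u) (_ : Group G) (_ : Finite G) (ι : ↥S →* G), F.IsRealizedBy ι := by
  obtain ⟨X, iX, fX, hgen, hst, x₀, hx₀⟩ := exists_stable_biset F
  refine ⟨rightPerm S X, inferInstance, inferInstance, leftHom S X, ?_, ?_⟩
  · intro a a' haa'
    have h1 : (a, (1 : S)) • x₀ = (a', (1 : S)) • x₀ :=
      congrArg (fun θ : rightPerm S X => (θ : Equiv.Perm X) x₀) haa'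
    have h2 : (a'⁻¹ * a, (1 : S)) ∈ stabilizer (S × S) x₀ := by
      rw [mem_stabilizer_iff]
      have : (a'⁻¹ * a, (1 : S)) = (a', (1 : S))⁻¹ * (a, (1 : S)) := by
        ext <;> simp
      rw [this, mul_smul, h1, inv_smul_smul]
    rw [hx₀] at h2
    have h3 := (mem_diagSub.1 h2).2
    have h4 : a'⁻¹ * a = 1 := Subtype.ext h3.symm
    exact (inv_mul_eq_one.1 h4).symm
  · intro P hP φ hφS
    constructor
    · intro hφ
      obtain ⟨θ, hθ, hθa⟩ := exists_perm_of_hom F X hst hP hφ hφS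
      refine ⟨⟨θ, hθ⟩, fun a => ?_⟩
      apply Subtype.ext
      apply Equiv.ext
      intro y
      show ((⟨φ a, hφS a⟩ : S), (1 : S)) • y = θ (((⟨a, hP a.2⟩ : S), (1 : S)) • θ⁻¹ y)
      rw [hθa]
      simp
    · rintro ⟨θ, hθ⟩
      have hstab : ∀ a : P, ((⟨φ a, hφS a⟩ : S), (⟨a, hP a.2⟩ : S))
          ∈ stabilizer (S × S) ((θ : Equiv.Perm X) x₀) := by
        intro a
        rw [mem_stabilizer_iff]
        have e1 : ((⟨φ a, hφS a⟩ : S), (1 : S)) • (θ : Equiv.Perm X) x₀
            = (θ : Equiv.Perm X) (((⟨a, hP a.2⟩ : S), (1 : S)) • x₀) := by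
          have := congrArg (fun τ : rightPerm S X => (τ : Equiv.Perm X) ((θ : Equiv.Perm X) x₀)) (hθ a)
          have h' : ((⟨φ a, hφS a⟩ : S), (1 : S)) • (θ : Equiv.Perm X) x₀
              = (θ : Equiv.Perm X) (((⟨a, hP a.2⟩ : S), (1 : S))
                • (θ : Equiv.Perm X)⁻¹ ((θ : Equiv.Perm X) x₀)) := this
          rw [h']
          simp
        have e2 : ((⟨a, hP a.2⟩ : S), (1 : S)) • x₀
            = ((1 : S), (⟨a, hP a.2⟩ : S)⁻¹) • x₀ := by
          have hmem : ((⟨a, hP a.2⟩ : S), (⟨a, hP a.2⟩ : S)) ∈ stabilizer (S × S) x₀ := by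
            rw [hx₀]; exact mem_diagSub.2 ⟨hP a.2, rfl⟩
          have h5 : ((⟨a, hP a.2⟩ : S), (1 : S))
              = ((1 : S), (⟨a, hP a.2⟩ : S)⁻¹) * ((⟨a, hP a.2⟩ : S), (⟨a, hP a.2⟩ : S)) := by
            ext <;> simp
          rw [h5, mul_smul, mem_stabilizer_iff.1 hmem]
        have e3 : ((⟨φ a, hφS a⟩ : S), (⟨a, hP a.2⟩ : S))
            = ((1 : S), (⟨a, hP a.2⟩ : S)) * ((⟨φ a, hφS a⟩ : S), (1 : S)) := by
          ext <;> simp
        have e4 : ((1 : S), (⟨a, hP a.2⟩ : S)) * ((1 : S), (⟨a, hP a.2⟩ : S)⁻¹) = 1 := by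
          ext <;> simp
        rw [e3, mul_smul, e1, e2, θ.2 _ x₀, smul_smul, e4, one_smul]
      obtain ⟨P₁, f, hf, hD⟩ := hgen ((θ : Equiv.Perm X) x₀)
      have hfa : ∀ a : P, φ a ∈ P₁ ∧ (a : Ω) = f (φ a) := fun a => (hD _).1 (hstab a)
      have hQ : φ.range ≤ P₁ := by
        rintro _ ⟨a, rfl⟩
        exact (hfa a).1
      have hfQ : Mor F φ.range f := hf.res hQ
      obtain ⟨g, hg, hgf⟩ := hfQ.exists_inv
      have himg : img φ.range f = P := by
        ext y
        rw [hfQ.mem_img]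
        constructor
        · rintro ⟨_, ⟨a, rfl⟩, rfl⟩
          rw [← (hfa a).2]; exact a.2
        · intro hy
          exact ⟨φ ⟨y, hy⟩, ⟨⟨y, hy⟩, rfl⟩, ((hfa ⟨y, hy⟩).2).symm⟩
      rw [himg] at hg
      refine hom_of_mor hg (fun x => ?_)
      have h6 := hgf (φ x) ⟨x, rfl⟩
      rw [← (hfa x).2] at h6
      exact h6.symm

end Cfsg.Agent.S5328
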