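import Mathlib
import Cfsg.Statements.S5330
import Cfsg.Agent.Lib.Helper88.FusAbelian

set_option autoImplicit false
open Cfsg Cfsg.Agent.Lib.Helper88

namespace Cfsg.Agent.S5330

/-- Let F be a saturated fusion system over a finite abelian p-group S. Then S is the internal direct product of the centre of the system and the focal subgroup: Z(F) ∩ foc(F) = 1 and Z(F)·foc(F) = S. -/
theorem result {Ω : Type*} [Group Ω] {S : Subgroup Ω} [Finite S] (p : ℕ) [Fact p.Prime] (hS : IsPGroup p S) (F : Cfsg.FusionSystem S) (hF : F.IsSaturated p) (hab : ∀ x ∈ S, ∀ y ∈ S, x * y = y * x) : F.center ⊓ F.focalSubgroup = ⊥ ∧ F.center ⊔ F.focalSubgroup = S := by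
  have hcomm : ∀ a b : S, a * b = b * a := fun a b => Subtype.ext (hab a a.2 b b.2)
  have hcop : (Nat.card (F.autGroup S)).Coprime (Nat.card S) := by
    obtain ⟨n, hn⟩ := IsPGroup.iff_card.mp hS
    rw [hn]
    apply Nat.Coprime.pow_right
    rw [Nat.coprime_comm]
    exact (Nat.Prime.coprime_iff_not_dvd Fact.out).mpr (abelian_aut_coprime hF hab)
  obtain ⟨h1, h2⟩ := coprime_fix_comm hcomm (F.autGroup S) hcop
  rw [abelian_center hF hab, abelian_focal hF hab]
  constructor
  · rw [← Subgroup.map_inf _ _ _ (Subgroup.subtype_injective S), h1, Subgroup.map_bot]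
  · rw [← Subgroup.map_sup, h2, ← MonoidHom.range_eq_map, Subgroup.range_subtype]

end Cfsg.Agent.S5330
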