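import Mathlib
import Cfsg.Statements.S5331
import Cfsg.Agent.Lib.Helper88.FusAbelian
import Cfsg.Agent.Lib.Helper88.OddAut

set_option autoImplicit false
open Cfsg Cfsg.Agent.Lib.Helper88

namespace Cfsg.Agent.S5331

/-- Let S be a finite abelian 2-group that is a direct product of cyclic groups of pairwise distinct orders 2^{a_1} < 2^{a_2} < ⋯ < 2^{a_n} (all a_i ≥ 1). Then every saturated fusion system over S is the inner one: its maps are exactly the conjugations by elements of S. -/
theorem result {Ω : Type*} [Group Ω] {S : Subgroup Ω} [Finite S] (n : ℕ) (a : Fin n → ℕ) (ha : StrictMono a) (ha1 : ∀ i, 1 ≤ a i) (e : ↥S ≃* Multiplicative ((i : Fin n) → ZMod (2 ^ a i))) (F : Cfsg.FusionSystem S) (hF : F.IsSaturated 2) (P : Subgroup Ω) : F.Hom P = (Cfsg.innerFusionSystem S).Hom P := by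
  have hab : ∀ x ∈ S, ∀ y ∈ S, x * y = y * x := by
    intro x hx y hy
    have h : (⟨x, hx⟩ : S) * ⟨y, hy⟩ = ⟨y, hy⟩ * ⟨x, hx⟩ := by
      apply e.injective
      rw [map_mul, map_mul, mul_comm]
    exact congrArg Subtype.val h
  have hcop : ¬ 2 ∣ Nat.card (F.autGroup S) := abelian_aut_coprime hF hab
  have htriv : ∀ α : MulAut S, α ∈ F.autGroup S → ∀ y : S, α y = y := by
    intro α hα
    have hmdvd : orderOf (⟨α, hα⟩ : F.autGroup S) ∣ Nat.card (F.autGroup S) :=
      orderOf_dvd_natCard _
    have hodd : Odd (orderOf (⟨α, hα⟩ : F.autGroup S)) := by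
      rw [← Nat.not_even_iff_odd, even_iff_two_dvd]
      exact fun h => hcop (dvd_trans h hmdvd)
    have hpow : α ^ orderOf (⟨α, hα⟩ : F.autGroup S) = 1 := by
      have h1 := pow_orderOf_eq_one (⟨α, hα⟩ : F.autGroup S)
      have h2 := congrArg Subtype.val h1
      simpa using h2
    let b : ((i : Fin n) → ZMod (2 ^ a i)) →+ ((i : Fin n) → ZMod (2 ^ a i)) :=
      AddMonoidHom.mk' (fun x => Multiplicative.toAdd (e (α (e.symm (Multiplicative.ofAdd x)))))
        (by intro x y; simp [map_mul])
    have hb : ∀ (j : ℕ) x, b^[j] x =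
        Multiplicative.toAdd (e ((α ^ j) (e.symm (Multiplicative.ofAdd x)))) := by
      intro j
      induction j with
      | zero => intro x; simp
      | succ j ih =>
        intro x
        rw [Function.iterate_succ_apply', ih, pow_succ']
        simp [b]
    have hbm : ∀ x, b^[orderOf (⟨α, hα⟩ : F.autGroup S)] x = x := by
      intro x; rw [hb, hpow]; simp
    have hall := odd_aut_trivial a ha ha1 b _ hodd hbm
    intro y
    have h1 := hall (Multiplicative.toAdd (e y))
    have h2 : e (α y) = e y := by simpa [b] using h1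
    exact e.injective h2
  ext φ
  constructor
  · intro hφ
    obtain ⟨α, hα, hαφ⟩ := abelian_hom_aut hF hab (mor_of_hom F hφ)
    have hPS : P ≤ S := (F.le_of_mem hφ).1
    refine ⟨hPS, 1, S.one_mem, fun x => ?_⟩
    have h1 := hαφ x x.2 (hPS x.2)
    rw [extFun_apply, htriv α hα] at h1
    rw [← h1]; simp
  · rintro ⟨hPS, g, hg, hφ⟩
    have h1 : φ = conjHom P g := MonoidHom.ext hφ
    rw [h1]; exact F.conj_mem hPS hg

end Cfsg.Agent.S5331
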