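import Cfsg.Statements.S5342
-- import your own Cfsg.Agent.* helpers here
import Cfsg.Agent.Lib.Helper85.ConsNormal

set_option autoImplicit false
open Cfsg

namespace Cfsg.Agent.S5342

/-- Let F be a constrained saturated fusion system over a finite p-group S. Then every subsystem of F that is subnormal in F (reached from F by a finite chain of successive normal subsystems) is constrained. -/
theorem result {Ω : Type*} [Group Ω] {S : Subgroup Ω} [Finite S] (p : ℕ) [Fact p.Prime] (hS : IsPGroup p S) (F : Cfsg.FusionSystem S) (hF : F.IsConstrained p) {T : Subgroup Ω} (E : Cfsg.FusionSystem T) (hE : E.IsSubnormalIn F p) : E.IsConstrained p := by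
  exact Cfsg.Agent.Lib.Helper85.ConsNormal.constrained_of_subnormal hE inferInstance inferInstance hS hF

end Cfsg.Agent.S5342
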