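import Cfsg.Statements.S5354
import Cfsg.Agent.Lib.Helper24.TranspPrim3

set_option autoImplicit false
open Cfsg

namespace Cfsg.Agent.S5354

open Cfsg.Agent.Lib.Helper24 in
/-- Let D be a conjugation-invariant generating set of 3-transpositions of the finite group G on which G acts primitively by conjugation, and suppose two different members of D commute (width at least 2). Then G has a quasisimple normal subgroup L of index at most 2 with the generalized Fitting subgroup of G equal to L times the centre, the commuting graph of D is connected, and for d in D the subgroup generated by the members of D commuting with d is a maximal D-subgroup: it is proper, and every subgroup generated by members of D that contains it is either it or G. -/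
theorem result {G : Type*} [Group G] [Finite G] {D : Set G} (hD : Cfsg.IsThreeTranspositionGroup D) (hprim : Cfsg.IsPrimitiveUnderConj D) (hw : ∃ a ∈ D, ∃ b ∈ D, a ≠ b ∧ Commute a b) : (∃ L : Subgroup G, L.Normal ∧ Cfsg.IsQuasisimple L ∧ L.index ≤ 2 ∧ Cfsg.generalizedFittingSubgroup G = L ⊔ Subgroup.center G) ∧ (Cfsg.commutingGraph D).Connected ∧ ∀ d ∈ D, Subgroup.closure {y : G | y ∈ D ∧ Commute d y} ≠ ⊤ ∧ ∀ H : Subgroup G, Cfsg.IsDSubgroup D H → Subgroup.closure {y : G | y ∈ D ∧ Commute d y} ≤ H → H = Subgroup.closure {y : G | y ∈ D ∧ Commute d y} ∨ H = ⊤ := by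
  have h : TC D := by
    refine ⟨TD.of_group hD, hD.2.2, hprim.1, ?_⟩
    intro h1
    have := hD.1.1 1 h1
    rw [orderOf_one] at this
    omega
  have hconn := h.td.connected_of_primitive hprim hw
  have h2 := h.pCore_two_le_center_of_primitive hprim
  have h3 := h.pCore_three_le_center_of_primitive hprim hw
  obtain ⟨L, hLn, hLc, -, hF⟩ := h.exists_component hprim.2.1 h2 h3
  refine ⟨⟨L, hLn, hLc.2, h.index_le_two_of_connected L hLc hconn, hF⟩, hconn, ?_⟩
  intro d hd
  refine ⟨?_, fun H hH hle => h.dsubgroup_maximal hprim hw hd H hH hle⟩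
  intro htop
  -- `d` would be central
  have hle : Subgroup.closure {y : G | y ∈ D ∧ Commute d y} ≤ Subgroup.centralizer ({d} : Set G) := by
    rw [Subgroup.closure_le]
    rintro y ⟨-, hc⟩
    rw [SetLike.mem_coe, Subgroup.mem_centralizer_iff]
    intro z hz
    rw [Set.mem_singleton_iff] at hz
    rw [hz]
    exact hc.eq
  rw [htop] at hle
  obtain ⟨a, ha, b, hb, hab⟩ := hprim.2.1
  have hcen : ∀ g : G, g * d * g⁻¹ = d := by
    intro g
    have := hle (Subgroup.mem_top g)
    rw [Subgroup.mem_centralizer_iff] at this
    rw [← this d rfl]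
    group
  obtain ⟨g₁, hg₁⟩ := h.cls d hd a ha
  obtain ⟨g₂, hg₂⟩ := h.cls d hd b hb
  apply hab
  rw [← hg₁, ← hg₂, hcen, hcen]

end Cfsg.Agent.S5354
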