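import Cfsg.Statements.S5361
import Cfsg.Agent.Lib.Helper24.TranspPrim2

set_option autoImplicit false
open Cfsg

namespace Cfsg.Agent.S5361

open Cfsg.Agent.Lib.Helper24 in
/-- Let D be a conjugacy class of 3-transpositions generating the finite group G, and suppose the centre of G is trivial and some two different members of D commute. Then the following are equivalent: (1) the commutator subgroup of G is simple (possibly of prime order); (2) G acts primitively on D by conjugation; (3) the largest normal 2-subgroup and the largest normal 3-subgroup of G are trivial and the commuting graph of D is connected. -/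
theorem result {G : Type*} [Group G] [Finite G] {D : Set G} (hD : Cfsg.IsThreeTranspositionClass D) (hZ : Subgroup.center G = ⊥) (hw : ∃ a ∈ D, ∃ b ∈ D, a ≠ b ∧ Commute a b) : (IsSimpleGroup (commutator G) ↔ Cfsg.IsPrimitiveUnderConj D) ∧ (Cfsg.IsPrimitiveUnderConj D ↔ (Cfsg.pCore 2 G = ⊥ ∧ Cfsg.pCore 3 G = ⊥ ∧ (Cfsg.commutingGraph D).Connected)) := by
  have h : TC D := TC.of_class hD
  have hD2 : ∃ a ∈ D, ∃ b ∈ D, a ≠ b := by
    obtain ⟨a, ha, b, hb, hab, -⟩ := hw
    exact ⟨a, ha, b, hb, hab⟩
  refine ⟨⟨fun hs => h.primitive_of_simple_commutator hD2 hZ hs,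
    fun hprim => h.simple_commutator_of_primitive hZ hw hprim⟩, ?_, ?_⟩
  · intro hprim
    have h2 := h.pCore_two_le_center_of_primitive hprim
    have h3 := h.pCore_three_le_center_of_primitive hprim hw
    rw [hZ] at h2 h3
    exact ⟨eq_bot_iff.mpr h2, eq_bot_iff.mpr h3, h.td.connected_of_primitive hprim hw⟩
  · rintro ⟨h2, h3, hconn⟩
    exact h.primitive_of_cores_of_connected hD2 (by rw [h2]; exact bot_le) (by rw [h3]; exact bot_le) hconn

end Cfsg.Agent.S5361
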