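import Cfsg.Statements.S5521
import Cfsg.Agent.Lib.Helper6.M12

set_option autoImplicit false
open Cfsg

namespace Cfsg.Agent.S5521

open Cfsg.Agent.Lib.Helper6.Golay Cfsg.Agent.Lib.Helper6.M24 Cfsg.Agent.Lib.Helper6.M12

/-- some point is moved by the table -/
def anyMoved (t : List ℕ) : Bool := (List.range 24).any (fun m => not (Nat.beq (t.getD m 0) m))

/-- the point `j ≥ 5` is fixed by a non-identity element fixing `0,..,4` -/
def sixOK (j : ℕ) : Bool :=
  or (Nat.blt j 5) (L48.any (fun t => and (Nat.beq (t.getD j 0) j) (anyMoved t)))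

theorem six_check : chk sixOK 24 = true := by decide +kernel

theorem exists_fix_sixth {j : ℕ} (hj : j < 24) (hj5 : 5 ≤ j) :
    ∃ τ ∈ fixG 31, τ ≠ 1 ∧ τ (pt j) = pt j := by
  have h := chk_spec six_check j hj
  unfold sixOK at h
  rw [Bool.or_eq_true] at h
  rcases h with h | h
  · exfalso
    have : j < 5 := by simpa [Nat.blt] using h
    omega
  · rw [List.any_eq_true] at h
    obtain ⟨t, ht, h2⟩ := h
    rw [Bool.and_eq_true] at h2
    have hgood := List.all_eq_true.1 L48_good t ht
    have hv := goodTab_valid hgood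
    have hmem := goodTab_mem hgood
    rw [tabPermD_eq hv] at hmem
    refine ⟨tabPerm t hv, hmem, ?_, ?_⟩
    · intro h1
      unfold anyMoved at h2
      obtain ⟨m, hm, hm2⟩ := List.any_eq_true.1 h2.2
      have hm24 : m < 24 := List.mem_range.1 hm
      have e : idx (tabPerm t hv (pt m)) = idx ((1 : Equiv.Perm GolayPt) (pt m)) := by rw [h1]
      rw [idx_tabPerm, idx_pt hm24] at e
      have e' : t.getD m 0 = m := by rw [e]; exact idx_pt hm24
      rw [e'] at hm2
      simp at hm2
    · rw [tabPerm_pt t hv hj, Nat.eq_of_beq_eq_true h2.1]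

/-- The Mathieu group M₂₄ in its natural action on the 24 coordinate positions of the binary Golay code has minimal base size exactly 7: every set of at most 6 positions is fixed pointwise by some non-identity element of M₂₄, while some set of 7 positions is fixed pointwise only by the identity. -/
theorem result :
    (∀ B : Finset Cfsg.GolayPt, B.card ≤ 6 → ∃ g ∈ Cfsg.M24, g ≠ 1 ∧ ∀ b ∈ B, g b = b) ∧
    (∃ B : Finset Cfsg.GolayPt, B.card = 7 ∧ ∀ g ∈ Cfsg.M24, (∀ b ∈ B, g b = b) → g = 1) := by
  constructor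
  · intro B hB
    obtain ⟨B', hBB', hB'⟩ := Finset.exists_superset_card_eq hB
      (by rw [card_golayPt]; norm_num)
    have hne : B'.Nonempty := by
      rw [← Finset.card_pos, hB']; norm_num
    obtain ⟨b6, hb6⟩ := hne
    have h5 : (B'.erase b6).card = 5 := by rw [Finset.card_erase_of_mem hb6, hB']
    obtain ⟨x, hx⟩ := Cfsg.Agent.Lib.Helper7.exists_embedding_of_card (n := 5) (s := B'.erase b6)
      (by rw [h5])
    have hrange : ∀ b ∈ B'.erase b6, ∃ i, x i = b := by
      have hsub : Finset.univ.map x ⊆ B'.erase b6 := by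
        intro b hb
        obtain ⟨i, -, rfl⟩ := Finset.mem_map.1 hb
        exact hx i
      have heq := Finset.eq_of_subset_of_card_le hsub
        (by rw [Finset.card_map, Finset.card_univ, Fintype.card_fin, h5])
      intro b hb
      rw [← heq] at hb
      obtain ⟨i, -, e⟩ := Finset.mem_map.1 hb
      exact ⟨i, e⟩
    obtain ⟨h, hh, hhx⟩ := Cfsg.Agent.Lib.Helper7.M24_exists_smul_eq (le_refl 5) x base5
    have hq5 : 5 ≤ idx (h b6) := by
      by_contra hc
      have hlt : idx (h b6) < 5 := by omega
      have e : h b6 = h (x ⟨idx (h b6), hlt⟩) := by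
        rw [hhx]
        show h b6 = pt (idx (h b6))
        rw [pt_idx]
      have e2 := h.injective e
      have := hx ⟨idx (h b6), hlt⟩
      rw [← e2] at this
      exact (Finset.notMem_erase b6 B') this
    obtain ⟨τ, hτ, hτ1, hτq⟩ := exists_fix_sixth (idx_lt (h b6)) hq5
    rw [pt_idx] at hτq
    refine ⟨h⁻¹ * τ * h, Subgroup.mul_mem _ (Subgroup.mul_mem _ (Subgroup.inv_mem _ hh) hτ.1) hh,
      ?_, ?_⟩
    · intro h1
      apply hτ1
      have : τ = h * (h⁻¹ * τ * h) * h⁻¹ := by group
      rw [this, h1]; group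
    · intro b hb
      show h⁻¹ (τ (h b)) = b
      by_cases hbb : b = b6
      · rw [hbb, hτq]; simp
      · obtain ⟨i, rfl⟩ := hrange b (Finset.mem_erase.2 ⟨hbb, hBB' hb⟩)
        rw [hhx]
        have : τ (base5 i) = base5 i := by
          apply hτ.2
          show (31 : ℕ).testBit (idx (pt i.val)) = true
          rw [idx_pt (by omega)]
          exact (by decide : ∀ i : Fin 5, (31 : ℕ).testBit i.val = true) i
        rw [this, ← hhx]; simp
  · refine ⟨suppMask 191, ?_, ?_⟩
    · rw [card_suppMask, ← pc24_eq]; decide +kernel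
    · intro g hg hfix
      have hmem : g ∈ fixG 191 := ⟨hg, fun p hp => hfix p (mem_suppMask.2 hp)⟩
      rw [fixG_base] at hmem
      exact Subgroup.mem_bot.1 hmem

end Cfsg.Agent.S5521
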