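import Cfsg.Statements.S5529
import Cfsg.Agent.Lib.Helper26.M23Ree
import Cfsg.Agent.Lib.Helper26.M23Pairs

set_option autoImplicit false
open Cfsg

namespace Cfsg.Agent.S5529

/-- Generation of the Mathieu group M₂₃ (the stabiliser of a point in the Mathieu group M₂₄ acting on 24 points) by triples of prime orders. Let p ≤ q ≤ r be primes dividing |M₂₃| = 10200960 = 2⁷·3²·5·7·11·23, not both p and q equal to 2. Then M₂₃ contains elements x, y, z of orders p, q, r with xyz = 1 and ⟨x, y⟩ = M₂₃ if and only if (p, q, r) is none of: (2, 3, r) for any r, (2, 5, 5), (2, 5, 7), (3, 3, 3), (3, 3, 5), (3, 3, 7). -/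
theorem result (p q r : ℕ) (hp : p.Prime) (hq : q.Prime)
    (hr : r.Prime) (hpq : p ≤ q) (hqr : q ≤ r) (hp2 : ¬ (p = 2 ∧ q = 2))
    (hdvd : p ∣ 10200960 ∧ q ∣ 10200960 ∧ r ∣ 10200960) :
    (∃ x y z : Cfsg.Spor.M23, orderOf x = p ∧ orderOf y = q ∧ orderOf z = r ∧ x * y * z = 1 ∧
        Subgroup.closure {x, y} = ⊤) ↔
      ¬ ((p = 2 ∧ q = 3) ∨ (p = 2 ∧ q = 5 ∧ r = 5) ∨ (p = 2 ∧ q = 5 ∧ r = 7) ∨ (p = 3 ∧ q = 3 ∧ r ≤ 7)) := by
  constructor
  · rintro ⟨x, y, z, hx, hy, hz, hxyz, hgen⟩ hbad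
    have hx' : orderOf (x : Equiv.Perm GolayPt) = p := by
      rw [Subgroup.orderOf_coe]
      exact hx
    have hy' : orderOf (y : Equiv.Perm GolayPt) = q := by
      rw [Subgroup.orderOf_coe]
      exact hy
    have hz' : orderOf (z : Equiv.Perm GolayPt) = r := by
      rw [Subgroup.orderOf_coe]
      exact hz
    have hxyz' : (x : Equiv.Perm GolayPt) * y * z = 1 := congrArg Subtype.val hxyz
    have hgen' : Subgroup.closure ({(x : Equiv.Perm GolayPt), (y : Equiv.Perm GolayPt)} :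
        Set (Equiv.Perm GolayPt)) = Cfsg.Agent.Lib.Helper26.M23P := by
      have h1 := congrArg (Subgroup.map (Subgroup.subtype Cfsg.Spor.M23)) hgen
      rw [MonoidHom.map_closure, ← MonoidHom.range_eq_map, Subgroup.range_subtype,
        Set.image_pair] at h1
      exact h1
    exact Cfsg.Agent.Lib.Helper26.M23_neg p q r hr hqr _ _ _ hx' hy' hz' hxyz' hgen' hbad
  · intro hbad
    exact Cfsg.Agent.Lib.Helper26.M23_pos p q r
      (Cfsg.Agent.Lib.Helper26.prime_cases_M23 hp hdvd.1)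
      (Cfsg.Agent.Lib.Helper26.prime_cases_M23 hq hdvd.2.1)
      (Cfsg.Agent.Lib.Helper26.prime_cases_M23 hr hdvd.2.2) hpq hqr hp2 hbad

end Cfsg.Agent.S5529
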