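import Cfsg.Statements.S5562

set_option autoImplicit false
open Cfsg

namespace Cfsg.Agent.S5562

theorem sq_inj_of_odd {G : Type*} [Group G] (s t : G) (hs : Odd (orderOf s)) (ht : Odd (orderOf t))
    (h : s ^ 2 = t ^ 2) : s = t := by
  have h1 : orderOf (s ^ 2) = orderOf s := Nat.Coprime.orderOf_pow (Odd.coprime_two_right hs)
  have h2 : orderOf (t ^ 2) = orderOf t := Nat.Coprime.orderOf_pow (Odd.coprime_two_right ht)
  have h3 : orderOf s = orderOf t := by rw [← h1, ← h2, h]
  obtain ⟨j, hj⟩ := hs
  have e1 : s = (s ^ 2) ^ (j + 1) := by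
    rw [← pow_mul, show 2 * (j + 1) = orderOf s + 1 by omega, pow_succ, pow_orderOf_eq_one, one_mul]
  have e2 : t = (t ^ 2) ^ (j + 1) := by
    rw [← pow_mul, show 2 * (j + 1) = orderOf t + 1 by omega, pow_succ, pow_orderOf_eq_one, one_mul]
  rw [e1, e2, h]

/-- Let G be a finite group, d an involution of G whose conjugates pairwise have products of odd order, and x any involution of G. Then the conjugacy class of d is the disjoint union, over the conjugates a of d commuting with x, of the sets of conjugates of d commuting with ax: every conjugate of d commutes with ax for exactly one conjugate a of d that commutes with x. -/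
theorem result {G : Type*} [Group G] [Finite G] (d : G) (hd : orderOf d = 2)
    (hodd : ∀ a ∈ conjugatesOf d, ∀ b ∈ conjugatesOf d, Odd (orderOf (a * b)))
    (x : G) (hx : orderOf x = 2) :
    ∀ e ∈ conjugatesOf d,
      ∃! a : G, a ∈ conjugatesOf d ∧ Commute a x ∧ Commute e (a * x) := by
  intro e he
  have hdd : d * d = 1 := by
    have := pow_orderOf_eq_one d
    rwa [hd, pow_two] at this
  have hxx : x * x = 1 := by
    have := pow_orderOf_eq_one x
    rwa [hx, pow_two] at this
  have hxinv : x⁻¹ = x := inv_eq_of_mul_eq_one_left hxx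
  -- conjugates of d are involutions, and the class is closed under conjugation
  have hsq : ∀ u ∈ conjugatesOf d, u * u = 1 := by
    intro u hu
    obtain ⟨c, rfl⟩ := isConj_iff.mp (show IsConj d u from hu)
    calc c * d * c⁻¹ * (c * d * c⁻¹) = c * (d * d) * c⁻¹ := by group
      _ = 1 := by rw [hdd]; group
  have hcl : ∀ u ∈ conjugatesOf d, ∀ c : G, c * u * c⁻¹ ∈ conjugatesOf d := by
    intro u hu c
    exact (show IsConj d u from hu).trans (isConj_iff.mpr ⟨c, rfl⟩)
  have hee := hsq e he
  have heinv : e⁻¹ = e := inv_eq_of_mul_eq_one_left hee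
  set f := x * e * x with hf
  have hfD : f ∈ conjugatesOf d := by
    have := hcl e he x
    rwa [hxinv] at this
  have hff := hsq f hfD
  have hfinv : f⁻¹ = f := inv_eq_of_mul_eq_one_left hff
  have hxfx : x * f * x = e := by
    rw [hf]
    calc x * (x * e * x) * x = (x * x) * e * (x * x) := by group
      _ = e := by rw [hxx]; group
  set r := e * f with hr
  have hrodd : Odd (orderOf r) := hodd e he f hfD
  obtain ⟨k', hk'⟩ := hrodd
  set k := k' + 1 with hk
  have hr2k : r ^ (2 * k) = r := by
    rw [show 2 * k = orderOf r + 1 by omega, pow_succ, pow_orderOf_eq_one, one_mul]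
  have hrkk : r ^ k * r ^ k = r := by rw [← pow_add, ← two_mul, hr2k]
  -- e inverts r
  have hinv1 : e * r * e = r⁻¹ := by
    rw [hr, mul_inv_rev, hfinv, heinv]
    calc e * (e * f) * e = (e * e) * f * e := by group
      _ = f * e := by rw [hee, one_mul]
  have hinvj : ∀ j : ℕ, e * r ^ j * e = (r ^ j)⁻¹ := by
    intro j
    have := conj_pow (a := e) (b := r) (i := j)
    rw [heinv, hinv1, inv_pow] at this
    exact this.symm
  have hef : e * r = f := by
    rw [hr, ← mul_assoc, hee, one_mul]
  set a := e * r ^ k with ha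
  have haa : a * a = 1 := by
    calc a * a = (e * r ^ k * e) * r ^ k := by rw [ha]; group
      _ = 1 := by rw [hinvj k]; group
  have hainv : a⁻¹ = a := inv_eq_of_mul_eq_one_left haa
  have haD : a ∈ conjugatesOf d := by
    have h1 := hcl e he ((r ^ (k * k))⁻¹)
    have h2 : (r ^ (k * k))⁻¹ * e * ((r ^ (k * k))⁻¹)⁻¹ = a := by
      rw [inv_inv]
      have h3 : e * (r ^ (k * k))⁻¹ * e = r ^ (k * k) := by
        have := hinvj (k * k)
        calc e * (r ^ (k * k))⁻¹ * e = (e * r ^ (k * k) * e)⁻¹ := by
              rw [mul_inv_rev, mul_inv_rev, heinv]; group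
          _ = r ^ (k * k) := by rw [this, inv_inv]
      calc (r ^ (k * k))⁻¹ * e * r ^ (k * k) = (e * e) * (r ^ (k * k))⁻¹ * e * r ^ (k * k) := by
            rw [hee, one_mul]
        _ = e * (e * (r ^ (k * k))⁻¹ * e) * r ^ (k * k) := by group
        _ = e * (r ^ (k * k) * r ^ (k * k)) := by rw [h3]; group
        _ = e * r ^ k := by
            rw [← pow_add, show k * k + k * k = (2 * k) * k by ring, pow_mul, hr2k]
    rw [h2] at h1
    exact h1
  have haea : a * e * a = f := by
    calc a * e * a = e * r ^ k * (e * e) * r ^ k := by rw [ha]; group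
      _ = e * (r ^ k * r ^ k) := by rw [hee]; group
      _ = f := by rw [hrkk, hef]
  have hxrx : x * r * x = r⁻¹ := by
    rw [hr, mul_inv_rev, hfinv, heinv]
    calc x * (e * f) * x = (x * e * x) * (x⁻¹ * f * x) := by group
      _ = f * e := by rw [hxinv, hxfx]
  have hax : Commute a x := by
    have h1 : x * a * x = a := by
      have h2 : x * r ^ k * x = (r ^ k)⁻¹ := by
        have := conj_pow (a := x) (b := r) (i := k)
        rw [hxinv, hxrx, inv_pow] at this
        exact this.symm
      calc x * a * x = (x * e * x) * (x⁻¹ * r ^ k * x) := by rw [ha]; group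
        _ = f * (r ^ k)⁻¹ := by rw [hxinv, h2]
        _ = e * (r ^ k * r ^ k) * (r ^ k)⁻¹ := by rw [hrkk, hef]
        _ = a := by rw [ha]; group
    show a * x = x * a
    calc a * x = (x * a * x) * x := by rw [h1]
      _ = x * a * (x * x) := by group
      _ = x * a := by rw [hxx, mul_one]
  have hea : e * a = a * f := by
    calc e * a = (a * a) * e * a := by rw [haa, one_mul]
      _ = a * (a * e * a) := by group
      _ = a * f := by rw [haea]
  have hcomm2 : Commute e (a * x) := by
    show e * (a * x) = a * x * e
    calc e * (a * x) = (e * a) * x := by group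
      _ = a * (x * e * x) * x := by rw [hea]
      _ = a * x * e * (x * x) := by group
      _ = a * x * e := by rw [hxx, mul_one]
  refine ⟨a, ⟨haD, hax, hcomm2⟩, ?_⟩
  rintro a' ⟨ha'D, ha'x, ha'e⟩
  have ha'a' := hsq a' ha'D
  have h1 : e * a' = a' * f := by
    have h2 : e * (a' * x) = a' * x * e := ha'e
    calc e * a' = e * (a' * x) * x⁻¹ := by group
      _ = a' * x * e * x := by rw [h2, hxinv]
      _ = a' * f := by rw [hf]; group
  have hs' : (e * a') ^ 2 = r := by
    rw [pow_two]
    calc e * a' * (e * a') = e * a' * (a' * f) := by rw [h1]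
      _ = e * (a' * a') * f := by group
      _ = r := by rw [ha'a', mul_one]
  have hs : (e * a) ^ 2 = r := by
    rw [pow_two]
    calc e * a * (e * a) = e * a * (a * f) := by rw [hea]
      _ = e * (a * a) * f := by group
      _ = r := by rw [haa, mul_one]
  have := sq_inj_of_odd (e * a') (e * a) (hodd e he a' ha'D) (hodd e he a haD) (hs'.trans hs.symm)
  exact mul_left_cancel this

end Cfsg.Agent.S5562
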