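import Cfsg.Statements.S5596
import Cfsg.Agent.Lib.Helper93.Dual
import Cfsg.Agent.Lib.Helper93.GLgen

set_option autoImplicit false
open Cfsg

namespace Cfsg.Agent.S5596

/-- Setting: `z` is an involution of the finite group `G`; for each element `x`, `Q x` is the largest normal 2-subgroup of the centralizer of `x`; `Q z` is extraspecial and contains its own centralizer in `G`. A subgroup `U` is singular when it is elementary abelian, every non-identity element of `U` is conjugate to `z`, and any two non-identity elements `u`, `v` of `U` are orthogonal (`v ∈ Q u`). Write `QU` for the intersection of the `Q u` and `LU` for the join of the `Q u` over the non-identity `u` in `U`. If `U` is singular of order `2 ^ n` with `n ≥ 2`, then `U ≤ QU ≤ LU`, `LU` normalizes `U`, and `LU` induces on `U` its full automorphism group (the general linear group of dimension `n` over the field with two elements): every automorphism of `U` is conjugation by some element of `LU`. -/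
theorem result {G : Type*} [Group G] [Finite G]
    (Q : G → Subgroup G)
    (hQ : ∀ x : G, Q x = (Cfsg.pCore 2 ↥(Subgroup.centralizer ({x} : Set G))).map (Subgroup.centralizer ({x} : Set G)).subtype)
    (z : G) (hz : orderOf z = 2) (hE : Cfsg.IsExtraspecial 2 ↥(Q z))
    (hC : Subgroup.centralizer ((Q z : Subgroup G) : Set G) ≤ Q z)
    (U : Subgroup G) (hU2 : ∀ u ∈ U, u * u = 1)
    (hS : ∀ u ∈ U, u ≠ 1 → ∃ g : G, g * z * g⁻¹ = u)
    (hO : ∀ u ∈ U, ∀ v ∈ U, u ≠ 1 → v ≠ 1 → v ∈ Q u)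
    (QU LU : Subgroup G) (hQU : QU = ⨅ u ∈ ((U : Set G) \ {1}), Q u) (hLU : LU = ⨆ u ∈ ((U : Set G) \ {1}), Q u)
    (n : ℕ) (hn : 2 ≤ n) (hcard : Nat.card ↥U = 2 ^ n) :
    U ≤ QU ∧ QU ≤ LU ∧ LU ≤ Subgroup.normalizer (U : Set G) ∧
      ∀ φ : ↥U ≃* ↥U, ∃ g ∈ LU, ∀ u : ↥U, g * (u : G) * g⁻¹ = ((φ u : ↥U) : G) := by
  classical
  have hQ' : Q = Cfsg.Agent.Lib.Helper93.coreQ := funext hQ
  subst hQ'
  have hz' := Cfsg.Agent.Lib.Helper93.ES_of_extraspecial z hz hE hC
  have hES : ∀ u ∈ U, u ≠ 1 →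
      Cfsg.Agent.Lib.Helper93.ES (Cfsg.Agent.Lib.Helper93.coreQ u) u := by
    intro u hu hu1
    obtain ⟨g, rfl⟩ := hS u hu hu1
    exact hz'.conj g
  have hUQ : ∀ u ∈ U, u ≠ 1 → U ≤ Cfsg.Agent.Lib.Helper93.coreQ u := by
    intro u hu hu1 v hv
    by_cases hv1 : v = 1
    · rw [hv1]; exact one_mem _
    · exact hO u hu v hv hu1 hv1
  have hQUle : ∀ u ∈ U, u ≠ 1 → QU ≤ Cfsg.Agent.Lib.Helper93.coreQ u := by
    intro u hu hu1
    rw [hQU]
    exact iInf₂_le u ⟨hu, hu1⟩
  have hLUge : ∀ u ∈ U, u ≠ 1 → Cfsg.Agent.Lib.Helper93.coreQ u ≤ LU := by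
    intro u hu hu1
    rw [hLU]
    exact le_iSup₂ (f := fun u (_ : u ∈ ((U : Set G) \ {1})) => Cfsg.Agent.Lib.Helper93.coreQ u)
      u ⟨hu, hu1⟩
  have hle : LU ≤ Cfsg.Agent.Lib.Helper93.commSub U QU := by
    rw [hLU]
    apply iSup₂_le
    intro u hu
    exact Cfsg.Agent.Lib.Helper93.coreQ_le_commSub hu.1 (hES u hu.1 hu.2) (hUQ u hu.1 hu.2)
      (hQUle u hu.1 hu.2)
  have hex : ∃ u0 ∈ U, u0 ≠ 1 := by
    by_contra hcon
    push Not at hcon
    have h1 : Nat.card ↥U = 1 := by
      rw [Nat.card_eq_one_iff_unique]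
      refine ⟨⟨fun a b => ?_⟩, ⟨1⟩⟩
      apply Subtype.ext
      rw [hcon a a.2, hcon b b.2]
    rw [hcard] at h1
    have h2 : 2 ^ 2 ≤ 2 ^ n := Nat.pow_le_pow_right (by norm_num) hn
    omega
  obtain ⟨u0, hu0, hu01⟩ := hex
  refine ⟨?_, ?_, ?_, ?_⟩
  · rw [hQU]
    exact le_iInf₂ (fun u hu => hUQ u hu.1 hu.2)
  · exact (hQUle u0 hu0 hu01).trans (hLUge u0 hu0 hu01)
  · intro g hg
    exact (hle hg).1
  · intro φ
    have hcomm : ∀ x y : ↥U, x * y = y * x := by
      intro x y
      have hx : x⁻¹ = x := Cfsg.Agent.Lib.Helper93.inv_of_sq (Subtype.ext (hU2 x x.2))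
      have hy : y⁻¹ = y := Cfsg.Agent.Lib.Helper93.inv_of_sq (Subtype.ext (hU2 y y.2))
      have hxy : (x * y)⁻¹ = x * y :=
        Cfsg.Agent.Lib.Helper93.inv_of_sq (Subtype.ext (hU2 (x * y) (x * y).2))
      calc x * y = (x * y)⁻¹ := hxy.symm
        _ = y⁻¹ * x⁻¹ := mul_inv_rev x y
        _ = y * x := by rw [hx, hy]
    let _ : CommGroup ↥U := { (inferInstance : Group ↥U) with mul_comm := hcomm }
    have hA : ∀ a : ↥U, a * a = 1 := fun a => Subtype.ext (hU2 a a.2)
    let Γ : Submonoid (Monoid.End ↥U) :=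
      { carrier := {f | ∃ g ∈ LU, ∀ u : ↥U, g * (u : G) * g⁻¹ = ((f u : ↥U) : G)}
        one_mem' := ⟨1, one_mem _, fun u => by simp⟩
        mul_mem' := by
          rintro f1 f2 ⟨g1, hg1, h1⟩ ⟨g2, hg2, h2⟩
          refine ⟨g1 * g2, mul_mem hg1 hg2, fun u => ?_⟩
          have e : g1 * g2 * (u : G) * (g1 * g2)⁻¹ = g1 * (g2 * (u : G) * g2⁻¹) * g1⁻¹ := by
            group
          rw [e, h2, h1]
          rfl }
    have hφ : φ.toMonoidHom ∈ Γ := by
      refine Cfsg.Agent.Lib.Helper93.aut_mem_of_transvections hA Γ ?_ φ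
      intro a ha1 S x hx
      have ha1' : (a : G) ≠ 1 := fun h => ha1 (Subtype.ext h)
      have ESa := hES a a.2 ha1'
      have hx' : (x : G) ∉ Subgroup.closure
          (insert (a : G) ((S.image Subtype.val : Finset G) : Set G)) := by
        intro hmem
        apply hx
        have e : insert (a : G) ((S.image Subtype.val : Finset G) : Set G) =
            U.subtype '' (insert a (S : Set ↥U)) := by
          ext t
          simp
          exact or_congr eq_comm Iff.rfl
        rw [e, ← MonoidHom.map_closure] at hmem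
        obtain ⟨y, hy, hyx⟩ := hmem
        have hyx' : y = x := Subtype.ext hyx
        rwa [← hyx']
      obtain ⟨g, hg, hgS, hgx⟩ := Cfsg.Agent.Lib.Helper93.dual_exists ESa (S.image Subtype.val)
        (fun s hs => by
          obtain ⟨s0, _, rfl⟩ := Finset.mem_image.mp hs
          exact hUQ a a.2 ha1' s0.2) (x : G) (hUQ a a.2 ha1' x.2) hx'
      have hgLU : g ∈ LU := hLUge a a.2 ha1' hg
      have hgN := (hle hgLU).1
      refine ⟨((MulAut.conj g).toMonoidHom.comp U.subtype).codRestrict U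
        (fun u => (Subgroup.mem_normalizer_iff.mp hgN u).mp u.2), ⟨g, hgLU, fun u => rfl⟩, ?_, ?_⟩
      · intro s hs
        apply Subtype.ext
        show g * (s : G) * g⁻¹ = s
        have := hgS (s : G) (Finset.mem_image_of_mem _ hs)
        rw [this]
        group
      · apply Subtype.ext
        show g * (x : G) * g⁻¹ = (a : G) * (x : G)
        rcases ESa.conj_mem_pair hg (hUQ a a.2 ha1' x.2) with e | e
        · exfalso
          apply hgx
          calc g * (x : G) = (g * (x : G) * g⁻¹) * g := by group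
            _ = (x : G) * g := by rw [e]
        · exact e
    obtain ⟨g, hg, hgφ⟩ := hφ
    exact ⟨g, hg, hgφ⟩

end Cfsg.Agent.S5596
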