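import Cfsg.Statements.S5597
import Cfsg.Agent.Lib.Helper93.Dual

set_option autoImplicit false
open Cfsg

namespace Cfsg.Agent.S5597

/-- Setting: `z` is an involution of the finite group `G`; for each element `x`, `Q x` is the largest normal 2-subgroup of the centralizer of `x`; `Q z` is extraspecial and contains its own centralizer in `G`. A subgroup `U` is singular when it is elementary abelian, every non-identity element of `U` is conjugate to `z`, and any two non-identity elements `u`, `v` of `U` are orthogonal (`v ∈ Q u`). Write `QU` for the intersection of the `Q u` and `LU` for the join of the `Q u` over the non-identity `u` in `U`. If `U` is a non-trivial singular subgroup, then `LU` acts trivially on `QU / U` (every commutator of an element of `LU` with an element of `QU` lies in `U`), and for every `x` in `QU` outside `U` the centralizer of `U` in `LU` permutes the coset `x U` transitively: each `x u` with `u ∈ U` is a conjugate of `x` by an element of `LU` centralizing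 `U`. -/
theorem result {G : Type*} [Group G] [Finite G]
    (Q : G → Subgroup G)
    (hQ : ∀ x : G, Q x = (Cfsg.pCore 2 ↥(Subgroup.centralizer ({x} : Set G))).map (Subgroup.centralizer ({x} : Set G)).subtype)
    (z : G) (hz : orderOf z = 2) (hE : Cfsg.IsExtraspecial 2 ↥(Q z))
    (hC : Subgroup.centralizer ((Q z : Subgroup G) : Set G) ≤ Q z)
    (U : Subgroup G) (hU2 : ∀ u ∈ U, u * u = 1)
    (hS : ∀ u ∈ U, u ≠ 1 → ∃ g : G, g * z * g⁻¹ = u)
    (hO : ∀ u ∈ U, ∀ v ∈ U, u ≠ 1 → v ≠ 1 → v ∈ Q u)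
    (QU LU : Subgroup G) (hQU : QU = ⨅ u ∈ ((U : Set G) \ {1}), Q u) (hLU : LU = ⨆ u ∈ ((U : Set G) \ {1}), Q u)
    (hU : U ≠ ⊥) :
    (∀ g ∈ LU, ∀ x ∈ QU, g * x * g⁻¹ * x⁻¹ ∈ U) ∧
      ∀ x ∈ QU, x ∉ U → ∀ u ∈ U, ∃ g ∈ LU ⊓ Subgroup.centralizer (U : Set G), g * x * g⁻¹ = x * u := by
  have hQ' : Q = Cfsg.Agent.Lib.Helper93.coreQ := funext hQ
  subst hQ'
  have hz' := Cfsg.Agent.Lib.Helper93.ES_of_extraspecial z hz hE hC
  have hES : ∀ u ∈ U, u ≠ 1 →
      Cfsg.Agent.Lib.Helper93.ES (Cfsg.Agent.Lib.Helper93.coreQ u) u := by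
    intro u hu hu1
    obtain ⟨g, rfl⟩ := hS u hu hu1
    exact hz'.conj g
  have hUQ : ∀ u ∈ U, u ≠ 1 → U ≤ Cfsg.Agent.Lib.Helper93.coreQ u := by
    intro u hu hu1 v hv
    by_cases hv1 : v = 1
    · rw [hv1]; exact one_mem _
    · exact hO u hu v hv hu1 hv1
  have hQUle : ∀ u ∈ U, u ≠ 1 → QU ≤ Cfsg.Agent.Lib.Helper93.coreQ u := by
    intro u hu hu1
    rw [hQU]
    exact iInf₂_le u ⟨hu, hu1⟩
  have hLUge : ∀ u ∈ U, u ≠ 1 → Cfsg.Agent.Lib.Helper93.coreQ u ≤ LU := by
    intro u hu hu1
    rw [hLU]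
    exact le_iSup₂ (f := fun u (_ : u ∈ ((U : Set G) \ {1})) => Cfsg.Agent.Lib.Helper93.coreQ u)
      u ⟨hu, hu1⟩
  constructor
  · have hle : LU ≤ Cfsg.Agent.Lib.Helper93.commSub U QU := by
      rw [hLU]
      apply iSup₂_le
      intro u hu
      exact Cfsg.Agent.Lib.Helper93.coreQ_le_commSub hu.1 (hES u hu.1 hu.2) (hUQ u hu.1 hu.2)
        (hQUle u hu.1 hu.2)
    intro g hg x hx
    exact (hle hg).2 x hx
  · intro x hx hxU u hu
    by_cases hu1 : u = 1
    · refine ⟨1, one_mem _, ?_⟩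
      rw [hu1]; simp
    · have ha := hES u hu hu1
      have hxQ : x ∈ Cfsg.Agent.Lib.Helper93.coreQ u := hQUle u hu hu1 hx
      have hfin : (U : Set G).Finite := Set.toFinite _
      have hcl : Subgroup.closure (insert u ((hfin.toFinset : Finset G) : Set G)) = U := by
        rw [Set.Finite.coe_toFinset, Set.insert_eq_of_mem (by exact hu), Subgroup.closure_eq]
      obtain ⟨g, hg, hgS, hgx⟩ := Cfsg.Agent.Lib.Helper93.dual_exists ha hfin.toFinset
        (fun s hs => hUQ u hu hu1 ((Set.Finite.mem_toFinset hfin).mp hs)) x hxQ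
        (by rw [hcl]; exact hxU)
      refine ⟨g, Subgroup.mem_inf.mpr ⟨hLUge u hu hu1 hg, ?_⟩, ?_⟩
      · rw [Subgroup.mem_centralizer_iff]
        intro h hh
        exact (hgS h ((Set.Finite.mem_toFinset hfin).mpr hh)).symm
      · rcases ha.comm g hg x hxQ with e | e
        · exact absurd e hgx
        · have hxu : x * u = u * x := ha.central x hxQ
          rw [e, hxu]; group

end Cfsg.Agent.S5597
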