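import Cfsg.Statements.S5598
import Cfsg.Agent.Lib.Helper93.Singular

set_option autoImplicit false
open Cfsg

namespace Cfsg.Agent.S5598

/-- Setting: `z` is an involution of the finite group `G`; for each element `x`, `Q x` is the largest normal 2-subgroup of the centralizer of `x`; `Q z` is extraspecial and contains its own centralizer in `G`. A subgroup `U` is singular when it is elementary abelian, every non-identity element of `U` is conjugate to `z`, and any two non-identity elements `u`, `v` of `U` are orthogonal (`v ∈ Q u`). Write `QU` for the intersection of the `Q u` and `LU` for the join of the `Q u` over the non-identity `u` in `U`. If the singular subgroup `U` is generated by a set `T` of non-identity elements, then `QU` is already the intersection of the `Q t` over `t ∈ T`. -/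
theorem result {G : Type*} [Group G] [Finite G]
    (Q : G → Subgroup G)
    (hQ : ∀ x : G, Q x = (Cfsg.pCore 2 ↥(Subgroup.centralizer ({x} : Set G))).map (Subgroup.centralizer ({x} : Set G)).subtype)
    (z : G) (hz : orderOf z = 2) (hE : Cfsg.IsExtraspecial 2 ↥(Q z))
    (hC : Subgroup.centralizer ((Q z : Subgroup G) : Set G) ≤ Q z)
    (U : Subgroup G) (hU2 : ∀ u ∈ U, u * u = 1)
    (hS : ∀ u ∈ U, u ≠ 1 → ∃ g : G, g * z * g⁻¹ = u)
    (hO : ∀ u ∈ U, ∀ v ∈ U, u ≠ 1 → v ≠ 1 → v ∈ Q u)
    (QU LU : Subgroup G) (hQU : QU = ⨅ u ∈ ((U : Set G) \ {1}), Q u) (hLU : LU = ⨆ u ∈ ((U : Set G) \ {1}), Q u)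
    (T : Set G) (hT : Subgroup.closure T = U) (hT1 : (1 : G) ∉ T) :
    QU = ⨅ t ∈ T, Q t := by
  have hQ' : Q = Cfsg.Agent.Lib.Helper93.coreQ := funext hQ
  subst hQ'
  have hz' := Cfsg.Agent.Lib.Helper93.ES_of_extraspecial z hz hE hC
  have hES : ∀ u ∈ U, u ≠ 1 →
      Cfsg.Agent.Lib.Helper93.ES (Cfsg.Agent.Lib.Helper93.coreQ u) u := by
    intro u hu hu1
    obtain ⟨g, rfl⟩ := hS u hu hu1
    exact hz'.conj g
  subst hQU
  apply le_antisymm
  · apply le_iInf₂
    intro t ht
    have htU : t ∈ U := hT ▸ Subgroup.subset_closure ht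
    have ht1 : t ≠ 1 := fun h => hT1 (h ▸ ht)
    exact iInf₂_le t ⟨htU, ht1⟩
  · intro v hv
    simp only [Subgroup.mem_iInf] at hv ⊢
    have key : ∀ u ∈ Subgroup.closure T, u = 1 ∨ v ∈ Cfsg.Agent.Lib.Helper93.coreQ u := by
      intro u hu
      induction hu using Subgroup.closure_induction with
      | mem x hx => exact Or.inr (hv x hx)
      | one => exact Or.inl rfl
      | mul x y hx hy ihx ihy =>
        rw [hT] at hx hy
        by_cases hx1 : x = 1
        · rw [hx1, one_mul]; exact ihy
        by_cases hy1 : y = 1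
        · rw [hy1, mul_one]; exact ihx
        by_cases hxy : x * y = 1
        · exact Or.inl hxy
        right
        have hvx : v ∈ Cfsg.Agent.Lib.Helper93.coreQ x := ihx.resolve_left hx1
        have hvy : v ∈ Cfsg.Agent.Lib.Helper93.coreQ y := ihy.resolve_left hy1
        have hyne : y ≠ x := by
          intro e
          apply hxy
          rw [e]
          exact hU2 x hx
        exact Cfsg.Agent.Lib.Helper93.inter_le_mul (hES x hx hx1) (hO x hx y hy hx1 hy1) hy1 hyne
          (hO (x * y) (U.mul_mem hx hy) x hx hxy hx1) hvx hvy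
      | inv x hx ih =>
        rw [hT] at hx
        have : x⁻¹ = x := Cfsg.Agent.Lib.Helper93.inv_of_sq (hU2 x hx)
        rw [this]; exact ih
    intro u hu
    rw [hT] at key
    exact (key u hu.1).resolve_left hu.2

end Cfsg.Agent.S5598
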