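import Cfsg.Statements.S5713
import Cfsg.Agent.Lib.Helper95.Babai.Main

set_option autoImplicit false
open Cfsg

namespace Cfsg.Agent.S5713

/-- A classification-free minimal-degree bound. Let G be a finite group acting faithfully and primitively on a finite set Ω with n elements, and suppose that the image of G in the symmetric group on Ω does not contain the alternating group on Ω. Then every non-identity element of G moves at least (√n − 1)/2 points of Ω, that is, it fixes at most n − (√n − 1)/2 points. -/
theorem result {G Ω : Type*} [Group G] [Finite G] [MulAction G Ω] [FaithfulSMul G Ω] [Fintype Ω] [DecidableEq Ω]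
    (hprim : MulAction.IsPreprimitive G Ω)
    (hA : ¬ alternatingGroup Ω ≤ (MulAction.toPermHom G Ω).range)
    (g : G) (hg : g ≠ 1) :
    (Real.sqrt (Fintype.card Ω) - 1) / 2 ≤ (Fintype.card Ω : ℝ) - Nat.card (MulAction.fixedBy Ω g) := by
  classical
  have hex : ∃ α : Ω, g • α ≠ α := by
    by_contra h
    apply hg
    apply FaithfulSMul.eq_of_smul_eq_smul (α := Ω)
    intro a
    rw [one_smul]
    by_contra hne
    exact h ⟨a, hne⟩
  obtain ⟨α, hα⟩ := hex
  have hmain : Fintype.card Ω ≤ (2 * (Cfsg.Agent.Lib.Helper95.Babai.supp Ω g).card + 1) ^ 2 :=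
    Cfsg.Agent.Lib.Helper95.Babai.card_le_sq hA g α hα
  have hset : (MulAction.fixedBy Ω g : Set Ω) =
      ((Finset.univ.filter (fun z : Ω => g • z = z) : Finset Ω) : Set Ω) := by
    ext z
    simp [MulAction.mem_fixedBy]
  have h1 : Nat.card (MulAction.fixedBy Ω g) =
      (Finset.univ.filter (fun z : Ω => g • z = z)).card := by
    rw [Nat.card_coe_set_eq, hset, Set.ncard_coe_finset]
  have hfix : Nat.card (MulAction.fixedBy Ω g) + (Cfsg.Agent.Lib.Helper95.Babai.supp Ω g).card =
      Fintype.card Ω := by
    rw [h1, Cfsg.Agent.Lib.Helper95.Babai.supp, ← Finset.card_univ (α := Ω)]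
    exact Finset.card_filter_add_card_filter_not (fun z : Ω => g • z = z)
  have hm : (Fintype.card Ω : ℝ) - Nat.card (MulAction.fixedBy Ω g) =
      ((Cfsg.Agent.Lib.Helper95.Babai.supp Ω g).card : ℝ) := by
    rw [← hfix]
    push_cast
    ring
  rw [hm]
  have hsq : Real.sqrt (Fintype.card Ω) ≤ 2 * ((Cfsg.Agent.Lib.Helper95.Babai.supp Ω g).card : ℝ) + 1 := by
    rw [Real.sqrt_le_left (by positivity)]
    exact_mod_cast hmain
  linarith

end Cfsg.Agent.S5713
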