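-- Statement S5729: the proportion of derangements in a transitive group is at least 1/n,
-- with equality only for sharply 2-transitive (Frobenius) groups of order n(n-1).
import Cfsg.Statements.S5729

set_option autoImplicit false
open Cfsg

namespace Cfsg.Agent.S5729

open MulAction

/-- Burnside's lemma for a transitive action: the fixed-point numbers sum to the group order. -/
lemma burnside1 {G Ω : Type*} [Group G] [Fintype G] [MulAction G Ω] [Fintype Ω]
    [IsPretransitive G Ω] [Nonempty Ω] :
    ∑ g : G, Nat.card (fixedBy Ω g) = Fintype.card G := by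
  classical
  let _ : Fintype (Quotient (orbitRel G Ω)) := Fintype.ofFinite _
  have h := sum_card_fixedBy_eq_card_orbits_mul_card_group G Ω
  have h1 : Fintype.card (Quotient (orbitRel G Ω)) = 1 := by
    have hs : Subsingleton (Quotient (orbitRel G Ω)) :=
      (pretransitive_iff_subsingleton_quotient G Ω).mp inferInstance
    have hne : Nonempty (Quotient (orbitRel G Ω)) := ⟨Quotient.mk _ (Classical.arbitrary Ω)⟩
    exact le_antisymm (Fintype.card_le_one_iff_subsingleton.mpr hs) Fintype.card_pos
  simp only [Nat.card_eq_fintype_card]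
  rw [h, h1, one_mul]

/-- Burnside's lemma on pairs: the squares of the fixed-point numbers sum to at least twice the
group order as soon as there are two points. -/
lemma burnside2 {G Ω : Type*} [Group G] [Fintype G] [MulAction G Ω] [Fintype Ω]
    (h2 : 2 ≤ Fintype.card Ω) :
    2 * Fintype.card G ≤ ∑ g : G, Nat.card (fixedBy Ω g) ^ 2 := by
  classical
  let _ : Fintype (Quotient (orbitRel G (Ω × Ω))) := Fintype.ofFinite _
  have h := sum_card_fixedBy_eq_card_orbits_mul_card_group G (Ω × Ω)
  have hfix : ∀ g : G, Fintype.card (fixedBy (Ω × Ω) g) = Nat.card (fixedBy Ω g) ^ 2 := by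
    intro g
    rw [Nat.card_eq_fintype_card, sq, ← Fintype.card_prod]
    apply Fintype.card_congr
    exact
      { toFun := fun x => (⟨x.1.1, (Prod.ext_iff.mp x.2).1⟩, ⟨x.1.2, (Prod.ext_iff.mp x.2).2⟩)
        invFun := fun y => ⟨(y.1.1, y.2.1), Prod.ext y.1.2 y.2.2⟩
        left_inv := fun x => rfl
        right_inv := fun y => rfl }
  have horb : 2 ≤ Fintype.card (Quotient (orbitRel G (Ω × Ω))) := by
    obtain ⟨a, b, hab⟩ := Fintype.exists_pair_of_one_lt_card (show 1 < Fintype.card Ω by omega)
    let φ : Quotient (orbitRel G (Ω × Ω)) → Prop :=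
      Quotient.lift (fun x : Ω × Ω => x.1 = x.2) (by
        rintro x y ⟨g, rfl⟩
        simp only [Prod.smul_fst, Prod.smul_snd, smul_left_cancel_iff])
    have hne : (Quotient.mk (orbitRel G (Ω × Ω)) (a, a)) ≠ Quotient.mk (orbitRel G (Ω × Ω)) (a, b) := by
      intro hq
      have h3 : φ (Quotient.mk (orbitRel G (Ω × Ω)) (a, a)) = φ (Quotient.mk (orbitRel G (Ω × Ω)) (a, b)) :=
        congrArg φ hq
      have h4 : (a = a) = (a = b) := h3
      exact hab (h4 ▸ rfl)
    exact Fintype.one_lt_card_iff.mpr ⟨_, _, hne⟩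
  calc 2 * Fintype.card G ≤ Fintype.card (Quotient (orbitRel G (Ω × Ω))) * Fintype.card G :=
        Nat.mul_le_mul_right _ horb
    _ = ∑ g : G, Fintype.card (fixedBy (Ω × Ω) g) := h.symm
    _ = ∑ g : G, Nat.card (fixedBy Ω g) ^ 2 := by simp only [hfix]

/-- Let a finite group G act faithfully and transitively on a set with n ≥ 3 points. Then either G is a Frobenius permutation group (Frobenius as a permutation group: transitive, some non-identity element fixes a point, and no non-identity element fixes two points) of order n(n − 1) and exactly |G|/n of its elements are derangements (fix no point), or the number of derangements is greater than |G|/n. -/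
theorem result {G Ω : Type*} [Group G] [Finite G] [MulAction G Ω] [FaithfulSMul G Ω] [Fintype Ω] (htr : MulAction.IsPretransitive G Ω) (hn : 3 ≤ Fintype.card Ω) :
    ((MulAction.IsPretransitive G Ω ∧ (∃ g : G, g ≠ 1 ∧ ∃ ω : Ω, g • ω = ω) ∧ ∀ g : G, g ≠ 1 → Nat.card (MulAction.fixedBy Ω g) ≤ 1) ∧ Nat.card G = Fintype.card Ω * (Fintype.card Ω - 1) ∧ Fintype.card Ω * Nat.card {g : G // ∀ ω : Ω, g • ω ≠ ω} = Nat.card G) ∨
    Nat.card G < Fintype.card Ω * Nat.card {g : G // ∀ ω : Ω, g • ω ≠ ω} := by
  classical
  let _ : Fintype G := Fintype.ofFinite G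
  have hΩne : Nonempty Ω := Fintype.card_pos_iff.mp (by omega)
  obtain ⟨n, hn_def⟩ : ∃ n, n = Fintype.card Ω := ⟨_, rfl⟩
  obtain ⟨f, hf⟩ : ∃ f : G → ℕ, ∀ g, f g = Nat.card (fixedBy Ω g) := ⟨_, fun g => rfl⟩
  have hB1 : ∑ g : G, f g = Fintype.card G := by
    simp only [hf]
    exact burnside1
  have hB2 : 2 * Fintype.card G ≤ ∑ g : G, f g ^ 2 := by
    simp only [hf]
    exact burnside2 (by omega)
  have hfle : ∀ g, f g ≤ n := fun g => by
    rw [hf, hn_def, ← Nat.card_eq_fintype_card]
    exact Finite.card_subtype_le _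
  have hf0 : ∀ g, f g = 0 ↔ ∀ ω : Ω, g • ω ≠ ω := by
    intro g
    rw [hf, Nat.card_eq_zero]
    constructor
    · rintro (h | h)
      · intro ω hω
        exact h.false ⟨ω, hω⟩
      · exact absurd (inferInstance : Finite (fixedBy Ω g)) (not_finite_iff_infinite.mpr h)
    · intro h
      left
      exact ⟨fun x => h x.1 x.2⟩
  have hfn : ∀ g, f g = n → g = 1 := by
    intro g hg
    rw [hf, hn_def, ← Nat.card_eq_fintype_card, Nat.card_coe_set_eq, ← Set.eq_univ_iff_ncard] at hg
    apply FaithfulSMul.eq_of_smul_eq_smul (α := Ω)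
    intro ω
    have : ω ∈ fixedBy Ω g := by rw [hg]; trivial
    rw [one_smul]
    exact this
  have hf1 : f 1 = n := by
    rw [hf, hn_def, ← Nat.card_eq_fintype_card, Nat.card_coe_set_eq, ← Set.eq_univ_iff_ncard]
    ext ω
    simp
  obtain ⟨e, he_def⟩ : ∃ e : G → ℕ, ∀ g, e g = if f g = 0 then 0 else (f g - 1) * (n - f g) :=
    ⟨_, fun g => rfl⟩
  obtain ⟨δ, hδ_def⟩ : ∃ δ : G → ℕ, ∀ g, δ g = if f g = 0 then 1 else 0 := ⟨_, fun g => rfl⟩
  have hid : ∀ g, f g ^ 2 + n + e g = (n + 1) * f g + n * δ g := by
    intro g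
    rw [he_def, hδ_def]
    by_cases h0 : f g = 0
    · simp [h0]
    · obtain ⟨a, ha⟩ : ∃ a, f g = a + 1 := Nat.exists_eq_succ_of_ne_zero h0
      obtain ⟨b, hb⟩ : ∃ b, n = f g + b := Nat.exists_eq_add_of_le (hfle g)
      rw [if_neg h0, if_neg h0, hb, ha]
      simp only [Nat.add_sub_cancel, Nat.add_sub_cancel_left]
      ring
  have hsum : ∑ g : G, f g ^ 2 + n * Fintype.card G + ∑ g : G, e g
      = n * Fintype.card G + Fintype.card G + n * ∑ g : G, δ g := by
    have h1 : ∑ g : G, (f g ^ 2 + n + e g) = ∑ g : G, ((n + 1) * f g + n * δ g) :=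
      Finset.sum_congr rfl (fun g _ => hid g)
    rw [Finset.sum_add_distrib, Finset.sum_add_distrib, Finset.sum_add_distrib, ← Finset.mul_sum,
      ← Finset.mul_sum, hB1, Finset.sum_const, Finset.card_univ, smul_eq_mul] at h1
    rw [mul_comm n (Fintype.card G), h1]
    ring
  have hd : Nat.card {g : G // ∀ ω : Ω, g • ω ≠ ω} = ∑ g : G, δ g := by
    rw [Nat.card_eq_fintype_card, Fintype.card_subtype, Finset.card_filter]
    apply Finset.sum_congr rfl
    intro g _
    rw [hδ_def]
    simp only [hf0]
  have hNcard : Nat.card G = Fintype.card G := Nat.card_eq_fintype_card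
  rw [hd, hNcard, ← hn_def]
  have hmain : Fintype.card G + ∑ g : G, e g ≤ n * ∑ g : G, δ g := by omega
  by_cases hlt : Fintype.card G < n * ∑ g : G, δ g
  · right
    exact hlt
  · left
    have heq : n * ∑ g : G, δ g = Fintype.card G := by omega
    have he0 : ∑ g : G, e g = 0 := by omega
    have he : ∀ g, e g = 0 := fun g => (Finset.sum_eq_zero_iff.mp he0) g (Finset.mem_univ g)
    have hle1 : ∀ g, g ≠ 1 → f g ≤ 1 := by
      intro g hg
      have h1 := he g
      rw [he_def] at h1
      by_cases h0 : f g = 0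
      · omega
      · rw [if_neg h0] at h1
        rcases Nat.mul_eq_zero.mp h1 with h | h
        · omega
        · have h3 : f g = n := by
            have := hfle g
            omega
          exact absurd (hfn g h3) hg
    have hfg : ∀ g, f g + δ g = 1 + (if g = 1 then n - 1 else 0) := by
      intro g
      rw [hδ_def]
      by_cases hg : g = 1
      · subst hg
        rw [hf1, if_pos rfl, if_neg (by omega)]
        omega
      · have h1 := hle1 g hg
        rw [if_neg hg]
        by_cases h0 : f g = 0
        · rw [if_pos h0, h0]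
        · rw [if_neg h0]
          omega
    have hsum2 : ∑ g : G, f g + ∑ g : G, δ g = Fintype.card G + (n - 1) := by
      rw [← Finset.sum_add_distrib, Finset.sum_congr rfl (fun g _ => hfg g),
        Finset.sum_add_distrib, Finset.sum_ite_eq' Finset.univ (1 : G) (fun _ => n - 1)]
      simp
    have hdn : ∑ g : G, δ g = n - 1 := by omega
    refine ⟨⟨htr, ?_, ?_⟩, ?_, ?_⟩
    · by_contra hcon
      push Not at hcon
      have hδ1 : ∀ g, δ g + (if g = 1 then 1 else 0) = 1 := by
        intro g
        rw [hδ_def]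
        by_cases hg : g = 1
        · subst hg
          rw [if_pos rfl, if_neg (by rw [hf1]; omega)]
        · rw [if_neg hg, if_pos ((hf0 g).mpr (hcon g hg))]
      have hsum3 : ∑ g : G, δ g + 1 = Fintype.card G := by
        have h1 : ∑ g : G, (δ g + (if g = 1 then 1 else 0)) = ∑ _g : G, 1 :=
          Finset.sum_congr rfl (fun g _ => hδ1 g)
        rw [Finset.sum_add_distrib, Finset.sum_ite_eq' Finset.univ (1 : G) (fun _ => 1)] at h1
        simpa using h1
      rw [hdn] at hsum3 heq
      have h5 : n - 1 + 1 = n := by omega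
      rw [h5] at hsum3
      rw [← hsum3] at heq
      have h6 : n * (n - 1) = n * 1 := by rw [heq, mul_one]
      have h7 := Nat.eq_of_mul_eq_mul_left (by omega : 0 < n) h6
      omega
    · intro g hg
      rw [← hf]
      exact hle1 g hg
    · rw [← heq, hdn]
    · exact heq

end Cfsg.Agent.S5729
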