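-- Statement S5747: irredundant bases all have the same length iff they are closed under reordering.
import Cfsg.Statements.S5747

set_option autoImplicit false
open Cfsg

namespace Cfsg.Agent.S5747

section helpers

variable {G Ω : Type*} [Group G] [MulAction G Ω]

/-- The pointwise stabiliser of the sequence is trivial. -/
def BaseSeq (G : Type*) {Ω : Type*} [Group G] [MulAction G Ω] (t : ℕ) (f : Fin t → Ω) : Prop :=
  ∀ g : G, (∀ i : Fin t, g • f i = f i) → g = 1

/-- Each term is moved by an element fixing the earlier terms. -/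
def Irr (G : Type*) {Ω : Type*} [Group G] [MulAction G Ω] (t : ℕ) (f : Fin t → Ω) : Prop :=
  ∀ i : Fin t, ∃ g : G, (∀ j : Fin t, j < i → g • f j = f j) ∧ g • f i ≠ f i

/-- Each term is moved by an element fixing all the other terms. -/
def Strong (G : Type*) {Ω : Type*} [Group G] [MulAction G Ω] (t : ℕ) (f : Fin t → Ω) : Prop :=
  ∀ i : Fin t, ∃ g : G, (∀ j : Fin t, j ≠ i → g • f j = f j) ∧ g • f i ≠ f i

/-- The pointwise stabiliser of the finite set is trivial. -/
def IsBase (G : Type*) {Ω : Type*} [Group G] [MulAction G Ω] (S : Finset Ω) : Prop :=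
  ∀ g : G, (∀ x ∈ S, g • x = x) → g = 1

/-- A base no proper subset of which is a base. -/
def MinBase (G : Type*) {Ω : Type*} [Group G] [MulAction G Ω] [DecidableEq Ω] (S : Finset Ω) :
    Prop :=
  IsBase G S ∧ ∀ x ∈ S, ¬ IsBase G (S.erase x)

/-- Closure of irredundant bases under reordering. -/
def PermClosed (G : Type*) (Ω : Type*) [Group G] [MulAction G Ω] : Prop :=
  ∀ (t : ℕ) (f : Fin t → Ω) (σ : Equiv.Perm (Fin t)), (BaseSeq G t f ∧ Irr G t f) →
    (BaseSeq G t (f ∘ σ) ∧ Irr G t (f ∘ σ))

lemma irr_injective {t : ℕ} {f : Fin t → Ω} (h : Irr G t f) : Function.Injective f := by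
  intro i j hij
  by_contra hne
  rcases lt_or_gt_of_ne hne with h1 | h1
  · obtain ⟨g, hg1, hg2⟩ := h j
    apply hg2
    rw [← hij]
    exact hg1 i h1
  · obtain ⟨g, hg1, hg2⟩ := h i
    apply hg2
    rw [hij]
    exact hg1 j h1

variable [DecidableEq Ω]

lemma minBase_moves {A : Finset Ω} (hA : MinBase G A) {c : Ω} (hc : c ∈ A) :
    ∃ g : G, (∀ z ∈ A.erase c, g • z = z) ∧ g • c ≠ c := by
  have h := hA.2 c hc
  unfold IsBase at h
  push Not at h
  obtain ⟨g, hg1, hg2⟩ := h
  refine ⟨g, hg1, fun hgc => hg2 (hA.1 g (fun z hz => ?_))⟩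
  by_cases hzc : z = c
  · rw [hzc]; exact hgc
  · exact hg1 z (Finset.mem_erase.mpr ⟨hzc, hz⟩)

lemma enum_irr {A S : Finset Ω} (hA : MinBase G A) (hS : S ⊆ A) {t : ℕ} (e : Fin t ≃ S) :
    Irr G t (fun i => (e i : Ω)) := by
  intro i
  obtain ⟨g, hg1, hg2⟩ := minBase_moves hA (hS (e i).2)
  refine ⟨g, fun j hj => hg1 _ (Finset.mem_erase.mpr ⟨?_, hS (e j).2⟩), hg2⟩
  intro hji
  have : j = i := e.injective (Subtype.ext hji)
  exact (ne_of_lt hj) this

omit [DecidableEq Ω] in
lemma snoc_irr {t : ℕ} {f : Fin t → Ω} (h : Irr G t f) (z : Ω)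
    (hz : ∃ g : G, (∀ j : Fin t, g • f j = f j) ∧ g • z ≠ z) :
    Irr G (t + 1) (Fin.snoc f z : Fin (t + 1) → Ω) := by
  intro i
  induction i using Fin.lastCases with
  | last =>
    obtain ⟨g, hg1, hg2⟩ := hz
    refine ⟨g, fun j hj => ?_, ?_⟩
    · induction j using Fin.lastCases with
      | last => exact absurd hj (lt_irrefl _)
      | cast j => rw [Fin.snoc_castSucc]; exact hg1 j
    · rw [Fin.snoc_last]; exact hg2
  | cast i =>
    obtain ⟨g, hg1, hg2⟩ := h i
    refine ⟨g, fun j hj => ?_, ?_⟩
    · induction j using Fin.lastCases with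
      | last =>
        exfalso
        have h1 : (Fin.last t).val < i.castSucc.val := hj
        have h2 := i.2
        simp only [Fin.val_last, Fin.val_castSucc] at h1
        omega
      | cast j =>
        rw [Fin.snoc_castSucc]
        exact hg1 j (by simpa using hj)
    · rw [Fin.snoc_castSucc]; exact hg2

omit [DecidableEq Ω] in
lemma strong_of_permClosed (hperm : PermClosed G Ω) {t : ℕ} {f : Fin t → Ω}
    (h : BaseSeq G t f ∧ Irr G t f) : Strong G t f := by
  intro i
  have ht : 0 < t := lt_of_le_of_lt (Nat.zero_le _) i.2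
  let l : Fin t := ⟨t - 1, by omega⟩
  obtain ⟨g, hg1, hg2⟩ := (hperm t f (Equiv.swap i l) h).2 l
  simp only [Function.comp_apply, Equiv.swap_apply_right] at hg2
  refine ⟨g, fun j hj => ?_, hg2⟩
  have hjl : Equiv.swap i l j ≠ l := by
    intro h1
    have h2 : Equiv.swap i l (Equiv.swap i l j) = Equiv.swap i l l := congrArg _ h1
    rw [Equiv.swap_apply_self, Equiv.swap_apply_right] at h2
    exact hj h2
  have hlt : Equiv.swap i l j < l := by
    have h1 : (Equiv.swap i l j).val < t := (Equiv.swap i l j).2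
    have h2 : (Equiv.swap i l j).val ≠ t - 1 := fun h3 => hjl (Fin.ext h3)
    change (Equiv.swap i l j).val < t - 1
    omega
  have h3 := hg1 _ hlt
  simp only [Function.comp_apply, Equiv.swap_apply_self] at h3
  exact h3

lemma minBase_of_seq {t : ℕ} {s : Fin t → Ω} {C : Finset Ω} (hC : ∀ z, z ∈ C ↔ ∃ i, s i = z)
    (hbase : BaseSeq G t s) (hstrong : Strong G t s) : MinBase G C := by
  refine ⟨fun g hg => hbase g (fun i => hg _ ((hC _).mpr ⟨i, rfl⟩)), fun c hc hb => ?_⟩
  obtain ⟨i, rfl⟩ := (hC c).mp hc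
  obtain ⟨g, hg1, hg2⟩ := hstrong i
  have hg : g = 1 := by
    apply hb g
    intro z hz
    rw [Finset.mem_erase] at hz
    obtain ⟨j, rfl⟩ := (hC z).mp hz.2
    exact hg1 j (fun hji => hz.1 (by rw [hji]))
  apply hg2
  rw [hg, one_smul]

lemma exists_minBase (S : Finset Ω) : IsBase G S → ∃ S' : Finset Ω, S' ⊆ S ∧ MinBase G S' := by
  induction S using Finset.strongInduction with
  | H S ih =>
    intro hS
    by_cases hmin : ∀ x ∈ S, ¬ IsBase G (S.erase x)
    · exact ⟨S, Finset.Subset.refl S, hS, hmin⟩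
    · push Not at hmin
      obtain ⟨x, hx, hb⟩ := hmin
      obtain ⟨S', hS', hm⟩ := ih (S.erase x) (Finset.erase_ssubset hx) hb
      exact ⟨S', hS'.trans (Finset.erase_subset x S), hm⟩

lemma exchange (hperm : PermClosed G Ω) {A B : Finset Ω} (hA : MinBase G A) (hB : MinBase G B)
    {x : Ω} (hxA : x ∈ A) (hxB : x ∉ B) :
    ∃ y, y ∈ B ∧ y ∉ A ∧ MinBase G (insert y (A.erase x)) := by
  obtain ⟨h, hh1, hh2⟩ := minBase_moves hA hxA
  have hh : h ≠ 1 := fun h1 => hh2 (by rw [h1, one_smul])
  have hy : ∃ y ∈ B, h • y ≠ y := by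
    by_contra hcon
    push Not at hcon
    exact hh (hB.1 h hcon)
  obtain ⟨y, hyB, hhy⟩ := hy
  have hyA : y ∉ A := by
    intro hyA
    have hyx : y ≠ x := fun hyx => hxB (hyx ▸ hyB)
    exact hhy (hh1 y (Finset.mem_erase.mpr ⟨hyx, hyA⟩))
  refine ⟨y, hyB, hyA, ?_⟩
  -- enumerate `A.erase x`
  let e : Fin (A.erase x).card ≃ (A.erase x) := (A.erase x).equivFin.symm
  have hf : Irr G _ (fun i => (e i : Ω)) := enum_irr hA (Finset.erase_subset x A) e
  have hfmem : ∀ z, z ∈ A.erase x ↔ ∃ i, (e i : Ω) = z := by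
    intro z
    constructor
    · intro hz
      exact ⟨e.symm ⟨z, hz⟩, by rw [Equiv.apply_symm_apply]⟩
    · rintro ⟨i, rfl⟩
      exact (e i).2
  have hs1 : Irr G _ (Fin.snoc (fun i => (e i : Ω)) y : Fin ((A.erase x).card + 1) → Ω) :=
    snoc_irr hf y ⟨h, fun j => hh1 _ (e j).2, hhy⟩
  have hC1 : ∀ z, z ∈ insert y (A.erase x) ↔
      ∃ i, (Fin.snoc (fun i => (e i : Ω)) y : Fin ((A.erase x).card + 1) → Ω) i = z := by
    intro z
    rw [Finset.mem_insert, hfmem]
    constructor
    · rintro (rfl | ⟨i, rfl⟩)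
      · exact ⟨Fin.last _, by rw [Fin.snoc_last]⟩
      · exact ⟨i.castSucc, by rw [Fin.snoc_castSucc]⟩
    · rintro ⟨i, rfl⟩
      induction i using Fin.lastCases with
      | last => left; rw [Fin.snoc_last]
      | cast i => right; exact ⟨i, by rw [Fin.snoc_castSucc]⟩
  by_cases hb1 : BaseSeq G _ (Fin.snoc (fun i => (e i : Ω)) y : Fin ((A.erase x).card + 1) → Ω)
  · exact minBase_of_seq hC1 hb1 (strong_of_permClosed hperm ⟨hb1, hs1⟩)
  · exfalso
    unfold BaseSeq at hb1
    push Not at hb1
    obtain ⟨g, hg1, hg2⟩ := hb1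
    have hgA : ∀ z ∈ A.erase x, g • z = z := by
      intro z hz
      obtain ⟨i, rfl⟩ := (hfmem z).mp hz
      have := hg1 i.castSucc
      rwa [Fin.snoc_castSucc] at this
    have hgx : g • x ≠ x := by
      intro hgx
      apply hg2
      apply hA.1 g
      intro z hz
      by_cases hzx : z = x
      · rw [hzx]; exact hgx
      · exact hgA z (Finset.mem_erase.mpr ⟨hzx, hz⟩)
    have hs2 : Irr G _ (Fin.snoc (Fin.snoc (fun i => (e i : Ω)) y : Fin ((A.erase x).card + 1) → Ω) x :
        Fin ((A.erase x).card + 1 + 1) → Ω) := snoc_irr hs1 x ⟨g, hg1, hgx⟩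
    have hb2 : BaseSeq G _ (Fin.snoc (Fin.snoc (fun i => (e i : Ω)) y :
        Fin ((A.erase x).card + 1) → Ω) x : Fin ((A.erase x).card + 1 + 1) → Ω) := by
      intro g' hg'
      apply hA.1 g'
      intro z hz
      by_cases hzx : z = x
      · have := hg' (Fin.last _)
        rw [Fin.snoc_last] at this
        rw [hzx]; exact this
      · obtain ⟨i, rfl⟩ := (hfmem z).mp (Finset.mem_erase.mpr ⟨hzx, hz⟩)
        have := hg' i.castSucc.castSucc
        rwa [Fin.snoc_castSucc, Fin.snoc_castSucc] at this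
    obtain ⟨g'', hg1'', hg2''⟩ := strong_of_permClosed hperm ⟨hb2, hs2⟩ (Fin.last _).castSucc
    rw [Fin.snoc_castSucc, Fin.snoc_last] at hg2''
    apply hg2''
    have hg''1 : g'' = 1 := by
      apply hA.1 g''
      intro z hz
      by_cases hzx : z = x
      · have := hg1'' (Fin.last _) (by
          intro h1
          have h2 := congrArg Fin.val h1
          simp at h2)
        rw [Fin.snoc_last] at this
        rw [hzx]; exact this
      · obtain ⟨i, rfl⟩ := (hfmem z).mp (Finset.mem_erase.mpr ⟨hzx, hz⟩)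
        have := hg1'' i.castSucc.castSucc (by
          intro h1
          have h2 := congrArg Fin.val h1
          have h3 := i.2
          simp at h2
          omega)
        rwa [Fin.snoc_castSucc, Fin.snoc_castSucc] at this
    rw [hg''1, one_smul]

lemma card_le (hperm : PermClosed G Ω) : ∀ (k : ℕ) (A B : Finset Ω), (A \ B).card = k →
    MinBase G A → MinBase G B → A.card ≤ B.card := by
  intro k
  induction k with
  | zero =>
    intro A B hk _ _
    exact Finset.card_le_card (Finset.sdiff_eq_empty_iff_subset.mp (Finset.card_eq_zero.mp hk))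
  | succ k ih =>
    intro A B hk hA hB
    obtain ⟨x, hx⟩ : (A \ B).Nonempty := Finset.card_pos.mp (by omega)
    have hx' := Finset.mem_sdiff.mp hx
    obtain ⟨y, hyB, hyA, hC⟩ := exchange hperm hA hB hx'.1 hx'.2
    have hcard : (insert y (A.erase x)).card = A.card := by
      rw [Finset.card_insert_of_notMem (fun h => hyA (Finset.mem_of_mem_erase h)),
        Finset.card_erase_of_mem hx'.1]
      have := Finset.card_pos.mpr ⟨x, hx'.1⟩
      omega
    have hsd : (insert y (A.erase x) \ B).card = k := by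
      have h1 : insert y (A.erase x) \ B = (A \ B).erase x := by
        ext z
        simp only [Finset.mem_sdiff, Finset.mem_insert, Finset.mem_erase]
        constructor
        · rintro ⟨rfl | ⟨h1, h2⟩, h3⟩
          · exact absurd hyB h3
          · exact ⟨h1, h2, h3⟩
        · rintro ⟨h1, h2, h3⟩
          exact ⟨Or.inr ⟨h1, h2⟩, h3⟩
      rw [h1, Finset.card_erase_of_mem hx, hk]
      rfl
    have := ih _ B hsd hC hB
    omega

end helpers

/-- Let a finite group G act on a finite set Ω. An irredundant base is a sequence of points ω₁, …, ω_t whose pointwise stabiliser is trivial and in which each ω_i is moved by some element fixing ω₁, …, ω_{i−1}. Then all irredundant bases have the same length if and only if every reordering of an irredundant base is again an irredundant base. -/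
theorem result {G Ω : Type*} [Group G] [Finite G] [MulAction G Ω] [Fintype Ω] :
    (∀ (t t' : ℕ) (f : Fin t → Ω) (f' : Fin t' → Ω), ((∀ g : G, (∀ i : Fin t, g • f i = f i) → g = 1) ∧ ∀ i : Fin t, ∃ g : G, (∀ j : Fin t, j < i → g • f j = f j) ∧ g • f i ≠ f i) → ((∀ g : G, (∀ i : Fin t', g • f' i = f' i) → g = 1) ∧ ∀ i : Fin t', ∃ g : G, (∀ j : Fin t', j < i → g • f' j = f' j) ∧ g • f' i ≠ f' i) → t = t') ↔
    (∀ (t : ℕ) (f : Fin t → Ω) (σ : Equiv.Perm (Fin t)), ((∀ g : G, (∀ i : Fin t, g • f i = f i) → g = 1) ∧ ∀ i : Fin t, ∃ g : G, (∀ j : Fin t, j < i → g • f j = f j) ∧ g • f i ≠ f i) → ((∀ g : G, (∀ i : Fin t, g • (f ∘ σ) i = (f ∘ σ) i) → g = 1) ∧ ∀ i : Fin t, ∃ g : G, (∀ j : Fin t, j < i → g • (f ∘ σ) j = (f ∘ σ) j) ∧ g • (f ∘ σ) i ≠ (f ∘ σ) i)) := by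
  classical
  constructor
  · -- equal lengths imply closure under reordering
    intro hlen t f σ hf
    have hbase : BaseSeq G t (f ∘ σ) := by
      intro g hg
      apply hf.1 g
      intro i
      have := hg (σ.symm i)
      simpa using this
    refine ⟨hbase, ?_⟩
    by_contra hirr
    have hirr' : ¬ Irr G t (f ∘ σ) := hirr
    unfold Irr at hirr'
    push Not at hirr'
    obtain ⟨i, hi⟩ := hirr'
    have hinj : Function.Injective f := irr_injective (G := G) hf.2
    -- the image of `f` with `f (σ i)` removed is still a base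
    have hb : IsBase G ((Finset.univ.image f).erase (f (σ i))) := by
      intro g hg
      apply hf.1 g
      have hgi : g • f (σ i) = f (σ i) := by
        apply hi g
        intro j hj
        apply hg
        rw [Finset.mem_erase]
        refine ⟨fun h1 => ?_, Finset.mem_image_of_mem f (Finset.mem_univ _)⟩
        have h2 : j = i := σ.injective (hinj h1)
        exact (ne_of_lt hj) h2
      intro j
      by_cases hj : f j = f (σ i)
      · rw [hj]; exact hgi
      · exact hg _ (Finset.mem_erase.mpr ⟨hj, Finset.mem_image_of_mem f (Finset.mem_univ _)⟩)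
    obtain ⟨S', hS', hm⟩ := exists_minBase (G := G) _ hb
    let e : Fin S'.card ≃ S' := S'.equivFin.symm
    have hirr2 : Irr G S'.card (fun i => (e i : Ω)) := enum_irr hm (Finset.Subset.refl S') e
    have hbase2 : BaseSeq G S'.card (fun i => (e i : Ω)) := by
      intro g hg
      apply hm.1 g
      intro z hz
      have h4 : g • ((e (e.symm ⟨z, hz⟩) : S') : Ω) = ((e (e.symm ⟨z, hz⟩) : S') : Ω) :=
        hg (e.symm ⟨z, hz⟩)
      rwa [Equiv.apply_symm_apply] at h4
    have h1 := hlen t S'.card f (fun i => (e i : Ω)) hf ⟨hbase2, hirr2⟩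
    have h2 : S'.card ≤ ((Finset.univ.image f).erase (f (σ i))).card := Finset.card_le_card hS'
    rw [Finset.card_erase_of_mem (Finset.mem_image_of_mem f (Finset.mem_univ _)),
      Finset.card_image_of_injective _ hinj, Finset.card_univ, Fintype.card_fin] at h2
    have h3 : 0 < t := lt_of_le_of_lt (Nat.zero_le _) i.2
    omega
  · -- closure under reordering implies equal lengths
    intro hperm t t' f f' hf hf'
    have hperm' : PermClosed G Ω := hperm
    have hA : MinBase G (Finset.univ.image f) :=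
      minBase_of_seq (fun z => by simp) hf.1 (strong_of_permClosed hperm' hf)
    have hB : MinBase G (Finset.univ.image f') :=
      minBase_of_seq (fun z => by simp) hf'.1 (strong_of_permClosed hperm' hf')
    have hcA : (Finset.univ.image f).card = t := by
      rw [Finset.card_image_of_injective _ (irr_injective (G := G) hf.2), Finset.card_univ,
        Fintype.card_fin]
    have hcB : (Finset.univ.image f').card = t' := by
      rw [Finset.card_image_of_injective _ (irr_injective (G := G) hf'.2), Finset.card_univ,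
        Fintype.card_fin]
    have h1 := card_le hperm' _ _ _ rfl hA hB
    have h2 := card_le hperm' _ _ _ rfl hB hA
    omega

end Cfsg.Agent.S5747
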