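import Cfsg.Statements.S5752
import Cfsg.Agent.Lib.Helper49.TW.TWFstar

set_option autoImplicit false
open Cfsg

namespace Cfsg.Agent.S5752

/-- A form of the Thompson–Wielandt Theorem on primitive permutation groups. Let G be a finite group and M₁, M₂ two distinct conjugate maximal subgroups of G with trivial core in G; define two descending sequences of subgroups by A₀ = M₁, B₀ = M₂ and, for every i, A_{i+1} = the core in M₁ of A_i ∩ B_i and B_{i+1} = the core in M₂ of A_i ∩ B_i (the core in M of a subgroup Y ≤ M is the largest normal subgroup of M contained in Y). If A₂ and B₂ are both non-trivial, then for some prime p the subgroup generated by A₂ and B₂ is a p-group, and for each j the generalized Fitting subgroups of M_j and of its first core (A₁, resp. B₁) are their largest normal p-subgroups. -/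
theorem result {G : Type*} [Group G] [Finite G] (M₁ M₂ : Subgroup G) (hmax : IsCoatom M₁) (g : G)
    (hconj : M₂ = M₁.map (MulAut.conj g).toMonoidHom) (hne : M₁ ≠ M₂) (hcore : M₁.normalCore = ⊥)
    (A B : ℕ → Subgroup G) (hA0 : A 0 = M₁) (hB0 : B 0 = M₂)
    (hA : ∀ i, A (i + 1) = ((A i ⊓ B i).subgroupOf M₁).normalCore.map M₁.subtype)
    (hB : ∀ i, B (i + 1) = ((A i ⊓ B i).subgroupOf M₂).normalCore.map M₂.subtype) (hA2 : A 2 ≠ ⊥) (hB2 : B 2 ≠ ⊥) :
    ∃ p : ℕ, p.Prime ∧ IsPGroup p ↥(A 2 ⊔ B 2) ∧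
      Cfsg.generalizedFittingSubgroup ↥M₁ = Cfsg.pCore p ↥M₁ ∧ Cfsg.generalizedFittingSubgroup ↥(A 1) = Cfsg.pCore p ↥(A 1) ∧
      Cfsg.generalizedFittingSubgroup ↥M₂ = Cfsg.pCore p ↥M₂ ∧ Cfsg.generalizedFittingSubgroup ↥(B 1) = Cfsg.pCore p ↥(B 1) := by
  classical
  have hN : IsCoatom M₂ := by
    rw [hconj]
    exact ((MulAut.conj g).mapSubgroup.isCoatom_iff M₁).mpr hmax
  have hcN : M₂.normalCore = ⊥ := by
    have hK : M₂.normalCore ≤ M₁ := by
      intro x hx
      have hn : (M₂.normalCore).Normal := Subgroup.normalCore_normal M₂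
      have h1 : g * x * g⁻¹ ∈ M₂ := Subgroup.normalCore_le M₂ (hn.conj_mem x hx g)
      rw [hconj] at h1
      obtain ⟨y, hy, hyx⟩ := h1
      have e : y = x := by
        have h2 : g * y * g⁻¹ = g * x * g⁻¹ := hyx
        simpa using h2
      rw [← e]; exact hy
    have h2 : M₂.normalCore ≤ M₁.normalCore := Subgroup.normal_le_normalCore.mpr hK
    rw [hcore] at h2
    exact le_bot_iff.mp h2
  have hcard : ∀ q : ℕ, q.Prime → Nat.card (Cfsg.Agent.Lib.Helper31.pcOf q M₁) =
      Nat.card (Cfsg.Agent.Lib.Helper31.pcOf q M₂) := by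
    intro q _
    obtain ⟨e⟩ : Nonempty (↥M₁ ≃* ↥M₂) :=
      ⟨(M₁.equivMapOfInjective (MulAut.conj g).toMonoidHom (MulAut.conj g).injective).trans
        (MulEquiv.subgroupCongr hconj.symm)⟩
    unfold Cfsg.Agent.Lib.Helper31.pcOf
    rw [Subgroup.card_map_of_injective (Subgroup.subtype_injective _),
      Subgroup.card_map_of_injective (Subgroup.subtype_injective _),
      ← Cfsg.Agent.Lib.Helper23.pCore_map q e, Subgroup.card_map_of_injective e.injective]
  have hA1 : A 1 = Cfsg.Agent.Lib.Helper49.TW.coreIn (M₁ ⊓ M₂) M₁ := by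
    have h1 := hA 0
    rw [hA0, hB0] at h1
    exact h1
  have hB1 : B 1 = Cfsg.Agent.Lib.Helper49.TW.coreIn (M₁ ⊓ M₂) M₂ := by
    have h1 := hB 0
    rw [hA0, hB0] at h1
    exact h1
  have hcfg : Cfsg.Agent.Lib.Helper49.TW.Cfg M₁ M₂ (A 1) (B 1) (A 2) (B 2) :=
    { hM := hmax, hN := hN, hne := hne, hcM := hcore, hcN := hcN, hA := hA1, hB := hB1,
      hP := hA 1, hR := hB 1, hP1 := hA2, hR1 := hB2, hcard := hcard }
  exact hcfg.main

end Cfsg.Agent.S5752
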