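-- Statement S5754: binary action of the affine isometry group of an anisotropic quadratic form.
import Cfsg.Statements.S5754

set_option autoImplicit false
open Cfsg

namespace Cfsg.Agent.S5754

section helpers

variable {F V : Type*} [Field F] [AddCommGroup V] [Module F V]

/-- The reflection along a vector `a` (meaningful when `Q a ≠ 0`), as a function. -/
noncomputable def reflFun (Q : QuadraticForm F V) (a : V) (v : V) : V :=
  v - (QuadraticMap.polar Q v a / Q a) • a

lemma reflFun_add (Q : QuadraticForm F V) (a v w : V) :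
    reflFun Q a (v + w) = reflFun Q a v + reflFun Q a w := by
  unfold reflFun
  rw [QuadraticMap.polar_add_left, add_div, add_smul]
  abel

lemma reflFun_smul (Q : QuadraticForm F V) (a : V) (c : F) (v : V) :
    reflFun Q a (c • v) = c • reflFun Q a v := by
  unfold reflFun
  rw [QuadraticMap.polar_smul_left, smul_sub, smul_smul, smul_eq_mul, mul_div_assoc]

lemma polar_reflFun (Q : QuadraticForm F V) (a : V) (ha : Q a ≠ 0) (v : V) :
    QuadraticMap.polar Q (reflFun Q a v) a = - QuadraticMap.polar Q v a := by
  unfold reflFun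
  rw [QuadraticMap.polar_sub_left, QuadraticMap.polar_smul_left, QuadraticMap.polar_self,
    smul_eq_mul]
  field_simp
  ring

lemma reflFun_reflFun (Q : QuadraticForm F V) (a : V) (ha : Q a ≠ 0) (v : V) :
    reflFun Q a (reflFun Q a v) = v := by
  have h := polar_reflFun Q a ha v
  have e : reflFun Q a (reflFun Q a v)
      = reflFun Q a v - (QuadraticMap.polar Q (reflFun Q a v) a / Q a) • a := rfl
  rw [e, h]
  unfold reflFun
  rw [neg_div, neg_smul]
  abel

lemma map_reflFun (Q : QuadraticForm F V) (a : V) (ha : Q a ≠ 0) (v : V) :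
    Q (reflFun Q a v) = Q v := by
  unfold reflFun
  rw [sub_eq_add_neg, ← neg_smul, QuadraticMap.map_add Q, QuadraticMap.map_smul,
    QuadraticMap.polar_smul_right, smul_eq_mul, smul_eq_mul]
  field_simp
  ring

/-- The reflection along `a` as an isometry of `Q`. -/
noncomputable def reflIso (Q : QuadraticForm F V) (a : V) (ha : Q a ≠ 0) : Q.IsometryEquiv Q where
  toFun := reflFun Q a
  invFun := reflFun Q a
  map_add' := reflFun_add Q a
  map_smul' := reflFun_smul Q a
  left_inv := reflFun_reflFun Q a ha
  right_inv := reflFun_reflFun Q a ha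
  map_app' := map_reflFun Q a ha

lemma reflIso_apply (Q : QuadraticForm F V) (a : V) (ha : Q a ≠ 0) (v : V) :
    reflIso Q a ha v = reflFun Q a v := rfl

lemma polar_isometry (Q : QuadraticForm F V) (φ : Q.IsometryEquiv Q) (x y : V) :
    QuadraticMap.polar Q (φ x) (φ y) = QuadraticMap.polar Q x y := by
  unfold QuadraticMap.polar
  rw [← map_add, φ.map_app, φ.map_app, φ.map_app]

lemma extend {ι : Type*} (Q : QuadraticForm F V) (hQ : Q.Anisotropic) (w w' : ι → V)
    (H1 : ∀ i, Q (w i) = Q (w' i))
    (H2 : ∀ i j, QuadraticMap.polar Q (w i) (w j) = QuadraticMap.polar Q (w' i) (w' j))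
    (S : Finset ι) : ∃ φ : Q.IsometryEquiv Q, ∀ i ∈ S, φ (w i) = w' i := by
  classical
  induction S using Finset.induction_on with
  | empty => exact ⟨QuadraticMap.IsometryEquiv.refl Q, by simp⟩
  | insert k S hk ih =>
    obtain ⟨φ, hφ⟩ := ih
    by_cases hxy : φ (w k) = w' k
    · refine ⟨φ, fun i hi => ?_⟩
      rcases Finset.mem_insert.mp hi with rfl | hi
      · exact hxy
      · exact hφ i hi
    · have ha : Q (φ (w k) - w' k) ≠ 0 := fun h => hxy (sub_eq_zero.mp (hQ _ h))
      have hQx : Q (φ (w k)) = Q (w' k) := by rw [φ.map_app, H1]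
      refine ⟨φ.trans (reflIso Q _ ha), fun i hi => ?_⟩
      change reflFun Q _ (φ (w i)) = w' i
      rcases Finset.mem_insert.mp hi with rfl | hi
      · unfold reflFun
        have h1 : QuadraticMap.polar Q (φ (w i)) (φ (w i) - w' i) = Q (φ (w i) - w' i) := by
          have e1 : Q (φ (w i) - w' i) = Q (φ (w i)) + Q (w' i)
              - QuadraticMap.polar Q (φ (w i)) (w' i) := by
            rw [sub_eq_add_neg, QuadraticMap.map_add Q, QuadraticMap.map_neg,
              QuadraticMap.polar_neg_right]
            ring
          rw [QuadraticMap.polar_sub_right, QuadraticMap.polar_self, e1, hQx]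
          simp only [nsmul_eq_mul, Nat.cast_ofNat]
          ring
        rw [h1, div_self ha, one_smul]
        abel
      · rw [hφ i hi]
        unfold reflFun
        have h1 : QuadraticMap.polar Q (w' i) (φ (w k) - w' k) = 0 := by
          rw [QuadraticMap.polar_sub_right, ← hφ i hi, polar_isometry, hφ i hi, H2, sub_self]
        rw [h1, zero_div, zero_smul, sub_zero]

end helpers

/-- Let V be a finite-dimensional vector space over a finite field F carrying an anisotropic quadratic form Q (Q(v) = 0 only for v = 0). Then the group of all maps v ↦ φ(v) + c, with φ an isometry of Q and c ∈ V, acts on V as a binary permutation group: given n ≥ 2 and two n-tuples u, u' of vectors such that every pair of corresponding entries of u is carried to that of u' by such a map, one such map carries u to u'. -/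
theorem result {F V : Type*} [Field F] [Finite F] [AddCommGroup V] [Module F V] [Module.Finite F V]
    (Q : QuadraticForm F V) (hQ : Q.Anisotropic) (n : ℕ) (hn : 2 ≤ n) (u u' : Fin n → V)
    (h2 : ∀ i j : Fin n, i ≠ j → ∃ (φ : Q.IsometryEquiv Q) (c : V), φ (u i) + c = u' i ∧ φ (u j) + c = u' j) :
    ∃ (φ : Q.IsometryEquiv Q) (c : V), ∀ i, φ (u i) + c = u' i := by
  classical
  have key : ∀ i j : Fin n, Q (u i - u j) = Q (u' i - u' j) := by
    intro i j
    by_cases hij : i = j
    · subst hij; simp
    · obtain ⟨φ, c, h1, h2'⟩ := h2 i j hij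
      rw [← h1, ← h2', add_sub_add_right_eq_sub, ← map_sub, φ.map_app]
  have polar_eq : ∀ x y : V, QuadraticMap.polar Q x y = Q x + Q y - Q (x - y) := by
    intro x y
    rw [sub_eq_add_neg x y, QuadraticMap.map_add Q, QuadraticMap.map_neg, QuadraticMap.polar_neg_right]
    ring
  let i0 : Fin n := ⟨0, by omega⟩
  obtain ⟨φ, hφ⟩ := extend Q hQ (fun i => u i - u i0) (fun i => u' i - u' i0)
    (fun i => key i i0)
    (fun i j => by
      rw [polar_eq, polar_eq, key i i0, key j i0]
      simp only [sub_sub_sub_cancel_right]
      rw [key i j]) Finset.univ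
  refine ⟨φ, u' i0 - φ (u i0), fun i => ?_⟩
  have h := hφ i (Finset.mem_univ i)
  simp only [map_sub] at h
  rw [sub_eq_sub_iff_add_eq_add] at h
  rw [← add_sub_assoc, sub_eq_iff_eq_add, h]

end Cfsg.Agent.S5754
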