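-- Statement S5763: any two Sylow 2-subgroups of the symmetric group on 8 letters meet non-trivially.
import Cfsg.Statements.S5763

set_option autoImplicit false
open Cfsg

namespace Cfsg.Agent.S5763

/-- the matching involution, as a function -/
def m0f : Fin 8 → Fin 8 := ![1, 0, 3, 2, 5, 4, 7, 6]

/-- the two halves -/
def h0 : Fin 8 → Bool := ![false, false, false, false, true, true, true, true]

/-- membership predicate of the stabiliser of the standard tree, on functions -/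
def InS (f : Fin 8 → Fin 8) : Prop :=
  (∀ i, f (m0f i) = m0f (f i)) ∧ ∀ i j, h0 (f i) = h0 (f j) ↔ h0 i = h0 j

instance decInS : DecidablePred InS := fun f => by unfold InS; infer_instance

def P8 (f : Fin 8 → Fin 8) : Prop := ∀ i, f (f (f (f (f (f (f (f i))))))) = i

instance decP8 : DecidablePred P8 := fun f => by unfold P8; infer_instance

def GP (f : Fin 8 → Fin 8) : Prop :=
  InS (fun i => m0f (f (m0f (f i)))) ∧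
    ((∀ i, m0f (f (m0f (f i))) = i) → InS (fun i => m0f (f i)))

instance decGP : DecidablePred GP := fun f => by unfold GP; infer_instance

theorem m0f_m0f : ∀ i, m0f (m0f i) = i := by decide

theorem m0f_ne : ∀ i, m0f i ≠ i := by decide

/-- the matching involution -/
def m0 : Equiv.Perm (Fin 8) where
  toFun := m0f
  invFun := m0f
  left_inv := m0f_m0f
  right_inv := m0f_m0f

theorem m0_sq : m0 * m0 = 1 := Equiv.ext m0f_m0f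

theorem m0_inv : m0⁻¹ = m0 := inv_eq_of_mul_eq_one_left m0_sq

/-- the stabiliser of the standard tree structure -/
def S : Subgroup (Equiv.Perm (Fin 8)) where
  carrier := {σ | InS σ}
  mul_mem' := by
    intro a b ha hb
    refine ⟨fun i => ?_, fun i j => ?_⟩
    · show a (b (m0f i)) = m0f (a (b i))
      rw [hb.1, ha.1]
    · show h0 (a (b i)) = h0 (a (b j)) ↔ h0 i = h0 j
      rw [ha.2, hb.2]
  one_mem' := ⟨fun _ => rfl, fun _ _ => Iff.rfl⟩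
  inv_mem' := by
    intro a ha
    refine ⟨fun i => ?_, fun i j => ?_⟩
    · apply a.injective
      rw [ha.1]
      simp
    · have := ha.2 (a⁻¹ i) (a⁻¹ j)
      simp only [Equiv.Perm.coe_inv, Equiv.apply_symm_apply] at this
      exact this.symm

theorem mem_S (σ : Equiv.Perm (Fin 8)) : σ ∈ S ↔ InS σ := Iff.rfl

theorem pow8_aux :
    ∀ a0 : Fin 8,
    ∀ a1 : Fin 8, a1 = m0f a0 →
    ∀ a2 : Fin 8, (a2 ≠ a0 ∧ a2 ≠ a1 ∧ h0 a2 = h0 a0) →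
    ∀ a3 : Fin 8, a3 = m0f a2 →
    ∀ a4 : Fin 8, h0 a4 ≠ h0 a0 →
    ∀ a5 : Fin 8, a5 = m0f a4 →
    ∀ a6 : Fin 8, (a6 ≠ a4 ∧ a6 ≠ a5 ∧ h0 a6 = h0 a4) →
    ∀ a7 : Fin 8, a7 = m0f a6 →
    P8 ![a0, a1, a2, a3, a4, a5, a6, a7] := by
  decide +kernel

theorem tup_eq (f : Fin 8 → Fin 8) : ![f 0, f 1, f 2, f 3, f 4, f 5, f 6, f 7] = f := by
  funext i
  fin_cases i <;> rfl

theorem pow8 (σ : Equiv.Perm (Fin 8)) (hσ : σ ∈ S) : σ ^ 8 = 1 := by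
  have h1 := hσ.1
  have h2 := hσ.2
  have key := pow8_aux (σ 0) (σ 1) (h1 0) (σ 2)
    ⟨σ.injective.ne (by decide), σ.injective.ne (by decide), (h2 2 0).mpr (by decide)⟩
    (σ 3) (h1 2) (σ 4) (fun h => absurd ((h2 4 0).mp h) (by decide))
    (σ 5) (h1 4) (σ 6)
    ⟨σ.injective.ne (by decide), σ.injective.ne (by decide), (h2 6 4).mpr (by decide)⟩
    (σ 7) (h1 6)
  rw [tup_eq] at key
  exact Equiv.ext key

theorem S_pgroup : IsPGroup 2 S := by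
  intro g
  refine ⟨3, ?_⟩
  apply Subtype.ext
  have := pow8 g.1 g.2
  simpa using this

theorem swap_mem : ∀ k : Fin 8, Equiv.swap k (m0f k) ∈ S := by
  intro k
  rw [mem_S]
  revert k
  decide

set_option synthInstance.maxSize 100000 in
set_option synthInstance.maxHeartbeats 4000000 in
theorem G_aux :
    ∀ b0 : Fin 8, (b0 ≠ 0 ∧ b0 ≠ m0f 0) →
    ∀ b1 : Fin 8, (b1 ≠ 1 ∧ b1 ≠ m0f 1 ∧ (b0 = 1 ↔ b1 = 0)) →
    ∀ b2 : Fin 8, (b2 ≠ 2 ∧ b2 ≠ m0f 2 ∧ (b0 = 2 ↔ b2 = 0) ∧ (b1 = 2 ↔ b2 = 1)) →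
    ∀ b3 : Fin 8, (b3 ≠ 3 ∧ b3 ≠ m0f 3 ∧ (b0 = 3 ↔ b3 = 0) ∧ (b1 = 3 ↔ b3 = 1) ∧ (b2 = 3 ↔ b3 = 2)) →
    ∀ b4 : Fin 8, (b4 ≠ 4 ∧ b4 ≠ m0f 4 ∧ (b0 = 4 ↔ b4 = 0) ∧ (b1 = 4 ↔ b4 = 1) ∧ (b2 = 4 ↔ b4 = 2) ∧ (b3 = 4 ↔ b4 = 3)) →
    ∀ b5 : Fin 8, (b5 ≠ 5 ∧ b5 ≠ m0f 5 ∧ (b0 = 5 ↔ b5 = 0) ∧ (b1 = 5 ↔ b5 = 1) ∧ (b2 = 5 ↔ b5 = 2) ∧ (b3 = 5 ↔ b5 = 3) ∧ (b4 = 5 ↔ b5 = 4)) →
    ∀ b6 : Fin 8, (b6 ≠ 6 ∧ b6 ≠ m0f 6 ∧ (b0 = 6 ↔ b6 = 0) ∧ (b1 = 6 ↔ b6 = 1) ∧ (b2 = 6 ↔ b6 = 2) ∧ (b3 = 6 ↔ b6 = 3) ∧ (b4 = 6 ↔ b6 = 4) ∧ (b5 = 6 ↔ b6 = 5)) →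
    ∀ b7 : Fin 8, (b7 ≠ 7 ∧ b7 ≠ m0f 7 ∧ (b0 = 7 ↔ b7 = 0) ∧ (b1 = 7 ↔ b7 = 1) ∧ (b2 = 7 ↔ b7 = 2) ∧ (b3 = 7 ↔ b7 = 3) ∧ (b4 = 7 ↔ b7 = 4) ∧ (b5 = 7 ↔ b7 = 5) ∧ (b6 = 7 ↔ b7 = 6)) →
    GP ![b0, b1, b2, b3, b4, b5, b6, b7] := by
  decide +kernel

theorem G (m : Equiv.Perm (Fin 8)) (hm : m * m = 1) (hfp : ∀ i, m i ≠ i) (hnc : ∀ i, m i ≠ m0f i) :
    (m0 * m) * (m0 * m) ∈ S ∧ ((m0 * m) * (m0 * m) = 1 → m0 * m ∈ S) := by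
  have hmm : ∀ i, m (m i) = i := fun i => by
    have := congrArg (fun f : Equiv.Perm (Fin 8) => f i) hm
    simpa using this
  have hinv : ∀ l k, m l = k ↔ m k = l := by
    intro l k
    constructor
    · intro h; rw [← h, hmm]
    · intro h; rw [← h, hmm]
  have key := G_aux (m 0) ⟨hfp 0, hnc 0⟩ (m 1) ⟨hfp 1, hnc 1, hinv 0 1⟩ (m 2) ⟨hfp 2, hnc 2, hinv 0 2, hinv 1 2⟩ (m 3) ⟨hfp 3, hnc 3, hinv 0 3, hinv 1 3, hinv 2 3⟩ (m 4) ⟨hfp 4, hnc 4, hinv 0 4, hinv 1 4, hinv 2 4, hinv 3 4⟩ (m 5) ⟨hfp 5, hnc 5, hinv 0 5, hinv 1 5, hinv 2 5, hinv 3 5, hinv 4 5⟩ (m 6) ⟨hfp 6, hnc 6, hinv 0 6, hinv 1 6, hinv 2 6, hinv 3 6, hinv 4 6, hinv 5 6⟩ (m 7) ⟨hfp 7, hnc 7, hinv 0 7, hinv 1 7, hinv 2 7, hinv 3 7, hinv 4 7, hinv 5 7, hinv 6 7⟩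
  rw [tup_eq] at key
  refine ⟨key.1, fun h => key.2 (fun i => ?_)⟩
  have := congrArg (fun f : Equiv.Perm (Fin 8) => f i) h
  exact this

theorem core (y : Equiv.Perm (Fin 8)) :
    ∃ σ : Equiv.Perm (Fin 8), σ ≠ 1 ∧ σ ∈ S ∧ y⁻¹ * σ * y ∈ S := by
  by_cases hc : ∃ j, y (m0f j) = m0f (y j)
  · obtain ⟨j, hj⟩ := hc
    refine ⟨Equiv.swap (y j) (m0f (y j)), ?_, swap_mem (y j), ?_⟩
    · rw [Ne, Equiv.swap_eq_one_iff]
      exact fun h => m0f_ne (y j) h.symm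
    · have : y⁻¹ * Equiv.swap (y j) (m0f (y j)) * y = Equiv.swap j (m0f j) := by
        rw [← hj, Equiv.swap_apply_apply]
        group
      rw [this]
      exact swap_mem j
  · push Not at hc
    have hm1 : (y * m0 * y⁻¹) * (y * m0 * y⁻¹) = 1 := by
      have : (y * m0 * y⁻¹) * (y * m0 * y⁻¹) = y * (m0 * m0) * y⁻¹ := by group
      rw [this, m0_sq]; group
    have hm1' : (y⁻¹ * m0 * y) * (y⁻¹ * m0 * y) = 1 := by
      have : (y⁻¹ * m0 * y) * (y⁻¹ * m0 * y) = y⁻¹ * (m0 * m0) * y := by group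
      rw [this, m0_sq]; group
    have hfp1 : ∀ i, (y * m0 * y⁻¹) i ≠ i := by
      intro i h
      have h' : y (m0f (y⁻¹ i)) = i := h
      apply m0f_ne (y⁻¹ i)
      apply y.injective
      rw [h']; simp
    have hfp1' : ∀ i, (y⁻¹ * m0 * y) i ≠ i := by
      intro i h
      have h' : y⁻¹ (m0f (y i)) = i := h
      apply m0f_ne (y i)
      have := congrArg y h'
      simpa using this
    have hnc1 : ∀ i, (y * m0 * y⁻¹) i ≠ m0f i := by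
      intro i h
      have h' : y (m0f (y⁻¹ i)) = m0f i := h
      apply hc (y⁻¹ i)
      rw [h']; simp
    have hnc1' : ∀ i, (y⁻¹ * m0 * y) i ≠ m0f i := by
      intro i h
      have h' : y⁻¹ (m0f (y i)) = m0f i := h
      apply hc i
      have := congrArg y h'
      simpa using this.symm
    obtain ⟨g1, g2⟩ := G _ hm1 hfp1 hnc1
    obtain ⟨g1', g2'⟩ := G _ hm1' hfp1' hnc1'
    have hconj : y⁻¹ * (m0 * (y * m0 * y⁻¹)) * y = (m0 * (y⁻¹ * m0 * y))⁻¹ := by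
      have : (m0 * (y⁻¹ * m0 * y))⁻¹ = y⁻¹ * m0⁻¹ * y * m0⁻¹ := by group
      rw [this, m0_inv]; group
    by_cases h2 : (m0 * (y * m0 * y⁻¹)) * (m0 * (y * m0 * y⁻¹)) = 1
    · refine ⟨m0 * (y * m0 * y⁻¹), ?_, g2 h2, ?_⟩
      · intro h
        have h0' := congrArg (fun f : Equiv.Perm (Fin 8) => f 0) h
        have h0'' : m0f ((y * m0 * y⁻¹) 0) = 0 := h0'
        apply hnc1 0
        rw [← m0f_m0f ((y * m0 * y⁻¹) 0), h0'']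
      · rw [hconj]
        apply S.inv_mem
        apply g2'
        have e : (m0 * (y⁻¹ * m0 * y)) = (y⁻¹ * (m0 * (y * m0 * y⁻¹)) * y)⁻¹ := by
          rw [hconj, inv_inv]
        have e2 : (y⁻¹ * (m0 * (y * m0 * y⁻¹)) * y)⁻¹ * (y⁻¹ * (m0 * (y * m0 * y⁻¹)) * y)⁻¹
            = y⁻¹ * ((m0 * (y * m0 * y⁻¹)) * (m0 * (y * m0 * y⁻¹)))⁻¹ * y := by group
        rw [e, e2, h2]; group
    · refine ⟨(m0 * (y * m0 * y⁻¹)) * (m0 * (y * m0 * y⁻¹)), h2, g1, ?_⟩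
      have e : y⁻¹ * ((m0 * (y * m0 * y⁻¹)) * (m0 * (y * m0 * y⁻¹))) * y
          = (y⁻¹ * (m0 * (y * m0 * y⁻¹)) * y) * (y⁻¹ * (m0 * (y * m0 * y⁻¹)) * y) := by group
      rw [e, hconj, ← mul_inv_rev]
      exact S.inv_mem g1'

/-- In the symmetric group on 8 letters any two Sylow 2-subgroups have non-trivial intersection: for a Sylow 2-subgroup H and every element x, H ∩ xHx⁻¹ ≠ 1. -/
theorem result (H : Sylow 2 (Equiv.Perm (Fin 8))) (x : Equiv.Perm (Fin 8)) :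
    (H : Subgroup (Equiv.Perm (Fin 8))) ⊓ (H : Subgroup (Equiv.Perm (Fin 8))).map (MulAut.conj x).toMonoidHom ≠ ⊥ := by
  obtain ⟨Q, hQ⟩ := S_pgroup.exists_le_sylow
  obtain ⟨g, rfl⟩ := MulAction.exists_smul_eq (Equiv.Perm (Fin 8)) Q H
  obtain ⟨σ, hσ1, hσS, hσy⟩ := core (g⁻¹ * x * g)
  have memQ : ∀ τ : Equiv.Perm (Fin 8), τ ∈ S →
      g * τ * g⁻¹ ∈ ((g • Q : Sylow 2 (Equiv.Perm (Fin 8))) : Subgroup (Equiv.Perm (Fin 8))) := by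
    intro τ hτ
    rw [Sylow.coe_subgroup_smul]
    refine ⟨τ, hQ hτ, ?_⟩
    simp [MulAut.conj_apply]
  intro hbot
  have hmem : g * σ * g⁻¹ ∈ ((g • Q : Sylow 2 (Equiv.Perm (Fin 8))) : Subgroup (Equiv.Perm (Fin 8))) ⊓
      ((g • Q : Sylow 2 (Equiv.Perm (Fin 8))) : Subgroup (Equiv.Perm (Fin 8))).map (MulAut.conj x).toMonoidHom := by
    refine Subgroup.mem_inf.mpr ⟨memQ σ hσS, Subgroup.mem_map.mpr
      ⟨g * ((g⁻¹ * x * g)⁻¹ * σ * (g⁻¹ * x * g)) * g⁻¹, memQ _ hσy, ?_⟩⟩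
    simp only [MulEquiv.coe_toMonoidHom, MulAut.conj_apply]
    group
  rw [hbot, Subgroup.mem_bot] at hmem
  apply hσ1
  have : σ = g⁻¹ * (g * σ * g⁻¹) * g := by group
  rw [this, hmem]; group

end Cfsg.Agent.S5763
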