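import Cfsg.Statements.S5885
-- import your own Cfsg.Agent.* helpers here

set_option autoImplicit false
open Cfsg

namespace Cfsg.Agent.S5885

theorem interval_of_isCoatom_subgroupOf {G : Type*} [Group G] (H M : Subgroup G) (hHM : H ≤ M)
    (hmax : IsCoatom (H.subgroupOf M)) (J : Subgroup G) (hHJ : H ≤ J) (hJM : J ≤ M) :
    J = H ∨ J = M := by
  by_cases h : J.subgroupOf M = H.subgroupOf M
  · left
    have h1 := congrArg (Subgroup.map M.subtype) h
    rwa [Subgroup.map_subgroupOf_eq_of_le hJM, Subgroup.map_subgroupOf_eq_of_le hHM] at h1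
  · right
    have hlt : H.subgroupOf M < J.subgroupOf M :=
      lt_of_le_of_ne (Subgroup.subgroupOf_mono M hHJ) (Ne.symm h)
    have h1 := hmax.2 _ hlt
    rw [Subgroup.subgroupOf_eq_top] at h1
    exact le_antisymm hJM h1

theorem isCoatom_subgroupOf_of_interval {G : Type*} [Group G] (H K : Subgroup G) (hHK : H ≤ K)
    (hne : H ≠ K) (h : ∀ L : Subgroup G, H ≤ L → L ≤ K → L = H ∨ L = K) :
    IsCoatom (H.subgroupOf K) := by
  constructor
  · rw [Ne, Subgroup.subgroupOf_eq_top]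
    intro hKH
    exact hne (le_antisymm hHK hKH)
  · intro L' hlt
    have h1 : H ≤ L'.map K.subtype := by
      have h0 := Subgroup.map_mono (f := K.subtype) hlt.le
      rwa [Subgroup.map_subgroupOf_eq_of_le hHK] at h0
    have h2 : L'.map K.subtype ≤ K := Subgroup.map_subtype_le L'
    have h4 : (L'.map K.subtype).subgroupOf K = L' :=
      Subgroup.comap_map_eq_self_of_injective K.subtype_injective L'
    rcases h _ h1 h2 with h3 | h3
    · exfalso
      rw [h3] at h4
      exact hlt.ne h4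
    · rw [h3, Subgroup.subgroupOf_self] at h4
      exact h4.symm

theorem exists_three_cycle {G : Type*} [Group G] [Finite G] (n : ℕ)
    (hA : ∀ P : Subgroup (Equiv.Perm (Fin n)), MulAction.IsPreprimitive P (Fin n) →
      alternatingGroup (Fin n) ≤ P)
    (M : Subgroup G) (hM : IsCoatom M) (hn : M.index = n) (x y z : G ⧸ M) (hxy : x ≠ y) (hxz : x ≠ z)
    (hyz : y ≠ z) :
    ∃ g : G, g • x = y ∧ g • y = z ∧ ∀ w, w ≠ x → w ≠ y → w ≠ z → g • w = w := by
  classical
  have hcard : Nat.card (G ⧸ M) = Nat.card (Fin n) := by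
    rw [Nat.card_fin, ← hn, Subgroup.index_eq_card]
  have hnontriv : Nontrivial (G ⧸ M) := ⟨⟨x, y, hxy⟩⟩
  have hprim : MulAction.IsPreprimitive G (G ⧸ M) := by
    rw [← MulAction.isCoatom_stabilizer_iff_preprimitive G ((1 : G) : G ⧸ M),
      MulAction.stabilizer_quotient]
    exact hM
  obtain ⟨ε⟩ := Finite.card_eq.mp hcard
  let ρ : G →* Equiv.Perm (Fin n) :=
    (ε.permCongrHom : Equiv.Perm (G ⧸ M) →* Equiv.Perm (Fin n)).comp (MulAction.toPermHom G (G ⧸ M))
  have hρ : ∀ g w, ρ g (ε w) = ε (g • w) := by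
    intro g w
    simp [ρ, Equiv.permCongrHom]
  let φ : G → ρ.range := fun g => ⟨ρ g, g, rfl⟩
  let f : (G ⧸ M) →ₑ[φ] Fin n :=
    { toFun := ε
      map_smul' := by
        intro g w
        exact (hρ g w).symm }
  have hprim' : MulAction.IsPreprimitive ρ.range (Fin n) :=
    MulAction.IsPreprimitive.of_surjective (f := f) ε.surjective
  have hle := hA ρ.range hprim'
  have hσ : Equiv.swap (ε x) (ε y) * Equiv.swap (ε y) (ε z) ∈ alternatingGroup (Fin n) := by
    rw [Equiv.Perm.mem_alternatingGroup, map_mul, Equiv.Perm.sign_swap (ε.injective.ne hxy),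
      Equiv.Perm.sign_swap (ε.injective.ne hyz)]
    rfl
  obtain ⟨g, hg⟩ := hle hσ
  have hgw : ∀ w, ε (g • w) = (Equiv.swap (ε x) (ε y) * Equiv.swap (ε y) (ε z)) (ε w) := by
    intro w
    rw [← hρ g w, hg]
  refine ⟨g, ?_, ?_, ?_⟩
  · apply ε.injective
    rw [hgw, Equiv.Perm.mul_apply,
      Equiv.swap_apply_of_ne_of_ne (ε.injective.ne hxy) (ε.injective.ne hxz), Equiv.swap_apply_left]
  · apply ε.injective
    rw [hgw, Equiv.Perm.mul_apply, Equiv.swap_apply_left,
      Equiv.swap_apply_of_ne_of_ne (ε.injective.ne (Ne.symm hxz)) (ε.injective.ne (Ne.symm hyz))]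
  · intro w hwx hwy hwz
    apply ε.injective
    rw [hgw, Equiv.Perm.mul_apply,
      Equiv.swap_apply_of_ne_of_ne (ε.injective.ne hwy) (ε.injective.ne hwz),
      Equiv.swap_apply_of_ne_of_ne (ε.injective.ne hwx) (ε.injective.ne hwy)]

section
open scoped Pointwise

theorem main_aux {G : Type*} [Group G]
    [Finite G] (n : ℕ) (hodd : Odd n)
    (hA : ∀ P : Subgroup (Equiv.Perm (Fin n)), MulAction.IsPreprimitive P (Fin n) → alternatingGroup (Fin n) ≤ P)
    (M : Subgroup G) (hM : IsCoatom M) (hn : M.index = n) (H : Subgroup G) (hHM : H ≤ M)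
    (hmax : IsCoatom (H.subgroupOf M)) (K : Subgroup G) (hK : IsCoatom K) (hHK : H ≤ K) :
    IsCoatom (H.subgroupOf K) := by
  classical
  by_cases hKM : K = M
  · subst hKM
    exact hmax
  have hstab : ∀ g : G, g • ((1 : G) : G ⧸ M) = ((1 : G) : G ⧸ M) ↔ g ∈ M := by
    intro g
    rw [← MulAction.mem_stabilizer_iff, MulAction.stabilizer_quotient]
  have hint := interval_of_isCoatom_subgroupOf H M hHM hmax
  have hMK : M ⊓ K = H := by
    rcases hint (M ⊓ K) (le_inf hHM hHK) inf_le_left with h | h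
    · exact h
    · exfalso
      have hMK' : M ≤ K := by
        rw [← h]
        exact inf_le_right
      exact hKM ((hM.le_iff_eq hK.1).mp hMK')
  have hne : H ≠ K := by
    intro h
    apply hKM
    have hKM' : K ≤ M := h ▸ hHM
    exact ((hK.le_iff_eq hM.1).mp hKM').symm
  apply isCoatom_subgroupOf_of_interval H K hHK hne
  intro L hHL hLK
  by_contra hcon
  push Not at hcon
  obtain ⟨hLH, hLK'⟩ := hcon
  have haB : ((1 : G) : G ⧸ M) ∈ (fun l : G => l • ((1 : G) : G ⧸ M)) '' (L : Set G) :=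
    ⟨1, L.one_mem, one_smul _ _⟩
  have F1 : ∀ k ∈ K, k • ((1 : G) : G ⧸ M) ∈ (fun l : G => l • ((1 : G) : G ⧸ M)) '' (L : Set G) →
      k ∈ L := by
    rintro k hk ⟨l, hl, hla⟩
    have h1 : (l⁻¹ * k) • ((1 : G) : G ⧸ M) = ((1 : G) : G ⧸ M) := by
      rw [mul_smul, ← hla]
      exact inv_smul_smul _ _
    have h2 : l⁻¹ * k ∈ M ⊓ K := ⟨(hstab _).mp h1, K.mul_mem (K.inv_mem (hLK hl)) hk⟩
    rw [hMK] at h2
    have h3 := L.mul_mem hl (hHL h2)
    rwa [mul_inv_cancel_left] at h3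
  have Binv : ∀ l ∈ L, ∀ ω ∈ (fun l : G => l • ((1 : G) : G ⧸ M)) '' (L : Set G),
      l • ω ∈ (fun l : G => l • ((1 : G) : G ⧸ M)) '' (L : Set G) := by
    rintro l hl _ ⟨l', hl', rfl⟩
    exact ⟨l * l', L.mul_mem hl hl', mul_smul _ _ _⟩
  obtain ⟨l₀, hl₀L, hl₀H⟩ := SetLike.exists_of_lt (lt_of_le_of_ne hHL (Ne.symm hLH))
  obtain ⟨k, hkK, hkL⟩ := SetLike.exists_of_lt (lt_of_le_of_ne hLK hLK')
  have hbB : l₀ • ((1 : G) : G ⧸ M) ∈ (fun l : G => l • ((1 : G) : G ⧸ M)) '' (L : Set G) :=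
    ⟨l₀, hl₀L, rfl⟩
  have hba : l₀ • ((1 : G) : G ⧸ M) ≠ ((1 : G) : G ⧸ M) := by
    intro h
    apply hl₀H
    rw [← hMK]
    exact ⟨(hstab _).mp h, hLK hl₀L⟩
  have hkB : ∀ ω ∈ (fun l : G => l • ((1 : G) : G ⧸ M)) '' (L : Set G),
      k • ω ∉ (fun l : G => l • ((1 : G) : G ⧸ M)) '' (L : Set G) := by
    rintro _ ⟨l, hl, rfl⟩ h
    have h' : (k * l) • ((1 : G) : G ⧸ M) ∈ (fun l : G => l • ((1 : G) : G ⧸ M)) '' (L : Set G) := by
      rw [mul_smul]
      exact h
    have h1 := F1 (k * l) (K.mul_mem hkK (hLK hl)) h'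
    apply hkL
    have h2 := L.mul_mem h1 (L.inv_mem hl)
    rwa [mul_inv_cancel_right] at h2
  have hcB := hkB _ haB
  have hc'B := hkB _ hbB
  have hcc' : k • ((1 : G) : G ⧸ M) ≠ k • l₀ • ((1 : G) : G ⧸ M) := by
    intro h
    exact hba ((MulAction.injective k h).symm)
  have hdisj : Disjoint ((fun l : G => l • ((1 : G) : G ⧸ M)) '' (L : Set G))
      (k • ((fun l : G => l • ((1 : G) : G ⧸ M)) '' (L : Set G))) := by
    rw [Set.disjoint_left]
    rintro ω hω ⟨ω', hω', rfl⟩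
    exact hkB ω' hω' hω
  have hex : ∃ e, e ∉ (fun l : G => l • ((1 : G) : G ⧸ M)) '' (L : Set G) ∧
      e ∉ k • ((fun l : G => l • ((1 : G) : G ⧸ M)) '' (L : Set G)) := by
    by_contra hcon
    push Not at hcon
    have huniv : (fun l : G => l • ((1 : G) : G ⧸ M)) '' (L : Set G) ∪
        k • ((fun l : G => l • ((1 : G) : G ⧸ M)) '' (L : Set G)) = Set.univ := by
      rw [Set.eq_univ_iff_forall]
      intro e
      by_cases he : e ∈ (fun l : G => l • ((1 : G) : G ⧸ M)) '' (L : Set G)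
      · exact Or.inl he
      · exact Or.inr (hcon e he)
    have h1 := Set.ncard_union_eq hdisj
    have h2 : (k • ((fun l : G => l • ((1 : G) : G ⧸ M)) '' (L : Set G))).ncard =
        ((fun l : G => l • ((1 : G) : G ⧸ M)) '' (L : Set G)).ncard :=
      Set.ncard_image_of_injective _ (MulAction.injective k)
    rw [huniv, Set.ncard_univ, h2, ← Subgroup.index_eq_card, hn] at h1
    obtain ⟨m, hm⟩ := hodd
    omega
  obtain ⟨e, heB, hekB⟩ := hex
  have hckB : k • ((1 : G) : G ⧸ M) ∈ k • ((fun l : G => l • ((1 : G) : G ⧸ M)) '' (L : Set G)) :=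
    Set.smul_mem_smul_set haB
  have hc'kB : k • l₀ • ((1 : G) : G ⧸ M) ∈
      k • ((fun l : G => l • ((1 : G) : G ⧸ M)) '' (L : Set G)) :=
    Set.smul_mem_smul_set hbB
  have hHJ : H ≤ M ⊓ MulAction.stabilizer G ((fun l : G => l • ((1 : G) : G ⧸ M)) '' (L : Set G)) := by
    intro h hh
    refine Subgroup.mem_inf.mpr ⟨hHM hh, ?_⟩
    rw [MulAction.mem_stabilizer_iff]
    ext ω
    rw [Set.mem_smul_set_iff_inv_smul_mem]
    constructor
    · intro hω
      have h1 := Binv h (hHL hh) _ hω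
      rwa [smul_inv_smul] at h1
    · intro hω
      exact Binv h⁻¹ (L.inv_mem (hHL hh)) _ hω
  have hJH : M ⊓ MulAction.stabilizer G ((fun l : G => l • ((1 : G) : G ⧸ M)) '' (L : Set G)) = H := by
    rcases hint _ hHJ inf_le_left with h | h
    · exact h
    · exfalso
      obtain ⟨g, hg1, -, hg3⟩ := exists_three_cycle n hA M hM hn (l₀ • ((1 : G) : G ⧸ M))
        (k • ((1 : G) : G ⧸ M)) (k • l₀ • ((1 : G) : G ⧸ M))
        (fun h => hcB (h ▸ hbB)) (fun h => hc'B (h ▸ hbB)) hcc'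
      have hgM : g ∈ M := (hstab g).mp (hg3 _ (Ne.symm hba) (fun h => hcB (h ▸ haB))
        (fun h => hc'B (h ▸ haB)))
      rw [← h] at hgM
      have h1 := MulAction.mem_stabilizer_iff.mp hgM.2
      apply hcB
      rw [← hg1]
      have h2 : g • l₀ • ((1 : G) : G ⧸ M) ∈
          g • ((fun l : G => l • ((1 : G) : G ⧸ M)) '' (L : Set G)) := Set.smul_mem_smul_set hbB
      rw [h1] at h2
      exact h2
  obtain ⟨g, hg1, hg2, hg3⟩ := exists_three_cycle n hA M hM hn (k • ((1 : G) : G ⧸ M))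
    (k • l₀ • ((1 : G) : G ⧸ M)) e hcc' (fun h => hekB (h ▸ hckB)) (fun h => hekB (h ▸ hc'kB))
  have hfix : ∀ ω ∈ (fun l : G => l • ((1 : G) : G ⧸ M)) '' (L : Set G), g • ω = ω := by
    intro ω hω
    exact hg3 ω (fun h => hcB (h ▸ hω)) (fun h => hc'B (h ▸ hω)) (fun h => heB (h ▸ hω))
  have hgJ : g ∈ M ⊓ MulAction.stabilizer G ((fun l : G => l • ((1 : G) : G ⧸ M)) '' (L : Set G)) := by
    refine Subgroup.mem_inf.mpr ⟨(hstab g).mp (hfix _ haB), ?_⟩
    rw [MulAction.mem_stabilizer_iff]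
    ext ω
    rw [Set.mem_smul_set_iff_inv_smul_mem]
    constructor
    · intro hω
      have h1 := hfix _ hω
      rw [smul_inv_smul] at h1
      rw [h1]
      exact hω
    · intro hω
      have h1 := hfix _ hω
      have h2 : g⁻¹ • ω = ω := by
        rw [inv_smul_eq_iff]
        exact h1.symm
      rw [h2]
      exact hω
  rw [hJH] at hgJ
  have hgK : g ∈ K := hHK hgJ
  have hk3 : k⁻¹ * g * k ∈ K := K.mul_mem (K.mul_mem (K.inv_mem hkK) hgK) hkK
  have hk3a : (k⁻¹ * g * k) • ((1 : G) : G ⧸ M) = l₀ • ((1 : G) : G ⧸ M) := by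
    rw [mul_smul, mul_smul, hg1, inv_smul_smul]
  have hk3L : k⁻¹ * g * k ∈ L := F1 _ hk3 (hk3a ▸ hbB)
  have hk3b : (k⁻¹ * g * k) • (l₀ • ((1 : G) : G ⧸ M)) = k⁻¹ • e := by
    rw [mul_smul, mul_smul, hg2]
  have hfin := Binv _ hk3L _ hbB
  rw [hk3b] at hfin
  apply hekB
  rw [Set.mem_smul_set_iff_inv_smul_mem]
  exact hfin

end

/-- Let n be an odd positive integer such that every primitive permutation group of degree n contains the alternating group (so the symmetric and alternating groups are the only primitive groups of degree n). Let G be a finite group, M a maximal subgroup of G of index n, and H a maximal subgroup of M. Then H is a second maximal subgroup of G: H is maximal in every maximal subgroup K of G containing H. -/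
theorem result {G : Type*} [Group G]
    [Finite G] (n : ℕ) (hodd : Odd n)
    (hA : ∀ P : Subgroup (Equiv.Perm (Fin n)), MulAction.IsPreprimitive P (Fin n) → alternatingGroup (Fin n) ≤ P)
    (M : Subgroup G) (hM : IsCoatom M) (hn : M.index = n) (H : Subgroup G) (hHM : H ≤ M)
    (hmax : IsCoatom (H.subgroupOf M)) (K : Subgroup G) (hK : IsCoatom K) (hHK : H ≤ K) :
    IsCoatom (H.subgroupOf K) := by
  exact main_aux n hodd hA M hM hn H hHM hmax K hK hHK

end Cfsg.Agent.S5885
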