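import Cfsg.Statements.S5895
-- import your own Cfsg.Agent.* helpers here
import Cfsg.Agent.Lib.Helper98.Interval

set_option autoImplicit false
open Cfsg

namespace Cfsg.Agent.S5895

section
open Cfsg.Agent.Lib.Helper98

/-- Multiplication by units as automorphisms of the (multiplicative copy of the) additive group. -/
noncomputable def act (F : Type*) [Field F] : Fˣ →* MulAut (Multiplicative F) :=
  (MulAutMultiplicative F).symm.toMonoidHom.comp (DistribMulAction.toAddAut Fˣ F)

theorem act_apply (F : Type*) [Field F] (u : Fˣ) (x : Multiplicative F) :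
    Multiplicative.toAdd (act F u x) = (u : F) * Multiplicative.toAdd x := rfl

/-- The group of maps `x ↦ u x + b` with `u ∈ C`, as a semidirect product. -/
abbrev Aff (F : Type*) [Field F] (C : Subgroup Fˣ) : Type _ :=
  Multiplicative F ⋊[(act F).comp C.subtype] C

variable {F : Type*} [Field F] {C : Subgroup Fˣ}

theorem left_mul (g h : Aff F C) :
    Multiplicative.toAdd (g * h).left =
      Multiplicative.toAdd g.left + ((g.right : Fˣ) : F) * Multiplicative.toAdd h.left := rfl

theorem left_inv (g : Aff F C) :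
    Multiplicative.toAdd (g⁻¹).left =
      (((g.right)⁻¹ : C) : Fˣ) * (- Multiplicative.toAdd g.left) := rfl

theorem right_mul (g h : Aff F C) : (g * h).right = g.right * h.right := rfl

theorem right_inv (g : Aff F C) : (g⁻¹).right = (g.right)⁻¹ := rfl

/-- The subgroup `W ⋊ D` for an additive subgroup `W` stable under `D`. -/
def sub (W : AddSubgroup F) (D : Subgroup C)
    (hW : ∀ u ∈ D, ∀ w ∈ W, ((u : Fˣ) : F) * w ∈ W) : Subgroup (Aff F C) where
  carrier := {g | Multiplicative.toAdd g.left ∈ W ∧ g.right ∈ D}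
  one_mem' := ⟨W.zero_mem, D.one_mem⟩
  mul_mem' := by
    rintro g h ⟨hg1, hg2⟩ ⟨hh1, hh2⟩
    refine ⟨?_, D.mul_mem hg2 hh2⟩
    rw [left_mul]
    exact W.add_mem hg1 (hW _ hg2 _ hh1)
  inv_mem' := by
    rintro g ⟨hg1, hg2⟩
    refine ⟨?_, D.inv_mem hg2⟩
    rw [left_inv]
    exact hW _ (D.inv_mem hg2) _ (W.neg_mem hg1)

theorem mem_sub (W : AddSubgroup F) (D : Subgroup C)
    (hW : ∀ u ∈ D, ∀ w ∈ W, ((u : Fˣ) : F) * w ∈ W) (g : Aff F C) :
    g ∈ sub W D hW ↔ Multiplicative.toAdd g.left ∈ W ∧ g.right ∈ D := Iff.rfl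

theorem hbot (D : Subgroup C) : ∀ u ∈ D, ∀ w ∈ (⊥ : AddSubgroup F), ((u : Fˣ) : F) * w ∈ (⊥ : AddSubgroup F) := by
  intro u _ w hw
  rw [AddSubgroup.mem_bot] at hw ⊢
  rw [hw, mul_zero]

theorem htop (D : Subgroup C) : ∀ u ∈ D, ∀ w ∈ (⊤ : AddSubgroup F), ((u : Fˣ) : F) * w ∈ (⊤ : AddSubgroup F) :=
  fun _ _ _ _ => AddSubgroup.mem_top _

/-- An additive subgroup stable under a generating set of the ring and containing a non-zero
element is everything. -/
theorem addsub_top (S : Set F) (hS : Subring.closure S = ⊤) (W : AddSubgroup F)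
    (hW : ∀ u ∈ S, ∀ w ∈ W, u * w ∈ W) (v : F) (hv : v ∈ W) (hv0 : v ≠ 0) : ∀ x : F, x ∈ W := by
  have key : ∀ r : F, ∀ w ∈ W, r * w ∈ W := by
    intro r
    have hr : r ∈ Subring.closure S := by rw [hS]; exact Subring.mem_top r
    induction hr using Subring.closure_induction with
    | mem x hx => exact hW x hx
    | zero => intro w _; rw [zero_mul]; exact W.zero_mem
    | one => intro w hw; rw [one_mul]; exact hw
    | add x y _ _ hx hy => intro w hw; rw [add_mul]; exact W.add_mem (hx w hw) (hy w hw)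
    | neg x _ hx => intro w hw; rw [neg_mul]; exact W.neg_mem (hx w hw)
    | mul x y _ _ hx hy => intro w hw; rw [mul_assoc]; exact hx _ (hy w hw)
  intro x
  have h := key (x * v⁻¹) v hv
  rwa [mul_assoc, inv_mul_cancel₀ hv0, mul_one] at h

theorem mk_mem_iff (L : Subgroup (Aff F C)) (v : F) (c : C)
    (hc : (⟨Multiplicative.ofAdd 0, c⟩ : Aff F C) ∈ L) :
    (⟨Multiplicative.ofAdd v, c⟩ : Aff F C) ∈ L ↔ (⟨Multiplicative.ofAdd v, 1⟩ : Aff F C) ∈ L := by
  have h1 : (⟨Multiplicative.ofAdd v, c⟩ : Aff F C) =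
      (⟨Multiplicative.ofAdd v, 1⟩ : Aff F C) * ⟨Multiplicative.ofAdd 0, c⟩ := by
    refine SemidirectProduct.ext ?_ ?_
    · change v = v + ((1 : C) : Fˣ) * (0 : F)
      simp
    · change c = 1 * c
      rw [one_mul]
  rw [h1]
  exact L.mul_mem_cancel_right hc

theorem isCoatom_M (hgen : Subring.closure ((fun u : Fˣ => (u : F)) '' (C : Set Fˣ)) = ⊤) :
    IsCoatom (sub (⊥ : AddSubgroup F) (⊤ : Subgroup C) (hbot ⊤)) := by
  constructor
  · intro h
    have h1 : (⟨Multiplicative.ofAdd 1, 1⟩ : Aff F C) ∈ sub (⊥ : AddSubgroup F) (⊤ : Subgroup C) (hbot ⊤) := by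
      rw [h]; exact Subgroup.mem_top _
    have h2 := h1.1
    rw [AddSubgroup.mem_bot] at h2
    exact one_ne_zero h2
  · intro L hL
    obtain ⟨g, hgL, hgM⟩ := SetLike.exists_of_lt hL
    have hM : ∀ c : C, (⟨Multiplicative.ofAdd 0, c⟩ : Aff F C) ∈ L := by
      intro c
      apply hL.le
      exact ⟨AddSubgroup.zero_mem _, Subgroup.mem_top _⟩
    have hv0 : Multiplicative.toAdd g.left ≠ 0 := by
      intro h
      apply hgM
      exact ⟨by rw [AddSubgroup.mem_bot]; exact h, Subgroup.mem_top _⟩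
    have hv : (⟨Multiplicative.ofAdd (Multiplicative.toAdd g.left), 1⟩ : Aff F C) ∈ L :=
      (mk_mem_iff L _ g.right (hM _)).mp hgL
    -- the additive subgroup of translations in L
    let W : AddSubgroup F :=
      { carrier := {w | (⟨Multiplicative.ofAdd w, 1⟩ : Aff F C) ∈ L}
        zero_mem' := L.one_mem
        add_mem' := by
          intro a b ha hb
          have h1 : (⟨Multiplicative.ofAdd (a + b), 1⟩ : Aff F C) =
              (⟨Multiplicative.ofAdd a, 1⟩ : Aff F C) * ⟨Multiplicative.ofAdd b, 1⟩ := by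
            refine SemidirectProduct.ext ?_ ?_
            · change a + b = a + ((1 : C) : Fˣ) * b
              simp
            · change (1 : C) = 1 * 1
              rw [one_mul]
          change (⟨Multiplicative.ofAdd (a + b), 1⟩ : Aff F C) ∈ L
          rw [h1]
          exact L.mul_mem ha hb
        neg_mem' := by
          intro a ha
          have h1 : (⟨Multiplicative.ofAdd (-a), 1⟩ : Aff F C) =
              (⟨Multiplicative.ofAdd a, 1⟩ : Aff F C)⁻¹ := by
            refine SemidirectProduct.ext ?_ ?_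
            · change -a = (((1 : C)⁻¹ : C) : Fˣ) * (-a)
              simp
            · change (1 : C) = 1⁻¹
              rw [inv_one]
          change (⟨Multiplicative.ofAdd (-a), 1⟩ : Aff F C) ∈ L
          rw [h1]
          exact L.inv_mem ha }
    have hWinv : ∀ u ∈ (fun u : Fˣ => (u : F)) '' (C : Set Fˣ), ∀ w ∈ W, u * w ∈ W := by
      rintro _ ⟨u, hu, rfl⟩ w hw
      have h1 : (⟨Multiplicative.ofAdd ((u : F) * w), 1⟩ : Aff F C) =
          (⟨Multiplicative.ofAdd 0, ⟨u, hu⟩⟩ : Aff F C) * ⟨Multiplicative.ofAdd w, 1⟩ *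
            (⟨Multiplicative.ofAdd 0, ⟨u, hu⟩⟩ : Aff F C)⁻¹ := by
        refine SemidirectProduct.ext ?_ ?_
        · change (u : F) * w = (0 + (u : F) * w) + ((⟨u, hu⟩ * 1 : C) : Fˣ) * ((((⟨u, hu⟩ : C)⁻¹ : C) : Fˣ) * (-0))
          simp
        · change (1 : C) = ⟨u, hu⟩ * 1 * (⟨u, hu⟩ : C)⁻¹
          simp
      change (⟨Multiplicative.ofAdd ((u : F) * w), 1⟩ : Aff F C) ∈ L
      rw [h1]
      exact L.mul_mem (L.mul_mem (hM _) hw) (L.inv_mem (hM _))
    have hall := addsub_top _ hgen W hWinv _ hv hv0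
    rw [eq_top_iff]
    intro x _
    have h1 : (⟨Multiplicative.ofAdd (Multiplicative.toAdd x.left), x.right⟩ : Aff F C) ∈ L :=
      (mk_mem_iff L _ x.right (hM _)).mpr (hall _)
    exact h1

theorem index_M [Finite F] :
    (sub (⊥ : AddSubgroup F) (⊤ : Subgroup C) (hbot ⊤)).index = Nat.card F := by
  have hfin : Finite (Aff F C) := Finite.of_equiv _ SemidirectProduct.equivProd.symm
  have h1 := Subgroup.index_mul_card (sub (⊥ : AddSubgroup F) (⊤ : Subgroup C) (hbot ⊤))
  rw [SemidirectProduct.card] at h1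
  have h2 : Nat.card (sub (⊥ : AddSubgroup F) (⊤ : Subgroup C) (hbot ⊤)) = Nat.card C := by
    apply Nat.card_congr
    refine
      { toFun := fun g => g.1.right
        invFun := fun c => ⟨⟨Multiplicative.ofAdd 0, c⟩, ⟨AddSubgroup.zero_mem _, Subgroup.mem_top _⟩⟩
        left_inv := ?_
        right_inv := fun c => rfl }
    rintro ⟨g, hg⟩
    apply Subtype.ext
    have hg1 := hg.1
    rw [AddSubgroup.mem_bot] at hg1
    ext
    · exact hg1.symm
    · rfl
  rw [h2] at h1
  have h3 : Nat.card (Multiplicative F) = Nat.card F := Nat.card_congr Multiplicative.toAdd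
  rw [h3] at h1
  exact Nat.eq_of_mul_eq_mul_right Nat.card_pos h1

theorem isCoatom_H (H₀ : Subgroup C) (hH₀ : IsCoatom H₀) :
    IsCoatom ((sub (⊥ : AddSubgroup F) H₀ (hbot H₀)).subgroupOf
      (sub (⊥ : AddSubgroup F) (⊤ : Subgroup C) (hbot ⊤))) := by
  have hle : sub (⊥ : AddSubgroup F) H₀ (hbot H₀) ≤ sub (⊥ : AddSubgroup F) (⊤ : Subgroup C) (hbot ⊤) :=
    fun g hg => ⟨hg.1, Subgroup.mem_top _⟩
  apply isCoatom_subgroupOf_of_interval _ _ hle
  · intro h
    obtain ⟨c, -, hc⟩ := SetLike.exists_of_lt (lt_top_iff_ne_top.mpr hH₀.1)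
    have h1 : (⟨Multiplicative.ofAdd 0, c⟩ : Aff F C) ∈ sub (⊥ : AddSubgroup F) (⊤ : Subgroup C) (hbot ⊤) :=
      ⟨AddSubgroup.zero_mem _, Subgroup.mem_top _⟩
    rw [← h] at h1
    exact hc h1.2
  · intro J hHJ hJM
    by_cases hJ : J ≤ sub (⊥ : AddSubgroup F) H₀ (hbot H₀)
    · exact Or.inl (le_antisymm hJ hHJ)
    right
    refine le_antisymm hJM ?_
    obtain ⟨g, hgJ, hgH⟩ := SetLike.not_le_iff_exists.mp hJ
    have hg0 := (hJM hgJ).1
    have hgr : g.right ∉ H₀ := fun h => hgH ⟨hg0, h⟩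
    let D : Subgroup C := J.comap (SemidirectProduct.inr : C →* Aff F C)
    have hD : H₀ < D := by
      refine lt_of_le_of_ne ?_ ?_
      · intro c hc
        exact hHJ ⟨AddSubgroup.zero_mem _, hc⟩
      · intro h
        apply hgr
        rw [h]
        change SemidirectProduct.inr g.right ∈ J
        have h2 : (SemidirectProduct.inr g.right : Aff F C) = g := by
          rw [AddSubgroup.mem_bot] at hg0
          ext
          · exact hg0.symm
          · rfl
        rw [h2]
        exact hgJ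
    have hDtop := hH₀.2 D hD
    intro x hx
    have hx0 := hx.1
    have h2 : (SemidirectProduct.inr x.right : Aff F C) = x := by
      rw [AddSubgroup.mem_bot] at hx0
      ext
      · exact hx0.symm
      · rfl
    rw [← h2]
    have h3 : x.right ∈ D := by rw [hDtop]; exact Subgroup.mem_top _
    exact h3

theorem isCoatom_K (H₀ : Subgroup C) (hH₀ : IsCoatom H₀) :
    IsCoatom (sub (⊤ : AddSubgroup F) H₀ (htop H₀)) := by
  constructor
  · intro h
    obtain ⟨c, -, hc⟩ := SetLike.exists_of_lt (lt_top_iff_ne_top.mpr hH₀.1)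
    have h1 : (⟨Multiplicative.ofAdd 0, c⟩ : Aff F C) ∈ sub (⊤ : AddSubgroup F) H₀ (htop H₀) := by
      rw [h]; exact Subgroup.mem_top _
    exact hc h1.2
  · intro L hL
    obtain ⟨g, hgL, hgK⟩ := SetLike.exists_of_lt hL
    have hgr : g.right ∉ H₀ := fun h => hgK ⟨AddSubgroup.mem_top _, h⟩
    have hV : ∀ v : F, (⟨Multiplicative.ofAdd v, 1⟩ : Aff F C) ∈ L := by
      intro v
      apply hL.le
      exact ⟨AddSubgroup.mem_top _, H₀.one_mem⟩
    let D : Subgroup C := L.comap (SemidirectProduct.inr : C →* Aff F C)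
    have hD : H₀ < D := by
      refine lt_of_le_of_ne ?_ ?_
      · intro c hc
        apply hL.le
        exact ⟨AddSubgroup.mem_top _, hc⟩
      · intro h
        apply hgr
        rw [h]
        change (⟨Multiplicative.ofAdd 0, g.right⟩ : Aff F C) ∈ L
        have h2 : (⟨Multiplicative.ofAdd 0, g.right⟩ : Aff F C) =
            (⟨Multiplicative.ofAdd (Multiplicative.toAdd g.left), 1⟩ : Aff F C)⁻¹ * g := by
          refine SemidirectProduct.ext ?_ ?_
          · change (0 : F) = (((1 : C)⁻¹ : C) : Fˣ) * (-(Multiplicative.toAdd g.left)) +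
              (((1 : C)⁻¹ : C) : Fˣ) * Multiplicative.toAdd g.left
            simp
          · change g.right = (1 : C)⁻¹ * g.right
            simp
        rw [h2]
        exact L.mul_mem (L.inv_mem (hV _)) hgL
    have hDtop := hH₀.2 D hD
    rw [eq_top_iff]
    intro x _
    have h3 : x.right ∈ D := by rw [hDtop]; exact Subgroup.mem_top _
    have h4 : (⟨Multiplicative.ofAdd (Multiplicative.toAdd x.left), x.right⟩ : Aff F C) ∈ L :=
      (mk_mem_iff L _ x.right h3).mpr (hV _)
    exact h4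

theorem not_isCoatom_HK (H₀ : Subgroup C)
    (hgen : Subring.closure ((fun u : C => ((u : Fˣ) : F)) '' (H₀ : Set C)) ≠ ⊤) :
    ¬ IsCoatom ((sub (⊥ : AddSubgroup F) H₀ (hbot H₀)).subgroupOf
      (sub (⊤ : AddSubgroup F) H₀ (htop H₀))) := by
  intro hco
  have hle : sub (⊥ : AddSubgroup F) H₀ (hbot H₀) ≤ sub (⊤ : AddSubgroup F) H₀ (htop H₀) :=
    fun g hg => ⟨AddSubgroup.mem_top _, hg.2⟩
  have hWinv : ∀ u ∈ H₀, ∀ w ∈ (Subring.closure ((fun u : C => ((u : Fˣ) : F)) '' (H₀ : Set C))).toAddSubgroup,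
      ((u : Fˣ) : F) * w ∈ (Subring.closure ((fun u : C => ((u : Fˣ) : F)) '' (H₀ : Set C))).toAddSubgroup := by
    intro u hu w hw
    exact Subring.mul_mem _ (Subring.subset_closure ⟨u, hu, rfl⟩) hw
  rcases interval_of_isCoatom_subgroupOf _ _ hle hco
    (sub (Subring.closure ((fun u : C => ((u : Fˣ) : F)) '' (H₀ : Set C))).toAddSubgroup H₀ hWinv)
    (fun g hg => ⟨by rw [AddSubgroup.mem_bot.mp hg.1]; exact AddSubgroup.zero_mem _, hg.2⟩)
    (fun g hg => ⟨AddSubgroup.mem_top _, hg.2⟩) with h | h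
  · have h1 : (⟨Multiplicative.ofAdd 1, 1⟩ : Aff F C) ∈
        sub (Subring.closure ((fun u : C => ((u : Fˣ) : F)) '' (H₀ : Set C))).toAddSubgroup H₀ hWinv :=
      ⟨Subring.one_mem _, H₀.one_mem⟩
    rw [h] at h1
    have h2 := h1.1
    rw [AddSubgroup.mem_bot] at h2
    exact one_ne_zero h2
  · apply hgen
    rw [eq_top_iff]
    intro x _
    have h1 : (⟨Multiplicative.ofAdd x, 1⟩ : Aff F C) ∈ sub (⊤ : AddSubgroup F) H₀ (htop H₀) :=
      ⟨AddSubgroup.mem_top _, H₀.one_mem⟩
    rw [← h] at h1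
    exact h1.1

theorem exists_C (p d : ℕ) [Fact p.Prime] (hd : 2 ≤ d) :
    ∃ C : Subgroup (GaloisField p d)ˣ,
      Subring.closure ((fun u : (GaloisField p d)ˣ => (u : GaloisField p d)) ''
        (C : Set (GaloisField p d)ˣ)) = ⊤ ∧
      ∃ H₀ : Subgroup C, IsCoatom H₀ ∧
        Subring.closure ((fun u : C => ((u : (GaloisField p d)ˣ) : GaloisField p d)) ''
          (H₀ : Set C)) ≠ ⊤ := by
  have htop : (⊤ : Subgroup (GaloisField p d)ˣ) ∈
      {C : Subgroup (GaloisField p d)ˣ | Subring.closure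
        ((fun u : (GaloisField p d)ˣ => (u : GaloisField p d)) '' (C : Set (GaloisField p d)ˣ)) = ⊤} := by
    change Subring.closure _ = ⊤
    rw [eq_top_iff]
    intro x _
    by_cases hx : x = 0
    · rw [hx]
      exact Subring.zero_mem _
    · exact Subring.subset_closure ⟨Units.mk0 x hx, Subgroup.mem_top _, rfl⟩
  obtain ⟨C, hCS, hCmin⟩ := wellFounded_lt.has_min _ ⟨⊤, htop⟩
  have hCS' : Subring.closure
      ((fun u : (GaloisField p d)ˣ => (u : GaloisField p d)) '' (C : Set (GaloisField p d)ˣ)) = ⊤ := hCS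
  refine ⟨C, hCS', ?_⟩
  have hCbot : C ≠ ⊥ := by
    intro h
    have h1 : Subring.closure ((fun u : (GaloisField p d)ˣ => (u : GaloisField p d)) ''
        (C : Set (GaloisField p d)ˣ)) ≤ (algebraMap (ZMod p) (GaloisField p d)).range := by
      rw [Subring.closure_le]
      rintro _ ⟨u, hu, rfl⟩
      rw [h, SetLike.mem_coe, Subgroup.mem_bot] at hu
      subst hu
      exact ⟨1, by simp⟩
    rw [hCS'] at h1
    have hsurj : Function.Surjective (algebraMap (ZMod p) (GaloisField p d)) := by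
      intro x
      exact h1 (Subring.mem_top x)
    have hcard := Nat.card_le_card_of_surjective _ hsurj
    rw [GaloisField.card p d (by omega), Nat.card_zmod] at hcard
    have hp2 : 2 ≤ p := (Fact.out : p.Prime).two_le
    have h3 : p ^ 2 ≤ p ^ d := Nat.pow_le_pow_right (by omega) hd
    nlinarith
  have hne : (⊥ : Subgroup C) ≠ ⊤ := by
    intro h
    apply hCbot
    rw [Subgroup.eq_bot_iff_forall]
    intro x hx
    have h1 : (⟨x, hx⟩ : C) ∈ (⊥ : Subgroup C) := by
      rw [h]
      exact Subgroup.mem_top _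
    rw [Subgroup.mem_bot] at h1
    exact congrArg Subtype.val h1
  obtain ⟨H₀, hH₀, -⟩ := (eq_top_or_exists_le_coatom (⊥ : Subgroup C)).resolve_left hne
  refine ⟨H₀, hH₀, ?_⟩
  intro hgen
  have himg : (fun u : C => ((u : (GaloisField p d)ˣ) : GaloisField p d)) '' (H₀ : Set C) =
      (fun u : (GaloisField p d)ˣ => (u : GaloisField p d)) ''
        ((H₀.map C.subtype : Subgroup (GaloisField p d)ˣ) : Set (GaloisField p d)ˣ) := by
    ext x
    constructor
    · rintro ⟨u, hu, rfl⟩
      exact ⟨u, ⟨u, hu, rfl⟩, rfl⟩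
    · rintro ⟨_, ⟨u, hu, rfl⟩, rfl⟩
      exact ⟨u, hu, rfl⟩
  rw [himg] at hgen
  have hlt : H₀.map C.subtype < C := by
    refine lt_of_le_of_ne (Subgroup.map_subtype_le H₀) ?_
    intro h
    apply hH₀.1
    rw [eq_top_iff]
    intro x _
    have h1 : (x : (GaloisField p d)ˣ) ∈ H₀.map C.subtype := by
      rw [h]
      exact x.2
    obtain ⟨y, hy, hyx⟩ := h1
    have h2 : y = x := Subtype.ext hyx
    rwa [← h2]
  exact hCmin _ hgen hlt

theorem main_aux (p d : ℕ) (hp : p.Prime)
    (hd : 2 ≤ d) :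
    ∃ (G : Type) (_ : Group G) (_ : Finite G) (M H K : Subgroup G), IsCoatom M ∧ M.index = p ^ d ∧ H ≤ M ∧
      IsCoatom (H.subgroupOf M) ∧ IsCoatom K ∧ H ≤ K ∧ ¬ IsCoatom (H.subgroupOf K) := by
  have : Fact p.Prime := ⟨hp⟩
  obtain ⟨C, hC, H₀, hH₀, hgen⟩ := exists_C p d hd
  refine ⟨Aff (GaloisField p d) C, inferInstance, Finite.of_equiv _ SemidirectProduct.equivProd.symm,
    sub ⊥ ⊤ (hbot ⊤), sub ⊥ H₀ (hbot H₀), sub ⊤ H₀ (htop H₀), isCoatom_M hC, ?_, ?_,
    isCoatom_H H₀ hH₀, isCoatom_K H₀ hH₀, ?_, not_isCoatom_HK H₀ hgen⟩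
  · rw [index_M, GaloisField.card p d (by omega)]
  · exact fun g hg => ⟨hg.1, Subgroup.mem_top _⟩
  · exact fun g hg => ⟨AddSubgroup.mem_top _, hg.2⟩

end

/-- For every prime p and every d ≥ 2 there is a finite group G with a maximal subgroup M of index p^d and a maximal subgroup H of M that is not second maximal in G: some maximal subgroup K of G contains H without H being maximal in K. (One may take G the affine group V ⋊ GL(V) of V = 𝔽_p^d, M = GL(V), H the stabiliser in M of a line W of V, and K = V ⋊ H, with H < W ⋊ H < K.) So the prime-index hypothesis in the second-maximality criterion cannot be relaxed to prime-power index. -/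
theorem result (p d : ℕ) (hp : p.Prime)
    (hd : 2 ≤ d) :
    ∃ (G : Type) (_ : Group G) (_ : Finite G) (M H K : Subgroup G), IsCoatom M ∧ M.index = p ^ d ∧ H ≤ M ∧
      IsCoatom (H.subgroupOf M) ∧ IsCoatom K ∧ H ≤ K ∧ ¬ IsCoatom (H.subgroupOf K) := by
  exact main_aux p d hp hd

end Cfsg.Agent.S5895
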