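import Cfsg.Statements.S5902
-- import your own Cfsg.Agent.* helpers here

set_option autoImplicit false
open Cfsg

namespace Cfsg.Agent.S5902

theorem compl_lemma {G : Type*} [Group G] [Finite G] (T X M : Subgroup G)
    (hTX : T ≤ X)
    (hint : ∀ Y : Subgroup G, T ≤ Y → Y ≤ X → ∃ C : Subgroup G, T ≤ C ∧ C ≤ X ∧ Y ⊔ C = X ∧ Y ⊓ C = T)
    (huniq : ∀ M' : Subgroup G, IsCoatom M' → X ≤ M' → M' = M)
    (H : Subgroup G) (hH : ¬ H ≤ M) (hHT : H ⊓ T = ⊥) :
    ∃ C : Subgroup G, H ⊔ C = ⊤ ∧ H ⊓ C = ⊥ := by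
  obtain ⟨C, hTC, hCX, hYC, hYC'⟩ := hint ((H ⊓ X) ⊔ T) le_sup_right (sup_le inf_le_right hTX)
  refine ⟨C, ?_, ?_⟩
  · by_contra hne
    obtain ⟨M', hM', hle⟩ := (eq_top_or_exists_le_coatom (H ⊔ C)).resolve_left hne
    have hX' : X ≤ M' := by
      rw [← hYC]
      refine sup_le (sup_le ?_ ?_) ?_
      · exact inf_le_left.trans (le_sup_left.trans hle)
      · exact hTC.trans (le_sup_right.trans hle)
      · exact le_sup_right.trans hle
    have := huniq M' hM' hX'
    subst this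
    exact hH (le_sup_left.trans hle)
  · have h1 : H ⊓ C ≤ ((H ⊓ X) ⊔ T) ⊓ C :=
      le_inf (le_sup_of_le_left (le_inf inf_le_left (inf_le_right.trans hCX))) inf_le_right
    rw [hYC'] at h1
    have h2 : H ⊓ C ≤ H ⊓ T := le_inf inf_le_left h1
    rw [hHT] at h2
    exact le_bot_iff.mp h2

theorem interval_of_complemented {G : Type*} [Group G] (X : Subgroup G)
    (hK : ComplementedLattice (Subgroup X)) :
    ∀ Y : Subgroup G, ⊥ ≤ Y → Y ≤ X → ∃ C : Subgroup G, ⊥ ≤ C ∧ C ≤ X ∧ Y ⊔ C = X ∧ Y ⊓ C = ⊥ := by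
  intro Y _ hYX
  obtain ⟨C', hC'⟩ := hK.exists_isCompl (Y.subgroupOf X)
  refine ⟨C'.map X.subtype, bot_le, Subgroup.map_subtype_le C', ?_, ?_⟩
  · have h1 : (Y.subgroupOf X ⊔ C').map X.subtype = X := by
      rw [hC'.sup_eq_top, ← MonoidHom.range_eq_map, Subgroup.range_subtype]
    rw [Subgroup.map_sup, Subgroup.map_subgroupOf_eq_of_le hYX] at h1
    exact h1
  · have h1 : (Y.subgroupOf X ⊓ C').map X.subtype = ⊥ := by
      rw [hC'.inf_eq_bot, Subgroup.map_bot]
    rw [Subgroup.map_inf _ _ _ X.subtype_injective, Subgroup.map_subgroupOf_eq_of_le hYX] at h1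
    exact h1

theorem exists_compl_of_not_le_core {G : Type*} [Group G] [Finite G] (X M : Subgroup G)
    (hK : ComplementedLattice (Subgroup X))
    (hXM : X ≤ M) (huniq : ∀ M' : Subgroup G, IsCoatom M' → X ≤ M' → M' = M)
    (H : Subgroup G) (hH : ¬ H ≤ M.normalCore) : ∃ C : Subgroup G, H ⊔ C = ⊤ ∧ H ⊓ C = ⊥ := by
  have hH' : ∃ b : G, ∃ h ∈ H, b * h * b⁻¹ ∉ M := by
    by_contra hcon
    push Not at hcon
    exact hH (fun h hh => fun b => hcon b h hh)
  obtain ⟨b, h, hh, hbh⟩ := hH'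
  let φ : Subgroup G ≃o Subgroup G := MulEquiv.mapSubgroup (MulAut.conj b)
  have hφ : ¬ φ H ≤ M := by
    intro hle
    apply hbh
    apply hle
    change b * h * b⁻¹ ∈ H.map (MulAut.conj b).toMonoidHom
    exact ⟨h, hh, by simp [MulAut.conj_apply]⟩
  obtain ⟨C', h1, h2⟩ := compl_lemma ⊥ X M bot_le (interval_of_complemented X hK) huniq (φ H) hφ
    (inf_bot_eq _)
  refine ⟨φ.symm C', ?_, ?_⟩
  · apply φ.injective
    rw [map_sup, OrderIso.apply_symm_apply, h1, map_top]
  · apply φ.injective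
    rw [map_inf, OrderIso.apply_symm_apply, h2, map_bot]

/-- Let G be a finite group, X a subgroup whose own subgroup lattice is complemented, and suppose X lies in exactly one maximal subgroup M of G. Then every subgroup H of G not contained in the normal core of M has a complement in the subgroup lattice of G (some C with H ⊔ C = G and H ⊓ C = 1); in particular the subgroup lattice of G modulo the normal core of M is complemented. -/
theorem result {G : Type*} [Group G] [Finite G] (X M : Subgroup G)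
    (hK : ComplementedLattice (Subgroup X))
    (hM : IsCoatom M) (hXM : X ≤ M) (huniq : ∀ M' : Subgroup G, IsCoatom M' → X ≤ M' → M' = M) :
    (∀ H : Subgroup G, ¬ H ≤ M.normalCore → ∃ C : Subgroup G, H ⊔ C = ⊤ ∧ H ⊓ C = ⊥) ∧
    ComplementedLattice (Subgroup (G ⧸ M.normalCore)) := by
  refine ⟨fun H hH => exists_compl_of_not_le_core X M hK hXM huniq H hH, ⟨fun Hb => ?_⟩⟩
  by_cases hbot : Hb = ⊥
  · subst hbot
    exact ⟨⊤, isCompl_bot_top⟩
  · have hsurj : Function.Surjective (QuotientGroup.mk' M.normalCore) := QuotientGroup.mk'_surjective _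
    have hH : ¬ Hb.comap (QuotientGroup.mk' M.normalCore) ≤ M.normalCore := by
      intro hle
      apply hbot
      rw [eq_bot_iff]
      intro y hy
      obtain ⟨x, rfl⟩ := hsurj y
      have hx : x ∈ M.normalCore := hle hy
      rw [Subgroup.mem_bot]
      exact (QuotientGroup.eq_one_iff x).mpr hx
    obtain ⟨C, h1, h2⟩ := exists_compl_of_not_le_core X M hK hXM huniq _ hH
    refine ⟨C.map (QuotientGroup.mk' M.normalCore), ?_, ?_⟩
    · rw [disjoint_iff, eq_bot_iff]
      rintro y ⟨hy1, hy2⟩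
      obtain ⟨c, hc, rfl⟩ := hy2
      have : c ∈ Hb.comap (QuotientGroup.mk' M.normalCore) ⊓ C := ⟨hy1, hc⟩
      rw [h2, Subgroup.mem_bot] at this
      subst this
      simp
    · rw [codisjoint_iff]
      have h3 : (Hb.comap (QuotientGroup.mk' M.normalCore) ⊔ C).map (QuotientGroup.mk' M.normalCore) = ⊤ := by
        rw [h1, Subgroup.map_top_of_surjective _ hsurj]
      rw [Subgroup.map_sup, Subgroup.map_comap_eq_self_of_surjective hsurj] at h3
      exact h3

end Cfsg.Agent.S5902
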