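import Cfsg.Statements.S5903
-- import your own Cfsg.Agent.* helpers here

set_option autoImplicit false
open Cfsg

namespace Cfsg.Agent.S5903

theorem compl_lemma {G : Type*} [Group G] [Finite G] (T X M : Subgroup G)
    (hTX : T ≤ X)
    (hint : ∀ Y : Subgroup G, T ≤ Y → Y ≤ X → ∃ C : Subgroup G, T ≤ C ∧ C ≤ X ∧ Y ⊔ C = X ∧ Y ⊓ C = T)
    (huniq : ∀ M' : Subgroup G, IsCoatom M' → X ≤ M' → M' = M)
    (H : Subgroup G) (hH : ¬ H ≤ M) (hHT : H ⊓ T = ⊥) :
    ∃ C : Subgroup G, H ⊔ C = ⊤ ∧ H ⊓ C = ⊥ := by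
  obtain ⟨C, hTC, hCX, hYC, hYC'⟩ := hint ((H ⊓ X) ⊔ T) le_sup_right (sup_le inf_le_right hTX)
  refine ⟨C, ?_, ?_⟩
  · by_contra hne
    obtain ⟨M', hM', hle⟩ := (eq_top_or_exists_le_coatom (H ⊔ C)).resolve_left hne
    have hX' : X ≤ M' := by
      rw [← hYC]
      refine sup_le (sup_le ?_ ?_) ?_
      · exact inf_le_left.trans (le_sup_left.trans hle)
      · exact hTC.trans (le_sup_right.trans hle)
      · exact le_sup_right.trans hle
    have := huniq M' hM' hX'
    subst this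
    exact hH (le_sup_left.trans hle)
  · have h1 : H ⊓ C ≤ ((H ⊓ X) ⊔ T) ⊓ C :=
      le_inf (le_sup_of_le_left (le_inf inf_le_left (inf_le_right.trans hCX))) inf_le_right
    rw [hYC'] at h1
    have h2 : H ⊓ C ≤ H ⊓ T := le_inf inf_le_left h1
    rw [hHT] at h2
    exact le_bot_iff.mp h2

theorem interval_of_quotient {G : Type*} [Group G] (X N : Subgroup G) (hNX : N ≤ X)
    [(N.subgroupOf X).Normal] (hK : ComplementedLattice (Subgroup (X ⧸ N.subgroupOf X))) :
    ∀ Y : Subgroup G, N ≤ Y → Y ≤ X → ∃ C : Subgroup G, N ≤ C ∧ C ≤ X ∧ Y ⊔ C = X ∧ Y ⊓ C = N := by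
  intro Y hNY hYX
  have hker : (QuotientGroup.mk' (N.subgroupOf X)).ker = N.subgroupOf X := QuotientGroup.ker_mk' _
  have hsurj : Function.Surjective (QuotientGroup.mk' (N.subgroupOf X)) := QuotientGroup.mk'_surjective _
  obtain ⟨Cb, hCb⟩ := hK.exists_isCompl ((Y.subgroupOf X).map (QuotientGroup.mk' (N.subgroupOf X)))
  have hNY' : (QuotientGroup.mk' (N.subgroupOf X)).ker ≤ Y.subgroupOf X := by
    rw [hker]
    intro x hx
    exact hNY hx
  have h1 : Y.subgroupOf X ⊔ Cb.comap (QuotientGroup.mk' (N.subgroupOf X)) = ⊤ := by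
    have h3 : (Y.subgroupOf X ⊔ Cb.comap (QuotientGroup.mk' (N.subgroupOf X))).map
        (QuotientGroup.mk' (N.subgroupOf X)) = ⊤ := by
      rw [Subgroup.map_sup, Subgroup.map_comap_eq_self_of_surjective hsurj, hCb.sup_eq_top]
    have h4 := Subgroup.comap_map_eq_self (f := QuotientGroup.mk' (N.subgroupOf X))
      (H := Y.subgroupOf X ⊔ Cb.comap (QuotientGroup.mk' (N.subgroupOf X))) (le_sup_of_le_left hNY')
    rw [h3, Subgroup.comap_top] at h4
    exact h4.symm
  have h2 : Y.subgroupOf X ⊓ Cb.comap (QuotientGroup.mk' (N.subgroupOf X)) = N.subgroupOf X := by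
    have h4 := Subgroup.comap_map_eq_self (f := QuotientGroup.mk' (N.subgroupOf X))
      (H := Y.subgroupOf X) hNY'
    have h5 : Y.subgroupOf X ⊓ Cb.comap (QuotientGroup.mk' (N.subgroupOf X)) =
        (((Y.subgroupOf X).map (QuotientGroup.mk' (N.subgroupOf X))) ⊓ Cb).comap
          (QuotientGroup.mk' (N.subgroupOf X)) := by
      rw [Subgroup.comap_inf, h4]
    rw [h5, hCb.inf_eq_bot, MonoidHom.comap_bot, hker]
  refine ⟨(Cb.comap (QuotientGroup.mk' (N.subgroupOf X))).map X.subtype, ?_,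
    Subgroup.map_subtype_le _, ?_, ?_⟩
  · intro x hx
    refine ⟨⟨x, hNX hx⟩, ?_, rfl⟩
    have hx' : (⟨x, hNX hx⟩ : X) ∈ (QuotientGroup.mk' (N.subgroupOf X)).ker := by
      rw [hker]
      exact hx
    exact MonoidHom.ker_le_comap _ _ hx'
  · have h3 : (Y.subgroupOf X ⊔ Cb.comap (QuotientGroup.mk' (N.subgroupOf X))).map X.subtype = X := by
      rw [h1, ← MonoidHom.range_eq_map, Subgroup.range_subtype]
    rw [Subgroup.map_sup, Subgroup.map_subgroupOf_eq_of_le hYX] at h3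
    exact h3
  · have h3 : (Y.subgroupOf X ⊓ Cb.comap (QuotientGroup.mk' (N.subgroupOf X))).map X.subtype = N := by
      rw [h2, Subgroup.map_subgroupOf_eq_of_le hNX]
    rw [Subgroup.map_inf _ _ _ X.subtype_injective, Subgroup.map_subgroupOf_eq_of_le hYX] at h3
    exact h3

theorem exists_conj {G : Type*} [Group G] [IsSimpleGroup G] (M N : Subgroup G)
    (hM : M ≠ ⊤) (hN : N ≠ ⊥) (hcen : ∀ n ∈ N, ∀ m ∈ M, m * n = n * m)
    (H : Subgroup G) (hHbot : H ≠ ⊥) (hHtop : H ≠ ⊤) :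
    ∃ g : G, (∃ h ∈ H, g * h * g⁻¹ ∉ M) ∧ (∃ n ∈ N, g⁻¹ * n * g ∉ H) := by
  by_contra hcon
  push Not at hcon
  have hKH : Subgroup.closure {x | ∃ g : G, ∃ n ∈ N, x = g⁻¹ * n * g ∧ ∀ n' ∈ N, g⁻¹ * n' * g ∈ H} ≤ H := by
    rw [Subgroup.closure_le]
    rintro x ⟨g, n, hn, rfl, hall⟩
    exact hall n hn
  have key : ∀ g : G, ∀ n ∈ N,
      (g⁻¹ * n * g ∈ Subgroup.closure {x | ∃ g : G, ∃ n ∈ N, x = g⁻¹ * n * g ∧ ∀ n' ∈ N, g⁻¹ * n' * g ∈ H}) ∨
      (∀ h ∈ H, (g⁻¹ * n * g) * h = h * (g⁻¹ * n * g)) := by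
    intro g n hn
    by_cases hall : ∀ n' ∈ N, g⁻¹ * n' * g ∈ H
    · left
      exact Subgroup.subset_closure ⟨g, n, hn, rfl, hall⟩
    · right
      have hM' : ∀ h ∈ H, g * h * g⁻¹ ∈ M := by
        by_contra hc
        push Not at hc
        obtain ⟨h, hh, hh'⟩ := hc
        exact hall (hcon g ⟨h, hh, hh'⟩)
      intro h hh
      have h3 := hcen n hn _ (hM' h hh)
      calc g⁻¹ * n * g * h = g⁻¹ * (n * (g * h * g⁻¹)) * g := by group
        _ = g⁻¹ * ((g * h * g⁻¹) * n) * g := by rw [h3]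
        _ = h * (g⁻¹ * n * g) := by group
  have htop : Subgroup.normalClosure (N : Set G) = ⊤ := by
    have h1 : Subgroup.normalClosure (N : Set G) ≠ ⊥ := by
      intro h
      apply hN
      rw [eq_bot_iff, ← h]
      exact Subgroup.le_normalClosure
    exact (Subgroup.Normal.eq_bot_or_eq_top Subgroup.normalClosure_normal).resolve_left h1
  have hnorm : (Subgroup.closure {x | ∃ g : G, ∃ n ∈ N, x = g⁻¹ * n * g ∧ ∀ n' ∈ N, g⁻¹ * n' * g ∈ H}).Normal := by
    rw [← Subgroup.normalizer_eq_top_iff, eq_top_iff, ← htop]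
    unfold Subgroup.normalClosure
    rw [Subgroup.closure_le]
    intro y hy
    rw [Group.mem_conjugatesOfSet_iff] at hy
    obtain ⟨n, hn, hconj⟩ := hy
    obtain ⟨c, hc⟩ := isConj_iff.mp hconj
    have hy' : y = c⁻¹⁻¹ * n * c⁻¹ := by rw [← hc, inv_inv]
    rcases key c⁻¹ n hn with h1 | h1
    · rw [← hy'] at h1
      exact Subgroup.le_normalizer h1
    · rw [← hy'] at h1
      rw [SetLike.mem_coe, Subgroup.mem_normalizer_iff]
      intro k
      constructor
      · intro hk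
        have h2 := h1 k (hKH hk)
        have h3 : y * k * y⁻¹ = k := by rw [h2]; group
        rw [h3]
        exact hk
      · intro hk
        have h2 := h1 _ (hKH hk)
        have h3 : k = y * k * y⁻¹ := by
          calc k = y⁻¹ * ((y * k * y⁻¹) * y) := by group
            _ = y⁻¹ * (y * (y * k * y⁻¹)) := by rw [h2]
            _ = y * k * y⁻¹ := by group
        rw [h3]
        exact hk
  have hKbot : Subgroup.closure {x | ∃ g : G, ∃ n ∈ N, x = g⁻¹ * n * g ∧ ∀ n' ∈ N, g⁻¹ * n' * g ∈ H} = ⊥ := by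
    refine (hnorm.eq_bot_or_eq_top).resolve_right ?_
    intro h
    apply hHtop
    rw [eq_top_iff, ← h]
    exact hKH
  have hno : ∀ g : G, ¬ ∀ n' ∈ N, g⁻¹ * n' * g ∈ H := by
    intro g hall
    apply hN
    rw [Subgroup.eq_bot_iff_forall]
    intro n hn
    have h1 : g⁻¹ * n * g ∈ Subgroup.closure {x | ∃ g : G, ∃ n ∈ N, x = g⁻¹ * n * g ∧ ∀ n' ∈ N, g⁻¹ * n' * g ∈ H} :=
      Subgroup.subset_closure ⟨g, n, hn, rfl, hall⟩
    rw [hKbot, Subgroup.mem_bot] at h1
    calc n = g * (g⁻¹ * n * g) * g⁻¹ := by group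
      _ = 1 := by rw [h1]; group
  have hcore : H ≤ M.normalCore := by
    intro h hh b
    by_contra hc
    exact hno b (hcon b ⟨h, hh, hc⟩)
  have hcore' : M.normalCore = ⊥ := by
    refine ((Subgroup.normalCore_normal M).eq_bot_or_eq_top).resolve_right ?_
    intro h
    apply hM
    rw [eq_top_iff, ← h]
    exact Subgroup.normalCore_le M
  apply hHbot
  rw [eq_bot_iff, ← hcore']
  exact hcore

/-- Let G be a finite simple group, X a subgroup lying in exactly one maximal subgroup M of G, and N a subgroup of prime order with N ≤ X that is central in M. If the subgroup lattice of X/N is complemented, then the subgroup lattice of G is complemented. -/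
theorem result {G : Type*} [Group G] [Finite G] [IsSimpleGroup G] (X M N : Subgroup G)
    (hM : IsCoatom M) (hXM : X ≤ M) (huniq : ∀ M' : Subgroup G, IsCoatom M' → X ≤ M' → M' = M)
    (hNX : N ≤ X) (hN : (Nat.card N).Prime) (hcen : ∀ n ∈ N, ∀ m ∈ M, m * n = n * m)
    [(N.subgroupOf X).Normal] (hK : ComplementedLattice (Subgroup (X ⧸ N.subgroupOf X))) :
    ComplementedLattice (Subgroup G) := by
  constructor
  intro H
  by_cases hb : H = ⊥
  · subst hb
    exact ⟨⊤, isCompl_bot_top⟩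
  by_cases ht : H = ⊤
  · subst ht
    exact ⟨⊥, isCompl_top_bot⟩
  have hNbot : N ≠ ⊥ := by
    intro h
    subst h
    rw [Subgroup.card_bot] at hN
    exact Nat.not_prime_one hN
  obtain ⟨g, ⟨h, hh, hgh⟩, ⟨n, hn, hgn⟩⟩ := exists_conj M N hM.1 hNbot hcen H hb ht
  let φ : Subgroup G ≃o Subgroup G := MulEquiv.mapSubgroup (MulAut.conj g)
  have hφ : ∀ x, x ∈ φ H ↔ g⁻¹ * x * g ∈ H := by
    intro x
    change x ∈ H.map (MulAut.conj g).toMonoidHom ↔ _
    constructor
    · rintro ⟨y, hy, rfl⟩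
      have : g⁻¹ * (MulAut.conj g).toMonoidHom y * g = y := by
        simp only [MulEquiv.toMonoidHom_eq_coe, MonoidHom.coe_coe, MulAut.conj_apply]
        group
      rw [this]
      exact hy
    · intro hx
      exact ⟨g⁻¹ * x * g, hx, by simp [MulAut.conj_apply, mul_assoc]⟩
  have h1 : ¬ φ H ≤ M := by
    intro hle
    apply hgh
    apply hle
    rw [hφ]
    have : g⁻¹ * (g * h * g⁻¹) * g = h := by group
    rw [this]
    exact hh
  have h2 : φ H ⊓ N = ⊥ := by
    have : Fact (Nat.card N).Prime := ⟨hN⟩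
    rcases Subgroup.eq_bot_or_eq_top_of_prime_card ((φ H ⊓ N).subgroupOf N) with h3 | h3
    · rw [Subgroup.subgroupOf_eq_bot] at h3
      have h4 : φ H ⊓ N ≤ (φ H ⊓ N) ⊓ N := le_inf le_rfl inf_le_right
      rw [h3.eq_bot] at h4
      exact le_bot_iff.mp h4
    · rw [Subgroup.subgroupOf_eq_top] at h3
      exfalso
      apply hgn
      rw [← hφ]
      exact (h3 hn).1
  obtain ⟨C', h3, h4⟩ := compl_lemma N X M hNX (interval_of_quotient X N hNX hK) huniq (φ H) h1 h2
  refine ⟨φ.symm C', ?_, ?_⟩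
  · rw [disjoint_iff]
    apply φ.injective
    rw [map_inf, OrderIso.apply_symm_apply, h4, map_bot]
  · rw [codisjoint_iff]
    apply φ.injective
    rw [map_sup, OrderIso.apply_symm_apply, h3, map_top]

end Cfsg.Agent.S5903
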