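import Cfsg.Statements.S5904
-- import your own Cfsg.Agent.* helpers here

set_option autoImplicit false
open scoped Pointwise
open Cfsg

namespace Cfsg.Agent.S5904

/-- The subgroup of permutations mapping `O` to `O` or to its complement. -/
def partStab {Ω : Type*} (O : Set Ω) : Subgroup (Equiv.Perm Ω) where
  carrier := {g | g • O = O ∨ g • O = Oᶜ}
  one_mem' := Or.inl (one_smul _ _)
  mul_mem' := by
    intro g h hg hh
    simp only [Set.mem_ofPred_eq] at hg hh ⊢
    rw [mul_smul]
    rcases hh with hh | hh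
    · rw [hh]
      exact hg
    · rw [hh, Set.smul_set_compl]
      rcases hg with hg | hg
      · right
        rw [hg]
      · left
        rw [hg, compl_compl]
  inv_mem' := by
    intro g hg
    simp only [Set.mem_ofPred_eq] at hg ⊢
    rcases hg with hg | hg
    · left
      rw [inv_smul_eq_iff, hg]
    · right
      rw [inv_smul_eq_iff, Set.smul_set_compl, hg, compl_compl]

theorem exists_swap_perm {Ω : Type*} [Finite Ω] (O : Set Ω) (hO : Nat.card O = Nat.card ↥Oᶜ) :
    ∃ σ : Equiv.Perm Ω, σ • O = Oᶜ := by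
  classical
  obtain ⟨e⟩ := Finite.card_eq.mp hO
  let τ : Equiv.Perm (O ⊕ ↥Oᶜ) := (Equiv.sumCongr e e.symm).trans (Equiv.sumComm _ _)
  let σ : Equiv.Perm Ω := (Equiv.Set.sumCompl O).symm.trans (τ.trans (Equiv.Set.sumCompl O))
  have h1 : ∀ x, x ∈ O → σ x ∉ O := by
    intro x hx
    have : σ x = (e ⟨x, hx⟩ : Ω) := by
      simp [σ, τ, Equiv.Set.sumCompl_symm_apply_of_mem hx]
    rw [this]
    exact (e ⟨x, hx⟩).2
  have h2 : ∀ x, x ∉ O → σ x ∈ O := by
    intro x hx
    have : σ x = (e.symm ⟨x, hx⟩ : Ω) := by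
      simp [σ, τ, Equiv.Set.sumCompl_symm_apply_of_notMem hx]
    rw [this]
    exact (e.symm ⟨x, hx⟩).2
  refine ⟨σ, ?_⟩
  ext y
  rw [Set.mem_smul_set_iff_inv_smul_mem, Set.mem_compl_iff]
  constructor
  · intro hy hy'
    have := h1 _ hy
    rw [← Equiv.Perm.smul_def, smul_inv_smul] at this
    exact this hy'
  · intro hy
    by_contra hy'
    have := h2 _ hy'
    rw [← Equiv.Perm.smul_def, smul_inv_smul] at this
    exact hy this

/-- Let Ω be a finite set with more than two elements and O ⊆ Ω a subset with exactly as many elements as its complement. Then the setwise stabilizer of O in the symmetric group on Ω is not a maximal subgroup (it is properly contained in the stabilizer of the partition {O, Ω ∖ O}, which is proper). -/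
theorem result {Ω : Type*} [Fintype Ω] [DecidableEq Ω] (hΩ : 2 < Fintype.card Ω)
    (O : Set Ω) (hO : Nat.card O = Nat.card ↥Oᶜ) :
    ¬ IsCoatom (MulAction.stabilizer (Equiv.Perm Ω) O) := by
  intro hco
  have hcard : O.ncard + Oᶜ.ncard = Nat.card Ω := Set.ncard_add_ncard_compl O
  rw [Nat.card_coe_set_eq, Nat.card_coe_set_eq] at hO
  rw [Nat.card_eq_fintype_card] at hcard
  have h2 : 1 < O.ncard := by omega
  have h3 : 0 < Oᶜ.ncard := by omega
  obtain ⟨a, a', ha, ha', hne⟩ := (Set.one_lt_ncard_iff).mp h2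
  obtain ⟨b, hb⟩ := (Set.ncard_pos).mp h3
  have hle : MulAction.stabilizer (Equiv.Perm Ω) O ≤ partStab O := by
    intro g hg
    exact Or.inl (MulAction.mem_stabilizer_iff.mp hg)
  have hlt : MulAction.stabilizer (Equiv.Perm Ω) O < partStab O := by
    refine lt_of_le_of_ne hle ?_
    intro heq
    obtain ⟨σ, hσ⟩ := exists_swap_perm O (by rw [Nat.card_coe_set_eq, Nat.card_coe_set_eq]; exact hO)
    have hσK : σ ∈ partStab O := Or.inr hσ
    rw [← heq, MulAction.mem_stabilizer_iff, hσ] at hσK
    have : a ∈ Oᶜ := by rw [hσK]; exact ha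
    exact this ha
  have htop := hco.2 _ hlt
  have hsw : Equiv.swap a b ∈ partStab O := by rw [htop]; exact Subgroup.mem_top _
  have hbO : b ∈ Equiv.swap a b • O := ⟨a, ha, by simp⟩
  have ha'O : a' ∈ Equiv.swap a b • O := by
    refine ⟨a', ha', ?_⟩
    have h1 : a' ≠ a := fun h => hne h.symm
    have h2 : a' ≠ b := fun h => hb (h ▸ ha')
    simp [Equiv.swap_apply_of_ne_of_ne h1 h2]
  rcases hsw with h | h
  · rw [h] at hbO
    exact hb hbO
  · rw [h] at ha'O
    exact ha'O ha'

end Cfsg.Agent.S5904
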