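import Cfsg.Statements.S5909
-- import your own Cfsg.Agent.* helpers here
import Mathlib
import Cfsg.Agent.S5905
import Cfsg.Agent.Lib.Helper98.Interval

set_option autoImplicit false
open Cfsg

namespace Cfsg.Agent.S5909

open Cfsg.Agent.S5905 (blockStab swap_mem_blockStab exists_fibre_swap closure_eq_blockStab)

theorem inv_app {α : Type*} (g : Equiv.Perm α) (x : α) : g⁻¹ (g x) = x := by simp

theorem app_inv {α : Type*} (g : Equiv.Perm α) (x : α) : g (g⁻¹ x) = x := by simp

theorem fibre_card {Ω : Type*} [Fintype Ω] [DecidableEq Ω] {a b : ℕ} (f : Ω → Fin b)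
    (hf : ∀ i : Fin b, Nat.card {x : Ω // f x = i} = a) (i : Fin b) :
    (Finset.univ.filter (fun x => f x = i)).card = a := by
  rw [← hf i, Nat.card_eq_fintype_card, Fintype.card_subtype]

theorem exists_fibre_avoid {Ω : Type*} [Fintype Ω] [DecidableEq Ω] {a b : ℕ} (f : Ω → Fin b)
    (hf : ∀ i : Fin b, Nat.card {x : Ω // f x = i} = a) (i : Fin b) (S : Finset Ω)
    (hS : S.card < a) : ∃ z, f z = i ∧ z ∉ S := by
  rw [← fibre_card f hf i] at hS
  obtain ⟨z, hz, hzS⟩ := Finset.exists_mem_notMem_of_card_lt_card hS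
  exact ⟨z, (Finset.mem_filter.mp hz).2, hzS⟩

theorem other_in_fibre {Ω : Type*} [Fintype Ω] [DecidableEq Ω] {a b : ℕ} (f : Ω → Fin b)
    (hf : ∀ i : Fin b, Nat.card {x : Ω // f x = i} = a) (ha : 2 ≤ a) (x : Ω) :
    ∃ x', f x' = f x ∧ x' ≠ x := by
  obtain ⟨z, hz, hzS⟩ := exists_fibre_avoid f hf (f x) {x} (by rw [Finset.card_singleton]; omega)
  exact ⟨z, hz, fun h => hzS (by rw [h]; exact Finset.mem_singleton_self x)⟩

theorem two_in_fibre {Ω : Type*} [Fintype Ω] [DecidableEq Ω] {a b : ℕ} (f : Ω → Fin b)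
    (hf : ∀ i : Fin b, Nat.card {x : Ω // f x = i} = a) (ha : 2 ≤ a) (i : Fin b) :
    ∃ u v, f u = i ∧ f v = i ∧ u ≠ v := by
  obtain ⟨u, hu, -⟩ := exists_fibre_avoid f hf i ∅ (by rw [Finset.card_empty]; omega)
  obtain ⟨v, hv, hvu⟩ := other_in_fibre f hf ha u
  exact ⟨u, v, hu, hv.trans hu, fun h => hvu h.symm⟩

theorem fibre_two {Ω : Type*} [Fintype Ω] [DecidableEq Ω] {a b : ℕ} (f : Ω → Fin b)
    (hf : ∀ i : Fin b, Nat.card {x : Ω // f x = i} = a) (h2 : a = 2) (u v w : Ω)
    (huv : f u = f v) (hwv : f w = f v) (hne : u ≠ v) : w = u ∨ w = v := by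
  by_contra hcon
  push Not at hcon
  have hsub : ({u, v, w} : Finset Ω) ⊆ Finset.univ.filter (fun x => f x = f v) := by
    intro t ht
    simp only [Finset.mem_insert, Finset.mem_singleton] at ht
    rw [Finset.mem_filter]
    refine ⟨Finset.mem_univ _, ?_⟩
    rcases ht with rfl | rfl | rfl
    · exact huv
    · rfl
    · exact hwv
  have h3 : ({u, v, w} : Finset Ω).card = 3 := by
    rw [Finset.card_eq_three]
    exact ⟨u, v, w, hne, fun h => hcon.1 h.symm, fun h => hcon.2 h.symm, rfl⟩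
  have := Finset.card_le_card hsub
  rw [fibre_card f hf, h3, h2] at this
  omega

theorem exists_index_avoid {b : ℕ} (S : Finset (Fin b)) (hS : S.card < b) : ∃ j, j ∉ S := by
  by_contra h
  push Not at h
  have : S = Finset.univ := Finset.eq_univ_iff_forall.mpr h
  rw [this, Finset.card_univ, Fintype.card_fin] at hS
  omega

theorem parity_fix {Ω : Type*} [Fintype Ω] [DecidableEq Ω] {b : ℕ} (f : Ω → Fin b)
    (g : Equiv.Perm Ω) (hg : g ∈ blockStab f) (u v : Ω) (huv : u ≠ v) (hfuv : f u = f v) :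
    ∃ g' ∈ blockStab f ⊓ alternatingGroup Ω, ∀ t, t ≠ u → t ≠ v → g' t = g t := by
  rcases Int.units_eq_one_or (Equiv.Perm.sign g) with h | h
  · exact ⟨g, ⟨hg, Equiv.Perm.mem_alternatingGroup.mpr h⟩, fun _ _ _ => rfl⟩
  · refine ⟨g * Equiv.swap u v, ⟨(blockStab f).mul_mem hg (swap_mem_blockStab f u v hfuv), ?_⟩, ?_⟩
    · change g * Equiv.swap u v ∈ alternatingGroup Ω
      rw [Equiv.Perm.mem_alternatingGroup, Equiv.Perm.sign_mul, Equiv.Perm.sign_swap huv, h]
      rfl
    · intro t h1 h2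
      rw [Equiv.Perm.mul_apply, Equiv.swap_apply_of_ne_of_ne h1 h2]

theorem exists_move {Ω : Type*} [Fintype Ω] [DecidableEq Ω] {a b : ℕ} (f : Ω → Fin b)
    (hf : ∀ i : Fin b, Nat.card {x : Ω // f x = i} = a) (x y : Ω) :
    ∃ g ∈ blockStab f, g x = y ∧ ∀ t, f t ≠ f x → f t ≠ f y → g t = t := by
  by_cases h : f x = f y
  · refine ⟨Equiv.swap x y, swap_mem_blockStab f x y h, Equiv.swap_apply_left x y, ?_⟩
    intro t h1 h2
    exact Equiv.swap_apply_of_ne_of_ne (fun e => h1 (by rw [e])) (fun e => h2 (by rw [e]))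
  · obtain ⟨τ, hτ, h1, h2, h3⟩ := exists_fibre_swap f (f x) (f y) h (by rw [hf, hf])
    refine ⟨Equiv.swap (τ x) y * τ,
      (blockStab f).mul_mem (swap_mem_blockStab f (τ x) y (h2 x rfl)) hτ, ?_, ?_⟩
    · rw [Equiv.Perm.mul_apply, Equiv.swap_apply_left]
    · intro t ht1 ht2
      rw [Equiv.Perm.mul_apply, h3 t ht1 ht2]
      exact Equiv.swap_apply_of_ne_of_ne (fun e => ht2 (by rw [e, h2 x rfl]))
        (fun e => ht2 (by rw [e]))

theorem exists_even_move {Ω : Type*} [Fintype Ω] [DecidableEq Ω] {a b : ℕ} (f : Ω → Fin b)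
    (hf : ∀ i : Fin b, Nat.card {x : Ω // f x = i} = a) (ha : 2 ≤ a) (hb : 2 ≤ b) (x y : Ω) :
    ∃ g ∈ blockStab f ⊓ alternatingGroup Ω, g x = y := by
  obtain ⟨g, hg, hgx, -⟩ := exists_move f hf x y
  obtain ⟨j, hj⟩ := exists_index_avoid ({f x} : Finset (Fin b))
    (by rw [Finset.card_singleton]; omega)
  rw [Finset.mem_singleton] at hj
  obtain ⟨u, v, hu, hv, huv⟩ := two_in_fibre f hf ha j
  obtain ⟨g', hg', h⟩ := parity_fix f g hg u v huv (hu.trans hv.symm)
  refine ⟨g', hg', ?_⟩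
  rw [h x (fun e => hj (by rw [← hu, e])) (fun e => hj (by rw [← hv, e])), hgx]

theorem exists_even_fix_move_same {Ω : Type*} [Fintype Ω] [DecidableEq Ω] {a b : ℕ} (f : Ω → Fin b)
    (hf : ∀ i : Fin b, Nat.card {x : Ω // f x = i} = a) (ha : 2 ≤ a) (hb : 2 ≤ b) (x y z : Ω)
    (hy : f y = f x) (hz : f z = f x) (hyx : y ≠ x) (hzx : z ≠ x) :
    ∃ g ∈ blockStab f ⊓ alternatingGroup Ω, g x = x ∧ g y = z := by
  by_cases hyz : y = z
  · exact ⟨1, Subgroup.one_mem _, rfl, hyz⟩
  · obtain ⟨j, hj⟩ := exists_index_avoid ({f x} : Finset (Fin b))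
      (by rw [Finset.card_singleton]; omega)
    rw [Finset.mem_singleton] at hj
    obtain ⟨u, v, hu, hv, huv⟩ := two_in_fibre f hf ha j
    obtain ⟨g', hg', h⟩ := parity_fix f (Equiv.swap y z)
      (swap_mem_blockStab f y z (hy.trans hz.symm)) u v huv (hu.trans hv.symm)
    refine ⟨g', hg', ?_, ?_⟩
    · rw [h x (fun e => hj (by rw [← hu, e])) (fun e => hj (by rw [← hv, e]))]
      exact Equiv.swap_apply_of_ne_of_ne (Ne.symm hyx) (Ne.symm hzx)
    · rw [h y (fun e => hj (by rw [← hu, ← e, hy])) (fun e => hj (by rw [← hv, ← e, hy]))]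
      exact Equiv.swap_apply_left y z

theorem exists_even_fix_move_other {Ω : Type*} [Fintype Ω] [DecidableEq Ω] {a b : ℕ} (f : Ω → Fin b)
    (hf : ∀ i : Fin b, Nat.card {x : Ω // f x = i} = a) (ha : 2 ≤ a) (hab : 3 ≤ a ∨ 3 ≤ b)
    (x y z : Ω) (hy : f y ≠ f x) (hz : f z ≠ f x) :
    ∃ g ∈ blockStab f ⊓ alternatingGroup Ω, g x = x ∧ g y = z := by
  obtain ⟨g, hg, hgy, hgt⟩ := exists_move f hf y z
  have hgx : g x = x := hgt x (Ne.symm hy) (Ne.symm hz)
  have key : ∃ u v : Ω, u ≠ v ∧ f u = f v ∧ x ≠ u ∧ x ≠ v ∧ y ≠ u ∧ y ≠ v := by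
    by_cases hyz : f y = f z
    · rcases hab with h3 | h3
      · obtain ⟨u, hu, hux⟩ := other_in_fibre f hf ha x
        obtain ⟨v, hv, hvS⟩ := exists_fibre_avoid f hf (f x) {x, u}
          (lt_of_le_of_lt Finset.card_le_two (by omega))
        simp only [Finset.mem_insert, Finset.mem_singleton, not_or] at hvS
        exact ⟨u, v, fun e => hvS.2 e.symm, hu.trans hv.symm, fun e => hux e.symm,
          fun e => hvS.1 e.symm, fun e => hy (by rw [e, hu]), fun e => hy (by rw [e, hv])⟩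
      · obtain ⟨j, hj⟩ := exists_index_avoid ({f x, f y} : Finset (Fin b))
          (lt_of_le_of_lt Finset.card_le_two (by omega))
        simp only [Finset.mem_insert, Finset.mem_singleton, not_or] at hj
        obtain ⟨u, v, hu, hv, huv⟩ := two_in_fibre f hf ha j
        exact ⟨u, v, huv, hu.trans hv.symm, fun e => hj.1 (by rw [← hu, e]),
          fun e => hj.1 (by rw [← hv, e]), fun e => hj.2 (by rw [← hu, e]),
          fun e => hj.2 (by rw [← hv, e])⟩
    · obtain ⟨z', hz', hzz'⟩ := other_in_fibre f hf ha z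
      exact ⟨z, z', fun e => hzz' e.symm, hz'.symm, fun e => hz (by rw [e]),
        fun e => hz (by rw [← hz', e]), fun e => hyz (by rw [e]),
        fun e => hyz (by rw [← hz', e])⟩
  obtain ⟨u, v, huv, hfuv, hxu, hxv, hyu, hyv⟩ := key
  obtain ⟨g', hg', h⟩ := parity_fix f g hg u v huv hfuv
  exact ⟨g', hg', by rw [h x hxu hxv, hgx], by rw [h y hyu hyv, hgy]⟩

open scoped Pointwise in
theorem isPreprimitive_of_not_le {Ω : Type*} [Fintype Ω] [DecidableEq Ω] {a b : ℕ} (f : Ω → Fin b)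
    (hf : ∀ i : Fin b, Nat.card {x : Ω // f x = i} = a) (ha : 2 ≤ a) (hb : 2 ≤ b)
    (hab : 3 ≤ a ∨ 3 ≤ b)
    (L : Subgroup (Equiv.Perm Ω)) (hKL : blockStab f ⊓ alternatingGroup Ω ≤ L)
    (hLW : ¬ L ≤ blockStab f) : MulAction.IsPreprimitive L Ω := by
  have hpre : MulAction.IsPretransitive L Ω := by
    refine ⟨fun x y => ?_⟩
    obtain ⟨g, hg, hgx⟩ := exists_even_move f hf ha hb x y
    exact ⟨⟨g, hKL hg⟩, hgx⟩
  refine { toIsPretransitive := hpre, isTrivialBlock_of_isBlock := ?_ }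
  intro B hB
  have hstar : ∀ g ∈ L, ∀ u ∈ B, g u ∈ B → ∀ v ∈ B, g v ∈ B := by
    intro g hg u hu hgu v hv
    have h1 : (⟨g, hg⟩ : L) • B = B := MulAction.isBlock_iff_smul_eq_of_mem.mp hB hu hgu
    have h2 : (⟨g, hg⟩ : L) • v ∈ (⟨g, hg⟩ : L) • B := Set.smul_mem_smul_set hv
    rw [h1] at h2
    exact h2
  by_cases hsub : B.Subsingleton
  · exact Or.inl hsub
  right
  rw [Set.not_subsingleton_iff] at hsub
  obtain ⟨x, hx, y, hy, hxy⟩ := hsub
  have lemA : ∀ u v, u ∈ B → v ∈ B → f v ≠ f u → ∀ z, f z ≠ f u → z ∈ B := by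
    intro u v hu hv hvu z hz
    obtain ⟨g, hg, hgu, hgv⟩ := exists_even_fix_move_other f hf ha hab u v z hvu hz
    have := hstar g (hKL hg) u hu (by rw [hgu]; exact hu) v hv
    rwa [hgv] at this
  have lemB : ∀ u v, u ∈ B → v ∈ B → v ≠ u → f v = f u → ∀ z, f z = f u → z ∈ B := by
    intro u v hu hv hvu hfvu z hz
    by_cases hzu : z = u
    · rw [hzu]; exact hu
    obtain ⟨g, hg, hgu, hgv⟩ := exists_even_fix_move_same f hf ha hb u v z hfvu hz hvu hzu
    have := hstar g (hKL hg) u hu (by rw [hgu]; exact hu) v hv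
    rwa [hgv] at this
  by_cases hex : ∃ u ∈ B, ∃ v ∈ B, f v ≠ f u
  · obtain ⟨u, hu, v, hv, hvu⟩ := hex
    rw [Set.eq_univ_iff_forall]
    intro z
    by_cases hzu : f z = f u
    · exact lemA v u hv hu (Ne.symm hvu) z (by rw [hzu]; exact Ne.symm hvu)
    · exact lemA u v hu hv hvu z hzu
  · exfalso
    push Not at hex
    apply hLW
    have hBx : ∀ z, z ∈ B ↔ f z = f x := fun z =>
      ⟨fun hz => hex x hx z hz, fun hz => lemB x y hx hy (Ne.symm hxy) (hex x hx y hy) z hz⟩
    have C0 : ∀ h ∈ L, ∀ x₂, f x₂ = f x → f (h x₂) = f (h x) := by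
      intro h hh x₂ hx₂
      obtain ⟨k, hk, hkx⟩ := exists_even_move f hf ha hb (h x) x
      have h1 := hstar (k * h) (L.mul_mem (hKL hk) hh) x hx
        (by rw [Equiv.Perm.mul_apply, hkx]; exact hx) x₂ ((hBx x₂).mpr hx₂)
      rw [hBx, Equiv.Perm.mul_apply] at h1
      exact (hk.1 (h x₂) (h x)).mpr (by rw [h1, hkx])
    have C : ∀ g ∈ L, ∀ u v, f u = f v → f (g u) = f (g v) := by
      intro g hg u v huv
      obtain ⟨k, hk, hkx⟩ := exists_even_move f hf ha hb x u
      have h1 : f (k⁻¹ v) = f x :=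
        (hk.1 (k⁻¹ v) x).mpr (by rw [app_inv, hkx, huv])
      have h2 := C0 (g * k) (L.mul_mem hg (hKL hk)) (k⁻¹ v) h1
      rw [Equiv.Perm.mul_apply, Equiv.Perm.mul_apply, app_inv, hkx] at h2
      exact h2.symm
    intro g hg u v
    refine ⟨C g hg u v, fun h => ?_⟩
    have := C g⁻¹ (L.inv_mem hg) (g u) (g v) h
    rwa [inv_app, inv_app] at this

theorem exists_three_cycle_of_three_le {Ω : Type*} [Fintype Ω] [DecidableEq Ω] {a b : ℕ}
    (f : Ω → Fin b) (hf : ∀ i : Fin b, Nat.card {x : Ω // f x = i} = a) (h3 : 3 ≤ a) (x : Ω) :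
    ∃ c ∈ blockStab f ⊓ alternatingGroup Ω, c.IsThreeCycle := by
  obtain ⟨y, hy, hyx⟩ := other_in_fibre f hf (by omega) x
  obtain ⟨z, hz, hzS⟩ := exists_fibre_avoid f hf (f x) {x, y}
    (lt_of_le_of_lt Finset.card_le_two (by omega))
  simp only [Finset.mem_insert, Finset.mem_singleton, not_or] at hzS
  have hc : (Equiv.swap x y * Equiv.swap x z).IsThreeCycle :=
    Equiv.Perm.isThreeCycle_swap_mul_swap_same (Ne.symm hyx) (Ne.symm hzS.1) (Ne.symm hzS.2)
  exact ⟨_, ⟨(blockStab f).mul_mem (swap_mem_blockStab f x y hy.symm)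
    (swap_mem_blockStab f x z hz.symm), hc.mem_alternatingGroup⟩, hc⟩

theorem swap_swap_mem {Ω : Type*} [Fintype Ω] [DecidableEq Ω] {b : ℕ} (f : Ω → Fin b)
    (u v u' v' : Ω) (h : f u = f v) (h' : f u' = f v') (hne : u ≠ v) (hne' : u' ≠ v') :
    Equiv.swap u v * Equiv.swap u' v' ∈ blockStab f ⊓ alternatingGroup Ω := by
  refine ⟨(blockStab f).mul_mem (swap_mem_blockStab f u v h) (swap_mem_blockStab f u' v' h'), ?_⟩
  change _ ∈ alternatingGroup Ω
  rw [Equiv.Perm.mem_alternatingGroup, Equiv.Perm.sign_mul, Equiv.Perm.sign_swap hne,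
    Equiv.Perm.sign_swap hne']
  rfl

theorem exists_three_cycle_of_two {Ω : Type*} [Fintype Ω] [DecidableEq Ω] {a b : ℕ} (f : Ω → Fin b)
    (hf : ∀ i : Fin b, Nat.card {x : Ω // f x = i} = a) (h2 : a = 2) (h5 : 5 ≤ b)
    (L : Subgroup (Equiv.Perm Ω)) (hKL : blockStab f ⊓ alternatingGroup Ω ≤ L)
    (g : Equiv.Perm Ω) (hg : g ∈ L) (x y : Ω) (hxy : f x = f y) (hgxy : f (g x) ≠ f (g y)) :
    ∃ c ∈ L, c.IsThreeCycle := by
  have ha : 2 ≤ a := by omega
  have hxne : x ≠ y := fun e => hgxy (by rw [e])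
  obtain ⟨p', hp', hpp'⟩ := other_in_fibre f hf ha (g x)
  obtain ⟨q', hq', hqq'⟩ := other_in_fibre f hf ha (g y)
  obtain ⟨j, hj⟩ := exists_index_avoid ({f x, f (g⁻¹ p'), f (g⁻¹ q')} : Finset (Fin b))
    (lt_of_le_of_lt Finset.card_le_three (by omega))
  simp only [Finset.mem_insert, Finset.mem_singleton, not_or] at hj
  obtain ⟨u, v, hu, hv, huv⟩ := two_in_fibre f hf ha j
  have avoid : ∀ t, f t = j → f (g t) ≠ f (g x) ∧ f (g t) ≠ f (g y) := by
    intro t ht
    constructor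
    · intro e
      rcases fibre_two f hf h2 (g x) p' (g t) hp'.symm (e.trans hp'.symm) (Ne.symm hpp') with h | h
      · have := g.injective h
        exact hj.1 (by rw [← ht, this])
      · exact hj.2.1 (by rw [← h, inv_app, ht])
    · intro e
      rcases fibre_two f hf h2 (g y) q' (g t) hq'.symm (e.trans hq'.symm) (Ne.symm hqq') with h | h
      · have := g.injective h
        exact hj.1 (by rw [← ht, this, hxy])
      · exact hj.2.2 (by rw [← h, inv_app, ht])
  obtain ⟨hrp, hrq⟩ := avoid u hu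
  obtain ⟨hsp, hsq⟩ := avoid v hv
  have hrs : g u ≠ g v := fun e => huv (g.injective e)
  have hpq : g x ≠ g y := fun e => hxne (g.injective e)
  have hd : Equiv.swap (g x) (g y) * Equiv.swap (g u) (g v) ∈ L := by
    have h0 : Equiv.swap x y * Equiv.swap u v ∈ L :=
      hKL (swap_swap_mem f x y u v hxy (hu.trans hv.symm) hxne huv)
    have h1 := L.mul_mem (L.mul_mem hg h0) (L.inv_mem hg)
    have h2 : g * (Equiv.swap x y * Equiv.swap u v) * g⁻¹
        = Equiv.swap (g x) (g y) * Equiv.swap (g u) (g v) := by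
      rw [Equiv.swap_apply_apply, Equiv.swap_apply_apply]
      group
    rwa [h2] at h1
  by_cases hfrs : f (g u) = f (g v)
  · have he : Equiv.swap (g u) (g v) * Equiv.swap (g x) p' ∈ L :=
      hKL (swap_swap_mem f _ _ _ _ hfrs hp'.symm hrs (Ne.symm hpp'))
    have h1 := L.mul_mem hd he
    have h2 : Equiv.swap (g x) (g y) * Equiv.swap (g u) (g v)
        * (Equiv.swap (g u) (g v) * Equiv.swap (g x) p')
        = Equiv.swap (g x) (g y) * Equiv.swap (g x) p' := by
      rw [mul_assoc, ← mul_assoc (Equiv.swap (g u) (g v)), Equiv.swap_mul_self, one_mul]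
    rw [h2] at h1
    exact ⟨_, h1, Equiv.Perm.isThreeCycle_swap_mul_swap_same hpq (Ne.symm hpp')
      (fun e => hgxy (by rw [e, hp']))⟩
  · obtain ⟨s', hs', hss'⟩ := other_in_fibre f hf ha (g v)
    obtain ⟨m, hm⟩ := exists_index_avoid ({f (g x), f (g y), f (g u), f (g v)} : Finset (Fin b))
      (lt_of_le_of_lt Finset.card_le_four (by omega))
    simp only [Finset.mem_insert, Finset.mem_singleton, not_or] at hm
    obtain ⟨u₂, v₂, hu₂, hv₂, huv₂⟩ := two_in_fibre f hf ha m
    have hwK : Equiv.swap (g v) s' * Equiv.swap u₂ v₂ ∈ L :=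
      hKL (swap_swap_mem f _ _ _ _ hs'.symm (hu₂.trans hv₂.symm) (Ne.symm hss') huv₂)
    have wfix : ∀ t, f t ≠ f (g v) → f t ≠ m →
        (Equiv.swap (g v) s' * Equiv.swap u₂ v₂) t = t := by
      intro t h1 h2
      rw [Equiv.Perm.mul_apply,
        Equiv.swap_apply_of_ne_of_ne (a := u₂) (b := v₂) (fun e => h2 (by rw [e, hu₂]))
          (fun e => h2 (by rw [e, hv₂])),
        Equiv.swap_apply_of_ne_of_ne (fun e => h1 (by rw [e])) (fun e => h1 (by rw [e, hs']))]
    have hwp := wfix _ (Ne.symm hsp) (Ne.symm hm.1)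
    have hwq := wfix _ (Ne.symm hsq) (Ne.symm hm.2.1)
    have hwr := wfix _ hfrs (Ne.symm hm.2.2.1)
    have hws : (Equiv.swap (g v) s' * Equiv.swap u₂ v₂) (g v) = s' := by
      rw [Equiv.Perm.mul_apply,
        Equiv.swap_apply_of_ne_of_ne (a := u₂) (b := v₂) (fun e => hm.2.2.2 (by rw [e, hu₂]))
          (fun e => hm.2.2.2 (by rw [e, hv₂])),
        Equiv.swap_apply_left]
    have hd' : Equiv.swap (g x) (g y) * Equiv.swap (g u) s' ∈ L := by
      have h1 := L.mul_mem (L.mul_mem hwK hd) (L.inv_mem hwK)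
      have h2 : ∀ w : Equiv.Perm Ω, w * (Equiv.swap (g x) (g y) * Equiv.swap (g u) (g v)) * w⁻¹
          = Equiv.swap (w (g x)) (w (g y)) * Equiv.swap (w (g u)) (w (g v)) := by
        intro w
        rw [Equiv.swap_apply_apply w (g x) (g y), Equiv.swap_apply_apply w (g u) (g v)]
        group
      rwa [h2, hwp, hwq, hwr, hws] at h1
    have h1 := L.mul_mem hd hd'
    have hcomm : Equiv.swap (g x) (g y) * Equiv.swap (g u) (g v)
        = Equiv.swap (g u) (g v) * Equiv.swap (g x) (g y) := by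
      have hdis : Equiv.Perm.Disjoint (Equiv.swap (g x) (g y)) (Equiv.swap (g u) (g v)) := by
        apply Equiv.Perm.disjoint_swap_swap
        have e1 : g x ≠ g u := fun e => hrp (by rw [e])
        have e2 : g x ≠ g v := fun e => hsp (by rw [e])
        have e3 : g y ≠ g u := fun e => hrq (by rw [e])
        have e4 : g y ≠ g v := fun e => hsq (by rw [e])
        simp [hpq, e1, e2, e3, e4, hrs]
      exact hdis.commute.eq
    have h2 : Equiv.swap (g x) (g y) * Equiv.swap (g u) (g v)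
        * (Equiv.swap (g x) (g y) * Equiv.swap (g u) s')
        = Equiv.swap (g u) (g v) * Equiv.swap (g u) s' := by
      rw [hcomm, mul_assoc, ← mul_assoc (Equiv.swap (g x) (g y)), Equiv.swap_mul_self, one_mul]
    rw [h2] at h1
    exact ⟨_, h1, Equiv.Perm.isThreeCycle_swap_mul_swap_same hrs
      (fun e => hfrs (by rw [e, hs'])) (Ne.symm hss')⟩

theorem le_of_big {Ω : Type*} [Fintype Ω] [DecidableEq Ω] {a b : ℕ} (f : Ω → Fin b)
    (hf : ∀ i : Fin b, Nat.card {x : Ω // f x = i} = a) (ha : 2 ≤ a) (hb : 2 ≤ b)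
    (hab : 3 ≤ a ∨ 5 ≤ b)
    (L : Subgroup (Equiv.Perm Ω)) (hKL : blockStab f ⊓ alternatingGroup Ω ≤ L)
    (hLW : ¬ L ≤ blockStab f) : alternatingGroup Ω ≤ L := by
  have hprim := isPreprimitive_of_not_le f hf ha hb (by omega) L hKL hLW
  have h3 : ∃ c ∈ L, c.IsThreeCycle := by
    by_cases h3a : 3 ≤ a
    · obtain ⟨x, -, -, -, -⟩ := two_in_fibre f hf ha ⟨0, by omega⟩
      obtain ⟨c, hc, hc3⟩ := exists_three_cycle_of_three_le f hf h3a x
      exact ⟨c, hKL hc, hc3⟩
    · have h2 : a = 2 := by omega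
      have h5 : 5 ≤ b := by omega
      obtain ⟨g, hg, hgW⟩ := SetLike.not_le_iff_exists.mp hLW
      have hg' : ¬ ∀ x y : Ω, f x = f y ↔ f (g x) = f (g y) := hgW
      push Not at hg'
      obtain ⟨x, y, hxy⟩ := hg'
      rcases hxy with ⟨h1, h2'⟩ | ⟨h1, h2'⟩
      · exact exists_three_cycle_of_two f hf h2 h5 L hKL g hg x y h1 h2'
      · exact exists_three_cycle_of_two f hf h2 h5 L hKL g⁻¹ (L.inv_mem hg) (g x) (g y) h2'
          (by simpa using h1)
  obtain ⟨c, hc, hc3⟩ := h3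
  exact Equiv.Perm.alternatingGroup_le_of_isPreprimitive_of_isThreeCycle_mem hprim hc3 hc

theorem card_dvd_card_of_transitive {Ω : Type*} [Fintype Ω] [DecidableEq Ω]
    (K : Subgroup (Equiv.Perm Ω)) (x : Ω) (h : ∀ y, ∃ g ∈ K, g x = y) :
    Nat.card Ω ∣ Nat.card K := by
  have hpre : MulAction.IsPretransitive K Ω := by
    refine ⟨fun u v => ?_⟩
    obtain ⟨g, hg, hgu⟩ := h u
    obtain ⟨g', hg', hgv⟩ := h v
    refine ⟨⟨g' * g⁻¹, K.mul_mem hg' (K.inv_mem hg)⟩, ?_⟩
    change (g' * g⁻¹) u = v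
    rw [← hgu, Equiv.Perm.mul_apply, inv_app, hgv]
  rw [← MulAction.index_stabilizer_of_transitive K x]
  exact Subgroup.index_dvd_card _

theorem dvd_card_of_two_step {Ω : Type*} [Fintype Ω] [DecidableEq Ω]
    (K : Subgroup (Equiv.Perm Ω)) (x y : Ω) (T : Set Ω)
    (h0 : ∀ z, ∃ g ∈ K, g x = z)
    (h1 : ∀ z ∈ T, ∃ g ∈ K, g x = x ∧ g y = z) (h2 : ∀ g ∈ K, g x = x → g y ∈ T) :
    Nat.card Ω * T.ncard ∣ Nat.card K := by
  have hpre : MulAction.IsPretransitive K Ω := by
    refine ⟨fun u v => ?_⟩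
    obtain ⟨g, hg, hgu⟩ := h0 u
    obtain ⟨g', hg', hgv⟩ := h0 v
    refine ⟨⟨g' * g⁻¹, K.mul_mem hg' (K.inv_mem hg)⟩, ?_⟩
    change (g' * g⁻¹) u = v
    rw [← hgu, Equiv.Perm.mul_apply, inv_app, hgv]
  have e1 := MulAction.index_stabilizer_of_transitive K x
  have e2 := Subgroup.index_mul_card (MulAction.stabilizer K x)
  rw [← e2, e1]
  apply Nat.mul_dvd_mul_left
  have e3 := MulAction.index_stabilizer (G := MulAction.stabilizer K x) (x := y)
  have e4 : MulAction.orbit (MulAction.stabilizer K x) y = T := by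
    ext z
    constructor
    · rintro ⟨⟨⟨g, hg⟩, hgx⟩, rfl⟩
      exact h2 g hg hgx
    · intro hz
      obtain ⟨g, hg, hgx, hgy⟩ := h1 z hz
      exact ⟨⟨⟨g, hg⟩, hgx⟩, hgy⟩
  rw [← e4, ← e3]
  exact Subgroup.index_dvd_card _

theorem arith_four (k l : ℕ) (h4 : 4 ∣ k) (hkl : k ∣ l) (hl : l ∣ 12) (hne : l ≠ k) : l = 12 := by
  obtain ⟨j, rfl⟩ := h4
  obtain ⟨m, rfl⟩ := hkl
  have h3 : j * m ∣ 3 :=
    Nat.dvd_of_mul_dvd_mul_left (by norm_num : 0 < 4) (by rw [← mul_assoc]; exact hl)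
  rcases (Nat.dvd_prime Nat.prime_three).mp h3 with h | h
  · exfalso
    have hm1 : m = 1 := Nat.dvd_one.mp (Dvd.intro_left j h)
    apply hne
    rw [hm1, mul_one]
  · rw [mul_assoc, h]
    norm_num

theorem arith_six (k l i : ℕ) (h24 : 24 ∣ k) (hkl : k ∣ l) (hil : i * l = 360) (hne : l ≠ k) :
    i ≤ 5 := by
  obtain ⟨j, rfl⟩ := h24
  obtain ⟨m, rfl⟩ := hkl
  have h15 : i * j * m = 15 := by
    have h : i * (24 * j * m) = 24 * (i * j * m) := by ring
    have h' : 24 * (i * j * m) = 24 * 15 := by omega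
    exact Nat.eq_of_mul_eq_mul_left (by norm_num : 0 < 24) h'
  have hm1 : m ≠ 1 := by
    rintro rfl
    exact hne (by ring)
  have hm0 : m ≠ 0 := by
    rintro rfl
    simp at h15
  have hm2 : m ≠ 2 := by
    rintro rfl
    omega
  have hj0 : j ≠ 0 := by
    rintro rfl
    simp at h15
  have h1 : i * j * 3 ≤ 15 := by
    rw [← h15]
    exact Nat.mul_le_mul_left _ (by omega)
  have h2 : i ≤ i * j := Nat.le_mul_of_pos_right i (Nat.pos_of_ne_zero hj0)
  omega

theorem le_of_four {Ω : Type*} [Fintype Ω] [DecidableEq Ω] (hcard : Fintype.card Ω = 4)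
    (K L : Subgroup (Equiv.Perm Ω)) (hKL : K ≤ L) (hLA : L ≤ alternatingGroup Ω) (hne : L ≠ K)
    (h4 : 4 ∣ Nat.card K) : alternatingGroup Ω ≤ L := by
  have hnt : Nontrivial Ω := by
    rw [← Fintype.one_lt_card_iff_nontrivial, hcard]
    norm_num
  have hA : Nat.card (alternatingGroup Ω) = 12 := by
    have h := two_mul_nat_card_alternatingGroup (α := Ω)
    rw [Nat.card_perm, Nat.card_eq_fintype_card (α := Ω), hcard] at h
    have : Nat.factorial 4 = 24 := by decide
    omega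
  have hkl : Nat.card K ∣ Nat.card L := Subgroup.card_dvd_of_le hKL
  have hla : Nat.card L ∣ Nat.card (alternatingGroup Ω) := Subgroup.card_dvd_of_le hLA
  have hne' : Nat.card L ≠ Nat.card K := by
    intro e
    exact hne (Subgroup.eq_of_le_of_card_ge hKL e.le).symm
  rw [hA] at hla
  have hL : Nat.card L = 12 := arith_four _ _ h4 hkl hla hne'
  have : Nat.card (alternatingGroup Ω) ≤ Nat.card L := by rw [hA, hL]
  exact (Subgroup.eq_of_le_of_card_ge hLA this).ge

theorem le_of_six {Ω : Type*} [Fintype Ω] [DecidableEq Ω] (hcard : Fintype.card Ω = 6)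
    (K L : Subgroup (Equiv.Perm Ω)) (hKL : K ≤ L) (hLA : L ≤ alternatingGroup Ω) (hne : L ≠ K)
    (h24 : 24 ∣ Nat.card K) : alternatingGroup Ω ≤ L := by
  have hnt : Nontrivial Ω := by
    rw [← Fintype.one_lt_card_iff_nontrivial, hcard]
    norm_num
  have hA : Nat.card (alternatingGroup Ω) = 360 := by
    have h := two_mul_nat_card_alternatingGroup (α := Ω)
    rw [Nat.card_perm, Nat.card_eq_fintype_card (α := Ω), hcard] at h
    have : Nat.factorial 6 = 720 := by decide
    omega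
  have hkl : Nat.card K ∣ Nat.card L := Subgroup.card_dvd_of_le hKL
  have hne' : Nat.card L ≠ Nat.card K := by
    intro e
    exact hne (Subgroup.eq_of_le_of_card_ge hKL e.le).symm
  have hHcard : Nat.card (L.subgroupOf (alternatingGroup Ω)) = Nat.card L :=
    Nat.card_congr (Subgroup.subgroupOfEquivOfLe hLA).toEquiv
  have hidx : (L.subgroupOf (alternatingGroup Ω)).index * Nat.card L = 360 := by
    rw [← hHcard, Subgroup.index_mul_card, hA]
  have hi5 : (L.subgroupOf (alternatingGroup Ω)).index ≤ 5 := arith_six _ _ _ h24 hkl hidx hne'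
  have hsimple : IsSimpleGroup (alternatingGroup Ω) :=
    alternatingGroup.isSimpleGroup (by rw [Nat.card_eq_fintype_card, hcard]; norm_num)
  have htop : L.subgroupOf (alternatingGroup Ω) = ⊤ := by
    by_contra hHtop
    have hker : (MulAction.toPermHom (alternatingGroup Ω)
        ((alternatingGroup Ω) ⧸ L.subgroupOf (alternatingGroup Ω))).ker = ⊥ := by
      rcases Subgroup.Normal.eq_bot_or_eq_top (MonoidHom.normal_ker
        (MulAction.toPermHom (alternatingGroup Ω)
          ((alternatingGroup Ω) ⧸ L.subgroupOf (alternatingGroup Ω)))) with h | h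
      · exact h
      · exfalso
        apply hHtop
        rw [← Subgroup.normalCore_eq_ker] at h
        exact top_le_iff.mp (h ▸ Subgroup.normalCore_le _)
    have hinj := (MonoidHom.ker_eq_bot_iff _).mp hker
    have hdvd := Subgroup.card_dvd_of_injective _ hinj
    rw [hA, Nat.card_perm] at hdvd
    have h5 : ((L.subgroupOf (alternatingGroup Ω)).index).factorial ∣ Nat.factorial 5 :=
      Nat.factorial_dvd_factorial hi5
    have h120 : Nat.factorial 5 = 120 := by decide
    rw [h120] at h5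
    have := Nat.le_of_dvd (by norm_num) (dvd_trans hdvd h5)
    omega
  rw [Subgroup.subgroupOf_eq_top] at htop
  exact htop

/-- Let Ω be a finite set whose size is not 8, and f : Ω → Fin b a labelling with b ≥ 2 whose fibres all have the same size a ≥ 2 (a partition into b blocks of size a). Then the even permutations preserving the partition — the intersection of the imprimitive wreath product S_a ≀ S_b with the alternating group — form a maximal subgroup of the alternating group on Ω. -/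
theorem result {Ω : Type*} [Fintype Ω] [DecidableEq Ω] (h8 : Fintype.card Ω ≠ 8) (a b : ℕ) (ha : 2 ≤ a) (hb : 2 ≤ b)
    (f : Ω → Fin b) (hf : ∀ i : Fin b, Nat.card {x : Ω // f x = i} = a) :
    IsCoatom ((Subgroup.closure {g : Equiv.Perm Ω | ∀ x y : Ω, f x = f y ↔ f (g x) = f (g y)} ⊓ alternatingGroup Ω).subgroupOf (alternatingGroup Ω)) := by
  rw [closure_eq_blockStab]
  have hcard : Fintype.card Ω = a * b := by
    have h1 := Finset.card_eq_sum_card_fiberwise (s := (Finset.univ : Finset Ω))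
      (t := (Finset.univ : Finset (Fin b))) (f := f) (fun x _ => Finset.mem_coe.mpr (Finset.mem_univ _))
    rw [Finset.card_univ] at h1
    rw [h1, Finset.sum_congr rfl (fun i _ => fibre_card f hf i), Finset.sum_const, Finset.card_univ,
      Fintype.card_fin, smul_eq_mul, mul_comm]
  have hne : blockStab f ⊓ alternatingGroup Ω ≠ alternatingGroup Ω := by
    obtain ⟨u, u', hu, hu', huu'⟩ := two_in_fibre f hf ha ⟨0, by omega⟩
    obtain ⟨v, -, hv, -, -⟩ := two_in_fibre f hf ha ⟨1, by omega⟩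
    have huv : f u ≠ f v := by
      rw [hu, hv]
      intro h
      simp [Fin.ext_iff] at h
    have hu'v : u' ≠ v := fun e => huv (by rw [← e, hu, hu'])
    intro htop
    have hc : (Equiv.swap u v * Equiv.swap u u').IsThreeCycle :=
      Equiv.Perm.isThreeCycle_swap_mul_swap_same (fun e => huv (by rw [e])) huu' (Ne.symm hu'v)
    have hmem : Equiv.swap u v * Equiv.swap u u' ∈ blockStab f := by
      have := hc.mem_alternatingGroup
      rw [← htop] at this
      exact this.1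
    have h1 := (hmem u u').mp (hu.trans hu'.symm)
    rw [Equiv.Perm.mul_apply, Equiv.Perm.mul_apply, Equiv.swap_apply_left, Equiv.swap_apply_right,
      Equiv.swap_apply_left, Equiv.swap_apply_of_ne_of_ne (Ne.symm huu') hu'v] at h1
    exact huv (by rw [hu, ← hu', h1])
  refine Cfsg.Agent.Lib.Helper98.isCoatom_subgroupOf_of_interval _ _ inf_le_right hne ?_
  intro L hKL hLA
  by_cases hLK : L = blockStab f ⊓ alternatingGroup Ω
  · exact Or.inl hLK
  right
  refine le_antisymm hLA ?_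
  have hLW : ¬ L ≤ blockStab f := fun h => hLK (le_antisymm (le_inf h hLA) hKL)
  by_cases hbig : 3 ≤ a ∨ 5 ≤ b
  · exact le_of_big f hf ha hb hbig L hKL hLW
  · have ha2 : a = 2 := by omega
    have hb4 : b = 2 ∨ b = 3 ∨ b = 4 := by omega
    obtain ⟨x, -, -, -, -⟩ := two_in_fibre f hf ha ⟨0, by omega⟩
    have h0 : ∀ z, ∃ g ∈ blockStab f ⊓ alternatingGroup Ω, g x = z :=
      fun z => exists_even_move f hf ha hb x z
    rcases hb4 with rfl | rfl | rfl
    · have hc4 : Fintype.card Ω = 4 := by rw [hcard, ha2]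
      have h4 := card_dvd_card_of_transitive _ x h0
      rw [Nat.card_eq_fintype_card, hc4] at h4
      exact le_of_four hc4 _ L hKL hLA hLK h4
    · have hc6 : Fintype.card Ω = 6 := by rw [hcard, ha2]
      obtain ⟨j, hj⟩ := exists_index_avoid ({f x} : Finset (Fin 3))
        (by rw [Finset.card_singleton]; omega)
      rw [Finset.mem_singleton] at hj
      obtain ⟨y, -, hy, -, -⟩ := two_in_fibre f hf ha j
      have h24 := dvd_card_of_two_step (blockStab f ⊓ alternatingGroup Ω) x y {z | f z ≠ f x} h0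
        (fun z hz => exists_even_fix_move_other f hf ha (Or.inr le_rfl) x y z
          (by rw [hy]; exact hj) hz)
        (fun g hg hgx => by
          intro e
          have := (hg.1 y x).mpr (by rw [hgx]; exact e)
          exact hj (by rw [← hy, this]))
      have hT : ({z | f z ≠ f x} : Set Ω).ncard = 4 := by
        have h1 := Set.ncard_add_ncard_compl ({z | f z = f x} : Set Ω)
        have h2 : ({z | f z = f x} : Set Ω).ncard = 2 := by
          rw [← Nat.card_coe_set_eq]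
          exact (hf (f x)).trans ha2
        have h3 : ({z | f z = f x} : Set Ω)ᶜ = {z | f z ≠ f x} := rfl
        rw [h2, h3, Nat.card_eq_fintype_card, hc6] at h1
        omega
      rw [hT, Nat.card_eq_fintype_card, hc6] at h24
      exact le_of_six hc6 _ L hKL hLA hLK h24
    · exfalso
      apply h8
      rw [hcard, ha2]

end Cfsg.Agent.S5909
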