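import Cfsg.Statements.S5910
-- import your own Cfsg.Agent.* helpers here
import Mathlib
import Cfsg.Agent.S5905
import Cfsg.Agent.Lib.Helper98.Interval

set_option autoImplicit false
open Cfsg

namespace Cfsg.Agent.S5910

section aux

abbrev V2 := Fin 2 × Fin 2
abbrev V := (Fin 2 × Fin 2) × Fin 2

theorem v2_add_self : ∀ a : V2, a + a = 0 := by decide

theorem v2_fourth : ∀ a b c : V2, a ≠ b → a ≠ c → b ≠ c → ∀ d : V2, d ≠ a → d ≠ b → d ≠ c →
    d = a + b + c := by decide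

theorem v2_sum3 : ∀ a b c : V2, a ≠ b → a ≠ c → b ≠ c →
    a + b + c ≠ a ∧ a + b + c ≠ b ∧ a + b + c ≠ c := by decide

theorem perm_affine (π : Equiv.Perm V2) (u v w : V2) : π (u + v + w) = π u + π v + π w := by
  by_cases huv : u = v
  · subst huv
    rw [v2_add_self, zero_add, v2_add_self, zero_add]
  by_cases huw : u = w
  · subst huw
    rw [add_right_comm, v2_add_self, zero_add, add_right_comm, v2_add_self, zero_add]
  by_cases hvw : v = w
  · subst hvw
    rw [add_assoc, v2_add_self, add_zero, add_assoc, v2_add_self, add_zero]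
  obtain ⟨h1, h2, h3⟩ := v2_sum3 u v w huv huw hvw
  exact v2_fourth (π u) (π v) (π w) (fun h => huv (π.injective h)) (fun h => huw (π.injective h))
    (fun h => hvw (π.injective h)) _ (fun h => h1 (π.injective h)) (fun h => h2 (π.injective h))
    (fun h => h3 (π.injective h))

theorem eps_affine : ∀ ε : V2 → Fin 2, (∏ x, (if ε x = 0 then (1 : ℤˣ) else -1)) = 1 →
    ∀ u v w, ε (u + v + w) = ε u + ε v + ε w := by decide

/-- Permutations of `F_2^3` compatible with sums of three points (the affine group). -/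
def Aff : Subgroup (Equiv.Perm V) where
  carrier := {τ | ∀ u v w : V, τ (u + v + w) = τ u + τ v + τ w}
  one_mem' := fun _ _ _ => rfl
  mul_mem' := by
    intro g h hg hh u v w
    show g (h (u + v + w)) = g (h u) + g (h v) + g (h w)
    rw [hh u v w, hg]
  inv_mem' := by
    intro g hg u v w
    apply g.injective
    rw [hg]
    simp

theorem fin2_ne : ∀ a b : Fin 2, b ≠ a → b = a + 1 := by decide

theorem fibre_form (τ : Equiv.Perm V) (hτ : ∀ u v : V, u.1 = v.1 ↔ (τ u).1 = (τ v).1) :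
    ∃ π : Equiv.Perm V2, ∃ ε : V2 → Fin 2, ∀ x d, τ (x, d) = (π x, ε x + d) := by
  have inj : Function.Injective (fun x : V2 => (τ (x, 0)).1) := by
    intro x y hxy
    exact (hτ (x, 0) (y, 0)).mpr hxy
  refine ⟨Equiv.ofBijective _ (Finite.injective_iff_bijective.mp inj), fun x => (τ (x, 0)).2, ?_⟩
  intro x d
  have h1 : (τ (x, 1)).1 = (τ (x, 0)).1 := (hτ (x, 1) (x, 0)).mp rfl
  have h2 : (τ (x, 1)).2 ≠ (τ (x, 0)).2 := by
    intro h
    have h3 : τ (x, 1) = τ (x, 0) := Prod.ext h1 h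
    have h4 := τ.injective h3
    have h5 : (1 : Fin 2) = 0 := congrArg Prod.snd h4
    exact absurd h5 (by decide)
  fin_cases d
  · exact Prod.ext rfl (by simp)
  · exact Prod.ext h1 (fin2_ne _ _ h2)

theorem swap_apply_fin2 : ∀ e d : Fin 2, (if e = 0 then (1 : Equiv.Perm (Fin 2)) else Equiv.swap 0 1) d = e + d := by
  decide

theorem sign_fibre (τ : Equiv.Perm V) (π : Equiv.Perm V2) (ε : V2 → Fin 2)
    (h : ∀ x d, τ (x, d) = (π x, ε x + d)) :
    Equiv.Perm.sign τ = ∏ x, (if ε x = 0 then (1 : ℤˣ) else -1) := by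
  have hτ : τ = (Equiv.prodCongrLeft (fun _ : Fin 2 => π)) *
      (Equiv.prodCongrRight (fun x => if ε x = 0 then (1 : Equiv.Perm (Fin 2)) else Equiv.swap 0 1)) := by
    ext1 ⟨x, d⟩
    rw [h]
    show _ = ((π x, (if ε x = 0 then (1 : Equiv.Perm (Fin 2)) else Equiv.swap 0 1) d) : V)
    rw [swap_apply_fin2]
  rw [hτ, Equiv.Perm.sign_mul, Equiv.Perm.sign_prodCongrLeft, Equiv.Perm.sign_prodCongrRight]
  have h1 : (∏ _k : Fin 2, Equiv.Perm.sign π) = 1 := by
    rw [Fin.prod_univ_two]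
    exact Int.units_mul_self _
  rw [h1, one_mul]
  refine Finset.prod_congr rfl (fun x _ => ?_)
  by_cases hx : ε x = 0
  · rw [if_pos hx, if_pos hx, Equiv.Perm.sign_one]
  · rw [if_neg hx, if_neg hx, Equiv.Perm.sign_swap (by decide)]

theorem mem_Aff_of_fibre (τ : Equiv.Perm V) (hτ : ∀ u v : V, u.1 = v.1 ↔ (τ u).1 = (τ v).1)
    (hs : Equiv.Perm.sign τ = 1) : τ ∈ Aff := by
  obtain ⟨π, ε, h⟩ := fibre_form τ hτ
  have he := eps_affine ε (by rw [← sign_fibre τ π ε h, hs])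
  rintro ⟨x1, d1⟩ ⟨x2, d2⟩ ⟨x3, d3⟩
  show τ (x1 + x2 + x3, d1 + d2 + d3) = τ (x1, d1) + τ (x2, d2) + τ (x3, d3)
  rw [h, h, h, h, perm_affine, he]
  refine Prod.ext rfl ?_
  show ε x1 + ε x2 + ε x3 + (d1 + d2 + d3) = ε x1 + d1 + (ε x2 + d2) + (ε x3 + d3)
  abel

theorem exists_coords {Ω : Type*} (f : Ω → Fin 4)
    (hf : ∀ i : Fin 4, Nat.card {x : Ω // f x = i} = 2) :
    ∃ c : Ω ≃ V, ∀ x y : Ω, f x = f y ↔ (c x).1 = (c y).1 := by
  have e : ∀ i : Fin 4, {x : Ω // f x = i} ≃ Fin 2 := fun i => by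
    have : Finite {x : Ω // f x = i} := Nat.finite_of_card_ne_zero (by rw [hf i]; norm_num)
    exact Finite.equivFinOfCardEq (hf i)
  let q : Fin 4 ≃ Fin 2 × Fin 2 := (finProdFinEquiv : Fin 2 × Fin 2 ≃ Fin 4).symm
  let c : Ω ≃ V := (((Equiv.sigmaFiberEquiv f).symm.trans (Equiv.sigmaCongrRight e)).trans
    (Equiv.sigmaEquivProd (Fin 4) (Fin 2))).trans (Equiv.prodCongr q (Equiv.refl (Fin 2)))
  refine ⟨c, fun x y => ?_⟩
  have hc : ∀ z : Ω, (c z).1 = q (f z) := fun z => rfl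
  rw [hc, hc, Equiv.apply_eq_iff_eq]

theorem conj_apply {Ω : Type*} (c : Ω ≃ V) (τ : Equiv.Perm V) (x : Ω) :
    c ((c.symm.permCongr τ) x) = τ (c x) := by
  simp [Equiv.permCongr_apply]

theorem permCongr_conj {Ω : Type*} (c : Ω ≃ V) (τ : Equiv.Perm V) :
    c.permCongr (c.symm.permCongr τ) = τ := by
  refine Equiv.ext (fun x => ?_)
  simp [Equiv.permCongr_apply]

def tau1 : Equiv.Perm V :=
  Equiv.swap ((0, 1), 0) ((0, 0), 1) * Equiv.swap ((1, 1), 0) ((1, 0), 1)

def tau2 : Equiv.Perm V :=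
  Equiv.swap ((0, 0), 0) ((0, 1), 0) * Equiv.swap ((0, 0), 0) ((1, 0), 0)

theorem tau1_mem : tau1 ∈ Aff := by
  show ∀ u v w : V, tau1 (u + v + w) = tau1 u + tau1 v + tau1 w
  decide

theorem tau1_sign : Equiv.Perm.sign tau1 = 1 := by
  unfold tau1
  rw [Equiv.Perm.sign_mul, Equiv.Perm.sign_swap (by decide), Equiv.Perm.sign_swap (by decide)]
  rfl

theorem tau2_sign : Equiv.Perm.sign tau2 = 1 := by
  unfold tau2
  rw [Equiv.Perm.sign_mul, Equiv.Perm.sign_swap (by decide), Equiv.Perm.sign_swap (by decide)]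
  rfl

theorem tau2_not_mem : tau2 ∉ Aff := by
  intro h
  exact absurd (h ((0, 0), 0) ((0, 1), 0) ((0, 0), 1)) (by decide)

theorem tau1_fst : (tau1 ((0, 1), 0)).1 ≠ (tau1 ((0, 1), 1)).1 := by decide

theorem main_aux {Ω : Type*} [Fintype Ω] [DecidableEq Ω]
    (f : Ω → Fin 4) (hf : ∀ i : Fin 4, Nat.card {x : Ω // f x = i} = 2) :
    ¬ IsCoatom ((Subgroup.closure {g : Equiv.Perm Ω | ∀ x y : Ω, f x = f y ↔ f (g x) = f (g y)} ⊓ alternatingGroup Ω).subgroupOf (alternatingGroup Ω)) := by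
  rw [Cfsg.Agent.S5905.closure_eq_blockStab]
  intro hmax
  obtain ⟨c, hc⟩ := exists_coords f hf
  let ψ : Equiv.Perm Ω →* Equiv.Perm V := c.permCongrHom.toMonoidHom
  have hψ : ∀ g : Equiv.Perm Ω, ψ g = c.permCongr g := fun g => rfl
  let J : Subgroup (Equiv.Perm Ω) := (Aff.comap ψ) ⊓ alternatingGroup Ω
  have hWJ : Cfsg.Agent.S5905.blockStab f ⊓ alternatingGroup Ω ≤ J := by
    intro g hg
    refine ⟨?_, hg.2⟩
    show ψ g ∈ Aff
    apply mem_Aff_of_fibre
    · intro u v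
      have h1 := hg.1 (c.symm u) (c.symm v)
      rw [hc, hc] at h1
      rw [hψ, Equiv.permCongr_apply, Equiv.permCongr_apply]
      simpa using h1
    · rw [hψ, Equiv.Perm.sign_permCongr]
      exact Equiv.Perm.mem_alternatingGroup.mp hg.2
  rcases Cfsg.Agent.Lib.Helper98.interval_of_isCoatom_subgroupOf _ _ inf_le_right hmax J hWJ
    inf_le_right with h | h
  · -- `J = W ⊓ A`
    have hg : c.symm.permCongr tau1 ∈ J := by
      refine ⟨?_, ?_⟩
      · show ψ (c.symm.permCongr tau1) ∈ Aff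
        rw [hψ, permCongr_conj]
        exact tau1_mem
      · show c.symm.permCongr tau1 ∈ alternatingGroup Ω
        rw [Equiv.Perm.mem_alternatingGroup, Equiv.Perm.sign_permCongr]
        exact tau1_sign
    rw [h] at hg
    have h1 := (hg.1 (c.symm ((0, 1), 0)) (c.symm ((0, 1), 1))).mp (by
      rw [hc, Equiv.apply_symm_apply, Equiv.apply_symm_apply])
    rw [hc, conj_apply, conj_apply, Equiv.apply_symm_apply, Equiv.apply_symm_apply] at h1
    exact tau1_fst h1
  · -- `J = A`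
    have hg : c.symm.permCongr tau2 ∈ alternatingGroup Ω := by
      rw [Equiv.Perm.mem_alternatingGroup, Equiv.Perm.sign_permCongr]
      exact tau2_sign
    rw [← h] at hg
    have h1 : ψ (c.symm.permCongr tau2) ∈ Aff := hg.1
    rw [hψ, permCongr_conj] at h1
    exact tau2_not_mem h1

end aux

/-- Let Ω be a set with 8 elements and f : Ω → Fin 4 a labelling whose four fibres all have size 2 (a partition of the 8 points into 4 pairs). Then the group of even permutations preserving this partition, (S₂ ≀ S₄) ∩ A₈, is not a maximal subgroup of the alternating group A₈ (it lies in a subgroup isomorphic to the affine group AGL₃(2)). -/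
theorem result {Ω : Type*} [Fintype Ω] [DecidableEq Ω] (h8 : Fintype.card Ω = 8)
    (f : Ω → Fin 4) (hf : ∀ i : Fin 4, Nat.card {x : Ω // f x = i} = 2) :
    ¬ IsCoatom ((Subgroup.closure {g : Equiv.Perm Ω | ∀ x y : Ω, f x = f y ↔ f (g x) = f (g y)} ⊓ alternatingGroup Ω).subgroupOf (alternatingGroup Ω)) := by
  exact main_aux f hf

end Cfsg.Agent.S5910
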