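import Cfsg.Statements.S5911
-- import your own Cfsg.Agent.* helpers here
import Cfsg.Agent.Lib.Helper98.Interval

set_option autoImplicit false
open Cfsg

namespace Cfsg.Agent.S5911

section aux
open Nat
open scoped Pointwise

theorem fact_aux (i : ℕ) : 2 ^ (i + 3) * (i + 4)! < (2 * i + 6)! := by
  induction i with
  | zero => decide
  | succ i ih =>
    have h1 : (2 * (i + 1) + 6)! = (2 * i + 8) * ((2 * i + 7) * (2 * i + 6)!) := by
      have : 2 * (i + 1) + 6 = (2 * i + 7) + 1 := by ring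
      rw [this, Nat.factorial_succ, Nat.factorial_succ]
    have h2 : 2 ^ (i + 1 + 3) * (i + 1 + 4)! = 2 * (i + 5) * (2 ^ (i + 3) * (i + 4)!) := by
      have : i + 1 + 4 = (i + 4) + 1 := by ring
      rw [this, Nat.factorial_succ]
      ring
    rw [h1, h2]
    have h3 : 2 * (i + 5) * (2 ^ (i + 3) * (i + 4)!) < 2 * (i + 5) * (2 * i + 6)! :=
      Nat.mul_lt_mul_of_pos_left ih (by positivity)
    have h4 : 2 * (i + 5) * (2 * i + 6)! ≤ (2 * i + 8) * ((2 * i + 7) * (2 * i + 6)!) := by
      have : 2 * (i + 5) ≤ (2 * i + 8) * (2 * i + 7) := by nlinarith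
      calc 2 * (i + 5) * (2 * i + 6)! ≤ ((2 * i + 8) * (2 * i + 7)) * (2 * i + 6)! :=
            Nat.mul_le_mul_right _ this
        _ = (2 * i + 8) * ((2 * i + 7) * (2 * i + 6)!) := by ring
    omega

theorem arith_key (n j : ℕ) (hj : 1 ≤ j) (h2j : 2 * j ≤ n) (h6 : n ≠ 6)
    (h : (n - 2 * j)! * 2 ^ j * j ! = 2 * (n - 2)!) : j = 1 := by
  obtain ⟨m, rfl⟩ : ∃ m, n = m + 2 * j := ⟨n - 2 * j, by omega⟩
  have hm : m + 2 * j - 2 * j = m := by omega
  rw [hm] at h
  have hmpos : 0 < m ! := Nat.factorial_pos m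
  rcases j with _ | _ | _ | _ | i
  · omega
  · rfl
  · exfalso
    have h1 : (m + 2 * 2 - 2)! = (m + 2) * ((m + 1) * m !) := by
      have : m + 2 * 2 - 2 = (m + 1) + 1 := by omega
      rw [this, Nat.factorial_succ, Nat.factorial_succ]
    rw [h1] at h
    have h2 : m ! * 4 = m ! * ((m + 2) * (m + 1)) := by
      rw [show (0 + 1 + 1 : ℕ) = 2 from rfl, show (2:ℕ) ^ 2 = 4 from rfl,
        show (2:ℕ)! = 2 from rfl] at h
      linarith
    have h3 : 4 = (m + 2) * (m + 1) := Nat.eq_of_mul_eq_mul_left hmpos h2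
    rcases m with _ | _ | m
    · omega
    · omega
    · nlinarith
  · exfalso
    have h1 : (m + 2 * 3 - 2)! = (m + 4) * ((m + 3) * ((m + 2) * ((m + 1) * m !))) := by
      have : m + 2 * 3 - 2 = (((m + 1) + 1) + 1) + 1 := by omega
      rw [this, Nat.factorial_succ, Nat.factorial_succ, Nat.factorial_succ, Nat.factorial_succ]
    rw [h1] at h
    have h2 : m ! * 24 = m ! * ((m + 4) * (m + 3) * (m + 2) * (m + 1)) := by
      rw [show (0 + 1 + 1 + 1 : ℕ) = 3 from rfl, show (2:ℕ) ^ 3 = 8 from rfl,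
        show (3:ℕ)! = 6 from rfl] at h
      linarith
    have h3 : 24 = (m + 4) * (m + 3) * (m + 2) * (m + 1) := Nat.eq_of_mul_eq_mul_left hmpos h2
    rcases m with _ | m
    · omega
    · have : 120 ≤ (m + 1 + 4) * (m + 1 + 3) * (m + 1 + 2) * (m + 1 + 1) := by
        have h5 : 5 ≤ m + 1 + 4 := by omega
        have h4 : 4 ≤ m + 1 + 3 := by omega
        have h3' : 3 ≤ m + 1 + 2 := by omega
        have h2' : 2 ≤ m + 1 + 1 := by omega
        calc 120 = 5 * 4 * 3 * 2 := by norm_num
          _ ≤ (m + 1 + 4) * (m + 1 + 3) * (m + 1 + 2) * (m + 1 + 1) :=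
            Nat.mul_le_mul (Nat.mul_le_mul (Nat.mul_le_mul h5 h4) h3') h2'
      omega
  · exfalso
    have h1 : m + 2 * (i + 4) - 2 = m + (2 * i + 6) := by omega
    rw [h1] at h
    have h2 : m ! * (2 * i + 6)! ≤ (m + (2 * i + 6))! :=
      Nat.le_of_dvd (Nat.factorial_pos _) (Nat.factorial_mul_factorial_dvd_factorial_add _ _)
    have h3 := fact_aux i
    have h4 : m ! * (2 ^ (i + 3) * (i + 4)!) < m ! * (2 * i + 6)! :=
      Nat.mul_lt_mul_of_pos_left h3 hmpos
    have h5 : m ! * 2 ^ (i + 4) * (i + 4)! = 2 * (m ! * (2 ^ (i + 3) * (i + 4)!)) := by ring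
    have h6' : i + 1 + 1 + 1 + 1 = i + 4 := by ring
    rw [h6'] at h
    omega

theorem isSwap_map {α β : Type*} [Fintype α] [DecidableEq α] [Fintype β] [DecidableEq β]
    (hc : Fintype.card α = Fintype.card β) (h6 : Fintype.card α ≠ 6)
    (f : Equiv.Perm α ≃* Equiv.Perm β) (s : Equiv.Perm α) (hs : s.IsSwap) : (f s).IsSwap := by
  have ho : orderOf (f s) = 2 := by rw [MulEquiv.orderOf_eq]; exact hs.orderOf
  have hprime : (orderOf (f s)).Prime := by rw [ho]; exact Nat.prime_two
  obtain ⟨k, hk⟩ := Equiv.Perm.cycleType_prime_order hprime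
  rw [ho] at hk
  have hcent : Nat.card (Subgroup.centralizer {s}) = Nat.card (Subgroup.centralizer {f s}) := by
    apply Nat.card_congr
    refine Equiv.subtypeEquiv f.toEquiv ?_
    intro a
    simp only [Subgroup.mem_centralizer_singleton_iff]
    constructor
    · intro h
      show f a * f s = f s * f a
      rw [← map_mul, ← map_mul, h]
    · intro h
      have h' : f a * f s = f s * f a := h
      rw [← map_mul, ← map_mul] at h'
      exact f.injective h'
  rw [Equiv.Perm.nat_card_centralizer, Equiv.Perm.nat_card_centralizer,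
    Equiv.Perm.isSwap_iff_cycleType.mp hs, hk] at hcent
  have hsum := Equiv.Perm.sum_cycleType_le (f s)
  rw [hk] at hsum
  simp only [Multiset.sum_singleton, Multiset.prod_singleton, Multiset.toFinset_singleton,
    Finset.prod_singleton, Multiset.count_singleton_self, Nat.factorial_one, mul_one,
    Multiset.sum_replicate, Multiset.prod_replicate, smul_eq_mul] at hcent hsum
  have htf : (Multiset.replicate (k + 1) 2).toFinset = {2} := by
    rw [Multiset.toFinset_replicate]; simp
  rw [htf, Finset.prod_singleton, Multiset.count_replicate_self, ← hc] at hcent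
  have hk1 : k + 1 = 1 := by
    apply arith_key (Fintype.card α) (k + 1) (by omega) (by rw [hc]; omega) h6
    have : Fintype.card α - 2 * (k + 1) = Fintype.card α - (k + 1) * 2 := by omega
    rw [this]
    omega
  rw [Equiv.Perm.isSwap_iff_cycleType, hk, hk1]
  rfl


theorem choose_ge (m : ℕ) : ∀ j, 1 ≤ j → j + 1 ≤ m → m ≤ m.choose j := by
  induction m with
  | zero => intro j h1 h2; omega
  | succ m ih =>
    intro j h1 h2
    obtain ⟨i, rfl⟩ : ∃ i, j = i + 1 := ⟨j - 1, by omega⟩
    rw [Nat.choose_succ_succ']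
    rcases Nat.eq_zero_or_pos i with hi | hi
    · subst hi
      simp
    · have := ih i hi (by omega)
      have h3 : 0 < m.choose (i + 1) := Nat.choose_pos (by omega)
      omega

theorem choose_dvd_cases (n k : ℕ) (hn : 3 ≤ n) (hk1 : 1 ≤ k) (hkn : k ≤ n)
    (hd : n.choose k ∣ n) : k = 1 ∨ k + 1 = n ∨ k = n := by
  by_contra hcon
  push Not at hcon
  obtain ⟨h1, h2, h3⟩ := hcon
  obtain ⟨m, rfl⟩ : ∃ m, n = m + 1 := ⟨n - 1, by omega⟩
  obtain ⟨i, rfl⟩ : ∃ i, k = i + 1 := ⟨k - 1, by omega⟩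
  have hle := Nat.le_of_dvd (by omega) hd
  rw [Nat.choose_succ_succ'] at hle
  have a1 := choose_ge m i (by omega) (by omega)
  have a2 := choose_ge m (i + 1) (by omega) (by omega)
  omega

theorem index_stabilizer_finset {Ω : Type*} [Fintype Ω] [DecidableEq Ω] (s : Finset Ω) :
    (MulAction.stabilizer (Equiv.Perm Ω) (s : Set Ω)).index = (Fintype.card Ω).choose s.card := by
  have h1 := Set.powersetCard.stabilizer_coe (G := Equiv.Perm Ω)
    (Set.powersetCard.ofCard (s := s) (n := s.card) rfl)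
  have := Set.powersetCard.isPretransitive (α := Ω) (n := s.card)
  have h2 := MulAction.index_stabilizer_of_transitive (G := Equiv.Perm Ω)
    (Set.powersetCard.ofCard (s := s) (n := s.card) rfl)
  rw [Set.powersetCard.card, Nat.card_eq_fintype_card] at h2
  rw [← h2, h1]
  rfl

theorem swap_eq_of_moves {Ω : Type*} [DecidableEq Ω] (s : Equiv.Perm Ω) (hs : s.IsSwap) (a : Ω)
    (ha : s a ≠ a) : s = Equiv.swap a (s a) := by
  obtain ⟨u, w, huw, rfl⟩ := hs
  by_cases hau : a = u
  · rw [hau, Equiv.swap_apply_left]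
  · by_cases haw : a = w
    · rw [haw, Equiv.swap_apply_right, Equiv.swap_comm]
    · exact absurd (Equiv.swap_apply_of_ne_of_ne hau haw) ha

theorem le_stabilizer_class {Ω : Type*} [Fintype Ω] [DecidableEq Ω]
    (H : Subgroup (Equiv.Perm Ω))
    (hgen : H ≤ Subgroup.closure {s : Equiv.Perm Ω | s ∈ H ∧ s.IsSwap}) (a : Ω) :
    H ≤ MulAction.stabilizer (Equiv.Perm Ω) {v : Ω | v = a ∨ Equiv.swap a v ∈ H} := by
  refine hgen.trans ?_
  rw [Subgroup.closure_le]
  rintro s ⟨hsH, hs⟩
  rw [SetLike.mem_coe, MulAction.mem_stabilizer_set_iff_smul_set_subset (Set.toFinite _)]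
  rintro _ ⟨v, hv, rfl⟩
  show s v = a ∨ Equiv.swap a (s v) ∈ H
  have hinv : s (s a) = a := by
    obtain ⟨u, w, huw, rfl⟩ := hs
    exact Equiv.swap_apply_self u w a
  have hcase_a : s a = a ∨ Equiv.swap a (s a) ∈ H := by
    by_cases hsa : s a = a
    · left; exact hsa
    · right
      rw [← swap_eq_of_moves s hs a hsa]; exact hsH
  by_cases hva : v = a
  · rw [hva]; exact hcase_a
  · have hv' : Equiv.swap a v ∈ H := by
      rcases hv with hv | hv
      · exact absurd hv hva
      · exact hv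
    by_cases hsa : s a = a
    · right
      have h1 : Equiv.swap a (s v) = s * Equiv.swap a v * s⁻¹ := by
        rw [← Equiv.swap_apply_apply, hsa]
      rw [h1]
      exact H.mul_mem (H.mul_mem hsH hv') (H.inv_mem hsH)
    · have hs' := swap_eq_of_moves s hs a hsa
      by_cases hvb : v = s a
      · left; rw [hvb]; exact hinv
      · right
        have h1 : s v = v := by rw [hs']; exact Equiv.swap_apply_of_ne_of_ne hva hvb
        rw [h1]; exact hv'

theorem exists_fixed_ge5 {Ω : Type*} [Fintype Ω] [DecidableEq Ω] (h6 : Fintype.card Ω ≠ 6)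
    (h5 : 5 ≤ Fintype.card Ω) (H : Subgroup (Equiv.Perm Ω)) (hH : H.index = Fintype.card Ω) :
    ∃ x : Ω, H ≤ MulAction.stabilizer (Equiv.Perm Ω) x := by
  classical
  let _ : Fintype (Equiv.Perm Ω ⧸ H) := Fintype.ofFinite _
  have hX : Fintype.card (Equiv.Perm Ω ⧸ H) = Fintype.card Ω := by
    rw [← hH, Subgroup.index_eq_card, Nat.card_eq_fintype_card]
  have hker : (MulAction.toPermHom (Equiv.Perm Ω) (Equiv.Perm Ω ⧸ H)).ker = ⊥ := by
    have h1 : H.normalCore = (MulAction.toPermHom (Equiv.Perm Ω) (Equiv.Perm Ω ⧸ H)).ker :=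
      Subgroup.normalCore_eq_ker H
    rw [← h1]
    by_contra hne
    have hnt : Nontrivial H.normalCore := (Subgroup.nontrivial_iff_ne_bot _).mpr hne
    have h2 : alternatingGroup Ω ≤ H :=
      (Equiv.Perm.alternatingGroup_le_of_normal (by rw [Nat.card_eq_fintype_card]; exact h5)
        hnt).trans H.normalCore_le
    have h3 := Subgroup.index_dvd_of_le h2
    have : Nontrivial Ω := Fintype.one_lt_card_iff_nontrivial.mp (by omega)
    rw [alternatingGroup.index_eq_two, hH] at h3
    have := Nat.le_of_dvd (by norm_num) h3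
    omega
  have hinj : Function.Injective (MulAction.toPermHom (Equiv.Perm Ω) (Equiv.Perm Ω ⧸ H)) :=
    (MonoidHom.ker_eq_bot_iff _).mp hker
  have hbij : Function.Bijective (MulAction.toPermHom (Equiv.Perm Ω) (Equiv.Perm Ω ⧸ H)) := by
    rw [Fintype.bijective_iff_injective_and_card]
    exact ⟨hinj, by rw [Fintype.card_perm, Fintype.card_perm, hX]⟩
  let e : Equiv.Perm Ω ≃* Equiv.Perm (Equiv.Perm Ω ⧸ H) := MulEquiv.ofBijective _ hbij
  have he : ∀ σ, e σ = MulAction.toPermHom (Equiv.Perm Ω) (Equiv.Perm Ω ⧸ H) σ := fun σ => rfl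
  let x₀ : Equiv.Perm Ω ⧸ H := ((1 : Equiv.Perm Ω) : Equiv.Perm Ω ⧸ H)
  have hstab : MulAction.stabilizer (Equiv.Perm Ω) x₀ = H := MulAction.stabilizer_quotient H
  have hmem : ∀ σ : Equiv.Perm Ω, σ ∈ H ↔ e σ x₀ = x₀ := by
    intro σ
    exact ⟨fun h => hstab.ge h, fun h => hstab.le h⟩
  have hswap : ∀ u v : Equiv.Perm Ω ⧸ H, u ≠ x₀ → v ≠ x₀ → u ≠ v →
      e.symm (Equiv.swap u v) ∈ H ∧ (e.symm (Equiv.swap u v)).IsSwap := by
    intro u v hu hv huv
    constructor
    · rw [hmem, MulEquiv.apply_symm_apply]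
      exact Equiv.swap_apply_of_ne_of_ne hu.symm hv.symm
    · exact isSwap_map hX (by rw [hX]; exact h6) e.symm _ ⟨u, v, huv, rfl⟩
  have hgen : H ≤ Subgroup.closure {s : Equiv.Perm Ω | s ∈ H ∧ s.IsSwap} := by
    intro σ hσ
    have h1 : MulAction.stabilizer (Equiv.Perm (Equiv.Perm Ω ⧸ H)) x₀ ≤
        (Subgroup.closure {s : Equiv.Perm Ω | s ∈ H ∧ s.IsSwap}).comap e.symm.toMonoidHom := by
      apply Cfsg.Agent.Lib.Helper98.stabilizer_le_of_swaps
      intro u v hu hv
      by_cases huv : u = v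
      · rw [huv, Equiv.swap_self]; exact Subgroup.one_mem _
      · exact Subgroup.subset_closure (hswap u v hu hv huv)
    have h2 : e σ ∈ MulAction.stabilizer (Equiv.Perm (Equiv.Perm Ω ⧸ H)) x₀ := (hmem σ).mp hσ
    have h3 := h1 h2
    simpa using h3
  obtain ⟨u, hu, v, hv, huv⟩ : ∃ u : Equiv.Perm Ω ⧸ H, u ≠ x₀ ∧ ∃ v, v ≠ x₀ ∧ u ≠ v := by
    obtain ⟨p, q, r, hpq, hpr, hqr⟩ := Fintype.two_lt_card_iff.mp (by omega : 2 < Fintype.card (Equiv.Perm Ω ⧸ H))
    by_cases hp : p = x₀
    · exact ⟨q, fun h => hpq (hp.trans h.symm), r, fun h => hpr (hp.trans h.symm), hqr⟩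
    · by_cases hq : q = x₀
      · exact ⟨p, hp, r, fun h => hqr (hq.trans h.symm), hpr⟩
      · exact ⟨p, hp, q, hq, hpq⟩
  obtain ⟨hsH, a, b, hab, hsab⟩ := hswap u v hu hv huv
  have hCset : ((Finset.univ.filter (fun w => w = a ∨ Equiv.swap a w ∈ H) : Finset Ω) : Set Ω) =
      {w : Ω | w = a ∨ Equiv.swap a w ∈ H} := by
    ext w; simp
  have hle : H ≤ MulAction.stabilizer (Equiv.Perm Ω)
      ((Finset.univ.filter (fun w => w = a ∨ Equiv.swap a w ∈ H) : Finset Ω) : Set Ω) := by
    rw [hCset]; exact le_stabilizer_class H hgen a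
  have hdvd : (Fintype.card Ω).choose
      (Finset.univ.filter (fun w => w = a ∨ Equiv.swap a w ∈ H) : Finset Ω).card ∣
      Fintype.card Ω := by
    have := Subgroup.index_dvd_of_le hle
    rwa [index_stabilizer_finset, hH] at this
  have haC : a ∈ (Finset.univ.filter (fun w => w = a ∨ Equiv.swap a w ∈ H) : Finset Ω) := by simp
  have hbC : b ∈ (Finset.univ.filter (fun w => w = a ∨ Equiv.swap a w ∈ H) : Finset Ω) := by
    simp only [Finset.mem_filter, Finset.mem_univ, true_and]
    right; rw [← hsab]; exact hsH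
  have hC2 : 2 ≤ (Finset.univ.filter (fun w => w = a ∨ Equiv.swap a w ∈ H) : Finset Ω).card := by
    have h1 : ({a, b} : Finset Ω) ⊆ Finset.univ.filter (fun w => w = a ∨ Equiv.swap a w ∈ H) := by
      intro w hw
      rw [Finset.mem_insert, Finset.mem_singleton] at hw
      rcases hw with hw | hw
      · rw [hw]; exact haC
      · rw [hw]; exact hbC
    have h2 := Finset.card_le_card h1
    rwa [Finset.card_pair hab] at h2
  rcases choose_dvd_cases _ _ (by omega) (by omega) (Finset.card_le_univ _) hdvd with h | h | h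
  · omega
  · have hcompl : (Finset.univ.filter (fun w => w = a ∨ Equiv.swap a w ∈ H) : Finset Ω)ᶜ.card = 1 := by
      rw [Finset.card_compl]; omega
    obtain ⟨x, hx⟩ := Finset.card_eq_one.mp hcompl
    refine ⟨x, ?_⟩
    have h1 : MulAction.stabilizer (Equiv.Perm Ω)
        ((Finset.univ.filter (fun w => w = a ∨ Equiv.swap a w ∈ H) : Finset Ω) : Set Ω) =
        MulAction.stabilizer (Equiv.Perm Ω) x := by
      rw [← stabilizer_compl, ← Finset.coe_compl, hx, Finset.coe_singleton,
        MulAction.stabilizer_singleton]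
    rw [← h1]; exact hle
  · exfalso
    have hCuniv := (Finset.card_eq_iff_eq_univ _).mp h
    have hall : ∀ w, w ≠ a → Equiv.swap a w ∈ H := by
      intro w hw
      have h1 : w ∈ (Finset.univ.filter (fun w => w = a ∨ Equiv.swap a w ∈ H) : Finset Ω) := by
        rw [hCuniv]; exact Finset.mem_univ w
      simp only [Finset.mem_filter, Finset.mem_univ, true_and] at h1
      rcases h1 with h1 | h1
      · exact absurd h1 hw
      · exact h1
    have htop : H = ⊤ := by
      rw [eq_top_iff, ← Equiv.Perm.closure_isSwap, Subgroup.closure_le]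
      rintro s ⟨p, q, hpq, rfl⟩
      by_cases hpa : p = a
      · rw [hpa]; exact hall q (fun hqa => hpq (hpa.trans hqa.symm))
      · by_cases hqa : q = a
        · rw [hqa, Equiv.swap_comm]; exact hall p hpa
        · have h1 : Equiv.swap p q = Equiv.swap a q * Equiv.swap a p * Equiv.swap a q := by
            rw [Equiv.swap_comm a p, Equiv.swap_mul_swap_mul_swap hpa hpq, Equiv.swap_comm]
          rw [h1]
          exact H.mul_mem (H.mul_mem (hall q hqa) (hall p hpa)) (hall q hqa)
    rw [htop, Subgroup.index_top] at hH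
    omega

theorem eq_of_le_stabilizer {Ω : Type*} [Fintype Ω] [DecidableEq Ω]
    (H : Subgroup (Equiv.Perm Ω)) (hH : H.index = Fintype.card Ω) (x : Ω)
    (hle : H ≤ MulAction.stabilizer (Equiv.Perm Ω) x) :
    H = MulAction.stabilizer (Equiv.Perm Ω) x := by
  have h1 : (MulAction.stabilizer (Equiv.Perm Ω) x).index = Fintype.card Ω := by
    rw [MulAction.index_stabilizer_of_transitive, Nat.card_eq_fintype_card]
  have h2 := Subgroup.relIndex_mul_index hle
  rw [h1, hH] at h2
  have hpos : 0 < Fintype.card Ω := Fintype.card_pos_iff.mpr ⟨x⟩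
  have h3 : H.relIndex (MulAction.stabilizer (Equiv.Perm Ω) x) = 1 :=
    Nat.eq_of_mul_eq_mul_right hpos (by rw [h2, one_mul])
  exact le_antisymm hle (Subgroup.relIndex_eq_one.mp h3)

theorem exists_fixed_small {Ω : Type*} [Fintype Ω] [DecidableEq Ω] (h4 : Fintype.card Ω ≤ 4)
    (H : Subgroup (Equiv.Perm Ω)) (hH : H.index = Fintype.card Ω) :
    ∃ x : Ω, H ≤ MulAction.stabilizer (Equiv.Perm Ω) x := by
  have hcard : Nat.card H * Fintype.card Ω = (Fintype.card Ω)! := by
    rw [← hH, Subgroup.card_mul_index, Nat.card_eq_fintype_card, Fintype.card_perm, hH]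
  have hpos : Fintype.card Ω ≠ 0 := by
    rw [← hH]; exact Subgroup.index_ne_zero_of_finite
  have hne : Nonempty Ω := Fintype.card_pos_iff.mp (Nat.pos_of_ne_zero hpos)
  obtain ⟨n, hn⟩ : ∃ n, Fintype.card Ω = n := ⟨_, rfl⟩
  rw [hn] at hcard h4 hpos
  interval_cases n
  · omega
  · obtain ⟨x⟩ := hne
    refine ⟨x, fun σ _ => ?_⟩
    have : Subsingleton Ω := Fintype.card_le_one_iff_subsingleton.mp hn.le
    exact Subsingleton.elim _ _
  · obtain ⟨x⟩ := hne
    have h1 : Nat.card H = 1 := by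
      have : (2 : ℕ)! = 2 := rfl
      omega
    have h2 : H = ⊥ := Subgroup.eq_bot_of_card_eq H h1
    exact ⟨x, h2 ▸ bot_le⟩
  · have h1 : Nat.card H = 2 := by
      have : (3 : ℕ)! = 6 := rfl
      omega
    have hp : IsPGroup 2 H := IsPGroup.of_card (n := 1) (by simpa using h1)
    have : Fact (Nat.Prime 2) := ⟨Nat.prime_two⟩
    obtain ⟨x, hx⟩ := hp.nonempty_fixed_point_of_prime_not_dvd_card Ω
      (by rw [Nat.card_eq_fintype_card, hn]; decide)
    exact ⟨x, fun σ hσ => hx ⟨σ, hσ⟩⟩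
  · have h1 : Nat.card H = 6 := by
      have : (4 : ℕ)! = 24 := rfl
      omega
    have : Fact (Nat.Prime 3) := ⟨Nat.prime_three⟩
    obtain ⟨c, hc⟩ := exists_prime_orderOf_dvd_card' (G := H) 3 (by rw [h1]; decide)
    have hc' : orderOf (c : Equiv.Perm Ω) = 3 := by rw [Subgroup.orderOf_coe]; exact hc
    obtain ⟨k, hk⟩ := Equiv.Perm.cycleType_prime_order (σ := (c : Equiv.Perm Ω))
      (by rw [hc']; exact Nat.prime_three)
    rw [hc'] at hk
    have hsum := Equiv.Perm.sum_cycleType_le (c : Equiv.Perm Ω)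
    have hsupp : (c : Equiv.Perm Ω).support.card = 3 := by
      rw [← Equiv.Perm.sum_cycleType]
      rw [hk, Multiset.sum_replicate, smul_eq_mul, hn] at hsum
      rw [hk, Multiset.sum_replicate, smul_eq_mul]
      omega
    have hcompl : ((c : Equiv.Perm Ω).support)ᶜ.card = 1 := by
      rw [Finset.card_compl, hsupp, hn]
    obtain ⟨w, hw⟩ := Finset.card_eq_one.mp hcompl
    have hfix : ∀ y, (c : Equiv.Perm Ω) y = y ↔ y = w := by
      intro y
      rw [← Equiv.Perm.notMem_support, ← Finset.mem_compl, hw, Finset.mem_singleton]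
    have hidx : (Subgroup.zpowers c).index = 2 := by
      have := (Subgroup.zpowers c).card_mul_index
      rw [Nat.card_zpowers, hc, h1] at this
      omega
    have hnorm := Subgroup.normal_of_index_eq_two hidx
    refine ⟨w, fun σ hσ => ?_⟩
    have h2 := hnorm.conj_mem c (Subgroup.mem_zpowers c) (⟨σ, hσ⟩⁻¹ : H)
    obtain ⟨i, hi⟩ := Subgroup.mem_zpowers_iff.mp h2
    show σ w = w
    rw [← hfix]
    have h3 : ((c : Equiv.Perm Ω) ^ i) w = w :=
      Equiv.Perm.zpow_apply_eq_self_of_apply_eq_self ((hfix w).mpr rfl) i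
    have h4 : (c : Equiv.Perm Ω) ^ i = σ⁻¹ * (c : Equiv.Perm Ω) * σ := by
      have := congrArg (Subtype.val) hi
      simpa using this
    have h5 : (c : Equiv.Perm Ω) (σ w) = σ (((c : Equiv.Perm Ω) ^ i) w) := by
      rw [h4]; simp
    rw [h5, h3]

theorem main_aux {Ω : Type*} [Fintype Ω] [DecidableEq Ω] (h6 : Fintype.card Ω ≠ 6)
    (H : Subgroup (Equiv.Perm Ω)) (hH : H.index = Fintype.card Ω) :
    ∃ x : Ω, H = MulAction.stabilizer (Equiv.Perm Ω) x := by
  have key : ∃ x : Ω, H ≤ MulAction.stabilizer (Equiv.Perm Ω) x := by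
    by_cases h4 : Fintype.card Ω ≤ 4
    · exact exists_fixed_small h4 H hH
    · exact exists_fixed_ge5 h6 (by omega) H hH
  obtain ⟨x, hx⟩ := key
  exact ⟨x, eq_of_le_stabilizer H hH x hx⟩

end aux

/-- Let Ω be a finite set whose size n is not 6. Then every subgroup of the symmetric group on Ω of index n is the stabilizer of a point. -/
theorem result {Ω : Type*} [Fintype Ω] [DecidableEq Ω] (h6 : Fintype.card Ω ≠ 6)
    (H : Subgroup (Equiv.Perm Ω)) (hH : H.index = Fintype.card Ω) :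
    ∃ x : Ω, H = MulAction.stabilizer (Equiv.Perm Ω) x := by
  exact main_aux h6 H hH

end Cfsg.Agent.S5911
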