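import Cfsg.Statements.S5912
-- import your own Cfsg.Agent.* helpers here
import Cfsg.Agent.S5911
import Cfsg.Agent.Lib.Helper98.Interval

set_option autoImplicit false
open Cfsg

namespace Cfsg.Agent.S5912

section aux
open Nat
open scoped Pointwise
open Cfsg.Agent.S5911

/-- a subgroup of index `n` generated by the swaps it contains, and containing a swap,
fixes a point -/
theorem exists_fixed_of_gen {Ω : Type*} [Fintype Ω] [DecidableEq Ω] (h3 : 3 ≤ Fintype.card Ω)
    (H : Subgroup (Equiv.Perm Ω)) (hH : H.index = Fintype.card Ω)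
    (hgen : H ≤ Subgroup.closure {s : Equiv.Perm Ω | s ∈ H ∧ s.IsSwap})
    (hex : ∃ s ∈ H, s.IsSwap) :
    ∃ x : Ω, H ≤ MulAction.stabilizer (Equiv.Perm Ω) x := by
  classical
  obtain ⟨s, hsH, a, b, hab, hsab⟩ := hex
  have hCset : ((Finset.univ.filter (fun w => w = a ∨ Equiv.swap a w ∈ H) : Finset Ω) : Set Ω) =
      {w : Ω | w = a ∨ Equiv.swap a w ∈ H} := by
    ext w; simp
  have hle : H ≤ MulAction.stabilizer (Equiv.Perm Ω)
      ((Finset.univ.filter (fun w => w = a ∨ Equiv.swap a w ∈ H) : Finset Ω) : Set Ω) := by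
    rw [hCset]; exact le_stabilizer_class H hgen a
  have hdvd : (Fintype.card Ω).choose
      (Finset.univ.filter (fun w => w = a ∨ Equiv.swap a w ∈ H) : Finset Ω).card ∣
      Fintype.card Ω := by
    have := Subgroup.index_dvd_of_le hle
    rwa [index_stabilizer_finset, hH] at this
  have haC : a ∈ (Finset.univ.filter (fun w => w = a ∨ Equiv.swap a w ∈ H) : Finset Ω) := by simp
  have hbC : b ∈ (Finset.univ.filter (fun w => w = a ∨ Equiv.swap a w ∈ H) : Finset Ω) := by
    simp only [Finset.mem_filter, Finset.mem_univ, true_and]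
    right; rw [← hsab]; exact hsH
  have hC2 : 2 ≤ (Finset.univ.filter (fun w => w = a ∨ Equiv.swap a w ∈ H) : Finset Ω).card := by
    have h1 : ({a, b} : Finset Ω) ⊆ Finset.univ.filter (fun w => w = a ∨ Equiv.swap a w ∈ H) := by
      intro w hw
      rw [Finset.mem_insert, Finset.mem_singleton] at hw
      rcases hw with hw | hw
      · rw [hw]; exact haC
      · rw [hw]; exact hbC
    have h2 := Finset.card_le_card h1
    rwa [Finset.card_pair hab] at h2
  rcases choose_dvd_cases _ _ h3 (by omega) (Finset.card_le_univ _) hdvd with h | h | h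
  · omega
  · have hcompl : (Finset.univ.filter (fun w => w = a ∨ Equiv.swap a w ∈ H) : Finset Ω)ᶜ.card = 1 := by
      rw [Finset.card_compl]; omega
    obtain ⟨x, hx⟩ := Finset.card_eq_one.mp hcompl
    refine ⟨x, ?_⟩
    have h1 : MulAction.stabilizer (Equiv.Perm Ω)
        ((Finset.univ.filter (fun w => w = a ∨ Equiv.swap a w ∈ H) : Finset Ω) : Set Ω) =
        MulAction.stabilizer (Equiv.Perm Ω) x := by
      rw [← stabilizer_compl, ← Finset.coe_compl, hx, Finset.coe_singleton,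
        MulAction.stabilizer_singleton]
    rw [← h1]; exact hle
  · exfalso
    have hCuniv := (Finset.card_eq_iff_eq_univ _).mp h
    have hall : ∀ w, w ≠ a → Equiv.swap a w ∈ H := by
      intro w hw
      have h1 : w ∈ (Finset.univ.filter (fun w => w = a ∨ Equiv.swap a w ∈ H) : Finset Ω) := by
        rw [hCuniv]; exact Finset.mem_univ w
      simp only [Finset.mem_filter, Finset.mem_univ, true_and] at h1
      rcases h1 with h1 | h1
      · exact absurd h1 hw
      · exact h1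
    have htop : H = ⊤ := by
      rw [eq_top_iff, ← Equiv.Perm.closure_isSwap, Subgroup.closure_le]
      rintro s ⟨p, q, hpq, rfl⟩
      by_cases hpa : p = a
      · rw [hpa]; exact hall q (fun hqa => hpq (hpa.trans hqa.symm))
      · by_cases hqa : q = a
        · rw [hqa, Equiv.swap_comm]; exact hall p hpa
        · have h1 : Equiv.swap p q = Equiv.swap a q * Equiv.swap a p * Equiv.swap a q := by
            rw [Equiv.swap_comm a p, Equiv.swap_mul_swap_mul_swap hpa hpq, Equiv.swap_comm]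
          rw [h1]
          exact H.mul_mem (H.mul_mem (hall q hqa) (hall p hpa)) (hall q hqa)
    rw [htop, Subgroup.index_top] at hH
    omega

theorem stabilizer_inj {Ω : Type*} [Fintype Ω] [DecidableEq Ω] (h3 : 3 ≤ Fintype.card Ω)
    (y y' : Ω) (h : MulAction.stabilizer (Equiv.Perm Ω) y = MulAction.stabilizer (Equiv.Perm Ω) y') :
    y = y' := by
  by_contra hne
  obtain ⟨z, hz⟩ : ∃ z, z ∉ ({y, y'} : Finset Ω) := by
    by_contra hcon
    push Not at hcon
    have h1 : ({y, y'} : Finset Ω) = Finset.univ := Finset.eq_univ_iff_forall.mpr hcon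
    have h2 := Finset.card_pair hne
    rw [h1, Finset.card_univ] at h2
    omega
  rw [Finset.mem_insert, Finset.mem_singleton] at hz
  push Not at hz
  have h1 : Equiv.swap y' z ∈ MulAction.stabilizer (Equiv.Perm Ω) y :=
    Equiv.swap_apply_of_ne_of_ne hne (Ne.symm hz.1)
  rw [h] at h1
  have h2 : Equiv.swap y' z y' = y' := h1
  rw [Equiv.swap_apply_left] at h2
  exact hz.2 h2

/-- an automorphism of `Perm Ω` mapping swaps to swaps is inner -/
theorem inner_of_swaps {Ω : Type*} [Fintype Ω] [DecidableEq Ω] (h3 : 3 ≤ Fintype.card Ω)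
    (θ : Equiv.Perm Ω ≃* Equiv.Perm Ω) (hθ : ∀ s : Equiv.Perm Ω, s.IsSwap → (θ s).IsSwap) :
    ∃ π : Equiv.Perm Ω, ∀ σ, θ σ = π * σ * π⁻¹ := by
  have step1 : ∀ x : Ω, ∃ y : Ω, (MulAction.stabilizer (Equiv.Perm Ω) x).map
      (θ : Equiv.Perm Ω →* Equiv.Perm Ω) = MulAction.stabilizer (Equiv.Perm Ω) y := by
    intro x
    have hidx : ((MulAction.stabilizer (Equiv.Perm Ω) x).map
        (θ : Equiv.Perm Ω →* Equiv.Perm Ω)).index = Fintype.card Ω := by
      rw [Subgroup.index_map_equiv, MulAction.index_stabilizer_of_transitive,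
        Nat.card_eq_fintype_card]
    have hgen : (MulAction.stabilizer (Equiv.Perm Ω) x).map (θ : Equiv.Perm Ω →* Equiv.Perm Ω) ≤
        Subgroup.closure {s : Equiv.Perm Ω | s ∈ (MulAction.stabilizer (Equiv.Perm Ω) x).map
          (θ : Equiv.Perm Ω →* Equiv.Perm Ω) ∧ s.IsSwap} := by
      rw [Subgroup.map_le_iff_le_comap]
      apply Cfsg.Agent.Lib.Helper98.stabilizer_le_of_swaps
      intro u v hu hv
      by_cases huv : u = v
      · rw [huv, Equiv.swap_self]; exact Subgroup.one_mem _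
      · apply Subgroup.subset_closure
        refine ⟨Subgroup.mem_map_of_mem _ ?_, hθ _ ⟨u, v, huv, rfl⟩⟩
        exact Equiv.swap_apply_of_ne_of_ne (Ne.symm hu) (Ne.symm hv)
    have hex : ∃ s ∈ (MulAction.stabilizer (Equiv.Perm Ω) x).map
        (θ : Equiv.Perm Ω →* Equiv.Perm Ω), s.IsSwap := by
      obtain ⟨p, q, r, hpq, hpr, hqr⟩ := Fintype.two_lt_card_iff.mp (by omega : 2 < Fintype.card Ω)
      obtain ⟨u, hu, v, hv, huv⟩ : ∃ u : Ω, u ≠ x ∧ ∃ v, v ≠ x ∧ u ≠ v := by
        by_cases hp : p = x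
        · exact ⟨q, fun h => hpq (hp.trans h.symm), r, fun h => hpr (hp.trans h.symm), hqr⟩
        · by_cases hq : q = x
          · exact ⟨p, hp, r, fun h => hqr (hq.trans h.symm), hpr⟩
          · exact ⟨p, hp, q, hq, hpq⟩
      refine ⟨θ (Equiv.swap u v), Subgroup.mem_map_of_mem _ ?_, hθ _ ⟨u, v, huv, rfl⟩⟩
      exact Equiv.swap_apply_of_ne_of_ne (Ne.symm hu) (Ne.symm hv)
    obtain ⟨y, hy⟩ := exists_fixed_of_gen h3 _ hidx hgen hex
    exact ⟨y, eq_of_le_stabilizer _ hidx y hy⟩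
  choose π hπ using step1
  have hinj : Function.Injective π := by
    intro x x' hxx
    have h1 := hπ x
    rw [hxx, ← hπ x'] at h1
    exact stabilizer_inj h3 _ _ (Subgroup.map_injective θ.injective h1)
  have hequiv : ∀ (σ : Equiv.Perm Ω) (x : Ω), θ σ (π x) = π (σ x) := by
    intro σ x
    have h1 : MulAction.stabilizer (Equiv.Perm Ω) (σ x) =
        (MulAction.stabilizer (Equiv.Perm Ω) x).map (MulAut.conj σ).toMonoidHom :=
      MulAction.stabilizer_smul_eq_stabilizer_map_conj σ x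
    have h2 : MulAction.stabilizer (Equiv.Perm Ω) (θ σ (π x)) =
        (MulAction.stabilizer (Equiv.Perm Ω) (π x)).map (MulAut.conj (θ σ)).toMonoidHom :=
      MulAction.stabilizer_smul_eq_stabilizer_map_conj (θ σ) (π x)
    have h3' : (θ : Equiv.Perm Ω →* Equiv.Perm Ω).comp (MulAut.conj σ).toMonoidHom =
        (MulAut.conj (θ σ)).toMonoidHom.comp (θ : Equiv.Perm Ω →* Equiv.Perm Ω) := by
      ext τ
      simp
    have h4 : MulAction.stabilizer (Equiv.Perm Ω) (π (σ x)) =
        MulAction.stabilizer (Equiv.Perm Ω) (θ σ (π x)) := by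
      rw [← hπ (σ x), h1, Subgroup.map_map, h3', ← Subgroup.map_map, hπ x, ← h2]
    exact (stabilizer_inj h3 _ _ h4).symm
  have hbij : Function.Bijective π := Finite.injective_iff_bijective.mp hinj
  refine ⟨Equiv.ofBijective π hbij, fun σ => ?_⟩
  ext y
  obtain ⟨x, rfl⟩ := hbij.2 y
  rw [hequiv]
  simp [Equiv.Perm.mul_apply, Equiv.Perm.inv_def]

theorem cycleType_image_swap {Ω : Type*} [Fintype Ω] [DecidableEq Ω] (h6 : Fintype.card Ω = 6)
    (α : Equiv.Perm Ω ≃* Equiv.Perm Ω) (s : Equiv.Perm Ω) (hs : s.IsSwap) :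
    (α s).IsSwap ∨ (α s).cycleType = Multiset.replicate 3 2 := by
  have ho : orderOf (α s) = 2 := by rw [MulEquiv.orderOf_eq]; exact hs.orderOf
  have hprime : (orderOf (α s)).Prime := by rw [ho]; exact Nat.prime_two
  obtain ⟨k, hk⟩ := Equiv.Perm.cycleType_prime_order hprime
  rw [ho] at hk
  have hcent : Nat.card (Subgroup.centralizer {s}) = Nat.card (Subgroup.centralizer {α s}) := by
    apply Nat.card_congr
    refine Equiv.subtypeEquiv α.toEquiv ?_
    intro a
    simp only [Subgroup.mem_centralizer_singleton_iff]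
    constructor
    · intro h
      show α a * α s = α s * α a
      rw [← map_mul, ← map_mul, h]
    · intro h
      have h' : α a * α s = α s * α a := h
      rw [← map_mul, ← map_mul] at h'
      exact α.injective h'
  rw [Equiv.Perm.nat_card_centralizer, Equiv.Perm.nat_card_centralizer,
    Equiv.Perm.isSwap_iff_cycleType.mp hs, hk] at hcent
  have hsum := Equiv.Perm.sum_cycleType_le (α s)
  rw [hk] at hsum
  simp only [Multiset.sum_singleton, Multiset.prod_singleton, Multiset.toFinset_singleton,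
    Finset.prod_singleton, Multiset.count_singleton_self, Nat.factorial_one, mul_one,
    Multiset.sum_replicate, Multiset.prod_replicate, smul_eq_mul] at hcent hsum
  have htf : (Multiset.replicate (k + 1) 2).toFinset = {2} := by
    rw [Multiset.toFinset_replicate]; simp
  rw [htf, Finset.prod_singleton, Multiset.count_replicate_self, h6] at hcent
  rw [h6] at hsum
  have hk3 : k < 3 := by omega
  interval_cases k
  · left
    rw [Equiv.Perm.isSwap_iff_cycleType, hk]
    rfl
  · exfalso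
    revert hcent
    decide
  · right
    exact hk

theorem card_swaps {Ω : Type*} [Fintype Ω] [DecidableEq Ω] (h6 : Fintype.card Ω = 6) :
    (Finset.univ.filter (fun g : Equiv.Perm Ω => g.cycleType = {2})).card = 15 := by
  rw [Equiv.Perm.card_of_cycleType, if_pos ⟨by simp [h6], by simp⟩, h6]
  simp
  decide

theorem card_222 {Ω : Type*} [Fintype Ω] [DecidableEq Ω] (h6 : Fintype.card Ω = 6) :
    (Finset.univ.filter (fun g : Equiv.Perm Ω => g.cycleType = Multiset.replicate 3 2)).card = 15 := by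
  rw [Equiv.Perm.card_of_cycleType, if_pos ⟨by simp [h6], by simp⟩, h6]
  have htf : (Multiset.replicate 3 2).toFinset = {2} := by
    rw [Multiset.toFinset_replicate]; simp
  rw [htf]
  simp
  decide


/-- swap-preserving automorphisms have swap-preserving inverses -/
theorem sp_symm {Ω : Type*} [Fintype Ω] [DecidableEq Ω]
    (α : Equiv.Perm Ω ≃* Equiv.Perm Ω) (hα : ∀ s : Equiv.Perm Ω, s.IsSwap → (α s).IsSwap) :
    ∀ s : Equiv.Perm Ω, s.IsSwap → (α.symm s).IsSwap := by
  classical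
  have himg : (Finset.univ.filter (fun g : Equiv.Perm Ω => g.IsSwap)).image α =
      Finset.univ.filter (fun g : Equiv.Perm Ω => g.IsSwap) := by
    apply Finset.eq_of_subset_of_card_le
    · intro t ht
      obtain ⟨s, hs, rfl⟩ := Finset.mem_image.mp ht
      rw [Finset.mem_filter] at hs ⊢
      exact ⟨Finset.mem_univ _, hα s hs.2⟩
    · rw [Finset.card_image_of_injective _ α.injective]
  intro t ht
  have h1 : t ∈ (Finset.univ.filter (fun g : Equiv.Perm Ω => g.IsSwap)).image α := by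
    rw [himg, Finset.mem_filter]; exact ⟨Finset.mem_univ _, ht⟩
  obtain ⟨s, hs, rfl⟩ := Finset.mem_image.mp h1
  rw [MulEquiv.symm_apply_apply]
  exact (Finset.mem_filter.mp hs).2

theorem all_222 {Ω : Type*} [Fintype Ω] [DecidableEq Ω] (h6 : Fintype.card Ω = 6)
    (α : Equiv.Perm Ω ≃* Equiv.Perm Ω) (hα : ¬ ∀ s : Equiv.Perm Ω, s.IsSwap → (α s).IsSwap) :
    ∀ s : Equiv.Perm Ω, s.IsSwap → (α s).cycleType = Multiset.replicate 3 2 := by
  push Not at hα
  obtain ⟨s₀, hs₀, hns₀⟩ := hα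
  have h0 : (α s₀).cycleType = Multiset.replicate 3 2 := by
    rcases cycleType_image_swap h6 α s₀ hs₀ with h | h
    · exact absurd h hns₀
    · exact h
  intro s hs
  obtain ⟨a, b, hab, rfl⟩ := hs₀
  obtain ⟨c, d, hcd, rfl⟩ := hs
  have hc : IsConj (Equiv.swap a b) (Equiv.swap c d) := Equiv.Perm.isConj_swap hab hcd
  have hc' : IsConj (α (Equiv.swap a b)) (α (Equiv.swap c d)) := by
    obtain ⟨g, hg⟩ := isConj_iff.mp hc
    rw [isConj_iff]
    refine ⟨α g, ?_⟩
    rw [← hg]
    simp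
  rw [← Equiv.Perm.isConj_iff_cycleType_eq.mp hc']
  exact h0

theorem symm_swap_of_222 {Ω : Type*} [Fintype Ω] [DecidableEq Ω] (h6 : Fintype.card Ω = 6)
    (α : Equiv.Perm Ω ≃* Equiv.Perm Ω) (hα : ¬ ∀ s : Equiv.Perm Ω, s.IsSwap → (α s).IsSwap)
    (u : Equiv.Perm Ω) (hu : u.cycleType = Multiset.replicate 3 2) : (α.symm u).IsSwap := by
  classical
  have h222 := all_222 h6 α hα
  have himg : (Finset.univ.filter (fun g : Equiv.Perm Ω => g.cycleType = {2})).image α =
      Finset.univ.filter (fun g : Equiv.Perm Ω => g.cycleType = Multiset.replicate 3 2) := by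
    apply Finset.eq_of_subset_of_card_le
    · intro t ht
      obtain ⟨s, hs, rfl⟩ := Finset.mem_image.mp ht
      rw [Finset.mem_filter] at hs ⊢
      exact ⟨Finset.mem_univ _, h222 s (Equiv.Perm.isSwap_iff_cycleType.mpr hs.2)⟩
    · rw [Finset.card_image_of_injective _ α.injective, card_swaps h6, card_222 h6]
  have h1 : u ∈ (Finset.univ.filter (fun g : Equiv.Perm Ω => g.cycleType = {2})).image α := by
    rw [himg, Finset.mem_filter]; exact ⟨Finset.mem_univ _, hu⟩
  obtain ⟨s, hs, rfl⟩ := Finset.mem_image.mp h1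
  rw [MulEquiv.symm_apply_apply]
  exact Equiv.Perm.isSwap_iff_cycleType.mpr (Finset.mem_filter.mp hs).2

theorem exists_coset_iso {Ω : Type*} [Fintype Ω] [DecidableEq Ω] (h5 : 5 ≤ Fintype.card Ω)
    (H : Subgroup (Equiv.Perm Ω)) (hH : H.index = Fintype.card Ω) (ω₀ : Ω) :
    ∃ α : Equiv.Perm Ω ≃* Equiv.Perm Ω, ∀ σ, σ ∈ H ↔ α σ ω₀ = ω₀ := by
  classical
  let _ : Fintype (Equiv.Perm Ω ⧸ H) := Fintype.ofFinite _
  have hX : Fintype.card (Equiv.Perm Ω ⧸ H) = Fintype.card Ω := by
    rw [← hH, Subgroup.index_eq_card, Nat.card_eq_fintype_card]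
  have hker : (MulAction.toPermHom (Equiv.Perm Ω) (Equiv.Perm Ω ⧸ H)).ker = ⊥ := by
    have h1 : H.normalCore = (MulAction.toPermHom (Equiv.Perm Ω) (Equiv.Perm Ω ⧸ H)).ker :=
      Subgroup.normalCore_eq_ker H
    rw [← h1]
    by_contra hne
    have hnt : Nontrivial H.normalCore := (Subgroup.nontrivial_iff_ne_bot _).mpr hne
    have h2 : alternatingGroup Ω ≤ H :=
      (Equiv.Perm.alternatingGroup_le_of_normal (by rw [Nat.card_eq_fintype_card]; exact h5)
        hnt).trans H.normalCore_le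
    have h3 := Subgroup.index_dvd_of_le h2
    have : Nontrivial Ω := Fintype.one_lt_card_iff_nontrivial.mp (by omega)
    rw [alternatingGroup.index_eq_two, hH] at h3
    have := Nat.le_of_dvd (by norm_num) h3
    omega
  have hinj : Function.Injective (MulAction.toPermHom (Equiv.Perm Ω) (Equiv.Perm Ω ⧸ H)) :=
    (MonoidHom.ker_eq_bot_iff _).mp hker
  have hbij : Function.Bijective (MulAction.toPermHom (Equiv.Perm Ω) (Equiv.Perm Ω ⧸ H)) := by
    rw [Fintype.bijective_iff_injective_and_card]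
    exact ⟨hinj, by rw [Fintype.card_perm, Fintype.card_perm, hX]⟩
  let e : Equiv.Perm Ω ≃* Equiv.Perm (Equiv.Perm Ω ⧸ H) := MulEquiv.ofBijective _ hbij
  let x₀ : Equiv.Perm Ω ⧸ H := ((1 : Equiv.Perm Ω) : Equiv.Perm Ω ⧸ H)
  have hstab : MulAction.stabilizer (Equiv.Perm Ω) x₀ = H := MulAction.stabilizer_quotient H
  have hmem : ∀ σ : Equiv.Perm Ω, σ ∈ H ↔ e σ x₀ = x₀ := by
    intro σ
    exact ⟨fun h => hstab.ge h, fun h => hstab.le h⟩
  let g₀ : (Equiv.Perm Ω ⧸ H) ≃ Ω := Fintype.equivOfCardEq hX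
  let f : (Equiv.Perm Ω ⧸ H) ≃ Ω := g₀.trans (Equiv.swap (g₀ x₀) ω₀)
  have hf : f x₀ = ω₀ := by
    show Equiv.swap (g₀ x₀) ω₀ (g₀ x₀) = ω₀
    exact Equiv.swap_apply_left _ _
  refine ⟨e.trans f.permCongrHom, fun σ => ?_⟩
  rw [hmem]
  show e σ x₀ = x₀ ↔ f (e σ (f.symm ω₀)) = ω₀
  rw [← hf, Equiv.symm_apply_apply, f.apply_eq_iff_eq]

theorem exists_transitive {Ω : Type*} [Fintype Ω] [DecidableEq Ω] (h6 : Fintype.card Ω = 6) :
    ∃ H : Subgroup (Equiv.Perm Ω), H.index = 6 ∧ ∀ x y : Ω, ∃ h ∈ H, h x = y := by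
  classical
  have : Fact (Nat.Prime 5) := ⟨by norm_num⟩
  obtain ⟨P⟩ : Nonempty (Sylow 5 (Equiv.Perm (Fin 5))) := inferInstance
  have hG : Nat.card (Equiv.Perm (Fin 5)) = 120 := by
    rw [Nat.card_eq_fintype_card, Fintype.card_perm, Fintype.card_fin]; rfl
  have hPidx : (P : Subgroup (Equiv.Perm (Fin 5))).index = 24 := by
    obtain ⟨k, hk⟩ := IsPGroup.iff_card.mp P.isPGroup'
    have h1 := (P : Subgroup (Equiv.Perm (Fin 5))).card_mul_index
    have h2 : ¬ 5 ∣ (P : Subgroup (Equiv.Perm (Fin 5))).index := P.not_dvd_index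
    rw [hk, hG] at h1
    rcases k with _ | _ | k
    · exfalso; apply h2; rw [pow_zero, one_mul] at h1; rw [h1]; decide
    · rw [zero_add, pow_one] at h1; omega
    · exfalso
      have h3 : (25 : ℕ) ∣ 120 := by
        rw [← h1]
        exact Dvd.dvd.mul_right (by rw [pow_succ, pow_succ]; exact ⟨5 ^ k, by ring⟩) _
      revert h3; decide
  have hNidx : (Subgroup.normalizer ((P : Subgroup (Equiv.Perm (Fin 5))) : Set (Equiv.Perm (Fin 5)))).index = 6 := by
    have h1 := Sylow.card_eq_index_normalizer P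
    have h2 : Nat.card (Sylow 5 (Equiv.Perm (Fin 5))) ≡ 1 [MOD 5] := card_sylow_modEq_one 5 _
    have h3 := Sylow.card_dvd_index P
    rw [hPidx] at h3
    rw [h1] at h2 h3
    have h4 := Nat.le_of_dvd (by norm_num) h3
    have hne1 : (Subgroup.normalizer ((P : Subgroup (Equiv.Perm (Fin 5))) : Set (Equiv.Perm (Fin 5)))).index ≠ 1 := by
      intro h
      have h5 := Subgroup.index_eq_one.mp h
      have hnorm : (P : Subgroup (Equiv.Perm (Fin 5))).Normal := Subgroup.normalizer_eq_top_iff.mp h5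
      have hnt : Nontrivial (P : Subgroup (Equiv.Perm (Fin 5))) := by
        rw [Subgroup.nontrivial_iff_ne_bot]
        intro hbot
        rw [hbot, Subgroup.index_bot, hG] at hPidx
        omega
      have h6' : alternatingGroup (Fin 5) ≤ (P : Subgroup (Equiv.Perm (Fin 5))) :=
        Equiv.Perm.alternatingGroup_le_of_normal (by simp) hnt
      have h7 := Subgroup.index_dvd_of_le h6'
      rw [alternatingGroup.index_eq_two, hPidx] at h7
      revert h7; decide
    generalize (Subgroup.normalizer ((P : Subgroup (Equiv.Perm (Fin 5))) : Set (Equiv.Perm (Fin 5)))).index = m at *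
    unfold Nat.ModEq at h2
    interval_cases m <;> simp_all
  set N := Subgroup.normalizer ((P : Subgroup (Equiv.Perm (Fin 5))) : Set (Equiv.Perm (Fin 5))) with hN
  let _ : Fintype (Equiv.Perm (Fin 5) ⧸ N) := Fintype.ofFinite _
  have hX : Fintype.card (Equiv.Perm (Fin 5) ⧸ N) = 6 := by
    rw [← hNidx, Subgroup.index_eq_card, Nat.card_eq_fintype_card]
  have hker : (MulAction.toPermHom (Equiv.Perm (Fin 5)) (Equiv.Perm (Fin 5) ⧸ N)).ker = ⊥ := by
    have h1 : N.normalCore = (MulAction.toPermHom (Equiv.Perm (Fin 5)) (Equiv.Perm (Fin 5) ⧸ N)).ker :=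
      Subgroup.normalCore_eq_ker N
    rw [← h1]
    by_contra hne
    have hnt : Nontrivial N.normalCore := (Subgroup.nontrivial_iff_ne_bot _).mpr hne
    have h2 : alternatingGroup (Fin 5) ≤ N :=
      (Equiv.Perm.alternatingGroup_le_of_normal (by simp) hnt).trans N.normalCore_le
    have h3 := Subgroup.index_dvd_of_le h2
    rw [alternatingGroup.index_eq_two, hNidx] at h3
    revert h3; decide
  have hinj : Function.Injective (MulAction.toPermHom (Equiv.Perm (Fin 5)) (Equiv.Perm (Fin 5) ⧸ N)) :=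
    (MonoidHom.ker_eq_bot_iff _).mp hker
  have hRidx : (MulAction.toPermHom (Equiv.Perm (Fin 5)) (Equiv.Perm (Fin 5) ⧸ N)).range.index = 6 := by
    have h1 := (MulAction.toPermHom (Equiv.Perm (Fin 5)) (Equiv.Perm (Fin 5) ⧸ N)).range.card_mul_index
    have h2 : Nat.card (MulAction.toPermHom (Equiv.Perm (Fin 5)) (Equiv.Perm (Fin 5) ⧸ N)).range = 120 := by
      rw [← hG]
      exact Nat.card_congr (Equiv.ofInjective _ hinj).symm
    rw [h2, Nat.card_eq_fintype_card, Fintype.card_perm, hX] at h1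
    have : (6 : ℕ)! = 720 := rfl
    omega
  let β : (Equiv.Perm (Fin 5) ⧸ N) ≃ Ω := Fintype.equivOfCardEq (hX.trans h6.symm)
  refine ⟨(MulAction.toPermHom (Equiv.Perm (Fin 5)) (Equiv.Perm (Fin 5) ⧸ N)).range.map
    (β.permCongrHom : Equiv.Perm (Equiv.Perm (Fin 5) ⧸ N) →* Equiv.Perm Ω), ?_, ?_⟩
  · rw [Subgroup.index_map_equiv, hRidx]
  · intro x y
    obtain ⟨g, hg⟩ := MulAction.exists_smul_eq (Equiv.Perm (Fin 5)) (β.symm x) (β.symm y)
    refine ⟨β.permCongrHom (MulAction.toPermHom (Equiv.Perm (Fin 5)) (Equiv.Perm (Fin 5) ⧸ N) g),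
      Subgroup.mem_map_of_mem _ ⟨g, rfl⟩, ?_⟩
    show β (g • β.symm x) = y
    rw [hg, Equiv.apply_symm_apply]

theorem map_conj_eq {Ω : Type*} (A B : Subgroup (Equiv.Perm Ω)) (π : Equiv.Perm Ω)
    (phi : Equiv.Perm Ω ≃* Equiv.Perm Ω) (hπ : ∀ σ, phi σ = π * σ * π⁻¹)
    (hAB : ∀ σ, σ ∈ A ↔ phi σ ∈ B) : A.map (MulAut.conj π).toMonoidHom = B := by
  ext τ
  constructor
  · rintro ⟨σ, hσ, rfl⟩
    have h1 : (MulAut.conj π).toMonoidHom σ = phi σ := by rw [hπ]; rfl
    rw [h1]
    exact (hAB σ).mp hσ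
  · intro hτ
    refine ⟨phi.symm τ, (hAB _).mpr (by rwa [MulEquiv.apply_symm_apply]), ?_⟩
    have h1 : (MulAut.conj π).toMonoidHom (phi.symm τ) = phi (phi.symm τ) := by rw [hπ]; rfl
    rw [h1, MulEquiv.apply_symm_apply]

theorem main_aux {Ω : Type*} [Fintype Ω] [DecidableEq Ω] (h6 : Fintype.card Ω = 6) :
    ∃ H₁ H₂ : Subgroup (Equiv.Perm Ω), H₁.index = 6 ∧ H₂.index = 6 ∧
      (¬ ∃ g : Equiv.Perm Ω, Subgroup.map (MulAut.conj g).toMonoidHom H₁ = H₂) ∧
      ∀ H : Subgroup (Equiv.Perm Ω), H.index = 6 →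
        ∃ g : Equiv.Perm Ω, Subgroup.map (MulAut.conj g).toMonoidHom H₁ = H ∨ Subgroup.map (MulAut.conj g).toMonoidHom H₂ = H := by
  have hne : Nonempty Ω := Fintype.card_pos_iff.mp (by omega)
  have hnt : Nontrivial Ω := Fintype.one_lt_card_iff_nontrivial.mp (by omega)
  obtain ⟨ω₀⟩ := hne
  obtain ⟨H₂, hH₂, htrans⟩ := exists_transitive h6
  have hH₁ : (MulAction.stabilizer (Equiv.Perm Ω) ω₀).index = 6 := by
    rw [MulAction.index_stabilizer_of_transitive, Nat.card_eq_fintype_card, h6]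
  have hnc : ∀ g : Equiv.Perm Ω,
      (MulAction.stabilizer (Equiv.Perm Ω) ω₀).map (MulAut.conj g).toMonoidHom ≠ H₂ := by
    intro g hg
    rw [← MulAction.stabilizer_smul_eq_stabilizer_map_conj] at hg
    obtain ⟨y, hy⟩ := exists_ne (g • ω₀)
    obtain ⟨h, hh, hxy⟩ := htrans (g • ω₀) y
    rw [← hg] at hh
    have hh' : h (g • ω₀) = g • ω₀ := hh
    exact hy (hxy ▸ hh')
  refine ⟨MulAction.stabilizer (Equiv.Perm Ω) ω₀, H₂, hH₁, hH₂, fun ⟨g, hg⟩ => hnc g hg, ?_⟩
  intro H hH
  obtain ⟨α, hα⟩ := exists_coset_iso (by omega) H (by rw [hH, h6]) ω₀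
  obtain ⟨α₂, hα₂⟩ := exists_coset_iso (by omega) H₂ (by rw [hH₂, h6]) ω₀
  by_cases hSP : ∀ s : Equiv.Perm Ω, s.IsSwap → (α s).IsSwap
  · obtain ⟨π, hπ⟩ := inner_of_swaps (by omega) α.symm (sp_symm α hSP)
    refine ⟨π, Or.inl ?_⟩
    apply map_conj_eq _ _ π α.symm hπ
    intro σ
    rw [hα, MulEquiv.apply_symm_apply]
    rfl
  · have hSP₂ : ¬ ∀ s : Equiv.Perm Ω, s.IsSwap → (α₂ s).IsSwap := by
      intro h2
      obtain ⟨π, hπ⟩ := inner_of_swaps (by omega) α₂.symm (sp_symm α₂ h2)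
      apply hnc π
      apply map_conj_eq _ _ π α₂.symm hπ
      intro σ
      rw [hα₂, MulEquiv.apply_symm_apply]
      rfl
    have hθ : ∀ s : Equiv.Perm Ω, s.IsSwap → ((α₂.trans α.symm) s).IsSwap := by
      intro s hs
      have h1 := all_222 h6 α₂ hSP₂ s hs
      exact symm_swap_of_222 h6 α hSP (α₂ s) h1
    obtain ⟨π, hπ⟩ := inner_of_swaps (by omega) (α₂.trans α.symm) hθ
    refine ⟨π, Or.inr ?_⟩
    apply map_conj_eq _ _ π (α₂.trans α.symm) hπ
    intro σ
    rw [hα₂, hα]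
    show α₂ σ ω₀ = ω₀ ↔ α (α.symm (α₂ σ)) ω₀ = ω₀
    rw [MulEquiv.apply_symm_apply]

end aux

/-- The symmetric group on a 6-element set Ω has exactly two conjugacy classes of subgroups of index 6: there are two non-conjugate subgroups of index 6 (a point stabilizer and a transitive subgroup isomorphic to S₅), and every subgroup of index 6 is conjugate to one of them. -/
theorem result {Ω : Type*} [Fintype Ω] [DecidableEq Ω] (h6 : Fintype.card Ω = 6) :
    ∃ H₁ H₂ : Subgroup (Equiv.Perm Ω), H₁.index = 6 ∧ H₂.index = 6 ∧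
      (¬ ∃ g : Equiv.Perm Ω, Subgroup.map (MulAut.conj g).toMonoidHom H₁ = H₂) ∧
      ∀ H : Subgroup (Equiv.Perm Ω), H.index = 6 →
        ∃ g : Equiv.Perm Ω, Subgroup.map (MulAut.conj g).toMonoidHom H₁ = H ∨ Subgroup.map (MulAut.conj g).toMonoidHom H₂ = H := by
  exact main_aux h6

end Cfsg.Agent.S5912
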