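import Cfsg.Statements.S5913
-- import your own Cfsg.Agent.* helpers here

set_option autoImplicit false
open Cfsg

namespace Cfsg.Agent.S5913

theorem exists_not_comm {S : Type*} [Group S] [IsSimpleGroup S] (hS : ¬ IsMulCommutative S)
    (y : S) (hy : y ≠ 1) : ∃ s : S, s * y ≠ y * s := by
  by_contra hcon
  push Not at hcon
  have hyc : y ∈ Subgroup.center S := Subgroup.mem_center_iff.mpr hcon
  rcases (inferInstance : (Subgroup.center S).Normal).eq_bot_or_eq_top with h | h
  · rw [h, Subgroup.mem_bot] at hyc
    exact hy hyc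
  · apply hS
    refine ⟨⟨fun a b => ?_⟩⟩
    have hb : b ∈ Subgroup.center S := by rw [h]; exact Subgroup.mem_top b
    exact Subgroup.mem_center_iff.mp hb a

theorem mulSingle_mem {S : Type*} [Group S] [IsSimpleGroup S] (hS : ¬ IsMulCommutative S) (n : ℕ)
    (N : Subgroup (Fin n → S)) [N.Normal] (i : Fin n) (x : Fin n → S) (hx : x ∈ N) (hxi : x i ≠ 1)
    (s : S) : Pi.mulSingle i s ∈ N := by
  obtain ⟨t, ht⟩ := exists_not_comm hS (x i) hxi
  have hnorm : (N.comap (MonoidHom.mulSingle (fun _ : Fin n => S) i)).Normal := Subgroup.Normal.comap inferInstance _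
  have hne : N.comap (MonoidHom.mulSingle (fun _ : Fin n => S) i) ≠ ⊥ := by
    intro h
    have hc : t * x i * t⁻¹ * (x i)⁻¹ ∈ N.comap (MonoidHom.mulSingle (fun _ : Fin n => S) i) := by
      rw [Subgroup.mem_comap]
      have heq : (MonoidHom.mulSingle (fun _ : Fin n => S) i) (t * x i * t⁻¹ * (x i)⁻¹) =
          (Pi.mulSingle i t) * x * (Pi.mulSingle i t)⁻¹ * x⁻¹ := by
        funext j
        by_cases hj : j = i
        · subst hj
          simp
        · simp [Pi.mulSingle_eq_of_ne hj]
      rw [heq]
      exact N.mul_mem (‹N.Normal›.conj_mem x hx _) (N.inv_mem hx)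
    rw [h, Subgroup.mem_bot] at hc
    apply ht
    calc t * x i = (t * x i * t⁻¹ * (x i)⁻¹) * (x i * t) := by group
      _ = x i * t := by rw [hc, one_mul]
  have htop := hnorm.eq_bot_or_eq_top.resolve_left hne
  have hs : s ∈ N.comap (MonoidHom.mulSingle (fun _ : Fin n => S) i) := by
    rw [htop]
    exact Subgroup.mem_top s
  exact hs

/-- Let S be a non-abelian simple group and n a natural number. Every normal subgroup N of the direct power S^n (functions Fin n → S) is a subproduct: there is a set T of coordinates such that N consists exactly of the elements whose coordinates outside T are trivial. In particular the minimal normal subgroups of S^n are its n factors. -/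
theorem result {S : Type*} [Group S] [IsSimpleGroup S] (hS : ¬ IsMulCommutative S) (n : ℕ)
    (N : Subgroup (Fin n → S)) [N.Normal] :
    ∃ T : Finset (Fin n), ∀ x : Fin n → S, x ∈ N ↔ ∀ i, i ∉ T → x i = 1 := by
  classical
  refine ⟨Finset.univ.filter (fun i => ∃ x ∈ N, x i ≠ 1), fun x => ⟨?_, ?_⟩⟩
  · intro hx i hi
    by_contra hxi
    apply hi
    simp only [Finset.mem_filter, Finset.mem_univ, true_and]
    exact ⟨x, hx, hxi⟩
  · intro hx
    rw [← Finset.noncommProd_mulSingle x]
    apply Subgroup.noncommProd_mem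
    intro i _
    by_cases hi : i ∈ Finset.univ.filter (fun i => ∃ x ∈ N, x i ≠ 1)
    · simp only [Finset.mem_filter, Finset.mem_univ, true_and] at hi
      obtain ⟨y, hy, hyi⟩ := hi
      exact mulSingle_mem hS n N i y hy hyi (x i)
    · rw [hx i hi, Pi.mulSingle_one]
      exact N.one_mem

end Cfsg.Agent.S5913
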