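import Cfsg.Statements.S5914
-- import your own Cfsg.Agent.* helpers here
import Cfsg.Agent.S5913

set_option autoImplicit false
open Cfsg

namespace Cfsg.Agent.S5914

section aux
open Subgroup

/-- `(Fin n → N) × N ≃* (Fin (n+1) → N)` -/
def consMulEquiv (N : Type*) [Group N] (n : ℕ) : ((Fin n → N) × N) ≃* (Fin (n + 1) → N) where
  toFun p := Fin.cons p.2 p.1
  invFun f := (Fin.tail f, f 0)
  left_inv p := by simp
  right_inv f := by simp
  map_mul' p q := by
    funext i
    refine Fin.cases ?_ (fun j => ?_) i <;> simp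

theorem sup_equiv_prod {G : Type*} [Group G] (D K : Subgroup G) (hD : D.Normal) (hK : K.Normal)
    (hdis : D ⊓ K = ⊥) : Nonempty ((D ⊔ K : Subgroup G) ≃* D × K) := by
  have comm : ∀ (d : D) (k : K), Commute (D.subtype d) (K.subtype k) := fun d k =>
    commute_of_normal_of_disjoint D K hD hK (disjoint_iff.mpr hdis) d k d.2 k.2
  have hinj : Function.Injective (MonoidHom.noncommCoprod D.subtype K.subtype comm) := by
    rw [MonoidHom.noncommCoprod_injective]
    refine ⟨D.subtype_injective, K.subtype_injective, ?_⟩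
    rw [Subgroup.range_subtype, Subgroup.range_subtype]
    exact disjoint_iff.mpr hdis
  have hrange : (MonoidHom.noncommCoprod D.subtype K.subtype comm).range = D ⊔ K := by
    rw [MonoidHom.noncommCoprod_range, Subgroup.range_subtype, Subgroup.range_subtype]
  exact ⟨((MonoidHom.ofInjective hinj).trans (MulEquiv.subgroupCongr hrange)).symm⟩

theorem forward {G : Type*} [Group G] [Finite G] [Nontrivial G]
    (hchar : ∀ H : Subgroup G, H.Characteristic → H = ⊥ ∨ H = ⊤) :
    ∃ (N : Subgroup G), IsSimpleGroup N ∧ ∃ n : ℕ, 1 ≤ n ∧ Nonempty (G ≃* (Fin n → N)) := by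
  classical
  have hex : ∃ m, ∃ N : Subgroup G, N.Normal ∧ N ≠ ⊥ ∧ Nat.card N = m :=
    ⟨_, ⊤, inferInstance, top_ne_bot, rfl⟩
  obtain ⟨N, hNn, hNbot, hNcard⟩ := Nat.find_spec hex
  have hmin : ∀ K : Subgroup G, K.Normal → K ≠ ⊥ → Nat.card N ≤ Nat.card K := by
    intro K hK hKb
    rw [hNcard]
    exact Nat.find_min' hex ⟨K, hK, hKb, rfl⟩
  have hM : (⨆ φ : MulAut G, N.map φ.toMonoidHom) = ⊤ := by
    have hc : (⨆ φ : MulAut G, N.map φ.toMonoidHom).Characteristic := by
      rw [characteristic_iff_map_le]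
      intro ψ
      rw [Subgroup.map_iSup]
      apply iSup_le
      intro φ
      rw [Subgroup.map_map]
      exact le_iSup_of_le (φ.trans ψ) (le_of_eq rfl)
    rcases hchar _ hc with h | h
    · exfalso
      apply hNbot
      have h1 : N ≤ ⨆ φ : MulAut G, N.map φ.toMonoidHom := by
        refine le_iSup_of_le (1 : MulAut G) ?_
        intro x hx
        exact ⟨x, hx, rfl⟩
      rw [h] at h1
      exact le_bot_iff.mp h1
    · exact h
  have key : ∀ (k : ℕ) (D : Subgroup G) (n : ℕ), Nat.card G - Nat.card D = k → D.Normal →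
      Nonempty (D ≃* (Fin n → N)) → ∃ n', Nonempty (G ≃* (Fin n' → N)) := by
    intro k
    induction k using Nat.strong_induction_on with
    | _ k ih =>
      intro D n hk hDn hiso
      by_cases hD : D = ⊤
      · subst hD
        obtain ⟨e⟩ := hiso
        exact ⟨n, ⟨Subgroup.topEquiv.symm.trans e⟩⟩
      · have hexφ : ∃ φ : MulAut G, ¬ N.map φ.toMonoidHom ≤ D := by
          by_contra hcon
          push Not at hcon
          apply hD
          rw [eq_top_iff, ← hM]
          exact iSup_le hcon
        obtain ⟨φ, hφ⟩ := hexφ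
        have hKn : (N.map φ.toMonoidHom).Normal := hNn.map φ.toMonoidHom φ.surjective
        have hKcard : Nat.card (N.map φ.toMonoidHom) = Nat.card N :=
          Subgroup.card_map_of_injective φ.injective
        have hdis : D ⊓ N.map φ.toMonoidHom = ⊥ := by
          by_contra hne
          have hnorm : (D ⊓ N.map φ.toMonoidHom).Normal := Subgroup.normal_inf_normal D _
          have h1 := hmin _ hnorm hne
          have h2 : D ⊓ N.map φ.toMonoidHom = N.map φ.toMonoidHom :=
            Subgroup.eq_of_le_of_card_ge inf_le_right (by rw [hKcard]; exact h1)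
          exact hφ (h2 ▸ inf_le_left)
        obtain ⟨e1⟩ := sup_equiv_prod D (N.map φ.toMonoidHom) hDn hKn hdis
        obtain ⟨e⟩ := hiso
        have e2 : (N.map φ.toMonoidHom) ≃* N :=
          (N.equivMapOfInjective φ.toMonoidHom φ.injective).symm
        have hlt : D < D ⊔ N.map φ.toMonoidHom :=
          lt_of_le_of_ne le_sup_left (fun h => hφ (h ▸ le_sup_right))
        have hc1 : Nat.card D < Nat.card (D ⊔ N.map φ.toMonoidHom : Subgroup G) :=
          Set.Finite.card_lt_card (Set.toFinite _) (SetLike.coe_ssubset_coe.mpr hlt)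
        have hc2 : Nat.card (D ⊔ N.map φ.toMonoidHom : Subgroup G) ≤ Nat.card G :=
          Subgroup.card_le_card_group _
        exact ih (Nat.card G - Nat.card (D ⊔ N.map φ.toMonoidHom : Subgroup G)) (by omega) _
          (n + 1) rfl (Subgroup.sup_normal D _)
          ⟨(e1.trans (MulEquiv.prodCongr e e2)).trans (consMulEquiv N n)⟩
  obtain ⟨n, ⟨e⟩⟩ := key _ N 1 rfl hNn ⟨(MulEquiv.funUnique (Fin 1) N).symm⟩
  have hn : 1 ≤ n := by
    by_contra h0
    have hn0 : n = 0 := by omega
    subst hn0
    have : Subsingleton G := e.toEquiv.subsingleton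
    exact not_subsingleton G this
  obtain ⟨m, rfl⟩ : ∃ m, n = m + 1 := ⟨n - 1, by omega⟩
  refine ⟨N, ?_, m + 1, hn, ⟨e⟩⟩
  have hNnt : Nontrivial N := (Subgroup.nontrivial_iff_ne_bot N).mpr hNbot
  refine ⟨fun A hA => ?_⟩
  by_contra hcon
  push Not at hcon
  obtain ⟨hAbot, hAtop⟩ := hcon
  have hinj : Function.Injective (MonoidHom.mulSingle (fun _ : Fin (m + 1) => N) 0) := by
    intro a b hab
    have h0 := congrFun hab 0
    simpa using h0
  have hA'n : (A.map (MonoidHom.mulSingle (fun _ : Fin (m + 1) => N) 0)).Normal := by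
    refine ⟨?_⟩
    rintro _ ⟨a, ha, rfl⟩ x
    refine ⟨x 0 * a * (x 0)⁻¹, hA.conj_mem a ha (x 0), ?_⟩
    funext j
    by_cases hj : j = 0
    · subst hj
      simp
    · simp [Pi.mulSingle_eq_of_ne hj]
  have hA'bot : A.map (MonoidHom.mulSingle (fun _ : Fin (m + 1) => N) 0) ≠ ⊥ := by
    rw [Ne, Subgroup.map_eq_bot_iff_of_injective _ hinj]
    exact hAbot
  have hA'card : Nat.card (A.map (MonoidHom.mulSingle (fun _ : Fin (m + 1) => N) 0)) = Nat.card A :=
    Subgroup.card_map_of_injective hinj
  have hA''n : ((A.map (MonoidHom.mulSingle (fun _ : Fin (m + 1) => N) 0)).map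
      e.symm.toMonoidHom).Normal := hA'n.map e.symm.toMonoidHom e.symm.surjective
  have hA''bot : (A.map (MonoidHom.mulSingle (fun _ : Fin (m + 1) => N) 0)).map
      e.symm.toMonoidHom ≠ ⊥ := by
    rw [Ne, Subgroup.map_eq_bot_iff_of_injective _ e.symm.injective]
    exact hA'bot
  have h1 := hmin _ hA''n hA''bot
  rw [Subgroup.card_map_of_injective e.symm.injective, hA'card] at h1
  have h2 : A = ⊤ := Subgroup.eq_top_of_le_card A h1
  exact hAtop h2

/-- the transvection automorphism `x ↦ x * mulSingle j (x i)` of a commutative power -/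
def transv {S : Type*} [Group S] (comm : ∀ a b : S, a * b = b * a) (n : ℕ) (i j : Fin n)
    (hij : i ≠ j) : (Fin n → S) ≃* (Fin n → S) where
  toFun x := x * Pi.mulSingle j (x i)
  invFun x := x * Pi.mulSingle j (x i)⁻¹
  left_inv x := by
    funext k
    by_cases hk : k = j
    · subst hk
      simp [Pi.mulSingle_eq_of_ne hij]
    · simp [Pi.mulSingle_eq_of_ne hk]
  right_inv x := by
    funext k
    by_cases hk : k = j
    · subst hk
      simp [Pi.mulSingle_eq_of_ne hij]
    · simp [Pi.mulSingle_eq_of_ne hk]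
  map_mul' x y := by
    funext k
    by_cases hk : k = j
    · subst hk
      simp only [Pi.mul_apply, Pi.mulSingle_eq_same]
      rw [mul_assoc, mul_assoc, ← mul_assoc (y k), comm (y k) (x i), mul_assoc]
    · simp [Pi.mulSingle_eq_of_ne hk]

theorem char_pi {S : Type*} [Group S] [IsSimpleGroup S] (n : ℕ) (H : Subgroup (Fin n → S))
    (hchar : ∀ θ : (Fin n → S) ≃* (Fin n → S), ∀ y ∈ H, θ y ∈ H) : H = ⊥ ∨ H = ⊤ := by
  classical
  rcases H.bot_or_exists_ne_one with hbot | ⟨v, hv, hv1⟩
  · left; exact hbot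
  right
  obtain ⟨i₀, hi₀⟩ : ∃ i, v i ≠ 1 := by
    by_contra h
    push Not at h
    exact hv1 (funext h)
  have hnormal : H.Normal := ⟨fun y hy g => hchar (MulAut.conj g) y hy⟩
  have hall : ∀ k s, Pi.mulSingle k s ∈ H := by
    by_cases hS : IsMulCommutative S
    · have comm : ∀ a b : S, a * b = b * a := fun a b => hS.is_comm.comm a b
      have hgen : ∀ s : S, ∃ z : ℤ, v i₀ ^ z = s := by
        intro s
        have hzn : (Subgroup.zpowers (v i₀)).Normal := by
          refine ⟨fun x hx g => ?_⟩
          rw [comm g x, mul_assoc, mul_inv_cancel, mul_one]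
          exact hx
        have htop := hzn.eq_bot_or_eq_top.resolve_left
          (fun h => hi₀ (Subgroup.zpowers_eq_bot.mp h))
        have hs : s ∈ Subgroup.zpowers (v i₀) := by rw [htop]; exact Subgroup.mem_top s
        exact Subgroup.mem_zpowers_iff.mp hs
      have h1 : ∀ k, k ≠ i₀ → Pi.mulSingle k (v i₀) ∈ H := by
        intro k hk
        have h2 := hchar (transv comm n i₀ k (Ne.symm hk)) v hv
        have h3 : Pi.mulSingle k (v i₀) = v⁻¹ * (transv comm n i₀ k (Ne.symm hk) v) := by
          show Pi.mulSingle k (v i₀) = v⁻¹ * (v * Pi.mulSingle k (v i₀))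
          rw [inv_mul_cancel_left]
        rw [h3]
        exact H.mul_mem (H.inv_mem hv) h2
      have h2 : ∀ k, Pi.mulSingle k (v i₀) ∈ H := by
        intro k
        by_cases hk : k = i₀
        · subst hk
          by_cases hex : ∃ j, j ≠ k
          · obtain ⟨j, hj⟩ := hex
            have h3 := h1 j hj
            have h4 := hchar (transv comm n j k hj) _ h3
            have h6 : transv comm n j k hj (Pi.mulSingle j (v k)) =
                (Pi.mulSingle j (v k) * Pi.mulSingle k (v k) : Fin n → S) := by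
              show ((Pi.mulSingle j (v k) : Fin n → S) *
                (Pi.mulSingle k ((Pi.mulSingle j (v k) : Fin n → S) j) : Fin n → S)) = _
              rw [Pi.mulSingle_eq_same]
            have h5 : Pi.mulSingle k (v k) = (Pi.mulSingle j (v k))⁻¹ *
                (transv comm n j k hj (Pi.mulSingle j (v k))) := by
              rw [h6, inv_mul_cancel_left]
            rw [h5]
            exact H.mul_mem (H.inv_mem h3) h4
          · push Not at hex
            have h3 : Pi.mulSingle k (v k) = v := by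
              funext j
              rw [hex j, Pi.mulSingle_eq_same]
            rw [h3]; exact hv
        · exact h1 k hk
      intro k s
      obtain ⟨z, hz⟩ := hgen s
      have h3 : Pi.mulSingle k s = (Pi.mulSingle k (v i₀) : Fin n → S) ^ z := by
        rw [← hz]
        exact map_zpow (MonoidHom.mulSingle (fun _ : Fin n => S) k) (v i₀) z
      rw [h3]
      exact H.zpow_mem (h2 k) z
    · intro k s
      have h1 : Pi.mulSingle i₀ s ∈ H := Cfsg.Agent.S5913.mulSingle_mem hS n H i₀ v hv hi₀ s
      have h2 := hchar (MulEquiv.arrowCongr (Equiv.swap i₀ k) (MulEquiv.refl S)) _ h1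
      have h3 : (MulEquiv.arrowCongr (Equiv.swap i₀ k) (MulEquiv.refl S)) (Pi.mulSingle i₀ s) =
          Pi.mulSingle k s := by
        funext j
        simp only [MulEquiv.arrowCongr_apply, MulEquiv.refl_apply, Equiv.symm_swap,
          Pi.mulSingle_apply]
        by_cases hj : j = k
        · subst hj
          simp
        · have : Equiv.swap i₀ k j ≠ i₀ := by
            intro h
            apply hj
            have := congrArg (Equiv.swap i₀ k) h
            rw [Equiv.swap_apply_self, Equiv.swap_apply_left] at this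
            exact this
          simp [hj, this]
      rw [← h3]; exact h2
  rw [eq_top_iff]
  intro x _
  rw [← Finset.noncommProd_mulSingle x]
  exact Subgroup.noncommProd_mem _ _ (fun i _ => hall i (x i))

theorem backward {G : Type*} [Group G] (S : Type*) [Group S] [IsSimpleGroup S] (n : ℕ)
    (ψ : G ≃* (Fin n → S)) (H : Subgroup G) (hH : H.Characteristic) : H = ⊥ ∨ H = ⊤ := by
  have hchar' : ∀ θ : (Fin n → S) ≃* (Fin n → S), ∀ y ∈ H.map ψ.toMonoidHom,
      θ y ∈ H.map ψ.toMonoidHom := by
    rintro θ _ ⟨h, hh, rfl⟩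
    refine ⟨ψ.symm (θ (ψ h)), ?_, by simp⟩
    have h1 := characteristic_iff_map_le.mp hH ((ψ.trans θ).trans ψ.symm)
    exact h1 ⟨h, hh, rfl⟩
  rcases char_pi n (H.map ψ.toMonoidHom) hchar' with h | h
  · left; exact (Subgroup.map_eq_bot_iff_of_injective _ ψ.injective).mp h
  · right
    rw [eq_top_iff]
    intro g _
    have h1 : ψ g ∈ H.map ψ.toMonoidHom := by rw [h]; trivial
    obtain ⟨h', hh', heq⟩ := h1
    have h2 : h' = g := ψ.injective heq
    rw [← h2]; exact hh'

theorem main_aux {G : Type*} [Group G] [Finite G] [Nontrivial G] :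
    (∀ H : Subgroup G, H.Characteristic → H = ⊥ ∨ H = ⊤) ↔
    ∃ (S : Type) (_ : Group S) (_ : IsSimpleGroup S) (n : ℕ), 1 ≤ n ∧ Nonempty (G ≃* (Fin n → S)) := by
  constructor
  · intro hchar
    obtain ⟨N, hNs, n, hn, ⟨e⟩⟩ := forward hchar
    have hsimple : IsSimpleGroup (Shrink.{0} N) := (Shrink.mulEquiv.{0} (α := N)).isSimpleGroup
    exact ⟨Shrink.{0} N, inferInstance, hsimple, n, hn,
      ⟨e.trans (MulEquiv.piCongrRight (fun _ => (Shrink.mulEquiv.{0} (α := N)).symm))⟩⟩
  · rintro ⟨S, hSg, hSs, n, hn, ⟨ψ⟩⟩ H hH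
    exact backward S n ψ H hH

end aux

/-- A non-trivial finite group G is characteristically simple (its only characteristic subgroups are 1 and G) if and only if G is isomorphic to a direct power S^n (n ≥ 1) of some simple group S (possibly cyclic of prime order). -/
theorem result {G : Type*} [Group G] [Finite G] [Nontrivial G] :
    (∀ H : Subgroup G, H.Characteristic → H = ⊥ ∨ H = ⊤) ↔
    ∃ (S : Type) (_ : Group S) (_ : IsSimpleGroup S) (n : ℕ), 1 ≤ n ∧ Nonempty (G ≃* (Fin n → S)) := by
  exact main_aux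

end Cfsg.Agent.S5914
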