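import Cfsg.Statements.S5939
import Cfsg.Agent.S0804
import Cfsg.Agent.Lib.Helper41.PSL2Over
import Cfsg.Agent.Lib.Helper41.ModArith

set_option autoImplicit false
open Cfsg

namespace Cfsg.Agent.S5939

open Cfsg.Agent.Lib.Helper41 in
/-- Let p be a prime and F a finite field of characteristic p such that either F has p elements and p ≡ ±1 (mod 10), or F has p² elements and p ≡ ±3 (mod 10). Then PSL_2(F) has a maximal subgroup isomorphic to the alternating group A_5. -/
theorem result {F : Type*} [Field F] [Fintype F] (p : ℕ) [Fact p.Prime] [CharP F p] (h : (Fintype.card F = p ∧ (p % 10 = 1 ∨ p % 10 = 9)) ∨ (Fintype.card F = p ^ 2 ∧ (p % 10 = 3 ∨ p % 10 = 7))) : ∃ H : Subgroup (Matrix.ProjectiveSpecialLinearGroup (Fin 2) F), IsCoatom H ∧ Nonempty (H ≃* alternatingGroup (Fin 5)) := by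
  classical
  have hpp : p.Prime := Fact.out
  obtain ⟨q, hq⟩ : ∃ q, q = Fintype.card F := ⟨_, rfl⟩
  rw [← hq] at h
  have hp2 : p % 2 = 1 := by
    rcases h with ⟨-, h | h⟩ | ⟨-, h | h⟩ <;> omega
  have hqodd : q % 2 = 1 := by
    rcases h with ⟨h1, -⟩ | ⟨h1, -⟩
    · rw [h1]
      exact hp2
    · rw [h1, Nat.pow_mod, hp2]
  have hq9 : 9 ≤ q := by
    rcases h with ⟨h1, h2⟩ | ⟨h1, h2⟩
    · rw [h1]
      rcases h2 with h2 | h2
      · rcases Nat.lt_or_ge p 9 with hlt | hge
        · exfalso
          have : p = 1 := by omega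
          rw [this] at hpp
          exact absurd hpp (by decide)
        · exact hge
      · omega
    · rw [h1]
      have h3 : 3 ≤ p := by omega
      calc 9 = 3 ^ 2 := by norm_num
        _ ≤ p ^ 2 := Nat.pow_le_pow_left h3 2
  have h5 : 5 ∣ q * (q ^ 2 - 1) := by
    rw [five_dvd_iff q (by omega)]
    rcases h with ⟨h1, h2⟩ | ⟨h1, h2⟩
    · rw [h1]
      omega
    · rw [h1, Nat.pow_mod]
      have : p % 5 = 3 ∨ p % 5 = 2 := by omega
      rcases this with h' | h' <;> rw [h'] <;> norm_num
  obtain ⟨H, ⟨f⟩⟩ := (Cfsg.Agent.S0804.result (q := q) hq.symm).mpr h5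
  have hcH : Nat.card H = 60 := by
    rw [Nat.card_congr f.toEquiv, nat_card_alternatingGroup]
    simp [Nat.factorial]
  have hG := card_psl2_mul_gcd (F := F)
  rw [← hq] at hG
  have hd : Nat.gcd 2 (q - 1) = 2 := Nat.gcd_eq_left (by omega)
  rw [hd] at hG
  have hG720 : 9 * 80 ≤ q * (q ^ 2 - 1) := by
    have h81 : 9 ^ 2 ≤ q ^ 2 := Nat.pow_le_pow_left hq9 2
    exact Nat.mul_le_mul hq9 (by omega)
  have hnsH : ¬ Group.IsSolvable H := by
    intro hs
    haveI := hs
    exact not_isSolvable_alternatingGroup_five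
      (Group.isSolvable_of_isSolvable_injective (f := f.symm.toMonoidHom) f.symm.injective)
  refine ⟨H, isCoatom_of_overgroups H ?_ ?_, ⟨f⟩⟩
  · intro htop
    have := (Subgroup.card_eq_iff_eq_top H).mpr htop
    omega
  · intro M hHM hM hne
    have hlt : Nat.card H < Nat.card M := by
      by_contra hcon
      push Not at hcon
      exact hne (Subgroup.eq_of_le_of_card_ge hHM hcon)
    have hdvd : Nat.card H ∣ Nat.card M := Subgroup.card_dvd_of_le hHM
    have hsolv : Group.IsSolvable M → False := by
      intro hs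
      haveI := hs
      exact hnsH (Group.isSolvable_of_isSolvable_injective (f := Subgroup.inclusion hHM)
        (Subgroup.inclusion_injective hHM))
    rcases overgroup_cases p H M hHM hM with ⟨hs, -⟩ | ⟨hs, -⟩ | hf | hf | hf |
      ⟨K, iK, iK', m, hm2, hm, hMdvd, -⟩
    · exact hsolv hs
    · exact hsolv hs
    · obtain ⟨f'⟩ := hf
      have : Nat.card M = 12 := by
        rw [Nat.card_congr f'.toEquiv, nat_card_alternatingGroup]
        simp [Nat.factorial]
      omega
    · obtain ⟨f'⟩ := hf
      have h24 : Nat.card M = 24 := by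
        rw [Nat.card_congr f'.toEquiv, Nat.card_eq_fintype_card, Fintype.card_perm]
        simp [Nat.factorial]
      omega
    · obtain ⟨f'⟩ := hf
      have h60 : Nat.card M = 60 := by
        rw [Nat.card_congr f'.toEquiv, nat_card_alternatingGroup]
        simp [Nat.factorial]
      omega
    · rw [← hq] at hm
      rcases h with ⟨h1, h2⟩ | ⟨h1, h2⟩
      · rw [h1] at hm
        exact absurd ((Nat.Prime.pow_eq_iff hpp).mp hm).2 (by omega)
      · rw [h1] at hm
        obtain ⟨r, hr⟩ : ∃ r, r = Fintype.card K := ⟨_, rfl⟩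
        rw [← hr] at hm hMdvd
        have hr2 : 2 ≤ r := by
          rw [hr]
          exact Fintype.one_lt_card
        have hrdvd : r ∣ p ^ 2 := by
          rw [← hm]
          exact dvd_pow_self r (by omega)
        obtain ⟨i, hi, hri⟩ := (Nat.dvd_prime_pow hpp).mp hrdvd
        have hrp : r = p := by
          interval_cases i
          · rw [pow_zero] at hri
            omega
          · rw [pow_one] at hri
            exact hri
          · exfalso
            rw [hri, ← pow_mul] at hm
            have := Nat.pow_right_injective hpp.two_le hm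
            omega
        rw [hrp] at hMdvd
        have h5' : 5 ∣ p * (p ^ 2 - 1) := by
          refine dvd_trans ?_ (dvd_trans hdvd hMdvd)
          rw [hcH]
          norm_num
        rcases (five_dvd_iff p hpp.pos).mp h5' with h' | h' | h' <;> omega

end Cfsg.Agent.S5939
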