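import Cfsg.Statements.S5945
import Mathlib
import Cfsg.Agent.S5912
-- import your own Cfsg.Agent.* helpers here

set_option autoImplicit false
open Cfsg

namespace Cfsg.Agent.S5945

open Cfsg.Agent.S5912

/-- the subgroup `{σ | α σ x = x}` -/
def pre (α : Equiv.Perm (Fin 6) ≃* Equiv.Perm (Fin 6)) (x : Fin 6) :
    Subgroup (Equiv.Perm (Fin 6)) :=
  (MulAction.stabilizer (Equiv.Perm (Fin 6)) x).comap α.toMonoidHom

theorem mem_pre (α : Equiv.Perm (Fin 6) ≃* Equiv.Perm (Fin 6)) (x : Fin 6)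
    (σ : Equiv.Perm (Fin 6)) : σ ∈ pre α x ↔ α σ x = x := Iff.rfl

theorem index_pre (α : Equiv.Perm (Fin 6) ≃* Equiv.Perm (Fin 6)) (x : Fin 6) :
    (pre α x).index = 6 := by
  unfold pre
  rw [Subgroup.index_comap_of_surjective _ α.surjective,
    MulAction.index_stabilizer_of_transitive, Nat.card_eq_fintype_card, Fintype.card_fin]

theorem pre_inj (α : Equiv.Perm (Fin 6) ≃* Equiv.Perm (Fin 6)) {x y : Fin 6}
    (h : pre α x = pre α y) : x = y := by
  apply stabilizer_inj (by simp) x y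
  ext σ
  have h1 := congrArg (fun H => α.symm σ ∈ H) h
  simp only [mem_pre, MulEquiv.apply_symm_apply] at h1
  rw [MulAction.mem_stabilizer_iff, MulAction.mem_stabilizer_iff, Equiv.Perm.smul_def,
    Equiv.Perm.smul_def, h1]

theorem stab_iso (x : Fin 6) :
    Nonempty (MulAction.stabilizer (Equiv.Perm (Fin 6)) x ≃* Equiv.Perm (Fin 5)) := by
  classical
  let p : Fin 6 → Prop := fun y => y ≠ x
  have hinj : Function.Injective
      (Equiv.Perm.ofSubtype : Equiv.Perm (Subtype p) →* Equiv.Perm (Fin 6)) :=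
    Equiv.Perm.ofSubtype_injective
  have hrange : (Equiv.Perm.ofSubtype : Equiv.Perm (Subtype p) →* Equiv.Perm (Fin 6)).range =
      MulAction.stabilizer (Equiv.Perm (Fin 6)) x := by
    ext f
    constructor
    · rintro ⟨g, rfl⟩
      rw [MulAction.mem_stabilizer_iff, Equiv.Perm.smul_def]
      exact Equiv.Perm.ofSubtype_apply_of_not_mem g (by simp [p])
    · intro hf
      rw [MulAction.mem_stabilizer_iff, Equiv.Perm.smul_def] at hf
      have hp : ∀ y, p (f y) ↔ p y := by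
        intro y
        simp only [p, ne_eq]
        rw [not_iff_not]
        constructor
        · intro h; exact f.injective (h.trans hf.symm)
        · intro h; rw [h, hf]
      refine ⟨f.subtypePerm hp, ?_⟩
      apply Equiv.Perm.ofSubtype_subtypePerm
      intro y hy hyx
      apply hy
      rw [hyx, hf]
  have hcard : Fintype.card (Subtype p) = 5 := by
    simp [p, Fintype.card_subtype_compl]
  exact ⟨((MonoidHom.ofInjective hinj).trans (MulEquiv.subgroupCongr hrange)).symm.trans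
    ((Fintype.equivFinOfCardEq hcard).permCongrHom)⟩

theorem pre_iso (α : Equiv.Perm (Fin 6) ≃* Equiv.Perm (Fin 6)) (x : Fin 6) :
    Nonempty (pre α x ≃* Equiv.Perm (Fin 5)) := by
  obtain ⟨e⟩ := stab_iso x
  have h : (pre α x).map α.toMonoidHom = MulAction.stabilizer (Equiv.Perm (Fin 6)) x :=
    Subgroup.map_comap_eq_self_of_surjective α.surjective _
  exact ⟨((α.subgroupMap (pre α x)).trans (MulEquiv.subgroupCongr h)).trans e⟩

theorem pre_conj (α : Equiv.Perm (Fin 6) ≃* Equiv.Perm (Fin 6)) (ρ : Equiv.Perm (Fin 6))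
    (x : Fin 6) (σ : Equiv.Perm (Fin 6)) :
    σ ∈ pre α (α ρ x) ↔ ρ⁻¹ * σ * ρ ∈ pre α x := by
  rw [mem_pre, mem_pre, map_mul, map_mul, map_inv, Equiv.Perm.mul_apply, Equiv.Perm.mul_apply,
    Equiv.Perm.inv_eq_iff_eq]

theorem pre_ne_stab (α₂ : Equiv.Perm (Fin 6) ≃* Equiv.Perm (Fin 6))
    (T : Subgroup (Equiv.Perm (Fin 6))) (hT : ∀ σ, σ ∈ T ↔ α₂ σ 0 = 0)
    (htrans : ∀ x y : Fin 6, ∃ h ∈ T, h x = y) (x y : Fin 6) :
    pre α₂ y ≠ MulAction.stabilizer (Equiv.Perm (Fin 6)) x := by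
  intro hEq
  obtain ⟨ρ, hρ⟩ : ∃ ρ : Equiv.Perm (Fin 6), α₂ ρ 0 = y :=
    ⟨α₂.symm (Equiv.swap 0 y), by simp⟩
  obtain ⟨z', hz'⟩ := exists_ne (ρ⁻¹ x)
  obtain ⟨h, hh, hhz⟩ := htrans (ρ⁻¹ x) z'
  have h1 : ρ * h * ρ⁻¹ ∈ pre α₂ y := by
    rw [← hρ, pre_conj]
    have h2 : ρ⁻¹ * (ρ * h * ρ⁻¹) * ρ = h := by group
    rw [h2]
    exact (hT h).1 hh
  rw [hEq, MulAction.mem_stabilizer_iff, Equiv.Perm.smul_def] at h1
  simp only [Equiv.Perm.mul_apply] at h1
  rw [hhz] at h1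
  apply hz'
  rw [← h1]
  simp

theorem eq_stab_of_inner (α : Equiv.Perm (Fin 6) ≃* Equiv.Perm (Fin 6))
    (H : Subgroup (Equiv.Perm (Fin 6))) (hα : ∀ σ, σ ∈ H ↔ α σ 0 = 0) (π : Equiv.Perm (Fin 6))
    (hπ : ∀ σ, α.symm σ = π * σ * π⁻¹) :
    H = MulAction.stabilizer (Equiv.Perm (Fin 6)) (π 0) := by
  ext σ
  rw [hα, MulAction.mem_stabilizer_iff, Equiv.Perm.smul_def]
  have h1 : σ = π * α σ * π⁻¹ := by rw [← hπ, MulEquiv.symm_apply_apply]
  constructor
  · intro h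
    rw [h1]
    simp [h]
  · intro h
    rw [h1] at h
    simpa using h

theorem exists_pre (α₂ : Equiv.Perm (Fin 6) ≃* Equiv.Perm (Fin 6))
    (T : Subgroup (Equiv.Perm (Fin 6))) (hT : ∀ σ, σ ∈ T ↔ α₂ σ 0 = 0)
    (hTns : ∀ x : Fin 6, T ≠ MulAction.stabilizer (Equiv.Perm (Fin 6)) x)
    (H : Subgroup (Equiv.Perm (Fin 6))) (hH : H.index = 6) :
    (∃ x : Fin 6, H = MulAction.stabilizer (Equiv.Perm (Fin 6)) x) ∨ ∃ x : Fin 6, H = pre α₂ x := by
  have h6 : Fintype.card (Fin 6) = 6 := Fintype.card_fin 6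
  obtain ⟨α, hα⟩ := exists_coset_iso (by simp) H (by rw [hH, h6]) (0 : Fin 6)
  by_cases hSP : ∀ s : Equiv.Perm (Fin 6), s.IsSwap → (α s).IsSwap
  · obtain ⟨π, hπ⟩ := inner_of_swaps (by simp) α.symm (sp_symm α hSP)
    exact Or.inl ⟨π 0, eq_stab_of_inner α H hα π hπ⟩
  · have hSP₂ : ¬ ∀ s : Equiv.Perm (Fin 6), s.IsSwap → (α₂ s).IsSwap := by
      intro h2
      obtain ⟨π, hπ⟩ := inner_of_swaps (by simp) α₂.symm (sp_symm α₂ h2)
      exact hTns (π 0) (eq_stab_of_inner α₂ T hT π hπ)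
    have hθ : ∀ s : Equiv.Perm (Fin 6), s.IsSwap → ((α₂.trans α.symm) s).IsSwap := by
      intro s hs
      exact symm_swap_of_222 h6 α hSP (α₂ s) (all_222 h6 α₂ hSP₂ s hs)
    obtain ⟨π, hπ⟩ := inner_of_swaps (by simp) (α₂.trans α.symm) hθ
    right
    refine ⟨α₂ π 0, ?_⟩
    ext σ
    rw [hα, pre_conj, mem_pre]
    have h1 : α₂ (π⁻¹ * σ * π) = α σ := by
      have h2 : α.symm (α₂ (π⁻¹ * σ * π)) = π * (π⁻¹ * σ * π) * π⁻¹ := hπ (π⁻¹ * σ * π)
      have h3 : π * (π⁻¹ * σ * π) * π⁻¹ = σ := by group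
      rw [h3] at h2
      exact (MulEquiv.symm_apply_eq α).1 h2
    rw [h1]

/-- The symmetric group S_6 has exactly 12 subgroups of index 6; each of them is isomorphic to S_5, and at least one of them is not the stabilizer of any point. -/
theorem result : Nat.card {H : Subgroup (Equiv.Perm (Fin 6)) // H.index = 6} = 12 ∧ (∀ H : Subgroup (Equiv.Perm (Fin 6)), H.index = 6 → Nonempty (H ≃* Equiv.Perm (Fin 5))) ∧ ∃ H : Subgroup (Equiv.Perm (Fin 6)), H.index = 6 ∧ ∀ a : Fin 6, H ≠ MulAction.stabilizer (Equiv.Perm (Fin 6)) a := by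
  have h6 : Fintype.card (Fin 6) = 6 := Fintype.card_fin 6
  obtain ⟨T, hTidx, htrans⟩ := exists_transitive (Ω := Fin 6) h6
  obtain ⟨α₂, hα₂⟩ := exists_coset_iso (by simp) T (by rw [hTidx, h6]) (0 : Fin 6)
  have hTns : ∀ x : Fin 6, T ≠ MulAction.stabilizer (Equiv.Perm (Fin 6)) x := by
    intro x hEq
    obtain ⟨y, hy⟩ := exists_ne x
    obtain ⟨h, hh, hxy⟩ := htrans x y
    rw [hEq, MulAction.mem_stabilizer_iff, Equiv.Perm.smul_def] at hh
    exact hy (hxy.symm.trans hh)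
  have hsurj := exists_pre α₂ T hα₂ hTns
  let Φ : Fin 6 ⊕ Fin 6 → {H : Subgroup (Equiv.Perm (Fin 6)) // H.index = 6} := fun s =>
    match s with
    | Sum.inl x => ⟨MulAction.stabilizer (Equiv.Perm (Fin 6)) x, by
        rw [MulAction.index_stabilizer_of_transitive, Nat.card_eq_fintype_card, h6]⟩
    | Sum.inr x => ⟨pre α₂ x, index_pre α₂ x⟩
  have hbij : Function.Bijective Φ := by
    constructor
    · rintro (x | x) (y | y) h
      · exact congrArg Sum.inl (stabilizer_inj (by simp) x y (congrArg Subtype.val h))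
      · exact absurd (congrArg Subtype.val h).symm (pre_ne_stab α₂ T hα₂ htrans x y)
      · exact absurd (congrArg Subtype.val h) (pre_ne_stab α₂ T hα₂ htrans y x)
      · exact congrArg Sum.inr (pre_inj α₂ (congrArg Subtype.val h))
    · rintro ⟨H, hH⟩
      rcases hsurj H hH with ⟨x, rfl⟩ | ⟨x, rfl⟩
      · exact ⟨Sum.inl x, rfl⟩
      · exact ⟨Sum.inr x, rfl⟩
  refine ⟨?_, ?_, ?_⟩
  · rw [← Nat.card_congr (Equiv.ofBijective Φ hbij)]
    simp
  · intro H hH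
    rcases hsurj H hH with ⟨x, rfl⟩ | ⟨x, rfl⟩
    · exact stab_iso x
    · exact pre_iso α₂ x
  · exact ⟨T, hTidx, fun a => hTns a⟩

end Cfsg.Agent.S5945
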