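import Cfsg.Statements.S5947

set_option autoImplicit false
open Cfsg

namespace Cfsg.Agent.S5947

open Module

section regular
variable {F V : Type*} [Field F] [AddCommGroup V] [Module F V]

/-- The averaging operator of an endomorphism. -/
noncomputable def avg (m : ℕ) (u : Module.End F V) : Module.End F V :=
  (m : F)⁻¹ • ∑ i ∈ Finset.range m, u ^ i

theorem mul_avg (m : ℕ) (u : Module.End F V) (hu : u ^ m = 1) : u * avg m u = avg m u := by
  unfold avg
  rw [mul_smul_comm]
  congr 1
  have h := mul_geom_sum u m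
  rw [hu, sub_self, sub_mul, one_mul, sub_eq_zero] at h
  exact h

theorem pow_apply_of_fixed (u : Module.End F V) (v : V) (hv : u v = v) (i : ℕ) : (u ^ i) v = v := by
  induction i with
  | zero => simp
  | succ k ih => rw [pow_succ, Module.End.mul_apply, hv, ih]

theorem avg_apply_of_fixed (m : ℕ) (hm : (m : F) ≠ 0) (u : Module.End F V) (v : V) (hv : u v = v) :
    avg m u v = v := by
  unfold avg
  rw [LinearMap.smul_apply, LinearMap.sum_apply]
  simp only [pow_apply_of_fixed u v hv, Finset.sum_const, Finset.card_range]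
  rw [← Nat.cast_smul_eq_nsmul F, smul_smul, inv_mul_cancel₀ hm, one_smul]

theorem avg_commute (m : ℕ) {a u : Module.End F V} (h : Commute a u) : Commute a (avg m u) := by
  unfold avg
  exact (Commute.sum_right _ _ _ fun i _ => h.pow_right i).smul_right _

theorem avg_mem (m : ℕ) (u : Module.End F V) (W : Submodule F V) (hW : ∀ w ∈ W, u w ∈ W) :
    ∀ w ∈ W, avg m u w ∈ W := by
  intro w hw
  unfold avg
  rw [LinearMap.smul_apply, LinearMap.sum_apply]
  have hp : ∀ i : ℕ, (u ^ i) w ∈ W := by
    intro i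
    induction i with
    | zero => simpa using hw
    | succ k ih => rw [pow_succ', Module.End.mul_apply]; exact hW _ ih
  exact W.smul_mem _ (Submodule.sum_mem _ fun i _ => hp i)

variable [FiniteDimensional F V]

theorem exists_regular (U : Subgroup (Module.End F V)ˣ) (hcomm : ∀ a ∈ U, ∀ b ∈ U, a * b = b * a)
    (m : ℕ) (hm : (m : F) ≠ 0) (hpow : ∀ u ∈ U, u ^ m = 1) :
    ∀ (d : ℕ) (W : Submodule F V), finrank F W ≤ d →
      (∀ u ∈ U, ∀ w ∈ W, (u : Module.End F V) w ∈ W) →
      ∃ w ∈ W, ∀ u ∈ U, (u : Module.End F V) w = w → ∀ x ∈ W, (u : Module.End F V) x = x := by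
  intro d
  induction d with
  | zero =>
    intro W hW _
    have hW' : W = ⊥ := Submodule.finrank_eq_zero.mp (by omega)
    subst hW'
    exact ⟨0, Submodule.zero_mem _, fun u _ _ x hx => by rw [(Submodule.mem_bot F).mp hx]; simp⟩
  | succ d ih =>
    intro W hW hinv
    by_cases h : ∃ u ∈ U, (∃ x ∈ W, (u : Module.End F V) x ≠ x) ∧
        (∃ w ∈ W, w ≠ 0 ∧ (u : Module.End F V) w = w)
    · obtain ⟨u, huU, ⟨x₀, hx₀W, hx₀⟩, ⟨w₀, hw₀W, hw₀ne, hw₀⟩⟩ := h
      set uu : Module.End F V := (u : Module.End F V) with huu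
      have hum : uu ^ m = 1 := by
        have h1 := hpow u huU
        rw [huu, ← Units.val_pow_eq_pow_val, h1, Units.val_one]
      set e := avg m uu with he
      have hue : ∀ v, uu (e v) = e v := fun v => by
        have h1 := mul_avg m uu hum
        calc uu (e v) = (uu * e) v := rfl
          _ = e v := by rw [he, h1]
      have hefix : ∀ v, uu v = v → e v = v := fun v hv => avg_apply_of_fixed m hm uu v hv
      have hee : ∀ v, e (e v) = e v := fun v => hefix _ (hue v)
      have hecomm : ∀ u' ∈ U, ∀ v, (u' : Module.End F V) (e v) = e ((u' : Module.End F V) v) := by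
        intro u' hu' v
        have hc : Commute (u' : Module.End F V) uu := by
          have h1 := hcomm u' hu' u huU
          show (u' : Module.End F V) * uu = uu * (u' : Module.End F V)
          rw [huu, ← Units.val_mul, ← Units.val_mul, h1]
        have hc2 : Commute (u' : Module.End F V) e := avg_commute m hc
        exact congrArg (fun t : Module.End F V => t v) hc2.eq
      have heW : ∀ w ∈ W, e w ∈ W := avg_mem m uu W (fun w hw => hinv u huU w hw)
      set W1 : Submodule F V := W ⊓ LinearMap.ker (uu - 1) with hW1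
      set W2 : Submodule F V := W ⊓ LinearMap.ker e with hW2
      have mem1 : ∀ v, v ∈ W1 ↔ v ∈ W ∧ uu v = v := by
        intro v; simp [hW1, sub_eq_zero]
      have mem2 : ∀ v, v ∈ W2 ↔ v ∈ W ∧ e v = 0 := by intro v; simp [hW2]
      have hlt1 : W1 < W := by
        refine lt_of_le_of_ne inf_le_left ?_
        intro heq
        have h1 : x₀ ∈ W1 := by rw [heq]; exact hx₀W
        exact hx₀ ((mem1 x₀).mp h1).2
      have hlt2 : W2 < W := by
        refine lt_of_le_of_ne inf_le_left ?_
        intro heq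
        have h1 : w₀ ∈ W2 := by rw [heq]; exact hw₀W
        have h0 := ((mem2 w₀).mp h1).2
        rw [hefix w₀ hw₀] at h0
        exact hw₀ne h0
      have hd1 : finrank F W1 ≤ d := by
        have h1 := Submodule.finrank_lt_finrank_of_lt hlt1; omega
      have hd2 : finrank F W2 ≤ d := by
        have h1 := Submodule.finrank_lt_finrank_of_lt hlt2; omega
      have hinv1 : ∀ u' ∈ U, ∀ w ∈ W1, (u' : Module.End F V) w ∈ W1 := by
        intro u' hu' w hw
        rw [mem1] at hw ⊢
        refine ⟨hinv u' hu' w hw.1, ?_⟩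
        have h1 := hcomm u huU u' hu'
        calc uu ((u' : Module.End F V) w) = ((u * u' : (Module.End F V)ˣ) : Module.End F V) w := rfl
          _ = ((u' * u : (Module.End F V)ˣ) : Module.End F V) w := by rw [h1]
          _ = (u' : Module.End F V) (uu w) := rfl
          _ = (u' : Module.End F V) w := by rw [hw.2]
      have hinv2 : ∀ u' ∈ U, ∀ w ∈ W2, (u' : Module.End F V) w ∈ W2 := by
        intro u' hu' w hw
        rw [mem2] at hw ⊢
        refine ⟨hinv u' hu' w hw.1, ?_⟩
        rw [← hecomm u' hu' w, hw.2, map_zero]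
      obtain ⟨w1, hw1, h1⟩ := ih W1 hd1 hinv1
      obtain ⟨w2, hw2, h2⟩ := ih W2 hd2 hinv2
      refine ⟨w1 + w2, W.add_mem ((mem1 w1).mp hw1).1 ((mem2 w2).mp hw2).1, ?_⟩
      intro u' hu' hfix x hx
      have ha : (u' : Module.End F V) w1 - w1 ∈ W1 := W1.sub_mem (hinv1 u' hu' w1 hw1) hw1
      have hb : w2 - (u' : Module.End F V) w2 ∈ W2 := W2.sub_mem hw2 (hinv2 u' hu' w2 hw2)
      have hab : (u' : Module.End F V) w1 - w1 = w2 - (u' : Module.End F V) w2 := by
        rw [map_add] at hfix
        rw [sub_eq_sub_iff_add_eq_add, hfix, add_comm]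
      have hz : (u' : Module.End F V) w1 - w1 = 0 := by
        have h3 := (mem1 _).mp ha
        have h4 := (mem2 _).mp (hab ▸ hb)
        rw [← hefix _ h3.2]; exact h4.2
      have hfix1 : (u' : Module.End F V) w1 = w1 := sub_eq_zero.mp hz
      have hfix2 : (u' : Module.End F V) w2 = w2 := by
        rw [hz] at hab; exact (sub_eq_zero.mp hab.symm).symm
      have hx1 : e x ∈ W1 := (mem1 _).mpr ⟨heW x hx, hue x⟩
      have hx2 : x - e x ∈ W2 :=
        (mem2 _).mpr ⟨W.sub_mem hx (heW x hx), by rw [map_sub, hee, sub_self]⟩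
      have h5 := h1 u' hu' hfix1 (e x) hx1
      have h6 := h2 u' hu' hfix2 (x - e x) hx2
      calc (u' : Module.End F V) x = (u' : Module.End F V) (e x + (x - e x)) := by
            congr 1; abel
        _ = e x + (x - e x) := by rw [map_add, h5, h6]
        _ = x := by abel
    · by_cases hW0 : W = ⊥
      · subst hW0
        exact ⟨0, Submodule.zero_mem _, fun u _ _ x hx => by rw [(Submodule.mem_bot F).mp hx]; simp⟩
      · obtain ⟨w, hwW, hwne⟩ := Submodule.exists_mem_ne_zero_of_ne_bot hW0
        refine ⟨w, hwW, fun u hu hfix x hx => ?_⟩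
        by_contra hne
        exact h ⟨u, hu, ⟨x, hx, hne⟩, ⟨w, hwW, hwne, hfix⟩⟩

end regular

theorem exists_algHom_injective {F K R : Type*} [Field F] [Field K] [Algebra F K] [Finite K]
    [Ring R] [Algebra F R] [Finite R] [Nontrivial R]
    (hcomm : ∀ a b : R, a * b = b * a) (hdom : ∀ a b : R, a * b = 0 → a = 0 ∨ b = 0)
    (h : Module.finrank F K = Module.finrank F R) :
    ∃ σ : K →ₐ[F] R, Function.Injective σ := by
  classical
  cases nonempty_fintype R
  let _ : CommRing R := { ‹Ring R› with mul_comm := hcomm }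
  have : NoZeroDivisors R := ⟨fun {a b} hab => hdom a b hab⟩
  have : IsDomain R := NoZeroDivisors.to_isDomain R
  let _ : Field R := Fintype.fieldOfDomain R
  obtain ⟨σ⟩ := FiniteField.nonempty_algHom_of_finrank_dvd (F := F) (K := K) (L := R) (by rw [h])
  exact ⟨σ, σ.injective⟩

/-- Let F ⊆ K be finite fields with |F| = q and [K : F] = n ≥ 2, regard K as an n-dimensional F-vector space, and let M ≤ GL_F(K) be the Singer group of multiplications by non-zero elements of K (cyclic of order q^n − 1). Assume (n, q) ≠ (6, 2), and that it is not the case that n = 2 with q a prime such that q + 1 is a power of 2. Then every abelian subgroup of GL_F(K) of order q^n − 1 is conjugate to M. -/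
theorem result {F K : Type*} [Field F] [Fintype F] [Field K] [Fintype K] [Algebra F K] (n : ℕ) (hn : 2 ≤ n) (hdim : Module.finrank F K = n)
    (hex1 : ¬ (n = 6 ∧ Fintype.card F = 2))
    (hex2 : ¬ (n = 2 ∧ (Fintype.card F).Prime ∧ ∃ a : ℕ, Fintype.card F + 1 = 2 ^ a))
    (U : Subgroup (Module.End F K)ˣ) (hU : IsMulCommutative U) (hcard : Nat.card U = Fintype.card K - 1) :
    ∃ g : (Module.End F K)ˣ, U.map (MulAut.conj g).toMonoidHom = (Units.map ((Algebra.lmul F K : K →ₐ[F] Module.End F K) : K →* Module.End F K)).range := by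
  classical
  have hKcard : Fintype.card K = Fintype.card F ^ n := by
    rw [← hdim]; exact Module.card_eq_pow_finrank
  have hF2 : 2 ≤ Fintype.card F := Fintype.one_lt_card
  have hK4 : 4 ≤ Fintype.card K := by
    rw [hKcard]
    calc 4 = 2 ^ 2 := by norm_num
      _ ≤ Fintype.card F ^ 2 := Nat.pow_le_pow_left hF2 2
      _ ≤ Fintype.card F ^ n := Nat.pow_le_pow_right (by omega) hn
  set m := Fintype.card K - 1 with hm
  have hmF : (m : F) ≠ 0 := by
    have h1 : ((Fintype.card K : ℕ) : F) = 0 := by
      rw [hKcard, Nat.cast_pow, FiniteField.cast_card_eq_zero, zero_pow (by omega)]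
    have h2 : (m : F) + 1 = 0 := by
      have h3 : m + 1 = Fintype.card K := by omega
      rw [← h1, ← h3]; push_cast; ring
    have h3 : (m : F) = -1 := eq_neg_of_add_eq_zero_left h2
    rw [h3]; exact neg_ne_zero.mpr one_ne_zero
  have hcomm : ∀ a ∈ U, ∀ b ∈ U, a * b = b * a := by
    intro a ha b hb
    have h1 := hU.is_comm.comm ⟨a, ha⟩ ⟨b, hb⟩
    exact congrArg Subtype.val h1
  have hpow : ∀ u ∈ U, u ^ m = 1 := by
    intro u hu
    have h1 : (⟨u, hu⟩ : U) ^ Nat.card U = 1 := pow_card_eq_one'
    rw [hcard] at h1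
    exact congrArg Subtype.val h1
  obtain ⟨v₀, -, hv₀⟩ := exists_regular U hcomm m hmF hpow (finrank F K) ⊤
    (by rw [finrank_top]) (fun _ _ _ _ => trivial)
  have hreg : ∀ u ∈ U, (u : Module.End F K) v₀ = v₀ → u = 1 := by
    intro u hu hfix
    apply Units.ext
    apply LinearMap.ext
    intro x
    simpa using hv₀ u hu hfix x trivial
  have hv₀ne : v₀ ≠ 0 := by
    intro h0
    have hU1 : ∀ u ∈ U, u = 1 := fun u hu => hreg u hu (by rw [h0, map_zero])
    have h1 : U = ⊥ := (Subgroup.eq_bot_iff_forall U).mpr hU1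
    have h2 : Nat.card U = 1 := by rw [h1]; simp
    omega
  have hinj : ∀ u₁ ∈ U, ∀ u₂ ∈ U,
      (u₁ : Module.End F K) v₀ = (u₂ : Module.End F K) v₀ → u₁ = u₂ := by
    intro u₁ h₁ u₂ h₂ h
    have h1 : u₂⁻¹ * u₁ = 1 := hreg _ (U.mul_mem (U.inv_mem h₂) h₁) (by
      rw [Units.val_mul, Module.End.mul_apply, h, ← Module.End.mul_apply, ← Units.val_mul,
        inv_mul_cancel]; simp)
    exact (inv_mul_eq_one.mp h1).symm
  have hunit_inj : ∀ u : (Module.End F K)ˣ, Function.Injective (u : Module.End F K) := fun u =>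
    ((Module.End.isUnit_iff _).mp u.isUnit).injective
  have hsurj : ∀ v : K, v ≠ 0 → ∃ u ∈ U, (u : Module.End F K) v₀ = v := by
    let φ : U → {v : K // v ≠ 0} := fun u =>
      ⟨(u.1 : Module.End F K) v₀, fun h => hv₀ne (hunit_inj u.1 (by rw [h, map_zero]))⟩
    have hφ : Function.Injective φ := by
      intro a b hab
      apply Subtype.ext
      exact hinj a.1 a.2 b.1 b.2 (congrArg Subtype.val hab)
    have hc : Nat.card {v : K // v ≠ 0} ≤ Nat.card U := by
      rw [hcard, Nat.card_eq_fintype_card, Fintype.card_subtype_compl, Fintype.card_subtype_eq]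
    have hb := hφ.bijective_of_nat_card_le hc
    intro v hv
    obtain ⟨u, hu⟩ := hb.2 ⟨v, hv⟩
    exact ⟨u.1, u.2, congrArg Subtype.val hu⟩
  set S : Set (Module.End F K) := {a | ∃ u ∈ U, (u : Module.End F K) = a} with hS
  have hScomm : ∀ a ∈ S, ∀ b ∈ S, a * b = b * a := by
    rintro _ ⟨u, hu, rfl⟩ _ ⟨w, hw, rfl⟩
    rw [← Units.val_mul, ← Units.val_mul, hcomm u hu w hw]
  set A := Algebra.adjoin F S with hA
  have hAcomm : ∀ a ∈ A, ∀ b ∈ A, a * b = b * a := by
    have h1 := Algebra.isMulCommutative_adjoin F hScomm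
    intro a ha b hb
    exact congrArg Subtype.val (h1.is_comm.comm ⟨a, ha⟩ ⟨b, hb⟩)
  have hUA : ∀ u ∈ U, (u : Module.End F K) ∈ A := fun u hu => Algebra.subset_adjoin ⟨u, hu, rfl⟩
  have hkill : ∀ a ∈ A, a v₀ = 0 → a = 0 := by
    intro a ha h0
    apply LinearMap.ext
    intro v
    by_cases hv : v = 0
    · simp [hv]
    · obtain ⟨u, hu, rfl⟩ := hsurj v hv
      have h1 := hAcomm a ha _ (hUA u hu)
      calc a ((u : Module.End F K) v₀) = (a * (u : Module.End F K)) v₀ := rfl
        _ = ((u : Module.End F K) * a) v₀ := by rw [h1]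
        _ = (u : Module.End F K) (a v₀) := rfl
        _ = 0 := by rw [h0, map_zero]
  have hAinj : ∀ a ∈ A, a ≠ 0 → ∀ v, a v = 0 → v = 0 := by
    intro a ha hane v hav
    by_contra hv
    obtain ⟨u, hu, rfl⟩ := hsurj v hv
    have h1 : a * (u : Module.End F K) = 0 := hkill _ (A.mul_mem ha (hUA u hu)) hav
    apply hane
    have h2 : a * (u : Module.End F K) * ((u⁻¹ : (Module.End F K)ˣ) : Module.End F K) = 0 := by
      rw [h1, zero_mul]
    rwa [mul_assoc, ← Units.val_mul, mul_inv_cancel, Units.val_one, mul_one] at h2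
  -- evaluation at v₀
  let ev : A →ₗ[F] K :=
    { toFun := fun a => (a : Module.End F K) v₀
      map_add' := fun a b => by simp
      map_smul' := fun c a => by simp }
  have hev_inj : Function.Injective ev := by
    intro a b hab
    have h0 : (a : Module.End F K) v₀ = (b : Module.End F K) v₀ := hab
    have h1 : ((a : Module.End F K) - (b : Module.End F K)) v₀ = 0 := by
      rw [LinearMap.sub_apply, h0, sub_self]
    have h2 := hkill _ (A.sub_mem a.2 b.2) h1
    exact Subtype.ext (sub_eq_zero.mp h2)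
  have hev_surj : Function.Surjective ev := by
    intro v
    by_cases hv : v = 0
    · exact ⟨0, by simp [hv]⟩
    · obtain ⟨u, hu, rfl⟩ := hsurj v hv
      exact ⟨⟨_, hUA u hu⟩, rfl⟩
  have hfr : Module.finrank F K = Module.finrank F A :=
    (LinearEquiv.ofBijective ev ⟨hev_inj, hev_surj⟩).finrank_eq.symm
  have hfinEnd : Finite (Module.End F K) := Finite.of_injective (fun f : Module.End F K => (f : K → K))
    DFunLike.coe_injective
  have hntA : Nontrivial A := ⟨⟨0, 1, fun h => by
    have h1 := congrArg (fun a : A => (a : Module.End F K) v₀) h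
    simp at h1
    exact hv₀ne h1.symm⟩⟩
  obtain ⟨σ, hσ⟩ := exists_algHom_injective (F := F) (K := K) (R := A)
    (fun a b => Subtype.ext (hAcomm a.1 a.2 b.1 b.2))
    (fun a b hab => by
      by_cases ha : a = 0
      · exact Or.inl ha
      · right
        apply Subtype.ext
        apply LinearMap.ext
        intro v
        have h1 : (a : Module.End F K) ((b : Module.End F K) v) = 0 := by
          have h2 := congrArg (fun c : A => (c : Module.End F K) v) hab
          simpa using h2
        have h3 := hAinj a.1 a.2 (fun h => ha (Subtype.ext h)) _ h1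
        simpa using h3)
    hfr
  let g : K →ₗ[F] K :=
    { toFun := fun x => ((σ x : A) : Module.End F K) v₀
      map_add' := fun x y => by simp
      map_smul' := fun c x => by simp }
  have hg_inj : Function.Injective g := by
    intro x y hxy
    have h0 : ((σ x : A) : Module.End F K) v₀ = ((σ y : A) : Module.End F K) v₀ := hxy
    have h1 : (((σ x : A) : Module.End F K) - ((σ y : A) : Module.End F K)) v₀ = 0 := by
      rw [LinearMap.sub_apply, h0, sub_self]
    have h2 := hkill _ (A.sub_mem (σ x).2 (σ y).2) h1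
    exact hσ (Subtype.ext (sub_eq_zero.mp h2))
  have hg_surj : Function.Surjective g := LinearMap.surjective_of_injective hg_inj
  let G : (Module.End F K)ˣ :=
    LinearMap.GeneralLinearGroup.ofLinearEquiv (LinearEquiv.ofBijective g ⟨hg_inj, hg_surj⟩)
  have hG : ∀ x, (G : Module.End F K) x = g x := fun x => rfl
  have hinter : ∀ y x : K, g (y * x) = ((σ y : A) : Module.End F K) (g x) := by
    intro y x
    show ((σ (y * x) : A) : Module.End F K) v₀
      = ((σ y : A) : Module.End F K) (((σ x : A) : Module.End F K) v₀)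
    rw [map_mul]; rfl
  have hconj : ∀ (u : (Module.End F K)ˣ) (y : Kˣ), ((σ (y : K) : A) : Module.End F K) = u →
      (MulAut.conj G⁻¹) u
        = Units.map ((Algebra.lmul F K : K →ₐ[F] Module.End F K) : K →* Module.End F K) y := by
    intro u y huy
    rw [MulAut.conj_apply, inv_inv, mul_assoc, inv_mul_eq_iff_eq_mul]
    apply Units.ext
    apply LinearMap.ext
    intro x
    simp only [Units.val_mul, Module.End.mul_apply, Units.coe_map, MonoidHom.coe_coe]
    rw [hG, hG, ← huy]
    exact (hinter y x).symm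
  have hσU : ∀ y : K, y ≠ 0 → ∃ u ∈ U, ((σ y : A) : Module.End F K) = (u : Module.End F K) := by
    intro y hyne
    have hne : ((σ y : A) : Module.End F K) v₀ ≠ 0 := by
      intro h0
      have h1 : σ y = 0 := Subtype.ext (hkill _ (σ y).2 h0)
      exact hyne (hσ (by rw [h1, map_zero]))
    obtain ⟨u, hu, huy⟩ := hsurj _ hne
    refine ⟨u, hu, ?_⟩
    have h1 : (((σ y : A) : Module.End F K) - (u : Module.End F K)) v₀ = 0 := by
      rw [LinearMap.sub_apply, huy, sub_self]
    exact sub_eq_zero.mp (hkill _ (A.sub_mem (σ y).2 (hUA u hu)) h1)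
  refine ⟨G⁻¹, ?_⟩
  apply le_antisymm
  · rintro _ ⟨u, hu, rfl⟩
    obtain ⟨y, hy⟩ := hg_surj ((u : Module.End F K) v₀)
    have hyne : y ≠ 0 := by
      intro h0
      rw [h0, map_zero] at hy
      exact hv₀ne (hunit_inj u (by rw [← hy, map_zero]))
    obtain ⟨u', hu', hu'y⟩ := hσU y hyne
    have huu' : u' = u := by
      apply hinj u' hu' u hu
      rw [← hu'y, ← hy]; rfl
    subst huu'
    exact ⟨Units.mk0 y hyne, (hconj u' (Units.mk0 y hyne) hu'y).symm⟩
  · rintro _ ⟨y, rfl⟩
    obtain ⟨u, hu, huy⟩ := hσU (y : K) y.ne_zero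
    exact ⟨u, hu, hconj u y huy⟩

end Cfsg.Agent.S5947
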